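import Cfsg.Statements.S0608
import Cfsg.Agent.Lib.Factorize

set_option autoImplicit false
open Cfsg

namespace Cfsg.Agent.S0608

open Subgroup Cfsg.Agent.Lib.ThompsonJ Cfsg.Agent.Lib.RelSylow Cfsg.Agent.Lib.Factorize

theorem supZ_normal {G : Type*} [Group G] [Finite G] {p : ℕ} [Fact p.Prime] :
    (⨆ S : Sylow p G, Z0 p (S : Subgroup G)).Normal := by
  refine ⟨?_⟩
  intro n hn g
  have h1 : (⨆ S : Sylow p G, Z0 p (S : Subgroup G)).map (MulAut.conj g).toMonoidHom ≤
      ⨆ S : Sylow p G, Z0 p (S : Subgroup G) := by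
    rw [Subgroup.map_iSup]
    apply iSup_le
    intro S
    rw [← Z0_conj]
    exact le_iSup (fun S : Sylow p G => Z0 p (S : Subgroup G)) (g • S)
  exact h1 ⟨n, hn, rfl⟩

/-- With trivial p'-core, Thompson factorizability is equivalent to J(G) centralizing the subgroup generated by all Ω₁(Z(S)), S Sylow. -/
theorem result {G : Type*} [Group G] [Finite G] {p : ℕ} [Fact p.Prime] (hO : Cfsg.pPrimeCore p G = ⊥) : Cfsg.IsThompsonFactorizable p G ↔ Cfsg.thompsonSubgroup p G ≤ Subgroup.centralizer ((⨆ S : Sylow p G, Cfsg.omegaOne p (((S : Subgroup G)) ⊓ Subgroup.centralizer ((S : Subgroup G) : Set G)) : Subgroup G) : Set G) := by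
  have hV : (⨆ S : Sylow p G, Z0 p (S : Subgroup G)).Normal := supZ_normal
  constructor
  · intro h
    rw [thompsonSubgroup_eq]
    obtain ⟨S⟩ : Nonempty (Sylow p G) := inferInstance
    have key : J (Cfsg.IsElementaryAbelian p) (S : Subgroup G) ≤ centralizer ((⨆ S : Sylow p G, Z0 p (S : Subgroup G) : Subgroup G) : Set G) := by
      rw [le_centralizer_iff]
      apply iSup_le
      intro T
      obtain ⟨g, hg⟩ := sylow_conj_exists S T
      obtain ⟨x, hx, c, hc, n, hn, hgc⟩ := h S g⁻¹
      rw [hO, mem_bot] at hx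
      rw [hx, one_mul] at hgc
      rw [thompsonSubgroupOf_eq] at hn
      have hg' : g = n⁻¹ * c⁻¹ := by
        rw [← mul_inv_rev, ← hgc, inv_inv]
      rw [hg, Z0_conj, hg', ← conj_conj]
      have h1 : (Z0 p (S : Subgroup G)).map (MulAut.conj c⁻¹).toMonoidHom = Z0 p (S : Subgroup G) :=
        conj_eq_of_mem_normalizer (centralizer_le_normalizer _ (inv_mem hc))
      rw [h1]
      have h2 : (J (Cfsg.IsElementaryAbelian p) (S : Subgroup G)).map (MulAut.conj n⁻¹).toMonoidHom = J (Cfsg.IsElementaryAbelian p) (S : Subgroup G) :=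
        conj_eq_of_mem_normalizer (inv_mem hn)
      rintro _ ⟨z, hz, rfl⟩
      rw [mem_centralizer_iff]
      intro y hy
      have hy' : y ∈ J (Cfsg.IsElementaryAbelian p) (S : Subgroup G) := hy
      rw [← h2] at hy'
      obtain ⟨w, hw, rfl⟩ := hy'
      have hwS : w ∈ (S : Subgroup G) := J_le hw
      have hcomm := mem_centralizer_iff.1 (Z0_le_centralizer _ hz) w hwS
      rw [← map_mul, ← map_mul, hcomm]
    apply J_le_iff (isSyl_top_iff S)
    intro g _
    have hC : (centralizer ((⨆ S : Sylow p G, Z0 p (S : Subgroup G) : Subgroup G) : Set G)).Normal := inferInstance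
    rintro _ ⟨y, hy, rfl⟩
    exact hC.conj_mem y (key hy) g
  · intro h S g
    rw [thompsonSubgroup_eq] at h
    rw [thompsonSubgroupOf_eq]
    have hC : (centralizer ((⨆ S : Sylow p G, Z0 p (S : Subgroup G) : Subgroup G) : Set G)).Normal := inferInstance
    have hCn : (⊤ : Subgroup G) ≤ normalizer ((centralizer ((⨆ S : Sylow p G, Z0 p (S : Subgroup G) : Subgroup G) : Set G) : Subgroup G) : Set G) := by
      rw [Subgroup.normalizer_eq_top]
    obtain ⟨c, hc, n, hn, hg⟩ := frattini_J (isSyl_top_iff S) (le_top : (centralizer ((⨆ S : Sylow p G, Z0 p (S : Subgroup G) : Subgroup G) : Set G)) ≤ ⊤) hCn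
      ((J_syl_le (isSyl_top_iff S)).trans h) (mem_top g)
    refine ⟨1, one_mem _, c, ?_, n, hn, by rw [one_mul, hg]⟩
    exact centralizer_le (le_iSup (fun S : Sylow p G => Z0 p (S : Subgroup G)) S) hc

end Cfsg.Agent.S0608
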