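import Cfsg.Statements.S4667
import Cfsg.Agent.Lib.BlockPair
import Cfsg.Agent.Lib.NormalPBlk
import Cfsg.Agent.Lib.CharBasic2
-- import your own Cfsg.Agent.* helpers here

set_option autoImplicit false
open Cfsg

namespace Cfsg.Agent.S4667

open Cfsg Cfsg.Agent.Lib Cfsg.Agent.Lib.BlockAlg Cfsg.Agent.Lib.BrauerPairs Cfsg.Agent.Lib.PairAlg
open Cfsg.Agent.Lib.PairMax Cfsg.Agent.Lib.BlkIdem Cfsg.Agent.Lib.NormalPBlk
open Cfsg.Agent.Lib.BlockGA Cfsg.Agent.Lib.BlockIdem Cfsg.Agent.Lib.BlockRing

open Cfsg.Agent.Lib.CharBasic in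
/-- the functional `f ↦ ⟨f, ψ⟩` -/
noncomputable def innerL {G : Type*} [Group G] [Fintype G] (ψ : G → ℂ) : (G → ℂ) →ₗ[ℂ] ℂ where
  toFun f := classInner f ψ
  map_add' f g := classInner_add_left f g ψ
  map_smul' c f := classInner_smul_left c f ψ

theorem pRegularPart_eq {G : Type*} [Group G] (p : ℕ) (χ : G → ℂ) :
    pRegularPart p χ = BlockPair.preg p χ := by
  classical
  funext g
  unfold pRegularPart BlockPair.preg IsPRegular
  by_cases h : p ∣ orderOf g <;> simp [h]

theorem preg_preg {G : Type*} [Group G] (p : ℕ) (χ : G → ℂ) :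
    BlockPair.preg p (BlockPair.preg p χ) = BlockPair.preg p χ := by
  funext g
  unfold BlockPair.preg
  by_cases h : p ∣ orderOf g <;> simp [h]

/-- `f ↦ f°` is linear -/
noncomputable def pregL {G : Type*} [Group G] (p : ℕ) : (G → ℂ) →ₗ[ℂ] (G → ℂ) where
  toFun f := BlockPair.preg p f
  map_add' f g := by
    funext x
    simp only [BlockPair.preg, Pi.add_apply]
    split_ifs <;> simp
  map_smul' c f := by
    funext x
    simp only [BlockPair.preg, Pi.smul_apply, RingHom.id_apply, smul_eq_mul]
    split_ifs <;> simp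


/-- Fix a prime p and a maximal ideal M of the algebraic integers containing p, and a p-block B of the finite group G. The p-regular rank of B (the number of irreducible Brauer characters in B) times the order of G equals the sum over the p-regular elements x of G of Σ_{χ ∈ B} χ(x) χ(x⁻¹) (written with the restriction of χ to p-regular elements, which vanishes at p-singular x). -/
theorem result {G : Type*} [Group G] [Fintype G] (p : ℕ) [Fact p.Prime] (M : Ideal Cfsg.AlgInt) (hM : Cfsg.IsPModular p M) (B : Set (Cfsg.IrrCharacter G)) (hB : Cfsg.IsPBlock M B) : (Nat.card G : ℂ) * (Cfsg.blockRank p B : ℂ) = ∑ x : G, ∑ᶠ χ ∈ B, Cfsg.pRegularPart p (χ : G → ℂ) x * (χ : G → ℂ) x⁻¹ := by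
  classical
  have hMp := BlockRing.isPrime hM
  set W := Submodule.span ℂ ((fun χ : IrrCharacter G => pRegularPart p (χ : G → ℂ)) '' B) with hW
  let E : (G → ℂ) →ₗ[ℂ] (G → ℂ) := ∑ χ ∈ (Set.toFinite B).toFinset,
    (innerL (χ : G → ℂ)).smulRight (BlockPair.preg p (χ : G → ℂ))
  have hE : ∀ f, E f = ∑ χ ∈ (Set.toFinite B).toFinset,
      classInner f (χ : G → ℂ) • BlockPair.preg p (χ : G → ℂ) := by
    intro f
    simp only [E, LinearMap.sum_apply, LinearMap.smulRight_apply]
    rfl
  have hEW : ∀ f, E f ∈ W := by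
    intro f
    rw [hE]
    apply Submodule.sum_mem
    intro χ hχ
    apply Submodule.smul_mem
    apply Submodule.subset_span
    exact ⟨χ, (Set.Finite.mem_toFinset _).mp hχ, pRegularPart_eq p _⟩
  have hE1 : ∀ ψ ∈ B, E (BlockPair.preg p (ψ : G → ℂ)) = BlockPair.preg p (ψ : G → ℂ) := by
    intro ψ hψ
    have hcf : IsClassFunction G (BlockPair.preg p (ψ : G → ℂ)) :=
      BlockPair.isClassFunction_preg ψ.2.isClassFunction
    have h1 : ∑ χ ∈ (Set.toFinite B).toFinset,
        classInner (BlockPair.preg p (ψ : G → ℂ)) (χ : G → ℂ) • (χ : G → ℂ) =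
        BlockPair.preg p (ψ : G → ℂ) := by
      conv_rhs => rw [hcf.expansion]
      apply Finset.sum_subset (Finset.subset_univ _)
      intro χ _ hχ
      have h2 : ¬ SameBlock M (ψ : G → ℂ) (χ : G → ℂ) := by
        intro h
        apply hχ
        rw [Set.Finite.mem_toFinset]
        exact mem_of_sameBlock hB hψ h
      have h3 := BlockPair.pair_eq_zero hM ψ χ h2
      rw [BlockPair.pair_eq_classInner] at h3
      have h4 := (mul_eq_zero.mp h3).resolve_left (Nat.cast_ne_zero.mpr Nat.card_pos.ne')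
      rw [h4, zero_smul]
    rw [hE]
    have h5 := congrArg (pregL p) h1
    rw [map_sum] at h5
    simp only [map_smul] at h5
    have h6 : ∀ f : G → ℂ, pregL p f = BlockPair.preg p f := fun f => rfl
    simp only [h6, preg_preg] at h5
    exact h5
  have hproj : LinearMap.IsProj W E := by
    refine ⟨hEW, ?_⟩
    intro w hw
    rw [hW] at hw
    induction hw using Submodule.span_induction with
    | mem x hx =>
      obtain ⟨ψ, hψ, rfl⟩ := hx
      simp only
      rw [pRegularPart_eq]
      exact hE1 ψ hψ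
    | zero => exact map_zero _
    | add x y _ _ hx hy => rw [map_add, hx, hy]
    | smul c x _ hx => rw [map_smul, hx]
  have htr := hproj.trace
  have hrank : (blockRank p B : ℂ) = LinearMap.trace ℂ (G → ℂ) E := by
    rw [htr]
    rfl
  rw [hrank]
  simp only [E, map_sum, LinearMap.trace_smulRight]
  have h7 : ∀ χ : IrrCharacter G, innerL (χ : G → ℂ) (BlockPair.preg p (χ : G → ℂ)) =
      (Nat.card G : ℂ)⁻¹ * ∑ x : G, pRegularPart p (χ : G → ℂ) x * (χ : G → ℂ) x⁻¹ := by
    intro χ
    show classInner (BlockPair.preg p (χ : G → ℂ)) (χ : G → ℂ) = _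
    rw [CharBasic.classInner_def, pRegularPart_eq]
    congr 1
    apply Finset.sum_congr rfl
    intro x _
    rw [χ.2.inv]
  simp only [h7]
  rw [← Finset.mul_sum, mul_inv_cancel_left₀ (Nat.cast_ne_zero.mpr Nat.card_pos.ne'),
    Finset.sum_comm]
  apply Finset.sum_congr rfl
  intro x _
  rw [finsum_mem_eq_finite_toFinset_sum _ (Set.toFinite _)]

end Cfsg.Agent.S4667
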