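import Cfsg.Statements.S4512
import Cfsg.Agent.Lib.BlockTop
import Cfsg.Agent.Lib.BlockKlein

set_option autoImplicit false
open Cfsg

namespace Cfsg.Agent.S4512

/-- If G is a finite group with a Sylow 2-subgroup that is a Klein four-group and a single conjugacy class of involutions, then its principal 2-block (relative to a maximal ideal M of the algebraic integers containing 2) has 2-regular rank 3: the restrictions of its irreducible characters to the elements of odd order span a space of dimension 3 (it has three irreducible Brauer characters). -/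
theorem result {G : Type*} [Group G] [Finite G] (M : Ideal Cfsg.AlgInt) (hM : Cfsg.IsPModular 2 M) (P : Sylow 2 G)
    (hP : Nat.card P = 4) (hexp : ∀ x : P, x * x = 1)
    (hone : ∀ s t : G, orderOf s = 2 → orderOf t = 2 → IsConj s t) :
    Cfsg.blockRank 2 (Cfsg.principalBlock M G) = 3 := by
  classical
  haveI := Cfsg.Agent.Lib.BlockRing.isPrime hM
  haveI : Fact (Nat.Prime 2) := ⟨Nat.prime_two⟩
  have hKl : IsKleinFour (P : Subgroup G) := by
    refine ⟨hP, ?_⟩
    have hnt : Nontrivial (P : Subgroup G) := by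
      rw [← Finite.one_lt_card_iff_nontrivial]
      show 1 < Nat.card P
      rw [hP]; norm_num
    have h1 : Monoid.exponent (P : Subgroup G) ∣ 2 := by
      apply Monoid.exponent_dvd_of_forall_pow_eq_one
      intro x
      rw [sq]; exact hexp x
    rcases (Nat.dvd_prime Nat.prime_two).1 h1 with h2 | h2
    · exfalso
      rw [Monoid.exp_eq_one_iff] at h2
      exact not_subsingleton _ h2
    · exact h2
  -- an involution of `P`
  obtain ⟨t, ht⟩ : ∃ t : (P : Subgroup G), t ≠ 1 := by
    have hnt : Nontrivial (P : Subgroup G) := by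
      rw [← Finite.one_lt_card_iff_nontrivial]
      show 1 < Nat.card P
      rw [hP]; norm_num
    exact exists_ne 1
  have htG : (t : G) ≠ 1 := fun h => ht (Subtype.ext h)
  have htt : (t : G) * t = 1 := congrArg Subtype.val (hexp t)
  have hord : orderOf (t : G) = 2 := by
    rw [orderOf_eq_prime_iff]
    exact ⟨by rw [sq]; exact htt, htG⟩
  set X : Finset G := {1, (t : G)} with hX
  have hXo : ∀ x ∈ X, ∃ k : ℕ, orderOf x = 2 ^ k := by
    intro x hx
    rw [hX, Finset.mem_insert, Finset.mem_singleton] at hx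
    rcases hx with rfl | rfl
    · exact ⟨0, by simp⟩
    · exact ⟨1, by rw [hord]; norm_num⟩
  have hXrep : ∀ g : G, (∃ k : ℕ, orderOf g = 2 ^ k) → ∃! x, x ∈ X ∧ IsConj g x := by
    rintro g ⟨k, hk⟩
    have hgp : IsPGroup 2 (Subgroup.zpowers g) := by
      apply IsPGroup.of_card (n := k)
      rw [Nat.card_zpowers, hk]
    obtain ⟨Q, hQ⟩ := hgp.exists_le_sylow
    obtain ⟨c, hc⟩ := MulAction.exists_smul_eq G Q P
    have hcg : c * g * c⁻¹ ∈ (P : Subgroup G) := by
      rw [← hc, Sylow.coe_subgroup_smul, Subgroup.mem_pointwise_smul_iff_inv_smul_mem]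
      simp only [← map_inv, MulAut.smul_def, MulAut.conj_apply, inv_inv]
      have h1 : c⁻¹ * (c * g * c⁻¹) * c = g := by group
      rw [h1]
      exact hQ (Subgroup.mem_zpowers g)
    have h2 : c * g * c⁻¹ * (c * g * c⁻¹) = 1 := congrArg Subtype.val (hexp ⟨_, hcg⟩)
    have h3 : g ^ 2 = 1 := by
      have h4 : c * (g * g) * c⁻¹ = 1 := by rw [← h2]; group
      have h5 : g * g = 1 := by
        have := congrArg (fun z => c⁻¹ * z * c) h4
        simpa [mul_assoc] using this
      rw [sq]; exact h5
    by_cases hg1 : g = 1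
    · refine ⟨1, ⟨by simp [hX], by rw [hg1]⟩, ?_⟩
      rintro y ⟨hy, hc'⟩
      rw [hg1] at hc'
      obtain ⟨d, hd⟩ := isConj_iff.1 hc'
      rw [← hd]; group
    · have hg2 : orderOf g = 2 := by
        rw [orderOf_eq_prime_iff]; exact ⟨h3, hg1⟩
      refine ⟨t, ⟨by simp [hX], hone g t hg2 hord⟩, ?_⟩
      rintro y ⟨hy, hc'⟩
      rw [hX, Finset.mem_insert, Finset.mem_singleton] at hy
      rcases hy with rfl | rfl
      · exfalso
        apply hg1
        obtain ⟨d, hd⟩ := isConj_iff.1 hc'.symm
        rw [← hd]; group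
      · rfl
  have hB := Cfsg.Agent.Lib.BlockThird.isPBlock_principal (G := G) (M := M)
  have hcount := Cfsg.Agent.Lib.BlockTop.card_eq_add hM hB X hXo hXrep
  have hXe : X.erase 1 = {(t : G)} := by
    rw [hX]; ext y
    simp only [Finset.mem_erase, Finset.mem_insert, Finset.mem_singleton]
    constructor
    · rintro ⟨h1, h2 | h2⟩
      · exact absurd h2 h1
      · exact h2
    · rintro rfl; exact ⟨htG, Or.inr rfl⟩
  rw [hXe, Finset.sum_singleton, Cfsg.Agent.Lib.BlockTop.induced_principal_set hM (u := (t : G)) (k := 1)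
    (by rw [hord]; norm_num), finsum_mem_singleton] at hcount
  have hmem : ∀ g, g ∈ Subgroup.centralizer ({(t : G)} : Set G) ↔ Commute (t : G) g := by
    intro g
    rw [Subgroup.mem_centralizer_singleton_iff]
    exact ⟨fun h => h.symm, fun h => h.symm⟩
  obtain ⟨N, hN, hN2, hNi⟩ := Cfsg.Agent.Lib.BlockKlein.klein_complement P hKl t.2 htG hmem
  haveI := hN
  rw [Cfsg.Agent.Lib.BlockTop.blockRank_principal_of_complement hM hN2 hNi] at hcount
  obtain ⟨a, z2, z3, z4, -, -, -, ⟨h12, h13, h14, h23, h24, h34⟩, hfin, -⟩ :=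
    Cfsg.Agent.Lib.BlockKlein.klein_block hM P hKl hone
  have hk : Nat.card ↥(Cfsg.principalBlock M G) = 4 := by
    rw [Nat.card_coe_set_eq, Set.ncard_eq_toFinset_card _ (Set.toFinite _), hfin,
      Finset.card_insert_of_notMem (by simp [h12, h13, h14]),
      Finset.card_insert_of_notMem (by simp [h23, h24]), Finset.card_insert_of_notMem (by simp [h34]),
      Finset.card_singleton]
  omega

end Cfsg.Agent.S4512
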