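import Mathlib
import Cfsg.Statements.S0802
import Cfsg.Agent.Lib.MobOct
import Cfsg.Agent.Lib.FFTower

set_option autoImplicit false

namespace Cfsg.Agent.S0802

open Cfsg.Agent.Lib Cfsg.Agent.Lib.MobCount Cfsg.Agent.Lib.MobQuat Cfsg.Agent.Lib.MobOct
open scoped MatrixGroups

theorem card_A4 : Nat.card (alternatingGroup (Fin 4)) = 12 := by
  have := two_mul_nat_card_alternatingGroup (α := Fin 4)
  rw [Nat.card_perm, Nat.card_fin] at this
  have h5 : Nat.factorial 4 = 24 := rfl
  rw [h5] at this
  omega

theorem exists_alt_four_five : ∃ f : alternatingGroup (Fin 4) →* alternatingGroup (Fin 5), Function.Injective f := by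
  let s : Finset (Fin 5) := {0, 1, 2, 3}
  have e : Fin 4 ≃ s := Fintype.equivOfCardEq (by rw [Fintype.card_coe, Fintype.card_fin]; rfl)
  obtain ⟨e'⟩ := ClSmall.alternating_congr e
  exact ⟨(alternatingGroup.ofSubtype s).comp e'.toMonoidHom, alternatingGroup.ofSubtype_injective.comp e'.injective⟩

theorem result {F : Type*} [Field F] [Fintype F] (p n : ℕ) [Fact p.Prime] [CharP F p] (hF : Fintype.card F = p ^ n) : (∃ H : Subgroup (Matrix.ProjectiveSpecialLinearGroup (Fin 2) F), Nonempty (H ≃* alternatingGroup (Fin 4))) ↔ ¬ (p = 2 ∧ Odd n) := by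
  classical
  constructor
  · rintro ⟨H, ⟨e⟩⟩ ⟨hp2, hn⟩
    subst hp2
    have h12 : Nat.card H = 12 := by rw [Nat.card_congr e.toEquiv, card_A4]
    have hq2 := two_le_q hF
    have hgcd : Nat.gcd 2 (2 ^ n - 1) = 1 := by
      rcases gcd_cases (F := F) hF 2 with h | h
      · exact h.2.2
      · exact absurd rfl h.1
    have hP := card_P2 (F := F) hF
    rw [hgcd, one_mul] at hP
    -- `3 ∤ 2^n - 1`
    have h3 : ¬ 3 ∣ 2 ^ n - 1 := by
      obtain ⟨m, hm⟩ := hn
      intro h
      have h4 : 2 ^ n % 3 = 2 := by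
        rw [hm, pow_add, pow_mul, Nat.mul_mod, Nat.pow_mod]
        norm_num
      omega
    have hsmall : ∀ m : ℕ, m * (m ^ 2 - 1) ≠ 12 := by
      intro m hm
      have hm4 : m < 4 := by
        by_contra hge
        push Not at hge
        have : 4 ^ 2 ≤ m ^ 2 := Nat.pow_le_pow_left hge 2
        have : 4 * 15 ≤ m * (m ^ 2 - 1) := Nat.mul_le_mul hge (by omega)
        omega
      interval_cases m <;> omega
    have htop : H ≠ ⊤ := by
      intro h
      rw [h, Nat.card_congr (Subgroup.topEquiv (G := P2 F)).toEquiv, hP] at h12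
      exact hsmall _ h12
    rcases psl_cases hF 2 H htop with ⟨_, h, _⟩ | ⟨C, _, _, h, hc, _⟩ | ⟨h, _⟩ | ⟨h, _⟩ | ⟨_, h, _⟩ | ⟨_, x, hx⟩ | ⟨g, k, m, hm, hkm, h⟩
    · rw [h12] at h; exact h (by norm_num)
    · rw [h12] at hc
      have : Nat.card C = 6 := by omega
      rw [this] at h; exact h (by norm_num)
    · rw [h12] at h; exact h (by norm_num)
    · rw [h12] at h; exact h (by norm_num)
    · omega
    · have h1 := card_stab hF x
      rw [hgcd, one_mul] at h1
      have h2 : Nat.card H ∣ Nat.card (MulAction.stabilizer (P2 F) x) := Subgroup.card_dvd_of_le hx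
      rw [h12, h1] at h2
      have h4 : 3 ∣ 2 ^ n * (2 ^ n - 1) := (by norm_num : (3:ℕ) ∣ 12).trans h2
      rcases (Nat.Prime.dvd_mul Nat.prime_three).mp h4 with h | h
      · have := Nat.prime_three.dvd_of_dvd_pow h
        omega
      · exact h3 h
    · have hck : Fintype.card k = Nat.card k := Nat.card_eq_fintype_card.symm
      have hchk : CharP k 2 := (algebraMap k F).charP (algebraMap k F).injective 2
      rcases h with h | h
      · have h1 := card_of_range_psl H g k h
        have h2 := card_P2 (F := k) hck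
        have hg2 : Nat.gcd 2 (Nat.card k - 1) = 1 := by
          rcases gcd_cases (F := k) hck 2 with h | h
          · exact h.2.2
          · exact absurd rfl h.1
        rw [hg2, one_mul, ← h1, h12] at h2
        exact hsmall _ h2.symm
      · have h1 := card_of_range_pgl H g k h
        rw [card_G2 hck, h12] at h1
        exact hsmall _ h1.symm
  · intro h
    by_cases hp2 : p = 2
    · subst hp2
      have hne : Even n := by
        rw [← Nat.not_odd_iff_even]
        intro ho; exact h ⟨rfl, ho⟩
      obtain ⟨m, hm⟩ := hne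
      have hq2 := two_le_q hF
      have hm0 : m ≠ 0 := by
        rintro rfl
        rw [hm] at hq2
        norm_num at hq2
      haveI : Fact (Nat.Prime 2) := ⟨Nat.prime_two⟩
      have hK : Nat.card (GaloisField 2 2) = 4 := by
        rw [GaloisField.card 2 2 (by norm_num)]; norm_num
      have : Fintype (GaloisField 2 2) := Fintype.ofFinite _
      rw [Nat.card_eq_fintype_card] at hK
      obtain ⟨alg, _⟩ := FFTower.exists_algebra_of_card (F := GaloisField 2 2) (K := F) (d := m)
        (by rw [hF, hK, hm, ← two_mul, pow_mul]; norm_num) hm0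
      obtain ⟨e5⟩ := ClSmall.psl2_four (F := GaloisField 2 2) hK
      obtain ⟨f, hf⟩ := exists_alt_four_five
      have hle := Cfsg.Agent.S0805.pslMap_le (algebraMap (GaloisField 2 2) F)
      let ψ : alternatingGroup (Fin 4) →* PGL(Fin 2, F) :=
        (pslMap (algebraMap (GaloisField 2 2) F)).comp (e5.symm.toMonoidHom.comp f)
      have hψ : Function.Injective ψ := (pslMap_injective _).comp (e5.symm.injective.comp hf)
      have hle2 : ψ.range ≤ (Matrix.ProjectiveSpecialLinearGroup.toPGL : P2 F →* PGL(Fin 2, F)).range := by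
        refine le_trans ?_ hle
        rintro _ ⟨x, rfl⟩
        exact ⟨_, rfl⟩
      obtain ⟨H, ⟨e⟩⟩ := Cfsg.Agent.S0805.exists_sub _ hle2
      exact ⟨H, ⟨e.trans (MonoidHom.ofInjective hψ).symm⟩⟩
    · apply exists_A4_psl
      intro h20
      have : ((2 : ℕ) : F) = 0 := by exact_mod_cast h20
      rw [CharP.cast_eq_zero_iff F p] at this
      exact hp2 ((Nat.prime_dvd_prime_iff_eq Fact.out Nat.prime_two).mp this)

end Cfsg.Agent.S0802
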