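import Mathlib
import Cfsg.Statements.S0804
import Cfsg.Agent.Lib.MobPlat

set_option autoImplicit false

namespace Cfsg.Agent.S0804

open Cfsg.Agent.Lib Cfsg.Agent.Lib.MobCount Cfsg.Agent.Lib.MobPlat

theorem result {F : Type*} [Field F] [Fintype F] {q : ℕ} (hF : Fintype.card F = q) : (∃ H : Subgroup (Matrix.ProjectiveSpecialLinearGroup (Fin 2) F), Nonempty (H ≃* alternatingGroup (Fin 5))) ↔ 5 ∣ q * (q ^ 2 - 1) := by
  constructor
  · rintro ⟨H, ⟨e⟩⟩
    have h1 : Nat.card H = 60 := by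
      rw [Nat.card_congr e.toEquiv]
      have := two_mul_nat_card_alternatingGroup (α := Fin 5)
      rw [Nat.card_perm, Nat.card_fin] at this
      have h5 : Nat.factorial 5 = 120 := rfl
      rw [h5] at this
      omega
    have h2 : Nat.card H ∣ Nat.card (P2 F) := Subgroup.card_subgroup_dvd_card H
    have h3 := card_P2 (F := F) hF
    rw [← h3]
    rw [h1] at h2
    exact (Dvd.dvd.mul_left ((by norm_num : (5:ℕ) ∣ 60).trans h2) _)
  · intro h
    obtain ⟨t, ht⟩ := exists_golden (F := F) hF h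
    obtain ⟨φ, hφ⟩ := exists_alt5 (F := F) ht
    exact ⟨φ.range, ⟨(MonoidHom.ofInjective hφ).symm⟩⟩

end Cfsg.Agent.S0804
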