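import Cfsg.Statements.S5198
import Cfsg.Agent.Lib.FusionStrong
import Cfsg.Agent.Lib.FusionHyper
import Cfsg.Agent.Lib.FusionPPower

set_option autoImplicit false
open Cfsg

namespace Cfsg.Agent.S5198

open Cfsg Cfsg.FusionSystem
open Cfsg.Agent.Lib.FusionBasic Cfsg.Agent.Lib.FusionSat Cfsg.Agent.Lib.FusionNormal Cfsg.Agent.Lib.FusionStrong
open Cfsg.Agent.Lib.FusionHyper Cfsg.Agent.Lib.FusionPPower

/-- the elements of `S` acting on `T` as elements of a group `M` of automorphisms -/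
def actIn {Ω : Type*} [Group Ω] (S T : Subgroup Ω) (M : Subgroup (MulAut T)) : Subgroup Ω where
  carrier := {x | x ∈ S ∧ ∃ α ∈ M, ∀ t : T, ((α t : T) : Ω) = x * (t : Ω) * x⁻¹}
  one_mem' := ⟨S.one_mem, 1, M.one_mem, fun t => by simp⟩
  mul_mem' := by
    rintro x y ⟨hx, α, hα, h1⟩ ⟨hy, β, hβ, h2⟩
    refine ⟨S.mul_mem hx hy, α * β, M.mul_mem hα hβ, fun t => ?_⟩
    rw [MulAut.mul_apply, h1, h2]; group
  inv_mem' := by
    rintro x ⟨hx, α, hα, h1⟩
    refine ⟨S.inv_mem hx, α⁻¹, M.inv_mem hα, fun t => ?_⟩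
    have h2 := h1 (α⁻¹ t)
    rw [MulAut.apply_inv_self] at h2
    rw [h2]; group

theorem mem_actIn {Ω : Type*} [Group Ω] {S T : Subgroup Ω} {M : Subgroup (MulAut T)} {x : Ω} :
    x ∈ actIn S T M ↔ x ∈ S ∧ ∃ α ∈ M, ∀ t : T, ((α t : T) : Ω) = x * (t : Ω) * x⁻¹ := Iff.rfl

/-- Let F be a saturated fusion system over a finite p-group S and T a subgroup of S strongly closed in F (so T is normal in S). Then every element x of the hyperfocal subgroup of F acts on T by conjugation as an element of O^p(Aut_F(T))·Inn(T): there is an automorphism of T in the subgroup generated by the elements of Aut_F(T) of order prime to p together with the inner automorphisms of T that agrees with conjugation by x. -/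
theorem result {Ω : Type*} [Group Ω] {S : Subgroup Ω} [Finite S] (p : ℕ) [Fact p.Prime] (hS : IsPGroup p S) (F : Cfsg.FusionSystem S) (hF : F.IsSaturated p) (T : Subgroup Ω) (hT : F.StronglyClosed T) : ∀ x ∈ F.hyperfocalSubgroup p, ∃ α ∈ ((Cfsg.pResidual p ↥(F.autGroup T)).map (F.autGroup T).subtype ⊔ Cfsg.Inn ↥T : Subgroup (MulAut ↥T)), ∀ t : ↥T, ((α t : ↥T) : Ω) = x * (t : Ω) * x⁻¹ := by
  classical
  have hp : p.Prime := Fact.out
  have hTS := hT.1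
  have hTn := normalizes_of_stronglyClosed hT
  obtain ⟨M, hMdef⟩ : ∃ M, M = ((Cfsg.pResidual p ↥(F.autGroup T)).map (F.autGroup T).subtype ⊔ Cfsg.Inn ↥T :
    Subgroup (MulAut ↥T)) := ⟨_, rfl⟩
  suffices h : F.hyperfocalSubgroup p ≤ actIn S T M by
    intro x hx
    obtain ⟨-, α, hα, h1⟩ := mem_actIn.1 (h hx)
    exact ⟨α, hMdef ▸ hα, h1⟩
  rw [hyp_eq, Subgroup.closure_le]
  rintro _ ⟨P, α, hP, hα, hc, x, rfl⟩
  have hfinT : Finite T := finite_of_le hTS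
  have hfinP : Finite P := finite_of_le hP
  obtain ⟨g, hg, h1⟩ := exists_map_mod hS hF hT P (autFun α) (fmap_of_autGroup hP hα)
  have hPT : P ⊔ T ≤ S := sup_le hP hTS
  have hgT : ∀ t ∈ T, g t ∈ T := fun t ht => (strong_mem_iff hT hg (Subgroup.mem_sup_right ht)).1 ht
  have hgPT : ∀ y ∈ P ⊔ T, g y ∈ P ⊔ T := by
    have h2 : P ⊔ T ≤ (⟨⟨⟨{y | y ∈ P ⊔ T ∧ g y ∈ P ⊔ T}, fun {a b} ha hb => ⟨Subgroup.mul_mem _ ha.1 hb.1, by
        rw [hg.map_mul ha.1 hb.1]; exact Subgroup.mul_mem _ ha.2 hb.2⟩⟩, ⟨Subgroup.one_mem _, by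
        rw [hg.map_one]; exact Subgroup.one_mem _⟩⟩, fun {a} ha => ⟨Subgroup.inv_mem _ ha.1, by
        rw [hg.map_inv ha.1]; exact Subgroup.inv_mem _ ha.2⟩⟩ : Subgroup Ω) := by
      refine sup_le ?_ ?_
      · intro y hy
        refine ⟨Subgroup.mem_sup_left hy, ?_⟩
        have h3 : g y = autFun α y * ((autFun α y)⁻¹ * g y) := by group
        rw [h3]
        refine Subgroup.mul_mem _ (Subgroup.mem_sup_left ?_) (Subgroup.mem_sup_right (h1 y hy))
        rw [autFun_of_mem α hy]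
        exact (α ⟨y, hy⟩).2
      · intro y hy
        exact ⟨Subgroup.mem_sup_right hy, Subgroup.mem_sup_right (hgT y hy)⟩
    exact fun y hy => (h2 hy).2
  obtain ⟨γ, hγ, hγg⟩ := exists_aut_of_fmap hg hgPT
  have hfinPT : Finite ↥(P ⊔ T) := finite_of_le hPT
  -- powers of γ agree with powers of α modulo T
  have hγT : ∀ t (ht : t ∈ P ⊔ T), t ∈ T → ((γ ⟨t, ht⟩ : ↥(P ⊔ T)) : Ω) ∈ T := by
    intro t ht htT
    rw [hγg]; exact hgT t htT
  have hpow : ∀ (n : ℕ) (y : P), (((α ^ n) y : P) : Ω)⁻¹ *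
      (((γ ^ n) ⟨(y : Ω), Subgroup.mem_sup_left y.2⟩ : ↥(P ⊔ T)) : Ω) ∈ T := by
    intro n
    induction n with
    | zero => intro y; simp
    | succ n ih =>
      intro y
      have e1 : ((α ^ (n + 1)) y : P) = α ((α ^ n) y) := by rw [pow_succ', MulAut.mul_apply]
      have e2 : ((γ ^ (n + 1)) ⟨(y : Ω), Subgroup.mem_sup_left y.2⟩ : ↥(P ⊔ T)) =
        γ ((γ ^ n) ⟨(y : Ω), Subgroup.mem_sup_left y.2⟩) := by rw [pow_succ', MulAut.mul_apply]
      rw [e1, e2]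
      obtain ⟨a, ha⟩ : ∃ a, a = (α ^ n) y := ⟨_, rfl⟩
      obtain ⟨b, hb⟩ : ∃ b, b = (γ ^ n) ⟨(y : Ω), Subgroup.mem_sup_left y.2⟩ := ⟨_, rfl⟩
      have h3 := ih y
      rw [← ha, ← hb] at h3 ⊢
      rw [hγg b]
      have h4 : (b : Ω) = (a : Ω) * ((a : Ω)⁻¹ * b) := by group
      have h5 : g b = g a * g ((a : Ω)⁻¹ * b) := by
        conv_lhs => rw [h4]
        rw [hg.map_mul (Subgroup.mem_sup_left a.2) (Subgroup.mem_sup_right h3)]
      have h6 := h1 (a : Ω) a.2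
      rw [autFun_coe] at h6
      rw [h5]
      have h7 : ((α a : P) : Ω)⁻¹ * (g a * g ((a : Ω)⁻¹ * b)) = (((α a : P) : Ω)⁻¹ * g a) * g ((a : Ω)⁻¹ * b) := by group
      rw [h7]
      exact T.mul_mem h6 (hgT _ h3)
  -- choose a power of γ of p'-order
  obtain ⟨r, hr1, hr2⟩ : ∃ r : ℕ, (orderOf (γ ^ r)).Coprime p ∧ α ^ r = α := by
    have hpos : 0 < orderOf γ := orderOf_pos γ
    obtain ⟨k, m, hm, hkm⟩ := Nat.exists_eq_pow_mul_and_not_dvd hpos.ne' p hp.ne_one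
    have hcop : Nat.Coprime (p ^ k) (orderOf α) := Nat.Coprime.pow_left k hc.symm
    obtain ⟨r, hr1, hr2⟩ := Nat.chineseRemainder hcop 0 1
    refine ⟨r, ?_, ?_⟩
    · have h1 : (γ ^ r) ^ m = 1 := by
        rw [← pow_mul]
        have h2 : p ^ k ∣ r := (Nat.modEq_zero_iff_dvd).1 hr1
        obtain ⟨t, rfl⟩ := h2
        have h3 : p ^ k * t * m = orderOf γ * t := by rw [hkm]; ring
        rw [h3, pow_mul, pow_orderOf_eq_one, one_pow]
      exact Nat.Coprime.coprime_dvd_left (orderOf_dvd_of_pow_eq_one h1) ((Nat.Prime.coprime_iff_not_dvd hp).2 hm).symm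
    · conv_rhs => rw [← pow_one α]
      exact pow_eq_pow_iff_modEq.2 hr2
  obtain ⟨δ, hδ⟩ : ∃ δ, δ = γ ^ r := ⟨_, rfl⟩
  have hδA : δ ∈ F.autGroup (P ⊔ T) := by rw [hδ]; exact Subgroup.pow_mem _ hγ r
  have hx1 := hpow r x
  rw [hr2, ← hδ] at hx1
  rw [← hδ] at hr1
  -- restriction of δ to T
  have hδm : FMap F (P ⊔ T) (autFun δ) := fmap_of_autGroup hPT hδA
  have hδT : ∀ t ∈ T, autFun δ t ∈ T := fun t ht => (strong_mem_iff hT hδm (Subgroup.mem_sup_right ht)).1 ht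
  obtain ⟨β, hβ, hβδ⟩ := exists_aut_of_fmap (hδm.restrict le_sup_right) hδT
  have hβpow : ∀ (n : ℕ) (t : T), (((β ^ n) t : T) : Ω) = (((δ ^ n) ⟨(t : Ω), Subgroup.mem_sup_right t.2⟩ : ↥(P ⊔ T)) : Ω) := by
    intro n
    induction n with
    | zero => intro t; rfl
    | succ n ih =>
      intro t
      rw [pow_succ', MulAut.mul_apply, pow_succ', MulAut.mul_apply, hβδ, ih t, autFun_coe]
  have hβc : (orderOf β).Coprime p := by
    refine Nat.Coprime.coprime_dvd_left (orderOf_dvd_of_pow_eq_one ?_) hr1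
    ext t
    rw [hβpow, pow_orderOf_eq_one]; rfl
  have hβM : (⟨β, hβ⟩ : F.autGroup T) ∈ Cfsg.pResidual p ↥(F.autGroup T) := by
    refine Subgroup.subset_closure ?_
    show (orderOf (⟨β, hβ⟩ : F.autGroup T)).Coprime p
    rw [← Subgroup.orderOf_coe]
    exact hβc
  -- the commutator of `c_x` and `β`
  have hxn : (x : Ω) ∈ Subgroup.normalizer (T : Set Ω) := hTn (hP x.2)
  have hcx : conjAut T (x : Ω) hxn ∈ F.autGroup T := conjAut_mem_autGroup hTS hxn (hP x.2)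
  obtain ⟨κ, hκ⟩ : ∃ κ : F.autGroup T, κ = ⟨conjAut T (x : Ω) hxn, hcx⟩ := ⟨_, rfl⟩
  have hnorm : (Cfsg.pResidual p ↥(F.autGroup T)).Normal := by
    unfold Cfsg.pResidual
    refine ⟨fun a ha b => ?_⟩
    refine Subgroup.closure_induction (p := fun a _ => b * a * b⁻¹ ∈ Subgroup.closure {g : F.autGroup T | Nat.Coprime (orderOf g) p})
      ?_ ?_ ?_ ?_ ha
    · intro a ha
      refine Subgroup.subset_closure ?_
      show (orderOf (b * a * b⁻¹)).Coprime p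
      have : orderOf (b * a * b⁻¹) = orderOf a := by
        have := orderOf_injective (MulAut.conj b).toMonoidHom (MulAut.conj b).injective a
        simpa using this
      rw [this]; exact ha
    · simp
    · intro a c _ _ ha hc
      have : b * (a * c) * b⁻¹ = (b * a * b⁻¹) * (b * c * b⁻¹) := by group
      rw [this]; exact Subgroup.mul_mem _ ha hc
    · intro a _ ha
      have : b * a⁻¹ * b⁻¹ = (b * a * b⁻¹)⁻¹ := by group
      rw [this]; exact Subgroup.inv_mem _ ha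
  have hmem : κ⁻¹ * (⟨β, hβ⟩ * κ * ⟨β, hβ⟩⁻¹) ∈ Cfsg.pResidual p ↥(F.autGroup T) := by
    have h2 : κ⁻¹ * (⟨β, hβ⟩ * κ * ⟨β, hβ⟩⁻¹) = (κ⁻¹ * ⟨β, hβ⟩ * κ⁻¹⁻¹) * (⟨β, hβ⟩ : F.autGroup T)⁻¹ := by group
    rw [h2]
    exact Subgroup.mul_mem _ (hnorm.conj_mem _ hβM _) (Subgroup.inv_mem _ hβM)
  -- `x⁻¹ δ(x)` is in the group
  have hδx : (autFun δ (x : Ω)) ∈ S := hδm.map_mem (Subgroup.mem_sup_left x.2)
  have hmain : (x : Ω)⁻¹ * autFun δ (x : Ω) ∈ actIn S T M := by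
    refine mem_actIn.2 ⟨S.mul_mem (S.inv_mem (hP x.2)) hδx, (κ⁻¹ * (⟨β, hβ⟩ * κ * ⟨β, hβ⟩⁻¹) : F.autGroup T), ?_, ?_⟩
    · rw [hMdef]
      exact Subgroup.mem_sup_left (Subgroup.mem_map_of_mem _ hmem)
    · intro t
      have e1 : ∀ t : T, ((κ : MulAut T) t : Ω) = (x : Ω) * t * (x : Ω)⁻¹ := by
        intro t; rw [hκ]; rfl
      have e2 : ∀ t : T, (((κ : MulAut T)⁻¹ t : T) : Ω) = (x : Ω)⁻¹ * t * (x : Ω) := by
        intro t
        have h3 := e1 ((κ : MulAut T)⁻¹ t)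
        rw [MulAut.apply_inv_self] at h3
        rw [h3]; group
      have e3 : ∀ t : T, ((β t : T) : Ω) = autFun δ (t : Ω) := hβδ
      have e4 : ∀ t : T, autFun δ ((β⁻¹ t : T) : Ω) = t := by
        intro t
        rw [← e3, MulAut.apply_inv_self]
      simp only [Subgroup.coe_mul, Subgroup.coe_inv, MulAut.mul_apply]
      rw [e2, e3, e1]
      have h3 : autFun δ ((x : Ω) * ((β⁻¹ t : T) : Ω) * (x : Ω)⁻¹) = autFun δ x * t * (autFun δ x)⁻¹ := by
        have hxm : (x : Ω) ∈ P ⊔ T := Subgroup.mem_sup_left x.2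
        have htm : ((β⁻¹ t : T) : Ω) ∈ P ⊔ T := Subgroup.mem_sup_right (β⁻¹ t).2
        rw [hδm.map_conj hxm htm, e4]
      rw [h3]; group
  have hlast : (autFun δ (x : Ω))⁻¹ * ((α x : P) : Ω) ∈ actIn S T M := by
    have hxT : (autFun δ (x : Ω))⁻¹ * ((α x : P) : Ω) ∈ T := by
      have h3 : autFun δ (x : Ω) = ((δ ⟨(x : Ω), Subgroup.mem_sup_left x.2⟩ : ↥(P ⊔ T)) : Ω) := autFun_of_mem _ _
      rw [h3]
      have h4 := T.inv_mem hx1
      rw [mul_inv_rev, inv_inv] at h4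
      exact h4
    refine mem_actIn.2 ⟨hTS hxT, MulAut.conj ⟨_, hxT⟩, ?_, fun t => rfl⟩
    rw [hMdef]
    refine Subgroup.mem_sup_right ?_
    exact ⟨_, rfl⟩
  have hfin : (x : Ω)⁻¹ * ((α x : P) : Ω) = ((x : Ω)⁻¹ * autFun δ (x : Ω)) * ((autFun δ (x : Ω))⁻¹ * ((α x : P) : Ω)) := by
    group
  rw [hfin]
  exact Subgroup.mul_mem _ hmain hlast

end Cfsg.Agent.S5198
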