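import Cfsg.Statements.S2588
import Cfsg.Agent.Lib.HermType2
import Cfsg.Agent.Lib.UnSpec
import Cfsg.Agent.Lib.UnitStar

set_option autoImplicit false
open Cfsg

namespace Cfsg.Agent.S2588

open Module Polynomial Cfsg.Agent.Lib.FXMod Cfsg.Agent.Lib.FXType Cfsg.Agent.Lib.GLClass Cfsg.Agent.Lib.PolyStar Cfsg.Agent.Lib.HermAlg
  Cfsg.Agent.Lib.HermType Cfsg.Agent.Lib.HermType2 Cfsg.Agent.Lib

/-- An invertible matrix A over the field with q² elements is conjugate in GL_n(q²) to an element of the general unitary group GU_n(q) (isometries of the Hermitian form Σ u_i v_i^q) if and only if A is similar to the inverse transpose of its entrywise q-th power (A ~ A^(−qT), the image of A under the map sending a matrix to the inverse transpose of its entrywise q-th power — inverse transpose composed with the field automorphism — whose fixed points form GU_n(q)). -/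
theorem result {K : Type*} [Field K] [Fintype K] {q n : ℕ} (hK : Fintype.card K = q ^ 2) (A : GL (Fin n) K) : (∃ B : ↥(Cfsg.GU n K q), IsConj A (B : GL (Fin n) K)) ↔ IsConj (A : Matrix (Fin n) (Fin n) K) (((A : Matrix (Fin n) (Fin n) K).map (fun x : K => x ^ q)).transpose)⁻¹ := by
  classical
  set σ := ClUnitary.frob hK with hσdef
  have hσσ : ∀ x, σ (σ x) = x := ClUnitary.frob_frob hK
  have hmap : ∀ M : Matrix (Fin n) (Fin n) K, M.map (fun x : K => x ^ q) = M.map σ := fun M => rfl
  rw [hmap]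
  have hone : (1 : Matrix (Fin n) (Fin n) K).map σ = 1 := by
    have := map_one (σ.mapMatrix (m := Fin n))
    exact this
  constructor
  · rintro ⟨⟨B, hB⟩, hAB⟩
    have hAB' : IsConj (A : Matrix (Fin n) (Fin n) K) (B : Matrix (Fin n) (Fin n) K) := (isConj_iff_coe A B).mp hAB
    have h1 : UnitStar.st σ (B : Matrix (Fin n) (Fin n) K) * (B : Matrix (Fin n) (Fin n) K) = 1 := (UnitStar.mem_GU_iff σ (fun x => rfl) B).mp hB
    have h2 : (((B : Matrix (Fin n) (Fin n) K).map σ).transpose)⁻¹ = (B : Matrix (Fin n) (Fin n) K) := Matrix.inv_eq_right_inv h1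
    have h3 : IsConj ((((B : Matrix (Fin n) (Fin n) K).map σ).transpose)⁻¹) ((((A : Matrix (Fin n) (Fin n) K).map σ).transpose)⁻¹) := by
      obtain ⟨c, hc⟩ := hAB'
      have hc' : (c : Matrix (Fin n) (Fin n) K) * A = B * c := hc
      have hstu : ∀ M N : Matrix (Fin n) (Fin n) K, M * N = 1 → (N.map σ).transpose * (M.map σ).transpose = 1 := by
        intro M N h
        rw [← Matrix.transpose_mul, ← Matrix.map_mul, h, hone, Matrix.transpose_one]
      have hci : (c : Matrix (Fin n) (Fin n) K) * ((c⁻¹ : (Matrix (Fin n) (Fin n) K)ˣ) : Matrix (Fin n) (Fin n) K) = 1 := Units.mul_inv c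
      have hic : ((c⁻¹ : (Matrix (Fin n) (Fin n) K)ˣ) : Matrix (Fin n) (Fin n) K) * (c : Matrix (Fin n) (Fin n) K) = 1 := Units.inv_mul c
      let u : (Matrix (Fin n) (Fin n) K)ˣ := ⟨((c : Matrix (Fin n) (Fin n) K).map σ).transpose, (((c⁻¹ : (Matrix (Fin n) (Fin n) K)ˣ) : Matrix (Fin n) (Fin n) K).map σ).transpose,
        hstu _ _ hic, hstu _ _ hci⟩
      refine ⟨u, ?_⟩
      show ((c : Matrix (Fin n) (Fin n) K).map σ).transpose * _ = _ * ((c : Matrix (Fin n) (Fin n) K).map σ).transpose
      have h4 : ((A : Matrix (Fin n) (Fin n) K).map σ).transpose * ((c : Matrix (Fin n) (Fin n) K).map σ).transpose =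
          ((c : Matrix (Fin n) (Fin n) K).map σ).transpose * ((B : Matrix (Fin n) (Fin n) K).map σ).transpose := by
        rw [← Matrix.transpose_mul, ← Matrix.map_mul, hc', Matrix.map_mul, Matrix.transpose_mul]
      have hinv : ∀ M : GL (Fin n) K, (((M : Matrix (Fin n) (Fin n) K).map σ).transpose)⁻¹ * ((M : Matrix (Fin n) (Fin n) K).map σ).transpose = 1 ∧
          ((M : Matrix (Fin n) (Fin n) K).map σ).transpose * (((M : Matrix (Fin n) (Fin n) K).map σ).transpose)⁻¹ = 1 := by
        intro M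
        have h5 : IsUnit (((M : Matrix (Fin n) (Fin n) K).map σ).transpose) := by
          refine ⟨⟨((M : Matrix (Fin n) (Fin n) K).map σ).transpose, (((M⁻¹ : GL (Fin n) K) : Matrix (Fin n) (Fin n) K).map σ).transpose, ?_, ?_⟩, rfl⟩
          · exact hstu _ _ (Units.inv_mul M)
          · exact hstu _ _ (Units.mul_inv M)
        have h6 := (Matrix.isUnit_iff_isUnit_det _).mp h5
        exact ⟨Matrix.nonsing_inv_mul _ h6, Matrix.mul_nonsing_inv _ h6⟩
      have hA := hinv A
      have hB := hinv B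
      set As := ((A : Matrix (Fin n) (Fin n) K).map σ).transpose
      set Bs := ((B : Matrix (Fin n) (Fin n) K).map σ).transpose
      set Cs := ((c : Matrix (Fin n) (Fin n) K).map σ).transpose
      calc Cs * Bs⁻¹ = (As⁻¹ * As) * Cs * Bs⁻¹ := by rw [hA.1, Matrix.one_mul]
        _ = As⁻¹ * (As * Cs) * Bs⁻¹ := by simp only [Matrix.mul_assoc]
        _ = As⁻¹ * Cs * (Bs * Bs⁻¹) := by rw [h4]; simp only [Matrix.mul_assoc]
        _ = As⁻¹ * Cs := by rw [hB.2, Matrix.mul_one]
    rw [h2] at h3
    exact hAB'.trans h3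
  · intro hA
    obtain ⟨s, hs⟩ := exists_mtype (A : Matrix (Fin n) (Fin n) K)
    obtain ⟨ω, hω⟩ := UnSpec.exists_ne hK
    have hgood : ∀ d ∈ s, Good d ∧ d.1.coeff 0 ≠ 0 := by
      intro d hd
      refine ⟨hs.good d hd, ?_⟩
      intro h0
      have h1 : X ∣ d.1 := X_dvd_iff.mpr h0
      have hg := hs.good d hd
      have h2 : X = d.1 := eq_of_monic_of_associated monic_X hg.1 (irreducible_X.associated_of_dvd hg.2.1 h1)
      exact hs.isUnit_iff.mp A.isUnit d hd h2.symm
    obtain ⟨V, _, _, h, f, hh, hf, ht⟩ := HReal_of_symm hσσ hω s hgood (by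
      intro p k hp hpi hp0
      rcases Nat.eq_zero_or_pos k with rfl | hk
      · rw [Multiset.count_eq_zero.mpr, Multiset.count_eq_zero.mpr]
        · intro h; exact absurd (hs.good _ h).2.2 (lt_irrefl 0)
        · intro h; exact absurd (hs.good _ h).2.2 (lt_irrefl 0)
      · obtain ⟨k', rfl⟩ : ∃ k', k = k' + 1 := ⟨k - 1, by omega⟩
        exact count_symm hσσ A hs hA p hp hpi hp0 k')
    have hfin := ht.finiteDimensional
    have hdim : finrank K V = n := by
      rw [ht.finrank, hs.card, Fintype.card_fin]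
    obtain ⟨e, he⟩ := UnSpec.exists_standard hK n hh hdim
    let B : Matrix (Fin n) (Fin n) K := LinearMap.toMatrix' (e.toLinearMap ∘ₗ f ∘ₗ e.symm.toLinearMap)
    have hB : ∀ x, B.mulVec x = e (f (e.symm x)) := by
      intro x
      rw [← Matrix.toLin'_apply, Matrix.toLin'_toMatrix']
      rfl
    have hBt : MType B s := by
      refine HasType.ofEquiv ht e.symm ?_
      intro x
      rw [Matrix.mulVecLin_apply, hB, LinearEquiv.symm_apply_apply]
    have hBu : IsUnit B := hBt.isUnit_iff.mpr (hs.isUnit_iff.mp A.isUnit)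
    obtain ⟨g, hg⟩ := hBu
    refine ⟨⟨g, ?_⟩, ?_⟩
    · intro u v
      show Cfsg.hermForm n K q ((g : Matrix (Fin n) (Fin n) K).mulVec u) ((g : Matrix (Fin n) (Fin n) K).mulVec v) = Cfsg.hermForm n K q u v
      rw [hg, hB, hB, he, hf, ← he, LinearEquiv.apply_symm_apply, LinearEquiv.apply_symm_apply]
    · show IsConj A g
      rw [isConj_iff_coe, hg]
      exact hs.isConj hBt

end Cfsg.Agent.S2588
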