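import Cfsg.Statements.S2758
import Cfsg.Agent.Lib.Involve

set_option autoImplicit false
open Cfsg

namespace Cfsg.Agent.S2758

/-- some `2`-element normalises but does not centralise some `p`-subgroup -/
def A (G : Type*) [Group G] (p : ℕ) : Prop :=
  ∃ (x : G) (P : Subgroup G), (∃ k : ℕ, orderOf x = 2 ^ k) ∧ IsPGroup p ↥P ∧
    x ∈ Subgroup.normalizer (P : Set G) ∧ x ∉ Subgroup.centralizer (P : Set G)

/-- some `2`-element inverts some nontrivial `p`-element -/
def B (G : Type*) [Group G] (p : ℕ) : Prop :=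
  ∃ x y : G, (∃ k : ℕ, orderOf x = 2 ^ k) ∧ (∃ k : ℕ, orderOf y = p ^ k) ∧ y ≠ 1 ∧ x * y * x⁻¹ = y⁻¹

theorem orderOf_pow_two_pow {G : Type*} [Group G] {x : G} {k n : ℕ} (h : orderOf x = 2 ^ k) :
    ∃ j, orderOf (x ^ n) = 2 ^ j := by
  have h1 : orderOf (x ^ n) ∣ 2 ^ k := h ▸ orderOf_pow_dvd n
  obtain ⟨j, -, hj⟩ := (Nat.dvd_prime_pow Nat.prime_two).1 h1
  exact ⟨j, hj⟩

theorem A_to_B {G : Type*} [Group G] [Finite G] {p : ℕ} [Fact p.Prime] (h : A G p) : B G p := by
  classical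
  obtain ⟨x, P, ⟨k, hk⟩, hP, hxN, hxC⟩ := h
  have hex : ∃ n : ℕ, x ^ (2 ^ n) ∈ Subgroup.centralizer (P : Set G) :=
    ⟨k, by rw [← hk, pow_orderOf_eq_one]; exact Subgroup.one_mem _⟩
  have h1 := Nat.find_spec hex
  set n := Nat.find hex with hn
  have hn0 : n ≠ 0 := by
    intro h0
    rw [h0, pow_zero, pow_one] at h1
    exact hxC h1
  obtain ⟨m, hm⟩ := Nat.exists_eq_succ_of_ne_zero hn0
  have h2 : x ^ (2 ^ m) ∉ Subgroup.centralizer (P : Set G) := Nat.find_min hex (by omega)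
  rw [hm, pow_succ, pow_mul] at h1
  set w := x ^ (2 ^ m) with hw
  have hwN : w ∈ Subgroup.normalizer (P : Set G) := Subgroup.pow_mem _ hxN _
  have : ∃ u ∈ P, u * w ≠ w * u := by
    by_contra hc
    push Not at hc
    exact h2 (Subgroup.mem_centralizer_iff.2 hc)
  obtain ⟨u, hu, huw⟩ := this
  have hww : u * (w * w) = (w * w) * u := by
    have := Subgroup.mem_centralizer_iff.1 h1 u hu
    rwa [sq] at this
  have hwu : w * u * w⁻¹ ∈ P := (Subgroup.mem_normalizer_iff.1 hwN u).1 hu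
  refine ⟨w, w * u * w⁻¹ * u⁻¹, orderOf_pow_two_pow hk, ?_, ?_, ?_⟩
  · obtain ⟨j, hj⟩ := (IsPGroup.iff_orderOf.1 hP) ⟨_, P.mul_mem hwu (P.inv_mem hu)⟩
    exact ⟨j, by rw [← hj, Subgroup.orderOf_mk]⟩
  · intro h
    apply huw
    rw [mul_inv_eq_one, mul_inv_eq_iff_eq_mul] at h
    exact h.symm
  · have h3 : w * w * u = u * (w * w) := hww.symm
    calc w * (w * u * w⁻¹ * u⁻¹) * w⁻¹ = (w * w * u) * (w * w)⁻¹ * (w * u⁻¹ * w⁻¹) := by group
      _ = (w * u * w⁻¹ * u⁻¹)⁻¹ := by rw [h3]; group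

theorem inv_ne {G : Type*} [Group G] {p : ℕ} (hp : p.Prime) (hp2 : p ≠ 2) {y : G} {k : ℕ}
    (hk : orderOf y = p ^ k) (hy : y ≠ 1) : y⁻¹ ≠ y := by
  intro h
  have h1 : y ^ 2 = 1 := by
    rw [sq]; nth_rewrite 1 [← h]; exact inv_mul_cancel y
  have h2 : orderOf y ∣ 2 := orderOf_dvd_of_pow_eq_one h1
  rw [hk] at h2
  rcases Nat.eq_zero_or_pos k with h0 | h0
  · rw [h0, pow_zero] at hk
    exact hy (orderOf_eq_one_iff.1 hk)
  · have h3 : p ∣ 2 := (dvd_pow_self p h0.ne').trans h2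
    exact hp2 ((Nat.prime_dvd_prime_iff_eq hp Nat.prime_two).1 h3)

theorem B_to_inv' {K : Type*} [Group K] {p : ℕ} [hp : Fact p.Prime] (hp2 : p ≠ 2) (X Y : K)
    (hX : ∃ k, orderOf X = 2 ^ k) (hY : orderOf Y = p) (h : X * Y * X⁻¹ = Y⁻¹)
    (hgen : Subgroup.closure {X, Y} = ⊤) : Cfsg.Involves (DihedralGroup p) K := by
  have hY1 : Y ≠ 1 := by
    rintro rfl
    rw [orderOf_one] at hY
    exact hp.out.one_lt.ne hY
  have hYY : Y⁻¹ ≠ Y := inv_ne hp.out hp2 (k := 1) (by rw [hY, pow_one]) hY1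
  have hcomm : ∀ k : K, k * X ^ 2 = X ^ 2 * k := by
    have : (⊤ : Subgroup K) ≤ Subgroup.centralizer {X ^ 2} := by
      rw [← hgen, Subgroup.closure_le]
      rintro a (rfl | rfl)
      · rw [SetLike.mem_coe, Subgroup.mem_centralizer_singleton_iff]
        rw [← pow_succ, ← pow_succ']
      · rw [SetLike.mem_coe, Subgroup.mem_centralizer_singleton_iff]
        have h1 : X * a = a⁻¹ * X := mul_inv_eq_iff_eq_mul.1 h
        have h2 : X * a⁻¹ = a * X := by
          have := congrArg (fun t => a * t * a⁻¹) h1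
          simp only [mul_assoc, mul_inv_cancel_left] at this
          have h3 := congrArg (fun t => a⁻¹ * (a * (a * t))) this
          simpa [mul_assoc] using congrArg (fun t => t) (show X * a⁻¹ = a * X from by
            have h4 : a * (X * a) = X := by rw [h1]; group
            calc X * a⁻¹ = (a * (X * a)) * a⁻¹ := by rw [h4]
              _ = a * X := by group)
        calc a * X ^ 2 = (a * X) * X := by rw [sq, mul_assoc]
          _ = X * (a⁻¹ * X) := by rw [← h2, mul_assoc]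
          _ = X * (X * a) := by rw [h1]
          _ = X ^ 2 * a := by rw [sq, mul_assoc]
    intro k
    exact Subgroup.mem_centralizer_singleton_iff.1 (this (Subgroup.mem_top k))
  set R : Subgroup K := Subgroup.zpowers (X ^ 2) with hR
  have hRc : R ≤ Subgroup.center K := by
    rw [hR, Subgroup.zpowers_le, Subgroup.mem_center_iff]
    exact hcomm
  have hRn : R.Normal := by
    constructor
    intro r hr g
    have := Subgroup.mem_center_iff.1 (hRc hr) g
    rwa [this, mul_inv_cancel_right]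
  have hsurj := QuotientGroup.mk'_surjective R
  have hs : (QuotientGroup.mk' R X) * (QuotientGroup.mk' R X) = 1 := by
    rw [← map_mul, ← sq]
    exact (QuotientGroup.eq_one_iff _).2 (Subgroup.mem_zpowers _)
  have hy : orderOf (QuotientGroup.mk' R Y) = p := by
    apply orderOf_eq_prime
    · rw [← map_pow, ← hY, pow_orderOf_eq_one, map_one]
    · intro h1
      have h2 : Y ∈ R := (QuotientGroup.eq_one_iff _).1 h1
      have h3 := orderOf_dvd_of_mem_zpowers h2
      obtain ⟨k, hk⟩ := hX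
      have h4 : p ∣ 2 ^ k := by
        rw [hY] at h3
        exact h3.trans (hk ▸ orderOf_pow_dvd 2)
      exact hp2 ((Nat.prime_dvd_prime_iff_eq hp.out Nat.prime_two).1 (hp.out.dvd_of_dvd_pow h4))
  obtain ⟨e⟩ := Cfsg.Agent.Lib.Involve.dihedral_equiv (QuotientGroup.mk' R X) (QuotientGroup.mk' R Y) hs hy
    (by rw [← map_mul, ← map_inv, ← map_mul, h, map_inv])
    (by
      intro h1
      obtain ⟨k, hk⟩ := Subgroup.mem_zpowers_iff.1 h1
      rw [← map_zpow] at hk
      have h2 : (Y ^ k)⁻¹ * X ∈ R := QuotientGroup.eq.1 hk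
      have h3 := Subgroup.mem_center_iff.1 (hRc h2) Y
      apply hYY
      rw [← h]
      have h4 : X = Y ^ k * ((Y ^ k)⁻¹ * X) := by group
      rw [h4]
      calc Y ^ k * ((Y ^ k)⁻¹ * X) * Y * (Y ^ k * ((Y ^ k)⁻¹ * X))⁻¹
          = Y ^ k * (((Y ^ k)⁻¹ * X) * Y) * ((Y ^ k)⁻¹ * X)⁻¹ * (Y ^ k)⁻¹ := by group
        _ = Y ^ k * (Y * ((Y ^ k)⁻¹ * X)) * ((Y ^ k)⁻¹ * X)⁻¹ * (Y ^ k)⁻¹ := by rw [← h3]
        _ = Y := by group)
    (by
      have h1 := congrArg (Subgroup.map (QuotientGroup.mk' R)) hgen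
      rw [MonoidHom.map_closure, Subgroup.map_top_of_surjective _ hsurj, Set.image_pair] at h1
      exact h1)
  exact Cfsg.Agent.Lib.Involve.involves_of_surjective (e.toMonoidHom.comp (QuotientGroup.mk' R))
    (e.surjective.comp hsurj)

theorem B_to_inv {G : Type*} [Group G] [Finite G] {p : ℕ} [hp : Fact p.Prime] (hp2 : p ≠ 2) (h : B G p) :
    Cfsg.Involves (DihedralGroup p) G := by
  obtain ⟨x, y, ⟨k, hk⟩, ⟨j, hj⟩, hy1, hxy⟩ := h
  have hj0 : j ≠ 0 := by
    rintro rfl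
    rw [pow_zero] at hj
    exact hy1 (orderOf_eq_one_iff.1 hj)
  obtain ⟨i, rfl⟩ := Nat.exists_eq_succ_of_ne_zero hj0
  set y' := y ^ (p ^ i) with hy'
  have hy'o : orderOf y' = p := by
    rw [hy', orderOf_pow_of_dvd (pow_ne_zero _ hp.out.ne_zero) (by rw [hj]; exact pow_dvd_pow p (Nat.le_succ i)), hj,
      Nat.succ_eq_add_one, Nat.pow_div (Nat.le_succ i) hp.out.pos]
    simp
  have hxy' : x * y' * x⁻¹ = y'⁻¹ := by
    rw [hy', ← conj_pow, hxy, inv_pow]
  set K : Subgroup G := Subgroup.closure {x, y'} with hK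
  have hxK : x ∈ K := Subgroup.subset_closure (by simp)
  have hyK : y' ∈ K := Subgroup.subset_closure (by simp)
  apply Cfsg.Agent.Lib.Involve.involves_subgroup (K := K)
  refine B_to_inv' hp2 ⟨x, hxK⟩ ⟨y', hyK⟩ ⟨k, by rw [Subgroup.orderOf_mk, hk]⟩ (by rw [Subgroup.orderOf_mk, hy'o])
    (Subtype.ext hxy') ?_
  have h1 := Subgroup.closure_closure_coe_preimage (k := ({x, y'} : Set G))
  rw [← h1]
  congr 1
  ext ⟨a, ha⟩
  simp [Subtype.ext_iff]

theorem inv_to_A' {K : Type*} [Group K] [Finite K] {p : ℕ} [hp : Fact p.Prime] (hp2 : p ≠ 2)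
    (f : K →* DihedralGroup p) (hf : Function.Surjective f) : A K p := by
  have hpos : NeZero p := ⟨hp.out.ne_zero⟩
  have hrn : (Subgroup.zpowers (DihedralGroup.r (1 : ZMod p))).Normal := by
    constructor
    intro a ha g
    obtain ⟨k, rfl⟩ := Subgroup.mem_zpowers_iff.1 ha
    cases g with
    | r i =>
      refine Subgroup.mem_zpowers_iff.2 ⟨k, ?_⟩
      rw [DihedralGroup.r_one_zpow, DihedralGroup.inv_r, DihedralGroup.r_mul_r, DihedralGroup.r_mul_r]
      congr 1; ring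
    | sr i =>
      refine Subgroup.mem_zpowers_iff.2 ⟨-k, ?_⟩
      rw [DihedralGroup.r_one_zpow, DihedralGroup.r_one_zpow, DihedralGroup.inv_sr, DihedralGroup.sr_mul_r,
        DihedralGroup.sr_mul_sr]
      congr 1; push_cast; ring
  have hrmem : ∀ i : ZMod p, DihedralGroup.r i ∈ Subgroup.zpowers (DihedralGroup.r (1 : ZMod p)) := by
    intro i
    refine Subgroup.mem_zpowers_iff.2 ⟨(i.val : ℤ), ?_⟩
    rw [DihedralGroup.r_one_zpow]
    congr 1
    simp
  have hsrmem : ∀ i : ZMod p, DihedralGroup.sr i ∉ Subgroup.zpowers (DihedralGroup.r (1 : ZMod p)) := by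
    intro i h
    obtain ⟨k, hk⟩ := Subgroup.mem_zpowers_iff.1 h
    rw [DihedralGroup.r_one_zpow] at hk
    exact absurd hk (by simp)
  set M : Subgroup K := (Subgroup.zpowers (DihedralGroup.r (1 : ZMod p))).comap f with hM
  have hMn : M.Normal := hrn.comap f
  -- a p-element mapping to a nontrivial rotation
  obtain ⟨k, hk⟩ := hf (DihedralGroup.r 1)
  obtain ⟨b, m, hm, hbm⟩ := Nat.exists_eq_pow_mul_and_not_dvd (orderOf_pos k).ne' p hp.out.ne_one
  have hkM : k ^ m ∈ M := by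
    rw [hM, Subgroup.mem_comap, map_pow, hk]
    exact Subgroup.pow_mem _ (Subgroup.mem_zpowers _) _
  have hko : orderOf (k ^ m) = p ^ b := by
    rw [orderOf_pow_of_dvd (by rintro rfl; simp at hm) (by rw [hbm]; exact dvd_mul_left _ _), hbm,
      Nat.mul_div_cancel]
    exact Nat.pos_of_ne_zero (by rintro rfl; simp at hm)
  have hfk : f (k ^ m) = DihedralGroup.r (m : ZMod p) := by
    rw [map_pow, hk, DihedralGroup.r_one_pow]
  have hm0 : (m : ZMod p) ≠ 0 := by
    rw [Ne, ZMod.natCast_eq_zero_iff]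
    exact hm
  have hZ : IsPGroup p (Subgroup.zpowers (⟨k ^ m, hkM⟩ : M)) := by
    apply IsPGroup.of_card (n := b)
    rw [Nat.card_zpowers, Subgroup.orderOf_mk, hko]
  obtain ⟨P, hP⟩ := hZ.exists_le_sylow
  have hF := Sylow.normalizer_sup_eq_top P
  have hex : ∃ g ∈ Subgroup.normalizer (((P : Subgroup M).map M.subtype : Subgroup K) : Set K), g ∉ M := by
    by_contra hc
    push Not at hc
    have h1 : M = ⊤ := by
      rw [eq_top_iff, ← hF]
      exact sup_le hc le_rfl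
    obtain ⟨t, ht⟩ := hf (DihedralGroup.sr 0)
    have h2 : t ∈ M := h1 ▸ Subgroup.mem_top t
    rw [hM, Subgroup.mem_comap, ht] at h2
    exact hsrmem _ h2
  obtain ⟨g, hgN, hgM⟩ := hex
  obtain ⟨a, n, hn, han⟩ := Nat.exists_eq_pow_mul_and_not_dvd (orderOf_pos g).ne' 2 (by norm_num)
  obtain ⟨i, hi⟩ : ∃ i, f g = DihedralGroup.sr i := by
    cases h : f g with
    | r i => exact absurd (show g ∈ M by rw [hM, Subgroup.mem_comap, h]; exact hrmem i) hgM
    | sr i => exact ⟨i, rfl⟩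
  have hfx : f (g ^ n) = DihedralGroup.sr i := by
    obtain ⟨l, hl⟩ := Nat.odd_iff.2 (Nat.two_dvd_ne_zero.1 hn)
    rw [map_pow, hi, hl, pow_succ, pow_mul, sq, DihedralGroup.sr_mul_self, one_pow, one_mul]
  refine ⟨g ^ n, (P : Subgroup M).map M.subtype, ⟨a, ?_⟩, P.2.map _, Subgroup.pow_mem _ hgN _, ?_⟩
  · rw [orderOf_pow_of_dvd (by rintro rfl; simp at hn) (by rw [han]; exact dvd_mul_left _ _), han,
      Nat.mul_div_cancel]
    exact Nat.pos_of_ne_zero (by rintro rfl; simp at hn)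
  · intro hc
    have h1 : k ^ m ∈ ((P : Subgroup M).map M.subtype : Subgroup K) :=
      ⟨⟨k ^ m, hkM⟩, hP (Subgroup.mem_zpowers _), rfl⟩
    have h2 := Subgroup.mem_centralizer_iff.1 hc _ h1
    have h3 := congrArg f h2
    rw [map_mul, map_mul, hfk, hfx, DihedralGroup.r_mul_sr, DihedralGroup.sr_mul_r] at h3
    have h4 : i - (m : ZMod p) = i + m := DihedralGroup.sr.inj h3
    have h5 : (2 : ZMod p) * m = 0 := by linear_combination -h4
    rcases mul_eq_zero.1 h5 with h6 | h6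
    · have : ((2 : ℕ) : ZMod p) = 0 := by exact_mod_cast h6
      rw [ZMod.natCast_eq_zero_iff] at this
      exact hp2 ((Nat.prime_dvd_prime_iff_eq hp.out Nat.prime_two).1 this)
    · exact hm0 h6

theorem A_subgroup {G : Type*} [Group G] {K : Subgroup G} {p : ℕ} (h : A K p) : A G p := by
  obtain ⟨x, P, ⟨k, hk⟩, hP, hxN, hxC⟩ := h
  refine ⟨x, P.map K.subtype, ⟨k, by rw [← hk]; exact Subgroup.orderOf_coe x⟩, hP.map _, ?_, ?_⟩
  · rw [Subgroup.mem_normalizer_iff] at hxN ⊢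
    intro u
    constructor
    · rintro ⟨v, hv, rfl⟩
      exact ⟨x * v * x⁻¹, (hxN v).1 hv, rfl⟩
    · rintro ⟨v, hv, h1⟩
      refine ⟨x⁻¹ * v * x, ?_, ?_⟩
      · rw [SetLike.mem_coe, hxN]
        have : x * (x⁻¹ * v * x) * x⁻¹ = v := by group
        rw [this]; exact hv
      · have h2 : (v : G) = x * u * (x : G)⁻¹ := h1
        change (x : G)⁻¹ * v * x = u
        rw [h2]; group
  · intro hc
    apply hxC
    rw [Subgroup.mem_centralizer_iff] at hc ⊢
    intro u hu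
    exact Subtype.ext (hc u ⟨u, hu, rfl⟩)

/-- For an odd prime p and a finite group G the following are equivalent: the dihedral group of order 2p is involved in G; some element of 2-power order normalizes but does not centralize some p-subgroup of G; some element of 2-power order inverts some nonidentity element of p-power order. -/
theorem result {G : Type*} [Group G] [Finite G] {p : ℕ} [Fact p.Prime] (hp : p ≠ 2) : (Cfsg.Involves (DihedralGroup p) G ↔ ∃ (x : G) (P : Subgroup G), (∃ k : ℕ, orderOf x = 2 ^ k) ∧ IsPGroup p ↥P ∧ x ∈ Subgroup.normalizer (P : Set G) ∧ x ∉ Subgroup.centralizer (P : Set G)) ∧ (Cfsg.Involves (DihedralGroup p) G ↔ ∃ x y : G, (∃ k : ℕ, orderOf x = 2 ^ k) ∧ (∃ k : ℕ, orderOf y = p ^ k) ∧ y ≠ 1 ∧ x * y * x⁻¹ = y⁻¹) := by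
  have h1 : Cfsg.Involves (DihedralGroup p) G → A G p := by
    intro h
    obtain ⟨K, f, hf⟩ := Cfsg.Agent.Lib.Involve.exists_hom h
    exact A_subgroup (inv_to_A' hp f hf)
  have h2 : A G p → B G p := A_to_B
  have h3 : B G p → Cfsg.Involves (DihedralGroup p) G := B_to_inv hp
  exact ⟨⟨h1, fun h => h3 (h2 h)⟩, ⟨fun h => h2 (h1 h), h3⟩⟩

end Cfsg.Agent.S2758
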