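import Cfsg.Statements.S0107
import Cfsg.Agent.Lib.ThompsonTransfer

set_option autoImplicit false
open Cfsg

namespace Cfsg.Agent.S0107

/-- A finite group with no nontrivial 2-group quotient and dihedral Sylow 2-subgroups of order at least 8 has a single class of involutions. -/
theorem result {G : Type*} [Group G] [Finite G] (T : Sylow 2 G) (n : ℕ) (hn : 2 ≤ n) (hT : Nonempty ((T : Subgroup G) ≃* DihedralGroup (2 ^ n))) (hO : Cfsg.pResidual 2 G = ⊤) (x y : G) (hx : orderOf x = 2) (hy : orderOf y = 2) : ∃ g : G, g * x * g⁻¹ = y := by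
  obtain ⟨φ⟩ := hT
  -- the rotation subgroup
  set ρ : G := ((φ.symm (DihedralGroup.r 1) : (T : Subgroup G)) : G) with hρ
  set Q : Subgroup G := Subgroup.zpowers ρ with hQ
  have hρo : orderOf ρ = 2 ^ n := by
    rw [hρ, Subgroup.orderOf_coe, MulEquiv.orderOf_eq, DihedralGroup.orderOf_r_one]
  have hρT : ρ ∈ (T : Subgroup G) := (φ.symm (DihedralGroup.r 1)).2
  have hQT : Q ≤ (T : Subgroup G) := by rw [hQ, Subgroup.zpowers_le]; exact hρT
  have hTcard : Nat.card (T : Subgroup G) = 2 * 2 ^ n := by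
    rw [Nat.card_congr φ.toEquiv, DihedralGroup.nat_card]
  have hQcard : Nat.card Q = 2 ^ n := by rw [hQ, Nat.card_zpowers, hρo]
  have hQi : Q.relIndex (T : Subgroup G) = 2 := by
    have h1 := Cfsg.Agent.Lib.GroupUtil.card_mul_relIndex hQT
    rw [hTcard, hQcard, mul_comm] at h1
    exact Nat.eq_of_mul_eq_mul_right (by positivity) h1
  -- an involution of Q
  have hex : ∃ z ∈ Q, orderOf z = 2 := by
    have hd : 2 ∣ Nat.card Q := by rw [hQcard]; exact dvd_pow_self 2 (by omega)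
    obtain ⟨z, hz⟩ := exists_prime_orderOf_dvd_card' 2 hd
    exact ⟨z, z.2, by rw [Subgroup.orderOf_coe]; exact hz⟩
  obtain ⟨z, hzQ, hzo⟩ := hex
  have huniq : ∀ w ∈ Q, orderOf w = 2 → w = z := by
    intro w hw hwo
    have hcyc : IsCyclic Q := by rw [hQ]; infer_instance
    have h3 : Subgroup.zpowers (⟨w, hw⟩ : Q) = Subgroup.zpowers ⟨z, hzQ⟩ := by
      apply Cfsg.Agent.Lib.TransferApps.cyclic_subgroup_eq_of_card
      rw [Nat.card_zpowers, Nat.card_zpowers, Subgroup.orderOf_mk, Subgroup.orderOf_mk, hwo, hzo]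
    have h4 : (⟨w, hw⟩ : Q) ∈ Subgroup.zpowers (⟨z, hzQ⟩ : Q) := by rw [← h3]; exact Subgroup.mem_zpowers _
    obtain ⟨k, hk⟩ := Subgroup.mem_zpowers_iff.mp h4
    have h5 : z ^ k = w := by simpa using congrArg Subtype.val hk
    have hz2 : z ^ (2 : ℤ) = 1 := by
      have : z ^ (2 : ℕ) = 1 := by rw [← hzo]; exact pow_orderOf_eq_one z
      exact_mod_cast this
    rcases Int.even_or_odd k with ⟨j, hj⟩ | ⟨j, hj⟩
    · exfalso
      have : w = 1 := by rw [← h5, hj, ← two_mul, zpow_mul, hz2, one_zpow]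
      rw [this, orderOf_one] at hwo
      norm_num at hwo
    · rw [← h5, hj, zpow_add, zpow_mul, hz2, one_zpow, zpow_one, one_mul]
  -- every involution is conjugate to z
  have key : ∀ w : G, orderOf w = 2 → ∃ g : G, g * w * g⁻¹ = z := by
    intro w hw
    have hwp : IsPGroup 2 (Subgroup.zpowers w) := by
      apply IsPGroup.of_card (n := 1)
      rw [Nat.card_zpowers, hw, pow_one]
    obtain ⟨R, hR⟩ := hwp.exists_le_sylow
    obtain ⟨a, ha⟩ := MulAction.exists_smul_eq G R T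
    have hwT : a * w * a⁻¹ ∈ (T : Subgroup G) := by
      rw [← ha, Cfsg.Agent.Lib.GroupUtil.mem_smul_sylow]
      have : a⁻¹ * (a * w * a⁻¹) * a = w := by group
      rw [this]
      exact hR (Subgroup.mem_zpowers w)
    have hordconj : ∀ b v : G, orderOf (b * v * b⁻¹) = orderOf v := by
      intro b v
      rw [← MulAut.conj_apply, MulEquiv.orderOf_eq]
    have hwo' : orderOf (a * w * a⁻¹) = 2 := by rw [hordconj, hw]
    by_cases h : ∃ g : G, g * (a * w * a⁻¹) * g⁻¹ ∈ Q
    · obtain ⟨g, hg⟩ := h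
      refine ⟨g * a, ?_⟩
      have h6 := huniq _ hg (by rw [hordconj, hwo'])
      rw [← h6]; group
    · exfalso
      push Not at h
      obtain ⟨M, hM, hMi, hMu⟩ := Cfsg.Agent.Lib.ThompsonTransfer.thompson_transfer T Q hQi _ hwo' hwT h
      have h7 := Cfsg.Agent.Lib.PNilp.pResidual_le_of_index (p := 2) M (k := 1) (by rw [hMi]; norm_num)
      rw [hO, top_le_iff] at h7
      rw [h7] at hMu
      exact hMu trivial
  obtain ⟨g1, hg1⟩ := key x hx
  obtain ⟨g2, hg2⟩ := key y hy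
  refine ⟨g2⁻¹ * g1, ?_⟩
  have : g2⁻¹ * g1 * x * (g2⁻¹ * g1)⁻¹ = g2⁻¹ * (g1 * x * g1⁻¹) * g2 := by group
  rw [this, hg1, ← hg2]; group

end Cfsg.Agent.S0107
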