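import Cfsg.Statements.S4438
import Mathlib
import Cfsg.Agent.Lib.BlockKnorr

set_option autoImplicit false
open Cfsg

namespace Cfsg.Agent.S4438
open Cfsg Cfsg.Agent.Lib.BlockDefect Cfsg.Agent.Lib.BlockKnorr Cfsg.Agent.Lib.BlockRing


/-- Let N be a normal subgroup of the finite group G, b a block of N with defect group Q, and B a block of G covering b (some member of B has a constituent in b on restriction to N), all relative to a maximal ideal M of the algebraic integers containing p. Then B has a defect group P with P ⊓ N = Q. -/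
theorem result {G : Type*} [Group G] [Fintype G] (p : ℕ) [Fact p.Prime] (M : Ideal Cfsg.AlgInt) (hM : Cfsg.IsPModular p M) (N : Subgroup G) [hN : N.Normal] [Fintype N] (b : Set (Cfsg.IrrCharacter N)) (hb : Cfsg.IsPBlock M b) (Q : Subgroup G) (hQN : Q ≤ N) (hQ : Cfsg.IsDefectGroup p M b (Q.subgroupOf N)) (B : Set (Cfsg.IrrCharacter G)) (hB : Cfsg.IsPBlock M B) (hcov : (∃ χ ∈ B, ∃ θ ∈ b, Cfsg.classInner (fun n : N => (χ : G → ℂ) n) (θ : N → ℂ) ≠ 0)) : ∃ P : Subgroup G, Cfsg.IsDefectGroup p M B P ∧ P ⊓ N = Q := by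
  haveI := isPrime hM
  obtain ⟨P, hP, -, hPN⟩ := knorr hM hb (stab_stabT hb) hB hcov
  obtain ⟨n, hn⟩ := defectGroup_conj hM hb hPN hQ
  refine ⟨P.map (MulAut.conj (n : G)).toMonoidHom, defectGroup_map_conj hP _, ?_⟩
  have h1 : ((P ⊓ N).subgroupOf N).map N.subtype = P ⊓ N := by
    rw [Subgroup.subgroupOf_map_subtype, inf_assoc, inf_idem]
  have h2 : (Q.subgroupOf N).map N.subtype = Q := by
    rw [Subgroup.subgroupOf_map_subtype, inf_eq_left.2 hQN]
  rw [← h2, hn]
  ext x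
  rw [Subgroup.mem_inf, mem_map_conj]
  constructor
  · rintro ⟨hx, hxN⟩
    refine ⟨⟨x, hxN⟩, ?_, rfl⟩
    rw [SetLike.mem_coe, mem_map_conj, Subgroup.mem_subgroupOf]
    exact ⟨hx, hN.conj_mem' x hxN n⟩
  · rintro ⟨⟨y, hy⟩, hy', rfl⟩
    rw [SetLike.mem_coe, mem_map_conj, Subgroup.mem_subgroupOf] at hy'
    exact ⟨hy'.1, hy⟩

end Cfsg.Agent.S4438
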