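import Cfsg.Statements.S3012
import Mathlib

set_option autoImplicit false
open Cfsg

namespace Cfsg.Agent.S3012

/-- Let G be a finite group, V a nontrivial elementary abelian 2-subgroup of G satisfying the Sidki pair condition (every odd-order element inverted by an element of V commutes with a nontrivial element of V), and K a normal subgroup of G with V ∩ K = 1. Then the image of V in G/K satisfies the Sidki pair condition in G/K. -/
theorem result {G : Type*} [Group G] [Finite G] (V K : Subgroup G) [K.Normal] (hV : Cfsg.IsElementaryAbelian 2 V) (hV1 : V ≠ ⊥) (hS : Cfsg.IsSidkiPair V) (hVK : V ⊓ K = ⊥) : Cfsg.IsSidkiPair (V.map (QuotientGroup.mk' K)) := by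
  rintro hb vb hvb hodd hinv
  obtain ⟨v, hv, rfl⟩ := hvb
  have hv2 : v * v = 1 := by
    have := hV.2 v hv
    rwa [pow_two] at this
  have hvinv : v⁻¹ = v := by
    rw [inv_eq_iff_mul_eq_one]; exact hv2
  set n := orderOf hb with hn
  obtain ⟨k, hk⟩ := hodd
  -- square root of hb
  set gb := hb ^ (k + 1) with hgb
  have hgb2 : gb * gb = hb := by
    rw [hgb, ← pow_add]
    have : k + 1 + (k + 1) = n + 1 := by omega
    rw [this, pow_succ, hn, pow_orderOf_eq_one, one_mul]
  obtain ⟨g, hg⟩ := QuotientGroup.mk'_surjective K gb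
  have hvg : (QuotientGroup.mk' K v) * gb * (QuotientGroup.mk' K v)⁻¹ = gb⁻¹ := by
    rw [hgb, ← conj_pow, hinv, inv_pow]
  set t := g * v * g⁻¹ * v⁻¹ with ht
  have htinv : v * t * v⁻¹ = t⁻¹ := by
    rw [ht]
    calc v * (g * v * g⁻¹ * v⁻¹) * v⁻¹ = v * g * v * g⁻¹ * (v⁻¹ * v⁻¹) := by group
      _ = v * g * v * g⁻¹ * (v * v) := by rw [hvinv]
      _ = v * g * v * g⁻¹ := by rw [hv2, mul_one]
      _ = v * g * v⁻¹ * g⁻¹ := by rw [hvinv]
      _ = (g * v * g⁻¹ * v⁻¹)⁻¹ := by group
  have htmap : QuotientGroup.mk' K t = hb := by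
    rw [ht]
    simp only [map_mul, map_inv]
    rw [hg]
    have : (QuotientGroup.mk' K v) * gb⁻¹ * (QuotientGroup.mk' K v)⁻¹ = gb := by
      have := congrArg (fun z => z⁻¹) hvg
      simp only [mul_inv_rev, inv_inv] at this
      rw [← mul_assoc] at this
      exact this
    calc gb * (QuotientGroup.mk' K v) * gb⁻¹ * (QuotientGroup.mk' K v)⁻¹
        = gb * ((QuotientGroup.mk' K v) * gb⁻¹ * (QuotientGroup.mk' K v)⁻¹) := by group
      _ = gb * gb := by rw [this]
      _ = hb := hgb2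
  have hpos : 0 < orderOf t := orderOf_pos t
  obtain ⟨a, m, hm, htm⟩ := Nat.exists_eq_two_pow_mul_odd hpos.ne'
  have hcop : Nat.Coprime (2 ^ a) n := by
    apply Nat.Coprime.pow_left
    rw [Nat.coprime_two_left]
    exact ⟨k, hk⟩
  obtain ⟨s, hs0, hs1⟩ := Nat.chineseRemainder hcop 0 1
  set u := t ^ s with hu
  have hdvd : 2 ^ a ∣ s := (Nat.modEq_zero_iff_dvd).1 hs0
  have huodd : Odd (orderOf u) := by
    have : orderOf u ∣ m := by
      apply orderOf_dvd_of_pow_eq_one
      rw [hu, ← pow_mul]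
      obtain ⟨c, hc⟩ := hdvd
      rw [hc]
      have : 2 ^ a * c * m = orderOf t * c := by rw [htm]; ring
      rw [this, pow_mul, pow_orderOf_eq_one, one_pow]
    exact Odd.of_dvd_nat hm this
  have huinv : v * u * v⁻¹ = u⁻¹ := by
    rw [hu, ← conj_pow, htinv, inv_pow]
  have humap : QuotientGroup.mk' K u = hb := by
    rw [hu, map_pow, htmap]
    have : hb ^ s = hb ^ 1 := by
      rw [pow_eq_pow_iff_modEq]
      exact hs1
    rw [this, pow_one]
  obtain ⟨w, hwV, hw1, hwu⟩ := hS u v hv huodd huinv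
  refine ⟨QuotientGroup.mk' K w, ⟨w, hwV, rfl⟩, ?_, ?_⟩
  · intro h1
    have hwK : w ∈ K := by
      rwa [QuotientGroup.mk'_apply, QuotientGroup.eq_one_iff] at h1
    have : w ∈ V ⊓ K := ⟨hwV, hwK⟩
    rw [hVK] at this
    exact hw1 (Subgroup.mem_bot.1 this)
  · rw [← humap, ← map_mul, ← map_mul, hwu]


end Cfsg.Agent.S3012
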