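import Cfsg.Statements.S4958
import Cfsg.Agent.Lib.KGVGauss
import Cfsg.Agent.Lib.KGVRep
import Cfsg.Agent.Lib.H76Char

set_option autoImplicit false
open Cfsg

namespace Cfsg.Agent.S4958

/-- Let X be a finite group and V a normal subgroup of X in which every element has order dividing the prime p, whose index in X is prime to p and which is its own centralizer in X; so V is an elementary abelian normal Sylow p-subgroup, and any complement G to V in X is a group of order prime to p acting faithfully on the vector space V by conjugation (the coprime linear setting of the k(GV) problem). Let G be a complement to V in X and suppose that for some v in V the centralizer of v in G is abelian. Then the number of conjugacy classes of X is at most the order of V (the abelian-stabilizer criterion for the k(GV) problem). -/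
theorem result {X : Type*} [Group X] [Finite X] (p : ℕ) [Fact p.Prime] (V : Subgroup X) [V.Normal] (hVexp : ∀ v ∈ V, v ^ p = 1) (hidx : ¬ p ∣ V.index) (hself : Subgroup.centralizer (V : Set X) = V) (G : Subgroup X) (hGV : Subgroup.IsComplement' V G) (v : X) (hv : v ∈ V) (hab : ∀ a ∈ G ⊓ Subgroup.centralizer ({v} : Set X), ∀ b ∈ G ⊓ Subgroup.centralizer ({v} : Set X), a * b = b * a) : Nat.card (ConjClasses X) ≤ Nat.card V := by
  obtain ⟨M, hM⟩ := Lib.H76Char.exists_isPModular p
  have hp : p.Prime := Fact.out
  have hVab : ∀ a ∈ V, ∀ b ∈ V, a * b = b * a := by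
    intro a ha b hb
    have h5 : a ∈ Subgroup.centralizer (V : Set X) := by rw [hself]; exact ha
    exact (Subgroup.mem_centralizer_iff.1 h5 b hb).symm
  haveI : NeZero (Nat.card X * p) := ⟨Nat.mul_ne_zero Nat.card_pos.ne' hp.ne_zero⟩
  have hnorm : ∀ h ∈ G ⊓ Subgroup.centralizer ({v} : Set X), ∀ u ∈ V, h * u * h⁻¹ ∈ V :=
    fun h _ u hu => ‹V.Normal›.conj_mem u hu h
  obtain ⟨W, _, _, e, ρ, he, hρ⟩ := Lib.KGVRep.exists_rep (p := p) V (G ⊓ Subgroup.centralizer ({v} : Set X)) hVab hVexp hnorm
  haveI : Finite W := Finite.of_equiv _ e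
  have hcop : ¬ p ∣ Nat.card ↥(G ⊓ Subgroup.centralizer ({v} : Set X)) := by
    intro h
    apply hidx
    rw [hGV.symm.index_eq_card]
    exact h.trans (Subgroup.card_dvd_of_le inf_le_left)
  have hgood := Lib.KGVGauss.good_abelian (M := M) (N := Nat.card X * p) hM (Dvd.intro_left _ rfl)
    ((Subgroup.card_subgroup_dvd_card (G ⊓ Subgroup.centralizer ({v} : Set X))).trans (Dvd.intro _ rfl))
    (fun a b => Subtype.ext (hab a a.2 b b.2)) hcop ρ
  rw [← Nat.card_congr e] at hgood
  simp only [Lib.KGVRep.card_fixed V _ hnorm e ρ hρ] at hgood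
  refine Lib.KGVGood.crit_of_good V hVexp hidx hself G hGV v hv hM (N := Nat.card X * p) (Dvd.intro _ rfl) _ rfl V le_rfl ?_ hgood
  intro h hh
  have h1 : (h : X) ∈ V := by
    rw [← hself, Subgroup.mem_centralizer_iff]
    intro w hw
    exact hh w hw
  have h2 : (h : X) ∈ V ⊓ G := ⟨h1, h.2.1⟩
  rw [hGV.disjoint.eq_bot, Subgroup.mem_bot] at h2
  exact Subtype.ext h2

end Cfsg.Agent.S4958
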