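import Cfsg.Statements.S4035
import Cfsg.Agent.Lib.CycNorm
import Cfsg.Agent.Lib.ConjCover
import Cfsg.Agent.Lib.RealElems
import Cfsg.Agent.Lib.H32Basic

set_option autoImplicit false
open Cfsg

namespace Cfsg.Agent.S4035

open Cfsg.Agent.Lib.CycNorm Cfsg.Agent.Lib.H32Basic

theorem card_carrier {G : Type*} [Group G] [Finite G] (x : G) :
    (ConjClasses.mk x).carrier.ncard = (Subgroup.centralizer ({x} : Set G)).index := by
  rw [← Cfsg.Agent.Lib.RealElems.card_class]
  rw [← Nat.card_coe_set_eq]
  refine Nat.card_congr (Equiv.subtypeEquivRight fun h => ?_)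
  rw [ConjClasses.mem_carrier_iff_mk_eq, ConjClasses.mk_eq_mk_iff_isConj]
  exact ⟨fun h => h.symm, fun h => h.symm⟩

/-- Let G be a finite group and p a prime such that p divides the size of no conjugacy class of p-regular elements (elements of order prime to p). Then G is the internal direct product of a Sylow p-subgroup P and a normal subgroup H of order prime to p: P is normal, P ⊓ H = 1 and PH = G. -/
theorem result {G : Type*} [Group G] [Finite G] {p : ℕ} [Fact p.Prime]
    (h : ∀ x : G, (orderOf x).Coprime p → ¬ p ∣ (ConjClasses.mk x).carrier.ncard) (P : Sylow p G) :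
    (P : Subgroup G).Normal ∧ ∃ H : Subgroup G, H.Normal ∧ ¬ p ∣ Nat.card H ∧
      (P : Subgroup G) ⊓ H = ⊥ ∧ (P : Subgroup G) ⊔ H = ⊤ := by
  have hp : p.Prime := Fact.out
  set C : Subgroup G := Subgroup.centralizer ((P : Subgroup G) : Set G) with hC
  have hDtop : (P : Subgroup G) ⊔ C = ⊤ := by
    apply Cfsg.Agent.Lib.ConjCover.eq_top_of_forall_conj
    intro g
    obtain ⟨a, b, ⟨k, hk⟩, hb, hab⟩ := exists_parts p hp g
    set u := g ^ a with hu
    set x := g ^ b with hx
    have hux : u * x = x * u := by rw [hu, hx, ← pow_add, ← pow_add, add_comm]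
    have huC : u ∈ Subgroup.centralizer ({x} : Set G) := by
      rw [Subgroup.mem_centralizer_singleton_iff]; exact hux
    have hidx : ¬ p ∣ (Subgroup.centralizer ({x} : Set G)).index := by
      rw [← card_carrier]; exact h x hb
    have hup : IsPGroup p (Subgroup.zpowers (⟨u, huC⟩ : Subgroup.centralizer ({x} : Set G))) := by
      apply IsPGroup.of_card (n := k)
      rw [Nat.card_zpowers, Subgroup.orderOf_mk, hk]
    obtain ⟨Q, hQ⟩ := hup.exists_le_sylow
    have hQp : IsPGroup p ((Q : Subgroup (Subgroup.centralizer ({x} : Set G))).map (Subgroup.subtype _)) := Q.2.map _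
    have hQi : ¬ p ∣ ((Q : Subgroup (Subgroup.centralizer ({x} : Set G))).map (Subgroup.subtype _)).index := by
      rw [Subgroup.index_map_subtype]
      exact hp.not_dvd_mul Q.not_dvd_index hidx
    obtain ⟨c, hc⟩ := MulAction.exists_smul_eq G P (hQp.toSylow hQi)
    have hmem : ∀ y : G, y ∈ (Q : Subgroup (Subgroup.centralizer ({x} : Set G))).map (Subgroup.subtype _) ↔
        c⁻¹ * y * c ∈ (P : Subgroup G) := by
      intro y
      rw [← mem_sylow_smul_iff, hc]
      rfl
    refine ⟨c, ?_⟩
    have h1 : c⁻¹ * g * c = (c⁻¹ * u * c) * (c⁻¹ * x * c) := by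
      nth_rewrite 1 [hab]; group
    rw [h1]
    refine mul_mem (Subgroup.mem_sup_left ?_) (Subgroup.mem_sup_right ?_)
    · rw [← hmem]
      exact ⟨⟨u, huC⟩, hQ (Subgroup.mem_zpowers _), rfl⟩
    · rw [hC, Subgroup.mem_centralizer_iff]
      intro y hy
      have h2 : c * y * c⁻¹ ∈ (Q : Subgroup (Subgroup.centralizer ({x} : Set G))).map (Subgroup.subtype _) := by
        rw [hmem]
        have : c⁻¹ * (c * y * c⁻¹) * c = y := by group
        rw [this]; exact hy
      obtain ⟨z, -, hz⟩ := h2
      have h3 := Subgroup.mem_centralizer_singleton_iff.1 z.2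
      have h4 : (z : G) = c * y * c⁻¹ := hz
      rw [h4] at h3
      calc y * (c⁻¹ * x * c) = c⁻¹ * ((c * y * c⁻¹) * x) * c := by group
        _ = c⁻¹ * (x * (c * y * c⁻¹)) * c := by rw [h3]
        _ = (c⁻¹ * x * c) * y := by group
  have hPn : (P : Subgroup G).Normal := by
    rw [← Subgroup.normalizer_eq_top_iff, eq_top_iff, ← hDtop]
    exact sup_le Subgroup.le_normalizer (Subgroup.centralizer_le_normalizer _)
  refine ⟨hPn, ?_⟩
  -- Sylow subgroup of C
  have hS0p : IsPGroup p ((P : Subgroup G).subgroupOf C) :=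
    P.2.comap_subtype
  have hS0i : ¬ p ∣ ((P : Subgroup G).subgroupOf C).index := by
    have h1 : ((P : Subgroup G).subgroupOf C).index = (P : Subgroup G).index := by
      show (P : Subgroup G).relIndex C = _
      rw [← Subgroup.relIndex_sup_left, hDtop, Subgroup.relIndex_top_right]
    rw [h1]; exact P.not_dvd_index
  let S0 : Sylow p C := hS0p.toSylow hS0i
  have hcen : ∀ (s : C), s ∈ S0 → ∀ c : C, s * c = c * s := by
    intro s hs c
    apply Subtype.ext
    have h1 : (s : G) ∈ (P : Subgroup G) := hs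
    exact (Subgroup.mem_centralizer_iff.1 c.2 s h1)
  have hS0 : Subgroup.normalizer ((S0 : Subgroup C) : Set C) ≤ Subgroup.centralizer ((S0 : Subgroup C) : Set C) := by
    intro c _
    rw [Subgroup.mem_centralizer_iff]
    intro s hs
    exact hcen s hs c
  obtain ⟨K, hKn, hcomp, hKp⟩ : ∃ K : Subgroup C, K.Normal ∧ K.IsComplement' (S0 : Subgroup C) ∧ ¬ p ∣ Nat.card K :=
    ⟨(MonoidHom.transferSylow S0 hS0).ker, inferInstance, MonoidHom.ker_transferSylow_isComplement' S0 hS0,
      MonoidHom.not_dvd_card_ker_transferSylow S0 hS0⟩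
  have hHp : ¬ p ∣ Nat.card (K.map C.subtype) := by
    rwa [Subgroup.card_map_of_injective (Subgroup.subtype_injective C)]
  refine ⟨K.map C.subtype, ?_, hHp, ?_, ?_⟩
  · rw [← Subgroup.normalizer_eq_top_iff, eq_top_iff, ← hDtop]
    refine sup_le ?_ ?_
    · rw [Subgroup.le_normalizer_iff]
      rintro y hy _ ⟨c, hc, rfl⟩
      have h1 : y * (c : G) = c * y := Subgroup.mem_centralizer_iff.1 c.2 y hy
      have h2 : y * C.subtype c * y⁻¹ = C.subtype c := by
        rw [Subgroup.coe_subtype, h1]; group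
      rw [h2]
      exact ⟨c, hc, rfl⟩
    · rw [Subgroup.le_normalizer_iff]
      rintro d hd _ ⟨c, hc, rfl⟩
      exact ⟨⟨d, hd⟩ * c * ⟨d, hd⟩⁻¹, hKn.conj_mem c hc _, rfl⟩
  · have h0 : IsPGroup p ((P : Subgroup G) ⊓ K.map C.subtype : Subgroup G) := P.2.to_le inf_le_left
    exact Subgroup.card_eq_one.mp <|
      h0.card_eq_or_dvd.resolve_right fun h =>
        hHp <| h.trans <| Subgroup.card_dvd_of_le inf_le_right
  · rw [eq_top_iff, ← hDtop]
    refine sup_le le_sup_left ?_
    have h1 : (⊤ : Subgroup C).map C.subtype = (K ⊔ (S0 : Subgroup C)).map C.subtype := by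
      rw [hcomp.sup_eq_top]
    rw [← MonoidHom.range_eq_map, Subgroup.range_subtype, Subgroup.map_sup] at h1
    refine le_trans (le_of_eq h1) ?_
    refine sup_le le_sup_right (le_trans ?_ le_sup_left)
    rintro _ ⟨c, hc, rfl⟩
    exact hc

end Cfsg.Agent.S4035
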