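import Cfsg.Statements.S4654
import Cfsg.Agent.Lib.NormalPBlk
-- import your own Cfsg.Agent.* helpers here

set_option autoImplicit false
open Cfsg

namespace Cfsg.Agent.S4654

open Cfsg Cfsg.Agent.Lib Cfsg.Agent.Lib.BlockAlg Cfsg.Agent.Lib.BrauerPairs Cfsg.Agent.Lib.PairAlg
open Cfsg.Agent.Lib.PairMax Cfsg.Agent.Lib.BlkIdem Cfsg.Agent.Lib.NormalPBlk
open Cfsg.Agent.Lib.BlockGA Cfsg.Agent.Lib.BlockIdem Cfsg.Agent.Lib.BlockRing

theorem mem_ZAlg_top {M : Ideal AlgInt} [M.IsMaximal] {G : Type*} [Group G] [Finite G] {z : GA G}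
    (hz : z ∈ Subalgebra.center ℂ (GA G)) : z ∈ BrauerMap.ZAlg ℂ (⊤ : Subgroup G) := by
  refine ⟨BrauerMap.mem_suppAlg_top _, ?_⟩
  apply BrauerMap.mem_fixAlg_iff_coeff.mpr
  intro h _ g
  exact mem_center_iff.mp hz g h

theorem sum_cj_eq {G : Type*} [Group G] [Fintype G] {H : Subgroup G} {w : GA G}
    (hw : w ∈ BrauerMap.fixAlg ℂ H) :
    ∑ x : G, BrauerMap.cj x w = (Nat.card H : ℂ) • tr H ⊤ w := by
  classical
  have := Fintype.ofFinite ((⊤ : Subgroup G) ⧸ H.subgroupOf ⊤)
  have := Fintype.ofFinite (H.subgroupOf (⊤ : Subgroup G))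
  have := Fintype.ofFinite (⊤ : Subgroup G)
  unfold tr
  rw [finsum_eq_sum_of_fintype]
  have e1 : ∑ x : G, BrauerMap.cj x w = ∑ x : (⊤ : Subgroup G), BrauerMap.cj (x : G) w := by
    rw [← Equiv.sum_comp Subgroup.topEquiv.toEquiv (fun x : G => BrauerMap.cj x w)]
    rfl
  rw [e1, ← Equiv.sum_comp (Subgroup.groupEquivQuotientProdSubgroup
    (s := H.subgroupOf (⊤ : Subgroup G))).symm, Fintype.sum_prod_type, Finset.smul_sum]
  apply Finset.sum_congr rfl
  intro c _
  have h1 : ∀ h : H.subgroupOf (⊤ : Subgroup G),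
      BrauerMap.cj (((Subgroup.groupEquivQuotientProdSubgroup
        (s := H.subgroupOf (⊤ : Subgroup G))).symm (c, h) : (⊤ : Subgroup G)) : G) w =
      BrauerMap.cj ((c.out : (⊤ : Subgroup G)) : G) w := by
    intro h
    rw [← cj_out hw]
    have h2 := congrArg Prod.fst ((Subgroup.groupEquivQuotientProdSubgroup
      (s := H.subgroupOf (⊤ : Subgroup G))).apply_symm_apply (c, h))
    exact congrArg (fun d : (⊤ : Subgroup G) ⧸ H.subgroupOf ⊤ =>
      BrauerMap.cj ((d.out : (⊤ : Subgroup G)) : G) w) h2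
  rw [Finset.sum_congr rfl (fun h _ => h1 h), Finset.sum_const, Finset.card_univ,
    ← Nat.card_eq_fintype_card]
  have h3 : Nat.card (H.subgroupOf (⊤ : Subgroup G)) = Nat.card H :=
    Nat.card_congr (Subgroup.subgroupOfEquivOfLe le_top).toEquiv
  rw [h3, ← Nat.cast_smul_eq_nsmul ℂ]

section main

variable {p : ℕ} [hp : Fact p.Prime] {M : Ideal AlgInt} [hMm : M.IsMaximal] [hchar : CharP (Kf M) p]
  {G : Type*} [Group G] [Finite G]

theorem bidG_eq_tr (hM : IsPModular p M) {P : Subgroup G} [P.Normal] (hP : IsPGroup p P)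
    {B : Set (IrrCharacter G)} (hB : IsPBlock M B)
    {e : Set (IrrCharacter (Subgroup.centralizer (P : Set G)))} (he : IsPBlock M e)
    (hBe : BrauerMap.br P (bidG M B) * bid M _ e = bid M _ e) :
    bidG M B = tr (stab ⊤ (bid M _ e)) ⊤ (bid M _ e) := by
  have hN : (⊤ : Subgroup G) ≤ Subgroup.normalizer (P : Set G) := by
    rw [Subgroup.normalizer_eq_top]
  have hblk := isBlk_bid he
  have hbB : BrauerMap.br P (bidG M B) = bidG M B :=
    br_eq_self_of_idem hM le_top hN hP (bidG_mem B) (bidG_mul_self hB)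
  rw [hbB] at hBe
  have hE1 := mul_tr_stab (P := P) (bidG_mem B).2 hBe
  have hE2 := tr_stab_idem (P := P) hN hblk
  have hE3 := tr_stab_mul_blk (P := P) hN hblk (x := 1) trivial
  rw [hblk.mem.2 1 (one_mem _)] at hE3
  have hE4 : tr (stab ⊤ (bid M _ e)) ⊤ (bid M _ e) ∈ BrauerMap.ZAlg (Kf M) (⊤ : Subgroup G) :=
    ⟨BrauerMap.mem_suppAlg_top _, tr_mem_fixAlg (mem_fixAlg_stab _ _)⟩
  rcases (isBlk_bidG hB).mul_idem hE4 hE2 with h | h
  · rw [← h, BrauerMap.ZAlg_comm hE4 (bidG_mem B), hE1]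
  · rw [BrauerMap.ZAlg_comm hE4 (bidG_mem B), hE1] at h
    rw [h, zero_mul] at hE3
    exact absurd hE3.symm hblk.ne_zero

theorem tr_cid_idem {P : Subgroup G} [P.Normal]
    {e : Set (IrrCharacter (Subgroup.centralizer (P : Set G)))} (he : IsPBlock M e) {T : Subgroup G}
    (hTs : T = stab ⊤ (bid M _ e)) :
    tr T ⊤ (cid (Subgroup.centralizer (P : Set G)) e) *
      tr T ⊤ (cid (Subgroup.centralizer (P : Set G)) e) =
      tr T ⊤ (cid (Subgroup.centralizer (P : Set G)) e) := by
  classical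
  have := Fintype.ofFinite ((⊤ : Subgroup G) ⧸ T.subgroupOf ⊤)
  have hN : (⊤ : Subgroup G) ≤ Subgroup.normalizer (P : Set G) := by
    rw [Subgroup.normalizer_eq_top]
  have hxC : ∀ x : G, ∀ g, g ∈ Subgroup.centralizer (P : Set G) ↔
      x⁻¹ * g * x ∈ Subgroup.centralizer (P : Set G) := fun x =>
    normalizer_iff (normalizer_le_normalizer_centralizer P (hN trivial))
  have hW : tr T ⊤ (cid (Subgroup.centralizer (P : Set G)) e) =
      ∑ c : (⊤ : Subgroup G) ⧸ T.subgroupOf ⊤,
        BrauerMap.cj ((c.out : (⊤ : Subgroup G)) : G) (cid (Subgroup.centralizer (P : Set G)) e) := by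
    unfold tr
    rw [finsum_eq_sum_of_fintype]
  rw [hW, Finset.sum_mul]
  apply Finset.sum_congr rfl
  intro c _
  rw [Finset.mul_sum, Finset.sum_eq_single c]
  · rw [← map_mul, cid_mul_self]
  · intro d _ hd
    rw [← cj_cid _ (hxC _), ← cj_cid _ (hxC _)]
    apply cid_mul_cid (M := M) (isPBlock_irrMap _ he) (isPBlock_irrMap _ he)
    intro heq
    apply hd
    have h1 : BrauerMap.cj ((c.out : (⊤ : Subgroup G)) : G) (bid M (Subgroup.centralizer (P : Set G)) e) =
        BrauerMap.cj ((d.out : (⊤ : Subgroup G)) : G) (bid M (Subgroup.centralizer (P : Set G)) e) := by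
      rw [← bid_irrMap _ (hxC _), ← bid_irrMap _ (hxC _), heq]
    rw [← QuotientGroup.out_eq' c, ← QuotientGroup.out_eq' d]
    apply QuotientGroup.eq.mpr
    rw [Subgroup.mem_subgroupOf]
    have hTm : ∀ x : G, BrauerMap.cj x (bid M (Subgroup.centralizer (P : Set G)) e) =
        bid M (Subgroup.centralizer (P : Set G)) e → x ∈ T := fun x hx => by
      rw [hTs]; exact ⟨trivial, hx⟩
    apply hTm
    have h2 : BrauerMap.cj (((d.out : (⊤ : Subgroup G)) : G)⁻¹ * ((c.out : (⊤ : Subgroup G)) : G))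
        (bid M (Subgroup.centralizer (P : Set G)) e) = bid M (Subgroup.centralizer (P : Set G)) e := by
      rw [BrauerMap.cj_mul, h1, BrauerMap.cj_inv_cj]
    exact h2
  · intro h
    exact absurd (Finset.mem_univ _) h

theorem eB_eq_tr (hM : IsPModular p M) {P : Subgroup G} [P.Normal] (hP : IsPGroup p P)
    {B : Set (IrrCharacter G)} (hB : IsPBlock M B)
    {e : Set (IrrCharacter (Subgroup.centralizer (P : Set G)))} (he : IsPBlock M e)
    (hBe : BrauerMap.br P (bidG M B) * bid M _ e = bid M _ e) {T : Subgroup G}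
    (hTs : T = stab ⊤ (bid M _ e)) :
    cid (Subgroup.centralizer (P : Set G)) e ∈ BrauerMap.fixAlg ℂ T ∧
    eB B = tr T ⊤ (cid (Subgroup.centralizer (P : Set G)) e) := by
  classical
  have := hMm.isPrime
  have := Fintype.ofFinite ((⊤ : Subgroup G) ⧸ T.subgroupOf ⊤)
  have hN : (⊤ : Subgroup G) ≤ Subgroup.normalizer (P : Set G) := by
    rw [Subgroup.normalizer_eq_top]
  have hE5 := bidG_eq_tr hM hP hB he hBe
  rw [← hTs] at hE5
  have hcT : cid (Subgroup.centralizer (P : Set G)) e ∈ BrauerMap.fixAlg ℂ T := by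
    intro x hx
    apply lift_fixed (M := M) (cid_mem_ZAlg _ e) (cid_mul_self _ e) (locA_cid he)
      (normalizer_le_normalizer_centralizer P (hN trivial))
    rw [redA_cid]
    rw [hTs] at hx
    exact hx.2
  refine ⟨hcT, ?_⟩
  have hW : tr T ⊤ (cid (Subgroup.centralizer (P : Set G)) e) =
      ∑ c : (⊤ : Subgroup G) ⧸ T.subgroupOf ⊤,
        BrauerMap.cj ((c.out : (⊤ : Subgroup G)) : G) (cid (Subgroup.centralizer (P : Set G)) e) := by
    unfold tr
    rw [finsum_eq_sum_of_fintype]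
  have hWl : LocA M (tr T ⊤ (cid (Subgroup.centralizer (P : Set G)) e)) := by
    rw [hW]
    exact locA_sum fun c _ => locA_cj (locA_cid he) _
  have hWr : redA M (tr T ⊤ (cid (Subgroup.centralizer (P : Set G)) e)) = tr T ⊤ (bid M _ e) := by
    rw [hW, redA_sum (fun c _ => locA_cj (locA_cid he) _)]
    unfold tr
    rw [finsum_eq_sum_of_fintype]
    apply Finset.sum_congr rfl
    intro c _
    rw [redA_cj, redA_cid]
  have hWf : tr T ⊤ (cid (Subgroup.centralizer (P : Set G)) e) ∈ BrauerMap.ZAlg ℂ (⊤ : Subgroup G) :=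
    ⟨BrauerMap.mem_suppAlg_top _, tr_mem_fixAlg hcT⟩
  apply lift_unique (M := M) (mem_ZAlg_top (M := M) (eB_mem_center B)) hWf (eB_mul_self B)
    (tr_cid_idem he hTs) (locA_eB hB) hWl
  rw [hWr]
  exact hE5

end main


/-- Fix a prime p and a maximal ideal M of the algebraic integers containing p. Let P be a normal p-subgroup of the finite group G, B a p-block of G and e a p-block of C_G(P) such that (P, e) is a Brauer pair of B (as P is normal, this says that e occurs in the idempotent of B, which is supported on C_G(P)). Let T be the stabilizer of e in G under conjugation. Then the idempotent of e is a block idempotent of T: some block E of T has, at every element of T, the same idempotent coefficient as e (zero off C_G(P)); and the idempotent of B is the sum of the distinct G-conjugates of the idempotent of e: its coefficient at g is the sum over all x in G of the coefficient of e at x⁻¹ g x, divided by the order of T. -/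
theorem result {G : Type*} [Group G] [Fintype G] (p : ℕ) [Fact p.Prime] (M : Ideal Cfsg.AlgInt) (hM : Cfsg.IsPModular p M) (P : Subgroup G) [P.Normal] (hP : IsPGroup p P) (B : Set (Cfsg.IrrCharacter G)) (e : Set (Cfsg.IrrCharacter (Subgroup.centralizer (P : Set G)))) (hBe : Cfsg.IsBrauerPairOf p M B P e) (T : Subgroup G) (hT : ∀ x : G, x ∈ T ↔ Cfsg.StabilizesBlock (Subgroup.centralizer (P : Set G)) e x) : (∃ E : Set (Cfsg.IrrCharacter T), Cfsg.IsPBlock M E ∧ ∀ t : T, Cfsg.blockCoeff E t = Cfsg.subgroupBlockCoeff (Subgroup.centralizer (P : Set G)) e (t : G)) ∧ ∀ g : G, Cfsg.blockCoeff B g = (Nat.card T : ℂ)⁻¹ * ∑ x : G, Cfsg.subgroupBlockCoeff (Subgroup.centralizer (P : Set G)) e (x⁻¹ * g * x) := by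
  have hMm : M.IsMaximal := hM.2.1
  have hch : CharP (Kf M) p := charP_Kf hM
  have := hMm.isPrime
  obtain ⟨hPe, hB, hBe⟩ := isBrauerPairOf_iff.mp hBe
  have hN : (⊤ : Subgroup G) ≤ Subgroup.normalizer (P : Set G) := by
    rw [Subgroup.normalizer_eq_top]
  have hTs : T = stab ⊤ (bid M (Subgroup.centralizer (P : Set G)) e) := by
    ext x
    rw [hT, stabilizesBlock_iff (normalizer_le_normalizer_centralizer P (hN trivial)) hPe.2,
      mem_stab]
    exact ⟨fun h => ⟨trivial, h⟩, fun h => h.2⟩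
  have hblk := isBlk_bid hPe.2
  have hPT : P ≤ T := by
    rw [hTs]
    intro x hx
    exact ⟨trivial, (mem_fixAlg_of_supp_centralizer hblk.mem.1) x hx⟩
  have hCT : Subgroup.centralizer (P : Set G) ≤ T := by
    rw [hTs]
    intro x hx
    exact ⟨trivial, hblk.mem.2 x hx⟩
  have hst : ∀ x ∈ T, BrauerMap.cj x (bid M (Subgroup.centralizer (P : Set G)) e) =
      bid M (Subgroup.centralizer (P : Set G)) e := by
    rw [hTs]
    intro x hx
    exact hx.2
  refine ⟨?_, ?_⟩
  · obtain ⟨E, hE, _, h2⟩ := exists_block_of_stable hM hPT (fun x _ => hN trivial) hCT hP hPe.2 hst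
    exact ⟨E, hE, h2⟩
  obtain ⟨hcT, hfin⟩ := eB_eq_tr hM hP hB hPe.2 hBe hTs
  intro g
  have h1 := BrauerMap.coeff_eq_of_eq (sum_cj_eq hcT) g
  rw [BrauerMap.sum_coeff, BrauerMap.smul_coeff, ← hfin] at h1
  have h2 : (∑ x : G, subgroupBlockCoeff (Subgroup.centralizer (P : Set G)) e (x⁻¹ * g * x)) =
      (Nat.card T : ℂ) * blockCoeff B g := by
    rw [show blockCoeff B g = (eB B).coeff g from rfl, ← h1]
    apply Finset.sum_congr rfl
    intro x _
    rw [BrauerMap.cj_coeff, cid_coeff]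
  rw [h2, ← mul_assoc, inv_mul_cancel₀, one_mul]
  exact Nat.cast_ne_zero.mpr Nat.card_pos.ne'

end Cfsg.Agent.S4654
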