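import Cfsg.Statements.S4914
import Cfsg.Agent.Lib.RelGlaub3

set_option autoImplicit false
set_option maxHeartbeats 400000
open Cfsg

namespace Cfsg.Agent.S4914

open Cfsg Cfsg.Agent.Lib.CharBasic Cfsg.Agent.Lib.RelGlaub
open scoped ComplexConjugate

/-- The conjugation action of `P` on `K`. -/
def cact {G : Type*} [Group G] (P K : Subgroup G) (h : P ≤ Subgroup.normalizer (K : Set G)) : ↥P →* MulAut ↥K where
  toFun x :=
    { toFun := fun k => ⟨x * k * (x : G)⁻¹, (Subgroup.mem_set_normalizer_iff.1 (h x.2) k).1 k.2⟩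
      invFun := fun k => ⟨(x : G)⁻¹ * k * x, (Subgroup.mem_set_normalizer_iff.1 (h x.2) _).2 (by
        have : (x : G) * ((x : G)⁻¹ * k * x) * (x : G)⁻¹ = k := by group
        rw [this]; exact k.2)⟩
      left_inv := fun k => Subtype.ext (by
        show (x : G)⁻¹ * (x * k * (x : G)⁻¹) * x = k
        group)
      right_inv := fun k => Subtype.ext (by
        show (x : G) * ((x : G)⁻¹ * k * x) * (x : G)⁻¹ = k
        group)
      map_mul' := fun a b => Subtype.ext (by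
        show (x : G) * (a * b) * (x : G)⁻¹ = (x * a * (x : G)⁻¹) * (x * b * (x : G)⁻¹)
        group) }
  map_one' := by
    ext k
    show ((1 : ↥P) : G) * k * ((1 : ↥P) : G)⁻¹ = k
    simp
  map_mul' x y := by
    ext k
    show ((x * y : ↥P) : G) * k * ((x * y : ↥P) : G)⁻¹ = x * (y * k * (y : G)⁻¹) * (x : G)⁻¹
    rw [Subgroup.coe_mul]; group

theorem cact_coe {G : Type*} [Group G] (P K : Subgroup G) (h : P ≤ Subgroup.normalizer (K : Set G)) (x : ↥P) (k : ↥K) :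
    ((cact P K h x k : ↥K) : G) = x * k * (x : G)⁻¹ := rfl

/-- Let P and K be subgroups of a finite group G with P a p-group normalizing K, and suppose K has a normal Sylow p-subgroup Q. Let C be the subgroup of those k ∈ K whose commutator with every element of P lies in Q (so that C/Q is the fixed-point subgroup of P on K/Q). Then there is a bijection f from the P-invariant irreducible complex characters of K onto the P-invariant irreducible complex characters of C such that, for every P-invariant irreducible character χ of K, the multiplicity of f(χ) in the restriction of χ to C is a natural number congruent to 1 or to −1 modulo p, every other P-invariant irreducible character of C occurs in that restriction with multiplicity divisible by p, and the degrees of χ and f(χ) are congruent modulo p up to sign. -/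
theorem result {G : Type*} [Group G] [Finite G] (p : ℕ) [Fact p.Prime] (P K Q C : Subgroup G) (hP : IsPGroup p ↥P) (hPK : P ≤ Subgroup.normalizer (K : Set G)) (hQK : Q ≤ K) (hQn : ∀ k ∈ K, ∀ q ∈ Q, k * q * k⁻¹ ∈ Q) (hQp : ∃ a : ℕ, Nat.card ↥Q = p ^ a) (hQsyl : ¬ p ∣ Q.relIndex K) (hCK : C ≤ K) (hC : ∀ k : G, k ∈ C ↔ (k ∈ K ∧ ∀ x ∈ P, x * k * x⁻¹ * k⁻¹ ∈ Q)) : ∃ f : {χ : Cfsg.IrrCharacter ↥K // (∀ x ∈ P, ∀ k k' : ↥K, (k' : G) = x * (k : G) * x⁻¹ → (χ : ↥K → ℂ) k' = (χ : ↥K → ℂ) k)} → {ξ : Cfsg.IrrCharacter ↥C // (∀ x ∈ P, ∀ k k' : ↥C, (k' : G) = x * (k : G) * x⁻¹ → (ξ : ↥C → ℂ) k' = (ξ : ↥C → ℂ) k)}, Function.Bijective f ∧ ∀ χ, (∀ ξ : {ξ : Cfsg.IrrCharacter ↥C // (∀ x ∈ P, ∀ k k' : ↥C, (k' : G) = x * (k : G) * x⁻¹ → (ξ : ↥C → ℂ) k' = (ξ : ↥C → ℂ) k)}, ∃ m : ℕ, (Nat.card ↥C : ℂ)⁻¹ * ∑ᶠ c : ↥C, (χ.1 : ↥K → ℂ) (Subgroup.inclusion hCK c) * (starRingEnd ℂ) ((ξ.1 : ↥C → ℂ) c) = (m : ℂ) ∧ (ξ = f χ → ((m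 : ZMod p) = 1 ∨ (m : ZMod p) = -1)) ∧ (ξ ≠ f χ → p ∣ m)) ∧ ((Cfsg.charDegree ((f χ).1 : ↥C → ℂ) : ZMod p) = (Cfsg.charDegree (χ.1 : ↥K → ℂ) : ZMod p) ∨ (Cfsg.charDegree ((f χ).1 : ↥C → ℂ) : ZMod p) = -(Cfsg.charDegree (χ.1 : ↥K → ℂ) : ZMod p)) := by
  classical
  obtain ⟨M, hM⟩ := Lib.H76Char.exists_isPModular p
  have fK : Fintype ↥K := Fintype.ofFinite _
  have fC : Fintype ↥C := Fintype.ofFinite _
  have fC' : Fintype (C.subgroupOf K) := Fintype.ofFinite _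
  have hn : (Q.subgroupOf K).Normal := ⟨fun q hq k => hQn k k.2 q hq⟩
  have D : Setup p (cact P K hPK) (Q.subgroupOf K) (C.subgroupOf K) :=
    { hp := Fact.out
      hS := hP
      hQ := by
        obtain ⟨a, ha⟩ := hQp
        rw [IsPGroup.iff_card]
        exact ⟨a, by rw [← ha]; exact Nat.card_congr (Subgroup.subgroupOfEquivOfLe hQK).toEquiv⟩
      hidx := hQsyl
      hact := fun s q hq => by
        apply stable_of_sylow Fact.out _ hQsyl _ hq
        obtain ⟨a, ha⟩ := hQp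
        rw [IsPGroup.iff_card]
        exact ⟨a, by rw [← ha]; exact Nat.card_congr (Subgroup.subgroupOfEquivOfLe hQK).toEquiv⟩
      hC := fun k => by
        rw [Subgroup.mem_subgroupOf, hC]
        constructor
        · rintro ⟨-, h⟩ s
          exact h s s.2
        · intro h
          exact ⟨k.2, fun x hx => h ⟨x, hx⟩⟩ }
  set e : C.subgroupOf K ≃* ↥C := Subgroup.subgroupOfEquivOfLe hCK with he
  have hecoe : ∀ c : C.subgroupOf K, ((e c : ↥C) : G) = (c : ↥K) := fun c => rfl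
  -- invariance on `K`
  have hinvK : ∀ χ : ↥K → ℂ, (∀ x ∈ P, ∀ k k' : ↥K, (k' : G) = x * (k : G) * x⁻¹ → χ k' = χ k) ↔
      InvK (cact P K hPK) χ := by
    intro χ
    constructor
    · intro h s k
      exact h s s.2 k _ (cact_coe P K hPK s k)
    · intro h x hx k k' hk
      have h1 := h ⟨x, hx⟩ k
      have h2 : k' = cact P K hPK ⟨x, hx⟩ k := Subtype.ext (by rw [cact_coe]; exact hk)
      rw [h2, h1]
  -- invariance on `C`
  have hinvC : ∀ ξ : ↥C → ℂ, (∀ x ∈ P, ∀ k k' : ↥C, (k' : G) = x * (k : G) * x⁻¹ → ξ k' = ξ k) ↔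
      InvC D (fun c => ξ (e c)) := by
    intro ξ
    constructor
    · intro h s c
      exact h s s.2 (e c) _ (by rfl)
    · intro h x hx k k' hk
      have h1 := h ⟨x, hx⟩ (e.symm k)
      have h2 : e (e.symm k) = k := MulEquiv.apply_symm_apply _ _
      simp only [h2] at h1
      rw [← h1]
      congr 1
      apply Subtype.ext
      rw [hk, hecoe]
      rfl
  let pull : IrrCharacter ↥C → IrrCharacter (C.subgroupOf K) := fun ξ =>
    ⟨fun c => (ξ : ↥C → ℂ) (e c), (isIrrCharacter_comp_mulEquiv_iff e).2 ξ.2⟩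
  have hpull_inj : Function.Injective pull := by
    intro ξ ξ' h
    apply Subtype.ext
    funext c
    have h1 := congrArg (fun w : IrrCharacter (C.subgroupOf K) => (w : C.subgroupOf K → ℂ) (e.symm c)) h
    have h2 : (ξ : ↥C → ℂ) (e (e.symm c)) = (ξ' : ↥C → ℂ) (e (e.symm c)) := h1
    rwa [MulEquiv.apply_symm_apply] at h2
  have hpull_surj : ∀ ζ : IrrCharacter (C.subgroupOf K), ∃ ξ, pull ξ = ζ := by
    intro ζ
    refine ⟨⟨fun c => (ζ : C.subgroupOf K → ℂ) (e.symm c), (isIrrCharacter_comp_mulEquiv_iff e.symm).2 ζ.2⟩, ?_⟩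
    apply Subtype.ext
    funext c
    show (ζ : C.subgroupOf K → ℂ) (e.symm (e c)) = _
    rw [MulEquiv.symm_apply_apply]
  have hmult : ∀ (χ : IrrCharacter ↥K) (ξ : IrrCharacter ↥C),
      (Nat.card ↥C : ℂ)⁻¹ * ∑ᶠ c : ↥C, (χ : ↥K → ℂ) (Subgroup.inclusion hCK c) * (starRingEnd ℂ) ((ξ : ↥C → ℂ) c) =
        (Lib.GlaubCorr.mult (C.subgroupOf K).subtype χ (pull ξ) : ℂ) := by
    intro χ ξ
    rw [← Lib.GlaubCorr.mult_spec, classInner_def, finsum_eq_sum_of_fintype, Nat.card_congr e.toEquiv,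
      ← Equiv.sum_comp e.toEquiv]
    rfl
  have hex : ∀ χ : {χ : Cfsg.IrrCharacter ↥K // (∀ x ∈ P, ∀ k k' : ↥K, (k' : G) = x * (k : G) * x⁻¹ → (χ : ↥K → ℂ) k' = (χ : ↥K → ℂ) k)},
      ∃ ξ : {ξ : Cfsg.IrrCharacter ↥C // (∀ x ∈ P, ∀ k k' : ↥C, (k' : G) = x * (k : G) * x⁻¹ → (ξ : ↥C → ℂ) k' = (ξ : ↥C → ℂ) k)},
      ¬ p ∣ Lib.GlaubCorr.mult (C.subgroupOf K).subtype χ.1 (pull ξ.1) := by
    intro χ
    obtain ⟨ζ, hζ, h⟩ := claimA hM D χ.1 ((hinvK χ.1).1 χ.2)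
    obtain ⟨ξ, rfl⟩ := hpull_surj ζ
    exact ⟨⟨ξ, (hinvC ξ).2 hζ⟩, h⟩
  choose f hf using hex
  have hinvC' : ∀ ξ : {ξ : Cfsg.IrrCharacter ↥C // (∀ x ∈ P, ∀ k k' : ↥C, (k' : G) = x * (k : G) * x⁻¹ → (ξ : ↥C → ℂ) k' = (ξ : ↥C → ℂ) k)},
      InvC D (pull ξ.1 : C.subgroupOf K → ℂ) := fun ξ => (hinvC _).1 ξ.2
  refine ⟨f, ⟨?_, ?_⟩, ?_⟩
  · intro χ χ' h
    apply Subtype.ext
    have h1 : ¬ p ∣ Lib.GlaubCorr.mult (C.subgroupOf K).subtype χ'.1 (pull (f χ).1) := by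
      rw [h]; exact hf χ'
    exact claimD hM D (ξ := pull (f χ).1) (χ := χ.1) (χ' := χ'.1) (hinvC' (f χ)) ((hinvK χ.1).1 χ.2)
      ((hinvK χ'.1).1 χ'.2) (hf χ) h1
  · intro ξ
    obtain ⟨χ, hχ, h⟩ := claimC hM D (pull ξ.1) (hinvC' ξ)
    refine ⟨⟨χ, (hinvK χ).2 hχ⟩, ?_⟩
    apply Subtype.ext
    apply hpull_inj
    exact claimB hM D (χ := χ) (ξ := pull (f ⟨χ, (hinvK χ).2 hχ⟩).1) (ξ' := pull ξ.1) hχ (hinvC' _) (hinvC' ξ)
      (hf ⟨χ, (hinvK χ).2 hχ⟩) h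
  · intro χ
    have hE := claimE hM D (χ := χ.1) (ξ := pull (f χ).1) ((hinvK χ.1).1 χ.2) (hinvC' (f χ)) (hf χ)
    refine ⟨fun ξ => ⟨_, hmult χ.1 ξ.1, ?_, ?_⟩, hE.2⟩
    · rintro rfl; exact hE.1
    · intro hne
      by_contra h
      apply hne
      apply Subtype.ext
      apply hpull_inj
      exact claimB hM D (χ := χ.1) (ξ := pull ξ.1) (ξ' := pull (f χ).1) ((hinvK χ.1).1 χ.2) (hinvC' ξ)
        (hinvC' (f χ)) h (hf χ)

end Cfsg.Agent.S4914
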