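import Cfsg.Statements.S3430
import Mathlib
import Cfsg.Agent.Lib.Zsigmondy

set_option autoImplicit false
open Cfsg

namespace Cfsg.Agent.S3430

open Cfsg.Agent.Lib.Zsigmondy

theorem table : ∀ t ∈ exc, t ∉ [(2, 6), (2, 4), (2, 10), (2, 12), (2, 18), (3, 4), (3, 6), (5, 6)] →
    ∃ r ∈ [5, 7, 11, 13, 17, 19, 41],
    r ∣ t.1 ^ t.2 - 1 ∧ (∀ k ∈ Finset.Ico 1 t.2, ¬ r ∣ t.1 ^ k - 1) ∧ t.2 + 1 < r := by
  decide +kernel

/-- Let q, n ≥ 2 be integers. Unless (n = 2 and q + 1 = 2^s·3^t for some s ≥ 0 and t ≤ 1), or (q = 2 and n ∈ {4, 6, 10, 12, 18}), or (q = 3 and n ∈ {4, 6}), or (q, n) = (5, 6), there is a prime p dividing q^n − 1 but no q^i − 1 with 1 ≤ i < n (a primitive prime divisor), such that p > n + 1 or p² divides q^n − 1. -/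
theorem result (q n : ℕ) (hq : 2 ≤ q) (hn : 2 ≤ n)
    (h1 : ¬ (n = 2 ∧ ∃ s t : ℕ, t ≤ 1 ∧ q + 1 = 2 ^ s * 3 ^ t))
    (h2 : ¬ (q = 2 ∧ (n = 4 ∨ n = 6 ∨ n = 10 ∨ n = 12 ∨ n = 18)))
    (h3 : ¬ (q = 3 ∧ (n = 4 ∨ n = 6))) (h4 : ¬ (q = 5 ∧ n = 6)) :
    ∃ p : ℕ, p.Prime ∧ p ∣ q ^ n - 1 ∧ (∀ i : ℕ, 1 ≤ i → i < n → ¬ p ∣ q ^ i - 1) ∧ (n + 1 < p ∨ p ^ 2 ∣ q ^ n - 1) := by
  rcases Nat.lt_or_ge n 3 with hn3 | hn3
  · -- `n = 2`
    obtain rfl : n = 2 := by omega
    have hprim : ∀ p : ℕ, p.Prime → p ≠ 2 → p ∣ q + 1 → ∀ i : ℕ, 1 ≤ i → i < 2 → ¬ p ∣ q ^ i - 1 := by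
      intro p hp hp2 hpq i hi hi2 hdvd
      obtain rfl : i = 1 := by omega
      rw [pow_one] at hdvd
      have h4 := Nat.dvd_sub hpq hdvd
      have h5 : q + 1 - (q - 1) = 2 := by omega
      rw [h5] at h4
      exact hp2 ((Nat.prime_dvd_prime_iff_eq hp Nat.prime_two).1 h4)
    have hdv : ∀ d, d ∣ q + 1 → d ∣ q ^ 2 - 1 := fun d hd => by
      rw [sq_sub_one' (by omega)]; exact hd.mul_left _
    by_cases h5 : ∃ p : ℕ, p.Prime ∧ p ≠ 2 ∧ p ≠ 3 ∧ p ∣ q + 1
    · obtain ⟨p, hp, hp2, hp3, hpq⟩ := h5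
      refine ⟨p, hp, hdv p hpq, hprim p hp hp2 hpq, Or.inl ?_⟩
      have := hp.two_le
      omega
    · push Not at h5
      by_cases h9 : 9 ∣ q + 1
      · refine ⟨3, Nat.prime_three, hdv 3 ((by norm_num : 3 ∣ 9).trans h9),
          hprim 3 Nat.prime_three (by norm_num) ((by norm_num : 3 ∣ 9).trans h9), Or.inr (hdv _ h9)⟩
      · exfalso
        apply h1
        refine ⟨rfl, ?_⟩
        obtain ⟨t, c, hc, hqc⟩ := Nat.exists_eq_pow_mul_and_not_dvd (n := q + 1) (by omega) 3
          (by norm_num)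
        have ht : t ≤ 1 := by
          by_contra ht
          apply h9
          rw [hqc]
          have : (9 : ℕ) = 3 ^ 2 := by norm_num
          rw [this]
          exact (pow_dvd_pow 3 (by omega)).mul_right c
        have hc2 : c = 2 ^ (c.primeFactorsList.length) := by
          apply Nat.eq_prime_pow_of_unique_prime_dvd
          · rintro rfl
            simp at hc
          · intro d hd hdc
            by_contra hd2
            have hd3 : d ≠ 3 := by
              rintro rfl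
              exact hc hdc
            exact h5 d hd hd2 hd3 (by rw [hqc]; exact hdc.mul_left _)
        refine ⟨c.primeFactorsList.length, t, ht, ?_⟩
        rw [hqc, ← hc2, mul_comm]
  · by_cases hne : (q, n) ∈ exc
    · obtain ⟨r, hr, h5, h6, h7⟩ := table _ hne (by
        intro h
        simp only [List.mem_cons, Prod.mk.injEq, List.not_mem_nil, or_false] at h
        omega)
      refine ⟨r, ?_, h5, fun k hk hkn => h6 k (Finset.mem_Ico.2 ⟨hk, hkn⟩), Or.inl h7⟩
      simp only [List.mem_cons, List.not_mem_nil, or_false] at hr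
      rcases hr with rfl | rfl | rfl | rfl | rfl | rfl | rfl <;> norm_num
    · obtain ⟨m, hm1, hm2, hm3⟩ := primitive_part hq hn3 hne
      have hprim : ∀ r : ℕ, r.Prime → r ∣ m → ∀ i : ℕ, 1 ≤ i → i < n → ¬ r ∣ q ^ i - 1 := by
        intro r hr hrm k hk hkn h
        have h5 := Nat.dvd_gcd hrm h
        rw [hm2 k hk hkn] at h5
        exact hr.one_lt.ne' (Nat.dvd_one.1 h5)
      by_cases hbig : ∃ r : ℕ, r.Prime ∧ r ∣ m ∧ n + 1 < r
      · obtain ⟨r, hr, hrm, hrn⟩ := hbig
        exact ⟨r, hr, hrm.trans hm1, hprim r hr hrm, Or.inl hrn⟩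
      · push Not at hbig
        -- all primes are `n + 1`
        have hge : ∀ r : ℕ, r.Prime → r ∣ m → r = n + 1 := by
          intro r hr hrm
          have h5 := hbig r hr hrm
          by_contra hne'
          have h6 : r - 1 < n := by omega
          have h7 : ¬ r ∣ q := by
            intro h
            have h8 := hrm.trans hm1
            have h9 : r ∣ q ^ n := h.trans (dvd_pow_self q (by omega))
            have h10 : 1 ≤ q ^ n := Nat.one_le_pow _ _ (by omega)
            have h11 := Nat.dvd_sub h9 h8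
            have h12 : q ^ n - (q ^ n - 1) = 1 := by omega
            rw [h12] at h11
            exact hr.one_lt.ne' (Nat.dvd_one.1 h11)
          have : Fact r.Prime := ⟨hr⟩
          refine hprim r hr hrm (r - 1) (by have := hr.two_le; omega) h6 ?_
          rw [dvd_pow_sub_one_iff (by omega)]
          apply ZMod.pow_card_sub_one_eq_one
          intro h
          exact h7 ((ZMod.natCast_eq_zero_iff q r).1 h)
        obtain ⟨r, hr, hrm⟩ := Nat.exists_prime_and_dvd (by omega : m ≠ 1)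
        have hrn := hge r hr hrm
        refine ⟨r, hr, hrm.trans hm1, hprim r hr hrm, Or.inr ?_⟩
        have h5 : m = r ^ (m.primeFactorsList.length) := by
          apply Nat.eq_prime_pow_of_unique_prime_dvd (by omega)
          intro d hd hdm
          rw [hge d hd hdm, hrn]
        refine Dvd.dvd.trans ?_ hm1
        rw [h5]
        apply pow_dvd_pow
        by_contra hlt
        push Not at hlt
        have h6 : m ≤ r ^ 1 := by
          rw [h5]
          exact Nat.pow_le_pow_right hr.pos (by omega)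
        rw [pow_one] at h6
        omega

end Cfsg.Agent.S3430
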