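import Mathlib
import Cfsg.Statements.S4200

set_option autoImplicit false
open Cfsg

namespace Cfsg.Agent.S4200

open scoped Classical in
/-- indicator of commuting -/
noncomputable def ind {X : Type*} [Group X] (a b : X) : ℕ := if Commute a b then 1 else 0

theorem ind_comm {X : Type*} [Group X] (a b : X) : ind a b = ind b a := by
  classical
  unfold ind
  congr 1
  exact propext ⟨fun h => h.symm, fun h => h.symm⟩

theorem pairs_eq {X : Type*} [Group X] [Fintype X] :
    Nat.card (ConjClasses X) * Nat.card X = ∑ a : X, ∑ b : X, ind a b := by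
  classical
  rw [← card_comm_eq_card_conjClasses_mul_card, Nat.card_eq_fintype_card, Fintype.card_subtype, Finset.card_filter,
    Fintype.sum_prod_type]
  rfl

theorem cent_card {X : Type*} [Group X] [Fintype X] (a : X) :
    ∑ b : X, ind a b = Nat.card (Subgroup.centralizer ({a} : Set X)) := by
  classical
  have : Nat.card (Subgroup.centralizer ({a} : Set X)) = Nat.card {b : X // Commute a b} :=
    Nat.card_congr (Equiv.subtypeEquivRight fun b => by
      rw [Subgroup.mem_centralizer_singleton_iff]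
      exact ⟨fun h => h.symm, fun h => h.symm⟩)
  rw [this, Nat.card_eq_fintype_card, Fintype.card_subtype, Finset.card_filter]
  rfl

theorem cent_card_sub {X : Type*} [Group X] [Fintype X] (Y : Subgroup X) [Fintype Y] (a : X) :
    ∑ b : Y, ind a (b : X) = Nat.card (Subgroup.centralizer ({a} : Set X) ⊓ Y : Subgroup X) := by
  classical
  have : Nat.card (Subgroup.centralizer ({a} : Set X) ⊓ Y : Subgroup X) = Nat.card {b : Y // Commute a (b : X)} := by
    refine Nat.card_congr ⟨fun b => ⟨⟨b.1, b.2.2⟩, ?_⟩, fun b => ⟨b.1.1, ?_, b.1.2⟩, fun _ => rfl, fun _ => rfl⟩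
    · have := Subgroup.mem_centralizer_singleton_iff.1 (Subgroup.mem_inf.1 b.2).1
      exact this.symm
    · exact Subgroup.mem_centralizer_singleton_iff.2 b.2.symm
  rw [this, Nat.card_eq_fintype_card, Fintype.card_subtype, Finset.card_filter]
  rfl

theorem relIndex_eq_orbit {X : Type*} [Group X] (Y C : Subgroup X) :
    Y.relIndex C = (MulAction.orbit C (QuotientGroup.mk 1 : X ⧸ Y)).ncard := by
  rw [← MulAction.index_stabilizer]
  have : MulAction.stabilizer C (QuotientGroup.mk 1 : X ⧸ Y) = Y.subgroupOf C := by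
    ext c
    rw [MulAction.mem_stabilizer_iff, Subgroup.mem_subgroupOf]
    change (QuotientGroup.mk ((c : X) • 1) : X ⧸ Y) = QuotientGroup.mk 1 ↔ _
    rw [QuotientGroup.eq]
    simp
  rw [this]
  rfl

theorem card_eq {X : Type*} [Group X] [Finite X] (Y C : Subgroup X) :
    Nat.card (C ⊓ Y : Subgroup X) * Y.relIndex C = Nat.card C := by
  have h1 : (⊥ : Subgroup X).relIndex (C ⊓ Y) * (C ⊓ Y).relIndex C = (⊥ : Subgroup X).relIndex C :=
    Subgroup.relIndex_mul_relIndex ⊥ (C ⊓ Y) C bot_le inf_le_left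
  rw [Subgroup.relIndex_bot_left, Subgroup.relIndex_bot_left, Subgroup.inf_relIndex_left] at h1
  exact h1

theorem relIndex_le {X : Type*} [Group X] [Finite X] (Y C : Subgroup X) : Y.relIndex C ≤ Y.index := by
  rw [← Subgroup.relIndex_top_right]
  apply Subgroup.relIndex_le_of_le_right le_top
  rw [Subgroup.relIndex_top_right]
  exact Subgroup.FiniteIndex.index_ne_zero

theorem star {X : Type*} [Group X] [Fintype X] (Y : Subgroup X) [Fintype Y] (a : X) :
    ∑ b : X, ind a b ≤ Y.index * ∑ b : Y, ind a (b : X) := by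
  rw [cent_card, cent_card_sub, ← card_eq Y, mul_comm]
  exact Nat.mul_le_mul_right _ (relIndex_le _ _)

theorem star_lt {X : Type*} [Group X] [Fintype X] (Y : Subgroup X) [Fintype Y] (a g : X) (ha : a ∈ Y)
    (hg : g * a * g⁻¹ ∉ Y) :
    ∑ b : X, ind a b < Y.index * ∑ b : Y, ind a (b : X) := by
  refine lt_of_le_of_ne (star Y a) ?_
  intro heq
  rw [cent_card, cent_card_sub, ← card_eq Y, mul_comm] at heq
  have h1 : Y.relIndex (Subgroup.centralizer ({a} : Set X)) = Y.index :=
    Nat.eq_of_mul_eq_mul_right Nat.card_pos heq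
  rw [relIndex_eq_orbit, Subgroup.index, ← Set.ncard_univ] at h1
  have h2 : MulAction.orbit (Subgroup.centralizer ({a} : Set X)) (QuotientGroup.mk 1 : X ⧸ Y) = Set.univ :=
    Set.eq_of_subset_of_ncard_le (Set.subset_univ _) h1.ge (Set.toFinite _)
  have h3 : (QuotientGroup.mk g⁻¹ : X ⧸ Y) ∈ MulAction.orbit (Subgroup.centralizer ({a} : Set X)) (QuotientGroup.mk 1 : X ⧸ Y) := by
    rw [h2]; trivial
  obtain ⟨c, hc⟩ := h3
  have hc' : (QuotientGroup.mk ((c : X) * 1) : X ⧸ Y) = QuotientGroup.mk g⁻¹ := hc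
  rw [QuotientGroup.eq, mul_one] at hc'
  -- c⁻¹ g⁻¹ = y ∈ Y
  apply hg
  have hca : (c : X) * a = a * c := Subgroup.mem_centralizer_singleton_iff.1 c.2
  have h4 : g * a * g⁻¹ = ((c:X)⁻¹ * g⁻¹)⁻¹ * a * ((c:X)⁻¹ * g⁻¹) := by
    have : (c:X)⁻¹ * a * c = a := by
      rw [mul_assoc, ← hca]; group
    calc g * a * g⁻¹ = g * (c * (((c:X)⁻¹ * a * c)) * (c:X)⁻¹) * g⁻¹ := by group
      _ = g * (c * a * (c:X)⁻¹) * g⁻¹ := by rw [this]
      _ = _ := by group
  rw [h4]
  exact Y.mul_mem (Y.mul_mem (Y.inv_mem hc') ha) hc'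

/-- Let Y be a subgroup of the finite group X, of index m. Then the numbers of conjugacy classes satisfy k(Y) ≤ m·k(X) and k(X) ≤ m·k(Y), and the second inequality is strict unless Y is normal in X. -/
theorem result {X : Type*} [Group X] [Finite X] (Y : Subgroup X) : Nat.card (ConjClasses Y) ≤ Y.index * Nat.card (ConjClasses X) ∧ Nat.card (ConjClasses X) ≤ Y.index * Nat.card (ConjClasses Y) ∧ (¬ Y.Normal → Nat.card (ConjClasses X) < Y.index * Nat.card (ConjClasses Y)) := by
  classical
  have := Fintype.ofFinite X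
  have := Fintype.ofFinite Y
  have hX := pairs_eq (X := X)
  have hY := pairs_eq (X := Y)
  have hY' : ∑ a : Y, ∑ b : Y, ind a b = ∑ a : Y, ∑ b : Y, ind (a : X) (b : X) := by
    apply Finset.sum_congr rfl; intro a _
    apply Finset.sum_congr rfl; intro b _
    unfold ind
    congr 1
    apply propext
    constructor
    · intro h; exact congrArg Subtype.val h
    · intro h; exact Subtype.ext h
  have hc := Y.card_mul_index
  have hpos : 0 < Nat.card Y := Nat.card_pos
  have hposX : 0 < Nat.card X := Nat.card_pos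
  have hsub : ∀ f : X → ℕ, ∑ a : Y, f a ≤ ∑ a : X, f a := by
    intro f
    rw [← Finset.sum_subtype (Finset.univ.filter (· ∈ Y)) (by simp) f]
    exact Finset.sum_le_sum_of_subset (Finset.filter_subset _ _)
  have hswap : ∑ a : X, ∑ b : Y, ind a (b : X) = ∑ b : Y, ∑ a : X, ind (b : X) a := by
    rw [Finset.sum_comm]
    apply Finset.sum_congr rfl; intro a _
    apply Finset.sum_congr rfl; intro b _
    exact ind_comm _ _
  have hA : ∑ a : X, ∑ b : X, ind a b ≤ Y.index * ∑ b : Y, ∑ a : X, ind (b : X) a := by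
    rw [← hswap, Finset.mul_sum]
    exact Finset.sum_le_sum fun a _ => star Y a
  have hB : ∑ b : Y, ∑ a : X, ind (b : X) a ≤ Y.index * ∑ a : Y, ∑ b : Y, ind (a : X) (b : X) := by
    rw [Finset.mul_sum]
    exact Finset.sum_le_sum fun a _ => star Y a
  refine ⟨?_, ?_, ?_⟩
  · apply Nat.le_of_mul_le_mul_right _ hpos
    calc Nat.card (ConjClasses Y) * Nat.card Y = ∑ a : Y, ∑ b : Y, ind (a : X) (b : X) := by rw [hY, hY']
      _ ≤ ∑ a : Y, ∑ b : X, ind (a : X) b := Finset.sum_le_sum fun a _ => hsub _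
      _ ≤ ∑ a : X, ∑ b : X, ind a b := hsub (fun a => ∑ b : X, ind a b)
      _ = Nat.card (ConjClasses X) * (Nat.card Y * Y.index) := by rw [hc, hX]
      _ = _ := by ring
  · apply Nat.le_of_mul_le_mul_right _ hposX
    calc Nat.card (ConjClasses X) * Nat.card X ≤ Y.index * (Y.index * ∑ a : Y, ∑ b : Y, ind (a : X) (b : X)) := by
          rw [hX]; exact hA.trans (Nat.mul_le_mul_left _ hB)
      _ = Y.index * (Y.index * (Nat.card (ConjClasses Y) * Nat.card Y)) := by rw [hY, hY']
      _ = Y.index * Nat.card (ConjClasses Y) * Nat.card X := by rw [← hc]; ring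
  · intro hn
    have hex : ∃ a ∈ Y, ∃ g : X, g * a * g⁻¹ ∉ Y := by
      by_contra hcon
      push Not at hcon
      exact hn ⟨hcon⟩
    obtain ⟨a, ha, g, hg⟩ := hex
    have hB' : ∑ b : Y, ∑ a : X, ind (b : X) a < Y.index * ∑ a : Y, ∑ b : Y, ind (a : X) (b : X) := by
      rw [Finset.mul_sum]
      exact Finset.sum_lt_sum (fun a _ => star Y a) ⟨⟨a, ha⟩, Finset.mem_univ _, star_lt Y a g ha hg⟩
    have hi : 0 < Y.index := Nat.pos_of_ne_zero Subgroup.FiniteIndex.index_ne_zero
    apply Nat.lt_of_mul_lt_mul_right (a := Nat.card X)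
    calc Nat.card (ConjClasses X) * Nat.card X < Y.index * (Y.index * ∑ a : Y, ∑ b : Y, ind (a : X) (b : X)) := by
          rw [hX]; exact lt_of_le_of_lt hA (Nat.mul_lt_mul_of_pos_left hB' hi)
      _ = Y.index * (Y.index * (Nat.card (ConjClasses Y) * Nat.card Y)) := by rw [hY, hY']
      _ = Y.index * Nat.card (ConjClasses Y) * Nat.card X := by rw [← hc]; ring

end Cfsg.Agent.S4200
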