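import Cfsg.Statements.S0606
import Cfsg.Agent.Lib.ThompsonJ
import Cfsg.Agent.Lib.ProdCard

set_option autoImplicit false
open Cfsg

namespace Cfsg.Agent.S0606

/-- Elementary abelian p-subgroups of maximal order are best offenders on any normal elementary abelian p-subgroup. -/
theorem result {G : Type*} [Group G] [Finite G] {p : ℕ} [Fact p.Prime] (V : Subgroup G) [V.Normal] (hV : Cfsg.IsElementaryAbelian p V) (A : Subgroup G) (hA : A ∈ Cfsg.maxElementaryAbelianSubgroups p G) : Cfsg.IsBestOffenderOn p V A := by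
  rw [Cfsg.Agent.Lib.ThompsonJ.maxElementaryAbelian_eq] at hA
  have hAe := Cfsg.Agent.Lib.ThompsonJ.elemAb_iff.mp hA.2.1
  refine ⟨?_, ?_, ?_⟩
  · intro B hB
    have hCB : Cfsg.IsElementaryAbelian p (V ⊓ Subgroup.centralizer (B : Set G)) :=
      Cfsg.Agent.Lib.ThompsonJ.elemAb_mono hV inf_le_left
    have hBe : Cfsg.IsElementaryAbelian p B := Cfsg.Agent.Lib.ThompsonJ.elemAb_mono hA.2.1 hB
    have hc : B ≤ Subgroup.centralizer ((V ⊓ Subgroup.centralizer (B : Set G) : Subgroup G) : Set G) := by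
      rw [Subgroup.le_centralizer_iff]
      exact inf_le_right
    have h1 := hA.2.2 _ le_top (Cfsg.Agent.Lib.ThompsonJ.elemAb_sup hBe hCB hc)
    have h2 := Cfsg.Agent.Lib.ProdCard.card_sup_mul_card_inf (A := B)
      (H := V ⊓ Subgroup.centralizer (B : Set G)) (hc.trans (Subgroup.centralizer_le_normalizer _))
    have h3 : Nat.card ↥(B ⊓ (V ⊓ Subgroup.centralizer (B : Set G)) : Subgroup G) ≤
        Nat.card ↥(V ⊓ Subgroup.centralizer (A : Set G)) := by
      apply Subgroup.card_le_of_le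
      intro x hx
      exact ⟨hx.2.1, hAe.1 (hB hx.1)⟩
    rw [← h2]
    exact Nat.mul_le_mul h1 h3
  · have : ⁅A, A⁆ = ⊥ := by
      rw [Subgroup.commutator_eq_bot_iff_le_centralizer]
      exact hAe.1
    rw [this]
    exact bot_le
  · intro a ha
    rw [hAe.2 a ha]
    exact one_mem _

end Cfsg.Agent.S0606
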