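import Cfsg.Statements.S4058
import Cfsg.Agent.Lib.FrobSchur
import Cfsg.Agent.Lib.CharBasic2
import Cfsg.Agent.Lib.CharCentral
import Cfsg.Agent.Lib.H70Frattini

set_option autoImplicit false
open Cfsg

namespace Cfsg.Agent.S4058

open Cfsg.Agent.Lib.CharBasic Cfsg.Agent.Lib.FrobSchur
open scoped ComplexConjugate

universe u

/-- Sum of an invariant function over a set with a group action. -/
theorem dvd_sum_of_orbits {H X : Type*} [Group H] [MulAction H X] [Fintype X] {m : ℤ}
    (f : X → ℤ) (hf : ∀ (h : H) (x : X), f (h • x) = f x)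
    (hm : ∀ x : X, m ∣ f x * ((MulAction.stabilizer H x).index : ℤ)) : m ∣ ∑ x, f x := by
  classical
  have : Fintype (MulAction.orbitRel.Quotient H X) := Fintype.ofFinite _
  rw [← Finset.sum_fiberwise Finset.univ (fun x => (Quotient.mk'' x : MulAction.orbitRel.Quotient H X)) f]
  apply Finset.dvd_sum
  intro ω _
  obtain ⟨x0, rfl⟩ := Quotient.exists_rep ω
  have hmem : ∀ x, ((Quotient.mk'' x : MulAction.orbitRel.Quotient H X) = Quotient.mk (MulAction.orbitRel H X) x0) ↔
      x ∈ MulAction.orbit H x0 := by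
    intro x
    rw [← MulAction.orbitRel_apply]
    exact Quotient.eq (r := MulAction.orbitRel H X)
  have h2 : ∀ x ∈ Finset.univ.filter (fun x => (Quotient.mk'' x : MulAction.orbitRel.Quotient H X) =
      Quotient.mk (MulAction.orbitRel H X) x0), f x = f x0 := by
    intro x hx
    rw [Finset.mem_filter, hmem] at hx
    obtain ⟨-, h, rfl⟩ := hx
    exact hf h x0
  rw [Finset.sum_congr rfl h2, Finset.sum_const, nsmul_eq_mul, mul_comm]
  have h3 := hm x0
  rw [MulAction.index_stabilizer] at h3
  have h4 : (Finset.univ.filter (fun x => (Quotient.mk'' x : MulAction.orbitRel.Quotient H X) =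
      Quotient.mk (MulAction.orbitRel H X) x0)).card = (MulAction.orbit H x0).ncard := by
    rw [← Set.ncard_coe_finset]
    congr 1
    ext x
    simp only [Finset.coe_filter, Finset.mem_univ, true_and, Set.mem_ofPred_eq]
    exact hmem x
  rw [h4]
  exact h3

section

variable {G : Type u} [Group G] [Finite G]

/-- The twisting group. -/
abbrev Lam (G : Type u) [Group G] : Type u := (G ⧸ frattini G) →* ℂˣ

theorem lin_char (l : Lam G) : IsCharacter G (fun g : G => (l (g : G ⧸ frattini G) : ℂ)) :=
  isCharacter_of_unitsHom (l.comp (QuotientGroup.mk' (frattini G)))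

/-- Twist an irreducible character by a linear character of the Frattini quotient. -/
noncomputable def twist (l : Lam G) (χ : IrrCharacter G) : IrrCharacter G :=
  ⟨(χ : G → ℂ) * (fun g : G => (l (g : G ⧸ frattini G) : ℂ)), χ.2.mul_linear (lin_char l) (by simp)⟩

theorem twist_apply (l : Lam G) (χ : IrrCharacter G) (g : G) :
    (twist l χ : G → ℂ) g = (χ : G → ℂ) g * (l (g : G ⧸ frattini G) : ℂ) := rfl

noncomputable instance twistAction : MulAction (Lam G) (IrrCharacter G) where
  smul := twist
  one_smul χ := by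
    apply Subtype.ext
    funext g
    show (χ : G → ℂ) g * ((1 : Lam G) (g : G ⧸ frattini G) : ℂ) = _
    simp
  mul_smul l m χ := by
    apply Subtype.ext
    funext g
    show (χ : G → ℂ) g * ((l * m) (g : G ⧸ frattini G) : ℂ) = (χ : G → ℂ) g * (m (g : G ⧸ frattini G) : ℂ) * (l (g : G ⧸ frattini G) : ℂ)
    simp only [MonoidHom.mul_apply, Units.val_mul]
    ring

theorem smul_apply (l : Lam G) (χ : IrrCharacter G) (g : G) :
    ((l • χ : IrrCharacter G) : G → ℂ) g = (χ : G → ℂ) g * (l (g : G ⧸ frattini G) : ℂ) := rfl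

theorem card_stabilizer_le (χ : IrrCharacter G) {n : ℕ} (hn : (χ : G → ℂ) 1 = n) :
    Nat.card (MulAction.stabilizer (Lam G) χ) ≤ n ^ 2 := by
  classical
  have := Fintype.ofFinite G
  have hψ : IsCharacter G ((χ : G → ℂ) * (fun g => conj ((χ : G → ℂ) g))) := χ.2.isCharacter.mul χ.2.isCharacter.conj
  obtain ⟨c, hc, hsum⟩ := hψ.exists_coeff
  have hdeg : ∀ ψ : IrrCharacter G, ∃ d : ℕ, (ψ : G → ℂ) 1 = d := fun ψ => by
    obtain ⟨d, -, hd⟩ := ψ.2.exists_degree
    exact ⟨d, hd⟩
  choose d hd using hdeg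
  have h1 : n ^ 2 = ∑ ψ : IrrCharacter G, c ψ * d ψ := by
    have h2 := congrFun hsum 1
    simp only [Pi.mul_apply, hn, Finset.sum_apply, Pi.smul_apply, smul_eq_mul] at h2
    have h3 : (conj (n : ℂ)) = n := Complex.conj_natCast n
    rw [h3] at h2
    simp only [hd] at h2
    rw [pow_two]
    exact_mod_cast h2
  rw [h1]
  let toIrr : MulAction.stabilizer (Lam G) χ → IrrCharacter G := fun l =>
    ⟨fun g => ((l : Lam G) (g : G ⧸ frattini G) : ℂ), isIrrCharacter_of_unitsHom ((l : Lam G).comp (QuotientGroup.mk' (frattini G)))⟩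
  have hinj : Function.Injective toIrr := by
    intro l m hlm
    apply Subtype.ext
    apply MonoidHom.ext
    intro g
    obtain ⟨g, rfl⟩ := QuotientGroup.mk_surjective g
    apply Units.ext
    exact congrFun (congrArg Subtype.val hlm) g
  have hcd : ∀ l, c (toIrr l) * d (toIrr l) = 1 := by
    intro l
    have hd1 : d (toIrr l) = 1 := by
      have h2 := hd (toIrr l)
      have h3 : (toIrr l : G → ℂ) 1 = 1 := by simp [toIrr]
      rw [h3] at h2
      exact_mod_cast h2.symm
    have hc1 : c (toIrr l) = 1 := by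
      have h2 := hc (toIrr l)
      have h3 : classInner ((χ : G → ℂ) * (fun g => conj ((χ : G → ℂ) g))) (toIrr l : G → ℂ) = classInner (χ : G → ℂ) (χ : G → ℂ) := by
        rw [classInner_def, classInner_def]
        congr 1
        apply Finset.sum_congr rfl
        intro g _
        have h4 : (χ : G → ℂ) g * ((l : Lam G) (g : G ⧸ frattini G) : ℂ) = (χ : G → ℂ) g := by
          have h5 := l.2
          rw [MulAction.mem_stabilizer_iff] at h5
          exact congrFun (congrArg Subtype.val h5) g
        simp only [Pi.mul_apply, toIrr]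
        rw [mul_assoc, ← map_mul, h4]
      rw [h3, χ.2.classInner_self] at h2
      exact_mod_cast h2.symm
    rw [hc1, hd1]
  have : Fintype (MulAction.stabilizer (Lam G) χ) := by
    have : Finite (MulAction.stabilizer (Lam G) χ) := Finite.of_injective toIrr hinj
    exact Fintype.ofFinite _
  rw [Nat.card_eq_fintype_card, Fintype.card, Finset.card_eq_sum_ones]
  calc ∑ _l : MulAction.stabilizer (Lam G) χ, 1 = ∑ l : MulAction.stabilizer (Lam G) χ, c (toIrr l) * d (toIrr l) :=
        Finset.sum_congr rfl (fun l _ => (hcd l).symm)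
    _ = ∑ ψ ∈ Finset.univ.image toIrr, c ψ * d ψ := (Finset.sum_image (f := fun ψ => c ψ * d ψ) (fun a _ b _ h => hinj h)).symm
    _ ≤ ∑ ψ, c ψ * d ψ := Finset.sum_le_sum_of_subset (Finset.subset_univ _)

end

/-- Let G be a finite 2-group with #(G/Φ(G)) ≥ 2^(2k+1). Then the number of elements x of G with x² = 1 is divisible by 2^(k+1). -/
theorem result {G : Type*} [Group G] [Finite G] (hG : IsPGroup 2 G) (k : ℕ)
    (hgen : 2 ^ (2 * k + 1) ≤ Nat.card (G ⧸ frattini G)) :
    2 ^ (k + 1) ∣ Nat.card {x : G // x ^ 2 = 1} := by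
  classical
  have := Fintype.ofFinite G
  -- the order of the twisting group
  have hcomm : commutator (G ⧸ frattini G) = ⊥ := by
    have h1 := Cfsg.Agent.Lib.H70Frattini.commutator_le_frattini hG
    rw [commutator_def, ← Subgroup.map_top_of_surjective (QuotientGroup.mk' (frattini G))
      (QuotientGroup.mk'_surjective _), ← Subgroup.map_commutator, ← commutator_def,
      Subgroup.map_eq_bot_iff, QuotientGroup.ker_mk']
    exact h1
  have hcard : Nat.card (Lam G) = Nat.card (G ⧸ frattini G) := by
    rw [card_hom_units, hcomm, Subgroup.index_bot]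
  obtain ⟨d, hd⟩ := IsPGroup.iff_card.1 (hG.to_quotient (frattini G))
  have hdk : 2 * k + 1 ≤ d := by
    rw [hd] at hgen
    exact (Nat.pow_le_pow_iff_right (by norm_num)).1 hgen
  -- signs and degrees
  have hsgn : ∀ χ : IrrCharacter G, ∃ e : ℤ, fsInd (χ : G → ℂ) = e := by
    intro χ
    rcases (fsInd_trichotomy χ.2).1 with h | h | h
    · exact ⟨0, by rw [h]; simp⟩
    · exact ⟨1, by rw [h]; simp⟩
    · exact ⟨-1, by rw [h]; simp⟩
  choose e he using hsgn
  have hdeg : ∀ ψ : IrrCharacter G, ∃ j : ℕ, (ψ : G → ℂ) 1 = ((2 ^ j : ℕ) : ℂ) := fun ψ => by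
    obtain ⟨n, ρ, hρ, h⟩ := ψ.2
    have : ρ.IsIrreducible := hρ
    have h1 := Cfsg.Agent.Lib.CharCentral.finrank_dvd_card ρ
    obtain ⟨m, hm⟩ := IsPGroup.iff_card.1 hG
    rw [hm] at h1
    obtain ⟨j, -, hj⟩ := (Nat.dvd_prime_pow Nat.prime_two).1 h1
    refine ⟨j, ?_⟩
    rw [← h, Representation.char_one, hj]
  choose j hj using hdeg
  have hN : ((Nat.card {x : G // x ^ 2 = 1} : ℕ) : ℤ) = ∑ χ : IrrCharacter G, e χ * 2 ^ j χ := by
    have h1 : Nat.card {x : G // x ^ 2 = 1} = Nat.card {s : G // s * s = 1} := by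
      simp only [pow_two]
    have h2 := card_sq_eq_one (G := G)
    rw [← h1] at h2
    have h3 : ((Nat.card {x : G // x ^ 2 = 1} : ℕ) : ℂ) = ((∑ χ : IrrCharacter G, e χ * 2 ^ j χ : ℤ) : ℂ) := by
      rw [h2]
      push_cast
      apply Finset.sum_congr rfl
      intro χ _
      rw [he, hj]
      push_cast
      ring
    exact_mod_cast h3
  have hmain : ((2 ^ (k + 1) : ℕ) : ℤ) ∣ ((Nat.card {x : G // x ^ 2 = 1} : ℕ) : ℤ) := by
    rw [hN]
    apply dvd_sum_of_orbits (H := Lam G)
    · intro l χ
      have h1 : e (l • χ) = e χ := by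
        have h2 : fsInd ((l • χ : IrrCharacter G) : G → ℂ) = fsInd (χ : G → ℂ) := by
          unfold fsInd
          congr 1
          apply Finset.sum_congr rfl
          intro s _
          rw [smul_apply]
          have h3 : ((s * s : G) : G ⧸ frattini G) = 1 := by
            rw [QuotientGroup.eq_one_iff, ← pow_two]
            exact Cfsg.Agent.Lib.H70Frattini.pow_mem_frattini hG s
          rw [h3, map_one, Units.val_one, mul_one]
        rw [he, he] at h2
        exact_mod_cast h2
      have h2 : j (l • χ) = j χ := by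
        have h3 : ((l • χ : IrrCharacter G) : G → ℂ) 1 = (χ : G → ℂ) 1 := by
          rw [smul_apply]
          have h4 : ((1 : G) : G ⧸ frattini G) = 1 := rfl
          rw [h4, map_one, Units.val_one, mul_one]
        rw [hj, hj] at h3
        exact Nat.pow_right_injective le_rfl (by exact_mod_cast h3)
      rw [h1, h2]
    · intro χ
      have : Finite (Lam G) := by
        apply Nat.finite_of_card_ne_zero
        rw [hcard]
        exact Nat.card_pos.ne'
      have h1 := (MulAction.stabilizer (Lam G) χ).card_mul_index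
      rw [hcard, hd] at h1
      have h2 : Nat.card (MulAction.stabilizer (Lam G) χ) ∣ 2 ^ d := Dvd.intro _ h1
      obtain ⟨s, hsd, hs⟩ := (Nat.dvd_prime_pow Nat.prime_two).1 h2
      have h3 := card_stabilizer_le χ (hj χ)
      rw [hs, ← pow_mul] at h3
      have h4 : s ≤ j χ * 2 := (Nat.pow_le_pow_iff_right (by norm_num)).1 h3
      have h5 : (MulAction.stabilizer (Lam G) χ).index = 2 ^ (d - s) := by
        rw [hs] at h1
        apply Nat.eq_of_mul_eq_mul_left (show 0 < 2 ^ s by positivity)
        rw [h1, ← pow_add]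
        congr 1
        omega
      rw [h5]
      have h6 : e χ * 2 ^ j χ * ((2 ^ (d - s) : ℕ) : ℤ) = e χ * ((2 ^ (j χ + (d - s)) : ℕ) : ℤ) := by
        push_cast
        rw [pow_add, mul_assoc]
      rw [h6]
      apply Dvd.dvd.mul_left
      exact_mod_cast pow_dvd_pow 2 (show k + 1 ≤ j χ + (d - s) by omega)
  exact_mod_cast hmain

end Cfsg.Agent.S4058
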