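import Cfsg.Statements.S3879
import Mathlib
import Cfsg.Agent.Lib.H64Metacyclic

set_option autoImplicit false
open Cfsg Cfsg.Agent.Lib.H64Metacyclic

namespace Cfsg.Agent.S3879

/-- Let p be an odd prime and G a finite metacyclic p-group (G has a cyclic normal subgroup with cyclic quotient). Then the index of the center of G is the square of the order of the derived subgroup: |G : Z(G)| = |G'|². -/
theorem result {G : Type*} [Group G] [Finite G] {p : ℕ} [Fact p.Prime] (hp : p ≠ 2) (hG : IsPGroup p G) (hmc : Cfsg.IsMetacyclic G) : (Subgroup.center G).index = Nat.card ↥(commutator G) ^ 2 := by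
  obtain ⟨N, hN, h1, h2⟩ := hmc
  obtain ⟨a, x, hx, htop, hNa⟩ := met_top h1 h2
  have key := relIndex_centralizer hp hG a _ x hx rfl
  rw [← htop, top_inf_eq, Subgroup.relIndex_top_right] at key
  set C : Subgroup G := Subgroup.centralizer (Subgroup.zpowers a : Set G) with hC
  have hAC : Subgroup.zpowers a ≤ C := by
    intro y hy
    rw [hC, Subgroup.mem_centralizer_iff]
    intro z hz
    exact (zpowers_comm a y hy z hz).symm
  have hCab : ∀ c ∈ C, ∀ d ∈ C, c * d = d * c := by
    intro c hc d hd
    have hc' : c ∈ Subgroup.zpowers a ⊔ Subgroup.zpowers x := by rw [← htop]; trivial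
    have hd' : d ∈ Subgroup.zpowers a ⊔ Subgroup.zpowers x := by rw [← htop]; trivial
    obtain ⟨y, hy, i, rfl⟩ := (mem_zpowers_sup hx).1 hc'
    obtain ⟨z, hz, j, rfl⟩ := (mem_zpowers_sup hx).1 hd'
    have hxi : x ^ i ∈ C := (Subgroup.mul_mem_cancel_left C (hAC hy)).1 hc
    have hxj : x ^ j ∈ C := (Subgroup.mul_mem_cancel_left C (hAC hz)).1 hd
    have e1 : z * x ^ i = x ^ i * z := Subgroup.mem_centralizer_iff.1 hxi z hz
    have e2 : y * x ^ j = x ^ j * y := Subgroup.mem_centralizer_iff.1 hxj y hy
    calc y * x ^ i * (z * x ^ j) = y * (x ^ i * z) * x ^ j := by group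
      _ = (y * z) * (x ^ i * x ^ j) := by rw [← e1]; group
      _ = (z * y) * (x ^ j * x ^ i) := by rw [zpowers_comm a y hy z hz, ← zpow_add, ← zpow_add, add_comm]
      _ = z * (y * x ^ j) * x ^ i := by group
      _ = z * x ^ j * (y * x ^ i) := by rw [e2]; group
  have hCn : C.Normal := by
    rw [hC, ← hNa]
    exact Subgroup.normal_centralizer
  have hxC : x ∈ Subgroup.normalizer (C : Set G) := by
    rw [Subgroup.normalizer_eq_top]; trivial
  have h3 := card_commutator_mul C hCab x hxC
  have h4 : C ⊔ Subgroup.zpowers x = ⊤ := by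
    rw [eq_top_iff, htop]
    exact sup_le_sup_right hAC _
  have h5 : C ⊓ Subgroup.centralizer ({x} : Set G) = Subgroup.center G := by
    apply le_antisymm
    · intro z hz
      obtain ⟨hz1, hz2⟩ := Subgroup.mem_inf.1 hz
      rw [Subgroup.mem_center_iff]
      have h6 : (⊤ : Subgroup G) ≤ Subgroup.centralizer ({z} : Set G) := by
        rw [← h4]
        refine sup_le ?_ ?_
        · intro c hc
          rw [Subgroup.mem_centralizer_singleton_iff]
          exact hCab c hc z hz1
        · rw [Subgroup.zpowers_le, Subgroup.mem_centralizer_singleton_iff]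
          exact (Subgroup.mem_centralizer_singleton_iff.1 hz2).symm
      intro g
      exact Subgroup.mem_centralizer_singleton_iff.1 (h6 (Subgroup.mem_top g))
    · intro z hz
      rw [Subgroup.mem_center_iff] at hz
      refine Subgroup.mem_inf.2 ⟨?_, ?_⟩
      · rw [hC, Subgroup.mem_centralizer_iff]
        intro y _
        exact hz y
      · rw [Subgroup.mem_centralizer_singleton_iff]
        exact (hz x).symm
  rw [h4, h5] at h3
  have h6 : Nat.card ↥(commutator G) = Nat.card ↥⁅(⊤ : Subgroup G), (⊤ : Subgroup G)⁆ := rfl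
  have h7 : C.index * Nat.card C = Nat.card G := C.index_mul_card
  have h8 : (Subgroup.center G).index * Nat.card (Subgroup.center G) = Nat.card G := (Subgroup.center G).index_mul_card
  rw [h6]
  rw [key, ← h3] at h7
  have h9 : 0 < Nat.card (Subgroup.center G) := Nat.card_pos
  apply Nat.eq_of_mul_eq_mul_right h9
  rw [h8, ← h7]; ring

end Cfsg.Agent.S3879
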