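import Cfsg.Statements.S3880
import Mathlib
import Cfsg.Agent.Lib.H64Metacyclic

set_option autoImplicit false
open Cfsg Cfsg.Agent.Lib.H64Metacyclic

namespace Cfsg.Agent.S3880

/-- Let p be an odd prime and G a finite metacyclic p-group (G has a cyclic normal subgroup with cyclic quotient). Then a subgroup L of G is abelian if and only if |L| ≤ |G : G'|, and L is a maximal abelian subgroup of G if and only if |L| = |G : G'|. -/
theorem result {G : Type*} [Group G] [Finite G] {p : ℕ} [Fact p.Prime] (hp : p ≠ 2) (hG : IsPGroup p G) (hmc : Cfsg.IsMetacyclic G) (L : Subgroup G) :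
    (IsMulCommutative ↥L ↔ Nat.card ↥L ≤ (commutator G).index) ∧
      (Maximal (fun K : Subgroup G => IsMulCommutative ↥K) L ↔ Nat.card ↥L = (commutator G).index) := by
  obtain ⟨N, hN, h1, h2⟩ := hmc
  obtain ⟨a, x, hx, htop, hNa⟩ := met_top h1 h2
  have hmet : Met (⊤ : Subgroup G) := ⟨a, x, hx, htop⟩
  have hcomm : (commutator G) = ⁅(⊤ : Subgroup G), (⊤ : Subgroup G)⁆ := rfl
  have hidx : (commutator G).index * Nat.card ↥⁅(⊤ : Subgroup G), (⊤ : Subgroup G)⁆ = Nat.card G := by
    rw [← hcomm]; exact (commutator G).index_mul_card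
  have hpos : 0 < Nat.card ↥⁅(⊤ : Subgroup G), (⊤ : Subgroup G)⁆ := Nat.card_pos
  have hab : ∀ L : Subgroup G, ⁅L, L⁆ = ⊥ → ∃ K : Subgroup G, L ≤ K ∧ ⁅K, K⁆ = ⊥ ∧ Nat.card K = (commutator G).index := by
    intro L hL
    obtain ⟨K, hLK, -, hK, hc⟩ := abelian_subgroup hp hG L hL _ ⊤ rfl hmet le_top
    refine ⟨K, hLK, hK, ?_⟩
    rw [Subgroup.card_top, ← hidx] at hc
    exact Nat.eq_of_mul_eq_mul_right hpos hc
  have hiff : ∀ L : Subgroup G, ⁅L, L⁆ = ⊥ ↔ Nat.card ↥L ≤ (commutator G).index := by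
    intro L
    constructor
    · intro hL
      obtain ⟨K, hLK, -, hc⟩ := hab L hL
      rw [← hc]; exact Subgroup.card_le_of_le hLK
    · intro hle
      by_contra hL
      have h3 := nonabelian_subgroup hp hG L hL _ ⊤ rfl hmet le_top
      rw [Subgroup.card_top, ← hidx] at h3
      have h4 : Nat.card L = (commutator G).index * Nat.card ↥⁅L, L⁆ := by
        apply Nat.eq_of_mul_eq_mul_right hpos
        rw [h3]; ring
      have h5 : 1 < Nat.card ↥⁅L, L⁆ := by
        rw [Subgroup.one_lt_card_iff_ne_bot]; exact hL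
      have h6 : 0 < (commutator G).index := Nat.pos_of_ne_zero Subgroup.index_ne_zero_of_finite
      have h7 : (commutator G).index < (commutator G).index * Nat.card ↥⁅L, L⁆ := lt_mul_of_one_lt_right h6 h5
      omega
  refine ⟨by rw [isMulComm_iff_commutator]; exact hiff L, ?_⟩
  constructor
  · rintro ⟨hL, hmax⟩
    have hL' : ⁅L, L⁆ = ⊥ := (isMulComm_iff_commutator L).1 hL
    obtain ⟨K, hLK, hK, hc⟩ := hab L hL'
    have : K ≤ L := hmax ((isMulComm_iff_commutator K).2 hK) hLK
    rw [le_antisymm hLK this, hc]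
  · intro hc
    refine ⟨(isMulComm_iff_commutator L).2 ((hiff L).2 hc.le), ?_⟩
    intro K hK hLK
    have h3 : Nat.card K ≤ (commutator G).index := (hiff K).1 ((isMulComm_iff_commutator K).1 hK)
    exact (Subgroup.eq_of_le_of_card_ge hLK (by rw [hc]; exact h3)).ge

end Cfsg.Agent.S3880
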