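import Cfsg.Statements.S3762
import Mathlib
import Cfsg.Agent.Lib.HallSymp
import Cfsg.Agent.Lib.Blackburn
import Cfsg.Agent.S3761

set_option autoImplicit false
open Cfsg

namespace Cfsg.Agent.S3762

open Subgroup Cfsg.Agent.Lib Cfsg.Agent.Lib.HallSymp
open scoped commutatorElement Pointwise

universe u

variable {G : Type u} [Group G] [Finite G] {p : ℕ} [hp : Fact p.Prime]

theorem comm_of_card_le {R : Type u} [Group R] [Finite R] {k : ℕ} (hk : k ≤ 2) (hc : Nat.card R = p ^ k) :
    IsMulCommutative R := by
  rw [isMulCommutative_iff]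
  have h : k = 0 ∨ k = 1 ∨ k = 2 := by omega
  rcases h with rfl | rfl | rfl
  · rw [pow_zero] at hc
    have := (Nat.card_eq_one_iff_unique.1 hc).1
    intro a b; exact Subsingleton.elim _ _
  · rw [pow_one] at hc
    have := isCyclic_of_prime_card hc
    exact fun a b => (IsCyclic.commGroup (α := R)).mul_comm a b
  · exact fun a b => (IsPGroup.commGroupOfCardEqPrimeSq hc).mul_comm a b

/-- the conclusion -/
def Concl (p : ℕ) (G : Type u) [Group G] : Prop :=
  ∃ E R : Subgroup G, (∀ e ∈ E, ∀ r ∈ R, e * r = r * e) ∧ E ⊔ R = ⊤ ∧ (E = ⊥ ∨ Cfsg.IsExtraspecial p ↥E) ∧ (IsCyclic R ∨ (p = 2 ∧ 16 ≤ Nat.card R ∧ ((∃ m : ℕ, Nonempty (↥R ≃* DihedralGroup m)) ∨ (∃ m : ℕ, Nonempty (↥R ≃* QuaternionGroup m)) ∨ Cfsg.IsQuasiDihedral ↥R)))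

theorem cubeCase {Z E : Subgroup G} (hG : IsPGroup p G) (hZc : Nat.card Z = p) (hZcen : Z ≤ center G)
    (hsup : E ⊔ centralizer (E : Set G) = ⊤) (hpow : ∀ x ∈ E, x ^ p ∈ Z)
    (hcomm : ∀ x ∈ E, ∀ y ∈ E, ⁅x, y⁆ ∈ Z) (hcen : ∀ x ∈ E, (∀ y ∈ E, x * y = y * x) → x ∈ Z)
    (hna : ¬ IsMulCommutative (centralizer (E : Set G)))
    (hc : Nat.card (centralizer (E : Set G)) = p ^ 3) : Concl p G := by
  set R : Subgroup G := centralizer (E : Set G) with hR
  have hne : ⁅R, R⁆ ≠ ⊥ := by
    intro h
    apply hna
    rw [commutator_eq_bot_iff_le_centralizer] at h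
    exact le_centralizer_iff_isMulCommutative.mp h
  obtain ⟨h1, h2⟩ := Blackburn.cube_facts hc hne
  have hZR : Z ≤ R := hZcen.trans (center_le_centralizer _)
  have hZeq : Z = R ⊓ centralizer (R : Set G) := by
    apply Subgroup.eq_of_le_of_card_ge
    · exact le_inf hZR (hZcen.trans (center_le_centralizer _))
    · rw [h2, h1, hZc]
  have hcR : ∀ r ∈ R, ∀ r' ∈ R, ⁅r, r'⁆ ∈ Z := by
    intro r hr r' hr'
    rw [hZeq, h2]
    exact commutator_mem_commutator hr hr'
  have hZn : Z.Normal := by
    constructor
    intro z hz g
    rw [mem_center_iff.1 (hZcen hz) g, mul_inv_cancel_right]; exact hz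
  have hpR : ∀ r ∈ R, r ^ p ∈ Z := by
    intro r hr
    have hcenR : center R = Z.subgroupOf R := by
      ext x
      rw [mem_center_iff, mem_subgroupOf, hZeq]
      constructor
      · intro h
        refine Subgroup.mem_inf.2 ⟨x.2, mem_centralizer_iff.2 fun y hy => ?_⟩
        exact congrArg Subtype.val (h ⟨y, hy⟩)
      · intro h y
        exact Subtype.ext (mem_centralizer_iff.1 h.2 y y.2)
    have hcardq : Nat.card (R ⧸ center R) = p ^ 2 := by
      have h3 := (center R).card_mul_index
      rw [hc, hcenR, Nat.card_congr (subgroupOfEquivOfLe hZR).toEquiv, hZc] at h3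
      rw [hcenR]
      show (Z.subgroupOf R).index = p ^ 2
      have h4 : p * (Z.subgroupOf R).index = p * p ^ 2 := by rw [h3]; ring
      exact Nat.eq_of_mul_eq_mul_left hp.out.pos h4
    have h5 : orderOf ((⟨r, hr⟩ : R) : R ⧸ center R) ∣ p ^ 2 := by
      rw [← hcardq]; exact orderOf_dvd_natCard _
    obtain ⟨k, hk, hk2⟩ := (Nat.dvd_prime_pow hp.out).1 h5
    have h6 : k ≤ 1 := by
      by_contra hcon
      have hk' : k = 2 := by omega
      rw [hk'] at hk2
      have hcyc : IsCyclic (R ⧸ center R) := isCyclic_of_orderOf_eq_card _ (by rw [hk2, hcardq])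
      apply hna
      rw [isMulCommutative_iff]
      exact commutative_of_cyclic_center_quotient (QuotientGroup.mk' (center R)) (by rw [QuotientGroup.ker_mk'])
    have h7 : ((⟨r, hr⟩ : R) : R ⧸ center R) ^ p = 1 := by
      apply orderOf_dvd_iff_pow_eq_one.1
      rw [hk2]
      calc p ^ k ∣ p ^ 1 := pow_dvd_pow p h6
        _ = p := pow_one p
    rw [← QuotientGroup.mk_pow, QuotientGroup.eq_one_iff, hcenR, mem_subgroupOf] at h7
    exact h7
  have hdec : ∀ x : G, ∃ e ∈ E, ∃ r ∈ R, e * r = x := by
    intro x
    have hx : x ∈ E ⊔ R := by rw [hsup]; exact mem_top x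
    have hn : R ≤ normalizer (E : Set G) := centralizer_le_normalizer _
    rw [sup_comm, Components.mem_sup_of_le_normalizer hn] at hx
    obtain ⟨r, hr, e, he, rfl⟩ := hx
    exact ⟨e, he, r, hr, (mem_centralizer_iff.1 hr e he)⟩
  have hER : ∀ e ∈ E, ∀ r ∈ R, Commute e r := fun e he r hr => mem_centralizer_iff.1 hr e he
  refine ⟨⊤, ⊥, ?_, by simp, Or.inr ?_, Or.inl inferInstance⟩
  · intro e _ r hr
    rw [mem_bot] at hr
    rw [hr, mul_one, one_mul]
  · apply isExtraspecial_sub (hG.to_subgroup ⊤) hZc le_top
    · intro x _ hx
      obtain ⟨e, he, r, hr, rfl⟩ := hdec x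
      have heZ : e ∈ Z := by
        refine hcen e he fun y hy => ?_
        have h3 := hx y (mem_top y)
        have h4 : r * y = y * r := (hER y hy r hr).eq.symm
        have h5 : e * y * r = y * e * r := by
          rw [mul_assoc e y r, ← h4, ← mul_assoc, h3, mul_assoc]
        exact mul_right_cancel h5
      have hrZ : r ∈ Z := by
        rw [hZeq]
        refine Subgroup.mem_inf.2 ⟨hr, mem_centralizer_iff.2 fun y hy => ?_⟩
        have h3 := hx y (mem_top y)
        have h4 : e * y = y * e := (hER e he y hy).eq
        have h5 : e * (y * r) = e * (r * y) := by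
          rw [← mul_assoc, h4, mul_assoc y e r, ← h3, mul_assoc]
        exact mul_left_cancel h5
      exact mul_mem heZ hrZ
    · intro z hz y _
      exact (mem_center_iff.1 (hZcen hz) y).symm
    · intro x _ y _
      obtain ⟨e, he, r, hr, rfl⟩ := hdec x
      obtain ⟨e', he', r', hr', rfl⟩ := hdec y
      have hq : ∀ a b : G, ⁅a, b⁆ ∈ Z → Commute (a : G ⧸ Z) (b : G ⧸ Z) := by
        intro a b hab
        rw [← commutatorElement_eq_one_iff_commute]
        have : ⁅(a : G ⧸ Z), (b : G ⧸ Z)⁆ = ((⁅a, b⁆ : G) : G ⧸ Z) := rfl
        rw [this, QuotientGroup.eq_one_iff]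
        exact hab
      have hq' : ∀ a b : G, Commute a b → Commute (a : G ⧸ Z) (b : G ⧸ Z) := fun a b h =>
        h.map (QuotientGroup.mk' Z)
      rw [← QuotientGroup.eq_one_iff]
      have h3 : Commute ((e * r : G) : G ⧸ Z) ((e' * r' : G) : G ⧸ Z) := by
        rw [QuotientGroup.mk_mul, QuotientGroup.mk_mul]
        exact ((hq e e' (hcomm e he e' he')).mul_right (hq' e r' (hER e he r' hr'))).mul_left
          ((hq' r e' (hER e' he' r hr).symm).mul_right (hq r r' (hcR r hr r' hr')))
      exact commutatorElement_eq_one_iff_commute.2 h3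
    · intro x _
      obtain ⟨e, he, r, hr, rfl⟩ := hdec x
      rw [(hER e he r hr).mul_pow]
      exact mul_mem (hpow e he) (hpR r hr)
    · intro h
      have h3 := Subgroup.card_le_of_le (hZR)
      have h4 := Subgroup.card_le_of_le ((le_top : R ≤ ⊤).trans h)
      rw [hc, hZc] at h4
      have h5 : p ^ 1 < p ^ 3 := Nat.pow_lt_pow_right hp.out.one_lt (by norm_num)
      rw [pow_one] at h5
      omega

theorem final (hG : IsPGroup p G)
    (hsymp : ∀ A : Subgroup G, A.Characteristic → IsMulCommutative A → IsCyclic A)
    {U Z E : Subgroup G} (hU : U.Characteristic) {n : ℕ} (hUn : Nat.card U = p ^ n) (hcyc : IsCyclic U)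
    (hZchar : Z.Characteristic) (hZ : ∀ x, x ∈ Z ↔ x ∈ U ∧ x ^ p = 1) (hZc : Nat.card Z = p)
    (hZcen : Z ≤ center G) (hEx : E = ⊥ ∨ IsExtraspecial p E)
    (hsup : E ⊔ centralizer (E : Set G) = ⊤) (hpow : ∀ x ∈ E, x ^ p ∈ Z)
    (hcomm : ∀ x ∈ E, ∀ y ∈ E, ⁅x, y⁆ ∈ Z) (hcen : ∀ x ∈ E, (∀ y ∈ E, x * y = y * x) → x ∈ Z)
    (hEU : E ≤ centralizer (U : Set G))
    (hCU : centralizer (E : Set G) ⊓ centralizer (U : Set G) = U) : Concl p G := by
  set R : Subgroup G := centralizer (E : Set G) with hR
  have hER : ∀ e ∈ E, ∀ r ∈ R, e * r = r * e := fun e he r hr => mem_centralizer_iff.1 hr e he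
  have hUR : U ≤ R := by rw [← hCU]; exact inf_le_left
  have hUab : ∀ x ∈ U, ∀ y ∈ U, x * y = y * x := by
    intro x hx y hy
    have hx' : x ∈ centralizer (U : Set G) := by
      have := hx
      rw [← hCU] at this
      exact this.2
    exact (mem_centralizer_iff.1 hx' y hy).symm
  by_cases hna : IsMulCommutative R
  · refine ⟨E, R, hER, hsup, hEx, Or.inl ?_⟩
    have h1 : R ≤ U := by
      intro x hx
      rw [← hCU]
      refine Subgroup.mem_inf.2 ⟨hx, mem_centralizer_iff.2 fun y hy => ?_⟩
      exact (isMulCommutative_iff_of_setLike.mp hna y (hUR hy) x hx)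
    have h2 : R = U := le_antisymm h1 hUR
    rw [h2]; exact hcyc
  · have hU' : (U.subgroupOf R).Normal := inferInstance
    have hcyc' : IsCyclic (U.subgroupOf R) := (subgroupOfEquivOfLe hUR).isCyclic.2 hcyc
    have hcardU' : Nat.card (U.subgroupOf R) = p ^ n := by
      rw [Nat.card_congr (subgroupOfEquivOfLe hUR).toEquiv, hUn]
    have hcent' : centralizer ((U.subgroupOf R : Subgroup R) : Set R) = U.subgroupOf R := by
      ext x
      rw [mem_subgroupOf]
      constructor
      · intro h
        rw [← hCU]
        refine Subgroup.mem_inf.2 ⟨x.2, mem_centralizer_iff.2 fun y hy => ?_⟩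
        exact congrArg Subtype.val (mem_centralizer_iff.1 h ⟨y, hUR hy⟩ hy)
      · intro h
        rw [mem_centralizer_iff]
        intro y hy
        exact Subtype.ext (hUab y hy x h)
    have hres := S3761.result (hG.to_subgroup R) hna (U.subgroupOf R) hcyc' n hcardU' hcent'
    have hsmall : n ≤ 2 → Nat.card R = p ^ (n + 1) → Concl p G := by
      intro hn hc
      have hn2 : n = 2 := by
        by_contra hne
        exact hna (comm_of_card_le (by omega) hc)
      subst hn2
      exact cubeCase hG hZc hZcen hsup hpow hcomm hcen hna hc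
    rcases hres with ⟨hp2, hc, htype⟩ | ⟨hrel, hel, hcardΩ, -⟩
    · by_cases hn : n ≤ 2
      · exact hsmall hn (by rw [hc, hp2])
      · refine ⟨E, R, hER, hsup, hEx, Or.inr ⟨hp2, ?_, htype⟩⟩
        rw [hc]
        calc 16 = 2 ^ 4 := by norm_num
          _ ≤ 2 ^ (n + 1) := Nat.pow_le_pow_right (by norm_num) (by omega)
    · obtain ⟨⟨u, hu⟩, hgen⟩ := hcyc.exists_generator
      have hUu : U = zpowers u := by
        apply le_antisymm
        · intro x hx
          obtain ⟨k, hk⟩ := mem_zpowers_iff.1 (hgen ⟨x, hx⟩)
          exact mem_zpowers_iff.2 ⟨k, congrArg Subtype.val hk⟩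
        · rwa [zpowers_le]
      have huo : orderOf u = p ^ n := by rw [← hUn, hUu, Nat.card_zpowers]
      by_cases hn : n ≤ 2
      · -- the centralizer is everything
        have h1 : centralizer ((Cfsg.powerClosure p 1 (U.subgroupOf R) : Subgroup R) : Set R) = ⊤ := by
          rw [eq_top_iff]
          have h2 : Cfsg.powerClosure p 1 (U.subgroupOf R) ≤ center R := by
            refine (closure_le _).2 ?_
            rintro _ ⟨x, hx, rfl⟩
            rw [pow_one, SetLike.mem_coe, mem_center_iff]
            intro y
            have hxU : (x : G) ∈ U := hx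
            have hxZ : (x : G) ^ p ∈ Z := by
              rw [hZ]
              refine ⟨pow_mem hxU p, ?_⟩
              rw [← pow_mul, ← pow_two]
              have h3 : orderOf (x : G) ∣ p ^ n := by
                rw [← hUn]; exact Subgroup.orderOf_dvd_natCard U hxU
              exact orderOf_dvd_iff_pow_eq_one.1 (h3.trans (pow_dvd_pow p hn))
            exact Subtype.ext (mem_center_iff.1 (hZcen hxZ) y)
          intro x _
          rw [mem_centralizer_iff]
          intro y hy
          exact (mem_center_iff.1 (h2 hy) x).symm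
        rw [h1, relIndex_top_right] at hrel
        apply hsmall hn
        rw [← (U.subgroupOf R).card_mul_index, hcardU', hrel, pow_succ]
      · exfalso
        -- notation
        set M' : Subgroup R := centralizer ((Cfsg.powerClosure p 1 (U.subgroupOf R) : Subgroup R) : Set R) with hM'
        set W' : Subgroup R := omegaOne p M' with hW'
        have hW'M : W' ≤ M' := by
          refine (closure_le _).2 fun x hx => hx.1
        have hU'M : U.subgroupOf R ≤ M' := by
          intro x hx
          rw [hM', mem_centralizer_iff]
          intro y hy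
          have h2 : Cfsg.powerClosure p 1 (U.subgroupOf R) ≤ U.subgroupOf R := by
            refine (closure_le _).2 ?_
            rintro _ ⟨x, hx, rfl⟩
            exact pow_mem hx _
          exact Subtype.ext (hUab y (h2 hy) x hx)
        -- `W' ≰ U'`
        have hW'U : ¬ W' ≤ U.subgroupOf R := by
          intro h
          have hcW : IsCyclic W' := by
            have : IsCyclic (W'.subgroupOf (U.subgroupOf R)) := inferInstance
            exact (subgroupOfEquivOfLe h).isCyclic.1 this
          obtain ⟨g, hg⟩ := hcW.exists_generator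
          have h3 : orderOf g = p ^ 2 := by rw [orderOf_eq_card_of_forall_mem_zpowers hg, hcardΩ]
          have h4 : g ^ p = 1 := Subtype.ext (hel.2 g g.2)
          have h5 := orderOf_dvd_of_pow_eq_one h4
          rw [h3] at h5
          have h6 := Nat.le_of_dvd hp.out.pos h5
          have h7 : p ^ 1 < p ^ 2 := Nat.pow_lt_pow_right hp.out.one_lt (by norm_num)
          rw [pow_one] at h7
          omega
        have hMsup : M' = U.subgroupOf R ⊔ W' := by
          have h3 : (U.subgroupOf R).relIndex (U.subgroupOf R ⊔ W') *
              (U.subgroupOf R ⊔ W').relIndex M' = p := by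
            rw [relIndex_mul_relIndex _ _ _ le_sup_left (sup_le hU'M hW'M)]
            exact hrel
          rcases (Nat.dvd_prime hp.out).1 (Dvd.intro _ h3) with h4 | h4
          · exfalso
            rw [relIndex_eq_one] at h4
            exact hW'U (le_sup_right.trans h4)
          · rw [h4] at h3
            have h5 : (U.subgroupOf R ⊔ W').relIndex M' = 1 :=
              Nat.eq_of_mul_eq_mul_left hp.out.pos (by rw [h3, mul_one])
            rw [relIndex_eq_one] at h5
            exact le_antisymm h5 (sup_le hU'M hW'M)
        -- the characteristic subgroup `K`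
        let K : Subgroup G := closure {x : G | (∀ y ∈ U, Commute x (y ^ p)) ∧ x ^ p ∈ Z}
        have hKchar : K.Characteristic := by
          rw [characteristic_iff_le_comap]
          intro φ
          refine (closure_le _).2 ?_
          rintro x ⟨hx1, hx2⟩
          show φ x ∈ K
          refine subset_closure ⟨?_, ?_⟩
          · intro y hy
            have h3 : φ.symm y ∈ U := by
              have := characteristic_iff_le_comap.1 hU φ.symm hy
              exact this
            have h4 := (hx1 _ h3).map φ.toMonoidHom
            have h5 : φ.toMonoidHom (φ.symm y ^ p) = y ^ p := by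
              show φ (φ.symm y ^ p) = y ^ p
              rw [map_pow, φ.apply_symm_apply]
            rw [h5] at h4
            exact h4
          · show φ x ^ p ∈ Z
            have := characteristic_iff_le_comap.1 hZchar φ hx2
            rw [mem_comap, map_pow] at this
            exact this
        -- membership of `M`
        have hMmem : ∀ r (hr : r ∈ R), (∀ y ∈ U, Commute r (y ^ p)) ↔ (⟨r, hr⟩ : R) ∈ M' := by
          intro r hr
          constructor
          · intro h
            rw [hM']
            have h2 : Cfsg.powerClosure p 1 (U.subgroupOf R) ≤ centralizer {(⟨r, hr⟩ : R)} := by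
              refine (closure_le _).2 ?_
              rintro _ ⟨x, hx, rfl⟩
              rw [pow_one, SetLike.mem_coe, mem_centralizer_singleton_iff]
              exact Subtype.ext (h x hx).eq.symm
            rw [mem_centralizer_iff]
            intro y hy
            exact mem_centralizer_singleton_iff.1 (h2 hy)
          · intro h y hy
            have h3 := mem_centralizer_iff.1 h (⟨y, hUR hy⟩ ^ p) (subset_closure ⟨⟨y, hUR hy⟩, hy, by rw [pow_one]⟩)
            exact (congrArg Subtype.val h3).symm
        -- `W` centralizes `K`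
        have hWK : ∀ w : R, w ∈ W' → ∀ x ∈ K, Commute (w : G) x := by
          intro w hw
          have hwM : ∀ y ∈ U, Commute (w : G) (y ^ p) := (hMmem w w.2).2 (hW'M hw)
          have h2 : K ≤ centralizer {(w : G)} := by
            refine (closure_le _).2 ?_
            rintro x ⟨hx1, hx2⟩
            rw [SetLike.mem_coe, mem_centralizer_singleton_iff]
            -- decompose
            have hx : x ∈ E ⊔ R := by rw [hsup]; exact mem_top x
            have hn : R ≤ normalizer (E : Set G) := centralizer_le_normalizer _
            rw [sup_comm, Components.mem_sup_of_le_normalizer hn] at hx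
            obtain ⟨r, hr, e, he, rfl⟩ := hx
            have her : Commute e r := hER e he r hr
            have hrM : (⟨r, hr⟩ : R) ∈ M' := by
              rw [← hMmem]
              intro y hy
              have h3 := hx1 y hy
              have h4 : Commute e (y ^ p) := by
                have h5 := mem_centralizer_iff.1 (hEU he) y hy
                exact (show Commute e y from h5.symm).pow_right p
              have h6 : r = (r * e) * e⁻¹ := by group
              rw [h6]
              exact h3.mul_left h4.inv_left
            have hrZ : r ^ p ∈ Z := by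
              rw [her.symm.mul_pow] at hx2
              have h3 : r ^ p = (r ^ p * e ^ p) * (e ^ p)⁻¹ := by group
              rw [h3]
              exact mul_mem hx2 (inv_mem (hpow e he))
            rw [hMsup] at hrM
            have hn2 : W' ≤ normalizer ((U.subgroupOf R : Subgroup R) : Set R) := le_normalizer_of_normal
            rw [sup_comm, Components.mem_sup_of_le_normalizer hn2] at hrM
            obtain ⟨w', hw', v, hv, hwv⟩ := hrM
            have hwv' : (w' : G) * v = r := congrArg Subtype.val hwv
            have hvU : (v : G) ∈ U := hv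
            -- `[v, w'] ∈ Z`
            have hUn : U.Normal := inferInstance
            have hcZ : ⁅(v : G), (w' : G)⁆ ∈ Z := by
              have h3 : ⁅(v : G), (w' : G)⁆ ∈ U := by
                rw [commutatorElement_def, mul_assoc, mul_assoc, ← mul_assoc (w' : G)]
                exact mul_mem hvU (hUn.conj_mem _ (inv_mem hvU) w')
              rw [hZ]
              refine ⟨h3, ?_⟩
              have h4 : ∀ k : ℕ, ⁅(v : G) ^ k, (w' : G)⁆ = ⁅(v : G), (w' : G)⁆ ^ k := by
                intro k
                induction k with
                | zero => simp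
                | succ k ih =>
                  have e1 : ⁅(v : G) ^ (k + 1), (w' : G)⁆ =
                      ((v : G) ^ k * ⁅(v : G), (w' : G)⁆ * ((v : G) ^ k)⁻¹) * ⁅(v : G) ^ k, (w' : G)⁆ := by
                    simp only [commutatorElement_def, pow_succ]; group
                  have e2 : (v : G) ^ k * ⁅(v : G), (w' : G)⁆ * ((v : G) ^ k)⁻¹ = ⁅(v : G), (w' : G)⁆ := by
                    rw [hUab _ (pow_mem hvU k) _ h3, mul_inv_cancel_right]
                  rw [e1, e2, ih, pow_succ']
              rw [← h4, commutatorElement_eq_one_iff_commute]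
              exact ((hMmem w' w'.2).2 (hW'M hw') v hvU).symm
            have hZn : Z.Normal := inferInstance
            have hvZ : (v : G) ^ p ∈ Z := by
              have h3 : Commute ((v : G) : G ⧸ Z) ((w' : G) : G ⧸ Z) := by
                rw [← commutatorElement_eq_one_iff_commute]
                have : ⁅((v : G) : G ⧸ Z), ((w' : G) : G ⧸ Z)⁆ = ((⁅(v : G), (w' : G)⁆ : G) : G ⧸ Z) := rfl
                rw [this, QuotientGroup.eq_one_iff]
                exact hcZ
              have h4 : (w' : G) ^ p = 1 := congrArg Subtype.val (hel.2 w' hw')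
              rw [← hwv', ← QuotientGroup.eq_one_iff, QuotientGroup.mk_pow, QuotientGroup.mk_mul,
                h3.symm.mul_pow, ← QuotientGroup.mk_pow, h4, QuotientGroup.mk_one, one_mul,
                ← QuotientGroup.mk_pow, QuotientGroup.eq_one_iff] at hrZ
              exact hrZ
            have hvp : ((v : G)) ^ p ^ 2 = 1 := by
              rw [pow_two, pow_mul]
              exact ((hZ _).1 hvZ).2
            have hvpow : (v : G) ∈ zpowers (u ^ p ^ (n - 2)) :=
              mem_zpowers_pow huo (by omega) (by rw [← hUu]; exact hvU) hvp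
            have hwv2 : Commute (w : G) v := by
              obtain ⟨k, hk⟩ := mem_zpowers_iff.1 hvpow
              rw [← hk]
              apply Commute.zpow_right
              have h3 : u ^ p ^ (n - 2) = (u ^ p ^ (n - 3)) ^ p := by
                rw [← pow_mul, ← pow_succ]
                congr 2
                omega
              rw [h3]
              exact hwM _ (pow_mem hu _)
            have hww' : Commute (w : G) w' := by
              have h3 := isMulCommutative_iff_of_setLike.mp hel.1 w hw w' hw'
              exact congrArg Subtype.val h3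
            have hwr : Commute (w : G) r := by
              rw [← hwv']
              exact hww'.mul_right hwv2
            have hwe : Commute (w : G) e := (show Commute e (w : G) from hER e he w w.2).symm
            exact (hwr.mul_right hwe).eq.symm
          intro x hx
          exact (mem_centralizer_singleton_iff.1 (h2 hx)).symm
        have hA : IsCyclic (K ⊓ centralizer (K : Set G) : Subgroup G) := by
          refine hsymp _ inferInstance ?_
          rw [isMulCommutative_iff_of_setLike]
          rintro a ⟨ha, _⟩ b ⟨_, hb⟩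
          exact mem_centralizer_iff.1 hb a ha
        have hWA : W'.map R.subtype ≤ K ⊓ centralizer (K : Set G) := by
          rintro _ ⟨w, hw, rfl⟩
          refine Subgroup.mem_inf.2 ⟨subset_closure ⟨(hMmem w w.2).2 (hW'M hw), ?_⟩, ?_⟩
          · have h4 : (w : G) ^ p = 1 := congrArg Subtype.val (hel.2 w hw)
            show (w : G) ^ p ∈ Z
            rw [h4]; exact one_mem _
          · rw [mem_centralizer_iff]
            intro x hx
            exact (hWK w hw x hx).eq.symm
        have hcW : IsCyclic (W'.map R.subtype) := by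
          have : IsCyclic ((W'.map R.subtype).subgroupOf (K ⊓ centralizer (K : Set G))) := inferInstance
          exact (subgroupOfEquivOfLe hWA).isCyclic.1 this
        obtain ⟨g, hg⟩ := hcW.exists_generator
        have h3 : orderOf g = p ^ 2 := by
          rw [orderOf_eq_card_of_forall_mem_zpowers hg, card_map_of_injective R.subtype_injective, hcardΩ]
        obtain ⟨w, hw, hwg⟩ := g.2
        have h4 : g ^ p = 1 := by
          apply Subtype.ext
          rw [coe_pow, ← hwg, ← map_pow, hel.2 w hw, map_one, coe_one]
        have h5 := orderOf_dvd_of_pow_eq_one h4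
        rw [h3] at h5
        have h6 := Nat.le_of_dvd hp.out.pos h5
        have h7 : p ^ 1 < p ^ 2 := Nat.pow_lt_pow_right hp.out.one_lt (by norm_num)
        rw [pow_one] at h7
        omega

/-- Let G be a finite p-group of symplectic type: every characteristic abelian subgroup of G is cyclic. Then G = E ∗ R is a central product of subgroups E and R (they commute elementwise and generate G) where E is extraspecial or trivial, and R is cyclic, or p = 2 and R is dihedral, semidihedral or generalized quaternion of order at least 16. -/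
theorem result {G : Type*} [Group G] [Finite G] {p : ℕ} [Fact p.Prime] (hG : IsPGroup p G) (hsymp : ∀ A : Subgroup G, A.Characteristic → IsMulCommutative A → IsCyclic A) : ∃ E R : Subgroup G, (∀ e ∈ E, ∀ r ∈ R, e * r = r * e) ∧ E ⊔ R = ⊤ ∧ (E = ⊥ ∨ Cfsg.IsExtraspecial p ↥E) ∧ (IsCyclic R ∨ (p = 2 ∧ 16 ≤ Nat.card R ∧ ((∃ m : ℕ, Nonempty (↥R ≃* DihedralGroup m)) ∨ (∃ m : ℕ, Nonempty (↥R ≃* QuaternionGroup m)) ∨ Cfsg.IsQuasiDihedral ↥R))) := by
  show Concl p G
  obtain ⟨U, hU⟩ := (Set.toFinite {A : Subgroup G | A.Characteristic ∧ IsMulCommutative A}).exists_maximal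
    ⟨⊥, inferInstance, by
      rw [isMulCommutative_iff_of_setLike]
      rintro a ha b hb
      rw [mem_bot] at ha hb
      rw [ha, hb]⟩
  obtain ⟨hUchar, hUab⟩ := hU.prop
  have hmax : ∀ A : Subgroup G, A.Characteristic → IsMulCommutative A → U ≤ A → A = U := fun A h1 h2 h3 =>
    le_antisymm (hU.le_of_ge ⟨h1, h2⟩ h3) h3
  have hcyc := hsymp U hUchar hUab
  by_cases hU1 : U = ⊥
  · -- trivial group
    have h1 : center G = ⊥ := by
      rw [← hU1]
      exact hmax _ inferInstance inferInstance (by rw [hU1]; exact bot_le)
    have hsub : Subsingleton G := by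
      by_contra hns
      rw [not_subsingleton_iff_nontrivial] at hns
      have := hG.center_nontrivial
      rw [h1] at this
      exact not_nontrivial _ this
    refine ⟨⊥, ⊤, ?_, bot_sup_eq _, Or.inl rfl, Or.inl inferInstance⟩
    intro e _ r _
    exact Subsingleton.elim _ _
  · obtain ⟨Z, hZ, hZc⟩ := exists_omega hG hcyc hU1
    have hUn : U.Normal := inferInstance
    obtain ⟨B, hB⟩ := exists_B (p := p) hUn
    have S : Setup p U Z B := ⟨hG, hUchar, hcyc, hmax, hZ, hZc, hB⟩
    obtain ⟨n, hn⟩ := IsPGroup.iff_card.mp (hG.to_subgroup U)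
    by_cases hC : centralizer (U : Set G) = U
    · refine final hG hsymp hUchar hn hcyc S.charZ hZ hZc S.Z_le_center (E := ⊥) (Or.inl rfl) ?_ ?_ ?_ ?_ bot_le ?_
      · have h1 : centralizer ((⊥ : Subgroup G) : Set G) = ⊤ := by
          rw [eq_top_iff]
          intro x _
          rw [mem_centralizer_iff]
          intro y hy
          have hy' : y = 1 := hy
          rw [hy', one_mul, mul_one]
        rw [h1, sup_top_eq]
      · intro x hx; rw [mem_bot] at hx; rw [hx, one_pow]; exact one_mem _
      · intro x hx y _; rw [mem_bot] at hx; rw [hx, commutatorElement_one_left]; exact one_mem _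
      · intro x hx _; rw [mem_bot] at hx; rw [hx]; exact one_mem _
      · have h1 : centralizer ((⊥ : Subgroup G) : Set G) = ⊤ := by
          rw [eq_top_iff]
          intro x _
          rw [mem_centralizer_iff]
          intro y hy
          have hy' : y = 1 := hy
          rw [hy', one_mul, mul_one]
        rw [h1, top_inf_eq, hC]
    · obtain ⟨E, h1, h2, h3, h4, h5, h6, h7⟩ := exists_E S hC
      exact final hG hsymp hUchar hn hcyc S.charZ hZ hZc S.Z_le_center (Or.inr h1) h2 h3 h4 h5 h6 h7

end Cfsg.Agent.S3762
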