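import Cfsg.Statements.S3820
-- import your own Cfsg.Agent.* helpers here

set_option autoImplicit false
open Cfsg

namespace Cfsg.Agent.S3820

/-- Call a subgroup H of G pronormal if H and gHg⁻¹ are conjugate inside ⟨H, gHg⁻¹⟩ for every g ∈ G. Let S ≤ H ≤ G be subgroups of a finite group with S pronormal in G (for instance S a Sylow subgroup). Then H is pronormal in G if and only if H and gHg⁻¹ are conjugate inside ⟨H, gHg⁻¹⟩ for every g ∈ N_G(S). In particular H is pronormal whenever N_G(S) ≤ H. -/
theorem result {G : Type*} [Group G] [Finite G] (S H : Subgroup G) (hSH : S ≤ H)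
    (hS : Cfsg.IsPronormal S) :
    Cfsg.IsPronormal H ↔
      ∀ g ∈ Subgroup.normalizer (S : Set G), ∃ w ∈ H ⊔ H.map (MulAut.conj g).toMonoidHom,
        H.map (MulAut.conj g).toMonoidHom = H.map (MulAut.conj w).toMonoidHom := by
  have hmm : ∀ (K : Subgroup G) (a b : G), (K.map (MulAut.conj b).toMonoidHom).map (MulAut.conj a).toMonoidHom
      = K.map (MulAut.conj (a * b)).toMonoidHom := by
    intro K a b
    rw [Subgroup.map_map]
    congr 1
    ext x
    simp [mul_assoc]
  constructor
  · intro h g _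
    exact h g
  · intro h g
    obtain ⟨x, hx, hxe⟩ := hS g
    -- x⁻¹ g normalizes S
    have hx' : x ∈ H ⊔ H.map (MulAut.conj g).toMonoidHom :=
      (sup_le_sup hSH (Subgroup.map_mono hSH)) hx
    have hn : x⁻¹ * g ∈ Subgroup.normalizer (S : Set G) := by
      have h1 : S.map (MulAut.conj (x⁻¹ * g)).toMonoidHom = S := by
        rw [← hmm, hxe, hmm]
        simp
        ext y
        simp
      rw [Subgroup.mem_normalizer_iff]
      intro y
      have h2 : x⁻¹ * g * y * (x⁻¹ * g)⁻¹ ∈ S.map (MulAut.conj (x⁻¹ * g)).toMonoidHom ↔ y ∈ S := by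
        constructor
        · rintro ⟨z, hz, hze⟩
          have : z = y := by
            have hze' : (MulAut.conj (x⁻¹ * g)) z = (MulAut.conj (x⁻¹ * g)) y := hze
            exact (MulAut.conj (x⁻¹ * g)).injective hze'
          rw [← this]; exact hz
        · intro hy
          exact ⟨y, hy, rfl⟩
      rw [h1] at h2
      exact h2.symm
    obtain ⟨w, hw, hwe⟩ := h _ hn
    have hT : ∀ a ∈ H ⊔ H.map (MulAut.conj g).toMonoidHom,
        (H ⊔ H.map (MulAut.conj g).toMonoidHom).map (MulAut.conj a).toMonoidHom = H ⊔ H.map (MulAut.conj g).toMonoidHom := by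
      intro a ha
      ext y
      constructor
      · rintro ⟨z, hz, rfl⟩
        exact mul_mem (mul_mem ha hz) (inv_mem ha)
      · intro hy
        exact ⟨a⁻¹ * y * a, mul_mem (mul_mem (inv_mem ha) hy) ha, by simp [mul_assoc]⟩
    have hw' : w ∈ H ⊔ H.map (MulAut.conj g).toMonoidHom := by
      refine (sup_le le_sup_left ?_ : H ⊔ H.map (MulAut.conj (x⁻¹ * g)).toMonoidHom ≤ _) hw
      rw [← hmm]
      calc (H.map (MulAut.conj g).toMonoidHom).map (MulAut.conj x⁻¹).toMonoidHom
          ≤ (H ⊔ H.map (MulAut.conj g).toMonoidHom).map (MulAut.conj x⁻¹).toMonoidHom :=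
            Subgroup.map_mono le_sup_right
        _ = _ := hT _ (inv_mem hx')
    refine ⟨x * w, mul_mem hx' hw', ?_⟩
    rw [← hmm, ← hwe, hmm]
    simp

end Cfsg.Agent.S3820
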