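import Cfsg.Statements.S2222
import Cfsg.Agent.Lib.SylowTwoAlt
import Cfsg.Agent.Lib.BrauerFowler
import Cfsg.Agent.S3820
-- import your own Cfsg.Agent.* helpers here

set_option autoImplicit false
open Cfsg

namespace Cfsg.Agent.S2222

open Subgroup

set_option maxRecDepth 100000 in
theorem fp5 : ∀ g : Equiv.Perm (Fin 5), Equiv.Perm.sign g = 1 → g ^ 4 = 1 → g ≠ 1 →
    ∀ x y, g x = x → g y = y → x = y := by
  decide

theorem sylow_pronormal {G : Type*} [Group G] [Finite G] (S : Sylow 2 G) :
    Cfsg.IsPronormal (S : Subgroup G) := by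
  have hfact : Fact (Nat.Prime 2) := ⟨Nat.prime_two⟩
  intro g
  set J := (S : Subgroup G) ⊔ (S : Subgroup G).map (MulAut.conj g).toMonoidHom with hJ
  have h1 : Lib.RelSylow.IsSyl 2 (S : Subgroup G) J := by
    refine ⟨le_sup_left, S.2, fun h => S.not_dvd_index ?_⟩
    exact h.trans (Subgroup.relIndex_dvd_index_of_le le_sup_left)
  have h2 : Lib.RelSylow.IsSyl 2 ((S : Subgroup G).map (MulAut.conj g).toMonoidHom) J := by
    refine ⟨le_sup_right, S.2.map _, fun h => S.not_dvd_index ?_⟩
    have h3 := h.trans (Subgroup.relIndex_dvd_index_of_le le_sup_right)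
    have h4 : ((S : Subgroup G).map (MulAut.conj g).toMonoidHom).index = (S : Subgroup G).index :=
      Subgroup.index_map_equiv (S : Subgroup G) (MulAut.conj g)
    rwa [h4] at h3
  obtain ⟨x, hx, hxx⟩ := h1.conj h2
  exact ⟨x, hx, hxx.symm⟩

/-- If `S ≤ H` is Sylow and `N(S)` normalizes `H`, then `H` is pronormal. -/
theorem pronormal_of_le {G : Type*} [Group G] [Finite G] (S : Sylow 2 G) {H : Subgroup G}
    (hSH : (S : Subgroup G) ≤ H)
    (hN : Subgroup.normalizer ((S : Subgroup G) : Set G) ≤ Subgroup.normalizer (H : Set G)) :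
    Cfsg.IsPronormal H := by
  rw [Cfsg.Agent.S3820.result (S : Subgroup G) H hSH (sylow_pronormal S)]
  intro g hg
  refine ⟨1, one_mem _, ?_⟩
  rw [Lib.RelSylow.conj_eq_of_mem_normalizer (hN hg), Lib.RelSylow.conj_one]

/-- A subgroup of odd index contains a Sylow 2-subgroup. -/
theorem exists_sylow_le {G : Type*} [Group G] [Finite G] {H : Subgroup G} (hH : Odd H.index) :
    ∃ S : Sylow 2 G, (S : Subgroup G) ≤ H := by
  have hfact : Fact (Nat.Prime 2) := ⟨Nat.prime_two⟩
  obtain ⟨P, hP1, hP2, hP3⟩ := Lib.RelSylow.exists_syl 2 H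
  have h1 : ¬ 2 ∣ P.index := by
    rw [← Subgroup.relIndex_mul_index hP1, Nat.prime_two.dvd_mul, not_or]
    exact ⟨hP3, by rw [← Nat.not_even_iff_odd, even_iff_two_dvd] at hH; exact hH⟩
  exact ⟨hP2.toSylow h1, hP1⟩

theorem five (H : Subgroup (alternatingGroup (Fin 5))) (hH : Odd H.index) :
    Cfsg.IsPronormal H := by
  have hfact : Fact (Nat.Prime 2) := ⟨Nat.prime_two⟩
  obtain ⟨S, hS⟩ := exists_sylow_le hH
  apply pronormal_of_le S hS
  have hcG : Nat.card (alternatingGroup (Fin 5)) = 60 := by
    rw [nat_card_alternatingGroup, Nat.card_eq_fintype_card, Fintype.card_fin]; rfl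
  have hcS : Nat.card S = 4 := by
    rw [S.card_eq_multiplicity, hcG]
    have : Nat.factorization 60 2 = 2 := by
      have h : (60 : ℕ) = 2 ^ 2 * 15 := by norm_num
      rw [h, Nat.factorization_mul (by norm_num) (by norm_num), Nat.factorization_pow]
      simp [Nat.Prime.factorization_self Nat.prime_two,
        Nat.factorization_eq_zero_of_not_dvd (show ¬ 2 ∣ 15 by norm_num)]
    rw [this]; norm_num
  -- a point fixed by `S`
  have hfixmod := S.2.card_modEq_card_fixedPoints (α := Fin 5)
  obtain ⟨x0, hx0⟩ : (MulAction.fixedPoints S (Fin 5)).Nonempty := by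
    by_contra hcon
    rw [Set.not_nonempty_iff_eq_empty] at hcon
    rw [hcon, Nat.card_eq_fintype_card, Fintype.card_fin] at hfixmod
    simp [Nat.ModEq] at hfixmod
  have hx0' : ∀ s ∈ (S : Subgroup (alternatingGroup (Fin 5))), (s : Equiv.Perm (Fin 5)) x0 = x0 :=
    fun s hs => hx0 ⟨s, hs⟩
  have huniq : ∀ s ∈ (S : Subgroup (alternatingGroup (Fin 5))), s ≠ 1 → ∀ y,
      (s : Equiv.Perm (Fin 5)) y = y → y = x0 := by
    intro s hs hs1 y hy
    refine fp5 s.1 s.2 ?_ (fun h => hs1 (Subtype.ext h)) y x0 hy (hx0' s hs)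
    have h1 : (⟨s, hs⟩ : S) ^ Nat.card S = 1 := pow_card_eq_one'
    rw [hcS] at h1
    exact congrArg (fun z : S => ((z : alternatingGroup (Fin 5)) : Equiv.Perm (Fin 5))) h1
  -- `N(S)` fixes `x0`
  have hNx : ∀ g ∈ Subgroup.normalizer
      ((S : Subgroup (alternatingGroup (Fin 5))) : Set (alternatingGroup (Fin 5))),
      (g : Equiv.Perm (Fin 5)) x0 = x0 := by
    intro g hg
    obtain ⟨s, hs1⟩ : ∃ s : S, s ≠ 1 := by
      have : Nontrivial S := by
        rw [← Finite.one_lt_card_iff_nontrivial, hcS]; norm_num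
      exact exists_ne 1
    refine huniq s s.2 (fun h => hs1 (Subtype.ext h)) _ ?_
    have h1 : g⁻¹ * s * g ∈ (S : Subgroup (alternatingGroup (Fin 5))) := by
      rw [Subgroup.mem_normalizer_iff] at hg
      rw [hg]
      have : g * (g⁻¹ * s * g) * g⁻¹ = s := by group
      rw [this]; exact s.2
    have h2 := hx0' _ h1
    have h3 : ((g⁻¹ * (s : alternatingGroup (Fin 5)) * g : alternatingGroup (Fin 5)) :
      Equiv.Perm (Fin 5)) x0 = (g : Equiv.Perm (Fin 5))⁻¹ ((s : alternatingGroup (Fin 5)).1
        ((g : Equiv.Perm (Fin 5)) x0)) := rfl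
    rw [h3, Equiv.Perm.inv_eq_iff_eq] at h2
    exact h2
  have hidx := Subgroup.card_mul_index H
  rw [hcG] at hidx
  have h4 : 4 ∣ Nat.card H := by rw [← hcS]; exact Subgroup.card_dvd_of_le hS
  by_cases hfix : ∀ h ∈ H, (h : Equiv.Perm (Fin 5)) x0 = x0
  · -- `H ≤ Stab(x0)`
    have hHst : H ≤ MulAction.stabilizer (alternatingGroup (Fin 5)) x0 := fun h hh => hfix h hh
    have hst : Nat.card (MulAction.stabilizer (alternatingGroup (Fin 5)) x0) = 12 := by
      have hpre : MulAction.IsPretransitive (alternatingGroup (Fin 5)) (Fin 5) :=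
        alternatingGroup.isPretransitive_of_three_le_card (Fin 5) (by
          rw [Nat.card_eq_fintype_card, Fintype.card_fin]; norm_num)
      have h5 := Subgroup.card_mul_index (MulAction.stabilizer (alternatingGroup (Fin 5)) x0)
      rw [MulAction.index_stabilizer_of_transitive, hcG, Nat.card_eq_fintype_card (α := Fin 5),
        Fintype.card_fin] at h5
      omega
    have h12 : Nat.card H ∣ 12 := by rw [← hst]; exact Subgroup.card_dvd_of_le hHst
    have h5 : Nat.card H = 4 ∨ Nat.card H = 12 := by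
      obtain ⟨k, hk⟩ := h4
      rw [hk] at h12 ⊢
      have h6 : k ∣ 3 := by
        have : 4 * k ∣ 4 * 3 := h12
        exact Nat.dvd_of_mul_dvd_mul_left (by norm_num) this
      rcases (Nat.dvd_prime Nat.prime_three).mp h6 with h7 | h7 <;> rw [h7] <;> simp
    rcases h5 with h5 | h5
    · have : (S : Subgroup (alternatingGroup (Fin 5))) = H :=
        Subgroup.eq_of_le_of_card_ge hS (by rw [h5]; exact hcS.ge)
      rw [this]
    · have h6 : H = MulAction.stabilizer (alternatingGroup (Fin 5)) x0 :=
        Subgroup.eq_of_le_of_card_ge hHst (by rw [h5, hst])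
      intro g hg
      apply Subgroup.le_normalizer
      rw [h6]
      exact hNx g hg
  · -- `5 ∣ |H|`
    push Not at hfix
    obtain ⟨h, hh, hhx⟩ := hfix
    have horb : MulAction.orbit H x0 = Set.univ := by
      have hy : (h : Equiv.Perm (Fin 5)) x0 ∈ MulAction.orbit H x0 := ⟨⟨h, hh⟩, rfl⟩
      have hinj : Function.Injective (fun s : S =>
          ((s : alternatingGroup (Fin 5)) : Equiv.Perm (Fin 5)) ((h : Equiv.Perm (Fin 5)) x0)) := by
        intro s t hst
        by_contra hne
        apply hhx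
        refine huniq (t⁻¹ * s : S) (t⁻¹ * s : S).2 (fun h1 => hne ?_) _ ?_
        · have h2 : (t⁻¹ * s : S) = 1 := Subtype.ext h1
          rw [inv_mul_eq_one] at h2
          exact h2.symm
        · show ((t : alternatingGroup (Fin 5)) : Equiv.Perm (Fin 5))⁻¹
            (((s : alternatingGroup (Fin 5)) : Equiv.Perm (Fin 5)) ((h : Equiv.Perm (Fin 5)) x0)) = _
          rw [Equiv.Perm.inv_eq_iff_eq]
          exact hst
      have h1 : Set.range (fun s : S =>
          ((s : alternatingGroup (Fin 5)) : Equiv.Perm (Fin 5)) ((h : Equiv.Perm (Fin 5)) x0)) ⊆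
          MulAction.orbit H x0 \ {x0} := by
        rintro _ ⟨s, rfl⟩
        refine ⟨⟨⟨s * h, H.mul_mem (hS s.2) hh⟩, rfl⟩, fun h2 => hhx ?_⟩
        have h3 : ((s : alternatingGroup (Fin 5)) : Equiv.Perm (Fin 5)) ((h : Equiv.Perm (Fin 5)) x0)
          = x0 := h2
        have h4 := hx0' s s.2
        exact ((s : alternatingGroup (Fin 5)) : Equiv.Perm (Fin 5)).injective (h3.trans h4.symm)
      have h2 := Set.ncard_le_ncard h1 (Set.toFinite _)
      have h3 : (Set.range (fun s : S => ((s : alternatingGroup (Fin 5)) : Equiv.Perm (Fin 5))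
          ((h : Equiv.Perm (Fin 5)) x0))).ncard = 4 := by
        rw [← Nat.card_coe_set_eq, Nat.card_range_of_injective hinj]
        exact hcS
      rw [h3, Set.ncard_sdiff_singleton_of_mem (MulAction.mem_orbit_self x0)] at h2
      apply Set.eq_of_subset_of_ncard_le (Set.subset_univ _) _ (Set.toFinite _)
      rw [Set.ncard_univ, Nat.card_eq_fintype_card, Fintype.card_fin]
      omega
    have h5 : 5 ∣ Nat.card H := by
      have h6 := MulAction.index_stabilizer H x0
      rw [horb, Set.ncard_univ, Nat.card_eq_fintype_card, Fintype.card_fin] at h6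
      have h7 := Subgroup.index_dvd_card (MulAction.stabilizer H x0)
      rw [h6] at h7
      exact h7
    have h20 : 20 ∣ Nat.card H := by
      have : Nat.Coprime 4 5 := by norm_num
      exact this.mul_dvd_of_dvd_of_dvd h4 h5
    obtain ⟨k, hk⟩ := h20
    have hk3 : k * H.index = 3 := by
      rw [hk, mul_assoc] at hidx
      omega
    have hdvd : H.index ∣ 3 := ⟨k, by rw [mul_comm]; exact hk3.symm⟩
    have htop : H = ⊤ := by
      by_contra hne
      have hsimple : IsSimpleGroup (alternatingGroup (Fin 5)) :=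
        inferInstance
      have h6 := Lib.BrauerFowler.card_le_factorial_index H hne
      rw [hcG] at h6
      rcases (Nat.dvd_prime Nat.prime_three).mp hdvd with h7 | h7
      · exact hne (Subgroup.index_eq_one.mp h7)
      · rw [h7] at h6
        norm_num [Nat.factorial] at h6
    rw [htop]
    intro g _
    exact Subgroup.le_normalizer (Subgroup.mem_top g)

/-- In the alternating group of degree n ≥ 5 every subgroup H of odd index is pronormal: for every element g, the subgroups H and gHg⁻¹ are conjugate by an element of the subgroup they generate. -/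
theorem result (n : ℕ) (hn : 5 ≤ n)
    (H : Subgroup (alternatingGroup (Fin n))) (hH : Odd H.index) : Cfsg.IsPronormal H := by
  rcases Nat.lt_or_ge n 6 with h6 | h6
  · have : n = 5 := by omega
    subst this
    exact five H hH
  · obtain ⟨S, hS⟩ := exists_sylow_le hH
    apply pronormal_of_le S hS
    exact (Lib.SylowTwoAlt.sn_alt h6 S).trans (hS.trans Subgroup.le_normalizer)

end Cfsg.Agent.S2222
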