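import Cfsg.Statements.S1224
import Cfsg.Agent.Lib.StrongEmbPt

set_option autoImplicit false
open Cfsg

namespace Cfsg.Agent.S1224

/-- Let H be a strongly embedded subgroup of the finite group G and x ≠ y two cosets in G/H. Then the number of involutions i of G with i • x = y equals the number of involutions lying in H. -/
theorem result {G : Type*} [Group G] [Finite G] (H : Subgroup G) (hH : Cfsg.IsStronglyEmbedded H) (x y : G ⧸ H) (hxy : x ≠ y) : Nat.card {i : G // orderOf i = 2 ∧ i • x = y} = Nat.card {t : G // orderOf t = 2 ∧ t ∈ H} := by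
  have hU := Cfsg.Agent.Lib.StrongEmbPt.uniqueFix hH
  have h1 := Cfsg.Agent.Lib.InvAct.ncard_invSwap_eq hU x y
  rw [Cfsg.Agent.Lib.InvAct.ncard_invFix_eq x (QuotientGroup.mk 1 : G ⧸ H)] at h1
  have h2 : Nat.card {i : G // orderOf i = 2 ∧ i • x = y} =
      (Cfsg.Agent.Lib.InvAct.invSwap G x y).ncard := rfl
  have h3 : Nat.card {t : G // orderOf t = 2 ∧ t ∈ H} =
      (Cfsg.Agent.Lib.InvAct.invSwap G (QuotientGroup.mk 1 : G ⧸ H) (QuotientGroup.mk 1)).ncard := by
    rw [← Nat.card_coe_set_eq]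
    apply Nat.card_congr
    apply Equiv.subtypeEquivRight
    intro t
    constructor
    · rintro ⟨h, h'⟩
      exact ⟨h, (Cfsg.Agent.Lib.StrongEmbPt.smul_one_eq_iff t).2 h'⟩
    · rintro ⟨h, h'⟩
      exact ⟨h, (Cfsg.Agent.Lib.StrongEmbPt.smul_one_eq_iff t).1 h'⟩
  rw [h2, h3, h1]

end Cfsg.Agent.S1224
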