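import Cfsg.Statements.S0330
import Cfsg.Agent.Lib.SuzukiPts

set_option autoImplicit false
open Cfsg

namespace Cfsg.Agent.S0330

theorem tr {G H : Type*} [Group G] [Group H] (e : G ≃* H)
    (h : Subgroup.center G = commutator G) : Subgroup.center H = commutator H := by
  have h1 : (Subgroup.center G).map e.toMonoidHom = Subgroup.center H := by
    ext x
    constructor
    · rintro ⟨y, hy, rfl⟩
      rw [Subgroup.mem_center_iff]
      intro g
      obtain ⟨g, rfl⟩ := e.surjective g
      have := (Subgroup.mem_center_iff.mp hy) g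
      show e g * e y = e y * e g
      rw [← map_mul, this, map_mul]
    · intro hx
      refine ⟨e.symm x, ?_, e.apply_symm_apply x⟩
      rw [SetLike.mem_coe, Subgroup.mem_center_iff]
      intro g
      have := (Subgroup.mem_center_iff.mp hx) (e g)
      apply e.injective
      rw [map_mul, map_mul, e.apply_symm_apply, this]
  have h2 : (commutator G).map e.toMonoidHom = commutator H := by
    rw [commutator_def, Subgroup.map_commutator, commutator_def]
    congr 1 <;> exact Subgroup.map_top_of_surjective _ e.surjective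
  rw [← h1, h, h2]

/-- A Sylow 2-subgroup `P` of the Suzuki group (field with `q = 2^(2m+1)` elements, `m ≥ 1`) has order `q²` and
exponent `4`; its centre coincides with its commutator subgroup and has order `q`. -/
theorem result {F : Type*} [Field F] [Fintype F] {m : ℕ} (hm : 1 ≤ m)
    (hF : Fintype.card F = 2 ^ (2 * m + 1)) (P : Sylow 2 (Cfsg.Sz F m)) :
    Nat.card P = (2 ^ (2 * m + 1)) ^ 2 ∧ Monoid.exponent P = 4 ∧
      Subgroup.center P = commutator P ∧ Nat.card (Subgroup.center P) = 2 ^ (2 * m + 1) := by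
  have : CharP F 2 := Cfsg.Agent.Lib.SuzukiFin.charTwo hF
  have hθ := Cfsg.Agent.Lib.SuzukiFin.th_sq hF
  have hne := Cfsg.Agent.Lib.SuzukiFin.th_ne hm hF
  have hSz := Cfsg.Agent.Lib.SuzukiFin.Sz_eq (F := F) m
  generalize Cfsg.Sz F m = X at P hSz
  subst hSz
  obtain ⟨p, hp⟩ := Cfsg.Agent.Lib.SuzukiPts.sylow_eq _ hθ hne P
  obtain ⟨k, hk⟩ := Cfsg.Agent.Lib.SuzukiPts.exists_to _ hθ p
  have e := (Cfsg.Agent.Lib.SuzukiPts.UpEquiv _ hθ hne p k hk).trans
    (MulEquiv.subgroupCongr hp.symm)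
  have hq : Nat.card F = 2 ^ (2 * m + 1) := by rw [Nat.card_eq_fintype_card, hF]
  refine ⟨?_, ?_, ?_, ?_⟩
  · rw [← Nat.card_congr e.toEquiv, Cfsg.Agent.Lib.SuzukiSyl.card_U, hq]
  · rw [← Monoid.exponent_eq_of_mulEquiv e, Cfsg.Agent.Lib.SuzukiPts.exponent_U]
  · apply tr e
    rw [Cfsg.Agent.Lib.SuzukiPts.center_U _ hθ hne, Cfsg.Agent.Lib.SuzukiPts.commutator_U _ hθ hne]
  · rw [← Nat.card_congr (Subgroup.centerCongr e).toEquiv,
      Cfsg.Agent.Lib.SuzukiPts.center_U _ hθ hne,
      Nat.card_congr (Subgroup.subgroupOfEquivOfLe (Cfsg.Agent.Lib.SuzukiSyl.ZSub_le _ hθ)).toEquiv,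
      Cfsg.Agent.Lib.SuzukiSyl.card_Z, hq]

end Cfsg.Agent.S0330
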