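import Cfsg.Statements.S0282
import Cfsg.Agent.Lib.ClUnitary2
import Cfsg.Agent.Lib.Burnside

set_option autoImplicit false
open Cfsg

namespace Cfsg.Agent.S0282

open Cfsg.Agent.Lib

/-- PSU_3(2) is a solvable group of order 72. -/
theorem result {F : Type*} [Field F] [Fintype F] (hF : Fintype.card F = 4) : Nat.card (Cfsg.PSU 3 F 2) = 72 ∧ Group.IsSolvable (Cfsg.PSU 3 F 2) := by
  have hF' : Fintype.card F = 2 ^ 2 := by norm_num [hF]
  have h1 := ClUnitary.card_PSU (n := 3) hF' (by norm_num)
  have h2 : Nat.card (Cfsg.PSU 3 F 2) = 72 := by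
    simp [Finset.prod_range_succ] at h1
    norm_num [show ¬ Even 1 from by decide, show Even 2 from by decide] at h1
    omega
  refine ⟨h2, ?_⟩
  haveI : Finite (Matrix.SpecialLinearGroup (Fin 3) F) := Subtype.finite
  haveI : Finite (Cfsg.PSU 3 F 2) := Quotient.finite _
  exact Burnside.isSolvable_of_card_eq 72 2 3 3 2 Nat.prime_two Nat.prime_three (by norm_num [h2]) h2

end Cfsg.Agent.S0282
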