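import Cfsg.Statements.S2286
import Cfsg.Agent.Lib.PresSL2

set_option autoImplicit false
open Cfsg

namespace Cfsg.Agent.S2286

/-- For every finite field F, SL_2(F) and PSL_2(F) have presentations with 3 generators and at most 9 relations; when F has characteristic 2, PSL_2(F) has a presentation with 3 generators and at most 5 relations. -/
theorem result {F : Type*} [Field F] [Fintype F] :
    (∃ rels : Finset (FreeGroup (Fin 3)), rels.card ≤ 9 ∧ Nonempty (PresentedGroup (↑rels : Set (FreeGroup (Fin 3))) ≃* Matrix.SpecialLinearGroup (Fin 2) F)) ∧ (∃ rels : Finset (FreeGroup (Fin 3)), rels.card ≤ 9 ∧ Nonempty (PresentedGroup (↑rels : Set (FreeGroup (Fin 3))) ≃* Matrix.ProjectiveSpecialLinearGroup (Fin 2) F)) ∧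
    (CharP F 2 → ∃ rels : Finset (FreeGroup (Fin 3)), rels.card ≤ 5 ∧ Nonempty (PresentedGroup (↑rels : Set (FreeGroup (Fin 3))) ≃* Matrix.ProjectiveSpecialLinearGroup (Fin 2) F)) := by
  open Cfsg.Agent.Lib.PresSL2 in
  have heven : CharP F 2 → (∃ rels : Finset (FreeGroup (Fin 3)), rels.card ≤ 5 ∧
      Nonempty (PresentedGroup (↑rels : Set (FreeGroup (Fin 3))) ≃* Matrix.ProjectiveSpecialLinearGroup (Fin 2) F)) := by
    intro h2
    obtain ⟨r, h1, ⟨e⟩⟩ := pres_SL2_even (F := F) h2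
    obtain ⟨e'⟩ := PSL_even (F := F) h2
    exact ⟨r, h1, ⟨e.trans e'⟩⟩
  refine ⟨?_, ?_, heven⟩
  · rcases Nat.even_or_odd (Fintype.card F) with h | h
    · have h2 : CharP F 2 := by
        obtain ⟨p, hp⟩ := CharP.exists F
        haveI := hp
        have hpp : p.Prime := CharP.char_is_prime F p
        haveI : Fact p.Prime := ⟨hpp⟩
        obtain ⟨k, -, hk⟩ := FiniteField.card F p
        rw [hk] at h
        have h3 : 2 ∣ p := Nat.prime_two.dvd_of_dvd_pow (even_iff_two_dvd.1 h)
        have h4 := (Nat.prime_dvd_prime_iff_eq Nat.prime_two hpp).1 h3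
        rw [h4]; exact hp
      obtain ⟨r, h1, e⟩ := Cfsg.Agent.Lib.PresSL2.pres_SL2_even (F := F) h2
      exact ⟨r, by omega, e⟩
    · obtain ⟨r, h1, e⟩ := Cfsg.Agent.Lib.PresSL2.pres_SL2_odd (F := F) (Nat.odd_iff.1 h)
      exact ⟨r, by omega, e⟩
  · rcases Nat.even_or_odd (Fintype.card F) with h | h
    · have h2 : CharP F 2 := by
        obtain ⟨p, hp⟩ := CharP.exists F
        haveI := hp
        have hpp : p.Prime := CharP.char_is_prime F p
        haveI : Fact p.Prime := ⟨hpp⟩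
        obtain ⟨k, -, hk⟩ := FiniteField.card F p
        rw [hk] at h
        have h3 : 2 ∣ p := Nat.prime_two.dvd_of_dvd_pow (even_iff_two_dvd.1 h)
        have h4 := (Nat.prime_dvd_prime_iff_eq Nat.prime_two hpp).1 h3
        rw [h4]; exact hp
      obtain ⟨r, h1, e⟩ := heven h2
      exact ⟨r, by omega, e⟩
    · obtain ⟨r, h1, e⟩ := Cfsg.Agent.Lib.PresSL2.pres_PSL2_odd (F := F) (Nat.odd_iff.1 h)
      exact ⟨r, by omega, e⟩

end Cfsg.Agent.S2286
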