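import Cfsg.Statements.S2288
import Cfsg.Agent.Lib.PresSLn3

set_option autoImplicit false
open Cfsg

namespace Cfsg.Agent.S2288

open Cfsg.Agent.Lib.PresSLn Cfsg.Agent.Lib.PresFinal

theorem center_gen {F : Type*} [Field F] (n : ℕ) :
    ∃ z, Subgroup.center (Matrix.SpecialLinearGroup (Fin n) F) = Subgroup.zpowers z := by
  classical
  let e := Matrix.SpecialLinearGroup.center_equiv_rootsOfUnity (n := Fin n) (R := F)
  haveI : NeZero (max (Fintype.card (Fin n)) 1) := ⟨by have := le_max_right (Fintype.card (Fin n)) 1; omega⟩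
  haveI : IsCyclic (Subgroup.center (Matrix.SpecialLinearGroup (Fin n) F)) := isCyclic_of_injective e.toMonoidHom e.injective
  obtain ⟨z, hz⟩ := IsCyclic.exists_generator (α := Subgroup.center (Matrix.SpecialLinearGroup (Fin n) F))
  refine ⟨z, ?_⟩
  apply le_antisymm
  · intro x hx
    obtain ⟨k, hk⟩ := Subgroup.mem_zpowers_iff.1 (hz ⟨x, hx⟩)
    rw [Subgroup.mem_zpowers_iff]
    refine ⟨k, ?_⟩
    have := congrArg Subtype.val hk
    simpa using this
  · rw [Subgroup.zpowers_le]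
    exact z.2

theorem main (F : Type*) [Field F] [Fintype F] (n : ℕ) (hn : 4 ≤ n) :
    ∃ rels : Finset (FreeGroup (Fin 7)), rels.card ≤ 25 ∧ Nonempty (PresentedGroup (↑rels : Set (FreeGroup (Fin 7))) ≃* Matrix.SpecialLinearGroup (Fin n) F) := by
  rcases Nat.lt_or_ge n 5 with h | h
  · obtain rfl : n = 4 := by omega
    obtain ⟨relsA, hA, ⟨e⟩⟩ := pres_A4
    obtain ⟨rels, h1, ⟨e1⟩⟩ := pres_four (F := F) relsA e
    obtain ⟨rels', h2, h3⟩ := pad (by norm_num) 3 rels e1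
    exact ⟨rels', by omega, h3⟩
  · obtain ⟨relsA, hA, ⟨e⟩⟩ := exists_pres_An n h
    obtain ⟨rels, h1, ⟨e1⟩⟩ := pres_five (F := F) h relsA e
    obtain ⟨rels', h2, h3⟩ := pad (by norm_num) 2 rels e1
    exact ⟨rels', by omega, h3⟩

/-- For every finite field F and n ≥ 4: SL_n(F) has a presentation with 7 generators and at most 25 relations, and PSL_n(F) one with 7 generators and at most 26 relations; moreover SL_4(F) has one with 6 generators and at most 21 relations and SL_5(F) one with 6 generators and at most 22 relations. -/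
theorem result {F : Type*} [Field F] [Fintype F] (n : ℕ) (hn : 4 ≤ n) :
    (∃ rels : Finset (FreeGroup (Fin 7)), rels.card ≤ 25 ∧ Nonempty (PresentedGroup (↑rels : Set (FreeGroup (Fin 7))) ≃* Matrix.SpecialLinearGroup (Fin n) F)) ∧ (∃ rels : Finset (FreeGroup (Fin 7)), rels.card ≤ 26 ∧ Nonempty (PresentedGroup (↑rels : Set (FreeGroup (Fin 7))) ≃* Matrix.ProjectiveSpecialLinearGroup (Fin n) F)) ∧
    (∃ rels : Finset (FreeGroup (Fin 6)), rels.card ≤ 21 ∧ Nonempty (PresentedGroup (↑rels : Set (FreeGroup (Fin 6))) ≃* Matrix.SpecialLinearGroup (Fin 4) F)) ∧ (∃ rels : Finset (FreeGroup (Fin 6)), rels.card ≤ 22 ∧ Nonempty (PresentedGroup (↑rels : Set (FreeGroup (Fin 6))) ≃* Matrix.SpecialLinearGroup (Fin 5) F)) := by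
  refine ⟨main F n hn, ?_, ?_, ?_⟩
  · obtain ⟨rels, h1, ⟨e⟩⟩ := main F n hn
    obtain ⟨z, hz⟩ := center_gen (F := F) n
    obtain ⟨rels', h2, h3⟩ := quot_pres rels e (Subgroup.center (Matrix.SpecialLinearGroup (Fin n) F)) z hz
    exact ⟨rels', by omega, h3⟩
  · obtain ⟨relsA, hA, ⟨e⟩⟩ := pres_A4
    obtain ⟨rels, h1, ⟨e1⟩⟩ := pres_four (F := F) relsA e
    obtain ⟨rels', h2, h3⟩ := pad (by norm_num) 2 rels e1
    exact ⟨rels', by omega, h3⟩
  · obtain ⟨relsA, hA, ⟨e⟩⟩ := pres_A5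
    obtain ⟨rels, h1, ⟨e1⟩⟩ := pres_five (F := F) (by norm_num) relsA e
    obtain ⟨rels', h2, h3⟩ := pad (by norm_num) 2 rels e1
    exact ⟨rels', by omega, h3⟩

end Cfsg.Agent.S2288
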