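import Cfsg.Statements.S2402
import Cfsg.Agent.Lib.SLTrans

set_option autoImplicit false
open Cfsg

namespace Cfsg.Agent.S2402

open Cfsg.Agent.Lib.SLTrans Matrix

variable {K : Type*} [Field K] [Fintype K]

/-- additive closure of the powers of `k ^ 2` (or any such) spans: an additive subgroup stable under multiplication
by `k^2` and containing a nonzero element is everything -/
lemma addSubgroup_top (hK : 3 < Fintype.card K) (k : Kˣ) (hk : ∀ u : Kˣ, u ∈ Subgroup.zpowers k)
    (A : AddSubgroup K) (hA : ∀ a ∈ A, (k : K)^2 * a ∈ A) (a₀ : K) (ha₀ : a₀ ∈ A) (hne : a₀ ≠ 0) : A = ⊤ := by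
  classical
  -- the multiplier ring of A
  let R : Subring K :=
    { carrier := {r | ∀ a ∈ A, r * a ∈ A}
      mul_mem' := fun {r s} hr hs a ha => by rw [mul_assoc]; exact hr _ (hs a ha)
      one_mem' := fun a ha => by rw [one_mul]; exact ha
      add_mem' := fun {r s} hr hs a ha => by rw [add_mul]; exact A.add_mem (hr a ha) (hs a ha)
      zero_mem' := fun a ha => by rw [zero_mul]; exact A.zero_mem
      neg_mem' := fun {r} hr a ha => by rw [neg_mul]; exact A.neg_mem (hr a ha) }
  have hR : ∀ r : K, r ∈ R ↔ ∀ a ∈ A, r * a ∈ A := fun r => Iff.rfl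
  have hk2 : (k : K)^2 ∈ R := hA
  -- squares are in R
  have hsq : ∀ u : K, u ^ 2 ∈ R := by
    intro u
    by_cases hu : u = 0
    · subst hu; simp [R.zero_mem]
    · obtain ⟨z, hz⟩ := hk (Units.mk0 u hu)
      have hfin : IsOfFinOrder k := isOfFinOrder_of_finite k
      obtain ⟨m, hm⟩ : ∃ m : ℕ, k ^ m = Units.mk0 u hu := by
        have := (hfin.mem_powers_iff_mem_zpowers).mpr (hk (Units.mk0 u hu))
        exact this
      have h1 : u = (k : K)^m := by
        have := congrArg Units.val hm
        simpa using this.symm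
      rw [h1, ← pow_mul, mul_comm, pow_mul]
      exact R.pow_mem hk2 m
  -- R = ⊤
  have hRtop : ∀ r : K, r ∈ R := by
    by_cases h2 : ringChar K = 2
    · -- every element is a square
      haveI : CharP K 2 := by rw [← h2]; infer_instance
      intro r
      obtain ⟨u, hu⟩ := FiniteField.isSquare_of_char_two h2 r
      rw [hu, ← pow_two]; exact hsq u
    · -- r = ((r+1)/2)^2 - ((r-1)/2)^2
      have h20 : (2 : K) ≠ 0 := Ring.two_ne_zero h2
      intro r
      have : r = ((r+1)/2)^2 - ((r-1)/2)^2 := by field_simp; ring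
      rw [this]
      exact R.sub_mem (hsq _) (hsq _)
  rw [eq_top_iff]
  intro b _
  have := (hR _).mp (hRtop (b / a₀)) a₀ ha₀
  rwa [div_mul_cancel₀ _ hne] at this

/-- Explicit two-element generation of `PSL_{n+1}(K)` for a finite field `K` with more than three elements: let `k` generate the multiplicative group of `K`, `h = diag(k, k⁻¹, 1, …, 1)`, `x = 1 + E₁₂` (the elementary transvection) and `w` the monomial matrix with entries `1` in positions `(i, i+1)` and `(−1)^n` in position `(n+1, 1)`. Then `h` and `x·w` generate `SL_{n+1}(K)` modulo its centre: the subgroup they generate together with the centre is everything. -/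
theorem result {K : Type*} [Field K] [Fintype K] (hK : 3 < Fintype.card K) (n : ℕ) (hn : 1 ≤ n)
    (k : Kˣ) (hk : ∀ u : Kˣ, u ∈ Subgroup.zpowers k)
    (h x w : Matrix.SpecialLinearGroup (Fin (n + 1)) K)
    (hh : (h : Matrix (Fin (n + 1)) (Fin (n + 1)) K) =
      Matrix.diagonal (fun i => if i.val = 0 then (k : K) else if i.val = 1 then ((k⁻¹ : Kˣ) : K) else 1))
    (hx : (x : Matrix (Fin (n + 1)) (Fin (n + 1)) K) = Matrix.transvection (0 : Fin (n + 1)) (1 : Fin (n + 1)) 1)
    (hw : (w : Matrix (Fin (n + 1)) (Fin (n + 1)) K) =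
      Matrix.of (fun i j => if j.val = i.val + 1 then 1 else if i.val = n ∧ j.val = 0 then (-1) ^ n else 0)) :
    Subgroup.closure ({h, x * w} : Set (Matrix.SpecialLinearGroup (Fin (n + 1)) K)) ⊔
      Subgroup.center (Matrix.SpecialLinearGroup (Fin (n + 1)) K) = ⊤ := by
  have hcl : Subgroup.closure ({h, x * w} : Set (Matrix.SpecialLinearGroup (Fin (n + 1)) K)) = ⊤ := by
    set H := Subgroup.closure ({h, x * w} : Set (Matrix.SpecialLinearGroup (Fin (n + 1)) K)) with hH
    have hhH : h ∈ H := Subgroup.subset_closure (by simp)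
    have hyH : x * w ∈ H := Subgroup.subset_closure (by simp)
    obtain ⟨i0, hi0⟩ : ∃ i : Fin (n+1), i.val = 0 := ⟨0, rfl⟩
    obtain ⟨i1, hi1⟩ : ∃ i : Fin (n+1), i.val = 1 := ⟨⟨1, by omega⟩, rfl⟩
    obtain ⟨iN, hiN⟩ : ∃ i : Fin (n+1), i.val = n := ⟨⟨n, by omega⟩, rfl⟩
    have h01 : i0 ≠ i1 := by intro h; have := congrArg Fin.val h; omega
    have hxe := x_eq hn hx i0 i1 h01 hi0 hi1
    have hkne : (k : K) ≠ 0 := k.ne_zero
    have hk2 : (k : K)^2 ≠ 1 := by
      intro h2
      have hk2' : k ^ 2 = 1 := Units.ext (by simpa using h2)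
      have h3 : orderOf k ∣ 2 := orderOf_dvd_of_pow_eq_one hk2'
      classical
      have h4 : orderOf k = Fintype.card Kˣ := orderOf_eq_card_of_forall_mem_zpowers hk |>.trans (by simp)
      rw [h4, Fintype.card_units] at h3
      have := Nat.le_of_dvd (by norm_num) h3
      omega
    -- conjugation of x_{01}(c) by h
    have hconj : ∀ c : K, h * SpecialLinearGroup.transvection h01 c * h⁻¹ = SpecialLinearGroup.transvection h01 ((k:K)^2 * c) := by
      intro c
      rw [mul_inv_eq_iff_eq_mul]
      apply Subtype.ext
      change (h : Matrix (Fin (n+1)) (Fin (n+1)) K) * Matrix.transvection i0 i1 c = Matrix.transvection i0 i1 _ * (h : Matrix (Fin (n+1)) (Fin (n+1)) K)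
      rw [hh]
      unfold Matrix.transvection
      rw [mul_add, add_mul, mul_one, one_mul]
      congr 1
      ext p q
      rw [Matrix.diagonal_mul, Matrix.mul_diagonal, Matrix.single_apply, Matrix.single_apply]
      by_cases hpq : i0 = p ∧ i1 = q
      · obtain ⟨rfl, rfl⟩ := hpq
        simp only [hi0, hi1, and_self, if_true, one_ne_zero, if_false]
        simp
        field_simp
      · rw [if_neg hpq, if_neg hpq]; simp
    -- the additive subgroup of parameters
    let A : AddSubgroup K :=
      { carrier := {c | SpecialLinearGroup.transvection h01 c ∈ H}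
        add_mem' := fun {a b} ha hb => by
          change SpecialLinearGroup.transvection h01 (a + b) ∈ H
          rw [SpecialLinearGroup.transvection_add]; exact H.mul_mem ha hb
        zero_mem' := by
          change SpecialLinearGroup.transvection h01 0 ∈ H
          rw [SpecialLinearGroup.transvection_coeff_zero]; exact H.one_mem
        neg_mem' := fun {a} ha => by
          change SpecialLinearGroup.transvection h01 (-a) ∈ H
          rw [← SpecialLinearGroup.transvection_inv]; exact H.inv_mem ha }
    have hA : ∀ a ∈ A, (k : K)^2 * a ∈ A := by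
      intro a ha
      change SpecialLinearGroup.transvection h01 _ ∈ H
      rw [← hconj]
      exact H.mul_mem (H.mul_mem hhH ha) (H.inv_mem hhH)
    obtain ⟨a₀, ha₀, hne⟩ : ∃ a₀ ∈ A, a₀ ≠ 0 := by
      let d : Fin (n+1) → K := fun i => if i.val = 0 then (k : K) else if i.val = 1 then ((k⁻¹ : Kˣ) : K) else 1
      let sc : Fin (n+1) → Fin (n+1) := fun i => if hi : i.val = n then ⟨0, by omega⟩ else ⟨i.val + 1, by have := i.isLt; omega⟩
      have hsc : ∀ i, Nxt i (sc i) := by
        intro i
        by_cases hi : i.val = n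
        · right; simp [sc, hi]
        · left; simp [sc, hi]
      have hwe := w_entries hw
      have hwd : (w : Matrix (Fin (n+1)) (Fin (n+1)) K) * Matrix.diagonal d = Matrix.diagonal (fun i => d (sc i)) * (w : Matrix (Fin (n+1)) (Fin (n+1)) K) := by
        ext i j
        rw [Matrix.mul_diagonal, Matrix.diagonal_mul, hwe]
        by_cases hij : Nxt i j
        · rw [if_pos hij, hij.right_inj (hsc i)]; ring
        · rw [if_neg hij]; ring
      have hd'ne : ∀ i, d i ≠ 0 := by
        intro i
        simp only [d]
        split_ifs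
        · exact hkne
        · exact (k⁻¹).ne_zero
        · exact one_ne_zero
      -- the element w h w⁻¹ has diagonal matrix
      have hh' : ((w * h * w⁻¹ : Matrix.SpecialLinearGroup (Fin (n+1)) K) : Matrix (Fin (n+1)) (Fin (n+1)) K) = Matrix.diagonal (fun i => d (sc i)) := by
        have h1 : ((w * h * w⁻¹ : Matrix.SpecialLinearGroup (Fin (n+1)) K) : Matrix (Fin (n+1)) (Fin (n+1)) K) =
          ((w : Matrix (Fin (n+1)) (Fin (n+1)) K) * (h : Matrix (Fin (n+1)) (Fin (n+1)) K)) * ((w⁻¹ : Matrix.SpecialLinearGroup (Fin (n+1)) K) : Matrix (Fin (n+1)) (Fin (n+1)) K) := rfl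
        have hhd : (h : Matrix (Fin (n+1)) (Fin (n+1)) K) = Matrix.diagonal d := hh
        rw [h1, hhd, hwd, mul_assoc]
        have h2 : (w : Matrix (Fin (n+1)) (Fin (n+1)) K) * ((w⁻¹ : Matrix.SpecialLinearGroup (Fin (n+1)) K) : Matrix (Fin (n+1)) (Fin (n+1)) K) = 1 := by
          have : ((w * w⁻¹ : Matrix.SpecialLinearGroup (Fin (n+1)) K) : Matrix (Fin (n+1)) (Fin (n+1)) K) = 1 := by rw [mul_inv_cancel]; rfl
          exact this
        rw [h2, mul_one]
      have hsc0 : sc i0 = i1 := by
        apply Fin.ext
        have : ¬ (i0.val = n) := by omega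
        simp only [sc, dif_neg this]; omega
      -- conjugation of x_{01}(c) by h'
      set c0 : K := d i1 * (d (sc i1))⁻¹ with hc0
      have hconj' : ∀ c : K, (w * h * w⁻¹) * SpecialLinearGroup.transvection h01 c * (w * h * w⁻¹)⁻¹ =
          SpecialLinearGroup.transvection h01 (c0 * c) := by
        intro c
        rw [mul_inv_eq_iff_eq_mul]
        apply Subtype.ext
        change ((w * h * w⁻¹ : Matrix.SpecialLinearGroup (Fin (n+1)) K) : Matrix (Fin (n+1)) (Fin (n+1)) K) * Matrix.transvection i0 i1 c =
          Matrix.transvection i0 i1 _ * ((w * h * w⁻¹ : Matrix.SpecialLinearGroup (Fin (n+1)) K) : Matrix (Fin (n+1)) (Fin (n+1)) K)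
        rw [hh']
        unfold Matrix.transvection
        rw [mul_add, add_mul, mul_one, one_mul]
        congr 1
        ext p q
        rw [Matrix.diagonal_mul, Matrix.mul_diagonal, Matrix.single_apply, Matrix.single_apply]
        by_cases hpq : i0 = p ∧ i1 = q
        · obtain ⟨rfl, rfl⟩ := hpq
          simp only [and_self, if_true, hsc0, hc0]
          have := hd'ne (sc i1)
          field_simp
        · rw [if_neg hpq, if_neg hpq]; simp
      have hcomm : Commute h (w * h * w⁻¹) := by
        apply Subtype.ext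
        change (h : Matrix (Fin (n+1)) (Fin (n+1)) K) * ((w * h * w⁻¹ : Matrix.SpecialLinearGroup (Fin (n+1)) K) : Matrix (Fin (n+1)) (Fin (n+1)) K) =
          ((w * h * w⁻¹ : Matrix.SpecialLinearGroup (Fin (n+1)) K) : Matrix (Fin (n+1)) (Fin (n+1)) K) * (h : Matrix (Fin (n+1)) (Fin (n+1)) K)
        rw [hh', hh, Matrix.diagonal_mul_diagonal, Matrix.diagonal_mul_diagonal]
        congr 1
        ext i
        ring
      have hc01 : c0 ≠ 1 := by
        rw [hc0]
        have e1 : d i1 = (k:K)⁻¹ := by
          simp only [d]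
          rw [if_neg (by omega), if_pos hi1]; simp
        rw [e1]
        by_cases hn1 : n = 1
        · have : sc i1 = i0 := by
            apply Fin.ext
            have : i1.val = n := by omega
            simp only [sc, dif_pos this]; omega
          rw [this]
          have e2 : d i0 = (k:K) := by
            simp only [d]
            rw [if_pos hi0]
          rw [e2, ← mul_inv, ← pow_two]
          intro h2
          exact hk2 (inv_eq_one.mp h2)
        · have e3 : (sc i1).val = 2 := by
            have : ¬ i1.val = n := by omega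
            simp only [sc, dif_neg this]; omega
          have e2 : d (sc i1) = 1 := by
            simp only [d]
            rw [if_neg (by omega), if_neg (by omega)]
          rw [e2]
          intro h2
          apply hk2
          have : (k:K) = 1 := by simpa using h2
          rw [this, one_pow]
      -- a := y h y⁻¹ = x_{01}(1 - c0) h'
      have ha : (x * w) * h * (x * w)⁻¹ = SpecialLinearGroup.transvection h01 (1 - c0) * (w * h * w⁻¹) := by
        have h1 : (x * w) * h * (x * w)⁻¹ = x * ((w * h * w⁻¹) * x⁻¹ * (w * h * w⁻¹)⁻¹) * (w * h * w⁻¹) := by group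
        rw [h1, hxe, SpecialLinearGroup.transvection_inv, hconj', ← SpecialLinearGroup.transvection_add]
        congr 2
        ring
      have haH : (x * w) * h * (x * w)⁻¹ ∈ H := H.mul_mem (H.mul_mem hyH hhH) (H.inv_mem hyH)
      refine ⟨((k:K)^2 - 1) * (1 - c0), ?_, mul_ne_zero (sub_ne_zero.mpr hk2) (sub_ne_zero.mpr (Ne.symm hc01))⟩
      change SpecialLinearGroup.transvection h01 _ ∈ H
      have h2 : SpecialLinearGroup.transvection h01 (((k:K)^2 - 1) * (1 - c0)) =
          h * ((x * w) * h * (x * w)⁻¹) * h⁻¹ * ((x * w) * h * (x * w)⁻¹)⁻¹ := by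
        rw [ha]
        have h3 : h * (SpecialLinearGroup.transvection h01 (1 - c0) * (w * h * w⁻¹)) * h⁻¹ *
            (SpecialLinearGroup.transvection h01 (1 - c0) * (w * h * w⁻¹))⁻¹ =
            (h * SpecialLinearGroup.transvection h01 (1 - c0) * h⁻¹) * (h * (w * h * w⁻¹) * h⁻¹ * (w * h * w⁻¹)⁻¹) *
            (SpecialLinearGroup.transvection h01 (1 - c0))⁻¹ := by group
        rw [h3, hcomm.eq, hconj, SpecialLinearGroup.transvection_inv]
        rw [show w * h * w⁻¹ * h * h⁻¹ * (w * h * w⁻¹)⁻¹ = 1 by group, mul_one, ← SpecialLinearGroup.transvection_add]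
        congr 1
        ring
      rw [h2]
      exact H.mul_mem (H.mul_mem (H.mul_mem hhH haH) (H.inv_mem hhH)) (H.inv_mem haH)
    have hAtop := addSubgroup_top hK k hk A hA a₀ ha₀ hne
    have hall : ∀ c : K, SpecialLinearGroup.transvection h01 c ∈ H := by
      intro c
      have : c ∈ A := by rw [hAtop]; trivial
      exact this
    have hxH : x ∈ H := by rw [hxe]; exact hall 1
    have hwH : w ∈ H := by
      have := H.mul_mem (H.inv_mem hxH) hyH
      rwa [inv_mul_cancel_left] at this
    apply eq_top_of_cyclic hn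
    intro i j hij hN c
    refine transvection_mem_of_w hn (w_entries hw) sign_sq H hwH Set.univ (fun _ _ => trivial) ?_ i j hij hN c trivial
    intro i j hij hi hj c _
    have e1 : i = i0 := Fin.ext (by omega)
    have e2 : j = i1 := Fin.ext (by omega)
    subst e1 e2
    exact hall c
  rw [hcl]; exact top_sup_eq _

end Cfsg.Agent.S2402
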