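import Cfsg.Statements.S2403
import Cfsg.Agent.Lib.SLTrans

set_option autoImplicit false
open Cfsg

namespace Cfsg.Agent.S2403

open Cfsg.Agent.Lib.SLTrans Matrix

/-- Explicit two-element generation of `PSL_{n+1}(K)` over the fields with two or three elements: with `x = 1 + E₁₂` and `w` the monomial matrix with entries `1` in positions `(i, i+1)` and `(−1)^n` in position `(n+1, 1)`, the elements `x` and `w` generate `SL_{n+1}(K)` modulo its centre. -/
theorem result {K : Type*} [Field K] [Fintype K] (hK : Fintype.card K ≤ 3) (n : ℕ) (hn : 1 ≤ n)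
    (x w : Matrix.SpecialLinearGroup (Fin (n + 1)) K)
    (hx : (x : Matrix (Fin (n + 1)) (Fin (n + 1)) K) = Matrix.transvection (0 : Fin (n + 1)) (1 : Fin (n + 1)) 1)
    (hw : (w : Matrix (Fin (n + 1)) (Fin (n + 1)) K) =
      Matrix.of (fun i j => if j.val = i.val + 1 then 1 else if i.val = n ∧ j.val = 0 then (-1) ^ n else 0)) :
    Subgroup.closure ({x, w} : Set (Matrix.SpecialLinearGroup (Fin (n + 1)) K)) ⊔
      Subgroup.center (Matrix.SpecialLinearGroup (Fin (n + 1)) K) = ⊤ := by
  have hcl : Subgroup.closure ({x, w} : Set (Matrix.SpecialLinearGroup (Fin (n + 1)) K)) = ⊤ := by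
    set H := Subgroup.closure ({x, w} : Set (Matrix.SpecialLinearGroup (Fin (n + 1)) K)) with hH
    have hxH : x ∈ H := Subgroup.subset_closure (by simp)
    have hwH : w ∈ H := Subgroup.subset_closure (by simp)
    have h01 := x_eq hn hx
    have hC : ∀ c : K, c = 0 ∨ c = 1 ∨ c = -1 := by
      intro c
      by_contra hcon
      push Not at hcon
      obtain ⟨h1, h2, h3⟩ := hcon
      classical
      by_cases h4 : (1 : K) = -1
      · -- characteristic two: c, c+1, 0, 1 are four elements
        have hc1 : c + 1 ≠ 0 := by
          intro h; exact h3 (eq_neg_of_add_eq_zero_left h)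
        have hc2 : c + 1 ≠ 1 := by
          intro h; exact h1 (by simpa using h)
        have hc3 : c + 1 ≠ c := by simp
        have : ({0, 1, c, c+1} : Finset K).card ≤ Fintype.card K := Finset.card_le_univ _
        rw [Finset.card_insert_of_notMem, Finset.card_insert_of_notMem, Finset.card_insert_of_notMem, Finset.card_singleton] at this
        · omega
        · simp
        · simp [Ne.symm h2, Ne.symm hc2, h1]
        · simp [Ne.symm h1, Ne.symm hc1]
      · have : ({0, 1, -1, c} : Finset K).card ≤ Fintype.card K := Finset.card_le_univ _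
        rw [Finset.card_insert_of_notMem, Finset.card_insert_of_notMem, Finset.card_insert_of_notMem, Finset.card_singleton] at this
        · omega
        · simp [Ne.symm h3]
        · simp [Ne.symm h2, h4]
        · simp [Ne.symm h1]
    apply eq_top_of_cyclic hn
    intro i j hij hN c
    refine transvection_mem_of_w hn (w_entries hw) sign_sq H hwH Set.univ (fun _ _ => trivial) ?_ i j hij hN c trivial
    intro i j hij hi hj c _
    have hx1 := h01 i j hij hi hj
    rcases hC c with rfl | rfl | rfl
    · rw [SpecialLinearGroup.transvection_coeff_zero]; exact H.one_mem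
    · rw [← hx1]; exact hxH
    · rw [← SpecialLinearGroup.transvection_inv, ← hx1]; exact H.inv_mem hxH
  rw [hcl]; exact top_sup_eq _

end Cfsg.Agent.S2403
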