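import Cfsg.Statements.S2290
import Cfsg.Agent.Lib.PresSL3c
import Cfsg.Agent.S2286
import Cfsg.Agent.S2288
import Cfsg.Agent.S2402
import Cfsg.Agent.S2403

set_option autoImplicit false
open Cfsg

namespace Cfsg.Agent.S2290

open Cfsg.Agent.Lib.PresSLn Cfsg.Agent.Lib.PresFinal Matrix

theorem det_w {K : Type*} [Field K] (n : ℕ) :
    (Matrix.of (fun i j : Fin (n + 1) => if j.val = i.val + 1 then (1 : K) else if i.val = n ∧ j.val = 0 then (-1) ^ n else 0)).det = 1 := by
  have e : (Matrix.of (fun i j : Fin (n + 1) => if j.val = i.val + 1 then (1 : K) else if i.val = n ∧ j.val = 0 then (-1) ^ n else 0)) =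
      Matrix.diagonal (fun i : Fin (n + 1) => if i.val = n then (-1 : K) ^ n else 1) * (finRotate (n + 1)).permMatrix K := by
    ext i j
    rw [Matrix.diagonal_mul, Matrix.of_apply, Equiv.Perm.permMatrix, PEquiv.toMatrix_apply]
    simp only [Equiv.toPEquiv_apply, Option.mem_some_iff]
    by_cases hi : i.val = n
    · have hi' : i = Fin.last n := Fin.ext hi
      rw [if_pos hi, hi', finRotate_last, if_neg (by rw [Fin.val_last]; have := j.isLt; omega)]
      by_cases hj : j.val = 0
      · rw [if_pos ⟨Fin.val_last n, hj⟩, if_pos (Fin.ext hj.symm), mul_one]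
      · rw [if_neg (fun h => hj h.2), if_neg (fun h => hj (by rw [← h]; rfl)), mul_zero]
    · have hlt : i.val < n := by have := i.isLt; omega
      have hr : (finRotate (n + 1) i).val = i.val + 1 := by
        have h1 := finRotate_of_lt (n := n) (k := i.val) hlt
        have h2 : i = ⟨i.val, hlt.trans_le n.le_succ⟩ := rfl
        rw [h2, h1]
      rw [if_neg hi, one_mul]
      by_cases hj : j.val = i.val + 1
      · rw [if_pos hj, if_pos (Fin.ext (by rw [hr, hj]))]
      · rw [if_neg hj, if_neg (fun h => hi h.1), if_neg (fun h => hj (by rw [← h, hr]))]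
  rw [e, det_mul, det_diagonal, det_permutation, sign_finRotate, Finset.prod_eq_single (Fin.last n)]
  · rw [if_pos (Fin.val_last n)]
    push_cast
    rw [← pow_add, ← two_mul, pow_mul]; simp
  · intro b _ hb
    rw [if_neg]
    intro h
    exact hb (Fin.ext h)
  · intro h; exact absurd (Finset.mem_univ _) h

/-- two generators of `PSL_n` -/
theorem two_gen {F : Type*} [Field F] [Fintype F] (n : ℕ) (hn : 1 ≤ n) :
    ∃ b : Fin 2 → Matrix.ProjectiveSpecialLinearGroup (Fin (n + 1)) F, Subgroup.closure (Set.range b) = ⊤ := by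
  have key : ∃ a b : SpecialLinearGroup (Fin (n + 1)) F, Subgroup.closure ({a, b} : Set (SpecialLinearGroup (Fin (n + 1)) F)) ⊔
      Subgroup.center (SpecialLinearGroup (Fin (n + 1)) F) = ⊤ := by
    obtain ⟨i0, hi0⟩ : ∃ i : Fin (n+1), i = 0 := ⟨0, rfl⟩
    have h01 : (0 : Fin (n + 1)) ≠ 1 := by
      intro h
      have h2 := congrArg Fin.val h
      rw [Fin.val_zero, Fin.val_one'] at h2
      rw [Nat.mod_eq_of_lt (by omega)] at h2
      omega
    let x : SpecialLinearGroup (Fin (n + 1)) F := SpecialLinearGroup.transvection h01 1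
    let w : SpecialLinearGroup (Fin (n + 1)) F := ⟨_, det_w n⟩
    by_cases hK : 3 < Fintype.card F
    · obtain ⟨k, hk⟩ := Cfsg.Agent.Lib.PresSL2.exists_gen F
      let d : Fin (n + 1) → F := fun i => if i.val = 0 then (k : F) else if i.val = 1 then ((k⁻¹ : Fˣ) : F) else 1
      have hd : (Matrix.diagonal d).det = 1 := by
        rw [det_diagonal, Fin.prod_univ_succ]
        obtain ⟨m, rfl⟩ : ∃ m, n = m + 1 := ⟨n - 1, by omega⟩
        rw [Fin.prod_univ_succ]
        have h1 : ∀ i : Fin m, d i.succ.succ = 1 := by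
          intro i
          simp [d, Fin.val_succ]
        rw [Finset.prod_congr rfl (fun i _ => h1 i), Finset.prod_const_one, mul_one]
        simp [d]
      let h : SpecialLinearGroup (Fin (n + 1)) F := ⟨Matrix.diagonal d, hd⟩
      exact ⟨h, x * w, Cfsg.Agent.S2402.result hK n hn k hk h x w rfl rfl rfl⟩
    · exact ⟨x, w, Cfsg.Agent.S2403.result (by omega) n hn x w rfl rfl⟩
  obtain ⟨a, b, hab⟩ := key
  refine ⟨![QuotientGroup.mk a, QuotientGroup.mk b], ?_⟩
  rw [Cfsg.Agent.Lib.PresAn.range_two]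
  have h1 : (Subgroup.closure ({a, b} : Set (SpecialLinearGroup (Fin (n + 1)) F)) ⊔
      Subgroup.center (SpecialLinearGroup (Fin (n + 1)) F)).map (QuotientGroup.mk' (Subgroup.center (SpecialLinearGroup (Fin (n + 1)) F))) = ⊤ := by
    rw [hab, ← MonoidHom.range_eq_map, MonoidHom.range_eq_top]
    exact QuotientGroup.mk'_surjective _
  rw [Subgroup.map_sup, QuotientGroup.map_mk'_self, sup_bot_eq, MonoidHom.map_closure, Set.image_pair] at h1
  exact h1

theorem finish {F : Type*} [Field F] [Fintype F] {n k : ℕ} (hn : 2 ≤ n) {N : ℕ}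
    (h : ∃ rels : Finset (FreeGroup (Fin k)), rels.card ≤ N ∧ Nonempty (PresentedGroup (↑rels : Set (FreeGroup (Fin k))) ≃* Matrix.ProjectiveSpecialLinearGroup (Fin n) F))
    (hk : 0 < k) : ∃ rels : Finset (FreeGroup (Fin 2)), rels.card ≤ N + 2 ∧ Nonempty (PresentedGroup (↑rels : Set (FreeGroup (Fin 2))) ≃* Matrix.ProjectiveSpecialLinearGroup (Fin n) F) := by
  obtain ⟨m, rfl⟩ : ∃ m, n = m + 1 := ⟨n - 1, by omega⟩
  obtain ⟨rels, h1, ⟨e⟩⟩ := h
  obtain ⟨b, hb⟩ := two_gen (F := F) m (by omega)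
  obtain ⟨rels', h2, e', -⟩ := Cfsg.Agent.Lib.PresTool.change_gens rels e b hb Finset.univ (fun _ => ⟨0, hk⟩)
    (fun j hj => absurd (Finset.mem_univ _) hj) (fun j hj => absurd (Finset.mem_univ _) hj)
  refine ⟨rels', ?_, ⟨e'⟩⟩
  rw [Finset.card_univ, Fintype.card_fin] at h2
  omega

/-- For every finite field F with q elements and n ≥ 2, with q ≥ 4 when n = 2, the simple group PSL_n(F) has a presentation with 2 generators and at most 80 relations. -/
theorem result {F : Type*} [Field F] [Fintype F] (n : ℕ) (hn : 2 ≤ n) (h2 : n = 2 → 4 ≤ Fintype.card F) :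
    ∃ rels : Finset (FreeGroup (Fin 2)), rels.card ≤ 80 ∧ Nonempty (PresentedGroup (↑rels : Set (FreeGroup (Fin 2))) ≃* Matrix.ProjectiveSpecialLinearGroup (Fin n) F) := by
  rcases Nat.lt_or_ge n 4 with h | h
  · interval_cases n
    · obtain ⟨r, h1, e⟩ := finish (F := F) (n := 2) le_rfl (Cfsg.Agent.S2286.result (F := F)).2.1 (by norm_num)
      exact ⟨r, by omega, e⟩
    · obtain ⟨r, h1, ⟨e⟩⟩ := Cfsg.Agent.Lib.PresSL3.pres_SL3 F
      obtain ⟨z, hz⟩ := Cfsg.Agent.S2288.center_gen (F := F) 3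
      obtain ⟨r', h2, h3⟩ := quot_pres r e (Subgroup.center (SpecialLinearGroup (Fin 3) F)) z hz
      obtain ⟨r, h1, e⟩ := finish (F := F) (n := 3) (N := 15) (by norm_num) ⟨r', by omega, h3⟩ (by norm_num)
      exact ⟨r, by omega, e⟩
  · obtain ⟨r, h1, e⟩ := finish (F := F) (n := n) hn (Cfsg.Agent.S2288.result (F := F) n h).2.1 (by norm_num)
    exact ⟨r, by omega, e⟩

end Cfsg.Agent.S2290
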