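import Cfsg.Statements.S2431
import Cfsg.Agent.Lib.SL2Int
import Cfsg.Agent.Lib.ClSL2Syl
import Cfsg.Agent.Lib.H55Quat

set_option autoImplicit false
open Cfsg

namespace Cfsg.Agent.S2431

open Matrix
open Cfsg.Agent.Lib.SL2Basic Cfsg.Agent.Lib.SL2Tori Cfsg.Agent.Lib.SL2Int Cfsg.Agent.Lib.ClSL2Syl

theorem gens {F : Type*} [Field F] [Fintype F] (hodd : Odd (Fintype.card F))
    (S : Sylow 2 (Matrix.SpecialLinearGroup (Fin 2) F)) :
    ∃ (k : ℕ) (A W : Matrix.SpecialLinearGroup (Fin 2) F), 1 ≤ k ∧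
      Nonempty ((S : Subgroup (Matrix.SpecialLinearGroup (Fin 2) F)) ≃* QuaternionGroup (2 ^ k)) ∧
      A ∈ S ∧ W ∈ S ∧ (∀ x ∈ S, (∃ j : ℕ, x = A ^ j) ∨ (orderOf x = 4 ∧ ∃ j : ℕ, x = W * A ^ j)) ∧
      W * A * W⁻¹ = A⁻¹ ∧ orderOf A = 2 * 2 ^ k ∧ orderOf W = 4 ∧ tr A ^ 2 ≠ 4 := by
  classical
  obtain ⟨k, hk, ⟨e⟩⟩ := sylow_two_SL2 hodd S
  have hne : NeZero (2 ^ k) := ⟨by positivity⟩
  have hne' : NeZero (2 * 2 ^ k) := ⟨by positivity⟩
  have hA : orderOf (((e.symm (QuaternionGroup.a 1)) : (S : Subgroup (Matrix.SpecialLinearGroup (Fin 2) F))) :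
      Matrix.SpecialLinearGroup (Fin 2) F) = 2 * 2 ^ k := by
    rw [Subgroup.orderOf_coe, MulEquiv.orderOf_eq, QuaternionGroup.orderOf_a_one]
  refine ⟨k, (e.symm (QuaternionGroup.a 1) : (S : Subgroup (Matrix.SpecialLinearGroup (Fin 2) F))),
    (e.symm (QuaternionGroup.xa 0) : (S : Subgroup (Matrix.SpecialLinearGroup (Fin 2) F))), hk, ⟨e⟩,
    (e.symm (QuaternionGroup.a 1)).2, (e.symm (QuaternionGroup.xa 0)).2, ?_, ?_, hA, ?_, ?_⟩
  · intro x hx
    obtain ⟨y, hy⟩ : ∃ y, e ⟨x, hx⟩ = y := ⟨_, rfl⟩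
    have hxy : (⟨x, hx⟩ : (S : Subgroup (Matrix.SpecialLinearGroup (Fin 2) F))) = e.symm y := by
      rw [← hy, MulEquiv.symm_apply_apply]
    have hxc : x = (e.symm y : (S : Subgroup (Matrix.SpecialLinearGroup (Fin 2) F))) :=
      congrArg Subtype.val hxy
    rcases y with i | i
    · left
      refine ⟨i.val, ?_⟩
      rw [hxc, ← Subgroup.coe_pow, ← map_pow, QuaternionGroup.a_one_pow, ZMod.natCast_zmod_val]
    · right
      refine ⟨?_, i.val, ?_⟩
      · rw [hxc, Subgroup.orderOf_coe, MulEquiv.orderOf_eq, QuaternionGroup.orderOf_xa]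
      · rw [hxc, ← Subgroup.coe_pow, ← map_pow, QuaternionGroup.a_one_pow, ZMod.natCast_zmod_val,
          ← Subgroup.coe_mul, ← map_mul, QuaternionGroup.xa_mul_a, zero_add]
  · rw [mul_inv_eq_iff_eq_mul, ← Subgroup.coe_mul, ← map_mul, ← Subgroup.coe_inv, ← map_inv,
      ← Subgroup.coe_mul, ← map_mul]
    congr 2
    rw [QuaternionGroup.xa_mul_a]
    change _ = QuaternionGroup.a (-1) * _
    rw [QuaternionGroup.a_mul_xa]
    congr 1
    ring
  · rw [Subgroup.orderOf_coe, MulEquiv.orderOf_eq, QuaternionGroup.orderOf_xa]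
  · intro h4
    obtain ⟨p, hp⟩ := CharP.exists F
    have hpp : Fact p.Prime := ⟨CharP.char_is_prime F p⟩
    have hpo : p ≠ 2 := by
      rintro rfl
      have h2 := two_ne_zero_of_odd hodd
      exact h2 (by exact_mod_cast CharP.cast_eq_zero F 2)
    have h5 : (((e.symm (QuaternionGroup.a 1)) : (S : Subgroup (Matrix.SpecialLinearGroup (Fin 2) F))) :
      Matrix.SpecialLinearGroup (Fin 2) F) ^ (p * 2) = 1 := by
      rw [pow_mul]
      rcases pow_char_of_tr_sq (p := p) h4 with h | h <;> rw [h] <;> simp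
    have h6 := orderOf_dvd_of_pow_eq_one h5
    rw [hA, mul_comm p 2] at h6
    have h7 := Nat.dvd_of_mul_dvd_mul_left two_pos h6
    have h8 : 2 ∣ p := (dvd_pow_self 2 (by omega)).trans h7
    exact hpo ((Nat.prime_dvd_prime_iff_eq Nat.prime_two hpp.out).1 h8).symm

theorem neg_one_of_sq {F : Type*} [Field F] (h2 : (2 : F) ≠ 0) {A : Matrix.SpecialLinearGroup (Fin 2) F}
    (h : orderOf A = 4) : A * A = -1 ∧ tr A = 0 := by
  have h4 : A ^ 4 = 1 := by rw [← h, pow_orderOf_eq_one]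
  have h3 : A * A ≠ 1 := by
    intro h5
    have := orderOf_dvd_of_pow_eq_one (x := A) (n := 2) (by rw [pow_two]; exact h5)
    rw [h] at this
    exact absurd (Nat.le_of_dvd (by norm_num) this) (by norm_num)
  have h5 : A * A = -1 := by
    rcases eq_one_or_neg_one_of_sq h2 (A := A * A) (by rw [← h4, ← pow_two, ← pow_two, ← pow_mul]) with h6 | h6
    · exact absurd h6 h3
    · exact h6
  refine ⟨h5, ?_⟩
  have h6 := sq_eq A
  have h7 : ((A : Matrix (Fin 2) (Fin 2) F)) * A = -1 := by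
    rw [← Matrix.SpecialLinearGroup.coe_mul, h5]; simp
  rw [h7] at h6
  have h8 : tr A • (A : Matrix (Fin 2) (Fin 2) F) = 0 := by
    have := congrArg (· + (1 : Matrix (Fin 2) (Fin 2) F)) h6
    simpa using this.symm
  by_contra ht
  have h9 : (A : Matrix (Fin 2) (Fin 2) F) = 0 := (smul_eq_zero.1 h8).resolve_left ht
  have := det2 A
  rw [h9] at this
  simp at this

/-- the quaternion element `(1 + i)(1 + j) / 2` -/
theorem exists_hurwitz {F : Type*} [Field F] (h2 : (2 : F) ≠ 0) {A W : Matrix.SpecialLinearGroup (Fin 2) F}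
    (hA : A * A = -1) (hW : W * W = -1) (htA : tr A = 0) (htW : tr W = 0) (hWA : W * A * W⁻¹ = A⁻¹) :
    ∃ h : Matrix.SpecialLinearGroup (Fin 2) F, h * A = W * h ∧ h * W = A * W * h ∧ h ^ 3 = -1 := by
  have hA' : ((A : Matrix (Fin 2) (Fin 2) F)) * A = -1 := by
    rw [← Matrix.SpecialLinearGroup.coe_mul, hA]; simp
  have hW' : ((W : Matrix (Fin 2) (Fin 2) F)) * W = -1 := by
    rw [← Matrix.SpecialLinearGroup.coe_mul, hW]; simp
  have hAi : A⁻¹ = -A := by
    rw [inv_eq_iff_mul_eq_one, mul_neg, hA, neg_neg]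
  have hWA1 : W * A = - (A * W) := by
    rw [mul_inv_eq_iff_eq_mul, hAi] at hWA
    rw [hWA, neg_mul]
  have hWA' : ((W : Matrix (Fin 2) (Fin 2) F)) * A = - (A * W) := by
    rw [← Matrix.SpecialLinearGroup.coe_mul, hWA1]; simp
  have hdet : ((2 : F)⁻¹ • ((1 + (A : Matrix (Fin 2) (Fin 2) F)) * (1 + W))).det = 1 := by
    rw [Matrix.det_smul, Matrix.det_mul]
    have e1 : (1 + (A : Matrix (Fin 2) (Fin 2) F)).det = 2 := by
      have := det2 A
      rw [tr_def] at htA
      rw [Matrix.det_fin_two]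
      simp only [Matrix.add_apply, Matrix.one_apply_eq]
      rw [Matrix.one_apply_ne (by decide), Matrix.one_apply_ne (by decide)]
      linear_combination this + htA
    have e2 : (1 + (W : Matrix (Fin 2) (Fin 2) F)).det = 2 := by
      have := det2 W
      rw [tr_def] at htW
      rw [Matrix.det_fin_two]
      simp only [Matrix.add_apply, Matrix.one_apply_eq]
      rw [Matrix.one_apply_ne (by decide), Matrix.one_apply_ne (by decide)]
      linear_combination this + htW
    rw [e1, e2]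
    simp only [Fintype.card_fin]
    field_simp
  obtain ⟨h, hh⟩ : ∃ h : Matrix.SpecialLinearGroup (Fin 2) F,
    (h : Matrix (Fin 2) (Fin 2) F) = (2 : F)⁻¹ • ((1 + (A : Matrix (Fin 2) (Fin 2) F)) * (1 + W)) :=
    ⟨⟨_, hdet⟩, rfl⟩
  refine ⟨h, ?_, ?_, ?_⟩
  · apply Subtype.ext
    rw [Matrix.SpecialLinearGroup.coe_mul, Matrix.SpecialLinearGroup.coe_mul, hh, smul_mul_assoc, mul_smul_comm]
    congr 1
    have e1 : (1 + (A : Matrix (Fin 2) (Fin 2) F)) * (1 + W) * A =
      A + A * A + W * A + A * (W * A) := by noncomm_ring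
    have e2 : (W : Matrix (Fin 2) (Fin 2) F) * ((1 + (A : Matrix (Fin 2) (Fin 2) F)) * (1 + W)) =
      W + W * A + W * W + (W * A) * W := by noncomm_ring
    rw [e1, e2, hWA', hA', hW', mul_neg, ← mul_assoc, hA', neg_mul (_ * _) _, mul_assoc _ _ (W : Matrix (Fin 2) (Fin 2) F), hW']
    noncomm_ring
  · apply Subtype.ext
    rw [Matrix.SpecialLinearGroup.coe_mul, Matrix.SpecialLinearGroup.coe_mul, hh, smul_mul_assoc, mul_smul_comm,
      Matrix.SpecialLinearGroup.coe_mul]
    congr 1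
    have e1 : (1 + (A : Matrix (Fin 2) (Fin 2) F)) * (1 + W) * W =
      W + W * W + A * W + A * (W * W) := by noncomm_ring
    have e2 : (A : Matrix (Fin 2) (Fin 2) F) * W * ((1 + (A : Matrix (Fin 2) (Fin 2) F)) * (1 + W)) =
      A * W + A * (W * A) + A * (W * W) + A * (W * A) * W := by noncomm_ring
    rw [e1, e2, hWA', hW', mul_neg, mul_neg, ← mul_assoc, hA', neg_mul, neg_mul, neg_mul, one_mul, neg_neg, neg_neg, hW']
    noncomm_ring
  · have ht : tr (A * W) = 0 := by
      have e1 := tr_mul_comm A W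
      rw [hWA1, tr_neg] at e1
      have e2 : (2 : F) * tr (A * W) = 0 := by linear_combination e1
      exact (mul_eq_zero.1 e2).resolve_left h2
    have hth : tr h = 1 := by
      rw [← trace_eq, hh, Matrix.trace_smul, mul_add, mul_one, add_mul, one_mul,
        Matrix.trace_add, Matrix.trace_add, Matrix.trace_add, Matrix.trace_one, trace_eq, trace_eq,
        ← Matrix.SpecialLinearGroup.coe_mul, trace_eq, ht, htA, htW]
      simp [h2]
    have hs := sq_eq h
    rw [hth, one_smul] at hs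
    apply Subtype.ext
    rw [pow_succ, pow_two, Matrix.SpecialLinearGroup.coe_mul, Matrix.SpecialLinearGroup.coe_mul, hs, sub_mul, hs]
    simp

theorem part1 {F : Type*} [Field F] [Fintype F] (hodd : Odd (Fintype.card F))
    (S : Sylow 2 (Matrix.SpecialLinearGroup (Fin 2) F)) :
    Subgroup.centralizer ((S : Subgroup (Matrix.SpecialLinearGroup (Fin 2) F)) : Set (Matrix.SpecialLinearGroup (Fin 2) F)) = Subgroup.center (Matrix.SpecialLinearGroup (Fin 2) F) := by
  obtain ⟨k, A, W, hk, -, hA, hW, hS, hWA, hoA, hoW, h4⟩ := gens hodd S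
  apply le_antisymm
  · intro x hx
    by_contra hxc
    have h1 : A ∈ Subgroup.centralizer ({x} : Set (Matrix.SpecialLinearGroup (Fin 2) F)) := by
      rw [Subgroup.mem_centralizer_singleton_iff]
      exact Subgroup.mem_centralizer_iff.1 hx A hA
    have h2 : W ∈ Subgroup.centralizer ({x} : Set (Matrix.SpecialLinearGroup (Fin 2) F)) := by
      rw [Subgroup.mem_centralizer_singleton_iff]
      exact Subgroup.mem_centralizer_iff.1 hx W hW
    have h3 := centralizer_comm hxc h2 h1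
    rw [h3, mul_inv_cancel_right] at hWA
    have h5 : A ^ 2 = 1 := by rw [pow_two]; nth_rw 1 [hWA]; exact inv_mul_cancel A
    have h6 := orderOf_dvd_of_pow_eq_one h5
    rw [hoA] at h6
    have h7 := Nat.le_of_dvd two_pos h6
    have h8 : 2 ^ 1 ≤ 2 ^ k := Nat.pow_le_pow_right two_pos hk
    omega
  · intro x hx
    rw [Subgroup.mem_centralizer_iff]
    intro y _
    exact Subgroup.mem_center_iff.1 hx y

theorem mem_of_two {G : Type*} [Group G] [Finite G] (S : Sylow 2 G) {m : G}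
    (hm : m ∈ Subgroup.normalizer ((S : Subgroup G) : Set G)) (h : m ^ 2 ∈ S) : m ∈ S := by
  obtain ⟨j, hj⟩ := S.isPGroup' ⟨m ^ 2, h⟩
  have hj' : (m ^ 2) ^ (2 ^ j) = 1 := congrArg Subtype.val hj
  have h1 : IsPGroup 2 (Subgroup.zpowers m) := by
    rw [IsPGroup.iff_orderOf]
    rintro ⟨x, hx⟩
    rw [Subgroup.orderOf_mk]
    have h2 : orderOf x ∣ 2 ^ (j + 1) := by
      obtain ⟨i, rfl⟩ := Subgroup.mem_zpowers_iff.1 hx
      apply orderOf_dvd_of_pow_eq_one
      rw [← zpow_natCast, ← _root_.zpow_mul, mul_comm, _root_.zpow_mul, zpow_natCast, pow_succ', pow_mul, hj', _root_.one_zpow]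
    obtain ⟨i, -, hi⟩ := (Nat.dvd_prime_pow Nat.prime_two).1 h2
    exact ⟨i, hi⟩
  have h2 := h1.inf_normalizer_sylow S
  have h3 : m ∈ Subgroup.zpowers m ⊓ Subgroup.normalizer ((S : Subgroup G) : Set G) := ⟨Subgroup.mem_zpowers m, hm⟩
  have h4 := (SetLike.ext_iff.1 h2 m).1 h3
  exact h4.2

theorem part2 {F : Type*} [Field F] [Fintype F] (hodd : Odd (Fintype.card F))
    (S : Sylow 2 (Matrix.SpecialLinearGroup (Fin 2) F)) (hq : Fintype.card F % 8 = 1 ∨ Fintype.card F % 8 = 7) :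
    Subgroup.normalizer ((S : Subgroup (Matrix.SpecialLinearGroup (Fin 2) F)) : Set (Matrix.SpecialLinearGroup (Fin 2) F)) = (S : Subgroup (Matrix.SpecialLinearGroup (Fin 2) F)) := by
  obtain ⟨k, A, W, hk, ⟨e⟩, hA, hW, hS, hWA, hoA, hoW, h4⟩ := gens hodd S
  have hne : NeZero (2 ^ k) := ⟨by positivity⟩
  have hk2 : 2 ≤ k := by
    have h16 : 16 ∣ Nat.card (Matrix.SpecialLinearGroup (Fin 2) F) := by
      rw [card_SL2', Nat.card_eq_fintype_card]
      obtain ⟨a, ha⟩ : ∃ a, Fintype.card F = 8 * a + 1 ∨ Fintype.card F = 8 * a + 7 := ⟨Fintype.card F / 8, by omega⟩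
      rcases ha with ha | ha
      · rw [ha, Nat.add_sub_cancel]
        exact ⟨(8 * a + 1) * (a * (4 * a + 1)), by ring⟩
      · rw [ha, show 8 * a + 7 - 1 = 8 * a + 6 by omega]
        exact ⟨(8 * a + 7) * ((4 * a + 3) * (a + 1)), by ring⟩
    have h2 : 2 ^ 4 ∣ Nat.card S := S.pow_dvd_card_of_pow_dvd_card (by norm_num; exact h16)
    have h3 := Nat.card_congr e.toEquiv
    rw [Nat.card_eq_fintype_card (α := QuaternionGroup (2 ^ k)), QuaternionGroup.card] at h3
    rw [h3] at h2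
    by_contra hcon
    have hk1 : k = 1 := by omega
    subst hk1
    norm_num at h2
  apply le_antisymm _ Subgroup.le_normalizer
  intro n hn
  have h8 : 8 ≤ orderOf A := by
    rw [hoA]
    have : 2 ^ 2 ≤ 2 ^ k := Nat.pow_le_pow_right two_pos hk2
    omega
  have hAnc := not_mem_center_of_tr h4
  -- elements of the normalizer centralizing `A`
  have key : ∀ m : Matrix.SpecialLinearGroup (Fin 2) F,
      m ∈ Subgroup.normalizer ((S : Subgroup (Matrix.SpecialLinearGroup (Fin 2) F)) : Set (Matrix.SpecialLinearGroup (Fin 2) F)) →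
      m * A * m⁻¹ = A → m ∈ S := by
    intro m hm hmA
    have hmC : m ∈ Subgroup.centralizer ({A} : Set (Matrix.SpecialLinearGroup (Fin 2) F)) := by
      rw [Subgroup.mem_centralizer_singleton_iff]
      exact mul_inv_eq_iff_eq_mul.1 hmA
    have h1 := inverts_of_inverts hAnc hWA hmC
    apply mem_of_two S hm
    have h2 : m * W * m⁻¹ ∈ (S : Subgroup (Matrix.SpecialLinearGroup (Fin 2) F)) :=
      (Subgroup.mem_normalizer_iff.1 hm W).1 hW
    have h3 : m ^ 2 = m * W * m⁻¹ * W⁻¹ := by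
      have : W * m⁻¹ * W⁻¹ = m := by
        calc W * m⁻¹ * W⁻¹ = (W * m * W⁻¹)⁻¹ := by group
          _ = m := by rw [h1, inv_inv]
      calc m ^ 2 = m * m := pow_two m
        _ = m * (W * m⁻¹ * W⁻¹) := by rw [this]
        _ = _ := by group
    rw [h3]
    exact mul_mem h2 (inv_mem hW)
  have h5 : n * A * n⁻¹ ∈ (S : Subgroup (Matrix.SpecialLinearGroup (Fin 2) F)) :=
    (Subgroup.mem_normalizer_iff.1 hn A).1 hA
  have h6 : orderOf (n * A * n⁻¹) = orderOf A := by
    have := MulEquiv.orderOf_eq (MulAut.conj n) A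
    simpa using this
  rcases hS _ h5 with ⟨j, hj⟩ | ⟨hj, -⟩
  · have h7 : n * A * n⁻¹ ∈ Subgroup.centralizer ({A} : Set (Matrix.SpecialLinearGroup (Fin 2) F)) := by
      rw [hj, Subgroup.mem_centralizer_singleton_iff]
      exact ((Commute.refl A).pow_left j).eq
    rcases eq_or_eq_inv_of_mem_centralizer h4 h7 (tr_conj _ _) with h9 | h9
    · exact key n hn h9
    · have h10 : W * n ∈ S := by
        apply key (W * n)
        · exact mul_mem (Subgroup.le_normalizer hW) hn
        · calc W * n * A * (W * n)⁻¹ = W * (n * A * n⁻¹) * W⁻¹ := by group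
            _ = (W * A * W⁻¹)⁻¹ := by rw [h9]; group
            _ = A := by rw [hWA, inv_inv]
      have := mul_mem (inv_mem hW) h10
      rwa [inv_mul_cancel_left] at this
  · omega

theorem part3 {F : Type*} [Field F] [Fintype F] (hodd : Odd (Fintype.card F))
    (S : Sylow 2 (Matrix.SpecialLinearGroup (Fin 2) F)) (hq : Fintype.card F % 8 = 3 ∨ Fintype.card F % 8 = 5) :
    Nat.card (Subgroup.normalizer ((S : Subgroup (Matrix.SpecialLinearGroup (Fin 2) F)) : Set (Matrix.SpecialLinearGroup (Fin 2) F))) = 3 * Nat.card S := by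
  classical
  obtain ⟨k, A, W, hk, ⟨e⟩, hA, hW, hS, hWA, hoA, hoW, h4⟩ := gens hodd S
  have h2 := two_ne_zero_of_odd hodd
  have hne : NeZero (2 ^ k) := ⟨by positivity⟩
  obtain ⟨m, hm⟩ : ∃ m, Fintype.card F ^ 2 - 1 = 8 * m ∧ ¬ 2 ∣ m := by
    obtain ⟨a, ha⟩ : ∃ a, Fintype.card F = 8 * a + 3 ∨ Fintype.card F = 8 * a + 5 := ⟨Fintype.card F / 8, by omega⟩
    rcases ha with ha | ha
    · refine ⟨8 * a ^ 2 + 6 * a + 1, ?_, by omega⟩
      rw [ha, show (8 * a + 3) ^ 2 = 8 * (8 * a ^ 2 + 6 * a + 1) + 1 by ring, Nat.add_sub_cancel]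
    · refine ⟨8 * a ^ 2 + 10 * a + 3, ?_, by omega⟩
      rw [ha, show (8 * a + 5) ^ 2 = 8 * (8 * a ^ 2 + 10 * a + 3) + 1 by ring, Nat.add_sub_cancel]
  have hq2 : ¬ 2 ∣ Fintype.card F := by omega
  have hmq : ¬ 2 ∣ Fintype.card F * m := fun h => ((Nat.Prime.dvd_mul Nat.prime_two).1 h).elim hq2 hm.2
  have hcard' : Nat.card S = 8 :=
    Cfsg.Agent.Lib.ClSLn.card_sylow_eq_of_mul 2 S 8 3 (Fintype.card F * m) (by norm_num) hmq (by rw [Cfsg.Agent.Lib.ClSL2.card_SL2 rfl, hm.1]; ring)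
  have hk1 : k = 1 := by
    have h3 := Nat.card_congr e.toEquiv
    rw [hcard', Nat.card_eq_fintype_card (α := QuaternionGroup (2 ^ k)), QuaternionGroup.card] at h3
    have : 2 ^ k = 2 ^ 1 := by omega
    exact Nat.pow_right_injective (le_refl 2) this
  subst hk1
  have hoA4 : orderOf A = 4 := by rw [hoA]; norm_num
  obtain ⟨hAA, htA⟩ := neg_one_of_sq h2 hoA4
  obtain ⟨hWW, htW⟩ := neg_one_of_sq h2 hoW
  obtain ⟨h, hhA, hhW, hh3⟩ := exists_hurwitz h2 hAA hWW htA htW hWA
  set N := Subgroup.normalizer ((S : Subgroup (Matrix.SpecialLinearGroup (Fin 2) F)) : Set (Matrix.SpecialLinearGroup (Fin 2) F)) with hN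
  -- `h` normalizes `S`
  have hconj : ∀ x ∈ S, h * x * h⁻¹ ∈ S := by
    have hc : ∀ j : ℕ, h * A ^ j * h⁻¹ = W ^ j := by
      intro j
      have : h * A * h⁻¹ = W := mul_inv_eq_iff_eq_mul.2 hhA
      rw [← this, conj_pow]
    have hc' : h * W * h⁻¹ = A * W := mul_inv_eq_iff_eq_mul.2 hhW
    intro x hx
    rcases hS x hx with ⟨j, rfl⟩ | ⟨-, j, rfl⟩
    · rw [hc]; exact pow_mem hW j
    · have : h * (W * A ^ j) * h⁻¹ = (h * W * h⁻¹) * (h * A ^ j * h⁻¹) := by group
      rw [this, hc, hc']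
      exact mul_mem (mul_mem hA hW) (pow_mem hW j)
  have hhN : h ∈ N := by
    rw [hN]
    let φ : S → S := fun x => ⟨h * x * h⁻¹, hconj x x.2⟩
    have hφ : Function.Injective φ := by
      intro x y hxy
      have : h * (x : Matrix.SpecialLinearGroup (Fin 2) F) * h⁻¹ = h * y * h⁻¹ := congrArg Subtype.val hxy
      exact Subtype.ext (mul_left_cancel (mul_right_cancel this))
    have hφs := Finite.surjective_of_injective hφ
    rw [Subgroup.mem_normalizer_iff]
    intro x
    constructor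
    · exact hconj x
    · intro hx
      obtain ⟨y, hy⟩ := hφs ⟨_, hx⟩
      have : h * (y : Matrix.SpecialLinearGroup (Fin 2) F) * h⁻¹ = h * x * h⁻¹ := congrArg Subtype.val hy
      have h5 := mul_left_cancel (mul_right_cancel this)
      rw [← h5]; exact y.2
  -- 3 divides |N|
  have h3N : 3 ∣ Nat.card N := by
    have h6 : (h ^ 2) ^ 3 = 1 := by rw [← pow_mul, mul_comm, pow_mul, hh3]; simp
    have h7 : h ^ 2 ≠ 1 := by
      intro h7
      have h8 : h = -1 := by
        have : h ^ 3 = h ^ 2 * h := pow_succ _ _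
        rw [h7, one_mul, hh3] at this
        exact this.symm
      rw [h8] at hhA
      have h9 : A = W := by simpa using hhA
      rw [h9] at hWA
      have h10 : W * W = 1 := by
        have : W = W⁻¹ := by simpa using hWA
        nth_rw 1 [this]; exact inv_mul_cancel W
      have h11 : orderOf W ∣ 2 := orderOf_dvd_of_pow_eq_one (by rw [pow_two]; exact h10)
      rw [hoW] at h11
      norm_num at h11
    have h8 : orderOf (h ^ 2) = 3 := orderOf_eq_prime h6 h7
    have h9 : orderOf (⟨h ^ 2, pow_mem hhN 2⟩ : N) = 3 := by rw [Subgroup.orderOf_mk, h8]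
    rw [← h9]
    exact orderOf_dvd_natCard _
  -- |N| ≤ 48
  have hle : Nat.card N ≤ 48 := by
    have h5 := Subgroup.card_eq_card_quotient_mul_card_subgroup
      (Subgroup.normalizerMonoidHom (S : Subgroup (Matrix.SpecialLinearGroup (Fin 2) F))).ker
    have h6 : Nat.card (N ⧸ (Subgroup.normalizerMonoidHom (S : Subgroup (Matrix.SpecialLinearGroup (Fin 2) F))).ker) ≤ 24 := by
      rw [Nat.card_congr (QuotientGroup.quotientKerEquivRange _).toEquiv]
      calc Nat.card _ ≤ Nat.card (MulAut S) := Subgroup.card_le_card_group _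
        _ = Nat.card (MulAut (QuaternionGroup (2 ^ 1))) := Nat.card_congr (MulAut.congr e).toEquiv
        _ ≤ 24 := Cfsg.Agent.Lib.H55Quat.card_mulAut_quaternion_two
    have h7 : Nat.card (Subgroup.normalizerMonoidHom (S : Subgroup (Matrix.SpecialLinearGroup (Fin 2) F))).ker ≤ 2 := by
      rw [Subgroup.normalizerMonoidHom_ker, part1 hodd S]
      refine le_of_le_of_eq ?_ (card_center_SL2 hodd)
      exact Nat.card_le_card_of_injective (fun x => (⟨x.1.1, x.2⟩ : Subgroup.center (Matrix.SpecialLinearGroup (Fin 2) F)))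
        (fun x y hxy => Subtype.ext (Subtype.ext (congrArg (fun t : Subgroup.center _ => (t : Matrix.SpecialLinearGroup (Fin 2) F)) hxy)))
    calc Nat.card N = _ := h5
      _ ≤ 24 * 2 := Nat.mul_le_mul h6 h7
  have h8N : Nat.card S ∣ Nat.card N := Subgroup.card_dvd_of_le Subgroup.le_normalizer
  have h16 : ¬ 16 ∣ Nat.card N := by
    intro h16
    have h5 : (2 : ℕ) ^ 4 ∣ Nat.card (Matrix.SpecialLinearGroup (Fin 2) F) :=
      (show (2 : ℕ) ^ 4 ∣ Nat.card N from h16).trans (Subgroup.card_subgroup_dvd_card N)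
    have h6 := S.pow_dvd_card_of_pow_dvd_card h5
    rw [hcard'] at h6
    norm_num at h6
  rw [hcard'] at h8N ⊢
  have hpos : 0 < Nat.card N := Nat.card_pos
  omega

/-- Let F be a finite field with q elements, q odd, and S a Sylow 2-subgroup of SL₂ over F. The centraliser of S is the centre of SL₂ (of order 2); S is its own normaliser when q ≡ ±1 mod 8, and has index 3 in its normaliser when q ≡ ±3 mod 8. -/
theorem result {F : Type*} [Field F] [Fintype F] (hodd : Odd (Fintype.card F)) (S : Sylow 2 (Matrix.SpecialLinearGroup (Fin 2) F)) :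
    Subgroup.centralizer ((S : Subgroup (Matrix.SpecialLinearGroup (Fin 2) F)) : Set (Matrix.SpecialLinearGroup (Fin 2) F)) = Subgroup.center (Matrix.SpecialLinearGroup (Fin 2) F) ∧
    ((Fintype.card F % 8 = 1 ∨ Fintype.card F % 8 = 7) →
      Subgroup.normalizer ((S : Subgroup (Matrix.SpecialLinearGroup (Fin 2) F)) : Set (Matrix.SpecialLinearGroup (Fin 2) F)) = (S : Subgroup (Matrix.SpecialLinearGroup (Fin 2) F))) ∧
    ((Fintype.card F % 8 = 3 ∨ Fintype.card F % 8 = 5) →
      Nat.card (Subgroup.normalizer ((S : Subgroup (Matrix.SpecialLinearGroup (Fin 2) F)) : Set (Matrix.SpecialLinearGroup (Fin 2) F))) = 3 * Nat.card S) := by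
  exact ⟨part1 hodd S, part2 hodd S, part3 hodd S⟩

end Cfsg.Agent.S2431
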