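import Cfsg.Statements.S2426
import Cfsg.Agent.Lib.ClSL2

set_option autoImplicit false
open Cfsg

namespace Cfsg.Agent.S2426

/-- The rank-one Steinberg relations. -/
structure StRel {K G : Type*} [Field K] [Group G] (x y : K → G) : Prop where
  addx : ∀ t u, x t * x u = x (t + u)
  addy : ∀ t u, y t * y u = y (t + u)
  relx : ∀ t u, t ≠ 0 → (x t * y (-t⁻¹) * x t) * x u * (x t * y (-t⁻¹) * x t)⁻¹ = y (-(t⁻¹ ^ 2 * u))
  rely : ∀ t u, t ≠ 0 → (y t * x (-t⁻¹) * y t) * y u * (y t * x (-t⁻¹) * y t)⁻¹ = x (-(t⁻¹ ^ 2 * u))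

section

variable {K G : Type*} [Field K] [Group G] {x y : K → G}

def w (x y : K → G) (t : K) : G := x t * y (-t⁻¹) * x t

def h (x y : K → G) (t : K) : G := w x y t * w x y (-1)

namespace StRel

variable (R : StRel x y)
include R

theorem x_zero : x 0 = 1 := by
  have := R.addx 0 0
  rw [add_zero] at this
  exact mul_eq_left.1 this

theorem y_zero : y 0 = 1 := by
  have := R.addy 0 0
  rw [add_zero] at this
  exact mul_eq_left.1 this

theorem x_neg (t : K) : x (-t) = (x t)⁻¹ := by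
  rw [eq_inv_iff_mul_eq_one, R.addx, neg_add_cancel, R.x_zero]

theorem y_neg (t : K) : y (-t) = (y t)⁻¹ := by
  rw [eq_inv_iff_mul_eq_one, R.addy, neg_add_cancel, R.y_zero]

theorem w_neg (t : K) : w x y (-t) = (w x y t)⁻¹ := by
  unfold w
  rw [inv_neg, neg_neg, R.x_neg, ← neg_neg (t⁻¹), R.y_neg (-t⁻¹), neg_neg]
  group

theorem conj_x {t : K} (ht : t ≠ 0) (u : K) : w x y t * x u = y (-(t⁻¹ ^ 2 * u)) * w x y t := by
  rw [← R.relx t u ht]
  unfold w
  group

theorem w_eq {t : K} (ht : t ≠ 0) : w x y t = y (-t⁻¹) * x t * y (-t⁻¹) := by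
  have h1 := R.conj_x ht t
  have h2 : -(t⁻¹ ^ 2 * t) = -t⁻¹ := by field_simp
  rw [h2] at h1
  have h3 : y (-t⁻¹) * w x y t = y (-t⁻¹) * x t * y (-t⁻¹) * x t := by unfold w; group
  rw [h3] at h1
  exact mul_right_cancel h1

theorem conj_y {t : K} (ht : t ≠ 0) (u : K) : w x y t * y u = x (-(t ^ 2 * u)) * w x y t := by
  have h1 := R.rely (-t⁻¹) u (neg_ne_zero.2 (inv_ne_zero ht))
  have h2 : -(-t⁻¹)⁻¹ = t := by rw [inv_neg, inv_inv, neg_neg]
  have h3 : (-t⁻¹)⁻¹ ^ 2 * u = t ^ 2 * u := by rw [inv_neg, inv_inv, neg_sq]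
  rw [h2, h3, ← R.w_eq ht] at h1
  rw [← h1]
  group

theorem conj_w {t u : K} (ht : t ≠ 0) (hu : u ≠ 0) :
    w x y t * w x y u = w x y (t ^ 2 * u⁻¹) * w x y t := by
  have e1 : w x y t * w x y u = y (-(t⁻¹ ^ 2 * u)) * x (-(t ^ 2 * -u⁻¹)) * y (-(t⁻¹ ^ 2 * u)) * w x y t := by
    calc w x y t * w x y u = w x y t * x u * y (-u⁻¹) * x u := by rw [w.eq_1 x y u]; group
      _ = y (-(t⁻¹ ^ 2 * u)) * (w x y t * y (-u⁻¹)) * x u := by rw [R.conj_x ht]; group
      _ = y (-(t⁻¹ ^ 2 * u)) * x (-(t ^ 2 * -u⁻¹)) * (w x y t * x u) := by rw [R.conj_y ht]; group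
      _ = _ := by rw [R.conj_x ht]; group
  have h2 : t ^ 2 * u⁻¹ ≠ 0 := mul_ne_zero (pow_ne_zero 2 ht) (inv_ne_zero hu)
  rw [e1, R.w_eq h2]
  have h3 : -(t ^ 2 * u⁻¹)⁻¹ = -(t⁻¹ ^ 2 * u) := by
    rw [mul_inv, inv_inv, inv_pow]
  have h4 : -(t ^ 2 * -u⁻¹) = t ^ 2 * u⁻¹ := by ring
  rw [h3, h4]

theorem h_one : h x y 1 = 1 := by
  unfold h
  rw [R.w_neg, mul_inv_cancel]

theorem h_conj_x {t : K} (ht : t ≠ 0) (u : K) : h x y t * x u = x (t ^ 2 * u) * h x y t := by
  have h1 : (-1 : K) ≠ 0 := neg_ne_zero.2 one_ne_zero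
  calc h x y t * x u = w x y t * (w x y (-1) * x u) := by unfold h; group
    _ = (w x y t * y (-((-1)⁻¹ ^ 2 * u))) * w x y (-1) := by rw [R.conj_x h1]; group
    _ = x (-(t ^ 2 * (-((-1)⁻¹ ^ 2 * u)))) * (w x y t * w x y (-1)) := by rw [R.conj_y ht]; group
    _ = _ := by
      unfold h
      congr 2
      have : ((-1 : K))⁻¹ = -1 := by rw [inv_neg, inv_one]
      rw [this]; ring

theorem h_conj_y {t : K} (ht : t ≠ 0) (u : K) : h x y t * y u = y (t⁻¹ ^ 2 * u) * h x y t := by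
  have h1 : (-1 : K) ≠ 0 := neg_ne_zero.2 one_ne_zero
  calc h x y t * y u = w x y t * (w x y (-1) * y u) := by unfold h; group
    _ = (w x y t * x (-((-1) ^ 2 * u))) * w x y (-1) := by rw [R.conj_y h1]; group
    _ = y (-(t⁻¹ ^ 2 * (-((-1) ^ 2 * u)))) * (w x y t * w x y (-1)) := by rw [R.conj_x ht]; group
    _ = _ := by
      unfold h
      congr 2
      ring

theorem h_conj_w {t u : K} (ht : t ≠ 0) (hu : u ≠ 0) :
    h x y t * w x y u = w x y (t ^ 2 * u) * h x y t := by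
  have h1 : (-1 : K) ≠ 0 := neg_ne_zero.2 one_ne_zero
  have h2 : (-1 : K) ^ 2 * u⁻¹ ≠ 0 := mul_ne_zero (pow_ne_zero 2 h1) (inv_ne_zero hu)
  calc h x y t * w x y u = w x y t * (w x y (-1) * w x y u) := by unfold h; group
    _ = (w x y t * w x y ((-1) ^ 2 * u⁻¹)) * w x y (-1) := by rw [R.conj_w h1 hu]; group
    _ = w x y (t ^ 2 * ((-1) ^ 2 * u⁻¹)⁻¹) * (w x y t * w x y (-1)) := by rw [R.conj_w ht h2]; group
    _ = _ := by
      unfold h
      congr 2
      rw [mul_inv, inv_inv]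
      have : (((-1 : K)) ^ 2)⁻¹ = 1 := by rw [neg_one_sq, inv_one]
      rw [this, one_mul]

theorem w_eq_h (t : K) : w x y t = h x y t * w x y 1 := by
  unfold h
  rw [R.w_neg]; group

/-- `h(t) h(u) h(t)⁻¹ = h(t²u) h(t²)⁻¹`. -/
theorem h_conj_h {t u : K} (ht : t ≠ 0) (hu : u ≠ 0) :
    h x y t * h x y u = h x y (t ^ 2 * u) * (h x y (t ^ 2))⁻¹ * h x y t := by
  have h1 : (-1 : K) ≠ 0 := neg_ne_zero.2 one_ne_zero
  calc h x y t * h x y u = (h x y t * w x y u) * w x y (-1) := by rw [h.eq_1 x y u]; group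
    _ = w x y (t ^ 2 * u) * (h x y t * w x y (-1)) := by rw [R.h_conj_w ht hu]; group
    _ = w x y (t ^ 2 * u) * (w x y (t ^ 2 * (-1)) * h x y t) := by rw [R.h_conj_w ht h1]
    _ = _ := by
      have h3 : t ^ 2 * (-1) = -(t ^ 2) := by ring
      rw [h3, R.w_neg, h.eq_1 x y (t ^ 2 * u), h.eq_1 x y (t ^ 2)]
      group

theorem h_mul_of_add {u v : K} (hu : u ≠ 0) (hv : v ≠ 0) (huv : u + v = 1) :
    h x y u * h x y v = h x y (u * v) := by
  have h1 : (-1 : K) ≠ 0 := neg_ne_zero.2 one_ne_zero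
  have e : w x y u * w x y (-1) * w x y v = w x y (u * v) := by
    have e1 : w x y (-1) = y 1 * x (-1) * y 1 := by
      have := R.w_eq h1
      have h3 : -(-1 : K)⁻¹ = 1 := by rw [inv_neg, inv_one, neg_neg]
      rwa [h3] at this
    have e2 : w x y u * y 1 = x (-(u ^ 2 * 1)) * w x y u := R.conj_y hu 1
    have e3 : y 1 * w x y v = w x y v * x (-(v ^ 2 * 1)) := by
      have e4 := R.conj_y (t := -v) (neg_ne_zero.2 hv) 1
      rw [R.w_neg] at e4
      have e5 : -((-v) ^ 2 * 1) = -(v ^ 2 * 1) := by ring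
      rw [e5] at e4
      calc y 1 * w x y v = w x y v * ((w x y v)⁻¹ * y 1) * w x y v := by group
        _ = w x y v * (x (-(v ^ 2 * 1)) * (w x y v)⁻¹) * w x y v := by rw [e4]
        _ = _ := by group
    calc w x y u * w x y (-1) * w x y v = (w x y u * y 1) * x (-1) * (y 1 * w x y v) := by
          rw [e1]; group
      _ = x (-(u ^ 2 * 1)) * w x y u * x (-1) * w x y v * x (-(v ^ 2 * 1)) := by rw [e2, e3]; group
      _ = (x (-(u ^ 2 * 1)) * x u) * y (-u⁻¹) * ((x u * x (-1)) * x v) * y (-v⁻¹) *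
            (x v * x (-(v ^ 2 * 1))) := by unfold w; group
      _ = x (-(u ^ 2 * 1) + u) * y (-u⁻¹) * x (u + -1 + v) * y (-v⁻¹) * x (v + -(v ^ 2 * 1)) := by
          rw [R.addx, R.addx, R.addx, R.addx]
      _ = x (-(u ^ 2 * 1) + u) * (y (-u⁻¹) * y (-v⁻¹)) * x (v + -(v ^ 2 * 1)) := by
          have : u + -1 + v = 0 := by linear_combination huv
          rw [this, R.x_zero]; group
      _ = w x y (u * v) := by
          rw [R.addy]
          unfold w
          have e6 : -(u ^ 2 * 1) + u = u * v := by linear_combination (-u) * huv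
          have e7 : v + -(v ^ 2 * 1) = u * v := by linear_combination (-v) * huv
          have e8 : -u⁻¹ + -v⁻¹ = -(u * v)⁻¹ := by
            field_simp
            linear_combination -huv
          rw [e6, e7, e8]
  calc h x y u * h x y v = (w x y u * w x y (-1) * w x y v) * w x y (-1) := by unfold h; group
    _ = h x y (u * v) := by rw [e]; rfl

variable (hcl : Subgroup.closure (Set.range x ∪ Set.range y) = ⊤)
include hcl

theorem central {t u : K} (ht : t ≠ 0) (hu : u ≠ 0) (g : G) :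
    Commute (h x y t * h x y u * (h x y (t * u))⁻¹) g := by
  have htu : t * u ≠ 0 := mul_ne_zero ht hu
  have hx : ∀ a, Commute (h x y t * h x y u * (h x y (t * u))⁻¹) (x a) := by
    intro a
    have e1 : (h x y (t * u))⁻¹ * x a = x (((t * u) ^ 2)⁻¹ * a) * (h x y (t * u))⁻¹ := by
      have := R.h_conj_x htu (((t * u) ^ 2)⁻¹ * a)
      rw [mul_inv_cancel_left₀ (pow_ne_zero 2 htu)] at this
      rw [inv_mul_eq_iff_eq_mul, ← mul_assoc, this]; group
    calc h x y t * h x y u * (h x y (t * u))⁻¹ * x a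
        = h x y t * h x y u * ((h x y (t * u))⁻¹ * x a) := by group
      _ = h x y t * (h x y u * x (((t * u) ^ 2)⁻¹ * a)) * (h x y (t * u))⁻¹ := by rw [e1]; group
      _ = (h x y t * x (u ^ 2 * (((t * u) ^ 2)⁻¹ * a))) * h x y u * (h x y (t * u))⁻¹ := by
          rw [R.h_conj_x hu]; group
      _ = x (t ^ 2 * (u ^ 2 * (((t * u) ^ 2)⁻¹ * a))) * h x y t * h x y u * (h x y (t * u))⁻¹ := by
          rw [R.h_conj_x ht]
      _ = x a * (h x y t * h x y u * (h x y (t * u))⁻¹) := by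
          have : t ^ 2 * (u ^ 2 * (((t * u) ^ 2)⁻¹ * a)) = a := by field_simp
          rw [this]; group
  have hy : ∀ a, Commute (h x y t * h x y u * (h x y (t * u))⁻¹) (y a) := by
    intro a
    have e1 : (h x y (t * u))⁻¹ * y a = y ((t * u) ^ 2 * a) * (h x y (t * u))⁻¹ := by
      have := R.h_conj_y htu ((t * u) ^ 2 * a)
      have e2 : (t * u)⁻¹ ^ 2 * ((t * u) ^ 2 * a) = a := by field_simp
      rw [e2] at this
      rw [inv_mul_eq_iff_eq_mul, ← mul_assoc, this]; group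
    calc h x y t * h x y u * (h x y (t * u))⁻¹ * y a
        = h x y t * h x y u * ((h x y (t * u))⁻¹ * y a) := by group
      _ = h x y t * (h x y u * y ((t * u) ^ 2 * a)) * (h x y (t * u))⁻¹ := by rw [e1]; group
      _ = (h x y t * y (u⁻¹ ^ 2 * ((t * u) ^ 2 * a))) * h x y u * (h x y (t * u))⁻¹ := by
          rw [R.h_conj_y hu]; group
      _ = y (t⁻¹ ^ 2 * (u⁻¹ ^ 2 * ((t * u) ^ 2 * a))) * h x y t * h x y u * (h x y (t * u))⁻¹ := by
          rw [R.h_conj_y ht]
      _ = y a * (h x y t * h x y u * (h x y (t * u))⁻¹) := by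
          have : t⁻¹ ^ 2 * (u⁻¹ ^ 2 * ((t * u) ^ 2 * a)) = a := by field_simp
          rw [this]; group
  have hg : g ∈ Subgroup.closure (Set.range x ∪ Set.range y) := by rw [hcl]; trivial
  induction hg using Subgroup.closure_induction with
  | mem z hz =>
    rcases hz with ⟨a, rfl⟩ | ⟨a, rfl⟩
    · exact hx a
    · exact hy a
  | one => exact Commute.one_right _
  | mul a b _ _ ha hb => exact ha.mul_right hb
  | inv a _ ha => exact ha.inv_right

theorem h_commute [Finite K] {t u : K} (ht : t ≠ 0) (hu : u ≠ 0) : Commute (h x y t) (h x y u) := by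
  obtain ⟨v, hv⟩ := IsCyclic.exists_monoid_generator (α := Kˣ)
  -- h(v^i) is h(v)^i times a central element
  have key : ∀ i : ℕ, ∃ z : G, (∀ g, Commute z g) ∧ h x y ((v : K) ^ i) = h x y (v : K) ^ i * z := by
    intro i
    induction i with
    | zero => exact ⟨1, fun g => Commute.one_left g, by rw [pow_zero, pow_zero, R.h_one, one_mul]⟩
    | succ i ih =>
      obtain ⟨z, hz, hzi⟩ := ih
      have hvi : (v : K) ^ i ≠ 0 := pow_ne_zero i v.ne_zero
      have hc := R.central hcl hvi v.ne_zero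
      set c := h x y ((v : K) ^ i) * h x y (v : K) * (h x y ((v : K) ^ i * v))⁻¹ with hc'
      refine ⟨c⁻¹ * z, fun g => (hc g).inv_left.mul_left (hz g), ?_⟩
      have e1 : h x y ((v : K) ^ i * v) = c⁻¹ * (h x y ((v : K) ^ i) * h x y (v : K)) := by
        rw [hc']; group
      rw [pow_succ, e1, hzi, pow_succ]
      rw [((hc _).inv_left).eq]
      have := (hz (h x y (v : K))).eq
      calc h x y (v : K) ^ i * z * h x y (v : K) * c⁻¹
          = h x y (v : K) ^ i * (z * h x y (v : K)) * c⁻¹ := by group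
        _ = h x y (v : K) ^ i * h x y (v : K) * (z * c⁻¹) := by rw [this]; group
        _ = _ := by rw [(hz c⁻¹).eq]
  have hall : ∀ a : K, a ≠ 0 → ∃ i : ℕ, (v : K) ^ i = a := by
    intro a ha
    obtain ⟨i, hi⟩ := Submonoid.mem_powers_iff _ _ |>.1 (hv (Units.mk0 a ha))
    refine ⟨i, ?_⟩
    have := congrArg Units.val hi
    simpa using this
  obtain ⟨i, rfl⟩ := hall t ht
  obtain ⟨j, rfl⟩ := hall u hu
  obtain ⟨z, hz, hzi⟩ := key i
  obtain ⟨z', hz', hzj⟩ := key j
  rw [hzi, hzj]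
  exact (((Commute.refl (h x y (v : K))).pow_pow i j).mul_right (hz' _).symm).mul_left (hz _)

theorem h_sq_mul [Finite K] {t u : K} (ht : t ≠ 0) (hu : u ≠ 0) :
    h x y (t ^ 2) * h x y u = h x y (t ^ 2 * u) := by
  have ht2 : t ^ 2 ≠ 0 := pow_ne_zero 2 ht
  have h1 := R.h_conj_h ht hu
  have h2 : Commute (h x y t) (h x y u) := R.h_commute hcl ht hu
  rw [h2.eq] at h1
  have h3 := mul_right_cancel h1
  have h4 : Commute (h x y (t ^ 2 * u)) (h x y (t ^ 2)) := R.h_commute hcl (mul_ne_zero ht2 hu) ht2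
  rw [h3, ← mul_assoc, ← h4.eq]; group

theorem h_mul [Finite K] {t u : K} (ht : t ≠ 0) (hu : u ≠ 0) :
    h x y t * h x y u = h x y (t * u) := by
  classical
  have : Fintype K := Fintype.ofFinite K
  have hsq : ∀ {s u : K}, IsSquare s → s ≠ 0 → u ≠ 0 → h x y s * h x y u = h x y (s * u) := by
    rintro s u ⟨r, rfl⟩ hs hu
    rw [← pow_two]
    exact R.h_sq_mul hcl (left_ne_zero_of_mul hs) hu
  by_cases hsqt : IsSquare t
  · exact hsq hsqt ht hu
  by_cases hsqu : IsSquare u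
  · rw [(R.h_commute hcl ht hu).eq, mul_comm t u]
    exact hsq hsqu hu ht
  have hch : ringChar K ≠ 2 := fun hc => hsqt (FiniteField.isSquare_of_char_two hc t)
  -- nonsquare t, u
  have hquot : ∀ {a b : K}, ¬ IsSquare a → ¬ IsSquare b → ∃ s : K, s ≠ 0 ∧ a = s ^ 2 * b := by
    intro a b ha hb
    have ha0 : a ≠ 0 := by rintro rfl; exact ha (IsSquare.zero)
    have hb0 : b ≠ 0 := by rintro rfl; exact hb (IsSquare.zero)
    have h1 : a ^ (Fintype.card K / 2) = -1 :=
      (FiniteField.pow_dichotomy hch ha0).resolve_left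
        (fun h => ha ((FiniteField.isSquare_iff hch ha0).2 h))
    have h2 : b ^ (Fintype.card K / 2) = -1 :=
      (FiniteField.pow_dichotomy hch hb0).resolve_left
        (fun h => hb ((FiniteField.isSquare_iff hch hb0).2 h))
    have h3 : IsSquare (a / b) := by
      rw [FiniteField.isSquare_iff hch (div_ne_zero ha0 hb0), div_pow, h1, h2]
      simp
    obtain ⟨s, hs⟩ := h3
    refine ⟨s, ?_, ?_⟩
    · rintro rfl
      rw [mul_zero, div_eq_zero_iff] at hs
      rcases hs with h | h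
      · exact ha0 h
      · exact hb0 h
    · rw [pow_two, ← hs, div_mul_cancel₀ _ hb0]
  -- a + b = 1
  obtain ⟨ν, hν⟩ := FiniteField.exists_nonsquare hch
  have hν0 : ν ≠ 0 := by rintro rfl; exact hν (IsSquare.zero)
  obtain ⟨a, b, hab⟩ : ∃ a b : K, a ^ 2 + b ^ 2 = ν⁻¹ := by
    have hodd := FiniteField.odd_card_of_char_ne_two hch
    obtain ⟨a, b, hab⟩ := FiniteField.exists_root_sum_quadratic (R := K) (f := Polynomial.X ^ 2)
      (g := Polynomial.X ^ 2 - Polynomial.C ν⁻¹) (by simp)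
      (Polynomial.degree_X_pow_sub_C (by norm_num) _) hodd
    refine ⟨a, b, ?_⟩
    simp at hab
    linear_combination hab
  have hνi : ¬ IsSquare ν⁻¹ := by
    rintro ⟨c, hc⟩
    exact hν ⟨c⁻¹, by rw [← mul_inv, ← hc, inv_inv]⟩
  have ha0 : a ≠ 0 := by
    rintro rfl
    exact hνi ⟨b, by rw [← hab]; ring⟩
  have hb0 : b ≠ 0 := by
    rintro rfl
    exact hνi ⟨a, by rw [← hab]; ring⟩
  have hns : ∀ c : K, c ≠ 0 → ¬ IsSquare (ν * c ^ 2) := by
    rintro c hc ⟨d, hd⟩
    exact hν ⟨d / c, by field_simp; linear_combination hd⟩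
  have hA := hns a ha0
  have hB := hns b hb0
  have hA0 : ν * a ^ 2 ≠ 0 := mul_ne_zero hν0 (pow_ne_zero 2 ha0)
  have hB0 : ν * b ^ 2 ≠ 0 := mul_ne_zero hν0 (pow_ne_zero 2 hb0)
  have hAB : ν * a ^ 2 + ν * b ^ 2 = 1 := by
    rw [← mul_add, hab, mul_inv_cancel₀ hν0]
  have hm := R.h_mul_of_add hA0 hB0 hAB
  obtain ⟨s, hs0, hs⟩ := hquot hsqt hA
  obtain ⟨r, hr0, hr⟩ := hquot hsqu hB
  set A := ν * a ^ 2
  set B := ν * b ^ 2
  have e1 : h x y t = h x y (s ^ 2) * h x y A := by rw [hs, R.h_sq_mul hcl hs0 hA0]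
  have e2 : h x y u = h x y (r ^ 2) * h x y B := by rw [hr, R.h_sq_mul hcl hr0 hB0]
  have e3 : Commute (h x y A) (h x y (r ^ 2)) := R.h_commute hcl hA0 (pow_ne_zero 2 hr0)
  calc h x y t * h x y u = h x y (s ^ 2) * (h x y A * h x y (r ^ 2)) * h x y B := by
        rw [e1, e2]; group
    _ = h x y (s ^ 2) * h x y (r ^ 2) * (h x y A * h x y B) := by rw [e3.eq]; group
    _ = h x y ((s * r) ^ 2) * h x y (A * B) := by
        rw [R.h_sq_mul hcl hs0 (pow_ne_zero 2 hr0), hm, mul_pow]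
    _ = h x y (t * u) := by
        rw [R.h_sq_mul hcl (mul_ne_zero hs0 hr0) (mul_ne_zero hA0 hB0), hs, hr]
        congr 1; ring

/-- Bruhat normal form. -/
theorem normal_form [Finite K] (g : G) :
    (∃ a t : K, t ≠ 0 ∧ g = x a * h x y t) ∨
    (∃ a t b : K, t ≠ 0 ∧ g = x a * h x y t * w x y 1 * x b) := by
  -- the set S
  set S : Set G := {g | (∃ a t : K, t ≠ 0 ∧ g = x a * h x y t) ∨
    (∃ a t b : K, t ≠ 0 ∧ g = x a * h x y t * w x y 1 * x b)} with hS
  have h1 : (1 : K) ≠ 0 := one_ne_zero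
  have hSx : ∀ g ∈ S, ∀ c, g * x c ∈ S := by
    rintro g (⟨a, t, ht, rfl⟩ | ⟨a, t, b, ht, rfl⟩) c
    · left
      refine ⟨a + t ^ 2 * c, t, ht, ?_⟩
      rw [mul_assoc, R.h_conj_x ht, ← mul_assoc, R.addx]
    · right
      refine ⟨a, t, b + c, ht, ?_⟩
      rw [mul_assoc, R.addx]
  have hSy0 : ∀ (a t : K), t ≠ 0 → ∀ c, x a * h x y t * y c ∈ S := by
    intro a t ht c
    by_cases hc : c = 0
    · left
      exact ⟨a, t, ht, by rw [hc, R.y_zero, mul_one]⟩
    · right
      have hc' : -c⁻¹ ≠ 0 := neg_ne_zero.2 (inv_ne_zero hc)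
      refine ⟨a + t ^ 2 * c⁻¹, t * -c⁻¹, c⁻¹, mul_ne_zero ht hc', ?_⟩
      have e1 : y c = x c⁻¹ * w x y (-c⁻¹) * x c⁻¹ := by
        unfold w
        rw [R.x_neg, inv_neg, inv_inv, neg_neg]; group
      rw [e1, R.w_eq_h (-c⁻¹), ← R.h_mul hcl ht hc', ← R.addx]
      calc x a * h x y t * (x c⁻¹ * (h x y (-c⁻¹) * w x y 1) * x c⁻¹)
          = x a * (h x y t * x c⁻¹) * h x y (-c⁻¹) * w x y 1 * x c⁻¹ := by group
        _ = _ := by rw [R.h_conj_x ht]; group
  have hSy : ∀ g ∈ S, ∀ c, g * y c ∈ S := by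
    rintro g (⟨a, t, ht, rfl⟩ | ⟨a, t, b, ht, rfl⟩) c
    · exact hSy0 a t ht c
    · by_cases hb : b = 0
      · right
        refine ⟨a + t ^ 2 * (-(1 ^ 2 * c)), t, 0, ht, ?_⟩
        rw [hb, R.x_zero, mul_one, mul_one, mul_assoc, R.conj_y h1, ← R.addx]
        calc x a * h x y t * (x (-(1 ^ 2 * c)) * w x y 1)
            = x a * (h x y t * x (-(1 ^ 2 * c))) * w x y 1 := by group
          _ = _ := by rw [R.h_conj_x ht]; group
      · have hbi : b⁻¹ ≠ 0 := inv_ne_zero hb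
        have hbn : -b⁻¹ ≠ 0 := neg_ne_zero.2 hbi
        have e1 : x b = y b⁻¹ * w x y b * y b⁻¹ := by
          rw [R.w_eq hb, R.y_neg]; group
        have e2 : w x y 1 * w x y b = h x y (-b⁻¹) := by
          have h11 : h x y (-1) * h x y (-1) = 1 := by
            rw [R.h_mul hcl (neg_ne_zero.2 h1) (neg_ne_zero.2 h1)]
            simp [R.h_one]
          have h12 : w x y 1 * w x y 1 = h x y (-1) := by
            have h13 : h x y (-1) = (w x y 1 * w x y 1)⁻¹ := by
              unfold h; rw [R.w_neg]; group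
            rw [eq_comm, ← inv_inj, ← mul_eq_one_iff_eq_inv.1 h11, h13]
          rw [R.conj_w h1 hb, R.w_eq_h, mul_assoc, h12,
            R.h_mul hcl (mul_ne_zero (pow_ne_zero 2 h1) hbi) (neg_ne_zero.2 h1)]
          congr 1; ring
        have e3 : x a * h x y t * w x y 1 * x b * y c =
            x (a + t ^ 2 * (-(1 ^ 2 * b⁻¹))) * h x y (t * -b⁻¹) * y (b⁻¹ + c) := by
          rw [← R.h_mul hcl ht hbn, ← R.addx, ← R.addy, e1]
          calc x a * h x y t * w x y 1 * (y b⁻¹ * w x y b * y b⁻¹) * y c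
              = x a * h x y t * (w x y 1 * y b⁻¹) * w x y b * (y b⁻¹ * y c) := by group
            _ = x a * (h x y t * x (-(1 ^ 2 * b⁻¹))) * (w x y 1 * w x y b) * (y b⁻¹ * y c) := by
              rw [R.conj_y h1]; group
            _ = _ := by rw [R.h_conj_x ht, e2]; group
        rw [e3]
        exact hSy0 _ _ (mul_ne_zero ht hbn) _
  have h1S : (1 : G) ∈ S := Or.inl ⟨0, 1, h1, by rw [R.x_zero, R.h_one, one_mul]⟩
  have hg : g ∈ Subgroup.closure (Set.range x ∪ Set.range y) := by rw [hcl]; trivial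
  change g ∈ S
  induction hg using Subgroup.closure_induction_right with
  | one => exact h1S
  | mul_right s _ z hz ih =>
    rcases hz with ⟨a, rfl⟩ | ⟨a, rfl⟩
    · exact hSx s ih a
    · exact hSy s ih a
  | mul_inv_cancel s _ z hz ih =>
    rcases hz with ⟨a, rfl⟩ | ⟨a, rfl⟩
    · rw [← R.x_neg]; exact hSx s ih (-a)
    · rw [← R.y_neg]; exact hSy s ih (-a)

end StRel

end

open Matrix Matrix.SpecialLinearGroup Lib.ClSL2

theorem w_mat {K : Type*} [Field K] {t : K} (ht : t ≠ 0) :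
    ((w (uS (F := K)) lS t : SpecialLinearGroup (Fin 2) K) : Matrix (Fin 2) (Fin 2) K) =
      !![0, t; -t⁻¹, 0] := by
  unfold w
  simp only [coe_mul, coe_uS, coe_lS]
  ext i j
  fin_cases i <;> fin_cases j <;> simp [Matrix.mul_apply, ht]

theorem w_mat' {K : Type*} [Field K] {t : K} (ht : t ≠ 0) :
    ((w (lS (F := K)) uS t : SpecialLinearGroup (Fin 2) K) : Matrix (Fin 2) (Fin 2) K) =
      !![0, -t⁻¹; t, 0] := by
  unfold w
  simp only [coe_mul, coe_uS, coe_lS]
  ext i j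
  fin_cases i <;> fin_cases j <;> simp [Matrix.mul_apply, ht]

theorem stRel_SL2 {K : Type*} [Field K] : StRel (uS (F := K)) lS where
  addx t u := by
    apply Subtype.ext
    rw [coe_mul]
    ext i j
    fin_cases i <;> fin_cases j <;> simp [Matrix.mul_apply, add_comm]
  addy t u := by
    apply Subtype.ext
    rw [coe_mul]
    ext i j
    fin_cases i <;> fin_cases j <;> simp [Matrix.mul_apply]
  relx t u ht := by
    rw [mul_inv_eq_iff_eq_mul]
    change w uS lS t * uS u = lS (-(t⁻¹ ^ 2 * u)) * w uS lS t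
    apply Subtype.ext
    rw [coe_mul, coe_mul, w_mat ht]
    ext i j
    fin_cases i <;> fin_cases j <;> simp [Matrix.mul_apply] <;> field_simp
  rely t u ht := by
    rw [mul_inv_eq_iff_eq_mul]
    change w lS uS t * lS u = uS (-(t⁻¹ ^ 2 * u)) * w lS uS t
    apply Subtype.ext
    rw [coe_mul, coe_mul, w_mat' ht]
    ext i j
    fin_cases i <;> fin_cases j <;> simp [Matrix.mul_apply] <;> field_simp

theorem h_mat {K : Type*} [Field K] {t : K} (ht : t ≠ 0) :
    ((h (uS (F := K)) lS t : SpecialLinearGroup (Fin 2) K) : Matrix (Fin 2) (Fin 2) K) =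
      !![t, 0; 0, t⁻¹] := by
  unfold h
  rw [coe_mul, w_mat ht, w_mat (neg_ne_zero.2 one_ne_zero)]
  ext i j
  fin_cases i <;> fin_cases j <;> simp [Matrix.mul_apply]

theorem result {K : Type*} [Field K] [Finite K] :
    ∃ e : PresentedGroup
        ({g : FreeGroup (Bool × K) | ∃ (b : Bool) (t u : K), g = FreeGroup.of (b, t) * FreeGroup.of (b, u) * (FreeGroup.of (b, t + u))⁻¹} ∪
          {g | ∃ (b : Bool) (t u : K), t ≠ 0 ∧
            g = (FreeGroup.of (b, t) * FreeGroup.of (!b, -t⁻¹) * FreeGroup.of (b, t)) * FreeGroup.of (b, u) *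
                  (FreeGroup.of (b, t) * FreeGroup.of (!b, -t⁻¹) * FreeGroup.of (b, t))⁻¹ * (FreeGroup.of (!b, -(t⁻¹ ^ 2 * u)))⁻¹})
        ≃* Matrix.SpecialLinearGroup (Fin 2) K,
      (∀ t : K, ((e (PresentedGroup.of (true, t)) : Matrix (Fin 2) (Fin 2) K)) = !![1, t; 0, 1]) ∧
      (∀ t : K, ((e (PresentedGroup.of (false, t)) : Matrix (Fin 2) (Fin 2) K)) = !![1, 0; t, 1]) := by
  set rels : Set (FreeGroup (Bool × K)) := {g : FreeGroup (Bool × K) | ∃ (b : Bool) (t u : K), g = FreeGroup.of (b, t) * FreeGroup.of (b, u) * (FreeGroup.of (b, t + u))⁻¹} ∪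
          {g | ∃ (b : Bool) (t u : K), t ≠ 0 ∧
            g = (FreeGroup.of (b, t) * FreeGroup.of (!b, -t⁻¹) * FreeGroup.of (b, t)) * FreeGroup.of (b, u) *
                  (FreeGroup.of (b, t) * FreeGroup.of (!b, -t⁻¹) * FreeGroup.of (b, t))⁻¹ * (FreeGroup.of (!b, -(t⁻¹ ^ 2 * u)))⁻¹} with hrels
  let f : Bool × K → SpecialLinearGroup (Fin 2) K := fun p => if p.1 then uS p.2 else lS p.2
  have hf : ∀ r ∈ rels, FreeGroup.lift f r = 1 := by
    rintro r (⟨b, t, u, rfl⟩ | ⟨b, t, u, ht, rfl⟩)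
    · simp only [map_mul, map_inv, FreeGroup.lift_apply_of, f]
      cases b
      · simp only [Bool.false_eq_true, if_false]
        rw [stRel_SL2.addy, mul_inv_cancel]
      · simp only [if_true]
        rw [stRel_SL2.addx, mul_inv_cancel]
    · simp only [map_mul, map_inv, FreeGroup.lift_apply_of, f]
      cases b
      · simp only [Bool.false_eq_true, if_false, Bool.not_false, if_true]
        rw [stRel_SL2.rely t u ht, mul_inv_cancel]
      · simp only [if_true, Bool.not_true, Bool.false_eq_true, if_false]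
        rw [stRel_SL2.relx t u ht, mul_inv_cancel]
  let φ : PresentedGroup rels →* SpecialLinearGroup (Fin 2) K := PresentedGroup.toGroup hf
  have hφ : ∀ p, φ (PresentedGroup.of p) = f p := fun p => PresentedGroup.toGroup.of hf
  -- the Steinberg relations in the presented group
  let X : K → PresentedGroup rels := fun t => PresentedGroup.of (true, t)
  let Y : K → PresentedGroup rels := fun t => PresentedGroup.of (false, t)
  have hone : ∀ r ∈ rels, (PresentedGroup.mk rels r) = 1 := fun r hr => PresentedGroup.one_of_mem hr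
  have hR : StRel X Y := by
    constructor
    · intro t u
      have := hone _ (Or.inl ⟨true, t, u, rfl⟩)
      simp only [map_mul, map_inv] at this
      exact mul_inv_eq_one.1 this
    · intro t u
      have := hone _ (Or.inl ⟨false, t, u, rfl⟩)
      simp only [map_mul, map_inv] at this
      exact mul_inv_eq_one.1 this
    · intro t u ht
      have := hone _ (Or.inr ⟨true, t, u, ht, rfl⟩)
      simp only [map_mul, map_inv] at this
      exact mul_inv_eq_one.1 this
    · intro t u ht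
      have := hone _ (Or.inr ⟨false, t, u, ht, rfl⟩)
      simp only [map_mul, map_inv] at this
      exact mul_inv_eq_one.1 this
  have hcl : Subgroup.closure (Set.range X ∪ Set.range Y) = ⊤ := by
    rw [← PresentedGroup.closure_range_of rels]
    congr 1
    ext g
    constructor
    · rintro (⟨t, rfl⟩ | ⟨t, rfl⟩)
      · exact ⟨(true, t), rfl⟩
      · exact ⟨(false, t), rfl⟩
    · rintro ⟨⟨b, t⟩, rfl⟩
      cases b
      · exact Or.inr ⟨t, rfl⟩
      · exact Or.inl ⟨t, rfl⟩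
  have hφX : ∀ t, φ (X t) = uS t := fun t => by rw [hφ]; rfl
  have hφY : ∀ t, φ (Y t) = lS t := fun t => by rw [hφ]; rfl
  have hφw : ∀ t, φ (w X Y t) = w uS lS t := by
    intro t
    unfold w
    rw [map_mul, map_mul, hφX, hφY]
  have hφh : ∀ t, φ (h X Y t) = h uS lS t := by
    intro t
    unfold h
    rw [map_mul, hφw, hφw]
  have hinj : Function.Injective φ := by
    rw [injective_iff_map_eq_one]
    intro g hg
    rcases hR.normal_form hcl g with ⟨a, t, ht, rfl⟩ | ⟨a, t, b, ht, rfl⟩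
    · rw [map_mul, hφX, hφh] at hg
      have h1 := congrArg (fun z : SpecialLinearGroup (Fin 2) K => (z : Matrix (Fin 2) (Fin 2) K)) hg
      simp only [coe_mul, coe_uS, h_mat ht, coe_one] at h1
      have h11 := congrFun (congrFun h1 0) 0
      have h12 := congrFun (congrFun h1 0) 1
      simp [Matrix.mul_apply] at h11 h12
      subst h11
      simp at h12
      rw [h12, hR.x_zero, hR.h_one, one_mul]
    · rw [map_mul, map_mul, map_mul, hφX, hφh, hφw, hφX] at hg
      exfalso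
      have h1 := congrArg (fun z : SpecialLinearGroup (Fin 2) K => (z : Matrix (Fin 2) (Fin 2) K)) hg
      simp only [coe_mul, coe_uS, h_mat ht, coe_one, w_mat (one_ne_zero (α := K))] at h1
      have h11 := congrFun (congrFun h1 1) 0
      simp [Matrix.mul_apply] at h11
      exact ht h11
  have hsurj : Function.Surjective φ := by
    rw [← MonoidHom.range_eq_top]
    apply eq_top_of_uS_lS
    · intro b; exact ⟨X b, hφX b⟩
    · intro b; exact ⟨Y b, hφY b⟩
  refine ⟨MulEquiv.ofBijective φ ⟨hinj, hsurj⟩, ?_, ?_⟩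
  · intro t
    change ((φ (X t) : SpecialLinearGroup (Fin 2) K) : Matrix (Fin 2) (Fin 2) K) = _
    rw [hφX, coe_uS]
  · intro t
    change ((φ (Y t) : SpecialLinearGroup (Fin 2) K) : Matrix (Fin 2) (Fin 2) K) = _
    rw [hφY, coe_lS]

end Cfsg.Agent.S2426
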