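import Cfsg.Statements.S3742
import Mathlib

set_option autoImplicit false
open Cfsg

namespace Cfsg.Agent.S3742

/-- The quaternion group of order 8. -/
abbrev Q := QuaternionGroup 2

/-- The endomorphism-like map determined by images of the two generators. -/
def E (u v : Q) : Q → Q
  | .a n => u ^ (ZMod.val n)
  | .xa n => v * u ^ (ZMod.val n)

/-- Code of an element as a natural number. -/
def code : Q → ℕ
  | .a n => ZMod.val n
  | .xa n => 4 + ZMod.val n

/-- The four oriented triples. -/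
def P : Fin 4 → Q × Q × Q :=
  ![(.a 1, .xa 0, .xa 3), (.a 1, .xa 2, .xa 1), (.a 3, .xa 0, .xa 1), (.a 3, .xa 2, .xa 3)]

/-- bitmask of a triple -/
def mask (t : Q × Q × Q) : ℕ := 2 ^ code t.1 + 2 ^ code t.2.1 + 2 ^ code t.2.2

/-- index of the diagonal. The masks: `P0 = a1,xa0,xa3 = 2+16+128 = 146`, `-P0 = a3,xa2,xa1 = 8+64+32 = 104`,
`P1 = a1,xa2,xa1 = 2+64+32=98`, `-P1 = a3,xa0,xa3 = 8+16+128 = 152`,
`P2 = a3,xa0,xa1 = 8+16+32 = 56`, `-P2 = a1,xa2,xa3 = 2+64+128 = 194`, rest `P3`. -/
def idx (m : ℕ) : Fin 4 :=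
  if m = 146 ∨ m = 104 then 0 else if m = 98 ∨ m = 152 then 1 else if m = 56 ∨ m = 194 then 2 else 3

/-- action of the pair `(u, v)` on diagonals. -/
def F (u v : Q) (d : Fin 4) : Fin 4 :=
  idx (mask (E u v (P d).1, E u v (P d).2.1, E u v (P d).2.2))

/-- pairs that define automorphisms -/
def valid (u v : Q) : Bool :=
  decide (code (u * u) = 2) && decide (code (v * v) = 2) && decide (code (u * v) ≠ 0) && decide (code (u * v) ≠ 2)

theorem valid_mul : ∀ u v : Q, valid u v = true → ∀ x y : Q, E u v (x * y) = E u v x * E u v y := by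
  decide +kernel

theorem valid_inj : ∀ u v : Q, valid u v = true → ∀ x y : Q, E u v x = E u v y → x = y := by
  decide +kernel

theorem F_comp : ∀ u v : Q, valid u v = true → ∀ u' v' : Q, valid u' v' = true →
    ∀ d : Fin 4, F (E u v u') (E u v v') d = F u v (F u' v' d) := by
  decide +kernel

theorem F_one : ∀ d : Fin 4, F (.a 1) (.xa 0) d = d := by
  decide +kernel

theorem F_inj : ∀ u v : Q, valid u v = true → (∀ d : Fin 4, F u v d = d) → u = .a 1 ∧ v = .xa 0 := by
  decide +kernel

theorem count_valid : Fintype.card {p : Q × Q // valid p.1 p.2 = true} = 24 := by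
  decide +kernel

theorem E_gen : ∀ u v : Q, E u v (.a 1) = u ∧ (E u v (.xa 0) = v) := by
  decide +kernel

theorem auto_valid (φ : MulAut Q) : valid (φ (.a 1)) (φ (.xa 0)) = true := by
  have key : ∀ u : Q, code u = 2 ↔ (u * u = 1 ∧ u ≠ 1) := by decide +kernel
  have key0 : ∀ u : Q, code u = 0 ↔ (u = 1) := by decide +kernel
  have h1 : ∀ x : Q, code (φ x) = 2 ↔ code x = 2 := by
    intro x
    rw [key, key, ← map_mul, MulEquiv.map_eq_one_iff, ne_eq, MulEquiv.map_eq_one_iff]
  have h0 : ∀ x : Q, code (φ x) = 0 ↔ code x = 0 := by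
    intro x
    rw [key0, key0, MulEquiv.map_eq_one_iff]
  have e1 : code ((QuaternionGroup.a 1 : Q) * .a 1) = 2 := by decide +kernel
  have e2 : code ((QuaternionGroup.xa 0 : Q) * .xa 0) = 2 := by decide +kernel
  have e3 : code ((QuaternionGroup.a 1 : Q) * .xa 0) ≠ 0 := by decide +kernel
  have e4 : code ((QuaternionGroup.a 1 : Q) * .xa 0) ≠ 2 := by decide +kernel
  simp only [valid, Bool.and_eq_true, decide_eq_true_eq]
  rw [← map_mul, ← map_mul, ← map_mul]
  refine ⟨⟨⟨(h1 _).2 e1, (h1 _).2 e2⟩, ?_⟩, ?_⟩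
  · rw [ne_eq, h0]; exact e3
  · rw [ne_eq, h1]; exact e4

theorem auto_eq (φ : MulAut Q) (x : Q) : φ x = E (φ (.a 1)) (φ (.xa 0)) x := by
  cases x with
  | a n =>
    have : (QuaternionGroup.a n : Q) = (QuaternionGroup.a 1) ^ (ZMod.val n) := by
      rw [QuaternionGroup.a_one_pow]; simp
    rw [this, map_pow]
    simp only [E]
    rw [← this]
  | xa n =>
    have : (QuaternionGroup.xa n : Q) = QuaternionGroup.xa 0 * (QuaternionGroup.a 1) ^ (ZMod.val n) := by
      rw [QuaternionGroup.a_one_pow]; simp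
    rw [this, map_mul, map_pow, ← this]
    simp only [E]

/-- Aut Q acts on the four diagonals -/
@[reducible] def act : MulAction (MulAut Q) (Fin 4) where
  smul φ d := F (φ (.a 1)) (φ (.xa 0)) d
  one_smul d := F_one d
  mul_smul φ ψ d := by
    change F ((φ * ψ) (.a 1)) ((φ * ψ) (.xa 0)) d = F (φ (.a 1)) (φ (.xa 0)) (F (ψ (.a 1)) (ψ (.xa 0)) d)
    rw [MulAut.mul_apply, MulAut.mul_apply, auto_eq φ (ψ _), auto_eq φ (ψ (.xa 0))]
    exact F_comp _ _ (auto_valid φ) _ _ (auto_valid ψ) d

/-- the automorphism of a valid pair -/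
noncomputable def mk (p : {p : Q × Q // valid p.1 p.2 = true}) : MulAut Q :=
  MulEquiv.ofBijective (MonoidHom.mk' (E p.1.1 p.1.2) (valid_mul _ _ p.2))
    ((Finite.injective_iff_bijective).1 (fun x y h => valid_inj _ _ p.2 x y h))

theorem mk_injective : Function.Injective mk := by
  intro p q h
  have h1 : E p.1.1 p.1.2 (.a 1) = E q.1.1 q.1.2 (.a 1) := by
    have := congrArg (fun φ : MulAut Q => φ (.a 1)) h
    exact this
  have h2 : E p.1.1 p.1.2 (.xa 0) = E q.1.1 q.1.2 (.xa 0) := by
    have := congrArg (fun φ : MulAut Q => φ (.xa 0)) h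
    exact this
  rw [(E_gen _ _).1, (E_gen _ _).1] at h1
  rw [(E_gen _ _).2, (E_gen _ _).2] at h2
  exact Subtype.ext (Prod.ext h1 h2)

/-- The automorphism group of the quaternion group of order 8 is isomorphic to the symmetric group of degree 4. -/
theorem result : Nonempty (MulAut (QuaternionGroup 2) ≃* Equiv.Perm (Fin 4)) := by
  let f : MulAut Q →* Equiv.Perm (Fin 4) := @MulAction.toPermHom (MulAut Q) (Fin 4) _ act
  have hinj : Function.Injective f := by
    rw [injective_iff_map_eq_one]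
    intro φ hφ
    have h1 : ∀ d : Fin 4, F (φ (.a 1)) (φ (.xa 0)) d = d := by
      intro d
      exact congrArg (fun σ : Equiv.Perm (Fin 4) => σ d) hφ
    have h2 := F_inj _ _ (auto_valid φ) h1
    ext x
    rw [auto_eq φ x, h2.1, h2.2, auto_eq (1 : MulAut Q) x]
    rfl
  have hfin : Finite (MulAut Q) := Finite.of_injective f hinj
  have hcard : 24 ≤ Nat.card (MulAut Q) := by
    have := Nat.card_le_card_of_injective mk mk_injective
    rw [Nat.card_eq_fintype_card (α := {p : Q × Q // valid p.1 p.2 = true}), count_valid] at this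
    exact this
  have hcard2 : Nat.card (Equiv.Perm (Fin 4)) = 24 := by
    rw [Nat.card_eq_fintype_card, Fintype.card_perm, Fintype.card_fin]
    rfl
  have hbij : Function.Bijective f := by
    rw [Nat.bijective_iff_injective_and_card]
    refine ⟨hinj, le_antisymm (Nat.card_le_card_of_injective f hinj) ?_⟩
    rw [hcard2]
    exact hcard
  exact ⟨MulEquiv.ofBijective f hbij⟩

end Cfsg.Agent.S3742
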