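import Cfsg.Statements.S3559
import Cfsg.Agent.Lib.InvKernel

set_option autoImplicit false
open Cfsg

namespace Cfsg.Agent.S3559

open Cfsg.Agent.Lib.InvKernel


/-- Let G act faithfully and transitively on a finite set whose number of points n ≥ 2 is not a prime power, and suppose G has a cyclic subgroup acting regularly (transitively with trivial point stabilizers). Then G is imprimitive or doubly transitive. -/
theorem result {G Ω : Type*} [Group G] [Finite G] [MulAction G Ω] [FaithfulSMul G Ω] [Finite Ω]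
    (htrans : MulAction.IsPretransitive G Ω) (hn : 2 ≤ Nat.card Ω) (hnp : ¬ IsPrimePow (Nat.card Ω))
    (C : Subgroup G) (hcyc : IsCyclic ↥C) (hC : MulAction.IsPretransitive ↥C Ω ∧ ∀ a : Ω, MulAction.stabilizer ↥C a = ⊥) :
    ¬ MulAction.IsPreprimitive G Ω ∨ MulAction.IsMultiplyPretransitive G Ω 2 := by
  classical
  rw [or_iff_not_imp_left, not_not]
  intro hprim
  have := Fintype.ofFinite Ω
  obtain ⟨hCt, hCs⟩ := hC
  have hcomm : ∀ a b : C, a * b = b * a := fun a b => (IsCyclic.commGroup (α := C)).mul_comm a b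
  have hne : Nonempty Ω := by
    by_contra h
    rw [not_nonempty_iff] at h
    rw [Nat.card_of_isEmpty] at hn
    omega
  obtain ⟨a⟩ := hne
  have hfree : ∀ (c d : C) (y : Ω), c • y = d • y → c = d := by
    intro c d y h
    have h1 : d⁻¹ * c ∈ MulAction.stabilizer C y := by
      rw [MulAction.mem_stabilizer_iff, mul_smul, h, inv_smul_smul]
    rw [hCs, Subgroup.mem_bot] at h1
    exact (inv_mul_eq_one.mp h1).symm
  have hcard : Nat.card C = Nat.card Ω := by
    refine Nat.card_congr (Equiv.ofBijective (fun c : C => c • a) ⟨fun c d h => hfree c d a h, fun y => ?_⟩)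
    exact MulAction.exists_smul_eq C a y
  -- two primes
  obtain ⟨p, q, hp, hq, hpn, hqn, hpq⟩ : ∃ p q : ℕ, p.Prime ∧ q.Prime ∧ p ∣ Nat.card C ∧ q ∣ Nat.card C ∧ p ≠ q := by
    rw [hcard]
    rw [isPrimePow_iff_unique_prime_dvd] at hnp
    obtain ⟨p, hp, hpn⟩ := Nat.exists_prime_and_dvd (show Nat.card Ω ≠ 1 by omega)
    by_contra hcon
    push Not at hcon
    apply hnp
    refine ⟨p, ⟨hp, hpn⟩, ?_⟩
    rintro q ⟨hq, hqn⟩
    exact (hcon p q hp hq hpn hqn).symm
  haveI : Fact p.Prime := ⟨hp⟩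
  haveI : Fact q.Prime := ⟨hq⟩
  have key : ∀ (r : ℕ) [Fact r.Prime] (_ : r ∣ Nat.card C) (R : Ω → Ω → Prop)
      (_ : ∀ (g : G) (x y : Ω), R x y → R (g • x) (g • y)) (x : Ω) (c : C) (_ : R x (c • x))
      (_ : c ^ r ≠ 1) (e : C) (_ : e ^ r = 1), R x ((e * c) • x) := by
    intro r _ hr R hinv x c hc hcr e he
    exact schur_p C hcomm hCt hCs r (exists_not_pow r hr) (fun d => isCyclic_fib r (Fact.out : r.Prime).pos d)
      R hinv x c hc hcr e he
  obtain ⟨x0, hx0⟩ := exists_prime_orderOf_dvd_card' (G := C) p hpn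
  obtain ⟨f0, hf0⟩ := exists_prime_orderOf_dvd_card' (G := C) q hqn
  have hcop : ∀ e : C, e ^ p = 1 → e ^ q = 1 → e = 1 := by
    intro e h1 h2
    have h3 := Nat.dvd_gcd (orderOf_dvd_of_pow_eq_one h1) (orderOf_dvd_of_pow_eq_one h2)
    rw [(Nat.coprime_primes hp hq).mpr hpq] at h3
    exact orderOf_eq_one_iff.mp (Nat.dvd_one.mp h3)
  have hx0p : x0 ^ p = 1 := by rw [← hx0, pow_orderOf_eq_one]
  have hf0q : f0 ^ q = 1 := by rw [← hf0, pow_orderOf_eq_one]
  have hx01 : x0 ≠ 1 := by rintro rfl; rw [orderOf_one] at hx0; exact hp.one_lt.ne hx0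
  have hf01 : f0 ≠ 1 := by rintro rfl; rw [orderOf_one] at hf0; exact hq.one_lt.ne hf0
  -- first orbital
  let O : Ω → Ω → Ω → Ω → Prop := fun u v x y => ∃ g : G, g • u = x ∧ g • v = y
  have hO : ∀ u v (g : G) (x y : Ω), O u v x y → O u v (g • x) (g • y) := by
    rintro u v g x y ⟨h, rfl, rfl⟩
    exact ⟨g * h, mul_smul _ _ _, mul_smul _ _ _⟩
  have hP : ∀ e : C, e ^ p = 1 → e ≠ 1 → O a (x0 • a) a (e • a) := by
    intro e he he1
    -- Q x0
    have h1 : O a (x0 • a) a ((f0 * x0) • a) :=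
      key q hqn _ (hO _ _) a x0 ⟨1, one_smul _ _, one_smul _ _⟩ (fun h => hx01 (hcop x0 hx0p h)) f0 hf0q
    have h2 : (f0 * x0) ^ p ≠ 1 := by
      rw [(show Commute f0 x0 from hcomm _ _).mul_pow, hx0p, mul_one]
      exact fun h => hf01 (hcop f0 h hf0q)
    have h3 : O a (x0 • a) a ((e * x0⁻¹ * (f0 * x0)) • a) := by
      refine key p hpn _ (hO _ _) a (f0 * x0) h1 h2 (e * x0⁻¹) ?_
      rw [(show Commute e x0⁻¹ from hcomm _ _).mul_pow, he, inv_pow, hx0p, one_mul, inv_one]
    have h4 : e * x0⁻¹ * (f0 * x0) = f0 * e := by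
      rw [hcomm f0 x0, ← mul_assoc, inv_mul_cancel_right, hcomm]
    rw [h4] at h3
    have h5 : O a (x0 • a) a ((f0⁻¹ * (f0 * e)) • a) := by
      refine key q hqn _ (hO _ _) a (f0 * e) h3 ?_ f0⁻¹ ?_
      · rw [(show Commute f0 e from hcomm _ _).mul_pow, hf0q, one_mul]
        exact fun h => he1 (hcop e he h)
      · rw [inv_pow, hf0q, inv_one]
    rw [inv_mul_cancel_left] at h5
    exact h5
  -- every pair lies in the first orbital
  have hall : ∀ b, b ≠ a → O a (x0 • a) a b := by
    intro b hb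
    by_contra hcon
    have hT2 : ∀ c : C, O a b a (c • a) → c ^ p ≠ 1 := by
      intro c hc hcp
      by_cases hc1 : c = 1
      · obtain ⟨g, h1, h2⟩ := hc
        rw [hc1, one_smul, ← h1] at h2
        exact hb (smul_left_cancel g h2)
      · obtain ⟨g, h1, h2⟩ := hc
        obtain ⟨h, h3, h4⟩ := hP c hcp hc1
        apply hcon
        refine ⟨g⁻¹ * h, ?_, ?_⟩
        · rw [mul_smul, h3]
          conv_lhs => rw [← h1]
          rw [inv_smul_smul]
        · rw [mul_smul, h4, ← h2, inv_smul_smul]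
    have hirr : ∀ x, ¬ O a b x x := by
      rintro x ⟨g, h1, h2⟩
      rw [← h1] at h2
      exact hb (smul_left_cancel g h2)
    have hbase : ∀ (t : C) (d : C), O a b (t • a) (d • t • a) ↔ O a b a (d • a) := by
      intro t d
      have h1 : d • t • a = t • d • a := by rw [← mul_smul, ← mul_smul, hcomm]
      rw [h1]
      constructor
      · intro h
        have := hO a b ((t : G)⁻¹) _ _ h
        have h5 : (t : G)⁻¹ • (t • a) = a := inv_smul_smul (t : G) a
        have h6 : (t : G)⁻¹ • (t • d • a) = d • a := inv_smul_smul (t : G) _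
        rw [h5, h6] at this
        exact this
      · intro h
        exact hO a b (t : G) _ _ h
    have hnb := nbhd (G := G) (O a b) (hO a b) a (x0 • a) (by
      intro h
      apply hx01
      exact (hfree x0 1 a (by rw [one_smul]; exact h.symm))) (by
      intro z
      obtain ⟨c, rfl⟩ := MulAction.exists_smul_eq C a z
      have h2 : O a b (x0 • a) (c • a) ↔ O a b a ((c * x0⁻¹) • a) := by
        rw [← hbase x0 (c * x0⁻¹)]
        have h7 : (c * x0⁻¹) • x0 • a = c • a := by rw [← mul_smul, inv_mul_cancel_right]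
        rw [h7]
      rw [h2]
      constructor
      · intro h
        have := key p hpn _ (hO a b) a c h (hT2 c h) x0⁻¹ (by rw [inv_pow, hx0p, inv_one])
        rwa [hcomm] at this
      · intro h
        have := key p hpn _ (hO a b) a (c * x0⁻¹) h (hT2 _ h) x0 hx0p
        have h8 : x0 * (c * x0⁻¹) = c := by rw [hcomm, inv_mul_cancel_right]
        rwa [h8] at this)
    exact hirr b ((hnb a b b).mp ⟨1, one_smul _ _, one_smul _ _⟩)
  rw [MulAction.is_two_pretransitive_iff]
  have hall' : ∀ x y, x ≠ y → ∃ g : G, g • a = x ∧ g • (x0 • a) = y := by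
    intro x y hxy
    obtain ⟨t, rfl⟩ := MulAction.exists_smul_eq G a x
    have h1 : t⁻¹ • y ≠ a := by
      intro h
      apply hxy
      rw [← h, smul_inv_smul]
    obtain ⟨g, h2, h3⟩ := hall _ h1
    exact ⟨t * g, by rw [mul_smul, h2], by rw [mul_smul, h3, smul_inv_smul]⟩
  intro x y z w hxy hzw
  obtain ⟨g, h1, h2⟩ := hall' x y hxy
  obtain ⟨h, h3, h4⟩ := hall' z w hzw
  exact ⟨h * g⁻¹, by rw [mul_smul, ← h1, inv_smul_smul, h3], by rw [mul_smul, ← h2, inv_smul_smul, h4]⟩

end Cfsg.Agent.S3559
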