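import Cfsg.Statements.S0034
import Cfsg.Agent.Lib.FrobGroup

set_option autoImplicit false
open Cfsg

namespace Cfsg.Agent.S0034

/-- For a Frobenius complement H, the set of elements lying in no conjugate of H, together with 1, has exactly as many elements as the index of H, and that index is congruent to 1 modulo the order of H. -/
theorem result {G : Type*} [Group G] [Finite G] (H : Subgroup G) (hH : Cfsg.IsFrobeniusComplement H) :
    Nat.card (Cfsg.frobeniusKernel H) = H.index ∧ H.index % Nat.card H = 1 % Nat.card H := by
  refine ⟨Cfsg.Agent.Lib.FrobGroup.card_kernel hH, ?_⟩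
  have h1 := Cfsg.Agent.Lib.FrobGroup.index_modEq hH
  have h2 := Cfsg.Agent.Lib.FrobGroup.one_lt_index hH
  obtain ⟨k, hk⟩ := h1
  have h3 : H.index = 1 + Nat.card H * k := by omega
  rw [h3]
  simp

end Cfsg.Agent.S0034
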