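import Cfsg.Statements.S0073
import Cfsg.Agent.Lib.TransferApps2

set_option autoImplicit false
open Cfsg

namespace Cfsg.Agent.S0073

/-- For a finite non-abelian simple group, either the cube of the least prime divisor of the order divides the order, or 12 does. -/
theorem result {G : Type*} [Group G] [Finite G] [IsSimpleGroup G] (hG : ∃ x y : G, x * y ≠ y * x) : (Nat.card G).minFac ^ 3 ∣ Nat.card G ∨ 12 ∣ Nat.card G := by
  by_contra hcon
  push Not at hcon
  obtain ⟨h1, h2⟩ := hcon
  set p := (Nat.card G).minFac with hp
  have hcard1 : Nat.card G ≠ 1 := by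
    have : 1 < Nat.card G := Finite.one_lt_card
    omega
  have hpp : p.Prime := Nat.minFac_prime hcard1
  have : Fact p.Prime := ⟨hpp⟩
  have hpd : p ∣ Nat.card G := Nat.minFac_dvd _
  obtain ⟨P⟩ : Nonempty (Sylow p G) := inferInstance
  obtain ⟨k, hk⟩ := IsPGroup.iff_card.mp P.isPGroup'
  have hk0 : k ≠ 0 := by
    intro h0
    rw [h0, pow_zero] at hk
    exact P.ne_bot_of_dvd_card hpd (Subgroup.card_eq_one.mp hk)
  have hk2 : k ≤ 2 := by
    by_contra hgt
    push Not at hgt
    apply h1
    have : p ^ 3 ∣ p ^ k := pow_dvd_pow p hgt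
    rw [← hk] at this
    exact this.trans (Subgroup.card_subgroup_dvd_card _)
  have hcomm : IsMulCommutative P := by
    have hk12 : k = 1 ∨ k = 2 := by omega
    rcases hk12 with h | h
    · rw [h, pow_one] at hk
      have hc : IsCyclic (P : Subgroup G) := isCyclic_of_prime_card hk
      exact ⟨⟨fun a b => (IsCyclic.commGroup (α := (P : Subgroup G))).mul_comm a b⟩⟩
    · rw [h] at hk
      exact IsPGroup.isMulCommutative_of_card_eq_prime_sq hk
  have hnpc : Cfsg.HasNormalPComplement p G := by
    apply Cfsg.Agent.Lib.TransferApps2.hasNormalPComplement_of_small P hcomm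
    intro r hr hrp hrG d hd hmod
    have hrgt : p < r := lt_of_le_of_ne (Nat.minFac_le_of_dvd hr.two_le hrG) (Ne.symm hrp)
    have hk' : Nat.card P = p ^ k := hk
    rw [hk'] at hd hmod ⊢
    obtain ⟨j, hj, rfl⟩ := (Nat.dvd_prime_pow hpp).mp hd
    have hle : p ^ j ≤ p ^ k := Nat.pow_le_pow_right hpp.pos hj
    have h5 : r ∣ p ^ k - p ^ j := (Nat.modEq_iff_dvd' hle).mp hmod.symm
    by_contra hne
    have hjk : j < k := lt_of_le_of_ne hj (fun h => hne (by rw [h]))
    have hfac : p ^ k - p ^ j = p ^ j * (p ^ (k - j) - 1) := by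
      rw [Nat.mul_sub, ← pow_add, Nat.add_sub_cancel' hj, mul_one]
    rw [hfac] at h5
    have hcop : Nat.Coprime r (p ^ j) := Nat.Coprime.pow_right _ ((Nat.coprime_primes hr hpp).mpr hrp)
    have h6 : r ∣ p ^ (k - j) - 1 := hcop.dvd_of_dvd_mul_left h5
    have hkj : k - j = 1 ∨ k - j = 2 := by omega
    rcases hkj with h | h
    · rw [h, pow_one] at h6
      have := Nat.le_of_dvd (by have := hpp.two_le; omega) h6
      omega
    · rw [h] at h6
      have h7 : p ^ 2 - 1 = (p + 1) * (p - 1) := by
        have := Nat.sq_sub_sq p 1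
        rwa [one_pow] at this
      rw [h7] at h6
      rcases (Nat.Prime.dvd_mul hr).mp h6 with h8 | h8
      · have := Nat.le_of_dvd (by omega) h8
        have hr' : r = p + 1 := by omega
        -- p and p+1 both prime
        have hp2 : p = 2 := by
          rcases hpp.eq_two_or_odd with h9 | h9
          · exact h9
          · exfalso
            rcases hr.eq_two_or_odd with h10 | h10
            · have := hpp.two_le; omega
            · omega
        apply h2
        have hj0 : j = 0 ∧ k = 2 := by omega
        have h4 : 4 ∣ Nat.card G := by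
          have : Nat.card (P : Subgroup G) ∣ Nat.card G := Subgroup.card_subgroup_dvd_card _
          rw [hk, hj0.2, hp2] at this
          simpa using this
        have h3' : 3 ∣ Nat.card G := by
          rw [hr', hp2] at hrG
          exact hrG
        have : Nat.Coprime 4 3 := by norm_num
        have := this.mul_dvd_of_dvd_of_dvd h4 h3'
        simpa using this
      · have := Nat.le_of_dvd (by have := hpp.two_le; omega) h8
        omega
  obtain ⟨x, y, hxy⟩ := hG
  exact hxy (Cfsg.Agent.Lib.TransferApps2.simple_comm_of_hasNormalPComplement hpd hnpc x y)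

end Cfsg.Agent.S0073
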