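import Mathlib
import Cfsg.Statements.S0414
import Cfsg.Agent.Lib.Aut22

set_option autoImplicit false
open Cfsg

namespace Cfsg.Agent.S0414

open Cfsg.Agent.Lib.Golay Cfsg.Agent.Lib.S5824

/-- Aut of an S(3, 6, 22) has order 887040, is 3-transitive, and contains a simple subgroup of index 2. -/
theorem result {α : Type*} [Fintype α] [DecidableEq α] (hα : Fintype.card α = 22) {B : Set (Finset α)} (hB : Cfsg.IsSteinerSystem 3 6 B) : Nat.card (Cfsg.setSystemAut B) = 887040 ∧ MulAction.IsMultiplyPretransitive (Cfsg.setSystemAut B) α 3 ∧ ∃ H : Subgroup (Cfsg.setSystemAut B), H.index = 2 ∧ Cfsg.IsM22 H := by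
  have hc := Cfsg.Agent.Lib.Aut22.card_aut hα hB
  refine ⟨hc, Cfsg.Agent.Lib.Aut22.aut_pretransitive hα hB, ?_⟩
  obtain ⟨φ, hφ⟩ := Cfsg.Agent.Lib.Aut22.exists_m22 hα hB
  have e := MonoidHom.ofInjective hφ
  have hcard : Nat.card φ.range = 443520 := by
    rw [← Nat.card_congr e.toEquiv, card_stab_two u0_ne_v0]
  refine ⟨φ.range, ?_, isSimpleGroup_of_mulEquiv e (M22_simple u0_ne_v0), hcard⟩
  have h := φ.range.card_mul_index
  rw [hc, hcard] at h
  omega

end Cfsg.Agent.S0414
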