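import Cfsg.Statements.S0430
import Cfsg.Agent.Lib.SRG100

set_option autoImplicit false
open Cfsg

namespace Cfsg.Agent.S0430

open Cfsg.Agent.Lib

/-- Uniqueness of the strongly regular graph with parameters (100, 22, 0, 6). -/
theorem result {V W : Type*} [Fintype V] [Fintype W] {G : SimpleGraph V} {H : SimpleGraph W} [DecidableRel G.Adj] [DecidableRel H.Adj] (hG : G.IsSRGWith 100 22 0 6) (hH : H.IsSRGWith 100 22 0 6) : Nonempty (G ≃g H) := by
  classical
  have h1 : Fintype.card V = 100 := hG.card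
  have h2 : Fintype.card W = 100 := hH.card
  obtain ⟨v⟩ : Nonempty V := Fintype.card_pos_iff.mp (by omega)
  obtain ⟨w⟩ : Nonempty W := Fintype.card_pos_iff.mp (by omega)
  obtain ⟨f, -⟩ := SRG100.exists_iso_self hG v
  obtain ⟨g, -⟩ := SRG100.exists_iso hH w (SRG100.card_pts hG v) (SRG100.steiner_blks hG v)
  exact ⟨f.symm.trans g⟩

end Cfsg.Agent.S0430
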