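import Mathlib
import Cfsg.Statements.S0436

set_option autoImplicit false
open Cfsg

namespace Cfsg.Agent.S0436

theorem inv_of_mem {G : Type*} [Group G] {E : Set G} (hE : Cfsg.IsThreeTranspositionSet E) {d : G}
    (hd : d ∈ E) : d⁻¹ = d := by
  have := pow_orderOf_eq_one d
  rw [hE.1 d hd, pow_two] at this
  exact inv_eq_of_mul_eq_one_left this

theorem mul_self_of_mem {G : Type*} [Group G] {E : Set G} (hE : Cfsg.IsThreeTranspositionSet E) {d : G}
    (hd : d ∈ E) : d * d = 1 := by
  nth_rewrite 1 [← inv_of_mem hE hd]; simp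

/-- non-commuting members satisfy the braid relation -/
theorem braid {G : Type*} [Group G] {E : Set G} (hE : Cfsg.IsThreeTranspositionSet E) {a e : G}
    (ha : a ∈ E) (he : e ∈ E) (h : ¬ Commute e a) : e * a * e = a * e * a := by
  have hai := inv_of_mem hE ha
  have hei := inv_of_mem hE he
  rcases hE.2 e he a ha with h2 | h3
  · exfalso
    apply h
    show e * a = a * e
    have : (e * a)⁻¹ = e * a := by
      rw [pow_two] at h2
      exact inv_eq_of_mul_eq_one_left h2
    rw [← this, mul_inv_rev, hai, hei]
  · have h4 : (e * a * e) * (a * e * a) = 1 := by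
      rw [← h3]; simp only [pow_succ, pow_zero, one_mul, mul_assoc]
    have h5 : (a * e * a)⁻¹ = a * e * a := by
      rw [mul_inv_rev, mul_inv_rev, hai, hei, mul_assoc]
    have h6 := eq_inv_of_mul_eq_one_left h4
    rw [h5] at h6
    exact h6

theorem commute_of_commute_mul {G : Type*} [Group G] {E : Set G} (hE : Cfsg.IsThreeTranspositionSet E) {a b e : G}
    (ha : a ∈ E) (hb : b ∈ E) (he : e ∈ E) (hab : a ≠ b) (hcomm : Commute a b)
    (h : Commute e (a * b)) : Commute e a := by
  by_contra hea
  have haa := mul_self_of_mem hE ha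
  have hbb := mul_self_of_mem hE hb
  have hee := mul_self_of_mem hE he
  have heb : ¬ Commute e b := by
    intro heb
    apply hea
    have : a = (a * b) * b := by rw [mul_assoc, hbb, mul_one]
    rw [this]
    exact h.mul_right heb
  have h1 := braid hE ha he hea
  have h2 := braid hE hb he heb
  -- e * (a*b) * e = a * b
  have h3 : e * (a * b) * e = a * b := by
    rw [h.eq, mul_assoc, hee, mul_one]
  have h4 : (e * a * e) * (e * b * e) = a * b := by
    rw [← h3]
    calc (e * a * e) * (e * b * e) = e * a * (e * e) * (b * e) := by simp only [mul_assoc]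
      _ = e * (a * b) * e := by rw [hee]; simp only [mul_assoc, mul_one]
  rw [h1, h2] at h4
  -- a e a b e b = a b → e a b e = 1 
  have h5 : e * (a * b) * e = 1 := by
    have : a * (e * (a * b) * e) * b = a * 1 * b := by
      rw [mul_one]
      refine Eq.trans ?_ h4
      simp only [mul_assoc]
    exact mul_left_cancel (mul_right_cancel this)
  rw [h3] at h5
  apply hab
  have := eq_inv_of_mul_eq_one_left h5
  rwa [inv_of_mem hE hb] at this

theorem result {G : Type*} [Group G] {E : Set G} (hE : Cfsg.IsThreeTranspositionSet E) {a b e : G} (ha : a ∈ E) (hb : b ∈ E) (he : e ∈ E) (hab : a ≠ b) (hcomm : Commute a b) : Commute e (a * b) ↔ (Commute e a ∧ Commute e b) := by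
  constructor
  · intro h
    refine ⟨commute_of_commute_mul hE ha hb he hab hcomm h, ?_⟩
    apply commute_of_commute_mul hE hb ha he hab.symm hcomm.symm
    rwa [← hcomm.eq]
  · rintro ⟨h1, h2⟩
    exact h1.mul_right h2

end Cfsg.Agent.S0436
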