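import Mathlib
import Cfsg.Statements.S0437
import Cfsg.Agent.S0436

set_option autoImplicit false
open Cfsg

namespace Cfsg.Agent.S0437

open Cfsg.Agent.S0436 (inv_of_mem mul_self_of_mem braid commute_of_commute_mul)

theorem aux {G : Type*} [Group G] {E : Set G} (hE : Cfsg.IsThreeTranspositionSet E) {a b c e : G} (ha : a ∈ E) (hb : b ∈ E) (hc : c ∈ E) (he : e ∈ E) (hab : a ≠ b) (hac : a ≠ c) (hbc : b ≠ c) (h₁ : Commute a b) (h₂ : Commute a c) (h₃ : Commute b c) (h : Commute e (a * b * c)) : Commute e a := by
  have haa := mul_self_of_mem hE ha
  have hbb := mul_self_of_mem hE hb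
  have hcc := mul_self_of_mem hE hc
  have hee := mul_self_of_mem hE he
  by_contra hea
  by_cases heb : Commute e b
  · apply hea
    apply commute_of_commute_mul hE ha hc he hac h₂
    have : a * c = (a * b * c) * b := by
      calc a * c = a * c * (b * b) := by rw [hbb, mul_one]
        _ = a * (c * b) * b := by simp only [mul_assoc]
        _ = a * (b * c) * b := by rw [h₃.eq]
        _ = _ := by simp only [mul_assoc]
    rw [this]
    exact h.mul_right heb
  by_cases hec : Commute e c
  · apply hea
    apply commute_of_commute_mul hE ha hb he hab h₁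
    have : a * b = (a * b * c) * c := by rw [mul_assoc, hcc, mul_one]
    rw [this]
    exact h.mul_right hec
  have b1 := braid hE ha he hea
  have b2 := braid hE hb he heb
  have b3 := braid hE hc he hec
  -- (a b) e (a b)⁻¹ = c e c
  have k1 : a * b * e * b * a = c * e * c := by
    have h' : a * b * c * e = e * (a * b * c) := h.eq.symm
    calc a * b * e * b * a = (a * b) * (c * c) * e * (b * a) := by
            rw [hcc, mul_one]; simp only [mul_assoc]
      _ = (a * b * c) * (c * e * (b * a)) := by simp only [mul_assoc]
      _ = (a * b * c) * (c * e * c) * (c * (b * a)) := by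
            have : c * e * (b * a) = (c * e * c) * (c * (b * a)) := by
              calc c * e * (b * a) = c * e * (c * c) * (b * a) := by rw [hcc, mul_one]
                _ = _ := by simp only [mul_assoc]
            rw [this]; simp only [mul_assoc]
      _ = c * (a * b * c) * (e * c) * (c * (b * a)) := by
            have : (a * b * c) * (c * e * c) = c * (a * b * c) * (e * c) := by
              have hc' : Commute c (a * b * c) := by
                have h1 : Commute c a := h₂.symm
                have h2 : Commute c b := h₃.symm
                exact (h1.mul_right h2).mul_right (Commute.refl c)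
              calc (a * b * c) * (c * e * c) = ((a * b * c) * c) * (e * c) := by simp only [mul_assoc]
                _ = (c * (a * b * c)) * (e * c) := by rw [hc'.eq]
            rw [this]
      _ = c * ((a * b * c) * e) * c * (c * (b * a)) := by simp only [mul_assoc]
      _ = c * (e * (a * b * c)) * c * (c * (b * a)) := by rw [h']
      _ = c * e * (a * b * c) * (c * c) * (b * a) := by simp only [mul_assoc]
      _ = c * e * (a * b * c) * (b * a) := by rw [hcc, mul_one]
      _ = c * e * (a * (b * c) * b * a) := by simp only [mul_assoc]
      _ = c * e * (a * (c * b) * b * a) := by rw [h₃.eq]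
      _ = c * e * (a * c * (b * b) * a) := by simp only [mul_assoc]
      _ = c * e * (a * c * a) := by rw [hbb, mul_one]
      _ = c * e * (c * a * a) := by rw [h₂.eq]
      _ = c * e * c := by rw [mul_assoc c a a, haa, mul_one]
  -- also a b e b a = a (e b e) a 
  have k2 : a * b * e * b * a = (e * a * e) * b * (e * a * e) := by
    calc a * b * e * b * a = a * (b * e * b) * a := by simp only [mul_assoc]
      _ = a * (e * b * e) * a := by rw [b2]
      _ = (a * e) * b * (e * a) := by simp only [mul_assoc]
      _ = (a * e) * (a * a) * b * (e * a) := by rw [haa, mul_one]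
      _ = (a * e * a) * (a * b) * (e * a) := by simp only [mul_assoc]
      _ = (a * e * a) * (b * a) * (e * a) := by rw [h₁.eq]
      _ = (a * e * a) * b * (a * e * a) := by simp only [mul_assoc]
      _ = _ := by rw [b1]
  have k3 : c = a * e * b * e * a := by
    have k4 : e * c * e = (e * a * e) * b * (e * a * e) := by rw [← k2, k1, b3]
    calc c = (e * e) * c * (e * e) := by rw [hee]; simp
      _ = e * (e * c * e) * e := by simp only [mul_assoc]
      _ = e * ((e * a * e) * b * (e * a * e)) * e := by rw [k4]
      _ = (e * e) * (a * e * b * e * a) * (e * e) := by simp only [mul_assoc]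
      _ = a * e * b * e * a := by rw [hee]; simp
  have k5 : c = e * b * e := by
    calc c = c * (a * a) := by rw [haa, mul_one]
      _ = (c * a) * a := by rw [mul_assoc]
      _ = (a * c) * a := by rw [h₂.eq]
      _ = a * (a * e * b * e * a) * a := by nth_rewrite 1 [k3]; rfl
      _ = (a * a) * (e * b * e) * (a * a) := by simp only [mul_assoc]
      _ = e * b * e := by rw [haa]; simp
  have k6 : c = e := by
    calc c = (b * b) * c := by rw [hbb, one_mul]
      _ = b * (b * c) := by rw [mul_assoc]
      _ = b * (c * b) := by rw [h₃.eq]
      _ = b * ((e * b * e) * b) := by nth_rewrite 1 [k5]; rfl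
      _ = b * (b * e * b) * b := by rw [b2]; simp only [mul_assoc]
      _ = (b * b) * e * (b * b) := by simp only [mul_assoc]
      _ = e := by rw [hbb]; simp
  exact hea (by rw [← k6]; exact h₂.symm)

theorem result {G : Type*} [Group G] {E : Set G} (hE : Cfsg.IsThreeTranspositionSet E) {a b c e : G} (ha : a ∈ E) (hb : b ∈ E) (hc : c ∈ E) (he : e ∈ E) (hab : a ≠ b) (hac : a ≠ c) (hbc : b ≠ c) (h₁ : Commute a b) (h₂ : Commute a c) (h₃ : Commute b c) : Commute e (a * b * c) ↔ (Commute e a ∧ Commute e b ∧ Commute e c) := by
  constructor
  · intro h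
    refine ⟨aux hE ha hb hc he hab hac hbc h₁ h₂ h₃ h, ?_, ?_⟩
    · apply aux hE hb ha hc he hab.symm hbc hac h₁.symm h₃ h₂
      rwa [← h₁.eq]
    · apply aux hE hc ha hb he hac.symm hbc.symm hab h₂.symm h₃.symm h₁
      have : c * a * b = a * b * c := by
        rw [← h₂.eq, mul_assoc, ← h₃.eq, ← mul_assoc]
      rwa [this]
  · rintro ⟨h1, h2, h3⟩
    exact (h1.mul_right h2).mul_right h3

end Cfsg.Agent.S0437
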