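import Mathlib
import Cfsg.Statements.S0438

set_option autoImplicit false
open Cfsg

namespace Cfsg.Agent.S0438

theorem result {G : Type*} [Group G] {E : Set G} (hE : Cfsg.IsThreeTranspositionSet E) (hconj : ∀ g : G, ∀ d ∈ E, g * d * g⁻¹ ∈ E) (x : G ≃* G) (hx : ∀ g : G, x (x g) = g) (hxE : ∀ d ∈ E, x d ∈ E) {a : G} (ha : a ∈ E) (h : ¬ Commute a (x a)) : ∃ d ∈ E, x d = d := by
  have inv_of : ∀ d ∈ E, d⁻¹ = d := by
    intro d hd
    have := pow_orderOf_eq_one d
    rw [hE.1 d hd, pow_two] at this
    exact inv_eq_of_mul_eq_one_left this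
  have hb := hxE a ha
  have hai := inv_of a ha
  have hbi := inv_of _ hb
  have haa : a * a = 1 := by nth_rewrite 1 [← hai]; simp
  have hbb : x a * x a = 1 := by nth_rewrite 1 [← hbi]; simp
  refine ⟨a * x a * a, ?_, ?_⟩
  · have := hconj a (x a) hb
    rwa [hai] at this
  · rw [map_mul, map_mul, hx]
    rcases hE.2 a ha (x a) hb with h2 | h3
    · exfalso
      apply h
      show a * x a = x a * a
      have : (a * x a)⁻¹ = a * x a := by
        rw [pow_two] at h2
        exact inv_eq_of_mul_eq_one_left h2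
      rw [← this, mul_inv_rev, hai, hbi]
    · have h4 : (a * x a * a) * (x a * a * x a) = 1 := by
        rw [← h3]; simp only [pow_succ, pow_zero, one_mul, mul_assoc]
      have h5 : (x a * a * x a)⁻¹ = x a * a * x a := by
        rw [mul_inv_rev, mul_inv_rev, hai, hbi, mul_assoc]
      have h6 := eq_inv_of_mul_eq_one_left h4
      rw [h5] at h6
      exact h6.symm

end Cfsg.Agent.S0438
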