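import Mathlib
import Cfsg.Statements.S0444
import Cfsg.Agent.S0436

set_option autoImplicit false
open Cfsg

namespace Cfsg.Agent.S0444

open Cfsg.Agent.S0436 (inv_of_mem mul_self_of_mem braid)

/-- the map from the dihedral group of order six -/
def toG {G : Type*} [Group G] (d e : G) : DihedralGroup 3 → G
  | DihedralGroup.r i => (d * e) ^ i.val
  | DihedralGroup.sr i => d * (d * e) ^ i.val

theorem pow_congr {G : Type*} [Group G] {x : G} (hx : x ^ 3 = 1) {m n : ℕ} (h : m % 3 = n % 3) :
    x ^ m = x ^ n := by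
  rw [pow_eq_pow_mod m hx, h, ← pow_eq_pow_mod n hx]

theorem conj_d {G : Type*} [Group G] {d e : G} (hd : d * d = 1) (he : e * e = 1)
    (hx : (d * e) ^ 3 = 1) (m : ℕ) : (d * e) ^ m * d = d * (d * e) ^ (2 * m) := by
  have hd' : d⁻¹ = d := inv_eq_of_mul_eq_one_left hd
  have he' : e⁻¹ = e := inv_eq_of_mul_eq_one_left he
  have h1 : d * (d * e) * d⁻¹ = (d * e)⁻¹ := by
    rw [mul_inv_rev, hd', he', ← mul_assoc, hd, one_mul]
  have h2 : (d * e)⁻¹ = (d * e) ^ 2 := by
    rw [inv_eq_iff_mul_eq_one, ← pow_succ', hx]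
  have h3 : d * (d * e) ^ m * d⁻¹ = (d * e) ^ (2 * m) := by
    rw [← conj_pow, h1, h2, ← pow_mul]
  rw [← h3, hd']
  calc (d * e) ^ m * d = (d * d) * (d * e) ^ m * d := by rw [hd, one_mul]
    _ = _ := by simp only [mul_assoc]

theorem toG_mul {G : Type*} [Group G] {d e : G} (hd : d * d = 1) (he : e * e = 1)
    (hx : (d * e) ^ 3 = 1) (a b : DihedralGroup 3) : toG d e (a * b) = toG d e a * toG d e b := by
  have k1 : ∀ i j : ZMod 3, (i + j).val % 3 = (i.val + j.val) % 3 := by decide
  have k2 : ∀ i j : ZMod 3, (j - i).val % 3 = (2 * i.val + j.val) % 3 := by decide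
  rcases a with i | i <;> rcases b with j | j
  · rw [DihedralGroup.r_mul_r]
    show (d * e) ^ (i + j).val = (d * e) ^ i.val * (d * e) ^ j.val
    rw [← pow_add]; exact pow_congr hx (k1 i j)
  · rw [DihedralGroup.r_mul_sr]
    show d * (d * e) ^ (j - i).val = (d * e) ^ i.val * (d * (d * e) ^ j.val)
    rw [← mul_assoc, conj_d hd he hx, mul_assoc, ← pow_add]
    rw [pow_congr hx (k2 i j)]
  · rw [DihedralGroup.sr_mul_r]
    show d * (d * e) ^ (i + j).val = d * (d * e) ^ i.val * (d * e) ^ j.val
    rw [mul_assoc, ← pow_add, pow_congr hx (k1 i j)]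
  · rw [DihedralGroup.sr_mul_sr]
    show (d * e) ^ (j - i).val = d * (d * e) ^ i.val * (d * (d * e) ^ j.val)
    rw [mul_assoc, ← mul_assoc _ d, conj_d hd he hx, mul_assoc d, ← mul_assoc d d, hd, one_mul, ← pow_add]
    exact pow_congr hx (k2 i j)

theorem exists_equiv {G : Type*} [Group G] {d e : G} (hd : d * d = 1) (he : e * e = 1)
    (hx : (d * e) ^ 3 = 1) (h : ¬ Commute d e) :
    Nonempty (Subgroup.closure ({d, e} : Set G) ≃* DihedralGroup 3) := by
  let φ : DihedralGroup 3 →* G := MonoidHom.mk' (toG d e) (toG_mul hd he hx)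
  have hφr : ∀ i, φ (DihedralGroup.r i) = (d * e) ^ i.val := fun i => rfl
  have hφs : ∀ i, φ (DihedralGroup.sr i) = d * (d * e) ^ i.val := fun i => rfl
  have hord : orderOf (d * e) = 3 := by
    apply orderOf_eq_prime hx
    intro h1
    apply h
    have : d = e := by
      have := eq_inv_of_mul_eq_one_left h1
      rwa [inv_eq_of_mul_eq_one_left he] at this
    rw [this]
  have hinj : Function.Injective φ := by
    rw [injective_iff_map_eq_one]
    intro a ha
    rcases a with i | i
    · rw [hφr] at ha
      have h1 := orderOf_dvd_of_pow_eq_one ha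
      rw [hord] at h1
      have h2 : i.val < 3 := ZMod.val_lt i
      have h3 : i.val = 0 := Nat.eq_zero_of_dvd_of_lt h1 h2
      rw [ZMod.val_eq_zero] at h3
      rw [h3]; rfl
    · exfalso
      rw [hφs] at ha
      apply h
      have h1 : d = ((d * e) ^ i.val)⁻¹ := eq_inv_of_mul_eq_one_left ha
      have h2 : Commute d (d * e) := by
        nth_rewrite 1 [h1]
        exact ((Commute.refl (d * e)).pow_left _).inv_left
      have h3 : d * (d * e) = d * e * d := h2
      show d * e = e * d
      have := congrArg (fun z => d * z) h3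
      simp only [← mul_assoc, hd, one_mul] at this
      exact this
  have hrange : φ.range = Subgroup.closure ({d, e} : Set G) := by
    apply le_antisymm
    · rintro _ ⟨a, rfl⟩
      have hdm : d ∈ Subgroup.closure ({d, e} : Set G) := Subgroup.subset_closure (by simp)
      have hem : e ∈ Subgroup.closure ({d, e} : Set G) := Subgroup.subset_closure (by simp)
      rcases a with i | i
      · exact pow_mem (mul_mem hdm hem) _
      · exact mul_mem hdm (pow_mem (mul_mem hdm hem) _)
    · rw [Subgroup.closure_le]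
      intro x hx'
      rcases hx' with rfl | hx'
      · exact ⟨DihedralGroup.sr 0, by rw [hφs]; simp⟩
      · rw [Set.mem_singleton_iff] at hx'
        subst hx'
        refine ⟨DihedralGroup.sr 1, ?_⟩
        rw [hφs]
        show d * (d * x) ^ 1 = x
        rw [pow_one, ← mul_assoc, hd, one_mul]
  exact ⟨((MonoidHom.ofInjective hinj).trans (MulEquiv.subgroupCongr hrange)).symm⟩

/-- Two members of a set of 3-transpositions which do not commute generate a subgroup isomorphic to the symmetric group on three letters. -/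
theorem result {G : Type*} [Group G] {E : Set G} (hE : Cfsg.IsThreeTranspositionSet E) {d e : G} (hd : d ∈ E) (he : e ∈ E) (h : ¬ Commute d e) : Nonempty (Subgroup.closure ({d, e} : Set G) ≃* Equiv.Perm (Fin 3)) := by
  have hdd := mul_self_of_mem hE hd
  have hee := mul_self_of_mem hE he
  have h3 : (d * e) ^ 3 = 1 := by
    rcases hE.2 d hd e he with h2 | h3
    · exfalso
      apply h
      show d * e = e * d
      rw [pow_two] at h2
      have := inv_eq_of_mul_eq_one_left h2
      rw [← this, mul_inv_rev, inv_of_mem hE hd, inv_of_mem hE he]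
    · exact h3
  obtain ⟨f1⟩ := exists_equiv hdd hee h3 h
  obtain ⟨f2⟩ := exists_equiv (G := Equiv.Perm (Fin 3)) (d := Equiv.swap 0 1) (e := Equiv.swap 1 2)
    (by decide) (by decide) (by decide) (by unfold Commute SemiconjBy; decide)
  have hcard : Nat.card (Subgroup.closure ({Equiv.swap 0 1, Equiv.swap 1 2} : Set (Equiv.Perm (Fin 3)))) = Nat.card (Equiv.Perm (Fin 3)) := by
    rw [Nat.card_congr f2.toEquiv, DihedralGroup.nat_card, Nat.card_perm]
    simp [Nat.factorial]
  have htop := Subgroup.eq_top_of_card_eq _ hcard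
  exact ⟨f1.trans (f2.symm.trans ((MulEquiv.subgroupCongr htop).trans Subgroup.topEquiv))⟩

end Cfsg.Agent.S0444
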