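import Mathlib
import Cfsg.Statements.S0445

set_option autoImplicit false
open Cfsg

namespace Cfsg.Agent.S0445

open Matrix

abbrev F2 := ZMod 2

/-- the block matrix -/
def mk (α : F2) (u v : Fin 3 → F2) (M : Matrix (Fin 3) (Fin 3) F2) : Matrix (Fin 5) (Fin 5) F2 :=
  Matrix.of ![Fin.cons 1 (Fin.cons α u), Fin.cons 0 (Fin.cons 1 0),
    Fin.cons 0 (Fin.cons (v 0) (M 0)), Fin.cons 0 (Fin.cons (v 1) (M 1)),
    Fin.cons 0 (Fin.cons (v 2) (M 2))]

theorem det_mk (α : F2) (u v : Fin 3 → F2) (M : Matrix (Fin 3) (Fin 3) F2) :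
    (mk α u v M).det = M.det := by
  rw [Matrix.det_succ_column_zero, Fin.sum_univ_succ]
  have h0 : ∀ i : Fin 4, mk α u v M i.succ 0 = 0 := by
    intro i; fin_cases i <;> rfl
  have h1 : mk α u v M 0 0 = 1 := rfl
  rw [h1, Finset.sum_eq_zero (fun i _ => by rw [h0 i]; ring)]
  simp only [Fin.val_zero, pow_zero, one_mul, add_zero]
  rw [Matrix.det_succ_row_zero, Fin.sum_univ_succ]
  have h2 : ∀ j : Fin 3, (mk α u v M).submatrix (Fin.succAbove 0) Fin.succ 0 j.succ = 0 := by
    intro j; fin_cases j <;> rfl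
  have h3 : (mk α u v M).submatrix (Fin.succAbove 0) Fin.succ 0 0 = 1 := rfl
  rw [h3, Finset.sum_eq_zero (fun i _ => by rw [h2 i]; ring)]
  simp only [Fin.val_zero, pow_zero, one_mul, add_zero]
  congr 1
  ext i j
  fin_cases i <;> fin_cases j <;> rfl

theorem mk_comm_iff (X : Matrix (Fin 5) (Fin 5) F2) :
    X * Matrix.transvection 0 1 1 = Matrix.transvection 0 1 1 * X ↔
      ((∀ i, i ≠ 0 → X i 0 = 0) ∧ (∀ j, j ≠ 1 → X 1 j = 0) ∧ X 0 0 = X 1 1) := by
  rw [Matrix.transvection, mul_add, add_mul, mul_one, one_mul, add_right_inj]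
  constructor
  · intro h
    have h' : ∀ i j, (X * Matrix.single 0 1 1 : Matrix (Fin 5) (Fin 5) F2) i j = (Matrix.single 0 1 1 * X : Matrix (Fin 5) (Fin 5) F2) i j := fun i j => by rw [h]
    refine ⟨fun i hi => ?_, fun j hj => ?_, ?_⟩
    · have := h' i 1
      rw [Matrix.mul_single_apply_same, Matrix.single_mul_apply_of_ne _ _ _ _ _ hi] at this
      simpa using this
    · have := h' 0 j
      rw [Matrix.single_mul_apply_same, Matrix.mul_single_apply_of_ne _ _ _ _ _ hj] at this
      simpa using this.symm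
    · have := h' 0 1
      rw [Matrix.single_mul_apply_same, Matrix.mul_single_apply_same] at this
      simpa using this
  · rintro ⟨h1, h2, h3⟩
    ext i j
    by_cases hj : j = 1
    · subst hj
      rw [Matrix.mul_single_apply_same]
      by_cases hi : i = 0
      · subst hi; rw [Matrix.single_mul_apply_same]; simpa using h3
      · rw [Matrix.single_mul_apply_of_ne _ _ _ _ _ hi, h1 i hi]; simp
    · rw [Matrix.mul_single_apply_of_ne _ _ _ _ _ hj]
      by_cases hi : i = 0
      · subst hi; rw [Matrix.single_mul_apply_same, h2 j hj]; simp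
      · rw [Matrix.single_mul_apply_of_ne _ _ _ _ _ hi]

theorem one_of_ne_zero : ∀ x : F2, x ≠ 0 → x = 1 := by decide

theorem det_mk_unit (α : F2) (u v : Fin 3 → F2) (M : GL (Fin 3) F2) :
    (mk α u v M.1).det = 1 := by
  rw [det_mk]
  apply one_of_ne_zero
  exact ((Matrix.isUnit_iff_isUnit_det _).mp M.isUnit).ne_zero

/-- the block matrix as an element of the special linear group -/
def toSL (α : F2) (u v : Fin 3 → F2) (M : GL (Fin 3) F2) : Matrix.SpecialLinearGroup (Fin 5) F2 :=
  ⟨mk α u v M.1, det_mk_unit _ _ _ _⟩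

theorem toSL_mem (s : Matrix.SpecialLinearGroup (Fin 5) F2)
    (hs : (s : Matrix (Fin 5) (Fin 5) F2) = Matrix.transvection 0 1 1)
    (α : F2) (u v : Fin 3 → F2) (M : GL (Fin 3) F2) :
    toSL α u v M ∈ Subgroup.centralizer ({s} : Set (Matrix.SpecialLinearGroup (Fin 5) F2)) := by
  rw [Subgroup.mem_centralizer_singleton_iff]
  apply Subtype.ext
  rw [Matrix.SpecialLinearGroup.coe_mul, Matrix.SpecialLinearGroup.coe_mul, hs]
  apply (mk_comm_iff (mk α u v M.1)).mpr
  refine ⟨?_, ?_, ?_⟩
  · intro i hi; fin_cases i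
    · exact absurd rfl hi
    all_goals rfl
  · intro i hi; fin_cases i
    · rfl
    · exact absurd rfl hi
    all_goals rfl
  · rfl

/-- the parametrisation of the centraliser -/
noncomputable def param (s : Matrix.SpecialLinearGroup (Fin 5) F2)
    (hs : (s : Matrix (Fin 5) (Fin 5) F2) = Matrix.transvection 0 1 1)
    (p : F2 × (Fin 3 → F2) × (Fin 3 → F2) × GL (Fin 3) F2) :
    Subgroup.centralizer ({s} : Set (Matrix.SpecialLinearGroup (Fin 5) F2)) :=
  ⟨toSL p.1 p.2.1 p.2.2.1 p.2.2.2, toSL_mem s hs _ _ _ _⟩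

theorem param_bijective (s : Matrix.SpecialLinearGroup (Fin 5) F2)
    (hs : (s : Matrix (Fin 5) (Fin 5) F2) = Matrix.transvection 0 1 1) :
    Function.Bijective (param s hs) := by
  constructor
  · rintro ⟨α, u, v, M⟩ ⟨α', u', v', M'⟩ h
    have h1 : mk α u v M.1 = mk α' u' v' M'.1 := congrArg (fun z => (z.1 : Matrix (Fin 5) (Fin 5) F2)) h
    have e : ∀ i j, mk α u v M.1 i j = mk α' u' v' M'.1 i j := fun i j => by rw [h1]
    have hα : α = α' := e 0 1
    have hu : u = u' := by
      ext j; fin_cases j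
      · exact e 0 2
      · exact e 0 3
      · exact e 0 4
    have hv : v = v' := by
      ext j; fin_cases j
      · exact e 2 1
      · exact e 3 1
      · exact e 4 1
    have hM : M = M' := by
      apply Units.ext
      ext i j
      fin_cases i <;> fin_cases j
      · exact e 2 2
      · exact e 2 3
      · exact e 2 4
      · exact e 3 2
      · exact e 3 3
      · exact e 3 4
      · exact e 4 2
      · exact e 4 3
      · exact e 4 4
    subst hα hu hv hM
    rfl
  · rintro ⟨X, hX⟩
    rw [Subgroup.mem_centralizer_singleton_iff] at hX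
    have hX' : (X : Matrix (Fin 5) (Fin 5) F2) * Matrix.transvection 0 1 1 = Matrix.transvection 0 1 1 * (X : Matrix (Fin 5) (Fin 5) F2) := by
      have := congrArg (fun z : Matrix.SpecialLinearGroup (Fin 5) F2 => (z : Matrix (Fin 5) (Fin 5) F2)) hX
      simpa [hs] using this
    rw [mk_comm_iff] at hX'
    obtain ⟨h1, h2, h3⟩ := hX'
    obtain ⟨X, hdet⟩ := X
    simp only at h1 h2 h3
    -- the entry (0,0) is nonzero
    have h00 : X 0 0 = 1 := by
      apply one_of_ne_zero
      intro h0
      have : X.det = 0 := by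
        apply Matrix.det_eq_zero_of_column_eq_zero 0
        intro i
        by_cases hi : i = 0
        · subst hi; exact h0
        · exact h1 i hi
      rw [this] at hdet
      exact zero_ne_one hdet
    have h11 : X 1 1 = 1 := by rw [← h3, h00]
    let M : Matrix (Fin 3) (Fin 3) F2 := Matrix.of ![![X 2 2, X 2 3, X 2 4], ![X 3 2, X 3 3, X 3 4], ![X 4 2, X 4 3, X 4 4]]
    have hmk : X = mk (X 0 1) ![X 0 2, X 0 3, X 0 4] ![X 2 1, X 3 1, X 4 1] M := by
      ext i j
      fin_cases i <;> fin_cases j
      · exact h00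
      · rfl
      · rfl
      · rfl
      · rfl
      · exact h1 1 (by decide)
      · exact h11
      · exact h2 2 (by decide)
      · exact h2 3 (by decide)
      · exact h2 4 (by decide)
      · exact h1 2 (by decide)
      · rfl
      · rfl
      · rfl
      · rfl
      · exact h1 3 (by decide)
      · rfl
      · rfl
      · rfl
      · rfl
      · exact h1 4 (by decide)
      · rfl
      · rfl
      · rfl
      · rfl
    have hM : M.det = 1 := by
      rw [hmk, det_mk] at hdet; exact hdet
    refine ⟨⟨X 0 1, ![X 0 2, X 0 3, X 0 4], ![X 2 1, X 3 1, X 4 1], Matrix.GeneralLinearGroup.mk'' M (by rw [hM]; exact isUnit_one)⟩, ?_⟩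
    apply Subtype.ext
    apply Subtype.ext
    exact hmk.symm

/-- In the special linear group of dimension 5 over the field with two elements, the centraliser of a transvection has order 21504 = 2 ^ 7 · 168 (it is an extension of an extraspecial group of order 2 ^ 7 by the simple group of order 168). -/
theorem result (s : Matrix.SpecialLinearGroup (Fin 5) (ZMod 2)) (hs : (s : Matrix (Fin 5) (Fin 5) (ZMod 2)) = Matrix.transvection 0 1 1) : Nat.card (Subgroup.centralizer ({s} : Set (Matrix.SpecialLinearGroup (Fin 5) (ZMod 2)))) = 21504 := by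
  rw [← Nat.card_congr (Equiv.ofBijective _ (param_bijective s hs))]
  rw [Nat.card_prod, Nat.card_prod, Nat.card_prod, Matrix.card_GL_field]
  simp [Fin.prod_univ_succ, Nat.card_eq_fintype_card, ZMod.card]

end Cfsg.Agent.S0445
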