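import Cfsg.Statements.S0447
import Cfsg.Agent.S0051
import Cfsg.Agent.Lib.H26Mult7

set_option autoImplicit false
open Cfsg

namespace Cfsg.Agent.S0447

open scoped commutatorElement

open Equiv Equiv.Perm Subgroup

/-! ### dihedral groups -/

theorem exists_dih {G : Type*} [Group G] (m : ℕ) [NeZero m] (u s : G) (hu : u ^ m = 1) (hs : s * s = 1)
    (hus : s * u * s = u⁻¹) :
    ∃ f : DihedralGroup m →* G, (∀ i, f (DihedralGroup.r i) = u ^ i.val) ∧ ∀ i, f (DihedralGroup.sr i) = s * u ^ i.val := by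
  have hs' : s⁻¹ = s := inv_eq_of_mul_eq_one_left hs
  have hadd : ∀ i j : ZMod m, u ^ (i + j).val = u ^ i.val * u ^ j.val := by
    intro i j
    rw [ZMod.val_add, ← pow_add]
    conv_rhs => rw [← Nat.div_add_mod (i.val + j.val) m, pow_add, pow_mul, hu, one_pow, one_mul]
  have hneg : ∀ i : ZMod m, u ^ (-i).val = (u ^ i.val)⁻¹ := by
    intro i
    rw [eq_inv_iff_mul_eq_one, ← hadd, neg_add_cancel, ZMod.val_zero, pow_zero]
  have hconj : ∀ k : ℕ, s * u ^ k * s = (u ^ k)⁻¹ := by
    intro k
    have h1 : s * u * s⁻¹ = u⁻¹ := by rw [hs']; exact hus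
    have h2 : s * u ^ k * s⁻¹ = (u ^ k)⁻¹ := by
      rw [← conj_pow, h1, inv_pow]
    rwa [hs'] at h2
  have hsub : ∀ i j : ZMod m, u ^ (j - i).val = (u ^ i.val)⁻¹ * u ^ j.val := by
    intro i j
    rw [sub_eq_neg_add, hadd, hneg]
  refine ⟨{ toFun := fun x => match x with
              | DihedralGroup.r i => u ^ i.val
              | DihedralGroup.sr i => s * u ^ i.val
            map_one' := ?_
            map_mul' := ?_ }, fun i => rfl, fun i => rfl⟩
  · show u ^ (0 : ZMod m).val = 1
    rw [ZMod.val_zero, pow_zero]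
  · rintro (i | i) (j | j)
    · rw [DihedralGroup.r_mul_r]
      exact hadd i j
    · rw [DihedralGroup.r_mul_sr]
      show s * u ^ (j - i).val = u ^ i.val * (s * u ^ j.val)
      have h := hconj i.val
      rw [hsub, ← h]
      calc s * (s * u ^ i.val * s * u ^ j.val) = (s * s) * u ^ i.val * s * u ^ j.val := by group
        _ = u ^ i.val * (s * u ^ j.val) := by rw [hs]; group
    · rw [DihedralGroup.sr_mul_r]
      show s * u ^ (i + j).val = s * u ^ i.val * u ^ j.val
      rw [hadd, mul_assoc]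
    · rw [DihedralGroup.sr_mul_sr]
      show u ^ (j - i).val = s * u ^ i.val * (s * u ^ j.val)
      rw [hsub, ← hconj i.val]
      group

/-! ### involutions of small alternating groups -/

theorem cycleType_inv {n : ℕ} (hn : n ≤ 7) {t : Perm (Fin n)} (ht : orderOf t = 2) (he : sign t = 1) :
    t.cycleType = Multiset.replicate 2 2 := by
  obtain ⟨k, hk⟩ := cycleType_prime_order (σ := t) (by rw [ht]; norm_num)
  rw [ht] at hk
  have h1 : t.cycleType.sum ≤ n := by
    rw [sum_cycleType]
    calc t.support.card ≤ Fintype.card (Fin n) := Finset.card_le_univ _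
      _ = n := Fintype.card_fin n
  have h2 := sign_of_cycleType t
  rw [he, hk, Multiset.sum_replicate, Multiset.card_replicate, smul_eq_mul] at h2
  rw [hk, Multiset.sum_replicate, smul_eq_mul] at h1
  have h3 : k < 3 := by omega
  rw [hk]
  interval_cases k
  · exact absurd h2 (by decide)
  · rfl
  · exact absurd h2 (by decide)

theorem conj_inv {n : ℕ} (hn : n ≤ 7) {t t' : alternatingGroup (Fin n)} (ht : orderOf t = 2) (ht' : orderOf t' = 2) :
    ∃ g : alternatingGroup (Fin n), g * t * g⁻¹ = t' := by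
  have h1 : orderOf (t : Perm (Fin n)) = 2 := by rw [orderOf_coe]; exact ht
  have h2 : orderOf (t' : Perm (Fin n)) = 2 := by rw [orderOf_coe]; exact ht'
  have h3 := (isConj_iff_cycleType_eq (σ := (t : Perm (Fin n))) (τ := (t' : Perm (Fin n)))).2
    ((cycleType_inv hn h1 (mem_alternatingGroup.1 t.2)).trans (cycleType_inv hn h2 (mem_alternatingGroup.1 t'.2)).symm)
  obtain ⟨σ, hσ⟩ := isConj_iff.1 h3
  rcases Int.units_eq_one_or (sign σ) with hs | hs
  · exact ⟨⟨σ, mem_alternatingGroup.2 hs⟩, Subtype.ext hσ⟩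
  · -- a transposition commuting with `t`
    have hne : (t : Perm (Fin n)) ≠ 1 := by
      intro h
      rw [h, orderOf_one] at h1
      exact absurd h1 (by norm_num)
    obtain ⟨a, ha⟩ : ∃ a, (t : Perm (Fin n)) a ≠ a := by
      by_contra hcon
      push Not at hcon
      exact hne (Equiv.ext hcon)
    have hsq : (t : Perm (Fin n)) * t = 1 := by
      rw [← pow_two, ← h1, pow_orderOf_eq_one]
    have haa : (t : Perm (Fin n)) ((t : Perm (Fin n)) a) = a := by
      have := Equiv.ext_iff.1 hsq a
      exact this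
    set τ := swap a ((t : Perm (Fin n)) a) with hτ
    have hc : τ * t * τ⁻¹ = t := by
      have h4 : (t : Perm (Fin n)) * τ * (t : Perm (Fin n))⁻¹ = τ := by
        rw [hτ, ← swap_apply_apply, haa, swap_comm]
      have h5 : (t : Perm (Fin n)) * τ = τ * t := by
        rw [mul_inv_eq_iff_eq_mul] at h4
        exact h4
      rw [← h5, mul_inv_cancel_right]
    have hsg : sign (σ * τ) = 1 := by
      rw [Perm.sign_mul, hs, hτ, sign_swap (Ne.symm ha)]
      decide
    refine ⟨⟨σ * τ, mem_alternatingGroup.2 hsg⟩, Subtype.ext ?_⟩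
    show σ * τ * t * (σ * τ)⁻¹ = t'
    rw [← hσ]
    calc σ * τ * t * (σ * τ)⁻¹ = σ * (τ * t * τ⁻¹) * σ⁻¹ := by group
      _ = σ * t * σ⁻¹ := by rw [hc]

/-! ### the first part -/

theorem core {n : ℕ} (hn : n ≤ 7) {H : Type} [Group H] [Finite H] (hZ : Nat.card (center H) = 2)
    (hns : ∀ L : Subgroup H, ¬ (center H).IsComplement' L) (π : H →* alternatingGroup (Fin n))
    (hπ : Function.Surjective π) (hk : π.ker = center H) {x : H} (hx : orderOf x = 2) (hxc : x ∉ center H)
    (m : ℕ) [NeZero m] (u s : alternatingGroup (Fin n)) (hs : orderOf s = 2) (hus : orderOf (u * s) = 2)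
    (hu : (m = 2 ∧ orderOf u = 2) ∨ (m = 4 ∧ orderOf (u ^ 2) = 2)) (h1 : ∀ k < m, s * u ^ k ≠ 1)
    (h2 : ∀ k < m, u ^ k = 1 → k = 0) (c : ℕ) (hc : Nat.card (alternatingGroup (Fin n)) = 2 * m * c) (hodd : c.Coprime 2) : False := by
  have hz2 : ∀ z ∈ center H, z * z = 1 := by
    intro z hz
    have := Subgroup.orderOf_dvd_natCard (center H) hz
    rw [hZ] at this
    rw [← pow_two]
    exact orderOf_dvd_iff_pow_eq_one.1 this
  have hxx : x * x = 1 := by rw [← pow_two, ← hx, pow_orderOf_eq_one]
  have ht : orderOf (π x) = 2 := by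
    apply orderOf_eq_prime
    · rw [pow_two, ← map_mul, hxx, map_one]
    · intro h
      exact hxc (by rw [← hk]; exact h)
  have hall : ∀ h : H, orderOf (π h) = 2 → h * h = 1 := by
    intro h hh
    obtain ⟨g, hg⟩ := conj_inv hn ht hh
    obtain ⟨G, rfl⟩ := hπ g
    have h3 : (G * x * G⁻¹)⁻¹ * h ∈ center H := by
      rw [← hk, MonoidHom.mem_ker, map_mul, map_inv, map_mul, map_mul, map_inv, hg, inv_mul_cancel]
    set z := (G * x * G⁻¹)⁻¹ * h with hz
    have h4 : h = G * x * G⁻¹ * z := by rw [hz]; group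
    have h5 : ∀ y, y * z = z * y := fun y => (mem_center_iff.1 h3 y)
    calc h * h = (G * x * G⁻¹ * z) * (G * x * G⁻¹ * z) := by rw [← h4]
      _ = (G * x * G⁻¹) * (z * (G * x * G⁻¹)) * z := by group
      _ = (G * x * G⁻¹) * ((G * x * G⁻¹) * z) * z := by rw [← h5]
      _ = G * (x * x) * G⁻¹ * (z * z) := by group
      _ = 1 := by rw [hxx, hz2 z h3]; group
  obtain ⟨s', rfl⟩ := hπ s
  obtain ⟨u', rfl⟩ := hπ u
  have a1 : s' * s' = 1 := hall _ hs
  have a2 : (u' * s') * (u' * s') = 1 := hall _ (by rw [map_mul]; exact hus)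
  have a3 : u' ^ m = 1 := by
    rcases hu with ⟨rfl, hu⟩ | ⟨rfl, hu⟩
    · rw [pow_two]; exact hall _ hu
    · have := hall (u' ^ 2) (by rw [map_pow]; exact hu)
      rw [← pow_add] at this
      exact this
  have a4 : s' * u' * s' = u'⁻¹ := by
    rw [eq_inv_iff_mul_eq_one]
    have hs' : s'⁻¹ = s' := inv_eq_of_mul_eq_one_left a1
    calc s' * u' * s' * u' = s' * ((u' * s') * (u' * s')) * s'⁻¹ := by group
      _ = 1 := by rw [a2]; group
  obtain ⟨f, hf1, hf2⟩ := exists_dih m u' s' a3 a1 a4
  have hinj : Function.Injective (π.comp f) := by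
    rw [injective_iff_map_eq_one]
    rintro (i | i) hi
    · have h3 : π u' ^ i.val = 1 := by
        rw [← map_pow, ← hf1]; exact hi
      have h4 := h2 _ (ZMod.val_lt i) h3
      rw [ZMod.val_eq_zero] at h4
      rw [h4]; rfl
    · exfalso
      apply h1 _ (ZMod.val_lt i)
      rw [← map_pow, ← map_mul, ← hf2]; exact hi
  have hdis : f.range ⊓ center H = ⊥ := by
    rw [eq_bot_iff]
    rintro y ⟨⟨d, rfl⟩, hy⟩
    have h3 : π (f d) = 1 := by
      have : f d ∈ π.ker := by rw [hk]; exact hy
      exact this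
    have h4 : d = 1 := hinj (by rw [map_one]; exact h3)
    rw [h4, map_one]; exact one_mem _
  have hcr : Nat.card f.range = 2 * m := by
    rw [← Nat.card_congr (MonoidHom.ofInjective (f := f) (fun a b hab => hinj (by
      show π (f a) = π (f b)
      rw [hab]))).toEquiv, DihedralGroup.nat_card]
  have hcardH : Nat.card H = 2 * (2 * m * c) := by
    have h3 := card_mul_index π.ker
    rw [index_ker, MonoidHom.range_eq_top.2 hπ, card_top, hc, hk, hZ] at h3
    exact h3.symm
  have hUcard : Nat.card ↥(center H ⊔ f.range) = 2 * (2 * m) := by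
    have h3 := card_mul_index ((center H).subgroupOf (center H ⊔ f.range))
    rw [Nat.card_congr (subgroupOfEquivOfLe (le_sup_left : center H ≤ center H ⊔ f.range)).toEquiv, hZ] at h3
    have h4 : ((center H).subgroupOf (center H ⊔ f.range)).index = 2 * m := by
      show (center H).relIndex (center H ⊔ f.range) = _
      rw [sup_comm, relIndex_sup_right, ← inf_relIndex_right, inf_comm, hdis, relIndex_bot_left, hcr]
    rw [h4] at h3
    exact h3.symm
  have hUi : (center H ⊔ f.range).index = c := by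
    have h3 := card_mul_index (center H ⊔ f.range)
    rw [hUcard, hcardH] at h3
    have hm : 0 < m := Nat.pos_of_ne_zero (NeZero.ne m)
    have h4 : 2 * (2 * m) * (center H ⊔ f.range).index = 2 * (2 * m) * c := by rw [h3]; ring
    exact Nat.eq_of_mul_eq_mul_left (by positivity) h4
  obtain ⟨L, hL⟩ := S0051.result (center H) (center H ⊔ f.range) le_sup_left (by
    rw [hZ, hUi]; exact hodd.symm) f.range le_sup_right hdis rfl
  exact hns L hL

theorem mem_alt {n : ℕ} {a b c d : Fin n} (h1 : a ≠ b) (h2 : c ≠ d) : swap a b * swap c d ∈ alternatingGroup (Fin n) := by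
  rw [mem_alternatingGroup, Perm.sign_mul, sign_swap h1, sign_swap h2]
  decide

theorem part1 {n : ℕ} (hn : n ≤ 7) {H : Type} [Group H] [Finite H]
    (h : Cfsg.IsNonsplitDoubleCover H (alternatingGroup (Fin n))) (x : H) (hx : orderOf x = 2) : x ∈ center H := by
  by_contra hxc
  obtain ⟨hZ, ⟨e⟩, hns⟩ := h
  let π : H →* alternatingGroup (Fin n) := e.toMonoidHom.comp (QuotientGroup.mk' (center H))
  have hπ : Function.Surjective π := e.surjective.comp (QuotientGroup.mk'_surjective _)
  have hk : π.ker = center H := by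
    ext y
    rw [MonoidHom.mem_ker]
    constructor
    · intro hy
      have h1 : QuotientGroup.mk' (center H) y = 1 := e.injective (by rw [map_one]; exact hy)
      exact (QuotientGroup.eq_one_iff y).1 h1
    · intro hy
      have h1 : QuotientGroup.mk' (center H) y = 1 := (QuotientGroup.eq_one_iff y).2 hy
      show e (QuotientGroup.mk' (center H) y) = 1
      rw [h1, map_one]
  have hne : π x ≠ 1 := fun hh => hxc (by rw [← hk]; exact hh)
  have hxx : x * x = 1 := by rw [← pow_two, ← hx, pow_orderOf_eq_one]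
  have ht : orderOf (π x) = 2 := orderOf_eq_prime (by rw [pow_two, ← map_mul, hxx, map_one]) hne
  have hdvd := orderOf_dvd_natCard (π x)
  rw [ht] at hdvd
  have hsub : n ≤ 1 → False := by
    intro h1
    apply hne
    apply Subtype.ext
    haveI : Subsingleton (Fin n) := ⟨fun a b => Fin.ext (by omega)⟩
    exact Subsingleton.elim _ _
  have hcard : 2 ≤ n → 2 * Nat.card (alternatingGroup (Fin n)) = n.factorial := by
    intro h2
    haveI : Nontrivial (Fin n) := Fin.nontrivial_iff_two_le.2 h2
    rw [two_mul_nat_card_alternatingGroup, Nat.card_perm, Nat.card_eq_fintype_card, Fintype.card_fin]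
  have e2 : ∀ {n : ℕ} {y : alternatingGroup (Fin n)}, y ^ 2 = 1 → y ≠ 1 → orderOf y = 2 := fun h1 h2 => orderOf_eq_prime h1 h2
  rcases Nat.lt_or_ge n 2 with h1 | h2
  · exact hsub (by omega)
  have hc := hcard h2
  interval_cases n
  · have : Nat.card (alternatingGroup (Fin 2)) = 1 := by
      have h3 : Nat.factorial 2 = 2 := rfl
      rw [h3] at hc; omega
    rw [this] at hdvd
    exact absurd hdvd (by norm_num)
  · have : Nat.card (alternatingGroup (Fin 3)) = 3 := by
      have h3 : Nat.factorial 3 = 6 := rfl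
      rw [h3] at hc; omega
    rw [this] at hdvd
    exact absurd hdvd (by norm_num)
  · exact core hn hZ hns π hπ hk hx hxc 2 ⟨swap 0 1 * swap 2 3, mem_alt (by decide) (by decide)⟩
      ⟨swap 0 2 * swap 1 3, mem_alt (by decide) (by decide)⟩
      (e2 (by decide +kernel) (by decide +kernel)) (e2 (by decide +kernel) (by decide +kernel))
      (Or.inl ⟨rfl, e2 (by decide +kernel) (by decide +kernel)⟩) (by decide +kernel) (by decide +kernel) 3
      (by have h3 : Nat.factorial 4 = 24 := rfl
          rw [h3] at hc; omega) (by decide)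
  · exact core hn hZ hns π hπ hk hx hxc 2 ⟨swap 0 1 * swap 2 3, mem_alt (by decide) (by decide)⟩
      ⟨swap 0 2 * swap 1 3, mem_alt (by decide) (by decide)⟩
      (e2 (by decide +kernel) (by decide +kernel)) (e2 (by decide +kernel) (by decide +kernel))
      (Or.inl ⟨rfl, e2 (by decide +kernel) (by decide +kernel)⟩) (by decide +kernel) (by decide +kernel) 15
      (by have h3 : Nat.factorial 5 = 120 := rfl
          rw [h3] at hc; omega) (by decide)
  · exact core hn hZ hns π hπ hk hx hxc 4
      (⟨swap 0 1 * swap 1 2, mem_alt (by decide) (by decide)⟩ * ⟨swap 2 3 * swap 4 5, mem_alt (by decide) (by decide)⟩)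
      ⟨swap 0 2 * swap 4 5, mem_alt (by decide) (by decide)⟩
      (e2 (by decide +kernel) (by decide +kernel)) (e2 (by decide +kernel) (by decide +kernel))
      (Or.inr ⟨rfl, e2 (by decide +kernel) (by decide +kernel)⟩) (by decide +kernel) (by decide +kernel) 45
      (by have h3 : Nat.factorial 6 = 720 := rfl
          rw [h3] at hc; omega) (by decide)
  · exact core hn hZ hns π hπ hk hx hxc 4
      (⟨swap 0 1 * swap 1 2, mem_alt (by decide) (by decide)⟩ * ⟨swap 2 3 * swap 4 5, mem_alt (by decide) (by decide)⟩)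
      ⟨swap 0 2 * swap 4 5, mem_alt (by decide) (by decide)⟩
      (e2 (by decide +kernel) (by decide +kernel)) (e2 (by decide +kernel) (by decide +kernel))
      (Or.inr ⟨rfl, e2 (by decide +kernel) (by decide +kernel)⟩) (by decide +kernel) (by decide +kernel) 315
      (by have h3 : Nat.factorial 7 = 5040 := rfl
          rw [h3] at hc; omega) (by decide)

theorem unique_inv {H : Type} [Group H] [Finite H] (hZ : Nat.card (center H) = 2) {x y : H} (hx : orderOf x = 2)
    (hy : orderOf y = 2) (hxc : x ∈ center H) (hyc : y ∈ center H) : x = y := by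
  obtain ⟨z, hz, hu⟩ := (Nat.card_eq_two_iff' (1 : center H)).mp hZ
  have h1 : ∀ w : H, orderOf w = 2 → ∀ hw : w ∈ center H, (⟨w, hw⟩ : center H) = z := by
    intro w hw hwc
    apply hu
    intro h
    have h2 : w = 1 := congrArg Subtype.val h
    rw [h2, orderOf_one] at hw
    exact absurd hw (by norm_num)
  exact congrArg Subtype.val ((h1 x hx hxc).trans (h1 y hy hyc).symm)

/-! ### the second part -/

theorem part2 {Γ : Type} [Group Γ] [Finite Γ] (π : Γ →* alternatingGroup (Fin 8)) (h : IsStemExtension π)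
    (h2 : Nat.card π.ker = 2) : Cfsg.IsNonsplitDoubleCover Γ (alternatingGroup (Fin 8)) ∧
      ∃ x y : Γ, x ≠ y ∧ orderOf x = 2 ∧ orderOf y = 2 := by
  obtain ⟨hs, hc, hcomm⟩ := h
  have hk : center Γ = π.ker := by
    apply le_antisymm _ hc
    intro z hz
    have h3 : π z ∈ center (alternatingGroup (Fin 8)) := by
      rw [mem_center_iff]
      intro g
      obtain ⟨g, rfl⟩ := hs g
      rw [← map_mul, ← map_mul, mem_center_iff.1 hz g]
    rw [alternatingGroup.center_eq_bot (by rw [Nat.card_eq_fintype_card, Fintype.card_fin]; norm_num)] at h3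
    exact h3
  have hz2 : ∀ z ∈ π.ker, z * z = 1 := by
    intro z hz
    have := Subgroup.orderOf_dvd_natCard π.ker hz
    rw [h2] at this
    rw [← pow_two]
    exact orderOf_dvd_iff_pow_eq_one.1 this
  obtain ⟨⟨z, hz⟩, hz1, hzu⟩ := (Nat.card_eq_two_iff' (1 : π.ker)).mp h2
  have hzne : z ≠ 1 := fun h => hz1 (Subtype.ext h)
  have hker : ∀ y ∈ π.ker, y = 1 ∨ y = z := by
    intro y hy
    by_cases h : y = 1
    · left; exact h
    · right
      exact congrArg Subtype.val (hzu ⟨y, hy⟩ (fun h' => h (congrArg Subtype.val h')))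
  have hzc : ∀ y, y * z = z * y := fun y => mem_center_iff.1 (hc hz) y
  refine ⟨⟨by rw [hk, h2], ⟨(QuotientGroup.quotientMulEquivOfEq hk).trans (QuotientGroup.quotientKerEquivOfSurjective π hs)⟩, ?_⟩, ?_⟩
  · intro L hL
    -- `L` contains the commutator subgroup
    have hLn : commutator Γ ≤ L := by
      rw [_root_.commutator_def, Subgroup.commutator_le]
      intro a _ b _
      obtain ⟨⟨⟨z1, hz1'⟩, l1⟩, e1⟩ := hL.2 a
      obtain ⟨⟨⟨z2, hz2'⟩, l2⟩, e2⟩ := hL.2 b
      have e1' : a = z1 * l1 := e1.symm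
      have e2' : b = z2 * l2 := e2.symm
      have c1 : ∀ y, y * z1 = z1 * y := fun y => mem_center_iff.1 hz1' y
      have c2 : ∀ y, y * z2 = z2 * y := fun y => mem_center_iff.1 hz2' y
      have c1' : ∀ y, y * z1⁻¹ = z1⁻¹ * y := fun y => mem_center_iff.1 (inv_mem hz1') y
      have c2' : ∀ y, y * z2⁻¹ = z2⁻¹ * y := fun y => mem_center_iff.1 (inv_mem hz2') y
      have h3 : ⁅a, b⁆ = ⁅(l1 : Γ), (l2 : Γ)⁆ := by
        rw [commutatorElement_def, commutatorElement_def, e1', e2', mul_inv_rev, mul_inv_rev]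
        calc z1 * l1 * (z2 * l2) * ((l1 : Γ)⁻¹ * z1⁻¹) * ((l2 : Γ)⁻¹ * z2⁻¹)
            = z1 * ((l1 : Γ) * z2) * l2 * ((l1 : Γ)⁻¹ * z1⁻¹) * ((l2 : Γ)⁻¹ * z2⁻¹) := by group
          _ = z1 * (z2 * (l1 : Γ)) * l2 * (z1⁻¹ * (l1 : Γ)⁻¹) * (z2⁻¹ * (l2 : Γ)⁻¹) := by rw [c2, c1', c2']
          _ = z1 * z2 * ((l1 * l2 : Γ) * z1⁻¹) * ((l1 : Γ)⁻¹ * z2⁻¹) * (l2 : Γ)⁻¹ := by group
          _ = z1 * z2 * (z1⁻¹ * (l1 * l2 : Γ)) * (z2⁻¹ * (l1 : Γ)⁻¹) * (l2 : Γ)⁻¹ := by rw [c1', c2']
          _ = z1 * z2 * z1⁻¹ * ((l1 * l2 : Γ) * z2⁻¹) * (l1 : Γ)⁻¹ * (l2 : Γ)⁻¹ := by group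
          _ = z1 * z2 * z1⁻¹ * (z2⁻¹ * (l1 * l2 : Γ)) * (l1 : Γ)⁻¹ * (l2 : Γ)⁻¹ := by rw [c2']
          _ = z1 * (z2 * z1⁻¹) * z2⁻¹ * (l1 * l2 : Γ) * (l1 : Γ)⁻¹ * (l2 : Γ)⁻¹ := by group
          _ = z1 * (z1⁻¹ * z2) * z2⁻¹ * (l1 * l2 : Γ) * (l1 : Γ)⁻¹ * (l2 : Γ)⁻¹ := by rw [c1']
          _ = l1 * l2 * (l1 : Γ)⁻¹ * (l2 : Γ)⁻¹ := by group
      rw [h3]
      exact L.mul_mem (L.mul_mem (L.mul_mem l1.2 l2.2) (L.inv_mem l1.2)) (L.inv_mem l2.2)
    have h3 : z ∈ L := hLn (hcomm hz)
    have h4 := hL.disjoint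
    rw [hk] at h4
    exact hzne (Subgroup.disjoint_def.1 h4 hz h3)
  · -- three commuting involutions generating a group of order `8`
    have key : ∃ y : Γ, y ∉ π.ker ∧ y * y = 1 := by
      by_contra hcon
      push Not at hcon
      have hsq : ∀ y : Γ, π y ≠ 1 → π y * π y = 1 → y * y = z := by
        intro y h1 h3
        rcases hker (y * y) (by rw [MonoidHom.mem_ker, map_mul]; exact h3) with h4 | h4
        · exact absurd h4 (hcon y h1)
        · exact h4
      obtain ⟨a, ha⟩ := hs (⟨swap 0 1 * swap 2 3, mem_alt (by decide) (by decide)⟩ * ⟨swap 4 5 * swap 6 7, mem_alt (by decide) (by decide)⟩)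
      obtain ⟨b, hb⟩ := hs (⟨swap 0 2 * swap 1 3, mem_alt (by decide) (by decide)⟩ * ⟨swap 4 6 * swap 5 7, mem_alt (by decide) (by decide)⟩)
      obtain ⟨c, hc'⟩ := hs (⟨swap 0 4 * swap 1 5, mem_alt (by decide) (by decide)⟩ * ⟨swap 2 6 * swap 3 7, mem_alt (by decide) (by decide)⟩)
      have h_a : a * a = z := hsq a (by rw [ha]; decide +kernel) (by rw [ha]; decide +kernel)
      have h_b : b * b = z := hsq b (by rw [hb]; decide +kernel) (by rw [hb]; decide +kernel)
      have h_c : c * c = z := hsq c (by rw [hc']; decide +kernel) (by rw [hc']; decide +kernel)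
      have h_ab : (a * b) * (a * b) = z := hsq (a * b) (by rw [map_mul, ha, hb]; decide +kernel) (by rw [map_mul, ha, hb]; decide +kernel)
      have h_ac : (a * c) * (a * c) = z := hsq (a * c) (by rw [map_mul, ha, hc']; decide +kernel) (by rw [map_mul, ha, hc']; decide +kernel)
      have h_bc : (b * c) * (b * c) = z := hsq (b * c) (by rw [map_mul, hb, hc']; decide +kernel) (by rw [map_mul, hb, hc']; decide +kernel)
      have h_abc : (a * b * c) * (a * b * c) = z := hsq (a * b * c) (by rw [map_mul, map_mul, ha, hb, hc']; decide +kernel)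
        (by rw [map_mul, map_mul, ha, hb, hc']; decide +kernel)
      have hzz := hz2 z hz
      have hzi : z⁻¹ = z := inv_eq_of_mul_eq_one_left hzz
      -- anticommutation
      have anti : ∀ p q : Γ, p * p = z → q * q = z → (p * q) * (p * q) = z → q * p = z * (p * q) := by
        intro p q h1 h3 h4
        have h5 : p * (q * p) * q = p * (z * (p * q)) * q := by
          calc p * (q * p) * q = z := by rw [← h4]; group
            _ = z * z * z := by rw [hzz, one_mul]
            _ = z * (p * p) * (q * q) := by rw [h1, h3]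
            _ = (z * p) * (p * q) * q := by group
            _ = (p * z) * (p * q) * q := by rw [hzc]
            _ = p * (z * (p * q)) * q := by group
        exact mul_left_cancel (mul_right_cancel h5)
      have h1 := anti a b h_a h_b h_ab
      have h3 := anti a c h_a h_c h_ac
      have h4 := anti b c h_b h_c h_bc
      have h5 : (a * b * c) * (a * b * c) = 1 := by
        calc (a * b * c) * (a * b * c) = a * b * (c * a) * b * c := by group
          _ = a * b * (z * (a * c)) * b * c := by rw [h3]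
          _ = a * (b * z) * a * (c * b) * c := by group
          _ = a * (z * b) * a * (z * (b * c)) * c := by rw [hzc, h4]
          _ = a * z * (b * a) * z * b * (c * c) := by group
          _ = a * z * (z * (a * b)) * z * b * z := by rw [h1, h_c]
          _ = a * (z * z) * a * (b * z) * b * z := by group
          _ = a * a * (z * b) * b * z := by rw [hzz, hzc b]; group
          _ = z * z * (b * b) * z := by rw [h_a]; group
          _ = 1 := by rw [h_b, hzz, one_mul, hzz]
      rw [h_abc] at h5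
      exact hzne h5
    obtain ⟨y, hy, hyy⟩ := key
    refine ⟨y, z, ?_, ?_, ?_⟩
    · rintro rfl
      exact hy hz
    · exact orderOf_eq_prime (by rw [pow_two]; exact hyy) (fun h => hy (by rw [h]; exact one_mem _))
    · exact orderOf_eq_prime (by rw [pow_two]; exact hz2 z hz) hzne

/-- Involutions in double covers of alternating groups: for n ≤ 7, a finite non-split double cover of the alternating group of degree n has exactly one element of order 2 (the central one); for degree 8 there is a non-split double cover with two distinct involutions. -/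
theorem result : (∀ (n : ℕ) (H : Type) (_ : Group H) (_ : Finite H), n ≤ 7 → Cfsg.IsNonsplitDoubleCover H (alternatingGroup (Fin n)) → ∀ x y : H, orderOf x = 2 → orderOf y = 2 → x = y) ∧ ∃ (H : Type) (_ : Group H) (_ : Finite H), Cfsg.IsNonsplitDoubleCover H (alternatingGroup (Fin 8)) ∧ ∃ x y : H, x ≠ y ∧ orderOf x = 2 ∧ orderOf y = 2 := by
  refine ⟨?_, ?_⟩
  · intro n H _ _ hn h x y hx hy
    exact unique_inv h.1 hx hy (part1 hn h x hx) (part1 hn h y hy)
  · obtain ⟨h1, h2⟩ := Cfsg.Agent.Lib.H26Mult6.stem_two 8 (by norm_num)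
    exact ⟨_, inferInstance, inferInstance, part2 _ h1 h2⟩

end Cfsg.Agent.S0447
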