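import Cfsg.Statements.S0473
import Cfsg.Agent.Lib.Fi24Fi23
import Cfsg.Agent.Lib.Fi24He

set_option autoImplicit false
open Cfsg

namespace Cfsg.Agent.S0473

theorem perfect_of_simple {G : Type*} [Group G] (h : IsSimpleGroup G) (hc : ¬ (Nat.card G).Prime) : commutator G = ⊤ := by
  rcases h.eq_bot_or_eq_top_of_normal (commutator G) inferInstance with h1 | h1
  · exfalso
    rw [commutator_eq_bot_iff_center_eq_top] at h1
    have hm : ∀ a b : G, a * b = b * a := fun a b => by
      have : b ∈ Subgroup.center G := by rw [h1]; trivial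
      exact (Subgroup.mem_center_iff.mp this a)
    let _ : CommGroup G := { ‹Group G› with mul_comm := hm }
    apply hc
    exact IsSimpleGroup.prime_card
  · exact h1

/-- The largest Fischer 3-transposition group: a group of order 2 · 1255205709190661721292800 generated by a conjugacy class of 306936 3-transpositions, in which a transposition centraliser has order 2 · 4089470473293004800 and contains a simple subgroup of order 4089470473293004800; its subgroup of index 2 is simple and contains simple subgroups of orders 4089470473293004800 and 4030387200. -/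
theorem result : ∃ (G : Type) (_ : Group G) (_ : Finite G), Nat.card G = 2 * 1255205709190661721292800 ∧ ∃ D : Set G, Cfsg.IsThreeTranspositionClass D ∧ Nat.card D = 306936 ∧ (∀ d ∈ D, Nat.card (Subgroup.centralizer ({d} : Set G)) = 2 * 4089470473293004800 ∧ ∃ K : Subgroup G, K ≤ Subgroup.centralizer ({d} : Set G) ∧ Cfsg.IsFi23 K) ∧ ∃ H : Subgroup G, H.index = 2 ∧ Cfsg.IsFi24' H ∧ (∃ K : Subgroup H, Cfsg.IsFi23 K) ∧ (∃ K : Subgroup H, Cfsg.IsHe K) := by
  have hfin := Cfsg.Agent.Lib.Fi24Ord.finG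
  obtain ⟨h1, h2, h3, h4⟩ := Cfsg.Agent.Lib.Fi24Real.main
  refine ⟨Cfsg.Agent.Lib.Fi24Sub.G, inferInstance, hfin, by rw [Cfsg.Agent.Lib.Fi24Ord.card_G],
    conjugatesOf (Cfsg.Agent.Lib.Fi24Sub.xx 11), h1, h3,
    fun d hd => ⟨Cfsg.Agent.Lib.Fi24Fi23.card_cent d hd, Cfsg.Agent.Lib.Fi24Fi23.in_cent d hd⟩,
    commutator Cfsg.Agent.Lib.Fi24Sub.G, Cfsg.Agent.Lib.Fi24Ord.comm_index,
    ⟨Cfsg.Agent.Lib.Fi24Ord.comm_simple, Cfsg.Agent.Lib.Fi24Ord.card_comm⟩, Cfsg.Agent.Lib.Fi24Fi23.in_comm, ?_⟩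
  obtain ⟨ψ, hψ⟩ := Cfsg.Agent.Lib.Fi24He.homJ
  obtain ⟨k1, k2, -⟩ := Cfsg.Agent.Lib.HeOrd.main
  have hle : ψ.range ≤ commutator Cfsg.Agent.Lib.Fi24Sub.G := by
    have hc : commutator (Cfsg.Spor.CoxPresented Cfsg.Spor.He.Gen Cfsg.Spor.He.edges Cfsg.Spor.He.extra) = ⊤ :=
      perfect_of_simple k1 (by
        rw [k2]
        intro h
        have := (Nat.prime_dvd_prime_iff_eq Nat.prime_two h).mp (by norm_num)
        exact absurd this (by norm_num))
    rw [MonoidHom.range_eq_map, ← hc, commutator_def, Subgroup.map_commutator]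
    exact Subgroup.commutator_mono le_top le_top
  have e1 := (MonoidHom.ofInjective hψ)
  have e2 := (Subgroup.subgroupOfEquivOfLe hle)
  refine ⟨ψ.range.subgroupOf (commutator Cfsg.Agent.Lib.Fi24Sub.G), ?_, ?_⟩
  · exact MulEquiv.isSimpleGroup (e2.trans e1.symm)
  · rw [Nat.card_congr (e2.trans e1.symm).toEquiv, k2]

end Cfsg.Agent.S0473
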