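import Cfsg.Statements.S0476
import Cfsg.Agent.Lib.J4CJ
import Cfsg.Agent.Lib.J4Cov

set_option autoImplicit false
open Cfsg

namespace Cfsg.Agent.S0476

open Cfsg.Spor Cfsg.Agent.Lib.CosetGroup Cfsg.Agent.Lib.CoxBridge Cfsg.Agent.Lib.J4Main in
theorem upper : Nat.card (Subgroup.centralizer ({Cfsg.Agent.Lib.J4Main.hh} : Set Cfsg.Spor.J4)) ≤ 21799895040 := by
  have hw : ∀ j < 20, Cfsg.Agent.Lib.J4E.yw j = Cfsg.Agent.Lib.J4CH.wd j := by decide +kernel
  apply Cfsg.Agent.Lib.J4CI.hub Cfsg.Agent.Lib.J4E.hyp rfl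
  · intro a
    obtain ⟨j, hj, p, hp, k, hk, h⟩ := Cfsg.Agent.Lib.J4E.cov a
    rw [hw j hj] at h
    exact ⟨j, hj, p, hp, k, hk, h⟩
  · intro j hj
    have hj2 : j < 20 := by omega
    have h1 := Cfsg.Agent.Lib.J4E.stab j hj2
    have h2 : Cfsg.Agent.Lib.J4E.st j = Cfsg.Agent.Lib.J4CI.sg j := by
      rcases hj with rfl | rfl | rfl | rfl <;> decide +kernel
    rw [h2, hw j hj2] at h1
    refine h1.trans (le_of_eq (Nat.card_congr (Equiv.subtypeEquivRight ?_)))
    intro p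
    constructor
    · intro h3
      refine (QuotientGroup.eq.2 ?_).symm
      rw [← mul_assoc]
      exact h3
    · intro h3
      have h4 := QuotientGroup.eq.1 h3.symm
      rwa [← mul_assoc] at h4

/-- In some simple group of the order of Janko's fourth group there is an involution whose centraliser C has a normal extraspecial subgroup Q of order 2 ^ 13, a normal subgroup N of order 3 · 2 ^ 13 containing Q, and a subgroup M of index 2 containing N as a normal subgroup with M / N simple of order 443520. -/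
theorem result : ∃ (G : Type) (_ : Group G) (_ : Finite G), Cfsg.IsJ4 G ∧ ∃ z : G, orderOf z = 2 ∧ ∃ (Q N M : Subgroup (Subgroup.centralizer ({z} : Set G))), Q.Normal ∧ N.Normal ∧ Q ≤ N ∧ N ≤ M ∧ Nat.card Q = 2 ^ 13 ∧ Cfsg.IsExtraspecial 2 Q ∧ Nat.card N = 3 * 2 ^ 13 ∧ M.index = 2 ∧ ∃ (_ : (N.subgroupOf M).Normal), Cfsg.IsM22 (M ⧸ N.subgroupOf M) :=
  Cfsg.Agent.Lib.J4CC.main Cfsg.Agent.Lib.J4E.hyp Cfsg.Agent.Lib.J4CJ.img upper

end Cfsg.Agent.S0476
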