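import Cfsg.Statements.S0563
import Mathlib
import Cfsg.Agent.Lib.WielandtProd

set_option autoImplicit false
open Pointwise
open Cfsg

namespace Cfsg.Agent.S0563

open scoped Pointwise in
open Subgroup Lib.LocBase Lib.NilpotentHall in
theorem aux {G : Type*} [Group G] [Finite G] {A B : Subgroup G} (hA : Group.IsNilpotent A)
    (hcard : Nat.card G = Nat.card A * Nat.card B) (hcop : (Nat.card A).Coprime (Nat.card B))
    (p : ℕ) [hp : Fact p.Prime] (P : Sylow p A) :
    A ≤ normalizer (((P : Subgroup A).map A.subtype : Subgroup G) : Set G) ∧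
      (Nat.card ((P : Subgroup A).map A.subtype)).Coprime ((P : Subgroup A).map A.subtype).index := by
  have h1 := isSyl_map_subtype P
  refine ⟨le_normalizer_of_isSyl hA h1, ?_⟩
  obtain ⟨k, hk⟩ := IsPGroup.iff_card.mp h1.pgroup
  by_cases hpA : p ∣ Nat.card A
  · have hidx : (Nat.card A).Coprime A.index := by
      have h2 := A.card_mul_index
      rw [hcard] at h2
      rw [Nat.eq_of_mul_eq_mul_left Nat.card_pos h2]; exact hcop
    have h2 := isSyl_top_of_hall hidx hpA h1
    rw [hk]
    have h3 := h2.ndvd
    rw [relIndex_top_right] at h3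
    exact Nat.Coprime.pow_left k ((Nat.Prime.coprime_iff_not_dvd hp.out).mpr h3)
  · have h2 : Nat.card ((P : Subgroup A).map A.subtype) = 1 := by
      rw [card_map_of_injective A.subtype_injective, P.card_eq_multiplicity,
        Nat.factorization_eq_zero_of_not_dvd hpA, pow_zero]
    rw [h2]
    exact Nat.coprime_one_left _

/-- If a finite group G is the product AB of two nilpotent subgroups of coprime orders, then G is solvable, and for every Sylow p-subgroup P of A and Sylow q-subgroup Q of B the product set PQ is a subgroup. -/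
theorem result {G : Type*} [Group G] [Finite G] (A B : Subgroup G) (hA : Group.IsNilpotent A) (hB : Group.IsNilpotent B) (hcop : (Nat.card A).Coprime (Nat.card B)) (hAB : ∀ g : G, ∃ a ∈ A, ∃ b ∈ B, g = a * b) : Group.IsSolvable G ∧ ∀ (p q : ℕ) [Fact p.Prime] [Fact q.Prime] (P : Sylow p A) (Q : Sylow q B), ∃ S : Subgroup G, (S : Set G) = (((P : Subgroup A).map A.subtype : Subgroup G) : Set G) * (((Q : Subgroup B).map B.subtype : Subgroup G) : Set G) := by
  have hsol : Group.IsSolvable G := Lib.WielandtProd.isSolvable_of_coprime hA hB hcop hAB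
  refine ⟨hsol, ?_⟩
  intro p q hp hq P Q
  have hinf : A ⊓ B = ⊥ := Lib.SubgroupTools.inf_eq_bot_of_coprime' hcop
  have hcard : Nat.card G = Nat.card A * Nat.card B := by
    have h := Lib.ProdHall.card_mul_card_inf hAB
    rwa [hinf, Subgroup.card_bot, mul_one] at h
  have hcard' : Nat.card G = Nat.card B * Nat.card A := by rw [hcard, mul_comm]
  have h1 := aux hA hcard hcop p P
  have h2 := aux hB hcard' hcop.symm q Q
  have h := Lib.ProdHall.permutes_conj hAB h1.1 h2.1 h1.2 h2.2 1 1
  rw [map_one, one_smul, one_smul] at h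
  exact ⟨Lib.Kegel.prodSubgroup h, Lib.Kegel.coe_prodSubgroup h⟩

end Cfsg.Agent.S0563
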