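import Cfsg.Statements.S0679
import Cfsg.Agent.Lib.H53Deg11c
import Cfsg.Agent.Lib.ClSeven
import Cfsg.Agent.S0999

set_option autoImplicit false
open Cfsg

namespace Cfsg.Agent.S0679

/-- A non-solvable transitive permutation group on 11 points that does not contain the alternating group is either sharply 4-transitive (of order 7920) or isomorphic to the projective special linear group of degree 2 over the field with 11 elements. -/
theorem result {α : Type*} [Fintype α] [DecidableEq α] (hα : Fintype.card α = 11) (G : Subgroup (Equiv.Perm α)) [MulAction.IsPretransitive G α] (hG : ¬ Group.IsSolvable G) (hA : ¬ alternatingGroup α ≤ G) : (MulAction.IsMultiplyPretransitive G α 4 ∧ ∀ x : Fin 4 ↪ α, MulAction.stabilizer G x = ⊥) ∨ Nonempty (G ≃* Matrix.ProjectiveSpecialLinearGroup (Fin 2) (ZMod 11)) := by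
  classical
  rcases Cfsg.Agent.Lib.H53Deg11.main G hα hG hA with h660 | h
  · right
    have : Fact (Nat.Prime 11) := ⟨by norm_num⟩
    have hΩ : Nat.card α = 11 := by rw [Nat.card_eq_fintype_card, hα]
    obtain ⟨P⟩ : Nonempty (Sylow 11 G) := inferInstance
    obtain ⟨d, n, hd, hn, hN, hcard, hnS⟩ := Cfsg.Agent.Lib.PrimeDegreeNorm.card_group (p := 11) hΩ P
    have hd' : d ≤ 10 := Nat.le_of_dvd (by norm_num) hd
    have hntG : Nontrivial G := by
      rw [← Finite.one_lt_card_iff_nontrivial, h660]; norm_num
    have hsimple : IsSimpleGroup G := by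
      refine ⟨fun K hK => ?_⟩
      by_contra hcon
      push Not at hcon
      obtain ⟨hKne, hKtop⟩ := hcon
      have hKt := Cfsg.Agent.Lib.PrimeDegreeNorm2.transitive_of_normal hΩ K hKne
      obtain ⟨Q⟩ : Nonempty (Sylow 11 K) := inferInstance
      obtain ⟨d', n', hd'', hn', hN', hcard', hnS'⟩ :=
        Cfsg.Agent.Lib.PrimeDegreeNorm.card_group (p := 11) hΩ Q
      have hKdvd : Nat.card K ∣ 660 := by rw [← h660]; exact Subgroup.card_subgroup_dvd_card K
      have hKlt : Nat.card K < 660 := by
        rcases Nat.lt_or_ge (Nat.card K) 660 with h | h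
        · exact h
        · exact absurd (Subgroup.eq_top_of_card_eq K (by
            rw [h660]; exact le_antisymm (Nat.le_of_dvd (by norm_num) hKdvd) h)) hKtop
      have hd0 : 0 < d' := Nat.pos_of_dvd_of_pos hd'' (by norm_num)
      have hd10 : d' ≤ 10 := Nat.le_of_dvd (by norm_num) hd''
      have hdn : d' * n' ∣ 60 := by
        rw [hcard', mul_assoc, show 660 = 11 * 60 by norm_num] at hKdvd
        exact Nat.dvd_of_mul_dvd_mul_left (by norm_num) hKdvd
      have hn60 : n' ∣ 60 := (Dvd.intro_left _ rfl).trans hdn
      have hn'60 : n' ≤ 60 := Nat.le_of_dvd (by norm_num) hn60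
      by_cases hn1 : n' = 1
      · have h1 := Cfsg.Agent.Lib.PrimeDegreeNorm2.normalizer_eq_top hΩ K hKne (hnS'.symm.trans hn1) P
        rw [h1, Subgroup.card_top, h660] at hN
        omega
      · have hn12 : n' = 12 := by
          interval_cases n' <;> omega
        subst hn12
        have hd1' : d' ≠ 1 := by
          rintro rfl
          rw [mul_one] at hN'
          have h1 := Cfsg.Agent.Lib.PrimeDegreeNorm.card_eq_of_normalizer hΩ Q hN'
          omega
        have hd5 : d' ∣ 5 := by
          rw [show 60 = 5 * 12 by norm_num] at hdn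
          exact Nat.dvd_of_mul_dvd_mul_right (by norm_num) hdn
        rcases (Nat.dvd_prime Nat.prime_five).mp hd5 with h | h
        · exact hd1' h
        · rw [hcard', h] at hKlt
          omega
    have hncyc : ¬ IsCyclic G := by
      intro hcyc
      apply hG
      let _ := hcyc.commGroup
      infer_instance
    rcases Cfsg.Agent.S0999.result (G := G) hncyc 11 (by norm_num) (by rw [h660]; norm_num) (by rw [h660]; norm_num) with
      ⟨F, _, _, hF, -, ⟨e⟩⟩ | ⟨m, F, _, _, hF, hm, -, -⟩
    · have hZ : Fintype.card F = Fintype.card (ZMod 11) := by rw [hF, ZMod.card]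
      exact ⟨e.trans (Cfsg.Agent.Lib.ClSeven.pslCongr 2 (FiniteField.ringEquivOfCardEq hZ))⟩
    · exfalso
      have h10 : 2 ^ m = 10 := by omega
      have hm4 : m < 4 := by
        by_contra hcon
        have : 2 ^ 4 ≤ 2 ^ m := Nat.pow_le_pow_right (by norm_num) (by omega)
        omega
      interval_cases m <;> omega
  · exact Or.inl h

end Cfsg.Agent.S0679
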