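import Mathlib
import Cfsg.Statements.S0827
import Cfsg.Agent.Lib.SUThreeTwo
import Cfsg.Agent.Lib.ClUnitary2
import Cfsg.Agent.Lib.DihQuat

set_option autoImplicit false
open Cfsg

namespace Cfsg.Agent.S0827

open Matrix Cfsg.Agent.Lib Cfsg.Agent.Lib.K4 Cfsg.Agent.Lib.SUThreeTwo

section Abstract

variable {Γ : Type*} [Group Γ]

/-- relations in the quotient by a normal subgroup of exponent three -/
theorem quot_rel (N : Subgroup Γ) [N.Normal] (hN : ∀ x ∈ N, x ^ 3 = 1) (I J : Γ) (hI : I ^ 4 = 1) (hI2 : I * I ≠ 1)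
    (hJ : J * J = I * I) (hJI : J * I = I⁻¹ * J) :
    orderOf (I : Γ ⧸ N) = 2 * 2 ∧ (J : Γ ⧸ N) * (J : Γ ⧸ N) = (I : Γ ⧸ N) ^ 2 ∧
      (J : Γ ⧸ N) * (I : Γ ⧸ N) * (J : Γ ⧸ N)⁻¹ = (I : Γ ⧸ N)⁻¹ ∧ (J : Γ ⧸ N) ∉ Subgroup.zpowers (I : Γ ⧸ N) := by
  have h1 : (I : Γ ⧸ N) ^ 2 ≠ 1 := by
    intro h
    have h2 : ((I * I : Γ) : Γ ⧸ N) = 1 := by rw [← h, sq]; rfl
    rw [QuotientGroup.eq_one_iff] at h2
    apply hI2
    have h3 := hN _ h2
    have h4 : (I * I) ^ 4 = 1 := by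
      have : (I * I) ^ 4 = (I ^ 4) * (I ^ 4) := by
        rw [← pow_two, ← pow_mul, ← pow_add]
      rw [this, hI, one_mul]
    have h5 : (I * I) ^ 4 = (I * I) ^ 3 * (I * I) := pow_succ _ _
    rw [h3, h4, one_mul] at h5
    exact h5.symm
  have h2 : (I : Γ ⧸ N) ^ 4 = 1 := by
    have : ((I ^ 4 : Γ) : Γ ⧸ N) = 1 := by rw [hI]; rfl
    exact this
  have ho : orderOf (I : Γ ⧸ N) = 4 := by
    have h3 : orderOf (I : Γ ⧸ N) = 2 ^ (1 + 1) := orderOf_eq_prime_pow (by norm_num; exact h1) (by norm_num; exact h2)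
    exact h3
  have hJI' : (J : Γ ⧸ N) * (I : Γ ⧸ N) = (I : Γ ⧸ N)⁻¹ * (J : Γ ⧸ N) := by
    have : ((J * I : Γ) : Γ ⧸ N) = ((I⁻¹ * J : Γ) : Γ ⧸ N) := by rw [hJI]
    exact this
  refine ⟨ho, ?_, ?_, ?_⟩
  · rw [sq]
    have : ((J * J : Γ) : Γ ⧸ N) = ((I * I : Γ) : Γ ⧸ N) := by rw [hJ]
    exact this
  · rw [hJI']; group
  · rintro ⟨k, hk⟩
    change (I : Γ ⧸ N) ^ k = (J : Γ ⧸ N) at hk
    have hc : (J : Γ ⧸ N) * (I : Γ ⧸ N) = (I : Γ ⧸ N) * (J : Γ ⧸ N) := by
      rw [← hk, ← _root_.zpow_add_one, ← _root_.zpow_one_add, add_comm]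
    rw [hJI'] at hc
    have h3 := mul_right_cancel hc
    apply h1
    rw [sq]
    nth_rewrite 1 [← h3]
    rw [inv_mul_cancel]

theorem card_eq_eight (N : Subgroup Γ) [N.Normal] [Finite (Γ ⧸ N)] (hN : ∀ x ∈ N, x ^ 3 = 1) (I J : Γ) (hI : I ^ 4 = 1) (hI2 : I * I ≠ 1)
    (hJ : J * J = I * I) (hJI : J * I = I⁻¹ * J) (h8 : Nat.card (Γ ⧸ N) ∣ 8) : Nat.card (Γ ⧸ N) = 8 := by
  obtain ⟨h1, _, _, h4⟩ := quot_rel N hN I J hI hI2 hJ hJI
  have h5 : Nat.card (Subgroup.zpowers (I : Γ ⧸ N)) = 4 := by rw [Nat.card_zpowers, h1]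
  have h6 : Nat.card (Subgroup.zpowers (I : Γ ⧸ N)) ≠ Nat.card (Γ ⧸ N) := by
    intro h
    have := Subgroup.eq_top_of_card_eq _ h
    exact h4 (this ▸ Subgroup.mem_top _)
  have h7 : Nat.card (Subgroup.zpowers (I : Γ ⧸ N)) ∣ Nat.card (Γ ⧸ N) := Subgroup.card_subgroup_dvd_card _
  rw [h5] at h6 h7
  obtain ⟨k, hk⟩ := h7
  have h9 : Nat.card (Γ ⧸ N) ≤ 8 := Nat.le_of_dvd (by norm_num) h8
  obtain ⟨l, hl⟩ := h8
  rw [hk] at hl h6 h9 ⊢
  have : k ≤ 2 := by omega
  interval_cases k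
  · omega
  · omega
  · rfl

/-- the group structure from the relations -/
theorem main [Finite Γ] (hcard : Nat.card Γ = 72) (A D I J : Γ) (hA : A ^ 3 = 1) (hD : D ^ 3 = 1) (hAD : A * D = D * A)
    (hIA : I * A = D * I) (hID : I * D = A⁻¹ * I) (hJA : J * A = A⁻¹ * D⁻¹ * J) (hJD : J * D = A⁻¹ * D * J)
    (hI : I ^ 4 = 1) (hI2 : I * I ≠ 1) (hJ : J * J = I * I) (hJI : J * I = I⁻¹ * J) (hA1 : A ≠ 1)
    (hD1 : D ≠ 1) (hD2 : D ≠ A) (hD3 : D ≠ A * A) :
    ∃ (N : Subgroup Γ) (_ : N.Normal), Nat.card N = 9 ∧ (∀ x ∈ N, x ^ 3 = 1) ∧ Nonempty (Γ ⧸ N ≃* QuaternionGroup 2) := by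
  classical
  have hcom : Commute A D := hAD
  have hAi : A⁻¹ = A ^ 2 := by rw [inv_eq_iff_mul_eq_one, ← pow_succ']; exact hA
  have hDi : D⁻¹ = D ^ 2 := by rw [inv_eq_iff_mul_eq_one, ← pow_succ']; exact hD
  let N : Subgroup Γ :=
    { carrier := {x | ∃ i j : ℕ, x = A ^ i * D ^ j}
      one_mem' := ⟨0, 0, by simp⟩
      mul_mem' := by
        rintro _ _ ⟨i, j, rfl⟩ ⟨k, l, rfl⟩
        refine ⟨i + k, j + l, ?_⟩
        rw [pow_add, pow_add, mul_assoc, ← mul_assoc (D ^ j), ← (hcom.pow_pow k j).eq, mul_assoc, mul_assoc]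
      inv_mem' := by
        rintro _ ⟨i, j, rfl⟩
        refine ⟨2 * i, 2 * j, ?_⟩
        rw [_root_.mul_inv_rev, ← inv_pow, ← inv_pow, hAi, hDi, ← pow_mul, ← pow_mul]
        exact (hcom.pow_pow _ _).symm.eq }
  have hmem : ∀ x, x ∈ N ↔ ∃ i j : ℕ, x = A ^ i * D ^ j := fun _ => Iff.rfl
  have hAN : A ∈ N := ⟨1, 0, by simp⟩
  have hDN : D ∈ N := ⟨0, 1, by simp⟩
  have hN3 : ∀ x ∈ N, x ^ 3 = 1 := by
    rintro _ ⟨i, j, rfl⟩
    rw [(hcom.pow_pow i j).mul_pow, ← pow_mul, ← pow_mul, mul_comm i, mul_comm j, pow_mul, pow_mul, hA, hD, one_pow, one_pow,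
      one_mul]
  -- order of N
  have hNcard : Nat.card N = 9 := by
    have hp : IsPGroup 3 N := by
      intro x
      exact ⟨1, Subtype.ext (hN3 x.1 x.2)⟩
    haveI : Fact (Nat.Prime 3) := ⟨Nat.prime_three⟩
    obtain ⟨k, hk⟩ := hp.exists_card_eq
    have h1 : Nat.card N ∣ 72 := hcard ▸ Subgroup.card_subgroup_dvd_card N
    have hAo : orderOf A = 3 := orderOf_eq_prime hA hA1
    have h2 : Nat.card (Subgroup.zpowers A) = 3 := by rw [Nat.card_zpowers, hAo]
    have h3 : Subgroup.zpowers A ≤ N := by rw [Subgroup.zpowers_le]; exact hAN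
    have h4 : D ∉ Subgroup.zpowers A := by
      intro h
      rw [mem_zpowers_iff_mem_range_orderOf, hAo] at h
      simp only [Finset.mem_image, Finset.mem_range] at h
      obtain ⟨n, hn, hn2⟩ := h
      interval_cases n
      · exact hD1 (by simpa using hn2.symm)
      · exact hD2 (by simpa using hn2.symm)
      · exact hD3 (by rw [← hn2, sq])
    have h5 : Nat.card (Subgroup.zpowers A) < Nat.card N := by
      apply lt_of_le_of_ne (Subgroup.card_le_of_le h3)
      intro h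
      exact h4 ((Subgroup.eq_of_le_of_card_ge h3 h.ge) ▸ hDN)
    rw [h2, hk] at h5
    rw [hk] at h1
    have hk2 : 2 ≤ k := by
      by_contra hlt
      have : k = 0 ∨ k = 1 := by omega
      rcases this with rfl | rfl <;> norm_num at h5
    have hk3 : k ≤ 2 := by
      by_contra hlt
      have h6 : 3 ^ 3 ∣ 72 := (pow_dvd_pow 3 (by omega)).trans h1
      norm_num at h6
    have : k = 2 := by omega
    rw [hk, this]; norm_num
  -- normality
  have hnorm : ∀ g : Γ, g * A * g⁻¹ ∈ N → g * D * g⁻¹ ∈ N → g ∈ Subgroup.normalizer (N : Set Γ) := by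
    intro g h1 h2
    have hle : ∀ x ∈ N, g * x * g⁻¹ ∈ N := by
      rintro _ ⟨i, j, rfl⟩
      have : g * (A ^ i * D ^ j) * g⁻¹ = (g * A * g⁻¹) ^ i * (g * D * g⁻¹) ^ j := by
        rw [conj_pow, conj_pow]; group
      rw [this]
      exact N.mul_mem (N.pow_mem h1 i) (N.pow_mem h2 j)
    have hmap : N.map (MulAut.conj g).toMonoidHom = N := by
      apply Subgroup.eq_of_le_of_card_ge
      · rintro _ ⟨x, hx, rfl⟩
        exact hle x hx
      · rw [Subgroup.card_map_of_injective (MulAut.conj g).injective]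
    rw [Subgroup.mem_normalizer_iff]
    intro x
    constructor
    · exact hle x
    · intro hx
      have h3 : g * x * g⁻¹ ∈ N.map (MulAut.conj g).toMonoidHom := by rw [hmap]; exact hx
      obtain ⟨y, hy, hyx⟩ := h3
      have : y = x := (MulAut.conj g).injective hyx
      rw [← this]; exact hy
  have hIn : I ∈ Subgroup.normalizer (N : Set Γ) := by
    apply hnorm
    · rw [hIA, mul_inv_cancel_right]; exact hDN
    · rw [hID, mul_inv_cancel_right]; exact N.inv_mem hAN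
  have hJn : J ∈ Subgroup.normalizer (N : Set Γ) := by
    apply hnorm
    · rw [hJA, mul_inv_cancel_right]; exact N.mul_mem (N.inv_mem hAN) (N.inv_mem hDN)
    · rw [hJD, mul_inv_cancel_right]; exact N.mul_mem (N.inv_mem hAN) hDN
  let M := Subgroup.normalizer (N : Set Γ)
  have hNM : N ≤ M := Subgroup.le_normalizer
  have hMtop : M = ⊤ := by
    haveI : (N.subgroupOf M).Normal := Subgroup.normal_in_normalizer
    have hc1 : Nat.card (N.subgroupOf M) = 9 := by
      rw [Nat.card_congr (Subgroup.subgroupOfEquivOfLe hNM).toEquiv, hNcard]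
    have h1 : Nat.card M = Nat.card (M ⧸ N.subgroupOf M) * 9 := by
      rw [Subgroup.card_eq_card_quotient_mul_card_subgroup (N.subgroupOf M), hc1]
    have h2 : Nat.card M ∣ 72 := hcard ▸ Subgroup.card_subgroup_dvd_card M
    have h3 : Nat.card (M ⧸ N.subgroupOf M) ∣ 8 := by
      rw [h1] at h2
      exact Nat.dvd_of_mul_dvd_mul_right (by norm_num : 0 < 9) h2
    have h4 := card_eq_eight (N.subgroupOf M) (fun x hx => Subtype.ext (hN3 x.1 hx)) ⟨I, hIn⟩ ⟨J, hJn⟩ (Subtype.ext hI)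
      (fun h => hI2 (congrArg Subtype.val h)) (Subtype.ext hJ) (Subtype.ext hJI) h3
    apply Subgroup.eq_top_of_card_eq
    rw [h1, h4, hcard]
  have hNn : N.Normal := Subgroup.normalizer_eq_top_iff.mp hMtop
  refine ⟨N, hNn, hNcard, hN3, ?_⟩
  have h8 : Nat.card (Γ ⧸ N) = 8 := by
    have := Subgroup.card_eq_card_quotient_mul_card_subgroup N
    rw [hcard, hNcard] at this
    omega
  obtain ⟨h1, h2, h3, h4⟩ := quot_rel N hN3 I J hI hI2 hJ hJI
  exact DihQuat.quaternion_iso (m := 2) (by norm_num) (I : Γ ⧸ N) (J : Γ ⧸ N) h1 h2 h3 h4 (by rw [h8])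

end Abstract

def mi : Matrix (Fin 3) (Fin 3) K4 := !![1, 1, 1; 1, om, om'; 1, om', om]
def mj : Matrix (Fin 3) (Fin 3) K4 := !![1, om', om'; om, om, om'; om, om', om]
def mx : Matrix (Fin 3) (Fin 3) K4 := !![0, 0, 1; 1, 0, 0; 0, 1, 0]
def md : Matrix (Fin 3) (Fin 3) K4 := !![1, 0, 0; 0, om, 0; 0, 0, om']
def mw : Matrix (Fin 3) (Fin 3) K4 := !![om, 0, 0; 0, om, 0; 0, 0, om]

def si : SU 3 K4 2 := mkSU mi (by decide +kernel) (by decide +kernel)
def sj : SU 3 K4 2 := mkSU mj (by decide +kernel) (by decide +kernel)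
def sx : SU 3 K4 2 := mkSU mx (by decide +kernel) (by decide +kernel)
def sd : SU 3 K4 2 := mkSU md (by decide +kernel) (by decide +kernel)
def sw : SU 3 K4 2 := mkSU mw (by decide +kernel) (by decide +kernel)

theorem card_P : Nat.card (PSU 3 K4 2) = 72 := by
  have h := ClUnitary.card_PSU (F := K4) (q := 2) (n := 3) (by rw [card_K4]; norm_num) (by norm_num)
  have h1 : Nat.gcd 3 (2 + 1) = 3 := rfl
  have h2 : 2 ^ (3 * (3 - 1) / 2) * ∏ i ∈ Finset.range 3, (if Even i then 2 ^ (i + 1) + 1 else 2 ^ (i + 1) - 1) = 648 := by decide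
  rw [h1, h2] at h
  omega

theorem sw_central : sw ∈ Subgroup.center (SU 3 K4 2) := by
  rw [ClUnitary.center_SU (by rw [card_K4]; norm_num) (by norm_num)]
  exact ⟨om, by change mw = _; decide +kernel⟩

abbrev P4 := PSU 3 K4 2

theorem mk_sw : ((sw : SU 3 K4 2) : P4) = 1 := (QuotientGroup.eq_one_iff _).mpr sw_central

theorem mk_ne {x : SU 3 K4 2} (y : SU 3 K4 2) (h : x * y ≠ y * x) : (x : P4) ≠ 1 := by
  intro hx
  rw [QuotientGroup.eq_one_iff, Subgroup.mem_center_iff] at hx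
  exact h (hx y).symm

theorem main4 : ∃ (N : Subgroup P4) (_ : N.Normal), Nat.card N = 9 ∧ (∀ x ∈ N, x ^ 3 = 1) ∧
    Nonempty (P4 ⧸ N ≃* QuaternionGroup 2) := by
  have hfin : Finite P4 := Nat.finite_of_card_ne_zero (by rw [card_P]; norm_num)
  have key : ∀ {x y : SU 3 K4 2}, x.1.1 = y.1.1 → (x : P4) = (y : P4) := fun h => by rw [ext_mat h]
  have key1 : ∀ {x y : SU 3 K4 2}, x.1.1 = (y * sw).1.1 → (x : P4) = (y : P4) := fun {x y} h => by
    rw [ext_mat h]
    change (y : P4) * (sw : P4) = _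
    rw [mk_sw, mul_one]
  have key2 : ∀ {x y : SU 3 K4 2}, x.1.1 = (y * sw * sw).1.1 → (x : P4) = (y : P4) := fun {x y} h => by
    rw [ext_mat h]
    change (y : P4) * (sw : P4) * (sw : P4) = _
    rw [mk_sw, mul_one, mul_one]
  have hA : (sx : P4) ^ 3 = 1 := by
    have : ((sx * sx * sx : SU 3 K4 2) : P4) = ((1 : SU 3 K4 2) : P4) :=
      key (show mx * mx * mx = 1 by decide +kernel)
    rw [pow_succ, pow_two]; exact this
  have hD : (sd : P4) ^ 3 = 1 := by
    have : ((sd * sd * sd : SU 3 K4 2) : P4) = ((1 : SU 3 K4 2) : P4) :=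
      key (show md * md * md = 1 by decide +kernel)
    rw [pow_succ, pow_two]; exact this
  have hAD : (sx : P4) * (sd : P4) = (sd : P4) * (sx : P4) := by
    have : ((sd * sx : SU 3 K4 2) : P4) = ((sx * sd : SU 3 K4 2) : P4) :=
      key1 (show md * mx = mx * md * mw by decide +kernel)
    exact this.symm
  have hAi : (sx : P4)⁻¹ = (sx : P4) * (sx : P4) := by
    rw [inv_eq_iff_mul_eq_one, ← pow_two, ← pow_succ']; exact hA
  have hDi : (sd : P4)⁻¹ = (sd : P4) * (sd : P4) := by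
    rw [inv_eq_iff_mul_eq_one, ← pow_two, ← pow_succ']; exact hD
  apply main card_P (sx : P4) (sd : P4) (si : P4) (sj : P4) hA hD hAD
  · have : ((si * sx : SU 3 K4 2) : P4) = ((sd * si : SU 3 K4 2) : P4) :=
      key (show mi * mx = md * mi by decide +kernel)
    exact this
  · rw [hAi]
    have : ((si * sd : SU 3 K4 2) : P4) = ((sx * sx * si : SU 3 K4 2) : P4) :=
      key (show mi * md = mx * mx * mi by decide +kernel)
    exact this
  · rw [hAi, hDi]
    have : ((sj * sx : SU 3 K4 2) : P4) = ((sx * sx * (sd * sd) * sj : SU 3 K4 2) : P4) :=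
      key2 (show mj * mx = mx * mx * (md * md) * mj * mw * mw by decide +kernel)
    exact this
  · rw [hAi]
    have : ((sj * sd : SU 3 K4 2) : P4) = ((sx * sx * sd * sj : SU 3 K4 2) : P4) :=
      key1 (show mj * md = mx * mx * md * mj * mw by decide +kernel)
    exact this
  · have : ((si * si * si * si : SU 3 K4 2) : P4) = ((1 : SU 3 K4 2) : P4) :=
      key (show mi * mi * mi * mi = 1 by decide +kernel)
    rw [pow_succ, pow_succ, pow_two]; exact this
  · apply mk_ne (x := si * si) sx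
    intro h
    have : mi * mi * mx = mx * (mi * mi) := congrArg (fun t : SU 3 K4 2 => t.1.1) h
    revert this
    decide +kernel
  · have : ((sj * sj : SU 3 K4 2) : P4) = ((si * si : SU 3 K4 2) : P4) :=
      key (show mj * mj = mi * mi by decide +kernel)
    exact this
  · have hIi : (si : P4)⁻¹ = (si : P4) * (si : P4) * (si : P4) := by
      rw [inv_eq_iff_mul_eq_one, ← mul_assoc, ← mul_assoc]
      have : ((si * si * si * si : SU 3 K4 2) : P4) = ((1 : SU 3 K4 2) : P4) :=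
        key (show mi * mi * mi * mi = 1 by decide +kernel)
      exact this
    rw [hIi]
    have : ((sj * si : SU 3 K4 2) : P4) = ((si * si * si * sj : SU 3 K4 2) : P4) :=
      key (show mj * mi = mi * mi * mi * mj by decide +kernel)
    exact this
  · apply mk_ne (x := sx) sd
    intro h
    have : mx * md = md * mx := congrArg (fun t : SU 3 K4 2 => t.1.1) h
    revert this
    decide +kernel
  · apply mk_ne (x := sd) sx
    intro h
    have : md * mx = mx * md := congrArg (fun t : SU 3 K4 2 => t.1.1) h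
    revert this
    decide +kernel
  · intro h
    have h1 : ((sd * (sx * sx) : SU 3 K4 2) : P4) = 1 := by
      change (sd : P4) * ((sx : P4) * (sx : P4)) = 1
      rw [h, ← pow_two, ← pow_succ']; exact hA
    revert h1
    apply mk_ne (x := sd * (sx * sx)) sx
    intro h
    have : md * (mx * mx) * mx = mx * (md * (mx * mx)) := congrArg (fun t : SU 3 K4 2 => t.1.1) h
    revert this
    decide +kernel
  · intro h
    have h1 : ((sd * sx : SU 3 K4 2) : P4) = 1 := by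
      change (sd : P4) * (sx : P4) = 1
      rw [h, ← pow_two, ← pow_succ]; exact hA
    revert h1
    apply mk_ne (x := sd * sx) sx
    intro h
    have : md * mx * mx = mx * (md * mx) := congrArg (fun t : SU 3 K4 2 => t.1.1) h
    revert this
    decide +kernel

theorem result {F : Type*} [Field F] [Fintype F] (hF : Fintype.card F = 4) : ∃ (N : Subgroup (Cfsg.PSU 3 F 2)) (_ : N.Normal), Nat.card N = 9 ∧ (∀ x ∈ N, x ^ 3 = 1) ∧ Nonempty (Cfsg.PSU 3 F 2 ⧸ N ≃* QuaternionGroup 2) := by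
  obtain ⟨e⟩ := exists_equiv F hF
  let φ := SUTransport.psuEquiv e 3 2
  obtain ⟨N, hN, h9, h3, ⟨ψ⟩⟩ := main4
  refine ⟨N.comap φ.toMonoidHom, inferInstance, ?_, ?_, ?_⟩
  · rw [← h9, ← Subgroup.map_comap_eq_self_of_surjective φ.surjective N,
      Subgroup.card_map_of_injective φ.injective, Subgroup.map_comap_eq_self_of_surjective φ.surjective N]
    rfl
  · intro x hx
    apply φ.injective
    rw [map_pow, map_one]
    exact h3 _ hx
  · exact ⟨(QuotientGroup.congr (N.comap φ.toMonoidHom) N φ (Subgroup.map_comap_eq_self_of_surjective φ.surjective N)).trans ψ⟩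

end Cfsg.Agent.S0827
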