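import Cfsg.Statements.S0938
import Cfsg.Agent.Lib.BlockPPrime
import Cfsg.Agent.Lib.CharValues
import Cfsg.Agent.Lib.BlockDeg

set_option autoImplicit false
open Cfsg

namespace Cfsg.Agent.S0938

open Cfsg Cfsg.Agent.Lib.BlockRing Cfsg.Agent.Lib.BlockGA Cfsg.Agent.Lib.BlockIdem Cfsg.Agent.Lib.BlockCover
open Cfsg.Agent.Lib.BlockRes (resH coeff_resH)
open Cfsg.Agent.Lib.BlockSecond (incH coeff_incH_coe coeff_incH_of_not_mem lin_incH locA_incH)
open Cfsg.Agent.Lib.Clifford Cfsg.Agent.Lib.CharBasic Cfsg.Agent.Lib.BlockPPrime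
open scoped ComplexConjugate

/-- The kernel of a character, as a subgroup. -/
theorem exists_charKer {G : Type*} [Group G] [Finite G] {χ : G → ℂ} (hχ : IsCharacter G χ) :
    ∃ K : Subgroup G, K.Normal ∧ ∀ g, g ∈ K ↔ χ g = χ 1 := by
  obtain ⟨n, ρ, rfl⟩ := hχ
  refine ⟨MonoidHom.ker ρ, inferInstance, fun g => ?_⟩
  rw [MonoidHom.mem_ker, Representation.char_one, Cfsg.Agent.Lib.CharValues.character_eq_finrank_iff]
  rfl

/-- Let B be a block of the finite group G relative to a maximal ideal M of the algebraic integers containing the prime p, and let χ ∈ B. Then the kernel of B (the set of g with ψ g = ψ 1 for all ψ ∈ B) is a normal subgroup of order prime to p contained in the kernel of χ, and it contains every normal subgroup of order prime to p on which χ takes the value χ(1); that is, it is O_p' of the kernel of χ. -/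
theorem result {G : Type*} [Group G] [Finite G] (p : ℕ) [Fact p.Prime] (M : Ideal Cfsg.AlgInt) (hM : Cfsg.IsPModular p M) (B : Set (Cfsg.IrrCharacter G)) (hB : Cfsg.IsPBlock M B) (χ : Cfsg.IrrCharacter G) (hχ : χ ∈ B) : ∃ K : Subgroup G, K.Normal ∧ (K : Set G) = Cfsg.blockKer B ∧ ¬ p ∣ Nat.card K ∧ (∀ g ∈ K, (χ : G → ℂ) g = (χ : G → ℂ) 1) ∧ ∀ N : Subgroup G, N.Normal → ¬ p ∣ Nat.card N → (∀ g ∈ N, (χ : G → ℂ) g = (χ : G → ℂ) 1) → N ≤ K := by
  classical
  haveI := isPrime hM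
  haveI := Fintype.ofFinite G
  choose K hKn hK using fun ψ : IrrCharacter G => exists_charKer ψ.2.isCharacter
  have hmem : ∀ g : G, g ∈ (⨅ ψ ∈ B, K ψ) ↔ ∀ ψ ∈ B, (ψ : G → ℂ) g = (ψ : G → ℂ) 1 := by
    intro g
    simp only [Subgroup.mem_iInf, hK]
  refine ⟨⨅ ψ ∈ B, K ψ, ?_, ?_, ?_, ?_, ?_⟩
  · constructor
    intro n hn g
    rw [hmem] at hn ⊢
    intro ψ hψ
    rw [ψ.2.isClassFunction n g]
    exact hn ψ hψ
  · ext g
    exact hmem g
  · intro hp
    haveI : Fact p.Prime := ⟨hM.1⟩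
    obtain ⟨y, hy⟩ := exists_prime_orderOf_dvd_card' p hp
    have hy1 : orderOf (y : G) = p := by rw [Subgroup.orderOf_coe, hy]
    have hy2 := (hmem (y : G)).1 y.2
    have h1 := Cfsg.Agent.Lib.BlockOsima.weak_orthogonality hM hB (x := 1) (y := (y : G))
      (by rw [orderOf_one]; exact hM.1.one_lt.ne' ∘ Nat.eq_one_of_dvd_one) (by rw [hy1])
    rw [finsum_mem_eq_finite_toFinset_sum _ (Set.toFinite B)] at h1
    have h2 : ∀ ψ ∈ (Set.toFinite B).toFinset, (ψ : G → ℂ) 1 * conj ((ψ : G → ℂ) (y : G)) =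
        ((charDegree (ψ : G → ℂ) ^ 2 : ℕ) : ℂ) := by
      intro ψ hψ
      rw [Set.Finite.mem_toFinset] at hψ
      rw [hy2 ψ hψ, ← Cfsg.Agent.Lib.BlockDeg.charDegree_cast_irr ψ, Complex.conj_natCast]
      push_cast
      ring
    rw [Finset.sum_congr rfl h2, ← Nat.cast_sum, Nat.cast_eq_zero, Finset.sum_eq_zero_iff] at h1
    have h3 := h1 χ ((Set.Finite.mem_toFinset _).2 hχ)
    have h4 := Cfsg.Agent.Lib.BlockDeg.charDegree_pos χ.2
    rw [pow_eq_zero_iff two_ne_zero] at h3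
    omega
  · intro g hg
    exact (hmem g).1 hg χ hχ
  · intro N hN hpN hχN
    haveI := Fintype.ofFinite N
    intro n hn
    rw [hmem]
    intro ψ hψ
    exact trivial_of_sameBlock hM hpN (sameBlock_of_mem hB hχ hψ) hχN n hn

end Cfsg.Agent.S0938
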