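import Cfsg.Statements.S0988
import Mathlib
import Cfsg.Agent.Lib.Burnside
import Cfsg.Agent.S0073

set_option autoImplicit false
open Cfsg Cfsg.Agent.Lib Cfsg.Agent.Lib.Burnside
open scoped commutatorElement

namespace Cfsg.Agent.S0988

/-- If a finite simple group has order p^2 * q * r with p, q and r prime, then its order is 60. -/
theorem result {G : Type*} [Group G] [Finite G] [IsSimpleGroup G] (p q r : ℕ) (hp : p.Prime) (hq : q.Prime) (hr : r.Prime) (hG : Nat.card G = p ^ 2 * q * r) : Nat.card G = 60 := by
  have hna : ∃ x y : G, x * y ≠ y * x := by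
    by_contra hc
    push Not at hc
    have hcomm : IsMulCommutative G := ⟨⟨hc⟩⟩
    have h1 : (Nat.card G).Prime := by
      letI : CommGroup G := { (inferInstance : Group G) with mul_comm := hc }
      exact IsSimpleGroup.prime_card
    rw [hG] at h1
    have h2 : p ∣ p ^ 2 * q * r := ⟨p * q * r, by ring⟩
    rcases (Nat.dvd_prime h1).mp h2 with h3 | h3
    · exact hp.one_lt.ne' h3
    · have h4 : p * 1 = p * (p * q * r) := by rw [mul_one]; nth_rewrite 1 [h3]; ring
      have h5 := Nat.eq_of_mul_eq_mul_left hp.pos h4
      have h6 : r ∣ 1 := h5 ▸ Dvd.intro_left _ rfl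
      exact hr.one_lt.ne' (Nat.dvd_one.mp h6)
  have hns : ¬ Group.IsSolvable G := by
    intro hs
    have h1 : commutator G ≠ ⊤ := by
      intro h2
      exact (Group.IsSolvable.commutator_lt_top_of_nontrivial G).ne h2
    rcases IsSimpleGroup.eq_bot_or_eq_top_of_normal (commutator G) inferInstance with h2 | h2
    · obtain ⟨x, y, hxy⟩ := hna
      apply hxy
      have h3 : ⁅x, y⁆ ∈ commutator G :=
        Subgroup.commutator_mem_commutator (Subgroup.mem_top _) (Subgroup.mem_top _)
      rw [h2, Subgroup.mem_bot] at h3
      exact commutatorElement_eq_one_iff_mul_comm.mp h3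
    · exact h1 h2
  have hpq : p ≠ q := by
    rintro rfl
    exact hns (Burnside.isSolvable_of_card_eq _ p r 3 1 hp hr (by rw [hG]; ring) rfl)
  have hpr : p ≠ r := by
    rintro rfl
    exact hns (Burnside.isSolvable_of_card_eq _ p q 3 1 hp hq (by rw [hG]; ring) rfl)
  have hqr : q ≠ r := by
    rintro rfl
    exact hns (Burnside.isSolvable_of_card_eq _ p q 2 2 hp hq (by rw [hG]; ring) rfl)
  have key := Cfsg.Agent.S0073.result hna
  have h12 : 12 ∣ Nat.card G := by
    refine key.resolve_left fun hm => ?_
    have h1 : (Nat.card G).minFac.Prime := Nat.minFac_prime (by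
      intro h
      obtain ⟨x, y, hxy⟩ := hna
      have := (Nat.card_eq_one_iff_unique.mp h).1
      exact hxy (Subsingleton.elim _ _))
    generalize (Nat.card G).minFac = m at *
    rw [hG] at hm
    have hne : p ^ 2 * q * r ≠ 0 := by
      have := hp.pos; have := hq.pos; have := hr.pos
      positivity
    have h2 := (h1.pow_dvd_iff_le_factorization hne).mp hm
    rw [Nat.factorization_mul (by have := hp.pos; have := hq.pos; positivity) hr.ne_zero,
      Nat.factorization_mul (by have := hp.pos; positivity) hq.ne_zero, hp.factorization_pow,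
      hq.factorization, hr.factorization] at h2
    simp only [Finsupp.add_apply, Finsupp.single_apply] at h2
    have : ¬ (p = m ∧ q = m) := fun h => hpq (h.1.trans h.2.symm)
    have : ¬ (p = m ∧ r = m) := fun h => hpr (h.1.trans h.2.symm)
    have : ¬ (q = m ∧ r = m) := fun h => hqr (h.1.trans h.2.symm)
    split_ifs at h2 <;> first | omega | simp_all
  -- a general final step
  have final : ∀ s : ℕ, s.Prime → s ≠ 2 → s ≠ 3 → Nat.card G = 12 * s → Nat.card G = 60 := by
    intro s hs h2 h3 hcard
    have hfs : Fact s.Prime := ⟨hs⟩
    have hs5 : 5 ≤ s := by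
      have := hs.two_le
      have : s ≠ 4 := fun h => by rw [h] at hs; exact absurd hs (by norm_num)
      omega
    obtain ⟨S⟩ : Nonempty (Sylow s G) := inferInstance
    have hsc : Nat.Coprime s 12 := by
      have h4 : ¬ s ∣ 12 := by
        intro h
        have : s ∣ 2 ^ 2 * 3 := h
        rcases (hs.dvd_mul).mp this with h5 | h5
        · exact h2 ((Nat.prime_dvd_prime_iff_eq hs Nat.prime_two).mp (hs.dvd_of_dvd_pow h5))
        · exact h3 ((Nat.prime_dvd_prime_iff_eq hs Nat.prime_three).mp h5)
      exact (hs.coprime_iff_not_dvd).mpr h4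
    have hScard : Nat.card S = s := by
      rw [S.card_eq_multiplicity, hcard, Nat.factorization_mul (by norm_num) hs.ne_zero]
      simp only [Finsupp.add_apply]
      rw [hs.factorization_self, Nat.factorization_eq_zero_of_not_dvd
        ((hs.coprime_iff_not_dvd).mp hsc), zero_add, pow_one]
    have hSne : ¬ (S : Subgroup G).Normal := by
      intro h9
      rcases IsSimpleGroup.eq_bot_or_eq_top_of_normal (S : Subgroup G) h9 with h10 | h10
      · rw [h10, Subgroup.card_bot] at hScard
        omega
      · rw [h10, Subgroup.card_top] at hScard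
        omega
    have h4 : Nat.card (Sylow s G) ∣ 12 := by
      have h5 := S.card_dvd_index
      have h6 := (S : Subgroup G).card_mul_index
      rw [hScard, hcard, mul_comm 12 s] at h6
      rwa [Nat.eq_of_mul_eq_mul_left hs.pos h6] at h5
    have h5 := card_sylow_modEq_one s G
    have h6 : Nat.card (Sylow s G) ≠ 1 := by
      intro h7
      have h8 : Subsingleton (Sylow s G) := (Nat.card_eq_one_iff_unique.mp h7).1
      exact hSne (Sylow.normal_of_subsingleton S)
    have h7 : Nat.card (Sylow s G) ∈ Nat.divisors 12 := Nat.mem_divisors.mpr ⟨h4, by norm_num⟩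
    have h8 : Nat.divisors 12 = {1, 2, 3, 4, 6, 12} := by decide
    rw [h8] at h7
    have h9 : s ∣ Nat.card (Sylow s G) - 1 := (Nat.modEq_iff_dvd' (by
      have : 0 < Nat.card (Sylow s G) := Nat.card_pos
      omega)).mp h5.symm
    have h10 : s = 5 := by
      simp only [Finset.mem_insert, Finset.mem_singleton] at h7
      rcases h7 with h | h | h | h | h | h
      · exact absurd h h6
      · rw [h] at h9; have := Nat.le_of_dvd (by norm_num) h9; omega
      · rw [h] at h9; have := Nat.le_of_dvd (by norm_num) h9; omega
      · rw [h] at h9; have := Nat.le_of_dvd (by norm_num) h9; omega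
      · rw [h] at h9; have := Nat.le_of_dvd (by norm_num) h9; omega
      · -- twelve Sylow subgroups: self-normalizing
        exfalso
        have h11 : (Subgroup.normalizer ((S : Subgroup G) : Set G)).index = 12 :=
          S.card_eq_index_normalizer.symm.trans h
        have h12 := (Subgroup.normalizer ((S : Subgroup G) : Set G)).card_mul_index
        rw [h11, hcard, mul_comm] at h12
        have h13 : Nat.card (Subgroup.normalizer ((S : Subgroup G) : Set G)) = s :=
          Nat.eq_of_mul_eq_mul_left (by norm_num) h12
        have h14 : (S : Subgroup G) = Subgroup.normalizer ((S : Subgroup G) : Set G) :=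
          Subgroup.eq_of_le_of_card_ge Subgroup.le_normalizer (by rw [h13]; exact hScard.ge)
        have hcyc : IsCyclic S := isCyclic_of_prime_card hScard
        have h15 : Subgroup.normalizer ((S : Subgroup G) : Set G) ≤
            Subgroup.centralizer ((S : Subgroup G) : Set G) := by
          rw [← h14]
          intro a ha
          rw [Subgroup.mem_centralizer_iff]
          intro b hb
          have h16 := hcyc.isMulCommutative.is_comm.comm (⟨b, hb⟩ : S) ⟨a, ha⟩
          exact congrArg Subtype.val h16
        have h16 := MonoidHom.ker_transferSylow_isComplement' S h15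
        rcases IsSimpleGroup.eq_bot_or_eq_top_of_normal (MonoidHom.transferSylow S h15).ker
          inferInstance with h17 | h17
        · rw [h17, Subgroup.isComplement'_bot_left] at h16
          exact hSne (h16 ▸ inferInstance)
        · rw [h17, Subgroup.isComplement'_top_left] at h16
          exact hSne (h16 ▸ inferInstance)
    omega
  have hne : p ^ 2 * q * r ≠ 0 := by
    have := hp.pos; have := hq.pos; have := hr.pos
    positivity
  have hp2 : p = 2 := by
    have h1 : 2 ^ 2 ∣ p ^ 2 * q * r := by rw [← hG]; exact (show 2 ^ 2 ∣ 12 by norm_num).trans h12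
    have h2 := (Nat.prime_two.pow_dvd_iff_le_factorization hne).mp h1
    rw [Nat.factorization_mul (by have := hp.pos; have := hq.pos; positivity) hr.ne_zero,
      Nat.factorization_mul (by have := hp.pos; positivity) hq.ne_zero, hp.factorization_pow,
      hq.factorization, hr.factorization] at h2
    simp only [Finsupp.add_apply, Finsupp.single_apply] at h2
    by_contra h3
    have : ¬ (q = 2 ∧ r = 2) := fun h => hqr (h.1.trans h.2.symm)
    rw [if_neg h3] at h2
    split_ifs at h2 <;> first | omega | simp_all
  have h3 : 3 ∣ p ^ 2 * q * r := by rw [← hG]; exact (show 3 ∣ 12 by norm_num).trans h12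
  subst hp2
  rcases (Nat.prime_three.dvd_mul).mp h3 with h4 | h4
  · rcases (Nat.prime_three.dvd_mul).mp h4 with h5 | h5
    · exact absurd h5 (by norm_num)
    · have h6 := ((Nat.prime_dvd_prime_iff_eq Nat.prime_three hq).mp h5).symm
      subst h6
      exact final r hr (Ne.symm hpr) (Ne.symm hqr) (by rw [hG]; norm_num)
  · have h6 := ((Nat.prime_dvd_prime_iff_eq Nat.prime_three hr).mp h4).symm
    subst h6
    exact final q hq (Ne.symm hpq) hqr (by rw [hG]; ring)

end Cfsg.Agent.S0988
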