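import Cfsg.Statements.S0995
import Cfsg.Agent.Lib.SmallSimple

set_option autoImplicit false
open Cfsg

namespace Cfsg.Agent.S0995

open Cfsg.Agent.Lib.SmallSimple

/-- Let G be a finite perfect group containing an element z of prime order p whose centralizer is the cyclic group it generates. Let t be the number of conjugacy classes of elements of order p. Then t divides p - 1, the number of Sylow p-subgroups has the form 1 + n * p, and |G| * t = (p - 1) * p * (1 + n * p). -/
theorem result {G : Type*} [Group G] [Finite G] (hperf : commutator G = ⊤) (p : ℕ) [Fact p.Prime] (z : G) (hz : orderOf z = p) (hC : Subgroup.centralizer ({z} : Set G) = Subgroup.zpowers z) : ∃ n t : ℕ, t = Nat.card {c : ConjClasses G // ∃ g : G, ConjClasses.mk g = c ∧ orderOf g = p} ∧ t ∣ p - 1 ∧ Nat.card (Sylow p G) = 1 + n * p ∧ Nat.card G * t = (p - 1) * p * (1 + n * p) := by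
  classical
  have hp : p.Prime := Fact.out
  have hz1 : z ≠ 1 := by
    rintro rfl
    rw [orderOf_one] at hz
    exact hp.one_lt.ne hz
  -- `⟨z⟩` is a Sylow subgroup
  have hzp : IsPGroup p (Subgroup.zpowers z) := by
    apply IsPGroup.of_card (n := 1)
    rw [Nat.card_zpowers, hz, pow_one]
  obtain ⟨P, hP⟩ := hzp.exists_le_sylow
  have hzP : z ∈ (P : Subgroup G) := hP (Subgroup.mem_zpowers z)
  have hPz : (P : Subgroup G) = Subgroup.zpowers z := by
    apply le_antisymm _ hP
    rw [← hC]
    have hnt : Nontrivial P := ⟨⟨⟨z, hzP⟩, 1, fun h => hz1 (congrArg Subtype.val h)⟩⟩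
    have hcn := P.2.center_nontrivial
    obtain ⟨⟨c, hc⟩, hc1⟩ := exists_ne (1 : Subgroup.center P)
    have hc1' : (c : G) ≠ 1 := fun h => hc1 (Subtype.ext (Subtype.ext h))
    have hccomm : ∀ y ∈ (P : Subgroup G), y * c = c * y := by
      intro y hy
      have := Subgroup.mem_center_iff.1 hc ⟨y, hy⟩
      exact congrArg Subtype.val this
    have hcC : (c : G) ∈ Subgroup.zpowers z := by
      rw [← hC, Subgroup.mem_centralizer_singleton_iff]
      exact (hccomm z hzP).symm
    -- `z` is a power of `c`
    have hcz : Subgroup.zpowers (c : G) = Subgroup.zpowers z := by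
      apply Subgroup.eq_of_le_of_card_ge
      · rw [Subgroup.zpowers_le]; exact hcC
      · rw [Nat.card_zpowers, Nat.card_zpowers, hz]
        have h1 : orderOf (c : G) ∣ p := by
          have h0 := orderOf_dvd_of_mem_zpowers hcC
          rwa [hz] at h0
        rcases (Nat.dvd_prime hp).1 h1 with h2 | h2
        · exact absurd (orderOf_eq_one_iff.1 h2) hc1'
        · exact h2.ge
    intro y hy
    rw [Subgroup.mem_centralizer_singleton_iff]
    have hzc : z ∈ Subgroup.zpowers (c : G) := by rw [hcz]; exact Subgroup.mem_zpowers z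
    obtain ⟨k, hk⟩ := hzc
    have h3 : Commute y (c : G) := hccomm y hy
    have h4 := h3.zpow_right k
    simp only at hk
    rw [hk] at h4
    exact h4
  have hPcard : Nat.card P = p := by rw [hPz, Nat.card_zpowers, hz]
  -- centralizers of non-identity elements of P
  have hord : ∀ y ∈ (P : Subgroup G), y ≠ 1 → orderOf y = p := by
    intro y hy hy1
    have h1 : orderOf y ∣ p := by
      rw [← hPcard]
      have := orderOf_dvd_natCard (⟨y, hy⟩ : P)
      rwa [Subgroup.orderOf_mk] at this
    rcases (Nat.dvd_prime hp).1 h1 with h2 | h2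
    · exact absurd (orderOf_eq_one_iff.1 h2) hy1
    · exact h2
  have hgen : ∀ y ∈ (P : Subgroup G), y ≠ 1 → Subgroup.zpowers y = P := by
    intro y hy hy1
    apply Subgroup.eq_of_le_of_card_ge
    · rw [Subgroup.zpowers_le]; exact hy
    · rw [Nat.card_zpowers, hPcard, hord y hy hy1]
  have hcen : ∀ y ∈ (P : Subgroup G), y ≠ 1 → Nat.card (Subgroup.centralizer ({y} : Set G)) = p := by
    intro y hy hy1
    have h1 : Subgroup.centralizer ({y} : Set G) = Subgroup.centralizer ({z} : Set G) := by
      rw [← Subgroup.centralizer_closure, ← Subgroup.centralizer_closure ({z} : Set G),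
        ← Subgroup.zpowers_eq_closure, ← Subgroup.zpowers_eq_closure, hgen y hy hy1, hPz]
    rw [h1, hC, Nat.card_zpowers, hz]
  -- the normalizer
  set N := Subgroup.normalizer ((P : Subgroup G) : Set G) with hN
  have hNcard : ∀ y ∈ (P : Subgroup G), y ≠ 1 →
      Nat.card {g : G // IsConj y g ∧ g ∈ ((P : Subgroup G) : Set G)} * p = Nat.card N := by
    intro y hy hy1
    have h1 := card_conj_mem y ((P : Subgroup G) : Set G)
    rw [hcen y hy hy1] at h1
    rw [← h1]
    apply Nat.card_congr
    apply Equiv.subtypeEquivRight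
    intro h
    constructor
    · intro hh
      rw [← Subgroup.inv_mem_iff, hN, Subgroup.mem_normalizer_iff_map_conj_eq]
      apply Subgroup.eq_of_le_of_card_ge
      · rintro x ⟨w, hw, rfl⟩
        have hw' : w ∈ Subgroup.zpowers y := by rw [hgen y hy hy1]; exact hw
        obtain ⟨k, rfl⟩ := hw'
        have h2 : (MulAut.conj h⁻¹) (y ^ k) = (h⁻¹ * y * h) ^ k := by
          rw [map_zpow, MulAut.conj_apply, inv_inv]
        have h3 := Subgroup.zpow_mem _ hh k
        rw [← h2] at h3
        exact h3
      · rw [Nat.card_congr ((P : Subgroup G).equivMapOfInjective _ (MulAut.conj h⁻¹).injective).toEquiv.symm]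
    · intro hh
      have h1 := (Subgroup.mem_normalizer_iff.1 (Subgroup.inv_mem _ hh) y).1 hy
      rw [inv_inv] at h1
      exact h1
  have hNz := hNcard z hzP hz1
  set e := Nat.card {g : G // IsConj z g ∧ g ∈ ((P : Subgroup G) : Set G)} with he
  set T := {c : ConjClasses G // ∃ g : G, ConjClasses.mk g = c ∧ orderOf g = p} with hT
  have het : p - 1 = Nat.card T * e := by
    -- the map from non-identity elements of P to classes
    let f : {y : G // y ∈ P ∧ y ≠ 1} → T := fun y => ⟨ConjClasses.mk (y : G), y, rfl, hord y y.2.1 y.2.2⟩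
    have h1 : Nat.card {y : G // y ∈ P ∧ y ≠ 1} = p - 1 := by
      have h2 : Nat.card {y : G // y ∈ P ∧ y ≠ 1} =
          (((P : Subgroup G) : Set G) \ {1}).ncard := rfl
      rw [h2, Set.ncard_sdiff_singleton_of_mem (Subgroup.one_mem _)]
      have h3 : (((P : Subgroup G) : Set G)).ncard = Nat.card P := rfl
      rw [h3, hPcard]
    have : Fintype T := Fintype.ofFinite T
    rw [← h1, Nat.card_congr (Equiv.sigmaFiberEquiv f).symm, Nat.card_sigma, Finset.sum_const_nat (m := e)]
    · rw [Finset.card_univ, Nat.card_eq_fintype_card]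
    · rintro ⟨c, g, hgc, hgp⟩ _
      -- conjugate `g` into `P`
      have h2 : IsPGroup p (Subgroup.zpowers g) := by
        apply IsPGroup.of_card (n := 1)
        rw [Nat.card_zpowers, hgp, pow_one]
      obtain ⟨Q, hQ⟩ := h2.exists_le_sylow
      obtain ⟨x, hx⟩ := MulAction.exists_smul_eq G Q P
      have hxg : x * g * x⁻¹ ∈ P := by
        rw [← hx, Sylow.smul_def]
        exact ⟨g, hQ (Subgroup.mem_zpowers g), rfl⟩
      have hg1 : g ≠ 1 := by
        rintro rfl
        rw [orderOf_one] at hgp
        exact hp.one_lt.ne hgp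
      have hy1 : x * g * x⁻¹ ≠ 1 := by
        intro h
        apply hg1
        have : g = x⁻¹ * (x * g * x⁻¹) * x := by group
        rw [this, h]; group
      have hconj : ConjClasses.mk (x * g * x⁻¹) = c := by
        rw [← hgc, ConjClasses.mk_eq_mk_iff_isConj, isConj_comm, isConj_iff]
        exact ⟨x, rfl⟩
      have h3 := hNcard _ hxg hy1
      rw [← hNz] at h3
      have h4 := Nat.eq_of_mul_eq_mul_right hp.pos h3
      rw [← h4]
      apply Nat.card_congr
      refine
        { toFun := fun w => ⟨(w : {y : G // y ∈ P ∧ y ≠ 1}), ?_, w.1.2.1⟩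
          invFun := fun w => ⟨⟨w, w.2.2, ?_⟩, ?_⟩
          left_inv := fun w => rfl
          right_inv := fun w => rfl }
      · have h5 := congrArg Subtype.val w.2
        have h6 : ConjClasses.mk ((w : {y : G // y ∈ P ∧ y ≠ 1}) : G) = c := h5
        have h7 := h6.trans hconj.symm
        rw [ConjClasses.mk_eq_mk_iff_isConj] at h7
        exact h7.symm
      · intro h5
        have h6 := w.2.1
        rw [h5, isConj_one_left] at h6
        exact hy1 h6
      · apply Subtype.ext
        change ConjClasses.mk (w : G) = c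
        rw [← hconj, ConjClasses.mk_eq_mk_iff_isConj]
        exact w.2.1.symm
  have hSyl := card_sylow_modEq_one p G
  have hpos : 0 < Nat.card (Sylow p G) := Nat.card_pos
  obtain ⟨n, hn⟩ : ∃ n, Nat.card (Sylow p G) = 1 + n * p := by
    have h1 : p ∣ Nat.card (Sylow p G) - 1 := (Nat.modEq_iff_dvd' hpos).1 hSyl.symm
    obtain ⟨n, hn⟩ := h1
    exact ⟨n, by rw [mul_comm n p, ← hn]; omega⟩
  refine ⟨n, Nat.card T, rfl, ⟨e, het⟩, hn, ?_⟩
  have h5 : Nat.card (Sylow p G) = N.index := P.card_eq_index_normalizer
  rw [← hn, h5, ← N.index_mul_card, ← hNz, het]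
  ring

end Cfsg.Agent.S0995
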