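import Cfsg.Statements.S1010
import Cfsg.Agent.Lib.PermLoc3
import Cfsg.Agent.Lib.Syl21
import Cfsg.Agent.Lib.Cores

set_option autoImplicit false

open MulAction Subgroup Cfsg.Agent.Lib.SmallSimple Cfsg.Agent.Lib.NSylMin Cfsg.Agent.Lib.PermLoc
open Cfsg.Agent.Lib.Syl21

namespace Cfsg.Agent.S1010

universe u

section local5

variable {G : Type u} [Group G] [Finite G]

theorem card_five (h21 : Nat.card (Sylow 5 G) = 21)
    (hfaith : ∀ g : G, (∀ Q : Sylow 5 G, g • Q = Q) → g = 1) (P : Sylow 5 G) :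
    Nat.card (P : Subgroup G) = 5 := by
  have : Fact (Nat.Prime 5) := ⟨by norm_num⟩
  apply card_eq_prime (by rw [h21]; norm_num) (by rw [h21]; norm_num)
  intro D hD
  rw [eq_bot_iff]
  intro g hg
  apply hfaith
  intro Q
  exact Sylow.smul_eq_iff_mem_normalizer.2 (le_normalizer (hD Q hg))

theorem local5 (h21 : Nat.card (Sylow 5 G) = 21)
    (hfaith : ∀ g : G, (∀ Q : Sylow 5 G, g • Q = Q) → g = 1) (P : Sylow 5 G) :
    ∃ (f : normalizer ((P : Subgroup G) : Set G) →* Equiv.Perm (Fin 4)) (a : ℕ),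
      Nat.card f.ker = 5 * a ∧ a ∣ 4 ∧
      Nat.card (normalizer ((P : Subgroup G) : Set G)) = 5 * a * Nat.card f.range ∧
      (∀ t : normalizer ((P : Subgroup G) : Set G), f t = 1 → (t : G) ∈ centralizer ((P : Subgroup G) : Set G) →
        (t : G) ^ 5 = 1) ∧
      (∀ t : normalizer ((P : Subgroup G) : Set G), ∀ Q : Sylow 5 G, Q ≠ P →
        (t : G) • Q = Q → ∃ y, f t y = y) ∧
      (∀ t : normalizer ((P : Subgroup G) : Set G), f t = 1 → (t : G) ^ 2 = 1 →
        ∃ Q : Sylow 5 G, Q ≠ P ∧ (t : G) • Q = Q) ∧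
      ((IsSimpleGroup G ∧ ¬ IsMulCommutative G) →
        ∀ t : normalizer ((P : Subgroup G) : Set G), Equiv.Perm.sign (f t) = 1) := by
  classical
  have : Fact (Nat.Prime 5) := ⟨by norm_num⟩
  have hfin : Fintype (Sylow 5 G) := Fintype.ofFinite _
  have hX := card_moved P
  obtain ⟨f, a, h1, h2, h3, h4, h5, h6, h7, h8, h9⟩ := pack (Ω := Sylow 5 G) (p := 5) (m := 4) (by norm_num) P
    (card_five h21 hfaith P) hfaith (fun x y hx hy => (eq_of_fixed P x hx).symm.trans (eq_of_fixed P y hy))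
    (by omega)
  refine ⟨f, a, h1, h2, h3, h6, ?_, ?_, ?_⟩
  · intro t Q hQ htQ
    exact h7 t Q ((moved_iff P Q).2 hQ) htQ
  · intro t ht ht2
    obtain ⟨x, hx, hx2⟩ := h8 t ht ht2 (by norm_num)
    exact ⟨x, (moved_iff P x).1 hx, hx2⟩
  · rintro ⟨hs, hG⟩ t
    obtain ⟨s, -, hs2⟩ := h9 (fun g => sign_eq_one hG g) t
    rw [hs2]
    exact Cfsg.Agent.Lib.PermOrb.units_pow_even s (by decide)

/-- two involutions of a 2-group fixing further points are equal -/
theorem unique_inv (h21 : Nat.card (Sylow 5 G) = 21)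
    (hfaith : ∀ g : G, (∀ Q : Sylow 5 G, g • Q = Q) → g = 1) (hs : IsSimpleGroup G) (hG : ¬ IsMulCommutative G)
    (T : Sylow 2 G) (t t' : G) (ht : t ∈ T) (ht' : t' ∈ T) (ho : orderOf t = 2) (ho' : orderOf t' = 2)
    (hf : ∃ Q Q' : Sylow 5 G, Q ≠ Q' ∧ t • Q = Q ∧ t • Q' = Q')
    (hf' : ∃ Q Q' : Sylow 5 G, Q ≠ Q' ∧ t' • Q = Q ∧ t' • Q' = Q') : t = t' := by
  classical
  have : Fact (Nat.Prime 5) := ⟨by norm_num⟩
  have : Fact (Nat.Prime 2) := ⟨by norm_num⟩
  -- a point fixed by `T`
  obtain ⟨P, hP⟩ : ∃ P : Sylow 5 G, ∀ g ∈ (T : Subgroup G), g • P = P := by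
    have hne := IsPGroup.nonempty_fixed_point_of_prime_not_dvd_card (p := 2) (G := (T : Subgroup G))
      T.isPGroup' (Sylow 5 G) (by rw [h21]; norm_num)
    obtain ⟨P, hP⟩ := hne
    exact ⟨P, fun g hg => hP ⟨g, hg⟩⟩
  obtain ⟨f, a, h1, h2, h3, h4, h5, h6, h7⟩ := local5 h21 hfaith P
  have h7 := h7 ⟨hs, hG⟩
  have hTN : ∀ g ∈ (T : Subgroup G), g ∈ normalizer ((P : Subgroup G) : Set G) := fun g hg =>
    Sylow.smul_eq_iff_mem_normalizer.1 (hP g hg)
  -- involutions of `T` with other fixed points are in the kernel of `f`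
  have key : ∀ s : G, ∀ hs : s ∈ (T : Subgroup G), orderOf s = 2 →
      (∃ Q Q' : Sylow 5 G, Q ≠ Q' ∧ s • Q = Q ∧ s • Q' = Q') → f ⟨s, hTN s hs⟩ = 1 := by
    rintro s hs ho ⟨Q, Q', hne, hQ, hQ'⟩
    obtain ⟨y, hy⟩ : ∃ y, f ⟨s, hTN s hs⟩ y = y := by
      by_cases hQP : Q = P
      · exact h5 ⟨s, hTN s hs⟩ Q' (by rintro rfl; exact hne hQP) hQ'
      · exact h5 ⟨s, hTN s hs⟩ Q hQP hQ
    have hsq : f ⟨s, hTN s hs⟩ ^ 2 = 1 := by
      rw [← map_pow]
      have : (⟨s, hTN s hs⟩ : normalizer ((P : Subgroup G) : Set G)) ^ 2 = 1 := by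
        apply Subtype.ext
        change s ^ 2 = 1
        rw [← ho, pow_orderOf_eq_one]
      rw [this, map_one]
    have hdec : ∀ σ : Equiv.Perm (Fin 4), Equiv.Perm.sign σ = 1 → σ ^ 2 = 1 → (∃ y, σ y = y) → σ = 1 := by
      decide
    exact hdec _ (h7 _) hsq ⟨y, hy⟩
  have hk := key t ht ho hf
  have hk' := key t' ht' ho' hf'
  -- both invert `P`
  obtain ⟨x, hx⟩ : ∃ x : G, zpowers x = (P : Subgroup G) := by
    have hc : IsCyclic (P : Subgroup G) := isCyclic_of_prime_card (card_five h21 hfaith P)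
    obtain ⟨x, hx⟩ := Subgroup.isCyclic_iff_exists_zpowers_eq_top (P : Subgroup G) |>.1 hc
    exact ⟨x, hx⟩
  have hox : orderOf x = 5 := by
    rw [← Nat.card_zpowers, hx]; exact card_five h21 hfaith P
  have hcent : ∀ g : G, g * x = x * g → g ∈ centralizer ((P : Subgroup G) : Set G) := by
    intro g hg
    rw [mem_centralizer_iff]
    intro z hz
    have hz' : z ∈ zpowers x := by rw [hx]; exact hz
    obtain ⟨k, rfl⟩ := mem_zpowers_iff.1 hz'
    have : Commute g x := hg
    exact (this.zpow_right k).eq.symm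
  have hone : ∀ s ∈ (T : Subgroup G), s ^ 5 = 1 → s = 1 := by
    intro s hs h
    obtain ⟨k, hk⟩ := T.isPGroup' ⟨s, hs⟩
    have hk' : s ^ 2 ^ k = 1 := congrArg Subtype.val hk
    have h8 : orderOf s ∣ 5 := orderOf_dvd_of_pow_eq_one h
    have h9 : orderOf s ∣ 2 ^ k := orderOf_dvd_of_pow_eq_one hk'
    have h10 : Nat.Coprime 5 (2 ^ k) := Nat.Coprime.pow_right k (by norm_num)
    exact orderOf_eq_one_iff.1 (Nat.eq_one_of_dvd_coprimes h10 h8 h9)
  have hinv : ∀ s : G, ∀ hs : s ∈ (T : Subgroup G), orderOf s = 2 → f ⟨s, hTN s hs⟩ = 1 →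
      s * x * s⁻¹ = x⁻¹ := by
    intro s hs ho hfs
    have hxP : x ∈ (P : Subgroup G) := by rw [← hx]; exact mem_zpowers x
    have h8 : s * x * s⁻¹ ∈ zpowers x := by
      rw [hx]
      exact (mem_normalizer_iff.1 (hTN s hs) x).1 hxP
    rw [mem_zpowers_iff_mem_range_orderOf, hox] at h8
    obtain ⟨i, hi, hi2⟩ := Finset.mem_image.1 h8
    have hi2 : s * x * s⁻¹ = x ^ i := hi2.symm
    have hss : s * s = 1 := by rw [← sq, ← ho, pow_orderOf_eq_one]
    have h9 : x = x ^ (i * i) := by
      have h10 : s * (s * x * s⁻¹) * s⁻¹ = x := by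
        have : s * (s * x * s⁻¹) * s⁻¹ = (s * s) * x * (s * s)⁻¹ := by group
        rw [this, hss]; simp
      rw [hi2, ← conj_pow, hi2, ← pow_mul] at h10
      exact h10.symm
    have hnc : s * x * s⁻¹ ≠ x := by
      intro h
      have h10 : s ^ 5 = 1 := h4 ⟨s, hTN s hs⟩ hfs (hcent s (by rw [mul_inv_eq_iff_eq_mul] at h; exact h))
      have := hone s hs h10
      rw [this, orderOf_one] at ho
      norm_num at ho
    have hi3 : i < 5 := Finset.mem_range.1 hi
    have h11 : x ^ 1 = x ^ (i * i) := by rw [pow_one]; exact h9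
    rw [pow_inj_mod, hox] at h11
    interval_cases i
    · simp at h11
    · exfalso; apply hnc; rw [hi2, pow_one]
    · norm_num at h11
    · norm_num at h11
    · rw [hi2]
      have h12 : x ^ 4 * x = 1 := by
        have h13 : x ^ orderOf x = 1 := pow_orderOf_eq_one x
        rw [hox] at h13
        rw [← pow_succ]; exact h13
      exact eq_inv_of_mul_eq_one_left h12
  have e1 := hinv t ht ho hk
  have e2 := hinv t' ht' ho' hk'
  have e3 : t * t' ∈ centralizer ((P : Subgroup G) : Set G) := by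
    apply hcent
    have : t * t' * x * (t * t')⁻¹ = x := by
      have h8 : t * t' * x * (t * t')⁻¹ = t * (t' * x * t'⁻¹) * t⁻¹ := by group
      rw [h8, e2]
      have h9 : t * x⁻¹ * t⁻¹ = (t * x * t⁻¹)⁻¹ := by group
      rw [h9, e1, inv_inv]
    rwa [mul_inv_eq_iff_eq_mul] at this
  have e4 : (t * t') ^ 5 = 1 := by
    have h8 : f (⟨t, hTN t ht⟩ * ⟨t', hTN t' ht'⟩) = 1 := by rw [map_mul, hk, hk', one_mul]
    exact h4 (⟨t, hTN t ht⟩ * ⟨t', hTN t' ht'⟩) h8 e3
  have e5 := hone (t * t') ((T : Subgroup G).mul_mem ht ht') e4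
  have e6 : t' * t' = 1 := by rw [← sq, ← ho', pow_orderOf_eq_one]
  rw [mul_eq_one_iff_eq_inv] at e5
  rw [e5]
  exact inv_eq_of_mul_eq_one_left e6

end local5

section simple

variable {G : Type u} [Group G] [Finite G]

theorem simple_case (h21 : Nat.card (Sylow 5 G) = 21)
    (hfaith : ∀ g : G, (∀ Q : Sylow 5 G, g • Q = Q) → g = 1) (hs : IsSimpleGroup G) (hG : ¬ IsMulCommutative G)
    (h5 : ∀ Z : Sylow 7 G, ¬ 5 ∣ Nat.card (normalizer ((Z : Subgroup G) : Set G))) : False := by
  classical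
  have : Fact (Nat.Prime 5) := ⟨by norm_num⟩
  have : Fact (Nat.Prime 7) := ⟨by norm_num⟩
  have : Fact (Nat.Prime 2) := ⟨by norm_num⟩
  obtain ⟨P⟩ : Nonempty (Sylow 5 G) := inferInstance
  obtain ⟨f, a, h1, h2, h3, h4, h5', h6, h7⟩ := local5 h21 hfaith P
  have h7 := h7 ⟨hs, hG⟩
  -- the image consists of even permutations
  have hb : Nat.card f.range ∣ 12 := by
    have h8 : f.range ≤ alternatingGroup (Fin 4) := by
      rintro _ ⟨t, rfl⟩
      exact h7 t
    have h9 := Subgroup.card_dvd_of_le h8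
    have h10 : Nat.card (alternatingGroup (Fin 4)) = 12 := by
      rw [nat_card_alternatingGroup]
      simp [Nat.factorial]
    rwa [h10] at h9
  have hcG : Nat.card G = 5 * a * Nat.card f.range * 21 := by
    rw [← card_normalizer_mul_nsyl P, h21, h3]
  set b := Nat.card f.range with hbdef
  obtain ⟨Z⟩ : Nonempty (Sylow 7 G) := inferInstance
  have hZ1 := card_normalizer_mul_nsyl Z
  have hZm := nsyl_mod 7 G
  have hZ5 := h5 Z
  -- the number of Sylow 7-subgroups
  have ha : a ∈ Nat.divisors 4 := by simp [h2]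
  have hbb : b ∈ Nat.divisors 12 := by simp [hb]
  have hn7 : Nat.card (Sylow 7 G) = 15 ∨ Nat.card (Sylow 7 G) = 120 := by
    have h8 : Nat.card (Sylow 7 G) ∣ 5040 := by
      have : Nat.card G ∣ 5040 := by
        rw [hcG]
        obtain ⟨c, hc⟩ := h2
        obtain ⟨d, hd⟩ := hb
        refine ⟨c * d, ?_⟩
        calc 5040 = 105 * 4 * 12 := by norm_num
          _ = 105 * (a * c) * (b * d) := by rw [← hc, ← hd]
          _ = _ := by ring
      exact (Dvd.intro_left _ hZ1).trans this
    have h9 : 5 ∣ Nat.card (Sylow 7 G) := by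
      have h10 : 5 ∣ Nat.card (normalizer ((Z : Subgroup G) : Set G)) * Nat.card (Sylow 7 G) := by
        rw [hZ1, hcG]
        exact ⟨a * b * 21, by ring⟩
      rcases (Nat.Prime.dvd_mul (by norm_num)).1 h10 with h | h
      · exact absurd h hZ5
      · exact h
    have h10 : ∀ n ∈ Nat.divisors 5040, n % 7 = 1 → n % 5 = 0 → n = 15 ∨ n = 120 := by decide +kernel
    exact h10 _ (by simp [h8]) hZm (Nat.mod_eq_zero_of_dvd h9)
  rcases hn7 with hn | hn
  · -- fifteen Sylow 7-subgroups
    have hcZ : Nat.card (Z : Subgroup G) = 7 := by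
      have h8 : Nat.card G = 7 ^ 1 * (15 * a * b) := by rw [hcG]; ring
      rw [sylow_card_of h8 _ Z, pow_one]
      have : ∀ a ∈ Nat.divisors 4, ∀ b ∈ Nat.divisors 12, ¬ 7 ∣ 15 * a * b := by decide +kernel
      exact this a ha b hbb
    have hfin : Fintype (Sylow 7 G) := Fintype.ofFinite _
    have hX := card_moved Z
    have hfa : ∀ g : G, (∀ x : Sylow 7 G, g • x = x) → g = 1 := by
      apply faithful_of_simple
      have h8 : Nonempty {Q : Sylow 7 G // ∃ g ∈ (Z : Subgroup G), g • Q ≠ Q} := by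
        have : 0 < Nat.card {Q : Sylow 7 G // ∃ g ∈ (Z : Subgroup G), g • Q ≠ Q} := by omega
        exact (Nat.card_pos_iff.1 this).1
      obtain ⟨⟨Q, g, hg, h⟩⟩ := h8
      exact ⟨g, Q, h⟩
    obtain ⟨f', a', k1, k2, k3, -, -, -, -, -, k9⟩ := pack (Ω := Sylow 7 G) (p := 7) (m := 2) (by norm_num) Z
      hcZ hfa (fun x y hx hy => (eq_of_fixed Z x hx).symm.trans (eq_of_fixed Z y hy)) (by omega)
    have k10 : f'.range = ⊥ := by
      rw [eq_bot_iff]
      rintro _ ⟨t, rfl⟩
      obtain ⟨s, -, hs2⟩ := k9 (fun g => sign_eq_one hG g) t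
      rw [Cfsg.Agent.Lib.PermOrb.units_pow_even s (by decide)] at hs2
      have : ∀ σ : Equiv.Perm (Fin 2), Equiv.Perm.sign σ = 1 → σ = 1 := by decide
      exact this _ hs2
    rw [k10, card_bot, mul_one] at k3
    rw [k3, hn] at hZ1
    have ha' : a' ∈ Nat.divisors 6 := by simpa using k2
    have hcard : Nat.card G = 105 * a' := by rw [← hZ1]; ring
    have h8 : ∀ c ∈ Nat.divisors 6, 105 * c ≤ 1092 ∧ 105 * c ∉ Cfsg.Agent.Lib.SmallSieve.survivors := by
      decide +kernel
    obtain ⟨h9, h10⟩ := h8 a' ha'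
    rw [← hcard] at h9 h10
    exact h10 (Cfsg.Agent.Lib.SmallSieve.mem_survivors hG h9)
  · -- 120 Sylow 7-subgroups
    have h8 : 8 ∣ a * b := by
      have h9 : 120 ∣ Nat.card G := by rw [← hn]; exact Dvd.intro_left _ hZ1
      rw [hcG] at h9
      have : ∀ a ∈ Nat.divisors 4, ∀ b ∈ Nat.divisors 12, 120 ∣ 5 * a * b * 21 → 8 ∣ a * b := by decide +kernel
      exact this a ha b hbb h9
    have h9 : 2 ∣ a := by
      have : ∀ a ∈ Nat.divisors 4, ∀ b ∈ Nat.divisors 12, 8 ∣ a * b → 2 ∣ a := by decide +kernel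
      exact this a ha b hbb h8
    -- an involution in the kernel
    obtain ⟨u, hu⟩ : ∃ u : f.ker, orderOf u = 2 := by
      apply exists_prime_orderOf_dvd_card' 2
      rw [h1]
      exact Dvd.dvd.mul_left h9 5
    have hu1 : f (u : normalizer ((P : Subgroup G) : Set G)) = 1 := u.2
    have hou : orderOf (((u : normalizer ((P : Subgroup G) : Set G)) : G)) = 2 := by
      rw [Subgroup.orderOf_coe, Subgroup.orderOf_coe, hu]
    set v : G := ((u : normalizer ((P : Subgroup G) : Set G)) : G) with hv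
    obtain ⟨Q, hQ, hQ2⟩ := h6 u hu1 (by rw [← hv, ← hou, pow_orderOf_eq_one])
    have hvP : v • P = P := Sylow.smul_eq_iff_mem_normalizer.2 (u : normalizer ((P : Subgroup G) : Set G)).2
    -- a Sylow 2-subgroup containing it
    have hvp : IsPGroup 2 (zpowers v) := by
      apply IsPGroup.of_card (n := 1)
      rw [Nat.card_zpowers, hou, pow_one]
    obtain ⟨T, hT⟩ := hvp.exists_le_sylow
    have hvT : v ∈ (T : Subgroup G) := hT (mem_zpowers v)
    have hz := Cfsg.Agent.Lib.ZStarU.inZStar_of_sylow T hvT (by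
      intro g hg
      symm
      apply unique_inv h21 hfaith hs hG T v (g * v * g⁻¹) hvT hg hou
      · have : g * v * g⁻¹ = MulAut.conj g v := rfl
        rw [this]
        rw [← hou]
        exact orderOf_injective (MulAut.conj g).toMonoidHom (MulAut.conj g).injective v
      · exact ⟨Q, P, hQ, hQ2, hvP⟩
      · refine ⟨g • Q, g • P, ?_, ?_, ?_⟩
        · intro h; exact hQ (smul_left_cancel g h)
        · rw [mul_smul, mul_smul, inv_smul_smul, hQ2]
        · rw [mul_smul, mul_smul, inv_smul_smul, hvP])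
    -- the odd core is trivial
    have hcore : pPrimeCore 2 G = ⊥ := by
      have hn : (pPrimeCore 2 G).Normal := inferInstance
      rcases IsSimpleGroup.eq_bot_or_eq_top_of_normal _ hn with h | h
      · exact h
      · exfalso
        rw [Cfsg.Agent.Lib.Cores.pPrimeCore_eq_top_iff] at h
        have h10 : orderOf v ∣ Nat.card G := orderOf_dvd_natCard v
        rw [hou] at h10
        have := Nat.Coprime.eq_one_of_dvd h.symm h10
        norm_num at this
    have hcen : v ∈ center G := by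
      rw [mem_center_iff]
      intro g
      have h10 := hz g
      rw [hcore, mem_bot, mul_inv_eq_one, mul_inv_eq_iff_eq_mul] at h10
      exact h10
    have hcb : center G = ⊥ := by
      rcases IsSimpleGroup.eq_bot_or_eq_top_of_normal (center G) inferInstance with h | h
      · exact h
      · exfalso
        apply hG
        refine ⟨⟨fun x y => ?_⟩⟩
        have : y ∈ center G := by rw [h]; trivial
        exact mem_center_iff.1 this x
    rw [hcb, mem_bot] at hcen
    rw [hcen, orderOf_one] at hou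
    norm_num at hou

end simple

theorem main (n : ℕ) : ∀ (G : Type u) [Group G] [Finite G], Nat.card G = n → Nat.card (Sylow 5 G) ≠ 21 := by
  induction n using Nat.strong_induction_on with
  | _ n ih =>
  intro G _ _ hn h21
  classical
  have : Fact (Nat.Prime 5) := ⟨by norm_num⟩
  have : Fact (Nat.Prime 7) := ⟨by norm_num⟩
  -- faithful
  have hker : ∀ K : Subgroup G, K.Normal → (∀ P : Sylow 5 G, K ≤ normalizer ((P : Subgroup G) : Set G)) → K = ⊥ := by
    intro K hK hKP
    by_contra hne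
    have h1 := card_sylow_quotient K hKP
    rw [h21] at h1
    refine ih (Nat.card (G ⧸ K)) ?_ (G ⧸ K) rfl h1
    rw [← hn, ← K.index_mul_card, index_eq_card]
    have h2 : 1 < Nat.card K := by
      rw [Finite.one_lt_card_iff_nontrivial]
      exact (Subgroup.nontrivial_iff_ne_bot K).2 hne
    have h3 : 0 < Nat.card (G ⧸ K) := Nat.card_pos
    exact lt_mul_of_one_lt_right h3 h2
  have hfaith : ∀ g : G, (∀ Q : Sylow 5 G, g • Q = Q) → g = 1 := by
    intro g hg
    have h1 : (MulAction.toPermHom G (Sylow 5 G)).ker = ⊥ := by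
      apply hker _ inferInstance
      intro P x hx
      rw [MonoidHom.mem_ker] at hx
      exact Sylow.smul_eq_iff_mem_normalizer.1 (congrArg (fun σ => σ P) hx)
    have h2 : g ∈ (MulAction.toPermHom G (Sylow 5 G)).ker := by
      rw [MonoidHom.mem_ker]
      ext x
      exact congrArg (fun Q : Sylow 5 G => (Q : Subgroup G)) (hg x) ▸ Iff.rfl
    rw [h1] at h2
    exact h2
  -- local data
  have hN : ∀ P : Sylow 5 G, ∃ a b, a ∣ 4 ∧ b ∣ 24 ∧
      Nat.card (normalizer ((P : Subgroup G) : Set G)) = 5 * a * b := by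
    intro P
    obtain ⟨f, a, h1, h2, h3, -⟩ := local5 h21 hfaith P
    refine ⟨a, Nat.card f.range, h2, ?_, h3⟩
    have h4 := Subgroup.card_subgroup_dvd_card f.range
    have h5 : Nat.card (Equiv.Perm (Fin 4)) = 24 := by
      rw [Nat.card_perm, Nat.card_fin]; rfl
    rwa [h5] at h4
  obtain ⟨P⟩ : Nonempty (Sylow 5 G) := inferInstance
  obtain ⟨a, b, ha, hb, hab⟩ := hN P
  have hcG : Nat.card G = 5 * a * b * 21 := by
    rw [← card_normalizer_mul_nsyl P, h21, hab]
  have ha' : a ∈ Nat.divisors 4 := by simp [ha]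
  have hb' : b ∈ Nat.divisors 24 := by simp [hb]
  have h7N : ∀ Q : Sylow 5 G, ¬ 7 ∣ Nat.card (normalizer ((Q : Subgroup G) : Set G)) := by
    intro Q
    obtain ⟨a, b, ha, hb, hab⟩ := hN Q
    rw [hab]
    have : ∀ a ∈ Nat.divisors 4, ∀ b ∈ Nat.divisors 24, ¬ 7 ∣ 5 * a * b := by decide +kernel
    exact this a (by simp [ha]) b (by simp [hb])
  have h25 : ¬ 5 ∣ 21 * a * b := by
    have : ∀ a ∈ Nat.divisors 4, ∀ b ∈ Nat.divisors 24, ¬ 5 ∣ 21 * a * b := by decide +kernel
    exact this a ha' b hb'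
  have h49 : ¬ 7 ∣ 15 * a * b := by
    have : ∀ a ∈ Nat.divisors 4, ∀ b ∈ Nat.divisors 24, ¬ 7 ∣ 15 * a * b := by decide +kernel
    exact this a ha' b hb'
  have hcZ : ∀ Z : Sylow 7 G, Nat.card (Z : Subgroup G) = 7 := by
    intro Z
    have h8 : Nat.card G = 7 ^ 1 * (15 * a * b) := by rw [hcG]; ring
    rw [sylow_card_of h8 h49 Z, pow_one]
  have hcP : ∀ Q : Sylow 5 G, Nat.card (Q : Subgroup G) = 5 := card_five h21 hfaith
  -- the normalizer of a Sylow 7-subgroup is prime to 5
  have h5N : ∀ Z : Sylow 7 G, ¬ 5 ∣ Nat.card (normalizer ((Z : Subgroup G) : Set G)) := by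
    intro Z h5
    have h8 : (centralizer ((Z : Subgroup G) : Set G)).relIndex (normalizer ((Z : Subgroup G) : Set G)) ∣ 6 :=
      relIndex_centralizer_dvd_pred (by norm_num) _ (hcZ Z)
    have h9 := relIndex_mul_card_of_le (centralizer_le_normalizer' (Z : Subgroup G))
    rw [← h9] at h5
    have h10 : 5 ∣ Nat.card (centralizer ((Z : Subgroup G) : Set G)) := by
      rcases (Nat.Prime.dvd_mul (by norm_num)).1 h5 with h | h
      · have := h.trans h8
        norm_num at this
      · exact h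
    obtain ⟨y, hy⟩ := exists_prime_orderOf_dvd_card' 5 h10
    have hoy : orderOf (y : G) = 5 := by rw [Subgroup.orderOf_coe, hy]
    have hpy : IsPGroup 5 (zpowers (y : G)) := by
      apply IsPGroup.of_card (n := 1)
      rw [Nat.card_zpowers, hoy, pow_one]
    obtain ⟨Q, hQ⟩ := hpy.exists_le_sylow
    have hQe : (Q : Subgroup G) = zpowers (y : G) := by
      symm
      apply Subgroup.eq_of_le_of_card_ge hQ
      rw [hcP Q, Nat.card_zpowers, hoy]
    apply h7N Q
    rw [← hcZ Z]
    apply Subgroup.card_dvd_of_le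
    intro z hz
    apply centralizer_le_normalizer' (Q : Subgroup G)
    rw [hQe, mem_centralizer_iff]
    intro w hw
    obtain ⟨k, rfl⟩ := mem_zpowers_iff.1 hw
    have h11 : Commute (y : G) z := (mem_centralizer_iff.1 y.2 z hz).symm
    exact (h11.zpow_left k).eq
  -- normal subgroups
  have h7G : 7 ∣ Nat.card G := by rw [hcG]; exact ⟨5 * a * b * 3, by ring⟩
  have hsimple : IsSimpleGroup G := by
    have hnt : Nontrivial G := by
      rw [← Finite.one_lt_card_iff_nontrivial]
      have : 0 < Nat.card G := Nat.card_pos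
      obtain ⟨c, hc⟩ := h7G
      omega
    refine { eq_bot_or_eq_top_of_normal := ?_ }
    intro M hM
    by_contra hno
    push Not at hno
    obtain ⟨hM1, hM2⟩ := hno
    have hdiv : ∀ d, d ∣ 21 → d % 5 = 1 → d = 1 ∨ d = 21 := by
      intro d hd hd5
      have : ∀ d ∈ Nat.divisors 21, d % 5 = 1 → d = 1 ∨ d = 21 := by decide +kernel
      exact this d (by simp [hd]) hd5
    rcases normal_dichotomy h21 hdiv M with h | h
    · exact hM1 (hker M hM h)
    have h21M := relIndex_of_sup h21 M P (h P)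
    have h7M : 7 ∣ Nat.card M := by
      have h8 := relIndex_mul_card_inf (normalizer ((P : Subgroup G) : Set G)) M
      rw [← h8, h21M]
      exact ⟨3 * _, by ring⟩
    obtain ⟨Z⟩ : Nonempty (Sylow 7 M) := inferInstance
    have hidx7 : ¬ 7 ∣ M.index := by
      intro h8
      have h9 : 7 * 7 ∣ Nat.card G := by
        rw [← M.index_mul_card]
        exact mul_dvd_mul h8 h7M
      rw [hcG] at h9
      have h10 : 7 * 7 ∣ 7 * (15 * a * b) := by
        have : 7 * (15 * a * b) = 5 * a * b * 21 := by ring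
        rw [this]; exact h9
      exact h49 (Nat.dvd_of_mul_dvd_mul_left (by norm_num) h10)
    obtain ⟨Z⟩ : Nonempty (Sylow 7 G) := inferInstance
    have hZM : (Z : Subgroup G) ≤ M := by
      intro z hz
      apply mem_of_orderOf_coprime_index
      have h8 : orderOf z ∣ 7 := by
        rw [← hcZ Z]
        have := orderOf_dvd_natCard (⟨z, hz⟩ : (Z : Subgroup G))
        rwa [Subgroup.orderOf_mk] at this
      exact Nat.Coprime.coprime_dvd_left h8 ((Nat.Prime.coprime_iff_not_dvd (by norm_num)).2 hidx7)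
    have hfr : normalizer ((Z : Subgroup G) : Set G) ⊔ M = ⊤ := by
      have h8 := Sylow.normalizer_sup_eq_top (Z.subtype hZM)
      have h9 : ((Z.subtype hZM : Sylow 7 M) : Subgroup M).map M.subtype = Z := by
        rw [Sylow.coe_subtype, subgroupOf_map_subtype, inf_eq_left.2 hZM]
      rw [← h9]
      exact h8
    have hidx5 : ¬ 5 ∣ M.index := by
      intro h8
      have h9 : M.index = M.relIndex (normalizer ((Z : Subgroup G) : Set G)) := by
        rw [← relIndex_top_right M, ← hfr, relIndex_sup_right]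
      apply h5N Z
      rw [h9] at h8
      refine h8.trans ?_
      rw [← relIndex_mul_card_inf M (normalizer ((Z : Subgroup G) : Set G))]
      exact Dvd.intro _ rfl
    have hPM : (P : Subgroup G) ≤ M := by
      intro z hz
      apply mem_of_orderOf_coprime_index
      have h8 : orderOf z ∣ 5 := by
        rw [← hcP P]
        have := orderOf_dvd_natCard (⟨z, hz⟩ : (P : Subgroup G))
        rwa [Subgroup.orderOf_mk] at this
      exact Nat.Coprime.coprime_dvd_left h8 ((Nat.Prime.coprime_iff_not_dvd (by norm_num)).2 hidx5)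
    refine ih (Nat.card M) ?_ M rfl ((nsyl_sub M P hPM).trans h21M)
    rw [← hn, ← M.index_mul_card]
    have h8 : 1 < M.index := by
      have h9 : M.index ≠ 0 := index_ne_zero_of_finite
      have h10 : M.index ≠ 1 := fun h => hM2 (index_eq_one.1 h)
      omega
    exact lt_mul_of_one_lt_left Nat.card_pos h8
  have hG : ¬ IsMulCommutative G := by
    intro hc
    have h8 : Nat.card (Sylow 5 G) = 1 := by
      rw [Sylow.card_eq_index_normalizer P, index_eq_one]
      have h9 : (P : Subgroup G).Normal := by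
        refine ⟨fun x hx g => ?_⟩
        have := hc.is_comm.comm g x
        rw [this, mul_inv_cancel_right]
        exact hx
      exact normalizer_eq_top_iff.2 h9
    omega
  exact simple_case h21 hfaith hsimple hG h5N

/-- No finite group has exactly twenty-one Sylow 5-subgroups. -/
theorem result {G : Type*} [Group G] [Finite G] : Nat.card (Sylow 5 G) ≠ 21 :=
  main _ G rfl

end Cfsg.Agent.S1010
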