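import Cfsg.Statements.S1232
import Cfsg.Agent.Lib.H47RkJ
import Cfsg.Agent.Lib.H81Mac6
import Cfsg.Agent.Lib.SectRank

set_option autoImplicit false
open Cfsg

namespace Cfsg.Agent.S1232

open Subgroup Cfsg.Agent.Lib.H47Rk

universe u in
theorem key {S : Type u} [Group S] [Finite S] (hS : IsPGroup 2 S) (A : Subgroup S)
    (hAc : ∀ x ∈ A, ∀ y ∈ A, x * y = y * x) (hA2 : ∀ x ∈ A, x ^ 2 = 1) (hA8 : Nat.card A = 8)
    (hC : Subgroup.centralizer (A : Set S) = A) {H K : Subgroup S} (hs : Sec H K) :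
    ¬ 32 * Nat.card K ≤ Nat.card H := by
  intro hbig
  haveI : Fact (Nat.Prime 2) := ⟨Nat.prime_two⟩
  by_cases hno : ∀ E : Subgroup S, E.Normal → (∀ a ∈ E, ∀ b ∈ E, a * b = b * a) → (∀ a ∈ E, a ^ 2 = 1) →
      Nat.card E ≤ 4
  · exact Cfsg.Agent.Lib.H81Mac6.main hS hno H K hs.le hs.sq hs.comm hbig
  push Not at hno
  obtain ⟨E₀, hE₀n, hE₀c, hE₀2, hE₀4⟩ := hno
  obtain ⟨n, hn⟩ := IsPGroup.iff_card.mp (hS.to_subgroup E₀)
  have h8 : 2 ^ 3 ≤ Nat.card E₀ := by
    rw [hn]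
    apply Nat.pow_le_pow_right (by norm_num)
    by_contra hlt
    have : 2 ^ n ≤ 2 ^ 2 := Nat.pow_le_pow_right (by norm_num) (by omega)
    omega
  obtain ⟨E, hEn, hEE₀, hE8⟩ := Cfsg.Agent.Lib.PGroupOdd.exists_normal_card' (p := 2) hS hE₀n (k := 3) h8
  have hE8' : Nat.card E = 8 := by rw [hE8]; norm_num
  have hN : N8 E := ⟨hS, hEn, fun x hx y hy => hE₀c x (hEE₀ hx) y (hEE₀ hy), fun x hx => hE₀2 x (hEE₀ hx), hE8'⟩
  have hK0 : 0 < Nat.card K := Nat.card_pos
  have hAA : ∀ x : S, (∀ y ∈ A, x * y = y * x) → x ∈ A := by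
    intro x hx
    rw [← hC]
    exact mem_cent.mpr hx
  obtain ⟨z, hzE, hz1, hzc⟩ := hN.exz
  have hzA : z ∈ A := hAA z (fun y _ => (hzc y).symm)
  have hcase := card_dvd8 hA8 (centralizer (E : Set S))
  rcases hcase with h | h | h | h
  · have h1 := N8.bot_of1 h z ⟨hN.EC hzE, hzA⟩
    exact hz1 h1
  · obtain ⟨l, hl, hl1, hlx⟩ := card2 h
    have hlz : z = l := (hlx z ⟨hN.EC hzE, hzA⟩).resolve_left hz1
    have hctx : CtxI E A z := by
      refine ⟨hN, hAc, hA2, hA8, hAA, hz1, hzA, ?_⟩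
      intro x hx hxC
      rcases hlx x ⟨hxC, hx⟩ with h1 | h1
      · rw [h1]; exact one_mem _
      · rw [h1, ← hlz]; exact mem_zpowers z
    have := hctx.bound hs
    omega
  · rw [inf_comm] at h
    have := hN.boundII hAc hA2 hA8 hC h hs
    omega
  · have h1 : centralizer (E : Set S) ⊓ A = A := Subgroup.eq_of_le_of_card_ge inf_le_right (by rw [h, hA8])
    have hAC : A ≤ centralizer (E : Set S) := by rw [← h1]; exact inf_le_left
    have hEA : E ≤ A := by
      intro e he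
      apply hAA
      intro y hy
      exact (mem_cent.mp (hAC hy) e he).symm
    have hEA' : E = A := Subgroup.eq_of_le_of_card_ge hEA (by rw [hA8, hE8'])
    have := hN.boundIII (by rw [hEA', hC]) hs
    omega

/-- Let S be a finite 2-group containing an elementary abelian subgroup A of order 8 with C_S(A) = A. Then every section of S has 2-rank at most 4. -/
theorem result {S : Type*} [Group S] [Finite S] (hS : IsPGroup 2 S) (A : Subgroup S) (hA : Cfsg.IsElementaryAbelian 2 A) (hA8 : Nat.card A = 8) (hC : Subgroup.centralizer (A : Set S) = A) : Cfsg.SectionalPRankLE 2 4 S := by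
  haveI : Fact (Nat.Prime 2) := ⟨Nat.prime_two⟩
  have hAc : ∀ x ∈ A, ∀ y ∈ A, x * y = y * x := by
    intro x hx y hy
    exact congrArg Subtype.val (hA.1.is_comm.comm ⟨x, hx⟩ ⟨y, hy⟩)
  have hA2 : ∀ x ∈ A, x ^ 2 = 1 := by
    intro x hx
    exact hA.2 x hx
  refine Cfsg.Agent.Lib.SectRank.sectional_of_rankIn ?_
  intro N H hNH _ hsq hcm
  by_contra hcon
  push Not at hcon
  obtain ⟨n, hn⟩ := (hS.to_subgroup H).index (N.subgroupOf H)
  have h1 : N.relIndex H = 2 ^ n := hn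
  have h2 : 5 ≤ n := by
    by_contra hlt
    have : 2 ^ n ≤ 2 ^ 4 := Nat.pow_le_pow_right (by norm_num) (by omega)
    omega
  have h3 : 32 ≤ N.relIndex H := by
    rw [h1]
    calc 32 = 2 ^ 5 := by norm_num
      _ ≤ 2 ^ n := Nat.pow_le_pow_right (by norm_num) h2
  have h4 := Cfsg.Agent.Lib.H81Mac4.card_mul_rel hNH
  have hs : Sec H N := ⟨hNH, hcm, hsq⟩
  refine key hS A hAc hA2 hA8 hC hs ?_
  rw [← h4, mul_comm]
  exact Nat.mul_le_mul_left _ h3

end Cfsg.Agent.S1232
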