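import Cfsg.Statements.S1233
import Cfsg.Agent.Lib.Sec4B
import Cfsg.Agent.S1232
import Cfsg.Agent.S0501

set_option autoImplicit false
open Cfsg

namespace Cfsg.Agent.S1233

/-- Let S be a finite 2-group and Q a subgroup of order 32 generated by two elementwise-commuting subgroups Q₁, Q₂ each isomorphic to the quaternion group of order 8 (so Q = Q₁ ∗ Q₂). If C_S(Q) ≤ Q, then every section of S has 2-rank at most 4. -/
theorem result {S : Type*} [Group S] [Finite S] (hS : IsPGroup 2 S) (Q Q₁ Q₂ : Subgroup S) (e₁ : Q₁ ≃* QuaternionGroup 2) (e₂ : Q₂ ≃* QuaternionGroup 2) (hcomm : ∀ a ∈ Q₁, ∀ b ∈ Q₂, a * b = b * a) (hQ : Q₁ ⊔ Q₂ = Q) (hQ32 : Nat.card Q = 32) (hC : Subgroup.centralizer (Q : Set S) ≤ Q) : Cfsg.SectionalPRankLE 2 4 S := by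
  haveI : Fact (Nat.Prime 2) := ⟨Nat.prime_two⟩
  by_cases h : ∀ A : Subgroup S, A.Normal → IsMulCommutative A → (∀ a ∈ A, a ^ 2 = 1) → Nat.card A ≤ 4
  · exact Cfsg.Agent.S0501.result hS h
  · push Not at h
    obtain ⟨A, hAn, hAc, hA2, hA4⟩ := h
    have h8 : 2 ^ 3 ≤ Nat.card A := by
      obtain ⟨k, hk⟩ := IsPGroup.iff_card.1 (hS.to_subgroup A)
      rw [hk] at hA4 ⊢
      have : 2 < k := by
        by_contra hcon
        have : 2 ^ k ≤ 2 ^ 2 := Nat.pow_le_pow_right (by norm_num) (by omega)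
        omega
      exact Nat.pow_le_pow_right (by norm_num) this
    obtain ⟨N, hN, hNA, hN8⟩ := Cfsg.Agent.Lib.PGroupOdd.exists_normal_card' hS hAn h8
    have hNe : Cfsg.IsElementaryAbelian 2 N := by
      refine ⟨⟨⟨fun a b => Subtype.ext ?_⟩⟩, fun a ha => hA2 a (hNA ha)⟩
      have := congrArg (Subtype.val : A → S) (hAc.is_comm.comm ⟨a.1, hNA a.2⟩ ⟨b.1, hNA b.2⟩)
      simpa using this
    obtain ⟨B, hB, hB8, hBC⟩ := Cfsg.Agent.Lib.Sec4B.q8q8_E8 hS Q Q₁ Q₂ (Cfsg.Agent.Lib.Sec4B.isQ8_of Q₁ e₁)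
      (Cfsg.Agent.Lib.Sec4B.isQ8_of Q₂ e₂) hcomm hQ hQ32 hC N hN hNe (by rw [hN8]; norm_num)
    exact Cfsg.Agent.S1232.result hS B hB hB8 hBC

end Cfsg.Agent.S1233
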