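import Cfsg.Statements.S1313
import Cfsg.Agent.Lib.CompRel

set_option autoImplicit false
open Cfsg Cfsg.Agent.Lib.Components Cfsg.Agent.Lib.Layer Cfsg.Agent.Lib.CompRel

namespace Cfsg.Agent.S1313

/-- For a finite group H, |H| ≤ |F*(H)|!. -/
theorem result {H : Type*} [Group H] [Finite H] : Nat.card H ≤ Nat.factorial (Nat.card ↥(Cfsg.generalizedFittingSubgroup H)) := by
  classical
  set F := Cfsg.generalizedFittingSubgroup H with hF
  have hker : (MulAut.conjNormal (H := F) : H →* MulAut ↥F).ker ≤ F := by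
    intro x hx
    apply centralizer_genFitting_le (G := H)
    rw [Subgroup.mem_centralizer_iff]
    intro y hy
    rw [MonoidHom.mem_ker] at hx
    have h1 := congrArg (fun f : MulAut ↥F => ((f ⟨y, hy⟩ : ↥F) : H)) hx
    simp only [MulAut.conjNormal_apply, MulAut.one_apply] at h1
    rw [mul_inv_eq_iff_eq_mul] at h1
    exact h1.symm
  -- automorphisms embed in the permutations of the non-identity elements
  have hinj : ∃ f : MulAut ↥F → Equiv.Perm {x : ↥F // x ≠ 1}, Function.Injective f := by
    refine ⟨fun α => α.toEquiv.subtypeEquiv (fun a => by simp), ?_⟩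
    intro α β h
    ext1 x
    by_cases hx : x = 1
    · rw [hx, map_one, map_one]
    · have := congrArg (fun e : Equiv.Perm {x : ↥F // x ≠ 1} => (e ⟨x, hx⟩ : ↥F)) h
      exact this
  obtain ⟨f, hf⟩ := hinj
  have hfin : Finite (MulAut ↥F) := Finite.of_injective f hf
  have h1 : Nat.card (MulAut ↥F) ≤ Nat.factorial (Nat.card ↥F - 1) := by
    have h2 := Nat.card_le_card_of_injective f hf
    rw [Nat.card_perm] at h2
    have h3 : Nat.card {x : ↥F // x ≠ 1} = Nat.card ↥F - 1 := by
      have := Fintype.ofFinite ↥F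
      rw [Nat.card_eq_fintype_card, Nat.card_eq_fintype_card, Fintype.card_subtype_compl,
        Fintype.card_subtype_eq]
    rwa [h3] at h2
  have h4 := Subgroup.card_eq_card_quotient_mul_card_subgroup
    (MulAut.conjNormal (H := F) : H →* MulAut ↥F).ker
  have h5 : Nat.card (H ⧸ (MulAut.conjNormal (H := F) : H →* MulAut ↥F).ker) ≤
      Nat.card (MulAut ↥F) := by
    rw [Nat.card_congr (QuotientGroup.quotientKerEquivRange _).toEquiv]
    exact Subgroup.card_le_card_group _
  have h6 : Nat.card ↥(MulAut.conjNormal (H := F) : H →* MulAut ↥F).ker ≤ Nat.card ↥F :=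
    Subgroup.card_le_of_le hker
  have h7 : 0 < Nat.card ↥F := Nat.card_pos
  calc Nat.card H = _ := h4
    _ ≤ Nat.factorial (Nat.card ↥F - 1) * Nat.card ↥F := Nat.mul_le_mul (h5.trans h1) h6
    _ = Nat.factorial (Nat.card ↥F) := by
        obtain ⟨n, hn⟩ : ∃ n, Nat.card ↥F = n + 1 := ⟨Nat.card ↥F - 1, by omega⟩
        rw [hn, Nat.factorial_succ, mul_comm]
        simp

end Cfsg.Agent.S1313
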