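import Cfsg.Statements.S1329
import Cfsg.Agent.S0205
import Cfsg.Agent.Lib.H22Gold

set_option autoImplicit false
open Cfsg

namespace Cfsg.Agent.S1329

/-- Let A be an abelian 2-subgroup of the finite group G, B ≤ A, and Y a subgroup of odd order normalized by A with ⁅Y, A⁆ = Y. Then Y ∩ C_G(B) is generated by the subgroups Y ∩ C_G(B) ∩ ⁅Y ∩ C_G(B₀), A⁆, B₀ ranging over the subgroups of B with B / B₀ cyclic. -/
theorem result {G : Type*} [Group G] [Finite G] (A B Y : Subgroup G) (hA2 : IsPGroup 2 ↥A) (hAc : IsMulCommutative ↥A) (hB : B ≤ A) (hYodd : Odd (Nat.card ↥Y)) (hAY : A ≤ Subgroup.normalizer (Y : Set G)) (hYA : ⁅Y, A⁆ = Y) : Y ⊓ Subgroup.centralizer (B : Set G) = ⨆ B₀ : {B₀ : Subgroup G // B₀ ≤ B ∧ ∀ [(B₀.subgroupOf B).Normal], IsCyclic (↥B ⧸ B₀.subgroupOf B)}, Y ⊓ Subgroup.centralizer (B : Set G) ⊓ ⁅Y ⊓ Subgroup.centralizer ((B₀ : Subgroup G) : Set G), A⁆ := by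
  have hFT : ∀ (X : Type u_1) [Group X] [Finite X], Odd (Nat.card X) → Group.IsSolvable X :=
    fun X _ _ h => Cfsg.Agent.S0205.result h
  have hBc : IsMulCommutative ↥B := by
    rw [isMulCommutative_iff]
    intro a b
    have := (isMulCommutative_iff.mp hAc) ⟨a, hB a.2⟩ ⟨b, hB b.2⟩
    exact Subtype.ext (by simpa using congrArg Subtype.val this)
  apply le_antisymm
  · refine Cfsg.Agent.Lib.H22Gold.stm hFT _ G A B Y _ hA2 hAc hB hYodd hAY hYA le_rfl ?_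
    intro B₀ hB₀ hc
    exact le_iSup (fun B₀ : {B₀ : Subgroup G // B₀ ≤ B ∧
      ∀ [(B₀.subgroupOf B).Normal], IsCyclic (↥B ⧸ B₀.subgroupOf B)} =>
        Y ⊓ Subgroup.centralizer (B : Set G) ⊓
          ⁅Y ⊓ Subgroup.centralizer ((B₀ : Subgroup G) : Set G), A⁆)
      ⟨B₀, hB₀, fun {_} => hc.isCyclic hBc hB₀⟩
  · exact iSup_le fun B₀ => inf_le_left

end Cfsg.Agent.S1329
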