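import Cfsg.Statements.S1330
import Cfsg.Agent.S0205
import Cfsg.Agent.Lib.H22CoreSep


set_option autoImplicit false
open Cfsg Cfsg.Agent.Lib.H22CoreSep

namespace Cfsg.Agent.S1330

/-- Let A₁, A₂ be core-separated four-subgroups of the finite group G and A = A₁A₂. For a ∈ G put O_a = O(C_G(a)) and θ a = ⋂_{i=1,2} ( ⁅O_a, A_i⁆ · (O_a ∩ O(C_G(A_i))) ). Then θ is an A-signalizer functor for the prime 2. -/
theorem result {G : Type*} [Group G] [Finite G] (A₁ A₂ : Subgroup G) (hcs : Cfsg.IsCoreSeparated A₁ A₂) : Cfsg.IsSignalizerFunctor 2 (A₁ ⊔ A₂) (fun a => (⁅Cfsg.centralizerPPrimeCore 2 a, A₁⁆ ⊔ (Cfsg.centralizerPPrimeCore 2 a ⊓ ((Cfsg.oddCore ↥(Subgroup.centralizer ((A₁ : Subgroup G) : Set G))).map (Subgroup.centralizer ((A₁ : Subgroup G) : Set G)).subtype))) ⊓ (⁅Cfsg.centralizerPPrimeCore 2 a, A₂⁆ ⊔ (Cfsg.centralizerPPrimeCore 2 a ⊓ ((Cfsg.oddCore ↥(Subgroup.centralizer ((A₂ : Subgroup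 G) : Set G))).map (Subgroup.centralizer ((A₂ : Subgroup G) : Set G)).subtype)))) := by
  have hFT : ∀ (X : Type u_1) [Group X] [Finite X], Odd (Nat.card X) → Group.IsSolvable X :=
    fun X _ _ h => Cfsg.Agent.S0205.result h
  have hcs' := symm_cs hcs
  have hsw : ∀ {x : G}, x ∈ A₁ ⊔ A₂ → x ∈ A₂ ⊔ A₁ := fun hx => by rw [sup_comm]; exact hx
  show IsSignalizerFunctor 2 (A₁ ⊔ A₂) (fun a => Th a A₁ ⊓ Th a A₂)
  refine ⟨?_, ?_, ?_, ?_⟩
  · intro a ha _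
    exact (inf_le_left.trans (Th_le hcs ha)).trans (Cfsg.Agent.Lib.Balance.cpc_le a)
  · intro a ha _ h2
    exact Cfsg.Agent.Lib.Balance.cpc_not_dvd (p := 2) a
      (h2.trans (Subgroup.card_dvd_of_le (inf_le_left.trans (Th_le hcs ha))))
  · intro a ha _ b hb x hx
    have h1 := Th_norm hcs ha hb
    have h2 := Th_norm hcs' (hsw ha) (hsw hb)
    exact Subgroup.mem_inf.mpr ⟨(Subgroup.mem_normalizer_iff.mp h1 x).mp (Subgroup.mem_inf.mp hx).1,
      (Subgroup.mem_normalizer_iff.mp h2 x).mp (Subgroup.mem_inf.mp hx).2⟩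
  · intro a ha ha1 b hb hb1
    refine le_inf (D_le hFT hcs ha ha1 hb hb1) ?_
    have h1 := D_le hFT hcs' (hsw ha) ha1 (hsw hb) hb1
    rwa [inf_comm (Th a A₂)] at h1

end Cfsg.Agent.S1330
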