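import Cfsg.Statements.S1701
import Cfsg.Agent.Lib.HNSimple

set_option autoImplicit false
open Cfsg

namespace Cfsg.Agent.S1701

theorem result : Cfsg.IsHN Cfsg.Spor.HN :=
  ⟨Cfsg.Agent.Lib.HNPH.simple_HN, Cfsg.Agent.Lib.HNPH.card_HN⟩

end Cfsg.Agent.S1701
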