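import Cfsg.Statements.S1707
import Cfsg.Agent.Lib.HNMain

set_option autoImplicit false

namespace Cfsg.Agent.S1707

open Cfsg.Agent.Lib.HNPH

theorem map_eq : ((Subgroup.closure ({Cfsg.Spor.HN.x, Cfsg.Spor.HN.y, Cfsg.Spor.HN.z} : Set (FreeGroup Cfsg.Spor.HN.Gen))).map (PresentedGroup.mk (Cfsg.Spor.coxRelators Cfsg.Spor.HN.edges ∪ {r | r ∈ Cfsg.Spor.HN.extra}))) = HH := by
  rw [MonoidHom.map_closure]
  congr 1
  rw [Set.image_insert_eq, Set.image_pair]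
  rfl

theorem result : (((Subgroup.closure ({Cfsg.Spor.HN.x, Cfsg.Spor.HN.y, Cfsg.Spor.HN.z} : Set (FreeGroup Cfsg.Spor.HN.Gen))).map (PresentedGroup.mk (Cfsg.Spor.coxRelators Cfsg.Spor.HN.edges ∪ {r | r ∈ Cfsg.Spor.HN.extra})))).index = 1539000 := by
  rw [map_eq]
  exact main_idx.1

end Cfsg.Agent.S1707
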