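import Cfsg.Statements.S1892
import Cfsg.Agent.Lib.H32PSolv
import Cfsg.Agent.Lib.CoprimeAction2
import Cfsg.Agent.Lib.FratFit

set_option autoImplicit false
open Cfsg
open scoped commutatorElement

namespace Cfsg.Agent.S1892

/-- Let S be a finite p-solvable group with no nontrivial normal subgroup of order prime to p, A a p-subgroup of S, and Q a nontrivial A-invariant subgroup of order prime to p with [A, Q] = Q. Then the commutator [O_p(S), A, Q] is nontrivial. -/
theorem result {S : Type*} [Group S] [Finite S] {p : ℕ} [Fact p.Prime]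
    (hS : Cfsg.IsPSolvable p S) (hred : Cfsg.pPrimeCore p S = ⊥)
    (A Q : Subgroup S) (hA : IsPGroup p A) (hQ : ¬ p ∣ Nat.card Q) (hQ1 : Q ≠ ⊥)
    (hinv : ∀ a ∈ A, ∀ x ∈ Q, a * x * a⁻¹ ∈ Q) (hAQ : ⁅A, Q⁆ = Q) :
    ⁅⁅Cfsg.pCore p S, A⁆, Q⁆ ≠ ⊥ := by
  intro hbot
  apply hQ1
  set P := Cfsg.pCore p S with hP
  have hPp : IsPGroup p P := Cfsg.Agent.Lib.H32Cores.pCore_isPGroup p
  have hQc : (Nat.card Q).Coprime p := by
    rw [Nat.coprime_comm, Nat.Prime.coprime_iff_not_dvd Fact.out]; exact hQ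
  set Φ : Subgroup S := (frattini P).map P.subtype with hΦ
  have hΦP : Φ ≤ P := Subgroup.map_subtype_le _
  have hΦn : Φ.Normal := inferInstance
  set f := QuotientGroup.mk' Φ with hf
  have hfs : Function.Surjective f := QuotientGroup.mk'_surjective Φ
  set V := P.map f with hV
  have hVn : V.Normal := Subgroup.Normal.map inferInstance f hfs
  have hcommP : ∀ x ∈ P, ∀ y ∈ P, x⁻¹ * y⁻¹ * x * y ∈ Φ := by
    intro x hx y hy
    have h1 : (⟨x, hx⟩⁻¹ * ⟨y, hy⟩⁻¹ * ⟨x, hx⟩ * ⟨y, hy⟩ : P) ∈ frattini P := by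
      apply Cfsg.Agent.Lib.FratFit.commutator_le_frattini hPp.isNilpotent
      rw [commutator_def]
      have h2 := Subgroup.commutator_mem_commutator (Subgroup.mem_top (⟨x, hx⟩⁻¹ : P)) (Subgroup.mem_top (⟨y, hy⟩⁻¹ : P))
      rw [commutatorElement_def, inv_inv, inv_inv] at h2
      exact h2
    exact ⟨_, h1, rfl⟩
  have hVc : IsMulCommutative V := by
    rw [isMulCommutative_iff_of_setLike]
    rintro _ ⟨x, hx, rfl⟩ _ ⟨y, hy, rfl⟩
    rw [← map_mul, ← map_mul]
    apply (QuotientGroup.eq).mpr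
    have : (x * y)⁻¹ * (y * x) = y⁻¹ * x⁻¹ * y * x := by group
    rw [this]
    exact hcommP y hy x hx
  have hinvQ : A ≤ Subgroup.normalizer (Q : Set S) := fun a ha =>
    Cfsg.Agent.Lib.H32Cores.mem_normalizer_of_conj_le (hinv a ha)
  have hVp : IsPGroup p V := hPp.map f
  obtain ⟨k, hk⟩ := IsPGroup.iff_card.mp hVp
  have hcop : (Nat.card (Q.map f)).Coprime (Nat.card V) := by
    rw [hk]
    exact Nat.Coprime.pow_right k (Nat.Coprime.coprime_dvd_left (Subgroup.card_map_dvd (H := Q) f) hQc)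
  have hQV : Q.map f ≤ Subgroup.normalizer (V : Set (S ⧸ Φ)) := by
    rw [Subgroup.normalizer_eq_top]; exact le_top
  have hAV : A.map f ≤ Subgroup.normalizer (V : Set (S ⧸ Φ)) := by
    rw [Subgroup.normalizer_eq_top]; exact le_top
  have hAQ' : A.map f ≤ Subgroup.normalizer ((Q.map f : Subgroup (S ⧸ Φ)) : Set (S ⧸ Φ)) := by
    rintro _ ⟨a, ha, rfl⟩
    apply Cfsg.Agent.Lib.H32Cores.mem_normalizer_of_conj_le
    rintro _ ⟨x, hx, rfl⟩
    exact ⟨a * x * a⁻¹, hinv a ha x hx, by simp⟩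
  have h1 : ⁅⁅V, A.map f⁆, Q.map f⁆ = ⊥ := by
    rw [hV, ← Subgroup.map_commutator, ← Subgroup.map_commutator, hbot, Subgroup.map_bot]
  have h2 : ⁅⁅V, Q.map f⁆, A.map f⁆ = ⊥ := by
    rw [eq_bot_iff, ← Cfsg.Agent.Lib.CoprimeAction2.inf_commutator_eq_bot_of_abelian hQV hcop]
    refine le_inf (le_inf ?_ ?_) ?_
    · exact (Subgroup.commutator_mono (Subgroup.commutator_le_left V _) le_rfl).trans (Subgroup.commutator_le_left V _)
    · refine (Subgroup.commutator_mono (Subgroup.commutator_le_left V (Q.map f)) le_rfl).trans ?_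
      rw [← Subgroup.commutator_eq_bot_iff_le_centralizer]
      exact h1
    · rw [← Subgroup.le_normalizer_iff_commutator_le_left]
      exact Cfsg.Agent.Lib.H32PSolv.le_normalizer_commutator hAV hAQ'
  have h3 : ⁅⁅A.map f, Q.map f⁆, V⁆ = ⊥ :=
    Cfsg.Agent.Lib.CoprimeAction2.commutator_commutator_eq_bot (by rw [Subgroup.commutator_comm (Q.map f) V]; exact h2) h1
  rw [← Subgroup.map_commutator, hAQ] at h3
  have h4 : Q ≤ Subgroup.centralizer (P : Set S) := by
    apply Cfsg.Agent.Lib.CoprimeAction2.le_centralizer_of_frattini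
    · rw [Subgroup.normalizer_eq_top]; exact le_top
    · obtain ⟨m, hm⟩ := IsPGroup.iff_card.mp ((hPp).to_subgroup (frattini P))
      rw [hm]
      exact Nat.Coprime.pow_right m hQc
    · intro a ha k hk
      have h5 : ⁅f a, f k⁆ ∈ ⁅Q.map f, V⁆ :=
        Subgroup.commutator_mem_commutator (Subgroup.mem_map_of_mem f ha) (Subgroup.mem_map_of_mem f hk)
      rw [h3, Subgroup.mem_bot, ← map_commutatorElement] at h5
      exact (QuotientGroup.eq_one_iff _).mp h5
  have h5 : Q ≤ P := h4.trans (Cfsg.Agent.Lib.H32PSolv.centralizer_pCore_le hS hred)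
  exact Cfsg.Agent.Lib.H32Cores.eq_bot_of_isPGroup_of_coprime p (hPp.to_le h5) hQc

end Cfsg.Agent.S1892
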