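import Cfsg.Statements.S1893
import Cfsg.Agent.Lib.PSolvStable
import Cfsg.Agent.Lib.PLength
import Cfsg.Agent.Lib.HallPi
import Cfsg.Agent.Lib.Fitting
import Cfsg.Agent.Lib.H32Cores
import Cfsg.Agent.Lib.CoprimeAction2

set_option autoImplicit false
open Cfsg

namespace Cfsg.Agent.S1893

open Subgroup Cfsg.Agent.Lib
open scoped commutatorElement

universe u

/-- normal subgroup `D` with `D / C_D(V)` a `p`-group, centralising the other cores: its `p`-elements lie in
`O_p(S)`. -/
theorem mem_pCore {S : Type u} [Group S] [Finite S] [Group.IsSolvable S] {p : ℕ} [hp : Fact p.Prime]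
    (W : Subgroup S) [hW : W.Normal]
    (h1 : ∀ x ∈ W, ∃ k : ℕ, x ^ p ^ k ∈ centralizer (fittingSubgroup S : Set S))
    (h2 : ∀ q : ℕ, q.Prime → q ≠ p → W ≤ centralizer (pCore q S : Set S))
    {k : S} (hk : k ∈ W) (hkp : IsPGroup p (zpowers k)) : k ∈ pCore p S := by
  classical
  have hCF := Fitting.centralizer_fittingSubgroup_le (G := S)
  -- `p'`-elements of `W` are central in `W`
  have key : ∀ q : ℕ, q.Prime → q ≠ p → ∀ Q : Subgroup S, Q ≤ W → IsPGroup q Q → W ≤ centralizer (Q : Set S) := by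
    intro q hq hqp Q hQW hQ
    have : Fact q.Prime := ⟨hq⟩
    have hQC : Q ≤ centralizer (fittingSubgroup S : Set S) := by
      intro x hx
      obtain ⟨k, hk⟩ := h1 x (hQW hx)
      have hcop : (orderOf x).Coprime (p ^ k) := by
        obtain ⟨m, hm⟩ := hQ ⟨x, hx⟩
        have hm' : x ^ q ^ m = 1 := by simpa using congrArg Subtype.val hm
        apply Nat.Coprime.pow_right
        exact Nat.Coprime.coprime_dvd_left (orderOf_dvd_of_pow_eq_one hm')
          (Nat.Coprime.pow_left m ((Nat.coprime_primes hq hp.out).mpr hqp))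
      obtain ⟨j, hj⟩ := exists_pow_eq_self_of_coprime hcop.symm
      rw [← hj]
      exact pow_mem hk j
    -- `C(F)` is abelian, so its Sylow `q`-subgroup is normal
    have hZc : IsMulCommutative ↥(centralizer (fittingSubgroup S : Set S)) := by
      refine ⟨⟨fun a b => Subtype.ext ?_⟩⟩
      exact mem_centralizer_iff.mp b.2 a (hCF a.2)
    have hCn : (centralizer (fittingSubgroup S : Set S)).Normal := by
      have := Fitting.normal_fittingSubgroup (G := S)
      infer_instance
    have hQq : Q ≤ pCore q S := by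
      set C := centralizer (fittingSubgroup S : Set S) with hC
      obtain ⟨T, hT⟩ := (hQ.comap_of_injective C.subtype C.subtype_injective :
        IsPGroup q (Q.subgroupOf C)).exists_le_sylow
      have hTn : (T : Subgroup C).Normal := inferInstance
      have hTc : (T : Subgroup C).Characteristic := T.characteristic_of_normal hTn
      have h5 : (T : Subgroup C).map C.subtype ≤ pCore q S := Fitting.le_pCore q inferInstance (T.2.map _)
      intro x hx
      exact h5 ⟨⟨x, hQC hx⟩, hT (mem_comap.mpr hx), rfl⟩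
    exact (h2 q hq hqp).trans (centralizer_le hQq)
  -- Sylow `p`-subgroup of `W` containing `k`
  obtain ⟨T, hT⟩ := (hkp.comap_of_injective W.subtype W.subtype_injective :
    IsPGroup p ((zpowers k).subgroupOf W)).exists_le_sylow
  have hTn : (T : Subgroup W).Normal := by
    rw [← normalizer_eq_top_iff]
    apply Fitting.eq_top_of_sylow_le
    intro q hq
    by_cases hqp : q = p
    · subst hqp
      exact ⟨T, le_normalizer, T.not_dvd_index⟩
    have : Fact q.Prime := ⟨hq⟩
    obtain ⟨Q⟩ : Nonempty (Sylow q W) := inferInstance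
    refine ⟨Q, ?_, Q.not_dvd_index⟩
    have h5 := key q hq hqp ((Q : Subgroup W).map W.subtype) (map_subtype_le _) (Q.2.map _)
    intro x hx
    rw [mem_normalizer_iff]
    intro t
    have h6 := mem_centralizer_iff.mp (h5 t.2) x ⟨x, hx, rfl⟩
    have h7 : x * t * x⁻¹ = t := by
      apply Subtype.ext
      push_cast
      rw [h6]; group
    rw [h7]
  have hTc : (T : Subgroup W).Characteristic := T.characteristic_of_normal hTn
  have h5 : (T : Subgroup W).map W.subtype ≤ pCore p S := Fitting.le_pCore p inferInstance (T.2.map _)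
  exact h5 ⟨⟨k, hk⟩, hT (mem_comap.mpr (mem_zpowers k)), rfl⟩

theorem core {S : Type u} [Group S] [Finite S] [Group.IsSolvable S]
    (π : Set ℕ) (h2 : 2 ∉ π) (h3 : 3 ∉ π) (hcore : piCore πᶜ S = ⊥) (H : Subgroup S) (hH : Cfsg.IsPiHall π H)
    (A : Subgroup S) (hA : Cfsg.IsSCN ((Cfsg.fittingSubgroup H).map H.subtype) A)
    {p : ℕ} [hp : Fact p.Prime] (hpπ : p ∈ π) {k : S} (hk : k ∈ centralizer (A : Set S))
    (hkp : IsPGroup p (zpowers k)) : k ∈ A := by
  classical
  obtain ⟨hAF, hAn, hAc⟩ := hA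
  have hFn := Fitting.normal_fittingSubgroup (G := S)
  have h5 : 5 ≤ p := by
    have h7 := hp.out.two_le
    have h8 : p ≠ 2 := fun h => h2 (h ▸ hpπ)
    have h9 : p ≠ 3 := fun h => h3 (h ▸ hpπ)
    have h10 : p ≠ 4 := fun h => by
      have := hp.out
      rw [h] at this
      exact absurd this (by norm_num)
    omega
  -- `F(S) ≤ F(H)`
  have hFπ : ∀ q : ℕ, q.Prime → q ∣ Nat.card (fittingSubgroup S) → q ∈ π := by
    intro q hq hd
    by_contra hqπ
    have : Fact q.Prime := ⟨hq⟩
    have hFnil := Fitting.isNilpotent_fittingSubgroup (G := S)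
    obtain ⟨T⟩ : Nonempty (Sylow q (fittingSubgroup S)) := inferInstance
    have hTn : (T : Subgroup (fittingSubgroup S)).Normal := inferInstance
    have hTc : (T : Subgroup (fittingSubgroup S)).Characteristic := T.characteristic_of_normal hTn
    have h6 : (T : Subgroup (fittingSubgroup S)).map (fittingSubgroup S).subtype ≤ piCore πᶜ S := by
      apply H32Cores.le_piCore inferInstance
      intro r hr hd'
      have h7 : IsPGroup q ((T : Subgroup (fittingSubgroup S)).map (fittingSubgroup S).subtype) := T.2.map _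
      obtain ⟨n, hn⟩ := IsPGroup.iff_card.mp h7
      rw [hn] at hd'
      have := (Nat.prime_dvd_prime_iff_eq hr hq).mp (hr.dvd_of_dvd_pow hd')
      rw [this]; exact hqπ
    rw [hcore, le_bot_iff, Subgroup.map_eq_bot_iff_of_injective _ (fittingSubgroup S).subtype_injective] at h6
    have h8 := T.not_dvd_index
    rw [h6, index_bot] at h8
    exact h8 hd
  have hFH : fittingSubgroup S ≤ H := HallPi.le_of_normal_piNum hFπ hH
  have hFFH : fittingSubgroup S ≤ (fittingSubgroup H).map H.subtype := by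
    have h6 : (fittingSubgroup S).subgroupOf H ≤ fittingSubgroup H := by
      apply Fitting.le_fittingSubgroup inferInstance
      have h7 := Fitting.isNilpotent_fittingSubgroup (G := S)
      exact (Group.isNilpotent_congr (subgroupOfEquivOfLe hFH)).mpr h7
    intro x hx
    exact ⟨⟨x, hFH hx⟩, h6 (by rw [mem_subgroupOf]; exact hx), rfl⟩
  -- `[F(S), k] ≤ A`
  have hcomm : ∀ x ∈ fittingSubgroup S, ∀ y ∈ zpowers k, ⁅x, y⁆ ∈ A := by
    intro x hx y hy
    have hyc : y ∈ centralizer (A : Set S) := (zpowers_le.mpr hk) hy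
    rw [← hAc]
    refine mem_inf.mpr ⟨hFFH ?_, ?_⟩
    · rw [commutatorElement_def]
      have h6 := hFn.conj_mem x⁻¹ (inv_mem hx) y
      have h7 : x * y * x⁻¹ * y⁻¹ = x * (y * x⁻¹ * y⁻¹) := by group
      rw [h7]; exact mul_mem hx h6
    · rw [commutatorElement_def]
      refine mul_mem ?_ (inv_mem hyc)
      rw [mem_centralizer_iff]
      intro a ha
      have h6 : x⁻¹ * a * x ∈ A := by
        have := (mem_normalizer_iff.mp (hAn (hFFH hx)) (x⁻¹ * a * x)).mpr (by
          have : x * (x⁻¹ * a * x) * x⁻¹ = a := by group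
          rw [this]; exact ha)
        exact this
      have h7 := mem_centralizer_iff.mp hyc _ h6
      calc a * (x * y * x⁻¹) = x * ((x⁻¹ * a * x) * y) * x⁻¹ := by group
        _ = x * (y * (x⁻¹ * a * x)) * x⁻¹ := by rw [h7]
        _ = (x * y * x⁻¹) * a := by group
  have hFA : ⁅fittingSubgroup S, zpowers k⁆ ≤ A := commutator_le.mpr hcomm
  have hAk : ⁅A, zpowers k⁆ = ⊥ := by
    rw [commutator_eq_bot_iff_le_centralizer]
    intro a ha
    rw [mem_centralizer_iff]
    intro y hy
    exact (mem_centralizer_iff.mp ((zpowers_le.mpr hk) hy) a ha).symm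
  have hFkk : ⁅⁅fittingSubgroup S, zpowers k⁆, zpowers k⁆ = ⊥ :=
    le_bot_iff.mp ((commutator_mono hFA le_rfl).trans hAk.le)
  -- `k` centralises `O_q(S)`, `q ≠ p`
  have hq : ∀ q : ℕ, q.Prime → q ≠ p → k ∈ centralizer (pCore q S : Set S) := by
    intro q hq hqp
    have : Fact q.Prime := ⟨hq⟩
    have hqn := Fitting.normal_pCore q (G := S)
    have h6 : ⁅⁅pCore q S, zpowers k⁆, zpowers k⁆ = ⊥ :=
      le_bot_iff.mp ((commutator_mono (commutator_mono (Fitting.pCore_le_fittingSubgroup q) le_rfl) le_rfl).trans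
        hFkk.le)
    have h7 := CoprimeAction2.commutator_eq_bot_of_commutator_commutator (A := zpowers k) (K := pCore q S)
      le_normalizer_of_normal (by
        obtain ⟨a, ha⟩ := IsPGroup.iff_card.mp hkp
        obtain ⟨b, hb⟩ := IsPGroup.iff_card.mp (Fitting.isPGroup_pCore q (G := S))
        rw [ha, hb]
        exact Nat.Coprime.pow _ _ ((Nat.coprime_primes hp.out hq).mpr (Ne.symm hqp))) (Or.inl inferInstance) h6
    rw [commutator_eq_bot_iff_le_centralizer] at h7
    rw [mem_centralizer_iff]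
    intro x hx
    exact (mem_centralizer_iff.mp (h7 hx) k (mem_zpowers k)).symm
  -- `p`-stability
  have hpn := Fitting.normal_pCore p (G := S)
  have hquad : QuadSection.Quad (pCore p S) k := by
    apply QuadSection.quad_of_commutator
    exact le_bot_iff.mp ((commutator_mono (commutator_mono (Fitting.pCore_le_fittingSubgroup p) le_rfl) le_rfl).trans
        hFkk.le)
  have hps : Cfsg.IsPSolvable p S := PLength.isPSolvable_of_isSolvable
  obtain ⟨D, -, hDn, hDp, hkD⟩ := PStabInvolve.exists_stable (p := p) (by omega) PStabInvolve.obst_sl2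
    (PSolvStable.not_involves_of_isPSolvable h5 hps) (P := pCore p S) (N := ⊤) (Fitting.isPGroup_pCore p)
    (by rw [normalizer_eq_top]) (mem_top k) hquad
  have hDnor : D.Normal := by
    rw [← normalizer_eq_top_iff]; exact top_le_iff.mp hDn
  set W : Subgroup S := D ⊓ ⨅ q : {q : ℕ // q.Prime ∧ q ≠ p}, centralizer (pCore (q : ℕ) S : Set S) with hW
  have hWn : W.Normal := by
    have : (⨅ q : {q : ℕ // q.Prime ∧ q ≠ p}, centralizer (pCore (q : ℕ) S : Set S)).Normal := by
      apply Subgroup.normal_iInf_normal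
      intro q
      have := Fitting.normal_pCore (q : ℕ) (G := S)
      infer_instance
    infer_instance
  have hkS : k ∈ pCore p S := by
    apply mem_pCore W _ _ _ hkp
    · intro x hx
      obtain ⟨n, hn⟩ := hDp x hx.1
      refine ⟨n, ?_⟩
      have h6 : fittingSubgroup S ≤ centralizer ({x ^ p ^ n} : Set S) := by
        rw [Fitting.fittingSubgroup_eq_iSup_pCore]
        apply iSup_le
        rintro ⟨q, hq⟩
        change pCore q S ≤ _
        intro y hy
        rw [mem_centralizer_singleton_iff]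
        by_cases hqp : q = p
        · subst hqp
          exact mem_centralizer_iff.mp hn y hy
        · have h7 := mem_iInf.mp hx.2 ⟨q, hq, hqp⟩
          exact mem_centralizer_iff.mp (pow_mem h7 _) y hy
      rw [mem_centralizer_iff]
      intro y hy
      exact mem_centralizer_singleton_iff.mp (h6 hy)
    · intro q hq hqp x hx
      exact mem_iInf.mp hx.2 ⟨q, hq, hqp⟩
    · refine mem_inf.mpr ⟨hkD, mem_iInf.mpr ?_⟩
      rintro ⟨q, hq1, hqp⟩
      exact hq q hq1 hqp
  rw [← hAc]
  exact mem_inf.mpr ⟨hFFH (Fitting.pCore_le_fittingSubgroup p hkS), hk⟩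

theorem gen {S : Type u} [Group S] [Finite S] [Group.IsSolvable S]
    (π : Set ℕ) (h2 : 2 ∉ π) (h3 : 3 ∉ π) (H : Subgroup S) (hH : Cfsg.IsPiHall π H)
    (A : Subgroup S) (hA : Cfsg.IsSCN ((Cfsg.fittingSubgroup H).map H.subtype) A)
    {p : ℕ} [hp : Fact p.Prime] (hpπ : p ∈ π) {k : S} (hk : k ∈ centralizer (A : Set S))
    (hkp : IsPGroup p (zpowers k)) : k ∈ A := by
  classical
  set E : Subgroup S := piCore πᶜ S with hE
  set f := QuotientGroup.mk' E with hf
  have hfs : Function.Surjective f := QuotientGroup.mk'_surjective E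
  have hAH : A ≤ H := hA.1.trans (map_subtype_le _)
  have hEπ := H32Cores.piCore_primes πᶜ S
  have hHE : ∀ x ∈ H, x ∈ E → x = 1 := by
    intro x hxH hxE
    have h6 : H ⊓ E = ⊥ := by
      rw [← Subgroup.card_eq_one]
      exact HallPi.PiNum.eq_one (π := π) (HallPi.PiNum.of_dvd hH.1 (card_dvd_of_le inf_le_left))
        (HallPi.PiNum.of_dvd hEπ (card_dvd_of_le inf_le_right))
    have : x ∈ H ⊓ E := ⟨hxH, hxE⟩
    rwa [h6, mem_bot] at this
  have hHbar : Cfsg.IsPiHall π (H.map f) := HallPi.isPiHall_map_mk' hH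
  -- the isomorphism
  let e0 : H →* H.map f := f.subgroupMap H
  have he0 : Function.Bijective e0 := by
    refine ⟨?_, f.subgroupMap_surjective H⟩
    rw [injective_iff_map_eq_one]
    rintro ⟨x, hx⟩ h
    apply Subtype.ext
    apply hHE x hx
    have : f x = 1 := congrArg Subtype.val h
    exact (QuotientGroup.eq_one_iff x).mp this
  let e : H ≃* H.map f := MulEquiv.ofBijective e0 he0
  have hFmap : (fittingSubgroup (H.map f)).map (H.map f).subtype = ((fittingSubgroup H).map H.subtype).map f := by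
    rw [← Fitting.map_fittingSubgroup_equiv e, Subgroup.map_map, Subgroup.map_map]
    rfl
  set P : Subgroup S := (fittingSubgroup H).map H.subtype with hP
  have hPH : P ≤ H := map_subtype_le _
  have hAbar : Cfsg.IsSCN ((fittingSubgroup (H.map f)).map (H.map f).subtype) (A.map f) := by
    rw [hFmap]
    obtain ⟨h1, h2, h3⟩ := hA
    refine ⟨map_mono h1, ?_, ?_⟩
    · exact (map_mono h2).trans (Subgroup.le_normalizer_map f)
    · apply le_antisymm
      · rintro _ ⟨⟨x, hx, rfl⟩, hxc⟩
        refine ⟨x, ?_, rfl⟩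
        rw [SetLike.mem_coe, ← h3]
        refine mem_inf.mpr ⟨hx, ?_⟩
        rw [mem_centralizer_iff]
        intro a ha
        have h4 := mem_centralizer_iff.mp hxc (f a) ⟨a, ha, rfl⟩
        have h5 : a * x * a⁻¹ * x⁻¹ ∈ E := by
          rw [← QuotientGroup.eq_one_iff]
          change f (a * x * a⁻¹ * x⁻¹) = 1
          rw [map_mul, map_mul, map_mul, map_inv, map_inv, h4]; group
        have h6 : a * x * a⁻¹ * x⁻¹ ∈ H :=
          mul_mem (mul_mem (mul_mem (hAH ha) (hPH hx)) (inv_mem (hAH ha))) (inv_mem (hPH hx))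
        have h7 := hHE _ h6 h5
        calc a * x = (a * x * a⁻¹ * x⁻¹) * x * a := by group
          _ = x * a := by rw [h7, one_mul]
      · rintro _ ⟨a, ha, rfl⟩
        refine mem_inf.mpr ⟨⟨a, h1 ha, rfl⟩, ?_⟩
        rw [mem_centralizer_iff]
        rintro _ ⟨b, hb, rfl⟩
        have h4 : a ∈ centralizer (A : Set S) := by
          rw [SetLike.mem_coe, ← h3] at ha
          exact (mem_inf.mp ha).2
        rw [← map_mul, ← map_mul, mem_centralizer_iff.mp h4 b hb]
  have hfk : f k ∈ centralizer ((A.map f : Subgroup (S ⧸ E)) : Set (S ⧸ E)) := by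
    rw [mem_centralizer_iff]
    rintro _ ⟨b, hb, rfl⟩
    rw [← map_mul, ← map_mul, mem_centralizer_iff.mp hk b hb]
  have hfkp : IsPGroup p (zpowers (f k)) := by
    have := hkp.map f
    rwa [MonoidHom.map_zpowers] at this
  obtain ⟨a, ha, hak⟩ := core π h2 h3 (H32Cores.piCore_quotient_eq_bot πᶜ) (H.map f) hHbar (A.map f) hAbar hpπ hfk hfkp
  -- `a⁻¹ k ∈ E`
  have h4 : a⁻¹ * k ∈ E := by
    rw [← QuotientGroup.eq_one_iff]
    change f (a⁻¹ * k) = 1
    rw [map_mul, map_inv, hak]; group
  have hcom : Commute a⁻¹ k := by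
    have : Commute a k := mem_centralizer_iff.mp hk a ha
    exact this.inv_left
  have h5 : HallPi.PiNum π (orderOf (a⁻¹ * k)) := by
    have h6 : orderOf (a⁻¹ * k) ∣ orderOf a⁻¹ * orderOf k :=
      (hcom.orderOf_mul_dvd_lcm).trans (Nat.lcm_dvd_mul _ _)
    apply HallPi.PiNum.of_dvd _ h6
    apply HallPi.PiNum.mul
    · apply HallPi.PiNum.of_dvd hH.1
      have h7 := orderOf_dvd_natCard (⟨a⁻¹, inv_mem (hAH ha)⟩ : H)
      rwa [← Subgroup.orderOf_coe] at h7
    · obtain ⟨n, hn⟩ := IsPGroup.iff_card.mp hkp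
      rw [Nat.card_zpowers] at hn
      rw [hn]
      exact HallPi.piNum_prime_pow hp.out hpπ
  have h6 : HallPi.PiNum πᶜ (orderOf (a⁻¹ * k)) := by
    apply HallPi.PiNum.of_dvd hEπ
    have h7 := orderOf_dvd_natCard (⟨a⁻¹ * k, h4⟩ : E)
    rwa [← Subgroup.orderOf_coe] at h7
  have h7 : a⁻¹ * k = 1 := orderOf_eq_one_iff.mp (h5.eq_one h6)
  have h8 : k = a := by
    have := congrArg (fun z => a * z) h7
    simpa using this
  rw [h8]; exact ha

/-- Let S be a finite solvable group, π a set of primes containing neither 2 nor 3, H a Hall π-subgroup of S, and A a self-centralizing normal subgroup of the Fitting subgroup F(H). Then C_S(A) = A × D for a normal subgroup D of C_S(A) whose order has no prime divisor in π. -/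
theorem result {S : Type*} [Group S] [Finite S] [Group.IsSolvable S]
    (π : Set ℕ) (h2 : 2 ∉ π) (h3 : 3 ∉ π) (H : Subgroup S) (hH : Cfsg.IsPiHall π H)
    (A : Subgroup S) (hA : Cfsg.IsSCN ((Cfsg.fittingSubgroup H).map H.subtype) A) :
    ∃ D : Subgroup S, D ≤ Subgroup.centralizer (A : Set S) ∧
      (∀ c ∈ Subgroup.centralizer (A : Set S), ∀ d ∈ D, c * d * c⁻¹ ∈ D) ∧
      A ⊓ D = ⊥ ∧ A ⊔ D = Subgroup.centralizer (A : Set S) ∧
      ∀ q : ℕ, q.Prime → q ∣ Nat.card D → q ∉ π := by
  classical
  have hAc : A ≤ centralizer (A : Set S) := by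
    have := hA.2.2
    intro a ha
    rw [← this] at ha
    exact (mem_inf.mp ha).2
  have hAH : A ≤ H := hA.1.trans (map_subtype_le _)
  set C : Subgroup S := centralizer (A : Set S) with hC
  have hCA : C ≤ centralizer (A : Set S) := le_rfl
  -- `|C : A|` is a `π'`-number
  have hidx : HallPi.PiNum πᶜ (A.relIndex C) := by
    intro p hp hd hpπ
    have hpF : Fact p.Prime := ⟨hp⟩
    obtain ⟨T⟩ : Nonempty (Sylow p C) := inferInstance
    have hT : (T : Subgroup C) ≤ A.subgroupOf C := by
      intro x hx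
      rw [mem_subgroupOf]
      apply gen π h2 h3 H hH A hA hpπ x.2
      have h5 : IsPGroup p ((T : Subgroup C).map C.subtype) := T.2.map _
      apply h5.to_le
      rw [zpowers_le]
      exact ⟨x, hx, rfl⟩
    exact T.not_dvd_index (hd.trans (index_dvd_of_le hT))
  have hAπ : HallPi.PiNum π (Nat.card A) := HallPi.PiNum.of_dvd hH.1 (card_dvd_of_le hAH)
  have hCN : C ≤ normalizer (A : Set S) := centralizer_le_normalizer _
  obtain ⟨D, hDC, h4, h5, h6⟩ := HallPi.exists_complement_rel hAc hCN (hAπ.coprime hidx)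
  refine ⟨D, hDC, ?_, h4, h5, ?_⟩
  · intro c hc d hd
    rw [← h5] at hc
    obtain ⟨a, ha, d', hd', rfl⟩ := (SubgroupTools.mem_sup_of_le_normalizer
      (hDC.trans hCN)).mp hc
    have h7 : d' * d * d'⁻¹ ∈ D := mul_mem (mul_mem hd' hd) (inv_mem hd')
    have h8 := mem_centralizer_iff.mp (hDC h7) a ha
    have h9 : a * d' * d * (a * d')⁻¹ = d' * d * d'⁻¹ := by
      calc a * d' * d * (a * d')⁻¹ = (a * (d' * d * d'⁻¹)) * a⁻¹ := by group
        _ = _ := by rw [h8]; group
    rw [h9]; exact h7
  · intro q hq hd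
    rw [h6] at hd
    exact hidx q hq hd


end Cfsg.Agent.S1893
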