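import Cfsg.Statements.S1894
import Cfsg.Agent.Lib.H32PGroup

set_option autoImplicit false
open Cfsg

namespace Cfsg.Agent.S1894

open Cfsg.Agent.Lib.H32PGroup

/-- Let P be a finite p-group, A a normal subgroup of P and B an abelian subgroup of A that is normal in P. Then some subgroup C of A containing B is normal in P and is self-centralizing and normal in A (C ∈ SCN(A)). -/
theorem result {P : Type*} [Group P] [Finite P] {p : ℕ} [Fact p.Prime] (hP : IsPGroup p P)
    (A : Subgroup P) [A.Normal] (B : Subgroup P) [B.Normal] (hBA : B ≤ A) (hB : IsMulCommutative B) :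
    ∃ C : Subgroup P, C.Normal ∧ B ≤ C ∧ Cfsg.IsSCN A C := by
  set S : Set (Subgroup P) := {C | C.Normal ∧ B ≤ C ∧ C ≤ A ∧ IsMulCommutative C} with hS
  have hSne : S.Nonempty := ⟨B, inferInstance, le_refl _, hBA, hB⟩
  obtain ⟨C, hC⟩ := (Set.toFinite S).exists_maximal hSne
  obtain ⟨hCn, hBC, hCA, hCc⟩ := hC.prop
  refine ⟨C, hCn, hBC, hCA, ?_, ?_⟩
  · intro x _
    rw [Subgroup.normalizer_eq_top]; trivial
  set D : Subgroup P := A ⊓ Subgroup.centralizer (C : Set P) with hD
  have hDn : D.Normal := by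
    rw [hD]; infer_instance
  have hCD : C ≤ D := by
    refine le_inf hCA ?_
    intro x hx
    rw [Subgroup.mem_centralizer_iff]
    intro y hy
    have := hCc.is_comm.comm (⟨y, hy⟩ : C) ⟨x, hx⟩
    exact congrArg Subtype.val this
  by_contra hne
  have hlt : C < D := lt_of_le_of_ne hCD (fun h => hne h.symm)
  obtain ⟨d, hdD, hdC, hd⟩ := exists_central_mod hP C D hlt
  -- new subgroup
  set C' : Subgroup P := C ⊔ Subgroup.zpowers d with hC'
  have hmem : ∀ x ∈ C', ∃ c ∈ C, ∃ i : ℤ, x = c * d ^ i := by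
    intro x hx
    rw [hC', Subgroup.mem_sup_of_normal_left] at hx
    obtain ⟨c, hc, y, hy, rfl⟩ := hx
    obtain ⟨i, rfl⟩ := hy
    exact ⟨c, hc, i, rfl⟩
  have hdcomm : ∀ c ∈ C, c * d = d * c := by
    intro c hc
    exact (Subgroup.mem_centralizer_iff.mp hdD.2) c hc
  have hdn : ∀ g : P, g * d * g⁻¹ ∈ C' := by
    intro g
    have : g * d * g⁻¹ = (g * d * g⁻¹ * d⁻¹) * d := by group
    rw [this]
    exact Subgroup.mul_mem_sup (hd g) (Subgroup.mem_zpowers d)
  have hC'n : C'.Normal := by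
    constructor
    intro x hx g
    obtain ⟨c, hc, i, rfl⟩ := hmem x hx
    have : g * (c * d ^ i) * g⁻¹ = (g * c * g⁻¹) * (g * d * g⁻¹) ^ i := by
      rw [conj_zpow]; group
    rw [this]
    exact C'.mul_mem ((le_sup_left : C ≤ C') (hCn.conj_mem c hc g)) (C'.zpow_mem (hdn g) i)
  have hC'A : C' ≤ A := sup_le hCA (by rw [Subgroup.zpowers_le]; exact hdD.1)
  have hC'c : IsMulCommutative C' := by
    refine ⟨⟨?_⟩⟩
    rintro ⟨x, hx⟩ ⟨y, hy⟩
    apply Subtype.ext
    obtain ⟨c, hc, i, rfl⟩ := hmem x hx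
    obtain ⟨e, he, j, rfl⟩ := hmem y hy
    show c * d ^ i * (e * d ^ j) = e * d ^ j * (c * d ^ i)
    have h1 : Commute (d ^ i) e := Commute.zpow_left (hdcomm e he).symm i
    have h2 : Commute (d ^ j) c := Commute.zpow_left (hdcomm c hc).symm j
    have h3 : c * e = e * c := congrArg Subtype.val (hCc.is_comm.comm (⟨c, hc⟩ : C) ⟨e, he⟩)
    calc c * d ^ i * (e * d ^ j) = c * (d ^ i * e) * d ^ j := by group
      _ = c * (e * d ^ i) * d ^ j := by rw [h1.eq]
      _ = (c * e) * (d ^ i * d ^ j) := by group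
      _ = (e * c) * (d ^ j * d ^ i) := by rw [h3, ← zpow_add, ← zpow_add, add_comm]
      _ = e * (c * d ^ j) * d ^ i := by group
      _ = e * (d ^ j * c) * d ^ i := by rw [h2.eq]
      _ = e * d ^ j * (c * d ^ i) := by group
  have h4 : C' ≤ C := hC.le_of_ge (⟨hC'n, hBC.trans le_sup_left, hC'A, hC'c⟩ : C' ∈ S) le_sup_left
  exact hdC (h4 ((le_sup_right : Subgroup.zpowers d ≤ C') (Subgroup.mem_zpowers d)))

end Cfsg.Agent.S1894
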