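import Cfsg.Statements.S1895
import Cfsg.Agent.Lib.PRank2C

set_option autoImplicit false
open Cfsg

namespace Cfsg.Agent.S1895

/-- Let p be an odd prime and G a finite p-solvable group with no elementary abelian subgroup of order p³. Then every chief factor H/K of G (H, K normal in G with no normal subgroup of G strictly between them) whose order is a power of p has order p or p². -/
theorem result {G : Type*} [Group G] [Finite G] {p : ℕ} [Fact p.Prime] (hp : p ≠ 2)
    (hG : Cfsg.IsPSolvable p G) (hr : Cfsg.PRankLE p 2 G)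
    (H K : Subgroup G) [H.Normal] [K.Normal] (hKH : K < H) (hpow : ∃ n : ℕ, K.relIndex H = p ^ n)
    (hchief : ∀ L : Subgroup G, L.Normal → K ≤ L → L ≤ H → L = K ∨ L = H) :
    K.relIndex H = p ∨ K.relIndex H = p ^ 2 := by
  classical
  have hpp := (Fact.out : p.Prime)
  obtain ⟨n, hn⟩ := hpow
  suffices hn2 : n ≤ 2 by
    have hn0 : n ≠ 0 := by
      rintro rfl
      rw [pow_zero, Subgroup.relIndex_eq_one] at hn
      exact absurd (le_antisymm hKH.le hn) hKH.ne
    rw [hn]
    interval_cases n
    · exact absurd rfl hn0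
    · left; rw [pow_one]
    · right; rfl
  set O := pPrimeCore p G with hO
  have hOn : O.Normal := Cfsg.Agent.Lib.PCoreTools.pPrimeCore_normal' p G
  have hOc : (Nat.card O).Coprime p := Cfsg.Agent.Lib.PCoreTools.coprime_card_pPrimeCore p
  have hn0 : n ≠ 0 := by
    rintro rfl
    rw [pow_zero, Subgroup.relIndex_eq_one] at hn
    exact absurd (le_antisymm hKH.le hn) hKH.ne
  have hHO : H ⊓ O ≤ K := by
    rcases hchief (K ⊔ (H ⊓ O)) inferInstance le_sup_left (sup_le hKH.le inf_le_left) with h | h
    · rw [← h]; exact le_sup_right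
    · exfalso
      have h1 : K.relIndex H = K.relIndex (H ⊓ O) := by
        conv_lhs => rw [← h, sup_comm]
        rw [Subgroup.relIndex_sup_right]
      have h2 : K.relIndex (H ⊓ O) ∣ Nat.card O :=
        (Subgroup.relIndex_dvd_card _ _).trans (Subgroup.card_dvd_of_le inf_le_right)
      rw [← h1, hn] at h2
      have h3 : p ∣ Nat.card O := (dvd_pow_self p hn0).trans h2
      have h4 : p ∣ (Nat.card O).gcd p := Nat.dvd_gcd h3 dvd_rfl
      rw [hOc.gcd_eq_one] at h4
      exact hpp.one_lt.ne' (Nat.dvd_one.mp h4)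
  have hKO : K ⊔ O ⊓ H = K := by rw [inf_comm]; exact sup_eq_left.mpr hHO
  set π := QuotientGroup.mk' O with hπ
  have hπs : Function.Surjective π := QuotientGroup.mk'_surjective O
  have hcK : (K.map π).comap π = K ⊔ O := by
    rw [Subgroup.comap_map_eq, hπ, QuotientGroup.ker_mk']
  have hmod : (K ⊔ O) ⊓ H = K := by
    rw [Cfsg.Agent.Lib.SubgroupTools.sup_inf_of_le_normalizer hKH.le
      (by rw [Subgroup.normalizer_eq_top_iff.mpr ‹K.Normal›]; exact le_top)]
    exact hKO
  have hrel : (K.map π).relIndex (H.map π) = p ^ n := by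
    rw [← Subgroup.relIndex_comap, hcK, ← Subgroup.inf_relIndex_right, hmod, hn]
  have hHn' : (H.map π).Normal := ‹H.Normal›.map _ hπs
  have hKn' : (K.map π).Normal := ‹K.Normal›.map _ hπs
  have hlt : K.map π < H.map π := by
    refine lt_of_le_of_ne (Subgroup.map_mono hKH.le) fun h => ?_
    rw [h, Subgroup.relIndex_self] at hrel
    have := Nat.one_lt_pow hn0 hpp.one_lt
    omega
  refine Cfsg.Agent.Lib.PRank2.main_core hp (Cfsg.Agent.Lib.H32PSolv.isPSolvable_quotient hG O)
    (Cfsg.Agent.Lib.PCoreTools.pPrimeCore_quotient_eq_bot p O hO)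
    (Cfsg.Agent.Lib.H32QdInv.pRankLE_quotient hr O hOc) hlt hrel ?_
  intro L hL hKL hLH
  rcases hchief (L.comap π ⊓ H) inferInstance
    (le_inf (Subgroup.map_le_iff_le_comap.mp hKL) hKH.le) inf_le_right with h | h
  · left
    apply le_antisymm _ hKL
    intro l hl
    obtain ⟨x, hx, rfl⟩ := hLH hl
    refine ⟨x, ?_, rfl⟩
    rw [← h]
    exact ⟨hl, hx⟩
  · right
    apply le_antisymm hLH
    rw [Subgroup.map_le_iff_le_comap]
    have := inf_eq_right.mp h
    exact this

end Cfsg.Agent.S1895
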