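import Mathlib
import Cfsg.Statements.S1897
import Cfsg.Agent.Lib.SL2HomSt
import Cfsg.Agent.Lib.K9
import Cfsg.Agent.Lib.SUTransport
import Cfsg.Agent.Lib.ClUnitary2
import Cfsg.Agent.Lib.ClSeven

set_option autoImplicit false
open Cfsg

namespace Cfsg.Agent.S1897

open Cfsg.Agent.Lib Cfsg.Agent.Lib.K9 Matrix

def tX : ℕ := 11201734891401547386299369408089591312722773199972530601382176460254543873
def tY : ℕ := 1394293525647833567935094692879365601903529924136438349262469342539108384769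
def tW : ℕ := 149306971741740169474871401249244528894815744598137438543443971271699791873
def tV : ℕ := 149306971739680068600539690088750779903256321428493832119959860858413187073
def tP : ℕ := 2291831515193553575461933131162830193733570717526266427888624015260730327041
def tR : ℕ := 3685762497643288578430772135506465164620784324690718624902719272498094997505

/-- the matrix number `t` of a table -/
def Mt (T : ℕ) (t : ZMod 7) : Matrix (Fin 3) (Fin 3) K9 :=
  fun i j => ncode ((T >>> (4 * (9 * (t : Fin 7).val + 3 * i.val + j.val))) % 16)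

abbrev MX := Mt tX
abbrev MY := Mt tY

/-- unitary matrices by a finite check -/
def isU (A : Matrix (Fin 3) (Fin 3) K9) : Prop :=
  ∀ i j, A 0 i * (A 0 j) ^ 3 + A 1 i * (A 1 j) ^ 3 + A 2 i * (A 2 j) ^ 3 = if i = j then 1 else 0

instance (A : Matrix (Fin 3) (Fin 3) K9) : Decidable (isU A) := by unfold isU; infer_instance

theorem card9 : Fintype.card K9 = 3 ^ 2 := card_K9

theorem isUn_of {A : Matrix (Fin 3) (Fin 3) K9} (h : isU A) : ClUnitary.IsUn 3 A := by
  rw [ClUnitary.isUn_iff card9]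
  ext i j
  rw [Matrix.mul_apply, Fin.sum_univ_three, Matrix.one_apply]
  exact h i j

def d3 (A : Matrix (Fin 3) (Fin 3) K9) : K9 :=
  A 0 0 * A 1 1 * A 2 2 + -(A 0 0 * A 1 2 * A 2 1) + -(A 0 1 * A 1 0 * A 2 2) + A 0 1 * A 1 2 * A 2 0 +
    A 0 2 * A 1 0 * A 2 1 + -(A 0 2 * A 1 1 * A 2 0)

theorem det_of (A : Matrix (Fin 3) (Fin 3) K9) : A.det = d3 A := by
  rw [Matrix.det_fin_three, d3]; ring

theorem uX : ∀ t, isU (MX t) := by decide +kernel
theorem uY : ∀ t, isU (MY t) := by decide +kernel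
theorem dX : ∀ t, d3 (MX t) = 1 := by decide +kernel
theorem dY : ∀ t, d3 (MY t) = 1 := by decide +kernel

/-- explicit product -/
def mm (A B : Matrix (Fin 3) (Fin 3) K9) : Matrix (Fin 3) (Fin 3) K9 :=
  fun i j => A i 0 * B 0 j + A i 1 * B 1 j + A i 2 * B 2 j

theorem mm_eq (A B : Matrix (Fin 3) (Fin 3) K9) : mm A B = A * B := by
  ext i j
  rw [Matrix.mul_apply, Fin.sum_univ_three]
  rfl

theorem aX : ∀ t u, mm (MX t) (MX u) = MX (t + u) := by decide +kernel
theorem aY : ∀ t u, mm (MY t) (MY u) = MY (t + u) := by decide +kernel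
theorem p1 : ∀ t, t ≠ 0 → mm (MX t) (MY (-t⁻¹)) = Mt tP t := by decide +kernel
theorem p2 : ∀ t, t ≠ 0 → mm (MY t) (MX (-t⁻¹)) = Mt tR t := by decide +kernel
theorem w1 : ∀ t, t ≠ 0 → mm (Mt tP t) (MX t) = Mt tW t := by decide +kernel
theorem w2 : ∀ t, t ≠ 0 → mm (Mt tR t) (MY t) = Mt tV t := by decide +kernel
theorem r1 : ∀ t u, t ≠ 0 → mm (Mt tW t) (MX u) = mm (MY (-(t⁻¹ ^ 2 * u))) (Mt tW t) := by decide +kernel
theorem r2 : ∀ t u, t ≠ 0 → mm (Mt tV t) (MY u) = mm (MX (-(t⁻¹ ^ 2 * u))) (Mt tV t) := by decide +kernel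
theorem nc : mm (MX 1) (MY 1) ≠ mm (MY 1) (MX 1) := by decide +kernel
theorem ww : mm (Mt tW 1) (Mt tW 1) = 1 := by decide +kernel

/-- the elements of order 7 -/
def X (t : ZMod 7) : SU 3 K9 3 := ⟨⟨MX t, (det_of _).trans (dX t)⟩, isUn_of (uX t)⟩
def Y (t : ZMod 7) : SU 3 K9 3 := ⟨⟨MY t, (det_of _).trans (dY t)⟩, isUn_of (uY t)⟩

theorem ext' {A B : SU 3 K9 3} (h : A.1.1 = B.1.1) : A = B := Subtype.ext (Subtype.ext h)

theorem wX {t : ZMod 7} (ht : t ≠ 0) : (X t * Y (-t⁻¹) * X t).1.1 = Mt tW t := by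
  change MX t * MY (-t⁻¹) * MX t = _
  rw [← mm_eq (MX t), p1 t ht, ← mm_eq, w1 t ht]

theorem wY {t : ZMod 7} (ht : t ≠ 0) : (Y t * X (-t⁻¹) * Y t).1.1 = Mt tV t := by
  change MY t * MX (-t⁻¹) * MY t = _
  rw [← mm_eq (MY t), p2 t ht, ← mm_eq, w2 t ht]

theorem stRel : Cfsg.Agent.S2426.StRel X Y where
  addx t u := ext' (by change MX t * MX u = MX (t + u); rw [← mm_eq, aX])
  addy t u := ext' (by change MY t * MY u = MY (t + u); rw [← mm_eq, aY])
  relx t u ht := by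
    rw [mul_inv_eq_iff_eq_mul]
    apply ext'
    change (X t * Y (-t⁻¹) * X t).1.1 * MX u = MY _ * (X t * Y (-t⁻¹) * X t).1.1
    rw [wX ht, ← mm_eq, ← mm_eq]
    exact r1 t u ht
  rely t u ht := by
    rw [mul_inv_eq_iff_eq_mul]
    apply ext'
    change (Y t * X (-t⁻¹) * Y t).1.1 * MY u = MX _ * (Y t * X (-t⁻¹) * Y t).1.1
    rw [wY ht, ← mm_eq, ← mm_eq]
    exact r2 t u ht

theorem mone : -(1 : Matrix (Fin 2) (Fin 2) (ZMod 7)) = (!![1, 1; 0, 1] * !![1, 0; -1, 1] * !![1, 1; 0, 1]) *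
        (!![1, 1; 0, 1] * !![1, 0; -1, 1] * !![1, 1; 0, 1]) := by decide

theorem sq7 : ∀ r : ZMod 7, r ^ 2 = 1 → r = 1 ∨ r = -1 := by decide

/-- The projective special unitary group PSU₃(3) (realised over the field with 9 elements) has a subgroup isomorphic to PSL₂(7). -/
theorem result {F : Type*} [Field F] [Fintype F] (hF : Fintype.card F = 9)
    {K : Type*} [Field K] [Fintype K] (hK : Fintype.card K = 7) :
    ∃ H : Subgroup (Cfsg.PSU 3 F 3), Nonempty (H ≃* Matrix.ProjectiveSpecialLinearGroup (Fin 2) K) := by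
  obtain ⟨σ⟩ := exists_equiv hF
  have hp : Fact (Nat.Prime 7) := ⟨by decide⟩
  have e1 : K ≃+* ZMod 7 := FiniteField.ringEquivOfCardEq (hK.trans (ZMod.card 7).symm)
  obtain ⟨φ, hφx, hφy⟩ := SL2HomSt.exists_hom stRel
  let ux : SpecialLinearGroup (Fin 2) (ZMod 7) := ⟨!![1, 1; 0, 1], by simp [Matrix.det_fin_two]⟩
  let uy : SpecialLinearGroup (Fin 2) (ZMod 7) := ⟨!![1, 0; 1, 1], by simp [Matrix.det_fin_two]⟩
  let ly : SpecialLinearGroup (Fin 2) (ZMod 7) := ⟨!![1, 0; -1, 1], by simp [Matrix.det_fin_two]⟩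
  have hux : φ ux = X 1 := hφx 1 ux rfl
  have huy : φ uy = Y 1 := hφy 1 uy rfl
  have hly : φ ly = Y (-1) := hφy (-1) ly rfl
  have hm1 : φ (-1) = 1 := by
    have h1 : (-1 : SpecialLinearGroup (Fin 2) (ZMod 7)) = (ux * ly * ux) * (ux * ly * ux) := by
      apply Subtype.ext
      change -(1 : Matrix (Fin 2) (Fin 2) (ZMod 7)) = (!![1, 1; 0, 1] * !![1, 0; -1, 1] * !![1, 1; 0, 1]) *
        (!![1, 1; 0, 1] * !![1, 0; -1, 1] * !![1, 1; 0, 1])
      exact mone
    have h2 : φ (ux * ly * ux) = X 1 * Y (-(1 : ZMod 7)⁻¹) * X 1 := by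
      rw [map_mul, map_mul, hux, hly, inv_one]
    rw [h1, map_mul, h2]
    apply ext'
    change (X 1 * Y (-(1 : ZMod 7)⁻¹) * X 1).1.1 * (X 1 * Y (-(1 : ZMod 7)⁻¹) * X 1).1.1 = 1
    rw [wX one_ne_zero, ← mm_eq]
    exact ww
  have hcen : ∀ z ∈ Subgroup.center (SpecialLinearGroup (Fin 2) (ZMod 7)), φ z = 1 := by
    intro z hz
    rw [Matrix.SpecialLinearGroup.mem_center_iff] at hz
    obtain ⟨r, hr, hz⟩ := hz
    rw [Fintype.card_fin] at hr
    rcases sq7 r hr with rfl | rfl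
    · have : z = 1 := Subtype.ext (by rw [← hz]; simp)
      rw [this, map_one]
    · have : z = -1 := Subtype.ext (by
        rw [← hz]
        change scalar (Fin 2) (-1 : ZMod 7) = -(1 : Matrix (Fin 2) (Fin 2) (ZMod 7))
        rw [map_neg, map_one])
      rw [this, hm1]
  let ψ : ProjectiveSpecialLinearGroup (Fin 2) (ZMod 7) →* PSU 3 K9 3 :=
    QuotientGroup.lift _ ((QuotientGroup.mk' _).comp φ) (fun z hz => by
      change (QuotientGroup.mk' _) (φ z) = 1
      rw [hcen z hz, map_one])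
  have hψ : ∀ g : SpecialLinearGroup (Fin 2) (ZMod 7),
      ψ (QuotientGroup.mk' _ g) = QuotientGroup.mk' _ (φ g) := fun g => rfl
  have : IsSimpleGroup (ProjectiveSpecialLinearGroup (Fin 2) (ZMod 7)) :=
    Matrix.ProjectiveSpecialLinearGroup.rank_two_simple (by rw [Nat.card_zmod]; omega)
  have hinj : Function.Injective ψ := by
    rw [← MonoidHom.ker_eq_bot_iff]
    refine (Subgroup.Normal.eq_bot_or_eq_top (inferInstance : ψ.ker.Normal)).resolve_right ?_
    intro htop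
    have h1 : ψ (QuotientGroup.mk' _ ux) = 1 := by
      rw [← MonoidHom.mem_ker, htop]; trivial
    rw [hψ, hux, QuotientGroup.mk'_apply, QuotientGroup.eq_one_iff, Subgroup.mem_center_iff] at h1
    have h2 := congrArg (fun A : SU 3 K9 3 => A.1.1) (h1 (Y 1))
    change MY 1 * MX 1 = MX 1 * MY 1 at h2
    rw [← mm_eq, ← mm_eq] at h2
    exact nc h2.symm
  let e2 := ClSeven.pslCongr 2 e1
  let e3 := SUTransport.psuEquiv σ.symm 3 3
  let χ : ProjectiveSpecialLinearGroup (Fin 2) K →* PSU 3 F 3 :=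
    e3.toMonoidHom.comp (ψ.comp e2.toMonoidHom)
  have hχ : Function.Injective χ := e3.injective.comp (hinj.comp e2.injective)
  exact ⟨χ.range, ⟨(MonoidHom.ofInjective hχ).symm⟩⟩

end Cfsg.Agent.S1897
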