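import Cfsg.Statements.S1898
import Mathlib.Tactic

set_option autoImplicit false
open Cfsg
open scoped commutatorElement

namespace Cfsg.Agent.S1898

/-- Let X be a finite 2-group whose derived subgroup is elementary abelian and central. Then the subgroup generated by the elements of order dividing 4 has exponent dividing 4, and every automorphism of X fixing each element of order dividing 4 has 2-power order. -/
theorem result {X : Type*} [Group X] [Finite X] (hX : IsPGroup 2 X)
    (hel : Cfsg.IsElementaryAbelian 2 (commutator X)) (hcen : commutator X ≤ Subgroup.center X) :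
    (∀ x ∈ Subgroup.closure {g : X | g ^ 4 = 1}, x ^ 4 = 1) ∧
      ∀ φ : MulAut X, (∀ g : X, g ^ 4 = 1 → φ g = g) → ∃ k : ℕ, φ ^ (2 ^ k) = 1 := by
  -- key: (x y)^4 = x^4 y^4
  have key : ∀ x y : X, (x * y) ^ 4 = x ^ 4 * y ^ 4 := by
    intro x y
    set c : X := y * x * y⁻¹ * x⁻¹ with hc
    have hcm : c ∈ commutator X := by
      have : ⁅y, x⁆ ∈ commutator X := Subgroup.commutator_mem_commutator (Subgroup.mem_top _) (Subgroup.mem_top _)
      exact this
    have hcc : ∀ g : X, c * g = g * c := fun g => (Subgroup.mem_center_iff.mp (hcen hcm) g).symm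
    have hc2 : c ^ 2 = 1 := hel.2 c hcm
    have hyx : y * x = x * y * c := by
      rw [← hcc (x * y)]
      rw [hc]; group
    have h2 : (x * y) ^ 2 = x ^ 2 * y ^ 2 * c := by
      calc (x * y) ^ 2 = x * (y * x) * y := by rw [pow_two]; group
        _ = x * (x * y * c) * y := by rw [hyx]
        _ = x * x * y * (c * y) := by group
        _ = x * x * y * (y * c) := by rw [hcc]
        _ = x ^ 2 * y ^ 2 * c := by rw [pow_two, pow_two]; group
    have hx2 : ∀ g h : X, g ^ 2 * h = h * g ^ 2 := by
      intro g h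
      have hm : ⁅g, h⁆ ∈ commutator X := Subgroup.commutator_mem_commutator (Subgroup.mem_top _) (Subgroup.mem_top _)
      have hcc' : ∀ k : X, ⁅g, h⁆ * k = k * ⁅g, h⁆ := fun k => (Subgroup.mem_center_iff.mp (hcen hm) k).symm
      have hm2 : ⁅g, h⁆ ^ 2 = 1 := hel.2 _ hm
      have hgh : g * h = ⁅g, h⁆ * (h * g) := by rw [commutatorElement_def]; group
      calc g ^ 2 * h = g * (g * h) := by rw [pow_two, mul_assoc]
        _ = g * (⁅g, h⁆ * (h * g)) := by rw [← hgh]
        _ = ⁅g, h⁆ * (g * h) * g := by rw [← mul_assoc g, ← hcc' g]; group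
        _ = ⁅g, h⁆ * (⁅g, h⁆ * (h * g)) * g := by rw [← hgh]
        _ = ⁅g, h⁆ ^ 2 * (h * g ^ 2) := by rw [pow_two, pow_two]; group
        _ = h * g ^ 2 := by rw [hm2, one_mul]
    calc (x * y) ^ 4 = ((x * y) ^ 2) ^ 2 := by rw [← pow_mul]
      _ = (x ^ 2 * y ^ 2 * c) * (x ^ 2 * y ^ 2 * c) := by rw [h2, pow_two]
      _ = (x ^ 2 * y ^ 2) * (c * (x ^ 2 * y ^ 2)) * c := by group
      _ = (x ^ 2 * y ^ 2) * ((x ^ 2 * y ^ 2) * c) * c := by rw [hcc]
      _ = x ^ 2 * (y ^ 2 * x ^ 2) * y ^ 2 * c ^ 2 := by rw [pow_two c]; group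
      _ = x ^ 2 * (x ^ 2 * y ^ 2) * y ^ 2 * c ^ 2 := by rw [hx2 y]
      _ = x ^ 4 * y ^ 4 := by
        rw [hc2, mul_one]
        rw [show x ^ 4 = x ^ 2 * x ^ 2 by rw [← pow_add], show y ^ 4 = y ^ 2 * y ^ 2 by rw [← pow_add]]
        group
  constructor
  · intro x hx
    induction hx using Subgroup.closure_induction with
    | mem x hx => exact hx
    | one => simp
    | mul x y _ _ hx hy => rw [key, hx, hy, one_mul]
    | inv x _ hx => rw [inv_pow, hx, inv_one]
  · intro φ hφ
    -- for every n, there is k such that φ^(2^k) fixes all x with x^(4^n) = 1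
    have main : ∀ n : ℕ, ∃ k : ℕ, ∀ x : X, x ^ (4 ^ n) = 1 → (φ ^ (2 ^ k)) x = x := by
      intro n
      induction n with
      | zero => exact ⟨0, fun x hx => by
          have : x = 1 := by simpa using hx
          rw [this, map_one]⟩
      | succ n ih =>
        obtain ⟨k, hk⟩ := ih
        refine ⟨k + 2, fun x hx => ?_⟩
        set ψ : MulAut X := φ ^ (2 ^ k) with hψ
        have hψ4 : ∀ g : X, g ^ 4 = 1 → ψ g = g := by
          intro g hg
          have : ∀ j : ℕ, (φ ^ j) g = g := by
            intro j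
            induction j with
            | zero => simp
            | succ j ihj =>
              rw [pow_succ]
              show (φ ^ j) (φ g) = g
              rw [hφ g hg, ihj]
          exact this _
        have h1 : ψ (x ^ 4) = x ^ 4 := by
          apply hk
          rw [← pow_mul]
          have : 4 * 4 ^ n = 4 ^ (n + 1) := by rw [pow_succ]; ring
          rw [this]; exact hx
        set c : X := x⁻¹ * ψ x with hc
        have hψx : ψ x = x * c := by rw [hc]; group
        have hc4 : c ^ 4 = 1 := by
          rw [hc, key, ← map_pow, h1, inv_pow]; group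
        have hψc : ψ c = c := hψ4 c hc4
        have hpow : ∀ j : ℕ, (ψ ^ j) x = x * c ^ j := by
          intro j
          induction j with
          | zero => simp
          | succ j ihj =>
            rw [pow_succ']
            show ψ ((ψ ^ j) x) = _
            rw [ihj, map_mul, map_pow, hψc, hψx, pow_succ']
            group
        have : φ ^ (2 ^ (k + 2)) = ψ ^ 4 := by
          rw [hψ, ← pow_mul, pow_add]
          norm_num
        rw [this, hpow, hc4, mul_one]
    obtain ⟨m, hm⟩ := IsPGroup.iff_card.mp hX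
    obtain ⟨k, hk⟩ := main m
    refine ⟨k, ?_⟩
    ext x
    show (φ ^ (2 ^ k)) x = x
    apply hk
    have h1 : x ^ (Nat.card X) = 1 := pow_card_eq_one'
    rw [hm] at h1
    have : (4 : ℕ) ^ m = 2 ^ m * 2 ^ m := by
      rw [← mul_pow]
      norm_num
    rw [this, pow_mul, h1, one_pow]

end Cfsg.Agent.S1898
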