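import Cfsg.Statements.S1899
import Mathlib.Tactic

set_option autoImplicit false
open Cfsg

namespace Cfsg.Agent.S1899

/-- Let a dihedral group of order 2n, n odd and n > 1, act on a finite abelian 2-group A through automorphisms d and t with d^n = 1, t² = 1 and t d t⁻¹ = d⁻¹, and suppose that d fixes only the identity. Then A is the internal direct product of C_A(t) and its image under d. -/
theorem result {A : Type*} [CommGroup A] [Finite A] (hA : IsPGroup 2 A)
    {n : ℕ} (hn : Odd n) (hn1 : 1 < n) (d t : MulAut A) (hd : d ^ n = 1) (ht : t ^ 2 = 1) (hdt : t * d * t⁻¹ = d⁻¹)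
    (hfix : ∀ a : A, d a = a → a = 1) :
    (MulEquiv.toMonoidHom t).eqLocus (MonoidHom.id A) ⊓ ((MulEquiv.toMonoidHom t).eqLocus (MonoidHom.id A)).map d.toMonoidHom = ⊥ ∧
      (MulEquiv.toMonoidHom t).eqLocus (MonoidHom.id A) ⊔ ((MulEquiv.toMonoidHom t).eqLocus (MonoidHom.id A)).map d.toMonoidHom = ⊤ := by
  have htt : ∀ x : A, t (t x) = x := by
    intro x
    have := congrArg (fun f : MulAut A => f x) ht
    simpa [pow_two] using this
  have htd : ∀ x : A, t (d x) = d⁻¹ (t x) := by
    intro x
    have h1 : t * d = d⁻¹ * t := by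
      rw [← hdt]; group
    have := congrArg (fun f : MulAut A => f x) h1
    simpa using this
  have hdi : ∀ x : A, d (d⁻¹ x) = x := by
    intro x
    have : (d * d⁻¹) x = x := by rw [mul_inv_cancel]; rfl
    simpa using this
  have hid : ∀ x : A, d⁻¹ (d x) = x := by
    intro x
    have : (d⁻¹ * d) x = x := by rw [inv_mul_cancel]; rfl
    simpa using this
  -- d^2 fixes only 1
  have hfix2 : ∀ a : A, d (d a) = a → a = 1 := by
    intro a ha
    apply hfix
    obtain ⟨k, hk⟩ := hn
    have h2 : ∀ j : ℕ, (d ^ (2 * j)) a = a := by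
      intro j
      induction j with
      | zero => simp
      | succ j ih =>
        have : d ^ (2 * (j + 1)) = d ^ (2 * j) * (d * d) := by
          rw [Nat.mul_succ, pow_add, pow_two]
        rw [this]
        show (d ^ (2 * j)) (d (d a)) = a
        rw [ha]; exact ih
    have h3 : (d ^ (2 * (k + 1))) a = d a := by
      have : d ^ (2 * (k + 1)) = d := by
        have : 2 * (k + 1) = n + 1 := by omega
        rw [this, pow_succ, hd, one_mul]
      rw [this]
    rw [← h3]; exact h2 _
  constructor
  · rw [eq_bot_iff]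
    rintro a ⟨ha1, ha2⟩
    rw [Subgroup.mem_bot]
    have ha1' : t a = a := ha1
    obtain ⟨b, hb, hba⟩ := ha2
    have hb' : t b = b := hb
    have hba' : d b = a := hba
    have hb1 : b = d⁻¹ a := by rw [← hba', hid]
    have h4 : t (d b) = d⁻¹ b := by rw [htd, hb']
    rw [hba', ha1'] at h4
    -- a = d⁻¹ b
    apply hfix2
    rw [h4, hdi, hba', ← h4]
  · rw [eq_top_iff]
    intro a _
    -- surjectivity of b ↦ d (d b) * b⁻¹
    have hinj : Function.Injective (fun b : A => d (d b) * b⁻¹) := by
      intro b c hbc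
      have hbc' : d (d b) * b⁻¹ = d (d c) * c⁻¹ := hbc
      have : d (d (b * c⁻¹)) = b * c⁻¹ := by
        rw [map_mul, map_mul, map_inv, map_inv]
        have e1 : d (d b) = d (d c) * c⁻¹ * b := by
          rw [← hbc']; group
        rw [e1, mul_inv_eq_iff_eq_mul]
        rw [mul_comm (b * c⁻¹), mul_assoc, mul_comm c⁻¹ b]
      have h5 := hfix2 _ this
      exact mul_inv_eq_one.mp h5
    have hsurj := Finite.surjective_of_injective hinj
    obtain ⟨b, hb⟩ := hsurj a
    have hb' : d (d b) * b⁻¹ = a := hb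
    have hx : (b * t b)⁻¹ ∈ (MulEquiv.toMonoidHom t).eqLocus (MonoidHom.id A) := by
      apply Subgroup.inv_mem
      show t (b * t b) = b * t b
      rw [map_mul, htt, mul_comm]
    have hy : d b * t (d b) ∈ (MulEquiv.toMonoidHom t).eqLocus (MonoidHom.id A) := by
      show t (d b * t (d b)) = d b * t (d b)
      rw [map_mul, htt, mul_comm]
    have hdy : d (d b * t (d b)) ∈ ((MulEquiv.toMonoidHom t).eqLocus (MonoidHom.id A)).map d.toMonoidHom :=
      ⟨_, hy, rfl⟩
    have : a = (b * t b)⁻¹ * d (d b * t (d b)) := by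
      rw [map_mul, htd, hdi, ← hb', mul_inv]
      rw [mul_comm (d (d b)) b⁻¹, mul_assoc b⁻¹ (t b)⁻¹, ← mul_assoc (t b)⁻¹ (d (d b)), mul_comm (t b)⁻¹ (d (d b))]
      group
    rw [this]
    exact Subgroup.mul_mem_sup hx hdy

end Cfsg.Agent.S1899
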