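import Cfsg.Statements.S1900
import Cfsg.Agent.Lib.H32PSolv
import Cfsg.Agent.Lib.CoprimeAction2
import Cfsg.Agent.Lib.CoprimeGen
import Cfsg.Agent.Lib.PAct

set_option autoImplicit false
open Cfsg
open scoped commutatorElement

namespace Cfsg.Agent.S1900

open Subgroup

variable {S : Type*} [Group S]

theorem le_normalizer_sup {A B K : Subgroup S} (hA : K ≤ normalizer (A : Set S))
    (hB : K ≤ normalizer (B : Set S)) : K ≤ normalizer ((A ⊔ B : Subgroup S) : Set S) := by
  intro k hk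
  rw [mem_normalizer_iff_map_conj_eq]
  change Subgroup.map (MulAut.conj k).toMonoidHom (A ⊔ B) = _
  rw [Subgroup.map_sup]
  have h1 := mem_normalizer_iff_map_conj_eq.mp (hA hk)
  have h2 := mem_normalizer_iff_map_conj_eq.mp (hB hk)
  change Subgroup.map (MulAut.conj k).toMonoidHom A = _ at h1
  change Subgroup.map (MulAut.conj k).toMonoidHom B = _ at h2
  rw [h1, h2]

/-- one step: `N ≥ N'` normal, `[N,P] ≤ N'`, `[P₁,P₂] ≤ N` implies `[P₁,P₂] ≤ N'` -/
theorem step {P X₁ X₂ P₁ P₂ N N' : Subgroup S} [hN : N.Normal] [hN' : N'.Normal] (hNN : N' ≤ N) (hNP : N ≤ P)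
    (hP1 : P₁ ≤ P) (hP2 : P₂ ≤ P)
    (hc1 : P₁ ≤ centralizer (X₁ : Set S)) (hc2 : P₂ ≤ centralizer (X₂ : Set S))
    (hX : X₁ ≤ centralizer (X₂ : Set S)) (hX1 : X₁ ≤ centralizer (X₁ : Set S))
    (hN1 : ⁅N, P⁆ ≤ N') (hgen : (N ⊓ P₁) ⊔ (N ⊓ P₂) = N)
    (h21 : ⁅P₂, X₁⁆ = P₂) (h12 : ⁅P₁, X₂⁆ = P₁) (h : ⁅P₁, P₂⁆ ≤ N) : ⁅P₁, P₂⁆ ≤ N' := by
  set M := ⁅N, X₁⁆ ⊔ N' with hM
  have hMN : M ≤ N := sup_le (commutator_le_left N _) hNN
  have hPM : P ≤ normalizer (M : Set S) := by
    rw [le_normalizer_iff_commutator_le_left]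
    exact (commutator_mono hMN le_rfl).trans (hN1.trans le_sup_right)
  have htop : ∀ (K L : Subgroup S) [K.Normal], L ≤ normalizer (K : Set S) := by
    intro K L _
    rw [normalizer_eq_top]; exact le_top
  have hcn : ∀ K L : Subgroup S, K ≤ centralizer (L : Set S) → K ≤ normalizer (L : Set S) := fun K L h =>
    h.trans (centralizer_le_normalizer _)
  have hX1M : X₁ ≤ normalizer (M : Set S) :=
    le_normalizer_sup (Cfsg.Agent.Lib.H32PSolv.le_normalizer_commutator (htop N _) (hcn _ _ hX1)) (htop N' _)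
  -- `[M, X₂] ≤ N'`
  have hMX2 : ⁅M, X₂⁆ ≤ N' := by
    set f := QuotientGroup.mk' N' with hf
    have key : ∀ K L : Subgroup S, ⁅K, L⁆ ≤ N' ↔ K.map f ≤ centralizer (L.map f : Set (S ⧸ N')) := by
      intro K L
      rw [← commutator_eq_bot_iff_le_centralizer, ← map_commutator, Subgroup.map_eq_bot_iff,
        QuotientGroup.ker_mk']
    rw [key, hM, Subgroup.map_sup]
    have h0 : N'.map f = ⊥ := by
      rw [Subgroup.map_eq_bot_iff, QuotientGroup.ker_mk']
    rw [h0, sup_bot_eq, map_commutator]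
    have hab : N.map f ≤ centralizer (N.map f : Set (S ⧸ N')) := by
      rw [← key]; exact (commutator_mono le_rfl hNP).trans hN1
    rw [commutator_le]
    rintro n hn x hx
    -- n = a1 * a2
    rw [← hgen, Subgroup.map_sup] at hn
    have hcomm : (N ⊓ P₁).map f ≤ normalizer ((N ⊓ P₂).map f : Set (S ⧸ N')) := by
      refine le_trans ?_ (centralizer_le_normalizer _)
      exact (map_mono inf_le_left).trans (hab.trans (centralizer_le (map_mono inf_le_left)))
    have h7 := coe_mul_of_left_le_normalizer_right _ _ hcomm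
    rw [← SetLike.mem_coe, h7] at hn
    obtain ⟨a1, ha1, a2, ha2, rfl⟩ := Set.mem_mul.mp hn
    have e1 : ⁅a1, x⁆ = 1 := by
      rw [commutatorElement_eq_one_iff_mul_comm]
      have : a1 ∈ centralizer (X₁.map f : Set (S ⧸ N')) := by
        obtain ⟨b, hb, rfl⟩ := ha1
        rw [mem_centralizer_iff]
        rintro _ ⟨c, hc, rfl⟩
        rw [← map_mul, ← map_mul, (mem_centralizer_iff.mp (hc1 hb.2)) c hc]
      exact ((mem_centralizer_iff.mp this) x hx).symm
    have h2in : ⁅a2, x⁆ ∈ (N ⊓ P₂).map f ⊔ ⁅(N ⊓ P₂).map f, X₁.map f⁆ := by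
      apply le_sup_right (a := (N ⊓ P₂).map f)
      exact commutator_mem_commutator ha2 hx
    have hN2 : ⁅a2, x⁆ ∈ N.map f := by
      have : ⁅N.map f, X₁.map f⁆ ≤ N.map f := by
        rw [← map_commutator]; exact map_mono (commutator_le_left N _)
      exact this (commutator_mem_commutator (map_mono inf_le_left ha2) hx)
    have e2 : ⁅a1 * a2, x⁆ = ⁅a2, x⁆ := by
      rw [commutatorElement_mul_left_eq_conj_mul, e1, mul_one]
      have h3 := (mem_centralizer_iff.mp (hab (map_mono inf_le_left ha1))) _ hN2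
      rw [← h3]; group
    rw [e2]
    -- `[P₂, X₁] = P₂` is centralized by `X₂`
    obtain ⟨b, hb, rfl⟩ := ha2
    obtain ⟨c, hc, rfl⟩ := hx
    have h4 : ⁅b, c⁆ ∈ P₂ := by
      rw [← h21]; exact commutator_mem_commutator hb.2 hc
    rw [← map_commutatorElement, mem_centralizer_iff]
    rintro _ ⟨d, hd, rfl⟩
    rw [← map_mul, ← map_mul, (mem_centralizer_iff.mp (hc2 h4)) d hd]
  -- first three subgroups
  have hc11 : ⁅X₁, P₁⁆ = ⊥ := by
    rw [commutator_comm, commutator_eq_bot_iff_le_centralizer]; exact hc1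
  have hc22 : ⁅X₂, P₂⁆ = ⊥ := by
    rw [commutator_comm, commutator_eq_bot_iff_le_centralizer]; exact hc2
  have hs1 : ⁅⁅P₂, X₁⁆, P₁⁆ ≤ M := by
    apply Cfsg.Agent.Lib.PAct.three_subgroups (hP2.trans hPM) hX1M (hP1.trans hPM)
    · rw [hc11, commutator_bot_left]; exact bot_le
    · exact (commutator_mono h le_rfl).trans le_sup_left
  rw [h21, commutator_comm] at hs1
  have hs2 : ⁅⁅P₁, X₂⁆, P₂⁆ ≤ N' := by
    apply Cfsg.Agent.Lib.PAct.three_subgroups (htop _ _) (htop _ _) (htop _ _)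
    · rw [hc22, commutator_bot_left]; exact bot_le
    · rw [commutator_comm P₂ P₁]
      exact (commutator_mono hs1 le_rfl).trans hMX2
  rwa [h12] at hs2

/-- Let S = PQ be a finite group with P a normal Sylow p-subgroup and Q elementary abelian of order q², q a prime different from p. If exactly two subgroups X₁, X₂ of order q in Q have a nontrivial centralizer in P, then P is the internal direct product of C_P(X₁) and C_P(X₂): they commute elementwise, meet trivially and generate P. -/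
theorem result {S : Type*} [Group S] [Finite S] {p q : ℕ} [Fact p.Prime] [Fact q.Prime] (hpq : p ≠ q)
    (P : Sylow p S) [(P : Subgroup S).Normal] (Q : Subgroup S) (hQ : Cfsg.IsElementaryAbelian q Q) (hQc : Nat.card Q = q ^ 2)
    (hS : (P : Subgroup S) ⊔ Q = ⊤)
    (X₁ X₂ : Subgroup S) (h₁ : X₁ ≤ Q) (h₂ : X₂ ≤ Q) (h₁₂ : X₁ ≠ X₂) (hc₁ : Nat.card X₁ = q) (hc₂ : Nat.card X₂ = q)
    (hf₁ : (P : Subgroup S) ⊓ Subgroup.centralizer (X₁ : Set S) ≠ ⊥)
    (hf₂ : (P : Subgroup S) ⊓ Subgroup.centralizer (X₂ : Set S) ≠ ⊥)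
    (honly : ∀ X : Subgroup S, X ≤ Q → Nat.card X = q →
      (P : Subgroup S) ⊓ Subgroup.centralizer (X : Set S) ≠ ⊥ → X = X₁ ∨ X = X₂) :
    ⁅(P : Subgroup S) ⊓ Subgroup.centralizer (X₁ : Set S), (P : Subgroup S) ⊓ Subgroup.centralizer (X₂ : Set S)⁆ = ⊥ ∧
      ((P : Subgroup S) ⊓ Subgroup.centralizer (X₁ : Set S)) ⊓ ((P : Subgroup S) ⊓ Subgroup.centralizer (X₂ : Set S)) = ⊥ ∧
      ((P : Subgroup S) ⊓ Subgroup.centralizer (X₁ : Set S)) ⊔ ((P : Subgroup S) ⊓ Subgroup.centralizer (X₂ : Set S)) = P := by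
  set P' : Subgroup S := (P : Subgroup S) with hP'
  set P₁ := P' ⊓ Subgroup.centralizer (X₁ : Set S) with hP1
  set P₂ := P' ⊓ Subgroup.centralizer (X₂ : Set S) with hP2
  have hPp : IsPGroup p P' := P.2
  have hq : q.Prime := Fact.out
  have hp : p.Prime := Fact.out
  have hab : ∀ a ∈ Q, ∀ b ∈ Q, a * b = b * a := fun a ha b hb => isMulCommutative_iff_of_setLike.mp hQ.1 a ha b hb
  -- generators
  have hgenX : ∀ X : Subgroup S, Nat.card X = q → ∃ a ∈ X, a ≠ 1 := by
    intro X hX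
    have : X ≠ ⊥ := by
      rintro rfl
      rw [Subgroup.card_bot] at hX
      exact hq.one_lt.ne hX
    obtain ⟨a, ha⟩ := (Subgroup.ne_bot_iff_exists_ne_one).mp this
    exact ⟨a, a.2, fun h => ha (Subtype.ext h)⟩
  have hzp : ∀ X : Subgroup S, Nat.card X = q → ∀ a ∈ X, a ≠ 1 → X = Subgroup.zpowers a := by
    intro X hX a ha ha1
    symm
    apply Subgroup.eq_of_le_of_card_ge (by rwa [Subgroup.zpowers_le])
    rw [hX]
    have h1 : Nat.card (Subgroup.zpowers a) ∣ q := by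
      rw [← hX]; exact Subgroup.card_dvd_of_le (by rwa [Subgroup.zpowers_le])
    rcases (Nat.dvd_prime hq).mp h1 with h2 | h2
    · exfalso
      rw [Subgroup.card_eq_one, Subgroup.zpowers_eq_bot] at h2
      exact ha1 h2
    · exact h2.ge
  have hcardz : ∀ a ∈ Q, a ≠ 1 → Nat.card (Subgroup.zpowers a) = q := by
    intro a ha ha1
    rw [Nat.card_zpowers]
    exact orderOf_eq_prime (hQ.2 a ha) ha1
  have hCz : ∀ a : S, Subgroup.centralizer (Subgroup.zpowers a : Set S) = Subgroup.centralizer {a} := by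
    intro a
    rw [Subgroup.zpowers_eq_closure, Subgroup.centralizer_closure]
  have hnc : ¬ IsCyclic Q := by
    intro hcyc
    obtain ⟨g, hg⟩ := hcyc.exists_generator
    have h1 : orderOf g ∣ q := by
      apply orderOf_dvd_of_pow_eq_one
      exact Subtype.ext (hQ.2 g g.2)
    have h2 : orderOf g = q ^ 2 := by rw [← hQc]; exact orderOf_eq_card_of_forall_mem_zpowers hg
    rw [h2] at h1
    have := Nat.le_of_dvd hq.pos h1
    nlinarith [hq.one_lt]
  have hcopG : ∀ K L : Subgroup S, K ≤ Q → L ≤ P' → (Nat.card K).Coprime (Nat.card L) := by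
    intro K L hK hL
    obtain ⟨m, hm⟩ := IsPGroup.iff_card.mp hPp
    apply Nat.Coprime.coprime_dvd_left (Subgroup.card_dvd_of_le hK)
    apply Nat.Coprime.coprime_dvd_right (Subgroup.card_dvd_of_le hL)
    rw [hm, hQc]
    exact Nat.Coprime.pow _ _ ((Nat.coprime_primes hq hp).mpr hpq.symm)
  obtain ⟨a₁, ha₁, ha₁1⟩ := hgenX X₁ hc₁
  obtain ⟨a₂, ha₂, ha₂1⟩ := hgenX X₂ hc₂
  have e1 := hzp X₁ hc₁ a₁ ha₁ ha₁1
  have e2 := hzp X₂ hc₂ a₂ ha₂ ha₂1
  -- fixed points of the whole group are trivial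
  have hfix : ∀ x ∈ P', x ∈ Subgroup.centralizer (X₁ : Set S) → x ∈ Subgroup.centralizer (X₂ : Set S) → x = 1 := by
    intro x hx hx1 hx2
    by_contra hne
    have hbQ : a₁ * a₂ ∈ Q := Q.mul_mem (h₁ ha₁) (h₂ ha₂)
    have hb1 : a₁ * a₂ ≠ 1 := by
      intro h
      apply h₁₂
      have : a₁ ∈ X₂ := by
        rw [mul_eq_one_iff_eq_inv] at h; rw [h]; exact X₂.inv_mem ha₂
      rw [hzp X₂ hc₂ a₁ this ha₁1]; exact e1
    have h3 := honly (Subgroup.zpowers (a₁ * a₂)) (by rwa [Subgroup.zpowers_le]) (hcardz _ hbQ hb1) (by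
      intro h
      apply hne
      have : x ∈ (P' ⊓ Subgroup.centralizer (Subgroup.zpowers (a₁ * a₂) : Set S)) := by
        refine Subgroup.mem_inf.mpr ⟨hx, ?_⟩
        rw [hCz, Subgroup.mem_centralizer_singleton_iff]
        have c1 := (Subgroup.mem_centralizer_iff.mp hx1) a₁ ha₁
        have c2 := (Subgroup.mem_centralizer_iff.mp hx2) a₂ ha₂
        calc x * (a₁ * a₂) = (x * a₁) * a₂ := by group
          _ = a₁ * (x * a₂) := by rw [← c1]; group
          _ = a₁ * a₂ * x := by rw [← c2]; group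
      rw [h] at this
      exact Subgroup.mem_bot.mp this)
    rcases h3 with h3 | h3
    · have : a₁ * a₂ ∈ X₁ := by rw [← h3]; exact Subgroup.mem_zpowers _
      have h4 : a₂ ∈ X₁ := (Subgroup.mul_mem_cancel_left X₁ ha₁).mp this
      exact h₁₂ ((hzp X₁ hc₁ a₂ h4 ha₂1).trans e2.symm)
    · have : a₁ * a₂ ∈ X₂ := by rw [← h3]; exact Subgroup.mem_zpowers _
      have h4 : a₁ ∈ X₂ := (Subgroup.mul_mem_cancel_right X₂ ha₂).mp this
      exact h₁₂ (e1.trans (hzp X₂ hc₂ a₁ h4 ha₁1).symm)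
  -- generation
  have hgen : ∀ K : Subgroup S, K ≤ P' → Q ≤ Subgroup.normalizer (K : Set S) → (K ⊓ P₁) ⊔ (K ⊓ P₂) = K := by
    intro K hK hQK
    apply le_antisymm (sup_le inf_le_left inf_le_left)
    conv_lhs => rw [← Cfsg.Agent.Lib.CoprimeGen.iSup_centralizer_eq hQ.1 hnc hQK (hcopG Q K le_rfl hK)]
    apply iSup₂_le
    rintro a ⟨haQ, ha1⟩
    by_cases hX : P' ⊓ Subgroup.centralizer (Subgroup.zpowers a : Set S) = ⊥
    · rw [hCz] at hX
      have : K ⊓ Subgroup.centralizer {a} = ⊥ := by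
        rw [eq_bot_iff, ← hX]; exact inf_le_inf_right _ hK
      rw [this]; exact bot_le
    · rcases honly _ (by rwa [Subgroup.zpowers_le]) (hcardz a haQ ha1) hX with h | h
      · refine le_trans ?_ le_sup_left
        rw [← hCz, h]
        exact le_inf inf_le_left (le_inf (inf_le_left.trans hK) inf_le_right)
      · refine le_trans ?_ le_sup_right
        rw [← hCz, h]
        exact le_inf inf_le_left (le_inf (inf_le_left.trans hK) inf_le_right)
  have hXX : ∀ X Y : Subgroup S, X ≤ Q → Y ≤ Q → X ≤ Subgroup.centralizer (Y : Set S) := by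
    intro X Y hX hY x hx
    rw [Subgroup.mem_centralizer_iff]
    intro y hy
    exact hab y (hY hy) x (hX hx)
  have htop : ∀ (K L : Subgroup S) [K.Normal], L ≤ Subgroup.normalizer (K : Set S) := by
    intro K L _
    rw [Subgroup.normalizer_eq_top]; exact le_top
  have hcent : ∀ X Y : Subgroup S, X ≤ Q → Y ≤ Q → X ≤ Subgroup.normalizer ((P' ⊓ Subgroup.centralizer (Y : Set S) : Subgroup S) : Set S) := by
    intro X Y hX hY x hx
    apply Cfsg.Agent.Lib.H32Cores.mem_normalizer_of_conj_le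
    intro z hz
    obtain ⟨hz1, hz2⟩ := Subgroup.mem_inf.mp hz
    refine Subgroup.mem_inf.mpr ⟨(Subgroup.mem_normalizer_iff.mp (htop P' Q (hX hx)) z).mp hz1, ?_⟩
    rw [Subgroup.mem_centralizer_iff] at hz2 ⊢
    intro y hy
    have h5 := hab x (hX hx) y (hY hy)
    have h6 := hz2 y hy
    calc y * (x * z * x⁻¹) = (y * x) * z * x⁻¹ := by group
      _ = x * (y * z) * x⁻¹ := by rw [← h5]; group
      _ = x * z * (y * x⁻¹) := by rw [h6]; group
      _ = x * z * x⁻¹ * y := by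
        have : y * x⁻¹ = x⁻¹ * y := by
          rw [eq_inv_mul_iff_mul_eq, ← mul_assoc, h5]; group
        rw [this]; group
  have hbotcap : P₁ ⊓ P₂ = ⊥ := by
    rw [eq_bot_iff]
    rintro x ⟨⟨hx, hx1⟩, ⟨_, hx2⟩⟩
    exact Subgroup.mem_bot.mpr (hfix x hx hx1 hx2)
  have hsolvP : ∀ K : Subgroup S, K ≤ P' → Group.IsSolvable K := by
    intro K hK
    have := (hPp.to_le hK).isNilpotent
    infer_instance
  have h21 : ⁅P₂, X₁⁆ = P₂ := by
    have := Cfsg.Agent.Lib.CoprimeAction2.commutator_sup_centralizer (A := X₁) (K := P₂) (hcent X₁ X₂ h₁ h₂)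
      (hcopG _ _ h₁ inf_le_left) (Or.inr (hsolvP _ inf_le_left))
    have h0 : P₂ ⊓ Subgroup.centralizer (X₁ : Set S) = ⊥ := by
      rw [eq_bot_iff]
      rintro x ⟨⟨hx, hx2⟩, hx1⟩
      exact Subgroup.mem_bot.mpr (hfix x hx hx1 hx2)
    rwa [h0, sup_bot_eq] at this
  have h12 : ⁅P₁, X₂⁆ = P₁ := by
    have := Cfsg.Agent.Lib.CoprimeAction2.commutator_sup_centralizer (A := X₂) (K := P₁) (hcent X₂ X₁ h₂ h₁)
      (hcopG _ _ h₂ inf_le_left) (Or.inr (hsolvP _ inf_le_left))
    have h0 : P₁ ⊓ Subgroup.centralizer (X₂ : Set S) = ⊥ := by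
      rw [eq_bot_iff]
      rintro x ⟨⟨hx, hx1⟩, hx2⟩
      exact Subgroup.mem_bot.mpr (hfix x hx hx1 hx2)
    rwa [h0, sup_bot_eq] at this
  refine ⟨?_, hbotcap, ?_⟩
  · -- commutator
    obtain ⟨n, hn⟩ := (Subgroup.isNilpotent_iff_lowerCentralSeries P').mp hPp.isNilpotent
    have hnorm : ∀ k, (P'.lowerCentralSeries k).Normal := by
      intro k
      induction k with
      | zero => exact inferInstanceAs P'.Normal
      | succ k ih => rw [Subgroup.lowerCentralSeries_succ]; infer_instance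
    have key : ∀ k, ⁅P₁, P₂⁆ ≤ P'.lowerCentralSeries k := by
      intro k
      induction k with
      | zero => exact (Subgroup.commutator_mono inf_le_left inf_le_left).trans (Subgroup.commutator_le_left P' P')
      | succ k ih =>
        haveI := hnorm k
        haveI := hnorm (k + 1)
        have hkP : P'.lowerCentralSeries k ≤ P' := P'.lowerCentralSeries_antitone (Nat.zero_le k)
        exact step (P := P') (X₁ := X₁) (X₂ := X₂) (N := P'.lowerCentralSeries k)
          (P'.lowerCentralSeries_antitone (Nat.le_succ k)) hkP inf_le_left inf_le_left inf_le_right inf_le_right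
          (hXX _ _ h₁ h₂) (hXX _ _ h₁ h₁) (by rw [← Subgroup.lowerCentralSeries_succ])
          (hgen _ hkP (htop _ _)) h21 h12 ih
    have := key n
    rw [hn] at this
    exact le_bot_iff.mp this
  · have := hgen P' le_rfl (htop P' Q)
    rwa [inf_eq_right.mpr (inf_le_left : P₁ ≤ P'), inf_eq_right.mpr (inf_le_left : P₂ ≤ P')] at this

end Cfsg.Agent.S1900
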