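import Cfsg.Statements.S1901
import Cfsg.Agent.Lib.H32Cores

set_option autoImplicit false
open Cfsg

namespace Cfsg.Agent.S1901

open Cfsg.Agent.Lib.H32Basic Cfsg.Agent.Lib.H32Cores

theorem step {G : Type*} [Group G] [Finite G] {p : ℕ} [Fact p.Prime] (Q : Subgroup G) (hQ : ¬ p ∣ Nat.card Q)
    (P : Sylow p G) (hQP : Q ≤ Subgroup.normalizer ((P : Subgroup G) : Set G)) (N : Subgroup G) [N.Normal]
    (hN : (∃ m : ℕ, Nat.card N = p ^ m) ∨ (Nat.card N).Coprime p) (a : G) (haQ : a ∈ Subgroup.normalizer (Q : Set G))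
    (ha : ∃ k : ℕ, a ^ p ^ k = 1) (h : ∀ x ∈ Q, a * x * a⁻¹ * x⁻¹ ∈ N) : ∀ x ∈ Q, a * x * a⁻¹ * x⁻¹ = 1 := by
  have hQmem : ∀ x ∈ Q, a * x * a⁻¹ * x⁻¹ ∈ Q := fun x hx =>
    Q.mul_mem ((Subgroup.mem_normalizer_iff.mp haQ x).mp hx) (Q.inv_mem hx)
  have hQc : (Nat.card Q).Coprime p := by
    rw [Nat.coprime_comm, Nat.Prime.coprime_iff_not_dvd Fact.out]; exact hQ
  rcases hN with ⟨m, hm⟩ | hN
  · intro x hx
    have h1 : Q ⊓ N = ⊥ := by
      apply Disjoint.eq_bot
      apply Subgroup.disjoint_of_coprime_natCard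
      rw [hm]
      exact hQc.pow_right m
    have h2 : a * x * a⁻¹ * x⁻¹ ∈ Q ⊓ N := ⟨hQmem x hx, h x hx⟩
    rw [h1, Subgroup.mem_bot] at h2
    exact h2
  · set R : Subgroup G := Q ⊓ N with hR
    -- P centralizes R
    have hPN : (P : Subgroup G) ⊓ N = ⊥ := by
      apply eq_bot_of_isPGroup_of_coprime p ((P.2 : IsPGroup p (P : Subgroup G)).to_le inf_le_left)
      exact Nat.Coprime.coprime_dvd_left (Subgroup.card_dvd_of_le inf_le_right) hN
    have hPR : (P : Subgroup G) ≤ Subgroup.centralizer (R : Set G) := by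
      intro y hy
      rw [Subgroup.mem_centralizer_iff]
      rintro r ⟨hrQ, hrN⟩
      have h1 : r * y * r⁻¹ * y⁻¹ ∈ (P : Subgroup G) ⊓ N := by
        constructor
        · exact (P : Subgroup G).mul_mem ((Subgroup.mem_normalizer_iff.mp (hQP hrQ) y).mp hy)
            ((P : Subgroup G).inv_mem hy)
        · have : r * y * r⁻¹ * y⁻¹ = r * (y * r⁻¹ * y⁻¹) := by group
          rw [this]
          exact N.mul_mem hrN (Subgroup.Normal.conj_mem inferInstance _ (N.inv_mem hrN) y)
      rw [hPN, Subgroup.mem_bot] at h1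
      calc r * y = (r * y * r⁻¹ * y⁻¹) * (y * r) := by group
        _ = y * r := by rw [h1, one_mul]
    -- a normalizes R
    have haR : a ∈ Subgroup.normalizer (R : Set G) := by
      apply mem_normalizer_of_conj_le
      rintro r ⟨hrQ, hrN⟩
      exact ⟨(Subgroup.mem_normalizer_iff.mp haQ r).mp hrQ, Subgroup.Normal.conj_mem inferInstance _ hrN a⟩
    -- a centralizes R
    have hCN : Subgroup.centralizer (R : Set G) ≤ Subgroup.normalizer (R : Set G) :=
      Subgroup.centralizer_le_normalizer _
    have haC : a ∈ Subgroup.centralizer (R : Set G) := by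
      obtain ⟨g, hg, hga⟩ := exists_conj_mem_sylow_of_le P (Subgroup.normalizer (R : Set G)) (hPR.trans hCN) a haR ha
      have h1 : g * a * g⁻¹ ∈ Subgroup.centralizer (R : Set G) := hPR hga
      rw [Subgroup.mem_centralizer_iff] at h1 ⊢
      intro r hr
      have h2 := h1 (g * r * g⁻¹) ((Subgroup.mem_normalizer_iff.mp hg r).mp hr)
      calc r * a = g⁻¹ * (g * r * g⁻¹ * (g * a * g⁻¹)) * g := by group
        _ = g⁻¹ * (g * a * g⁻¹ * (g * r * g⁻¹)) * g := by rw [h2]
        _ = a * r := by group
    intro x hx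
    set r : G := a * x * a⁻¹ * x⁻¹ with hr
    have hrR : r ∈ R := ⟨hQmem x hx, h x hx⟩
    have hra : r * a = a * r := (Subgroup.mem_centralizer_iff.mp haC) r hrR
    have hpow : ∀ n : ℕ, a ^ n * x * (a ^ n)⁻¹ = r ^ n * x := by
      intro n
      induction n with
      | zero => simp
      | succ n ih =>
        have hc : Commute a (r ^ n) := (Commute.pow_right (show Commute a r from hra.symm) n)
        calc a ^ (n + 1) * x * (a ^ (n + 1))⁻¹ = a * (a ^ n * x * (a ^ n)⁻¹) * a⁻¹ := by rw [pow_succ']; group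
          _ = a * (r ^ n * x) * a⁻¹ := by rw [ih]
          _ = (a * r ^ n) * x * a⁻¹ := by group
          _ = (r ^ n * a) * x * a⁻¹ := by rw [hc.eq]
          _ = r ^ n * (a * x * a⁻¹ * x⁻¹) * x := by group
          _ = r ^ (n + 1) * x := by rw [← hr, pow_succ]
    obtain ⟨k, hk⟩ := ha
    have h3 := hpow (p ^ k)
    rw [hk] at h3
    have h4 : r ^ (p ^ k) = 1 := by
      have h5 : x = r ^ (p ^ k) * x := by simpa using h3
      exact (mul_eq_right.mp h5.symm)
    have h5 : orderOf r ∣ p ^ k := orderOf_dvd_of_pow_eq_one h4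
    have h6 : orderOf r ∣ Nat.card Q := by
      have : orderOf (⟨r, hrR.1⟩ : Q) ∣ Nat.card Q := orderOf_dvd_natCard _
      rwa [Subgroup.orderOf_mk] at this
    have h7 : orderOf r = 1 := Nat.eq_one_of_dvd_coprimes (hQc.pow_right k) h6 h5
    exact orderOf_eq_one_iff.mp h7

/-- Let G be a finite p-solvable group and Q a subgroup of order prime to p such that p divides the index of C_G(Q) in N_G(Q). Then Q normalizes no Sylow p-subgroup of G. -/
theorem result {G : Type*} [Group G] [Finite G] {p : ℕ} [Fact p.Prime]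
    (hG : Cfsg.IsPSolvable p G) (Q : Subgroup G) (hQ : ¬ p ∣ Nat.card Q)
    (hA : p ∣ (Subgroup.centralizer (Q : Set G)).relIndex (Subgroup.normalizer (Q : Set G)))
    (P : Sylow p G) : ¬ Q ≤ Subgroup.normalizer ((P : Subgroup G) : Set G) := by
  intro hQP
  -- every p-element of N(Q) centralizes Q
  have key : ∀ a ∈ Subgroup.normalizer (Q : Set G), (∃ k : ℕ, a ^ p ^ k = 1) → ∀ x ∈ Q, a * x * a⁻¹ * x⁻¹ = 1 := by
    intro a haQ ha
    obtain ⟨n, H, hH0, hHn, _, hHnorm, hHstep⟩ := hG
    have main : ∀ j : ℕ, ∀ (hj : j < n + 1), ∀ x ∈ Q, a * x * a⁻¹ * x⁻¹ ∈ H ⟨n - j, by omega⟩ := by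
      intro j
      induction j with
      | zero =>
        intro _ x _
        have : (⟨n - 0, by omega⟩ : Fin (n + 1)) = Fin.last n := by
          ext; simp
        rw [this, hHn]; trivial
      | succ j ih =>
        intro hj x hx
        have ih' := ih (by omega)
        set i : Fin n := ⟨n - (j + 1), by omega⟩ with hi
        have e1 : (⟨n - (j + 1), by omega⟩ : Fin (n + 1)) = i.castSucc := by
          ext; simp [hi]
        have e2 : (⟨n - j, by omega⟩ : Fin (n + 1)) = i.succ := by
          ext; simp [hi]; omega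
        rw [e1]
        rw [e2] at ih'
        have hNi := hHnorm i.castSucc
        have hNi' := hHnorm i.succ
        set K : Subgroup G := H i.castSucc with hK
        -- work in the quotient
        have hcard : Nat.card ((H i.succ).map (QuotientGroup.mk' K)) = K.relIndex (H i.succ) := by
          have h8 := Subgroup.relIndex_ker (QuotientGroup.mk' K) (K := H i.succ)
          rw [QuotientGroup.ker_mk'] at h8
          exact h8.symm
        have hNn : ((H i.succ).map (QuotientGroup.mk' K)).Normal :=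
          hNi'.map _ (QuotientGroup.mk'_surjective K)
        have h1 := step (Q.map (QuotientGroup.mk' K))
          (fun hd => hQ (hd.trans (Subgroup.card_map_dvd (H := Q) (QuotientGroup.mk' K))))
          (P.mapSurjective (QuotientGroup.mk'_surjective K))
          (by
            rintro _ ⟨y, hy, rfl⟩
            apply mem_normalizer_of_conj_le
            rintro _ ⟨z, hz, rfl⟩
            exact ⟨y * z * y⁻¹, (Subgroup.mem_normalizer_iff.mp (hQP hy) z).mp hz, by simp⟩)
          ((H i.succ).map (QuotientGroup.mk' K))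
          (by rw [hcard]; exact hHstep i)
          (QuotientGroup.mk' K a)
          (by
            apply mem_normalizer_of_conj_le
            rintro _ ⟨z, hz, rfl⟩
            exact ⟨a * z * a⁻¹, (Subgroup.mem_normalizer_iff.mp haQ z).mp hz, by simp⟩)
          (by
            obtain ⟨k, hk⟩ := ha
            exact ⟨k, by rw [← map_pow, hk, map_one]⟩)
          (by
            rintro _ ⟨y, hy, rfl⟩
            exact ⟨a * y * a⁻¹ * y⁻¹, ih' y hy, by simp⟩)
          (QuotientGroup.mk' K x) ⟨x, hx, rfl⟩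
        have h2 : QuotientGroup.mk' K (a * x * a⁻¹ * x⁻¹) = 1 := by
          simpa using h1
        rw [QuotientGroup.mk'_apply, QuotientGroup.eq_one_iff] at h2
        exact h2
    intro x hx
    have h1 := main n (by omega) x hx
    have : (⟨n - n, by omega⟩ : Fin (n + 1)) = 0 := by ext; simp
    rw [this, hH0, Subgroup.mem_bot] at h1
    exact h1
  -- now p divides |N(Q)/C(Q)|: find a p-element in N(Q) outside C(Q)
  set Nn : Subgroup G := Subgroup.normalizer (Q : Set G) with hNn
  set C : Subgroup Nn := (Subgroup.centralizer (Q : Set G)).subgroupOf Nn with hC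
  obtain ⟨S⟩ : Nonempty (Sylow p Nn) := inferInstance
  have hSC : (S : Subgroup Nn) ≤ C := by
    intro s hs
    rw [hC, Subgroup.mem_subgroupOf, Subgroup.mem_centralizer_iff]
    intro x hx
    have h1 := key (s : G) s.2 (by
      obtain ⟨k, hk⟩ := S.2 ⟨s, hs⟩
      refine ⟨k, ?_⟩
      have := congrArg (fun y : (S : Subgroup Nn) => ((y : Nn) : G)) hk
      simpa using this) x hx
    calc x * (s : G) = (s * x * (s : G)⁻¹ * x⁻¹)⁻¹ * (s * x) := by group
      _ = s * x := by rw [h1]; group
  have h1 : C.index ∣ (S : Subgroup Nn).index := Subgroup.index_dvd_of_le hSC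
  exact S.not_dvd_index (dvd_trans hA h1)

end Cfsg.Agent.S1901
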