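import Cfsg.Statements.S1902
import Cfsg.Agent.Lib.FrobForm
import Cfsg.Agent.Lib.Fitting

set_option autoImplicit false
open Cfsg

namespace Cfsg.Agent.S1902

open Subgroup Cfsg.Agent.Lib
open scoped commutatorElement Pointwise

universe u

theorem core {G : Type u} [Group G] [Finite G] {p : ℕ} [hp : Fact p.Prime] (hp2 : p ≠ 2) (R : Subgroup G)
    [hRn : R.Normal] (hR : IsPGroup p R) (hCR : centralizer (R : Set G) ≤ R) (B : Subgroup G)
    (hBab : ∀ x ∈ B, ∀ y ∈ B, x * y = y * x) (hBc : Nat.card B = p ^ 2) {b : G} (hb : b ∈ B) (hbp : b ^ p = 1)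
    (hstar : ∀ x ∈ R, x * b = b * x → x ^ p = 1 → x ∈ B) (Q : Subgroup G) (hQ : (Nat.card Q).Coprime p)
    (hBQ : B ≤ normalizer (Q : Set G)) : Q = ⊥ := by
  classical
  have hRQ : ∀ x : G, x ∈ R → x ∈ Q → x = 1 := by
    intro x hx hxQ
    have h1 : R ⊓ Q = ⊥ := by
      obtain ⟨n, hn⟩ := IsPGroup.iff_card.mp hR
      apply SubgroupTools.inf_eq_bot_of_coprime'
      rw [hn]; exact (Nat.Coprime.pow_right n hQ).symm
    have : x ∈ R ⊓ Q := ⟨hx, hxQ⟩
    rwa [h1, mem_bot] at this
  have hBR : ∀ x ∈ B, x ∈ R → ∀ q ∈ Q, q * x = x * q := by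
    intro x hx hxR q hq
    have h1 : ⁅x, q⁆ = 1 := by
      apply hRQ
      · rw [commutatorElement_def]
        have h2 := hRn.conj_mem x⁻¹ (inv_mem hxR) q
        have h3 : x * q * x⁻¹ * q⁻¹ = x * (q * x⁻¹ * q⁻¹) := by group
        rw [h3]; exact mul_mem hxR h2
      · rw [commutatorElement_def]
        exact mul_mem ((mem_normalizer_iff.mp (hBQ hx) q).mp hq) (inv_mem hq)
    exact (commutatorElement_eq_one_iff_mul_comm.mp h1).symm
  have hbpg : IsPGroup p (zpowers b) := by
    intro u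
    refine ⟨1, ?_⟩
    obtain ⟨n, hn⟩ := mem_zpowers_iff.mp u.2
    apply Subtype.ext
    rw [pow_one]
    change (u : G) ^ p = 1
    rw [← hn, ← zpow_natCast, ← zpow_mul, mul_comm, zpow_mul, zpow_natCast, hbp, one_zpow]
  -- step A
  have hA : Q ⊓ centralizer ({b} : Set G) = ⊥ := by
    set Q0 := Q ⊓ centralizer ({b} : Set G) with hQ0
    have hQ0c : (Nat.card Q0).Coprime p := Nat.Coprime.coprime_dvd_left (card_dvd_of_le inf_le_left) hQ
    have h1 : Q0 ≤ centralizer ((R ⊓ centralizer ({b} : Set G) : Subgroup G) : Set G) := by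
      apply OmegaFix.le_centralizer_of_pow_eq_one hp2 _ _ _ rfl (hR.to_le inf_le_left) _ hQ0c
      · intro x hx hxp a ha
        obtain ⟨hxR, hxb⟩ := mem_inf.mp hx
        exact hBR x (hstar x hxR (mem_centralizer_singleton_iff.mp hxb) hxp) hxR a (mem_inf.mp ha).1
      · rw [Subgroup.le_normalizer_iff]
        intro q hq x hx
        refine mem_inf.mpr ⟨hRn.conj_mem x (mem_inf.mp hx).1 q, ?_⟩
        exact mul_mem (mul_mem (mem_inf.mp hq).2 (mem_inf.mp hx).2) (inv_mem (mem_inf.mp hq).2)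
    have h2 : Q0 ≤ centralizer (R : Set G) := by
      apply CoprimeAction2.thompson_PxQ (P := zpowers b) hbpg hQ0c _ _ R rfl hR le_normalizer_of_normal
        le_normalizer_of_normal
      · intro x hx
        obtain ⟨hxR, hxb⟩ := mem_inf.mp hx
        have h3 : x ∈ R ⊓ centralizer ({b} : Set G) :=
          mem_inf.mpr ⟨hxR, mem_centralizer_singleton_iff.mpr (mem_centralizer_iff.mp hxb b (mem_zpowers b)).symm⟩
        rw [mem_centralizer_iff]
        intro q hq
        exact (mem_centralizer_iff.mp (h1 hq) x h3).symm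
      · rw [zpowers_le, mem_centralizer_iff]
        intro q hq
        exact mem_centralizer_singleton_iff.mp (mem_inf.mp hq).2
    rw [eq_bot_iff]
    intro q hq
    rw [mem_bot]
    exact hRQ q (hCR (h2 hq)) (mem_inf.mp hq).1
  by_contra hne
  have hfpf : ∀ x ∈ Q, x * b = b * x → x = 1 := by
    intro x hx hxb
    have : x ∈ Q ⊓ centralizer ({b} : Set G) := mem_inf.mpr ⟨hx, mem_centralizer_singleton_iff.mpr hxb⟩
    rwa [hA, mem_bot] at this
  have hbR : b ∉ R := by
    intro hbR
    apply hne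
    rw [eq_bot_iff]
    intro q hq
    rw [mem_bot]
    exact hfpf q hq (hBR b hb hbR q hq)
  have hBRc : Nat.card (B ⊓ R : Subgroup G) ≤ p := by
    have h1 : Nat.card (B ⊓ R : Subgroup G) ∣ p ^ 2 := by
      rw [← hBc]; exact card_dvd_of_le inf_le_left
    obtain ⟨k, hk, hk'⟩ := (Nat.dvd_prime_pow hp.out).mp h1
    have h2 : k ≠ 2 := by
      rintro rfl
      have h3 : B ⊓ R = B := eq_of_le_of_card_ge inf_le_left (by rw [hk', hBc])
      exact hbR (inf_eq_left.mp h3 hb)
    rw [hk']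
    have h3 : k ≤ 1 := by omega
    calc p ^ k ≤ p ^ 1 := Nat.pow_le_pow_right hp.out.pos h3
      _ = p := pow_one p
  obtain ⟨h, hhQ, hhR⟩ : ∃ h ∈ Q, ¬ R ≤ centralizer (zpowers h : Set G) := by
    by_contra hcon
    push Not at hcon
    apply hne
    rw [eq_bot_iff]
    intro q hq
    rw [mem_bot]
    refine hRQ q (hCR ?_) hq
    rw [mem_centralizer_iff]
    intro r hr
    exact (mem_centralizer_iff.mp (hcon q hq hr) q (mem_zpowers q)).symm
  have hcopQ : ∀ q ∈ Q, (orderOf q).Coprime p := by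
    intro q hq
    have h1 := orderOf_dvd_natCard (⟨q, hq⟩ : Q)
    rw [← Subgroup.orderOf_coe] at h1
    exact Nat.Coprime.coprime_dvd_left h1 hQ
  set H : Subgroup G := Q ⊔ zpowers b with hH
  have hQH : Q ≤ H := le_sup_left
  have hbQ : b ∈ normalizer (Q : Set G) := hBQ hb
  have hzQ : zpowers b ≤ normalizer (Q : Set G) := zpowers_le.mpr hbQ
  have hHQ : H ≤ normalizer (Q : Set G) := sup_le le_normalizer hzQ
  have hkQ : ∀ k ∈ H, (orderOf k).Coprime p → k ∈ Q := by
    intro k hk hkc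
    obtain ⟨q, hq, c, hc, rfl⟩ := LocBase.exists_mul_of_mem_sup_of_le hzQ hk
    have h1 := LocBase.mul_pow_mem_coset hq (hzQ hc) p
    have h2 : c ^ p = 1 := by
      obtain ⟨n, hn⟩ := mem_zpowers_iff.mp hc
      rw [← hn, ← zpow_natCast, ← zpow_mul, mul_comm, zpow_mul, zpow_natCast, hbp, one_zpow]
    rw [h2, inv_one, mul_one] at h1
    obtain ⟨m, hm⟩ := exists_pow_eq_self_of_coprime hkc.symm
    rw [← hm]
    exact pow_mem h1 m
  obtain ⟨X0, Y0, hX0, hYX0, hHX0, hHY0, hXY0, hcomm0, hpow0, hirr0, hYc0, hYX0c, hE0, hk0⟩ :=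
    H31PStab.exists_irred2 (p := p) hR (H := H) le_normalizer_of_normal (hQH hhQ) (hcopQ h hhQ) hhR
  have hX0p : IsPGroup p X0 := hR.to_le hX0
  have hmul : ∀ x ∈ X0, ∀ y ∈ X0, (x * y) ^ p = x ^ p * y ^ p := by
    intro x hx y hy
    set c := ⁅y⁻¹, x⁻¹⁆ with hcdef
    have hc : c ∈ Y0 := hcomm0 _ (inv_mem hy) _ (inv_mem hx)
    have e1 : y * x = x * y * c := by
      rw [hcdef, commutatorElement_def]; group
    have hcx : Commute c x := (hYX0c x hx c hc).symm
    have hcy : Commute c y := (hYX0c y hy c hc).symm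
    have h2 := PGroupOdd.pow_eq_one_of_comm' e1 hcy (n := p) (hYX0c x hx _ (hpow0 y hy)).symm
    rw [PGroupOdd.mul_pow_of_comm e1 hcx hcy, PGroupOdd.pow_choose_two_eq_one hp.out hp2 h2, mul_one]
  let Ω : Subgroup G :=
    { carrier := {x | x ∈ X0 ∧ x ^ p = 1}
      mul_mem' := fun {x y} hx hy => ⟨mul_mem hx.1 hy.1, by rw [hmul x hx.1 y hy.1, hx.2, hy.2, one_mul]⟩
      one_mem' := ⟨one_mem _, one_pow p⟩
      inv_mem' := fun {x} hx => ⟨inv_mem hx.1, by rw [inv_pow, hx.2, inv_one]⟩ }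
  have hΩX : Ω ≤ X0 := fun x hx => hx.1
  have hHΩ : H ≤ normalizer (Ω : Set G) := by
    rw [Subgroup.le_normalizer_iff]
    intro k hk x hx
    refine ⟨(Subgroup.le_normalizer_iff.mp hHX0) k hk x hx.1, ?_⟩
    rw [conj_pow, hx.2]; group
  obtain ⟨k, hkH, hkc, hkX⟩ := hk0
  have hkΩ : ¬ Ω ≤ centralizer (zpowers k : Set G) := by
    intro hcon
    apply hkX
    have h1 : zpowers k ≤ centralizer (X0 : Set G) := by
      apply OmegaFix.le_centralizer_of_pow_eq_one hp2 _ _ _ rfl hX0p (zpowers_le.mpr (hHX0 hkH))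
        (by rw [Nat.card_zpowers]; exact hkc)
      intro x hx hxp a ha
      exact mem_centralizer_iff.mp (hcon (⟨hx, hxp⟩ : x ∈ Ω)) a ha
    intro x hx
    have h2 := mem_centralizer_iff.mp (h1 (mem_zpowers k)) x hx
    rw [commutatorElement_eq_one_iff_mul_comm.mpr h2]
    exact one_mem _
  obtain ⟨X, Y, hXΩ, hYX, hHX, hHY, hXY, hcomm, hpow, hirr, hYcop, hYc, hE, k1, hk1H, hk1c, hk1X⟩ :=
    H31PStab.exists_irred2 (p := p) (hX0p.to_le hΩX) hHΩ hkH hkc hkΩ
  have hXR : X ≤ R := hXΩ.trans (hΩX.trans hX0)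
  have hexp : ∀ x ∈ X, x ^ p = 1 := fun x hx => (hXΩ hx).2
  refine FrobForm.main hp2 hbp hQ hbQ hfpf hYX hHX hHY hcomm hexp hirr ?_ hYc
    ⟨k1, hkQ k1 hk1H hk1c, hk1X⟩ ?_ ?_
  · intro y hy
    rw [mem_centralizer_iff]
    intro q hq
    exact mem_centralizer_iff.mp (hYcop q (hQH hq) (hcopQ q hq) hy) q (mem_zpowers q)
  · intro x hx hxb
    have hxB := hstar x (hXR hx) hxb (hexp x hx)
    apply hE (X ⊓ centralizer (Q : Set G)) inf_le_left
    · exact LocBase.le_normalizer_inf hHX (LocBase.le_normalizer_centralizer hHQ)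
    · intro k hk hkc x hx
      rw [mem_centralizer_iff]
      intro y hy
      have h1 : zpowers k ≤ Q := zpowers_le.mpr (hkQ k hk hkc)
      exact mem_centralizer_iff.mp (mem_inf.mp hx).2 y (h1 hy)
    · refine mem_inf.mpr ⟨hx, ?_⟩
      rw [mem_centralizer_iff]
      exact hBR x hxB (hXR hx)
  · refine le_trans (Subgroup.card_le_of_le ?_) hBRc
    intro y hy
    obtain ⟨hyY, hyb⟩ := mem_inf.mp hy
    have hyX := hYX.le hyY
    exact mem_inf.mpr ⟨hstar y (hXR hyX) (mem_centralizer_singleton_iff.mp hyb) (hexp y hyX), hXR hyX⟩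

/-- Let p be an odd prime, G a finite p-solvable group, and B an elementary abelian subgroup of order p² such that B is the subgroup generated by the elements of order p of some Sylow p-subgroup of C_G(b₀), for some nontrivial b₀ ∈ B. Then every B-invariant subgroup of G of order prime to p lies in O_{p'}(G). -/
theorem result {G : Type*} [Group G] [Finite G] {p : ℕ} [Fact p.Prime] (hp : p ≠ 2)
    (hG : Cfsg.IsPSolvable p G) (B : Subgroup G) (hB : Cfsg.IsElementaryAbelian p B) (hBc : Nat.card B = p ^ 2)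
    (b₀ : G) (hb₀ : b₀ ∈ B) (hb₁ : b₀ ≠ 1) (P : Sylow p ↥(Subgroup.centralizer ({b₀} : Set G)))
    (hBP : B = Subgroup.closure {x : G | x ∈ ((P : Subgroup ↥(Subgroup.centralizer ({b₀} : Set G))).map
      (Subgroup.centralizer ({b₀} : Set G)).subtype : Subgroup G) ∧ orderOf x = p})
    (Q : Subgroup G) (hQ : ¬ p ∣ Nat.card Q) (hinv : ∀ b ∈ B, ∀ x ∈ Q, b * x * b⁻¹ ∈ Q) :
    Q ≤ Cfsg.pPrimeCore p G := by
  classical
  have hpp : Fact p.Prime := inferInstance
  obtain ⟨hBab, hBp⟩ := hB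
  have hBcom : ∀ x ∈ B, ∀ y ∈ B, x * y = y * x := fun x hx y hy =>
    isMulCommutative_iff_of_setLike.mp hBab x hx y hy
  have hBpg : IsPGroup p B := fun x => ⟨1, Subtype.ext (by rw [pow_one]; exact hBp x x.2)⟩
  have hBQ : B ≤ normalizer (Q : Set G) := by
    rw [Subgroup.le_normalizer_iff]; exact hinv
  have hBC : B ≤ centralizer ({b₀} : Set G) := by
    intro x hx
    rw [mem_centralizer_singleton_iff]
    exact hBcom x hx b₀ hb₀
  -- the star property
  have hstar : ∀ T : Subgroup G, IsPGroup p T → T ≤ centralizer ({b₀} : Set G) → B ≤ T →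
      ∀ t ∈ T, t ^ p = 1 → t ∈ B := by
    intro T hT hTC hBT t ht htp
    obtain ⟨P', hP'⟩ := (hT.comap_of_injective (centralizer ({b₀} : Set G)).subtype
      (centralizer ({b₀} : Set G)).subtype_injective).exists_le_sylow
    obtain ⟨g, hg⟩ := MulAction.exists_smul_eq (centralizer ({b₀} : Set G)) P P'
    have hmem : ∀ y : G, y ∈ T → orderOf y = p → (g : G)⁻¹ * y * g ∈ B := by
      intro y hy hyo
      rw [hBP]
      apply Subgroup.subset_closure
      have hyP : (⟨y, hTC hy⟩ : centralizer ({b₀} : Set G)) ∈ (P' : Subgroup _) := hP' (mem_comap.mpr hy)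
      rw [← hg] at hyP
      have h1 : g⁻¹ * ⟨y, hTC hy⟩ * g ∈ (P : Subgroup _) := by
        have := Subgroup.mem_pointwise_smul_iff_inv_smul_mem.mp hyP
        simpa [MulAut.smul_def, ← map_inv] using this
      refine ⟨⟨_, h1, rfl⟩, ?_⟩
      have h2 : (g : G)⁻¹ * y * g = MulAut.conj (g : G)⁻¹ y := by simp [MulAut.conj_apply]
      rw [h2, MulEquiv.orderOf_eq, hyo]
    have hord : ∀ y : G, y ^ p = 1 → y ≠ 1 → orderOf y = p := fun y hy hy1 => orderOf_eq_prime hy hy1
    have hBg : B.map (MulAut.conj (g : G)⁻¹).toMonoidHom = B := by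
      apply eq_of_le_of_card_ge
      · rintro _ ⟨y, hy, rfl⟩
        change (MulAut.conj (g : G)⁻¹) y ∈ B
        rw [MulAut.conj_apply, inv_inv]
        by_cases hy1 : y = 1
        · rw [hy1]; simp
        · exact hmem y (hBT hy) (hord y (hBp y hy) hy1)
      · rw [card_map_of_injective (MulAut.conj (g : G)⁻¹).injective]
    by_cases ht1 : t = 1
    · rw [ht1]; exact one_mem _
    have h1 := hmem t ht (hord t htp ht1)
    rw [← hBg] at h1
    obtain ⟨s, hs, hst⟩ := h1
    have h2 : (g : G)⁻¹ * s * g = (g : G)⁻¹ * t * g := by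
      have h3 : (MulAut.conj (g : G)⁻¹) s = (g : G)⁻¹ * t * g := hst
      rw [MulAut.conj_apply, inv_inv] at h3
      exact h3
    have h3 : s = t := by
      have := mul_left_cancel (mul_right_cancel h2)
      exact this
    rw [← h3]; exact hs
  -- the quotient
  set N : Subgroup G := pPrimeCore p G with hN
  have hNn : N.Normal := Fitting.normal_pPrimeCore p
  have hNc : (Nat.card N).Coprime p := Fitting.coprime_card_pPrimeCore p
  set f := QuotientGroup.mk' N with hf
  have hfs : Function.Surjective f := QuotientGroup.mk'_surjective N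
  have hfk : ∀ x : G, f x = 1 ↔ x ∈ N := fun x => QuotientGroup.eq_one_iff x
  have hpN : ∀ T : Subgroup G, IsPGroup p T → ∀ x ∈ T, x ∈ N → x = 1 := by
    intro T hT x hx hxN
    have h1 : T ⊓ N = ⊥ := by
      obtain ⟨n, hn⟩ := IsPGroup.iff_card.mp hT
      apply SubgroupTools.inf_eq_bot_of_coprime'
      rw [hn]; exact (Nat.Coprime.pow_right n hNc).symm
    have : x ∈ T ⊓ N := ⟨hx, hxN⟩
    rwa [h1, mem_bot] at this
  have hcore : pPrimeCore p (G ⧸ N) = ⊥ := Fitting.pPrimeCore_quotient_pPrimeCore p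
  have hRn : (pCore p (G ⧸ N)).Normal := Fitting.normal_pCore p
  have hRp : IsPGroup p (pCore p (G ⧸ N)) := Fitting.isPGroup_pCore p
  have hinjB : Function.Injective (f.comp B.subtype) := by
    rw [injective_iff_map_eq_one]
    intro x hx
    exact Subtype.ext (hpN B hBpg x x.2 ((hfk x).mp hx))
  have key := core hp (pCore p (G ⧸ N)) hRp
    (H32PSolv.centralizer_pCore_le (H32PSolv.isPSolvable_quotient hG N) hcore) (B.map f)
    (by
      rintro _ ⟨x, hx, rfl⟩ _ ⟨y, hy, rfl⟩
      rw [← map_mul, ← map_mul, hBcom x hx y hy])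
    (by
      rw [← hBc]
      have h1 : B.map f = (f.comp B.subtype).range := by
        rw [MonoidHom.range_comp, range_subtype]
      rw [h1]
      exact (Nat.card_congr (MonoidHom.ofInjective hinjB).toEquiv).symm)
    (b := f b₀) ⟨b₀, hb₀, rfl⟩ (by rw [← map_pow, hBp b₀ hb₀, map_one])
    (by
      intro x hxR hxb hxp
      -- a `p`-subgroup containing `x` and the image of `B`
      set X : Subgroup (G ⧸ N) := (pCore p (G ⧸ N) ⊓ centralizer ({f b₀} : Set (G ⧸ N))) ⊔ B.map f with hX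
      have hBbC : B.map f ≤ centralizer ({f b₀} : Set (G ⧸ N)) := by
        rintro _ ⟨y, hy, rfl⟩
        rw [mem_centralizer_singleton_iff, ← map_mul, ← map_mul, hBcom y hy b₀ hb₀]
      have hBbn : B.map f ≤ normalizer ((pCore p (G ⧸ N) ⊓ centralizer ({f b₀} : Set (G ⧸ N)) : Subgroup (G ⧸ N)) :
          Set (G ⧸ N)) := by
        rw [Subgroup.le_normalizer_iff]
        intro y hy z hz
        exact mem_inf.mpr ⟨hRn.conj_mem z (mem_inf.mp hz).1 y,
          mul_mem (mul_mem (hBbC hy) (mem_inf.mp hz).2) (inv_mem (hBbC hy))⟩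
      have hXp : IsPGroup p X := (hRp.to_le inf_le_left).to_sup_of_normal_left' (hBpg.map f) hBbn
      have hXC : X ≤ centralizer ({f b₀} : Set (G ⧸ N)) := sup_le inf_le_right hBbC
      have hxX : x ∈ X := mem_sup_left (mem_inf.mpr ⟨hxR, mem_centralizer_singleton_iff.mpr hxb⟩)
      set X' : Subgroup G := X.comap f with hX'
      have hBX' : B ≤ X' := fun y hy => mem_comap.mpr (mem_sup_right ⟨y, hy, rfl⟩)
      obtain ⟨T0, hT0⟩ := (hBpg.comap_of_injective X'.subtype X'.subtype_injective).exists_le_sylow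
      set T : Subgroup G := (T0 : Subgroup X').map X'.subtype with hT
      have hTp : IsPGroup p T := T0.2.map _
      have hBT : B ≤ T := fun y hy => ⟨⟨y, hBX' hy⟩, hT0 (mem_comap.mpr hy), rfl⟩
      have hTX' : T ≤ X' := map_subtype_le _
      have hTC : T ≤ centralizer ({b₀} : Set G) := by
        intro t ht
        rw [mem_centralizer_singleton_iff]
        apply commutatorElement_eq_one_iff_mul_comm.mp
        apply hpN T hTp
        · rw [commutatorElement_def]
          exact mul_mem (mul_mem (mul_mem ht (hBT hb₀)) (inv_mem ht)) (inv_mem (hBT hb₀))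
        · rw [← hfk, map_commutatorElement]
          rw [commutatorElement_eq_one_iff_mul_comm]
          exact mem_centralizer_singleton_iff.mp (hXC (mem_comap.mp (hTX' ht)))
      let g : X' →* X := f.subgroupComap X
      have hg : Function.Surjective g := f.subgroupComap_surjective_of_surjective X hfs
      have hT0top : (T0 : Subgroup X').map g = ⊤ := by
        rw [← index_eq_one]
        have h1 : ((T0 : Subgroup X').map g).index ∣ (T0 : Subgroup X').index := index_map_dvd _ hg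
        obtain ⟨n, hn⟩ := IsPGroup.iff_card.mp hXp
        have h2 : ((T0 : Subgroup X').map g).index ∣ p ^ n := by
          rw [← hn]; exact index_dvd_card _
        have h3 : (T0 : Subgroup X').index.Coprime (p ^ n) :=
          Nat.Coprime.pow_right n (((hpp.out.coprime_iff_not_dvd).mpr T0.not_dvd_index).symm)
        exact Nat.eq_one_of_dvd_coprimes h3 h1 h2
      have h1 : (⟨x, hxX⟩ : X) ∈ (T0 : Subgroup X').map g := by rw [hT0top]; trivial
      obtain ⟨t, ht, htx⟩ := h1
      have htx' : f (t : G) = x := congrArg Subtype.val htx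
      have htT : (t : G) ∈ T := ⟨t, ht, rfl⟩
      refine ⟨t, hstar T hTp hTC hBT t htT ?_, htx'⟩
      apply hpN T hTp _ (pow_mem htT p)
      rw [← hfk, map_pow, htx', hxp])
    (Q.map f)
    (Nat.Coprime.coprime_dvd_left (card_map_dvd (H := Q) f) ((hpp.out.coprime_iff_not_dvd).mpr hQ).symm)
    (by
      exact (map_mono hBQ).trans (Subgroup.le_normalizer_map f))
  intro q hq
  have h1 : f q ∈ Q.map f := ⟨q, hq, rfl⟩
  rw [key, mem_bot] at h1
  exact (hfk q).mp h1


end Cfsg.Agent.S1902
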