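import Cfsg.Statements.S1905
import Cfsg.Agent.Lib.H32Invol
import Cfsg.Agent.Lib.H32Cores

set_option autoImplicit false
open Cfsg

namespace Cfsg.Agent.S1905

open Cfsg.Agent.Lib.H32Basic Cfsg.Agent.Lib.H32Invol Cfsg.Agent.Lib.H32Cores

section
variable {S : Type*} [Group S] [Finite S] (M : Subgroup S)
    (hC : ∀ i ∈ M, orderOf i = 2 → Subgroup.centralizer ({i} : Set S) ≤ M)

include hC in
theorem odd_of_mem_of_notMem {i j : S} (hi : orderOf i = 2) (hiM : i ∈ M) (hj : orderOf j = 2) (hjM : j ∉ M) :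
    Odd (orderOf (i * j)) := by
  rw [← Nat.not_even_iff_odd]
  intro he
  have hi2 : i ^ 2 = 1 := by rw [← hi, pow_orderOf_eq_one]
  have hj2 : j ^ 2 = 1 := by rw [← hj, pow_orderOf_eq_one]
  obtain ⟨k, hk, h1, h2⟩ := exists_invol_of_even hi2 hj2 he
  have h3 : (i * j) ^ k ∈ M := hC i hiM hi (Subgroup.mem_centralizer_singleton_iff.mpr h1.eq)
  exact hjM (hC _ h3 hk (Subgroup.mem_centralizer_singleton_iff.mpr h2.symm.eq))

include hC in
theorem part_one (hM : Even (Nat.card M)) (hcore : Odd (Nat.card M.normalCore)) :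
    (∃ j : S, orderOf j = 2 ∧ j ∉ M) ∧ ∀ x y : S, orderOf x = 2 → orderOf y = 2 → IsConj x y := by
  have hconj : ∀ i j : S, orderOf i = 2 → i ∈ M → orderOf j = 2 → j ∉ M → IsConj i j := by
    intro i j hi hiM hj hjM
    have hi2 : i ^ 2 = 1 := by rw [← hi, pow_orderOf_eq_one]
    have hj2 : j ^ 2 = 1 := by rw [← hj, pow_orderOf_eq_one]
    obtain ⟨k, hk⟩ := conj_of_odd hi2 hj2 (odd_of_mem_of_notMem M hC hi hiM hj hjM)
    exact isConj_iff.mpr ⟨_, hk⟩
  obtain ⟨i0, hi0⟩ := exists_prime_orderOf_dvd_card' 2 (even_iff_two_dvd.mp hM)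
  have hi0' : orderOf (i0 : S) = 2 := by rw [Subgroup.orderOf_coe]; exact hi0
  have hj : ∃ j : S, orderOf j = 2 ∧ j ∉ M := by
    by_contra hcon
    push Not at hcon
    -- normal closure of involutions
    have h1 : Subgroup.normalClosure {x : S | orderOf x = 2} ≤ M := by
      rw [Subgroup.normalClosure]
      rw [Subgroup.closure_le]
      intro x hx
      rw [Group.mem_conjugatesOfSet_iff] at hx
      obtain ⟨a, ha, hax⟩ := hx
      obtain ⟨c, hc⟩ := isConj_iff.mp hax
      apply hcon
      rw [← hc]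
      have h5 := orderOf_injective (MulAut.conj c).toMonoidHom (MulAut.conj c).injective a
      have h6 : orderOf (c * a * c⁻¹) = orderOf a := by simpa [MulAut.conj_apply] using h5
      rw [h6]; exact ha
    have h2 : Subgroup.normalClosure {x : S | orderOf x = 2} ≤ M.normalCore :=
      Subgroup.normal_le_normalCore.mpr h1
    have h3 : (i0 : S) ∈ M.normalCore := h2 (Subgroup.subset_normalClosure hi0')
    have h4 : orderOf (⟨(i0 : S), h3⟩ : M.normalCore) = 2 := by
      rw [Subgroup.orderOf_mk]; exact hi0'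
    have h5 : 2 ∣ Nat.card M.normalCore := by
      rw [← h4]; exact orderOf_dvd_natCard _
    exact (Nat.not_even_iff_odd.mpr hcore) (even_iff_two_dvd.mpr h5)
  refine ⟨hj, ?_⟩
  obtain ⟨j0, hj0, hj0M⟩ := hj
  have hall : ∀ x : S, orderOf x = 2 → IsConj x j0 := by
    intro x hx
    by_cases hxM : x ∈ M
    · exact hconj x j0 hx hxM hj0 hj0M
    · exact ((hconj i0 x hi0' i0.2 hx hxM).symm).trans (hconj i0 j0 hi0' i0.2 hj0 hj0M)
  intro x y hx hy
  exact (hall x hx).trans (hall y hy).symm

include hC in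
/-- the injectivity argument -/
theorem inj_aux {I t y y' : S} (hI : orderOf I = 2) (hIM : I ∈ M) (ht : orderOf t = 2) (htM : t ∉ M)
    (hy : y ∈ M) (hyt : t * y * t = y⁻¹) (hy' : y' ∈ M) (hyt' : t * y' * t = y'⁻¹)
    (heq : y * I * y⁻¹ = y' * I * y'⁻¹) : y = y' := by
  have ht2 : t * t = 1 := by rw [← pow_two, ← ht, pow_orderOf_eq_one]
  have htinv : t⁻¹ = t := by rw [inv_eq_iff_mul_eq_one]; exact ht2
  set w : S := y'⁻¹ * y with hw
  set s : S := t * y' with hs
  have hsM : s ∉ M := by
    intro h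
    apply htM
    have : t = s * y'⁻¹ := by rw [hs]; group
    rw [this]; exact M.mul_mem h (M.inv_mem hy')
  have hs2 : s * s = 1 := by
    calc s * s = (t * y' * t) * y' := by rw [hs]; group
      _ = 1 := by rw [hyt']; group
  have hs1 : s ≠ 1 := by
    intro h; apply hsM; rw [h]; exact M.one_mem
  have hso : orderOf s = 2 := orderOf_eq_prime (by rw [pow_two]; exact hs2) hs1
  have hsinv : s⁻¹ = s := by rw [inv_eq_iff_mul_eq_one]; exact hs2
  -- w commutes with I
  have hwI : w * I = I * w := by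
    rw [hw]
    calc y'⁻¹ * y * I = y'⁻¹ * (y * I * y⁻¹) * y := by group
      _ = y'⁻¹ * (y' * I * y'⁻¹) * y := by rw [heq]
      _ = I * (y'⁻¹ * y) := by group
  -- s inverts w
  have hsw : s * w * s⁻¹ = w⁻¹ := by
    have h1 : t * y'⁻¹ * t = y' := by
      calc t * y'⁻¹ * t = t * (s * t) * t := by rw [hyt']
        _ = (t * t) * y' * (t * t) := by rw [hs]; group
        _ = y' := by rw [ht2, one_mul, mul_one]
    calc s * w * s⁻¹ = t * y * y'⁻¹ * t⁻¹ := by rw [hs, hw]; group
      _ = t * y * (t * t) * y'⁻¹ * t := by rw [ht2, htinv, mul_one]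
      _ = (t * y * t) * (t * y'⁻¹ * t) := by group
      _ = y⁻¹ * y' := by rw [hyt, h1]
      _ = w⁻¹ := by rw [hw]; group
  have hI2 : I ^ 2 = 1 := by rw [← hI, pow_orderOf_eq_one]
  obtain ⟨k, hk⟩ := conj_of_odd hI2 (by rw [pow_two]; exact hs2) (odd_of_mem_of_notMem M hC hI hIM hso hsM)
  -- powers of (I s) map w to w or w⁻¹
  have hIs : (I * s) * w * (I * s)⁻¹ = w⁻¹ := by
    calc (I * s) * w * (I * s)⁻¹ = I * (s * w * s⁻¹) * I⁻¹ := by group
      _ = I * w⁻¹ * I⁻¹ := by rw [hsw]
      _ = (I * w * I⁻¹)⁻¹ := by group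
      _ = (w * I * I⁻¹)⁻¹ := by rw [hwI]
      _ = w⁻¹ := by group
  have hpow : ∀ n : ℕ, (I * s) ^ n * w * ((I * s) ^ n)⁻¹ = w ∨ (I * s) ^ n * w * ((I * s) ^ n)⁻¹ = w⁻¹ := by
    intro n
    induction n with
    | zero => left; simp
    | succ n ih =>
      have e : (I * s) ^ (n + 1) * w * ((I * s) ^ (n + 1))⁻¹ = (I * s) ^ n * ((I * s) * w * (I * s)⁻¹) * ((I * s) ^ n)⁻¹ := by
        rw [pow_succ]; group
      have e2 : (I * s) ^ n * w⁻¹ * ((I * s) ^ n)⁻¹ = ((I * s) ^ n * w * ((I * s) ^ n)⁻¹)⁻¹ := by group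
      rw [e, hIs, e2]
      rcases ih with h | h
      · right; rw [h]
      · left; rw [h, inv_inv]
  -- s commutes with w
  have hsw' : s * w = w * s := by
    set g : S := (I * s) ^ k with hg
    have hgI : g * I * g⁻¹ = s := hk
    rcases hpow k with h | h
    · -- g w g⁻¹ = w
      rw [← hg] at h
      calc s * w = (g * I * g⁻¹) * (g * w * g⁻¹) := by rw [hgI, h]
        _ = g * (I * w) * g⁻¹ := by group
        _ = g * (w * I) * g⁻¹ := by rw [hwI]
        _ = (g * w * g⁻¹) * (g * I * g⁻¹) := by group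
        _ = w * s := by rw [h, hgI]
    · rw [← hg] at h
      have h1 : s * w⁻¹ = w⁻¹ * s := by
        calc s * w⁻¹ = (g * I * g⁻¹) * (g * w * g⁻¹) := by rw [hgI, h]
          _ = g * (I * w) * g⁻¹ := by group
          _ = g * (w * I) * g⁻¹ := by rw [hwI]
          _ = (g * w * g⁻¹) * (g * I * g⁻¹) := by group
          _ = w⁻¹ * s := by rw [h, hgI]
      calc s * w = w * (w⁻¹ * s) * w := by group
        _ = w * (s * w⁻¹) * w := by rw [h1]
        _ = w * s := by group
  have hww : w * w = 1 := by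
    have h1 : w = w⁻¹ := by
      calc w = w * s * s⁻¹ := by group
        _ = s * w * s⁻¹ := by rw [hsw']
        _ = w⁻¹ := hsw
    calc w * w = w * w⁻¹ := by rw [← h1]
      _ = 1 := by group
  by_cases hw1 : w = 1
  · have : y = y' * w := by rw [hw]; group
    rw [this, hw1, mul_one]
  · exfalso
    have hwo : orderOf w = 2 := orderOf_eq_prime (by rw [pow_two]; exact hww) hw1
    have hwM : w ∈ M := M.mul_mem (M.inv_mem hy') hy
    exact hsM (hC w hwM hwo (Subgroup.mem_centralizer_singleton_iff.mpr hsw'))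

end

/-- Let M be a subgroup of even order of a finite group S such that M contains the centralizer in S of each of its involutions and the normal core of M in S has odd order. Then all involutions of S are conjugate. If moreover N_S(X) ≤ M for a Sylow 2-subgroup X of M and I is an involution in the centre of X, then all involutions of M are conjugate in M and M = M₀ C_M(I) for some subgroup M₀ of M of odd order. -/
theorem result {S : Type*} [Group S] [Finite S] (M : Subgroup S) (hM : Even (Nat.card M))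
    (hC : ∀ i ∈ M, orderOf i = 2 → Subgroup.centralizer ({i} : Set S) ≤ M) (hcore : Odd (Nat.card M.normalCore)) :
    (∀ x y : S, orderOf x = 2 → orderOf y = 2 → IsConj x y) ∧
      ∀ (X : Sylow 2 M) (I : M), I ∈ (Subgroup.center ↥(X : Subgroup ↥M)).map (X : Subgroup ↥M).subtype → orderOf I = 2 →
        Subgroup.normalizer (((X : Subgroup M).map M.subtype : Subgroup S) : Set S) ≤ M →
        (∀ x y : M, orderOf x = 2 → orderOf y = 2 → IsConj x y) ∧
          ∃ M₀ : Subgroup M, Odd (Nat.card M₀) ∧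
            ∀ m : M, ∃ a ∈ M₀, ∃ c ∈ Subgroup.centralizer ({I} : Set M), m = a * c := by
  classical
  obtain ⟨⟨j0, hj0, hj0M⟩, hall⟩ := part_one M hC hM hcore
  refine ⟨hall, ?_⟩
  intro X I hIX hI hN
  have hI' : orderOf (I : S) = 2 := by rw [Subgroup.orderOf_coe]; exact hI
  -- elements of X commute with I
  have hXI : ∀ x ∈ (X : Subgroup M), x * I = I * x := by
    intro x hx
    obtain ⟨z, hz, hzI⟩ := hIX
    have h1 := Subgroup.mem_center_iff.mp hz ⟨x, hx⟩
    have h2 := congrArg (X : Subgroup M).subtype h1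
    rw [map_mul, map_mul, hzI] at h2
    exact h2
  -- key fusion fact
  have key : ∀ g : S, g * (I : S) * g⁻¹ ∈ M → g ∈ M := by
    intro g hg
    set XS : Subgroup S := (X : Subgroup M).map M.subtype with hXS
    have hXSM : XS ≤ M := Subgroup.map_subtype_le _
    have hXSp : IsPGroup 2 XS := X.2.map _
    have hgord : orderOf (g * (I : S) * g⁻¹) = 2 := by
      have h5 := orderOf_injective (MulAut.conj g).toMonoidHom (MulAut.conj g).injective (I : S)
      have h6 : orderOf (g * (I : S) * g⁻¹) = orderOf (I : S) := by simpa [MulAut.conj_apply] using h5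
      rw [h6]; exact hI'
    have hconjM : XS.map (MulAut.conj g).toMonoidHom ≤ M := by
      rintro _ ⟨x, hx, rfl⟩
      obtain ⟨x', hx', rfl⟩ := hx
      apply hC _ hg hgord
      rw [Subgroup.mem_centralizer_singleton_iff]
      have h1 := congrArg M.subtype (hXI x' hx')
      rw [map_mul, map_mul] at h1
      have h2 : (x' : S) * I = I * x' := h1
      show g * (x' : S) * g⁻¹ * (g * I * g⁻¹) = g * I * g⁻¹ * (g * (x' : S) * g⁻¹)
      calc g * (x' : S) * g⁻¹ * (g * I * g⁻¹) = g * (x' * I) * g⁻¹ := by group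
        _ = g * (I * x') * g⁻¹ := by rw [h2]
        _ = g * I * g⁻¹ * (g * (x' : S) * g⁻¹) := by group
    have hidx : ¬ 2 ∣ XS.relIndex M := by
      have : XS.relIndex M = (X : Subgroup M).index := by
        rw [Subgroup.relIndex, hXS]
        congr 1
        exact Subgroup.comap_map_eq_self_of_injective M.subtype_injective _
      rw [this]
      exact X.not_dvd_index
    obtain ⟨m, hm, hmc⟩ := exists_conj_le_of_not_dvd_relIndex hXSM hXSp hidx hconjM (hXSp.map _)
    have h3 : m * g ∈ Subgroup.normalizer (XS : Set S) := by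
      apply mem_normalizer_of_conj_le
      intro x hx
      have h4 := hmc ((MulAut.conj g).toMonoidHom x) ⟨x, hx, rfl⟩
      have e : m * (MulAut.conj g).toMonoidHom x * m⁻¹ = m * g * x * (m * g)⁻¹ := by
        simp only [MulEquiv.coe_toMonoidHom, MulAut.conj_apply]
        group
      rw [e] at h4; exact h4
    have h5 : m * g ∈ M := hN h3
    have : g = m⁻¹ * (m * g) := by group
    rw [this]; exact M.mul_mem (M.inv_mem hm) h5
  have conjM : ∀ x : M, orderOf x = 2 → IsConj I x := by
    intro x hx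
    have hx' : orderOf (x : S) = 2 := by rw [Subgroup.orderOf_coe]; exact hx
    obtain ⟨g, hg⟩ := isConj_iff.mp (hall I x hI' hx')
    have hgM : g ∈ M := key g (by rw [hg]; exact x.2)
    rw [isConj_iff]
    exact ⟨⟨g, hgM⟩, Subtype.ext hg⟩
  refine ⟨fun x y hx hy => (conjM x hx).symm.trans (conjM y hy), ?_⟩
  -- key' : for all involutions
  have key' : ∀ g i : S, orderOf i = 2 → i ∈ M → g * i * g⁻¹ ∈ M → g ∈ M := by
    intro g i hi hiM hgi
    have hi' : orderOf (⟨i, hiM⟩ : M) = 2 := by rw [Subgroup.orderOf_mk]; exact hi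
    obtain ⟨m, hm⟩ := isConj_iff.mp (conjM ⟨i, hiM⟩ hi')
    have hm' : (m : S) * I * (m : S)⁻¹ = i := congrArg M.subtype hm
    have h1 : g * m ∈ M := by
      apply key
      have : g * (m : S) * I * (g * (m : S))⁻¹ = g * i * g⁻¹ := by rw [← hm']; group
      rw [this]; exact hgi
    have : g = g * m * (m : S)⁻¹ := by group
    rw [this]; exact M.mul_mem h1 (M.inv_mem m.2)
  -- strong embedding
  have hodd : ∀ g : S, g ∉ M → Odd (Nat.card ((M.map (MulAut.conj g).toMonoidHom).subgroupOf M)) := by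
    intro g hg
    rw [← Nat.not_even_iff_odd]
    intro he
    obtain ⟨u, hu⟩ := exists_prime_orderOf_dvd_card' 2 (even_iff_two_dvd.mp he)
    have hu1 : orderOf ((u : M) : S) = 2 := by rw [Subgroup.orderOf_coe, Subgroup.orderOf_coe]; exact hu
    have hu2 : ((u : M) : S) ∈ M.map (MulAut.conj g).toMonoidHom := u.2
    rw [mem_map_conj_iff] at hu2
    apply hg
    apply key' g (g⁻¹ * ((u : M) : S) * g) _ hu2
    · have : g * (g⁻¹ * ((u : M) : S) * g) * g⁻¹ = ((u : M) : S) := by group
      rw [this]; exact (u : M).2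
    · have h5 := orderOf_injective (MulAut.conj g⁻¹).toMonoidHom (MulAut.conj g⁻¹).injective ((u : M) : S)
      have h6 : orderOf (g⁻¹ * ((u : M) : S) * g) = orderOf ((u : M) : S) := by simpa [MulAut.conj_apply] using h5
      rw [h6]; exact hu1
  -- counting
  have : Fintype S := Fintype.ofFinite S
  have : Fintype (S ⧸ M) := Fintype.ofFinite _
  set Inv : Finset S := Finset.univ.filter (fun x => orderOf x = 2) with hInv
  set J : Finset S := Finset.univ.filter (fun x => orderOf x = 2 ∧ x ∈ M) with hJ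
  set O : Finset S := Finset.univ.filter (fun x => orderOf x = 2 ∧ x ∉ M) with hO
  have hcardInv : Inv.card = (Subgroup.centralizer ({(I : S)} : Set S)).index := by
    rw [← card_conj_eq_index (I : S)]
    rw [Nat.card_eq_fintype_card, Fintype.card_subtype]
    congr 1
    ext x
    simp only [hInv, Finset.mem_filter, Finset.mem_univ, true_and]
    constructor
    · intro hx; exact hall _ _ hI' hx
    · intro hx
      obtain ⟨c, hc⟩ := isConj_iff.mp hx
      rw [← hc]
      have h5 := orderOf_injective (MulAut.conj c).toMonoidHom (MulAut.conj c).injective (I : S)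
      have h6 : orderOf (c * (I : S) * c⁻¹) = orderOf (I : S) := by simpa [MulAut.conj_apply] using h5
      rw [h6]; exact hI'
  have hcardJ : J.card = (Subgroup.centralizer ({I} : Set M)).index := by
    rw [← card_conj_eq_index I]
    have : Fintype M := Fintype.ofFinite M
    rw [Nat.card_eq_fintype_card, Fintype.card_subtype]
    refine Finset.card_bij' (fun (x : S) (hx : x ∈ J) => (⟨x, (Finset.mem_filter.mp hx).2.2⟩ : M)) (fun (x : M) _ => (x : S)) ?_ ?_ ?_ ?_
    · intro x hx
      simp only [Finset.mem_filter, Finset.mem_univ, true_and]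
      apply conjM
      rw [Subgroup.orderOf_mk]
      exact (Finset.mem_filter.mp hx).2.1
    · intro x hx
      simp only [Finset.mem_filter, Finset.mem_univ, true_and] at hx
      simp only [hJ, Finset.mem_filter, Finset.mem_univ, true_and]
      refine ⟨?_, x.2⟩
      obtain ⟨c, hc⟩ := isConj_iff.mp hx
      rw [← hc, Subgroup.orderOf_coe]
      have h5 := orderOf_injective (MulAut.conj c).toMonoidHom (MulAut.conj c).injective I
      have h6 : orderOf (c * I * c⁻¹) = orderOf I := by simpa [MulAut.conj_apply] using h5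
      rw [h6]; exact hI
    · intro x hx; rfl
    · intro x hx; rfl
  have hindex : (Subgroup.centralizer ({(I : S)} : Set S)).index = (Subgroup.centralizer ({I} : Set M)).index * M.index := by
    have hle : Subgroup.centralizer ({(I : S)} : Set S) ≤ M := hC I I.2 hI'
    rw [← Subgroup.relIndex_mul_index hle]
    congr 1
    rw [Subgroup.relIndex]
    congr 1
    ext x
    rw [Subgroup.mem_subgroupOf, Subgroup.mem_centralizer_singleton_iff, Subgroup.mem_centralizer_singleton_iff]
    constructor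
    · intro h; exact Subtype.ext h
    · intro h; exact congrArg M.subtype h
  have hsplit : Inv.card = J.card + O.card := by
    rw [← Finset.card_union_of_disjoint]
    · congr 1
      ext x
      simp only [hInv, hJ, hO, Finset.mem_union, Finset.mem_filter, Finset.mem_univ, true_and]
      tauto
    · rw [Finset.disjoint_left]
      intro x hx hx'
      exact (Finset.mem_filter.mp hx').2.2 (Finset.mem_filter.mp hx).2.2
  set T : Finset (S ⧸ M) := Finset.univ.erase ((1 : S) : S ⧸ M) with hT
  have hcardT : T.card + 1 = M.index := by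
    rw [hT, Finset.card_erase_add_one (Finset.mem_univ _), Finset.card_univ, Subgroup.index, Nat.card_eq_fintype_card]
  have hmaps : ∀ x ∈ O, ((x : S) : S ⧸ M) ∈ T := by
    intro x hx
    rw [hT, Finset.mem_erase]
    refine ⟨?_, Finset.mem_univ _⟩
    intro h
    rw [eq_comm, QuotientGroup.eq] at h
    simp only [inv_one, one_mul] at h
    exact (Finset.mem_filter.mp hx).2.2 h
  have hTne : T.Nonempty := ⟨((j0 : S) : S ⧸ M), hmaps j0 (by
    rw [hO, Finset.mem_filter]; exact ⟨Finset.mem_univ _, hj0, hj0M⟩)⟩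
  have hOcard : T.card * J.card ≤ O.card := by
    have : J.card * M.index = J.card + O.card := by
      rw [← hsplit, hcardInv, hindex, hcardJ]
    rw [← hcardT] at this
    nlinarith
  obtain ⟨q, hqT, hq⟩ := Finset.exists_le_card_fiber_of_mul_le_card_of_maps_to hmaps hTne hOcard
  have hJpos : 0 < J.card := Finset.card_pos.mpr ⟨(I : S), by
    rw [hJ, Finset.mem_filter]; exact ⟨Finset.mem_univ _, hI', I.2⟩⟩
  obtain ⟨t, ht⟩ : (Finset.filter (fun x : S => ((x : S) : S ⧸ M) = q) O).Nonempty := by
    rw [← Finset.card_pos]; omega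
  rw [Finset.mem_filter, hO, Finset.mem_filter] at ht
  obtain ⟨⟨_, hto, htM⟩, htq⟩ := ht
  have ht2 : t * t = 1 := by rw [← pow_two, ← hto, pow_orderOf_eq_one]
  have htinv : t⁻¹ = t := by rw [inv_eq_iff_mul_eq_one]; exact ht2
  set K : Finset S := Finset.univ.filter (fun y => y ∈ M ∧ t * y * t = y⁻¹) with hK
  have hKcard : J.card ≤ K.card := by
    refine hq.trans ?_
    apply Finset.card_le_card_of_injOn (fun x => t * x)
    · intro x hx
      simp only [Finset.coe_filter, Set.mem_ofPred_eq] at hx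
      obtain ⟨hxO, hxq⟩ := hx
      rw [hO, Finset.mem_filter] at hxO
      obtain ⟨_, hxo, hxM⟩ := hxO
      have hx2 : x * x = 1 := by rw [← pow_two, ← hxo, pow_orderOf_eq_one]
      have hxinv : x⁻¹ = x := by rw [inv_eq_iff_mul_eq_one]; exact hx2
      simp only [hK, Finset.coe_filter, Set.mem_ofPred_eq, Finset.mem_univ, true_and]
      constructor
      · have h1 : ((t : S) : S ⧸ M) = ((x : S) : S ⧸ M) := by rw [htq, hxq]
        rw [QuotientGroup.eq, htinv] at h1
        exact h1
      · rw [mul_inv_rev, hxinv, htinv]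
        calc t * (t * x) * t = (t * t) * x * t := by group
          _ = x * t := by rw [ht2, one_mul]
    · intro a _ b _ hab
      exact mul_left_cancel hab
  have hinj : Set.InjOn (fun y : S => y * (I : S) * y⁻¹) (K : Set S) := by
    intro y hy y' hy' h
    simp only [hK, Finset.coe_filter, Set.mem_ofPred_eq, Finset.mem_univ, true_and] at hy hy'
    exact inj_aux M hC hI' I.2 hto htM hy.1 hy.2 hy'.1 hy'.2 h
  have hmapsK : ∀ y ∈ K, y * (I : S) * y⁻¹ ∈ J := by
    intro y hy
    rw [hK, Finset.mem_filter] at hy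
    rw [hJ, Finset.mem_filter]
    refine ⟨Finset.mem_univ _, ?_, M.mul_mem (M.mul_mem hy.2.1 I.2) (M.inv_mem hy.2.1)⟩
    have h5 := orderOf_injective (MulAut.conj y).toMonoidHom (MulAut.conj y).injective (I : S)
    have h6 : orderOf (y * (I : S) * y⁻¹) = orderOf (I : S) := by simpa [MulAut.conj_apply] using h5
    rw [h6]; exact hI'
  have hsurj := Finset.surjOn_of_injOn_of_card_le (fun y : S => y * (I : S) * y⁻¹) hmapsK hinj hKcard
  refine ⟨(M.map (MulAut.conj t).toMonoidHom).subgroupOf M, hodd t htM, ?_⟩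
  intro m
  have hmJ : (m : S) * I * (m : S)⁻¹ ∈ J := by
    rw [hJ, Finset.mem_filter]
    refine ⟨Finset.mem_univ _, ?_, M.mul_mem (M.mul_mem m.2 I.2) (M.inv_mem m.2)⟩
    have h5 := orderOf_injective (MulAut.conj (m : S)).toMonoidHom (MulAut.conj (m : S)).injective (I : S)
    have h6 : orderOf ((m : S) * (I : S) * (m : S)⁻¹) = orderOf (I : S) := by simpa [MulAut.conj_apply] using h5
    rw [h6]; exact hI'
  obtain ⟨y, hyK, hy⟩ := hsurj hmJ
  have hyK' := hyK
  simp only [hK, Finset.coe_filter, Set.mem_ofPred_eq, Finset.mem_univ, true_and] at hyK'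
  obtain ⟨hyM, hyt⟩ := hyK'
  have hy' : y * (I : S) * y⁻¹ = (m : S) * I * (m : S)⁻¹ := hy
  refine ⟨⟨y, hyM⟩, ?_, (⟨y, hyM⟩ : M)⁻¹ * m, ?_, by group⟩
  · rw [Subgroup.mem_subgroupOf, mem_map_conj_iff, htinv]
    show t * y * t ∈ M
    rw [hyt]; exact M.inv_mem hyM
  · rw [Subgroup.mem_centralizer_singleton_iff]
    apply Subtype.ext
    show y⁻¹ * (m : S) * I = I * (y⁻¹ * (m : S))
    calc y⁻¹ * (m : S) * I = y⁻¹ * ((m : S) * I * (m : S)⁻¹) * m := by group
      _ = y⁻¹ * (y * (I : S) * y⁻¹) * m := by rw [hy']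
      _ = I * (y⁻¹ * (m : S)) := by group

end Cfsg.Agent.S1905
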