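import Cfsg.Statements.S1907
import Cfsg.Agent.Lib.H32Cores

set_option autoImplicit false
open Cfsg

namespace Cfsg.Agent.S1907

open Cfsg.Agent.Lib.H32Basic Cfsg.Agent.Lib.H32Cores

/-- part (a) in a slightly more general form -/
theorem partA {G : Type*} [Group G] [Finite G] {p : ℕ} [Fact p.Prime] (H D : Subgroup G) [D.Normal]
    (hD : (Nat.card D).Coprime p) (hHD : H ⊓ D = ⊥) (y : G) (hy : y ∈ Subgroup.normalizer (H : Set G))
    (hyp : ∃ k : ℕ, orderOf y = p ^ k) (d : G) (hd : d ∈ D)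
    (hdy : d⁻¹ * y * d ∈ Subgroup.normalizer (H : Set G)) :
    ∃ d₁ ∈ D ⊓ Subgroup.centralizer ({y} : Set G),
          ∃ d₂ ∈ D ⊓ Subgroup.centralizer (H : Set G), d = d₁ * d₂ := by
  -- elements of N ∩ D centralize H
  have hND : ∀ x ∈ Subgroup.normalizer (H : Set G), x ∈ D → x ∈ Subgroup.centralizer (H : Set G) := by
    intro x hxN hxD
    rw [Subgroup.mem_centralizer_iff]
    intro h hh
    have h1 : x * h * x⁻¹ ∈ H := (Subgroup.mem_normalizer_iff.mp hxN h).mp hh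
    have h2 : x * h * x⁻¹ * h⁻¹ ∈ H := H.mul_mem h1 (H.inv_mem hh)
    have h3 : x * h * x⁻¹ * h⁻¹ ∈ D := by
      have : x * (h * x⁻¹ * h⁻¹) ∈ D := D.mul_mem hxD (Subgroup.Normal.conj_mem inferInstance _ (D.inv_mem hxD) h)
      have e : x * h * x⁻¹ * h⁻¹ = x * (h * x⁻¹ * h⁻¹) := by group
      rw [e]; exact this
    have h4 : x * h * x⁻¹ * h⁻¹ ∈ H ⊓ D := ⟨h2, h3⟩
    rw [hHD, Subgroup.mem_bot] at h4
    calc h * x = (x * h * x⁻¹ * h⁻¹)⁻¹ * (x * h) := by group
      _ = x * h := by rw [h4]; group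
  set C : Subgroup G := D ⊓ Subgroup.centralizer (H : Set G) with hC
  -- c0 = y⁻¹ d⁻¹ y d ∈ C
  have hc0 : y⁻¹ * (d⁻¹ * y * d) ∈ C := by
    have h1 : y⁻¹ * (d⁻¹ * y * d) ∈ D := by
      have : (y⁻¹ * d⁻¹ * y) * d ∈ D := by
        apply D.mul_mem _ hd
        have := Subgroup.Normal.conj_mem (inferInstance : D.Normal) _ (D.inv_mem hd) y⁻¹
        simpa using this
      have e : y⁻¹ * (d⁻¹ * y * d) = (y⁻¹ * d⁻¹ * y) * d := by group
      rw [e]; exact this
    exact ⟨h1, hND _ ((Subgroup.normalizer (H : Set G)).mul_mem ((Subgroup.normalizer (H : Set G)).inv_mem hy) hdy) h1⟩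
  -- y normalizes C
  have hyC : ∀ c ∈ C, y * c * y⁻¹ ∈ C := by
    rintro c ⟨hcD, hcH'⟩
    have hcH : c ∈ Subgroup.centralizer (H : Set G) := hcH'
    have h1 : y * c * y⁻¹ ∈ D := Subgroup.Normal.conj_mem (inferInstance : D.Normal) _ hcD y
    refine ⟨h1, hND _ ?_ h1⟩
    have hcN : c ∈ Subgroup.normalizer (H : Set G) := by
      rw [Subgroup.mem_normalizer_iff]
      intro h
      rw [Subgroup.mem_centralizer_iff] at hcH
      constructor
      · intro hh
        have := hcH h hh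
        rw [← this]; simpa using hh
      · intro hh
        have := hcH _ hh
        have e : h = c * h * c⁻¹ := by
          calc h = c⁻¹ * (c * h * c⁻¹ * c) := by group
            _ = c⁻¹ * (c * (c * h * c⁻¹)) := by rw [this]
            _ = c * h * c⁻¹ := by group
        rw [e]; exact hh
    exact (Subgroup.normalizer (H : Set G)).mul_mem ((Subgroup.normalizer (H : Set G)).mul_mem hy hcN)
      ((Subgroup.normalizer (H : Set G)).inv_mem hy)
  -- the group M = ⟨y⟩ C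
  set M : Subgroup G := Subgroup.zpowers y ⊔ C with hM
  have hyN : Subgroup.zpowers y ≤ Subgroup.normalizer (C : Set G) := by
    rw [Subgroup.zpowers_le]
    exact mem_normalizer_of_conj_le hyC
  have hmem : ∀ m ∈ M, ∃ i : ℤ, ∃ c ∈ C, m = y ^ i * c := by
    intro m hm
    have h1 : (m : G) ∈ ((Subgroup.zpowers y ⊔ C : Subgroup G) : Set G) := hm
    rw [Subgroup.coe_mul_of_left_le_normalizer_right _ _ hyN] at h1
    obtain ⟨a, ha, c, hc, rfl⟩ := h1
    obtain ⟨i, rfl⟩ := ha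
    exact ⟨i, c, hc, rfl⟩
  have hyM : y ∈ M := le_sup_left (a := Subgroup.zpowers y) (Subgroup.mem_zpowers y)
  have hCM : C ≤ M := le_sup_right
  have hyP : IsPGroup p (Subgroup.zpowers y) := by
    obtain ⟨k, hk⟩ := hyp
    rw [IsPGroup.iff_card]
    exact ⟨k, by rw [Nat.card_zpowers, hk]⟩
  have hd'P : IsPGroup p (Subgroup.zpowers (d⁻¹ * y * d)) := by
    obtain ⟨k, hk⟩ := hyp
    rw [IsPGroup.iff_card]
    refine ⟨k, ?_⟩
    rw [Nat.card_zpowers]
    have : orderOf (d⁻¹ * y * d) = orderOf y := by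
      have h5 := orderOf_injective (MulAut.conj d⁻¹).toMonoidHom (MulAut.conj d⁻¹).injective y
      simpa [MulAut.conj_apply] using h5
    rw [this, hk]
  have hCcop : (Nat.card C).Coprime p := Nat.Coprime.coprime_dvd_left (Subgroup.card_dvd_of_le inf_le_left) hD
  have hidx : ¬ p ∣ (Subgroup.zpowers y).relIndex M := by
    -- relindex divides card C
    have h1 : (Subgroup.zpowers y).relIndex M ∣ Nat.card C := by
      have h2 : Nat.card M ∣ Nat.card (Subgroup.zpowers y) * Nat.card C := by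
        -- M is inside normalizer of C
        have hMN : M ≤ Subgroup.normalizer (C : Set G) := sup_le hyN Subgroup.le_normalizer
        have h3 : (Nat.card (↥M)) = C.relIndex M * Nat.card C := card_eq_relIndex_mul hCM
        have h4 : C.relIndex M ∣ Nat.card (Subgroup.zpowers y) := by
          have : C.relIndex (Subgroup.zpowers y ⊔ C) = C.relIndex (Subgroup.zpowers y) := by
            have : (C.subgroupOf M).Normal := Subgroup.normal_subgroupOf_of_le_normalizer hMN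
            have hh := Subgroup.relIndex_sup_right (H := (Subgroup.zpowers y).subgroupOf M) (K := C.subgroupOf M)
            rw [← Subgroup.subgroupOf_sup le_sup_left hCM] at hh
            rw [Subgroup.relIndex_subgroupOf (le_refl _), Subgroup.relIndex_subgroupOf le_sup_left] at hh
            exact hh
          rw [hM, this]
          exact Subgroup.relIndex_dvd_card _ _
        rw [h3]
        exact mul_dvd_mul_right h4 _
      have h5 : Nat.card M = (Subgroup.zpowers y).relIndex M * Nat.card (Subgroup.zpowers y) :=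
        card_eq_relIndex_mul le_sup_left
      rw [h5, mul_comm] at h2
      exact Nat.dvd_of_mul_dvd_mul_left Nat.card_pos h2
    intro h
    have h6 := h.trans h1
    exact (Nat.Prime.coprime_iff_not_dvd (Fact.out : p.Prime)).mp hCcop.symm h6
  have hd'M : Subgroup.zpowers (d⁻¹ * y * d) ≤ M := by
    rw [Subgroup.zpowers_le]
    have : d⁻¹ * y * d = y * (y⁻¹ * (d⁻¹ * y * d)) := by group
    rw [this]
    exact M.mul_mem hyM (hCM hc0)
  obtain ⟨m, hm, hmc⟩ := exists_conj_le_of_not_dvd_relIndex (le_sup_left : Subgroup.zpowers y ≤ M) hyP hidx hd'M hd'P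
  obtain ⟨i, c, hc, rfl⟩ := hmem m hm
  have h7 := hmc (d⁻¹ * y * d) (Subgroup.mem_zpowers _)
  -- then c (d⁻¹ y d) c⁻¹ ∈ ⟨y⟩
  have h8 : c * (d⁻¹ * y * d) * c⁻¹ ∈ Subgroup.zpowers y := by
    have h9 : (y ^ i)⁻¹ * (y ^ i * c * (d⁻¹ * y * d) * (y ^ i * c)⁻¹) * y ^ i ∈ Subgroup.zpowers y :=
      (Subgroup.zpowers y).mul_mem ((Subgroup.zpowers y).mul_mem
        ((Subgroup.zpowers y).inv_mem (Subgroup.zpow_mem_zpowers y i)) h7) (Subgroup.zpow_mem_zpowers y i)
    have e : (y ^ i)⁻¹ * (y ^ i * c * (d⁻¹ * y * d) * (y ^ i * c)⁻¹) * y ^ i = c * (d⁻¹ * y * d) * c⁻¹ := by group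
    rw [e] at h9; exact h9
  -- and it is ≡ y mod C
  have h10 : y⁻¹ * (c * (d⁻¹ * y * d) * c⁻¹) ∈ C := by
    have e : y⁻¹ * (c * (d⁻¹ * y * d) * c⁻¹) = (y⁻¹ * c * y) * (y⁻¹ * (d⁻¹ * y * d)) * c⁻¹ := by group
    rw [e]
    have h11 : y⁻¹ * c * y ∈ C := by
      have := (Subgroup.mem_normalizer_iff'.mp ((Subgroup.normalizer (C : Set G)).inv_mem (hyN (Subgroup.mem_zpowers y)))
        (c * y)).mp
      have h12 : y⁻¹ * c * (y⁻¹)⁻¹ ∈ C :=
        (Subgroup.mem_normalizer_iff.mp ((Subgroup.normalizer (C : Set G)).inv_mem (hyN (Subgroup.mem_zpowers y))) c).mp hc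
      simpa using h12
    exact C.mul_mem (C.mul_mem h11 hc0) (C.inv_mem hc)
  have h13 : Subgroup.zpowers y ⊓ C = ⊥ := by
    apply Disjoint.eq_bot
    apply Subgroup.disjoint_of_coprime_natCard
    obtain ⟨n, hn⟩ := IsPGroup.iff_card.mp hyP
    rw [hn]
    exact (hCcop.pow_right n).symm
  have h14 : y⁻¹ * (c * (d⁻¹ * y * d) * c⁻¹) ∈ Subgroup.zpowers y ⊓ C :=
    ⟨(Subgroup.zpowers y).mul_mem ((Subgroup.zpowers y).inv_mem (Subgroup.mem_zpowers y)) h8, h10⟩
  rw [h13, Subgroup.mem_bot] at h14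
  have h15 : c * (d⁻¹ * y * d) * c⁻¹ = y := by
    calc c * (d⁻¹ * y * d) * c⁻¹ = y * (y⁻¹ * (c * (d⁻¹ * y * d) * c⁻¹)) := by group
      _ = y := by rw [h14, mul_one]
  refine ⟨d * c⁻¹, ⟨D.mul_mem hd (D.inv_mem hc.1), ?_⟩, c, hc, by group⟩
  show d * c⁻¹ ∈ Subgroup.centralizer ({y} : Set G)
  rw [Subgroup.mem_centralizer_singleton_iff]
  calc d * c⁻¹ * y = d * c⁻¹ * (c * (d⁻¹ * y * d) * c⁻¹) := by rw [h15]
    _ = y * (d * c⁻¹) := by group

/-- Let P be a Sylow p-subgroup of a finite group G, H = P ∩ O_{p',p}(G), N = N_G(H) and D = O_{p'}(G). (a) If y is an element of p-power order of N and d ∈ D with d⁻¹ y d ∈ N, then d = d₁ d₂ with d₁ ∈ C_D(y) and d₂ ∈ C_D(H). (b) Two elements of P that are conjugate in G are conjugate in N. -/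
theorem result {G : Type*} [Group G] [Finite G] {p : ℕ} [Fact p.Prime] (P : Sylow p G) :
    (∀ y ∈ Subgroup.normalizer (((P : Subgroup G) ⊓ Cfsg.pPrimePCore p G : Subgroup G) : Set G), (∃ k : ℕ, orderOf y = p ^ k) →
      ∀ d ∈ Cfsg.pPrimeCore p G, d⁻¹ * y * d ∈ Subgroup.normalizer (((P : Subgroup G) ⊓ Cfsg.pPrimePCore p G : Subgroup G) : Set G) →
        ∃ d₁ ∈ Cfsg.pPrimeCore p G ⊓ Subgroup.centralizer ({y} : Set G),
          ∃ d₂ ∈ Cfsg.pPrimeCore p G ⊓ Subgroup.centralizer (((P : Subgroup G) ⊓ Cfsg.pPrimePCore p G : Subgroup G) : Set G), d = d₁ * d₂) ∧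
    ∀ x y : G, x ∈ (P : Subgroup G) → y ∈ (P : Subgroup G) → IsConj x y →
      ∃ n ∈ Subgroup.normalizer (((P : Subgroup G) ⊓ Cfsg.pPrimePCore p G : Subgroup G) : Set G), n * x * n⁻¹ = y := by
  set D : Subgroup G := pPrimeCore p G with hDdef
  set M : Subgroup G := pPrimePCore p G with hMdef
  set H : Subgroup G := (P : Subgroup G) ⊓ M with hHdef
  have hMn : M.Normal := by
    rw [hMdef]; unfold pPrimePCore; infer_instance
  have hDM : D ≤ M := by
    rw [hMdef]; unfold pPrimePCore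
    intro x hx
    rw [Subgroup.mem_comap]
    have : (QuotientGroup.mk' (pPrimeCore p G)) x = 1 := by
      rw [QuotientGroup.mk'_apply, QuotientGroup.eq_one_iff]; exact hx
    rw [this]; exact Subgroup.one_mem _
  have hDc : (Nat.card D).Coprime p := pPrimeCore_coprime p
  have hPp : IsPGroup p (P : Subgroup G) := P.2
  have hHp : IsPGroup p H := hPp.to_le inf_le_left
  have hHD : H ⊓ D = ⊥ := by
    apply eq_bot_of_isPGroup_of_coprime p (hHp.to_le inf_le_left)
    exact Nat.Coprime.coprime_dvd_left (Subgroup.card_dvd_of_le inf_le_right) hDc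
  have hA : ∀ y ∈ Subgroup.normalizer (H : Set G), (∃ k : ℕ, orderOf y = p ^ k) →
      ∀ d ∈ D, d⁻¹ * y * d ∈ Subgroup.normalizer (H : Set G) →
        ∃ d₁ ∈ D ⊓ Subgroup.centralizer ({y} : Set G),
          ∃ d₂ ∈ D ⊓ Subgroup.centralizer (H : Set G), d = d₁ * d₂ :=
    fun y hy hyp d hd hdy => partA H D hDc hHD y hy hyp d hd hdy
  refine ⟨hA, ?_⟩
  -- M = D H : every element of M is d * h
  have hMDH : ∀ m ∈ M, ∃ d ∈ D, ∃ h ∈ H, m = d * h := by
    have hcard : D ⊔ H = M := by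
      apply Subgroup.eq_of_le_of_card_ge (sup_le hDM inf_le_right)
      -- |M| = |D| * p-power ; |D ⊔ H| = |D| |H|
      have h1 : Nat.card ↥(H ⊔ D) * Nat.card ↥(H ⊓ D) = Nat.card H * Nat.card D := card_sup_mul_card_inf H D
      rw [hHD] at h1
      rw [Subgroup.card_bot, mul_one] at h1
      have h2 : Nat.card M = D.relIndex M * Nat.card D := card_eq_relIndex_mul hDM
      have h3 : Nat.card M = H.relIndex M * Nat.card H := card_eq_relIndex_mul inf_le_right
      have h4 : ¬ p ∣ H.relIndex M := not_dvd_relIndex_sylow_inf P M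
      -- D.relIndex M is a power of p
      have h5 : ∃ n, D.relIndex M = p ^ n := by
        have h6 : IsPGroup p (pCore p (G ⧸ pPrimeCore p G)) := pCore_isPGroup p
        obtain ⟨n, hn⟩ := IsPGroup.iff_card.mp h6
        refine ⟨n, ?_⟩
        rw [← hn]
        have h7 : (M.map (QuotientGroup.mk' D)) = pCore p (G ⧸ pPrimeCore p G) := by
          rw [hMdef]; unfold pPrimePCore
          exact Subgroup.map_comap_eq_self_of_surjective (QuotientGroup.mk'_surjective _) _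
        rw [← h7]
        have h8 := Subgroup.relIndex_ker (QuotientGroup.mk' D) (K := M)
        rw [QuotientGroup.ker_mk'] at h8
        exact h8
      obtain ⟨n, hn⟩ := h5
      rw [sup_comm, h1, h2, hn, mul_comm (p ^ n), mul_comm (Nat.card H)]
      apply Nat.mul_le_mul_left
      apply Nat.le_of_dvd Nat.card_pos
      have h9 : p ^ n ∣ H.relIndex M * Nat.card H := by
        rw [← h3, h2, hn]; exact dvd_mul_right _ _
      exact Nat.Coprime.dvd_of_dvd_mul_left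
        (Nat.Coprime.pow_left n ((Nat.Prime.coprime_iff_not_dvd (Fact.out : p.Prime)).mpr h4)) h9
    intro m hm
    rw [← hcard] at hm
    rw [Subgroup.mem_sup_of_normal_left] at hm
    obtain ⟨d, hd, h, hh, rfl⟩ := hm
    exact ⟨d, hd, h, hh, rfl⟩
  -- G = N D
  have hG : ∀ g : G, ∃ n ∈ Subgroup.normalizer (H : Set G), ∃ d ∈ D, g = n * d := by
    intro g
    -- use g⁻¹: g⁻¹ H g ≤ M
    have hconjM : H.map (MulAut.conj g⁻¹).toMonoidHom ≤ M := by
      rintro _ ⟨x, hx, rfl⟩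
      exact hMn.conj_mem x (inf_le_right (a := (P : Subgroup G)) hx) g⁻¹
    have hconjP : IsPGroup p (H.map (MulAut.conj g⁻¹).toMonoidHom) := hHp.map _
    obtain ⟨m, hm, hmc⟩ := exists_conj_le_of_not_dvd_relIndex (inf_le_right : H ≤ M) hHp
      (not_dvd_relIndex_sylow_inf P M) hconjM hconjP
    -- m g⁻¹ normalizes H
    have hn : m * g⁻¹ ∈ Subgroup.normalizer (H : Set G) := by
      apply mem_normalizer_of_conj_le
      intro x hx
      have h1 := hmc ((MulAut.conj g⁻¹).toMonoidHom x) ⟨x, hx, rfl⟩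
      have e : m * (MulAut.conj g⁻¹).toMonoidHom x * m⁻¹ = m * g⁻¹ * x * (m * g⁻¹)⁻¹ := by
        simp only [MulEquiv.coe_toMonoidHom, MulAut.conj_apply]
        group
      rw [e] at h1; exact h1
    -- m⁻¹ ∈ M; write m = h' d' form : use m = d * h; g = (m g⁻¹)⁻¹ m
    have hm' : m⁻¹ ∈ M := M.inv_mem hm
    obtain ⟨d, hd, h, hh, hdh⟩ := hMDH m⁻¹ hm'
    -- m = h⁻¹ d⁻¹
    have hm2 : m = h⁻¹ * d⁻¹ := by
      calc m = (m⁻¹)⁻¹ := by group
        _ = (d * h)⁻¹ := by rw [hdh]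
        _ = h⁻¹ * d⁻¹ := by group
    refine ⟨(m * g⁻¹)⁻¹ * h⁻¹, ?_, d⁻¹, D.inv_mem hd, ?_⟩
    · apply (Subgroup.normalizer (H : Set G)).mul_mem
      · exact (Subgroup.normalizer (H : Set G)).inv_mem hn
      · exact (Subgroup.normalizer (H : Set G)).inv_mem (Subgroup.le_normalizer hh)
    · calc g = (m * g⁻¹)⁻¹ * m := by group
        _ = (m * g⁻¹)⁻¹ * (h⁻¹ * d⁻¹) := by rw [← hm2]
        _ = (m * g⁻¹)⁻¹ * h⁻¹ * d⁻¹ := by group
  -- P ≤ N
  have hPN : (P : Subgroup G) ≤ Subgroup.normalizer (H : Set G) := by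
    intro x hx
    apply mem_normalizer_of_conj_le
    rintro h ⟨hhP, hhM⟩
    exact ⟨(P : Subgroup G).mul_mem ((P : Subgroup G).mul_mem hx hhP) ((P : Subgroup G).inv_mem hx),
      hMn.conj_mem h hhM x⟩
  intro x y hx hy hxy
  obtain ⟨g, hg⟩ := isConj_iff.mp hxy
  obtain ⟨n, hn, d, hd, rfl⟩ := hG g
  have hxo : ∃ k : ℕ, orderOf x = p ^ k := by
    obtain ⟨k, hk⟩ := IsPGroup.iff_orderOf.mp hPp ⟨x, hx⟩
    exact ⟨k, by rw [← hk, Subgroup.orderOf_mk]⟩
  have h1 : (d⁻¹)⁻¹ * x * d⁻¹ ∈ Subgroup.normalizer (H : Set G) := by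
    have e : (d⁻¹)⁻¹ * x * d⁻¹ = n⁻¹ * (n * d * x * (n * d)⁻¹) * n := by group
    rw [e, hg]
    exact (Subgroup.normalizer (H : Set G)).mul_mem ((Subgroup.normalizer (H : Set G)).mul_mem
      ((Subgroup.normalizer (H : Set G)).inv_mem hn) (hPN hy)) hn
  obtain ⟨d₁, hd₁, d₂, hd₂, hdd⟩ := hA x (hPN hx) hxo d⁻¹ (D.inv_mem hd) h1
  have hd₁' : d₁ * x = x * d₁ := Subgroup.mem_centralizer_singleton_iff.mp hd₁.2
  have hd₂N : d₂⁻¹ ∈ Subgroup.normalizer (H : Set G) := by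
    apply (Subgroup.normalizer (H : Set G)).inv_mem
    apply mem_normalizer_of_conj_le
    intro h hh
    have := (Subgroup.mem_centralizer_iff.mp hd₂.2) h hh
    rw [← this]; simpa using hh
  refine ⟨n * d₂⁻¹, (Subgroup.normalizer (H : Set G)).mul_mem hn hd₂N, ?_⟩
  have hd3 : d = d₂⁻¹ * d₁⁻¹ := by
    calc d = (d⁻¹)⁻¹ := by group
      _ = (d₁ * d₂)⁻¹ := by rw [hdd]
      _ = d₂⁻¹ * d₁⁻¹ := by group
  rw [← hg, hd3]
  calc n * d₂⁻¹ * x * (n * d₂⁻¹)⁻¹ = n * d₂⁻¹ * (d₁⁻¹ * (d₁ * x)) * (n * d₂⁻¹)⁻¹ := by group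
    _ = n * d₂⁻¹ * (d₁⁻¹ * (x * d₁)) * (n * d₂⁻¹)⁻¹ := by rw [hd₁']
    _ = n * (d₂⁻¹ * d₁⁻¹) * x * (n * (d₂⁻¹ * d₁⁻¹))⁻¹ := by group

end Cfsg.Agent.S1907
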