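import Cfsg.Statements.S1924
import Cfsg.Agent.Lib.SignTransfer

set_option autoImplicit false
open Cfsg

namespace Cfsg.Agent.S1924

open Subgroup
open Cfsg.Agent.Lib.LocBase Cfsg.Agent.Lib.SignTransfer

/-- elements of a dihedral 2-group outside a cyclic subgroup of index 2 are involutions. -/
theorem involution_of_notMem {G : Type*} [Group G] [Finite G] {D C : Subgroup G} {n : ℕ} (hn : 2 ≤ n)
    (e : ↥D ≃* DihedralGroup n) (hCD : C ≤ D) (hC : IsCyclic ↥C) (hCi : C.relIndex D = 2) {x : G}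
    (hx : x ∈ D) (hxC : x ∉ C) : orderOf x = 2 := by
  have hn0 : NeZero n := ⟨by omega⟩
  have hx1 : x ≠ 1 := by
    rintro rfl; exact hxC C.one_mem
  have hcardD : Nat.card D = 2 * n := by
    rw [Nat.card_congr e.toEquiv]; exact DihedralGroup.nat_card
  have hcardC : Nat.card C = n := by
    have h1 := card_mul_relIndex' hCD
    rw [hCi, hcardD] at h1
    omega
  have hord : orderOf x = orderOf (e ⟨x, hx⟩) := by
    rw [MulEquiv.orderOf_eq, Subgroup.orderOf_mk]
  rcases h : e ⟨x, hx⟩ with i | i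
  · -- rotation
    rcases Nat.lt_or_ge 2 n with hn3 | hn3
    · exfalso
      obtain ⟨c, hc⟩ := hC.exists_generator
      have hcord : orderOf c = n := by
        rw [← hcardC]; exact orderOf_eq_card_of_forall_mem_zpowers hc
      have hcord' : orderOf (e ⟨c, hCD c.2⟩) = n := by
        rw [MulEquiv.orderOf_eq, Subgroup.orderOf_mk, Subgroup.orderOf_coe, hcord]
      rcases h' : e ⟨c, hCD c.2⟩ with j | j
      · have h1 : zpowers (DihedralGroup.r j : DihedralGroup n) ≤ zpowers (DihedralGroup.r 1) := by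
          rw [zpowers_le]
          refine ⟨(j.val : ℤ), ?_⟩
          simp
        have h2 : zpowers (DihedralGroup.r j : DihedralGroup n) = zpowers (DihedralGroup.r 1) := by
          apply Subgroup.eq_of_le_of_card_ge h1
          rw [Nat.card_zpowers, Nat.card_zpowers, ← h', hcord', DihedralGroup.orderOf_r_one]
        have h3 : (DihedralGroup.r i : DihedralGroup n) ∈ zpowers (DihedralGroup.r j) := by
          rw [h2]
          refine ⟨(i.val : ℤ), ?_⟩
          simp
        obtain ⟨k, hk⟩ := h3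
        apply hxC
        have h4 : e ((⟨c, hCD c.2⟩ : D) ^ k) = e ⟨x, hx⟩ := by
          rw [map_zpow, h', h]; exact hk
        have h5 := e.injective h4
        have h6 : (c : G) ^ k = x := by
          have := congrArg (Subtype.val) h5
          simpa using this
        rw [← h6]
        exact C.zpow_mem c.2 k
      · rw [h', DihedralGroup.orderOf_sr] at hcord'
        omega
    · have hn2 : n = 2 := by omega
      subst hn2
      apply orderOf_eq_prime _ hx1
      have h1 : (e ⟨x, hx⟩) ^ 2 = 1 := by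
        rw [h, pow_two, DihedralGroup.r_mul_r]
        have : i + i = 0 := by
          have : ∀ i : ZMod 2, i + i = 0 := by decide
          exact this i
        rw [this]; rfl
      rw [← map_pow, map_eq_one_iff e e.injective] at h1
      have := congrArg Subtype.val h1
      simpa using this
  · rw [hord, h, DihedralGroup.orderOf_sr]

/-- A consequence of Thompson's transfer lemma. Let G be a finite group, L a subgroup with O²(L) = L, T a Sylow 2-subgroup of L and S a Sylow 2-subgroup of G containing T. Suppose D ≤ S is a dihedral subgroup of order at least 4 (the four-group counts) with D ∩ T = 1 and S = TD as a set of products (so |S| = |T|·|D|), and C ≤ D is cyclic of index 2 in D. If no involution of D outside C is G-conjugate to an involution of the subgroup generated by T and C, and the involution of C is not G-conjugate to any involution of T, then G has a normal subgroup K, containing every Sylow 2-subgroup of L as a Sylow 2-subgroup, with G = KD. -/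
theorem result {G : Type*} [Group G] [Finite G] (L T S D C : Subgroup G) (hL : Cfsg.pResidual 2 ↥L = ⊤)
    (hTL : T ≤ L) (hT2 : IsPGroup 2 T) (hTsyl : ¬ 2 ∣ T.relIndex L)
    (hS2 : IsPGroup 2 S) (hSsyl : ¬ 2 ∣ S.index) (hTS : T ≤ S)
    (hDS : D ≤ S) (hDih : ∃ n : ℕ, 2 ≤ n ∧ Nonempty (↥D ≃* DihedralGroup n)) (hDT : D ⊓ T = ⊥) (hTD : T ⊔ D = S) (hTDc : Nat.card T * Nat.card D = Nat.card S)
    (hCD : C ≤ D) (hC : IsCyclic ↥C) (hCi : C.relIndex D = 2)
    (h1 : ∀ x ∈ D, x ∉ C → orderOf x = 2 → ∀ g : G, g * x * g⁻¹ ∈ T ⊔ C → False)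
    (h2 : ∀ c ∈ C, orderOf c = 2 → ∀ g : G, g * c * g⁻¹ ∈ T → False) :
    ∃ K : Subgroup G, K.Normal ∧ K ⊔ D = ⊤ ∧
      ∀ T' : Subgroup G, T' ≤ L → IsPGroup 2 T' → ¬ 2 ∣ T'.relIndex L → T' ≤ K ∧ ¬ 2 ∣ T'.relIndex K := by
  have h22 : Fact (Nat.Prime 2) := ⟨Nat.prime_two⟩
  obtain ⟨n, hn, ⟨e⟩⟩ := hDih
  have hinv : ∀ x ∈ D, x ∉ C → orderOf x = 2 := fun x hx hxC => involution_of_notMem hn e hCD hC hCi hx hxC
  have hS : IsSyl 2 S ⊤ := ⟨le_top, hS2, by rw [Subgroup.relIndex_top_right]; exact hSsyl⟩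
  have hTL' : IsSyl 2 T L := ⟨hTL, hT2, hTsyl⟩
  have hLres : pRes 2 L = L := by
    rw [← map_pResidual, hL, ← MonoidHom.range_eq_map, Subgroup.range_subtype]
  have hLK : L ≤ pRes 2 (⊤ : Subgroup G) := by
    rw [← hLres]; exact pRes_mono le_top
  have hTK : T ≤ pRes 2 (⊤ : Subgroup G) := hTL.trans hLK
  -- an involution outside C
  obtain ⟨x, hxD, hxC⟩ : ∃ x ∈ D, x ∉ C := by
    by_contra hcon
    push Not at hcon
    have : C.relIndex D = 1 := Subgroup.relIndex_eq_one.mpr hcon
    omega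
  have hM1S : T ⊔ C ≤ S := sup_le hTS (hCD.trans hDS)
  have hcardCD : Nat.card C * 2 = Nat.card D := by
    have := card_mul_relIndex' hCD
    rwa [hCi] at this
  have hTC : Nat.card T * Nat.card C ≤ Nat.card ↥(T ⊔ C) := by
    rw [← card_mul_relIndex' (le_sup_left : T ≤ T ⊔ C)]
    apply Nat.mul_le_mul_left
    have h3 : T.relIndex C = Nat.card C := by
      rw [← Subgroup.inf_relIndex_right]
      have : T ⊓ C = ⊥ := by
        rw [eq_bot_iff, ← hDT]
        exact le_inf (inf_le_right.trans hCD) inf_le_left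
      rw [this, Subgroup.relIndex_bot_left]
    rw [← h3]
    exact Subgroup.relIndex_le_of_le_right le_sup_right Subgroup.index_ne_zero_of_finite
  have hxM : ∀ y ∈ D, y ∉ C → ∀ g : G, g * y * g⁻¹ ∉ T ⊔ C := fun y hy hyC g hg =>
    h1 y hy hyC (hinv y hy hyC) g hg
  have hM1i : (T ⊔ C).relIndex S = 2 := by
    have h3 := card_mul_relIndex' hM1S
    have h4 : (T ⊔ C).relIndex S ≠ 1 := by
      intro h
      have := Subgroup.relIndex_eq_one.mp h (hDS hxD)
      apply hxM x hxD hxC 1
      simpa using this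
    have h5 : (T ⊔ C).relIndex S ≠ 0 := Subgroup.index_ne_zero_of_finite
    have h6 : Nat.card S = 2 * (Nat.card T * Nat.card C) := by
      rw [← hTDc, ← hcardCD]; ring
    by_contra hne
    have h7 : 3 ≤ (T ⊔ C).relIndex S := by omega
    have h8 : 0 < Nat.card T * Nat.card C := Nat.mul_pos Nat.card_pos Nat.card_pos
    have h9 : (Nat.card T * Nat.card C) * 3 ≤ Nat.card ↥(T ⊔ C) * (T ⊔ C).relIndex S := Nat.mul_le_mul hTC h7
    omega
  obtain ⟨V', hV'⟩ := sign_transfer (S.subgroupOf ⊤) ((T ⊔ C).subgroupOf ⊤) hS.ndvd 1 le_rfl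
    (by rw [Subgroup.relIndex_subgroupOf le_top, hM1i, pow_one])
  have hVx : ∀ y ∈ D, y ∉ C → V' ⟨y, mem_top y⟩ = -1 := by
    intro y hy hyC
    apply hV'
    · rw [Subgroup.orderOf_mk, hinv y hy hyC, pow_one]
    · intro g hg
      rw [Subgroup.mem_subgroupOf] at hg
      apply hxM y hy hyC (g : G)
      simpa using hg
  have hVC : ∀ c ∈ C, V' ⟨c, mem_top c⟩ = 1 := by
    intro c hc
    have h3 : (⟨c, mem_top c⟩ : (⊤ : Subgroup G)) = ⟨x, mem_top x⟩⁻¹ * ⟨x * c, mem_top _⟩ := by
      apply Subtype.ext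
      show c = x⁻¹ * (x * c)
      group
    have h4 : x * c ∉ C := fun h => hxC (by
      have := C.mul_mem h (C.inv_mem hc)
      rwa [mul_inv_cancel_right] at this)
    rw [h3, map_mul, map_inv, hVx x hxD hxC, hVx _ (D.mul_mem hxD (hCD hc)) h4]
    simp
  obtain ⟨e1, e2, e3, e4⟩ := ker_facts hS V'
  have c1 := card_inf_ker (hS.le) V' (hDS hxD) (hVx x hxD hxC)
  have hCker : C ≤ V'.ker.map (⊤ : Subgroup G).subtype := fun c hc => ⟨⟨c, mem_top c⟩, hVC c hc, rfl⟩
  have hodd : ¬ 2 ∣ T.relIndex (pRes 2 (⊤ : Subgroup G)) := by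
    rw [← e1]
    apply cyclic_complement T (Nat.card C) _ (S ⊓ V'.ker.map (⊤ : Subgroup G).subtype) C rfl e4
      (le_inf hTS (hTK.trans e2)) (le_inf (hCD.trans hDS) hCker) hC ?_ h2 ?_
    · have h6 : Nat.card S = 2 * (Nat.card T * Nat.card C) := by
        rw [← hTDc, ← hcardCD]; ring
      omega
    · rw [e1]; exact hTK
  refine ⟨pRes 2 ⊤, inferInstance, ?_, ?_⟩
  · have h3 : S ⊔ pRes 2 (⊤ : Subgroup G) = ⊤ := hS.sup_pRes
    have h4 : S ⊔ pRes 2 (⊤ : Subgroup G) ≤ pRes 2 (⊤ : Subgroup G) ⊔ D := by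
      rw [← hTD]
      exact sup_le (sup_le (hTK.trans le_sup_left) le_sup_right) le_sup_left
    rw [h3] at h4
    exact top_le_iff.mp h4
  · intro T' hT'L hT'2 hT'syl
    have hT' : IsSyl 2 T' L := ⟨hT'L, hT'2, hT'syl⟩
    refine ⟨hT'L.trans hLK, ?_⟩
    have h3 : Nat.card T' = Nat.card T :=
      le_antisymm (hTL'.card_le hT'2 hT'L) (hT'.card_le hT2 hTL)
    have h4 := card_mul_relIndex' (hT'L.trans hLK)
    have h5 := card_mul_relIndex' hTK
    rw [h3, ← h5] at h4
    rw [Nat.eq_of_mul_eq_mul_left Nat.card_pos h4]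
    exact hodd


end Cfsg.Agent.S1924
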