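import Cfsg.Statements.S1935
import Cfsg.Agent.Lib.QOffF
import Cfsg.Agent.Lib.ElabRep

set_option autoImplicit false
open Cfsg

namespace Cfsg.Agent.S1935

open Cfsg.Agent.Lib.QOffA Cfsg.Agent.Lib.ElabRep
open scoped commutatorElement

theorem mainN {N G : Type*} [CommGroup N] [Finite N] [Group G] [Finite G] (p : ℕ) [Fact p.Prime] (hp : 5 ≤ p)
    (hN : ∀ x : N, x ^ p = 1) (hG : IsPGroup p G) (φ : G →* MulAut N) (hinj : Function.Injective φ)
    (E : Subgroup G) (hE : E ≠ ⊥) (hcomm : ∀ a ∈ E, ∀ b ∈ E, a * b = b * a) (hexp : ∀ a ∈ E, a ^ p = 1)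
    (hcard : Nat.card N ≤ Nat.card E * Nat.card {n : N // ∀ b ∈ E, φ b n = n}) :
    ∃ A : Subgroup G, A ≠ ⊥ ∧ (∀ a ∈ A, ∀ b ∈ A, a * b = b * a) ∧ (∀ a ∈ A, a ^ p = 1) ∧
      Nat.card N ≤ Nat.card A * Nat.card {n : N // ∀ b ∈ A, φ b n = n} ∧
      (∀ a ∈ A, ∀ b ∈ A, ∀ n : N, φ b (n / φ a n) = n / φ a n) ∧
      ∃ Nn : Subgroup G, (∀ h : G, ∀ a ∈ A, h * a * h⁻¹ ∈ Nn) ∧ ∀ g ∈ Nn, ∀ a ∈ A, g * a * g⁻¹ ∈ A := by
  have := @mainM p _ (Additive N) _ (elabModule N p hN) _ G _ _ hp hG (elabRep p hN φ) (by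
    intro g h hgh
    apply hinj
    ext n
    have h1 : elabRep p hN φ g (Additive.ofMul n) = elabRep p hN φ h (Additive.ofMul n) := by rw [hgh]
    exact h1) E hE hcomm hexp hcard
  exact this

/-- Let p ≥ 5 be a prime and, inside an ambient finite group, let G be a p-subgroup acting faithfully by conjugation on an elementary abelian p-subgroup V that it normalizes (only the identity of G centralizes V). Suppose V is an F-module for G: some nontrivial elementary abelian subgroup E of G satisfies #E · #C_V(E) ≥ #V. Then G contains such an offender A that moreover acts quadratically on V ([V, A, A] = 1) and is normal in its normal closure in G. -/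
theorem result {Ω : Type*} [Group Ω] [Finite Ω] (p : ℕ) [Fact p.Prime] (hp : 5 ≤ p) (V G : Subgroup Ω) (hV : Cfsg.IsElementaryAbelian p V) (hG : IsPGroup p ↥G) (hGV : G ≤ Subgroup.normalizer (V : Set Ω)) (hfaith : G ⊓ Subgroup.centralizer (V : Set Ω) = ⊥) (hF : ∃ E : Subgroup Ω, E ≤ G ∧ E ≠ ⊥ ∧ Cfsg.IsElementaryAbelian p E ∧ Nat.card ↥V ≤ Nat.card ↥E * Nat.card ↥(V ⊓ Subgroup.centralizer (E : Set Ω))) : ∃ A : Subgroup Ω, A ≤ G ∧ A ≠ ⊥ ∧ Cfsg.IsElementaryAbelian p A ∧ Nat.card ↥V ≤ Nat.card ↥A * Nat.card ↥(V ⊓ Subgroup.centralizer (A : Set Ω)) ∧ ⁅⁅V, A⁆, A⁆ = ⊥ ∧ ∀ g ∈ Subgroup.closure {x : Ω | ∃ h ∈ G, ∃ a ∈ A, x = h * a * h⁻¹}, ∀ a ∈ A, g * a * g⁻¹ ∈ A := by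
  classical
  have hVc : IsMulCommutative V := hV.1
  have hconj : ∀ g ∈ G, ∀ v ∈ V, g * v * g⁻¹ ∈ V := fun g hg v hv => (Subgroup.mem_normalizer_iff.1 (hGV hg) v).1 hv
  let φ : ↥G →* MulAut ↥V := V.normalizerMonoidHom.comp (Subgroup.inclusion hGV)
  have hφ : ∀ (g : ↥G) (v : ↥V), ((φ g v : V) : Ω) = (g : Ω) * (v : Ω) * (g : Ω)⁻¹ := fun g v => rfl
  have hinj : Function.Injective φ := by
    rw [injective_iff_map_eq_one]
    intro g hg
    have h1 : (g : Ω) ∈ G ⊓ Subgroup.centralizer (V : Set Ω) := by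
      refine ⟨g.2, Subgroup.mem_centralizer_iff.2 ?_⟩
      intro v hv
      have := hφ g ⟨v, hv⟩
      rw [hg] at this
      have h2 : v = (g : Ω) * v * (g : Ω)⁻¹ := this
      conv_lhs => rw [h2]
      group
    rw [hfaith, Subgroup.mem_bot] at h1
    exact Subtype.ext h1
  have hfixiff : ∀ (g : ↥G) (v : ↥V), φ g v = v ↔ (g : Ω) * (v : Ω) = (v : Ω) * g := by
    intro g v
    constructor
    · intro h
      have := hφ g v
      rw [h] at this
      conv_rhs => rw [this]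
      group
    · intro h
      apply Subtype.ext
      rw [hφ, h]
      group
  obtain ⟨E, hEG, hEne, hEel, hEcard⟩ := hF
  let I : CommGroup ↥V := { (inferInstance : Group ↥V) with mul_comm := hVc.is_comm.comm }
  obtain ⟨A', hAne, hAcomm, hAexp, hAcard, hAq, Nn, hN1, hN2⟩ := @mainN ↥V ↥G I _ _ _ p _ hp
    (fun x => Subtype.ext (hV.2 x x.2)) hG φ hinj (E.subgroupOf G) (by
      intro h
      apply hEne
      rw [Subgroup.eq_bot_iff_forall]
      intro x hx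
      have : (⟨x, hEG hx⟩ : G) ∈ E.subgroupOf G := hx
      rw [h, Subgroup.mem_bot] at this
      exact congrArg Subtype.val this) (by
      intro a ha b hb
      have := hEel.1.is_comm.comm (⟨(a : Ω), ha⟩ : E) ⟨(b : Ω), hb⟩
      have h2 := congrArg (fun z : E => (z : Ω)) this
      exact Subtype.ext h2) (by
      intro a ha
      apply Subtype.ext
      exact hEel.2 (a : Ω) ha) (by
      refine hEcard.trans (Nat.mul_le_mul ?_ ?_)
      · rw [Nat.card_congr (Subgroup.subgroupOfEquivOfLe hEG).toEquiv]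
      · refine Nat.card_le_card_of_injective
          (fun v : ↥(V ⊓ Subgroup.centralizer (E : Set Ω)) =>
            (⟨⟨(v : Ω), v.2.1⟩, ?_⟩ : {n : ↥V // ∀ b ∈ E.subgroupOf G, φ b n = n})) ?_
        · intro b hb
          rw [hfixiff]
          exact Subgroup.mem_centralizer_iff.1 v.2.2 (b : Ω) hb
        · intro v w h
          have h' := congrArg (fun z : {n : ↥V // ∀ b ∈ E.subgroupOf G, φ b n = n} => ((z : ↥V) : Ω)) h
          exact Subtype.ext h')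
  refine ⟨A'.map G.subtype, ?_, ?_, ⟨?_, ?_⟩, ?_, ?_, ?_⟩
  · rintro _ ⟨a, _, rfl⟩; exact a.2
  · intro hbot
    apply hAne
    rw [Subgroup.eq_bot_iff_forall]
    intro x hx
    have : (x : Ω) ∈ A'.map G.subtype := ⟨x, hx, rfl⟩
    rw [hbot, Subgroup.mem_bot] at this
    exact Subtype.ext this
  · refine ⟨⟨?_⟩⟩
    rintro ⟨_, a, ha, rfl⟩ ⟨_, b, hb, rfl⟩
    apply Subtype.ext
    show (a : Ω) * b = b * a
    exact congrArg Subtype.val (hAcomm a ha b hb)
  · rintro _ ⟨a, ha, rfl⟩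
    exact congrArg Subtype.val (hAexp a ha)
  · refine hAcard.trans (Nat.mul_le_mul ?_ ?_)
    · rw [Nat.card_congr (A'.equivMapOfInjective _ G.subtype_injective).toEquiv]
    · refine Nat.card_le_card_of_injective
        (fun v : {n : ↥V // ∀ b ∈ A', φ b n = n} => (⟨(v.1 : Ω), v.1.2, ?_⟩ :
          ↥(V ⊓ Subgroup.centralizer ((A'.map G.subtype : Subgroup Ω) : Set Ω)))) ?_
      · refine Subgroup.mem_centralizer_iff.2 ?_
        rintro _ ⟨a, ha, rfl⟩
        exact (hfixiff a v.1).1 (v.2 a ha)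
      · intro v w h
        have h' := congrArg Subtype.val h
        exact Subtype.ext (Subtype.ext h')
  · have h1 : ⁅V, A'.map G.subtype⁆ ≤ V ⊓ Subgroup.centralizer ((A'.map G.subtype : Subgroup Ω) : Set Ω) := by
      rw [Subgroup.commutator_le]
      rintro v hv _ ⟨a, ha, rfl⟩
      have hmem : v * ((a : Ω) * v⁻¹ * (a : Ω)⁻¹) ∈ V := V.mul_mem hv (hconj _ a.2 _ (V.inv_mem hv))
      have hcomm : ⁅v, (a : Ω)⁆ = v * ((a : Ω) * v⁻¹ * (a : Ω)⁻¹) := by
        rw [commutatorElement_def]; group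
      show ⁅v, (a : Ω)⁆ ∈ _
      rw [hcomm]
      refine ⟨hmem, Subgroup.mem_centralizer_iff.2 ?_⟩
      rintro _ ⟨b, hb, rfl⟩
      have h2 := hAq a ha b hb ⟨v, hv⟩
      have e : (⟨v, hv⟩ / φ a ⟨v, hv⟩ : ↥V) = ⟨v * ((a : Ω) * v⁻¹ * (a : Ω)⁻¹), hmem⟩ := by
        apply Subtype.ext
        change v / ((φ a ⟨v, hv⟩ : V) : Ω) = _
        rw [div_eq_mul_inv, hφ]
        simp only [mul_inv_rev, inv_inv, mul_assoc]
      have h3 : φ b (⟨v * ((a : Ω) * v⁻¹ * (a : Ω)⁻¹), hmem⟩ : ↥V) = ⟨v * ((a : Ω) * v⁻¹ * (a : Ω)⁻¹), hmem⟩ := by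
        rw [← e]; exact h2
      exact (hfixiff b _).1 h3
    rw [eq_bot_iff]
    refine (Subgroup.commutator_mono h1 le_rfl).trans ?_
    rw [Subgroup.commutator_le]
    rintro x ⟨_, hx⟩ a ha
    rw [Subgroup.mem_bot, commutatorElement_eq_one_iff_mul_comm]
    exact (Subgroup.mem_centralizer_iff.1 hx a ha).symm
  · intro g hg a ha
    have hle : Subgroup.closure {x : Ω | ∃ h ∈ G, ∃ a ∈ A'.map G.subtype, x = h * a * h⁻¹} ≤
        Nn.map G.subtype := by
      rw [Subgroup.closure_le]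
      rintro _ ⟨h, hh, _, ⟨b, hb, rfl⟩, rfl⟩
      exact ⟨⟨h, hh⟩ * b * ⟨h, hh⟩⁻¹, hN1 _ b hb, rfl⟩
    obtain ⟨g', hg', rfl⟩ := hle hg
    obtain ⟨a', ha', rfl⟩ := ha
    exact ⟨g' * a' * g'⁻¹, hN2 _ hg' _ ha', rfl⟩

end Cfsg.Agent.S1935
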