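import Cfsg.Statements.S1939
import Cfsg.Agent.Lib.H32Basic

set_option autoImplicit false
open Cfsg

namespace Cfsg.Agent.S1939

open Cfsg.Agent.Lib.H32Basic

/-- Let S be a Sylow p-subgroup of the finite group G and a an element of S that is the only G-conjugate of a lying in S. Then every power of a has the same property: for every n, the only G-conjugate of a^n lying in S is a^n. -/
theorem result {G : Type*} [Group G] [Finite G] {p : ℕ} [Fact p.Prime] (S : Sylow p G) (a : G)
    (haS : a ∈ (S : Subgroup G)) (hwc : ∀ g : G, g * a * g⁻¹ ∈ (S : Subgroup G) → g * a * g⁻¹ = a) (n : ℕ) :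
    ∀ g : G, g * a ^ n * g⁻¹ ∈ (S : Subgroup G) → g * a ^ n * g⁻¹ = a ^ n := by
  intro g hg
  set b : G := g * a ^ n * g⁻¹ with hb
  -- a is central in S
  have hcen : ∀ s ∈ (S : Subgroup G), s * a * s⁻¹ = a := by
    intro s hs
    apply hwc
    exact (S : Subgroup G).mul_mem ((S : Subgroup G).mul_mem hs haS) ((S : Subgroup G).inv_mem hs)
  have hcen' : ∀ s ∈ (S : Subgroup G), s * a = a * s := by
    intro s hs
    have := hcen s hs
    calc s * a = s * a * s⁻¹ * s := by group
      _ = a * s := by rw [this]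
  -- a ∈ C
  have haC : a ∈ Subgroup.centralizer ({b} : Set G) := by
    rw [Subgroup.mem_centralizer_singleton_iff]
    exact (hcen' b hg).symm
  -- conjugate of S by g is in C
  have hgS : ((g • S : Sylow p G) : Subgroup G) ≤ Subgroup.centralizer ({b} : Set G) := by
    intro x hx
    have hx' : g⁻¹ * x * g ∈ (S : Subgroup G) := by
      rw [mem_sylow_smul_iff] at hx; exact hx
    rw [Subgroup.mem_centralizer_singleton_iff]
    have h1 := hcen' _ hx'
    have h2 : g⁻¹ * x * g * a ^ n = a ^ n * (g⁻¹ * x * g) := by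
      have : Commute (g⁻¹ * x * g) a := h1
      exact (this.pow_right n).eq
    calc x * b = g * (g⁻¹ * x * g * a ^ n) * g⁻¹ := by rw [hb]; group
      _ = g * (a ^ n * (g⁻¹ * x * g)) * g⁻¹ := by rw [h2]
      _ = b * x := by rw [hb]; group
  have hak : ∃ k : ℕ, a ^ p ^ k = 1 := by
    obtain ⟨k, hk⟩ := S.2 ⟨a, haS⟩
    refine ⟨k, ?_⟩
    have := congrArg Subtype.val hk
    simpa using this
  obtain ⟨c, hcC, hc⟩ := exists_conj_mem_sylow_of_le (g • S) _ hgS a haC hak
  rw [mem_sylow_smul_iff] at hc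
  have h6 : (g⁻¹ * c) * a * (g⁻¹ * c)⁻¹ = a := by
    apply hwc
    have : (g⁻¹ * c) * a * (g⁻¹ * c)⁻¹ = g⁻¹ * (c * a * c⁻¹) * g := by group
    rw [this]; exact hc
  have h7 : (g⁻¹ * c) * a ^ n * (g⁻¹ * c)⁻¹ = a ^ n := by
    rw [← conj_pow, h6]
  have hcb : c * b = b * c := by
    rw [Subgroup.mem_centralizer_singleton_iff] at hcC
    exact hcC
  -- c * a^n * c⁻¹ = b
  have h8 : c * a ^ n * c⁻¹ = b := by
    calc c * a ^ n * c⁻¹ = g * ((g⁻¹ * c) * a ^ n * (g⁻¹ * c)⁻¹) * g⁻¹ := by group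
      _ = b := by rw [h7]
  calc b = c⁻¹ * (c * b) := by group
    _ = c⁻¹ * (b * c) := by rw [hcb]
    _ = c⁻¹ * b * c := by group
    _ = c⁻¹ * (c * a ^ n * c⁻¹) * c := by rw [h8]
    _ = a ^ n := by group

end Cfsg.Agent.S1939
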