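import Cfsg.Statements.S1940
import Mathlib

set_option autoImplicit false
open Cfsg

namespace Cfsg.Agent.S1940

/-- Let the finite group L act by automorphisms on the finite abelian group M, and let N be an L-invariant subgroup of M such that M/N is a p-group on which L acts trivially (every l • m lies in the coset mN). If every element of M is a product of an element of N and an element fixed by a Sylow p-subgroup T of L, then every element of M is a product of an element of N and an element fixed by all of L. -/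
theorem result {L : Type*} [Group L] [Finite L] {M : Type*} [CommGroup M] [Finite M] [MulDistribMulAction L M]
    {p : ℕ} [Fact p.Prime] (N : Subgroup M) (hN : ∀ (l : L) (m : M), m ∈ N → l • m ∈ N)
    (hquot : IsPGroup p (M ⧸ N)) (htriv : ∀ (l : L) (m : M), (l • m) * m⁻¹ ∈ N) (T : Sylow p L)
    (hT : ∀ m : M, ∃ n ∈ N, ∃ c : M, (∀ t ∈ (T : Subgroup L), t • c = c) ∧ m = n * c) :
    ∀ m : M, ∃ n ∈ N, ∃ c : M, (∀ l : L, l • c = c) ∧ m = n * c := by
  classical
  haveI : Fintype (L ⧸ (T : Subgroup L)) := Fintype.ofFinite _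
  intro m
  obtain ⟨n, hn, c, hc, rfl⟩ := hT m
  -- the function on cosets
  let f : L ⧸ (T : Subgroup L) → M := Quotient.lift (fun l : L => l • c) (by
    intro a b hab
    have hab' : a⁻¹ * b ∈ (T : Subgroup L) := QuotientGroup.leftRel_apply.mp hab
    have h1 := hc _ hab'
    show a • c = b • c
    have h2 : b • c = a • ((a⁻¹ * b) • c) := by rw [smul_smul]; congr 1; group
    rw [h2, h1])
  have hf : ∀ l : L, f (l : L ⧸ (T : Subgroup L)) = l • c := fun l => rfl
  set d : M := ∏ q : L ⧸ (T : Subgroup L), f q with hd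
  have hdfix : ∀ l : L, l • d = d := by
    intro l
    rw [hd]
    rw [Finset.smul_prod']
    apply Fintype.prod_bijective (fun q : L ⧸ (T : Subgroup L) => l • q) (MulAction.bijective l)
    intro q
    induction q using QuotientGroup.induction_on with
    | H a =>
      show l • (a • c) = f (((l * a : L) : L ⧸ (T : Subgroup L)))
      rw [hf, mul_smul]
  -- image in quotient
  have hq : ((d : M) : M ⧸ N) = (c : M ⧸ N) ^ (T : Subgroup L).index := by
    rw [hd]
    have : ((∏ q : L ⧸ (T : Subgroup L), f q : M) : M ⧸ N) = ∏ q : L ⧸ (T : Subgroup L), ((f q : M) : M ⧸ N) :=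
      map_prod (QuotientGroup.mk' N) _ _
    rw [this]
    have h2 : ∀ q ∈ (Finset.univ : Finset (L ⧸ (T : Subgroup L))), ((f q : M) : M ⧸ N) = (c : M ⧸ N) := by
      intro q _
      induction q using QuotientGroup.induction_on with
      | H a =>
        rw [hf]
        rw [QuotientGroup.eq]
        have := htriv a c
        have h3 : (a • c)⁻¹ * c = ((a • c) * c⁻¹)⁻¹ := by rw [mul_inv, inv_inv]
        rw [h3]
        exact N.inv_mem this
    rw [Finset.prod_congr rfl h2, Finset.prod_const, Finset.card_univ]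
    congr 1
    rw [Subgroup.index, Nat.card_eq_fintype_card]
  have hcop : Nat.Coprime (T : Subgroup L).index p := by
    have := T.not_dvd_index
    exact ((Nat.Prime.coprime_iff_not_dvd Fact.out).mpr this).symm
  obtain ⟨k, hk⟩ := hquot (c : M ⧸ N)
  have hcop2 : Nat.Coprime (T : Subgroup L).index (orderOf (c : M ⧸ N)) := by
    have : orderOf (c : M ⧸ N) ∣ p ^ k := orderOf_dvd_of_pow_eq_one hk
    exact Nat.Coprime.coprime_dvd_right this (hcop.pow_right k)
  obtain ⟨j, hj⟩ := exists_pow_eq_self_of_coprime hcop2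
  have h4 : ((d ^ j : M) : M ⧸ N) = (c : M ⧸ N) := by
    rw [QuotientGroup.mk_pow, hq, hj]
  have h5 : (d ^ j)⁻¹ * c ∈ N := QuotientGroup.eq.mp h4
  refine ⟨n * ((d ^ j)⁻¹ * c), N.mul_mem hn h5, d ^ j, ?_, ?_⟩
  · intro l
    rw [smul_pow', hdfix]
  · rw [mul_assoc, mul_comm ((d ^ j)⁻¹ * c), ← mul_assoc (d ^ j), mul_inv_cancel, one_mul]

end Cfsg.Agent.S1940
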