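import Cfsg.Statements.S1941
import Cfsg.Agent.Lib.H55Solv
import Cfsg.Agent.Lib.Layer
import Cfsg.Agent.Lib.Cores

set_option autoImplicit false
open Cfsg

namespace Cfsg.Agent.S1941

open Subgroup

/-- Let G be a finite group with no nontrivial normal subgroup of order prime to p, T a Sylow p-subgroup of G and E(G) the layer of G (the subgroup generated by its components). An automorphism of G of p-power order that fixes T and E(G) elementwise is inner. -/
theorem result {G : Type*} [Group G] [Finite G] {p : ℕ} [Fact p.Prime] (hcore : Cfsg.pPrimeCore p G = ⊥)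
    (T : Sylow p G) (α : MulAut G) (hα : ∃ j : ℕ, orderOf α = p ^ j) (hfixT : ∀ x ∈ (T : Subgroup G), α x = x)
    (hfixE : ∀ x ∈ Cfsg.layer G, α x = x) : ∃ g : G, ∀ x : G, α x = g * x * g⁻¹ := by
  classical
  have hp : p.Prime := Fact.out
  set Z : Subgroup G := centralizer (Cfsg.generalizedFittingSubgroup G : Set G) with hZ
  have hZF : Z ≤ Cfsg.generalizedFittingSubgroup G := Cfsg.Agent.Lib.Layer.centralizer_genFitting_le
  have hZfit : Z ≤ Cfsg.fittingSubgroup G :=
    (le_inf hZF le_rfl).trans Cfsg.Agent.Lib.Layer.center_genFitting_le_fitting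
  have hfit := Cfsg.Agent.Lib.H55Solv.fitting_le_pCore (G := G) p hcore
  have hpT : Cfsg.pCore p G ≤ (T : Subgroup G) :=
    Cfsg.Agent.Lib.Cores.pCore_le_sylow T
  have hZp : IsPGroup p Z := (Cfsg.Agent.Lib.Cores.isPGroup_pCore p G).to_le (hZfit.trans hfit)
  have hZn : Z.Normal := inferInstance
  have hZcomm : ∀ a ∈ Z, ∀ b ∈ Z, a * b = b * a := fun a ha b hb =>
    (mem_centralizer_iff.1 hb a (hZF ha))
  let _ : CommGroup Z := { (inferInstance : Group Z) with
    mul_comm := fun a b => Subtype.ext (hZcomm a a.2 b b.2) }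
  -- `α` fixes the generalized Fitting subgroup
  have hfixF : ∀ x ∈ Cfsg.generalizedFittingSubgroup G, α x = x := by
    have hle : Cfsg.generalizedFittingSubgroup G ≤ (MonoidHom.eqLocus α.toMonoidHom (MonoidHom.id G)) := by
      unfold Cfsg.generalizedFittingSubgroup
      refine sup_le ?_ ?_
      · exact fun x hx => hfixE x hx
      · exact fun x hx => hfixT x (hpT (hfit hx))
    exact fun x hx => hle hx
  have hfZ : ∀ g : G, α g * g⁻¹ ∈ Z := by
    intro g
    rw [hZ, mem_centralizer_iff]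
    intro x hx
    have hFn : (Cfsg.generalizedFittingSubgroup G).Normal := by
      have := Cfsg.Agent.Lib.Layer.generalizedFittingSubgroup_characteristic G
      exact Subgroup.normal_of_characteristic _
    have h1 : g⁻¹ * x * g⁻¹⁻¹ ∈ Cfsg.generalizedFittingSubgroup G := hFn.conj_mem x hx g⁻¹
    have h2 := hfixF _ h1
    rw [map_mul, map_mul, hfixF x hx, map_inv, map_inv, map_inv, inv_inv, inv_inv] at h2
    -- `(α g)⁻¹ x (α g) = g⁻¹ x g`
    calc x * (α g * g⁻¹) = α g * ((α g)⁻¹ * x * α g) * g⁻¹ := by group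
      _ = α g * (g⁻¹ * x * g) * g⁻¹ := by rw [h2]
      _ = α g * g⁻¹ * x := by group
  let f : G → Z := fun g => ⟨α g * g⁻¹, hfZ g⟩
  let F : G ⧸ (T : Subgroup G) → Z := Quotient.lift f (by
    intro a b hab
    have hab' : a⁻¹ * b ∈ (T : Subgroup G) := QuotientGroup.leftRel_apply.1 hab
    apply Subtype.ext
    change α a * a⁻¹ = α b * b⁻¹
    have h1 : b = a * (a⁻¹ * b) := by group
    have h2 : α b = α a * (a⁻¹ * b) := by
      conv_lhs => rw [h1]
      rw [map_mul, hfixT _ hab']
    rw [h2]; group)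
  have hFf : ∀ g : G, F (QuotientGroup.mk g) = f g := fun g => rfl
  let ψ : G → (Z →* Z) := fun g => (MulAut.conjNormal (H := Z) g).toMonoidHom
  have hψ : ∀ (g : G) (z : Z), ((ψ g z : Z) : G) = g * z * g⁻¹ := fun g z => MulAut.conjNormal_apply g z
  let _ : Fintype (G ⧸ (T : Subgroup G)) := Fintype.ofFinite _
  set w₀ : Z := ∏ c, F c with hw₀
  have hkey : ∀ g : G, w₀ = f g ^ (T : Subgroup G).index * ψ g w₀ := by
    intro g
    have h1 : ∏ c, F (g • c) = w₀ := Equiv.prod_comp (MulAction.toPerm g) F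
    have h2 : ∀ c, F (g • c) = f g * ψ g (F c) := by
      intro c
      obtain ⟨h, rfl⟩ := QuotientGroup.mk_surjective c
      change f (g * h) = f g * ψ g (f h)
      apply Subtype.ext
      rw [Subgroup.coe_mul, hψ]
      change α (g * h) * (g * h)⁻¹ = α g * g⁻¹ * (g * (α h * h⁻¹) * g⁻¹)
      rw [map_mul]; group
    have h3 : ∏ c, F (g • c) = f g ^ (T : Subgroup G).index * ψ g w₀ := by
      simp only [h2]
      rw [Finset.prod_mul_distrib, Finset.prod_const, Finset.card_univ, ← map_prod, ← Nat.card_eq_fintype_card]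
      rfl
    rw [← h3]; exact h1.symm
  have hcop : (Nat.card Z).Coprime (T : Subgroup G).index := by
    obtain ⟨k, hk⟩ := IsPGroup.iff_card.1 hZp
    rw [hk]
    exact ((Nat.Prime.coprime_iff_not_dvd hp).2 T.not_dvd_index).pow_left k
  obtain ⟨w, hw⟩ := (powCoprime hcop).surjective w₀
  have hw' : w ^ (T : Subgroup G).index = w₀ := hw
  refine ⟨w, fun g => ?_⟩
  have h1 := hkey g
  rw [← hw', map_pow, ← mul_pow] at h1
  have h2 : w = f g * ψ g w := (powCoprime hcop).injective h1
  have h3 := congrArg (Subtype.val) h2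
  rw [Subgroup.coe_mul, hψ] at h3
  change (w : G) = α g * g⁻¹ * (g * w * g⁻¹) at h3
  calc α g = (α g * g⁻¹ * (g * w * g⁻¹)) * g * (w : G)⁻¹ := by group
    _ = w * g * (w : G)⁻¹ := by rw [← h3]

end Cfsg.Agent.S1941
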