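import Cfsg.Statements.S1944
import Cfsg.Agent.Lib.NormSplit
import Cfsg.Agent.Lib.PConstrained
import Cfsg.Agent.Lib.CFMain

set_option autoImplicit false
open Cfsg

namespace Cfsg.Agent.S1944

open Cfsg.Agent.Lib.CFSylow Cfsg.Agent.Lib.CFCore Cfsg.Agent.Lib.CFMain

/-- Let S be a Sylow p-subgroup of the finite group G and suppose that the centre Z(S) lies in O_{p',p}(G). The elements of S each of which is its only G-conjugate in S form a subgroup W of Z(S); W is then a direct factor of Z(S): there is a subgroup K of Z(S) with W ∩ K = 1 and WK = Z(S). -/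
theorem result {G : Type*} [Group G] [Finite G] {p : ℕ} [Fact p.Prime] (S : Sylow p G)
    (hZ : ((S : Subgroup G) ⊓ Subgroup.centralizer ((S : Subgroup G) : Set G)) ≤ Cfsg.pPrimePCore p G) :
    ∃ W K : Subgroup G, (∀ x : G, x ∈ W ↔ (x ∈ (S : Subgroup G) ∧ ∀ g : G, g * x * g⁻¹ ∈ (S : Subgroup G) → g * x * g⁻¹ = x)) ∧
      K ≤ ((S : Subgroup G) ⊓ Subgroup.centralizer ((S : Subgroup G) : Set G)) ∧ W ⊓ K = ⊥ ∧ W ⊔ K = ((S : Subgroup G) ⊓ Subgroup.centralizer ((S : Subgroup G) : Set G)) := by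
  have hS := sylIn_sylow S
  set O := Cfsg.pPrimeCore p G with hO
  have hOn : O.Normal := pPrimeCore_normal p G
  have hOp : ¬ p ∣ Nat.card O := pPrimeCore_not_dvd
  set π := QuotientGroup.mk' O with hπ
  have hker : ∀ x : G, π x = 1 ↔ x ∈ O := fun x => by
    rw [← MonoidHom.mem_ker, hπ, QuotientGroup.ker_mk']
  set M := Cfsg.pPrimePCore p G with hM
  have hcn : (Cfsg.pCore p (G ⧸ O)).Normal := pCore_normal p _
  have hMn : M.Normal := hcn.comap _
  set Q := (S : Subgroup G) ⊓ M with hQ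
  have hnzM : Subgroup.normalizer (M : Set G) = ⊤ := Subgroup.normalizer_eq_top M
  have hQsyl : SylIn p Q M := hS.inf_normal le_top (by rw [hnzM])
  obtain ⟨P, hP⟩ := sylIn_iff_exists.1 hQsyl
  set H := Subgroup.normalizer (Q : Set G) with hH
  have hMdec : ∀ m ∈ M, ∃ q ∈ Q, q⁻¹ * m ∈ O := by
    intro x hx
    have h1 := Cfsg.Agent.Lib.PConstrained.map_sylow_pPrimePCore (p := p) P
    have h2 : π x ∈ Q.map π := by
      rw [← hP]
      have h3 : π x ∈ Cfsg.pCore p (G ⧸ O) := hx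
      rw [← h1] at h3
      exact h3
    obtain ⟨q, hq, hqx⟩ := h2
    exact ⟨q, hq, by rw [← hker, map_mul, map_inv, hqx, inv_mul_cancel]⟩
  have hSH : (S : Subgroup G) ≤ H := by
    rw [hH, le_normalizer_iff]
    intro s hs q hq
    exact Subgroup.mem_inf.2 ⟨mul_mem (mul_mem hs hq.1) (inv_mem hs), hMn.conj_mem q hq.2 s⟩
  have hQS : Q ≤ (S : Subgroup G) := inf_le_left
  have hidx : ¬ p ∣ (S : Subgroup G).relIndex H := (hS.of_le hSH le_top).not_dvd
  set A := Q ⊓ Subgroup.centralizer (Q : Set G) with hA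
  have hAp : IsPGroup p A := (hS.isPGroup.to_le hQS).to_le inf_le_left
  obtain ⟨K, hK, hK1, hK2⟩ := Cfsg.Agent.Lib.NormSplit.norm_split (S := (S : Subgroup G)) (A := A)
    (H := H) hSH hidx hAp (fun a ha b hb =>
      (Subgroup.mem_centralizer_iff.1 hb.2) a ha.1) (by
      change H ≤ Subgroup.normalizer (A : Set G)
      intro h hh
      rw [mem_normalizer, hA, cj_inf, cj_centralizer, mem_normalizer.1 hh])
  have hAS : A ⊓ Subgroup.centralizer ((S : Subgroup G) : Set G) =
      (S : Subgroup G) ⊓ Subgroup.centralizer ((S : Subgroup G) : Set G) := by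
    apply le_antisymm
    · exact inf_le_inf_right _ (inf_le_left.trans hQS)
    · intro x hx
      have h1 := hZ hx
      exact ⟨⟨⟨hx.1, h1⟩, Subgroup.centralizer_le hQS hx.2⟩, hx.2⟩
  refine ⟨A ⊓ Subgroup.centralizer (H : Set G), K, ?_, ?_, hK1, ?_⟩
  · intro x
    constructor
    · rintro ⟨hxA, hxH⟩
      have hxS : x ∈ (S : Subgroup G) := hQS hxA.1
      refine ⟨hxS, fun g hg => ?_⟩
      obtain ⟨m, hm, u, hu, rfl⟩ := frattini hQsyl le_top (by rw [hnzM]) (Subgroup.mem_top g)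
      obtain ⟨q, hq, hqm⟩ := hMdec m hm
      set k := m * q⁻¹ with hk
      have hkO : k ∈ O := by
        have := hOn.conj_mem _ hqm q
        have e : q * (q⁻¹ * m) * q⁻¹ = k := by rw [hk]; group
        rwa [e] at this
      have hqu : q * u ∈ H := mul_mem (hSH (hQS hq)) hu.2
      have h1 : q * u * x * (q * u)⁻¹ = x := by
        have := Subgroup.mem_centralizer_iff.1 hxH _ hqu
        rw [this]; group
      have e : m * u * x * (m * u)⁻¹ = k * x * k⁻¹ := by
        calc m * u * x * (m * u)⁻¹ = k * (q * u * x * (q * u)⁻¹) * k⁻¹ := by rw [hk]; group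
          _ = k * x * k⁻¹ := by rw [h1]
      rw [e] at hg ⊢
      have h4 : k * x * k⁻¹ * x⁻¹ = 1 := by
        refine pgroup_inf_eq_one hOp hS.isPGroup (N := O) ?_ (mul_mem hg (inv_mem hxS))
        have e : k * x * k⁻¹ * x⁻¹ = k * (x * k⁻¹ * x⁻¹) := by group
        rw [e]
        exact mul_mem hkO (hOn.conj_mem _ (inv_mem hkO) x)
      exact mul_inv_eq_one.1 h4
    · rintro ⟨hxS, hx⟩
      have hxc : x ∈ Subgroup.centralizer ((S : Subgroup G) : Set G) := by
        rw [Subgroup.mem_centralizer_iff]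
        intro s hs
        exact mul_inv_eq_iff_eq_mul.1 (hx s (mul_mem (mul_mem hs hxS) (inv_mem hs)))
      have hxQ : x ∈ Q := ⟨hxS, hZ ⟨hxS, hxc⟩⟩
      refine Subgroup.mem_inf.2 ⟨⟨hxQ, Subgroup.centralizer_le hQS hxc⟩, ?_⟩
      rw [Subgroup.mem_centralizer_iff]
      intro h hh
      exact mul_inv_eq_iff_eq_mul.1 (hx h (hQS (le_normalizer_iff.1 (le_refl H) h hh x hxQ)))
  · rw [← hAS]; exact hK
  · rw [← hAS]; exact hK2

end Cfsg.Agent.S1944
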