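import Cfsg.Statements.S1947
import Cfsg.Agent.Lib.MinPair
import Cfsg.Agent.Lib.Transfer

set_option autoImplicit false
open Cfsg

namespace Cfsg.Agent.S1947

open Cfsg.Agent.Lib.CFSylow Cfsg.Agent.Lib.MinPair

/-- Let G be a finite group and p a prime. If every element of G of order dividing p (dividing 4 when p = 2) lies in some fixed term Z_n(G) of the upper central series, then G has a normal p-complement. -/
theorem result {G : Type*} [Group G] [Finite G] {p : ℕ} [Fact p.Prime] (n : ℕ)
    (h : ∀ a : G, (a ^ p = 1 ∨ (p = 2 ∧ a ^ 4 = 1)) → a ∈ Subgroup.upperCentralSeries G n) : Cfsg.HasNormalPComplement p G := by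
  rw [Cfsg.Agent.Lib.Transfer.hasNormalPComplement_iff_forall_centralizer]
  intro Q hQ g hg hgo
  by_contra hnc
  obtain ⟨R, hRQ, hgR, hnR, hR, hexp, -⟩ := minimal_pair hQ hgo hg hnc
  have key : ∀ k : ℕ, k ≤ n → R ≤ Subgroup.upperCentralSeries G (n - k) := by
    intro k
    induction k with
    | zero => intro _ x hx; exact h x (hexp x hx)
    | succ k ih =>
      intro hk
      have h1 := ih (by omega)
      refine hR.trans ?_
      rw [Subgroup.commutator_le]
      intro x hx z _
      have h2 := h1 hx
      have h3 : n - k = (n - (k + 1)) + 1 := by omega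
      rw [h3, Subgroup.mem_upperCentralSeries_succ_iff] at h2
      have := h2 z
      rw [commutatorElement_def]
      exact this
  have h0 := key n le_rfl
  rw [Nat.sub_self, Subgroup.upperCentralSeries_zero] at h0
  apply hnR
  rw [mem_centralizer]
  intro a ha
  rw [Subgroup.mem_bot.1 (h0 ha)]; group

end Cfsg.Agent.S1947
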