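import Cfsg.Statements.S1948
import Cfsg.Agent.Lib.PConstrained
import Cfsg.Agent.Lib.NilMain
import Cfsg.Agent.Lib.Fitting

set_option autoImplicit false
open Cfsg

namespace Cfsg.Agent.S1948

open Cfsg.Agent.Lib.CFSylow Cfsg.Agent.Lib.CFCore Cfsg.Agent.Lib.CFMain

/-- Let S be a Sylow p-subgroup of the finite group G. Then G = N_G(S)·O_{p'}(G) if and only if G is p-constrained and N_G(S) controls fusion in S, in the sense that whenever a subgroup Q of S has a conjugate g Q g⁻¹ inside S, the element g is a product n c with n normalizing S and c centralizing Q. -/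
theorem result {G : Type*} [Group G] [Finite G] {p : ℕ} [Fact p.Prime] (S : Sylow p G) :
    Subgroup.normalizer ((S : Subgroup G) : Set G) ⊔ Cfsg.pPrimeCore p G = ⊤ ↔
      (Cfsg.IsPConstrained p G ∧
        ∀ Q : Subgroup G, Q ≤ (S : Subgroup G) → ∀ g : G, Q.map (MulAut.conj g).toMonoidHom ≤ (S : Subgroup G) →
          ∃ n ∈ Subgroup.normalizer ((S : Subgroup G) : Set G), ∃ c ∈ Subgroup.centralizer (Q : Set G), g = n * c) := by
  have hS := sylIn_sylow S
  set O := Cfsg.pPrimeCore p G with hO
  have hOn : O.Normal := pPrimeCore_normal p G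
  have hOp : ¬ p ∣ Nat.card O := pPrimeCore_not_dvd
  set N := Subgroup.normalizer ((S : Subgroup G) : Set G) with hN
  have hSN : (S : Subgroup G) ≤ N := Subgroup.le_normalizer
  set π := QuotientGroup.mk' O with hπ
  have hπs : Function.Surjective π := QuotientGroup.mk'_surjective O
  have hker : ∀ x : G, π x = 1 ↔ x ∈ O := fun x => by
    rw [← MonoidHom.mem_ker, hπ, QuotientGroup.ker_mk']
  constructor
  · intro h
    have hmem : ∀ g : G, ∃ n ∈ N, ∃ k ∈ O, n * k = g := by
      intro g
      have h1 : g ∈ N ⊔ O := by rw [h]; exact Subgroup.mem_top g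
      exact Subgroup.mem_sup_of_normal_right.1 h1
    constructor
    · rw [Cfsg.Agent.Lib.PConstrained.isPConstrained_iff]
      have hSbar : ((S : Subgroup G).map π).Normal := by
        constructor
        rintro _ ⟨s, hs, rfl⟩ y
        obtain ⟨g, rfl⟩ := hπs y
        obtain ⟨n, hn, k, hk, rfl⟩ := hmem g
        have e : π (n * k) = π n := by rw [map_mul, (hker k).2 hk, mul_one]
        rw [e]
        exact ⟨n * s * n⁻¹, le_normalizer_iff.1 (le_refl N) n hn s hs, by simp⟩
      have hSylbar : SylIn p ((S : Subgroup G).map π) ⊤ := by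
        have := Cfsg.Agent.Lib.CFMain.SylIn.map_surj hπs hS
        exact this
      set Q := Cfsg.pCore p (G ⧸ O) with hQ
      have hQn : Q.Normal := pCore_normal p _
      have hSQ : (S : Subgroup G).map π ≤ Q := le_pCore hSbar hSylbar.isPGroup
      have hCn : (Subgroup.centralizer (Q : Set (G ⧸ O))).Normal := Subgroup.normal_centralizer
      refine le_pCore hCn ?_
      refine Cfsg.Agent.Lib.NilMain.isPGroup_of_nil_normal
        (Cfsg.Agent.Lib.Fitting.pPrimeCore_quotient_pPrimeCore p) hCn ?_
      rw [Cfsg.Agent.Lib.Transfer.hasNormalPComplement_iff_forall_centralizer]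
      intro R hR g _ _
      rw [mem_centralizer]
      intro r hr
      have hrQ : ((r : ↥(Subgroup.centralizer (Q : Set (G ⧸ O)))) : G ⧸ O) ∈ Q := by
        have hRmap : IsPGroup p (R.map (Subgroup.centralizer (Q : Set (G ⧸ O))).subtype) := hR.map _
        obtain ⟨x, -, hx⟩ := hSylbar.exists_conj_le hRmap le_top
        have h2 := hx (conj_mem_cj ⟨r, hr, rfl⟩)
        have h3 := hQn.conj_mem _ (hSQ h2) x⁻¹
        have e : x⁻¹ * (x * ((Subgroup.centralizer (Q : Set (G ⧸ O))).subtype r) * x⁻¹) * x⁻¹⁻¹ =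
          ((r : ↥(Subgroup.centralizer (Q : Set (G ⧸ O)))) : G ⧸ O) := by
          simp only [Subgroup.subtype_apply]; group
        rw [e] at h3
        exact h3
      exact Subtype.ext (mem_centralizer.1 g.2 _ hrQ)
    · intro Q hQS g hg
      obtain ⟨n, hn, k, hk, rfl⟩ := hmem g
      refine ⟨n, hn, k, ?_, rfl⟩
      rw [mem_centralizer]
      intro q hq
      have h1 : n * k * q * (n * k)⁻¹ ∈ (S : Subgroup G) := hg (conj_mem_cj hq)
      have h2 : k * q * k⁻¹ ∈ (S : Subgroup G) := by
        have h3 := le_normalizer_iff.1 (le_refl N) n⁻¹ (inv_mem hn) _ h1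
        have e : n⁻¹ * (n * k * q * (n * k)⁻¹) * n⁻¹⁻¹ = k * q * k⁻¹ := by group
        rwa [e] at h3
      have h4 : k * q * k⁻¹ * q⁻¹ = 1 := by
        refine pgroup_inf_eq_one hOp hS.isPGroup (N := O) ?_ (mul_mem h2 (inv_mem (hQS hq)))
        have e : k * q * k⁻¹ * q⁻¹ = k * (q * k⁻¹ * q⁻¹) := by group
        rw [e]
        exact mul_mem hk (hOn.conj_mem _ (inv_mem hk) q)
      exact mul_inv_eq_one.1 h4
  · rintro ⟨hcon, hctl⟩
    set M := Cfsg.pPrimePCore p G with hM
    have hcn : (Cfsg.pCore p (G ⧸ O)).Normal := pCore_normal p _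
    have hMn : M.Normal := hcn.comap _
    set Q := (S : Subgroup G) ⊓ M with hQ
    have hnzM : Subgroup.normalizer (M : Set G) = ⊤ := Subgroup.normalizer_eq_top M
    have hQsyl : SylIn p Q M := hS.inf_normal le_top (by rw [hnzM])
    obtain ⟨P, hP⟩ := sylIn_iff_exists.1 hQsyl
    have hCM : Subgroup.centralizer (Q : Set G) ≤ M := by
      have := hcon P
      rw [hP] at this
      exact this
    have hMle : M ≤ N ⊔ O := by
      intro x hx
      have h1 := Cfsg.Agent.Lib.PConstrained.map_sylow_pPrimePCore (p := p) P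
      have h2 : π x ∈ Q.map π := by
        rw [← hP]
        have h3 : π x ∈ Cfsg.pCore p (G ⧸ O) := hx
        rw [← h1] at h3
        exact h3
      obtain ⟨q, hq, hqx⟩ := h2
      have h4 : q⁻¹ * x ∈ O := by
        rw [← hker, map_mul, map_inv, hqx, inv_mul_cancel]
      have e : x = q * (q⁻¹ * x) := by group
      rw [e]
      exact mul_mem (Subgroup.mem_sup_left (hSN hq.1)) (Subgroup.mem_sup_right h4)
    rw [eq_top_iff]
    intro g _
    obtain ⟨m, hm, u, hu, rfl⟩ := frattini hQsyl le_top (by rw [hnzM]) (Subgroup.mem_top g)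
    obtain ⟨n, hn, c, hc, rfl⟩ := hctl Q inf_le_left u (by
      have := mem_normalizer.1 hu.2
      exact this.le.trans inf_le_left)
    exact mul_mem (hMle hm) (mul_mem (Subgroup.mem_sup_left hn) (hMle (hCM hc)))

end Cfsg.Agent.S1948
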