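import Cfsg.Statements.S1949
import Cfsg.Agent.Lib.Critical

set_option autoImplicit false
open Cfsg

namespace Cfsg.Agent.S1949

open Subgroup
open scoped commutatorElement
open Cfsg.Agent.Lib Cfsg.Agent.Lib.Critical

/-- `q = p` or `4` -/
theorem choose_facts {p q : ℕ} (hp : p.Prime) (hq : (p ≠ 2 ∧ q = p) ∨ (p = 2 ∧ q = 4)) : p ∣ q.choose 2 ∧ p ∣ q ∧ q ≠ 0 := by
  rcases hq with ⟨h2, rfl⟩ | ⟨rfl, rfl⟩
  · exact ⟨hp.dvd_choose_self (by norm_num) (lt_of_le_of_ne hp.two_le (Ne.symm h2)), dvd_rfl, hp.ne_zero⟩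
  · exact ⟨by decide, by decide, by decide⟩

/-- Let P be a finite p-group and G a group of automorphisms of P containing the inner automorphisms. Then there is a G-invariant subgroup D of P, contained in the subgroup generated by the elements x⁻¹α(x) with x in P and α in O^p(G), of exponent dividing p when p is odd and dividing 4 when p = 2, with [D, P] ≤ Z(D), such that every automorphism in G of order prime to p that fixes D elementwise is the identity; moreover every maximal abelian subgroup A of D is normal in P and every automorphism in G fixing A elementwise has p-power order. -/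
theorem result {P : Type*} [Group P] [Finite P] {p : ℕ} [Fact p.Prime] (hP : IsPGroup p P)
    (G : Subgroup (MulAut P)) (hG : Cfsg.Inn P ≤ G) :
    ∃ D : Subgroup P,
      (∀ α ∈ G, D.map α.toMonoidHom = D) ∧
      D ≤ Subgroup.closure {y : P | ∃ α ∈ Cfsg.pResidual p ↥G, ∃ x : P, y = x⁻¹ * (α : MulAut P) x} ∧
      (∀ d ∈ D, d ^ p = 1 ∨ (p = 2 ∧ d ^ 4 = 1)) ∧
      ⁅D, (⊤ : Subgroup P)⁆ ≤ D ⊓ Subgroup.centralizer (D : Set P) ∧
      (∀ α ∈ G, (orderOf α).Coprime p → (∀ d ∈ D, α d = d) → α = 1) ∧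
      ∀ A : Subgroup P, A ≤ D → IsMulCommutative ↥A →
        (∀ B : Subgroup P, A ≤ B → B ≤ D → IsMulCommutative ↥B → B = A) →
        A.Normal ∧ ∀ α ∈ G, (∀ a ∈ A, α a = a) → ∃ k : ℕ, orderOf α = p ^ k := by
  classical
  have hp : p.Prime := Fact.out
  obtain ⟨q, hq⟩ : ∃ q, (p ≠ 2 ∧ q = p) ∨ (p = 2 ∧ q = 4) := by
    by_cases h : p = 2
    · exact ⟨4, Or.inr ⟨h, rfl⟩⟩
    · exact ⟨p, Or.inl ⟨h, rfl⟩⟩
  obtain ⟨hq2, hpq, hq0⟩ := choose_facts hp hq
  obtain ⟨C, hCc, hF, hCP, hCC, hpow⟩ := exists_critical hP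
  have hCn : C.Normal := Subgroup.normal_of_characteristic C
  -- powers are multiplicative
  have hmul : ∀ x ∈ C, ∀ y ∈ C, (x * y) ^ q = x ^ q * y ^ q := by
    intro x hx y hy
    have hc : ⁅y⁻¹, x⁻¹⁆ ∈ C ⊓ centralizer (C : Set P) :=
      hCP (commutator_mem_commutator (inv_mem hy) (mem_top _))
    set c := ⁅y⁻¹, x⁻¹⁆ with hcdef
    have e1 : y * x = x * y * c := by
      rw [hcdef, commutatorElement_def]; group
    have hcx : Commute c x := (mem_centralizer_iff.mp hc.2 x hx).symm
    have hcy : Commute c y := (mem_centralizer_iff.mp hc.2 y hy).symm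
    have h2 := PGroupOdd.pow_eq_one_of_comm' e1 hcy (n := p) (by
      have := mem_centralizer_iff.mp (hpow y hy) x hx
      exact this.symm)
    obtain ⟨m, hm⟩ := hq2
    rw [PGroupOdd.mul_pow_of_comm e1 hcx hcy, hm, pow_mul c p m, h2, one_pow, mul_one]
  let D₁ : Subgroup P :=
    { carrier := {x | x ∈ C ∧ x ^ q = 1}
      one_mem' := ⟨one_mem _, one_pow _⟩
      mul_mem' := by
        rintro x y ⟨hx, hx'⟩ ⟨hy, hy'⟩
        exact ⟨mul_mem hx hy, by rw [hmul x hx y hy, hx', hy', one_mul]⟩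
      inv_mem' := by
        rintro x ⟨hx, hx'⟩
        exact ⟨inv_mem hx, by rw [inv_pow, hx', inv_one]⟩ }
  have hD₁α : ∀ (α : MulAut P), ∀ x ∈ D₁, α x ∈ D₁ := by
    rintro α x ⟨hx, hx'⟩
    exact ⟨characteristic_iff_le_comap.mp hCc α hx, by rw [← map_pow, hx', map_one]⟩
  set H : Subgroup P := Subgroup.closure {y : P | ∃ α ∈ Cfsg.pResidual p ↥G, ∃ x : P, y = x⁻¹ * (α : MulAut P) x} with hH
  have hres : (Cfsg.pResidual p ↥G).Normal := by
    constructor
    intro a ha g
    have hle : Cfsg.pResidual p ↥G ≤ (Cfsg.pResidual p ↥G).comap (MulAut.conj g).toMonoidHom := by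
      rw [Cfsg.pResidual, closure_le]
      intro x hx
      refine subset_closure ?_
      change Nat.Coprime (orderOf ((MulAut.conj g) x)) p
      rw [MulEquiv.orderOf_eq]
      exact hx
    exact hle ha
  have hHα : ∀ α ∈ G, ∀ x ∈ H, α x ∈ H := by
    intro α hα
    have hle : H ≤ H.comap α.toMonoidHom := by
      conv_lhs => rw [hH]
      rw [closure_le]
      rintro _ ⟨β, hβ, x, rfl⟩
      refine subset_closure ⟨⟨α, hα⟩ * β * (⟨α, hα⟩ : ↥G)⁻¹, hres.conj_mem _ hβ _, α x, ?_⟩
      change α (x⁻¹ * (β : MulAut P) x) = (α x)⁻¹ * α ((β : MulAut P) (α⁻¹ (α x)))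
      rw [map_mul, map_inv, MulAut.inv_apply_self]
    exact fun x hx => hle hx
  have hDα : ∀ α ∈ G, ∀ x ∈ D₁ ⊓ H, α x ∈ D₁ ⊓ H := by
    rintro α hα x hx
    exact mem_inf.2 ⟨hD₁α α x (mem_inf.1 hx).1, hHα α hα x (mem_inf.1 hx).2⟩
  have hDn : (D₁ ⊓ H).Normal := by
    constructor
    intro n hn g
    exact hDα (MulAut.conj g) (hG ⟨g, rfl⟩) n hn
  have hDC : D₁ ⊓ H ≤ C := fun x hx => (mem_inf.1 hx).1.1
  -- commutators
  have hcomm : ∀ d ∈ D₁ ⊓ H, ∀ x : P, ⁅d, x⁆ ∈ (D₁ ⊓ H) ⊓ centralizer ((D₁ ⊓ H : Subgroup P) : Set P) := by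
    intro d hd x
    refine mem_inf.2 ⟨?_, ?_⟩
    · rw [commutatorElement_def, mul_assoc, mul_assoc]
      refine mul_mem hd ?_
      rw [← mul_assoc]
      exact hDn.conj_mem _ (inv_mem hd) x
    · have h1 : ⁅d, x⁆ ∈ C ⊓ centralizer (C : Set P) := hCP (commutator_mem_commutator (hDC hd) (mem_top _))
      exact centralizer_le hDC (mem_inf.1 h1).2
  -- fixing `D` elementwise
  have hfix : ∀ α ∈ G, (orderOf α).Coprime p → (∀ d ∈ D₁ ⊓ H, α d = d) → α = 1 := by
    intro α hα hαp hd
    have hαr : (⟨α, hα⟩ : ↥G) ∈ Cfsg.pResidual p ↥G := by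
      refine subset_closure ?_
      change Nat.Coprime (orderOf (⟨α, hα⟩ : ↥G)) p
      rw [Subgroup.orderOf_mk]
      exact hαp
    have h1 : ∀ x ∈ D₁, α x = x := by
      intro x hx
      apply fixed_of_fixed hP α hαp
      apply hd
      exact mem_inf.2 ⟨mul_mem (inv_mem hx) (hD₁α α x hx), subset_closure ⟨⟨α, hα⟩, hαr, x, rfl⟩⟩
    apply eq_one_of_self_centralizing hP C hCn hCC α hαp
    have key : ∀ n : ℕ, ∀ x ∈ C, x ^ (p ^ n) = 1 → α x = x := by
      intro n
      induction n with
      | zero =>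
        intro x hx hx1
        rw [pow_zero, pow_one] at hx1
        rw [hx1, map_one]
      | succ n ih =>
        intro x hx hx1
        have hax : α x ∈ C := characteristic_iff_le_comap.mp hCc α hx
        have h3 : α (x ^ q) = x ^ q := by
          apply ih _ (pow_mem hx q)
          obtain ⟨m, hm⟩ := hpq
          rw [← pow_mul, hm, show p * m * p ^ n = p ^ (n + 1) * m by ring, pow_mul, hx1, one_pow]
        apply fixed_of_fixed hP α hαp
        apply h1
        refine ⟨mul_mem (inv_mem hx) hax, ?_⟩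
        rw [hmul _ (inv_mem hx) _ hax, ← map_pow, h3, inv_pow, inv_mul_cancel]
    intro x hx
    obtain ⟨k, hk⟩ := hP x
    exact key k x hx hk
  refine ⟨D₁ ⊓ H, ?_, inf_le_right, ?_, ?_, hfix, ?_⟩
  · intro α hα
    apply le_antisymm
    · rw [map_le_iff_le_comap]
      exact fun x hx => hDα α hα x hx
    · intro x hx
      refine ⟨α⁻¹ x, hDα α⁻¹ (inv_mem hα) x hx, ?_⟩
      change α (α⁻¹ x) = x
      rw [← MulAut.mul_apply, mul_inv_cancel, MulAut.one_apply]
  · intro d hd
    have h1 : d ^ q = 1 := (mem_inf.1 hd).1.2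
    rcases hq with ⟨_, rfl⟩ | ⟨h2, rfl⟩
    · exact Or.inl h1
    · exact Or.inr ⟨h2, h1⟩
  · rw [commutator_le]
    intro d hd x _
    exact hcomm d hd x
  · intro A hAD hAc hAmax
    have hAcomm : ∀ a ∈ A, ∀ b ∈ A, a * b = b * a := fun a ha b hb =>
      congrArg Subtype.val (hAc.is_comm.comm ⟨a, ha⟩ ⟨b, hb⟩)
    -- adding an element centralizing `A`
    have hadd : ∀ c ∈ D₁ ⊓ H, (∀ a ∈ A, a * c = c * a) → c ∈ A := by
      intro c hc hca
      have hle : A ⊔ zpowers c ≤ D₁ ⊓ H := sup_le hAD (by rw [zpowers_le]; exact hc)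
      have hcom : IsMulCommutative ↥(A ⊔ zpowers c) := by
        have e : A ⊔ zpowers c = closure ((A : Set P) ∪ {c}) := by
          rw [Subgroup.closure_union, Subgroup.closure_eq, zpowers_eq_closure]
        rw [e]
        refine Subgroup.isMulCommutative_closure ?_
        rintro x (hx | hx) y (hy | hy)
        · exact hAcomm x hx y hy
        · rw [Set.mem_singleton_iff.1 hy]; exact hca x hx
        · rw [Set.mem_singleton_iff.1 hx]; exact (hca y hy).symm
        · rw [Set.mem_singleton_iff.1 hx, Set.mem_singleton_iff.1 hy]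
      have heq := hAmax _ le_sup_left hle hcom
      rw [← heq]
      exact mem_sup_right (mem_zpowers c)
    have hZA : (D₁ ⊓ H) ⊓ centralizer ((D₁ ⊓ H : Subgroup P) : Set P) ≤ A := by
      intro c hc
      refine hadd c (mem_inf.1 hc).1 fun a ha => ?_
      exact mem_centralizer_iff.1 (mem_inf.1 hc).2 a (hAD ha)
    refine ⟨⟨?_⟩, ?_⟩
    · intro a ha g
      have h1 := inv_mem (hZA (hcomm a (hAD ha) g))
      have e : g * a * g⁻¹ = ⁅a, g⁆⁻¹ * a := by
        rw [commutatorElement_def]; group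
      rw [e]
      exact mul_mem h1 ha
    · intro α hα hfa
      have hfin : 0 < orderOf α := orderOf_pos α
      obtain ⟨k, m, hm, hkm⟩ := Nat.exists_eq_pow_mul_and_not_dvd hfin.ne' p hp.ne_one
      refine ⟨k, ?_⟩
      have hβ : α ^ p ^ k = 1 := by
        apply hfix _ (pow_mem hα _)
        · have h1 : orderOf (α ^ p ^ k) = m := by
            rw [orderOf_pow' _ (pow_ne_zero _ hp.ne_zero), hkm]
            rw [Nat.gcd_eq_right (Dvd.intro _ rfl)]
            exact Nat.mul_div_cancel_left _ (pow_pos hp.pos _)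
          rw [h1]
          exact ((Nat.Prime.coprime_iff_not_dvd hp).2 hm).symm
        · have hβp : (orderOf (α ^ p ^ k)).Coprime p := by
            have h1 : orderOf (α ^ p ^ k) = m := by
              rw [orderOf_pow' _ (pow_ne_zero _ hp.ne_zero), hkm]
              rw [Nat.gcd_eq_right (Dvd.intro _ rfl)]
              exact Nat.mul_div_cancel_left _ (pow_pos hp.pos _)
            rw [h1]
            exact ((Nat.Prime.coprime_iff_not_dvd hp).2 hm).symm
          have hβA : ∀ a ∈ A, (α ^ p ^ k) a = a := by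
            intro a ha
            have : ∀ n : ℕ, (α ^ n) a = a := by
              intro n
              induction n with
              | zero => simp
              | succ n ih => rw [pow_succ', MulAut.mul_apply, ih, hfa a ha]
            exact this _
          intro d hd
          set β := α ^ p ^ k with hβdef
          have hβG : β ∈ G := pow_mem hα _
          apply fixed_of_fixed hP β hβp
          apply hβA
          refine hadd _ (mul_mem (inv_mem hd) (hDα β hβG d hd)) fun a ha => ?_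
          have h1 : ⁅d, a⁆ ∈ A := hZA (hcomm d hd a)
          have h2 := hβA _ h1
          rw [map_commutatorElement, hβA a ha, commutatorElement_def, commutatorElement_def] at h2
          -- `β d a (β d)⁻¹ = d a d⁻¹`
          have h3 : β d * a * (β d)⁻¹ = d * a * d⁻¹ := mul_right_cancel h2
          calc a * (d⁻¹ * β d) = d⁻¹ * (d * a * d⁻¹) * β d := by group
            _ = d⁻¹ * (β d * a * (β d)⁻¹) * β d := by rw [h3]
            _ = d⁻¹ * β d * a := by group
      have h1 : orderOf α ∣ p ^ k := orderOf_dvd_of_pow_eq_one hβ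
      apply Nat.dvd_antisymm h1
      rw [hkm]
      exact Dvd.intro _ rfl

end Cfsg.Agent.S1949
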