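import Cfsg.Statements.S1951
import Cfsg.Agent.Lib.PairChar4

set_option autoImplicit false
open Cfsg

namespace Cfsg.Agent.S1951

open Cfsg.Agent.Lib Cfsg.Agent.Lib.PairChar1 Cfsg.Agent.Lib.PairChar3 Cfsg.Agent.Lib.PairChar4

/-- Let p be a prime and P a nontrivial elementary abelian Sylow p-subgroup of a finite nonabelian simple group G whose nonidentity elements are all conjugate in G. Suppose that two elements of P are conjugate in G only if they are conjugate in N_G(P), that the centralizer of every element of order p of P has a normal p-complement, and that every two elements of order p of G generate a p-solvable subgroup. Then p = 2. -/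
theorem result {G : Type*} [Group G] [Finite G] [IsSimpleGroup G] (hG : ¬ IsMulCommutative G) {p : ℕ} [Fact p.Prime] (P : Sylow p G)
    (hP1 : (P : Subgroup G) ≠ ⊥) (hPe : Cfsg.IsElementaryAbelian p (P : Subgroup G))
    (hconj : ∀ x ∈ (P : Subgroup G), ∀ y ∈ (P : Subgroup G), x ≠ 1 → y ≠ 1 → ∃ g : G, g * x * g⁻¹ = y)
    (ha : ∀ x ∈ (P : Subgroup G), ∀ y ∈ (P : Subgroup G), (∃ g : G, g * x * g⁻¹ = y) →
      ∃ n ∈ Subgroup.normalizer ((P : Subgroup G) : Set G), n * x * n⁻¹ = y)
    (hb : ∀ x ∈ (P : Subgroup G), orderOf x = p → Cfsg.HasNormalPComplement p ↥(Subgroup.centralizer ({x} : Set G)))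
    (hc : ∀ x y : G, orderOf x = p → orderOf y = p → Cfsg.IsPSolvable p ↥(Subgroup.closure ({x, y} : Set G))) :
    p = 2 := by
  by_contra hp2
  have hp : p.Prime := Fact.out
  have hab : AbSyl p G := abSyl_of_sylow P (fun a ha b hb => by
    have h1 := hPe.1.is_comm.comm (⟨a, ha⟩ : ↥(P : Subgroup G)) ⟨b, hb⟩
    exact congrArg Subtype.val h1)
  obtain ⟨x, hxP, hx1⟩ := (Subgroup.ne_bot_iff_exists_ne_one.1 hP1 : _) |>.imp (fun a ha => ha) |> fun ⟨a, ha⟩ =>
    (⟨(a : G), a.2, fun h => ha (Subtype.ext h)⟩ : ∃ x : G, x ∈ (P : Subgroup G) ∧ x ≠ 1)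
  have hordP : ∀ y ∈ (P : Subgroup G), y ≠ 1 → orderOf y = p := by
    intro y hy hy1
    exact orderOf_eq_prime (hPe.2 y hy) hy1
  obtain ⟨n, hn⟩ := IsPGroup.iff_card.1 P.isPGroup'
  have hn0 : n ≠ 0 := by
    rintro rfl
    rw [pow_zero, Subgroup.card_eq_one] at hn
    exact hP1 hn
  have hPconj : ∀ y ∈ (P : Subgroup G), y ≠ 1 → IsConj x y := by
    intro y hy hy1
    obtain ⟨g, hg⟩ := hconj x hxP y hy hx1 hy1
    exact isConj_iff.2 ⟨g, hg⟩
  have hone : ∀ u : G, orderOf u = p → IsConj x u := by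
    intro u hu
    have h1 : IsPGroup p (Subgroup.zpowers u) :=
      IsPGroup.of_card (n := 1) (by rw [Nat.card_zpowers, hu, pow_one])
    obtain ⟨g, hg⟩ := exists_conj_sylow P h1
    have h2 := hg u (Subgroup.mem_zpowers u)
    have h3 : g⁻¹ * u * g ≠ 1 := by
      intro h
      have h4 : u = 1 := by
        calc u = g * (g⁻¹ * u * g) * g⁻¹ := by group
          _ = 1 := by rw [h]; group
      rw [h4, orderOf_one] at hu
      exact hp.ne_one hu.symm
    exact (hPconj _ h2 h3).trans (isConj_iff.2 ⟨g, by group⟩)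
  have hx := hordP x hxP hx1
  have hCx : CentComp p (p ^ n) x := centComp_of P hn hab hx (hb x hxP hx)
  exact one_class hp2 hx (P : Subgroup G) hn hn0 hPconj (fun u hu => by
    obtain ⟨g, hg⟩ := isConj_iff.1 (hone u hu)
    rw [← hg]
    exact PairChar4.CentComp.conj hCx g) hone (pairCond_of hab hx hc)

end Cfsg.Agent.S1951
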