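import Cfsg.Statements.S1952
import Cfsg.Agent.Lib.CFNorm
import Cfsg.Agent.Lib.KInf2
import Cfsg.Agent.Lib.FrattiniP

set_option autoImplicit false
open Cfsg

namespace Cfsg.Agent.S1952

open Subgroup
open scoped commutatorElement

theorem card_mul_relIndex' {P : Type*} [Group P] {H K : Subgroup P} (h : H ≤ K) :
    Nat.card H * H.relIndex K = Nat.card K := by
  have := Subgroup.relIndex_mul_relIndex ⊥ H K bot_le h
  rwa [Subgroup.relIndex_bot_left, Subgroup.relIndex_bot_left] at this

/-- strictly decreasing chains of subgroups of a `p`-group -/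
theorem card_mul_le {P : Type*} [Group P] [Finite P] {p : ℕ} [Fact p.Prime] (hP : IsPGroup p P) (A C : Subgroup P)
    (W : ℕ → Subgroup P) (h0 : W 0 = A) (n : ℕ) (hlt : ∀ k < n, W (k + 1) < W k) (hn : C ≤ W n) :
    p ^ n * Nat.card C ≤ Nat.card A := by
  have key : ∀ k ≤ n, p ^ k * Nat.card (W k) ≤ Nat.card A := by
    intro k
    induction k with
    | zero => intro _; rw [h0]; simp
    | succ k ih =>
      intro hk
      have h1 := ih (by omega)
      have h2 := hlt k (by omega)
      refine le_trans ?_ h1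
      rw [pow_succ, mul_assoc]
      refine Nat.mul_le_mul_left _ ?_
      have h3 : (W (k + 1)).relIndex (W k) * Nat.card (W (k + 1)) = Nat.card (W k) := by
        rw [mul_comm]; exact card_mul_relIndex' h2.le
      rw [← h3]
      refine Nat.mul_le_mul_right _ ?_
      have h4 : (W (k + 1)).relIndex (W k) ≠ 1 := by
        rw [Ne, Subgroup.relIndex_eq_one]; exact fun h => absurd h (not_le_of_gt h2)
      obtain ⟨m, hm⟩ := (hP.to_subgroup (W k)).index ((W (k + 1)).subgroupOf (W k))
      change (W (k + 1)).relIndex (W k) = _ at hm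
      rw [hm] at h4 ⊢
      have : m ≠ 0 := by rintro rfl; exact h4 (pow_zero _)
      exact Nat.le_self_pow this p
  exact (Nat.mul_le_mul_left _ (Subgroup.card_le_of_le hn)).trans (key n le_rfl)

theorem sylow_perm_card {p : ℕ} [hp : Fact p.Prime] (Q : Sylow p (Equiv.Perm (Fin (p ^ 2)))) :
    Nat.card Q = p ^ (p + 1) := by
  rw [Sylow.card_eq_multiplicity]
  congr 1
  rw [Nat.card_perm, Nat.card_fin, Nat.factorization_def _ hp.out, pow_two, padicValNat_factorial_mul]
  have h := padicValNat_factorial_mul (p := p) 1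
  rw [mul_one] at h
  rw [h]; simp [add_comm]

/-- elements of the shape `(Y - 1)^k x` -/
theorem pow_apply_mem {P B : Type*} [Group P] [CommGroup B] (j : B →* P) (V : ℕ → Subgroup P)
    (y : P) (b : B) (σ : Module.End ℤ (Additive B))
    (hσ : ∀ a : B, j (σ (Additive.ofMul a)).toMul = y⁻¹ * j a * y)
    (h0 : j b ∈ V 0) (hV : ∀ k, ⁅V k, (⊤ : Subgroup P)⁆ ≤ V (k + 1)) (k : ℕ) :
    j (((σ - 1) ^ k) (Additive.ofMul b)).toMul ∈ V k := by
  induction k with
  | zero => exact h0
  | succ k ih =>
    rw [pow_succ', Module.End.mul_apply]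
    set v := ((σ - 1) ^ k) (Additive.ofMul b)
    have e : j ((σ - 1) v).toMul = ⁅y⁻¹, j v.toMul⁆ := by
      rw [LinearMap.sub_apply, Module.End.one_apply, toMul_sub, map_div]
      have := hσ v.toMul
      rw [show Additive.ofMul v.toMul = v from rfl] at this
      rw [this, commutatorElement_def, div_eq_mul_inv, inv_inv]
    rw [e]
    refine hV k ?_
    rw [Subgroup.commutator_comm]
    exact Subgroup.commutator_mem_commutator (Subgroup.mem_top _) ih

/-- Let P be a finite p-group with a normal elementary abelian subgroup A of index p, and let x ∈ A and y ∈ P with y outside A. If the product of the p conjugates y^(-i) x y^i (i = 0, …, p−1) is not the identity, then the wreath product Z_p ≀ Z_p, realised as a Sylow p-subgroup of the symmetric group of degree p², is a homomorphic image of P. -/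
theorem result {P : Type*} [Group P] [Finite P] {p : ℕ} [Fact p.Prime] (hP : IsPGroup p P) (A : Subgroup P) [A.Normal]
    (hA : Cfsg.IsElementaryAbelian p A) (hidx : A.index = p) (x y : P) (hx : x ∈ A) (hy : y ∉ A)
    (hprod : ((List.range p).map (fun i => (y ^ i)⁻¹ * x * y ^ i)).prod ≠ 1) :
    ∃ (Q : Sylow p (Equiv.Perm (Fin (p ^ 2)))) (f : P →* ↥(Q : Subgroup (Equiv.Perm (Fin (p ^ 2))))), Function.Surjective f := by
  classical
  have hp : p.Prime := Fact.out
  obtain ⟨hcomm, hexp⟩ := hA
  let _ : CommGroup A := { (inferInstance : Group A) with mul_comm := hcomm.is_comm.comm }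
  set z : P := ((List.range p).map (fun i => (y ^ i)⁻¹ * x * y ^ i)).prod with hz
  -- the endomorphism
  let σ₀ : A →* A :=
    { toFun := fun a => ⟨y⁻¹ * a * y, by
        have := (inferInstance : A.Normal).conj_mem a a.2 y⁻¹
        simpa using this⟩
      map_one' := by ext; simp
      map_mul' := by intro a b; ext; simp [mul_assoc] }
  let σ : Module.End ℤ (Additive A) := (MonoidHom.toAdditive σ₀).toIntLinearMap
  have hσ : ∀ a : A, ((σ (Additive.ofMul a)).toMul : P) = y⁻¹ * a * y := fun a => rfl
  have hσp : ∀ (i : ℕ) (a : A), (((σ ^ i) (Additive.ofMul a)).toMul : P) = (y ^ i)⁻¹ * a * y ^ i := by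
    intro i
    induction i with
    | zero => intro a; simp
    | succ i ih =>
      intro a
      rw [pow_succ, Module.End.mul_apply]
      have := ih (σ (Additive.ofMul a)).toMul
      rw [show Additive.ofMul (σ (Additive.ofMul a)).toMul = σ (Additive.ofMul a) from rfl, hσ] at this
      rw [this, pow_succ']
      group
  have hzA : z = (((∑ i ∈ Finset.range p, (σ ^ i) (Additive.ofMul (⟨x, hx⟩ : A))).toMul : A) : P) := by
    rw [hz, ← List.toFinset_range, List.sum_toFinset _ (List.nodup_range)]
    have : ∀ l : List ℕ, (l.map (fun i => (y ^ i)⁻¹ * x * y ^ i)).prod =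
        (((l.map (fun i => (σ ^ i) (Additive.ofMul (⟨x, hx⟩ : A)))).sum.toMul : A) : P) := by
      intro l
      induction l with
      | nil => simp
      | cons a l ih =>
        rw [List.map_cons, List.prod_cons, ih, List.map_cons, List.sum_cons, toMul_add, Subgroup.coe_mul, hσp]
    exact this _
  have hnorm : ∑ i ∈ Finset.range p, (σ ^ i) (Additive.ofMul (⟨x, hx⟩ : A)) =
      ((σ - 1) ^ (p - 1)) (Additive.ofMul (⟨x, hx⟩ : A)) := by
    obtain ⟨q, hq⟩ := Cfsg.Agent.Lib.CFNorm.exists_geom_eq p
    set f : Additive A := Additive.ofMul (⟨x, hx⟩ : A)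
    have h1 := congrArg (fun R => (Polynomial.aeval σ R) f) hq
    simp only [map_sum, map_pow, Polynomial.aeval_X, map_add, map_sub, map_one, map_mul, map_natCast,
      LinearMap.sum_apply, LinearMap.add_apply] at h1
    rw [h1]
    have h2 : ((p : Module.End ℤ (Additive A)) * Polynomial.aeval σ q) f =
        (Polynomial.aeval σ q) ((p : ℤ) • f) := by
      rw [map_zsmul, Module.End.mul_apply]
      simp
    have h3 : (p : ℤ) • f = 0 := by
      have : (⟨x, hx⟩ : A) ^ p = 1 := Subtype.ext (hexp x hx)
      have h4 : p • f = 0 := this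
      rw [natCast_zsmul]; exact h4
    rw [h2, h3, map_zero, add_zero]
  have hzmem : z ∈ A := by rw [hzA]; exact SetLike.coe_mem _
  -- the subgroup K
  obtain ⟨K₀, hK₀, hzK₀⟩ := Cfsg.Agent.Lib.FrattiniP.exists_index_prime_not_mem (V := A) (p := p)
    (fun v => Subtype.ext (hexp v v.2)) (x := ⟨z, hzmem⟩) (fun h => hprod (congrArg Subtype.val h))
  let K : Subgroup P := K₀.map A.subtype
  have hKA : K ≤ A := Subgroup.map_subtype_le K₀
  have hKsub : K.subgroupOf A = K₀ := by
    rw [Subgroup.subgroupOf, Subgroup.comap_map_eq_self_of_injective A.subtype_injective]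
  have hzK : z ∉ K := by
    intro h
    apply hzK₀
    rw [← hKsub, Subgroup.mem_subgroupOf]
    exact h
  have hKidx : K.index = p ^ 2 := by
    rw [← Subgroup.relIndex_mul_index hKA, hidx, pow_two]
    congr 1
    rw [Subgroup.relIndex, hKsub, hK₀]
  let C : Subgroup P := K.normalCore
  have hCK : C ≤ K := K.normalCore_le
  -- the chain
  let W : ℕ → Subgroup P := fun k => Cfsg.iterCommutator A ⊤ k ⊔ C
  have hWn : ∀ k, (Cfsg.iterCommutator A (⊤ : Subgroup P) k).Normal := by
    intro k
    induction k with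
    | zero => change A.Normal; infer_instance
    | succ k ih => change (⁅Cfsg.iterCommutator A (⊤ : Subgroup P) k, (⊤ : Subgroup P)⁆ : Subgroup P).Normal; infer_instance
  have hPnil : Group.IsNilpotent (⊤ : Subgroup P) := (hP.to_subgroup ⊤).isNilpotent
  have hzV : ∀ k ≤ p - 1, ¬ Cfsg.iterCommutator A (⊤ : Subgroup P) k ≤ C := by
    intro k hk hle
    apply hzK
    apply hCK
    have hanti : ∀ m, Cfsg.iterCommutator A (⊤ : Subgroup P) (k + m) ≤ C := by
      intro m
      induction m with
      | zero => exact hle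
      | succ m ih =>
        refine le_trans ?_ ih
        have := hWn (k + m)
        exact Subgroup.commutator_le_left _ _
    have hh := hanti (p - 1 - k)
    rw [Nat.add_sub_cancel' hk] at hh
    apply hh
    rw [hzA, hnorm]
    exact pow_apply_mem A.subtype (fun k => Cfsg.iterCommutator A (⊤ : Subgroup P) k) y ⟨x, hx⟩ σ hσ hx
      (fun k => le_rfl) (p - 1)
  have hcard : p ^ p * Nat.card C ≤ Nat.card A := by
    refine card_mul_le hP A C W ?_ p ?_ le_sup_right
    · exact sup_eq_left.2 (hCK.trans hKA)
    · intro k hk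
      have hn := hWn k
      refine lt_of_le_of_ne (sup_le_sup_right (Subgroup.commutator_le_left _ _) _) ?_
      intro heq
      apply hzV k (by omega)
      refine Cfsg.Agent.Lib.KInf2.le_of_le_comm_sup hPnil le_top (le_refl (⊤ : Subgroup P)) ?_
      calc Cfsg.iterCommutator A (⊤ : Subgroup P) k ≤ W k := le_sup_left
        _ = W (k + 1) := heq.symm
        _ = _ := rfl
  have hCidx : p ^ (p + 1) ≤ C.index := by
    have hCA : C ≤ A := hCK.trans hKA
    rw [← Subgroup.relIndex_mul_index hCA, hidx, pow_succ]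
    refine Nat.mul_le_mul_right _ ?_
    have h1 : Nat.card C * C.relIndex A = Nat.card A := card_mul_relIndex' hCA
    rw [← h1, mul_comm] at hcard
    exact Nat.le_of_mul_le_mul_left hcard Nat.card_pos
  -- the action
  have hfin : Nat.card (P ⧸ K) = p ^ 2 := hKidx
  have _ : Finite (P ⧸ K) := Quotient.finite _
  let e : (P ⧸ K) ≃ Fin (p ^ 2) := Finite.equivFinOfCardEq hfin
  let F : P →* Equiv.Perm (Fin (p ^ 2)) := e.permCongrHom.toMonoidHom.comp (MulAction.toPermHom P (P ⧸ K))
  have hker : F.ker = C := by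
    change F.ker = K.normalCore
    rw [Subgroup.normalCore_eq_ker]
    ext g
    rw [MonoidHom.mem_ker, MonoidHom.mem_ker]
    change e.permCongrHom (MulAction.toPermHom P (P ⧸ K) g) = 1 ↔ _
    rw [map_eq_one_iff e.permCongrHom e.permCongrHom.injective]
  have hrange : IsPGroup p F.range := hP.of_surjective F.rangeRestrict F.rangeRestrict_surjective
  obtain ⟨Q, hQ⟩ := hrange.exists_le_sylow
  have hcr : Nat.card F.range = C.index := by
    rw [← hker, Subgroup.index_ker]
  have hEq : F.range = (Q : Subgroup _) := by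
    refine Subgroup.eq_of_le_of_card_ge hQ ?_
    rw [hcr, sylow_perm_card Q]
    exact hCidx
  refine ⟨Q, F.codRestrict (Q : Subgroup _) (fun g => hQ ⟨g, rfl⟩), ?_⟩
  rintro ⟨q, hq⟩
  have : q ∈ F.range := by rw [hEq]; exact hq
  obtain ⟨g, hg⟩ := this
  exact ⟨g, Subtype.ext hg⟩

end Cfsg.Agent.S1952
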