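import Cfsg.Statements.S1953
import Cfsg.Agent.Lib.SLFree3

set_option autoImplicit false
open Cfsg

namespace Cfsg.Agent.S1953

open Cfsg.Agent.Lib.CFSylow Cfsg.Agent.Lib.CFFusion Cfsg.Agent.Lib.CFControl Cfsg.Agent.Lib.CFSection
  Cfsg.Agent.Lib.KInf6 Cfsg.Agent.Lib.SLFree1 Cfsg.Agent.Lib.SLFree3

/-- Let p be an odd prime and P a Sylow p-subgroup of the finite group G, and suppose that for no p-subgroup Q of G does N_G(Q)/C_G(Q) have a section isomorphic to SL₂(p). Call a subgroup Q of P centric-radical when Z(Q) is a Sylow p-subgroup of C_G(Q) and the only normal subgroup X of N_G(Q) containing Q·C_G(Q) such that the index of Q·C_G(Q) in X is a power of p is Q·C_G(Q) itself (that is, N_G(Q)/Q·C_G(Q) has no nontrivial normal p-subgroup). Then there is a centric-radical subgroup Q of P contained in every centric-radical subgroup of P; it is normal in P, and N_G(Q) controls strong fusion in P: whenever a subgroup A of P has g A g⁻¹ ≤ P, the element g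 is a product h c with h in N_G(Q) and c centralizing A. -/
theorem result {G : Type*} [Group G] [Finite G] {p : ℕ} [Fact p.Prime] (hp : p ≠ 2) (P : Sylow p G)
    (hfree : ∀ Q : Subgroup G, IsPGroup p ↥Q → ¬ ∃ (H K : Subgroup G) (_ : (K.subgroupOf H).Normal),
      Subgroup.centralizer (Q : Set G) ≤ K ∧ K ≤ H ∧ H ≤ Subgroup.normalizer (Q : Set G) ∧
      Nonempty ((↥H ⧸ K.subgroupOf H) ≃* Matrix.SpecialLinearGroup (Fin 2) (ZMod p)))
    (cr : Subgroup G → Prop)
    (hcr : ∀ Q : Subgroup G, cr Q ↔ (Q ≤ (P : Subgroup G) ∧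
      (∃ R : Sylow p ↥(Subgroup.centralizer (Q : Set G)),
        (R : Subgroup ↥(Subgroup.centralizer (Q : Set G))).map (Subgroup.centralizer (Q : Set G)).subtype = Q ⊓ Subgroup.centralizer (Q : Set G)) ∧
      ∀ X : Subgroup G, X ≤ Subgroup.normalizer (Q : Set G) →
        (∀ n ∈ Subgroup.normalizer (Q : Set G), X.map (MulAut.conj n).toMonoidHom = X) →
        Q ⊔ Subgroup.centralizer (Q : Set G) ≤ X → (∃ k : ℕ, (Q ⊔ Subgroup.centralizer (Q : Set G)).relIndex X = p ^ k) →
        X = Q ⊔ Subgroup.centralizer (Q : Set G))) :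
    ∃ Q : Subgroup G, cr Q ∧ (∀ R : Subgroup G, cr R → Q ≤ R) ∧ (∀ x ∈ (P : Subgroup G), Q.map (MulAut.conj x).toMonoidHom = Q) ∧
      ∀ A : Subgroup G, A ≤ (P : Subgroup G) → ∀ g : G, A.map (MulAut.conj g).toMonoidHom ≤ (P : Subgroup G) →
        ∃ h ∈ Subgroup.normalizer (Q : Set G), ∃ c ∈ Subgroup.centralizer (A : Set G), g = h * c := by
  classical
  have hst : ∀ (X : Type _) [Group X] [Finite X], IsSec X G → Cfsg.IsNormalizerPStable p X := by
    intro X _ _ hX
    by_contra hns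
    obtain ⟨K₁, φ, hφ⟩ := hX
    obtain ⟨T, hT, hsl⟩ := slSec_of_not_stable hp K₁ φ hφ hns
    exact hfree T hT hsl
  have hW := kLike_lower p
  have hctrl := sf_kinf (G := G) hW hst
  have hP := sylIn_sylow P
  obtain ⟨Q, hQ, hQc, hrad⟩ := exists_good hW.1 hctrl hP
  have hcr' : ∀ R : Subgroup G, cr R ↔ (R ≤ (P : Subgroup G) ∧ SylIn p (R ⊓ Subgroup.centralizer (R : Set G))
      (Subgroup.centralizer (R : Set G)) ∧
      ∀ X : Subgroup G, X ≤ nz R → nz R ≤ nz X → R ⊔ Subgroup.centralizer (R : Set G) ≤ X →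
        (∃ k : ℕ, (R ⊔ Subgroup.centralizer (R : Set G)).relIndex X = p ^ k) →
        X = R ⊔ Subgroup.centralizer (R : Set G)) := by
    intro R
    rw [hcr R, sylIn_iff_exists]
    refine and_congr_right fun _ => and_congr_right fun _ => forall_congr' fun X => imp_congr_right fun _ => ?_
    constructor
    · intro h h1
      exact h (fun n hn => Cfsg.Agent.Lib.CFSylow.mem_normalizer.1 (h1 hn))
    · intro h h1
      exact h (fun n hn => Cfsg.Agent.Lib.CFSylow.mem_normalizer.2 (h1 n hn))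
  obtain ⟨hQP, hPQ, hQSF⟩ := hQ
  refine ⟨Q, (hcr' Q).2 ⟨hQP, ?_, hrad⟩, ?_, ?_, ?_⟩
  · have h1 : (P : Subgroup G) ⊓ Subgroup.centralizer (Q : Set G) = Q ⊓ Subgroup.centralizer (Q : Set G) :=
      le_antisymm (le_inf hQc inf_le_right) (inf_le_inf_right _ hQP)
    have hPN := hP.of_le hPQ le_top
    have hczn : nz Q ≤ nz (Subgroup.centralizer (Q : Set G)) := by
      intro x hx
      rw [Cfsg.Agent.Lib.CFSylow.mem_normalizer]
      rw [cj_centralizer, Cfsg.Agent.Lib.CFSylow.mem_normalizer.1 hx]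
    have h2 := hPN.inf_normal (centralizer_le_normalizer Q) hczn
    rwa [h1] at h2
  · intro R hR
    obtain ⟨hRP, hRc, hRr⟩ := (hcr' R).1 hR
    exact good_le_radical ⟨hQP, hPQ, hQSF⟩ hRP hRc hRr P.isPGroup'
  · intro x hx
    exact Cfsg.Agent.Lib.CFSylow.mem_normalizer.1 (hPQ hx)
  · intro A hA g hg
    obtain ⟨x, hx, c, hc, hxc⟩ := hQSF A hA g (Subgroup.mem_top _) hg
    exact ⟨x, (Subgroup.mem_inf.1 hx).2, c, hc, hxc⟩

end Cfsg.Agent.S1953
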