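import Cfsg.Statements.S1954
import Cfsg.Agent.Lib.MinPair
import Cfsg.Agent.Lib.CFRed
import Cfsg.Agent.Lib.CFFusion

set_option autoImplicit false
open Cfsg

namespace Cfsg.Agent.S1954

open Cfsg.Agent.Lib.CFSylow Cfsg.Agent.Lib.MinPair
open Cfsg.Agent.Lib.CFFusion (IsFus)
open scoped commutatorElement

/-- control of strong fusion by `V` in `S₀` with respect to `N` -/
def Ctl {G : Type*} [Group G] (N S₀ V : Subgroup G) : Prop :=
  V ≤ S₀ ∧ ∀ A ≤ S₀, ∀ n ∈ N, cj n A ≤ S₀ → ∃ h ∈ N ⊓ nz V, ∃ c ∈ N ⊓ cz A, n = h * c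

theorem Ctl.sup {G : Type*} [Group G] {N S₀ V₁ V₂ : Subgroup G} (h1 : Ctl N S₀ V₁)
    (h2 : Ctl N S₀ V₂) : Ctl N S₀ (V₁ ⊔ V₂) := by
  refine ⟨sup_le h1.1 h2.1, ?_⟩
  intro A hA n hn hAn
  obtain ⟨h₁, hh₁, c₁, hc₁, rfl⟩ := h1.2 A hA n hn hAn
  obtain ⟨hh₁N, hh₁V⟩ := Subgroup.mem_inf.1 hh₁
  obtain ⟨hc₁N, hc₁A⟩ := Subgroup.mem_inf.1 hc₁
  have e1 : cj h₁ A ≤ S₀ := by
    have h3 : cj (h₁ * c₁) A = cj h₁ A := by
      rw [← cj_cj, mem_normalizer.1 (centralizer_le_normalizer A hc₁A)]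
    rwa [h3] at hAn
  obtain ⟨h₂, hh₂, c₂, hc₂, h4⟩ := h2.2 (A ⊔ V₁) (sup_le hA h1.1) h₁ hh₁N (by
    rw [cj_sup, mem_normalizer.1 hh₁V]
    exact sup_le e1 h1.1)
  obtain ⟨hh₂N, hh₂V⟩ := Subgroup.mem_inf.1 hh₂
  obtain ⟨hc₂N, hc₂A⟩ := Subgroup.mem_inf.1 hc₂
  have h5 : h₂ ∈ nz V₁ := by
    have e : h₂ = h₁ * c₂⁻¹ := by rw [h4]; group
    rw [e]
    exact mul_mem hh₁V (inv_mem (centralizer_le_normalizer V₁
      (Subgroup.centralizer_le (le_sup_right : V₁ ≤ A ⊔ V₁) hc₂A)))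
  refine ⟨h₂, Subgroup.mem_inf.2 ⟨hh₂N, ?_⟩, c₂ * c₁, Subgroup.mem_inf.2 ⟨mul_mem hc₂N hc₁N,
    mul_mem (Subgroup.centralizer_le (le_sup_left : A ≤ A ⊔ V₁) hc₂A) hc₁A⟩, ?_⟩
  · change h₂ ∈ Subgroup.normalizer ((V₁ ⊔ V₂ : Subgroup G) : Set G)
    rw [mem_normalizer, cj_sup, mem_normalizer.1 h5, mem_normalizer.1 hh₂V]
  · rw [h4]; group

theorem Ctl.conj {G : Type*} [Group G] {N S₀ V : Subgroup G} (hN : N.Normal) (h : Ctl N S₀ V)
    {x : G} (hx : x ∈ nz S₀) : Ctl N S₀ (cj x V) := by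
  have hxS : cj x S₀ = S₀ := mem_normalizer.1 hx
  have hxS' : cj x⁻¹ S₀ = S₀ := mem_normalizer.1 (inv_mem hx)
  refine ⟨by rw [← hxS]; exact cj_mono h.1, ?_⟩
  intro A hA n hn hAn
  obtain ⟨k, hk, c, hc, hkc⟩ := h.2 (cj x⁻¹ A) (by rw [← hxS']; exact cj_mono hA)
    (x⁻¹ * n * x) (by simpa using hN.conj_mem n hn x⁻¹) (by
      rw [cj_cj]
      have e : x⁻¹ * n * x * x⁻¹ = x⁻¹ * n := by group
      rw [e, ← cj_cj, ← hxS']
      exact cj_mono hAn)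
  obtain ⟨hkN, hkV⟩ := Subgroup.mem_inf.1 hk
  obtain ⟨hcN, hcA⟩ := Subgroup.mem_inf.1 hc
  refine ⟨x * k * x⁻¹, Subgroup.mem_inf.2 ⟨hN.conj_mem k hkN x, ?_⟩, x * c * x⁻¹,
    Subgroup.mem_inf.2 ⟨hN.conj_mem c hcN x, ?_⟩, ?_⟩
  · have : nz (cj x V) = cj x (nz V) := (cj_normalizer x V).symm
    rw [this]; exact conj_mem_cj hkV
  · have : cz A = cj x (cz (cj x⁻¹ A)) := by
      rw [cj_centralizer, cj_cj_inv]
    rw [this]; exact conj_mem_cj hcA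
  · calc n = x * (x⁻¹ * n * x) * x⁻¹ := by group
      _ = x * (k * c) * x⁻¹ := by rw [hkc]
      _ = x * k * x⁻¹ * (x * c * x⁻¹) := by group

theorem Ctl.closure {G : Type*} [Group G] [Finite G] {N S₀ V W : Subgroup G} (hN : N.Normal)
    (h : Ctl N S₀ V) (hVW : ∀ x ∈ nz S₀, cj x V ≤ W) (hW : W = Subgroup.closure
      (⋃ x ∈ nz S₀, ((cj x V : Subgroup G) : Set G))) : Ctl N S₀ W := by
  classical
  obtain ⟨V', ⟨hV'W, hV'⟩, hmax⟩ := (Set.toFinite {V' : Subgroup G | V' ≤ W ∧ Ctl N S₀ V'}).exists_maximal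
    ⟨V, by have := hVW 1 (one_mem _); rwa [cj_one] at this, h⟩
  have h1 : ∀ x ∈ nz S₀, cj x V ≤ V' := by
    intro x hx
    have h2 := hmax (y := V' ⊔ cj x V) ⟨sup_le hV'W (hVW x hx), hV'.sup (h.conj hN hx)⟩ le_sup_left
    exact le_sup_right.trans h2
  have h2 : W ≤ V' := by
    rw [hW, Subgroup.closure_le]
    intro y hy
    simp only [Set.mem_iUnion] at hy
    obtain ⟨x, hx, hy⟩ := hy
    exact h1 x hx hy
  rw [le_antisymm h2 hV'W]; exact hV'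

theorem main {G : Type*} [Group G] [Finite G] {p : ℕ} [Fact p.Prime] {N P W : Subgroup G}
    (hN : N.Normal) (hP : SylIn p P ⊤) (hW : Ctl N (P ⊓ N) W) (hWL : nz (P ⊓ N) ≤ nz W) :
    ∀ B : Subgroup G, B ≤ P → ∀ g : G, cj g B ≤ P → B ≤ P ∧ cj g B ≤ P ∧
      ∃ m ∈ nz W, ∃ c ∈ cz B, g = m * c := by
  classical
  have hS₀ : SylIn p (P ⊓ N) N := hP.inf_normal le_top (by
    rw [Subgroup.normalizer_eq_top])
  have hPL : P ≤ nz (P ⊓ N) := by
    rw [le_normalizer_iff]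
    intro s hs q hq
    obtain ⟨hq1, hq2⟩ := Subgroup.mem_inf.1 hq
    exact Subgroup.mem_inf.2 ⟨mul_mem (mul_mem hs hq1) (inv_mem hs), hN.conj_mem q hq2 s⟩
  have hPW : P ≤ nz W := hPL.trans hWL
  have hWP : W ≤ P := hW.1.trans inf_le_left
  have hWN : W ≤ N := hW.1.trans inf_le_right
  have hcjz : ∀ (m c : G) (B : Subgroup G), c ∈ cz B → cj (m * c) B = cj m B := by
    intro m c B hc
    rw [← cj_cj, mem_normalizer.1 (centralizer_le_normalizer B hc)]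
  have hΦ : IsFus P (fun B g => B ≤ P ∧ cj g B ≤ P ∧ ∃ m ∈ nz W, ∃ c ∈ cz B, g = m * c) := by
    refine ⟨fun h => ⟨h.1, h.2.1⟩, ?_, ?_, ?_⟩
    · rintro B g k ⟨hB, hg, m, hm, c, hc, rfl⟩ ⟨hB', hk, m', hm', c', hc', rfl⟩
      refine ⟨hB, by rwa [cj_cj] at hk, m' * m, mul_mem hm' hm, (m⁻¹ * c' * m) * c,
        mul_mem ?_ hc, by group⟩
      rw [hcjz m c B hc, show cz (cj m B) = cj m (cz B) from (cj_centralizer m B).symm, mem_cj] at hc'
      exact hc'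
    · rintro B g ⟨hB, hg, m, hm, c, hc, rfl⟩
      refine ⟨hg, by rwa [cj_inv_cj], m⁻¹, inv_mem hm, m * c⁻¹ * m⁻¹, ?_, by group⟩
      rw [hcjz m c B hc, show cz (cj m B) = cj m (cz B) from (cj_centralizer m B).symm]
      exact conj_mem_cj (inv_mem hc)
    · rintro B B' g hB'B ⟨hB, hg, m, hm, c, hc, rfl⟩
      exact ⟨hB'B.trans hB, (cj_mono hB'B).trans hg, m, hm, c, Subgroup.centralizer_le hB'B hc, rfl⟩
  refine hΦ.induction_fn hP ⊥ bot_le ?_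
  intro B hBP hB _ IH g hg
  refine ⟨hBP, by
    have : cj g B = B := mem_normalizer.1 hg
    rw [this]; exact hBP, ?_⟩
  -- action on `B ⊓ N`
  have hBNP : B ⊓ N ≤ P ⊓ N := inf_le_inf_right _ hBP
  have hact : ∀ g ∈ nz B, ∃ m ∈ nz W, m⁻¹ * g ∈ cz (B ⊓ N) := by
    intro g hg
    obtain ⟨n, hn, l, hl, hnl⟩ := frattini hS₀ le_top (by
      rw [Subgroup.normalizer_eq_top]) (Subgroup.mem_top g⁻¹)
    have hl' : l ∈ nz (P ⊓ N) := (Subgroup.mem_inf.1 hl).2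
    have hg' : g = l⁻¹ * n⁻¹ := by rw [← mul_inv_rev, ← hnl, inv_inv]
    have hgN : cj g (B ⊓ N) = B ⊓ N := by
      have h1 : cj g N = N := by
        rw [← mem_normalizer, Subgroup.normalizer_eq_top]; exact Subgroup.mem_top g
      rw [cj_inf, mem_normalizer.1 hg, h1]
    obtain ⟨k, hk, c, hc, hkc⟩ := hW.2 (B ⊓ N) hBNP n⁻¹ (inv_mem hn) (by
      have e : n⁻¹ = l * g := by rw [hg']; group
      rw [e, ← cj_cj, hgN]
      calc cj l (B ⊓ N) ≤ cj l (P ⊓ N) := cj_mono hBNP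
        _ = P ⊓ N := mem_normalizer.1 hl')
    refine ⟨l⁻¹ * k, mul_mem (inv_mem (hWL hl')) (Subgroup.mem_inf.1 hk).2, ?_⟩
    have e : (l⁻¹ * k)⁻¹ * g = c := by rw [hg', hkc]; group
    rw [e]; exact (Subgroup.mem_inf.1 hc).2
  -- elementwise version
  have hact' : ∀ g ∈ nz B, ∃ m ∈ nz W, ∀ x ∈ B ⊓ N, g * x * g⁻¹ = m * x * m⁻¹ := by
    intro g hg
    obtain ⟨m, hm, hc⟩ := hact g hg
    refine ⟨m, hm, fun x hx => ?_⟩
    have h1 := mem_centralizer.1 hc x hx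
    calc g * x * g⁻¹ = m * ((m⁻¹ * g) * x * (m⁻¹ * g)⁻¹) * m⁻¹ := by group
      _ = m * x * m⁻¹ := by rw [h1]
  have hBn : ∀ g ∈ nz B, ∀ x ∈ B, g * x * g⁻¹ ∈ B := fun g hg x hx =>
    le_normalizer_iff.1 (le_refl (nz B)) g hg x hx
  have hBNn : ∀ g ∈ nz B, ∀ x ∈ B ⊓ N, g * x * g⁻¹ ∈ B ⊓ N := fun g hg x hx =>
    Subgroup.mem_inf.2 ⟨hBn g hg x (Subgroup.mem_inf.1 hx).1,
      hN.conj_mem x (Subgroup.mem_inf.1 hx).2 g⟩
  have hWn : ∀ g ∈ nz W, ∀ x ∈ W, g * x * g⁻¹ ∈ W := fun g hg x hx =>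
    le_normalizer_iff.1 (le_refl (nz W)) g hg x hx
  -- the subgroup `U`
  let U : Subgroup G :=
    { carrier := {u | u ∈ nz B ⊓ N ∧ ∃ w ∈ W, ∀ x ∈ B ⊓ N, u * x * u⁻¹ = w * x * w⁻¹}
      one_mem' := ⟨one_mem _, 1, one_mem _, fun x _ => rfl⟩
      mul_mem' := by
        rintro u v ⟨hu, w, hw, huw⟩ ⟨hv, w', hw', hvw⟩
        refine ⟨mul_mem hu hv, w * w', mul_mem hw hw', fun x hx => ?_⟩
        have h1 : v * x * v⁻¹ ∈ B ⊓ N := hBNn v (Subgroup.mem_inf.1 hv).1 x hx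
        calc u * v * x * (u * v)⁻¹ = u * (v * x * v⁻¹) * u⁻¹ := by group
          _ = w * (v * x * v⁻¹) * w⁻¹ := huw _ h1
          _ = w * (w' * x * w'⁻¹) * w⁻¹ := by rw [hvw x hx]
          _ = w * w' * x * (w * w')⁻¹ := by group
      inv_mem' := by
        rintro u ⟨hu, w, hw, huw⟩
        refine ⟨inv_mem hu, w⁻¹, inv_mem hw, fun x hx => ?_⟩
        have h1 : u⁻¹ * x * u⁻¹⁻¹ ∈ B ⊓ N := hBNn u⁻¹ (inv_mem (Subgroup.mem_inf.1 hu).1) x hx
        have h2 := huw _ h1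
        have h3 : u * (u⁻¹ * x * u⁻¹⁻¹) * u⁻¹ = x := by group
        rw [h3] at h2
        calc u⁻¹ * x * u⁻¹⁻¹ = w⁻¹ * (w * (u⁻¹ * x * u⁻¹⁻¹) * w⁻¹) * w := by group
          _ = w⁻¹ * x * w⁻¹⁻¹ := by rw [← h2]; group }
  have hUN : nz B ≤ nz U := by
    rw [le_normalizer_iff]
    rintro g hg u ⟨hu, w, hw, huw⟩
    obtain ⟨m, hm, hgm⟩ := hact' g hg
    refine ⟨Subgroup.mem_inf.2 ⟨mul_mem (mul_mem hg (Subgroup.mem_inf.1 hu).1) (inv_mem hg),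
      hN.conj_mem u (Subgroup.mem_inf.1 hu).2 g⟩, m * w * m⁻¹, hWn m hm w hw, fun x hx => ?_⟩
    have h1 : g⁻¹ * x * g⁻¹⁻¹ ∈ B ⊓ N := hBNn g⁻¹ (inv_mem hg) x hx
    have h2 : u * (g⁻¹ * x * g⁻¹⁻¹) * u⁻¹ ∈ B ⊓ N := hBNn u (Subgroup.mem_inf.1 hu).1 _ h1
    have h3 : g⁻¹ * x * g⁻¹⁻¹ = m⁻¹ * x * m := by
      have h4 := hgm _ h1
      have h5 : g * (g⁻¹ * x * g⁻¹⁻¹) * g⁻¹ = x := by group
      rw [h5] at h4
      calc g⁻¹ * x * g⁻¹⁻¹ = m⁻¹ * (m * (g⁻¹ * x * g⁻¹⁻¹) * m⁻¹) * m := by group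
        _ = m⁻¹ * x * m := by rw [← h4]
    calc g * u * g⁻¹ * x * (g * u * g⁻¹)⁻¹ = g * (u * (g⁻¹ * x * g⁻¹⁻¹) * u⁻¹) * g⁻¹ := by group
      _ = m * (u * (g⁻¹ * x * g⁻¹⁻¹) * u⁻¹) * m⁻¹ := hgm _ h2
      _ = m * (w * (g⁻¹ * x * g⁻¹⁻¹) * w⁻¹) * m⁻¹ := by rw [huw _ h1]
      _ = m * (w * (m⁻¹ * x * m) * w⁻¹) * m⁻¹ := by rw [h3]
      _ = m * w * m⁻¹ * x * (m * w * m⁻¹)⁻¹ := by group
  have hUB : U ≤ nz B := fun u hu => (Subgroup.mem_inf.1 hu.1).1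
  have hBp := hP.isPGroup.to_le hBP
  -- `p'`-elements of `U` centralize `B`
  have hUp : ∀ u ∈ U, (orderOf u).Coprime p → u ∈ cz B := by
    rintro u ⟨hu, w, hw, huw⟩ huo
    obtain ⟨k, hk⟩ := hP.isPGroup ⟨w, hWP hw⟩
    have hk' : w ^ p ^ k = 1 := congrArg Subtype.val hk
    have h1 : ∀ n : ℕ, ∀ x ∈ B ⊓ N, u ^ n * x * (u ^ n)⁻¹ = w ^ n * x * (w ^ n)⁻¹ := by
      intro n
      induction n with
      | zero => intro x _; simp
      | succ n ih =>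
        intro x hx
        have h2 : u * x * u⁻¹ ∈ B ⊓ N := hBNn u (Subgroup.mem_inf.1 hu).1 x hx
        calc u ^ (n + 1) * x * (u ^ (n + 1))⁻¹ = u ^ n * (u * x * u⁻¹) * (u ^ n)⁻¹ := by
              rw [pow_succ]; group
          _ = w ^ n * (u * x * u⁻¹) * (w ^ n)⁻¹ := ih _ h2
          _ = w ^ n * (w * x * w⁻¹) * (w ^ n)⁻¹ := by rw [huw x hx]
          _ = w ^ (n + 1) * x * (w ^ (n + 1))⁻¹ := by rw [pow_succ]; group
    have h3 : u ^ p ^ k ∈ cz (B ⊓ N) := by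
      rw [mem_centralizer]
      intro x hx
      rw [h1 _ x hx, hk']; group
    have h4 : u ∈ cz (B ⊓ N) := by
      refine Cfsg.Agent.Lib.ClsStab.mem_of_pow_coprime (m := p ^ k) (n := orderOf u)
        (Nat.Coprime.pow_right k huo).symm h3 ?_
      rw [pow_orderOf_eq_one]; exact one_mem _
    rw [mem_centralizer]
    intro b hb
    have h5 : u * b * u⁻¹ * b⁻¹ ∈ B ⊓ N := by
      refine Subgroup.mem_inf.2 ⟨mul_mem (hBn u (Subgroup.mem_inf.1 hu).1 b hb) (inv_mem hb), ?_⟩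
      have e : u * b * u⁻¹ * b⁻¹ = u * (b * u⁻¹ * b⁻¹) := by group
      rw [e]
      exact mul_mem (Subgroup.mem_inf.1 hu).2 (hN.conj_mem _ (inv_mem (Subgroup.mem_inf.1 hu).2) b)
    exact fix_of_fix hBp huo (Subgroup.mem_inf.1 h5).1 (mem_centralizer.1 h4 _ h5)
  -- the case `W ≤ B`
  by_cases hWB : W ≤ B
  · obtain ⟨m, hm, hc⟩ := hact g hg
    have h1 : m⁻¹ * g ∈ nz W := centralizer_le_normalizer W
      (Subgroup.centralizer_le (le_inf hWB hWN) hc)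
    refine ⟨g, ?_, 1, one_mem _, by group⟩
    have e : g = m * (m⁻¹ * g) := by group
    rw [e]; exact mul_mem hm h1
  -- `D = U B`
  set D := U ⊔ B with hD
  have hBU : B ≤ nz U := Subgroup.le_normalizer.trans hUN
  have hDB : D ≤ nz B := sup_le hUB Subgroup.le_normalizer
  have hDn : nz B ≤ nz D := by
    intro x hx
    have h1 : cj x U = U := mem_normalizer.1 (hUN hx)
    have h2 : cj x B = B := mem_normalizer.1 hx
    change x ∈ Subgroup.normalizer ((D : Subgroup G) : Set G)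
    rw [mem_normalizer, hD, cj_sup, h1, h2]
  have hDmem : ∀ d ∈ D, ∃ b ∈ B, ∃ u ∈ U, b * u = d := by
    intro d hd
    rw [hD, sup_comm] at hd
    exact (Cfsg.Agent.Lib.CFMin.mem_sup_of_le_nz hBU).1 hd
  have hDp : ∀ d ∈ D, (orderOf d).Coprime p → d ∈ cz B := by
    intro d hd hdo
    -- `d ∈ U`
    have h1 : ∃ k : ℕ, d ^ p ^ k ∈ U := by
      let DU := U.subgroupOf D
      have hDUn : DU.Normal := (Subgroup.normal_subgroupOf_iff_le_normalizer (le_sup_left : U ≤ D)).2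
        (hDB.trans hUN)
      obtain ⟨b, hb, u, hu, hbu⟩ := hDmem d hd
      obtain ⟨k, hk⟩ := hBp ⟨b, hb⟩
      have hk' : b ^ p ^ k = 1 := congrArg Subtype.val hk
      refine ⟨k, ?_⟩
      have hbD : b ∈ D := Subgroup.mem_sup_right hb
      have huD : u ∈ D := Subgroup.mem_sup_left hu
      have h2 : (QuotientGroup.mk' DU ⟨d, hd⟩) ^ p ^ k = 1 := by
        have e : (⟨d, hd⟩ : ↥D) = ⟨b, hbD⟩ * ⟨u, huD⟩ := Subtype.ext hbu.symm
        have e2 : QuotientGroup.mk' DU ⟨u, huD⟩ = 1 := (QuotientGroup.eq_one_iff _).2 hu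
        rw [e, map_mul, e2, mul_one, ← map_pow]
        have e3 : (⟨b, hbD⟩ : ↥D) ^ p ^ k = 1 := Subtype.ext hk'
        rw [e3, map_one]
      rw [← map_pow] at h2
      have h3 : (⟨d, hd⟩ : ↥D) ^ p ^ k ∈ DU := (QuotientGroup.eq_one_iff _).1 h2
      exact h3
    obtain ⟨k, hk⟩ := h1
    have h2 : d ∈ U := by
      refine Cfsg.Agent.Lib.ClsStab.mem_of_pow_coprime (m := p ^ k) (n := orderOf d)
        (Nat.Coprime.pow_right k hdo).symm hk ?_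
      rw [pow_orderOf_eq_one]; exact one_mem _
    exact hUp d h2 hdo
  have hsylD : SylIn p (P ⊓ D) D := by
    have h1 : SylIn p ((P ⊓ nz B) ⊓ D) D := hB.inf_normal hDB hDn
    have h2 : (P ⊓ nz B) ⊓ D = P ⊓ D := by
      rw [inf_assoc, inf_eq_right.2 hDB]
    rwa [h2] at h1
  have hBT : B < P ⊓ D := by
    refine lt_of_le_of_ne (le_inf hBP le_sup_right) ?_
    intro heq
    -- `N_W(B) ≤ B`
    have h1 : W ⊓ nz B ≤ B := by
      intro w hw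
      obtain ⟨hwW, hwB⟩ := Subgroup.mem_inf.1 hw
      rw [heq]
      refine Subgroup.mem_inf.2 ⟨hWP hwW, Subgroup.mem_sup_left ?_⟩
      exact ⟨Subgroup.mem_inf.2 ⟨hwB, hWN hwW⟩, w, hwW, fun x _ => rfl⟩
    apply hWB
    -- normalizers grow in `B W`
    by_contra hnot
    have hBnW : B ≤ nz W := hBP.trans hPW
    have hsup : B < B ⊔ W := lt_of_le_of_ne le_sup_left (fun h => hnot (h ▸ le_sup_right))
    have hsupP : B ⊔ W ≤ P := sup_le hBP hWP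
    have hnil : Group.IsNilpotent ↥(B ⊔ W) := (hP.isPGroup.to_le hsupP).isNilpotent
    have h2 : B.subgroupOf (B ⊔ W) < ⊤ := by
      rw [lt_top_iff_ne_top, Ne, Subgroup.subgroupOf_eq_top]
      exact hsup.not_ge
    have h3 := Group.normalizerCondition_of_isNilpotent (G := ↥(B ⊔ W)) _ h2
    obtain ⟨y, hy, hyB⟩ := SetLike.exists_of_lt h3
    have hyB' : (y : G) ∉ B := hyB
    have hynz : (y : G) ∈ nz B := by
      rw [Subgroup.mem_normalizer_iff] at hy ⊢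
      intro x
      constructor
      · intro hx
        exact (hy ⟨x, Subgroup.mem_sup_left hx⟩).1 hx
      · intro hx
        have hxS : x ∈ B ⊔ W := by
          have h5 := mul_mem (mul_mem (inv_mem y.2) (Subgroup.mem_sup_left (T := W) hx)) y.2
          have e : (y : G)⁻¹ * ((y : G) * x * (y : G)⁻¹) * y = x := by group
          rwa [e] at h5
        exact (hy ⟨x, hxS⟩).2 hx
    obtain ⟨b, hb, w, hw, hbw⟩ := (Cfsg.Agent.Lib.CFMin.mem_sup_of_le_nz hBnW).1 y.2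
    apply hyB'
    rw [← hbw]
    refine mul_mem hb (h1 (Subgroup.mem_inf.2 ⟨hw, ?_⟩))
    have e : w = b⁻¹ * y := by rw [← hbw]; group
    rw [e]
    exact mul_mem (inv_mem (Subgroup.le_normalizer hb)) hynz
  -- Frattini
  obtain ⟨d, hd, y, hy, rfl⟩ := frattini hsylD hDB hDn hg
  obtain ⟨hyB, hyT⟩ := Subgroup.mem_inf.1 hy
  -- `d = c t`
  have hle : D ≤ (D ⊓ cz B) ⊔ (P ⊓ D) := by
    refine Cfsg.Agent.Lib.CFRed.le_sup_of_pprime hsylD inf_le_left ?_ ?_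
    · refine hDB.trans ?_
      intro x hx
      change x ∈ Subgroup.normalizer ((D ⊓ cz B : Subgroup G) : Set G)
      rw [mem_normalizer, cj_inf, mem_normalizer.1 (hDn hx), cj_centralizer, mem_normalizer.1 hx]
    · intro d hd hdo
      exact Subgroup.mem_inf.2 ⟨hd, hDp d hd hdo⟩
  have hnorm : D ⊓ cz B ≤ D := inf_le_left
  have hTn : P ⊓ D ≤ nz (D ⊓ cz B) := by
    refine (inf_le_right.trans hDB).trans ?_
    intro x hx
    change x ∈ Subgroup.normalizer ((D ⊓ cz B : Subgroup G) : Set G)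
    rw [mem_normalizer, cj_inf, mem_normalizer.1 (hDn hx), cj_centralizer, mem_normalizer.1 hx]
  have hd' := hle hd
  rw [sup_comm] at hd'
  obtain ⟨t, ht, c, hc, rfl⟩ := (Cfsg.Agent.Lib.CFMin.mem_sup_of_le_nz hTn).1 hd'
  have htB : t ∈ nz B := hDB (Subgroup.mem_inf.1 ht).2
  -- apply the induction hypothesis to `t y`
  have hty : t * y ∈ nz (P ⊓ D) := mul_mem (Subgroup.le_normalizer ht) hyT
  obtain ⟨-, -, m, hm, c', hc', hmc⟩ := IH (P ⊓ D) inf_le_left (card_lt_of_lt hBT) (t * y) (by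
    have : cj (t * y) (P ⊓ D) = P ⊓ D := mem_normalizer.1 hty
    rw [this]; exact inf_le_left)
  have hc'B : c' ∈ cz B := Subgroup.centralizer_le hBT.le hc'
  refine ⟨m, hm, c' * (y⁻¹ * c * y), mul_mem hc'B ?_, ?_⟩
  · have h1 : cj y⁻¹ (cz B) = cz B := by
      rw [cj_centralizer, mem_normalizer.1 (inv_mem hyB)]
    rw [← h1, mem_cj]
    have e : y⁻¹⁻¹ * (y⁻¹ * c * y) * y⁻¹ = c := by group
    rw [e]; exact (Subgroup.mem_inf.1 hc).2
  · calc t * c * y = (t * y) * (y⁻¹ * c * y) := by group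
      _ = m * c' * (y⁻¹ * c * y) := by rw [hmc]
      _ = m * (c' * (y⁻¹ * c * y)) := by group

/-- Let N be a normal subgroup of the finite group G, P a Sylow p-subgroup of G, and V a subgroup of P ∩ N normal in P ∩ N such that N_N(V) controls strong fusion in P ∩ N with respect to N (whenever a subgroup A of P ∩ N has n A n⁻¹ ≤ P ∩ N for some n in N, then n = h c with h in N_N(V) and c in C_N(A)). Let W be the subgroup generated by the conjugates of V under N_G(P ∩ N). Then N_G(W) controls strong fusion in P with respect to G. -/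
theorem result {G : Type*} [Group G] [Finite G] {p : ℕ} [Fact p.Prime] (N : Subgroup G) [N.Normal] (P : Sylow p G) (V : Subgroup G)
    (hV : V ≤ (P : Subgroup G) ⊓ N) (hVn : ∀ x ∈ (P : Subgroup G) ⊓ N, V.map (MulAut.conj x).toMonoidHom = V)
    (hctrl : ∀ A : Subgroup G, A ≤ (P : Subgroup G) ⊓ N → ∀ n ∈ N, A.map (MulAut.conj n).toMonoidHom ≤ (P : Subgroup G) ⊓ N →
      ∃ h ∈ N ⊓ Subgroup.normalizer (V : Set G), ∃ c ∈ N ⊓ Subgroup.centralizer (A : Set G), n = h * c)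
    (W : Subgroup G) (hW : W = Subgroup.closure (⋃ x ∈ Subgroup.normalizer (((P : Subgroup G) ⊓ N : Subgroup G) : Set G),
      ((V.map (MulAut.conj x).toMonoidHom : Subgroup G) : Set G))) :
    ∀ A : Subgroup G, A ≤ (P : Subgroup G) → ∀ g : G, A.map (MulAut.conj g).toMonoidHom ≤ (P : Subgroup G) →
        ∃ h ∈ Subgroup.normalizer (W : Set G), ∃ c ∈ Subgroup.centralizer (A : Set G), g = h * c := by
  have hP := sylIn_sylow P
  have h1 : Ctl N ((P : Subgroup G) ⊓ N) V := ⟨hV, fun A hA n hn hAn => hctrl A hA n hn hAn⟩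
  have hsub : ∀ x ∈ nz ((P : Subgroup G) ⊓ N), cj x V ≤ W := by
    intro x hx
    rw [hW]
    intro y hy
    apply Subgroup.subset_closure
    simp only [Set.mem_iUnion]
    exact ⟨x, hx, hy⟩
  have h2 : Ctl N ((P : Subgroup G) ⊓ N) W := Ctl.closure inferInstance h1 hsub hW
  have hWL : nz ((P : Subgroup G) ⊓ N) ≤ nz W := by
    rw [le_normalizer_iff]
    intro x hx y hy
    have h3 : W ≤ cj x⁻¹ W := by
      conv_lhs => rw [hW]
      rw [Subgroup.closure_le]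
      intro z hz
      simp only [Set.mem_iUnion] at hz
      obtain ⟨u, hu, hz⟩ := hz
      rw [SetLike.mem_coe, mem_cj, inv_inv]
      have h4 : x * z * x⁻¹ ∈ cj (x * u) V := by
        rw [← cj_cj]; exact conj_mem_cj hz
      exact hsub (x * u) (mul_mem hx hu) h4
    have := h3 hy
    rwa [mem_cj, inv_inv] at this
  intro A hA g hg
  obtain ⟨-, -, m, hm, c, hc, h5⟩ := main inferInstance hP h2 hWL A hA g hg
  exact ⟨m, hm, c, hc, h5⟩

end Cfsg.Agent.S1954
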