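import Cfsg.Statements.S1956
import Cfsg.Agent.Lib.CFControl
import Cfsg.Agent.Lib.CFCore

set_option autoImplicit false
open Cfsg

namespace Cfsg.Agent.S1956

open Cfsg.Agent.Lib.CFSylow Cfsg.Agent.Lib.CFFusion Cfsg.Agent.Lib.CFControl Cfsg.Agent.Lib.CFCore

/-- Let P be a Sylow p-subgroup of the finite group G such that every element of P of order dividing p (dividing 4 when p = 2) is central in P. Then the fusion of these elements is controlled by N_G(P): if such an element a of P has g a g⁻¹ in P, then g = n c with n normalizing P and c commuting with a. -/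
theorem result {G : Type*} [Group G] [Finite G] {p : ℕ} [Fact p.Prime] (P : Sylow p G)
    (hcen : ∀ a ∈ (P : Subgroup G), (a ^ p = 1 ∨ (p = 2 ∧ a ^ 4 = 1)) → ∀ y ∈ (P : Subgroup G), a * y = y * a) :
    ∀ a ∈ (P : Subgroup G), (a ^ p = 1 ∨ (p = 2 ∧ a ^ 4 = 1)) → ∀ g : G, g * a * g⁻¹ ∈ (P : Subgroup G) →
      ∃ n ∈ Subgroup.normalizer ((P : Subgroup G) : Set G), ∃ c : G, c * a = a * c ∧ g = n * c := by
  intro a ha hpow g hga
  have hpow' : ((g * a * g⁻¹) ^ p = 1 ∨ (p = 2 ∧ (g * a * g⁻¹) ^ 4 = 1)) := by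
    rcases hpow with h | ⟨h2, h⟩
    · left; rw [conj_pow, h]; simp
    · right; exact ⟨h2, by rw [conj_pow, h]; simp⟩
  have h1 : ∀ y ∈ (P : Subgroup G), a * y = y * a := hcen a ha hpow
  have h2 : ∀ y ∈ (P : Subgroup G), (g * a * g⁻¹) * y = y * (g * a * g⁻¹) := hcen _ hga hpow'
  set C : Subgroup G := Subgroup.centralizer ({g * a * g⁻¹} : Set G) with hC
  have hPC : (P : Subgroup G) ≤ C := by
    intro y hy
    rw [hC, Subgroup.mem_centralizer_singleton_iff]
    exact (h2 y hy).symm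
  have hPC' : cj g (P : Subgroup G) ≤ C := by
    rintro _ ⟨y, hy, rfl⟩
    rw [hC, Subgroup.mem_centralizer_singleton_iff]
    have := h1 y hy
    simp only [MulEquiv.coe_toMonoidHom, MulAut.conj_apply]
    calc g * y * g⁻¹ * (g * a * g⁻¹) = g * (y * a) * g⁻¹ := by group
      _ = g * (a * y) * g⁻¹ := by rw [this]
      _ = _ := by group
  have s1 : SylIn p (P : Subgroup G) C := sylIn_sylow_of_le P hPC
  have s2 : SylIn p (cj g (P : Subgroup G)) C := by
    refine SylIn.of_le ?_ hPC' le_top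
    have := (sylIn_sylow P).conj g
    rwa [cj_top] at this
  obtain ⟨c, hc, hc'⟩ := s2.exists_conj_eq s1
  rw [cj_cj] at hc'
  have hn : c * g ∈ Subgroup.normalizer ((P : Subgroup G) : Set G) := mem_normalizer.2 hc'
  rw [hC, Subgroup.mem_centralizer_singleton_iff] at hc
  refine ⟨c * g, hn, (c * g)⁻¹ * g, ?_, by group⟩
  have e : c⁻¹ * (g * a * g⁻¹) = (g * a * g⁻¹) * c⁻¹ := (Commute.inv_left (show Commute c _ from hc)).eq
  calc (c * g)⁻¹ * g * a = g⁻¹ * (c⁻¹ * (g * a * g⁻¹)) * g := by group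
    _ = g⁻¹ * ((g * a * g⁻¹) * c⁻¹) * g := by rw [e]
    _ = a * ((c * g)⁻¹ * g) := by group

end Cfsg.Agent.S1956
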