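import Cfsg.Statements.S1993
import Cfsg.Agent.Lib.KInf6

set_option autoImplicit false
universe u
open Cfsg

namespace Cfsg.Agent.S1993

open Cfsg.Agent.Lib.CFSylow Cfsg.Agent.Lib.CFFusion Cfsg.Agent.Lib.CFControl
  Cfsg.Agent.Lib.CFSection Cfsg.Agent.Lib.CFStmt Cfsg.Agent.Lib.KInf6

/-- Let p be a prime, G a finite group with Sylow p-subgroup S, and K the upper K-infinity subgroup of S. If p ≥ 5 then S ∩ G' = S ∩ (N_G(K))'; and if p is odd and every section of G is p-stable in the normalizer form, then K controls strong fusion in G. -/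
theorem result {G : Type u} [Group G] [Finite G] {p : ℕ} [Fact p.Prime] (S : Sylow p G) : (5 ≤ p → (S : Subgroup G) ⊓ commutator G = (S : Subgroup G) ⊓ ⁅Subgroup.normalizer ((Cfsg.inducedFunctor Cfsg.kInfUpper (S : Subgroup G) : Subgroup G) : Set G), Subgroup.normalizer ((Cfsg.inducedFunctor Cfsg.kInfUpper (S : Subgroup G) : Subgroup G) : Set G)⁆) ∧ (p ≠ 2 → (∀ (K R : Subgroup G) [hR : (R.subgroupOf K).Normal], Cfsg.IsNormalizerPStable p (↥K ⧸ R.subgroupOf K)) → Cfsg.ControlsStrongFusion p (Cfsg.inducedFunctor Cfsg.kInfUpper (S : Subgroup G))) := by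
  have hW := kLike_upper.{u} p
  refine ⟨fun hp => ?_, fun _ hst => ?_⟩
  · have h1 := tr_kinf (G := G) hp hW G (isSec_refl G) S (sylIn_sylow S)
    rw [foc_singleton] at h1
    have e : commutator G = ⁅(⊤ : Subgroup G), ⊤⁆ := rfl
    refine le_antisymm ?_ ?_
    · rw [e]; exact h1
    · rw [e]; exact inf_le_inf_left _ (Subgroup.commutator_mono le_top le_top)
  · exact controlsStrongFusion_of_ctrlSF hW.1 (sf_kinf hW (stable_sections hst) G (isSec_refl G)) S

end Cfsg.Agent.S1993
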