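import Cfsg.Statements.S2001
import Cfsg.Agent.Lib.CFMin

set_option autoImplicit false
open Cfsg

namespace Cfsg.Agent.S2001

open Cfsg.Agent.Lib.CFSylow Cfsg.Agent.Lib.CFFusion Cfsg.Agent.Lib.CFControl
  Cfsg.Agent.Lib.CFLocal Cfsg.Agent.Lib.CFMin

/-- Let p be a prime dividing the order of the finite group G, P a Sylow p-subgroup, W a conjugacy functor for p on G with Z(H) ≤ W(H) for every nontrivial p-subgroup H, and V a central functor: a conjugacy functor with V(H) ≤ Z(H), and V(H) ≤ V(K) whenever Z(H) ≤ Z(K), for nontrivial p-subgroups H, K. Say that W with V controls transfer in a subgroup L when some Sylow p-subgroup Q of L satisfies Q ∩ L' = (Q ∩ (N_L(W(Q)))')·(Q ∩ (C_L(V(Q)))') as a product of two subgroups. If W with V controls transfer in N_G(H) for every subgroup H with Z(P) ≤ H ≤ P, then W with V controls transfer in G. -/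
theorem result {G : Type*} [Group G] [Finite G] {p : ℕ} [Fact p.Prime] (hdiv : p ∣ Nat.card G) (P : Sylow p G) (W V : Subgroup G → Subgroup G) (hW : Cfsg.IsConjugacyFunctor p W) (hV : Cfsg.IsConjugacyFunctor p V) (hWZ : ∀ H : Subgroup G, IsPGroup p ↥H → H ⊓ Subgroup.centralizer ((H : Subgroup G) : Set G) ≤ W H) (hVZ : ∀ H : Subgroup G, IsPGroup p ↥H → V H ≤ H ⊓ Subgroup.centralizer ((H : Subgroup G) : Set G)) (hVmono : ∀ H K : Subgroup G, IsPGroup p ↥H → IsPGroup p ↥K → H ≠ ⊥ → K ≠ ⊥ → H ⊓ Subgroup.centralizer ((H : Subgroup G) : Set G) ≤ K ⊓ Subgroup.centralizer ((K : Subgroup G) : Set G) → V H ≤ V K) (hloc : ∀ H : Subgroup G, (P : Subgroup G) ⊓ Subgroup.centralizer (((P : Subgroup G) : Subgroup G) : Set G) ≤ H → H ≤ (P : Subgroup G) → ∃ Q : Subgroup G, Q ≤ Subgroup.normalizer ((H : Subgroup G) : Set G) ∧ IsPGroup p ↥Q ∧ ¬ p ∣ (Q).relIndex (Subgroup.normalizer ((H : Subgroup G) : Set G)) ∧ ∀ x : G, x ∈ Q ⊓ ⁅Subgroup.normalizer ((H : Subgroup G) : Set G), Subgroup.normalizer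 ((H : Subgroup G) : Set G)⁆ ↔ ∃ a ∈ Q ⊓ ⁅Subgroup.normalizer ((H : Subgroup G) : Set G) ⊓ Subgroup.normalizer ((W Q : Subgroup G) : Set G), Subgroup.normalizer ((H : Subgroup G) : Set G) ⊓ Subgroup.normalizer ((W Q : Subgroup G) : Set G)⁆, ∃ b ∈ Q ⊓ ⁅Subgroup.normalizer ((H : Subgroup G) : Set G) ⊓ Subgroup.centralizer ((V Q : Subgroup G) : Set G), Subgroup.normalizer ((H : Subgroup G) : Set G) ⊓ Subgroup.centralizer ((V Q : Subgroup G) : Set G)⁆, x = a * b) : ∃ Q : Subgroup G, IsPGroup p ↥Q ∧ ¬ p ∣ Q.index ∧ ∀ x : G, x ∈ Q ⊓ commutator G ↔ ∃ a ∈ Q ⊓ ⁅Subgroup.normalizer ((W Q : Subgroup G) : Set G), Subgroup.normalizer ((W Q : Subgroup G) : Set G)⁆, ∃ b ∈ Q ⊓ ⁅Subgroup.centralizer ((V Q : Subgroup G) : Set G), Subgroup.centralizer ((V Q : Subgroup G) : Set G)⁆, x = a * b := by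
  have hP := sylIn_sylow P
  have hPp := hP.isPGroup
  set S : Subgroup G := (P : Subgroup G) with hSdef
  set Z : Subgroup G := S ⊓ Subgroup.centralizer (S : Set G) with hZ
  have hSne : S ≠ ⊥ := by
    intro h
    have h1 := hP.not_dvd
    rw [h, Subgroup.relIndex_bot_left, Subgroup.card_top] at h1
    exact h1 hdiv
  have hZne : Z ≠ ⊥ := by
    have hnt : Nontrivial ↥S := (Subgroup.nontrivial_iff_ne_bot S).2 hSne
    have h1 : Nontrivial (Subgroup.center ↥S) := hPp.center_nontrivial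
    obtain ⟨z, hz⟩ := exists_ne (1 : Subgroup.center ↥S)
    intro h
    apply hz
    have h2 : ((z : ↥S) : G) ∈ Z := by
      refine Subgroup.mem_inf.2 ⟨z.1.2, ?_⟩
      rw [mem_centralizer]
      intro s hs
      have := (Subgroup.mem_center_iff.1 z.2) ⟨s, hs⟩
      have h3 : s * (z : ↥S) = (z : ↥S) * s := congrArg Subtype.val this
      rw [← h3]; group
    rw [h, Subgroup.mem_bot] at h2
    exact Subtype.ext (Subtype.ext h2)
  have hZc : Z ≤ Subgroup.centralizer (S : Set G) := inf_le_right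
  have hWS : S ≤ nz (W S) := le_nz_functor hW hPp
  have hVS : S ≤ Subgroup.centralizer ((V S : Subgroup G) : Set G) := by
    rw [Subgroup.le_centralizer_iff]
    exact (hVZ S hPp).trans inf_le_right
  set F₁ : Subgroup G := S ⊓ ⁅nz (W S), nz (W S)⁆ with hF₁
  set F₂ : Subgroup G := S ⊓ ⁅Subgroup.centralizer ((V S : Subgroup G) : Set G),
    Subgroup.centralizer ((V S : Subgroup G) : Set G)⁆ with hF₂
  set F := F₁ ⊔ F₂ with hF
  have hPF : ⁅S, S⁆ ≤ F :=
    le_trans (le_inf (Subgroup.commutator_le_self S) (Subgroup.commutator_mono hWS hWS)) le_sup_left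
  have hSF₂ : S ≤ nz F₂ := by
    rw [le_normalizer_iff]
    rintro a ha b ⟨hb, hb'⟩
    refine Subgroup.mem_inf.2 ⟨mul_mem (mul_mem ha hb) (inv_mem ha), ?_⟩
    have h1 : a * b * a⁻¹ ∈ cj a ⁅Subgroup.centralizer ((V S : Subgroup G) : Set G),
      Subgroup.centralizer ((V S : Subgroup G) : Set G)⁆ := conj_mem_cj hb'
    rwa [cj_commutator, mem_normalizer.1 (Subgroup.le_normalizer (hVS ha))] at h1
  -- local control for every Sylow subgroup
  have hlocal : ∀ H : Subgroup G, Z ≤ H → H ≤ S → SylIn p (S ⊓ nz H) (nz H) →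
      ∀ x ∈ (S ⊓ nz H) ⊓ ⁅nz H, nz H⁆,
        ∃ a ∈ (S ⊓ nz H) ⊓ ⁅nz (W (S ⊓ nz H)), nz (W (S ⊓ nz H))⁆,
        ∃ b ∈ (S ⊓ nz H) ⊓ ⁅Subgroup.centralizer ((V (S ⊓ nz H) : Subgroup G) : Set G),
          Subgroup.centralizer ((V (S ⊓ nz H) : Subgroup G) : Set G)⁆, x = a * b := by
    intro H hZH hHS hT x hx
    obtain ⟨Q, hQ1, hQ2, hQ3, hQ4⟩ := hloc H hZH hHS
    have hQ : SylIn p Q (nz H) := ⟨hQ1, hQ2, hQ3⟩
    obtain ⟨y, hy, hyQ⟩ := hQ.exists_conj_eq hT
    rw [← hyQ] at hx ⊢
    have hyH : cj y (nz H) = nz H := mem_normalizer.1 (Subgroup.le_normalizer hy)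
    have hx1 : y⁻¹ * x * y ∈ Q ⊓ ⁅nz H, nz H⁆ := by
      refine Subgroup.mem_inf.2 ⟨mem_cj.1 (Subgroup.mem_inf.1 hx).1, ?_⟩
      rw [← mem_cj, cj_commutator, hyH]
      exact (Subgroup.mem_inf.1 hx).2
    obtain ⟨a, ha, b, hb, hab⟩ := (hQ4 _).1 hx1
    refine ⟨y * a * y⁻¹, ?_, y * b * y⁻¹, ?_, ?_⟩
    · rw [functor_cj hW hQ2, ← cj_nz, ← cj_commutator, ← cj_inf, conj_mem_cj_iff]
      exact (inf_le_inf_left _ (Subgroup.commutator_mono inf_le_right inf_le_right)) ha
    · rw [functor_cj hV hQ2, ← cj_centralizer, ← cj_commutator, ← cj_inf, conj_mem_cj_iff]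
      exact (inf_le_inf_left _ (Subgroup.commutator_mono inf_le_right inf_le_right)) hb
    · calc x = y * (y⁻¹ * x * y) * y⁻¹ := by group
        _ = _ := by rw [hab]; group
  -- the `V` part
  have hVpart : ∀ R : Subgroup G, Z ≤ R → R ≤ S →
      R ⊓ ⁅Subgroup.centralizer ((V R : Subgroup G) : Set G),
        Subgroup.centralizer ((V R : Subgroup G) : Set G)⁆ ≤ F := by
    intro R hZR hRS
    have hRp := hPp.to_le hRS
    have hRne : R ≠ ⊥ := by
      rintro rfl; exact hZne (le_bot_iff.1 hZR)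
    have h1 : V S ≤ V R := hVmono S R hPp hRp hSne hRne
      (le_inf hZR (hZc.trans (Subgroup.centralizer_le hRS)))
    have h2 : Subgroup.centralizer ((V R : Subgroup G) : Set G) ≤
      Subgroup.centralizer ((V S : Subgroup G) : Set G) := Subgroup.centralizer_le h1
    exact (inf_le_inf hRS (Subgroup.commutator_mono h2 h2)).trans le_sup_right
  -- `Cen R`
  let Cen : Subgroup G → Prop := fun R => ∀ x : G, cj x R ≤ S → Z ≤ cj x R
  have hCenmono : ∀ R R' : Subgroup G, Cen R → R ≤ R' → Cen R' := fun R R' h hle x hx =>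
    (h x ((cj_mono hle).trans hx)).trans (cj_mono hle)
  have hCencj : ∀ (R : Subgroup G) (a : G), Cen R → Cen (cj a R) := by
    intro R a h x hx
    rw [cj_cj] at hx ⊢
    exact h _ hx
  -- going up
  have hup : ∀ B : Subgroup G, (∀ B' : Subgroup G, B' ≤ S → Nat.card B < Nat.card B' →
        ∀ g : G, cj g B' ≤ S → TrΦ S F B' g) →
      ∀ (n : ℕ) (R : Subgroup G), R ≤ S → Cen R → Nat.card B ≤ Nat.card R →
        Nat.card S - Nat.card R = n → R ⊓ ⁅nz (W R), nz (W R)⁆ ≤ F := by
    intro B IH n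
    induction n using Nat.strong_induction_on with
    | _ n ih =>
      intro R hR hCen hBR hn
      have hRp : IsPGroup p R := hPp.to_le hR
      rcases eq_or_lt_of_le hR with hReq | hlt
      · rw [hReq]; exact le_sup_left
      · obtain ⟨a, ha, ha'⟩ := exists_fully_normalized hP (W R)
        have hRle : R ≤ S ⊓ nz (W R) := le_inf hR (le_nz_functor hW hRp)
        have hlt2 : Nat.card R < Nat.card ↥(S ⊓ nz (W R)) :=
          card_lt_of_lt ((lt_inf_normalizer hPp hlt).trans_le
            (inf_le_inf_left _ (nz_le_nz_functor hW hRp)))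
        have hUS : cj a (W R) ≤ S := (cj_mono ((functor_le hW hRp).trans hRle)).trans ha
        have hΦa : TrΦ S F (S ⊓ nz (W R)) a := IH _ inf_le_left (by omega) a ha
        have hR' : cj a (S ⊓ nz (W R)) ≤ S ⊓ nz (cj a (W R)) := by
          refine le_inf ha ?_
          rw [← cj_nz]; exact cj_mono inf_le_right
        have hcardlt : Nat.card R < Nat.card ↥(S ⊓ nz (cj a (W R))) := by
          calc Nat.card R < Nat.card ↥(S ⊓ nz (W R)) := hlt2
            _ = Nat.card ↥(cj a (S ⊓ nz (W R))) := (card_cj _ _).symm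
            _ ≤ _ := card_le_of_le hR'
        -- `Z ≤ cj a (W R)`
        have hZR : Z ≤ cj a R := hCen a ((cj_mono hRle).trans ha)
        have haR : cj a R ≤ S := (cj_mono hRle).trans ha
        have hZU : Z ≤ cj a (W R) := by
          rw [← functor_cj hW hRp]
          exact (le_inf hZR (hZc.trans (Subgroup.centralizer_le haR))).trans
            (hWZ _ (isPGroup_cj hRp))
        have hCen' : Cen (S ⊓ nz (cj a (W R))) :=
          hCenmono _ _ (hCencj R a hCen) ((cj_mono hRle).trans hR')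
        have hle : (S ⊓ nz (cj a (W R))) ⊓ ⁅nz (cj a (W R)), nz (cj a (W R))⁆ ≤ F := by
          intro x hx
          obtain ⟨u, hu, v, hv, rfl⟩ := hlocal _ hZU hUS ha' x hx
          refine mul_mem ?_ ?_
          · have hSR := card_le_of_le (show S ⊓ nz (cj a (W R)) ≤ S from inf_le_left)
            exact ih _ (by omega) _ inf_le_left hCen' (by omega) rfl hu
          · exact hVpart _ (hZU.trans (le_inf hUS Subgroup.le_normalizer)) inf_le_left hv
        rintro y ⟨hyR, hyc⟩
        have h1 : a * y * a⁻¹ ∈ F := by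
          apply hle
          refine Subgroup.mem_inf.2 ⟨hR' (conj_mem_cj (hRle hyR)), ?_⟩
          have h5 : a * y * a⁻¹ ∈ cj a ⁅nz (W R), nz (W R)⁆ := conj_mem_cj hyc
          rwa [cj_commutator, cj_nz] at h5
        have h2 := hΦa.2.2 y (hRle hyR)
        have h3 : y = (a * y * a⁻¹ * y⁻¹)⁻¹ * (a * y * a⁻¹) := by group
        rw [h3]; exact mul_mem (inv_mem h2) h1
  -- main induction
  have hmain : S ⊓ ⁅(⊤ : Subgroup G), ⊤⁆ ≤ F := by
    apply focal_of_tr hP
    have hΦ := isFus_tr S F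
    refine hΦ.induction_fn hP ⊥ bot_le ?_
    intro B hBS hBn _ IH g hg
    have hcB : ∀ b ∈ B, b ∈ nz B ∧ TrΦ S F B b := by
      intro b hb
      refine ⟨Subgroup.le_normalizer hb, hBS, ?_, fun x hx => hPF ?_⟩
      · rw [mem_normalizer.1 (Subgroup.le_normalizer hb)]; exact hBS
      · exact Subgroup.commutator_mem_commutator (hBS hb) (hBS hx)
    by_cases hcase : S ⊓ cz B ≤ B
    · -- centric case
      have hZB : Z ≤ B := by
        refine le_trans (le_inf inf_le_left ?_) hcase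
        exact hZc.trans (Subgroup.centralizer_le hBS)
      have hCen : Cen B := by
        intro x hx
        have hsyl : SylIn p (S ⊓ nz B ⊓ cz B) (cz B) := hBn.inf_normal (centralizer_le_normalizer B)
          (by
            intro m hm
            rw [mem_normalizer] at hm ⊢
            rw [cj_centralizer, hm])
        have h1 : cj x⁻¹ (S ⊓ cz (cj x B)) ≤ cz B := by
          rw [← le_cj_iff, cj_centralizer]; exact inf_le_right
        have h2 := hsyl.card_le (isPGroup_cj (g := x⁻¹) (hPp.to_le (inf_le_left :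
          S ⊓ cz (cj x B) ≤ S))) h1
        rw [card_cj] at h2
        have h3 : cj x (B ⊓ cz B) ≤ S ⊓ cz (cj x B) := by
          rw [cj_inf, cj_centralizer]
          exact inf_le_inf_right _ hx
        have h4 : S ⊓ nz B ⊓ cz B ≤ B ⊓ cz B := by
          refine le_inf ?_ inf_le_right
          exact (inf_le_inf_right _ inf_le_left).trans hcase
        have h5 : cj x (B ⊓ cz B) = S ⊓ cz (cj x B) := by
          refine eq_of_le_of_card_le h3 ?_
          rw [card_cj]
          exact h2.trans (card_le_of_le h4)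
        have h6 : Z ≤ S ⊓ cz (cj x B) := le_inf inf_le_left (hZc.trans (Subgroup.centralizer_le hx))
        rw [← h5] at h6
        exact h6.trans (cj_mono inf_le_left)
      refine ⟨hBS, by rw [mem_normalizer.1 hg]; exact hBS, fun x hx => ?_⟩
      obtain ⟨u, hu, v, hv, huv⟩ := hlocal B hZB hBS hBn _ (conj_comm_mem hx hg hBS)
      have hBT : B ≤ S ⊓ nz B := le_inf hBS Subgroup.le_normalizer
      rw [huv]
      refine mul_mem ?_ ?_
      · exact hup B IH _ (S ⊓ nz B) inf_le_left (hCenmono _ _ hCen hBT) (card_le_of_le hBT) rfl hu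
      · exact hVpart _ (hZB.trans hBT) inf_le_left hv
    · -- not centric
      have hDle : B ⊔ cz B ≤ nz B := sup_le Subgroup.le_normalizer (centralizer_le_normalizer B)
      have hDn : nz B ≤ nz (B ⊔ cz B) := by
        intro m hm
        rw [mem_normalizer] at hm ⊢
        rw [cj_sup, cj_centralizer, hm]
      have hsyl := hBn.inf_normal hDle hDn
      obtain ⟨l, hl, m, hm, rfl⟩ := frattini hsyl hDle hDn hg
      have hmB : cj m B = B := mem_normalizer.1 (Subgroup.mem_inf.1 hm).1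
      have hm2 := mem_normalizer.1 (Subgroup.mem_inf.1 hm).2
      have hlt : Nat.card B < Nat.card ↥(S ⊓ nz B ⊓ (B ⊔ cz B)) := by
        apply card_lt_of_lt
        refine lt_of_le_of_ne (le_inf (le_inf hBS Subgroup.le_normalizer) le_sup_left) ?_
        intro h
        apply hcase
        have h1 : S ⊓ cz B ≤ S ⊓ nz B ⊓ (B ⊔ cz B) :=
          le_inf (le_inf inf_le_left (inf_le_right.trans (centralizer_le_normalizer B)))
            (inf_le_right.trans le_sup_right)
        exact h1.trans h.ge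
      have h1 := IH _ (inf_le_left.trans inf_le_left) hlt m (by
        rw [hm2]; exact inf_le_left.trans inf_le_left)
      have h2 : TrΦ S F B m := hΦ.mono (le_inf (le_inf hBS Subgroup.le_normalizer) le_sup_left) h1
      have h3 := fus_closure hΦ (hcB 1 (one_mem _)).2 (E := cz B)
        (fun e he => ⟨centralizer_le_normalizer B he, tr_cent hBS he⟩) (M := B) hcB l hl
      refine hΦ.mul h2 ?_
      rw [hmB]; exact h3.2
  refine ⟨S, hPp, by rw [← Subgroup.relIndex_top_right]; exact hP.not_dvd, fun x => ⟨?_, ?_⟩⟩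
  · intro hx
    have h1 : x ∈ F₁ ⊔ F₂ := hmain hx
    obtain ⟨a, ha, b, hb, hab⟩ := (mem_sup_of_le_nz ((inf_le_left : F₁ ≤ S).trans hSF₂)).1 h1
    exact ⟨a, ha, b, hb, hab.symm⟩
  · rintro ⟨a, ha, b, hb, rfl⟩
    refine Subgroup.mem_inf.2 ⟨mul_mem (Subgroup.mem_inf.1 ha).1 (Subgroup.mem_inf.1 hb).1,
      mul_mem ?_ ?_⟩
    · exact Subgroup.commutator_mono le_top le_top (Subgroup.mem_inf.1 ha).2
    · exact Subgroup.commutator_mono le_top le_top (Subgroup.mem_inf.1 hb).2

end Cfsg.Agent.S2001
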