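import Cfsg.Statements.S2002
import Cfsg.Agent.Lib.H34StrongFusion

set_option autoImplicit false
open Cfsg

namespace Cfsg.Agent.S2002

open Cfsg Lib.H34StrongFusion Lib.Alperin


/-- Let p be a prime dividing the order of the finite group G, P a Sylow p-subgroup, W a conjugacy functor for p on G with Z(H) ≤ W(H) for every nontrivial p-subgroup H, and V a central functor (a conjugacy functor with V(H) ≤ Z(H), and V(H) ≤ V(K) whenever Z(H) ≤ Z(K)). Say that W with V controls strong fusion in a subgroup L when some Sylow p-subgroup Q of L has the property: whenever X ⊆ Q and a ∈ L with a⁻¹Xa ⊆ Q, then a = c b with c ∈ C_L(X) and b = b₁ ⋯ bₙ a product of elements each in N_L(W(Q)) or in C_L(V(Q)) such that every partial conjugate (b₁ ⋯ bₖ)⁻¹ X (b₁ ⋯ bₖ) lies in Q. If W with V controls strong fusion in N_G(H) for every subgroup H with Z(P) ≤ H ≤ P, then W with V controls strong fusion in G. -/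
theorem result {G : Type*} [Group G] [Finite G] {p : ℕ} [Fact p.Prime] (hdiv : p ∣ Nat.card G) (P : Sylow p G) (W V : Subgroup G → Subgroup G) (hW : Cfsg.IsConjugacyFunctor p W) (hV : Cfsg.IsConjugacyFunctor p V) (hWZ : ∀ H : Subgroup G, IsPGroup p ↥H → H ⊓ Subgroup.centralizer ((H : Subgroup G) : Set G) ≤ W H) (hVZ : ∀ H : Subgroup G, IsPGroup p ↥H → V H ≤ H ⊓ Subgroup.centralizer ((H : Subgroup G) : Set G)) (hVmono : ∀ H K : Subgroup G, IsPGroup p ↥H → IsPGroup p ↥K → H ≠ ⊥ → K ≠ ⊥ → H ⊓ Subgroup.centralizer ((H : Subgroup G) : Set G) ≤ K ⊓ Subgroup.centralizer ((K : Subgroup G) : Set G) → V H ≤ V K) (hloc : ∀ H : Subgroup G, (P : Subgroup G) ⊓ Subgroup.centralizer (((P : Subgroup G) : Subgroup G) : Set G) ≤ H → H ≤ (P : Subgroup G) → ∃ Q : Subgroup G, Q ≤ Subgroup.normalizer ((H : Subgroup G) : Set G) ∧ IsPGroup p ↥Q ∧ ¬ p ∣ (Q).relIndex (Subgroup.normalizer ((H : Subgroup G) : Set G)) ∧ ∀ (X : Set G) (a : G), X ⊆ Q → a ∈ Subgroup.normalizer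 ((H : Subgroup G) : Set G) → (fun x => a⁻¹ * x * a) '' X ⊆ Q → ∃ c ∈ Subgroup.normalizer ((H : Subgroup G) : Set G) ⊓ Subgroup.centralizer X, ∃ (n : ℕ) (b : Fin n → G), (∀ i, b i ∈ Subgroup.normalizer ((H : Subgroup G) : Set G) ⊓ Subgroup.normalizer ((W Q : Subgroup G) : Set G) ∨ b i ∈ Subgroup.normalizer ((H : Subgroup G) : Set G) ⊓ Subgroup.centralizer ((V Q : Subgroup G) : Set G)) ∧ a = c * (List.ofFn b).prod ∧ ∀ k : ℕ, k ≤ n → (fun x => (((List.ofFn b).take k).prod)⁻¹ * x * ((List.ofFn b).take k).prod) '' ((fun x => c⁻¹ * x * c) '' X) ⊆ Q) : ∃ Q : Subgroup G, IsPGroup p ↥Q ∧ ¬ p ∣ Q.index ∧ ∀ (X : Set G) (a : G), X ⊆ Q → (fun x => a⁻¹ * x * a) '' X ⊆ Q → ∃ c ∈ Subgroup.centralizer X, ∃ (n : ℕ) (b : Fin n → G), (∀ i, b i ∈ ⊤ ⊓ Subgroup.normalizer ((W Q : Subgroup G) : Set G) ∨ b i ∈ ⊤ ⊓ Subgroup.centralizer ((V Q : Subgroup G) : Set G)) ∧ a = c * (List.ofFn b).prod ∧ ∀ k : ℕ, k ≤ n → (fun x => (((List.ofFn b).take k).prod)⁻¹ * x *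 ((List.ofFn b).take k).prod) '' ((fun x => c⁻¹ * x * c) '' X) ⊆ Q := by
  have hP1 : (P : Subgroup G) ≠ ⊥ := by
    intro h
    have := P.not_dvd_index
    rw [h, Subgroup.index_bot] at this
    exact this hdiv
  have hmain := main P hP1 W V hW hV hWZ hVmono (by
    intro H hZH hHP hFN X a hX ha haX
    set T : Subgroup G := (P : Subgroup G) ⊓ Subgroup.normalizer (H : Set G) with hT
    have hTp : IsPGroup p ↥T := P.2.to_inf_left
    obtain ⟨Q, hQN, hQp, hQi, hQ⟩ := hloc H hZH hHP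
    obtain ⟨x, hxN, hx⟩ := exists_conj (p := p) (Subgroup.normalizer (H : Set G)) T Q inf_le_right
      hQN hTp hQp hFN hQi
    change up T x = Q at hx
    have haN : x⁻¹ * a * x ∈ Subgroup.normalizer (H : Set G) :=
      mul_mem (mul_mem (inv_mem hxN) ha) hxN
    have hX' : ((up X x : Subgroup G) : Set G) ⊆ Q := by
      rw [← hx]; exact up_le_up.mpr hX
    have haX' : (fun y => (x⁻¹ * a * x)⁻¹ * y * (x⁻¹ * a * x)) '' ((up X x : Subgroup G) : Set G) ⊆ Q := by
      change cset (x⁻¹ * a * x) ((up X x : Subgroup G) : Set G) ⊆ Q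
      have e : x * (x⁻¹ * a * x) = a * x := by group
      rw [← coe_up, ← up_mul, e, up_mul, ← hx]
      exact up_le_up.mpr haX
    obtain ⟨c, hc, n, b, hb, hab, hk⟩ := hQ _ _ hX' haN haX'
    have hgood : Good (KK W V Q) Q ((up X x : Subgroup G) : Set G) (x⁻¹ * a * x) := by
      refine ⟨c, hc.2, List.ofFn b, ch_iff.mpr ⟨?_, ?_⟩, hab⟩
      · intro y hy
        obtain ⟨i, rfl⟩ := List.mem_ofFn.mp hy
        rcases hb i with h | h
        · exact Or.inl h.2
        · exact Or.inr h.2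
      · intro k hkn
        rw [List.length_ofFn] at hkn
        have h1 := hk k hkn
        have h2 : (fun y => c⁻¹ * y * c) '' ((up X x : Subgroup G) : Set G) =
            ((up X x : Subgroup G) : Set G) := cset_of_mem_centralizer hc.2
        rw [h2] at h1
        exact h1
    have h3 := (hgood.conj x⁻¹).monoK (cset_KK hW hV hQp x⁻¹)
    have h4 : up Q x⁻¹ = T := by rw [← hx, ← up_mul, mul_inv_cancel, up_one]
    have h5 : cset x⁻¹ ((up X x : Subgroup G) : Set G) = (X : Set G) := by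
      rw [← coe_up, ← up_mul, mul_inv_cancel, up_one]
    have h6 : x⁻¹⁻¹ * (x⁻¹ * a * x) * x⁻¹ = a := by group
    rw [h4, h5, h6] at h3
    exact h3)
  refine ⟨P, P.2, P.not_dvd_index, ?_⟩
  intro X a hX haX
  have hcl : Subgroup.closure X ≤ (P : Subgroup G) := (Subgroup.closure_le _).mpr hX
  have hcl2 : up (Subgroup.closure X) a ≤ (P : Subgroup G) := by
    rw [up_inv_le, Subgroup.closure_le]
    intro x hx
    rw [SetLike.mem_coe, mem_up, inv_inv]
    exact haX ⟨x, hx, rfl⟩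
  have hg := (hmain _ (Subgroup.closure X) hcl rfl a hcl2).mono Subgroup.subset_closure
  obtain ⟨c, hc, l, hl, hal⟩ := hg
  obtain ⟨h1, h2⟩ := ch_iff.mp hl
  refine ⟨c, hc, l.length, l.get, ?_, ?_, ?_⟩
  · intro i
    rcases h1 _ (List.get_mem l i) with h | h
    · exact Or.inl ⟨Subgroup.mem_top _, h⟩
    · exact Or.inr ⟨Subgroup.mem_top _, h⟩
  · rw [List.ofFn_get]; exact hal
  · intro k hk
    rw [List.ofFn_get]
    have h3 : (fun y => c⁻¹ * y * c) '' X = X := cset_of_mem_centralizer hc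
    rw [h3]
    exact h2 k hk

end Cfsg.Agent.S2002
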