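import Cfsg.Statements.S2015
import Cfsg.Agent.S1993
import Cfsg.Agent.S1978

set_option autoImplicit false
universe u
open Cfsg

namespace Cfsg.Agent.S2015



/-- For p ≥ 5, every finite p-group P has a characteristic subgroup K containing Z(P), depending only on P, whose normalizer controls transfer wherever P is a Sylow subgroup: for every finite group G and every embedding ι of P onto a Sylow p-subgroup of G, the intersection of ι(P) with the derived subgroup of G equals its intersection with the derived subgroup of N_G(ι(K)). -/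
theorem result (p : ℕ) [Fact p.Prime] (hp : 5 ≤ p) (P : Type u) [Group P] [Finite P] (hP : IsPGroup p P) : ∃ K : Subgroup P, K.Characteristic ∧ Subgroup.center P ≤ K ∧ ∀ (G : Type u) [Group G] [Finite G] (ι : P →* G), Function.Injective ι → (∃ T : Sylow p G, (T : Subgroup G) = ι.range) → ι.range ⊓ commutator G = ι.range ⊓ (commutator ↥(Subgroup.normalizer ((K.map ι : Subgroup G) : Set G))).map (Subgroup.normalizer ((K.map ι : Subgroup G) : Set G)).subtype := by
  have hchar := Cfsg.Agent.Lib.KInf1.isChar_kInfUpper.{u} p
  refine ⟨Cfsg.kInfUpper P, ?_, ?_, ?_⟩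
  · rw [Subgroup.characteristic_iff_map_eq]
    intro φ
    exact hchar.2 P P hP φ
  · exact (Cfsg.Agent.S1978.result hP).2.2.2.trans (Cfsg.Agent.S1978.result hP).2.2.1
  · intro G _ _ ι hι ⟨T, hT⟩
    have h1 := (Cfsg.Agent.S1993.result T).1 hp
    rw [hT] at h1
    have hK : (Cfsg.kInfUpper P).map ι = Cfsg.inducedFunctor Cfsg.kInfUpper ι.range := by
      unfold Cfsg.inducedFunctor
      rw [← hchar.2 P ι.range hP (MonoidHom.ofInjective hι), Subgroup.map_map]
      rfl
    rw [hK, h1, Subgroup.map_subtype_commutator]

end Cfsg.Agent.S2015
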