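import Cfsg.Statements.S2133
import Cfsg.Agent.Lib.HeisM24

set_option autoImplicit false
open Cfsg

namespace Cfsg.Agent.S2133

/-- The Mathieu group M₂₄ (the automorphism group of the length-24 binary code) has an involution whose centraliser is isomorphic to the centraliser of a transvection in SL(5, 2) (a group of shape 2^{1+6}:GL(3, 2)). -/
theorem result (s : Matrix.SpecialLinearGroup (Fin 5) (ZMod 2)) (hs : (s : Matrix (Fin 5) (Fin 5) (ZMod 2)) = Matrix.transvection 0 1 1) : ∃ z : ↥Cfsg.M24, orderOf z = 2 ∧ Nonempty (↥(Subgroup.centralizer ({z} : Set ↥Cfsg.M24)) ≃* ↥(Subgroup.centralizer ({s} : Set (Matrix.SpecialLinearGroup (Fin 5) (ZMod 2))))) := by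
  have ho := Cfsg.Agent.Lib.Golay.oct0_mem
  obtain ⟨p, hp⟩ : ∃ p, p ∉ Cfsg.Agent.Lib.Golay.mset 8536111 := by
    by_contra hcon
    push Not at hcon
    have : Cfsg.Agent.Lib.Golay.mset 8536111 = Finset.univ := Finset.eq_univ_iff_forall.2 hcon
    have h8 := ho.2
    rw [this, Finset.card_univ] at h8
    revert h8
    decide
  obtain ⟨u, hu, hu1⟩ : ∃ u ∈ Cfsg.Agent.Lib.Golay.OctPt (Cfsg.Agent.Lib.Golay.mset 8536111), u ≠ 1 := by
    by_contra hcon
    push Not at hcon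
    have h1 := Cfsg.Agent.Lib.Golay.card_OctPt0
    have h2 : Cfsg.Agent.Lib.Golay.OctPt (Cfsg.Agent.Lib.Golay.mset 8536111) = ⊥ := by
      rw [Subgroup.eq_bot_iff_forall]; exact hcon
    rw [h2, Subgroup.card_bot] at h1
    exact absurd h1 (by norm_num)
  have huM := (Cfsg.Agent.Lib.Golay.mem_OctPt.1 hu).1
  have hfix : (Finset.univ.filter fun p : Cfsg.GolayPt => ((⟨u, huM⟩ : ↥Cfsg.M24) : Equiv.Perm Cfsg.GolayPt) p = p) =
      Cfsg.Agent.Lib.Golay.mset 8536111 := by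
    ext x
    rw [Finset.mem_filter]
    constructor
    · rintro ⟨_, hx⟩
      by_contra hxo
      exact hu1 (Cfsg.Agent.Lib.Golay.OctPt_fix_eq_one ho hxo hu hx)
    · intro hx
      exact ⟨Finset.mem_univ _, (Cfsg.Agent.Lib.Golay.mem_OctPt.1 hu).2 x hx⟩
  have hord : orderOf (⟨u, huM⟩ : ↥Cfsg.M24) = 2 := by
    haveI : Fact (Nat.Prime 2) := ⟨Nat.prime_two⟩
    apply orderOf_eq_prime
    · apply Subtype.ext
      show u ^ 2 = 1
      rw [pow_two]; exact Cfsg.Agent.Lib.Golay.OctPt_sq ho hu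
    · intro h; exact hu1 (congrArg Subtype.val h)
  obtain ⟨⟨S⟩, _⟩ := Cfsg.Agent.Lib.HeisGL.settingM24 ⟨u, huM⟩ hord (by rw [hfix]; exact ho)
  have S2 := Cfsg.Agent.Lib.HeisGL.settingSL (n := 3) (z := s) (by norm_num) hs
  exact ⟨⟨u, huM⟩, hord, ⟨S.e.trans S2.e.symm⟩⟩

end Cfsg.Agent.S2133
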