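import Cfsg.Statements.S2162
import Cfsg.Agent.Lib.SqZero

set_option autoImplicit false
open Cfsg

namespace Cfsg.Agent.S2162

open Module

theorem rank_sub_one_of_isConj {F : Type*} [Field F] {n : ℕ} (a b : Matrix.SpecialLinearGroup (Fin n) F)
    (h : IsConj a b) : ((a : Matrix (Fin n) (Fin n) F) - 1).rank = ((b : Matrix (Fin n) (Fin n) F) - 1).rank := by
  obtain ⟨c, hc⟩ := isConj_iff.mp h
  have h1 : (b : Matrix (Fin n) (Fin n) F) - 1 = (c : Matrix (Fin n) (Fin n) F) * ((a : Matrix (Fin n) (Fin n) F) - 1) *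
      ((c⁻¹ : Matrix.SpecialLinearGroup (Fin n) F) : Matrix (Fin n) (Fin n) F) := by
    rw [← hc, Matrix.mul_sub, Matrix.sub_mul, Matrix.mul_one, Matrix.SpecialLinearGroup.coe_mul,
      Matrix.SpecialLinearGroup.coe_mul, ← Matrix.SpecialLinearGroup.coe_mul c c⁻¹, mul_inv_cancel,
      Matrix.SpecialLinearGroup.coe_one]
  have hu1 : IsUnit (c : Matrix (Fin n) (Fin n) F).det := by rw [c.2]; exact isUnit_one
  have hu2 : IsUnit ((c⁻¹ : Matrix.SpecialLinearGroup (Fin n) F) : Matrix (Fin n) (Fin n) F).det := by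
    rw [(c⁻¹).2]; exact isUnit_one
  rw [h1, Matrix.rank_mul_eq_left_of_isUnit_det _ _ hu2, Matrix.rank_mul_eq_right_of_isUnit_det _ _ hu1]

theorem sq_zero {F : Type*} [Field F] [CharP F 2] {n : ℕ} (a : Matrix.SpecialLinearGroup (Fin n) F) (ha : orderOf a = 2) :
    ((a : Matrix (Fin n) (Fin n) F) - 1) * ((a : Matrix (Fin n) (Fin n) F) - 1) = 0 := by
  have h : a * a = 1 := by
    rw [← pow_two, ← ha]; exact pow_orderOf_eq_one a
  have h' : (a : Matrix (Fin n) (Fin n) F) * (a : Matrix (Fin n) (Fin n) F) = 1 := by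
    rw [← Matrix.SpecialLinearGroup.coe_mul, h, Matrix.SpecialLinearGroup.coe_one]
  have h2 : (a : Matrix (Fin n) (Fin n) F) + (a : Matrix (Fin n) (Fin n) F) = 0 := by
    ext i j
    simp [CharTwo.add_self_eq_zero]
  have h3 : (1 : Matrix (Fin n) (Fin n) F) + 1 = 0 := by
    ext i j
    simp [CharTwo.add_self_eq_zero]
  calc ((a : Matrix (Fin n) (Fin n) F) - 1) * ((a : Matrix (Fin n) (Fin n) F) - 1)
      = (a : Matrix (Fin n) (Fin n) F) * (a : Matrix (Fin n) (Fin n) F) - ((a : Matrix (Fin n) (Fin n) F) + (a : Matrix (Fin n) (Fin n) F)) + 1 := by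
        noncomm_ring
    _ = 0 := by rw [h', h2, sub_zero, h3]

/-- Conjugacy of involutions in the special linear group over a finite field of characteristic two, in dimension at least 3: two elements of order 2 of SL_n(F) are conjugate in SL_n(F) exactly when the matrices a − 1 and b − 1 have the same rank (the rank of a − 1 is the dimension of the commutator space [V, a]). -/
theorem result {F : Type*} [Field F] [Fintype F] [CharP F 2] {n : ℕ} (hn : 3 ≤ n) (a b : Matrix.SpecialLinearGroup (Fin n) F) (ha : orderOf a = 2) (hb : orderOf b = 2) :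
    IsConj a b ↔ ((a : Matrix (Fin n) (Fin n) F) - 1).rank = ((b : Matrix (Fin n) (Fin n) F) - 1).rank := by
  constructor
  · exact rank_sub_one_of_isConj a b
  intro hr
  set A := (a : Matrix (Fin n) (Fin n) F) - 1 with hA
  set B := (b : Matrix (Fin n) (Fin n) F) - 1 with hB
  have hNA : ∀ v, (Matrix.toLin' A) ((Matrix.toLin' A) v) = 0 := by
    intro v
    rw [← LinearMap.comp_apply, ← Matrix.toLin'_mul, sq_zero a ha]; simp
  have hNB : ∀ v, (Matrix.toLin' B) ((Matrix.toLin' B) v) = 0 := by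
    intro v
    rw [← LinearMap.comp_apply, ← Matrix.toLin'_mul, sq_zero b hb]; simp
  obtain ⟨g, hg⟩ := Lib.SqZero.exists_conj (Matrix.toLin' A) (Matrix.toLin' B) hNA hNB (by
    have := hr
    unfold Matrix.rank at this
    exact this)
  have hsq : ∀ x : F, ∃ y, y * y = x := by
    intro x
    obtain ⟨y, hy⟩ := FiniteField.isSquare_of_char_two (ringChar.eq_iff.mpr inferInstance) x
    exact ⟨y, hy.symm⟩
  have hdetg : LinearMap.det (g : (Fin n → F) →ₗ[F] (Fin n → F)) ≠ 0 := (LinearEquiv.isUnit_det' g).ne_zero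
  obtain ⟨c, hc, hcdet⟩ := Lib.SqZero.exists_centralizer_det (Matrix.toLin' B) hNB (by simp; omega) hsq
    (LinearMap.det (g : (Fin n → F) →ₗ[F] (Fin n → F)))⁻¹ (inv_ne_zero hdetg)
  let k : (Fin n → F) →ₗ[F] (Fin n → F) := (c : (Fin n → F) →ₗ[F] (Fin n → F)) ∘ₗ (g : (Fin n → F) →ₗ[F] (Fin n → F))
  have hkdet : LinearMap.det k = 1 := by
    rw [LinearMap.det_comp, hcdet, inv_mul_cancel₀ hdetg]
  have hk : ∀ v, k (Matrix.toLin' A v) = Matrix.toLin' B (k v) := by
    intro v
    show c (g (Matrix.toLin' A v)) = Matrix.toLin' B (c (g v))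
    rw [hg, hc]
  let K : Matrix.SpecialLinearGroup (Fin n) F := ⟨LinearMap.toMatrix' k, by rw [LinearMap.det_toMatrix', hkdet]⟩
  have hKA : LinearMap.toMatrix' k * A = B * LinearMap.toMatrix' k := by
    apply Matrix.toLin'.injective
    apply LinearMap.ext
    intro v
    rw [Matrix.toLin'_mul, Matrix.toLin'_mul, Matrix.toLin'_toMatrix']
    exact hk v
  rw [isConj_iff]
  refine ⟨K, ?_⟩
  rw [mul_inv_eq_iff_eq_mul]
  apply Subtype.ext
  rw [Matrix.SpecialLinearGroup.coe_mul, Matrix.SpecialLinearGroup.coe_mul]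
  have e1 : (K : Matrix (Fin n) (Fin n) F) = LinearMap.toMatrix' k := rfl
  have e2 : (a : Matrix (Fin n) (Fin n) F) = A + 1 := by rw [hA]; simp
  have e3 : (b : Matrix (Fin n) (Fin n) F) = B + 1 := by rw [hB]; simp
  rw [e1, e2, e3, Matrix.mul_add, Matrix.add_mul, hKA]; simp

end Cfsg.Agent.S2162
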