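import Cfsg.Statements.S2163

set_option autoImplicit false
open Cfsg

namespace Cfsg.Agent.S2163

/-- Over a finite field of characteristic two and for n ≥ 3: for every ℓ with 1 ≤ ℓ and 2ℓ ≤ n, the matrix j_ℓ that is the identity plus the entries 1 in positions (n − ℓ + i, i) for i < ℓ (an identity block of size ℓ in the lower left corner) lies in SL_n(F), has order 2, and j_ℓ − 1 has rank ℓ. Together with the conjugacy criterion by rank, these matrices represent the conjugacy classes of involutions of SL_n(F). -/
theorem result {F : Type*} [Field F] [Fintype F] [CharP F 2] {n : ℕ} (hn : 3 ≤ n) (ℓ : ℕ) (h1 : 1 ≤ ℓ) (h2 : 2 * ℓ ≤ n) :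
    ∃ a : Matrix.SpecialLinearGroup (Fin n) F, (a : Matrix (Fin n) (Fin n) F) = 1 + Matrix.of (fun i j : Fin n => if j.val < ℓ ∧ i.val = j.val + (n - ℓ) then (1 : F) else 0) ∧ orderOf a = 2 ∧ ((a : Matrix (Fin n) (Fin n) F) - 1).rank = ℓ := by
  classical
  set N : Matrix (Fin n) (Fin n) F := Matrix.of (fun i j : Fin n => if j.val < ℓ ∧ i.val = j.val + (n - ℓ) then (1 : F) else 0) with hN
  let A : Matrix (Fin n) (Fin ℓ) F := Matrix.of (fun i k => if i.val = k.val + (n - ℓ) then (1 : F) else 0)
  let B : Matrix (Fin ℓ) (Fin n) F := Matrix.of (fun k j => if k.val = j.val then (1 : F) else 0)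
  have hAB : N = A * B := by
    ext i j
    simp only [hN, A, B, Matrix.of_apply, Matrix.mul_apply]
    by_cases hj : j.val < ℓ
    · rw [Finset.sum_eq_single (⟨j.val, hj⟩ : Fin ℓ)]
      · simp [hj]
      · intro k _ hk
        have : k.val ≠ j.val := fun h => hk (Fin.ext h)
        simp [this]
      · intro h; exact absurd (Finset.mem_univ _) h
    · rw [Finset.sum_eq_zero]
      · simp [hj]
      · intro k _
        have : k.val ≠ j.val := fun h => hj (h ▸ k.isLt)
        simp [this]
  have hBA : B * A = 0 := by
    ext i j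
    simp only [A, B, Matrix.of_apply, Matrix.mul_apply, Matrix.zero_apply]
    apply Finset.sum_eq_zero
    intro k _
    have := i.isLt
    have := j.isLt
    by_cases h : i.val = k.val
    · have : ¬ (k.val = j.val + (n - ℓ)) := by omega
      simp [this]
    · simp [h]
  have hAA : A.transpose * A = 1 := by
    ext i j
    simp only [A, Matrix.of_apply, Matrix.mul_apply, Matrix.transpose_apply]
    have hi := i.isLt
    rw [Finset.sum_eq_single (⟨i.val + (n - ℓ), by omega⟩ : Fin n)]
    · by_cases hij : i = j
      · subst hij; simp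
      · have : i.val ≠ j.val := fun h => hij (Fin.ext h)
        simp [Matrix.one_apply_ne hij, this]
    · intro k _ hk
      have : k.val ≠ i.val + (n - ℓ) := fun h => hk (Fin.ext h)
      simp [this]
    · intro h; exact absurd (Finset.mem_univ _) h
  have hBB : B * B.transpose = 1 := by
    ext i j
    simp only [B, Matrix.of_apply, Matrix.mul_apply, Matrix.transpose_apply]
    have hi := i.isLt
    rw [Finset.sum_eq_single (⟨i.val, by omega⟩ : Fin n)]
    · by_cases hij : i = j
      · subst hij; simp
      · have : j.val ≠ i.val := fun h => hij (Fin.ext h.symm)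
        simp [Matrix.one_apply_ne hij, this]
    · intro k _ hk
      have : i.val ≠ k.val := fun h => hk (Fin.ext h.symm)
      simp [this]
    · intro h; exact absurd (Finset.mem_univ _) h
  have hNN : N * N = 0 := by
    rw [hAB, Matrix.mul_assoc, ← Matrix.mul_assoc B A B, hBA, Matrix.zero_mul, Matrix.mul_zero]
  have hrank : N.rank = ℓ := by
    apply le_antisymm
    · rw [hAB]
      calc (A * B).rank ≤ A.rank := Matrix.rank_mul_le_left A B
        _ ≤ Fintype.card (Fin ℓ) := Matrix.rank_le_card_width A
        _ = ℓ := Fintype.card_fin ℓ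
    · have h1 : A.transpose * N * B.transpose = 1 := by
        rw [hAB, ← Matrix.mul_assoc, hAA, Matrix.one_mul, hBB]
      calc ℓ = (1 : Matrix (Fin ℓ) (Fin ℓ) F).rank := by rw [Matrix.rank_one, Fintype.card_fin]
        _ = (A.transpose * N * B.transpose).rank := by rw [h1]
        _ ≤ (A.transpose * N).rank := Matrix.rank_mul_le_left _ _
        _ ≤ N.rank := Matrix.rank_mul_le_right _ _
  have hsq : (1 + N) * (1 + N) = 1 := by
    have h2 : (N + N) = 0 := by
      ext i j
      simp [CharTwo.add_self_eq_zero]
    calc (1 + N) * (1 + N) = 1 + (N + N) + N * N := by noncomm_ring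
      _ = 1 := by rw [hNN, h2]; simp
  have hdet : (1 + N).det = 1 := by
    have h : (1 + N).det * (1 + N).det = 1 := by
      rw [← Matrix.det_mul, hsq, Matrix.det_one]
    have h3 : ((1 + N).det + 1) * ((1 + N).det + 1) = 0 := by
      calc ((1 + N).det + 1) * ((1 + N).det + 1) = (1 + N).det * (1 + N).det + ((1+N).det + (1+N).det) + 1 := by ring
        _ = 0 := by rw [h, CharTwo.add_self_eq_zero, add_zero, CharTwo.add_self_eq_zero]
    have h4 : (1 + N).det + 1 = 0 := mul_self_eq_zero.mp h3
    have := CharTwo.add_eq_zero.mp h4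
    exact this
  have hsq2 : ∀ a : Matrix.SpecialLinearGroup (Fin n) F, (a : Matrix (Fin n) (Fin n) F) = 1 + N → a ^ 2 = 1 := by
    intro a ha
    rw [pow_two]
    apply Subtype.ext
    rw [Matrix.SpecialLinearGroup.coe_mul, ha]
    exact hsq
  refine ⟨⟨1 + N, hdet⟩, rfl, ?_, ?_⟩
  · apply orderOf_eq_prime
    · exact hsq2 _ rfl
    · intro h
      have h5 : (1 + N) = 1 := congrArg Subtype.val h
      have h6 : N = 0 := by simpa using h5
      rw [h6, Matrix.rank_zero] at hrank
      omega
  · show ((1 + N) - 1).rank = ℓ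
    rw [add_sub_cancel_left]; exact hrank

end Cfsg.Agent.S2163
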