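import Cfsg.Statements.S2164
import Cfsg.Agent.S2162
import Cfsg.Agent.Lib.InvolUnitMat

set_option autoImplicit false
open Cfsg

namespace Cfsg.Agent.S2164

open Module Matrix Cfsg.Agent.Lib Cfsg.Agent.Lib.InvolUnitMat

/-- The diagonal map attached to `α`, `β` in the coordinates `T`. -/
noncomputable def diagMap {F : Type*} [Field F] {V : Type*} [AddCommGroup V] [Module F V] {r s : ℕ}
    (T : V ≃ₗ[F] (((Fin r → F) × (Fin r → F)) × (Fin s → F))) (α : Fin r → F) (β : Fin s → F) : V →ₗ[F] V :=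
  (T.symm : _ →ₗ[F] V) ∘ₗ (((Matrix.toLin' (Matrix.diagonal α)).prodMap
    (Matrix.toLin' (Matrix.diagonal α))).prodMap (Matrix.toLin' (Matrix.diagonal β))) ∘ₗ (T.symm.symm : V →ₗ[F] _)

theorem diagMap_apply {F : Type*} [Field F] {V : Type*} [AddCommGroup V] [Module F V] {r s : ℕ}
    (T : V ≃ₗ[F] (((Fin r → F) × (Fin r → F)) × (Fin s → F))) (α : Fin r → F) (β : Fin s → F) (v : V) :
    T (diagMap T α β v) = (((fun i => α i * (T v).1.1 i), (fun i => α i * (T v).1.2 i)), (fun i => β i * (T v).2 i)) := by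
  simp only [diagMap, LinearMap.comp_apply, LinearEquiv.coe_coe, LinearEquiv.apply_symm_apply, LinearMap.prodMap_apply,
    LinearEquiv.symm_symm, Matrix.toLin'_apply]
  refine Prod.ext (Prod.ext ?_ ?_) ?_
  · ext i; simp [Matrix.mulVec_diagonal]
  · ext i; simp [Matrix.mulVec_diagonal]
  · ext i; simp [Matrix.mulVec_diagonal]

theorem det_diagMap {F : Type*} [Field F] {V : Type*} [AddCommGroup V] [Module F V] {r s : ℕ}
    (T : V ≃ₗ[F] (((Fin r → F) × (Fin r → F)) × (Fin s → F))) (α : Fin r → F) (β : Fin s → F) :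
    LinearMap.det (diagMap T α β) = ((∏ i, α i) * (∏ i, α i)) * ∏ i, β i := by
  rw [diagMap, LinearMap.det_conj, LinearMap.det_prodMap, LinearMap.det_prodMap, LinearMap.det_toLin',
    LinearMap.det_toLin', Matrix.det_diagonal, Matrix.det_diagonal]

theorem prod_update_one {F : Type*} [Field F] {k : ℕ} (hk : 0 < k) (c : F) :
    ∏ i : Fin k, (if i = ⟨0, hk⟩ then c else 1) = c := by
  rw [Finset.prod_ite_eq']; simp

theorem su_conj_of_rank {F : Type*} [Field F] [Fintype F] [CharP F 2] {n q : ℕ} (hF : Fintype.card F = q ^ 2) (hn : 3 ≤ n)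
    (a b : ↥(Cfsg.SU n F q)) (ha : orderOf a = 2) (hb : orderOf b = 2)
    (hrank : (((a : Matrix.SpecialLinearGroup (Fin n) F) : Matrix (Fin n) (Fin n) F) - 1).rank = (((b : Matrix.SpecialLinearGroup (Fin n) F) : Matrix (Fin n) (Fin n) F) - 1).rank) :
    IsConj a b := by
  classical
  obtain ⟨σ, hσ, hσσ, hnorm, htrace⟩ := exists_sigma hF
  have ha' : orderOf (a : Matrix.SpecialLinearGroup (Fin n) F) = 2 := by rw [← ha, Subgroup.orderOf_coe]
  have hb' : orderOf (b : Matrix.SpecialLinearGroup (Fin n) F) = 2 := by rw [← hb, Subgroup.orderOf_coe]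
  set A := ((a : Matrix.SpecialLinearGroup (Fin n) F) : Matrix (Fin n) (Fin n) F) with hA
  set B := ((b : Matrix.SpecialLinearGroup (Fin n) F) : Matrix (Fin n) (Fin n) F) with hB
  have hNA : ∀ v, (Matrix.toLin' (A - 1)) ((Matrix.toLin' (A - 1)) v) = 0 := by
    intro v
    rw [← LinearMap.comp_apply, ← Matrix.toLin'_mul, S2162.sq_zero _ ha']; simp
  have hNB : ∀ v, (Matrix.toLin' (B - 1)) ((Matrix.toLin' (B - 1)) v) = 0 := by
    intro v
    rw [← LinearMap.comp_apply, ← Matrix.toLin'_mul, S2162.sq_zero _ hb']; simp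
  have hpres : ∀ (c : ↥(Cfsg.SU n F q)) (u v : Fin n → F), hermB n σ hσ
      (((c : Matrix.SpecialLinearGroup (Fin n) F) : Matrix (Fin n) (Fin n) F) *ᵥ u)
      (((c : Matrix.SpecialLinearGroup (Fin n) F) : Matrix (Fin n) (Fin n) F) *ᵥ v) = hermB n σ hσ u v :=
    fun c u v => c.2 u v
  have hsq : ∀ (c : ↥(Cfsg.SU n F q)), orderOf c = 2 → ∀ v : Fin n → F,
      ((c : Matrix.SpecialLinearGroup (Fin n) F) : Matrix (Fin n) (Fin n) F) *ᵥ
      (((c : Matrix.SpecialLinearGroup (Fin n) F) : Matrix (Fin n) (Fin n) F) *ᵥ v) = v := by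
    intro c hc v
    have h1 : c * c = 1 := by rw [← pow_two, ← hc]; exact pow_orderOf_eq_one c
    have h2 : ((c : Matrix.SpecialLinearGroup (Fin n) F) : Matrix (Fin n) (Fin n) F) * ((c : Matrix.SpecialLinearGroup (Fin n) F) : Matrix (Fin n) (Fin n) F) = 1 :=
      congrArg (fun x : ↥(Cfsg.SU n F q) => x.val.val) h1
    rw [Matrix.mulVec_mulVec, h2, Matrix.one_mulVec]
  have hadj : ∀ (c : ↥(Cfsg.SU n F q)), orderOf c = 2 → ∀ u v : Fin n → F,
      hermB n σ hσ (Matrix.toLin' (((c : Matrix.SpecialLinearGroup (Fin n) F) : Matrix (Fin n) (Fin n) F) - 1) u) v =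
      hermB n σ hσ u (Matrix.toLin' (((c : Matrix.SpecialLinearGroup (Fin n) F) : Matrix (Fin n) (Fin n) F) - 1) v) := by
    intro c hc u v
    rw [Matrix.toLin'_apply, Matrix.toLin'_apply, Matrix.sub_mulVec, Matrix.sub_mulVec, Matrix.one_mulVec,
      Matrix.one_mulVec, map_sub, map_sub, LinearMap.sub_apply]
    congr 1
    rw [← hpres c, hsq c hc]
  obtain ⟨r, hr⟩ : ∃ r, finrank F (LinearMap.range (Matrix.toLin' (A - 1))) = r := ⟨_, rfl⟩
  have hr' : finrank F (LinearMap.range (Matrix.toLin' (B - 1))) = r := by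
    rw [← hr]; exact hrank.symm
  have h1 := LinearMap.finrank_range_add_finrank_ker (Matrix.toLin' (A - 1))
  have h2 : LinearMap.range (Matrix.toLin' (A - 1)) ≤ LinearMap.ker (Matrix.toLin' (A - 1)) := by
    rintro _ ⟨v, rfl⟩
    exact hNA v
  have h3 := Submodule.finrank_mono h2
  obtain ⟨s, hs⟩ : ∃ s, finrank F (Fin n → F) = 2 * r + s := ⟨finrank F (Fin n → F) - 2 * r, by omega⟩
  have hns : n = 2 * r + s := by rw [← hs, Module.finrank_fin_fun]
  obtain ⟨T, hT1, hT2⟩ := InvolUnit.exists_normal_form hσσ hnorm htrace (hermB n σ hσ) (hermB_herm n σ hσ hσσ)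
    (hermB_nondeg n σ hσ) _ hNA (hadj a ha) r s hr hs
  obtain ⟨T', hT1', hT2'⟩ := InvolUnit.exists_normal_form hσσ hnorm htrace (hermB n σ hσ) (hermB_herm n σ hσ hσσ)
    (hermB_nondeg n σ hσ) _ hNB (hadj b hb) r s hr' hs
  -- first isometry
  let g : (Fin n → F) ≃ₗ[F] (Fin n → F) := T.trans T'.symm
  have hgT : ∀ v, T' (g v) = T v := fun v => by simp [g]
  have hg1 : ∀ u v, hermB n σ hσ (g u) (g v) = hermB n σ hσ u v := by
    intro u v
    rw [hT2', hgT, hgT, hT2]
  have hg2 : ∀ v, g (Matrix.toLin' (A - 1) v) = Matrix.toLin' (B - 1) (g v) := by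
    intro v
    apply T'.injective
    rw [hgT, hT1, hT1', hgT]
  set d := LinearMap.det (g : (Fin n → F) →ₗ[F] (Fin n → F)) with hd
  have hdd : d * σ d = 1 := det_isometry n σ hσ _ hg1
  have hd0 : d ≠ 0 := left_ne_zero_of_mul_eq_one hdd
  have hdinv : d⁻¹ * σ d⁻¹ = 1 := by
    rw [map_inv₀, ← mul_inv, hdd, inv_one]
  -- correction
  have hcorr : ∃ (α : Fin r → F) (β : Fin s → F), (∀ i, α i * σ (α i) = 1) ∧ (∀ i, β i * σ (β i) = 1) ∧
      ((∏ i, α i) * (∏ i, α i)) * ∏ i, β i = d⁻¹ := by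
    by_cases hs0 : 0 < s
    · refine ⟨fun _ => 1, fun i => if i = ⟨0, hs0⟩ then d⁻¹ else 1, ?_, ?_, ?_⟩
      · intro i; simp
      · intro i
        by_cases hi : i = ⟨0, hs0⟩
        · simp only [hi, if_true]; exact hdinv
        · simp [hi]
      · rw [prod_update_one hs0]; simp
    · have hr0 : 0 < r := by omega
      have hs1 : s = 0 := by omega
      obtain ⟨y, hy⟩ := FiniteField.isSquare_of_char_two (ringChar.eq_iff.mpr inferInstance) d⁻¹
      have hyy : y * σ y = 1 := by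
        have h4 : (y * σ y) * (y * σ y) = 1 := by
          have : (y * σ y) * (y * σ y) = (y * y) * σ (y * y) := by rw [map_mul]; ring
          rw [this, ← hy]; exact hdinv
        have h5 : (y * σ y + 1) * (y * σ y + 1) = 0 := by
          calc (y * σ y + 1) * (y * σ y + 1) = (y * σ y) * (y * σ y) + (y * σ y + y * σ y) + 1 := by ring
            _ = 0 := by rw [h4, CharTwo.add_self_eq_zero, add_zero, CharTwo.add_self_eq_zero]
        exact CharTwo.add_eq_zero.mp (mul_self_eq_zero.mp h5)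
      refine ⟨fun i => if i = ⟨0, hr0⟩ then y else 1, fun _ => 1, ?_, ?_, ?_⟩
      · intro i
        by_cases hi : i = ⟨0, hr0⟩
        · simp only [hi, if_true]; exact hyy
        · simp [hi]
      · intro i; simp
      · rw [prod_update_one hr0, ← hy]; simp
  obtain ⟨α, β, hα, hβ, hαβ⟩ := hcorr
  let c := diagMap T' α β
  have hc1 : ∀ u v, hermB n σ hσ (c u) (c v) = hermB n σ hσ u v := by
    intro u v
    rw [hT2', diagMap_apply, diagMap_apply, hT2']
    simp only [map_mul]
    congr 1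
    · congr 1
      · refine Finset.sum_congr rfl (fun i _ => ?_)
        have := hα i
        calc α i * (T' u).1.1 i * (σ (α i) * σ ((T' v).1.2 i)) = (α i * σ (α i)) * ((T' u).1.1 i * σ ((T' v).1.2 i)) := by ring
          _ = _ := by rw [hα, one_mul]
      · refine Finset.sum_congr rfl (fun i _ => ?_)
        calc α i * (T' u).1.2 i * (σ (α i) * σ ((T' v).1.1 i)) = (α i * σ (α i)) * ((T' u).1.2 i * σ ((T' v).1.1 i)) := by ring
          _ = _ := by rw [hα, one_mul]
    · refine Finset.sum_congr rfl (fun i _ => ?_)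
      calc β i * (T' u).2 i * (σ (β i) * σ ((T' v).2 i)) = (β i * σ (β i)) * ((T' u).2 i * σ ((T' v).2 i)) := by ring
        _ = _ := by rw [hβ, one_mul]
  have hc2 : ∀ v, c (Matrix.toLin' (B - 1) v) = Matrix.toLin' (B - 1) (c v) := by
    intro v
    apply T'.injective
    rw [diagMap_apply, hT1', hT1', diagMap_apply]
    refine Prod.ext (Prod.ext ?_ ?_) ?_
    · ext i; simp
    · rfl
    · ext i; simp
  let k : (Fin n → F) →ₗ[F] (Fin n → F) := c ∘ₗ (g : (Fin n → F) →ₗ[F] (Fin n → F))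
  have hkdet : LinearMap.det k = 1 := by
    rw [LinearMap.det_comp, det_diagMap, hαβ, inv_mul_cancel₀ hd0]
  have hk : ∀ v, k (Matrix.toLin' (A - 1) v) = Matrix.toLin' (B - 1) (k v) := by
    intro v
    show c (g _) = _
    rw [hg2, hc2]; rfl
  have hkpres : ∀ u v, hermB n σ hσ (k u) (k v) = hermB n σ hσ u v := by
    intro u v
    show hermB n σ hσ (c (g u)) (c (g v)) = _
    rw [hc1, hg1]
  have hKdet : (LinearMap.toMatrix' k).det = 1 := by rw [LinearMap.det_toMatrix', hkdet]
  have hKmem : (⟨LinearMap.toMatrix' k, hKdet⟩ : Matrix.SpecialLinearGroup (Fin n) F) ∈ Cfsg.SU n F q := by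
    intro u v
    show Cfsg.hermForm n F q (LinearMap.toMatrix' k *ᵥ u) (LinearMap.toMatrix' k *ᵥ v) = Cfsg.hermForm n F q u v
    rw [LinearMap.toMatrix'_mulVec, LinearMap.toMatrix'_mulVec]
    exact hkpres u v
  have hKA : LinearMap.toMatrix' k * (A - 1) = (B - 1) * LinearMap.toMatrix' k := by
    apply Matrix.toLin'.injective
    apply LinearMap.ext
    intro v
    rw [Matrix.toLin'_mul, Matrix.toLin'_mul, Matrix.toLin'_toMatrix']
    exact hk v
  rw [isConj_iff]
  refine ⟨⟨⟨LinearMap.toMatrix' k, hKdet⟩, hKmem⟩, ?_⟩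
  rw [mul_inv_eq_iff_eq_mul]
  apply Subtype.ext
  apply Subtype.ext
  show LinearMap.toMatrix' k * A = B * LinearMap.toMatrix' k
  have h6 : LinearMap.toMatrix' k * (A - 1) + LinearMap.toMatrix' k = (B - 1) * LinearMap.toMatrix' k + LinearMap.toMatrix' k := by
    rw [hKA]
  rw [Matrix.mul_sub, Matrix.sub_mul, Matrix.mul_one, Matrix.one_mul, sub_add_cancel, sub_add_cancel] at h6
  exact h6

/-- Conjugacy of involutions in the special unitary group SU_n(q), q even, n ≥ 3, realised over the field F with q² elements as the matrices of determinant 1 preserving the form Σ u_i v_i^q: for two elements of order 2 of SU_n(q) the following are equivalent — they are conjugate in SU_n(q); they are conjugate in SL_n(F); the matrices a − 1 and b − 1 have the same rank. -/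
theorem result {F : Type*} [Field F] [Fintype F] [CharP F 2] {n q : ℕ} (hF : Fintype.card F = q ^ 2) (hn : 3 ≤ n) (a b : ↥(Cfsg.SU n F q)) (ha : orderOf a = 2) (hb : orderOf b = 2) :
    (IsConj a b ↔ IsConj (a : Matrix.SpecialLinearGroup (Fin n) F) (b : Matrix.SpecialLinearGroup (Fin n) F)) ∧
    (IsConj a b ↔ (((a : Matrix.SpecialLinearGroup (Fin n) F) : Matrix (Fin n) (Fin n) F) - 1).rank = (((b : Matrix.SpecialLinearGroup (Fin n) F) : Matrix (Fin n) (Fin n) F) - 1).rank) := by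
  have h1 : IsConj a b → IsConj (a : Matrix.SpecialLinearGroup (Fin n) F) (b : Matrix.SpecialLinearGroup (Fin n) F) := by
    intro h
    exact MonoidHom.map_isConj (Cfsg.SU n F q).subtype h
  have h2 := S2162.rank_sub_one_of_isConj (a : Matrix.SpecialLinearGroup (Fin n) F) (b : Matrix.SpecialLinearGroup (Fin n) F)
  have h3 := su_conj_of_rank hF hn a b ha hb
  exact ⟨⟨h1, fun h => h3 (h2 h)⟩, ⟨fun h => h2 (h1 h), h3⟩⟩

end Cfsg.Agent.S2164
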