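import Cfsg.Statements.S2165

set_option autoImplicit false
open Cfsg

namespace Cfsg.Agent.S2165

/-- In SU_n(q), q even, n ≥ 3 (matrices of determinant 1 over the field with q² elements preserving Σ u_i v_i^q): for every ℓ with 1 ≤ ℓ and 2ℓ ≤ n, the permutation matrix of the involution of {0, …, n−1} exchanging i and n − ℓ + i for each i < ℓ lies in SU_n(q), has order 2, and differs from the identity by a matrix of rank ℓ. So every rank between 1 and n/2 occurs for involutions of SU_n(q). -/
theorem result {F : Type*} [Field F] [Fintype F] [CharP F 2] {n q : ℕ} (hF : Fintype.card F = q ^ 2) (hn : 3 ≤ n) (ℓ : ℕ) (h1 : 1 ≤ ℓ) (h2 : 2 * ℓ ≤ n) :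
    ∃ a : ↥(Cfsg.SU n F q), (((a : Matrix.SpecialLinearGroup (Fin n) F) : Matrix (Fin n) (Fin n) F) = Matrix.of (fun i j : Fin n => if (j.val < ℓ ∧ i.val = j.val + (n - ℓ)) ∨ (i.val < ℓ ∧ j.val = i.val + (n - ℓ)) ∨ (i = j ∧ ℓ ≤ i.val ∧ i.val < n - ℓ) then (1 : F) else 0)) ∧ orderOf a = 2 ∧ ((((a : Matrix.SpecialLinearGroup (Fin n) F) : Matrix (Fin n) (Fin n) F)) - 1).rank = ℓ := by
  classical
  set M : Matrix (Fin n) (Fin n) F := Matrix.of (fun i j : Fin n => if (j.val < ℓ ∧ i.val = j.val + (n - ℓ)) ∨ (i.val < ℓ ∧ j.val = i.val + (n - ℓ)) ∨ (i = j ∧ ℓ ≤ i.val ∧ i.val < n - ℓ) then (1 : F) else 0) with hM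
  let f : Fin n → Fin n := fun i => if h : i.val < ℓ then ⟨i.val + (n - ℓ), by omega⟩ else
    if h' : n - ℓ ≤ i.val then ⟨i.val - (n - ℓ), by omega⟩ else i
  have hf : ∀ i, (f i).val = if i.val < ℓ then i.val + (n - ℓ) else if n - ℓ ≤ i.val then i.val - (n - ℓ) else i.val := by
    intro i
    simp only [f]
    split_ifs <;> rfl
  have hinv : Function.Involutive f := by
    intro i
    apply Fin.ext
    have := i.isLt
    rw [hf, hf]
    split_ifs <;> omega
  let σ : Equiv.Perm (Fin n) := hinv.toPerm
  have hMσ : ∀ i j, M i j = if f i = j then 1 else 0 := by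
    intro i j
    simp only [hM, Matrix.of_apply]
    have := i.isLt
    have := j.isLt
    have hh : ((j.val < ℓ ∧ i.val = j.val + (n - ℓ)) ∨ (i.val < ℓ ∧ j.val = i.val + (n - ℓ)) ∨ (i = j ∧ ℓ ≤ i.val ∧ i.val < n - ℓ)) ↔ f i = j := by
      rw [Fin.ext_iff, Fin.ext_iff, hf]
      split_ifs <;> omega
    simp only [hh]
  have hmulVec : ∀ v : Fin n → F, M.mulVec v = fun i => v (f i) := by
    intro v
    ext i
    simp [Matrix.mulVec, dotProduct, hMσ]
  let C : Matrix (Fin n) (Fin ℓ) F := Matrix.of (fun i k => (if i.val = k.val then (1 : F) else 0) + (if i.val = k.val + (n - ℓ) then (1 : F) else 0))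
  let A : Matrix (Fin n) (Fin ℓ) F := Matrix.of (fun i k => if i.val = k.val then (1 : F) else 0)
  have hAC : A.transpose * C = 1 := by
    ext i j
    simp only [A, C, Matrix.of_apply, Matrix.mul_apply, Matrix.transpose_apply]
    have hi := i.isLt
    have hj := j.isLt
    rw [Finset.sum_eq_single (⟨i.val, by omega⟩ : Fin n)]
    · have h3 : ¬ (i.val = j.val + (n - ℓ)) := by omega
      by_cases hij : i = j
      · subst hij
        have h4 : (if (i.val : ℕ) = i.val + (n - ℓ) then (1 : F) else 0) = 0 := if_neg h3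
        simp only [if_true, one_mul]
        rw [h4, Matrix.one_apply_eq, add_zero]
      · have : i.val ≠ j.val := fun h => hij (Fin.ext h)
        simp [Matrix.one_apply_ne hij, this, h3]
    · intro k _ hk
      have : k.val ≠ i.val := fun h => hk (Fin.ext h)
      simp [this]
    · intro h; exact absurd (Finset.mem_univ _) h
  have hCA : C.transpose * A = 1 := by
    rw [← Matrix.transpose_transpose A, ← Matrix.transpose_mul, hAC, Matrix.transpose_one]
  have hMsq : M * M = 1 := by
    ext i j
    simp only [Matrix.mul_apply, hMσ]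
    simp only [ite_mul, one_mul, zero_mul]
    rw [Finset.sum_ite_eq]
    simp only [Finset.mem_univ, if_true]
    rw [hinv i, Matrix.one_apply]
  have hMC : M - 1 = C * C.transpose := by
    ext i j
    simp only [Matrix.sub_apply, hMσ, C, Matrix.mul_apply, Matrix.transpose_apply, Matrix.of_apply]
    have hi := i.isLt
    have hj := j.isLt
    have hkey : ∀ k : Fin ℓ, ((if i.val = k.val then (1 : F) else 0) + (if i.val = k.val + (n - ℓ) then (1 : F) else 0)) * ((if j.val = k.val then (1 : F) else 0) + (if j.val = k.val + (n - ℓ) then (1 : F) else 0)) = if (i.val = k.val ∨ i.val = k.val + (n - ℓ)) ∧ (j.val = k.val ∨ j.val = k.val + (n - ℓ)) then 1 else 0 := by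
      intro k
      have hk := k.isLt
      split_ifs <;> first | (exfalso; omega) | simp
    rw [Finset.sum_congr rfl (fun k _ => hkey k)]
    by_cases hi1 : i.val < ℓ
    · rw [Finset.sum_eq_single (⟨i.val, hi1⟩ : Fin ℓ)]
      · simp only [Matrix.one_apply, Fin.ext_iff, hf, true_or, true_and]
        split_ifs <;> first | (exfalso; omega) | (simp; done) | (rw [CharTwo.sub_eq_add]; simp [CharTwo.add_self_eq_zero]; done)
      · intro k _ hk
        have hk1 := k.isLt
        have : k.val ≠ i.val := fun h => hk (Fin.ext h)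
        rw [if_neg (by omega)]
      · intro h; exact absurd (Finset.mem_univ _) h
    · by_cases hi2 : n - ℓ ≤ i.val
      · rw [Finset.sum_eq_single (⟨i.val - (n - ℓ), by omega⟩ : Fin ℓ)]
        · simp only [Matrix.one_apply, Fin.ext_iff, hf, true_or, true_and]
          split_ifs <;> first | (exfalso; omega) | (simp; done) | (rw [CharTwo.sub_eq_add]; simp [CharTwo.add_self_eq_zero]; done)
        · intro k _ hk
          have hk1 := k.isLt
          have : k.val ≠ i.val - (n - ℓ) := fun h => hk (Fin.ext h)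
          rw [if_neg (by omega)]
        · intro h; exact absurd (Finset.mem_univ _) h
      · rw [Finset.sum_eq_zero]
        · simp only [Matrix.one_apply, Fin.ext_iff, hf, true_or, true_and]
          split_ifs <;> first | (exfalso; omega) | (simp; done) | (rw [CharTwo.sub_eq_add]; simp [CharTwo.add_self_eq_zero]; done)
        · intro k _
          have hk1 := k.isLt
          rw [if_neg (by omega)]
  have hrank : (M - 1).rank = ℓ := by
    apply le_antisymm
    · rw [hMC]
      calc (C * C.transpose).rank ≤ C.rank := Matrix.rank_mul_le_left _ _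
        _ ≤ Fintype.card (Fin ℓ) := Matrix.rank_le_card_width C
        _ = ℓ := Fintype.card_fin ℓ
    · have h1 : A.transpose * (M - 1) * A = 1 := by
        rw [hMC, ← Matrix.mul_assoc, hAC, Matrix.one_mul, hCA]
      calc ℓ = (1 : Matrix (Fin ℓ) (Fin ℓ) F).rank := by rw [Matrix.rank_one, Fintype.card_fin]
        _ = (A.transpose * (M - 1) * A).rank := by rw [h1]
        _ ≤ (A.transpose * (M - 1)).rank := Matrix.rank_mul_le_left _ _
        _ ≤ (M - 1).rank := Matrix.rank_mul_le_right _ _
  have hdet : M.det = 1 := by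
    have h : M.det * M.det = 1 := by
      rw [← Matrix.det_mul, hMsq, Matrix.det_one]
    have h3 : (M.det + 1) * (M.det + 1) = 0 := by
      calc (M.det + 1) * (M.det + 1) = M.det * M.det + (M.det + M.det) + 1 := by ring
        _ = 0 := by rw [h, CharTwo.add_self_eq_zero, add_zero, CharTwo.add_self_eq_zero]
    have h4 : M.det + 1 = 0 := mul_self_eq_zero.mp h3
    exact CharTwo.add_eq_zero.mp h4
  have hmem : (⟨M, hdet⟩ : Matrix.SpecialLinearGroup (Fin n) F) ∈ Cfsg.SU n F q := by
    intro u v
    show Cfsg.hermForm n F q (M.mulVec u) (M.mulVec v) = Cfsg.hermForm n F q u v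
    rw [hmulVec, hmulVec]
    unfold Cfsg.hermForm
    exact Equiv.sum_comp σ (fun i => u i * (v i) ^ q)
  have hsq2 : ∀ a : ↥(Cfsg.SU n F q), ((a : Matrix.SpecialLinearGroup (Fin n) F) : Matrix (Fin n) (Fin n) F) = M → a ^ 2 = 1 := by
    intro a ha
    rw [pow_two]
    apply Subtype.ext
    apply Subtype.ext
    rw [Subgroup.coe_mul, Matrix.SpecialLinearGroup.coe_mul, ha]
    exact hMsq
  refine ⟨⟨⟨M, hdet⟩, hmem⟩, rfl, ?_, ?_⟩
  · apply orderOf_eq_prime
    · exact hsq2 _ rfl
    · intro h
      have h5 : M = 1 := congrArg (fun x : ↥(Cfsg.SU n F q) => (x.val.val)) h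
      rw [h5, sub_self, Matrix.rank_zero] at hrank
      omega
  · exact hrank

end Cfsg.Agent.S2165
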