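import Cfsg.Statements.S2166
import Cfsg.Agent.Lib.InvolSympMat

set_option autoImplicit false
open Cfsg

namespace Cfsg.Agent.S2166

open Cfsg.Agent.Lib Cfsg.Agent.Lib.InvolSympMat

/-- Conjugacy of involutions in the symplectic group Sp_{2m}(F), F a finite field of characteristic two, m ≥ 2 (Sp taken as the matrices A with A J Aᵀ = J, acting on column vectors, with the alternating form f(u, v) = u ⬝ (J v)). For an involution t write V(t) for the set of vectors v with f(v, t v) = 0 (a subspace). Two involutions a, b are conjugate in Sp_{2m}(F) exactly when a − 1 and b − 1 have the same rank and, in case that rank is even, V(a) and V(b) have the same number of elements. -/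
theorem result {F : Type*} [Field F] [Fintype F] [CharP F 2] {m : ℕ} (hm : 2 ≤ m) (a b : ↥(Matrix.symplecticGroup (Fin m) F)) (ha : orderOf a = 2) (hb : orderOf b = 2) :
    IsConj a b ↔ ((((a : ↥(Matrix.symplecticGroup (Fin m) F)) : Matrix (Fin m ⊕ Fin m) (Fin m ⊕ Fin m) F) - 1).rank = (((b : ↥(Matrix.symplecticGroup (Fin m) F)) : Matrix (Fin m ⊕ Fin m) (Fin m ⊕ Fin m) F) - 1).rank ∧
      (Even (((a : ↥(Matrix.symplecticGroup (Fin m) F)) : Matrix (Fin m ⊕ Fin m) (Fin m ⊕ Fin m) F) - 1).rank → Nat.card {v : Fin m ⊕ Fin m → F // Cfsg.sympForm m F v (Matrix.mulVec ((a : ↥(Matrix.symplecticGroup (Fin m) F)) : Matrix (Fin m ⊕ Fin m) (Fin m ⊕ Fin m) F) v) = 0} = Nat.card {v : Fin m ⊕ Fin m → F // Cfsg.sympForm m F v (Matrix.mulVec ((b : ↥(Matrix.symplecticGroup (Fin m) F)) : Matrix (Fin m ⊕ Fin m) (Fin m ⊕ Fin m) F) v) = 0})) := by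
  constructor
  · intro h
    obtain ⟨c, hc⟩ := isConj_iff.mp h
    have hcinv : ((c : ↥(Matrix.symplecticGroup (Fin m) F)) : Matrix (Fin m ⊕ Fin m) (Fin m ⊕ Fin m) F) * ((c⁻¹ : ↥(Matrix.symplecticGroup (Fin m) F)) : Matrix (Fin m ⊕ Fin m) (Fin m ⊕ Fin m) F) = 1 :=
      congrArg Subtype.val (mul_inv_cancel c)
    have hcinv' : ((c⁻¹ : ↥(Matrix.symplecticGroup (Fin m) F)) : Matrix (Fin m ⊕ Fin m) (Fin m ⊕ Fin m) F) * ((c : ↥(Matrix.symplecticGroup (Fin m) F)) : Matrix (Fin m ⊕ Fin m) (Fin m ⊕ Fin m) F) = 1 :=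
      congrArg Subtype.val (inv_mul_cancel c)
    have hb' : ((b : ↥(Matrix.symplecticGroup (Fin m) F)) : Matrix (Fin m ⊕ Fin m) (Fin m ⊕ Fin m) F) = ((c : ↥(Matrix.symplecticGroup (Fin m) F)) : Matrix (Fin m ⊕ Fin m) (Fin m ⊕ Fin m) F) * ((a : ↥(Matrix.symplecticGroup (Fin m) F)) : Matrix (Fin m ⊕ Fin m) (Fin m ⊕ Fin m) F) * ((c⁻¹ : ↥(Matrix.symplecticGroup (Fin m) F)) : Matrix (Fin m ⊕ Fin m) (Fin m ⊕ Fin m) F) := by
      rw [← hc]; rfl
    constructor
    · have h1 : ((b : ↥(Matrix.symplecticGroup (Fin m) F)) : Matrix (Fin m ⊕ Fin m) (Fin m ⊕ Fin m) F) - 1 = ((c : ↥(Matrix.symplecticGroup (Fin m) F)) : Matrix (Fin m ⊕ Fin m) (Fin m ⊕ Fin m) F) * (((a : ↥(Matrix.symplecticGroup (Fin m) F)) : Matrix (Fin m ⊕ Fin m) (Fin m ⊕ Fin m) F) - 1) * ((c⁻¹ : ↥(Matrix.symplecticGroup (Fin m) F)) : Matrix (Fin m ⊕ Fin m) (Fin m ⊕ Fin m) F) := by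
        rw [hb', Matrix.mul_sub, Matrix.sub_mul, Matrix.mul_one, hcinv]
      have hu1 : IsUnit ((c : ↥(Matrix.symplecticGroup (Fin m) F)) : Matrix (Fin m ⊕ Fin m) (Fin m ⊕ Fin m) F).det :=
        SymplecticGroup.symplectic_det c.2
      have hu2 : IsUnit ((c⁻¹ : ↥(Matrix.symplecticGroup (Fin m) F)) : Matrix (Fin m ⊕ Fin m) (Fin m ⊕ Fin m) F).det :=
        SymplecticGroup.symplectic_det (c⁻¹).2
      rw [h1, Matrix.rank_mul_eq_left_of_isUnit_det _ _ hu2, Matrix.rank_mul_eq_right_of_isUnit_det _ _ hu1]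
    · intro _
      symm
      have key1 : ∀ v : Fin m ⊕ Fin m → F, Cfsg.sympForm m F v (Matrix.mulVec (b : Matrix (Fin m ⊕ Fin m) (Fin m ⊕ Fin m) F) v) = 0 →
          Cfsg.sympForm m F (Matrix.mulVec ((c⁻¹ : ↥(Matrix.symplecticGroup (Fin m) F)) : Matrix (Fin m ⊕ Fin m) (Fin m ⊕ Fin m) F) v)
            (Matrix.mulVec (a : Matrix (Fin m ⊕ Fin m) (Fin m ⊕ Fin m) F) (Matrix.mulVec ((c⁻¹ : ↥(Matrix.symplecticGroup (Fin m) F)) : Matrix (Fin m ⊕ Fin m) (Fin m ⊕ Fin m) F) v)) = 0 := by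
        intro v h2
        rw [hb', ← Matrix.mulVec_mulVec, ← Matrix.mulVec_mulVec] at h2
        rw [← form_mulVec c, Matrix.mulVec_mulVec, hcinv, Matrix.one_mulVec]
        exact h2
      have key2 : ∀ v : Fin m ⊕ Fin m → F, Cfsg.sympForm m F v (Matrix.mulVec (a : Matrix (Fin m ⊕ Fin m) (Fin m ⊕ Fin m) F) v) = 0 →
          Cfsg.sympForm m F (Matrix.mulVec (c : Matrix (Fin m ⊕ Fin m) (Fin m ⊕ Fin m) F) v)
            (Matrix.mulVec (b : Matrix (Fin m ⊕ Fin m) (Fin m ⊕ Fin m) F) (Matrix.mulVec (c : Matrix (Fin m ⊕ Fin m) (Fin m ⊕ Fin m) F) v)) = 0 := by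
        intro v h2
        rw [hb', Matrix.mulVec_mulVec, Matrix.mul_assoc, hcinv', Matrix.mul_one, ← Matrix.mulVec_mulVec, form_mulVec]
        exact h2
      refine Nat.card_congr ⟨fun v => ⟨_, key1 v.1 v.2⟩, fun v => ⟨_, key2 v.1 v.2⟩, ?_, ?_⟩
      · intro v
        apply Subtype.ext
        simp only [Matrix.mulVec_mulVec, hcinv, Matrix.one_mulVec]
      · intro v
        apply Subtype.ext
        simp only [Matrix.mulVec_mulVec, hcinv', Matrix.one_mulVec]
  · rintro ⟨hrank, htype⟩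
    have hsq : ∀ x : F, ∃ y, y * y = x := by
      intro x
      obtain ⟨y, hy⟩ := FiniteField.isSquare_of_char_two (ringChar.eq_iff.mpr inferInstance) x
      exact ⟨y, hy.symm⟩
    have hq : 1 < Fintype.card F := Fintype.one_lt_card
    have hpos : 0 < Fintype.card F ^ (2 * m) := by positivity
    have htype' : (∀ v, sympB m F v (nil ((a : ↥(Matrix.symplecticGroup (Fin m) F)) : Matrix (Fin m ⊕ Fin m) (Fin m ⊕ Fin m) F) v) = 0) ↔ (∀ v, sympB m F v (nil ((b : ↥(Matrix.symplecticGroup (Fin m) F)) : Matrix (Fin m ⊕ Fin m) (Fin m ⊕ Fin m) F) v) = 0) := by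
      simp only [form_nil]
      by_cases he : Even (((a : ↥(Matrix.symplecticGroup (Fin m) F)) : Matrix (Fin m ⊕ Fin m) (Fin m ⊕ Fin m) F) - 1).rank
      · have hcard := htype he
        rcases card_V a ha with ⟨h1, h2⟩ | ⟨h1, h2⟩ <;> rcases card_V b hb with ⟨h3, h4⟩ | ⟨h3, h4⟩
        · exact ⟨fun _ => h3, fun _ => h1⟩
        · exfalso
          rw [← hcard, h2] at h4
          have : Fintype.card F ^ (2 * m) * Fintype.card F = Fintype.card F ^ (2 * m) * 1 := by rw [h4, mul_one]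
          have := Nat.eq_of_mul_eq_mul_left hpos this
          omega
        · exfalso
          rw [hcard, h4] at h2
          have : Fintype.card F ^ (2 * m) * Fintype.card F = Fintype.card F ^ (2 * m) * 1 := by rw [h2, mul_one]
          have := Nat.eq_of_mul_eq_mul_left hpos this
          omega
        · exact ⟨fun h => absurd h h1, fun h => absurd h h3⟩
      · constructor
        · intro hall
          exfalso; apply he
          rw [rank_eq]
          refine InvolSymp.even_rank (sympB m F) (fun v => sympForm_self v) (fun v h => sympForm_nondeg v h) _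
            (nil_nil a ha) (nil_adj a ha) ?_
          intro v
          rw [form_nil]
          exact hall v
        · intro hall
          exfalso; apply he
          rw [hrank, rank_eq]
          refine InvolSymp.even_rank (sympB m F) (fun v => sympForm_self v) (fun v h => sympForm_nondeg v h) _
            (nil_nil b hb) (nil_adj b hb) ?_
          intro v
          rw [form_nil]
          exact hall v
    obtain ⟨g, hg1, hg2⟩ := InvolSymp.exists_conj_alt hsq (sympB m F) (fun v => sympForm_self v)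
      (fun v h => sympForm_nondeg v h) _ _ (nil_nil a ha) (nil_adj a ha) (nil_nil b hb) (nil_adj b hb) hrank htype'
    let G := LinearMap.toMatrix' (g : (Fin m ⊕ Fin m → F) →ₗ[F] (Fin m ⊕ Fin m → F))
    have hG : ∀ v, Matrix.mulVec G v = g v := by
      intro v
      exact LinearMap.toMatrix'_mulVec _ v
    have hGmem : G ∈ Matrix.symplecticGroup (Fin m) F := by
      apply mem_of_preserves
      intro u v
      rw [hG, hG]
      exact hg1 u v
    rw [isConj_iff]
    refine ⟨⟨G, hGmem⟩, ?_⟩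
    rw [mul_inv_eq_iff_eq_mul]
    apply Subtype.ext
    show G * (a : Matrix (Fin m ⊕ Fin m) (Fin m ⊕ Fin m) F) = (b : Matrix (Fin m ⊕ Fin m) (Fin m ⊕ Fin m) F) * G
    rw [Matrix.ext_iff_mulVec]
    intro v
    rw [← Matrix.mulVec_mulVec, ← Matrix.mulVec_mulVec, hG, hG]
    have h1 := hg2 v
    rw [nil_apply, nil_apply, map_sub] at h1
    have h2 : g (Matrix.mulVec (a : Matrix (Fin m ⊕ Fin m) (Fin m ⊕ Fin m) F) v) - g v + g v =
      Matrix.mulVec (b : Matrix (Fin m ⊕ Fin m) (Fin m ⊕ Fin m) F) (g v) - g v + g v := by rw [h1]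
    simpa using h2

end Cfsg.Agent.S2166
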