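import Cfsg.Statements.S2181
import Cfsg.Agent.Lib.ChevInvK

set_option autoImplicit false
open Cfsg

namespace Cfsg.Agent.S2181

/-- The Chevalley group of type E₇ over a finite field of characteristic two (the matrix group generated by the root elements) has exactly five conjugacy classes of elements of order 2. -/
theorem result {F : Type*} [Field F] [Fintype F] [CharP F 2] :
    (ConjClasses.mk '' {g : ↥(Cfsg.Lie.chevE7.group F) | orderOf g = 2}).ncard = 5 := by
  have h := Cfsg.Agent.Lib.ChevInv.ncard_classes (F := F) Cfsg.Agent.Lib.ChevOkE7.good (by simp [Cfsg.Agent.Lib.ChevBruhat.Listed]) (Cfsg.Agent.Lib.ChevInv.ocE7 F) Cfsg.Agent.Lib.ChevInv.tabE7_ok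
    (by decide) (by
      intro A hA
      simp only [List.mem_cons, List.not_mem_nil, or_false] at hA
      rcases hA with rfl | rfl | rfl | rfl | rfl
      · exact ⟨_, Cfsg.Agent.Lib.ChevInv.ceE7_0⟩
      · exact ⟨_, Cfsg.Agent.Lib.ChevInv.ceE7_1⟩
      · exact ⟨_, Cfsg.Agent.Lib.ChevInv.ceE7_2⟩
      · exact ⟨_, Cfsg.Agent.Lib.ChevInv.ceE7_3⟩
      · exact ⟨_, Cfsg.Agent.Lib.ChevInv.ceE7_4⟩) (Cfsg.Agent.Lib.ChevInv.ncE7 F)
  exact h

end Cfsg.Agent.S2181
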