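import Cfsg.Statements.S2191
import Cfsg.Agent.Lib.SftE6

set_option autoImplicit false
open Cfsg

namespace Cfsg.Agent.S2191

open Cfsg.Lie Cfsg.Agent.Lib Cfsg.Agent.Lib.Sft Cfsg.Agent.Lib.TwFix Cfsg.Agent.Lib.TwTab in
theorem core {K : Type*} [Field K] [Fintype K] {q : ℕ} (hq : IsPrimePow q) (hK : Fintype.card K = q ^ 2)
    (M : Subgroup (GL chevE6.Idx K))
    (hM : ∀ g : GL chevE6.Idx K, g ∈ M ↔ g ∈ twistedE6 K q ∧ ∀ i j : chevE6.Idx, ((g : Matrix chevE6.Idx chevE6.Idx K) i j) ^ q = (g : Matrix chevE6.Idx chevE6.Idx K) i j) :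
    M ≠ twistedE6 K q ∧ ∀ H : Subgroup (GL chevE6.Idx K), M ≤ H → H ≤ twistedE6 K q → H = M ∨ H = twistedE6 K q := by
  have e1 : twistedE6 K q = (TwE6.T hq hK).fix := by
    rw [TwE6.twisted_eq (TwE6.hT hK)]
    exact (TwE6.all hq hK).eq_fix
  rw [e1] at hM ⊢
  have hem : ∀ g : GL chevE6.Idx K, ChevFix.em chevE6 (TwE6.frob hq hK : K →+* K) g = g ↔
      ∀ i j : chevE6.Idx, ((g : Matrix chevE6.Idx chevE6.Idx K) i j) ^ q = (g : Matrix chevE6.Idx chevE6.Idx K) i j := by
    intro g
    constructor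
    · intro h i j
      have := congrArg (fun g : GL chevE6.Idx K => (g : Matrix chevE6.Idx chevE6.Idx K) i j) h
      simp only [ChevFix.coe_em, Matrix.map_apply, RingHom.coe_coe, TwE6.frob_eq] at this
      exact this
    · intro h
      apply Units.ext
      ext i j
      rw [ChevFix.coe_em, Matrix.map_apply, RingHom.coe_coe, TwE6.frob_eq]
      exact h i j
  constructor
  · intro h
    have hX := E6.X hq hK
    have hβ : ChevNPerm.Pos chevE6 (⟨68, by decide⟩ : Fin chevE6.nroots) := by unfold ChevNPerm.Pos; decide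
    have hβ2 : (TwE6.T hq hK).ρ (⟨68, by decide⟩ : Fin chevE6.nroots) ≠ ⟨68, by decide⟩ := by
      intro h
      have : tabE6.rh 68 = 68 := congrArg Fin.val h
      revert this
      decide
    -- a scalar outside the subfield
    obtain ⟨t, ht⟩ : ∃ t : K, t ^ q ≠ t := by
      by_contra hcon
      push Not at hcon
      have h1 : Fintype.card K ≤ q := by
        classical
        have h2 : (Finset.univ : Finset K) ⊆ (Polynomial.X ^ q - Polynomial.X : Polynomial K).roots.toFinset := by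
          intro x _
          rw [Multiset.mem_toFinset, Polynomial.mem_roots (FiniteField.X_pow_card_sub_X_ne_zero K hq.one_lt)]
          simp [hcon x]
        calc Fintype.card K = (Finset.univ : Finset K).card := rfl
          _ ≤ _ := Finset.card_le_card h2
          _ ≤ _ := Multiset.toFinset_card_le _
          _ ≤ (Polynomial.X ^ q - Polynomial.X : Polynomial K).natDegree := Polynomial.card_roots' _
          _ = q := FiniteField.X_pow_card_sub_X_natDegree_eq K hq.one_lt
      rw [hK] at h1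
      have h2 := hq.one_lt
      nlinarith
    obtain ⟨y, hy, hyl⟩ := hX.lift _ hβ t (fun h => absurd h hβ2)
    have h1 := ((hem y).2 ((hM y).1 (h ▸ hy)).2)
    have h2 := hX.lift_co hβ hyl
    have h3 : ChevFix.em chevE6 (TwE6.frob hq hK : K →+* K) ((ChevRel.xg chevE6 K (68 : ℕ) t)⁻¹ * y) ∈
      ChevClosed.XS chevE6 K (Ob (TwE6.T hq hK) ⟨68, by decide⟩ \ {⟨68, by decide⟩}) := ChevFix.em_XS TwE6.G _ hyl
    rw [map_mul, map_inv, ChevFix.em_xg TwE6.G, h1] at h3
    have h4 := hX.lift_co (Y := _) hβ h3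
    have h5 := co_uniq TwE6.listed hβ h2 h4
    simp only [RingHom.coe_coe, TwE6.frob_eq] at h5
    exact ht h5.symm
  · intro H h1 h2
    have Z : TH (TwE6.T hq hK) (TwE6.frob hq hK) H := ⟨h2, fun g hg hg' => h1 ((hM g).2 ⟨hg, (hem g).1 hg'⟩)⟩
    rcases E6.main hq hK Z with h | h
    · exact Or.inr h
    · refine Or.inl (le_antisymm (fun g hg => (hM g).2 ⟨h2 hg, (hem g).1 (h g hg)⟩) h1)

/-- In the twisted group ²E₆(q), realised inside the Chevalley group of type E₆ over the field K with q² elements (q a power of the characteristic) as the subgroup generated by the root elements, and products of root elements, that the twisting map fixes, the subgroup of matrices all of whose entries lie in the subfield with q elements (entries c with c^q = c; it contains the subgroup of type F₄ over that subfield) is a proper maximal subgroup. -/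
theorem result {K : Type*} [Field K] [Fintype K] (p : ℕ) [Fact p.Prime] [CharP K p] (q : ℕ) (hq : ∃ a : ℕ, 1 ≤ a ∧ q = p ^ a) (hK : Fintype.card K = q ^ 2) (M : Subgroup (GL Cfsg.Lie.chevE6.Idx K))
    (hM : ∀ g : GL Cfsg.Lie.chevE6.Idx K, g ∈ M ↔ g ∈ Cfsg.Lie.twistedE6 K q ∧ ∀ i j : Cfsg.Lie.chevE6.Idx, ((g : Matrix Cfsg.Lie.chevE6.Idx Cfsg.Lie.chevE6.Idx K) i j) ^ q = (g : Matrix Cfsg.Lie.chevE6.Idx Cfsg.Lie.chevE6.Idx K) i j) :
    M ≠ Cfsg.Lie.twistedE6 K q ∧ ∀ H : Subgroup (GL Cfsg.Lie.chevE6.Idx K), M ≤ H → H ≤ Cfsg.Lie.twistedE6 K q → H = M ∨ H = Cfsg.Lie.twistedE6 K q := by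
  obtain ⟨a, ha, rfl⟩ := hq
  exact core ((Fact.out : p.Prime).isPrimePow.pow (by omega)) hK M hM

end Cfsg.Agent.S2191
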