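import Cfsg.Statements.S2192
import Cfsg.Agent.Lib.SftD4

set_option autoImplicit false
open Cfsg

namespace Cfsg.Agent.S2192

open Cfsg.Lie Cfsg.Agent.Lib Cfsg.Agent.Lib.Sft Cfsg.Agent.Lib.TwFix Cfsg.Agent.Lib.TwTab in
theorem core {K : Type*} [Field K] [Fintype K] {q : ℕ} (hq : IsPrimePow q) (hK : Fintype.card K = q ^ 3)
    (M : Subgroup (GL chevD4.Idx K))
    (hM : ∀ g : GL chevD4.Idx K, g ∈ M ↔ g ∈ twistedD4 K q ∧ ∀ i j : chevD4.Idx, ((g : Matrix chevD4.Idx chevD4.Idx K) i j) ^ q = (g : Matrix chevD4.Idx chevD4.Idx K) i j) :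
    M ≠ twistedD4 K q ∧ ∀ H : Subgroup (GL chevD4.Idx K), M ≤ H → H ≤ twistedD4 K q → H = M ∨ H = twistedD4 K q := by
  have e1 : twistedD4 K q = (TwD4.T hq hK).fix := by
    rw [TwD4.twisted_eq (TwD4.hT hK)]
    exact (TwD4.all hq hK).eq_fix
  rw [e1] at hM ⊢
  have hem : ∀ g : GL chevD4.Idx K, ChevFix.em chevD4 (TwD4.frob hq hK : K →+* K) g = g ↔
      ∀ i j : chevD4.Idx, ((g : Matrix chevD4.Idx chevD4.Idx K) i j) ^ q = (g : Matrix chevD4.Idx chevD4.Idx K) i j := by
    intro g
    constructor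
    · intro h i j
      have := congrArg (fun g : GL chevD4.Idx K => (g : Matrix chevD4.Idx chevD4.Idx K) i j) h
      simp only [ChevFix.coe_em, Matrix.map_apply, RingHom.coe_coe, TwD4.frob_eq] at this
      exact this
    · intro h
      apply Units.ext
      ext i j
      rw [ChevFix.coe_em, Matrix.map_apply, RingHom.coe_coe, TwD4.frob_eq]
      exact h i j
  constructor
  · intro h
    have hX := D4.X hq hK
    have hβ : ChevNPerm.Pos chevD4 (⟨21, by decide⟩ : Fin chevD4.nroots) := by unfold ChevNPerm.Pos; decide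
    have hβ2 : (TwD4.T hq hK).ρ (⟨21, by decide⟩ : Fin chevD4.nroots) ≠ ⟨21, by decide⟩ := by
      intro h
      have : tabD4.rh 21 = 21 := congrArg Fin.val h
      revert this
      decide
    -- a scalar outside the subfield
    obtain ⟨t, ht⟩ : ∃ t : K, t ^ q ≠ t := by
      by_contra hcon
      push Not at hcon
      have h1 : Fintype.card K ≤ q := by
        classical
        have h2 : (Finset.univ : Finset K) ⊆ (Polynomial.X ^ q - Polynomial.X : Polynomial K).roots.toFinset := by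
          intro x _
          rw [Multiset.mem_toFinset, Polynomial.mem_roots (FiniteField.X_pow_card_sub_X_ne_zero K hq.one_lt)]
          simp [hcon x]
        calc Fintype.card K = (Finset.univ : Finset K).card := rfl
          _ ≤ _ := Finset.card_le_card h2
          _ ≤ _ := Multiset.toFinset_card_le _
          _ ≤ (Polynomial.X ^ q - Polynomial.X : Polynomial K).natDegree := Polynomial.card_roots' _
          _ = q := FiniteField.X_pow_card_sub_X_natDegree_eq K hq.one_lt
      rw [hK] at h1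
      exact absurd (Nat.pow_lt_pow_right hq.one_lt (show 1 < 3 by norm_num)) (by rw [pow_one]; omega)
    obtain ⟨y, hy, hyl⟩ := hX.lift _ hβ t (fun h => absurd h hβ2)
    have h1 := ((hem y).2 ((hM y).1 (h ▸ hy)).2)
    have h2 := hX.lift_co hβ hyl
    have h3 : ChevFix.em chevD4 (TwD4.frob hq hK : K →+* K) ((ChevRel.xg chevD4 K (21 : ℕ) t)⁻¹ * y) ∈
      ChevClosed.XS chevD4 K (Ob (TwD4.T hq hK) ⟨21, by decide⟩ \ {⟨21, by decide⟩}) := ChevFix.em_XS TwD4.G _ hyl
    rw [map_mul, map_inv, ChevFix.em_xg TwD4.G, h1] at h3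
    have h4 := hX.lift_co (Y := _) hβ h3
    have h5 := co_uniq TwD4.listed hβ h2 h4
    simp only [RingHom.coe_coe, TwD4.frob_eq] at h5
    exact ht h5.symm
  · intro H h1 h2
    have Z : TH (TwD4.T hq hK) (TwD4.frob hq hK) H := ⟨h2, fun g hg hg' => h1 ((hM g).2 ⟨hg, (hem g).1 hg'⟩)⟩
    rcases D4.main hq hK Z with h | h
    · exact Or.inr h
    · refine Or.inl (le_antisymm (fun g hg => (hM g).2 ⟨h2 hg, (hem g).1 (h g hg)⟩) h1)

/-- In the twisted group ³D₄(q), realised inside the Chevalley group of type D₄ over the field K with q³ elements (q a power of the characteristic) as the subgroup generated by the root elements, and products of root elements, that the twisting map fixes, the subgroup of matrices all of whose entries lie in the subfield with q elements (it contains the subgroup of type G₂ over that subfield) is a proper maximal subgroup. -/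
theorem result {K : Type*} [Field K] [Fintype K] (p : ℕ) [Fact p.Prime] [CharP K p] (q : ℕ) (hq : ∃ a : ℕ, 1 ≤ a ∧ q = p ^ a) (hK : Fintype.card K = q ^ 3) (M : Subgroup (GL Cfsg.Lie.chevD4.Idx K))
    (hM : ∀ g : GL Cfsg.Lie.chevD4.Idx K, g ∈ M ↔ g ∈ Cfsg.Lie.twistedD4 K q ∧ ∀ i j : Cfsg.Lie.chevD4.Idx, ((g : Matrix Cfsg.Lie.chevD4.Idx Cfsg.Lie.chevD4.Idx K) i j) ^ q = (g : Matrix Cfsg.Lie.chevD4.Idx Cfsg.Lie.chevD4.Idx K) i j) :
    M ≠ Cfsg.Lie.twistedD4 K q ∧ ∀ H : Subgroup (GL Cfsg.Lie.chevD4.Idx K), M ≤ H → H ≤ Cfsg.Lie.twistedD4 K q → H = M ∨ H = Cfsg.Lie.twistedD4 K q := by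
  obtain ⟨a, ha, rfl⟩ := hq
  exact core ((Fact.out : p.Prime).isPrimePow.pow (by omega)) hK M hM

end Cfsg.Agent.S2192
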