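import Cfsg.Statements.S2214
import Cfsg.Agent.Lib.ChevSub

set_option autoImplicit false
open Cfsg

namespace Cfsg.Agent.S2214

/-- Let k be an algebraically closed field of prime characteristic p, G the adjoint Chevalley group of type G₂, B₂, D₄, F₄, E₆, E₇ or E₈ over k (the matrix group generated by the root elements x_s(t), t ∈ k, acting on the Lie algebra), q = p^a with a ≥ 1, and K a subgroup of G containing every root element x_s(t) with t^q = t and consisting of matrices all of whose entries c satisfy c^q = c. Then the centralizer of K in G is trivial, and the normalizer of K in G is exactly the set of elements of G all of whose entries c satisfy c^q = c. -/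
theorem result {k : Type*} [Field k] [IsAlgClosed k] (p : ℕ) [Fact p.Prime] [CharP k p] (D : Cfsg.Lie.ChevalleyDatum) (hD : D ∈ [Cfsg.Lie.chevG2, Cfsg.Lie.chevB2, Cfsg.Lie.chevD4, Cfsg.Lie.chevF4, Cfsg.Lie.chevE6, Cfsg.Lie.chevE7, Cfsg.Lie.chevE8]) (a : ℕ) (ha : 1 ≤ a) (K : Subgroup (GL D.Idx k)) (hKG : K ≤ D.group k)
    (hLK : Subgroup.closure {g : GL D.Idx k | ∃ (s : ℕ) (t : k), t ^ (p ^ a) = t ∧ (g : Matrix D.Idx D.Idx k) = D.x k s t} ≤ K)
    (hKfix : ∀ g ∈ K, ∀ i j : D.Idx, ((g : Matrix D.Idx D.Idx k) i j) ^ (p ^ a) = (g : Matrix D.Idx D.Idx k) i j) :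
    D.group k ⊓ Subgroup.centralizer (K : Set (GL D.Idx k)) = ⊥ ∧
    ∀ g : GL D.Idx k, g ∈ D.group k → (g ∈ Subgroup.normalizer (K : Set (GL D.Idx k)) ↔ ∀ i j : D.Idx, ((g : Matrix D.Idx D.Idx k) i j) ^ (p ^ a) = (g : Matrix D.Idx D.Idx k) i j) := by
  obtain ⟨G⟩ := Cfsg.Agent.Lib.ChevRel.good_of_mem hD
  have hq : (p ^ a) ≠ 0 := pow_ne_zero _ (Fact.out : p.Prime).ne_zero
  let σ : k ≃+* k := iterateFrobeniusEquiv k p a
  have hσ : ∀ x, σ x = x ^ (p ^ a) := fun x => rfl
  have hem : ∀ g : GL D.Idx k, Cfsg.Agent.Lib.ChevFix.em D (σ : k →+* k) g = g ↔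
      ∀ i j : D.Idx, ((g : Matrix D.Idx D.Idx k) i j) ^ (p ^ a) = (g : Matrix D.Idx D.Idx k) i j := by
    intro g
    constructor
    · intro h i j
      have := congrArg (fun g : GL D.Idx k => (g : Matrix D.Idx D.Idx k) i j) h
      exact this
    · intro h
      apply Units.ext
      ext i j
      exact h i j
  have hL : ∀ r < D.nroots, ∀ t : k, σ t = t → Cfsg.Agent.Lib.ChevRel.xg D k r t ∈ K := by
    intro r hr t ht
    exact hLK (Subgroup.subset_closure ⟨r, t, ht, Cfsg.Agent.Lib.ChevRel.coe_xg G r t⟩)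
  refine ⟨Cfsg.Agent.Lib.ChevSub.inf_centralizer G hD (fun r hr => hL r hr 1 (map_one σ)), ?_⟩
  intro g hg
  rw [← hem]
  exact Cfsg.Agent.Lib.ChevSub.mem_normalizer_iff_fixed G hD σ hKG hL (fun g hg => (hem g).2 (hKfix g hg)) hg

end Cfsg.Agent.S2214
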