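import Cfsg.Statements.S2227
import Cfsg.Agent.Lib.E6OG
import Cfsg.Agent.S1066

set_option autoImplicit false
open Cfsg

namespace Cfsg.Agent.S2227

open Cfsg.Agent.Lib.E6O in
/-- In the twisted group ²E₆(2) all elements of order 5 are conjugate, and the centralizer of an element of order 5 is isomorphic to the direct product of a cyclic group of order 5 with the alternating group of degree 8. -/
theorem result {K : Type*} [Field K] [Fintype K] (hK : Fintype.card K = 4) :
    (∀ x y : ↥(Cfsg.Lie.twistedE6 K 2), orderOf x = 5 → orderOf y = 5 → IsConj x y) ∧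
      ∀ x : ↥(Cfsg.Lie.twistedE6 K 2), orderOf x = 5 →
        Nonempty (↥(Subgroup.centralizer ({x} : Set ↥(Cfsg.Lie.twistedE6 K 2))) ≃* (Multiplicative (ZMod 5) × ↥(alternatingGroup (Fin 8)))) := by
  haveI : CharP K 2 := charP_of_card_eq_prime_pow (f := 2) (by rw [hK]; norm_num)
  obtain ⟨ω, hω⟩ := exists_om hK
  have h3 : ∀ c : K, c ≠ 0 → c ^ 3 = 1 := by
    intro c hc
    have := FiniteField.pow_card_sub_one_eq_one c hc
    rwa [hK] at this
  have hF : ∃ t : K, t ≠ 0 ∧ t ≠ 1 := by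
    refine ⟨ω, ?_, ?_⟩
    · rintro rfl
      simp at hω
    · rintro rfl
      simp at hω
  have hcard := Cfsg.Agent.S1066.result (K := K) (q := 2) (Nat.Prime.isPrimePow (by norm_num)) (by rw [hK]; norm_num)
  have hfac := fact5 hK hcard
  haveI : Finite ↥(Cfsg.Lie.twistedE6 K 2) := by
    apply Nat.finite_of_card_ne_zero
    intro h
    rw [h] at hfac
    simp at hfac
  obtain ⟨r1, r2, r3, r4, r5, r6, r7, r8⟩ := rels hω h3
  have key : ∀ z : ↥(Cfsg.Lie.twistedE6 K 2), orderOf z = 5 → IsConj (x0 hω h3) z := by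
    intro z hz
    obtain ⟨i, j, hij⟩ := sylow5 hfac r1 (x0_ne hω h3) r2 r3 (x1_notMem hω h3) z hz
    refine (fusion r1 r2 r3 r4 r5 r6 r7 r8 i j ?_).trans hij.symm
    rintro ⟨h1, h2⟩
    have e1 : x0 hω h3 ^ i = 1 := by
      rw [← Nat.div_add_mod i 5, h1, add_zero, pow_mul, r1, one_pow]
    have e2 : x1 hω h3 ^ j = 1 := by
      rw [← Nat.div_add_mod j 5, h2, add_zero, pow_mul, r2, one_pow]
    rw [e1, e2, one_mul, isConj_one_left] at hij
    rw [hij, orderOf_one] at hz
    exact absurd hz (by norm_num)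
  refine ⟨fun x y hx hy => (key x hx).symm.trans (key y hy), ?_⟩
  intro z hz
  obtain ⟨g, hg⟩ := isConj_iff.1 (key z hz)
  obtain ⟨e⟩ := cx_iso hω h3 hF
  have hmap : (Subgroup.centralizer ({x0 hω h3} : Set ↥(Cfsg.Lie.twistedE6 K 2))).map (MulAut.conj g).toMonoidHom =
      Subgroup.centralizer ({z} : Set ↥(Cfsg.Lie.twistedE6 K 2)) := by
    ext y
    rw [Subgroup.mem_centralizer_singleton_iff]
    constructor
    · rintro ⟨c, hc, rfl⟩
      have hc' := Subgroup.mem_centralizer_singleton_iff.1 hc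
      change g * c * g⁻¹ * z = z * (g * c * g⁻¹)
      rw [← hg]
      calc g * c * g⁻¹ * (g * x0 hω h3 * g⁻¹) = g * (c * x0 hω h3) * g⁻¹ := by group
        _ = g * (x0 hω h3 * c) * g⁻¹ := by rw [hc']
        _ = _ := by group
    · intro hy
      refine ⟨g⁻¹ * y * g, ?_, ?_⟩
      · apply Subgroup.mem_centralizer_singleton_iff.2
        have h1 : x0 hω h3 = g⁻¹ * z * g := by rw [← hg]; group
        rw [h1]
        calc g⁻¹ * y * g * (g⁻¹ * z * g) = g⁻¹ * (y * z) * g := by group
          _ = g⁻¹ * (z * y) * g := by rw [hy]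
          _ = _ := by group
      · change g * (g⁻¹ * y * g) * g⁻¹ = y
        group
  have e1 := (Subgroup.centralizer ({x0 hω h3} : Set ↥(Cfsg.Lie.twistedE6 K 2))).equivMapOfInjective (MulAut.conj g).toMonoidHom
    (MulAut.conj g).injective
  exact ⟨(e1.trans (MulEquiv.subgroupCongr hmap)).symm.trans e⟩

end Cfsg.Agent.S2227
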