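-- Statement S2231: PSL2(p^n), p odd, does not involve Qd(p).
import Cfsg.Statements.S2231
import Cfsg.Agent.Lib.QdFree

set_option autoImplicit false
set_option linter.unusedSectionVars false
open Cfsg

namespace Cfsg.Agent.S2231

open Cfsg.Agent.Lib.QdFree Subgroup

variable {p : ℕ} [hp : Fact p.Prime] {K : Type*} [Field K] [Fintype K] [CharP K p]

/-- A matrix in `SL₂(K)` fixing a nonzero vector is a `p`-element. -/
theorem isPElem_of_fix (g : Matrix.SpecialLinearGroup (Fin 2) K) (v : Fin 2 → K) (hv : v ≠ 0)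
    (h : (g : Matrix (Fin 2) (Fin 2) K).mulVec v = v) : IsPElem p g := by
  refine ⟨1, ?_⟩
  have hdet := g.det_coe
  rw [Matrix.det_fin_two] at hdet
  have h0 := congrFun h 0
  have h1 := congrFun h 1
  simp only [Matrix.mulVec, dotProduct, Fin.sum_univ_two] at h0 h1
  set a := (g : Matrix (Fin 2) (Fin 2) K) 0 0
  set b := (g : Matrix (Fin 2) (Fin 2) K) 0 1
  set c := (g : Matrix (Fin 2) (Fin 2) K) 1 0
  set d := (g : Matrix (Fin 2) (Fin 2) K) 1 1
  have htr : a + d = 2 := by
    -- det (g - 1) = 0
    have hdet0 : (a - 1) * (d - 1) - b * c = 0 := by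
      by_contra hne
      apply hv
      have e0 : ((a - 1) * (d - 1) - b * c) * v 0 = 0 := by linear_combination (d - 1) * h0 - b * h1
      have e1 : ((a - 1) * (d - 1) - b * c) * v 1 = 0 := by linear_combination (a - 1) * h1 - c * h0
      ext i
      fin_cases i
      · exact (mul_eq_zero.1 e0).resolve_left hne
      · exact (mul_eq_zero.1 e1).resolve_left hne
    linear_combination hdet - hdet0
  have hsq : ((g : Matrix (Fin 2) (Fin 2) K) - 1) ^ 2 = 0 := by
    ext i j
    rw [pow_two, Matrix.mul_apply, Fin.sum_univ_two]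
    fin_cases i <;> fin_cases j
    · show (a - 1) * (a - 1) + (b - 0) * (c - 0) = 0
      linear_combination a * htr - hdet
    · show (a - 1) * (b - 0) + (b - 0) * (d - 1) = 0
      linear_combination b * htr
    · show (c - 0) * (a - 1) + (d - 1) * (c - 0) = 0
      linear_combination c * htr
    · show (c - 0) * (b - 0) + (d - 1) * (d - 1) = 0
      linear_combination d * htr - hdet
  have h4 : (g : Matrix (Fin 2) (Fin 2) K) ^ (p ^ 1) = 1 :=
    pow_eq_one_of_sub_one_pow hsq (by rw [pow_one]; exact hp.out.two_le)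
  apply Subtype.ext
  simpa using h4

/-- If `g v = l v` with `v ≠ 0` and `g` a `p`-element in characteristic `p` then `g v = v`. -/
theorem fix_of_isPElem (g : Matrix.SpecialLinearGroup (Fin 2) K) (v : Fin 2 → K) (hv : v ≠ 0)
    (l : K) (h : (g : Matrix (Fin 2) (Fin 2) K).mulVec v = l • v) (hg : IsPElem p g) :
    (g : Matrix (Fin 2) (Fin 2) K).mulVec v = v := by
  obtain ⟨k, hk⟩ := hg
  have h1 : ∀ n : ℕ, ((g : Matrix (Fin 2) (Fin 2) K) ^ n).mulVec v = l ^ n • v := by
    intro n
    induction n with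
    | zero => simp
    | succ n ih => rw [pow_succ, ← Matrix.mulVec_mulVec, h, Matrix.mulVec_smul, ih, smul_smul, pow_succ, mul_comm]
  have h2 := h1 (p ^ k)
  have h3 : (g : Matrix (Fin 2) (Fin 2) K) ^ (p ^ k) = 1 := by
    have := congrArg (fun x : Matrix.SpecialLinearGroup (Fin 2) K => (x : Matrix (Fin 2) (Fin 2) K)) hk
    simpa using this
  rw [h3, Matrix.one_mulVec] at h2
  have h4 : l ^ (p ^ k) = 1 := by
    obtain ⟨i, hi⟩ := Function.ne_iff.1 hv
    have := congrFun h2 i
    simp only [Pi.smul_apply, smul_eq_mul] at this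
    have h5 : (l ^ (p ^ k) - 1) * v i = 0 := by rw [sub_mul, ← this, one_mul, sub_self]
    exact sub_eq_zero.1 ((mul_eq_zero.1 h5).resolve_right hi)
  have h5 : l - 1 = 0 := by
    have := sub_one_pow_of_pow_eq_one (p := p) h4
    exact pow_eq_zero_iff (pow_pos hp.out.pos k).ne' |>.1 this
  rw [h, sub_eq_zero.1 h5, one_smul]

/-- Let p be an odd prime and K a finite field of characteristic p. Then Qd(p) (the natural semidirect product of an elementary abelian group of order p² by SL₂(p)) is not involved in the projective special linear group PSL₂(K). -/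
theorem result {p : ℕ} [Fact p.Prime] (hp : p ≠ 2) {K : Type*} [Field K] [Fintype K] [CharP K p] : ¬ Cfsg.Involves ↥(Cfsg.qd p) (Matrix.ProjectiveSpecialLinearGroup (Fin 2) K) := by
  intro hinv
  classical
  obtain ⟨H, π, hπ⟩ := exists_surjective_of_involves_quotient _ hinv
  refine not_qd_quotient (p := p) ?_ H π hπ
  intro Q hQ hQ1 x hx y hy hxp hyp
  -- a common fixed vector of Q
  let act : MulAction Q (Fin 2 → K) :=
    { smul := fun q v => ((q : Matrix.SpecialLinearGroup (Fin 2) K) : Matrix (Fin 2) (Fin 2) K).mulVec v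
      one_smul := fun v => Matrix.one_mulVec v
      mul_smul := fun a b v => by
        show ((((a * b : Q) : Matrix.SpecialLinearGroup (Fin 2) K) : Matrix (Fin 2) (Fin 2) K)).mulVec v = _
        rw [Subgroup.coe_mul, Matrix.SpecialLinearGroup.coe_mul, ← Matrix.mulVec_mulVec]
        rfl }
  have hsmul : ∀ (q : Q) (v : Fin 2 → K), q • v =
    ((q : Matrix.SpecialLinearGroup (Fin 2) K) : Matrix (Fin 2) (Fin 2) K).mulVec v := fun _ _ => rfl
  have hcard : p ∣ Nat.card (Fin 2 → K) := by
    rw [Nat.card_eq_fintype_card, Fintype.card_fun, Fintype.card_fin]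
    exact ((CharP.cast_eq_zero_iff K p _).1 (Nat.cast_card_eq_zero K)).trans (dvd_pow_self _ (by norm_num))
  obtain ⟨v, hv, hv0⟩ := hQ.exists_fixed_point_of_prime_dvd_card_of_fixed_point (Fin 2 → K) hcard
    (a := 0) (by
      intro q
      rw [hsmul, Matrix.mulVec_zero])
  have hv0' : v ≠ 0 := hv0.symm
  have hfix : ∀ q ∈ Q, (q : Matrix (Fin 2) (Fin 2) K).mulVec v = v := fun q hq => hv ⟨q, hq⟩
  -- uniqueness of the fixed line
  have huniq : ∀ w : Fin 2 → K, (∀ q ∈ Q, (q : Matrix (Fin 2) (Fin 2) K).mulVec w = w) →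
      v 0 * w 1 - v 1 * w 0 = 0 := by
    intro w hw
    by_contra hne
    apply hQ1
    rw [Subgroup.eq_bot_iff_forall]
    intro q hq
    have e1 := hfix q hq
    have e2 := hw q hq
    have a0 := congrFun e1 0
    have a1 := congrFun e1 1
    have b0 := congrFun e2 0
    have b1 := congrFun e2 1
    simp only [Matrix.mulVec, dotProduct, Fin.sum_univ_two] at a0 a1 b0 b1
    ext i j
    fin_cases i <;> fin_cases j
    · show (q : Matrix (Fin 2) (Fin 2) K) 0 0 = 1
      have : (v 0 * w 1 - v 1 * w 0) * ((q : Matrix (Fin 2) (Fin 2) K) 0 0 - 1) = 0 := by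
        linear_combination w 1 * a0 - v 1 * b0
      exact sub_eq_zero.1 ((mul_eq_zero.1 this).resolve_left hne)
    · show (q : Matrix (Fin 2) (Fin 2) K) 0 1 = 0
      have : (v 0 * w 1 - v 1 * w 0) * ((q : Matrix (Fin 2) (Fin 2) K) 0 1) = 0 := by
        linear_combination v 0 * b0 - w 0 * a0
      exact ((mul_eq_zero.1 this).resolve_left hne)
    · show (q : Matrix (Fin 2) (Fin 2) K) 1 0 = 0
      have : (v 0 * w 1 - v 1 * w 0) * ((q : Matrix (Fin 2) (Fin 2) K) 1 0) = 0 := by
        linear_combination w 1 * a1 - v 1 * b1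
      exact ((mul_eq_zero.1 this).resolve_left hne)
    · show (q : Matrix (Fin 2) (Fin 2) K) 1 1 = 1
      have : (v 0 * w 1 - v 1 * w 0) * ((q : Matrix (Fin 2) (Fin 2) K) 1 1 - 1) = 0 := by
        linear_combination v 0 * b1 - w 0 * a1
      exact sub_eq_zero.1 ((mul_eq_zero.1 this).resolve_left hne)
  -- every p-element of the normalizer fixes v
  have hnorm : ∀ z ∈ normalizer (Q : Set (Matrix.SpecialLinearGroup (Fin 2) K)), IsPElem p z →
      (z : Matrix (Fin 2) (Fin 2) K).mulVec v = v := by
    intro z hz hzp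
    have hw : ∀ q ∈ Q, (q : Matrix (Fin 2) (Fin 2) K).mulVec ((z : Matrix (Fin 2) (Fin 2) K).mulVec v) =
        (z : Matrix (Fin 2) (Fin 2) K).mulVec v := by
      intro q hq
      have h1 : z⁻¹ * q * z ∈ Q := by
        have := (mem_normalizer_iff.1 hz (z⁻¹ * q * z)).2
        apply this
        simpa [mul_assoc] using hq
      have h2 := hfix _ h1
      have h3 : (q : Matrix (Fin 2) (Fin 2) K) * (z : Matrix (Fin 2) (Fin 2) K) =
          (z : Matrix (Fin 2) (Fin 2) K) * ((z⁻¹ * q * z : Matrix.SpecialLinearGroup (Fin 2) K) : Matrix (Fin 2) (Fin 2) K) := by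
        rw [← Matrix.SpecialLinearGroup.coe_mul, ← Matrix.SpecialLinearGroup.coe_mul]
        rw [show q * z = z * (z⁻¹ * q * z) by group]
      rw [Matrix.mulVec_mulVec, h3, ← Matrix.mulVec_mulVec, h2]
    have h4 := huniq _ hw
    set w := (z : Matrix (Fin 2) (Fin 2) K).mulVec v with hwdef
    have : ∃ l : K, w = l • v := by
      by_cases h0 : v 0 = 0
      · have h1 : v 1 ≠ 0 := by
          intro h1
          apply hv0'
          ext i
          fin_cases i
          · exact h0
          · exact h1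
        refine ⟨w 1 / v 1, ?_⟩
        ext i
        fin_cases i
        · show w 0 = w 1 / v 1 * v 0
          rw [h0] at h4 ⊢
          have : v 1 * w 0 = 0 := by linear_combination - h4
          rw [(mul_eq_zero.1 this).resolve_left h1, mul_zero]
        · show w 1 = w 1 / v 1 * v 1
          field_simp
      · refine ⟨w 0 / v 0, ?_⟩
        ext i
        fin_cases i
        · show w 0 = w 0 / v 0 * v 0
          field_simp
        · show w 1 = w 0 / v 0 * v 1
          field_simp
          linear_combination h4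
    obtain ⟨l, hl⟩ := this
    exact fix_of_isPElem z v hv0' l hl hzp
  apply isPElem_of_fix _ v hv0'
  rw [Matrix.SpecialLinearGroup.coe_mul, ← Matrix.mulVec_mulVec, hnorm y hy hyp, hnorm x hx hxp]

end Cfsg.Agent.S2231
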