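import Cfsg.Statements.S2241
import Cfsg.Agent.Lib.SuzukiMax

set_option autoImplicit false
open Cfsg

namespace Cfsg.Agent.S2241

/-- Real 2-elements of the Suzuki group: with q = 2^(2m+1), m ≥ 1, and the group realised as the stabiliser in SL₄ of the Suzuki–Tits ovoid, a non-identity element of a Sylow 2-subgroup is conjugate to its inverse if and only if it is an involution; in particular no element of order 4 is conjugate to its inverse. -/
theorem result {F : Type*} [Field F] [Fintype F] {m : ℕ} (hm : 1 ≤ m) (hF : Fintype.card F = 2 ^ (2 * m + 1)) (P : Sylow 2 ↥(Cfsg.Sz F m)) (g : ↥(Cfsg.Sz F m)) (hg : g ∈ (P : Subgroup ↥(Cfsg.Sz F m))) (h1 : g ≠ 1) :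
    IsConj g g⁻¹ ↔ orderOf g = 2 := by
  have : CharP F 2 := Cfsg.Agent.Lib.SuzukiFin.charTwo hF
  have hθ := Cfsg.Agent.Lib.SuzukiFin.th_sq hF
  have hne := Cfsg.Agent.Lib.SuzukiFin.th_ne hm hF
  have hSz := Cfsg.Agent.Lib.SuzukiFin.Sz_eq (F := F) m
  generalize Cfsg.Sz F m = X at g P hSz
  subst hSz
  obtain ⟨p, hp⟩ := Cfsg.Agent.Lib.SuzukiPts.sylow_eq _ hθ hne P
  rw [hp] at hg
  constructor
  · intro h
    have h2 := Cfsg.Agent.Lib.SuzukiMax.real_two _ hθ hne hg h
    exact orderOf_eq_prime h2 h1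
  · intro h
    have h2 : g ^ 2 = 1 := h ▸ pow_orderOf_eq_one g
    have h3 : g⁻¹ = g := inv_eq_of_mul_eq_one_left (by rw [← sq, h2])
    rw [h3]

end Cfsg.Agent.S2241
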