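import Cfsg.Statements.S2244
import Cfsg.Agent.Lib.ChevWCData

set_option autoImplicit false
open Cfsg

namespace Cfsg.Agent.S2244

set_option maxRecDepth 100000
open Cfsg.Agent.Lib.ChevWC Cfsg.Agent.Lib.ChevWCData Cfsg.Agent.Lib.ChevGood

/-- Weakly closed unipotent subgroups of Chevalley groups: let G be the Chevalley group of type G₂, B₂, D₄, F₄, E₆, E₇ or E₈ over a finite field F (the matrix group generated by the root elements), with |F| ≠ 2, and |F| ≠ 3 as well for the types G₂, B₂, D₄, F₄. Let U be the subgroup generated by the positive root subgroups. If X ≤ U is weakly closed in U with respect to G (every G-conjugate of X lying in U equals X), then X is the unipotent radical U_J of a standard parabolic subgroup for some set J of fundamental roots. -/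
theorem result {F : Type*} [Field F] [Fintype F] (D : Cfsg.Lie.ChevalleyDatum) (hD : D ∈ [Cfsg.Lie.chevG2, Cfsg.Lie.chevB2, Cfsg.Lie.chevD4, Cfsg.Lie.chevF4, Cfsg.Lie.chevE6, Cfsg.Lie.chevE7, Cfsg.Lie.chevE8])
    (h2 : Fintype.card F ≠ 2) (h3 : D ∈ [Cfsg.Lie.chevG2, Cfsg.Lie.chevB2, Cfsg.Lie.chevD4, Cfsg.Lie.chevF4] → Fintype.card F ≠ 3)
    (X : Subgroup (GL D.Idx F)) (hXU : X ≤ D.posUnipotent F)
    (hwc : ∀ g ∈ D.group F, X.map (MulAut.conj g).toMonoidHom ≤ D.posUnipotent F → X.map (MulAut.conj g).toMonoidHom = X) :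
    ∃ J : Set ℕ, (∀ j ∈ J, j < D.rank) ∧ X = D.unipotentRadical F J := by
  have hcard : 2 ≤ Fintype.card F := Fintype.one_lt_card
  have h3' : 3 ≤ Fintype.card F := by omega
  simp only [List.mem_cons, List.not_mem_nil, or_false] at hD
  rcases hD with rfl | rfl | rfl | rfl | rfl | rfl | rfl
  · have h4 : 4 ≤ Fintype.card F := by
      have := h3 (by simp)
      omega
    exact weakly_closed Cfsg.Agent.Lib.ChevOkG2.good cG2 sG2 h3' (fun _ => h4) (fun _ _ _ _ => h4) hXU hwc
  · have h4 : 4 ≤ Fintype.card F := by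
      have := h3 (by simp)
      omega
    exact weakly_closed Cfsg.Agent.Lib.ChevOkB2.good cB2 sB2 h3' (fun _ => h4) (fun _ _ _ _ => h4) hXU hwc
  · have h4 : 4 ≤ Fintype.card F := by
      have := h3 (by simp)
      omega
    exact weakly_closed Cfsg.Agent.Lib.ChevOkD4.good cD4 sD4 h3' (fun _ => h4) (fun _ _ _ _ => h4) hXU hwc
  · have h4 : 4 ≤ Fintype.card F := by
      have := h3 (by simp)
      omega
    exact weakly_closed Cfsg.Agent.Lib.ChevOkF4.good cF4 sF4 h3' (fun _ => h4) (fun _ _ _ _ => h4) hXU hwc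
  · exact weakly_closed Cfsg.Agent.Lib.ChevOkE6.good cE6 sE6 h3' (fun h => absurd h (by decide))
      (fun p hp h0 _ => absurd ((by decide : ∀ p ∈ LE6, p.1 = 0) p hp) h0) hXU hwc
  · exact weakly_closed Cfsg.Agent.Lib.ChevOkE7.good cE7 sE7 h3' (fun h => absurd h (by decide))
      (fun p hp h0 _ => absurd ((by decide : ∀ p ∈ LE7, p.1 = 0) p hp) h0) hXU hwc
  · exact weakly_closed Cfsg.Agent.Lib.ChevOkE8.good cE8 sE8 h3' (fun h => absurd h (by decide))
      (fun p hp h0 _ => absurd ((by decide : ∀ p ∈ LE8, p.1 = 0) p hp) h0) hXU hwc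

end Cfsg.Agent.S2244
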