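import Cfsg.Statements.S2255
import Cfsg.Agent.Lib.NilpPerm5

set_option autoImplicit false
open Cfsg

namespace Cfsg.Agent.S2255

open Cfsg.Agent.Lib.NilpPerm

/-- Let n be a natural number not congruent to 3 modulo 4, with n ∉ {5, 6, 9}. Then every nilpotent subgroup of the alternating group on n letters has order at most the order of a Sylow 2-subgroup of the alternating group (so the nilpotent subgroups of largest order are exactly the Sylow 2-subgroups). -/
theorem result  (n : ℕ) (hn : n % 4 ≠ 3)
    (h5 : n ≠ 5) (h6 : n ≠ 6) (h9 : n ≠ 9)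
    (N : Subgroup (alternatingGroup (Fin n))) (hN : Group.IsNilpotent N)
    (P : Sylow 2 (alternatingGroup (Fin n))) :
    Nat.card N ≤ Nat.card P := by
  have h1 := card_le_A' N hN
  by_cases h2 : n < 2
  · rw [A_lt h2] at h1
    exact h1.trans Nat.card_pos
  · have h3 := card_sylow_alt (by omega) P
    have h4 := two_A_of (n := n) (by omega) (by omega) h5 h6 h9
    rw [B_of_ne hn, ← h3] at h4
    omega

end Cfsg.Agent.S2255
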