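import Cfsg.Statements.S2257
import Cfsg.Agent.Lib.SolubB

set_option autoImplicit false
open Cfsg

namespace Cfsg.Agent.S2257

/-- Let G = PSL_2(F) with F a field of order q = 2^p, p prime, and for x ∈ G call the solubilizer of x the set of y ∈ G such that x and y generate a solvable subgroup. Then the solubilizer of an involution has 3q(q − 1) elements; that of a non-identity element of order dividing q − 1 has 2q(q − 1) elements; and that of a non-identity element of order dividing q + 1 has 2(q + 1) elements. -/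
theorem result (p : ℕ) (hp : p.Prime) {F : Type*} [Field F] [Fintype F]
    (hF : Fintype.card F = 2 ^ p) (x : Matrix.ProjectiveSpecialLinearGroup (Fin 2) F) :
    (orderOf x = 2 → Nat.card {y : Matrix.ProjectiveSpecialLinearGroup (Fin 2) F // Group.IsSolvable ↥(Subgroup.closure ({x, y} : Set (Matrix.ProjectiveSpecialLinearGroup (Fin 2) F)))} = 3 * 2 ^ p * (2 ^ p - 1)) ∧
    (x ≠ 1 → orderOf x ∣ 2 ^ p - 1 → Nat.card {y : Matrix.ProjectiveSpecialLinearGroup (Fin 2) F // Group.IsSolvable ↥(Subgroup.closure ({x, y} : Set (Matrix.ProjectiveSpecialLinearGroup (Fin 2) F)))} = 2 * 2 ^ p * (2 ^ p - 1)) ∧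
    (x ≠ 1 → orderOf x ∣ 2 ^ p + 1 → Nat.card {y : Matrix.ProjectiveSpecialLinearGroup (Fin 2) F // Group.IsSolvable ↥(Subgroup.closure ({x, y} : Set (Matrix.ProjectiveSpecialLinearGroup (Fin 2) F)))} = 2 * (2 ^ p + 1)) := by
  classical
  have hcard : Nat.card F = 2 ^ p := by rw [Nat.card_eq_fintype_card, hF]
  have hp1 : 1 ≤ p := hp.one_lt.le
  haveI : CharP F 2 := by
    obtain ⟨r, hr⟩ := CharP.exists F
    haveI := Fact.mk (CharP.char_is_prime F r)
    obtain ⟨n, hpn, hn⟩ := FiniteField.card F r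
    have h1 : r ∣ 2 ^ p := by
      rw [← hF, hn]; exact dvd_pow_self r n.ne_zero
    have h2 : r = 2 := (Nat.prime_dvd_prime_iff_eq hpn Nat.prime_two).mp (hpn.dvd_of_dvd_pow h1)
    rw [← h2]; exact hr
  have h2 : (2 : F) = 0 := CharP.cast_eq_zero F 2
  have heven : 2 ∣ 2 ^ p := dvd_pow_self 2 (by omega)
  have hpos : 1 ≤ 2 ^ p := Nat.one_le_two_pow
  obtain ⟨e⟩ := Lib.SL2EvenMisc.exists_psl_equiv (F := F)
  obtain ⟨X, rfl⟩ := e.surjective x
  have ho : orderOf (e X) = orderOf X := orderOf_injective e.toMonoidHom e.injective X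
  have hne : e X ≠ 1 ↔ X ≠ 1 := by
    rw [not_iff_not]
    exact map_eq_one_iff e e.injective
  rw [ho, hne, Lib.Solubil.card_map e X]
  have htr : X ≠ 1 → Lib.SL2Basic.tr X = 0 → orderOf X = 2 := by
    intro h h'
    rw [orderOf_eq_prime_iff]
    exact ⟨by rw [pow_two]; exact Lib.Solubil.sq_one h', h⟩
  have htr' : orderOf X = 2 → X ≠ 1 ∧ Lib.SL2Basic.tr X = 0 := by
    intro h
    obtain ⟨h3, h4⟩ := orderOf_eq_prime_iff.mp h
    refine ⟨h4, ?_⟩
    by_contra h5
    apply h4
    have h6 := Lib.SL2Basic.sq_eq X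
    rw [← Matrix.SpecialLinearGroup.coe_mul, ← pow_two, h3, Matrix.SpecialLinearGroup.coe_one] at h6
    have h7 : Lib.SL2Basic.tr X • (X : Matrix (Fin 2) (Fin 2) F) = 0 := by
      have h8 : Lib.SL2Basic.tr X • (X : Matrix (Fin 2) (Fin 2) F) = 1 + 1 := by
        rw [eq_sub_iff_add_eq] at h6; exact h6.symm
      rw [h8, ← two_smul F, h2, zero_smul]
    rcases smul_eq_zero.mp h7 with h8 | h8
    · exact absurd h8 h5
    · have h9 := Lib.SL2Basic.det2 X
      rw [h8] at h9
      simp at h9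
  have hco : ∀ n, n ∣ 2 ^ p - 1 → n ∣ 2 ^ p + 1 → n = 1 := by
    intro n h3 h4
    have h5 : n ∣ 2 := by
      have := Nat.dvd_sub h4 h3
      have h6 : 2 ^ p + 1 - (2 ^ p - 1) = 2 := by omega
      rwa [h6] at this
    rcases (Nat.dvd_prime Nat.prime_two).mp h5 with h6 | h6
    · exact h6
    · rw [h6] at h4
      omega
  refine ⟨?_, ?_, ?_⟩
  · intro h
    obtain ⟨h3, h4⟩ := htr' h
    rw [Lib.Solubil.count_a h3 h4, hcard, mul_assoc]
  · intro h h'
    have ht : Lib.SL2Basic.tr X ≠ 0 := by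
      intro h3
      rw [htr h h3] at h'
      omega
    have hroot : ∃ c : F, c ^ 2 - Lib.SL2Basic.tr X * c + 1 = 0 := by
      by_contra hcon
      push Not at hcon
      have h3 := Lib.SL2Basic.pow_card_add_one_of_no_root X hcon
      rw [hF] at h3
      have h4 := hco _ h' (orderOf_dvd_of_pow_eq_one h3)
      exact h (orderOf_eq_one_iff.mp h4)
    obtain ⟨c, hc⟩ := hroot
    rw [Lib.Solubil.count_b ht hc, hcard, mul_assoc]
  · intro h h'
    have ht : Lib.SL2Basic.tr X ≠ 0 := by
      intro h3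
      rw [htr h h3] at h'
      omega
    have hroot : ∀ c : F, c ^ 2 - Lib.SL2Basic.tr X * c + 1 ≠ 0 := by
      intro c hc
      have h4 : (4 : F) = 0 := by linear_combination 2 * h2
      have h3 := Lib.SL2Tori.pow_card_sub_one_of_root (A := X) (by rw [h4]; exact pow_ne_zero 2 ht) hc
      rw [hF] at h3
      have h4 := hco _ (orderOf_dvd_of_pow_eq_one h3) h'
      exact h (orderOf_eq_one_iff.mp h4)
    rw [Lib.Solubil.count_c hroot, hcard]

end Cfsg.Agent.S2257
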