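import Cfsg.Statements.S2259
import Cfsg.Agent.Lib.SuzukiSolv4
import Cfsg.Agent.Lib.SuzukiLie
import Cfsg.Agent.Lib.SuzukiStr4

set_option autoImplicit false
open Cfsg

namespace Cfsg.Agent.S2259

open Cfsg.Agent.Lib Cfsg.Agent.Lib.SuzukiOvoid Cfsg.Agent.Lib.SuzukiGroup Cfsg.Agent.Lib.SuzukiFin
  Cfsg.Agent.Lib.SuzukiStab Cfsg.Agent.Lib.SuzukiSyl Cfsg.Agent.Lib.SuzukiPts
  Cfsg.Agent.Lib.SuzukiTor Cfsg.Agent.Lib.SuzukiNoFix Cfsg.Agent.Lib.SuzukiStr2 in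
theorem aux {F : Type*} [Field F] [Finite F] [CharP F 2] (θ : F ≃+* F)
    (hθ : ∀ x, θ (θ x) = x ^ 2) (hne : ∃ x, θ x ≠ x ^ 2) {m : ℕ} (hm : 1 ≤ m)
    (hp : (2 * m + 1).Prime)
    (hF : Nat.card F = 2 ^ (2 * m + 1)) (hTop : SzSub θ ⊤ = ⊤) (x : Gz θ) :
    (orderOf x = 2 → Nat.card {y : Gz θ // Group.IsSolvable (Subgroup.closure ({x, y} : Set (Gz θ)))}
      = (2 ^ (2 * m + 1)) ^ 2 * (4 * 2 ^ (2 * m + 1) - 3)) ∧
    (orderOf x = 4 → Nat.card {y : Gz θ // Group.IsSolvable (Subgroup.closure ({x, y} : Set (Gz θ)))}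
      = (2 ^ (2 * m + 1)) ^ 2 * (2 ^ (2 * m + 1) + 3)) ∧
    (x ≠ 1 → orderOf x ∣ 2 ^ (2 * m + 1) - 1 →
      Nat.card {y : Gz θ // Group.IsSolvable (Subgroup.closure ({x, y} : Set (Gz θ)))}
      = 2 * (2 ^ (2 * m + 1)) ^ 2 * (2 ^ (2 * m + 1) - 1)) ∧
    (x ≠ 1 → orderOf x ∣ 2 ^ (2 * m + 1) + 2 ^ (m + 1) + 1 →
      Nat.card {y : Gz θ // Group.IsSolvable (Subgroup.closure ({x, y} : Set (Gz θ)))}
      = 4 * (2 ^ (2 * m + 1) + 2 ^ (m + 1) + 1)) ∧
    (x ≠ 1 → orderOf x ∣ 2 ^ (2 * m + 1) - 2 ^ (m + 1) + 1 →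
      Nat.card {y : Gz θ // Group.IsSolvable (Subgroup.closure ({x, y} : Set (Gz θ)))}
      = 4 * (2 ^ (2 * m + 1) - 2 ^ (m + 1) + 1)) := by
  have hK : ∀ K : Subfield F, (∃ x ∈ K, x ≠ 0 ∧ x ≠ 1) → K = ⊤ :=
    fun K h => SuzukiSolv4.subfield_dichotomy hp hF K h
  -- numerical facts
  set Q := 2 ^ (2 * m + 1) with hQ
  set R := 2 ^ (m + 1) with hR
  have hRR : R * R = 2 * Q := by rw [hR, hQ]; ring
  have hR2 : 2 ≤ R := by
    rw [hR]
    calc 2 = 2 ^ 1 := by norm_num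
      _ ≤ _ := Nat.pow_le_pow_right (by norm_num) (by omega)
  have hR4 : 4 ≤ R := by
    rw [hR]
    calc 4 = 2 ^ 2 := by norm_num
      _ ≤ _ := Nat.pow_le_pow_right (by norm_num) (by omega)
  have hRQ : R ≤ Q := by nlinarith
  have hRe : Even R := by rw [hR, pow_succ]; exact even_two.mul_left _
  have hQe : Even Q := by rw [hQ, pow_succ]; exact even_two.mul_left _
  have hprod : (Q + R + 1) * (Q - R + 1) = Q ^ 2 + 1 := by
    zify [hRQ]
    have : (R : ℤ) * R = 2 * Q := by exact_mod_cast hRR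
    linear_combination -this
  have hcopA : Nat.Coprime (Q ^ 2 + 1) (Q - 1) := by
    have h1 : Nat.gcd (Q ^ 2 + 1) (Q - 1) ∣ 2 := by
      have h2 := Nat.gcd_dvd_left (Q ^ 2 + 1) (Q - 1)
      have h3 := Nat.gcd_dvd_right (Q ^ 2 + 1) (Q - 1)
      have h4 : Q ^ 2 + 1 = (Q - 1) * (Q + 1) + 2 := by
        obtain ⟨k, hk⟩ : ∃ k, Q = k + 1 := ⟨Q - 1, by omega⟩
        rw [hk, Nat.add_sub_cancel]; ring
      have h6 : Nat.gcd (Q ^ 2 + 1) (Q - 1) ∣ (Q - 1) * (Q + 1) := dvd_mul_of_dvd_left h3 _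
      have h7 : Nat.gcd (Q ^ 2 + 1) (Q - 1) ∣ (Q - 1) * (Q + 1) + 2 := by
        rw [← h4]; exact h2
      exact (Nat.dvd_add_right h6).mp h7
    have h5 : Odd (Nat.gcd (Q ^ 2 + 1) (Q - 1)) := by
      apply Odd.of_dvd_nat _ (Nat.gcd_dvd_left _ _)
      exact (hQe.pow_of_ne_zero two_ne_zero).add_one
    rcases (Nat.dvd_prime Nat.prime_two).mp h1 with h6 | h6
    · exact h6
    · rw [h6] at h5
      exact absurd h5 (by decide)
  have hcopB : Nat.Coprime (Q + R + 1) (Q - R + 1) := by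
    have h1 : Nat.gcd (Q + R + 1) (Q - R + 1) ∣ 2 * R := by
      have h2 := Nat.gcd_dvd_left (Q + R + 1) (Q - R + 1)
      have h3 := Nat.gcd_dvd_right (Q + R + 1) (Q - R + 1)
      have h4 := Nat.dvd_sub h2 h3
      have h5 : Q + R + 1 - (Q - R + 1) = 2 * R := by omega
      rwa [h5] at h4
    have h5 : Odd (Nat.gcd (Q + R + 1) (Q - R + 1)) := by
      apply Odd.of_dvd_nat _ (Nat.gcd_dvd_left _ _)
      exact (hQe.add hRe).add_one
    have h6 : 2 * R = 2 ^ (m + 2) := by rw [hR]; ring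
    rw [h6] at h1
    obtain ⟨k, -, hk⟩ := (Nat.dvd_prime_pow Nat.prime_two).mp h1
    rw [hk] at h5
    rcases Nat.eq_zero_or_pos k with h7 | h7
    · rw [h7, pow_zero] at hk; exact hk
    · exfalso
      rw [← Nat.not_even_iff_odd] at h5
      exact h5 ((Nat.even_pow.mpr ⟨even_two, by omega⟩))
  have hone : ∀ {a b : ℕ}, Nat.Coprime a b → orderOf x ∣ a → orderOf x ∣ b → x = 1 := by
    intro a b h h1 h2
    exact orderOf_eq_one_iff.mp (Nat.eq_one_of_dvd_coprimes h h1 h2)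
  have hodd4 : ∀ {a : ℕ}, Odd a → orderOf x ∣ a → x ^ 4 = 1 → x = 1 := by
    intro a ha h1 h2
    have h3 := orderOf_dvd_of_pow_eq_one h2
    have h4 : Nat.Coprime a 4 := Nat.Coprime.pow_right 2 (Nat.coprime_two_right.mpr ha)
    exact hone h4 h1 h3
  have hTpo : ∀ {p p' : ov θ}, p ≠ p' → x ∈ Tp θ p p' → orderOf x ∣ Q - 1 := by
    intro p p' hpp h
    have h1 : orderOf (⟨x, h⟩ : Tp θ p p') ∣ Nat.card (Tp θ p p') := orderOf_dvd_natCard _
    rwa [Subgroup.orderOf_mk, card_Tp θ hθ hne hpp, hF] at h1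
  -- the torus cases
  have hnofix : ∀ {a : ℕ}, a ∣ Q ^ 2 + 1 → x ≠ 1 → orderOf x ∣ a → NoFix θ x := by
    intro a ha hx1 hxa
    have hxa' := hxa.trans ha
    rcases types θ hθ hne x with h | ⟨p, h⟩ | ⟨p, p', hpp, h⟩ | h
    · exact absurd (Subgroup.mem_bot.mp h) hx1
    · exact absurd (hodd4 ((hQe.pow_of_ne_zero two_ne_zero).add_one) hxa' (Up_pow4 θ hθ hne h)) hx1
    · exact absurd (hone hcopA hxa' (hTpo hpp h)) hx1
    · exact h
  have hself : orderOf x ∣ Nat.card (Subgroup.centralizer {x}) := by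
    have h1 : orderOf (⟨x, Subgroup.mem_centralizer_singleton_iff.mpr rfl⟩ :
      Subgroup.centralizer {x}) ∣ _ := orderOf_dvd_natCard _
    rwa [Subgroup.orderOf_mk] at h1
  refine ⟨?_, ?_, ?_, ?_, ?_⟩
  · intro hx
    rw [SuzukiSolv4.main_two θ hθ hne hm hF hK hTop hx, hF]
  · intro hx
    rw [SuzukiSolv4.main_four θ hθ hne hm hF hK hTop hx, hF]
  · intro hx1 hx
    have hQ1 : Odd (Q - 1) := by
      rw [Nat.odd_sub (by omega)]
      simp [hQe]
    rcases types θ hθ hne x with h | ⟨p, h⟩ | ⟨p, p', hpp, h⟩ | h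
    · exact absurd (Subgroup.mem_bot.mp h) hx1
    · exact absurd (hodd4 hQ1 hx (Up_pow4 θ hθ hne h)) hx1
    · rw [SuzukiSolv4.main_Tp θ hθ hne hm hF hK hTop hpp h hx1, hF]
    · exfalso
      apply hx1
      have h2 : orderOf x ∣ Q ^ 2 + 1 := by
        apply hself.trans
        rw [← hprod]
        rcases (SuzukiPart.noFix_card θ hθ hne hm hF h).1 with h3 | h3
        · rw [h3]; exact dvd_mul_right _ _
        · have h4 : Nat.card (Subgroup.centralizer {x}) = Q - R + 1 := by omega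
          rw [h4]; exact dvd_mul_left _ _
      exact hone hcopA h2 hx
  · intro hx1 hx
    have hnf := hnofix (hprod ▸ dvd_mul_right _ _) hx1 hx
    rw [SuzukiSolv4.main_noFix θ hθ hne hm hF hK hTop hnf hx1]
    rcases (SuzukiPart.noFix_card θ hθ hne hm hF hnf).1 with h3 | h3
    · rw [h3]
    · exfalso
      have h4 : Nat.card (Subgroup.centralizer {x}) = Q - R + 1 := by omega
      rw [h4] at hself
      exact hx1 (hone hcopB hx hself)
  · intro hx1 hx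
    have hnf := hnofix (hprod ▸ dvd_mul_left _ _) hx1 hx
    rw [SuzukiSolv4.main_noFix θ hθ hne hm hF hK hTop hnf hx1]
    rcases (SuzukiPart.noFix_card θ hθ hne hm hF hnf).1 with h3 | h3
    · exfalso
      rw [h3] at hself
      exact hx1 (hone hcopB hself hx)
    · congr 1
      omega

/-- transport -/
theorem transport {G G' : Type*} [Group G] [Group G'] (e : G ≃* G') (x : G) :
    Nat.card {y : G // Group.IsSolvable (Subgroup.closure ({x, y} : Set G))} =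
    Nat.card {y : G' // Group.IsSolvable (Subgroup.closure ({e x, y} : Set G'))} := by
  refine Nat.card_congr (e.toEquiv.subtypeEquiv (fun y => ?_))
  have h1 : (Subgroup.closure ({x, y} : Set G)).map e.toMonoidHom =
      Subgroup.closure ({e x, e y} : Set G') := by
    rw [MonoidHom.map_closure, Set.image_pair]
    rfl
  have e2 : Subgroup.closure ({x, y} : Set G) ≃* Subgroup.closure ({e x, e y} : Set G') :=
    ((Subgroup.closure ({x, y} : Set G)).equivMapOfInjective e.toMonoidHom e.injective).trans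
      (MulEquiv.subgroupCongr h1)
  constructor
  · intro h
    exact Group.isSolvable_of_surjective (f := e2.toMonoidHom) e2.surjective
  · intro h
    exact Group.isSolvable_of_surjective (f := e2.symm.toMonoidHom) e2.symm.surjective

/-- Let G be the Suzuki group Sz(q), q = 2^(2m+1) with 2m + 1 prime and m ≥ 1, realised inside Sp_4(F) for F the field of order q, write r = 2^(m+1) (so r² = 2q), and for x ∈ G call the solubilizer of x the set of y ∈ G such that x and y generate a solvable subgroup. Then the solubilizer of an involution has q²(4q − 3) elements; that of an element of order 4 has q²(q + 3) elements; that of a non-identity element of order dividing q − 1 has 2q²(q − 1) elements; that of a non-identity element of order dividing q + r + 1 has 4(q + r + 1) elements; and that of a non-identity element of order dividing q − r + 1 has 4(q − r + 1) elements. -/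
theorem result {F : Type*} [Field F] [Fintype F] {m : ℕ} (hm : 1 ≤ m)
    (hp : (2 * m + 1).Prime) (hF : Fintype.card F = 2 ^ (2 * m + 1)) (x : ↥(Cfsg.Lie.Sz F (2 ^ (m + 1)))) :
    (orderOf x = 2 → Nat.card {y : ↥(Cfsg.Lie.Sz F (2 ^ (m + 1))) // Group.IsSolvable ↥(Subgroup.closure ({x, y} : Set (↥(Cfsg.Lie.Sz F (2 ^ (m + 1))))))} = (2 ^ (2 * m + 1)) ^ 2 * (4 * 2 ^ (2 * m + 1) - 3)) ∧
    (orderOf x = 4 → Nat.card {y : ↥(Cfsg.Lie.Sz F (2 ^ (m + 1))) // Group.IsSolvable ↥(Subgroup.closure ({x, y} : Set (↥(Cfsg.Lie.Sz F (2 ^ (m + 1))))))} = (2 ^ (2 * m + 1)) ^ 2 * (2 ^ (2 * m + 1) + 3)) ∧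
    (x ≠ 1 → orderOf x ∣ 2 ^ (2 * m + 1) - 1 →
      Nat.card {y : ↥(Cfsg.Lie.Sz F (2 ^ (m + 1))) // Group.IsSolvable ↥(Subgroup.closure ({x, y} : Set (↥(Cfsg.Lie.Sz F (2 ^ (m + 1))))))} = 2 * (2 ^ (2 * m + 1)) ^ 2 * (2 ^ (2 * m + 1) - 1)) ∧
    (x ≠ 1 → orderOf x ∣ 2 ^ (2 * m + 1) + 2 ^ (m + 1) + 1 → Nat.card {y : ↥(Cfsg.Lie.Sz F (2 ^ (m + 1))) // Group.IsSolvable ↥(Subgroup.closure ({x, y} : Set (↥(Cfsg.Lie.Sz F (2 ^ (m + 1))))))} = 4 * (2 ^ (2 * m + 1) + 2 ^ (m + 1) + 1)) ∧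
    (x ≠ 1 → orderOf x ∣ 2 ^ (2 * m + 1) - 2 ^ (m + 1) + 1 → Nat.card {y : ↥(Cfsg.Lie.Sz F (2 ^ (m + 1))) // Group.IsSolvable ↥(Subgroup.closure ({x, y} : Set (↥(Cfsg.Lie.Sz F (2 ^ (m + 1))))))} = 4 * (2 ^ (2 * m + 1) - 2 ^ (m + 1) + 1)) := by
  have : CharP F 2 := Cfsg.Agent.Lib.SuzukiFin.charTwo hF
  have hθ := Cfsg.Agent.Lib.SuzukiFin.th_sq hF
  have hne := Cfsg.Agent.Lib.SuzukiFin.th_ne hm hF
  have hSz := Cfsg.Agent.Lib.SuzukiFin.Sz_eq (F := F) m
  have hq : Nat.card F = 2 ^ (2 * m + 1) := by rw [Nat.card_eq_fintype_card, hF]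
  have hTop : Cfsg.Agent.Lib.SuzukiStr2.SzSub (Cfsg.Agent.Lib.SuzukiFin.th F m) ⊤ = ⊤ :=
    Cfsg.Agent.Lib.SuzukiStr4.SzSub_top
  have e := (Cfsg.Agent.Lib.SuzukiLie.szEquiv m hm hF).symm.trans (MulEquiv.subgroupCongr hSz)
  have h := aux _ hθ hne hm hp hq hTop (e x)
  rw [← transport e x, MulEquiv.orderOf_eq] at h
  have h1 : e x ≠ 1 ↔ x ≠ 1 := by
    rw [Ne, Ne, MulEquiv.map_eq_one_iff]
  rw [h1] at h
  exact h

end Cfsg.Agent.S2259
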