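import Cfsg.Statements.S2268

set_option autoImplicit false
open Cfsg
open scoped Pointwise

namespace Cfsg.Agent.S2268

/-- Let G be a finite group with an abelian Sylow p-subgroup P and let Q ≤ P. Then N_G(Q) = (N_G(Q) ∩ N_G(P))·C_G(Q), so that N_G(Q)/C_G(Q) is a homomorphic image of the subgroup (N_G(Q) ∩ N_G(P))/C_G(P) of N_G(P)/C_G(P); in particular the order of N_G(Q)/C_G(Q) divides the order of N_G(P)/C_G(P). -/
theorem result {G : Type*} [Group G] [Finite G] {p : ℕ} [Fact p.Prime]
    (P : Sylow p G) (hP : IsMulCommutative (P : Subgroup G)) (Q : Subgroup G) (hQ : Q ≤ (P : Subgroup G)) :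
    Subgroup.normalizer (Q : Set G) =
      (Subgroup.normalizer (Q : Set G) ⊓ Subgroup.normalizer ((P : Subgroup G) : Set G)) ⊔ Subgroup.centralizer (Q : Set G) ∧
    ((Subgroup.centralizer (Q : Set G)).subgroupOf (Subgroup.normalizer (Q : Set G))).index ∣ ((Subgroup.centralizer ((P : Subgroup G) : Set G)).subgroupOf (Subgroup.normalizer ((P : Subgroup G) : Set G))).index := by
  have hPQ : (P : Subgroup G) ≤ Subgroup.centralizer (Q : Set G) := by
    intro x hx
    rw [Subgroup.mem_centralizer_iff]
    intro y hy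
    have := hP.is_comm.comm ⟨y, hQ hy⟩ ⟨x, hx⟩
    simpa using congrArg Subtype.val this
  have hCN : Subgroup.centralizer (Q : Set G) ≤ Subgroup.normalizer (Q : Set G) := by
    intro x hx
    rw [Subgroup.mem_centralizer_iff] at hx
    rw [Subgroup.mem_normalizer_iff]
    intro y
    constructor
    · intro hy
      rw [← hx y hy, mul_inv_cancel_right]
      exact hy
    · intro hy
      have h1 := hx _ hy
      have h2 : y = x * y * x⁻¹ := by
        have : x * y * x⁻¹ * x = x * (x * y * x⁻¹) := h1
        rw [inv_mul_cancel_right] at this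
        exact mul_left_cancel this
      rw [h2]; exact hy
  have h1 : Subgroup.normalizer (Q : Set G) =
      (Subgroup.normalizer (Q : Set G) ⊓ Subgroup.normalizer ((P : Subgroup G) : Set G)) ⊔ Subgroup.centralizer (Q : Set G) := by
    apply le_antisymm _ (sup_le inf_le_left hCN)
    intro g hg
    have hgP : ((g • P : Sylow p G) : Subgroup G) ≤ Subgroup.centralizer (Q : Set G) := by
      intro x hx
      have hx' : g⁻¹ * x * g ∈ (P : Subgroup G) := by
        have : x ∈ MulAut.conj g • (P : Subgroup G) := hx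
        rw [Subgroup.mem_pointwise_smul_iff_inv_smul_mem] at this
        simpa [MulAut.smul_def] using this
      have h3 := hPQ hx'
      rw [Subgroup.mem_centralizer_iff] at h3 ⊢
      intro y hy
      have hy' : g⁻¹ * y * g ∈ (Q : Subgroup G) := by
        have := (Subgroup.mem_normalizer_iff.1 (inv_mem hg) y).1 hy
        simpa using this
      have h4 := h3 _ hy'
      have h5 : g⁻¹ * (y * x) * g = g⁻¹ * (x * y) * g := by
        calc g⁻¹ * (y * x) * g = g⁻¹ * y * g * (g⁻¹ * x * g) := by group
          _ = g⁻¹ * x * g * (g⁻¹ * y * g) := h4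
          _ = _ := by group
      exact mul_left_cancel (mul_right_cancel h5)
    obtain ⟨c, hc⟩ := MulAction.exists_smul_eq (Subgroup.centralizer (Q : Set G)) (P.subtype hPQ) ((g • P).subtype hgP)
    rw [Sylow.smul_subtype] at hc
    have hc' := Sylow.subtype_injective hc
    have h6 : (c : G)⁻¹ * g ∈ Subgroup.normalizer ((P : Subgroup G) : Set G) := by
      refine Sylow.smul_eq_iff_mem_normalizer.1 ?_
      rw [mul_smul, ← hc', Subgroup.smul_def, inv_smul_smul]
    have h7 : (c : G)⁻¹ * g ∈ Subgroup.normalizer (Q : Set G) := mul_mem (inv_mem (hCN c.2)) hg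
    have h8 : g = (c : G) * ((c : G)⁻¹ * g) := by group
    rw [h8]
    exact mul_mem (Subgroup.mem_sup_right c.2) (Subgroup.mem_sup_left ⟨h7, h6⟩)
  refine ⟨h1, ?_⟩
  set NQ := Subgroup.normalizer (Q : Set G) with hNQ
  set NP := Subgroup.normalizer ((P : Subgroup G) : Set G) with hNP
  set CQ := Subgroup.centralizer (Q : Set G) with hCQ
  set CP := Subgroup.centralizer ((P : Subgroup G) : Set G) with hCP
  change CQ.relIndex NQ ∣ CP.relIndex NP
  have hle : NQ ⊓ NP ≤ Subgroup.normalizer (CQ : Set G) := by
    intro x hx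
    have hx1 := hx.1
    have key : ∀ x ∈ NQ, ∀ y ∈ CQ, x * y * x⁻¹ ∈ CQ := by
      intro x hx y hy
      rw [hCQ, Subgroup.mem_centralizer_iff] at hy ⊢
      intro z hz
      have hz' : x⁻¹ * z * x ∈ Q := by
        have := (Subgroup.mem_normalizer_iff.1 (inv_mem hx) z).1 hz
        simpa using this
      have := hy _ hz'
      calc z * (x * y * x⁻¹) = x * ((x⁻¹ * z * x) * y) * x⁻¹ := by group
        _ = x * (y * (x⁻¹ * z * x)) * x⁻¹ := by rw [this]
        _ = _ := by group
    rw [Subgroup.mem_normalizer_iff]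
    intro y
    constructor
    · exact key x hx1 y
    · intro hy
      have := key x⁻¹ (inv_mem hx1) _ hy
      simpa [mul_assoc] using this
  have h9 : CQ.relIndex NQ = CQ.relIndex (NQ ⊓ NP) := by
    conv_lhs => rw [h1]
    letI := Subgroup.normal_subgroupOf_of_le_normalizer hle
    letI := Subgroup.normal_subgroupOf_sup_of_le_normalizer hle
    exact (Nat.card_congr (QuotientGroup.quotientInfEquivProdNormalizerQuotient (NQ ⊓ NP) CQ hle).toEquiv).symm
  have hCPle : CP ≤ NQ ⊓ NP := by
    have hCPCQ : CP ≤ CQ := Subgroup.centralizer_le (by exact_mod_cast hQ)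
    refine le_inf (hCPCQ.trans hCN) ?_
    intro x hx
    rw [hCP, Subgroup.mem_centralizer_iff] at hx
    rw [hNP, Subgroup.mem_normalizer_iff]
    intro y
    constructor
    · intro hy
      rw [← hx y hy, mul_inv_cancel_right]
      exact hy
    · intro hy
      have h1 := hx _ hy
      have h2 : y = x * y * x⁻¹ := by
        have : x * y * x⁻¹ * x = x * (x * y * x⁻¹) := h1
        rw [inv_mul_cancel_right] at this
        exact mul_left_cancel this
      rw [h2]; exact hy
  rw [h9, ← Subgroup.relIndex_mul_relIndex CP (NQ ⊓ NP) NP hCPle inf_le_right]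
  exact Dvd.dvd.mul_right (Subgroup.relIndex_dvd_of_le_left _ (Subgroup.centralizer_le (by exact_mod_cast hQ))) _

end Cfsg.Agent.S2268
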