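import Cfsg.Statements.S2270

set_option autoImplicit false
open Cfsg

namespace Cfsg.Agent.S2270

/-- an element of the normaliser of `H` inverting some `x ∈ H` with `x ≠ x⁻¹` shows `|N(H)/C(H)|` is even -/
theorem two_dvd {G : Type*} [Group G] (H : Subgroup G) (x n : G) (hx : x ∈ H) (hx2 : x ≠ x⁻¹)
    (hn : n ∈ Subgroup.normalizer (H : Set G)) (hinv : n⁻¹ * x * n = x⁻¹) :
    2 ∣ ((Subgroup.centralizer (H : Set G)).subgroupOf (Subgroup.normalizer (H : Set G))).index := by
  by_contra hodd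
  rw [← even_iff_two_dvd, Nat.not_even_iff_odd] at hodd
  set m := ((Subgroup.centralizer (H : Set G)).subgroupOf (Subgroup.normalizer (H : Set G))).index with hm
  have hpow : ∀ k : ℕ, (n ^ k)⁻¹ * x * n ^ k = if Even k then x else x⁻¹ := by
    intro k
    induction k with
    | zero => simp
    | succ k ih =>
      have h1 : (n ^ (k + 1))⁻¹ * x * n ^ (k + 1) = n⁻¹ * ((n ^ k)⁻¹ * x * n ^ k) * n := by
        rw [pow_succ]; group
      rw [h1, ih]
      by_cases hk : Even k
      · rw [if_pos hk, if_neg (by rw [Nat.even_add_one]; simpa using hk), hinv]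
      · rw [if_neg hk, if_pos (by rw [Nat.even_add_one]; exact hk)]
        have h2 : n⁻¹ * x⁻¹ * n = (n⁻¹ * x * n)⁻¹ := by group
        rw [h2, hinv, inv_inv]
  have hker : (Subgroup.centralizer (H : Set G)).subgroupOf (Subgroup.normalizer (H : Set G)) = H.normalizerMonoidHom.ker :=
    (Subgroup.normalizerMonoidHom_ker H).symm
  have hnorm : ((Subgroup.centralizer (H : Set G)).subgroupOf (Subgroup.normalizer (H : Set G))).Normal := by
    rw [hker]; infer_instance
  have h3 := Subgroup.pow_index_mem ((Subgroup.centralizer (H : Set G)).subgroupOf (Subgroup.normalizer (H : Set G))) ⟨n, hn⟩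
  rw [← hm, Subgroup.mem_subgroupOf] at h3
  have h4 : n ^ m ∈ Subgroup.centralizer (H : Set G) := h3
  have h5 := (Subgroup.mem_centralizer_iff.1 h4) x hx
  have h6 := hpow m
  rw [if_neg (Nat.not_even_iff_odd.2 hodd), mul_assoc, h5, ← mul_assoc, inv_mul_cancel, one_mul] at h6
  exact hx2 h6

/-- Let n ≥ 3, p an odd prime, and P an abelian Sylow p-subgroup of the symmetric group S_n (with p dividing n!, so that P ≠ 1). Then N(P)/C(P) has even order. -/
theorem result (n : ℕ) (hn : 3 ≤ n) {p : ℕ} [Fact p.Prime] (hp : p ≠ 2) (hpn : p ≤ n)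
    (P : Sylow p (Equiv.Perm (Fin n))) (hP : IsMulCommutative (P : Subgroup (Equiv.Perm (Fin n)))) :
    2 ∣ ((Subgroup.centralizer ((P : Subgroup (Equiv.Perm (Fin n))) : Set (Equiv.Perm (Fin n)))).subgroupOf (Subgroup.normalizer ((P : Subgroup (Equiv.Perm (Fin n))) : Set (Equiv.Perm (Fin n))))).index := by
  have hp' : p.Prime := Fact.out
  have hdvd : p ∣ Nat.card (Equiv.Perm (Fin n)) := by
    rw [Nat.card_eq_fintype_card, Fintype.card_perm, Fintype.card_fin]
    exact Nat.dvd_factorial hp'.pos hpn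
  have hdvd' : p ∣ Nat.card P := P.dvd_card_of_dvd_card hdvd
  obtain ⟨x, hx⟩ := exists_prime_orderOf_dvd_card' p hdvd'
  have hxne : (x : Equiv.Perm (Fin n)) ≠ (x : Equiv.Perm (Fin n))⁻¹ := by
    intro h
    have h1 : (x : Equiv.Perm (Fin n)) ^ 2 = 1 := by
      rw [sq]; nth_rewrite 2 [h]; exact mul_inv_cancel _
    have h2 := orderOf_dvd_of_pow_eq_one h1
    rw [Subgroup.orderOf_coe, hx] at h2
    exact hp ((Nat.prime_dvd_prime_iff_eq hp' Nat.prime_two).1 h2)
  have hconj : IsConj (x : Equiv.Perm (Fin n)) (x : Equiv.Perm (Fin n))⁻¹ := by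
    rw [Equiv.Perm.isConj_iff_cycleType_eq, Equiv.Perm.cycleType_inv]
  obtain ⟨g, hg⟩ := isConj_iff.1 hconj
  have h1 : (g⁻¹)⁻¹ * (x : Equiv.Perm (Fin n)) * g⁻¹ ∈ (P : Subgroup (Equiv.Perm (Fin n))) := by
    rw [inv_inv, hg]
    exact inv_mem x.2
  obtain ⟨k, hk, hk'⟩ := P.conj_eq_normalizer_conj_of_mem (x : Equiv.Perm (Fin n)) g⁻¹ x.2 h1
  rw [inv_inv, hg] at hk'
  exact two_dvd _ _ k x.2 hxne hk hk'.symm

end Cfsg.Agent.S2270
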