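import Cfsg.Statements.S2269
import Cfsg.Agent.S2270

set_option autoImplicit false
open Cfsg

namespace Cfsg.Agent.S2269

open Equiv Equiv.Perm

/-- conjugate in `S_n` with centraliser not inside `A_n` gives conjugate in `A_n` -/
theorem conj_alt {n : ℕ} (x y : alternatingGroup (Fin n))
    (hxy : IsConj (x : Perm (Fin n)) (y : Perm (Fin n)))
    (hc : ¬ Subgroup.centralizer ({(x : Perm (Fin n))} : Set (Perm (Fin n))) ≤ alternatingGroup (Fin n)) :
    ∃ g : alternatingGroup (Fin n), g * x * g⁻¹ = y := by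
  obtain ⟨s, hs⟩ := isConj_iff.1 hxy
  obtain ⟨c, hc1, hc2⟩ := SetLike.not_le_iff_exists.1 hc
  rw [Equiv.Perm.mem_alternatingGroup] at hc2
  have hc3 : Equiv.Perm.sign c = -1 := (Int.units_eq_one_or _).resolve_left hc2
  rw [Subgroup.mem_centralizer_iff] at hc1
  have hc4 := hc1 _ rfl
  rcases Int.units_eq_one_or (Equiv.Perm.sign s) with h | h
  · refine ⟨⟨s, Equiv.Perm.mem_alternatingGroup.2 h⟩, ?_⟩
    apply Subtype.ext
    simpa using hs
  · refine ⟨⟨s * c, Equiv.Perm.mem_alternatingGroup.2 (by rw [map_mul, h, hc3]; norm_num)⟩, ?_⟩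
    apply Subtype.ext
    simp only [Subgroup.coe_mul, InvMemClass.coe_inv, mul_inv_rev]
    rw [← hs]
    calc s * c * (x : Perm (Fin n)) * (c⁻¹ * s⁻¹) = s * (c * (x : Perm (Fin n))) * c⁻¹ * s⁻¹ := by group
      _ = s * ((x : Perm (Fin n)) * c) * c⁻¹ * s⁻¹ := by rw [hc4]
      _ = _ := by group

theorem odd_case (n : ℕ) (_hn : 5 ≤ n) {p : ℕ} [Fact p.Prime] (hp2 : p ≠ 2)
    (P : Sylow p (alternatingGroup (Fin n))) (hP : IsMulCommutative (P : Subgroup (alternatingGroup (Fin n)))) :
    2 ∣ ((Subgroup.centralizer ((P : Subgroup (alternatingGroup (Fin n))) : Set (alternatingGroup (Fin n)))).subgroupOf (Subgroup.normalizer ((P : Subgroup (alternatingGroup (Fin n))) : Set (alternatingGroup (Fin n))))).index ∨ IsCyclic (P : Subgroup (alternatingGroup (Fin n))) := by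
  have hp' : p.Prime := Fact.out
  obtain ⟨m, hm⟩ := P.2.exists_card_eq
  by_cases hm0 : m = 0
  · right
    rw [hm0, pow_zero] at hm
    have : Subsingleton (P : Subgroup (alternatingGroup (Fin n))) := (Nat.card_eq_one_iff_unique.1 hm).1
    exact isCyclic_of_subsingleton
  have hdvd' : p ∣ Nat.card (P : Subgroup (alternatingGroup (Fin n))) := by
    rw [hm]; exact dvd_pow_self p hm0
  obtain ⟨x, hx⟩ := exists_prime_orderOf_dvd_card' p hdvd'
  have hxo : orderOf (((x : alternatingGroup (Fin n)) : Perm (Fin n))) = p := by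
    rw [Subgroup.orderOf_coe, Subgroup.orderOf_coe, hx]
  by_cases hc : Subgroup.centralizer ({((x : alternatingGroup (Fin n)) : Perm (Fin n))} : Set (Perm (Fin n))) ≤ alternatingGroup (Fin n)
  · right
    have h1 := Equiv.Perm.card_le_of_centralizer_le_alternating hc
    have h2 := Equiv.Perm.count_le_one_of_centralizer_le_alternating hc p
    obtain ⟨k, hk⟩ := Equiv.Perm.cycleType_prime_order (σ := ((x : alternatingGroup (Fin n)) : Perm (Fin n))) (by rw [hxo]; exact hp')
    rw [hxo] at hk
    rw [hk, Multiset.count_replicate_self] at h2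
    have hk0 : k = 0 := by omega
    rw [hk, hk0, Fintype.card_fin] at h1
    simp at h1
    have hp3 : 3 ≤ p := by
      have := hp'.two_le; omega
    have hm1 : m ≤ 1 := by
      have h3 : p ^ m ∣ n.factorial := by
        rw [← hm]
        refine (Subgroup.card_subgroup_dvd_card _).trans ?_
        have h4 : Nat.card (alternatingGroup (Fin n)) ∣ Nat.card (Perm (Fin n)) := Subgroup.card_subgroup_dvd_card _
        rwa [Nat.card_eq_fintype_card (α := Perm (Fin n)), Fintype.card_perm, Fintype.card_fin] at h4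
      have h4 := (padicValNat_dvd_iff_le (Nat.factorial_ne_zero n)).1 h3
      have hlog : Nat.log p n < 2 := by
        apply Nat.log_lt_of_lt_pow (by omega)
        nlinarith
      rw [padicValNat_factorial hlog] at h4
      simp at h4
      refine h4.trans ?_
      have : n / p < 2 := by
        rw [Nat.div_lt_iff_lt_mul hp'.pos]
        omega
      omega
    have hm2 : m = 1 := by omega
    rw [hm2, pow_one] at hm
    exact isCyclic_of_prime_card hm
  · left
    have hxne : (x : alternatingGroup (Fin n)) ≠ (x : alternatingGroup (Fin n))⁻¹ := by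
      intro h
      have h1 : (x : alternatingGroup (Fin n)) ^ 2 = 1 := by
        rw [sq]; nth_rewrite 2 [h]; exact mul_inv_cancel _
      have h2 := orderOf_dvd_of_pow_eq_one h1
      rw [Subgroup.orderOf_coe, hx] at h2
      exact hp2 ((Nat.prime_dvd_prime_iff_eq hp' Nat.prime_two).1 h2)
    have hconj : IsConj ((x : alternatingGroup (Fin n)) : Perm (Fin n)) ((x⁻¹ : alternatingGroup (Fin n)) : Perm (Fin n)) := by
      rw [Equiv.Perm.isConj_iff_cycleType_eq, InvMemClass.coe_inv, Equiv.Perm.cycleType_inv]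
    obtain ⟨g, hg⟩ := conj_alt _ _ hconj hc
    have h1 : (g⁻¹)⁻¹ * (x : alternatingGroup (Fin n)) * g⁻¹ ∈ (P : Subgroup (alternatingGroup (Fin n))) := by
      rw [inv_inv, hg]
      exact inv_mem x.2
    obtain ⟨k, hk, hk'⟩ := P.conj_eq_normalizer_conj_of_mem (x : alternatingGroup (Fin n)) g⁻¹ x.2 h1
    rw [inv_inv, hg] at hk'
    exact Cfsg.Agent.S2270.two_dvd _ _ k x.2 hxne hk hk'.symm

def z6 : Perm (Fin 6) := swap 0 1 * swap 1 2 * swap 2 3 * swap 4 5
def b6 : Perm (Fin 6) := swap 0 2 * swap 4 5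

theorem two_case (n : ℕ) (hn : 6 ≤ n) (P : Sylow 2 (alternatingGroup (Fin n)))
    (hP : IsMulCommutative (P : Subgroup (alternatingGroup (Fin n)))) : False := by
  classical
  let ι : Fin 6 ↪ Fin n := Fin.castLEEmb hn
  let φ := Equiv.Perm.viaEmbeddingHom ι
  have hφ : Function.Injective φ := Equiv.Perm.viaEmbeddingHom_injective ι
  have hsign : ∀ s : Perm (Fin 6), Equiv.Perm.sign (φ s) = Equiv.Perm.sign s := by
    intro s
    have h := Equiv.Perm.sign_extendDomain s (Equiv.ofInjective ι ι.2)
    rw [← h]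
    congr 1
    change Equiv.Perm.viaEmbedding s ι = _
    unfold Equiv.Perm.viaEmbedding
    congr 1
  let z : alternatingGroup (Fin n) := ⟨φ z6, Equiv.Perm.mem_alternatingGroup.2 (by rw [hsign]; decide)⟩
  let b : alternatingGroup (Fin n) := ⟨φ b6, Equiv.Perm.mem_alternatingGroup.2 (by rw [hsign]; decide)⟩
  have hz4 : z ^ 4 = 1 := by
    apply Subtype.ext
    change φ z6 ^ 4 = 1
    rw [← map_pow, (by decide : z6 ^ 4 = 1), map_one]
  have hb2 : b ^ 2 = 1 := by
    apply Subtype.ext
    change φ b6 ^ 2 = 1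
    rw [← map_pow, (by decide : b6 ^ 2 = 1), map_one]
  have hbz : b * z * b⁻¹ = z⁻¹ := by
    apply Subtype.ext
    change φ b6 * φ z6 * (φ b6)⁻¹ = (φ z6)⁻¹
    rw [← map_inv, ← map_inv, ← map_mul, ← map_mul, (by decide : b6 * z6 * b6⁻¹ = z6⁻¹)]
  have hne : b * z ≠ z * b := by
    intro h
    have h1 : φ b6 * φ z6 = φ z6 * φ b6 := congrArg Subtype.val h
    rw [← map_mul, ← map_mul] at h1
    have h2 := hφ h1
    revert h2
    decide
  have hH : IsPGroup 2 (Subgroup.zpowers z) := by
    rintro ⟨y, hy⟩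
    obtain ⟨k, rfl⟩ := Subgroup.mem_zpowers_iff.1 hy
    refine ⟨2, Subtype.ext ?_⟩
    change (z ^ k) ^ (2 ^ 2) = 1
    rw [← zpow_natCast, ← zpow_mul, mul_comm, zpow_mul, zpow_natCast]
    norm_num [hz4]
  have hK : IsPGroup 2 (Subgroup.zpowers b) := by
    rintro ⟨y, hy⟩
    obtain ⟨k, rfl⟩ := Subgroup.mem_zpowers_iff.1 hy
    refine ⟨1, Subtype.ext ?_⟩
    change (b ^ k) ^ (2 ^ 1) = 1
    rw [← zpow_natCast, ← zpow_mul, mul_comm, zpow_mul, zpow_natCast]
    norm_num [hb2]
  have hle : Subgroup.zpowers b ≤ Subgroup.normalizer ((Subgroup.zpowers z : Subgroup (alternatingGroup (Fin n))) : Set (alternatingGroup (Fin n))) := by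
    rw [Subgroup.zpowers_le, Subgroup.mem_normalizer_iff]
    have key : ∀ y ∈ Subgroup.zpowers z, b * y * b⁻¹ ∈ Subgroup.zpowers z := by
      intro y hy
      obtain ⟨k, rfl⟩ := Subgroup.mem_zpowers_iff.1 hy
      rw [← conj_zpow, hbz]
      exact Subgroup.zpow_mem _ (inv_mem (Subgroup.mem_zpowers z)) k
    have hbinv : b⁻¹ = b := by
      rw [inv_eq_iff_mul_eq_one, ← sq]; exact hb2
    intro y
    refine ⟨key y, fun hy => ?_⟩
    have := key _ hy
    rw [hbinv] at this
    have h3 : b * (b * y * b) * b = y := by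
      have h4 : b * b = 1 := by rw [← sq]; exact hb2
      calc b * (b * y * b) * b = (b * b) * y * (b * b) := by group
        _ = y := by rw [h4, one_mul, mul_one]
    rwa [h3] at this
  have hsup := IsPGroup.to_sup_of_normal_right' hK hH hle
  obtain ⟨Q, hQ⟩ := hsup.exists_le_sylow
  obtain ⟨g, rfl⟩ := MulAction.exists_smul_eq (alternatingGroup (Fin n)) P Q
  have hbQ : b ∈ ((g • P : Sylow 2 (alternatingGroup (Fin n))) : Subgroup (alternatingGroup (Fin n))) :=
    hQ (Subgroup.mem_sup_left (Subgroup.mem_zpowers b))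
  have hzQ : z ∈ ((g • P : Sylow 2 (alternatingGroup (Fin n))) : Subgroup (alternatingGroup (Fin n))) :=
    hQ (Subgroup.mem_sup_right (Subgroup.mem_zpowers z))
  obtain ⟨b', hb', hb''⟩ := hbQ
  obtain ⟨z', hz', hz''⟩ := hzQ
  have hcomm : b' * z' = z' * b' := by
    have := hP.is_comm.comm ⟨b', hb'⟩ ⟨z', hz'⟩
    exact congrArg Subtype.val this
  change g * b' * g⁻¹ = b at hb''
  change g * z' * g⁻¹ = z at hz''
  apply hne
  rw [← hb'', ← hz'']
  calc g * b' * g⁻¹ * (g * z' * g⁻¹) = g * (b' * z') * g⁻¹ := by group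
    _ = g * (z' * b') * g⁻¹ := by rw [hcomm]
    _ = _ := by group

theorem dec5 : ∀ σ : Equiv.Perm (Fin 5), σ ^ 4 = 1 → Equiv.Perm.sign σ = 1 → σ ^ 2 = 1 := by
  decide +kernel

theorem five_case (P : Sylow 2 (alternatingGroup (Fin 5)))
    (hP : IsMulCommutative (P : Subgroup (alternatingGroup (Fin 5)))) :
    ((Subgroup.centralizer ((P : Subgroup (alternatingGroup (Fin 5))) : Set (alternatingGroup (Fin 5)))).subgroupOf (Subgroup.normalizer ((P : Subgroup (alternatingGroup (Fin 5))) : Set (alternatingGroup (Fin 5))))).index = 3 ∧ IsKleinFour (P : Subgroup (alternatingGroup (Fin 5))) := by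
  have hcardA : Nat.card (alternatingGroup (Fin 5)) = 60 := by
    have := two_mul_nat_card_alternatingGroup (α := Fin 5)
    rw [Nat.card_eq_fintype_card (α := Perm (Fin 5)), Fintype.card_perm, Fintype.card_fin] at this
    have h5 : Nat.factorial 5 = 120 := rfl
    omega
  have hcardP : Nat.card (P : Subgroup (alternatingGroup (Fin 5))) = 4 := by
    obtain ⟨k, hk⟩ := P.2.exists_card_eq
    have h1 := (P : Subgroup (alternatingGroup (Fin 5))).card_mul_index
    have h2 := P.not_dvd_index
    rw [hcardA, hk] at h1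
    have hk2 : k ≤ 5 := by
      by_contra h
      have h3 : 2 ^ 6 ∣ 60 := (pow_dvd_pow 2 (by omega)).trans ⟨_, h1.symm⟩
      norm_num at h3
    rw [hk]
    interval_cases k
    · omega
    · omega
    · rfl
    · omega
    · omega
    · omega
  have hindexP : (P : Subgroup (alternatingGroup (Fin 5))).index = 15 := by
    have h1 := (P : Subgroup (alternatingGroup (Fin 5))).card_mul_index
    rw [hcardA, hcardP] at h1
    omega
  have hsq : ∀ x : (P : Subgroup (alternatingGroup (Fin 5))), x ^ 2 = 1 := by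
    intro x
    have h1 : x ^ 4 = 1 := by rw [← hcardP]; exact pow_card_eq_one'
    have h2 := dec5 ((x : alternatingGroup (Fin 5)) : Perm (Fin 5)) (by
      have := congrArg (fun y : (P : Subgroup (alternatingGroup (Fin 5))) => ((y : alternatingGroup (Fin 5)) : Perm (Fin 5))) h1
      simpa using this) (Equiv.Perm.mem_alternatingGroup.1 (x : alternatingGroup (Fin 5)).2)
    apply Subtype.ext
    apply Subtype.ext
    simpa using h2
  have hKlein : IsKleinFour (P : Subgroup (alternatingGroup (Fin 5))) := by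
    refine ⟨hcardP, ?_⟩
    have : Nontrivial (P : Subgroup (alternatingGroup (Fin 5))) := by
      rw [← Finite.one_lt_card_iff_nontrivial, hcardP]; norm_num
    rw [Monoid.exponent_eq_prime_iff Nat.prime_two]
    intro g hg
    exact orderOf_eq_prime (hsq g) hg
  refine ⟨?_, hKlein⟩
  set C := Subgroup.centralizer ((P : Subgroup (alternatingGroup (Fin 5))) : Set (alternatingGroup (Fin 5))) with hC
  set N := Subgroup.normalizer ((P : Subgroup (alternatingGroup (Fin 5))) : Set (alternatingGroup (Fin 5))) with hN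
  have hPC : (P : Subgroup (alternatingGroup (Fin 5))) ≤ C := Subgroup.le_centralizer _
  have hCN : C ≤ N := Subgroup.centralizer_le_normalizer _
  have h15 : (C.subgroupOf N).index ∣ 15 := by
    have h1 : C.relIndex N * N.index = C.index := Subgroup.relIndex_mul_index hCN
    have h2 : C.index ∣ 15 := by rw [← hindexP]; exact Subgroup.index_dvd_of_le hPC
    exact (Dvd.intro _ h1).trans h2
  have h24 : (C.subgroupOf N).index ∣ 24 := by
    have key := Subgroup.card_dvd_of_injective _ (QuotientGroup.kerLift_injective (P : Subgroup (alternatingGroup (Fin 5))).normalizerMonoidHom)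
    have key2 : Nat.card (MulAut (P : Subgroup (alternatingGroup (Fin 5)))) ∣ Nat.card (Perm (P : Subgroup (alternatingGroup (Fin 5)))) :=
      Subgroup.card_dvd_of_injective (MulAut.toPerm (P : Subgroup (alternatingGroup (Fin 5)))) (fun a b h => MulEquiv.toEquiv_injective h)
    rw [Nat.card_perm, hcardP] at key2
    rw [Subgroup.normalizerMonoidHom_ker] at key
    exact key.trans key2
  have h3 : (C.subgroupOf N).index ∣ 3 := (Nat.dvd_gcd h15 h24 : _ ∣ Nat.gcd 15 24)
  rcases (Nat.dvd_prime Nat.prime_three).1 h3 with h | h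
  · exfalso
    have hNC : N ≤ C := by
      rw [Subgroup.index_eq_one, Subgroup.subgroupOf_eq_top] at h
      exact h
    -- two distinct involutions of P
    obtain ⟨x, y, hx1, hy1, hxy⟩ : ∃ x y : (P : Subgroup (alternatingGroup (Fin 5))), x ≠ 1 ∧ y ≠ 1 ∧ x ≠ y := by
      have hfin : Fintype (P : Subgroup (alternatingGroup (Fin 5))) := Fintype.ofFinite _
      have h4 : 2 < Fintype.card (P : Subgroup (alternatingGroup (Fin 5))) := by
        rw [← Nat.card_eq_fintype_card, hcardP]; norm_num
      obtain ⟨a, b, c, hab, hac, hbc⟩ := Fintype.two_lt_card_iff.1 h4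
      by_cases ha : a = 1
      · exact ⟨b, c, fun h => hab (ha.trans h.symm), fun h => hac (ha.trans h.symm), hbc⟩
      · by_cases hb : b = 1
        · exact ⟨a, c, ha, fun h => hbc (hb.trans h.symm), hac⟩
        · exact ⟨a, b, ha, hb, hab⟩
    have hct : ∀ x : (P : Subgroup (alternatingGroup (Fin 5))), x ≠ 1 →
        ((x : alternatingGroup (Fin 5)) : Perm (Fin 5)).cycleType = Multiset.replicate 2 2 := by
      intro x hx
      have ho : orderOf ((x : alternatingGroup (Fin 5)) : Perm (Fin 5)) = 2 := by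
        rw [Subgroup.orderOf_coe, Subgroup.orderOf_coe]
        exact orderOf_eq_prime (hsq x) hx
      obtain ⟨k, hk⟩ := Equiv.Perm.cycleType_prime_order (σ := ((x : alternatingGroup (Fin 5)) : Perm (Fin 5))) (by rw [ho]; exact Nat.prime_two)
      rw [ho] at hk
      have hs := Equiv.Perm.mem_alternatingGroup.1 (x : alternatingGroup (Fin 5)).2
      rw [Equiv.Perm.sign_of_cycleType, hk] at hs
      have hsum : ((x : alternatingGroup (Fin 5)) : Perm (Fin 5)).cycleType.sum ≤ 5 := by
        rw [Equiv.Perm.sum_cycleType]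
        exact (Finset.card_le_univ _).trans (by simp)
      rw [hk] at hsum
      simp at hsum hs
      have hk1 : k + 1 ≤ 2 := by omega
      have hk2 : k = 0 ∨ k = 1 := by omega
      rcases hk2 with rfl | rfl
      · exfalso
        revert hs
        decide
      · exact hk
    have hconj : IsConj ((x : alternatingGroup (Fin 5)) : Perm (Fin 5)) ((y : alternatingGroup (Fin 5)) : Perm (Fin 5)) := by
      rw [Equiv.Perm.isConj_iff_cycleType_eq, hct x hx1, hct y hy1]
    have hcent : ¬ Subgroup.centralizer ({((x : alternatingGroup (Fin 5)) : Perm (Fin 5))} : Set (Perm (Fin 5))) ≤ alternatingGroup (Fin 5) := by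
      intro hc
      have h2 := Equiv.Perm.count_le_one_of_centralizer_le_alternating hc 2
      rw [hct x hx1, Multiset.count_replicate_self] at h2
      omega
    obtain ⟨g, hg⟩ := conj_alt _ _ hconj hcent
    have h1 : (g⁻¹)⁻¹ * (x : alternatingGroup (Fin 5)) * g⁻¹ ∈ (P : Subgroup (alternatingGroup (Fin 5))) := by
      rw [inv_inv, hg]
      exact y.2
    obtain ⟨k, hk, hk'⟩ := P.conj_eq_normalizer_conj_of_mem (x : alternatingGroup (Fin 5)) g⁻¹ x.2 h1
    rw [inv_inv, hg] at hk'
    have h5 := (Subgroup.mem_centralizer_iff.1 (hNC hk)) _ x.2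
    rw [mul_assoc, h5, ← mul_assoc, inv_mul_cancel, one_mul] at hk'
    exact hxy (Subtype.ext hk'.symm)
  · exact h

/-- Let n ≥ 5 and let P be an abelian Sylow p-subgroup of the alternating group A_n. Then N(P)/C(P) (taken in A_n) has even order, or P is cyclic, except when n = 5 and p = 2, where P is a four-group and N(P)/C(P) has order 3. -/
theorem result (n : ℕ) (hn : 5 ≤ n) {p : ℕ} [Fact p.Prime]
    (P : Sylow p (alternatingGroup (Fin n))) (hP : IsMulCommutative (P : Subgroup (alternatingGroup (Fin n)))) :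
    (¬ (n = 5 ∧ p = 2) → 2 ∣ ((Subgroup.centralizer ((P : Subgroup (alternatingGroup (Fin n))) : Set (alternatingGroup (Fin n)))).subgroupOf (Subgroup.normalizer ((P : Subgroup (alternatingGroup (Fin n))) : Set (alternatingGroup (Fin n))))).index ∨ IsCyclic (P : Subgroup (alternatingGroup (Fin n)))) ∧
    ((n = 5 ∧ p = 2) → ((Subgroup.centralizer ((P : Subgroup (alternatingGroup (Fin n))) : Set (alternatingGroup (Fin n)))).subgroupOf (Subgroup.normalizer ((P : Subgroup (alternatingGroup (Fin n))) : Set (alternatingGroup (Fin n))))).index = 3 ∧ IsKleinFour (P : Subgroup (alternatingGroup (Fin n)))) := by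
  constructor
  · intro h
    by_cases hp : p = 2
    · subst hp
      have : n ≠ 5 := fun h5 => h ⟨h5, rfl⟩
      exact (two_case n (by omega) P hP).elim
    · exact odd_case n hn hp P hP
  · rintro ⟨rfl, rfl⟩
    exact five_case P hP

end Cfsg.Agent.S2269
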