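import Cfsg.Statements.S2289
import Cfsg.Agent.Lib.PresU3H
import Cfsg.Agent.Lib.PresSLn2

set_option autoImplicit false
open Cfsg

namespace Cfsg.Agent.S2289

theorem center_gen {F : Type*} [Field F] [Fintype F] {q : ℕ} (hF : Fintype.card F = q ^ 2) :
    ∃ z : SU 3 F q, Subgroup.center (SU 3 F q) = Subgroup.zpowers z := by
  have hc := Cfsg.Agent.Lib.ClUnitary.card_center_SU hF (n := 3) (by norm_num)
  have h1 : IsCyclic (Subgroup.center (SU 3 F q)) := by
    rcases (Nat.dvd_prime Nat.prime_three).1 (Nat.gcd_dvd_left 3 (q + 1)) with h | h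
    · rw [h] at hc
      have : Subsingleton (Subgroup.center (SU 3 F q)) := (Nat.card_eq_one_iff_unique.1 hc).1
      exact isCyclic_of_subsingleton
    · rw [h] at hc
      haveI := Fact.mk Nat.prime_three
      exact isCyclic_of_prime_card hc
  obtain ⟨g, hg⟩ := h1.exists_generator
  refine ⟨g, le_antisymm ?_ ?_⟩
  · intro x hx
    obtain ⟨k, hk⟩ := Subgroup.mem_zpowers_iff.1 (hg ⟨x, hx⟩)
    exact ⟨k, congrArg Subtype.val hk⟩
  · rw [Subgroup.zpowers_le]
    exact g.2

/-- Let F be a field with q² elements, q ∉ {2, 3, 5}, and SU_3(q), PSU_3(q) the special unitary group of the standard Hermitian form and its central quotient. Then SU_3(q) has a presentation with 3 generators and at most 23 relations, and PSU_3(q) one with 3 generators and at most 24 relations. -/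
theorem result {F : Type*} [Field F] [Fintype F] (q : ℕ) (hF : Fintype.card F = q ^ 2) (h2 : q ≠ 2) (h3 : q ≠ 3) (h5 : q ≠ 5) :
    (∃ rels : Finset (FreeGroup (Fin 3)), rels.card ≤ 23 ∧ Nonempty (PresentedGroup (↑rels : Set (FreeGroup (Fin 3))) ≃* ↥(Cfsg.SU 3 F q))) ∧ (∃ rels : Finset (FreeGroup (Fin 3)), rels.card ≤ 24 ∧ Nonempty (PresentedGroup (↑rels : Set (FreeGroup (Fin 3))) ≃* Cfsg.PSU 3 F q)) := by
  obtain ⟨rels, hc, ⟨e⟩⟩ := Cfsg.Agent.Lib.PresU3H.pres_SU3 hF h2 h5
  refine ⟨⟨rels, by omega, ⟨e⟩⟩, ?_⟩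
  obtain ⟨z, hz⟩ := center_gen hF
  obtain ⟨rels', hc', he⟩ := Cfsg.Agent.Lib.PresSLn.quot_pres rels e (Subgroup.center (SU 3 F q)) z hz
  exact ⟨rels', by omega, he⟩

end Cfsg.Agent.S2289
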