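import Cfsg.Statements.S2292
import Cfsg.Agent.Lib.SpTwoGen
import Cfsg.Agent.Lib.PresSpFin

set_option autoImplicit false
open Cfsg

namespace Cfsg.Agent.S2292

/-- Let F be a finite field with q elements and m ≥ 2 with (m, q) ≠ (2, 2). Then the simple group PSp_2m(F) has a presentation with 2 generators and at most 80 relations. -/
theorem result {F : Type*} [Field F] [Fintype F] (m : ℕ) (hm : 2 ≤ m) (h22 : ¬ (m = 2 ∧ Fintype.card F = 2)) :
    ∃ rels : Finset (FreeGroup (Fin 2)), rels.card ≤ 80 ∧ Nonempty (PresentedGroup (↑rels : Set (FreeGroup (Fin 2))) ≃* Cfsg.PSp m F) := by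
  have h1 : Cfsg.Agent.Lib.PresHas.HasPres (Cfsg.PSp m F) 6 47 := by
    rcases Nat.lt_or_ge 2 m with h3 | h3
    · exact Cfsg.Agent.Lib.PresSp.hasPres_psp (by omega) (Cfsg.Agent.Lib.PresSp.hasPres_Sg (F := F) h3)
    · have : m = 2 := by omega
      subst this
      exact (Cfsg.Agent.Lib.PresSp.hasPres_psp (by norm_num) (Cfsg.Agent.Lib.PresSp.hasPres_Sg_two (F := F))).mono (by norm_num)
  obtain ⟨a, b, hab⟩ := Cfsg.Agent.Lib.SpTwoGen.two_gen_psp (F := F) hm (by
    intro h
    have h1 : 1 < Fintype.card F := Fintype.one_lt_card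
    have h2 : Fintype.card F ≠ 2 := fun h' => h22 ⟨h, h'⟩
    omega)
  exact (h1.two (by norm_num) ![a, b] (by
    rw [← hab]
    congr 1
    ext x
    simp [eq_comm, or_comm])).mono (by norm_num)

end Cfsg.Agent.S2292
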