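import Cfsg.Statements.S2332
import Cfsg.Agent.Lib.SLMin
import Cfsg.Agent.S0157

set_option autoImplicit false
open Cfsg

namespace Cfsg.Agent.S2332


set_option linter.all false

/-- Smallest degree of a non-linear irreducible complex representation of SL_n over a finite field with q elements, for n ≥ 3 and (n, q) not one of (3, 2), (3, 4), (4, 2), (4, 3): every irreducible complex representation of SL_n(F) of degree at least 2 has degree at least (q^n − q)/(q − 1), and there is an irreducible complex representation of exactly that degree. -/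
theorem result {F : Type*} [Field F] [Fintype F] [DecidableEq F] (n : ℕ) (hn : 3 ≤ n)
    (hex : (n, Fintype.card F) ≠ (3, 2) ∧ (n, Fintype.card F) ≠ (3, 4) ∧ (n, Fintype.card F) ≠ (4, 2) ∧ (n, Fintype.card F) ≠ (4, 3)) :
    (∀ (k : ℕ) (ρ : Representation ℂ (Matrix.SpecialLinearGroup (Fin n) F) (Fin k → ℂ)), ρ.IsIrreducible → 2 ≤ k → (Fintype.card F ^ n - Fintype.card F) / (Fintype.card F - 1) ≤ k) ∧
    (∃ ρ : Representation ℂ (Matrix.SpecialLinearGroup (Fin n) F) (Fin ((Fintype.card F ^ n - Fintype.card F) / (Fintype.card F - 1)) → ℂ), ρ.IsIrreducible) := by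
  have hq1 : 2 ≤ Fintype.card F := Fintype.one_lt_card
  obtain ⟨h32, h34, h42, h43⟩ := hex
  constructor
  · intro k ρ hρ hk
    have h1 := Cfsg.Agent.Lib.SLMin.lower ρ hn (by
        intro h
        rw [h] at h32 h34
        exact ⟨fun e => h32 (by rw [e]), fun e => h34 (by rw [e])⟩) (by
        intro h
        rw [h] at h42 h43
        by_contra hcon
        have : Fintype.card F = 2 ∨ Fintype.card F = 3 := by omega
        rcases this with e | e
        · exact h42 (by rw [e])
        · exact h43 (by rw [e])) hρ (by rw [Module.finrank_fin_fun]; exact hk)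
    rw [Module.finrank_fin_fun] at h1
    exact Nat.div_le_of_le_mul h1
  · have hcard : Nat.card (Projectivization F (Fin n → F)) = ∑ i ∈ Finset.range n, Fintype.card F ^ i := by
      rw [Projectivization.card_of_finrank F (Fin n → F) (Module.finrank_fin_fun F), Nat.card_eq_fintype_card]
    have hval : (Fintype.card F ^ n - Fintype.card F) / (Fintype.card F - 1) + 1 = Nat.card (Projectivization F (Fin n → F)) := by
      rw [hcard]
      obtain ⟨m, rfl⟩ : ∃ m, n = m + 1 := ⟨n - 1, by omega⟩
      rw [Finset.sum_range_succ', pow_zero]
      congr 1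
      have h2 : Fintype.card F ^ (m + 1) - Fintype.card F = Fintype.card F * (Fintype.card F ^ m - 1) := by
        rw [pow_succ', Nat.mul_sub, mul_one]
      have h3 := Nat.geomSum_eq hq1 m
      have h4 : (Fintype.card F - 1) ∣ Fintype.card F ^ m - 1 := by
        have := Nat.sub_dvd_pow_sub_pow (Fintype.card F) 1 m
        rwa [one_pow] at this
      rw [h2, Nat.mul_div_assoc _ h4, ← h3, Finset.mul_sum]
      exact Finset.sum_congr rfl fun i _ => (pow_succ' _ _).symm
    haveI : MulAction.IsPretransitive (Matrix.SpecialLinearGroup (Fin n) F) (Projectivization F (Fin n → F)) :=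
      MulAction.isPretransitive_of_is_two_pretransitive
    have hX : 2 ≤ Nat.card (Projectivization F (Fin n → F)) := by
      rw [hcard]
      calc 2 ≤ ∑ i ∈ Finset.range 2, Fintype.card F ^ i := by
            rw [Finset.sum_range_succ, Finset.sum_range_one, pow_zero, pow_one]; omega
        _ ≤ _ := Finset.sum_le_sum_of_subset (Finset.range_subset_range.2 (by omega))
    have hirr := (Cfsg.Agent.S0157.result (G := Matrix.SpecialLinearGroup (Fin n) F) (Projectivization F (Fin n → F)) hX).2 inferInstance
    obtain ⟨k, ρ, hρ, hχ⟩ := hirr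
    have hk : k = (Fintype.card F ^ n - Fintype.card F) / (Fintype.card F - 1) := by
      have h5 := congrFun hχ 1
      simp only [Representation.character, map_one, LinearMap.trace_one, Module.finrank_fin_fun] at h5
      have h6 : Nat.card (MulAction.fixedBy (Projectivization F (Fin n → F)) (1 : Matrix.SpecialLinearGroup (Fin n) F)) =
          Nat.card (Projectivization F (Fin n → F)) := by
        rw [MulAction.fixedBy_one_eq_univ]
        exact Nat.card_congr (Equiv.Set.univ _)
      rw [h6, ← hval] at h5
      push_cast at h5
      have h7 : (k : ℂ) = (((Fintype.card F ^ n - Fintype.card F) / (Fintype.card F - 1) : ℕ) : ℂ) := by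
        linear_combination h5
      exact_mod_cast h7
    subst hk
    exact ⟨ρ, hρ⟩

end Cfsg.Agent.S2332
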