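import Cfsg.Statements.S2333
import Cfsg.Agent.Lib.SpEvG

set_option autoImplicit false
open Cfsg

namespace Cfsg.Agent.S2333

open Cfsg.Agent.Lib

/-- For a finite field F of even order q and n ≥ 2 with (n, q) ≠ (2, 2), every irreducible complex representation of the symplectic group Sp_{2n}(F) of degree at least 2 has degree at least (q^n − 1)(q^n − q)/(2(q + 1)). -/
theorem result {F : Type*} [Field F] [Fintype F] [DecidableEq F] (n : ℕ) (hn : 2 ≤ n) (heven : Even (Fintype.card F)) (hex : (n, Fintype.card F) ≠ (2, 2)) :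
    (∀ (k : ℕ) (ρ : Representation ℂ (Matrix.symplecticGroup (Fin n) F) (Fin k → ℂ)), ρ.IsIrreducible → 2 ≤ k → (Fintype.card F ^ n - 1) * (Fintype.card F ^ n - Fintype.card F) / (2 * (Fintype.card F + 1)) ≤ k) := by
  intro k ρ hρ hk
  have h2 : (2 : F) = 0 := by
    by_contra h
    exact (Nat.not_odd_iff_even.2 heven) (ClUtil.odd_card_iff_two_ne_zero.mpr h)
  let i := ClIso.sympEquiv (Fin n) F
  let σ : Representation ℂ (ClSymp.Spg (ClIso.sympForm (Fin n) F)) (Fin k → ℂ) := ρ.comp i.symm.toMonoidHom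
  have hσ : σ.IsIrreducible := CharBasic.isIrreducible_comp_of_surjective ρ i.symm.toMonoidHom i.symm.surjective hρ
  have hne : ∃ g, σ g ≠ 1 := by
    by_contra hcon
    push Not at hcon
    have h1 := RepSchur.finrank_le_one_of_comm hσ (fun g h => by rw [hcon g, hcon h])
    rw [Module.finrank_fin_fun] at h1
    omega
  have h := SpEvG.main h2 n (Fin k → ℂ) σ hσ hne
  rw [Module.finrank_fin_fun] at h
  exact Nat.div_le_of_le_mul h

end Cfsg.Agent.S2333
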