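import Cfsg.Statements.S2334
import Cfsg.Agent.Lib.SUPar6
import Cfsg.Agent.Lib.SUThree2

set_option autoImplicit false
open Cfsg

namespace Cfsg.Agent.S2334

/-- For odd n ≥ 3 and a finite field F with q² elements, (n, q) ≠ (3, 2), every irreducible complex representation of the special unitary group SU_n(q) (the determinant-one isometries of the standard Hermitian form over F) of degree at least 2 has degree at least (q^n − q)/(q + 1). -/
theorem result {F : Type*} [Field F] [Fintype F] [DecidableEq F] (n q : ℕ) (hn : 3 ≤ n) (hodd : Odd n) (hF : Fintype.card F = q ^ 2) (hex : (n, q) ≠ (3, 2)) :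
    (∀ (k : ℕ) (ρ : Representation ℂ (Cfsg.SU n F q) (Fin k → ℂ)), ρ.IsIrreducible → 2 ≤ k → (q ^ n - q) / (q + 1) ≤ k) := by
  intro k ρ hρ hk
  obtain ⟨m, hm⟩ := hodd
  have hq1 : 1 < q := Lib.ClEmbed.one_lt_q hF
  have hdvd : q + 1 ∣ q ^ (2 * m) - 1 := by
    rw [pow_mul]
    have h1 : q ^ 2 - 1 ∣ (q ^ 2) ^ m - 1 := by
      simpa using Nat.sub_dvd_pow_sub_pow (q ^ 2) 1 m
    exact (Dvd.intro _ (Lib.ClEmbed.sq_sub_one q)).trans h1
  have key : (q ^ n - q) / (q + 1) = (q ^ (2 * m) - 1) / (q + 1) * q := by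
    rw [hm, pow_succ, ← Nat.sub_one_mul, mul_comm, Nat.mul_div_assoc _ hdvd, mul_comm]
  rw [key]
  have hfr : Module.finrank ℂ (Fin k → ℂ) = k := Module.finrank_fin_fun _
  by_cases h3 : n = 3
  · have hm1 : m = 1 := by omega
    subst hm1
    have hq3 : 3 ≤ q := by
      by_contra hcon
      apply hex
      have : q = 2 := by omega
      rw [h3, this]
    have h := Lib.SUThree.lower_three hF h3 hq3 ρ hρ (by rwa [hfr])
    rwa [hfr] at h
  · have h := Lib.SUPar.lower_ge_four hF hm (by omega) ρ hρ (by rwa [hfr]) q (Or.inr ⟨rfl, one_pos⟩)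
    rwa [hfr] at h

end Cfsg.Agent.S2334
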