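import Cfsg.Statements.S2336
import Cfsg.Agent.Lib.ClPermChar
import Cfsg.Agent.Lib.MinIdxAct

set_option autoImplicit false
open Cfsg

namespace Cfsg.Agent.S2336

open Matrix Cfsg.Agent.Lib

section
variable {F : Type*} [Field F] {n : ℕ}

/-- nonzero vectors -/
def NZ (n : ℕ) (F : Type*) [Field F] := {v : Fin n → F // v ≠ 0}

theorem mulVec_ne (g : Matrix.SpecialLinearGroup (Fin n) F) {v : Fin n → F} (hv : v ≠ 0) : (g : Matrix (Fin n) (Fin n) F) *ᵥ v ≠ 0 := by
  intro h
  apply hv
  have h1 : ((g⁻¹ : Matrix.SpecialLinearGroup (Fin n) F) : Matrix (Fin n) (Fin n) F) *ᵥ ((g : Matrix (Fin n) (Fin n) F) *ᵥ v) = v := by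
    rw [mulVec_mulVec, ← Matrix.SpecialLinearGroup.coe_mul, inv_mul_cancel, Matrix.SpecialLinearGroup.coe_one, one_mulVec]
  rw [← h1, h, mulVec_zero]

instance : MulAction (Matrix.SpecialLinearGroup (Fin n) F) (NZ n F) where
  smul g v := ⟨(g : Matrix (Fin n) (Fin n) F) *ᵥ v.1, mulVec_ne g v.2⟩
  one_smul v := by
    apply Subtype.ext
    change ((1 : Matrix.SpecialLinearGroup (Fin n) F) : Matrix (Fin n) (Fin n) F) *ᵥ v.1 = v.1
    rw [Matrix.SpecialLinearGroup.coe_one, one_mulVec]
  mul_smul g h v := by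
    apply Subtype.ext
    change ((g * h : Matrix.SpecialLinearGroup (Fin n) F) : Matrix (Fin n) (Fin n) F) *ᵥ v.1 = (g : Matrix (Fin n) (Fin n) F) *ᵥ ((h : Matrix (Fin n) (Fin n) F) *ᵥ v.1)
    rw [Matrix.SpecialLinearGroup.coe_mul, mulVec_mulVec]

theorem smul_val (g : Matrix.SpecialLinearGroup (Fin n) F) (v : NZ n F) : (g • v).1 = (g : Matrix (Fin n) (Fin n) F) *ᵥ v.1 := rfl

instance [Finite F] : Finite (NZ n F) := inferInstanceAs (Finite {v : Fin n → F // v ≠ 0})

/-- the stabilizer of a line -/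
def PP (v : NZ n F) : Subgroup (Matrix.SpecialLinearGroup (Fin n) F) where
  carrier := {g | ∃ c : Fˣ, (g : Matrix (Fin n) (Fin n) F) *ᵥ v.1 = (c : F) • v.1}
  one_mem' := ⟨1, by rw [Matrix.SpecialLinearGroup.coe_one, one_mulVec, Units.val_one, one_smul]⟩
  mul_mem' := by
    rintro g h ⟨c, hc⟩ ⟨d, hd⟩
    exact ⟨d * c, by rw [Matrix.SpecialLinearGroup.coe_mul, ← mulVec_mulVec, hd, mulVec_smul, hc, smul_smul, Units.val_mul]⟩
  inv_mem' := by
    rintro g ⟨c, hc⟩
    refine ⟨c⁻¹, ?_⟩
    have h1 : ((g⁻¹ : Matrix.SpecialLinearGroup (Fin n) F) : Matrix (Fin n) (Fin n) F) *ᵥ ((g : Matrix (Fin n) (Fin n) F) *ᵥ v.1) = v.1 := by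
      rw [mulVec_mulVec, ← Matrix.SpecialLinearGroup.coe_mul, inv_mul_cancel, Matrix.SpecialLinearGroup.coe_one, one_mulVec]
    rw [hc, mulVec_smul] at h1
    rw [← h1, smul_smul, ← Units.val_mul, inv_mul_cancel, Units.val_one, one_smul, h1]

theorem scal_inj (v : NZ n F) {c d : Fˣ} (h : (c : F) • v.1 = (d : F) • v.1) : c = d := by
  apply Units.ext
  by_contra hne
  have h1 : ((c : F) - d) • v.1 = 0 := by rw [sub_smul, h, sub_self]
  rcases smul_eq_zero.1 h1 with h2 | h2
  · exact hne (sub_eq_zero.1 h2)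
  · exact v.2 h2

noncomputable def lamf (v : NZ n F) (g : PP v) : Fˣ := g.2.choose

theorem lamf_spec (v : NZ n F) (g : PP v) : ((g : Matrix.SpecialLinearGroup (Fin n) F) : Matrix (Fin n) (Fin n) F) *ᵥ v.1 =
    (lamf v g : F) • v.1 := g.2.choose_spec

noncomputable def lam (v : NZ n F) : PP v →* Fˣ where
  toFun g := lamf v g
  map_one' := by
    apply scal_inj v
    rw [← lamf_spec]
    change ((1 : Matrix.SpecialLinearGroup (Fin n) F) : Matrix (Fin n) (Fin n) F) *ᵥ v.1 = _
    rw [Matrix.SpecialLinearGroup.coe_one, one_mulVec, Units.val_one, one_smul]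
  map_mul' g h := by
    apply scal_inj v
    rw [← lamf_spec]
    change ((g.1 * h.1 : Matrix.SpecialLinearGroup (Fin n) F) : Matrix (Fin n) (Fin n) F) *ᵥ v.1 = _
    rw [Matrix.SpecialLinearGroup.coe_mul, ← mulVec_mulVec, lamf_spec, mulVec_smul, lamf_spec, smul_smul, Units.val_mul,
      mul_comm]

theorem lam_spec (v : NZ n F) (g : PP v) : ((g : Matrix.SpecialLinearGroup (Fin n) F) : Matrix (Fin n) (Fin n) F) *ᵥ v.1 =
    (lam v g : F) • v.1 := lamf_spec v g

end

/-- Let F be a finite field with q elements and n ≥ 3. The permutation character of SL_n(F) on the non-zero vectors of F^n (the function sending a matrix to the number of non-zero vectors it fixes) is the sum of the principal character and q − 1 pairwise distinct irreducible complex characters. -/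
theorem result {F : Type*} [Field F] [Fintype F] [DecidableEq F] (n : ℕ) (hn : 3 ≤ n) :
    ∃ χ : Fin (Fintype.card F - 1) → (Matrix.SpecialLinearGroup (Fin n) F → ℂ),
      (∀ i, Cfsg.IsIrrCharacter (Matrix.SpecialLinearGroup (Fin n) F) (χ i)) ∧ Function.Injective χ ∧
      ∀ g : Matrix.SpecialLinearGroup (Fin n) F,
        (Nat.card {v : Fin n → F // v ≠ 0 ∧ (g : Matrix (Fin n) (Fin n) F).mulVec v = v} : ℂ) = 1 + ∑ i, χ i g := by
  classical
  haveI : Fintype (NZ n F) := Fintype.ofFinite _
  let e0 : NZ n F := ⟨fun _ => 1, fun h => one_ne_zero (congrFun h ⟨0, by omega⟩)⟩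
  haveI : MulAction.IsPretransitive (Matrix.SpecialLinearGroup (Fin n) F) (NZ n F) := by
    constructor
    intro x y
    obtain ⟨g, hg⟩ := MinIdxAct.exists_move (by omega) x.2 y.2
    exact ⟨g, Subtype.ext hg⟩
  have hsurj : Function.Surjective (lam e0) := by
    intro c
    obtain ⟨g, hg⟩ := MinIdxAct.exists_move (F := F) (n := n) (by omega) e0.2 (smul_ne_zero c.ne_zero e0.2)
    refine ⟨⟨g, c, hg⟩, ?_⟩
    apply scal_inj e0
    rw [← lam_spec]
    exact hg
  have hH : ∀ g : Matrix.SpecialLinearGroup (Fin n) F, g ∈ MulAction.stabilizer (Matrix.SpecialLinearGroup (Fin n) F) e0 ↔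
      ∃ h : g ∈ PP e0, lam e0 ⟨g, h⟩ = 1 := by
    intro g
    rw [MulAction.mem_stabilizer_iff]
    constructor
    · intro h
      have h1 : (g : Matrix (Fin n) (Fin n) F) *ᵥ e0.1 = e0.1 := congrArg Subtype.val h
      refine ⟨⟨1, by rw [h1, Units.val_one, one_smul]⟩, ?_⟩
      apply scal_inj e0
      rw [← lam_spec]
      exact h1.trans (by rw [Units.val_one, one_smul])
    · rintro ⟨h, h1⟩
      apply Subtype.ext
      have h2 := lam_spec e0 ⟨g, h⟩
      rw [h1, Units.val_one, one_smul] at h2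
      exact h2
  have hex : ∀ W : Submodule F (Fin n → F), Module.finrank F W ≤ 2 → ∃ v, v ∉ W := by
    intro W hW
    by_contra hcon
    push Not at hcon
    have : W = ⊤ := by rw [eq_top_iff]; intro v _; exact hcon v
    rw [this, finrank_top, Module.finrank_fin_fun] at hW
    omega
  have hs2 : ∀ a b : Fin n → F, Module.finrank F (Submodule.span F {a, b}) ≤ 2 := by
    intro a b
    have := finrank_span_le_card (R := F) ({a, b} : Set (Fin n → F))
    refine this.trans ?_
    rw [Set.toFinset_insert, Set.toFinset_singleton]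
    exact Finset.card_le_two
  have hmove : ∀ c v v' : Fin n → F, v ∉ Submodule.span F {c} → v' ∉ Submodule.span F {c} →
      ∃ g : Matrix.SpecialLinearGroup (Fin n) F, (g : Matrix (Fin n) (Fin n) F) *ᵥ c = c ∧ (g : Matrix (Fin n) (Fin n) F) *ᵥ v = v' := by
    intro c v v' hv hv'
    by_cases h : v' ∈ Submodule.span F {c, v}
    · obtain ⟨w, hw⟩ := hex _ (hs2 c v)
      have hvw : v ∈ Submodule.span F {c, v'} := by
        obtain ⟨a, b, hab⟩ := Submodule.mem_span_pair.1 h
        have hb : b ≠ 0 := by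
          rintro rfl
          rw [zero_smul, add_zero] at hab
          exact hv' (Submodule.mem_span_singleton.2 ⟨a, hab⟩)
        rw [Submodule.mem_span_pair]
        refine ⟨-(b⁻¹ * a), b⁻¹, ?_⟩
        rw [← hab, smul_add, smul_smul, smul_smul, inv_mul_cancel₀ hb, one_smul, neg_smul, neg_add_cancel_left]
      have hw' : w ∉ Submodule.span F {c, v'} := by
        intro h1
        apply hw
        refine (Submodule.span_le.2 ?_) h1
        rintro x (rfl | rfl)
        · exact Submodule.subset_span (by simp)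
        · exact h
      have hwc : w ∉ Submodule.span F {c} := fun h1 => hw (Submodule.span_mono (by simp) h1)
      obtain ⟨g, hg1, hg2⟩ := MinIdxAct.exists_fix_move hv hw
      have h3 : v' ∉ Submodule.span F {c, w} := by
        intro h4
        obtain ⟨a, b, hab⟩ := Submodule.mem_span_pair.1 h4
        have hb : b ≠ 0 := by
          rintro rfl
          rw [zero_smul, add_zero] at hab
          exact hv' (Submodule.mem_span_singleton.2 ⟨a, hab⟩)
        apply hw'
        rw [Submodule.mem_span_pair]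
        refine ⟨-(b⁻¹ * a), b⁻¹, ?_⟩
        rw [← hab, smul_add, smul_smul, smul_smul, inv_mul_cancel₀ hb, one_smul, neg_smul, neg_add_cancel_left]
      obtain ⟨g', hg1', hg2'⟩ := MinIdxAct.exists_fix_move hwc h3
      refine ⟨g' * g, ?_, ?_⟩
      · rw [Matrix.SpecialLinearGroup.coe_mul, ← mulVec_mulVec, hg1, hg1']
      · rw [Matrix.SpecialLinearGroup.coe_mul, ← mulVec_mulVec, hg2, hg2']
    · exact MinIdxAct.exists_fix_move hv h
  have hrank : Nat.card (MulAction.orbitRel.Quotient (MulAction.stabilizer (Matrix.SpecialLinearGroup (Fin n) F) e0) (NZ n F)) =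
      Fintype.card Fˣ + 1 := by
    rw [← Fintype.card_option, ← Nat.card_eq_fintype_card]
    let cls : NZ n F → Option Fˣ := fun v => if h : ∃ c : Fˣ, v.1 = (c : F) • e0.1 then some h.choose else none
    have cls_some : ∀ v : NZ n F, ∀ c : Fˣ, v.1 = (c : F) • e0.1 → cls v = some c := by
      intro v c hc
      have h : ∃ c : Fˣ, v.1 = (c : F) • e0.1 := ⟨c, hc⟩
      simp only [cls, dif_pos h]
      congr 1
      apply scal_inj e0
      rw [← h.choose_spec, hc]
    have cls_none : ∀ v : NZ n F, v.1 ∉ Submodule.span F {e0.1} → cls v = none := by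
      intro v hv
      have h : ¬ ∃ c : Fˣ, v.1 = (c : F) • e0.1 := by
        rintro ⟨c, hc⟩
        exact hv (Submodule.mem_span_singleton.2 ⟨c, hc.symm⟩)
      simp only [cls, dif_neg h]
    have hcase : ∀ v : NZ n F, (∃ c : Fˣ, v.1 = (c : F) • e0.1) ∨ v.1 ∉ Submodule.span F {e0.1} := by
      intro v
      by_cases h : v.1 ∈ Submodule.span F {e0.1}
      · left
        obtain ⟨c, hc⟩ := Submodule.mem_span_singleton.1 h
        have hc0 : c ≠ 0 := by
          rintro rfl
          rw [zero_smul] at hc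
          exact v.2 hc.symm
        exact ⟨Units.mk0 c hc0, hc.symm⟩
      · exact Or.inr h
    have hinv : ∀ (g : MulAction.stabilizer (Matrix.SpecialLinearGroup (Fin n) F) e0) (v : NZ n F), cls (g • v) = cls v := by
      intro g v
      have hg : ((g : Matrix.SpecialLinearGroup (Fin n) F) : Matrix (Fin n) (Fin n) F) *ᵥ e0.1 = e0.1 :=
        congrArg Subtype.val g.2
      rcases hcase v with ⟨c, hc⟩ | hv
      · rw [cls_some v c hc]
        apply cls_some
        change ((g : Matrix.SpecialLinearGroup (Fin n) F) : Matrix (Fin n) (Fin n) F) *ᵥ v.1 = _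
        rw [hc, mulVec_smul, hg]
      · rw [cls_none v hv]
        apply cls_none
        intro h
        apply hv
        obtain ⟨c, hc⟩ := Submodule.mem_span_singleton.1 h
        rw [Submodule.mem_span_singleton]
        refine ⟨c, ?_⟩
        have h1 : ((g : Matrix.SpecialLinearGroup (Fin n) F) : Matrix (Fin n) (Fin n) F) *ᵥ (c • e0.1 - v.1) = 0 := by
          rw [mulVec_sub, mulVec_smul, hg, sub_eq_zero]
          exact hc
        by_contra hne
        exact mulVec_ne (g : Matrix.SpecialLinearGroup (Fin n) F) (sub_ne_zero.2 hne) h1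
    refine Nat.card_congr (Equiv.ofBijective (Quotient.lift cls ?_) ⟨?_, ?_⟩)
    · rintro v w ⟨g, hg⟩
      rw [← hg]
      exact hinv g w
    · intro x y
      refine Quotient.inductionOn₂' x y ?_
      intro v w hvw
      change cls v = cls w at hvw
      apply Quotient.sound'
      rcases hcase v with ⟨c, hc⟩ | hv
      · rcases hcase w with ⟨d, hd⟩ | hw
        · rw [cls_some v c hc, cls_some w d hd] at hvw
          have : v = w := Subtype.ext (by rw [hc, hd, Option.some.inj hvw])
          rw [this]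
        · rw [cls_some v c hc, cls_none w hw] at hvw
          exact absurd hvw (by simp)
      · rcases hcase w with ⟨d, hd⟩ | hw
        · rw [cls_none v hv, cls_some w d hd] at hvw
          exact absurd hvw (by simp)
        · obtain ⟨g, hg1, hg2⟩ := hmove e0.1 w.1 v.1 hw hv
          exact ⟨⟨g, Subtype.ext hg1⟩, Subtype.ext hg2⟩
    · intro o
      rcases o with _ | c
      · obtain ⟨v, hv⟩ := hex (Submodule.span F {e0.1, e0.1}) (hs2 _ _)
        rw [Set.pair_eq_singleton] at hv
        have hv0 : v ≠ 0 := fun h => hv (by rw [h]; exact zero_mem _)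
        exact ⟨Quotient.mk'' ⟨v, hv0⟩, cls_none ⟨v, hv0⟩ hv⟩
      · exact ⟨Quotient.mk'' ⟨(c : F) • e0.1, smul_ne_zero c.ne_zero e0.2⟩, cls_some _ c rfl⟩
  have hP : PP e0 ≠ ⊤ := by
    intro htop
    obtain ⟨v, hv⟩ := hex (Submodule.span F {e0.1, e0.1}) (hs2 _ _)
    rw [Set.pair_eq_singleton] at hv
    have hv0 : v ≠ 0 := fun h => hv (by rw [h]; exact zero_mem _)
    obtain ⟨g, hg⟩ := MinIdxAct.exists_move (F := F) (n := n) (by omega) e0.2 hv0
    have h1 : g ∈ PP e0 := by rw [htop]; trivial
    obtain ⟨c, hc⟩ := h1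
    apply hv
    rw [← hg, hc]
    exact Submodule.smul_mem _ _ (Submodule.mem_span_singleton_self _)
  obtain ⟨χ, h1, h2, h3⟩ := ClPermChar.main (X := NZ n F) (PP e0) (lam e0) e0 hsurj hH hrank hP
  have hcard : Fintype.card F - 1 = Fintype.card Fˣ := (Fintype.card_units F).symm
  rw [hcard]
  refine ⟨χ, h1, h2, fun g => ?_⟩
  rw [← h3]
  congr 1
  apply Nat.card_congr
  exact
    { toFun := fun v => ⟨⟨v.1, v.2.1⟩, Subtype.ext v.2.2⟩
      invFun := fun x => ⟨x.1.1, x.1.2, congrArg Subtype.val x.2⟩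
      left_inv := fun v => rfl
      right_inv := fun x => rfl }

end Cfsg.Agent.S2336
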