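import Cfsg.Statements.S2337
import Cfsg.Agent.Lib.SzLie2
import Cfsg.Agent.Lib.RepBound
import Cfsg.Agent.Lib.RepSchur

set_option autoImplicit false
open Cfsg

namespace Cfsg.Agent.S2337

open Cfsg.Agent.Lib.SzLie Cfsg.Agent.Lib.RepBound Cfsg.Agent.Lib.RepSchur Cfsg.Lie

section

variable {F : Type*} [Field F] [Fintype F] [CharP F 2] {m : ℕ} (hF : Fintype.card F = 2 ^ (2 * m + 1))

/-- The commutation character `b ↦ ψ(a θ b + b θ a)`. -/
noncomputable def bt (ψ : AddChar F ℂ) (θ : F →+* F) (a : F) : AddChar F ℂ where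
  toFun b := ψ (a * θ b + b * θ a)
  map_zero_eq_one' := by simp
  map_add_eq_mul' b b' := by
    rw [← AddChar.map_add_eq_mul]
    congr 1
    rw [map_add]; ring

omit [Fintype F] [CharP F 2] in
theorem bt_apply (ψ : AddChar F ℂ) (θ : F →+* F) (a b : F) : bt ψ θ a b = ψ (a * θ b + b * θ a) := rfl

/-- If `ψ(c b) = 1` for all `b`, with `ψ` non-trivial, then `c = 0`. -/
theorem eq_zero_of_forall {E : Type*} [Field E] {ψ : AddChar E ℂ} (hψ : ψ ≠ 1) {c : E} (h : ∀ b, ψ (c * b) = 1) : c = 0 := by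
  by_contra hc
  apply hψ
  ext x
  have := h (c⁻¹ * x)
  rw [← mul_assoc, mul_inv_cancel₀ hc, one_mul] at this
  rw [this, AddChar.one_apply]

/-- The radical has at most one non-zero element. -/
theorem rad_unique {θ : F →+* F} (hθ : ∀ x, θ (θ x) = x ^ 2) {ψ : AddChar F ℂ} (hψ : ψ ≠ 1) {a₁ a₂ : F}
    (h1 : ∀ b, ψ (a₁ * θ b + b * θ a₁) = 1) (h2 : ∀ b, ψ (a₂ * θ b + b * θ a₂) = 1) (ha1 : a₁ ≠ 0) (ha2 : a₂ ≠ 0) :
    a₁ = a₂ := by
  have hsurj : Function.Surjective θ := Finite.surjective_of_injective θ.injective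
  obtain ⟨s, hs⟩ := hsurj (a₁ / a₂)
  have h3 : ∀ b, ψ ((θ a₁ + s * θ a₂) * b) = 1 := by
    intro b
    have e : (θ a₁ + s * θ a₂) * b = (a₁ * θ b + b * θ a₁) + (a₂ * θ (b * s) + (b * s) * θ a₂) := by
      rw [map_mul, hs]
      have hc : (2 : F) = 0 := CharTwo.two_eq_zero
      field_simp
      linear_combination (-(a₁ * θ b)) * hc
    rw [e, AddChar.map_add_eq_mul, h1, h2, one_mul]
  have h4 := eq_zero_of_forall hψ h3
  have h5 : θ (θ a₁ + s * θ a₂) = 0 := by rw [h4, map_zero]
  rw [map_add, map_mul, hθ, hθ, hs] at h5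
  have h6 : a₁ * (a₁ + a₂) = 0 := by
    have : a₁ ^ 2 + a₁ / a₂ * a₂ ^ 2 = a₁ * (a₁ + a₂) := by field_simp
    rw [← this, h5]
  rcases mul_eq_zero.1 h6 with h | h
  · exact absurd h ha1
  · exact CharTwo.add_eq_zero.1 h

omit [Fintype F] in
theorem bt_eq {θ : F →+* F} {ψ : AddChar F ℂ} {a b : F} (h : bt ψ θ a = bt ψ θ b) (x : F) :
    ψ ((a + b) * θ x + x * θ (a + b)) = 1 := by
  have e : (a + b) * θ x + x * θ (a + b) = (a * θ x + x * θ a) + (b * θ x + x * θ b) := by
    rw [map_add]; ring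
  rw [e, AddChar.map_add_eq_mul, ← bt_apply, ← bt_apply, ← h, ← AddChar.map_add_eq_mul,
    CharTwo.add_self_eq_zero, AddChar.map_zero_eq_one]

include hF in
/-- The number of commutation characters. -/
theorem card_range {θ : F →+* F} (hθ : ∀ x, θ (θ x) = x ^ 2) {ψ : AddChar F ℂ}
    (hψ : ψ ≠ 1) [Fintype (Set.range (bt ψ θ))] : 2 ^ (2 * m) ≤ Fintype.card (Set.range (bt ψ θ)) := by
  classical
  have h1 : (Finset.univ : Finset F).card ≤ 2 * (Finset.univ.image (bt ψ θ)).card := by
    refine Finset.card_le_mul_card_image _ _ fun χ hχ => ?_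
    by_contra hcon
    obtain ⟨a, ha, b, hb, c, hc, hab, hac, hbc⟩ := Finset.two_lt_card.1 (not_le.1 hcon)
    simp only [Finset.mem_filter, Finset.mem_univ, true_and] at ha hb hc
    have h1 := bt_eq (ha.trans hb.symm)
    have h2 := bt_eq (ha.trans hc.symm)
    have := rad_unique hθ hψ h1 h2 (fun h => hab (CharTwo.add_eq_zero.1 h)) (fun h => hac (CharTwo.add_eq_zero.1 h))
    exact hbc (add_left_cancel this)
  have h2 : (Finset.univ.image (bt ψ θ)).card = Fintype.card (Set.range (bt ψ θ)) := by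
    rw [← Set.toFinset_range, Set.toFinset_card]
  rw [Finset.card_univ, hF, h2, pow_succ] at h1
  omega

end

/-- For the Suzuki group Sz(q), q = 2^(2m+1) with m ≥ 1 (realised inside Sp₄ over the field with q elements), every irreducible complex representation of degree at least 2 has degree at least 2^m·(q − 1). -/
theorem result {F : Type*} [Field F] [Fintype F] (m : ℕ) (hm : 1 ≤ m) (hF : Fintype.card F = 2 ^ (2 * m + 1)) :
    (∀ (k : ℕ) (ρ : Representation ℂ (Cfsg.Lie.Sz F (2 ^ (m + 1))) (Fin k → ℂ)), ρ.IsIrreducible → 2 ≤ k → 2 ^ m * (2 ^ (2 * m + 1) - 1) ≤ k) := by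
  classical
  intro k ρ hρ hk
  have hchar := charP_two hF
  set θ := tht F m with hθdef
  have hθ := tht_tht hF (F := F) (m := m)
  -- the centre acts non-trivially
  have hne : ∃ b : F, ρ (uS hF 0 b) ≠ 1 := by
    by_contra hcon
    push Not at hcon
    have h1 := hom_eq_one hF hm ρ hcon
    have h2 := finrank_le_one_of_comm hρ (fun g h => by rw [h1, h1])
    rw [Module.finrank_fin_fun] at h2
    omega
  obtain ⟨ψ, hψ, v, hv, hv2⟩ := exists_eigen (fun b : F => ρ (uS hF 0 b))
    (fun a b => by rw [← map_mul, uS_mul]; simp) (by rw [uS_zero, map_one]) hne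
  -- the eigenspace
  let W : Submodule ℂ (Fin k → ℂ) :=
    { carrier := {w | ∀ b, ρ (uS hF 0 b) w = ψ b • w}
      add_mem' := fun {x y} hx hy b => by rw [map_add, hx, hy, smul_add]
      zero_mem' := fun b => by simp
      smul_mem' := fun c x hx b => by rw [map_smul, hx, smul_comm] }
  have hW : ∀ w, w ∈ W ↔ ∀ b, ρ (uS hF 0 b) w = ψ b • w := fun w => Iff.rfl
  have hvW : v ∈ W := hv2
  have hWpos : 0 < Module.finrank ℂ W := by
    have : Nontrivial W := ⟨⟨⟨v, hvW⟩, 0, fun h => hv (congrArg Subtype.val h)⟩⟩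
    exact Module.finrank_pos
  have hmul : ∀ x y w, ρ x (ρ y w) = ρ (x * y) w := fun x y w => by rw [map_mul]; rfl
  -- first bound: translates under the torus
  have hb1 : Fintype.card Fˣ * Module.finrank ℂ W ≤ k := by
    have h := card_mul_finrank_le (M := Multiplicative F) W (fun t : Fˣ => ρ (hS hF t)) (fun t w _ h => by
        have h1 : ρ (hS hF t)⁻¹ (ρ (hS hF t) w) = w := by
          rw [hmul, inv_mul_cancel, map_one]; rfl
        rw [← h1, h, map_zero])
      (fun b => ρ (uS hF 0 (Multiplicative.toAdd b)))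
      (fun t => { toFun := fun b => ψ ((θ t)⁻¹ * Multiplicative.toAdd b)
                  map_one' := by simp
                  map_mul' := fun x y => by
                    rw [← AddChar.map_add_eq_mul, toAdd_mul, mul_add] })
      (by
        intro s t hst
        have h1 : ∀ b : F, ψ (((θ s)⁻¹ - (θ t)⁻¹) * b) = 1 := by
          intro b
          have h2 := DFunLike.congr_fun hst (Multiplicative.ofAdd b)
          change ψ ((θ s)⁻¹ * b) = ψ ((θ t)⁻¹ * b) at h2
          rw [sub_mul, AddChar.map_sub_eq_div, h2, div_self]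
          exact (AddChar.val_isUnit ψ _).ne_zero
        have h3 := sub_eq_zero.1 (eq_zero_of_forall hψ h1)
        exact Units.ext (θ.injective (inv_injective h3)))
      (by
        intro b t w hw
        change ρ (uS hF 0 (Multiplicative.toAdd b)) (ρ (hS hF t) w) = ψ ((θ t)⁻¹ * Multiplicative.toAdd b) • ρ (hS hF t) w
        have h1 := hS_conj hF t 0 ((θ t)⁻¹ * Multiplicative.toAdd b)
        have hne : θ (t : F) ≠ 0 := by simp
        rw [mul_zero, ← mul_assoc, mul_inv_cancel₀ hne, one_mul] at h1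
        rw [hmul, ← h1, mul_assoc, inv_mul_cancel, mul_one, ← hmul, (hW w).1 hw, map_smul])
    rwa [Module.finrank_fin_fun] at h
  -- second bound: independence of the operators
  have hb2 : 2 ^ (2 * m) ≤ Module.finrank ℂ W ^ 2 := by
    have : Fintype (Set.range (bt ψ θ)) := Fintype.ofFinite _
    refine (card_range hF hθ hψ).trans ?_
    have hinv : ∀ a, ∀ w ∈ W, ρ (uS hF a 0) w ∈ W := by
      intro a w hw b
      have h1 : uS hF 0 b * uS hF a 0 = uS hF a 0 * uS hF 0 b := by
        rw [uS_mul, uS_mul]; simp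
      rw [hmul, h1, ← hmul, (hW w).1 hw, map_smul]
    choose r hr using fun i : Set.range (bt ψ θ) => i.2
    have hunit : ∀ a, IsUnit ((ρ (uS hF a 0)).restrict (hinv a)) := by
      intro a
      have hinj : Function.Injective ((ρ (uS hF a 0)).restrict (hinv a)) := by
        intro x y hxy
        have h1 : ρ (uS hF a 0) x.1 = ρ (uS hF a 0) y.1 := congrArg Subtype.val hxy
        have h2 := congrArg (ρ (uS hF a 0)⁻¹) h1
        rw [hmul, hmul, inv_mul_cancel, map_one] at h2
        exact Subtype.ext h2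
      exact LinearMap.isUnit_iff_ker_eq_bot _ |>.2 (LinearMap.ker_eq_bot.2 hinj)
    refine card_le_finrank_sq (M := Multiplicative F) (W := W) (I := Set.range (bt ψ θ))
      (fun i => (ρ (uS hF (r i) 0)).restrict (hinv (r i))) (fun i h => ?_)
      (fun b => (ρ (uS hF (Multiplicative.toAdd b) 0)).restrict (hinv _)) (fun b => hunit _)
      (fun i => i.1.toMonoidHom) (fun i j hij => ?_) ?_
    · have h1 := hunit (r i)
      rw [h] at h1
      have : Nontrivial (W →ₗ[ℂ] W) := by
        have : Nontrivial W := Module.nontrivial_of_finrank_pos hWpos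
        infer_instance
      exact not_isUnit_zero h1
    · refine Subtype.ext (DFunLike.ext _ _ fun x => ?_)
      exact DFunLike.congr_fun hij (Multiplicative.ofAdd x)
    · intro x i
      refine LinearMap.ext fun w => Subtype.ext ?_
      change ρ (uS hF (Multiplicative.toAdd x) 0) (ρ (uS hF (r i) 0) w.1) =
        i.1 (Multiplicative.toAdd x) • ρ (uS hF (r i) 0) (ρ (uS hF (Multiplicative.toAdd x) 0) w.1)
      have hc : (2 : F) = 0 := CharTwo.two_eq_zero
      have h1 : uS hF (Multiplicative.toAdd x) 0 * uS hF (r i) 0 =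
          uS hF (r i) 0 * uS hF (Multiplicative.toAdd x) 0 *
            uS hF 0 (r i * θ (Multiplicative.toAdd x) + (Multiplicative.toAdd x) * θ (r i)) := by
        rw [uS_mul, uS_mul, uS_mul]
        congr 1
        · ring
        · rw [map_zero, ← hθdef]; linear_combination (-(r i * θ (Multiplicative.toAdd x))) * hc
      have h2 : i.1 (Multiplicative.toAdd x) = ψ (r i * θ (Multiplicative.toAdd x) + (Multiplicative.toAdd x) * θ (r i)) := by
        rw [← bt_apply, hr i]
      rw [hmul, h1, ← hmul, (hW w.1).1 w.2, map_smul, hmul, h2]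
  -- conclusion
  have hb3 : 2 ^ m ≤ Module.finrank ℂ W := by
    rw [mul_comm 2 m, pow_mul] at hb2
    exact (Nat.pow_le_pow_iff_left two_ne_zero).1 hb2
  rw [Fintype.card_units, hF] at hb1
  calc 2 ^ m * (2 ^ (2 * m + 1) - 1) ≤ Module.finrank ℂ W * (2 ^ (2 * m + 1) - 1) := Nat.mul_le_mul_right _ hb3
    _ = (2 ^ (2 * m + 1) - 1) * Module.finrank ℂ W := Nat.mul_comm _ _
    _ ≤ k := hb1

end Cfsg.Agent.S2337
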