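import Cfsg.Statements.S2338
import Cfsg.Agent.Lib.MinG2K
import Cfsg.Agent.Lib.MinDegN
import Cfsg.Agent.S1055

set_option autoImplicit false
open Cfsg

namespace Cfsg.Agent.S2338

/-- Lower bounds for the degrees of non-linear irreducible complex representations of the Chevalley group of type G₂ over a finite field with q elements: the degree is at least q³ + 1 when q ≡ 1 (mod 3) and q > 4, at least q³ − 1 when q ≡ 2 (mod 3) and q > 2, and at least q⁴ + q² + 1 when q ≡ 0 (mod 3) and q > 3. -/
theorem result {F : Type*} [Field F] [Fintype F] (k : ℕ) (ρ : Representation ℂ (Cfsg.Lie.chevG2.group F) (Fin k → ℂ)) (hρ : ρ.IsIrreducible) (hk : 2 ≤ k) :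
    (Fintype.card F % 3 = 1 → 4 < Fintype.card F → Fintype.card F ^ 3 + 1 ≤ k) ∧
    (Fintype.card F % 3 = 2 → 2 < Fintype.card F → Fintype.card F ^ 3 - 1 ≤ k) ∧
    (Fintype.card F % 3 = 0 → 3 < Fintype.card F → Fintype.card F ^ 4 + Fintype.card F ^ 2 + 1 ≤ k) := by
  classical
  have hmain : 2 < Fintype.card F → (Fintype.card F % 3 = 1 → 4 < Fintype.card F → Fintype.card F ^ 3 + 1 ≤ k) ∧
      (Fintype.card F % 3 = 2 → 2 < Fintype.card F → Fintype.card F ^ 3 - 1 ≤ k) ∧
      (Fintype.card F % 3 = 0 → 3 < Fintype.card F → Fintype.card F ^ 4 + Fintype.card F ^ 2 + 1 ≤ k) := by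
    intro h2
    have hF : ∃ a : F, a ≠ 0 ∧ a ≠ 1 := by
      by_contra hcon
      push Not at hcon
      have h1 : (Finset.univ : Finset F) ⊆ {0, 1} := by
        intro s _
        simp only [Finset.mem_insert, Finset.mem_singleton]
        by_cases hs : s = 0
        · exact Or.inl hs
        · exact Or.inr (hcon s hs)
      have h3 := (Finset.card_le_card h1).trans Finset.card_le_two
      rw [Finset.card_univ] at h3
      omega
    obtain ⟨hsimple, -⟩ := Cfsg.Agent.S1055.result (F := F) hF
    obtain ⟨g, hg⟩ := Cfsg.Agent.Lib.MinDegN.nontriv_of_two hρ (by rw [Module.finrank_fin_fun]; exact hk)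
    have hker : MonoidHom.ker ρ = ⊥ := by
      rcases hsimple.eq_bot_or_eq_top_of_normal (MonoidHom.ker ρ) inferInstance with h | h
      · exact h
      · exfalso
        apply hg
        have : g ∈ MonoidHom.ker ρ := by rw [h]; exact Subgroup.mem_top g
        exact this
    have hnt : ∀ r, r < 12 → ∃ u : F, ρ (Cfsg.Agent.Lib.MinG2C.X r u) ≠ 1 := by
      intro r hr
      refine ⟨1, fun h => ?_⟩
      have h1 : (Cfsg.Agent.Lib.MinG2C.X r (1 : F) : Cfsg.Lie.chevG2.group F) ∈ MonoidHom.ker ρ := h
      rw [hker, Subgroup.mem_bot, ← Cfsg.Agent.Lib.MinG2D.X_zero (F := F) hr] at h1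
      exact one_ne_zero (Cfsg.Agent.Lib.MinG2C.X_inj hr h1)
    obtain ⟨ψ, hψ⟩ := (AddChar.exists_apply_ne_zero (α := F) (a := 1)).mpr one_ne_zero
    have hψ1 : ψ ≠ 1 := by
      intro h
      rw [h, AddChar.one_apply] at hψ
      exact hψ rfl
    have hpp : IsPrimePow (Fintype.card F) := FiniteField.isPrimePow_card F
    have hcard : ((Fintype.card F : ℕ) : F) = 0 := FiniteField.cast_card_eq_zero F
    have h30 : (3 : F) = 0 ↔ Fintype.card F % 3 = 0 := by
      constructor
      · intro h3
        have : CharP F 3 := by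
          have : CharP F (ringChar F) := inferInstance
          have h1 : ringChar F ∣ 3 := (ringChar.spec F 3).mp (by exact_mod_cast h3)
          have h2 : ringChar F ≠ 1 := CharP.ringChar_ne_one
          have h4 : ringChar F = 3 := ((Nat.dvd_prime Nat.prime_three).mp h1).resolve_left h2
          rwa [h4] at this
        exact Nat.mod_eq_zero_of_dvd ((CharP.cast_eq_zero_iff F 3 _).mp hcard)
      · intro h3
        obtain ⟨p, n, hp, hn, e⟩ := hpp
        have hp' : p.Prime := Nat.prime_iff.mpr hp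
        have h1 : 3 ∣ p ^ n := by rw [e]; exact Nat.dvd_of_mod_eq_zero h3
        have h2 : 3 = p := (Nat.prime_dvd_prime_iff_eq Nat.prime_three hp').mp (Nat.prime_three.dvd_of_dvd_pow h1)
        subst h2
        rw [← e, Nat.cast_pow] at hcard
        have h4 : ((3 : ℕ) : F) = 0 := (pow_eq_zero_iff (by omega)).mp hcard
        exact_mod_cast h4
    by_cases h3 : (3 : F) = 0
    · refine ⟨fun h => absurd (h30.mp h3) (by omega), fun h => absurd (h30.mp h3) (by omega), fun _ h => ?_⟩
      have := Cfsg.Agent.Lib.MinG2K.main3 (ρ := ρ) h3 hψ1 h (hnt 9 (by norm_num))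
      rwa [Module.finrank_fin_fun] at this
    · have := Cfsg.Agent.Lib.MinG2D.main_ne3 (ρ := ρ) hψ1 h3 (hnt 11 (by norm_num)) hpp
      rw [Module.finrank_fin_fun] at this
      exact ⟨this.1, this.2, fun h => absurd (h30.mpr h) h3⟩
  exact ⟨fun a b => (hmain (by omega)).1 a b, fun a b => (hmain (by omega)).2.1 a b, fun a b => (hmain (by omega)).2.2 a b⟩

end Cfsg.Agent.S2338
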