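import Cfsg.Statements.S2344
import Cfsg.Agent.Lib.OmTransfer

set_option autoImplicit false
open Cfsg

namespace Cfsg.Agent.S2344

open Cfsg.Agent.Lib Cfsg.Agent.Lib.Quad QuadraticMap

theorem Z_step {F W : Type*} [Field F] [Fintype F] [AddCommGroup W] [Module F W] [Fintype W] (Q' : QuadraticForm F W) :
    (ClOrthOrd.Z (OmHyp.hyp Q') : ℝ) = Fintype.card F * ClOrthOrd.Z Q' + (Fintype.card F - 1) * Fintype.card W := by
  have h := ClOrthOrd.Z_split (OmHyp.split_hyp Q')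
  have h1 : 1 ≤ Fintype.card F := Fintype.card_pos
  rw [h, Nat.card_eq_fintype_card]
  push_cast [Nat.cast_sub h1]
  ring

/-- For a finite field F of odd order q > 3 and n ≥ 3, every irreducible complex representation of degree at least 2 of Ω_{2n+1}(F) (the commutator subgroup of the isometry group of the quadratic form x₀² + x₁y₁ + ⋯ + x_ny_n) has degree at least (q^{2n} − 1)/(q² − 1). -/
theorem result {F : Type*} [Field F] [Fintype F] (n : ℕ) (hn : 3 ≤ n) (hodd : Odd (Fintype.card F)) (h3 : 3 < Fintype.card F) :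
    (∀ (k : ℕ) (ρ : Representation ℂ (Cfsg.Omega F (Cfsg.quadFormOdd n F)) (Fin k → ℂ)), ρ.IsIrreducible → 2 ≤ k → (Fintype.card F ^ (2 * n) - 1) / (Fintype.card F ^ 2 - 1) ≤ k) := by
  classical
  intro k ρ hρ hk
  obtain ⟨m, rfl⟩ : ∃ m, n = m + 3 := ⟨n - 3, by omega⟩
  have h2 : (2 : F) ≠ 0 := ClUtil.odd_card_iff_two_ne_zero.mp hodd
  have hQ₃ : Nd (quadOdd m F) := nd_quadOdd h2
  obtain ⟨Φ, hΦ⟩ := OmTransfer.tri (ClOrthOrd.split_odd (m + 2) F) (ClOrthOrd.split_odd (m + 1) F) (ClOrthOrd.split_odd m F)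
  have hl := OmTransfer.lower_transfer hQ₃ h3 Φ hΦ ρ hρ (by rw [Module.finrank_fin_fun]; exact hk)
  rw [Module.finrank_fin_fun] at hl
  set q := Fintype.card F with hq
  have hW : Fintype.card (Unit ⊕ (Fin m ⊕ Fin m) → F) = q ^ (2 * m + 1) := by
    rw [← Nat.card_eq_fintype_card, ClOrthOrd.card_odd_space]
  have hZ0 : ClOrthOrd.Z (quadOdd m F) = q ^ (2 * m) := ClOrthOrd.Z_odd m
  have hq' : (4 : ℝ) ≤ q := by exact_mod_cast h3
  set P : ℕ := q ^ (2 * m + 4) with hP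
  have hZ1 : (ClOrthOrd.Z (OmHyp.hyp (quadOdd m F)) : ℝ) = (q : ℝ) ^ (2 * m + 2) := by
    rw [Z_step, hZ0, hW]
    push_cast
    ring
  have hZ2 : (ClOrthOrd.Z (OmHyp.hyp (OmHyp.hyp (quadOdd m F))) : ℝ) = P := by
    rw [Z_step, hZ1, Fintype.card_prod, Fintype.card_prod, hW]
    push_cast [hP]
    ring
  have hZ3 : (ClOrthOrd.Z (OmHyp.hyp (OmHyp.hyp (OmHyp.hyp (quadOdd m F)))) : ℝ) = (q : ℝ) ^ 2 * P := by
    rw [Z_step, hZ2, Fintype.card_prod, Fintype.card_prod, Fintype.card_prod, Fintype.card_prod, hW]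
    push_cast [hP]
    ring
  have hZ2' : ClOrthOrd.Z (OmHyp.hyp (OmHyp.hyp (quadOdd m F))) = P := by exact_mod_cast hZ2
  -- the bound divides exactly
  obtain ⟨T, hT⟩ : q ^ 2 - 1 ∣ q ^ (2 * (m + 3)) - 1 := by
    rw [pow_mul]
    exact Nat.sub_one_dvd_pow_sub_one _ _
  have hq2 : 16 ≤ q ^ 2 := by nlinarith
  have hqpos : 1 ≤ q ^ (2 * (m + 3)) := Nat.one_le_pow _ _ (by omega)
  rw [hT, Nat.mul_div_cancel_left _ (by omega)]
  have hTr : (T : ℝ) * ((q : ℝ) ^ 2 - 1) = (q : ℝ) ^ 2 * P - 1 := by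
    have h5 : ((q ^ (2 * (m + 3)) - 1 : ℕ) : ℝ) = (((q ^ 2 - 1) * T : ℕ) : ℝ) := by rw [hT]
    rw [Nat.cast_sub hqpos, Nat.cast_mul, Nat.cast_sub (by omega : 1 ≤ q ^ 2)] at h5
    push_cast at h5
    rw [hP]
    push_cast
    linear_combination (-1 : ℝ) * h5
  have hP4 : q ^ 4 ≤ P := Nat.pow_le_pow_right (by omega) (by omega)
  have hP4' : (q : ℝ) ^ 4 ≤ P := by exact_mod_cast hP4
  have hqq : (0 : ℝ) < (q : ℝ) ^ 2 - 1 := by nlinarith
  have hq2r : (16 : ℝ) ≤ (q : ℝ) ^ 2 := by nlinarith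
  have hP1 : (256 : ℝ) ≤ P := by
    have e : (q : ℝ) ^ 4 = (q : ℝ) ^ 2 * (q : ℝ) ^ 2 := by ring
    rw [e] at hP4'
    nlinarith
  rcases hl with h | h | ⟨r, hr, h⟩
  · rw [hW] at h
    have h' : 2 * (((q : ℝ) - 1) * ((q : ℝ) ^ 2 * (q : ℝ) ^ (2 * m + 1))) ≤ k := by
      have := (Nat.cast_le (α := ℝ)).mpr h
      push_cast [Nat.cast_sub (by omega : 1 ≤ q)] at this
      exact this
    have hx : (q : ℝ) * ((q : ℝ) ^ 2 * (q : ℝ) ^ (2 * m + 1)) = P := by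
      rw [hP]
      push_cast
      ring
    have hTk : (T : ℝ) ≤ k := by
      refine le_trans ?_ h'
      set x : ℝ := (q : ℝ) ^ 2 * (q : ℝ) ^ (2 * m + 1)
      rw [← hx] at hTr
      have hx0 : 0 < x := by positivity
      refine le_of_mul_le_mul_right ?_ hqq
      rw [hTr]
      have h6 : (0 : ℝ) ≤ (q : ℝ) ^ 3 - 2 * (q : ℝ) ^ 2 - 2 * q + 2 := by nlinarith [mul_nonneg (mul_nonneg (by linarith : (0:ℝ) ≤ q) (by linarith : (0:ℝ) ≤ q)) (by linarith : (0:ℝ) ≤ (q:ℝ) - 4)]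
      nlinarith [mul_nonneg h6 hx0.le]
    exact_mod_cast hTk
  · rw [hZ2'] at h
    have hP0 : 1 ≤ P := Nat.one_le_pow _ _ (by omega)
    have h' : 2 * ((P : ℝ) - 1) ≤ k := by
      have := (Nat.cast_le (α := ℝ)).mpr h
      push_cast [Nat.cast_sub hP0] at this
      exact this
    have hTk : (T : ℝ) ≤ k := by
      refine le_trans ?_ h'
      refine le_of_mul_le_mul_right ?_ hqq
      rw [hTr]
      nlinarith [mul_nonneg (by linarith : (0 : ℝ) ≤ (P : ℝ) - 256) (by linarith : (0 : ℝ) ≤ (q : ℝ) ^ 2 - 2)]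
    exact_mod_cast hTk
  · rw [hZ2, hZ3, hW] at h
    refine OmTransfer.arith_odd (P := P) h3 hP4 hTr hr ?_
    have hx : (q : ℝ) ^ 3 * ((q ^ (2 * m + 1) : ℕ) : ℝ) = P := by
      rw [hP]
      push_cast
      ring
    rw [hx] at h
    exact h

end Cfsg.Agent.S2344
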