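import Cfsg.Statements.S2345
import Cfsg.Agent.Lib.OmTransfer

set_option autoImplicit false
open Cfsg

namespace Cfsg.Agent.S2345

open Cfsg.Agent.Lib Cfsg.Agent.Lib.Quad QuadraticMap

theorem Z_step {F W : Type*} [Field F] [Fintype F] [AddCommGroup W] [Module F W] [Fintype W] (Q' : QuadraticForm F W) :
    (ClOrthOrd.Z (OmHyp.hyp Q') : ℝ) = Fintype.card F * ClOrthOrd.Z Q' + (Fintype.card F - 1) * Fintype.card W := by
  have h := ClOrthOrd.Z_split (OmHyp.split_hyp Q')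
  have h1 : 1 ≤ Fintype.card F := Fintype.card_pos
  rw [h, Nat.card_eq_fintype_card]
  push_cast [Nat.cast_sub h1]
  ring

theorem dvd_target (q m : ℕ) (hq : 1 ≤ q) : q ^ 2 - 1 ∣ (q ^ (m + 3) - 1) * (q ^ (m + 3 - 1) + q) := by
  rcases Nat.even_or_odd (m + 1) with ⟨j, hj⟩ | hodd
  · apply Dvd.dvd.mul_right
    have e : m + 3 = 2 * (j + 1) := by omega
    rw [e, pow_mul]
    exact Nat.sub_one_dvd_pow_sub_one _ _
  · have e1 : q ^ 2 - 1 = (q - 1) * (q + 1) := by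
      obtain ⟨s, rfl⟩ : ∃ s, q = s + 1 := ⟨q - 1, by omega⟩
      have : (s + 1) ^ 2 = s * (s + 2) + 1 := by ring
      rw [this]
      simp
    have e2 : q ^ (m + 3 - 1) + q = q * (q ^ (m + 1) + 1 ^ (m + 1)) := by
      rw [one_pow, show m + 3 - 1 = (m + 1) + 1 by omega]
      ring
    rw [e1, e2]
    apply Nat.mul_dvd_mul (Nat.sub_one_dvd_pow_sub_one _ _)
    exact (Odd.nat_add_dvd_pow_add_pow q 1 hodd).mul_left _

theorem alt1 {q a T k : ℝ} (hq' : 4 ≤ q) (ha' : q ^ 2 ≤ a) (hTr : T * (q ^ 2 - 1) = q * (q ^ 2 * a - 1) * (a + 1))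
    (h' : 2 * ((q - 1) * a ^ 2) ≤ k) : T ≤ k := by
  have hq2r : (16 : ℝ) ≤ (q : ℝ) ^ 2 := by nlinarith
  have hqq : (0 : ℝ) < (q : ℝ) ^ 2 - 1 := by linarith
  have ha16 : (16 : ℝ) ≤ a := by linarith
  refine le_trans ?_ h'
  refine le_of_mul_le_mul_right ?_ hqq
  rw [hTr]
  have h7 : (0 : ℝ) ≤ q ^ 3 - 2 * q ^ 2 - 3 * q := by
    nlinarith [mul_nonneg (mul_nonneg (by linarith : (0:ℝ) ≤ q) (by linarith : (0:ℝ) ≤ q)) (by linarith : (0:ℝ) ≤ q - 4)]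
  have h9 : q * a * q ^ 2 ≤ q * a * a := mul_le_mul_of_nonneg_left ha' (by positivity)
  have h10 : 0 ≤ (q ^ 3 - 2 * q ^ 2 - 3 * q) * a ^ 2 := mul_nonneg h7 (_root_.sq_nonneg a)
  have h11 : 0 ≤ q * a := by positivity
  have h12 : 0 ≤ a ^ 2 := by positivity
  have h13 : 2 * ((q - 1) * a ^ 2) * (q ^ 2 - 1) - q * (q ^ 2 * a - 1) * (a + 1) =
      (q ^ 3 - 2 * q ^ 2 - 3 * q) * a ^ 2 + (q * a * a - q * a * q ^ 2) + 2 * a ^ 2 + q * a + q := by ring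
  linarith

theorem alt2 {q a T k : ℝ} (hq' : 4 ≤ q) (ha' : q ^ 2 ≤ a) (hTr : T * (q ^ 2 - 1) = q * (q ^ 2 * a - 1) * (a + 1))
    (h' : 2 * ((q * a - 1) * (a + 1)) ≤ k) : T ≤ k := by
  have hq2r : (16 : ℝ) ≤ (q : ℝ) ^ 2 := by nlinarith
  have hqq : (0 : ℝ) < (q : ℝ) ^ 2 - 1 := by linarith
  have ha16 : (16 : ℝ) ≤ a := by linarith
  refine le_trans ?_ h'
  refine le_of_mul_le_mul_right ?_ hqq
  rw [hTr]
  have h6 : q * (q ^ 2 * a - 1) ≤ 2 * (q * a - 1) * (q ^ 2 - 1) := by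
    have e : 2 * (q * a - 1) * (q ^ 2 - 1) - q * (q ^ 2 * a - 1) = (q ^ 2 - 2) * (q * a) - 2 * q ^ 2 + 2 + q := by ring
    have h8 : (q ^ 2 - 2) * (4 * 16) ≤ (q ^ 2 - 2) * (q * a) := by
      apply mul_le_mul_of_nonneg_left _ (by linarith)
      exact mul_le_mul hq' ha16 (by norm_num) (by linarith)
    linarith
  have h7 := mul_le_mul_of_nonneg_right h6 (by linarith : (0 : ℝ) ≤ a + 1)
  linarith [h7]

/-- For a finite field F with q > 3 elements and n ≥ 4, every irreducible complex representation of degree at least 2 of Ω⁺_{2n}(F) (the commutator subgroup of the isometry group of the hyperbolic quadratic form x₁y₁ + ⋯ + x_ny_n) has degree at least (q^n − 1)(q^{n−1} + q)/(q² − 1). -/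
theorem result {F : Type*} [Field F] [Fintype F] (n : ℕ) (hn : 4 ≤ n) (h3 : 3 < Fintype.card F) :
    (∀ (k : ℕ) (ρ : Representation ℂ (Cfsg.Omega F (Cfsg.quadFormPlus n F)) (Fin k → ℂ)), ρ.IsIrreducible → 2 ≤ k → (Fintype.card F ^ n - 1) * (Fintype.card F ^ (n - 1) + Fintype.card F) / (Fintype.card F ^ 2 - 1) ≤ k) := by
  classical
  intro k ρ hρ hk
  obtain ⟨m, rfl⟩ : ∃ m, n = m + 3 := ⟨n - 3, by omega⟩
  have hQ₃ : Nd (quadPlus m F) := nd_quadPlus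
  obtain ⟨Φ, hΦ⟩ := OmTransfer.tri (ClOrthOrd.split_plus (m + 2) F) (ClOrthOrd.split_plus (m + 1) F) (ClOrthOrd.split_plus m F)
  have hl := OmTransfer.lower_transfer hQ₃ h3 Φ hΦ ρ hρ (by rw [Module.finrank_fin_fun]; exact hk)
  rw [Module.finrank_fin_fun] at hl
  set q := Fintype.card F with hq
  have hW : Fintype.card (Fin m ⊕ Fin m → F) = q ^ (2 * m) := by
    rw [← Nat.card_eq_fintype_card, ClOrthOrd.card_plus_space]
  have hZ0 : (q : ℝ) * (ClOrthOrd.Z (quadPlus m F) : ℝ) = (q : ℝ) ^ (2 * m) + (q : ℝ) ^ (m + 1) - (q : ℝ) ^ m := by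
    have := ClOrthOrd.Z_plus (F := F) m
    have h' : (((Fintype.card F : ℤ) * ClOrthOrd.Z (quadPlus m F) : ℤ) : ℝ) = _ := congrArg (Int.cast (R := ℝ)) this
    push_cast at h'
    rw [← hq] at h'
    linarith
  have hq' : (4 : ℝ) ≤ q := by exact_mod_cast h3
  set a : ℕ := q ^ (m + 1) with ha
  have hqm : (q : ℝ) * (q : ℝ) ^ m = a := by rw [ha]; push_cast; ring
  have hq2m : (q : ℝ) ^ 2 * (q : ℝ) ^ (2 * m) = (a : ℝ) ^ 2 := by rw [ha]; push_cast; ring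
  have hZ1 : (q : ℝ) * (ClOrthOrd.Z (OmHyp.hyp (quadPlus m F)) : ℝ) = (a : ℝ) ^ 2 + q * a - a := by
    rw [Z_step, hZ0, hW]
    push_cast
    rw [← hq2m, ← hqm]
    ring
  have hZ2 : (ClOrthOrd.Z (OmHyp.hyp (OmHyp.hyp (quadPlus m F))) : ℝ) = q * (a : ℝ) ^ 2 + q * a - a := by
    rw [Z_step, hZ1, Fintype.card_prod, Fintype.card_prod, hW]
    push_cast
    rw [← hq2m, ← hqm, ← hq]
    ring
  have hZ3 : (ClOrthOrd.Z (OmHyp.hyp (OmHyp.hyp (OmHyp.hyp (quadPlus m F)))) : ℝ) = (q : ℝ) ^ 3 * (a : ℝ) ^ 2 + (q : ℝ) ^ 2 * a - q * a := by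
    rw [Z_step, hZ2, Fintype.card_prod, Fintype.card_prod, Fintype.card_prod, Fintype.card_prod, hW]
    push_cast
    rw [← hq2m, ← hqm, ← hq]
    ring
  -- the bound divides exactly
  obtain ⟨T, hT⟩ := dvd_target q m (by omega)
  have hq2 : 16 ≤ q ^ 2 := by nlinarith
  have hqpos : 1 ≤ q ^ (m + 3) := Nat.one_le_pow _ _ (by omega)
  rw [hT, Nat.mul_div_cancel_left _ (by omega)]
  have hTr : (T : ℝ) * ((q : ℝ) ^ 2 - 1) = q * ((q : ℝ) ^ 2 * a - 1) * (a + 1) := by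
    have h5 : (((q ^ (m + 3) - 1) * (q ^ (m + 3 - 1) + q) : ℕ) : ℝ) = (((q ^ 2 - 1) * T : ℕ) : ℝ) := by rw [hT]
    rw [Nat.cast_mul, Nat.cast_sub hqpos, Nat.cast_mul, Nat.cast_sub (by omega : 1 ≤ q ^ 2), show m + 3 - 1 = m + 2 by omega] at h5
    push_cast at h5
    rw [ha]
    push_cast
    linear_combination (-1 : ℝ) * h5
  have haq : q ^ 2 ≤ a := Nat.pow_le_pow_right (by omega) (by omega)
  have ha' : (q : ℝ) ^ 2 ≤ a := by exact_mod_cast haq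
  have hq2r : (16 : ℝ) ≤ (q : ℝ) ^ 2 := by nlinarith
  have hqq : (0 : ℝ) < (q : ℝ) ^ 2 - 1 := by linarith
  have ha16 : (16 : ℝ) ≤ a := by linarith
  rcases hl with h | h | ⟨r, hr, h⟩
  · rw [hW] at h
    have h' : 2 * (((q : ℝ) - 1) * (a : ℝ) ^ 2) ≤ k := by
      have := (Nat.cast_le (α := ℝ)).mpr h
      push_cast [Nat.cast_sub (by omega : 1 ≤ q)] at this
      rw [← hq2m]
      exact this
    have hTk : (T : ℝ) ≤ k := alt1 hq' ha' hTr h'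
    exact_mod_cast hTk
  · have hZ1' : 1 ≤ ClOrthOrd.Z (OmHyp.hyp (OmHyp.hyp (quadPlus m F))) := by
      have : (1 : ℝ) ≤ ClOrthOrd.Z (OmHyp.hyp (OmHyp.hyp (quadPlus m F))) := by
        rw [hZ2]
        nlinarith
      exact_mod_cast this
    have h' : 2 * (((q : ℝ) * a - 1) * (a + 1)) ≤ k := by
      have := (Nat.cast_le (α := ℝ)).mpr h
      rw [Nat.cast_mul, Nat.cast_sub hZ1', hZ2] at this
      push_cast at this
      linarith
    have hTk : (T : ℝ) ≤ k := alt2 hq' ha' hTr h'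
    exact_mod_cast hTk
  · rw [hZ2, hZ3, hW] at h
    refine OmTransfer.arith_plus (a := a) h3 haq hTr hr ?_
    have hx : (q : ℝ) ^ 3 * ((q ^ (2 * m) : ℕ) : ℝ) = q * (a : ℝ) ^ 2 := by
      rw [← hq2m]
      push_cast
      ring
    rw [hx] at h
    linear_combination h

end Cfsg.Agent.S2345
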