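import Cfsg.Statements.S2353
import Cfsg.Agent.Lib.FreeWord

set_option autoImplicit false
open Cfsg

namespace Cfsg.Agent.S2353

/-- A non-trivial law holds in PSL_2 over only finitely many finite fields: for every non-trivial element w of the free group on countably many generators there is N such that over every finite field with at least N elements some substitution of elements of PSL_2 into w is not the identity. -/
theorem result (w : FreeGroup ℕ) (hw : w ≠ 1) :
    ∃ N : ℕ, ∀ (F : Type*) [Field F] [Fintype F], N ≤ Fintype.card F →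
      ∃ f : ℕ → Matrix.ProjectiveSpecialLinearGroup (Fin 2) F, FreeGroup.lift f w ≠ 1 := by
  obtain ⟨N, hN⟩ := Cfsg.Agent.Lib.FreeWord.exists_sl2_nonscalar w hw
  refine ⟨N, fun F _ _ hF => ?_⟩
  obtain ⟨f, hf⟩ := hN F (by rw [Cardinal.mk_fintype]; exact_mod_cast hF)
  refine ⟨fun i => QuotientGroup.mk (f i), fun h => ?_⟩
  have h1 : FreeGroup.lift (fun i => (QuotientGroup.mk (f i) : Matrix.ProjectiveSpecialLinearGroup (Fin 2) F)) =
      (QuotientGroup.mk' (Subgroup.center (Matrix.SpecialLinearGroup (Fin 2) F))).comp (FreeGroup.lift f) := by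
    ext i : 1; simp
  rw [h1, MonoidHom.comp_apply] at h
  have h2 := (QuotientGroup.eq_one_iff _).1 h
  obtain ⟨r, _, hr⟩ := Matrix.SpecialLinearGroup.mem_center_iff.1 h2
  refine hf r ?_
  rw [← hr, Matrix.smul_one_eq_diagonal]; rfl

end Cfsg.Agent.S2353
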