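import Cfsg.Statements.S2354
import Cfsg.Agent.Lib.PingPong

set_option autoImplicit false
open Cfsg

namespace Cfsg.Agent.S2354

open Polynomial Matrix Cfsg.Agent.Lib.PingPong

section ring

variable {R : Type*} [CommRing R] [CharP R 2]

/-- The unipotent matrices. -/
def Um (e : ℕ) (c : R) : Matrix (Fin 4) (Fin 4) R :=
  !![1, 0, c, c ^ e; 0, 1, 0, c; 0, 0, 1, 0; 0, 0, 0, 1]

/-- The antidiagonal matrix. -/
def Tm (R : Type*) [CommRing R] : Matrix (Fin 4) (Fin 4) R :=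
  !![0, 0, 0, 1; 0, 0, 1, 0; 0, 1, 0, 0; 1, 0, 0, 0]

omit [CharP R 2] in
theorem Tm_sq : Tm R * Tm R = 1 := by
  ext i j
  fin_cases i <;> fin_cases j <;> simp [Tm, Matrix.mul_apply, Fin.sum_univ_four]

theorem Um_add (m : ℕ) (a b : R) : Um (2 ^ (m + 1)) (a + b) = Um (2 ^ (m + 1)) a * Um (2 ^ (m + 1)) b := by
  have h : (a + b) ^ (2 ^ (m + 1)) = a ^ (2 ^ (m + 1)) + b ^ (2 ^ (m + 1)) := add_pow_char_pow a b 2 (m + 1)
  ext i j
  fin_cases i <;> fin_cases j <;> simp [Um, Matrix.mul_apply, Fin.sum_univ_four, h, add_comm]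

omit [CharP R 2] in
theorem Um_zero (m : ℕ) : Um (2 ^ (m + 1)) (0 : R) = 1 := by
  ext i j
  fin_cases i <;> fin_cases j <;> simp [Um]

theorem Um_sq (m : ℕ) (a : R) : Um (2 ^ (m + 1)) a * Um (2 ^ (m + 1)) a = 1 := by
  rw [← Um_add, CharTwo.add_self_eq_zero, Um_zero]

/-- As units. -/
def UG (m : ℕ) (c : R) : GL (Fin 4) R := ⟨Um (2 ^ (m + 1)) c, Um (2 ^ (m + 1)) c, Um_sq m c, Um_sq m c⟩

/-- As a unit. -/
def TG (R : Type*) [CommRing R] : GL (Fin 4) R := ⟨Tm R, Tm R, Tm_sq, Tm_sq⟩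

end ring

section poly

variable {F : Type*} [Field F] [CharP F 2]

/-- The vectors with dominating first coordinate. -/
def SS (F : Type*) [Field F] : Set (Fin 4 → F[X]) :=
  {v | (v 1).degree < (v 0).degree ∧ (v 2).degree < (v 0).degree ∧ (v 3).degree < (v 0).degree}

omit [CharP F 2] in
theorem deg_lt {a c : F[X]} (ha : a ≠ 0) (hc : 0 < c.degree) : a.degree < (c * a).degree := by
  rw [degree_mul]
  have ha' : a.degree ≠ ⊥ := fun h => ha (degree_eq_bot.1 h)
  calc a.degree = 0 + a.degree := (zero_add _).symm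
    _ < c.degree + a.degree := WithBot.add_lt_add_right ha' hc

omit [CharP F 2] in
theorem deg_lt' {a b c : F[X]} (hab : a.degree < b.degree) (hc : c ≠ 0) : (c * a).degree < (c * b).degree := by
  rw [degree_mul, degree_mul]
  exact WithBot.add_lt_add_left (fun h => hc (degree_eq_bot.1 h)) hab

theorem step (m : ℕ) (c : F[X]) (hc : 0 < c.degree) (v : Fin 4 → F[X]) (hv : v ∈ SS F) :
    (UG m c * TG F[X]).1 *ᵥ v ∈ SS F := by
  obtain ⟨h1, h2, h3⟩ := hv
  set e := 2 ^ (m + 1) with he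
  have he2 : 2 ≤ e := by rw [he, pow_succ]; have := Nat.one_le_two_pow (n := m); omega
  have hc0 : c ≠ 0 := by rintro rfl; simp at hc
  have hv0 : v 0 ≠ 0 := by rintro h; rw [h] at h1; simp at h1
  have hmul : (UG m c * TG F[X]).1 *ᵥ v = ![c ^ e * v 0 + (v 3 + c * v 1), v 2 + c * v 0, v 1, v 0] := by
    rw [Units.val_mul, ← Matrix.mulVec_mulVec]
    change Um e c *ᵥ (Tm F[X] *ᵥ v) = _
    ext i : 1
    fin_cases i <;> simp [Um, Tm, Matrix.mulVec, dotProduct, Fin.sum_univ_four] <;> ring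
  have a1 : (v 0).degree < (c * v 0).degree := deg_lt hv0 hc
  have a2 : (c * v 0).degree < (c ^ e * v 0).degree := by
    have h := deg_lt (a := c * v 0) (c := c ^ (e - 1)) (mul_ne_zero hc0 hv0) (by
      rw [← natDegree_pos_iff_degree_pos, natDegree_pow]
      exact Nat.mul_pos (by omega) (natDegree_pos_iff_degree_pos.2 hc))
    rw [← mul_assoc, ← pow_succ, Nat.sub_add_cancel (by omega)] at h
    exact h
  have a3 : (v 3 + c * v 1).degree < (c ^ e * v 0).degree := by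
    refine lt_of_le_of_lt (degree_add_le _ _) (max_lt (h3.trans (a1.trans a2)) ?_)
    exact (deg_lt' h1 hc0).trans a2
  have a4 : (c ^ e * v 0 + (v 3 + c * v 1)).degree = (c ^ e * v 0).degree := degree_add_eq_left_of_degree_lt a3
  rw [hmul]
  refine ⟨?_, ?_, ?_⟩
  · change (v 2 + c * v 0).degree < (c ^ e * v 0 + (v 3 + c * v 1)).degree
    rw [a4]
    exact lt_of_le_of_lt (degree_add_le _ _) (max_lt (h2.trans (a1.trans a2)) a2)
  · change (v 1).degree < (c ^ e * v 0 + (v 3 + c * v 1)).degree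
    rw [a4]; exact h1.trans (a1.trans a2)
  · change (v 0).degree < (c ^ e * v 0 + (v 3 + c * v 1)).degree
    rw [a4]; exact a1.trans a2

omit [CharP F 2] in
theorem pp_h1 (i : ℕ) : 0 < ((X : F[X]) ^ (i + 1)).degree := by
  rw [degree_X_pow]; exact_mod_cast Nat.succ_pos i

omit [CharP F 2] in
theorem pp_h2 (i j : ℕ) (hij : i ≠ j) : 0 < ((X : F[X]) ^ (i + 1) - X ^ (j + 1)).degree := by
  rcases lt_or_gt_of_ne hij with h | h
  · rw [degree_sub_eq_right_of_degree_lt, degree_X_pow]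
    · exact_mod_cast Nat.succ_pos j
    · rw [degree_X_pow, degree_X_pow]; exact_mod_cast Nat.succ_lt_succ h
  · rw [degree_sub_eq_left_of_degree_lt, degree_X_pow]
    · exact_mod_cast Nat.succ_pos i
    · rw [degree_X_pow, degree_X_pow]; exact_mod_cast Nat.succ_lt_succ h

/-- The ping-pong data. -/
noncomputable def dat (F : Type*) [Field F] [CharP F 2] (m : ℕ) : Data (GL (Fin 4) F[X]) (Fin 4 → F[X]) F[X] where
  act g v := g.1 *ᵥ v
  act_mul g h v := by rw [Units.val_mul, Matrix.mulVec_mulVec]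
  act_one v := by rw [Units.val_one, Matrix.one_mulVec]
  U := UG m
  T := TG F[X]
  U_add a b := Units.ext (Um_add m a b)
  T_sq := Units.ext Tm_sq
  p i := X ^ (i + 1)
  S := SS F
  hp i v hv := step m _ (pp_h1 i) v hv
  hn i v hv := step m _ (by rw [degree_neg]; exact pp_h1 i) v hv
  hd i j hij v hv := step m _ (pp_h2 i j hij) v hv
  hT v hv h := by
    have h3 := h.2.2
    have e0 : ((TG F[X]).1 *ᵥ v) 0 = v 3 := by
      change (Tm F[X] *ᵥ v) 0 = _
      simp [Tm, Matrix.mulVec, dotProduct, Fin.sum_univ_four]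
    have e3 : ((TG F[X]).1 *ᵥ v) 3 = v 0 := by
      change (Tm F[X] *ᵥ v) 3 = _
      simp [Tm, Matrix.mulVec, dotProduct, Fin.sum_univ_four]
    rw [e0, e3] at h3
    exact absurd h3 (not_lt.2 hv.2.2.le)

/-- Degree bounds. -/
def DB (M : Matrix (Fin 4) (Fin 4) F[X]) (k : ℕ) : Prop := ∀ i j, (M i j).natDegree ≤ k

omit [CharP F 2] in
theorem DB.mul {M N : Matrix (Fin 4) (Fin 4) F[X]} {k l : ℕ} (hM : DB M k) (hN : DB N l) : DB (M * N) (k + l) := by
  intro i j
  rw [Matrix.mul_apply]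
  refine natDegree_sum_le_of_forall_le _ _ fun x _ => natDegree_mul_le_of_le (hM _ _) (hN _ _)

omit [CharP F 2] in
theorem DB_T : DB (Tm F[X]) 0 := by
  intro i j
  fin_cases i <;> fin_cases j <;> simp [Tm]

omit [CharP F 2] in
theorem DB_U (e : ℕ) (he : 1 ≤ e) (c : F[X]) : DB (Um e c) (e * c.natDegree) := by
  have h1 : (c ^ e).natDegree ≤ e * c.natDegree := natDegree_pow_le
  have h2 : c.natDegree ≤ e * c.natDegree := Nat.le_mul_of_pos_left _ he
  intro i j
  fin_cases i <;> fin_cases j <;> simp [Um, h2]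

/-- The bound of the degrees in a word. -/
def bd (L : List (ℕ × Bool)) : ℕ := (L.map fun l => 2 * (l.1 + 1)).sum

theorem DB_letter (m : ℕ) (l : ℕ × Bool) : DB ((dat F m).letter l).1 (2 ^ (m + 1) * (2 * (l.1 + 1))) := by
  obtain ⟨i, b⟩ := l
  have hU := DB_U (F := F) (2 ^ (m + 1)) Nat.one_le_two_pow (X ^ (i + 1))
  have hUn := DB_U (F := F) (2 ^ (m + 1)) Nat.one_le_two_pow (-X ^ (i + 1))
  rw [natDegree_neg] at hUn
  rw [natDegree_X_pow] at hU hUn
  cases b
  · have h := (DB_T.mul hUn).mul (DB_T.mul hUn)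
    intro a b
    have e1 : ((dat F m).letter (i, false)).1 = Tm F[X] * Um (2 ^ (m + 1)) (-X ^ (i + 1)) *
        (Tm F[X] * Um (2 ^ (m + 1)) (-X ^ (i + 1))) := by
      change (((dat F m).A i)⁻¹).1 = _
      rw [Data.A_inv]; rfl
    rw [e1]
    refine (h a b).trans (le_of_eq ?_); ring
  · have h := (hU.mul DB_T).mul (hU.mul DB_T)
    intro a b
    refine (h a b).trans (le_of_eq ?_); ring

theorem DB_wprod (m : ℕ) (L : List (ℕ × Bool)) : DB ((dat F m).wprod L).1 (2 ^ (m + 1) * bd L) := by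
  induction L with
  | nil =>
    intro i j
    change ((1 : Matrix (Fin 4) (Fin 4) F[X]) i j).natDegree ≤ _
    rw [Matrix.one_apply]; split_ifs <;> simp
  | cons l L ih =>
    have e : ((dat F m).wprod (l :: L)).1 = ((dat F m).letter l).1 * ((dat F m).wprod L).1 := rfl
    rw [e]
    have : bd (l :: L) = 2 * (l.1 + 1) + bd L := by simp [bd]
    rw [this, mul_add]
    exact (DB_letter m l).mul ih

end poly

section suz

variable {F : Type*} [Field F] [CharP F 2]

omit [CharP F 2] in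
theorem T_mem_Sp4 : TG F ∈ Cfsg.Lie.Sp4 F := by
  intro u v
  change Cfsg.Lie.altForm4 (Tm F *ᵥ u) (Tm F *ᵥ v) = _
  simp [Cfsg.Lie.altForm4, Tm, Matrix.mulVec, dotProduct, Fin.sum_univ_four]
  ring

theorem U_mem_Sp4 (m : ℕ) (c : F) : UG m c ∈ Cfsg.Lie.Sp4 F := by
  intro u v
  change Cfsg.Lie.altForm4 (Um (2 ^ (m + 1)) c *ᵥ u) (Um (2 ^ (m + 1)) c *ᵥ v) = _
  simp only [Cfsg.Lie.altForm4, Um, Matrix.mulVec, dotProduct, Fin.sum_univ_four]
  have h2 : (2 : F) = 0 := CharTwo.two_eq_zero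
  simp
  linear_combination (c * u 2 * v 3 + c * u 3 * v 2 + c ^ (2 ^ (m + 1)) * u 3 * v 3) * h2

theorem T_mem_Sz (e : ℕ) (he : e ≠ 0) : TG F ∈ Cfsg.Lie.Sz F e := by
  refine Subgroup.subset_closure ⟨T_mem_Sp4, ?_⟩
  change Cfsg.Lie.star4 (Tm F) = (Tm F).map _
  ext i j
  fin_cases i <;> fin_cases j <;> simp [Cfsg.Lie.star4, Cfsg.Lie.pairOf, Tm, he, CharTwo.neg_eq]

theorem U_mem_Sz [Fintype F] (m : ℕ) (hF : Fintype.card F = 2 ^ (2 * m + 1)) (c : F) :
    UG m c ∈ Cfsg.Lie.Sz F (2 ^ (m + 1)) := by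
  refine Subgroup.subset_closure ⟨U_mem_Sp4 m c, ?_⟩
  change Cfsg.Lie.star4 (Um (2 ^ (m + 1)) c) = (Um (2 ^ (m + 1)) c).map _
  have hcc : (c ^ 2 ^ (m + 1)) ^ 2 ^ (m + 1) = c * c := by
    have h := FiniteField.pow_card c
    rw [hF] at h
    rw [← pow_mul, ← pow_add, show m + 1 + (m + 1) = (2 * m + 1) + 1 by ring, pow_succ 2 (2 * m + 1), pow_mul, h]
    ring
  ext i j
  fin_cases i <;> fin_cases j <;> simp [Cfsg.Lie.star4, Cfsg.Lie.pairOf, Um, hcc, CharTwo.neg_eq]

end suz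

/-- A non-trivial law holds in only finitely many Suzuki groups: for every non-trivial element w of the free group on countably many generators there is N such that for q = 2^(2m+1) with m ≥ N some substitution of elements of the Suzuki group over the field with q elements into w is not the identity. -/
theorem result (w : FreeGroup ℕ) (hw : w ≠ 1) :
    ∃ N : ℕ, ∀ (F : Type*) [Field F] [Fintype F] (m : ℕ), 1 ≤ m → N ≤ m →
      Fintype.card F = 2 ^ (2 * m + 1) →
      ∃ f : ℕ → ↥(Cfsg.Lie.Sz F (2 ^ (m + 1))), FreeGroup.lift f w ≠ 1 := by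
  refine ⟨bd w.toWord, fun F _ _ m _ hm hF => ?_⟩
  have hchar : CharP F 2 := by
    obtain ⟨p, hp⟩ := CharP.exists F
    obtain ⟨n, hpp, hn⟩ := FiniteField.card F p
    have h2 : p ∣ 2 ^ (2 * m + 1) := by rw [← hF, hn]; exact dvd_pow_self p n.ne_zero
    have h3 := (Nat.prime_dvd_prime_iff_eq hpp Nat.prime_two).1 (hpp.dvd_of_dvd_pow h2)
    rw [← h3]; exact hp
  have hne := (dat F m).lift_ne_one ⟨![1, 0, 0, 0], by simp [dat, SS]⟩ w hw
  rw [Data.lift_eq_wprod] at hne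
  set P := (dat F m).wprod w.toWord with hP
  -- a non-zero entry of `P - 1`
  obtain ⟨a, b, hab⟩ : ∃ a b, P.1 a b - (1 : Matrix (Fin 4) (Fin 4) F[X]) a b ≠ 0 := by
    by_contra hcon
    push Not at hcon
    apply hne
    refine Units.ext (Matrix.ext fun a b => ?_)
    exact sub_eq_zero.1 (hcon a b)
  have hdeg : (P.1 a b - (1 : Matrix (Fin 4) (Fin 4) F[X]) a b).natDegree ≤ 2 ^ (m + 1) * bd w.toWord := by
    refine (natDegree_sub_le _ _).trans (max_le (DB_wprod m _ a b) ?_)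
    rw [Matrix.one_apply]; split_ifs <;> simp
  obtain ⟨t, ht⟩ : ∃ t : F, (P.1 a b - (1 : Matrix (Fin 4) (Fin 4) F[X]) a b).eval t ≠ 0 := by
    refine Polynomial.exists_eval_ne_zero_of_natDegree_lt_card _ hab ?_
    rw [Cardinal.mk_fintype, hF]
    have h1 : 2 ^ (m + 1) * bd w.toWord < 2 ^ (2 * m + 1) := by
      have h2 : bd w.toWord < 2 ^ m := lt_of_le_of_lt hm Nat.lt_two_pow_self
      calc 2 ^ (m + 1) * bd w.toWord < 2 ^ (m + 1) * 2 ^ m := by gcongr
        _ = 2 ^ (2 * m + 1) := by rw [← pow_add]; congr 1; ring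
    exact_mod_cast lt_of_le_of_lt hdeg h1
  refine ⟨fun i => ⟨UG m (t ^ (i + 1)) * TG F * (UG m (t ^ (i + 1)) * TG F), ?_⟩, fun h => ?_⟩
  · have h1 := U_mem_Sz m hF (t ^ (i + 1))
    have h2 : TG F ∈ Cfsg.Lie.Sz F (2 ^ (m + 1)) := T_mem_Sz _ (by positivity)
    exact mul_mem (mul_mem h1 h2) (mul_mem h1 h2)
  · apply ht
    have h1 := congrArg Subtype.val h
    have h2 : ((FreeGroup.lift fun i => (⟨UG m (t ^ (i + 1)) * TG F * (UG m (t ^ (i + 1)) * TG F),
        mul_mem (mul_mem (U_mem_Sz m hF (t ^ (i + 1))) (T_mem_Sz _ (by positivity)))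
          (mul_mem (U_mem_Sz m hF (t ^ (i + 1))) (T_mem_Sz _ (by positivity)))⟩ :
            ↥(Cfsg.Lie.Sz F (2 ^ (m + 1))))) w).1 = Matrix.GeneralLinearGroup.map (evalRingHom t) P := by
      rw [hP, ← Data.lift_eq_wprod]
      rw [← MonoidHom.comp_apply, ← Subgroup.coe_subtype, ← MonoidHom.comp_apply]
      congr 1
      ext i : 1
      simp only [MonoidHom.comp_apply, FreeGroup.lift_apply_of]
      refine Units.ext ?_
      change Um _ (t ^ (i + 1)) * Tm F * (Um _ (t ^ (i + 1)) * Tm F) =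
        (Um _ (X ^ (i + 1)) * Tm F[X] * (Um _ (X ^ (i + 1)) * Tm F[X])).map (evalRingHom t)
      have e1 : (Um (2 ^ (m + 1)) (X ^ (i + 1) : F[X])).map (evalRingHom t) = Um (2 ^ (m + 1)) (t ^ (i + 1)) := by
        ext a b
        fin_cases a <;> fin_cases b <;> simp [Um]
      have e2 : (Tm F[X]).map (evalRingHom t) = Tm F := by
        ext a b
        fin_cases a <;> fin_cases b <;> simp [Tm]
      rw [Matrix.map_mul, Matrix.map_mul, e1, e2]
    rw [h2] at h1
    have h3 : (P.1 a b).eval t = (1 : Matrix (Fin 4) (Fin 4) F) a b := by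
      have := congrArg (fun g : GL (Fin 4) F => g.1 a b) h1
      exact this
    rw [eval_sub, h3, Matrix.one_apply, Matrix.one_apply]
    split_ifs <;> simp

end Cfsg.Agent.S2354
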