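import Cfsg.Statements.S2355
import Cfsg.Agent.Lib.ClEmbedU

set_option autoImplicit false
open Cfsg

namespace Cfsg.Agent.S2355

open Cfsg.Agent.Lib Cfsg.Agent.Lib.FreeWordLaw Cfsg.Agent.Lib.ClEmbed

theorem alt_bound (w : FreeGroup ℕ) (hw : w ≠ 1) :
    ∃ A : ℕ, ∀ n : ℕ, HasLaw w (alternatingGroup (Fin n)) → n < A := by
  obtain ⟨A, hA⟩ := FreeWord.exists_alternating w hw
  refine ⟨A, fun n hn => ?_⟩
  by_contra h
  obtain ⟨f, hf⟩ := hA n (not_lt.1 h)
  exact hf (hn f)

theorem sl_bound (w : FreeGroup ℕ) (hw : w ≠ 1) :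
    ∃ B : ℕ, ∀ (F : Type) [Field F] [Finite F], HasLaw w (Matrix.SpecialLinearGroup (Fin 2) F) → Nat.card F < B := by
  obtain ⟨B, hB⟩ := FreeWord.exists_sl2_nonscalar w hw
  refine ⟨B, fun F _ _ hF => ?_⟩
  by_contra h
  have := Fintype.ofFinite F
  obtain ⟨f, hf⟩ := hB F (by
    rw [Cardinal.mk_fintype, ← Nat.card_eq_fintype_card]; exact_mod_cast not_lt.1 h)
  exact hf 1 (by rw [hF f]; simp)

/-- Joint bound for a word. -/
theorem joint_bound (w : FreeGroup ℕ) (hw : w ≠ 1) :
    ∃ C : ℕ, (∀ n : ℕ, HasLaw w (alternatingGroup (Fin n)) → n < C) ∧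
      ∀ (F : Type) [Field F] [Finite F], HasLaw w (Matrix.SpecialLinearGroup (Fin 2) F) → Nat.card F < C := by
  obtain ⟨A, hA⟩ := alt_bound w hw
  obtain ⟨B, hB⟩ := sl_bound w hw
  exact ⟨max A B, fun n hn => lt_of_lt_of_le (hA n hn) (le_max_left _ _),
    fun F _ _ hF => lt_of_lt_of_le (hB F hF) (le_max_right _ _)⟩

theorem card_bound {X ι F : Type} [Fintype ι] [DecidableEq ι] [Field F] [Finite F] (φ : X → Matrix ι ι F)
    (hφ : Function.Injective φ) (C : ℕ) (hC : 1 ≤ C) (hF : Nat.card F ≤ C ^ 2) (hι : Fintype.card ι ≤ 2 * C + 3) :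
    Nat.card X ≤ (C ^ 2) ^ ((2 * C + 3) * (2 * C + 3)) := by
  have h1 : Nat.card X ≤ Nat.card (Matrix ι ι F) := Nat.card_le_card_of_injective φ hφ
  have h2 : Nat.card (Matrix ι ι F) = Nat.card F ^ (Fintype.card ι * Fintype.card ι) := by
    change Nat.card (ι → ι → F) = _
    rw [Nat.card_fun, Nat.card_fun, Nat.card_eq_fintype_card (α := ι), ← pow_mul]
  rw [h2] at h1
  refine h1.trans ((Nat.pow_le_pow_left hF _).trans (Nat.pow_le_pow_right (Nat.pow_pos hC) ?_))
  exact Nat.mul_le_mul hι hι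

theorem HasLaw.gl_bound {w : FreeGroup ℕ} {C : ℕ} (hA : ∀ n : ℕ, HasLaw w (alternatingGroup (Fin n)) → n < C)
    (hB : ∀ (F : Type) [Field F] [Finite F], HasLaw w (Matrix.SpecialLinearGroup (Fin 2) F) → Nat.card F < C)
    {F : Type} [Field F] [Finite F] {m : ℕ} (hm : 2 ≤ m) (h : HasLaw w (Matrix.SpecialLinearGroup (Fin m) F)) :
    m < C ∧ Nat.card F < C :=
  ⟨hA m (h.of_injective (altToSL m F) (altToSL_injective m F)),
    hB F (h.of_injective (sl2Block (finEq m hm)) (sl2Block_injective _))⟩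

theorem sq_bound {a C : ℕ} (h : a < C) : a ≤ C ^ 2 := by nlinarith

/-- A non-trivial law is satisfied by only finitely many finite simple groups that are alternating or classical, up to isomorphism: for every non-trivial element w of the free group on countably many generators there is a bound N such that every alternating group of degree ≥ 5 and every simple classical group (linear, symplectic, unitary or orthogonal, in this problem's sense) in which w is a law has order at most N. -/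
theorem result (w : FreeGroup ℕ) (hw : w ≠ 1) :
    ∃ N : ℕ, ∀ (G : Type*) [Group G] [Finite G],
      (Cfsg.IsAlternating G ∨ Cfsg.IsPSL G ∨ Cfsg.IsPSp G ∨ Cfsg.IsPSU G ∨ Cfsg.IsPOmegaOdd G ∨
          Cfsg.IsPOmegaPlus G ∨ Cfsg.IsPOmegaMinus G) →
      (∀ f : ℕ → G, FreeGroup.lift f w = 1) → Nat.card G ≤ N := by
  obtain ⟨w1, hw1, h1⟩ := exists_center_word w hw
  obtain ⟨w2, hw2, h2⟩ := exists_comm_word w1 hw1
  obtain ⟨C0, hA0, -⟩ := joint_bound w hw
  obtain ⟨C1, hA1, hB1⟩ := joint_bound w1 hw1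
  obtain ⟨C2, hA2, hB2⟩ := joint_bound w2 hw2
  set C := C0 + C1 + C2 + 1 with hC
  refine ⟨Nat.factorial C + (C ^ 2) ^ ((2 * C + 3) * (2 * C + 3)), fun G _ _ hG hlaw => ?_⟩
  have hlaw' : HasLaw w G := hlaw
  -- common treatment of matrix groups modulo their centre
  have key1 : ∀ {X : Type} [Group X] [Finite X], Nonempty (G ≃* X ⧸ Subgroup.center X) →
      HasLaw w1 X ∧ Nat.card G ≤ Nat.card X := by
    intro X _ _ ⟨e⟩
    refine ⟨h1 X (hlaw'.of_equiv e), ?_⟩
    rw [Nat.card_congr e.toEquiv]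
    exact Nat.card_le_card_of_surjective _ (QuotientGroup.mk_surjective)
  rcases hG with ⟨n, hn, ⟨e⟩⟩ | ⟨F, _, _, n, hn, hn2, he⟩ | ⟨F, _, _, m, hm, hm2, he⟩ |
    ⟨F, _, _, n, q, hFq, hn, hn2, he⟩ | ⟨F, _, _, m, hm, hodd, he⟩ | ⟨F, _, _, m, hm, he⟩ |
    ⟨F, _, _, m, a, b, hm, hab, he⟩
  · -- alternating
    have hn' := hA0 n (hlaw'.of_equiv e)
    rw [Nat.card_congr e.toEquiv]
    have h3 : Nat.card (alternatingGroup (Fin n)) ≤ Nat.card (Equiv.Perm (Fin n)) :=
      Nat.card_le_card_of_injective _ Subtype.val_injective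
    rw [Nat.card_perm, Nat.card_fin] at h3
    exact (h3.trans (Nat.factorial_le (by omega))).trans (Nat.le_add_right _ _)
  · -- linear
    obtain ⟨hl, hc⟩ := key1 he
    obtain ⟨hm, hf⟩ := HasLaw.gl_bound hA1 hB1 hn hl
    refine (hc.trans (card_bound (fun g => g.1) Subtype.val_injective C (by omega)
      ((sq_bound hf).trans (Nat.pow_le_pow_left (by omega) 2)) ?_)).trans (Nat.le_add_left _ _)
    rw [Fintype.card_fin]; omega
  · -- symplectic
    have : Finite (Matrix.symplecticGroup (Fin m) F) := Subtype.finite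
    obtain ⟨hl, hc⟩ := key1 he
    have hl2 : HasLaw w1 (Matrix.SpecialLinearGroup (Fin m) F) :=
      (hl.of_injective glToSp glToSp_injective).of_injective Matrix.SpecialLinearGroup.toGL
        Matrix.SpecialLinearGroup.toGL_injective
    obtain ⟨hm', hf⟩ := HasLaw.gl_bound hA1 hB1 hm hl2
    refine (hc.trans (card_bound (fun g => g.1) Subtype.val_injective C (by omega)
      ((sq_bound hf).trans (Nat.pow_le_pow_left (by omega) 2)) ?_)).trans (Nat.le_add_left _ _)
    rw [Fintype.card_sum, Fintype.card_fin]; omega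
  · -- unitary
    obtain ⟨hl, hc⟩ := key1 he
    have hn' := hA1 n (hl.of_injective (altToSU n) (altToSU_injective n))
    obtain ⟨K, hK, φ, hφ⟩ := exists_sl2_to_SU hFq n (by omega)
    have hq := hB1 K (hl.of_injective φ hφ)
    have hf : Nat.card F ≤ C ^ 2 := by
      rw [Nat.card_eq_fintype_card, hFq]; exact Nat.pow_le_pow_left (by omega) 2
    refine (hc.trans (card_bound (fun g => g.1.1) (fun a b h => Subtype.ext (Subtype.ext h)) C (by omega)
      hf ?_)).trans (Nat.le_add_left _ _)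
    rw [Fintype.card_fin]; omega
  · -- orthogonal, odd dimension
    obtain ⟨hl, hc⟩ := key1 he
    have hl1 := h2 _ hl
    have hl2 : HasLaw w2 (Matrix.SpecialLinearGroup (Fin m) F) :=
      (hl1.of_injective (glToOdd m) (glToOdd_injective m)).of_injective Matrix.SpecialLinearGroup.toGL
        Matrix.SpecialLinearGroup.toGL_injective
    obtain ⟨hm', hf⟩ := HasLaw.gl_bound hA2 hB2 (by omega) hl2
    refine (hc.trans (card_bound (fun g => g.1.1.1)
      (fun a b h => Subtype.ext (Subtype.ext (Units.ext h))) C (by omega)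
      ((sq_bound hf).trans (Nat.pow_le_pow_left (by omega) 2)) ?_)).trans (Nat.le_add_left _ _)
    simp only [Fintype.card_sum, Fintype.card_fin, Fintype.card_unit]; omega
  · -- orthogonal, plus type
    obtain ⟨hl, hc⟩ := key1 he
    have hl1 := h2 _ hl
    have hl2 : HasLaw w2 (Matrix.SpecialLinearGroup (Fin m) F) :=
      (hl1.of_injective (glToPlus m) (glToPlus_injective m)).of_injective Matrix.SpecialLinearGroup.toGL
        Matrix.SpecialLinearGroup.toGL_injective
    obtain ⟨hm', hf⟩ := HasLaw.gl_bound hA2 hB2 (by omega) hl2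
    refine (hc.trans (card_bound (fun g => g.1.1.1)
      (fun a b h => Subtype.ext (Subtype.ext (Units.ext h))) C (by omega)
      ((sq_bound hf).trans (Nat.pow_le_pow_left (by omega) 2)) ?_)).trans (Nat.le_add_left _ _)
    simp only [Fintype.card_sum, Fintype.card_fin]; omega
  · -- orthogonal, minus type
    obtain ⟨hl, hc⟩ := key1 he
    have hl1 := h2 _ hl
    have hl2 : HasLaw w2 (Matrix.SpecialLinearGroup (Fin (m - 1)) F) :=
      (hl1.of_injective (glToMinus (m - 1) a b) (glToMinus_injective (m - 1) a b)).of_injective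
        Matrix.SpecialLinearGroup.toGL Matrix.SpecialLinearGroup.toGL_injective
    obtain ⟨hm', hf⟩ := HasLaw.gl_bound hA2 hB2 (by omega) hl2
    refine (hc.trans (card_bound (fun g => g.1.1.1)
      (fun a b h => Subtype.ext (Subtype.ext (Units.ext h))) C (by omega)
      ((sq_bound hf).trans (Nat.pow_le_pow_left (by omega) 2)) ?_)).trans (Nat.le_add_left _ _)
    simp only [Fintype.card_sum, Fintype.card_fin]; omega

end Cfsg.Agent.S2355
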