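import Cfsg.Statements.S2356
import Cfsg.Agent.Lib.ClSU3Inv3

set_option autoImplicit false
open Cfsg

namespace Cfsg.Agent.S2356

open Cfsg.Agent.Lib Cfsg.Agent.Lib.ClUnSimple Cfsg.Agent.Lib.ClSU3Inv3

/-- Let q be odd, F the field with q² elements, S = SU_3(F) (determinant-one isometries of the standard Hermitian form) and t an involution of S. Then: exactly q(q−1) involutions other than t commute with t; exactly q(q−2)(q²−1) involutions do not commute with t but commute with some involution commuting with t; exactly (q+1)(q²−1) involutions x do not commute with t and admit no involution commuting with both t and x; and every involution can be reached from t in at most three steps, each step going to an involution that commutes with the previous one (the commuting involution graph is connected of diameter 3). -/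
theorem result {F : Type*} [Field F] [Fintype F] {q : ℕ} (hq : Odd q)
    (hF : Fintype.card F = q ^ 2) (t : ↥(Cfsg.SU 3 F q)) (ht : t ≠ 1) (ht2 : t * t = 1) :
    Nat.card {x : ↥(Cfsg.SU 3 F q) // x ≠ 1 ∧ x * x = 1 ∧ x ≠ t ∧ Commute t x} = q * (q - 1) ∧
    Nat.card {x : ↥(Cfsg.SU 3 F q) // x ≠ 1 ∧ x * x = 1 ∧ ¬ Commute t x ∧
        ∃ y : ↥(Cfsg.SU 3 F q), y ≠ 1 ∧ y * y = 1 ∧ Commute t y ∧ Commute y x} = q * (q - 2) * (q ^ 2 - 1) ∧
    Nat.card {x : ↥(Cfsg.SU 3 F q) // x ≠ 1 ∧ x * x = 1 ∧ ¬ Commute t x ∧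
        ∀ y : ↥(Cfsg.SU 3 F q), y ≠ 1 → y * y = 1 → ¬ (Commute t y ∧ Commute y x)} = (q + 1) * (q ^ 2 - 1) ∧
    ∀ x : ↥(Cfsg.SU 3 F q), x ≠ 1 → x * x = 1 →
      ∃ y z : ↥(Cfsg.SU 3 F q), y ≠ 1 ∧ y * y = 1 ∧ z ≠ 1 ∧ z * z = 1 ∧
        Commute t y ∧ Commute y z ∧ Commute z x := by
  have h2 : (2 : F) ≠ 0 := ClUtil.two_ne_zero_of_odd_card (by rw [hF]; exact hq.pow)
  have hq2 := HermMat.two_le_q hF
  have hq3 : 3 ≤ q := by
    obtain ⟨k, hk⟩ := hq
    omega
  let e := suIso 3 F q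
  have ht1' : e t ≠ 1 := (ne_one_iff e t).2 ht
  have ht2' : e t * e t = 1 := (sq_iff e t).2 ht2
  refine ⟨?_, ?_, ?_, ?_⟩
  · rw [← ClSU3Inv2.card_comm hF h2 (e t) ht1' ht2']
    apply card_iff e
    intro x
    rw [ne_one_iff e, sq_iff e, commute_iff e, e.injective.ne_iff]
  · rw [← ClSU3Inv2.card_dist_two hF h2 (e t) ht1' ht2']
    apply card_iff e
    intro x
    rw [ne_one_iff e, sq_iff e, commute_iff e]
    refine and_congr Iff.rfl (and_congr Iff.rfl (and_congr Iff.rfl (ex_iff e _ _ fun y => ?_)))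
    rw [ne_one_iff e, sq_iff e, commute_iff e, commute_iff e]
  · rw [← ClSU3Inv2.card_dist_three hF h2 (e t) ht1' ht2']
    apply card_iff e
    intro x
    rw [ne_one_iff e, sq_iff e, commute_iff e]
    refine and_congr Iff.rfl (and_congr Iff.rfl (and_congr Iff.rfl (all_iff e _ _ fun y => ?_)))
    rw [ne_one_iff e, sq_iff e, commute_iff e, commute_iff e]
  · intro x hx1 hx
    obtain ⟨y, z, hy1, hy, hz1, hz, h3, h4, h5⟩ := ClSU3Inv2.diameter hF hq3 h2 (e t) (e x) ht1' ht2'
      ((ne_one_iff e x).2 hx1) ((sq_iff e x).2 hx)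
    obtain ⟨y, rfl⟩ := e.surjective y
    obtain ⟨z, rfl⟩ := e.surjective z
    exact ⟨y, z, (ne_one_iff e y).1 hy1, (sq_iff e y).1 hy, (ne_one_iff e z).1 hz1, (sq_iff e z).1 hz,
      (commute_iff e _ _).1 h3, (commute_iff e _ _).1 h4, (commute_iff e _ _).1 h5⟩

end Cfsg.Agent.S2356
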