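import Cfsg.Statements.S2360
import Cfsg.Agent.Lib.ClSU3Inv3

set_option autoImplicit false
open Cfsg

namespace Cfsg.Agent.S2360

open Cfsg.Agent.Lib Cfsg.Agent.Lib.ClUnSimple Cfsg.Agent.Lib.ClSU3Inv3

/-- Let q be odd, F the field with q² elements and S = SU_3(F) (determinant-one isometries of the standard Hermitian form). Then all involutions of S are conjugate; there are exactly q²(q²−q+1) of them; the centralizer of an involution has order q(q+1)(q²−1), the order of the full unitary group of degree 2; and for two distinct commuting involutions t and x there is exactly one further involution commuting with both. -/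
theorem result {F : Type*} [Field F] [Fintype F] {q : ℕ} (hq : Odd q)
    (hF : Fintype.card F = q ^ 2) (t : ↥(Cfsg.SU 3 F q)) (ht : t ≠ 1) (ht2 : t * t = 1) :
    (∀ x : ↥(Cfsg.SU 3 F q), x ≠ 1 → x * x = 1 → ∃ g : ↥(Cfsg.SU 3 F q), g * t * g⁻¹ = x) ∧
    Nat.card {x : ↥(Cfsg.SU 3 F q) // x ≠ 1 ∧ x * x = 1} = q ^ 2 * (q ^ 2 - q + 1) ∧
    Nat.card ↥(Subgroup.centralizer ({t} : Set ↥(Cfsg.SU 3 F q))) = q * (q + 1) * (q ^ 2 - 1) ∧
    ∀ x : ↥(Cfsg.SU 3 F q), x ≠ 1 → x * x = 1 → x ≠ t → Commute t x →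
      Nat.card {y : ↥(Cfsg.SU 3 F q) // y ≠ 1 ∧ y * y = 1 ∧ y ≠ t ∧ y ≠ x ∧ Commute t y ∧ Commute x y} = 1 := by
  have h2 : (2 : F) ≠ 0 := ClUtil.two_ne_zero_of_odd_card (by rw [hF]; exact hq.pow)
  have hq2 := HermMat.two_le_q hF
  let e := suIso 3 F q
  have ht1' : e t ≠ 1 := (ne_one_iff e t).2 ht
  have ht2' : e t * e t = 1 := (sq_iff e t).2 ht2
  have hconj : ∀ x : ↥(Cfsg.SU 3 F q), x ≠ 1 → x * x = 1 → ∃ g : ↥(Cfsg.SU 3 F q), g * t * g⁻¹ = x := by
    intro x hx1 hx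
    obtain ⟨g, hg⟩ := ClSU3Inv2.conj_all hF h2 (e t) (e x) ht1' ht2' ((ne_one_iff e x).2 hx1) ((sq_iff e x).2 hx)
    obtain ⟨g, rfl⟩ := e.surjective g
    refine ⟨g, e.injective ?_⟩
    rw [map_mul, map_mul, map_inv, hg]
  have hcard : Nat.card {x : ↥(Cfsg.SU 3 F q) // x ≠ 1 ∧ x * x = 1} = q ^ 2 * (q ^ 2 - q + 1) := by
    rw [← ClSU3Inv2.card_all (F := F) hF h2]
    apply card_iff e
    intro x
    rw [ne_one_iff e, sq_iff e]
  have hfin : Finite ↥(Cfsg.SU 3 F q) := inferInstance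
  refine ⟨hconj, hcard, ?_, ?_⟩
  · have h3 := card_class_mul t (fun x => x ≠ 1 ∧ x * x = 1) ⟨ht, ht2⟩ (by
      rintro g x ⟨hx1, hx⟩
      constructor
      · intro h
        apply hx1
        have : x = g⁻¹ * (g * x * g⁻¹) * g := by group
        rw [this, h]
        group
      · rw [show g * x * g⁻¹ * (g * x * g⁻¹) = g * (x * x) * g⁻¹ by group, hx]
        group) (fun x hx => hconj x hx.1 hx.2)
    have h4 := ClUnitary.card_SU (n := 3) hF (by norm_num)
    rw [h3, hcard] at h4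
    simp only [Finset.prod_range_succ, Finset.prod_range_zero] at h4
    norm_num at h4
    have hle : q ≤ q ^ 2 := by nlinarith
    have hle1 : 1 ≤ q ^ 2 := by nlinarith
    obtain ⟨a, ha⟩ : ∃ a, q ^ 2 = a + q := ⟨q ^ 2 - q, by omega⟩
    obtain ⟨b, hb⟩ : ∃ b, q ^ 2 = b + 1 := ⟨q ^ 2 - 1, by omega⟩
    have ha' : q ^ 2 - q = a := by omega
    have hb' : q ^ 2 - 1 = b := by omega
    rw [ha', hb'] at h4
    rw [hb']
    have hpos : 0 < (q + 1) * (q ^ 2 * (a + 1)) := by positivity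
    apply Nat.eq_of_mul_eq_mul_left hpos
    have h5 : q ^ 3 + 1 = (q + 1) * (a + 1) := by
      have : q ^ 3 = q * (a + q) := by rw [← ha]; ring
      rw [this]
      nlinarith
    rw [h5] at h4
    calc (q + 1) * (q ^ 2 * (a + 1)) * Nat.card ↥(Subgroup.centralizer ({t} : Set ↥(Cfsg.SU 3 F q)))
        = (q + 1) * (q ^ 2 * (a + 1) * Nat.card ↥(Subgroup.centralizer ({t} : Set ↥(Cfsg.SU 3 F q)))) := by ring
      _ = _ := h4
      _ = _ := by ring
  · intro x hx1 hx hxt hc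
    rw [← ClSU3Inv2.card_third hF h2 (e t) (e x) ht1' ht2' ((ne_one_iff e x).2 hx1) ((sq_iff e x).2 hx)
      (by rw [Ne, e.injective.eq_iff]; exact hxt) ((commute_iff e _ _).2 hc)]
    apply card_iff e
    intro y
    rw [ne_one_iff e, sq_iff e, commute_iff e, commute_iff e, e.injective.ne_iff, e.injective.ne_iff]

end Cfsg.Agent.S2360
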