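import Cfsg.Statements.S2394
import Mathlib
import Cfsg.Agent.S2904
import Cfsg.Agent.Lib.ClSLn
import Cfsg.Agent.Lib.ClSympOrd

set_option autoImplicit false
open scoped MatrixGroups
open Cfsg

namespace Cfsg.Agent.S2394

/-- The smallest degree of a faithful representation of the symplectic group `Sp_{2n}(q)` over its own field `F_q` is `2n`: every injective homomorphism from `Sp_{2n}(F)` to `GL_d(F)`, `F` the field with `q` elements, has `d ≥ 2n`. -/
theorem result {F : Type*} [Field F] [Fintype F] (n : ℕ) {d : ℕ}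
    (ρ : ↥(Matrix.symplecticGroup (Fin n) F) →* GL (Fin d) F) (hρ : Function.Injective ρ) : 2 * n ≤ d := by
  by_contra hcon
  push Not at hcon
  have hq : 1 < Fintype.card F := Fintype.one_lt_card
  have hdvd : Nat.card (Matrix.symplecticGroup (Fin n) F) ∣ Nat.card (GL (Fin d) F) := Subgroup.card_dvd_of_injective ρ hρ
  have hGL := Cfsg.Agent.Lib.ClSLn.card_GL_formula (F := F) rfl d
  rw [Cfsg.Agent.Lib.ClSympOrd.card_symplectic] at hdvd
  have hGL' : Nat.card (GL (Fin d) F) = _ := hGL
  rw [hGL'] at hdvd
  have hn1 : 1 ≤ n := by omega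
  rcases Nat.lt_or_ge 1 n with hn2 | hn2
  · by_cases h26 : Fintype.card F = 2 ∧ n = 3
    · obtain ⟨h2, rfl⟩ := h26
      rw [h2] at hdvd
      have hd : d < 6 := by omega
      interval_cases d <;> revert hdvd <;> decide +kernel
    · obtain ⟨r, hr, hr1, hr2⟩ := Cfsg.Agent.S2904.result (Fintype.card F) (2 * n) hq (by omega) (by
        rintro ⟨h1, h2⟩; exact h26 ⟨h1, by omega⟩) (by rintro ⟨h1, -⟩; omega)
      have h1 : r ∣ (Fintype.card F) ^ (n ^ 2) * ∏ i ∈ Finset.range n, ((Fintype.card F) ^ (2 * (i + 1)) - 1) := by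
        apply Dvd.dvd.mul_left
        refine dvd_trans ?_ (Finset.dvd_prod_of_mem _ (Finset.mem_range.mpr (by omega : n - 1 < n)))
        have : 2 * (n - 1 + 1) = 2 * n := by omega
        rw [this]; exact hr1
      have h2 := h1.trans hdvd
      rcases (Nat.Prime.dvd_mul hr).mp h2 with h3 | h3
      · have h4 : r ∣ Fintype.card F := hr.dvd_of_dvd_pow h3
        have h5 : r ∣ (Fintype.card F) ^ (2 * n) := dvd_pow h4 (by omega)
        have h6 : (Fintype.card F) ^ (2 * n) = (Fintype.card F) ^ (2 * n) - 1 + 1 :=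
          (Nat.sub_add_cancel (Nat.one_le_pow _ _ (by omega))).symm
        rw [h6] at h5
        exact hr.one_lt.ne' (Nat.dvd_one.mp ((Nat.dvd_add_right hr1).mp h5))
      · obtain ⟨i, hi, h4⟩ := (Prime.dvd_finsetProd_iff hr.prime _).mp h3
        rw [Finset.mem_range] at hi
        exact hr2 (i + 1) (by omega) (by omega) h4
  · have hn : n = 1 := by omega
    subst hn
    have hd : d < 2 := by omega
    have h1 : 3 ≤ (Fintype.card F) ^ 2 - 1 := by
      have : 4 ≤ (Fintype.card F) ^ 2 := by nlinarith
      omega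
    interval_cases d
    · have := Nat.le_of_dvd (by norm_num) hdvd
      simp at this
      nlinarith
    · have h2 : 0 < Fintype.card F - 1 := by omega
      have := Nat.le_of_dvd (by simp; omega) hdvd
      simp at this
      have h3 : Fintype.card F - 1 < Fintype.card F := by omega
      nlinarith

end Cfsg.Agent.S2394
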