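import Cfsg.Statements.S2435
import Cfsg.Agent.Lib.SL2Deg
import Cfsg.Agent.Lib.SqChar

set_option autoImplicit false
open Cfsg

namespace Cfsg.Agent.S2435

open Cfsg.Agent.Lib.SL2Basic Cfsg.Agent.Lib.SL2Tori Cfsg.Agent.Lib.SL2Int Cfsg.Agent.Lib.SL2Ind Cfsg.Agent.Lib.SL2Ortho Cfsg.Agent.Lib.SL2Class Cfsg.Agent.Lib.SL2Vals Cfsg.Agent.Lib.SL2Deg Cfsg.Agent.Lib.LinChar

/-- Let F be a finite field with q elements, q odd and q ≥ 5, and χ an irreducible complex character of SL₂ over F. If χ has degree (q + 1)/2, then at a diagonal element with entry a, a² ≠ 1, χ takes the value 1 when a is a square in F and −1 otherwise. If χ has degree (q − 1)/2, then at an element g with no eigenvector in F² (so g has order dividing q + 1), χ takes the value −1 when g raised to the power (q + 1)/2 is the identity and the value 1 otherwise. -/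
theorem result {F : Type*} [Field F] [Fintype F] (hodd : Odd (Fintype.card F)) (hq : 5 ≤ Fintype.card F)
    (χ : Matrix.SpecialLinearGroup (Fin 2) F → ℂ) (hχ : Cfsg.IsIrrCharacter (Matrix.SpecialLinearGroup (Fin 2) F) χ) (g : Matrix.SpecialLinearGroup (Fin 2) F) :
    (χ 1 = (((Fintype.card F + 1) / 2 : ℕ) : ℂ) → (g : Matrix (Fin 2) (Fin 2) F) 0 1 = 0 → (g : Matrix (Fin 2) (Fin 2) F) 1 0 = 0 → (g : Matrix (Fin 2) (Fin 2) F) 0 0 ^ 2 ≠ 1 →
      (IsSquare ((g : Matrix (Fin 2) (Fin 2) F) 0 0) → χ g = 1) ∧ (¬ IsSquare ((g : Matrix (Fin 2) (Fin 2) F) 0 0) → χ g = -1)) ∧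
    (χ 1 = (((Fintype.card F - 1) / 2 : ℕ) : ℂ) → (∀ (c : F) (v : Fin 2 → F), v ≠ 0 → (g : Matrix (Fin 2) (Fin 2) F).mulVec v ≠ c • v) →
      (((g ^ ((Fintype.card F + 1) / 2)) : Matrix (Fin 2) (Fin 2) F) = 1 → χ g = -1) ∧ (((g ^ ((Fintype.card F + 1) / 2)) : Matrix (Fin 2) (Fin 2) F) ≠ 1 → χ g = 1)) := by
  classical
  have hqn : Nat.card F = Fintype.card F := Nat.card_eq_fintype_card
  have hq' : (Nat.card F : ℂ) = (Fintype.card F : ℂ) := by rw [hqn]
  obtain ⟨k, hk⟩ := hodd
  constructor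
  · intro hdeg h01 h10 h00
    have hmem : g ∈ (ST : Set (Matrix.SpecialLinearGroup (Fin 2) F)) := by
      refine ⟨h01, h10, fun h => h00 ?_⟩
      have hd := det2 g
      rw [h01, h10, ← h] at hd
      linear_combination hd
    obtain ⟨c, hc, rfl⟩ := exists_dg_of_mem_ST hmem
    obtain ⟨A₀, h0⟩ := exists_isEll (F := F)
    obtain ⟨d, hd, hcases⟩ := classify' h0 hχ
    have hdd : 2 * d = Nat.card F + 1 := by
      rw [hd] at hdeg
      have : d = (Fintype.card F + 1) / 2 := by exact_mod_cast hdeg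
      rw [hqn]
      omega
    have hhalf : ∃ α : MulChar F ℂ, α ^ 2 = 1 ∧ α ≠ 1 ∧ classInner χ (R α) ≠ 0 := by
      rcases hcases with h | h | h | h | h | h
      · omega
      · omega
      · omega
      · omega
      · exact h.1
      · omega
    obtain ⟨α, hα, hα1, hne⟩ := hhalf
    rw [half_ps_ST h0 hχ hα hα1 hne hc]
    have e00 : ((dg c : Matrix.SpecialLinearGroup (Fin 2) F) : Matrix (Fin 2) (Fin 2) F) 0 0 = (c : F) := rfl
    rw [e00]
    have hU : (toU α) ^ 2 = 1 := by rw [pow_two, ← toU_mul, ← pow_two, hα, toU_one]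
    have hU1 : toU α ≠ 1 := by
      intro h; apply hα1; apply toU_injective; rw [h, toU_one]
    have hval := Cfsg.Agent.Lib.SqChar.val_cases hU c
    have hiff := Cfsg.Agent.Lib.SqChar.eq_one_iff hU hU1 c
    rw [toU_apply] at hval hiff
    have hsq : (∃ r : Fˣ, c = r ^ 2) ↔ IsSquare (c : F) := by
      constructor
      · rintro ⟨r, rfl⟩
        exact ⟨(r : F), by rw [Units.val_pow_eq_pow_val, pow_two]⟩
      · rintro ⟨r, hr⟩
        have hr0 : r ≠ 0 := by
          rintro rfl; rw [mul_zero] at hr; exact c.ne_zero hr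
        exact ⟨Units.mk0 r hr0, Units.ext (by rw [hr, Units.val_pow_eq_pow_val, Units.val_mk0, pow_two])⟩
    rw [hsq] at hiff
    refine ⟨hiff.2, fun h => ?_⟩
    rcases hval with h1 | h1
    · exact absurd (hiff.1 h1) h
    · exact h1
  · intro hdeg hev
    have h0 : IsEll g := fun c => no_root_of_no_eigenvector hev c
    have hnc : g ∉ Subgroup.center _ := not_mem_center_of_tr (sq_ne_four_of_no_root h0)
    obtain ⟨d, hd, hcases⟩ := classify' h0 hχ
    have hdd : 2 * d + 1 = Nat.card F := by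
      rw [hd] at hdeg
      have : d = (Fintype.card F - 1) / 2 := by exact_mod_cast hdeg
      rw [hqn]
      omega
    have hhalf : ∃ θ : Subgroup.centralizer ({g} : Set (Matrix.SpecialLinearGroup (Fin 2) F)) →* ℂˣ,
      θ ^ 2 = 1 ∧ θ ≠ 1 ∧ classInner χ (cusp θ) ≠ 0 := by
      rcases hcases with h | h | h | h | h | h
      · omega
      · omega
      · omega
      · omega
      · omega
      · exact h.1
    obtain ⟨θ, hθ, hθ1, hne⟩ := hhalf
    have hval := half_cusp_SC h0 hχ hθ hθ1 hne ⟨g, mem_centralizer_self g⟩ hnc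
    simp only at hval
    rw [hval]
    have := C_cyclic h0
    have hcases := Cfsg.Agent.Lib.SqChar.val_cases hθ ⟨g, mem_centralizer_self g⟩
    have hiff := Cfsg.Agent.Lib.SqChar.eq_one_iff hθ hθ1 ⟨g, mem_centralizer_self g⟩
    have hcard : Nat.card (Subgroup.centralizer ({g} : Set (Matrix.SpecialLinearGroup (Fin 2) F))) =
        2 * ((Fintype.card F + 1) / 2) := by
      rw [C_card h0, hqn]; omega
    have hpow := Cfsg.Agent.Lib.SqChar.pow_half_iff hcard ⟨g, mem_centralizer_self g⟩
    rw [← hpow] at hiff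
    have hiff2 : ((⟨g, mem_centralizer_self g⟩ :
        Subgroup.centralizer ({g} : Set (Matrix.SpecialLinearGroup (Fin 2) F))) ^ ((Fintype.card F + 1) / 2) = 1) ↔
        (((g ^ ((Fintype.card F + 1) / 2)) : Matrix (Fin 2) (Fin 2) F) = 1) := by
      constructor
      · intro h
        have h1 : g ^ ((Fintype.card F + 1) / 2) = 1 := congrArg Subtype.val h
        rw [← Matrix.SpecialLinearGroup.coe_pow, h1, Matrix.SpecialLinearGroup.coe_one]
      · intro h
        apply Subtype.ext
        change g ^ ((Fintype.card F + 1) / 2) = 1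
        apply Subtype.ext
        exact (Matrix.SpecialLinearGroup.coe_pow g _).trans h
    rw [hiff2] at hiff
    constructor
    · intro h
      rw [hiff.2 h]
    · intro h
      rcases hcases with h1 | h1
      · exact absurd (hiff.1 h1) h
      · rw [h1, neg_neg]

end Cfsg.Agent.S2435
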