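import Cfsg.Statements.S2444
import Cfsg.Agent.Lib.CyclicComm

set_option autoImplicit false
open Cfsg

namespace Cfsg.Agent.S2444

open Polynomial Matrix Cfsg.Agent.Lib.CyclicProd Cfsg.Agent.Lib.CyclicComm

/-- In the special linear group SL(n,F) over a finite field F, with n ≥ 2 and (n, |F|) not (2,2) or (2,3), every element is a commutator a·b·a⁻¹·b⁻¹ of two elements of SL(n,F). -/
theorem result {F : Type*} [Field F] [Fintype F] (n : ℕ) (hn : 2 ≤ n) (hex : n = 2 → 4 ≤ Fintype.card F) :
    ∀ g : Matrix.SpecialLinearGroup (Fin n) F, ∃ a b : Matrix.SpecialLinearGroup (Fin n) F, g = a * b * a⁻¹ * b⁻¹ := by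
  intro A
  by_cases hA : A ∈ Subgroup.center (Matrix.SpecialLinearGroup (Fin n) F)
  · -- scalar case
    rw [Matrix.SpecialLinearGroup.mem_center_iff] at hA
    obtain ⟨r, hr, hrA⟩ := hA
    rw [Fintype.card_fin] at hr
    set d := orderOf r with hd
    have hdn : d ∣ n := orderOf_dvd_of_pow_eq_one hr
    obtain ⟨k, hk⟩ := hdn
    have hd1 : 1 ≤ d := by
      rcases Nat.eq_zero_or_pos d with h | h
      · rw [h] at hk; omega
      · exact h
    obtain ⟨a, b, hab⟩ := scalar_comm hd1 r hd.symm
    let e : Fin d × Fin k ≃ Fin n := finProdFinEquiv.trans (finCongr hk.symm)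
    let blk : Matrix.SpecialLinearGroup (Fin d) F → Matrix.SpecialLinearGroup (Fin n) F :=
      fun z => ⟨Matrix.reindex e e (Matrix.blockDiagonal fun _ : Fin k =>
        (z : Matrix (Fin d) (Fin d) F)), by
          rw [Matrix.det_reindex_self, Matrix.det_blockDiagonal]; simp⟩
    have hblk : ∀ z, (blk z : Matrix (Fin n) (Fin n) F) =
        Matrix.reindexAlgEquiv F F e (Matrix.blockDiagonal fun _ : Fin k =>
        (z : Matrix (Fin d) (Fin d) F)) := fun z => rfl
    have key : (blk b : Matrix (Fin n) (Fin n) F) * blk a =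
        r • ((blk a : Matrix (Fin n) (Fin n) F) * blk b) := by
      rw [hblk, hblk, ← map_mul, ← map_mul, ← Matrix.blockDiagonal_mul, ← Matrix.blockDiagonal_mul,
        ← map_smul, ← Matrix.blockDiagonal_smul]
      congr 2
      funext i
      exact hab
    have key2 : blk b * blk a = A * (blk a * blk b) := by
      apply Subtype.ext
      rw [Matrix.SpecialLinearGroup.coe_mul, Matrix.SpecialLinearGroup.coe_mul,
        Matrix.SpecialLinearGroup.coe_mul, key, ← hrA, Matrix.scalar_apply,
        ← Matrix.smul_eq_diagonal_mul]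
    refine ⟨blk b, blk a, ?_⟩
    rw [key2]
    group
  · obtain ⟨m, rfl⟩ : ∃ m, n = m + 1 := ⟨n - 1, by omega⟩
    refine nonscalar_comm (by omega) (fun hm => ?_) A hA
    have h4 := hex (by omega)
    classical
    by_contra hcon
    push Not at hcon
    have hsub : (Finset.univ : Finset F) ⊆ {0, 1, -1} := by
      intro c _
      by_cases hc : c = 0
      · simp [hc]
      · have h1 := hcon c hc
        have h2 : (c - 1) * (c + 1) = 0 := by
          have : c * c = 1 := by
            nth_rewrite 2 [h1]
            exact mul_inv_cancel₀ hc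
          linear_combination this
        rcases mul_eq_zero.1 h2 with h | h
        · simp [sub_eq_zero.1 h]
        · simp [eq_neg_of_add_eq_zero_left h]
    have := (Finset.card_le_card hsub).trans Finset.card_le_three
    rw [Finset.card_univ] at this
    omega

end Cfsg.Agent.S2444
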