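import Cfsg.Statements.S2450
import Cfsg.Agent.Lib.SL2Basic

set_option autoImplicit false
open Cfsg

namespace Cfsg.Agent.S2450

open Polynomial Matrix Cfsg.Agent.Lib.SL2Basic

/-- The Arad–Herzog conjecture for PSL(2,q): let F be a finite field with q ≥ 4 elements. For any two non-identity elements a, b of PSL(2,F), the set of products of a conjugate of a with a conjugate of b is not a single conjugacy class. -/
theorem result {F : Type*} [Field F] [Fintype F] (h4 : 4 ≤ Fintype.card F)
    (a b : Matrix.ProjectiveSpecialLinearGroup (Fin 2) F) (ha : a ≠ 1) (hb : b ≠ 1) (c : Matrix.ProjectiveSpecialLinearGroup (Fin 2) F) :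
    {g : Matrix.ProjectiveSpecialLinearGroup (Fin 2) F | ∃ u v : Matrix.ProjectiveSpecialLinearGroup (Fin 2) F, g = (u * a * u⁻¹) * (v * b * v⁻¹)} ≠ {g | IsConj c g} := by
  classical
  intro hset
  obtain ⟨A, rfl⟩ := QuotientGroup.mk_surjective a
  obtain ⟨B, rfl⟩ := QuotientGroup.mk_surjective b
  obtain ⟨Cc, rfl⟩ := QuotientGroup.mk_surjective c
  have hA : A ∉ Subgroup.center (Matrix.SpecialLinearGroup (Fin 2) F) := fun h =>
    ha ((QuotientGroup.eq_one_iff A).2 h)
  have hB : B ∉ Subgroup.center (Matrix.SpecialLinearGroup (Fin 2) F) := fun h =>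
    hb ((QuotientGroup.eq_one_iff B).2 h)
  obtain ⟨g₁, hg₁⟩ := exists_conj_lower_ne A hA
  obtain ⟨g₂, hg₂⟩ := exists_conj_lower_ne B hB
  set A' := g₁ * A * g₁⁻¹ with hA'
  set B' := g₂ * B * g₂⁻¹ with hB'
  have key : ∀ s : F, tr (A' * (uu s * B' * (uu s)⁻¹)) ^ 2 = tr Cc ^ 2 := by
    intro s
    have h1 : (QuotientGroup.mk (A' * (uu s * B' * (uu s)⁻¹)) :
        Matrix.ProjectiveSpecialLinearGroup (Fin 2) F) ∈
        {g | IsConj (QuotientGroup.mk Cc : Matrix.ProjectiveSpecialLinearGroup (Fin 2) F) g} := by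
      rw [← hset]
      refine ⟨QuotientGroup.mk g₁, QuotientGroup.mk (uu s * g₂), ?_⟩
      rw [hA', hB']
      simp only [← QuotientGroup.mk_mul, ← QuotientGroup.mk_inv]
      congr 1
      group
    rw [Set.mem_ofPred_eq, isConj_iff] at h1
    obtain ⟨c, hc⟩ := h1
    obtain ⟨h, rfl⟩ := QuotientGroup.mk_surjective c
    rw [← QuotientGroup.mk_inv, ← QuotientGroup.mk_mul, ← QuotientGroup.mk_mul,
      mk_eq_mk_iff] at hc
    rcases hc with hc | hc
    · rw [← hc, tr_conj]
    · have := congrArg tr hc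
      rw [tr_conj, tr_neg] at this
      rw [this]; ring
  set α := tr (A' * B') with hα
  set β := ((A' : Matrix (Fin 2) (Fin 2) F) 0 0 - (A' : Matrix (Fin 2) (Fin 2) F) 1 1) *
    (B' : Matrix (Fin 2) (Fin 2) F) 1 0 + (A' : Matrix (Fin 2) (Fin 2) F) 1 0 *
      ((B' : Matrix (Fin 2) (Fin 2) F) 1 1 - (B' : Matrix (Fin 2) (Fin 2) F) 0 0) with hβ
  set γ := (A' : Matrix (Fin 2) (Fin 2) F) 1 0 * (B' : Matrix (Fin 2) (Fin 2) F) 1 0 with hγ
  have hγ0 : γ ≠ 0 := mul_ne_zero hg₁ hg₂
  have key2 : ∀ s : F, (α + s * β - s ^ 2 * γ) ^ 2 = tr Cc ^ 2 := by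
    intro s
    have := key s
    rwa [tr_mul_uu_conj, ← hα, ← hβ, ← hγ] at this
  have key3 : ∀ s : F, (s * (β - s * γ)) * (2 * α + s * β - s ^ 2 * γ) = 0 := by
    intro s
    have h1 := key2 s
    have h2 := key2 0
    linear_combination h1 - h2
  rcases Nat.lt_or_ge (Fintype.card F) 5 with h5 | h5
  · have h4' : Fintype.card F = 4 := by omega
    have h40 : (4 : F) = 0 := by
      have := Nat.cast_card_eq_zero F
      rw [h4'] at this
      exact_mod_cast this
    have h20 : (2 : F) = 0 := by
      have : (2 : F) * 2 = 0 := by linear_combination h40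
      rcases mul_eq_zero.1 this with h | h <;> exact h
    have key4 : ∀ s : F, s ≠ 0 → β = s * γ := by
      intro s hs
      have h1 := key3 s
      have h2 : (s * (β - s * γ)) * (s * (β - s * γ)) = 0 := by
        linear_combination h1 - (s * (β - s * γ)) * α * h20
      have h3 : s * (β - s * γ) = 0 := by
        rcases mul_eq_zero.1 h2 with h | h <;> exact h
      exact sub_eq_zero.1 ((mul_eq_zero.1 h3).resolve_left hs)
    have hb1 := key4 1 one_ne_zero
    have hsub : (Finset.univ : Finset F) ⊆ {0, 1} := by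
      intro s _
      by_cases hs : s = 0
      · simp [hs]
      · have h1 := key4 s hs
        rw [hb1] at h1
        have : s = 1 := (mul_right_cancel₀ hγ0 h1).symm
        simp [this]
    have := (Finset.card_le_card hsub).trans Finset.card_le_two
    rw [Finset.card_univ] at this
    omega
  · -- polynomial of degree 4
    let f : F[X] := (C γ * X ^ 2 - C β * X - C α) ^ 2 - C (tr Cc ^ 2)
    have hdeg : (C γ * X ^ 2 - C β * X - C α : F[X]).natDegree = 2 := by
      compute_degree!
    have hf : f.natDegree = 4 := by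
      rw [natDegree_sub_C, natDegree_pow, hdeg]
    have hf0 : f = 0 := by
      apply eq_zero_of_natDegree_lt_card_of_eval_eq_zero f (f := fun x : F => x)
        (fun _ _ h => h)
      · intro s
        simp only [f, eval_sub, eval_pow, eval_mul, eval_C, eval_X]
        linear_combination key2 s
      · rw [hf]; omega
    rw [hf0] at hf
    simp at hf

end Cfsg.Agent.S2450
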