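import Cfsg.Statements.S2455
import Cfsg.Agent.Lib.SL2Basic

set_option autoImplicit false
open Cfsg

namespace Cfsg.Agent.S2455

open Polynomial Matrix Cfsg.Agent.Lib.SL2Basic

/-- A strong covering result in the direction of Thompson's conjecture (non-identity elements) for PSL(2,q), q odd: let F be a finite field of odd characteristic p with at least 5 elements and let x ∈ PSL(2,F) have order greater than 2 and not divisible by p (so x is not unipotent). Then every non-identity element of PSL(2,F) is a product of two conjugates of x. -/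
theorem result {F : Type*} [Field F] [Fintype F] (p : ℕ) [Fact p.Prime] [CharP F p] (hp : p ≠ 2) (h5 : 5 ≤ Fintype.card F)
    (x : Matrix.ProjectiveSpecialLinearGroup (Fin 2) F) (hx2 : 2 < orderOf x) (hxp : ¬ p ∣ orderOf x) : ∀ g : Matrix.ProjectiveSpecialLinearGroup (Fin 2) F, g ≠ 1 → ∃ u v : Matrix.ProjectiveSpecialLinearGroup (Fin 2) F, g = (u * x * u⁻¹) * (v * x * v⁻¹) := by
  intro g hg
  obtain ⟨X', rfl⟩ := QuotientGroup.mk_surjective x
  obtain ⟨A, rfl⟩ := QuotientGroup.mk_surjective g
  have hA : A ∉ Subgroup.center (Matrix.SpecialLinearGroup (Fin 2) F) := fun h =>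
    hg ((QuotientGroup.eq_one_iff A).2 h)
  have hneg1 : (QuotientGroup.mk (-1) : Matrix.ProjectiveSpecialLinearGroup (Fin 2) F) = 1 :=
    (QuotientGroup.eq_one_iff _).2 ((mem_center_iff' _).2 (Or.inr rfl))
  have hneg : ∀ B : Matrix.SpecialLinearGroup (Fin 2) F,
      (QuotientGroup.mk (-B) : Matrix.ProjectiveSpecialLinearGroup (Fin 2) F) =
        QuotientGroup.mk B := fun B => (mk_eq_mk_iff _ _).2 (Or.inr rfl)
  set t := tr X' with ht
  have h20 : (2 : F) ≠ 0 := by
    intro h
    have h2 : ((2 : ℕ) : F) = 0 := by exact_mod_cast h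
    rw [CharP.cast_eq_zero_iff F p 2] at h2
    exact hp ((Nat.prime_dvd_prime_iff_eq (Fact.out : p.Prime) Nat.prime_two).1 h2)
  have ht4 : t ^ 2 ≠ 4 := by
    intro h
    have h1 : (QuotientGroup.mk X' : Matrix.ProjectiveSpecialLinearGroup (Fin 2) F) ^ p = 1 := by
      rw [← QuotientGroup.mk_pow]
      rcases pow_char_of_tr_sq (p := p) h with h2 | h2
      · rw [h2]; rfl
      · rw [h2]; exact hneg1
    have h2 := orderOf_dvd_of_pow_eq_one h1
    rcases (Nat.dvd_prime (Fact.out : p.Prime)).1 h2 with h3 | h3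
    · rw [h3] at hx2; omega
    · exact hxp (by rw [h3])
  have ht0 : t ≠ 0 := by
    intro h
    have h1 : (QuotientGroup.mk X' : Matrix.ProjectiveSpecialLinearGroup (Fin 2) F) ^ 2 = 1 := by
      rw [← QuotientGroup.mk_pow]
      have : X' ^ 2 = -1 := by
        apply Subtype.ext
        rw [pow_two, Matrix.SpecialLinearGroup.coe_mul, sq_eq, ← ht, h, zero_smul, zero_sub,
          Matrix.SpecialLinearGroup.coe_neg, Matrix.SpecialLinearGroup.coe_one]
      rw [this]; exact hneg1
    have h2 := Nat.le_of_dvd (by norm_num) (orderOf_dvd_of_pow_eq_one h1)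
    omega
  -- solve the conic
  obtain ⟨t', ht', v, y, hvy⟩ : ∃ t' : F, (t' = t ∨ t' = -t) ∧ ∃ v y : F,
      v ^ 2 - tr A * v * y + y ^ 2 - t * v + t' * y + 1 = 0 := by
    set a := tr A with ha
    by_cases ha4 : a ^ 2 = 4
    · have h1 : (a - 2) * (a + 2) = 0 := by linear_combination ha4
      rcases mul_eq_zero.1 h1 with h | h
      · have ha2 : a = 2 := sub_eq_zero.1 h
        refine ⟨-t, Or.inr rfl, 1 / (2 * t), 1 / (2 * t), ?_⟩
        rw [ha2]
        field_simp
        ring
      · have ha2 : a = -2 := eq_neg_of_add_eq_zero_left h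
        refine ⟨t, Or.inl rfl, 1 / (2 * t), -1 / (2 * t), ?_⟩
        rw [ha2]
        field_simp
        ring
    · refine ⟨t, Or.inl rfl, ?_⟩
      have hδ : (1 - a ^ 2 / 4 : F) ≠ 0 := by
        intro h
        apply ha4
        have h4 : (4 : F) ≠ 0 := by
          have : (4 : F) = 2 * 2 := by norm_num
          rw [this]; exact mul_ne_zero h20 h20
        field_simp at h
        linear_combination -h
      have hf2 : (X ^ 2 - C t * X + 1 : F[X]).degree = 2 := by compute_degree!
      have hg2 : (C (1 - a ^ 2 / 4) * X ^ 2 + C (t - t * a / 2) * X : F[X]).degree = 2 := by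
        compute_degree!
      have hcard : Fintype.card F % 2 = 1 := by
        obtain ⟨n, hpr, hn⟩ := FiniteField.card F p
        rw [hn]
        have : Odd p := hpr.odd_of_ne_two hp
        exact Nat.odd_iff.1 (this.pow)
      obtain ⟨s, y, hsy⟩ := FiniteField.exists_root_sum_quadratic hf2 hg2 hcard
      refine ⟨s + a * y / 2, y, ?_⟩
      simp only [eval_add, eval_sub, eval_pow, eval_mul, eval_C, eval_X, eval_one] at hsy
      have h4 : (4 : F) ≠ 0 := by
        have : (4 : F) = 2 * 2 := by norm_num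
        rw [this]; exact mul_ne_zero h20 h20
      rw [← hsy]
      field_simp
      ring
  obtain ⟨Y, hY1, hY2⟩ := exists_tr_tr hA hvy
  obtain ⟨u, hu⟩ := exists_sl_conj_of_tr (A := X') (B := Y) (by rw [hY1]) ht4
  obtain ⟨w, hw⟩ : ∃ w : Matrix.SpecialLinearGroup (Fin 2) F,
      (QuotientGroup.mk (w * X' * w⁻¹) : Matrix.ProjectiveSpecialLinearGroup (Fin 2) F) =
        QuotientGroup.mk (Y⁻¹ * A) := by
    rcases ht' with h | h
    · obtain ⟨w, hw⟩ := exists_sl_conj_of_tr (A := X') (B := Y⁻¹ * A) (by rw [hY2, h]) ht4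
      exact ⟨w, by rw [hw]⟩
    · obtain ⟨w, hw⟩ := exists_sl_conj_of_tr (A := X') (B := -(Y⁻¹ * A))
        (by rw [tr_neg, hY2, h, neg_neg]) ht4
      exact ⟨w, by rw [hw, hneg]⟩
  refine ⟨QuotientGroup.mk u, QuotientGroup.mk w, ?_⟩
  rw [← QuotientGroup.mk_inv, ← QuotientGroup.mk_inv, ← QuotientGroup.mk_mul,
    ← QuotientGroup.mk_mul, ← QuotientGroup.mk_mul, ← QuotientGroup.mk_mul, hu, hw,
    ← QuotientGroup.mk_mul]
  congr 1
  group

end Cfsg.Agent.S2455
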