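import Cfsg.Statements.S2456
import Cfsg.Agent.Lib.SL2Basic

set_option autoImplicit false
open Cfsg

namespace Cfsg.Agent.S2456

open Polynomial Matrix Cfsg.Agent.Lib.SL2Basic Cfsg.Agent.Lib.CyclicProd

/-- A strong covering result in the direction of Thompson's conjecture (non-identity elements) for PSL(2,q), q even: let F be a finite field of characteristic 2 with q ≥ 4 elements and let x ∈ PSL(2,F) have order greater than 2 and not dividing q + 1. Then every non-identity element of PSL(2,F) is a product of two conjugates of x. -/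
theorem result {F : Type*} [Field F] [Fintype F] [CharP F 2] (h4 : 4 ≤ Fintype.card F)
    (x : Matrix.ProjectiveSpecialLinearGroup (Fin 2) F) (hx2 : 2 < orderOf x) (hxq : ¬ orderOf x ∣ Fintype.card F + 1) : ∀ g : Matrix.ProjectiveSpecialLinearGroup (Fin 2) F, g ≠ 1 → ∃ u v : Matrix.ProjectiveSpecialLinearGroup (Fin 2) F, g = (u * x * u⁻¹) * (v * x * v⁻¹) := by
  intro g hg
  obtain ⟨X', rfl⟩ := QuotientGroup.mk_surjective x
  obtain ⟨A, rfl⟩ := QuotientGroup.mk_surjective g
  have hA : A ∉ Subgroup.center (Matrix.SpecialLinearGroup (Fin 2) F) := fun h =>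
    hg ((QuotientGroup.eq_one_iff A).2 h)
  have hneg1 : (QuotientGroup.mk (-1) : Matrix.ProjectiveSpecialLinearGroup (Fin 2) F) = 1 :=
    (QuotientGroup.eq_one_iff _).2 ((mem_center_iff' _).2 (Or.inr rfl))
  have h20 : (2 : F) = 0 := by exact_mod_cast CharP.cast_eq_zero F 2
  obtain ⟨c, hc⟩ : ∃ c : F, c ^ 2 - tr X' * c + 1 = 0 := by
    by_contra hcon
    push Not at hcon
    apply hxq
    apply orderOf_dvd_of_pow_eq_one
    rw [← QuotientGroup.mk_pow, pow_card_add_one_of_no_root X' hcon]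
    rfl
  have hc0 : c ≠ 0 := by rintro rfl; simp at hc
  have ht : tr X' = c + c⁻¹ := by
    field_simp
    linear_combination -hc
  have ht0 : tr X' ≠ 0 := by
    intro h
    have h4 : tr X' ^ 2 = 4 := by
      rw [h]; linear_combination (-2 : F) * h20
    have h1 : (QuotientGroup.mk X' : Matrix.ProjectiveSpecialLinearGroup (Fin 2) F) ^ 2 = 1 := by
      rw [← QuotientGroup.mk_pow]
      have : Fact (Nat.Prime 2) := ⟨Nat.prime_two⟩
      rcases pow_char_of_tr_sq (p := 2) h4 with h2 | h2
      · rw [h2]; rfl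
      · rw [h2]; exact hneg1
    have h2 := Nat.le_of_dvd (by norm_num) (orderOf_dvd_of_pow_eq_one h1)
    omega
  have hcc : c ≠ c⁻¹ := by
    intro h
    apply ht0
    rw [ht, ← h, ← two_mul, h20, zero_mul]
  have hX : X' ∉ Subgroup.center (Matrix.SpecialLinearGroup (Fin 2) F) := by
    rw [mem_center_iff']
    rintro (h | h)
    · apply ht0; rw [h, tr_one, h20]
    · apply ht0; rw [h, tr_neg, tr_one, h20, neg_zero]
  have hXi : X'⁻¹ ∉ Subgroup.center (Matrix.SpecialLinearGroup (Fin 2) F) := by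
    intro h
    exact hX (inv_mem_iff.1 h)
  have hcp : cp (tr X') = (X - C c⁻¹) * (X - C c) := by
    rw [ht, cp, C_add]
    have : (C c * C c⁻¹ : F[X]) = 1 := by
      rw [← C_mul, mul_inv_cancel₀ hc0, C_1]
    linear_combination -this
  have he : (X - C c⁻¹ : F[X]).eval c ≠ 0 := by
    rw [eval_sub, eval_X, eval_C]
    exact sub_ne_zero.2 hcc
  obtain ⟨u, v, huv⟩ := sl_prod (m := 1) le_rfl X'⁻¹ X' A (monic_X_sub_C c⁻¹) (monic_X_sub_C c⁻¹)
    (natDegree_X_sub_C _) (natDegree_X_sub_C _) he he (mcyc_of_not_mem_center _ hXi)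
    (mcyc_of_not_mem_center _ hX) (by rw [← hcp, ← tr_inv]; exact aeval_cp _)
    (by rw [← hcp]; exact aeval_cp _) (exists_not_eigenvector A hA)
  refine ⟨QuotientGroup.mk u, QuotientGroup.mk v, ?_⟩
  rw [huv, inv_inv]
  rfl

end Cfsg.Agent.S2456
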