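import Cfsg.Statements.S2457
import Cfsg.Agent.Lib.SzChr11

set_option autoImplicit false
open Cfsg

namespace Cfsg.Agent.S2457

open Cfsg.Agent.Lib.SzChr Cfsg.Agent.Lib

/-- A strong covering result in the direction of Thompson's conjecture (non-identity elements) for the Suzuki groups: let q = 2^(2m+1) ≥ 8, F the field with q elements and Sz(q) the Suzuki group over F. For every element x of Sz(q) of order greater than 2, every non-identity element of Sz(q) is a product of two conjugates of x. -/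
theorem result {F : Type*} [Field F] [Fintype F] (m : ℕ) (hm : 1 ≤ m) (hF : Fintype.card F = 2 ^ (2 * m + 1))
    (x : Cfsg.Lie.Sz F (2 ^ (m + 1))) (hx2 : 2 < orderOf x) : ∀ g : Cfsg.Lie.Sz F (2 ^ (m + 1)), g ≠ 1 → ∃ u v : Cfsg.Lie.Sz F (2 ^ (m + 1)), g = (u * x * u⁻¹) * (v * x * v⁻¹) := by
  intro g hg
  have hcp : CharP F 2 := SuzukiFin.charTwo hF
  have hθ := SuzukiFin.th_sq (F := F) (m := m) hF
  have hne := SuzukiFin.th_ne (F := F) hm hF
  have e : Lie.Sz F (2 ^ (m + 1)) ≃* SuzukiOvoid.Gz (SuzukiFin.th F m) :=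
    (SuzukiLie.szEquiv m hm hF).symm.trans (MulEquiv.subgroupCongr (SuzukiFin.Sz_eq m))
  have hft : Fintype (SuzukiOvoid.Gz (SuzukiFin.th F m)) := Fintype.ofFinite _
  obtain ⟨D⟩ := exists_data (SuzukiFin.th F m) hθ hne hm (by rw [Nat.card_eq_fintype_card, hF])
  have hx3 : 2 < orderOf (e x) := by rw [e.orderOf_eq]; exact hx2
  have hg3 : e g ≠ 1 := by
    intro h
    exact hg (e.injective (by rw [h, map_one]))
  obtain ⟨u, v, huv⟩ := square_covers D hx3 hg3
  refine ⟨e.symm u, e.symm v, ?_⟩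
  apply e.injective
  rw [huv]
  simp only [map_mul, map_inv, MulEquiv.apply_symm_apply]

end Cfsg.Agent.S2457
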