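import Cfsg.Statements.S2459
import Cfsg.Agent.Lib.CyclicProd

set_option autoImplicit false
open Cfsg

namespace Cfsg.Agent.S2459

open Polynomial Matrix Cfsg.Agent.Lib.CyclicProd

theorem cover {F : Type*} [Field F] (x : Matrix.SpecialLinearGroup (Fin 3) F) {p₁ p₂ : F[X]}
    {c₁ c₂ : F} (hp₁ : p₁.Monic) (hp₂ : p₂.Monic) (hd₁ : p₁.natDegree = 2)
    (hd₂ : p₂.natDegree = 2) (hc₁ : p₁.eval c₁ ≠ 0) (hc₂ : p₂.eval c₂ ≠ 0)
    (hy : MCyc ((x⁻¹ : Matrix.SpecialLinearGroup (Fin 3) F) : Matrix (Fin 3) (Fin 3) F))
    (hx : MCyc (x : Matrix (Fin 3) (Fin 3) F))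
    (h01 : aeval ((x⁻¹ : Matrix.SpecialLinearGroup (Fin 3) F) : Matrix (Fin 3) (Fin 3) F)
      (p₁ * (X - C c₁)) = 0)
    (h02 : aeval (x : Matrix (Fin 3) (Fin 3) F) (p₂ * (X - C c₂)) = 0) :
    ∀ g : Matrix.ProjectiveSpecialLinearGroup (Fin 3) F, g ≠ 1 →
      ∃ u v : Matrix.ProjectiveSpecialLinearGroup (Fin 3) F,
        g = (u * (QuotientGroup.mk x : Matrix.ProjectiveSpecialLinearGroup (Fin 3) F) * u⁻¹) *
          (v * (QuotientGroup.mk x : Matrix.ProjectiveSpecialLinearGroup (Fin 3) F) * v⁻¹) := by
  intro g hg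
  obtain ⟨A, rfl⟩ := QuotientGroup.mk_surjective g
  have hA : A ∉ Subgroup.center (Matrix.SpecialLinearGroup (Fin 3) F) := by
    intro h
    exact hg ((QuotientGroup.eq_one_iff A).2 h)
  obtain ⟨u, v, huv⟩ := sl_prod (m := 2) (by norm_num) x⁻¹ x A hp₁ hp₂ hd₁ hd₂ hc₁ hc₂ hy hx h01 h02
    (exists_not_eigenvector A hA)
  refine ⟨QuotientGroup.mk u, QuotientGroup.mk v, ?_⟩
  rw [huv, inv_inv]
  rfl

/-- A form of Thompson's conjecture for PSL(3,q), q > 2 (covering the non-identity elements), with a semisimple class: for F a finite field of characteristic p with more than 2 elements there is an element x of PSL(3,F) of order prime to p such that every non-identity element of PSL(3,F) is a product of two conjugates of x. -/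
theorem result {F : Type*} [Field F] [Fintype F] (p : ℕ) [Fact p.Prime] [CharP F p] (h3 : 3 ≤ Fintype.card F) :
    ∃ x : Matrix.ProjectiveSpecialLinearGroup (Fin 3) F, ¬ p ∣ orderOf x ∧ ∀ g : Matrix.ProjectiveSpecialLinearGroup (Fin 3) F, g ≠ 1 → ∃ u v : Matrix.ProjectiveSpecialLinearGroup (Fin 3) F, g = (u * x * u⁻¹) * (v * x * v⁻¹) := by
  classical
  by_cases hp3 : p = 3
  · -- characteristic 3: an element of order 4
    subst hp3
    let x : Matrix.SpecialLinearGroup (Fin 3) F := ⟨!![1, 0, 0; 0, 0, -1; 0, 1, 0], by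
      simp [Matrix.det_fin_three]⟩
    have hxinv : ((x⁻¹ : Matrix.SpecialLinearGroup (Fin 3) F) : Matrix (Fin 3) (Fin 3) F) =
        !![1, 0, 0; 0, 0, 1; 0, -1, 0] := by
      rw [Matrix.SpecialLinearGroup.coe_inv]
      simp only [x, Matrix.adjugate_fin_three_of]
      ext i j
      fin_cases i <;> fin_cases j <;> simp
    have hx4 : x ^ 4 = 1 := by
      apply Subtype.ext
      rw [Matrix.SpecialLinearGroup.coe_pow, Matrix.SpecialLinearGroup.coe_one]
      simp only [x, pow_succ, pow_zero, one_mul]
      ext i j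
      fin_cases i <;> fin_cases j <;> simp [Matrix.mul_apply, Fin.sum_univ_three]
    have h20 : (2 : F) ≠ 0 := by
      intro h
      have h3 : (3 : F) = 0 := by exact_mod_cast CharP.cast_eq_zero F 3
      have : (1 : F) = 0 := by linear_combination h3 - h
      exact one_ne_zero this
    refine ⟨QuotientGroup.mk x, ?_, ?_⟩
    · intro h
      have h1 : orderOf (QuotientGroup.mk x : Matrix.ProjectiveSpecialLinearGroup (Fin 3) F) ∣ 4 :=
        orderOf_dvd_of_pow_eq_one (by
          rw [← QuotientGroup.mk_pow, hx4]; rfl)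
      have := h.trans h1
      omega
    · have hm : ((X ^ 2 + 1 : F[X])).Monic := by monicity!
      have hd : ((X ^ 2 + 1 : F[X])).natDegree = 2 := by compute_degree!
      have he : ((X ^ 2 + 1 : F[X])).eval 1 ≠ 0 := by
        simp only [eval_add, eval_pow, eval_X, eval_one]
        norm_num
        exact h20
      refine cover x hm hm hd hd he he ?_ ?_ ?_ ?_
      · rw [hxinv]
        apply mcyc_of ![1, 1, 0]
        intro W hv hW
        have h1 := hW _ hv
        have h2 := hW _ h1
        have e1 : (!![1, 0, 0; 0, 0, 1; 0, -1, 0] : Matrix (Fin 3) (Fin 3) F) *ᵥ ![1, 1, 0] = ![1, 0, -1] := by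
          ext i; fin_cases i <;> simp [Matrix.mulVec, dotProduct, Fin.sum_univ_three]
        have e2 : (!![1, 0, 0; 0, 0, 1; 0, -1, 0] : Matrix (Fin 3) (Fin 3) F) *ᵥ ![1, 0, -1] = ![1, -1, 0] := by
          ext i; fin_cases i <;> simp [Matrix.mulVec, dotProduct, Fin.sum_univ_three]
        rw [e1] at h1 h2
        rw [e2] at h2
        have k1 : (Pi.single 1 1 : Fin 3 → F) ∈ W := by
          have := W.smul_mem (2 : F)⁻¹ (W.sub_mem hv h2)
          convert this using 1
          ext i; fin_cases i <;> simp [← two_mul, h20]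
        have k0 : (Pi.single 0 1 : Fin 3 → F) ∈ W := by
          have := W.sub_mem hv k1
          convert this using 1
          ext i; fin_cases i <;> simp
        have k2 : (Pi.single 2 1 : Fin 3 → F) ∈ W := by
          have := W.sub_mem k0 h1
          convert this using 1
          ext i; fin_cases i <;> simp
        intro i; fin_cases i
        · exact k0
        · exact k1
        · exact k2
      · apply mcyc_of ![1, 1, 0]
        intro W hv hW
        have h1 := hW _ hv
        have h2 := hW _ h1
        have e1 : (x : Matrix (Fin 3) (Fin 3) F) *ᵥ ![1, 1, 0] = ![1, 0, 1] := by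
          ext i; fin_cases i <;> simp [x, Matrix.mulVec, dotProduct, Fin.sum_univ_three]
        have e2 : (x : Matrix (Fin 3) (Fin 3) F) *ᵥ ![1, 0, 1] = ![1, -1, 0] := by
          ext i; fin_cases i <;> simp [x, Matrix.mulVec, dotProduct, Fin.sum_univ_three]
        rw [e1] at h1 h2
        rw [e2] at h2
        have k1 : (Pi.single 1 1 : Fin 3 → F) ∈ W := by
          have := W.smul_mem (2 : F)⁻¹ (W.sub_mem hv h2)
          convert this using 1
          ext i; fin_cases i <;> simp [← two_mul, h20]
        have k0 : (Pi.single 0 1 : Fin 3 → F) ∈ W := by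
          have := W.sub_mem hv k1
          convert this using 1
          ext i; fin_cases i <;> simp
        have k2 : (Pi.single 2 1 : Fin 3 → F) ∈ W := by
          have := W.sub_mem h1 k0
          convert this using 1
          ext i; fin_cases i <;> simp
        intro i; fin_cases i
        · exact k0
        · exact k1
        · exact k2
      · rw [hxinv]
        simp only [map_mul, map_add, map_pow, map_sub, aeval_X, map_one]
        ext i j
        fin_cases i <;> fin_cases j <;> simp [pow_two, Matrix.mul_apply, Fin.sum_univ_three]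
      · simp only [map_mul, map_add, map_pow, map_sub, aeval_X, map_one, x]
        ext i j
        fin_cases i <;> fin_cases j <;> simp [pow_two, Matrix.mul_apply, Fin.sum_univ_three]
  · let x : Matrix.SpecialLinearGroup (Fin 3) F := ⟨!![0, 0, 1; 1, 0, 0; 0, 1, 0], by
      simp [Matrix.det_fin_three]⟩
    have hxinv : ((x⁻¹ : Matrix.SpecialLinearGroup (Fin 3) F) : Matrix (Fin 3) (Fin 3) F) =
        !![0, 1, 0; 0, 0, 1; 1, 0, 0] := by
      rw [Matrix.SpecialLinearGroup.coe_inv]
      simp only [x, Matrix.adjugate_fin_three_of]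
      ext i j
      fin_cases i <;> fin_cases j <;> simp
    have hx3 : x ^ 3 = 1 := by
      apply Subtype.ext
      rw [Matrix.SpecialLinearGroup.coe_pow, Matrix.SpecialLinearGroup.coe_one]
      simp only [x, pow_succ, pow_zero, one_mul]
      ext i j
      fin_cases i <;> fin_cases j <;> simp [Matrix.mul_apply, Fin.sum_univ_three]
    have h30 : (3 : F) ≠ 0 := by
      intro h
      have h3 : ((3 : ℕ) : F) = 0 := by exact_mod_cast h
      rw [CharP.cast_eq_zero_iff F p 3] at h3
      exact hp3 ((Nat.prime_dvd_prime_iff_eq (Fact.out : p.Prime) Nat.prime_three).1 h3)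
    refine ⟨QuotientGroup.mk x, ?_, ?_⟩
    · intro h
      have h1 : orderOf (QuotientGroup.mk x : Matrix.ProjectiveSpecialLinearGroup (Fin 3) F) ∣ 3 :=
        orderOf_dvd_of_pow_eq_one (by
          rw [← QuotientGroup.mk_pow, hx3]; rfl)
      exact hp3 ((Nat.prime_dvd_prime_iff_eq (Fact.out : p.Prime) Nat.prime_three).1 (h.trans h1))
    · have hm : ((X ^ 2 + X + 1 : F[X])).Monic := by monicity!
      have hd : ((X ^ 2 + X + 1 : F[X])).natDegree = 2 := by compute_degree!
      have he : ((X ^ 2 + X + 1 : F[X])).eval 1 ≠ 0 := by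
        simp only [eval_add, eval_pow, eval_X, eval_one]
        norm_num
        exact h30
      refine cover x hm hm hd hd he he ?_ ?_ ?_ ?_
      · rw [hxinv]
        apply mcyc_of (Pi.single 0 1)
        intro W hv hW
        have h1 := hW _ hv
        have e1 : (!![0, 1, 0; 0, 0, 1; 1, 0, 0] : Matrix (Fin 3) (Fin 3) F) *ᵥ (Pi.single 0 1) = Pi.single 2 1 := by
          ext i; fin_cases i <;> simp
        have e2 : (!![0, 1, 0; 0, 0, 1; 1, 0, 0] : Matrix (Fin 3) (Fin 3) F) *ᵥ (Pi.single 2 1) = Pi.single 1 1 := by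
          ext i; fin_cases i <;> simp
        rw [e1] at h1
        have h2 := hW _ h1
        rw [e2] at h2
        intro i; fin_cases i
        · exact hv
        · exact h2
        · exact h1
      · apply mcyc_of (Pi.single 0 1)
        intro W hv hW
        have h1 := hW _ hv
        have e1 : (x : Matrix (Fin 3) (Fin 3) F) *ᵥ (Pi.single 0 1) = Pi.single 1 1 := by
          ext i; fin_cases i <;> simp [x]
        have e2 : (x : Matrix (Fin 3) (Fin 3) F) *ᵥ (Pi.single 1 1) = Pi.single 2 1 := by
          ext i; fin_cases i <;> simp [x]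
        rw [e1] at h1
        have h2 := hW _ h1
        rw [e2] at h2
        intro i; fin_cases i
        · exact hv
        · exact h1
        · exact h2
      · rw [hxinv]
        simp only [map_mul, map_add, map_pow, map_sub, aeval_X, map_one]
        ext i j
        fin_cases i <;> fin_cases j <;> simp [pow_two, Matrix.mul_apply, Fin.sum_univ_three]
      · simp only [map_mul, map_add, map_pow, map_sub, aeval_X, map_one, x]
        ext i j
        fin_cases i <;> fin_cases j <;> simp [pow_two, Matrix.mul_apply, Fin.sum_univ_three]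

end Cfsg.Agent.S2459
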