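import Cfsg.Statements.S2460
import Mathlib
import Cfsg.Agent.Lib.Sp4Fin62

set_option autoImplicit false
open Cfsg

namespace Cfsg.Agent.S2460

open Matrix Cfsg.Agent.Lib.GL2Prod62 Cfsg.Agent.Lib.Sp4Sq62 Cfsg.Agent.Lib.Sp4Fin62

section aux

variable {F : Type*} [Field F]

lemma cmat_sq (t n : F) : cmat t n * cmat t n = t • cmat t n - n • (1 : M2 F) := by
  ext i j
  fin_cases i <;> fin_cases j <;> simp [cmat, Matrix.mul_apply, Fin.sum_univ_two] <;> ring

lemma cmat_pow (t n : F) (k : ℕ) : ∃ a b : F, cmat t n ^ k = a • (1 : M2 F) + b • cmat t n := by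
  induction k with
  | zero => exact ⟨1, 0, by simp⟩
  | succ k ih =>
    obtain ⟨a, b, h⟩ := ih
    refine ⟨-(b * n), a + b * t, ?_⟩
    rw [pow_succ, h, add_mul, Matrix.smul_mul, Matrix.one_mul, Matrix.smul_mul, cmat_sq, smul_sub, smul_smul,
      smul_smul, add_smul, neg_smul]
    abel

/-- `p`-th roots of unity in the algebra of `X` are trivial -/
lemma pow_eq_one {t n : F} (h : Dat t n) (p : ℕ) [Fact p.Prime] [CharP F p] (k : ℕ)
    (hk : (cmat t n ^ k) ^ p = 1) : cmat t n ^ k = 1 := by
  obtain ⟨a, b, hab⟩ := cmat_pow t n k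
  have hN : (cmat t n ^ k - 1) ^ p = 0 := by
    have : CharP (M2 F) p := inferInstance
    rw [sub_pow_char_of_commute p (Commute.one_right _), hk, one_pow, sub_self]
  have hdet : (cmat t n ^ k - 1).det = 0 := by
    have h1 := congrArg Matrix.det hN
    rw [Matrix.det_pow, Matrix.det_zero] at h1
    exact pow_eq_zero_iff (Fact.out : p.Prime).ne_zero |>.1 h1
  have hN' : cmat t n ^ k - 1 = (a - 1) • (1 : M2 F) + b • cmat t n := by
    rw [hab, sub_smul, one_smul]; abel
  rw [hN', Matrix.det_fin_two] at hdet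
  simp [cmat] at hdet
  have hb : b = 0 := by
    by_contra hb
    apply h.irr (-(a - 1) / b)
    field_simp
    linear_combination hdet
  subst hb
  have ha : a - 1 = 0 := by
    have : (a - 1) * (a - 1) = 0 := by linear_combination hdet
    exact mul_self_eq_zero.1 this
  rw [hab, sub_eq_zero.1 ha]
  simp

lemma not_dvd {t n : F} (h : Dat t n) (p : ℕ) [Fact p.Prime] [CharP F p] [Finite F] : ¬ p ∣ orderOf (xx h) := by
  rintro ⟨k, hk⟩
  have hfin : Finite (symplecticGroup (Fin 2) F) := inferInstance
  have hpos : 0 < orderOf (xx h) := orderOf_pos _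
  have hX : ∀ j : ℕ, ((xx h ^ j : symplecticGroup (Fin 2) F) : M4 F) =
      fromBlocks (cmat t n ^ j) 0 0 (((cmat t n)⁻¹)ᵀ ^ j) := by
    intro j
    rw [SubmonoidClass.coe_pow]
    show (fromBlocks (cmat t n) 0 0 ((cmat t n)⁻¹)ᵀ) ^ j = _
    rw [fromBlocks_diagonal_pow]
  have h1 : xx h ^ (p * k) = 1 := by rw [← hk]; exact pow_orderOf_eq_one _
  have h2 : (cmat t n ^ k) ^ p = 1 := by
    have := hX (p * k)
    rw [h1] at this
    have h3 : (1 : M4 F) = fromBlocks 1 0 0 1 := fromBlocks_one.symm
    rw [Submonoid.coe_one, h3] at this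
    have h4 := (fromBlocks_inj.1 this).1
    rw [← pow_mul, mul_comm k p]
    exact h4.symm
  have h3 := pow_eq_one h p k h2
  have h4 : xx h ^ k = 1 := by
    apply Subtype.ext
    rw [hX, h3, ← Matrix.transpose_pow, Matrix.inv_pow', h3]
    simp
  have h5 := orderOf_dvd_of_pow_eq_one h4
  have hk0 : 0 < k := by
    rcases Nat.eq_zero_or_pos k with h6 | h6
    · rw [h6, mul_zero] at hk; omega
    · exact h6
  have h6 := Nat.le_of_dvd hk0 h5
  rw [hk] at h6
  have h7 := (Fact.out : p.Prime).two_le
  nlinarith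

end aux

/-- A form of Thompson's conjecture for the simple groups PSp(4,q), q ≥ 3 (covering the non-identity elements), with a semisimple class: for F a finite field of characteristic p with at least 3 elements there is an element x of PSp(4,F) of order prime to p such that every non-identity element of PSp(4,F) is a product of two conjugates of x. -/
theorem result {F : Type*} [Field F] [Fintype F] (p : ℕ) [Fact p.Prime] [CharP F p] (h3 : 3 ≤ Fintype.card F) :
    ∃ x : Cfsg.PSp 2 F, ¬ p ∣ orderOf x ∧ ∀ g : Cfsg.PSp 2 F, g ≠ 1 → ∃ u v : Cfsg.PSp 2 F, g = (u * x * u⁻¹) * (v * x * v⁻¹) := by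
  classical
  have hcard : Nat.card F = Fintype.card F := Nat.card_eq_fintype_card
  -- choice of `n`
  obtain ⟨n, hn0, hn1, hn2⟩ : ∃ n : F, n ≠ 0 ∧ n ≠ 1 ∧ (n * n ≠ 1 ∨ Nat.card F = 3) := by
    by_cases h4 : Nat.card F = 3
    · by_contra hcon
      push Not at hcon
      have hsub : (Finset.univ : Finset F) ⊆ {0, 1} := by
        intro x _
        by_cases hx0 : x = 0
        · simp [hx0]
        by_cases hx1 : x = 1
        · simp [hx1]
        exact absurd h4 (hcon x hx0 hx1).2
      have := (Finset.card_le_card hsub).trans Finset.card_le_two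
      rw [Finset.card_univ] at this
      omega
    · by_contra hcon
      push Not at hcon
      have hsub : (Finset.univ : Finset F) ⊆ {0, 1, -1} := by
        intro x _
        by_cases hx0 : x = 0
        · simp [hx0]
        by_cases hx1 : x = 1
        · simp [hx1]
        have h5 := (hcon x hx0 hx1).1
        rcases mul_self_eq_one_iff.1 h5 with h6 | h6
        · exact absurd h6 hx1
        · simp [h6]
      have := (Finset.card_le_card hsub).trans Finset.card_le_three
      rw [Finset.card_univ] at this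
      omega
  obtain ⟨t, ht0, hirr⟩ := exists_tau hn0 hn1
  have h : Dat t n := ⟨hn0, hn1, ht0, hirr⟩
  have hneg : ∀ g : symplecticGroup (Fin 2) F, (QuotientGroup.mk (ng g) : PSp 2 F) = QuotientGroup.mk g := by
    intro g
    rw [eq_comm, QuotientGroup.eq, Subgroup.mem_center_iff]
    intro k
    have : g⁻¹ * ng g = ng 1 := by
      rw [inv_mul_eq_iff_eq_mul]
      apply Subtype.ext
      show -(g : M4 F) = (g : M4 F) * (-(1 : M4 F))
      simp
    rw [this]
    apply Subtype.ext
    show (k : M4 F) * (-(1 : M4 F)) = (-(1 : M4 F)) * (k : M4 F)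
    simp
  have hpr : ∀ g : symplecticGroup (Fin 2) F, Pr h g → ∃ u v : PSp 2 F,
      (QuotientGroup.mk g : PSp 2 F) = (u * QuotientGroup.mk (xx h) * u⁻¹) * (v * QuotientGroup.mk (xx h) * v⁻¹) := by
    rintro g ⟨a, b, ha, hb, hab⟩
    obtain ⟨u, hu⟩ := isConj_iff.1 ha
    obtain ⟨v, hv⟩ := isConj_iff.1 hb
    refine ⟨QuotientGroup.mk u, QuotientGroup.mk v, ?_⟩
    rw [hab, ← hu, ← hv]
    rfl
  refine ⟨QuotientGroup.mk (xx h), ?_, ?_⟩
  · intro hp
    exact not_dvd h p (hp.trans (orderOf_map_dvd (QuotientGroup.mk' _) (xx h)))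
  · intro g
    induction g using QuotientGroup.induction_on with
    | H g =>
      intro hg
      have hg1 : g ≠ 1 := by rintro rfl; exact hg rfl
      have hg2 : g ≠ ng 1 := by
        rintro rfl
        exact hg (by rw [hneg]; rfl)
      rcases Cfsg.Agent.Lib.Sp4Fin62.main (by rw [hcard]; exact h3) h hn2 g hg1 hg2 with h4 | h4
      · exact hpr g h4
      · have h5 := hpr _ h4
        rw [hneg] at h5
        exact h5

end Cfsg.Agent.S2460
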