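import Cfsg.Statements.S2461
import Cfsg.Agent.Lib.GauFin

set_option autoImplicit false
open Cfsg

namespace Cfsg.Agent.S2461
open Cfsg.Agent.Lib.GauCell

/-- A form of Thompson's conjecture for the simple Chevalley groups G₂(q), q ≥ 3 (covering the non-identity elements), with a semisimple class: for F a finite field of characteristic p with at least 3 elements there is an element x of the Chevalley group of type G₂ over F of order prime to p such that every non-identity element of that group is a product of two conjugates of x. -/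
theorem result {F : Type*} [Field F] [Fintype F] (p : ℕ) [Fact p.Prime] [CharP F p] (h3 : 3 ≤ Fintype.card F) :
    ∃ x : Cfsg.Lie.chevG2.group F, ¬ p ∣ orderOf x ∧ ∀ g : Cfsg.Lie.chevG2.group F, g ≠ 1 → ∃ u v : Cfsg.Lie.chevG2.group F, g = (u * x * u⁻¹) * (v * x * v⁻¹) := by
  classical
  by_cases h7 : 7 ≤ Fintype.card F
  · exact two_conj_large p h7
  have hp := (Fact.out : p.Prime)
  obtain ⟨n, -, hn⟩ := FiniteField.card F p
  have hn0 : (n : ℕ) ≠ 0 := n.2.ne'
  have hpd : p ∣ Fintype.card F := by rw [hn]; exact dvd_pow_self p hn0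
  have hdp : ∀ r : ℕ, r.Prime → r ∣ Fintype.card F → r = p := by
    intro r hr hd
    rw [hn] at hd
    exact (Nat.prime_dvd_prime_iff_eq hr hp).mp (hr.dvd_of_dvd_pow hd)
  have hc : Fintype.card F = 3 ∨ Fintype.card F = 4 ∨ Fintype.card F = 5 ∨ Fintype.card F = 6 := by omega
  have hcast : ((Fintype.card F : ℕ) : F) = 0 := FiniteField.cast_card_eq_zero F
  have hpow : ∀ t : F, t ^ Fintype.card F = t := FiniteField.pow_card
  rcases hc with hc | hc | hc | hc
  · -- three elements
    have hp3 : p = 3 := (hdp 3 Nat.prime_three (by rw [hc])).symm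
    rw [hc] at hcast hpow
    have h3' : (3 : F) = 0 := by exact_mod_cast hcast
    have hF : ∀ t : F, t = 0 ∨ t = 1 ∨ t = -1 := by
      intro t
      have h := hpow t
      have h1 : t * ((t - 1) * (t + 1)) = 0 := by linear_combination h
      rcases mul_eq_zero.mp h1 with h2 | h2
      · exact Or.inl h2
      · rcases mul_eq_zero.mp h2 with h4 | h4
        · exact Or.inr (Or.inl (by linear_combination h4))
        · exact Or.inr (Or.inr (by linear_combination h4))
    have hb := base3 h3' hF
    refine wrap (p := p) (ν := (-1 : F)) (by simp) (fun g hg hg1 => cover_det h3 (one_ne_zero (α := F)) (fun N hN => pd3 h3' hF hb hN) hg hg1)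
      (k := 4) (n := 2) (s := -1) (by simp) ?_ ?_ ?_ ?_ (by ring) (by rw [hp3]; decide)
    all_goals
      simp only [pow_succ, pow_zero, one_mul, mul00, mul01, mul10, mul11, XX, coe_gm, Matrix.cons_val_zero, Matrix.cons_val_one,
        Matrix.of_apply, Matrix.cons_val', Matrix.cons_val_fin_one]
      grind
  · -- four elements
    have hp2 : p = 2 := (hdp 2 Nat.prime_two (by rw [hc]; decide)).symm
    rw [hc] at hcast hpow
    have h2 : (2 : F) = 0 := by
      have h4 : (4 : F) = 0 := by exact_mod_cast hcast
      have : (2 : F) * 2 = 0 := by linear_combination h4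
      exact mul_self_eq_zero.mp this
    obtain ⟨ω, hω0, hω1⟩ : ∃ ω : F, ω ≠ 0 ∧ ω ≠ 1 := by
      by_contra hno
      push Not at hno
      have h4 : Fintype.card F ≤ ({0, 1} : Finset F).card := by
        rw [← Finset.card_univ]
        refine Finset.card_le_card fun s _ => ?_
        by_cases h : s = 0
        · simp [h]
        · simp [hno s h]
      have h5 : ({0, 1} : Finset F).card ≤ 2 := Finset.card_le_two
      omega
    have hω : ω ^ 2 + ω + 1 = 0 := by
      have h := hpow ω
      have h1 : (ω * (ω - 1)) * (ω ^ 2 + ω + 1) = 0 := by linear_combination h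
      exact (mul_eq_zero.mp h1).resolve_left (mul_ne_zero hω0 (sub_ne_zero.mpr hω1))
    have hF : ∀ t : F, t = 0 ∨ t = 1 ∨ t = ω ∨ t = ω + 1 := by
      intro t
      have h := hpow t
      have h1 : (t * (t - 1)) * ((t - ω) * (t - (ω + 1))) = 0 := by
        linear_combination h + (t * (t - 1)) * hω + (t * (t - 1)) * (-t * ω - t - 1) * h2
      rcases mul_eq_zero.mp h1 with h4 | h4
      · rcases mul_eq_zero.mp h4 with h5 | h5
        · exact Or.inl h5
        · exact Or.inr (Or.inl (sub_eq_zero.mp h5))
      · rcases mul_eq_zero.mp h4 with h5 | h5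
        · exact Or.inr (Or.inr (Or.inl (sub_eq_zero.mp h5)))
        · exact Or.inr (Or.inr (Or.inr (sub_eq_zero.mp h5)))
    have hb := base4 h2 hω hF hω0
    refine wrap (p := p) hω0 (cov4 hc h2 hω hF hb) (k := 5) (n := 3) (s := ω) hω0 ?_ ?_ ?_ ?_
      (by linear_combination (ω - 1) * hω) (by rw [hp2]; decide)
    all_goals
      simp only [pow_succ, pow_zero, one_mul, mul00, mul01, mul10, mul11, XX, coe_gm, Matrix.cons_val_zero, Matrix.cons_val_one,
        Matrix.of_apply, Matrix.cons_val', Matrix.cons_val_fin_one]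
      grind
  · -- five elements
    have hp5 : p = 5 := (hdp 5 Nat.prime_five (by rw [hc])).symm
    rw [hc] at hcast hpow
    have h5 : (5 : F) = 0 := by exact_mod_cast hcast
    have hF : ∀ t : F, t = 0 ∨ t = 1 ∨ t = 2 ∨ t = 3 ∨ t = 4 := by
      intro t
      have h := hpow t
      have h1 : t * ((t - 1) * ((t - 2) * ((t - 3) * (t - 4)))) = 0 := by
        linear_combination h + (-2 * t ^ 4 + 7 * t ^ 3 - 10 * t ^ 2 + 5 * t) * h5
      rcases mul_eq_zero.mp h1 with h2 | h2
      · exact Or.inl h2
      rcases mul_eq_zero.mp h2 with h2 | h2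
      · exact Or.inr (Or.inl (sub_eq_zero.mp h2))
      rcases mul_eq_zero.mp h2 with h2 | h2
      · exact Or.inr (Or.inr (Or.inl (sub_eq_zero.mp h2)))
      rcases mul_eq_zero.mp h2 with h2 | h2
      · exact Or.inr (Or.inr (Or.inr (Or.inl (sub_eq_zero.mp h2))))
      · exact Or.inr (Or.inr (Or.inr (Or.inr (sub_eq_zero.mp h2))))
    have h20 : (2 : F) ≠ 0 := fun h => one_ne_zero (α := F) (by linear_combination h5 - 2 * h)
    have hb := base5 h5 hF h20
    have h40 : (4 : F) ≠ 0 := fun h => one_ne_zero (α := F) (by linear_combination h5 - h)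
    refine wrap (p := p) h20 (fun g hg hg1 => cover_det h3 h40 (fun N hN => pd5 h5 hF hb hN) hg hg1)
      (k := 6) (n := 4) (s := 2) h20 ?_ ?_ ?_ ?_ (by linear_combination 3 * h5) (by rw [hp5]; decide)
    all_goals
      simp only [pow_succ, pow_zero, one_mul, mul00, mul01, mul10, mul11, XX, coe_gm, Matrix.cons_val_zero, Matrix.cons_val_one,
        Matrix.of_apply, Matrix.cons_val', Matrix.cons_val_fin_one]
      grind
  · -- six elements
    exfalso
    have e1 := hdp 2 Nat.prime_two (by rw [hc]; decide)
    have e2 := hdp 3 Nat.prime_three (by rw [hc]; decide)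
    omega

end Cfsg.Agent.S2461
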