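import Cfsg.Statements.S2462
import Cfsg.Agent.Lib.TrMain

set_option autoImplicit false
open Cfsg

namespace Cfsg.Agent.S2462

/-- A form of Thompson's conjecture for the triality groups ³D₄(q) (covering the non-identity elements) with a semisimple class: for q a power of the prime p and K the field with q³ elements there is an element x of ³D₄(q) (realised over K) of order prime to p such that every non-identity element of ³D₄(q) is a product of two conjugates of x. -/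
theorem result {K : Type*} [Field K] [Fintype K] (p : ℕ) [Fact p.Prime] [CharP K p] (q : ℕ) (hq : IsPrimePow q) (hK : Fintype.card K = q ^ 3) :
    ∃ x : Cfsg.Lie.twistedD4 K q, ¬ p ∣ orderOf x ∧ ∀ g : Cfsg.Lie.twistedD4 K q, g ≠ 1 → ∃ u v : Cfsg.Lie.twistedD4 K q, g = (u * x * u⁻¹) * (v * x * v⁻¹) := by
  rw [Cfsg.Agent.Lib.Tr.tw_eq_fix hq hK]
  obtain ⟨τ, hτ⟩ := Cfsg.Agent.Lib.TrMat.exists_irr (F := Cfsg.Agent.Lib.Tr.F0 hq hK)
  obtain ⟨A, hA⟩ := Cfsg.Agent.Lib.TrMat.exists_ell τ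
  obtain ⟨c, hc⟩ := Cfsg.Agent.Lib.Tr.exists_okc hq hK
  obtain ⟨m, hm, hxm⟩ := Cfsg.Agent.Lib.Tr.pow_xx hq hK p hτ hA hc
  have hx := Cfsg.Agent.Lib.Tr.L_le_fix hq hK (Cfsg.Agent.Lib.Tr.xx_L hq hK hA.2 c)
  refine ⟨⟨_, hx⟩, fun h => hm (h.trans (orderOf_dvd_of_pow_eq_one (Subtype.ext hxm))), fun g hg => ?_⟩
  obtain ⟨u, hu, v, hv, h⟩ := Cfsg.Agent.Lib.Tr.main hq hK hτ hA hc g.2 (fun h => hg (Subtype.ext h))
  exact ⟨⟨u, hu⟩, ⟨v, hv⟩, Subtype.ext h⟩

end Cfsg.Agent.S2462
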