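import Cfsg.Statements.S2466
import Cfsg.Agent.Lib.H58AltSpec
import Cfsg.Agent.Lib.AltSpectrum

set_option autoImplicit false
open Cfsg

namespace Cfsg.Agent.S2466

open Cfsg.Agent.Lib Equiv.Perm

theorem exists_alt {n : ℕ} (l : List ℕ) (h2 : ∀ x ∈ l, 2 ≤ x) (hs : l.sum ≤ n) (he : Even (l.sum + l.length)) :
    l.foldr Nat.lcm 1 ∈ Set.range (orderOf : alternatingGroup (Fin n) → ℕ) := by
  obtain ⟨σ, hσ⟩ : ∃ σ : Equiv.Perm (Fin n), σ.cycleType = l := by
    rw [exists_with_cycleType_iff]
    refine ⟨by simpa using hs, ?_⟩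
    intro a ha
    exact h2 a (by simpa using ha)
  refine ⟨⟨σ, (H58AltSpec.sign_eq hσ).mpr he⟩, ?_⟩
  rw [← Subgroup.orderOf_coe]
  exact H58AltSpec.orderOf_eq hσ

/-- Adjacency of odd primes in the prime graph of the alternating groups: let r ≠ s be odd primes at most n. The alternating group of degree n has an element of order r·s if and only if r + s ≤ n. -/
theorem result (n r s : ℕ) (hr : r.Prime) (hs : s.Prime) (hr2 : r ≠ 2) (hs2 : s ≠ 2) (hrs : r ≠ s) (hrn : r ≤ n) (hsn : s ≤ n) :
    (r * s ∈ Set.range (orderOf : alternatingGroup (Fin n) → ℕ)) ↔ r + s ≤ n := by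
  constructor
  · rintro ⟨σ, hσ⟩
    have h : orderOf (σ : Equiv.Perm (Fin n)) = r * s := by rw [Subgroup.orderOf_coe]; exact hσ
    exact AltSpectrum.add_le_of_dvd_orderOf hr hs hrs (σ : Equiv.Perm (Fin n)) (by rw [h]; exact dvd_mul_right _ _)
      (by rw [h]; exact dvd_mul_left _ _)
  · intro h
    have h1 := exists_alt (n := n) [r, s] (by simp [hr.two_le, hs.two_le]) (by simpa using h) (by
      have e1 := hr.odd_of_ne_two hr2
      have e2 := hs.odd_of_ne_two hs2
      simp only [List.sum_cons, List.sum_nil, List.length_cons, List.length_nil, add_zero, zero_add]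
      exact (e1.add_odd e2).add (by decide))
    have h2 : ([r, s].foldr Nat.lcm 1) = r * s := by
      simp only [List.foldr_cons, List.foldr_nil, Nat.lcm_one_right]
      exact Nat.Coprime.lcm_eq_mul ((Nat.coprime_primes hr hs).2 hrs)
    rwa [h2] at h1

end Cfsg.Agent.S2466
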