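import Cfsg.Statements.S2467
import Cfsg.Agent.Lib.H58AltSpec
import Cfsg.Agent.Lib.AltSpectrum

set_option autoImplicit false
open Cfsg

namespace Cfsg.Agent.S2467

open Cfsg.Agent.Lib Equiv.Perm

theorem exists_alt {n : ℕ} (l : List ℕ) (h2 : ∀ x ∈ l, 2 ≤ x) (hs : l.sum ≤ n) (he : Even (l.sum + l.length)) :
    l.foldr Nat.lcm 1 ∈ Set.range (orderOf : alternatingGroup (Fin n) → ℕ) := by
  obtain ⟨σ, hσ⟩ : ∃ σ : Equiv.Perm (Fin n), σ.cycleType = l := by
    rw [exists_with_cycleType_iff]
    refine ⟨by simpa using hs, ?_⟩
    intro a ha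
    exact h2 a (by simpa using ha)
  refine ⟨⟨σ, (H58AltSpec.sign_eq hσ).mpr he⟩, ?_⟩
  rw [← Subgroup.orderOf_coe]
  exact H58AltSpec.orderOf_eq hσ

/-- Adjacency of 2 and an odd prime in the prime graph of the alternating groups: let r be an odd prime at most n, with n ≥ 4. The alternating group of degree n has an element of order 2r if and only if r + 4 ≤ n. -/
theorem result (n r : ℕ) (hn : 4 ≤ n) (hr : r.Prime) (hr2 : r ≠ 2) (hrn : r ≤ n) :
    (2 * r ∈ Set.range (orderOf : alternatingGroup (Fin n) → ℕ)) ↔ r + 4 ≤ n := by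
  have hr3 : 3 ≤ r := by
    have := hr.two_le
    omega
  constructor
  · rintro ⟨σ, hσ⟩
    have h : orderOf (σ : Equiv.Perm (Fin n)) = 2 * r := by rw [Subgroup.orderOf_coe]; exact hσ
    have hal := σ.2
    generalize (σ : Equiv.Perm (Fin n)) = g at h hal
    have hsum : g.cycleType.sum ≤ n := by
      rw [Equiv.Perm.sum_cycleType]
      exact (Finset.card_le_univ _).trans (by simp)
    have hlcm : g.cycleType.lcm = 2 * r := by rw [lcm_cycleType, h]
    have hmem : ∀ x ∈ g.cycleType, x = 2 ∨ x = r ∨ x = 2 * r := by
      intro x hx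
      have h1 : x ∣ 2 * r := by rw [← hlcm]; exact Multiset.dvd_lcm hx
      have h2 := two_le_of_mem_cycleType hx
      rcases (Nat.dvd_mul.1 h1) with ⟨a, b, ha, hb, rfl⟩
      rcases (Nat.dvd_prime Nat.prime_two).1 ha with rfl | rfl
      · rcases (Nat.dvd_prime hr).1 hb with rfl | rfl
        · omega
        · right; left; ring
      · rcases (Nat.dvd_prime hr).1 hb with rfl | rfl
        · left; ring
        · right; right; ring
    have hsub : g.cycleType.toFinset ⊆ ({2, r, 2 * r} : Finset ℕ) := by
      intro x hx
      rw [Multiset.mem_toFinset] at hx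
      simp only [Finset.mem_insert, Finset.mem_singleton]
      exact hmem x hx
    have n2r : (2 : ℕ) ∉ ({r, 2 * r} : Finset ℕ) := by
      simp only [Finset.mem_insert, Finset.mem_singleton]; omega
    have nr : r ∉ ({2 * r} : Finset ℕ) := by
      simp only [Finset.mem_singleton]; omega
    have hs : g.cycleType.sum = g.cycleType.count 2 * 2 + (g.cycleType.count r * r + g.cycleType.count (2 * r) * (2 * r)) := by
      rw [Finset.sum_multiset_count, Finset.sum_subset hsub, Finset.sum_insert n2r, Finset.sum_insert nr, Finset.sum_singleton]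
      · simp only [smul_eq_mul]
      · intro x _ hx
        rw [Multiset.mem_toFinset] at hx
        rw [Multiset.count_eq_zero_of_notMem hx, zero_smul]
    have hc : g.cycleType.card = g.cycleType.count 2 + (g.cycleType.count r + g.cycleType.count (2 * r)) := by
      rw [← Multiset.toFinset_sum_count_eq, Finset.sum_subset hsub, Finset.sum_insert n2r, Finset.sum_insert nr, Finset.sum_singleton]
      intro x _ hx
      rw [Multiset.mem_toFinset] at hx
      rw [Multiset.count_eq_zero_of_notMem hx]
    have heven : Even (g.cycleType.sum + g.cycleType.card) := by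
      rw [Equiv.Perm.mem_alternatingGroup, sign_of_cycleType] at hal
      by_contra h2
      rw [Nat.not_even_iff_odd] at h2
      rw [h2.neg_one_pow] at hal
      exact absurd hal (by decide)
    obtain ⟨x, hx, hx2⟩ := AltSpectrum.prime_dvd_lcm Nat.prime_two g.cycleType (by rw [hlcm]; exact dvd_mul_right _ _)
    obtain ⟨y, hy, hyr⟩ := AltSpectrum.prime_dvd_lcm hr g.cycleType (by rw [hlcm]; exact dvd_mul_left _ _)
    have hrodd := hr.odd_of_ne_two hr2
    have hac : 1 ≤ g.cycleType.count 2 + g.cycleType.count (2 * r) := by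
      rcases hmem x hx with rfl | rfl | rfl
      · have := Multiset.count_pos.2 hx; omega
      · exfalso
        obtain ⟨k, hk⟩ := hrodd
        omega
      · have := Multiset.count_pos.2 hx; omega
    have hbc : 1 ≤ g.cycleType.count r + g.cycleType.count (2 * r) := by
      rcases hmem y hy with rfl | rfl | rfl
      · exfalso
        have := Nat.le_of_dvd two_pos hyr
        omega
      · have := Multiset.count_pos.2 hy; omega
      · have := Multiset.count_pos.2 hy; omega
    generalize g.cycleType.count 2 = a at *
    generalize g.cycleType.count r = b at *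
    generalize g.cycleType.count (2 * r) = c at *
    rw [hs, hc] at heven
    obtain ⟨k, hk⟩ := hrodd
    have hpar : Even (a + c) := by
      have e : a * 2 + (b * r + c * (2 * r)) + (a + (b + c)) = (a + c) + 2 * (a + b * (k + 1) + c * r) := by
        rw [hk]; ring
      rw [e] at heven
      have h3 : Even (2 * (a + b * (k + 1) + c * r)) := even_two_mul _
      exact (Nat.even_add.1 heven).2 h3
    have hac2 : 2 ≤ a + c := by
      obtain ⟨j, hj⟩ := hpar
      omega
    rw [hs] at hsum
    rcases Nat.eq_zero_or_pos c with hc0 | hc0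
    · subst hc0
      have hb : 1 ≤ b := by omega
      have : r ≤ b * r := Nat.le_mul_of_pos_left r hb
      omega
    · have h4 : 2 * r ≤ c * (2 * r) := Nat.le_mul_of_pos_left _ hc0
      rcases Nat.eq_zero_or_pos a with ha0 | ha0
      · have hc2 : 2 ≤ c := by omega
        have h5 : 2 * (2 * r) ≤ c * (2 * r) := Nat.mul_le_mul_right _ hc2
        omega
      · omega
  · intro h
    have h1 := exists_alt (n := n) [r, 2, 2] (by simp [hr.two_le]) (by simp; omega) (by
      have e1 := hr.odd_of_ne_two hr2
      simp only [List.sum_cons, List.sum_nil, List.length_cons, List.length_nil, add_zero, zero_add]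
      obtain ⟨k, hk⟩ := e1
      exact ⟨k + 4, by omega⟩)
    have h2 : ([r, 2, 2].foldr Nat.lcm 1) = 2 * r := by
      simp only [List.foldr_cons, List.foldr_nil, Nat.lcm_one_right, Nat.lcm_self]
      rw [Nat.Coprime.lcm_eq_mul ((Nat.coprime_primes hr Nat.prime_two).2 hr2), mul_comm]
    rwa [h2] at h1

end Cfsg.Agent.S2467
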