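import Cfsg.Statements.S2471
import Cfsg.Agent.Lib.PSL2Orders

set_option autoImplicit false
open Cfsg

namespace Cfsg.Agent.S2471

/-- In PSL(2,q) with q odd, the characteristic p is isolated from 2 in the prime graph: for F a finite field of odd characteristic p with at least 5 elements, PSL(2,F) has no element of order 2p. -/
theorem result {F : Type*} [Field F] [Fintype F] (p : ℕ) [Fact p.Prime] [CharP F p] (hp : p ≠ 2) (h5 : 5 ≤ Fintype.card F) (g : Matrix.ProjectiveSpecialLinearGroup (Fin 2) F) :
    orderOf g ≠ 2 * p := by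
  intro ho
  have hpr : p.Prime := Fact.out
  have hpq : p ∣ Fintype.card F := by
    have h1 : ((Fintype.card F : ℕ) : F) = 0 := Nat.cast_card_eq_zero F
    exact (CharP.cast_eq_zero_iff F p _).1 h1
  have hq : 1 < Fintype.card F := Fintype.one_lt_card
  have hcontra : ∀ k d, d ∣ k → orderOf g ∣ k / d → p ∣ k := by
    intro k d hd h
    rw [ho] at h
    exact ((Dvd.intro_left 2 rfl).trans h).trans (Nat.div_dvd_of_dvd hd)
  rcases Cfsg.Agent.Lib.PSL2Orders.pow_cases (p := p) g with h | h | h
  · have := orderOf_dvd_of_pow_eq_one h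
    rw [ho] at this
    have := Nat.le_of_dvd hpr.pos this
    have := hpr.pos
    omega
  · have h1 := hcontra _ _ (Nat.gcd_dvd_right 2 _) (orderOf_dvd_of_pow_eq_one h)
    have h2 := (Nat.dvd_sub hpq h1)
    have h3 : Fintype.card F - (Fintype.card F - 1) = 1 := by omega
    rw [h3] at h2
    exact hpr.one_lt.ne' (Nat.dvd_one.1 h2)
  · have h1 := hcontra (Fintype.card F + 1) _ (by
      rw [← Cfsg.Agent.Lib.PSL2Orders.gcd_add_one _ hq.le]
      exact Nat.gcd_dvd_right 2 _) (orderOf_dvd_of_pow_eq_one h)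
    have h2 := (Nat.dvd_add_right hpq).1 h1
    exact hpr.one_lt.ne' (Nat.dvd_one.1 h2)

end Cfsg.Agent.S2471
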