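import Cfsg.Statements.S2478
import Cfsg.Agent.Lib.GLCount

set_option autoImplicit false
open Cfsg

namespace Cfsg.Agent.S2478

open Cfsg.Agent.Lib.GLCount

/-- The number of conjugacy classes of GL(n,q): for F a finite field with q elements and n ≥ 1, the number k of conjugacy classes of GL(n,F) satisfies q^n − q^(n−1) ≤ k ≤ q^n. -/
theorem result {F : Type*} [Field F] [Fintype F] (n : ℕ) (hn : 1 ≤ n) :
    Fintype.card F ^ n - Fintype.card F ^ (n - 1) ≤ Nat.card (ConjClasses (Matrix.GeneralLinearGroup (Fin n) F)) ∧ Nat.card (ConjClasses (Matrix.GeneralLinearGroup (Fin n) F)) ≤ Fintype.card F ^ n := by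
  classical
  have hq : Fintype.card F = Nat.card F := by rw [Nat.card_eq_fintype_card]
  rw [hq, card_GL]
  constructor
  · have h1 : Nat.card (TA F {1} n) ≤ Nat.card (TA F Set.univ n) := by
      have := (finite_TA (F := F) Set.univ n).to_subtype
      exact Nat.card_mono (finite_TA (F := F) Set.univ n) (TA_mono (Set.subset_univ _) n)
    refine le_trans (le_of_eq ?_) h1
    rw [card_TA_one]
    obtain ⟨m, rfl⟩ : ∃ m, n = m + 1 := ⟨n - 1, by omega⟩
    rw [card_PS_succ, Nat.add_sub_cancel, pow_succ', Nat.sub_one_mul]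
  · exact (card_TA_univ_lt hn).le

end Cfsg.Agent.S2478
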