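import Cfsg.Statements.S2482
import Cfsg.Agent.Lib.IsoSpSp
-- import your own Cfsg.Agent.* helpers here

set_option autoImplicit false
open Cfsg

namespace Cfsg.Agent.S2482

/-- The number of conjugacy classes of Sp(2n,q), q odd: for F a finite field of odd order q and n ≥ 1, the number k of conjugacy classes of Sp(2n,F) satisfies q^n ≤ k ≤ 10.8·q^n. -/
theorem result {F : Type*} [Field F] [Fintype F] (hodd : Odd (Fintype.card F)) (n : ℕ) (hn : 1 ≤ n) :
    Fintype.card F ^ n ≤ Nat.card (ConjClasses (Matrix.symplecticGroup (Fin n) F)) ∧ 5 * Nat.card (ConjClasses (Matrix.symplecticGroup (Fin n) F)) ≤ 54 * Fintype.card F ^ n := by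
  rw [← Nat.card_eq_fintype_card] at hodd ⊢
  refine ⟨Lib.IsoSp.sp_lower n, ?_⟩
  have hcard1 : 1 < Nat.card F := Finite.one_lt_card
  have h3 : 3 ≤ Nat.card F := by
    obtain ⟨a, ha⟩ := hodd
    omega
  have h2 : (2 : F) ≠ 0 := by
    intro h
    haveI : CharP F 2 := by
      have h4 : ringChar F = 2 := by
        have h5 : ringChar F ∣ 2 := (ringChar.spec F 2).1 (by exact_mod_cast h)
        have h6 : ringChar F ≠ 1 := CharP.ringChar_ne_one
        exact ((Nat.dvd_prime Nat.prime_two).1 h5).resolve_left h6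
      exact ringChar.of_eq h4
    obtain ⟨k, hp, hk⟩ := FiniteField.card F 2
    rw [Nat.card_eq_fintype_card, hk] at hodd
    exact (Nat.not_odd_iff_even.2 ((even_two).pow_of_ne_zero k.ne_zero)) hodd
  exact Lib.IsoSp.sp_upper h2 h3 hn

end Cfsg.Agent.S2482
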