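import Cfsg.Statements.S2487
import Cfsg.Agent.Lib.QuadF2Syl3
import Cfsg.Agent.Lib.QuadBridge
import Cfsg.Agent.Lib.IsomTransport

set_option autoImplicit false
open scoped Pointwise
open Cfsg

namespace Cfsg.Agent.S2487

open Cfsg.Agent.Lib Cfsg.Agent.Lib.QuadF2 Cfsg.Agent.Lib.Quad

theorem main {m : ℕ} (hm : 1 ≤ m)
    (H : Sylow 2 (Cfsg.isometryGroup (ZMod 2) (Cfsg.quadFormPlus m (ZMod 2))))
    (x : Cfsg.isometryGroup (ZMod 2) (Cfsg.quadFormPlus m (ZMod 2))) :
    (H : Subgroup (Cfsg.isometryGroup (ZMod 2) (Cfsg.quadFormPlus m (ZMod 2)))) ⊓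
      MulAut.conj x • (H : Subgroup _) ≠ ⊥ := by
  refine QuadF2Syl.sylow_meet
    ((toLE (ι := Fin m ⊕ Fin m) (F := ZMod 2)).toMonoidHom.comp
      (Cfsg.isometryGroup (ZMod 2) (Cfsg.quadFormPlus m (ZMod 2))).subtype) ?_ ?_ ?_
    (isQ_plus m) (fPlus_nondeg m) (m := m) (by simp [two_mul]) (S_plus m) hm H x
  · intro a b hab
    exact Subtype.ext (toLE.injective hab)
  · intro g v
    exact mem_isometryGroup.mp g.2 v
  · intro k hk
    refine ⟨⟨toLE.symm k, mem_isometryGroup.mpr fun v => ?_⟩, toLE.apply_symm_apply k⟩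
    rw [← toLE_apply, MulEquiv.apply_symm_apply]
    exact hk v

theorem map_conj_smul {G K : Type*} [Group G] [Group K] (e : G ≃* K) (x : G) (H : Subgroup G) :
    (MulAut.conj x • H).map e.toMonoidHom = MulAut.conj (e x) • H.map e.toMonoidHom := by
  ext k
  constructor
  · rintro ⟨g, hg, rfl⟩
    obtain ⟨y, hy, rfl⟩ := hg
    refine ⟨e y, ⟨y, hy, rfl⟩, ?_⟩
    show MulAut.conj (e x) (e y) = e (MulAut.conj x y)
    simp
  · rintro ⟨_, ⟨y, hy, rfl⟩, rfl⟩
    refine ⟨MulAut.conj x y, ⟨y, hy, rfl⟩, ?_⟩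
    show e (MulAut.conj x y) = MulAut.conj (e x) (e y)
    simp

/-- Let m ≥ 4 and let G be the full isometry group of the hyperbolic quadratic form x₁y₁ + ⋯ + x_m y_m on the 2m-dimensional space over the field with 2 elements (the orthogonal group O⁺(2m,2), which contains Ω⁺(2m,2) with index 2). Then any two Sylow 2-subgroups of G have a non-trivial intersection: for a Sylow 2-subgroup H and every x ∈ G, H ∩ H^x ≠ 1. -/
theorem result {F : Type*} [Field F] [Fintype F] (hF : Fintype.card F = 2) {m : ℕ} (hm : 4 ≤ m)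
    (H : Sylow 2 (Cfsg.isometryGroup F (Cfsg.quadFormPlus m F)))
    (x : Cfsg.isometryGroup F (Cfsg.quadFormPlus m F)) :
    (H : Subgroup (Cfsg.isometryGroup F (Cfsg.quadFormPlus m F))) ⊓ MulAut.conj x • (H : Subgroup _) ≠ ⊥ := by
  obtain ⟨σ⟩ := IsomTransport.exists_ringEquiv_two hF
  let e := (IsomTransport.isometryEquiv σ (quadFormPlus m (ZMod 2)) (quadFormPlus m F)
    (IsomTransport.quadFormPlus_map σ m)).symm
  intro hbot
  have hs : Function.Surjective e.toMonoidHom := e.surjective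
  have h1 := main (by omega : 1 ≤ m) (H.mapSurjective hs) (e x)
  apply h1
  have h2 : ((H.mapSurjective hs : Sylow 2 _) : Subgroup _) =
      (H : Subgroup (Cfsg.isometryGroup F (Cfsg.quadFormPlus m F))).map e.toMonoidHom := rfl
  rw [h2, ← map_conj_smul, ← Subgroup.map_inf _ _ _ e.injective, hbot, Subgroup.map_bot]

end Cfsg.Agent.S2487
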