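import Cfsg.Statements.S2488
import Cfsg.Agent.Lib.AutA6Comp
import Cfsg.Agent.Lib.OrdDisc2

set_option autoImplicit false
open scoped Pointwise
open Cfsg

namespace Cfsg.Agent.S2488

open Cfsg.Agent.Lib.AutA6

/-- Let G be a finite group with a normal subgroup N of index 4 isomorphic to the alternating group of degree 6 and with trivial centralizer in G (so G is the full automorphism group of A₆). Then any two Sylow 2-subgroups of G have a non-trivial intersection: for a Sylow 2-subgroup H and every x ∈ G, H ∩ H^x ≠ 1. -/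
theorem result {G : Type*} [Group G] [Finite G] (N : Subgroup G) [N.Normal]
    (e : N ≃* alternatingGroup (Fin 6)) (hidx : N.index = 4)
    (hC : Subgroup.centralizer (N : Set G) = ⊥)
    (H : Sylow 2 G) (x : G) :
    (H : Subgroup G) ⊓ MulAut.conj x • (H : Subgroup G) ≠ ⊥ := by
  classical
  intro hbot
  have hf2 : Fact (Nat.Prime 2) := ⟨Nat.prime_two⟩
  have hNcard : Nat.card N = 360 := by
    have h1 : 2 * Nat.card (alternatingGroup (Fin 6)) = Nat.card (Equiv.Perm (Fin 6)) :=
      two_mul_nat_card_alternatingGroup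
    rw [Nat.card_congr e.toEquiv]
    rw [Nat.card_eq_fintype_card (α := Equiv.Perm (Fin 6)), Fintype.card_perm, Fintype.card_fin] at h1
    have : Nat.factorial 6 = 720 := by decide
    omega
  have hGcard : Nat.card G = 1440 := by
    rw [← Subgroup.card_mul_index N, hNcard, hidx]
  have hHcard : Nat.card (H : Subgroup G) = 32 := by
    have h1 : 2 ^ 5 ∣ Nat.card (H : Subgroup G) := H.pow_dvd_card_of_pow_dvd_card (by rw [hGcard]; norm_num)
    obtain ⟨k, hk⟩ := IsPGroup.iff_card.mp H.isPGroup'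
    have h2 : Nat.card (H : Subgroup G) ∣ 1440 := hGcard ▸ Subgroup.card_subgroup_dvd_card _
    rw [hk] at h1 h2 ⊢
    have h3 : 5 ≤ k := (Nat.pow_dvd_pow_iff_le_right (by norm_num)).mp h1
    have h4 : k < 6 := by
      by_contra hcon
      push Not at hcon
      have : 2 ^ 6 ∣ 1440 := (pow_dvd_pow 2 hcon).trans h2
      revert this; decide
    have : k = 5 := by omega
    rw [this]; norm_num
  -- a central involution of `H` inside `N`
  obtain ⟨t, htN, htH, ht1, ht2, htc⟩ : ∃ t : G, t ∈ N ∧ t ∈ (H : Subgroup G) ∧ t ≠ 1 ∧ t * t = 1 ∧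
      ∀ h ∈ (H : Subgroup G), h * t = t * h := by
    have h1 : N.relIndex (H : Subgroup G) ∣ N.index := Subgroup.relIndex_dvd_index_of_normal N _
    have h2 := Subgroup.card_mul_index (N.subgroupOf (H : Subgroup G))
    have h2' : Nat.card (N.subgroupOf (H : Subgroup G)) * N.relIndex (H : Subgroup G) = 32 := h2.trans hHcard
    rw [hidx] at h1
    have h3 : Nat.card (N.subgroupOf (H : Subgroup G)) = Nat.card ((H : Subgroup G) ⊓ N : Subgroup G) := by
      have h9 : (N.subgroupOf (H : Subgroup G)).map (H : Subgroup G).subtype = (H : Subgroup G) ⊓ N := by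
        rw [Subgroup.subgroupOf_map_subtype, inf_comm]
      rw [← h9, Subgroup.card_map_of_injective (Subgroup.subtype_injective _)]
    have h4 := Cfsg.Agent.Lib.OrdDisc.card_fixed_modEq (H : Subgroup G) ((H : Subgroup G) ⊓ N) H.isPGroup'
      (fun r hr y hy => ⟨(H : Subgroup G).mul_mem ((H : Subgroup G).mul_mem hr hy.1) ((H : Subgroup G).inv_mem hr),
        (inferInstance : N.Normal).conj_mem y hy.2 r⟩)
    have h5 : 2 ∣ Nat.card ((H : Subgroup G) ⊓ N : Subgroup G) := by
      rw [← h3]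
      have h6 : N.relIndex (H : Subgroup G) ≤ 4 := Nat.le_of_dvd (by norm_num) h1
      generalize N.relIndex (H : Subgroup G) = r at *
      interval_cases r <;> revert h1 <;> first | decide | (intro _; omega)
    have h6 : 2 ∣ Nat.card (((H : Subgroup G) ⊓ N) ⊓ Subgroup.centralizer ((H : Subgroup G) : Set G) : Subgroup G) :=
      (Nat.modEq_zero_iff_dvd.mp (h4.symm.trans (Nat.modEq_zero_iff_dvd.mpr h5)))
    obtain ⟨t, ht⟩ := exists_prime_orderOf_dvd_card' 2 h6
    have ht' : orderOf (t : G) = 2 := by rw [Subgroup.orderOf_coe, ht]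
    refine ⟨t, t.2.1.2, t.2.1.1, ?_, ?_, ?_⟩
    · intro h
      rw [h, orderOf_one] at ht'
      exact absurd ht' (by norm_num)
    · have := pow_orderOf_eq_one (t : G)
      rw [ht', pow_two] at this
      exact this
    · intro h hh
      exact (Subgroup.mem_centralizer_iff.mp t.2.2) h hh
  -- transport to permutations
  obtain ⟨π, hπ⟩ := conj_tau (e ⟨t, htN⟩ : Equiv.Perm (Fin 6)) (by
      have h1 : (⟨t, htN⟩ : N) * ⟨t, htN⟩ = 1 := Subtype.ext ht2
      have h2 : e (⟨t, htN⟩ * ⟨t, htN⟩) = 1 := by rw [h1, map_one]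
      rw [map_mul] at h2
      exact congrArg Subtype.val h2) (Equiv.Perm.mem_alternatingGroup.mp (e ⟨t, htN⟩).2) (by
      intro h
      apply ht1
      have h1 : e ⟨t, htN⟩ = 1 := Subtype.ext h
      have h2 : (⟨t, htN⟩ : N) = 1 := e.injective (by rw [h1, map_one])
      exact congrArg Subtype.val h2)
  let Φ : N →* Equiv.Perm (Fin 6) :=
    ((MulAut.conj π).toMonoidHom.comp (alternatingGroup (Fin 6)).subtype).comp e.toMonoidHom
  have hΦ : ∀ n, Φ n = π * (e n : Equiv.Perm (Fin 6)) * π⁻¹ := fun n => rfl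
  have hΦinj : Function.Injective Φ := by
    intro a b hab
    rw [hΦ, hΦ] at hab
    have h1 : (e a : Equiv.Perm (Fin 6)) = e b := by simpa using hab
    exact e.injective (Subtype.ext h1)
  have hΦt : Φ ⟨t, htN⟩ = τ₀ := by rw [hΦ, hπ, mul_inv_cancel_right]
  have hΦsign : ∀ n, Equiv.Perm.sign (Φ n) = 1 := by
    intro n
    rw [hΦ]
    have := Equiv.Perm.mem_alternatingGroup.mp (e n).2
    simp [this]
  -- the centralizer of `t`
  set C : Subgroup G := Subgroup.centralizer {t} with hCdef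
  have hCmem : ∀ g, g ∈ C ↔ t * g = g * t := fun g => by
    rw [hCdef, Subgroup.mem_centralizer_iff]
    simp
  have hCN : Nat.card (N.subgroupOf C) ≤ 8 := by
    rw [← centralizer_card, ← Fintype.card_subtype, ← Nat.card_eq_fintype_card]
    apply Nat.card_le_card_of_injective (fun c : N.subgroupOf C =>
      (⟨Φ ⟨c.1.1, c.2⟩, by
        constructor
        · rw [← hΦt, ← map_mul, ← map_mul]
          congr 1
          exact Subtype.ext ((hCmem _).mp c.1.2).symm
        · exact hΦsign _⟩ : {σ : Equiv.Perm (Fin 6) // σ * τ₀ = τ₀ * σ ∧ Equiv.Perm.sign σ = 1}))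
    intro a b hab
    have h1 := hΦinj (congrArg Subtype.val hab)
    apply Subtype.ext
    apply Subtype.ext
    exact congrArg (fun n : N => (n : G)) h1
  have hCcard : Nat.card C ≤ 32 := by
    have h1 : N.relIndex C ∣ N.index := Subgroup.relIndex_dvd_index_of_normal N _
    have h2 := Subgroup.card_mul_index (N.subgroupOf C)
    have h2' : Nat.card (N.subgroupOf C) * N.relIndex C = Nat.card C := h2
    rw [hidx] at h1
    have h3 : N.relIndex C ≤ 4 := Nat.le_of_dvd (by norm_num) h1
    calc Nat.card C = Nat.card (N.subgroupOf C) * N.relIndex C := h2'.symm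
      _ ≤ 8 * 4 := Nat.mul_le_mul hCN h3
      _ = 32 := by norm_num
  have hHC : (H : Subgroup G) = C := by
    apply Subgroup.eq_of_le_of_card_ge
    · intro h hh
      rw [hCmem]
      exact (htc h hh).symm
    · rw [hHcard]; exact hCcard
  -- the conjugate
  set s : G := x * t * x⁻¹ with hs
  have hsN : s ∈ N := (inferInstance : N.Normal).conj_mem t htN x
  have hs2 : s * s = 1 := by
    rw [hs]
    calc x * t * x⁻¹ * (x * t * x⁻¹) = x * (t * t) * x⁻¹ := by group
      _ = 1 := by rw [ht2]; group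
  have hs1 : s ≠ 1 := by
    intro h
    apply ht1
    rw [hs] at h
    have : t = x⁻¹ * (x * t * x⁻¹) * x := by group
    rw [this, h]; group
  have hinter : ∀ g ∈ (H : Subgroup G), g * s = s * g → g = 1 := by
    intro g hg hgs
    have h1 : g ∈ (H : Subgroup G) ⊓ MulAut.conj x • (H : Subgroup G) := by
      refine ⟨hg, ?_⟩
      have h2 : g ∈ MulAut.conj x • (H : Subgroup G) := by
        rw [Subgroup.mem_pointwise_smul_iff_inv_smul_mem]
        rw [hHC, hCmem]
        have e1 : (MulAut.conj x)⁻¹ • g = x⁻¹ * g * x := by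
          rw [← map_inv, MulAut.smul_def, MulAut.conj_apply, inv_inv]
        rw [e1]
        have h3 : x⁻¹ * (g * s) * x = x⁻¹ * (s * g) * x := by rw [hgs]
        rw [hs] at h3
        calc t * (x⁻¹ * g * x) = x⁻¹ * (x * t * x⁻¹ * g) * x := by group
          _ = x⁻¹ * (g * (x * t * x⁻¹)) * x := h3.symm
          _ = x⁻¹ * g * x * t := by group
      exact h2
    rw [hbot] at h1
    exact (Subgroup.mem_bot).mp h1
  have hle := pair_card (decide ((τ₀ * Φ ⟨s, hsN⟩) ^ 3 = 1)) (decide ((τ₀ * Φ ⟨s, hsN⟩) ^ 5 = 1))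
  rw [← Fintype.card_subtype, ← Nat.card_eq_fintype_card] at hle
  have hconjN : ∀ h : G, h * s * h⁻¹ ∈ N := fun h => (inferInstance : N.Normal).conj_mem s hsN h
  have hpow : ∀ h ∈ (H : Subgroup G), ∀ k : ℕ, (τ₀ * Φ ⟨h * s * h⁻¹, hconjN h⟩) ^ k = 1 ↔ (τ₀ * Φ ⟨s, hsN⟩) ^ k = 1 := by
    intro h hh k
    rw [← hΦt, ← map_mul, ← map_mul, ← map_pow, ← map_pow]
    have hinj1 : ∀ n : N, Φ n = 1 ↔ (n : G) = 1 := by
      intro n
      constructor
      · intro h1
        have h2 : Φ n = Φ 1 := by rw [h1, map_one]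
        exact congrArg Subtype.val (hΦinj h2)
      · intro h1
        have : n = 1 := Subtype.ext h1
        rw [this, map_one]
    rw [hinj1, hinj1]
    show (t * (h * s * h⁻¹)) ^ k = 1 ↔ (t * s) ^ k = 1
    have e1 : t * (h * s * h⁻¹) = h * (t * s) * h⁻¹ := by
      have := htc h hh
      calc t * (h * s * h⁻¹) = (t * h) * s * h⁻¹ := by group
        _ = (h * t) * s * h⁻¹ := by rw [this]
        _ = _ := by group
    rw [e1, conj_pow]
    constructor
    · intro h1
      have : (t * s) ^ k = h⁻¹ * (h * (t * s) ^ k * h⁻¹) * h := by group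
      rw [this, h1]; group
    · intro h1
      rw [h1]; group
  have hge : Nat.card (H : Subgroup G) ≤ _ := Nat.card_le_card_of_injective (fun h : (H : Subgroup G) =>
    (⟨Φ ⟨h.1 * s * h.1⁻¹, hconjN h.1⟩, by
      refine ⟨?_, hΦsign _, ?_, ?_, ?_⟩
      · rw [← map_mul, ← map_one Φ]
        congr 1
        apply Subtype.ext
        show h.1 * s * h.1⁻¹ * (h.1 * s * h.1⁻¹) = 1
        calc h.1 * s * h.1⁻¹ * (h.1 * s * h.1⁻¹) = h.1 * (s * s) * h.1⁻¹ := by group
          _ = 1 := by rw [hs2]; group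
      · intro h1
        rw [← map_one Φ] at h1
        have h2 : h.1 * s * h.1⁻¹ = 1 := congrArg Subtype.val (hΦinj h1)
        apply hs1
        have : s = h.1⁻¹ * (h.1 * s * h.1⁻¹) * h.1 := by group
        rw [this, h2]; group
      · exact decide_eq_decide.mpr (hpow h.1 h.2 3)
      · exact decide_eq_decide.mpr (hpow h.1 h.2 5)⟩ :
      {σ : Equiv.Perm (Fin 6) // σ * σ = 1 ∧ Equiv.Perm.sign σ = 1 ∧ σ ≠ 1 ∧
        decide ((τ₀ * σ) ^ 3 = 1) = decide ((τ₀ * Φ ⟨s, hsN⟩) ^ 3 = 1) ∧
        decide ((τ₀ * σ) ^ 5 = 1) = decide ((τ₀ * Φ ⟨s, hsN⟩) ^ 5 = 1)})) (by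
    intro a b hab
    have h1 := hΦinj (congrArg Subtype.val hab)
    have h2 : a.1 * s * a.1⁻¹ = b.1 * s * b.1⁻¹ := congrArg Subtype.val h1
    have h3 : (b.1⁻¹ * a.1) * s = s * (b.1⁻¹ * a.1) := by
      calc (b.1⁻¹ * a.1) * s = b.1⁻¹ * (a.1 * s * a.1⁻¹) * a.1 := by group
        _ = b.1⁻¹ * (b.1 * s * b.1⁻¹) * a.1 := by rw [h2]
        _ = _ := by group
    have h4 := hinter _ ((H : Subgroup G).mul_mem ((H : Subgroup G).inv_mem b.2) a.2) h3
    apply Subtype.ext
    exact (inv_mul_eq_one.mp h4).symm)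
  rw [hHcard] at hge
  have := hge.trans hle
  omega

end Cfsg.Agent.S2488
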