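import Cfsg.Statements.S2490
import Cfsg.Agent.Lib.OrdDisc7

set_option autoImplicit false
open scoped Pointwise
open Cfsg

namespace Cfsg.Agent.S2490

/-- Let G be a finite group of order 7920 = 2⁴·3²·5·11 (the order of the smallest Mathieu group) and suppose its prime graph (vertices the prime divisors of the order, distinct p, q joined when there is an element of order pq) is disconnected: the prime divisors split into two non-empty parts with no element of order pq for p in one part and q in the other. Then G is simple. -/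
theorem result {G : Type*} [Group G] [Finite G] (hord : Nat.card G = 7920)
    (hdisc : (∃ A : Set ℕ, (∃ a ∈ A, a.Prime ∧ a ∣ Nat.card G) ∧ (∃ b ∉ A, b.Prime ∧ b ∣ Nat.card G) ∧
      ∀ a ∈ A, ∀ b ∉ A, a.Prime → b.Prime → a ∣ Nat.card G → b ∣ Nat.card G → ¬ ∃ g : G, orderOf g = a * b)) :
    IsSimpleGroup G := by
  apply Cfsg.Agent.Lib.OrdDisc.simple_of_disc hord
  obtain ⟨A, ⟨a, haA, hap, hac⟩, ⟨b, hbA, hbp, hbc⟩, hA⟩ := hdisc
  have key : ∀ p q : ℕ, p.Prime → q.Prime → p ∣ 7920 → q ∣ 7920 → Cfsg.Agent.Lib.OrdDisc.Ed G p q →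
      (p ∈ A ↔ q ∈ A) := by
    intro p q hp hq hp1 hq1 he
    rw [← hord] at hp1 hq1
    constructor
    · intro h
      by_contra hcon
      exact hA p h q hcon hp hq hp1 hq1 he
    · intro h
      by_contra hcon
      exact hA q h p hcon hq hp hq1 hp1 he.symm
  refine ⟨2 ∈ A, 3 ∈ A, 5 ∈ A, 11 ∈ A, key 2 3 (by norm_num) (by norm_num) (by norm_num) (by norm_num),
    key 2 5 (by norm_num) (by norm_num) (by norm_num) (by norm_num),
    key 2 11 (by norm_num) (by norm_num) (by norm_num) (by norm_num),
    key 3 5 (by norm_num) (by norm_num) (by norm_num) (by norm_num),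
    key 3 11 (by norm_num) (by norm_num) (by norm_num) (by norm_num),
    key 5 11 (by norm_num) (by norm_num) (by norm_num) (by norm_num), ?_⟩
  intro hall
  rw [hord] at hac hbc
  rcases Cfsg.Agent.Lib.OrdDisc.prime_cases hap hac with rfl | rfl | rfl | rfl <;>
  rcases Cfsg.Agent.Lib.OrdDisc.prime_cases hbp hbc with rfl | rfl | rfl | rfl <;> tauto

end Cfsg.Agent.S2490
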