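import Cfsg.Statements.S2493
import Cfsg.Agent.Lib.TwoAnC67
-- import your own Cfsg.Agent.* helpers here

set_option autoImplicit false
open Cfsg

namespace Cfsg.Agent.S2493

/-- Let n ≥ 5 and let G be a finite perfect group whose centre has order 2 with G/Z(G) isomorphic to the alternating group of degree n (the double cover of the alternating group). Then every element of G is a commutator. -/
theorem result {G : Type*} [Group G] [Finite G] (hperf : commutator G = ⊤) {n : ℕ} (hn : 5 ≤ n)
    (hZ : Nat.card (Subgroup.center G) = 2) (e : G ⧸ Subgroup.center G ≃* alternatingGroup (Fin n))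
    (g : G) :
    ∃ a b : G, a * b * a⁻¹ * b⁻¹ = g := by
  obtain ⟨m, rfl⟩ : ∃ m, n = m + 2 := ⟨n - 2, by omega⟩
  let π : G →* Equiv.Perm (Fin (m + 2)) :=
    (alternatingGroup (Fin (m + 2))).subtype.comp (e.toMonoidHom.comp (QuotientGroup.mk' (Subgroup.center G)))
  have hπ : ∀ x : G, π x = 1 ↔ x ∈ Subgroup.center G := by
    intro x
    show ((e (QuotientGroup.mk' (Subgroup.center G) x) : alternatingGroup (Fin (m + 2))) : Equiv.Perm (Fin (m + 2))) = 1 ↔ _
    rw [← QuotientGroup.eq_one_iff, ← OneMemClass.coe_one (alternatingGroup (Fin (m + 2))), Subtype.coe_inj,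
      map_eq_one_iff e e.injective]
    rfl
  obtain ⟨z, hzc, hz1, hz⟩ : ∃ z, z ∈ Subgroup.center G ∧ z ≠ 1 ∧ ∀ x ∈ Subgroup.center G, x = 1 ∨ x = z := by
    haveI : Finite (Subgroup.center G) := inferInstance
    obtain ⟨u, v, huv, huniv⟩ := Nat.card_eq_two_iff.1 hZ
    have hall : ∀ x : Subgroup.center G, x = u ∨ x = v := fun x => by
      have : x ∈ ({u, v} : Set (Subgroup.center G)) := by rw [huniv]; exact Set.mem_univ _
      exact this
    rcases hall 1 with h1 | h1
    · refine ⟨v, v.2, fun h => huv (by rw [← h1]; exact Subtype.ext h.symm), fun x hx => ?_⟩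
      rcases hall ⟨x, hx⟩ with h | h
      · left; rw [← h1] at h; exact congrArg Subtype.val h
      · right; exact congrArg Subtype.val h
    · refine ⟨u, u.2, fun h => huv (by rw [← h1]; exact Subtype.ext h), fun x hx => ?_⟩
      rcases hall ⟨x, hx⟩ with h | h
      · right; exact congrArg Subtype.val h
      · left; rw [← h1] at h; exact congrArg Subtype.val h
  have hC : Cfsg.Agent.Lib.TwoAn67.Cov π z := by
    refine ⟨hz1, ?_, fun x => ?_, fun x hx => hz x ((hπ x).1 hx), (hπ z).2 hzc, fun σ hσ => ?_, fun x => ?_, hperf⟩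
    · rcases hz (z * z) (mul_mem hzc hzc) with h | h
      · exact h
      · exact absurd (mul_eq_left.1 h) hz1
    · exact (Subgroup.mem_center_iff.1 hzc x).symm
    · obtain ⟨x, hx⟩ := QuotientGroup.mk'_surjective (Subgroup.center G) (e.symm ⟨σ, hσ⟩)
      refine ⟨x, ?_⟩
      show ((e (QuotientGroup.mk' (Subgroup.center G) x) : alternatingGroup (Fin (m + 2))) : Equiv.Perm (Fin (m + 2))) = σ
      rw [hx, e.apply_symm_apply]
    · exact (e (QuotientGroup.mk' (Subgroup.center G) x)).2
  exact hC.main hn g

end Cfsg.Agent.S2493
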