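import Cfsg.Statements.S2503
import Cfsg.Agent.Lib.PSLTypes

set_option autoImplicit false
open Cfsg

namespace Cfsg.Agent.S2503

open Module Cfsg.Agent.Lib.PSLTypes

/-- Let F be a finite field with q = 2^t ≥ 4 elements and L = PSL(2,F). Then L has a cyclic subgroup A of order q + 1 and an elementary abelian 2-subgroup B of order q such that L = ABA: every element of L is a product a·b·a' with a, a' ∈ A and b ∈ B. -/
theorem result {F : Type*} [Field F] [Fintype F]
    (h2 : 2 ∣ Fintype.card F) (h4 : 4 ≤ Fintype.card F) :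
    ∃ A B : Subgroup (Matrix.ProjectiveSpecialLinearGroup (Fin 2) F),
      IsCyclic A ∧ Nat.card A = Fintype.card F + 1 ∧ IsMulCommutative B ∧ (∀ b ∈ B, b * b = 1) ∧
        Nat.card B = Fintype.card F ∧
        ∀ g : Matrix.ProjectiveSpecialLinearGroup (Fin 2) F, ∃ a ∈ A, ∃ b ∈ B, ∃ c ∈ A, g = a * b * c := by
  classical
  have h2f : Fact (Nat.Prime 2) := ⟨Nat.prime_two⟩
  have hchar : CharP F 2 := by
    obtain ⟨p, hp⟩ := CharP.exists F
    obtain ⟨n, hpp, hn⟩ := FiniteField.card F p
    rw [hn] at h2
    have := (Nat.prime_dvd_prime_iff_eq Nat.prime_two hpp).mp (Nat.prime_two.dvd_of_dvd_pow h2)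
    rw [this]; exact hp
  have htwo : (2 : F) = 0 := by
    have := CharP.cast_eq_zero F 2
    exact_mod_cast this
  set q := Nat.card F with hq
  have hqF : Fintype.card F = q := by rw [hq, Nat.card_eq_fintype_card]
  have hq1 : 1 < q := Finite.one_lt_card
  obtain ⟨K, _, _, _, hK, z, hz, hzo, hw⟩ := exists_ext F 2 (by norm_num)
  let b : Basis (Fin 2) F K := (finBasis F K).reindex (finCongr hK)
  let π : Matrix.SpecialLinearGroup (Fin 2) F →* Matrix.ProjectiveSpecialLinearGroup (Fin 2) F := QuotientGroup.mk' _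
  have hπinj : Function.Injective π := by
    rw [injective_iff_map_eq_one]
    intro M hM
    have h1 : M ∈ Subgroup.center (Matrix.SpecialLinearGroup (Fin 2) F) := (QuotientGroup.eq_one_iff _).mp hM
    rw [Matrix.SpecialLinearGroup.mem_center_iff] at h1
    obtain ⟨c, hc1, hc⟩ := h1
    rw [Fintype.card_fin] at hc1
    have hc' : c = 1 := by
      have : (c - 1) ^ 2 = 0 := by
        have h3 : (c - 1) ^ 2 = c ^ 2 - 2 * c + 1 := by ring
        rw [h3, hc1, htwo, zero_mul, sub_zero, one_add_one_eq_two, htwo]
      exact sub_eq_zero.mp (pow_eq_zero_iff (by norm_num) |>.mp this)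
    apply Subtype.ext
    rw [← hc, hc', map_one]; rfl
  -- the torus
  let Nm : Kˣ →* Fˣ := Units.map (Algebra.norm F (S := K))
  let α : Nm.ker →* Matrix.SpecialLinearGroup (Fin 2) F :=
    { toFun := fun x => ⟨LinearMap.toMatrixAlgEquiv b (Algebra.lmul F K ((x : Kˣ) : K)), by
        have h1 : LinearMap.det (Algebra.lmul F K ((x : Kˣ) : K)) = 1 := by
          rw [← Algebra.norm_apply]
          exact congrArg Units.val (MonoidHom.mem_ker.mp x.2)
        rw [← h1]; exact LinearMap.det_toMatrix b _⟩
      map_one' := by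
        apply Subtype.ext
        show LinearMap.toMatrixAlgEquiv b (Algebra.lmul F K 1) = 1
        rw [map_one, map_one]
      map_mul' := fun x y => by
        apply Subtype.ext
        show LinearMap.toMatrixAlgEquiv b (Algebra.lmul F K (((x : Kˣ) : K) * ((y : Kˣ) : K))) = _ * _
        rw [map_mul, map_mul] }
  have hα : ∀ x, ((α x : Matrix.SpecialLinearGroup (Fin 2) F) : Matrix _ _ F) = LinearMap.toMatrixAlgEquiv b (Algebra.lmul F K ((x : Kˣ) : K)) := fun x => rfl
  have hαinj : Function.Injective α := by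
    intro x y hxy
    have h1 : LinearMap.toMatrixAlgEquiv b (Algebra.lmul F K ((x : Kˣ) : K)) = LinearMap.toMatrixAlgEquiv b (Algebra.lmul F K ((y : Kˣ) : K)) := by
      rw [← hα, ← hα, hxy]
    have h2 := LinearMap.congr_fun ((LinearMap.toMatrixAlgEquiv b).injective h1) 1
    simp at h2
    exact Subtype.ext (Units.ext h2)
  have hker : Nat.card Nm.ker = q + 1 := by
    have h1 := Subgroup.card_mul_index Nm.ker
    rw [Subgroup.index_ker, Nat.card_units, Module.natCard_eq_pow_finrank (K := F) (V := K), hK] at h1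
    have h2 : Nat.card Nm.range = q - 1 := by
      rw [MonoidHom.range_eq_top.mpr (FiniteField.unitsMap_norm_surjective F K), Subgroup.card_top, Nat.card_units]
    rw [h2, ← hq] at h1
    have h3 : q ^ 2 - 1 = (q + 1) * (q - 1) := by
      rw [show (1 : ℕ) = 1 ^ 2 by norm_num, Nat.sq_sub_sq]; norm_num
    rw [h3] at h1
    exact Nat.eq_of_mul_eq_mul_right (by omega) h1
  -- the unipotent group
  let β : Multiplicative F →* Matrix.SpecialLinearGroup (Fin 2) F :=
    { toFun := fun c => ⟨!![1, Multiplicative.toAdd c; 0, 1], by simp [Matrix.det_fin_two]⟩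
      map_one' := by
        apply Subtype.ext
        ext i j
        fin_cases i <;> fin_cases j <;> simp
      map_mul' := fun c d => by
        apply Subtype.ext
        show (!![1, Multiplicative.toAdd (c * d); 0, 1] : Matrix (Fin 2) (Fin 2) F) =
          !![1, Multiplicative.toAdd c; 0, 1] * !![1, Multiplicative.toAdd d; 0, 1]
        ext i j
        fin_cases i <;> fin_cases j <;> simp [add_comm] }
  have hβ : ∀ c, ((β c : Matrix.SpecialLinearGroup (Fin 2) F) : Matrix _ _ F) = !![1, Multiplicative.toAdd c; 0, 1] := fun c => rfl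
  have hβinj : Function.Injective β := by
    intro c d hcd
    have h1 := congrArg (fun M : Matrix.SpecialLinearGroup (Fin 2) F => (M : Matrix (Fin 2) (Fin 2) F) 0 1) hcd
    simp only [hβ] at h1
    simpa using h1
  -- norm form
  have hfrob : ∀ x y : K, (x + y) ^ q = x ^ q + y ^ q := by
    intro x y
    have hcK : CharP K 2 := charP_of_injective_algebraMap (algebraMap F K).injective 2
    obtain ⟨n, -, hn⟩ := FiniteField.card F 2
    rw [← hqF, hn]
    exact add_pow_char_pow ..
  have hsq : ∀ c : F, c ^ q = c := fun c => by rw [← hqF]; exact FiniteField.pow_card c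
  have hnormpow : ∀ x : K, algebraMap F K (Algebra.norm F x) = x * x ^ q := by
    intro x
    rw [FiniteField.algebraMap_norm_eq_pow, Module.natCard_eq_pow_finrank (K := F) (V := K), hK, ← hq]
    have h3 : q ^ 2 - 1 = (q - 1) * (q + 1) := by
      rw [show (1 : ℕ) = 1 ^ 2 by norm_num, Nat.sq_sub_sq]; norm_num; ring
    rw [h3, Nat.mul_div_cancel_left _ (by omega), pow_succ, mul_comm]
  set ν := Algebra.norm F (b 0) with hν
  set γ := Algebra.norm F (b 1) with hγ
  set δ := Algebra.norm F (b 0 + b 1) - ν - γ with hδ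
  have hN : ∀ s t : F, Algebra.norm F (s • b 0 + t • b 1) = ν * s ^ 2 + δ * s * t + γ * t ^ 2 := by
    intro s t
    apply (algebraMap F K).injective
    have h1 : algebraMap F K δ = b 0 * (b 1) ^ q + b 1 * (b 0) ^ q := by
      rw [hδ, map_sub, map_sub, hν, hγ, hnormpow, hnormpow, hnormpow, hfrob]; ring
    have h5 : ∀ (c : F) (x : K), (c • x) ^ q = c • x ^ q := by
      intro c x; rw [smul_pow, hsq]
    simp only [map_add, map_mul, map_pow]
    rw [h1, hν, hγ, hnormpow, hnormpow, hnormpow, hfrob, h5, h5]
    simp only [Algebra.smul_def]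
    ring
  have hν0 : ν ≠ 0 := Algebra.norm_ne_zero_iff.mpr (b.ne_zero 0)
  have hsqrt : ∀ c : F, ∃ s : F, s ^ 2 = c := by
    intro c
    obtain ⟨s, hs⟩ := (frobeniusEquiv F 2).surjective c
    exact ⟨s, by rw [← hs]; rfl⟩
  have hrange : (π.comp α).range = (α.range).map π := by rw [MonoidHom.range_comp]
  refine ⟨(π.comp α).range, (π.comp β).range, ?_, ?_, ?_, ?_, ?_, ?_⟩
  · exact isCyclic_of_surjective (π.comp α).rangeRestrict (π.comp α).rangeRestrict_surjective
  · rw [hqF, ← hker]
    exact (Nat.card_congr (MonoidHom.ofInjective (f := π.comp α) (hπinj.comp hαinj)).toEquiv).symm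
  · infer_instance
  · rintro _ ⟨c, rfl⟩
    rw [← map_mul]
    have : c * c = 1 := by
      show Multiplicative.toAdd c + Multiplicative.toAdd c = 0
      exact CharTwo.add_self_eq_zero _
    rw [this, map_one]
  · rw [hqF]
    rw [← Nat.card_congr (MonoidHom.ofInjective (f := π.comp β) (hπinj.comp hβinj)).toEquiv]
    rfl
  · intro g
    induction g using QuotientGroup.induction_on with
    | H M =>
      -- coordinates
      set m00 := (M : Matrix (Fin 2) (Fin 2) F) 0 0 with hm00
      set m01 := (M : Matrix (Fin 2) (Fin 2) F) 0 1 with hm01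
      set m10 := (M : Matrix (Fin 2) (Fin 2) F) 1 0 with hm10
      set m11 := (M : Matrix (Fin 2) (Fin 2) F) 1 1 with hm11
      have hdet : m00 * m11 - m01 * m10 = 1 := by
        have := M.det_coe
        rwa [Matrix.det_fin_two] at this
      -- find s t
      obtain ⟨s, t, hst, hD⟩ : ∃ s t : F, (s ≠ 0 ∨ t ≠ 0) ∧
          ν * (m00 * s + m01 * t) ^ 2 + δ * (m00 * s + m01 * t) * (m10 * s + m11 * t) + γ * (m10 * s + m11 * t) ^ 2 =
            ν * s ^ 2 + δ * s * t + γ * t ^ 2 := by
        set P := ν * m00 ^ 2 + δ * m00 * m10 + γ * m10 ^ 2 - ν with hP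
        set Q := ν * m01 ^ 2 + δ * m01 * m11 + γ * m11 ^ 2 - γ with hQ
        have hexp : ∀ s t : F, ν * (m00 * s + m01 * t) ^ 2 + δ * (m00 * s + m01 * t) * (m10 * s + m11 * t) + γ * (m10 * s + m11 * t) ^ 2
            - (ν * s ^ 2 + δ * s * t + γ * t ^ 2) = P * s ^ 2 + Q * t ^ 2 := by
          intro s t
          have h1 : m00 * m11 + m01 * m10 = 1 := by linear_combination hdet + (m01 * m10) * htwo
          rw [hP, hQ]
          linear_combination (δ * s * t) * h1 + (ν * m00 * m01 * s * t + γ * m10 * m11 * s * t) * htwo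
        obtain ⟨u, hu⟩ := hsqrt P
        obtain ⟨v, hv⟩ := hsqrt Q
        by_cases hPQ : u = 0 ∧ v = 0
        · refine ⟨1, 0, Or.inl one_ne_zero, ?_⟩
          have h1 := hexp 1 0
          rw [← hu, ← hv, hPQ.1, hPQ.2] at h1
          apply sub_eq_zero.mp
          rw [h1]; ring
        · refine ⟨v, u, ?_, ?_⟩
          · by_contra hcon
            push Not at hcon
            exact hPQ ⟨hcon.2, hcon.1⟩
          · have h1 := hexp v u
            rw [hu, hv] at h1
            apply sub_eq_zero.mp
            rw [hu, hv, h1]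
            linear_combination (P * Q) * htwo
      -- scale
      set w0 : K := s • b 0 + t • b 1 with hw0
      have hw00 : w0 ≠ 0 := by
        intro h
        have h1 : ∑ i, (![s, t] : Fin 2 → F) i • b i = 0 := by
          rw [Fin.sum_univ_two]; exact h
        have h2 := Fintype.linearIndependent_iff.mp b.linearIndependent _ h1
        rcases hst with h3 | h3
        · exact h3 (h2 0)
        · exact h3 (h2 1)
      have hNw0 : Algebra.norm F w0 ≠ 0 := Algebra.norm_ne_zero_iff.mpr hw00
      obtain ⟨r, hr⟩ := hsqrt (ν / Algebra.norm F w0)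
      set T : Module.End F K := (LinearMap.toMatrixAlgEquiv b).symm (M : Matrix (Fin 2) (Fin 2) F) with hT
      have hTM : LinearMap.toMatrixAlgEquiv b T = M := by rw [hT, AlgEquiv.apply_symm_apply]
      have hTb : ∀ j, T (b j) = ∑ i, (M : Matrix (Fin 2) (Fin 2) F) i j • b i := by
        intro j
        have h1 := (LinearMap.toMatrixAlgEquiv_apply b T)
        rw [← b.sum_repr (T (b j))]
        apply Finset.sum_congr rfl
        intro i _
        rw [← hTM, h1]
      set w : K := r • w0 with hw
      have hNw : Algebra.norm F w = ν := by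
        rw [hw, Algebra.smul_def, map_mul, Algebra.norm_algebraMap, hK, hr]
        field_simp
      have hNTw : Algebra.norm F (T w) = ν := by
        have h1 : T w0 = (m00 * s + m01 * t) • b 0 + (m10 * s + m11 * t) • b 1 := by
          rw [hw0, map_add, map_smul, map_smul, hTb, hTb, Fin.sum_univ_two, Fin.sum_univ_two]
          simp only [smul_add, smul_smul, add_smul]
          rw [← hm00, ← hm01, ← hm10, ← hm11, mul_comm s, mul_comm s, mul_comm t, mul_comm t]
          abel
        have h3 : Algebra.norm F (T w0) = Algebra.norm F w0 := by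
          rw [h1, hN, hD, hw0, hN]
        rw [hw, map_smul, Algebra.smul_def, map_mul, Algebra.norm_algebraMap, hK, hr, h3]
        field_simp
      have hb0 : b 0 ≠ 0 := b.ne_zero 0
      have hw_ne : w ≠ 0 := by
        rintro h; rw [h, Algebra.norm_zero] at hNw; exact hν0 hNw.symm
      have hTw_ne : T w ≠ 0 := by
        rintro h; rw [h, Algebra.norm_zero] at hNTw; exact hν0 hNTw.symm
      let x : Nm.ker := ⟨Units.mk0 (w / b 0) (div_ne_zero hw_ne hb0), by
        rw [MonoidHom.mem_ker]
        apply Units.ext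
        show Algebra.norm F (w / b 0) = 1
        have h9 : Algebra.norm F (w / b 0) * ν = ν := by
          rw [hν, ← map_mul, div_mul_cancel₀ _ hb0, hNw]
        exact mul_right_cancel₀ hν0 (h9.trans (one_mul ν).symm)⟩
      let y : Nm.ker := ⟨Units.mk0 (T w / b 0) (div_ne_zero hTw_ne hb0), by
        rw [MonoidHom.mem_ker]
        apply Units.ext
        show Algebra.norm F (T w / b 0) = 1
        have h9 : Algebra.norm F (T w / b 0) * ν = ν := by
          rw [hν, ← map_mul, div_mul_cancel₀ _ hb0, hNTw]
        exact mul_right_cancel₀ hν0 (h9.trans (one_mul ν).symm)⟩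
      set N' := (α y)⁻¹ * M * α x with hN'
      have hN'b : N' ∈ β.range := by
        have h0 : α y * N' = M * α x := by
          rw [hN', mul_assoc, mul_inv_cancel_left]
        have h1 : LinearMap.toMatrixAlgEquiv b (Algebra.lmul F K ((y : Kˣ) : K)) * (N' : Matrix (Fin 2) (Fin 2) F) =
            (M : Matrix (Fin 2) (Fin 2) F) * LinearMap.toMatrixAlgEquiv b (Algebra.lmul F K ((x : Kˣ) : K)) := by
          rw [← hα, ← hα, ← Matrix.SpecialLinearGroup.coe_mul, ← Matrix.SpecialLinearGroup.coe_mul, h0]
        clear_value N'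
        set S : Module.End F K := (LinearMap.toMatrixAlgEquiv b).symm (N' : Matrix (Fin 2) (Fin 2) F) with hS
        have hSM : LinearMap.toMatrixAlgEquiv b S = N' := by rw [hS, AlgEquiv.apply_symm_apply]
        rw [← hSM, ← hTM, ← map_mul, ← map_mul] at h1
        have h2 := LinearMap.congr_fun ((LinearMap.toMatrixAlgEquiv b).injective h1) (b 0)
        simp only [Module.End.mul_apply, Algebra.coe_lmul_eq_mul, LinearMap.mul_apply'] at h2
        have h3 : (T w / b 0) * S (b 0) = T ((w / b 0) * b 0) := h2
        rw [div_mul_cancel₀ _ hb0] at h3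
        have h4 : S (b 0) = b 0 := by
          have h6 : (T w / b 0) * S (b 0) = (T w / b 0) * b 0 := by rw [h3, div_mul_cancel₀ _ hb0]
          exact mul_left_cancel₀ (div_ne_zero hTw_ne hb0) h6
        have h5 : ∀ i, (N' : Matrix (Fin 2) (Fin 2) F) i 0 = b.repr (b 0) i := by
          intro i
          rw [← hSM, LinearMap.toMatrixAlgEquiv_apply, h4]
        have h00 : (N' : Matrix (Fin 2) (Fin 2) F) 0 0 = 1 := by rw [h5]; simp
        have h10 : (N' : Matrix (Fin 2) (Fin 2) F) 1 0 = 0 := by rw [h5]; simp
        have h11 : (N' : Matrix (Fin 2) (Fin 2) F) 1 1 = 1 := by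
          have := N'.det_coe
          rw [Matrix.det_fin_two, h00, h10] at this
          simpa using this
        refine ⟨Multiplicative.ofAdd ((N' : Matrix (Fin 2) (Fin 2) F) 0 1), ?_⟩
        apply Subtype.ext
        rw [hβ]
        ext i j
        fin_cases i <;> fin_cases j
        · simp [h00]
        · simp
        · simp [h10]
        · simp [h11]
      obtain ⟨c, hc⟩ := hN'b
      refine ⟨π (α y), ⟨y, rfl⟩, π (β c), ⟨c, rfl⟩, π (α x⁻¹), ⟨x⁻¹, rfl⟩, ?_⟩
      show π M = _
      rw [← map_mul, ← map_mul]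
      congr 1
      rw [hc, hN', map_inv]; group

end Cfsg.Agent.S2503
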