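import Cfsg.Statements.S2504
import Cfsg.Agent.Lib.AbelPerm3

set_option autoImplicit false
open Cfsg

namespace Cfsg.Agent.S2504

open Cfsg.Agent.Lib.AbelPerm

/-- The largest order of an abelian subgroup of the alternating group of degree n is 3^k when n = 3k, 4·3^(k−1) when n = 3k + 1, and 16·3^(k−2) when n = 3k + 2, for every k ≥ 2 (so for all degrees n ≥ 6). -/
theorem result (k : ℕ) (hk : 2 ≤ k) :
    IsGreatest {c : ℕ | ∃ A : Subgroup (alternatingGroup (Fin (3 * k))), IsMulCommutative A ∧ Nat.card A = c} (3 ^ k) ∧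
    IsGreatest {c : ℕ | ∃ A : Subgroup (alternatingGroup (Fin (3 * k + 1))), IsMulCommutative A ∧ Nat.card A = c}
      (4 * 3 ^ (k - 1)) ∧
    IsGreatest {c : ℕ | ∃ A : Subgroup (alternatingGroup (Fin (3 * k + 2))), IsMulCommutative A ∧ Nat.card A = c}
      (16 * 3 ^ (k - 2)) := by
  classical
  obtain ⟨j, rfl⟩ : ∃ j, k = j + 2 := ⟨k - 2, by omega⟩
  refine ⟨⟨?_, ?_⟩, ⟨?_, ?_⟩, ⟨?_, ?_⟩⟩
  · exact (ex_three_mul (P := True) (j + 2)).alt
  · rintro c ⟨A, hA, rfl⟩
    have := card_le_gS (comm_img A hA)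
    rwa [Nat.card_fin, gS_three_mul, card_img] at this
  · have h := ((ex_four (P := True)).addFin (ex_three_mul (j + 1))).congr
      (finCongr (show 4 + 3 * (j + 1) = 3 * (j + 2) + 1 by ring))
    exact h.alt
  · rintro c ⟨A, hA, rfl⟩
    have h1 : gS (3 * (j + 2) + 1) = 4 * 3 ^ (j + 1) := by
      rw [show 3 * (j + 2) + 1 = 3 * (j + 1) + 4 by ring, gS_three_mul_add_four]
    have := card_le_gS (comm_img A hA)
    rw [Nat.card_fin, h1, card_img] at this
    exact this
  · have h := (((ex_four (P := True)).addFin (ex_four (P := True))).addFin (ex_three_mul j)).congr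
      (finCongr (show 4 + 4 + 3 * j = 3 * (j + 2) + 2 by ring))
    exact h.alt
  · rintro c ⟨A, hA, rfl⟩
    have := Fintype.ofFinite (MulAction.orbitRel.Quotient (img A) (Fin (3 * (j + 2) + 2)))
    rw [show j + 2 - 2 = j by omega]
    by_cases hex : ∃ c, size (img A) c = 2
    · have h1 := bound_two A hA hex
      rw [gS_three_mul_add_two, pow_add] at h1
      have h9 : (3 : ℕ) ^ 2 = 9 := by norm_num
      rw [h9] at h1
      omega
    · push Not at hex
      obtain ⟨h5, h6⟩ := bound_no_two A hA hex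
      have h7 : gA (3 * (j + 2) + 2) = 16 * 3 ^ j := by
        rw [show 3 * (j + 2) + 2 = 3 * j + 8 by ring, gA_three_mul_add_eight]
      exact (h5.trans h6).trans_eq h7

end Cfsg.Agent.S2504
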