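import Cfsg.Statements.S2505
import Cfsg.Agent.Lib.AbelPerm3

set_option autoImplicit false
open Cfsg

namespace Cfsg.Agent.S2505

open Cfsg.Agent.Lib.AbelPerm

/-- The largest order of an abelian subgroup of the symmetric group of degree n is 3^k when n = 3k, 4·3^(k−1) when n = 3k + 1, and 2·3^k when n = 3k + 2, for every k ≥ 1. -/
theorem result (k : ℕ) (hk : 1 ≤ k) :
    IsGreatest {c : ℕ | ∃ A : Subgroup (Equiv.Perm (Fin (3 * k))), IsMulCommutative A ∧ Nat.card A = c} (3 ^ k) ∧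
    IsGreatest {c : ℕ | ∃ A : Subgroup (Equiv.Perm (Fin (3 * k + 1))), IsMulCommutative A ∧ Nat.card A = c}
      (4 * 3 ^ (k - 1)) ∧
    IsGreatest {c : ℕ | ∃ A : Subgroup (Equiv.Perm (Fin (3 * k + 2))), IsMulCommutative A ∧ Nat.card A = c}
      (2 * 3 ^ k) := by
  refine ⟨⟨?_, ?_⟩, ⟨?_, ?_⟩, ⟨?_, ?_⟩⟩
  · exact (ex_three_mul (P := False) k).perm
  · rintro c ⟨A, hA, rfl⟩
    have := card_le_gS hA
    rwa [Nat.card_fin, gS_three_mul] at this
  · obtain ⟨j, rfl⟩ : ∃ j, k = j + 1 := ⟨k - 1, by omega⟩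
    have h := ((ex_four (P := False)).addFin (ex_three_mul j)).congr (finCongr (show 4 + 3 * j = 3 * (j + 1) + 1 by ring))
    exact h.perm
  · rintro c ⟨A, hA, rfl⟩
    obtain ⟨j, rfl⟩ : ∃ j, k = j + 1 := ⟨k - 1, by omega⟩
    have h1 : gS (3 * (j + 1) + 1) = 4 * 3 ^ j := by
      rw [show 3 * (j + 1) + 1 = 3 * j + 4 by ring, gS_three_mul_add_four]
    have := card_le_gS hA
    rw [Nat.card_fin, h1] at this
    exact this
  · have h := (ex_two.addFin (ex_three_mul k)).congr (finCongr (show 2 + 3 * k = 3 * k + 2 by ring))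
    exact h.perm
  · rintro c ⟨A, hA, rfl⟩
    have := card_le_gS hA
    rwa [Nat.card_fin, gS_three_mul_add_two] at this

end Cfsg.Agent.S2505
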