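import Cfsg.Statements.S2506
import Cfsg.Agent.Lib.AbelPerm3

set_option autoImplicit false
open Cfsg
open scoped Pointwise

namespace Cfsg.Agent.S2506

open Cfsg.Agent.Lib.AbelPerm

theorem gA_three_mul_add_six (k : ℕ) : gA (3 * k + 6) = 9 * 3 ^ k := by
  induction k with
  | zero => rfl
  | succ k ih =>
    rw [show 3 * (k + 1) + 6 = (3 * k) + 9 by ring, gA_step, ih, pow_succ]
    ring

theorem gA_three_mul_add_seven (k : ℕ) : gA (3 * k + 7) = 12 * 3 ^ k := by
  induction k with
  | zero => rfl
  | succ k ih =>
    rw [show 3 * (k + 1) + 7 = (3 * k + 1) + 9 by ring, gA_step, show 3 * k + 1 + 6 = 3 * k + 7 by ring, ih, pow_succ]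
    ring

theorem small {n : ℕ} (hn : n ≤ 2) : Subsingleton (alternatingGroup (Fin n)) := by
  interval_cases n
  · infer_instance
  · infer_instance
  · rw [← Finite.card_le_one_iff_subsingleton, Nat.card_eq_fintype_card]
    decide

theorem five (A B : Subgroup (alternatingGroup (Fin 5))) (hA : IsMulCommutative A) (hB : IsMulCommutative B)
    (hAmax : ∀ C : Subgroup (alternatingGroup (Fin 5)), IsMulCommutative C → Nat.card C ≤ Nat.card A)
    (hBmax : ∀ C : Subgroup (alternatingGroup (Fin 5)), IsMulCommutative C → Nat.card C ≤ Nat.card B) :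
    ∃ g : alternatingGroup (Fin 5), B = MulAut.conj g • A := by
  classical
  have := Fintype.ofFinite (MulAction.orbitRel.Quotient (img A) (Fin 5))
  have := Fintype.ofFinite (MulAction.orbitRel.Quotient (img B) (Fin 5))
  obtain ⟨h1, -⟩ := max_structure 5 ex_five (by decide) (by decide) A hA hAmax
  obtain ⟨h2, -⟩ := max_structure 5 ex_five (by decide) (by decide) B hB hBmax
  have hp : Fact (Nat.Prime 5) := ⟨by norm_num⟩
  have hcard : Nat.card (alternatingGroup (Fin 5)) = 60 := by
    rw [Nat.card_eq_fintype_card]; decide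
  have hfac : (60 : ℕ).factorization 5 = 1 := by
    rw [Nat.factorization_def _ hp.out]
    rw [show (60 : ℕ) = 5 * 12 by norm_num, padicValNat.mul (by norm_num) (by norm_num), padicValNat_self,
      padicValNat.eq_zero_of_not_dvd (by norm_num)]
  let P : Sylow 5 (alternatingGroup (Fin 5)) := Sylow.ofCard A (by rw [h1, hcard, hfac, pow_one])
  let Q : Sylow 5 (alternatingGroup (Fin 5)) := Sylow.ofCard B (by rw [h2, hcard, hfac, pow_one])
  obtain ⟨g, hg⟩ := MulAction.exists_smul_eq (alternatingGroup (Fin 5)) P Q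
  refine ⟨g, ?_⟩
  have h3 := congrArg (fun R : Sylow 5 (alternatingGroup (Fin 5)) => (R : Subgroup (alternatingGroup (Fin 5)))) hg
  exact h3.symm

/-- In the alternating group of any degree, any two abelian subgroups of the largest possible order (among abelian subgroups) are conjugate. -/
theorem result (n : ℕ)
    (A B : Subgroup (alternatingGroup (Fin n))) (hA : IsMulCommutative A) (hB : IsMulCommutative B)
    (hAmax : ∀ C : Subgroup (alternatingGroup (Fin n)), IsMulCommutative C → Nat.card C ≤ Nat.card A)
    (hBmax : ∀ C : Subgroup (alternatingGroup (Fin n)), IsMulCommutative C → Nat.card C ≤ Nat.card B) :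
    ∃ g : alternatingGroup (Fin n), B = MulAut.conj g • A := by
  rcases Nat.lt_or_ge 2 n with hn | hn
  · by_cases h5 : n = 5
    · subst h5
      exact five A B hA hB hAmax hBmax
    by_cases h3 : n = 3
    · subst h3
      exact conj_of_max 3 ex_three (by decide) (by decide) (by decide) (by norm_num) A B hA hB hAmax hBmax
    by_cases h4 : n = 4
    · subst h4
      exact conj_of_max 4 ex_four (by decide) (by decide) (by decide) (by norm_num) A B hA hB hAmax hBmax
    obtain ⟨k, hk⟩ : ∃ k, n = 3 * k + 6 ∨ n = 3 * k + 7 ∨ n = 3 * k + 8 := ⟨(n - 6) / 3, by omega⟩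
    have hpos : 0 < 3 ^ k := by positivity
    rcases hk with rfl | rfl | rfl
    · have hS : gS (3 * k + 6) = 9 * 3 ^ k := by
        rw [show 3 * k + 6 = 3 * (k + 2) by ring, gS_three_mul, pow_add]; ring
      refine conj_of_max (9 * 3 ^ k) ?_ (by rw [hS]; omega) (by rw [hS]; omega) (gA_three_mul_add_six k) (by omega) A B hA hB hAmax hBmax
      have h := (ex_three_mul (P := True) (k + 2)).congr (finCongr (show 3 * (k + 2) = 3 * k + 6 by ring))
      rwa [pow_add, show 3 ^ k * 3 ^ 2 = 9 * 3 ^ k by ring] at h
    · have hS : gS (3 * k + 7) = 12 * 3 ^ k := by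
        rw [show 3 * k + 7 = 3 * (k + 1) + 4 by ring, gS_three_mul_add_four, pow_add]; ring
      refine conj_of_max (12 * 3 ^ k) ?_ (by rw [hS]; omega) (by rw [hS]; omega) (gA_three_mul_add_seven k) (by omega) A B hA hB hAmax hBmax
      have h := ((ex_four (P := True)).addFin (ex_three_mul (k + 1))).congr (finCongr (show 4 + 3 * (k + 1) = 3 * k + 7 by ring))
      rwa [pow_succ, show 4 * (3 ^ k * 3) = 12 * 3 ^ k by ring] at h
    · have hS : gS (3 * k + 8) = 18 * 3 ^ k := by
        rw [show 3 * k + 8 = 3 * (k + 2) + 2 by ring, gS_three_mul_add_two, pow_add]; ring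
      refine conj_of_max (16 * 3 ^ k) ?_ (by rw [hS]; omega) (by rw [hS]; omega) (gA_three_mul_add_eight k) (by omega) A B hA hB hAmax hBmax
      have h := (((ex_four (P := True)).addFin (ex_four (P := True))).addFin (ex_three_mul k)).congr
        (finCongr (show 4 + 4 + 3 * k = 3 * k + 8 by ring))
      exact h
  · have hs := small hn
    refine ⟨1, ?_⟩
    have h1 : ∀ C : Subgroup (alternatingGroup (Fin n)), C = ⊤ := by
      intro C
      rw [eq_top_iff]
      intro x _
      rw [Subsingleton.elim x 1]; exact C.one_mem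
    rw [h1 B, h1 (MulAut.conj 1 • A)]

end Cfsg.Agent.S2506
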