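import Cfsg.Statements.S2510
import Cfsg.Agent.Lib.PSLTypes

set_option autoImplicit false
open Cfsg

namespace Cfsg.Agent.S2510

open Module Cfsg.Agent.Lib.PSLSpectrum Cfsg.Agent.Lib.PolyOrder Cfsg.Agent.Lib.PSLTypes Polynomial

section
variable {F : Type*} [Field F] [Finite F]

/-- decomposable elements can be multiplied by a commuting element of order `r` -/
theorem good_of_sum {n r : ℕ} (hr : r.Prime) (hrq : r ∣ Nat.card F - 1)
    (hrn : ¬ r ∣ n) (g : Matrix.ProjectiveSpecialLinearGroup (Fin n) F) (T : Module.End F (Fin n → F))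
    (hdet : LinearMap.det T = 1) (hg : ∀ k : ℕ, g ^ k = 1 ↔ ∃ c : F, T ^ k = c • (1 : Module.End F (Fin n → F)))
    {A B : Type*} [AddCommGroup A] [Module F A] [FiniteDimensional F A] [AddCommGroup B] [Module F B]
    [FiniteDimensional F B] [Nontrivial A] [Nontrivial B] (S₁ : Module.End F A) (S₂ : Module.End F B)
    (e : (A × B) ≃ₗ[F] (Fin n → F)) (hT : T = (e : _ →ₗ[F] (Fin n → F)) ∘ₗ (S₁.prodMap S₂) ∘ₗ (e.symm : (Fin n → F) →ₗ[F] _)) :
    ∃ g' : Matrix.ProjectiveSpecialLinearGroup (Fin n) F, r ∣ orderOf g' ∧ orderOf g ∣ orderOf g' := by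
  by_cases hrg : r ∣ orderOf g
  · exact ⟨g, hrg, dvd_rfl⟩
  obtain ⟨ζ, hζ⟩ := exists_orderOf (F := F) r hr.pos hrq
  have hdim : finrank F A + finrank F B = n := by
    rw [← finrank_prod, e.finrank_eq]; simp
  have hζn : ζ ^ n ≠ 1 := by
    intro h
    have := orderOf_dvd_of_pow_eq_one h
    rw [hζ] at this
    exact hrn this
  let x : Fˣ := ζ ^ finrank F B
  let y : Fˣ := (ζ⁻¹) ^ finrank F A
  have hx : x ^ r = 1 := by
    show (ζ ^ finrank F B) ^ r = 1
    rw [← pow_mul, mul_comm, pow_mul, ← hζ, pow_orderOf_eq_one, one_pow]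
  have hy : y ^ r = 1 := by
    show (ζ⁻¹ ^ finrank F A) ^ r = 1
    rw [← pow_mul, mul_comm, pow_mul, inv_pow, ← hζ, pow_orderOf_eq_one, inv_one, one_pow]
  have hxy : x ^ finrank F A * y ^ finrank F B = 1 := by
    show (ζ ^ finrank F B) ^ finrank F A * (ζ⁻¹ ^ finrank F A) ^ finrank F B = 1
    rw [← pow_mul, ← pow_mul, mul_comm (finrank F A), ← mul_pow, mul_inv_cancel, one_pow]
  have hdetS : LinearMap.det (((x : F) • S₁).prodMap ((y : F) • S₂)) = 1 := by
    rw [hT, LinearMap.det_conj, LinearMap.det_prodMap] at hdet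
    rw [LinearMap.det_prodMap, LinearMap.det_smul, LinearMap.det_smul]
    have : (x : F) ^ finrank F A * LinearMap.det S₁ * ((y : F) ^ finrank F B * LinearMap.det S₂) =
        ((x : F) ^ finrank F A * (y : F) ^ finrank F B) * (LinearMap.det S₁ * LinearMap.det S₂) := by ring
    rw [this, hdet, mul_one]
    have := congrArg Units.val hxy
    push_cast at this
    exact this
  obtain ⟨g', hg'⟩ := exists_psl (n := n) (V := A × B) (by rw [finrank_prod, hdim]) _ hdetS
  have key : ∀ k, g' ^ k = 1 → r ∣ k ∧ orderOf g ∣ k := by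
    intro k hk
    obtain ⟨c, hc⟩ := (hg' k).mp hk
    rw [prodMap_pow', prodMap_eq_smul_one_iff, _root_.smul_pow, _root_.smul_pow] at hc
    obtain ⟨h1, h2⟩ := hc
    have hx0 : (x : F) ^ k ≠ 0 := pow_ne_zero _ x.ne_zero
    have hy0 : (y : F) ^ k ≠ 0 := pow_ne_zero _ y.ne_zero
    have h3 : S₁ ^ k = (((x : F) ^ k)⁻¹ * c) • (1 : Module.End F A) := by
      rw [mul_smul, ← h1, smul_smul, inv_mul_cancel₀ hx0, one_smul]
    have h4 : S₂ ^ k = (((y : F) ^ k)⁻¹ * c) • (1 : Module.End F B) := by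
      rw [mul_smul, ← h2, smul_smul, inv_mul_cancel₀ hy0, one_smul]
    have hxr : ((x : F) ^ k) ^ r = 1 := by
      rw [← pow_mul, mul_comm, pow_mul]
      have := congrArg Units.val hx
      push_cast at this
      rw [this, one_pow]
    have hyr : ((y : F) ^ k) ^ r = 1 := by
      rw [← pow_mul, mul_comm, pow_mul]
      have := congrArg Units.val hy
      push_cast at this
      rw [this, one_pow]
    have h5 : T ^ (k * r) = (c ^ r) • (1 : Module.End F (Fin n → F)) := by
      rw [hT, Cfsg.Agent.Lib.PSLTypes.conj_pow, conj_eq_smul_one_iff, prodMap_pow', prodMap_eq_smul_one_iff, pow_mul, pow_mul, h3, h4,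
        _root_.smul_pow, _root_.smul_pow, one_pow, one_pow, mul_pow, mul_pow, inv_pow, inv_pow, hxr, hyr, inv_one, one_mul]
      exact ⟨rfl, rfl⟩
    have h6 : orderOf g ∣ k * r := orderOf_dvd_of_pow_eq_one ((hg _).mpr ⟨_, h5⟩)
    have h7 : orderOf g ∣ k := by
      refine Nat.Coprime.dvd_of_dvd_mul_right ?_ h6
      exact ((Nat.Prime.coprime_iff_not_dvd hr).mpr hrg).symm
    refine ⟨?_, h7⟩
    obtain ⟨c', hc'⟩ := (hg k).mp (orderOf_dvd_iff_pow_eq_one.mp h7)
    have hc0 : c' ≠ 0 := by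
      rintro rfl
      have h8 := congrArg LinearMap.det hc'
      rw [map_pow, hdet, one_pow, LinearMap.det_smul] at h8
      have hn0 : finrank F (Fin n → F) ≠ 0 := by
        simp only [finrank_fintype_fun_eq_card, Fintype.card_fin]
        rintro rfl; exact hrn (dvd_zero r)
      rw [zero_pow hn0, zero_mul] at h8
      exact one_ne_zero h8
    have hc'' := hc'
    rw [hT, Cfsg.Agent.Lib.PSLTypes.conj_pow, conj_eq_smul_one_iff, prodMap_pow', prodMap_eq_smul_one_iff] at hc''
    obtain ⟨h9, h10⟩ := hc''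
    rw [h9, smul_smul] at h1
    rw [h10, smul_smul] at h2
    have h11 := smul_one_inj h1
    have h12 := smul_one_inj h2
    have h13 : (x : F) ^ k = (y : F) ^ k := mul_right_cancel₀ hc0 (h11.trans h12.symm)
    have h14 : x ^ k = y ^ k := by
      apply Units.ext; push_cast; exact h13
    have h15 : ζ ^ (n * k) = 1 := by
      have h16 : (ζ ^ finrank F B) ^ k = (ζ⁻¹ ^ finrank F A) ^ k := h14
      rw [← hdim, add_mul, pow_add, pow_mul, mul_comm, pow_mul, h16, ← mul_pow, ← mul_pow, inv_mul_cancel, one_pow, one_pow]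
    have := orderOf_dvd_of_pow_eq_one h15
    rw [hζ] at this
    exact (hr.dvd_mul.mp this).resolve_left hrn
  exact ⟨g', (key _ (pow_orderOf_eq_one g')).1, (key _ (pow_orderOf_eq_one g')).2⟩

theorem good_of_decomp {n r : ℕ} (hr : r.Prime) (hrq : r ∣ Nat.card F - 1)
    (hrn : ¬ r ∣ n) (g : Matrix.ProjectiveSpecialLinearGroup (Fin n) F) (T : Module.End F (Fin n → F))
    (hdet : LinearMap.det T = 1) (hg : ∀ k : ℕ, g ^ k = 1 ↔ ∃ c : F, T ^ k = c • (1 : Module.End F (Fin n → F)))
    (P Q : F[X]) (hPQ : IsCoprime P Q) (h0 : aeval T (P * Q) = 0)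
    (hP : LinearMap.ker (aeval T P) ≠ ⊥) (hQ : LinearMap.ker (aeval T Q) ≠ ⊥) :
    ∃ g' : Matrix.ProjectiveSpecialLinearGroup (Fin n) F, r ∣ orderOf g' ∧ orderOf g ∣ orderOf g' := by
  obtain ⟨S₁, S₂, e, hT, -, -⟩ := exists_decomp T P Q hPQ h0
  have hA : Nontrivial (LinearMap.ker (aeval T P)) := Submodule.nontrivial_iff_ne_bot.mpr hP
  have hB : Nontrivial (LinearMap.ker (aeval T Q)) := Submodule.nontrivial_iff_ne_bot.mpr hQ
  exact good_of_sum hr hrq hrn g T hdet hg S₁ S₂ e hT

/-- homogeneous elements with irreducible factor of intermediate degree -/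
theorem good_of_homog (p : ℕ) [Fact p.Prime] [CharP F p] {n r : ℕ} (hr : r.Prime) (hrq : r ∣ Nat.card F - 1)
    (hrn : ¬ r ∣ n) (g : Matrix.ProjectiveSpecialLinearGroup (Fin n) F) (T : Module.End F (Fin n → F))
    (hg : ∀ k : ℕ, g ^ k = 1 ↔ ∃ c : F, T ^ k = c • (1 : Module.End F (Fin n → F)))
    (f : F[X]) (hf : Irreducible f) (m : ℕ) (hm : 1 ≤ m) (hfm : f.natDegree * m ≤ n)
    (hd2 : 2 ≤ f.natDegree) (hdn : f.natDegree < n) (h0 : aeval T (f ^ m) = 0) :
    ∃ g' : Matrix.ProjectiveSpecialLinearGroup (Fin n) F, r ∣ orderOf g' ∧ orderOf g ∣ orderOf g' := by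
  have hp : p.Prime := Fact.out
  set d := f.natDegree with hd
  set q := Nat.card F with hq
  have hq1 : 1 < q := Finite.one_lt_card
  have hpq : ∃ a, 1 ≤ a ∧ q = p ^ a := by
    have := Fintype.ofFinite F
    obtain ⟨a, ha1, ha2⟩ := FiniteField.card F p
    exact ⟨a, a.pos, by rw [hq, Nat.card_eq_fintype_card, ha2]⟩
  obtain ⟨s, hs⟩ : q - 1 ∣ q ^ d - 1 := by simpa using Nat.sub_dvd_pow_sub_pow q 1 d
  set i := Nat.clog p m with hi
  have hmi : m ≤ p ^ i := Nat.le_pow_clog hp.one_lt m
  -- first T^(s p^i) is scalar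
  have hTs : ∃ c : F, T ^ (s * p ^ i) = c • (1 : Module.End F (Fin n → F)) := by
    have : Fact (Irreducible f) := ⟨hf⟩
    have : Module.Finite F (AdjoinRoot f) := (AdjoinRoot.powerBasis hf.ne_zero).finite
    have hfin : Finite (AdjoinRoot f) := Module.finite_of_finite F
    have hcard : Nat.card (AdjoinRoot f) = q ^ d := by
      rw [Module.natCard_eq_pow_finrank (K := F) (V := AdjoinRoot f),
        (AdjoinRoot.powerBasis hf.ne_zero).finrank, AdjoinRoot.powerBasis_dim]
    have hnorm := FiniteField.algebraMap_norm_eq_pow (K := F) (x := AdjoinRoot.root f)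
    rw [hcard, hs, Nat.mul_div_cancel_left _ (by omega)] at hnorm
    have h1 : f ∣ X ^ s - C (Algebra.norm F (AdjoinRoot.root f)) := by
      rw [← AdjoinRoot.mk_eq_zero, map_sub, map_pow, AdjoinRoot.mk_X, AdjoinRoot.mk_C, sub_eq_zero]
      exact hnorm.symm
    have h2 : f ^ m ∣ (X ^ s - C (Algebra.norm F (AdjoinRoot.root f))) ^ (p ^ i) :=
      (pow_dvd_pow_of_dvd h1 m).trans (pow_dvd_pow _ hmi)
    rw [sub_pow_char_pow, ← pow_mul, ← C_pow] at h2
    have h3 := Polynomial.aeval_eq_zero_of_dvd_aeval_eq_zero h2 h0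
    rw [map_sub, map_pow, aeval_X, aeval_C, sub_eq_zero] at h3
    exact ⟨_, h3.trans (Algebra.algebraMap_eq_smul_one _)⟩
  have hgs : orderOf g ∣ s * p ^ i := orderOf_dvd_of_pow_eq_one ((hg _).mpr hTs)
  -- the field
  obtain ⟨K, _, _, _, hK, z, hz, hzo, hw⟩ := exists_ext F d (by omega)
  set w := Units.map (Algebra.norm F (S := K)) z with hwdef
  set e := Nat.gcd n (q - 1) with he
  have hen : e ∣ n := Nat.gcd_dvd_left _ _
  have heq : e ∣ q - 1 := Nat.gcd_dvd_right _ _
  have he0 : 0 < e := Nat.gcd_pos_of_pos_right _ (by omega)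
  have hwq : w ^ (q - 1) = 1 := by
    have : Nat.card Fˣ = q - 1 := by rw [Nat.card_units]
    rw [← this]; exact pow_card_eq_one'
  -- choose c
  obtain ⟨c, hc⟩ : ∃ c : Fˣ, c ^ n * w ^ e = 1 := by
    refine ⟨(w ^ (Nat.gcdA n (q - 1)))⁻¹, ?_⟩
    have h1 : (e : ℤ) = n * Nat.gcdA n (q - 1) + ((q - 1 : ℕ) : ℤ) * Nat.gcdB n (q - 1) := Nat.gcd_eq_gcd_ab n (q - 1)
    have h2 : w ^ e = (w ^ (Nat.gcdA n (q - 1))) ^ n := by
      rw [← zpow_natCast w e, h1, zpow_add, zpow_mul w ((q - 1 : ℕ) : ℤ), zpow_natCast, hwq, one_zpow, mul_one,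
        mul_comm (n : ℤ), zpow_mul, zpow_natCast]
    rw [h2, inv_pow, inv_mul_cancel]
  obtain ⟨U, hdetU, ⟨v, hv, hUv⟩, -, hU⟩ := exists_unipotent (F := F) p (n - d) (by omega)
  let T₁ : Module.End F K := (c : F) • Algebra.lmul F K ((z ^ e : Kˣ) : K)
  let T₂ : Module.End F (Fin (n - d) → F) := (c : F) • U
  have hdet' : LinearMap.det (T₁.prodMap T₂) = 1 := by
    rw [LinearMap.det_prodMap, LinearMap.det_smul, LinearMap.det_smul, hdetU, ← Algebra.norm_apply]
    have h1 : Algebra.norm F ((z ^ e : Kˣ) : K) = ((w ^ e : Fˣ) : F) := by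
      rw [hwdef, ← map_pow]; rfl
    rw [h1, hK]
    have h2 := congrArg Units.val hc
    push_cast at h2 ⊢
    simp only [finrank_fintype_fun_eq_card, Fintype.card_fin, mul_one]
    have h3 : (c : F) ^ n = (c : F) ^ d * (c : F) ^ (n - d) := by
      rw [← pow_add]; congr 1; omega
    rw [h3] at h2
    rw [← h2]; ring
  obtain ⟨g', hg'⟩ := exists_psl (n := n) (V := K × (Fin (n - d) → F)) (by
    rw [finrank_prod, hK]; simp; omega) _ hdet'
  have key : ∀ k, g' ^ k = 1 → r ∣ k ∧ orderOf g ∣ k := by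
    intro k hk
    obtain ⟨c', hc'⟩ := (hg' k).mp hk
    rw [prodMap_pow', prodMap_eq_smul_one_iff, _root_.smul_pow, _root_.smul_pow] at hc'
    obtain ⟨h1, h2⟩ := hc'
    have hc0 : (c : F) ^ k ≠ 0 := pow_ne_zero _ c.ne_zero
    have h4 : U ^ k = (((c : F) ^ k)⁻¹ * c') • (1 : Module.End F (Fin (n - d) → F)) := by
      rw [mul_smul, ← h2, smul_smul, inv_mul_cancel₀ hc0, one_smul]
    have h5 := scalar_eq_one_of_fixed hv hUv h4
    have h6 : (Algebra.lmul F K ((z ^ e : Kˣ) : K)) ^ k = (((c : F) ^ k)⁻¹ * c') • (1 : Module.End F K) := by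
      rw [mul_smul, ← h1, smul_smul, inv_mul_cancel₀ hc0, one_smul]
    rw [h5] at h6 h4
    rw [lmul_pow_eq_smul_one_iff, map_one] at h6
    have h7 : (z ^ e) ^ k = 1 := by
      apply Units.ext
      rw [Units.val_pow_eq_pow_val, h6, Units.val_one]
    have h8 : orderOf (z ^ e) ∣ k := orderOf_dvd_of_pow_eq_one h7
    have heq' : e ∣ orderOf z := by
      rw [hzo]; exact heq.trans ⟨s, hs⟩
    obtain ⟨t, ht⟩ := heq
    have h9 : orderOf (z ^ e) = t * s := by
      rw [orderOf_pow_of_dvd he0.ne' heq', hzo, hs, ht, mul_assoc, Nat.mul_div_cancel_left _ he0]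
    have hrt : r ∣ t := by
      rw [ht] at hrq
      exact (hr.dvd_mul.mp hrq).resolve_left (fun h => hrn (h.trans hen))
    have h10 : r ∣ k := (hrt.mul_right s).trans (h9 ▸ h8)
    refine ⟨h10, hgs.trans ?_⟩
    have h11 : s ∣ k := (Dvd.intro_left t rfl).trans (h9 ▸ h8)
    have h12 : p ^ i ∣ k := by
      rcases Nat.eq_zero_or_pos i with h | h
      · rw [h, pow_zero]; exact one_dvd k
      · have h13 := hU k (by rw [h4, one_smul]) (i - 1) (by
          have hm2 : 2 ≤ m := by
            by_contra hm2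
            have : m = 1 := by omega
            rw [this, Nat.clog_one_right] at hi
            omega
          have h14 : p ^ (i - 1) < m := Nat.pow_pred_clog_lt_self hp.one_lt hm2
          have h15 : d * m ≤ n := hfm
          have h16 : d * (m - 1) + d = d * m := by
            conv_rhs => rw [show m = m - 1 + 1 by omega]
            ring
          have h17 : 2 * (m - 1) ≤ d * (m - 1) := Nat.mul_le_mul_right _ hd2
          omega)
        rwa [show i - 1 + 1 = i by omega] at h13
    refine Nat.Coprime.mul_dvd_of_dvd_of_dvd ?_ h11 h12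
    apply Nat.Coprime.pow_right
    rw [Nat.coprime_comm, Nat.Prime.coprime_iff_not_dvd hp]
    intro hps
    obtain ⟨a, ha, hqa⟩ := hpq
    have h18 : p ∣ q ^ d - 1 := by rw [hs]; exact hps.mul_left _
    have h19 : p ∣ q ^ d := by
      rw [hqa, ← pow_mul]; exact dvd_pow_self p (by positivity)
    have h20 : 1 ≤ q ^ d := Nat.one_le_pow _ _ (by omega)
    have h21 : p ∣ 1 := by
      have := (Nat.dvd_sub h19 h18)
      rwa [Nat.sub_sub_self h20] at this
    exact hp.one_lt.ne' (Nat.dvd_one.mp h21)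
  exact ⟨g', (key _ (pow_orderOf_eq_one g')).1, (key _ (pow_orderOf_eq_one g')).2⟩

/-- the Singer type element: all irreducible elements have projective order dividing its order -/
theorem exists_singer (F : Type*) [Field F] [Finite F] (n : ℕ) (hn : 1 ≤ n) :
    ∃ s : Matrix.ProjectiveSpecialLinearGroup (Fin n) F,
      ∀ (g : Matrix.ProjectiveSpecialLinearGroup (Fin n) F) (T : Module.End F (Fin n → F)),
        (∀ k : ℕ, g ^ k = 1 ↔ ∃ c : F, T ^ k = c • (1 : Module.End F (Fin n → F))) → LinearMap.det T = 1 →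
        ∀ f : F[X], Irreducible f → f.natDegree = n → aeval T f = 0 → orderOf g ∣ orderOf s := by
  obtain ⟨K, _, _, _, hK, z, hz, hzo, hw⟩ := exists_ext F n hn
  set q := Nat.card F with hq
  set w := Units.map (Algebra.norm F (S := K)) z with hwdef
  have hwo : orderOf w = q - 1 := by
    rw [orderOf_eq_card_of_forall_mem_zpowers hw, Nat.card_units]
  have hdet1 : LinearMap.det (Algebra.lmul F K ((z ^ (q - 1) : Kˣ) : K)) = 1 := by
    rw [← Algebra.norm_apply]
    have h1 : Algebra.norm F ((z ^ (q - 1) : Kˣ) : K) = ((w ^ (q - 1) : Fˣ) : F) := by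
      rw [hwdef, ← map_pow]; rfl
    rw [h1, ← hwo, pow_orderOf_eq_one, Units.val_one]
  obtain ⟨s, hs⟩ := exists_psl (n := n) (V := K) hK _ hdet1
  refine ⟨s, ?_⟩
  intro g T hg hdet f hf hfn hTf
  have hV : Nontrivial (Fin n → F) := by
    have : Nonempty (Fin n) := ⟨⟨0, by omega⟩⟩
    infer_instance
  have : Fact (Irreducible f) := ⟨hf⟩
  have : Module.Finite F (AdjoinRoot f) := (AdjoinRoot.powerBasis hf.ne_zero).finite
  have hfin : Finite (AdjoinRoot f) := Module.finite_of_finite F
  have hfr : finrank F (AdjoinRoot f) = n := by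
    rw [(AdjoinRoot.powerBasis hf.ne_zero).finrank, AdjoinRoot.powerBasis_dim, hfn]
  obtain ⟨φ⟩ : Nonempty (AdjoinRoot f →ₐ[F] K) := FiniteField.nonempty_algHom_of_finrank_dvd (by rw [hfr, hK])
  set α := φ (AdjoinRoot.root f) with hα
  have hroot : ∀ R : F[X], aeval α R = 0 ↔ f ∣ R := by
    intro R
    rw [hα, Polynomial.aeval_algHom_apply, map_eq_zero_iff φ φ.injective, AdjoinRoot.aeval_eq, AdjoinRoot.mk_eq_zero]
  have hT : ∀ R : F[X], aeval T R = 0 ↔ f ∣ R := by
    intro R
    constructor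
    · intro h
      by_contra hdvd
      obtain ⟨a, b, hab⟩ := (EuclideanDomain.dvd_or_coprime f R hf).resolve_left hdvd
      have h1 := congrArg (aeval T) hab
      rw [map_add, map_mul, map_mul, hTf, h, mul_zero, mul_zero, add_zero, map_one] at h1
      exact zero_ne_one h1
    · intro h
      exact Polynomial.aeval_eq_zero_of_dvd_aeval_eq_zero h hTf
  have hpow : ∀ (k : ℕ) (c : F), T ^ k = c • (1 : Module.End F (Fin n → F)) ↔ α ^ k = algebraMap F K c := by
    intro k c
    have h1 : aeval T (X ^ k - C c) = 0 ↔ T ^ k = c • (1 : Module.End F (Fin n → F)) := by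
      rw [map_sub, map_pow, aeval_X, aeval_C, sub_eq_zero, Algebra.algebraMap_eq_smul_one]
    have h2 : aeval α (X ^ k - C c) = 0 ↔ α ^ k = algebraMap F K c := by
      rw [map_sub, map_pow, aeval_X, aeval_C, sub_eq_zero]
    rw [← h1, ← h2, hT, hroot]
  -- norm of α
  have hchar : T.charpoly = (Algebra.lmul F K α).charpoly := by
    have h1 : f ∣ T.charpoly := (hT _).mp (LinearMap.aeval_self_charpoly T)
    have h2 : f ∣ (Algebra.lmul F K α).charpoly := by
      rw [← hroot]
      have h3 := LinearMap.aeval_self_charpoly (Algebra.lmul F K α)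
      rw [Polynomial.aeval_algHom_apply] at h3
      have h4 := LinearMap.congr_fun h3 1
      simpa using h4
    have hm1 := LinearMap.charpoly_monic T
    have hm2 := LinearMap.charpoly_monic (Algebra.lmul F K α)
    have hd1 : T.charpoly.natDegree = n := by rw [LinearMap.charpoly_natDegree]; simp
    have hd2 : (Algebra.lmul F K α).charpoly.natDegree = n := by rw [LinearMap.charpoly_natDegree, hK]
    have hassoc : ∀ P : F[X], P.Monic → P.natDegree = n → f ∣ P → P = C (f.leadingCoeff)⁻¹ * f := by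
      intro P hP hPn hfP
      obtain ⟨u, hu⟩ := hfP
      have hu0 : u ≠ 0 := by rintro rfl; rw [mul_zero] at hu; exact hP.ne_zero hu
      have h5 : u.natDegree = 0 := by
        have := congrArg Polynomial.natDegree hu
        rw [Polynomial.natDegree_mul hf.ne_zero hu0, hPn, hfn] at this
        omega
      rw [Polynomial.eq_C_of_natDegree_eq_zero h5] at hu
      have h6 := congrArg Polynomial.leadingCoeff hu
      rw [hP.leadingCoeff, Polynomial.leadingCoeff_mul, Polynomial.leadingCoeff_C] at h6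
      have h7 : u.coeff 0 = (f.leadingCoeff)⁻¹ := by
        exact eq_inv_of_mul_eq_one_right h6.symm
      rw [hu, h7, mul_comm]
    rw [hassoc _ hm1 hd1 h1, hassoc _ hm2 hd2 h2]
  have hnα : Algebra.norm F α = 1 := by
    have h10 : Algebra.norm F α = LinearMap.det T := by
      rw [Algebra.norm_apply, LinearMap.det_eq_sign_charpoly_coeff, LinearMap.det_eq_sign_charpoly_coeff T, hchar, hK]
      simp
    rw [h10, hdet]
  have hα0 : α ≠ 0 := by
    intro h
    rw [h, Algebra.norm_zero] at hnα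
    exact zero_ne_one hnα
  obtain ⟨t, ht⟩ := Subgroup.mem_zpowers_iff.mp (hz (Units.mk0 α hα0))
  have hwt : w ^ t = 1 := by
    rw [hwdef, ← map_zpow, ht]
    apply Units.ext
    exact hnα
  obtain ⟨t', ht'⟩ : ((q - 1 : ℕ) : ℤ) ∣ t := by
    rw [← hwo]; exact orderOf_dvd_iff_zpow_eq_one.mpr hwt
  apply orderOf_dvd_of_pow_eq_one
  rw [hg]
  obtain ⟨c, hc⟩ := (hs (orderOf s)).mp (pow_orderOf_eq_one s)
  rw [lmul_pow_eq_smul_one_iff] at hc
  have hc0 : c ≠ 0 := by
    rintro rfl
    rw [map_zero] at hc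
    exact (Units.ne_zero (z ^ (q - 1))) (eq_zero_of_pow_eq_zero hc)
  refine ⟨((Units.mk0 c hc0) ^ t' : Fˣ), ?_⟩
  rw [hpow]
  have h8 : (Units.mk0 α hα0) ^ (orderOf s) = Units.map (algebraMap F K).toMonoidHom ((Units.mk0 c hc0) ^ t') := by
    have h9 : (z ^ (q - 1)) ^ (orderOf s) = Units.map (algebraMap F K).toMonoidHom (Units.mk0 c hc0) := by
      apply Units.ext
      rw [Units.val_pow_eq_pow_val, hc]; rfl
    rw [map_zpow, ← h9, ← ht, ht', zpow_mul, zpow_natCast, ← zpow_natCast (_ ^ t'), ← zpow_mul, mul_comm t', zpow_mul, zpow_natCast]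
  have := congrArg Units.val h8
  rw [Units.val_pow_eq_pow_val] at this
  exact this

/-- the trichotomy -/
theorem trichotomy (p : ℕ) [Fact p.Prime] [CharP F p] {n r : ℕ} (hn : 2 ≤ n) (hr : r.Prime) (hrq : r ∣ Nat.card F - 1)
    (hrn : ¬ r ∣ n) (s u : Matrix.ProjectiveSpecialLinearGroup (Fin n) F)
    (hs : ∀ (g : Matrix.ProjectiveSpecialLinearGroup (Fin n) F) (T : Module.End F (Fin n → F)),
        (∀ k : ℕ, g ^ k = 1 ↔ ∃ c : F, T ^ k = c • (1 : Module.End F (Fin n → F))) → LinearMap.det T = 1 →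
        ∀ f : F[X], Irreducible f → f.natDegree = n → aeval T f = 0 → orderOf g ∣ orderOf s)
    (hu : p ^ (Nat.clog p n) ∣ orderOf u)
    (g : Matrix.ProjectiveSpecialLinearGroup (Fin n) F) :
    (∃ g' : Matrix.ProjectiveSpecialLinearGroup (Fin n) F, r ∣ orderOf g' ∧ orderOf g ∣ orderOf g') ∨
      orderOf g ∣ orderOf s ∨ orderOf g ∣ orderOf u := by
  have hp : p.Prime := Fact.out
  obtain ⟨T, hdet, hg⟩ := exists_end g
  have hV : Nontrivial (Fin n → F) := by
    have : Nonempty (Fin n) := ⟨⟨0, by omega⟩⟩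
    infer_instance
  set m := minpoly F T with hm
  have hmT : aeval T m = 0 := minpoly.aeval F T
  have hint : IsIntegral F T := Algebra.IsIntegral.isIntegral T
  have hm0 : m ≠ 0 := minpoly.ne_zero hint
  have hmu : ¬ IsUnit m := minpoly.not_isUnit F T
  obtain ⟨f, hf, hfm⟩ := WfDvdMonoid.exists_irreducible_factor hmu hm0
  have hfin : FiniteMultiplicity f m := FiniteMultiplicity.of_not_isUnit hf.not_isUnit hm0
  obtain ⟨a, hmf, hndvd⟩ := hfin.exists_eq_pow_mul_and_not_dvd
  rcases hfin.exists_eq_pow_mul_and_not_dvd with ⟨h, hmh, hfh⟩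
  set k := multiplicity f m with hk
  have hk1 : 1 ≤ k := by
    by_contra hk0
    have : k = 0 := by omega
    rw [this, pow_zero, one_mul] at hmh
    rw [hmh] at hfm
    exact hfh hfm
  by_cases hhu : IsUnit h
  · -- homogeneous
    have hTf : aeval T (f ^ k) = 0 := by
      refine Polynomial.aeval_eq_zero_of_dvd_aeval_eq_zero ?_ hmT
      rw [hmh]
      exact (hhu.mul_right_dvd).mpr dvd_rfl
    have hdeg : f.natDegree * k ≤ n := by
      have h1 : m ∣ T.charpoly := LinearMap.minpoly_dvd_charpoly T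
      have h2 := Polynomial.natDegree_le_of_dvd h1 (LinearMap.charpoly_monic T).ne_zero
      rw [LinearMap.charpoly_natDegree, hmh, Polynomial.natDegree_mul (pow_ne_zero _ hf.ne_zero) hhu.ne_zero,
        Polynomial.natDegree_pow] at h2
      simp only [finrank_fintype_fun_eq_card, Fintype.card_fin] at h2
      rw [mul_comm]; omega
    rcases Nat.lt_or_ge f.natDegree 2 with hd | hd
    · -- unipotent times scalar
      right; right
      have hd1 : f.natDegree = 1 := by
        have := hf.natDegree_pos; omega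
      obtain ⟨c, hc⟩ := Polynomial.exists_root_of_degree_eq_one (Polynomial.degree_eq_iff_natDegree_eq_of_pos one_pos |>.mpr hd1)
      have hfc : f ∣ X - C c := by
        obtain ⟨v, hv⟩ := Polynomial.dvd_iff_isRoot.mpr hc
        have hvu : IsUnit v := (hf.isUnit_or_isUnit hv).resolve_left (Polynomial.irreducible_X_sub_C c).not_isUnit
        rw [hv]
        exact (hvu.mul_right_dvd).mpr dvd_rfl
      have h1 : f ^ k ∣ (X - C c) ^ (p ^ Nat.clog p n) := by
        refine (pow_dvd_pow_of_dvd hfc k).trans (pow_dvd_pow _ ?_)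
        rw [hd1, one_mul] at hdeg
        exact hdeg.trans (Nat.le_pow_clog hp.one_lt n)
      rw [sub_pow_char_pow, ← C_pow] at h1
      have h3 := Polynomial.aeval_eq_zero_of_dvd_aeval_eq_zero h1 hTf
      rw [map_sub, map_pow, aeval_X, aeval_C, sub_eq_zero] at h3
      refine (orderOf_dvd_of_pow_eq_one ((hg _).mpr ⟨_, h3.trans (Algebra.algebraMap_eq_smul_one _)⟩)).trans hu
    · rcases Nat.lt_or_ge f.natDegree n with hdn | hdn
      · left
        exact good_of_homog p hr hrq hrn g T hg f hf k hk1 hdeg hd hdn hTf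
      · right; left
        have hdn' : f.natDegree = n := by
          have : f.natDegree * 1 ≤ f.natDegree * k := Nat.mul_le_mul_left _ hk1
          omega
        have hk' : k = 1 := by
          rw [hdn'] at hdeg
          by_contra hk'
          have h2 : n * 2 ≤ n * k := Nat.mul_le_mul_left _ (by omega)
          omega
        rw [hk', pow_one] at hTf
        exact hs g T hg hdet f hf hdn' hTf
  · left
    have hfk : ¬ IsUnit (f ^ k) := by
      intro hu
      exact hf.not_isUnit ((isUnit_pow_iff (by omega)).mp hu)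
    have hcop : IsCoprime (f ^ k) h := by
      apply IsCoprime.pow_left
      exact (EuclideanDomain.dvd_or_coprime f h hf).resolve_left hfh
    have h0 : aeval T (f ^ k * h) = 0 := by rw [← hmh]; exact hmT
    have hh0 : h ≠ 0 := by rintro rfl; rw [mul_zero] at hmh; exact hm0 hmh
    refine good_of_decomp hr hrq hrn g T hdet hg (f ^ k) h hcop h0 ?_ ?_
    · intro hker
      have hinj : Function.Injective (aeval T (f ^ k)) := LinearMap.ker_eq_bot.mp hker
      have h1 : aeval T h = 0 := by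
        apply LinearMap.ext
        intro v
        apply hinj
        have := LinearMap.congr_fun h0 v
        rw [map_mul] at this
        simpa using this
      have h2 : m ∣ h := minpoly.dvd F T h1
      rw [hmh] at h2
      obtain ⟨v, hv⟩ := h2
      have h3 : h * 1 = h * (f ^ k * v) := by rw [mul_one]; conv_lhs => rw [hv]
                                              ring
      have h4 := mul_left_cancel₀ hh0 h3
      exact hfk (IsUnit.of_mul_eq_one _ h4.symm)
    · intro hker
      have hinj : Function.Injective (aeval T h) := LinearMap.ker_eq_bot.mp hker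
      have h1 : aeval T (f ^ k) = 0 := by
        apply LinearMap.ext
        intro v
        apply hinj
        have h0' : aeval T (h * f ^ k) = 0 := by rw [mul_comm]; exact h0
        have := LinearMap.congr_fun h0' v
        rw [map_mul] at this
        simpa using this
      have h2 : m ∣ f ^ k := minpoly.dvd F T h1
      rw [hmh] at h2
      obtain ⟨v, hv⟩ := h2
      have h3 : f ^ k * 1 = f ^ k * (h * v) := by rw [mul_one]; conv_lhs => rw [hv]
                                                  ring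
      have h4 := mul_left_cancel₀ (pow_ne_zero _ hf.ne_zero) h3
      exact hhu (IsUnit.of_mul_eq_one _ h4.symm)

end

/-- Let F be a finite field with q = p^a elements, n ≥ 2 (with q ≥ 4 when n = 2), L = PSL(n, F), and let r be a prime dividing q − 1 and not dividing n. Then for every m the direct product L × L × L × (ℤ/r)^m has the same set of element orders as L × L × L; and if n − 1 ≠ p^j for every j ≥ 0 (so never when n = 2, since 1 = p^0), then already L × L × (ℤ/r)^m has the same set of element orders as L × L. -/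
theorem result {F : Type*} [Field F] [Fintype F] (p a n r m : ℕ) (hp : p.Prime) (ha : 1 ≤ a) (hF : Fintype.card F = p ^ a)
    (hn : 2 ≤ n) (hn2 : n = 2 → 4 ≤ Fintype.card F) (hr : r.Prime) (hrq : r ∣ Fintype.card F - 1) (hrn : ¬ r ∣ n) :
    Set.range (orderOf : Matrix.ProjectiveSpecialLinearGroup (Fin n) F × Matrix.ProjectiveSpecialLinearGroup (Fin n) F × Matrix.ProjectiveSpecialLinearGroup (Fin n) F × Multiplicative (Fin m → ZMod r) → ℕ) =
      Set.range (orderOf : Matrix.ProjectiveSpecialLinearGroup (Fin n) F × Matrix.ProjectiveSpecialLinearGroup (Fin n) F × Matrix.ProjectiveSpecialLinearGroup (Fin n) F → ℕ) ∧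
    ((¬ ∃ j : ℕ, n - 1 = p ^ j) →
      Set.range (orderOf : Matrix.ProjectiveSpecialLinearGroup (Fin n) F × Matrix.ProjectiveSpecialLinearGroup (Fin n) F × Multiplicative (Fin m → ZMod r) → ℕ) =
        Set.range (orderOf : Matrix.ProjectiveSpecialLinearGroup (Fin n) F × Matrix.ProjectiveSpecialLinearGroup (Fin n) F → ℕ)) := by
  classical
  have hpf : Fact p.Prime := ⟨hp⟩
  have hch : CharP F p := charP_of_card_eq_prime_pow hF
  have hfinL : Finite (Matrix.ProjectiveSpecialLinearGroup (Fin n) F) := Quotient.finite _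
  have hrf : Fact r.Prime := ⟨hr⟩
  have hrq' : r ∣ Nat.card F - 1 := by rw [Nat.card_eq_fintype_card]; exact hrq
  obtain ⟨s, hs⟩ := exists_singer F n (by omega)
  obtain ⟨u, hu⟩ : ∃ g : Matrix.ProjectiveSpecialLinearGroup (Fin n) F, orderOf g = p ^ Nat.clog p n := by
    obtain ⟨U, hdet, ⟨v, hv, hUv⟩, hU1, hU⟩ := exists_unipotent (F := F) p n (by omega)
    obtain ⟨g, hg⟩ := exists_psl (n := n) (V := Fin n → F) (by simp) U hdet
    refine ⟨g, ?_⟩
    apply Nat.dvd_antisymm
    · apply orderOf_dvd_of_pow_eq_one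
      rw [hg]
      exact ⟨1, by rw [one_smul]; exact hU1 _ (Nat.le_pow_clog hp.one_lt n)⟩
    · obtain ⟨c, hc⟩ := (hg _).mp (pow_orderOf_eq_one g)
      have h1 := scalar_eq_one_of_fixed hv hUv hc
      rw [h1, one_smul] at hc
      have hpos : 0 < Nat.clog p n := Nat.clog_pos hp.one_lt hn
      have := hU _ hc (Nat.clog p n - 1) (Nat.pow_pred_clog_lt_self hp.one_lt hn)
      rwa [show Nat.clog p n - 1 + 1 = Nat.clog p n by omega] at this
  obtain ⟨ρ, hρr, hρ⟩ := exists_diag (F := F) p n r hn hr hrq' hrn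
  have htri := trichotomy (F := F) p hn hr hrq' hrn s u hs (hu ▸ dvd_rfl)
  have hz : ∀ z : Multiplicative (Fin m → ZMod r), orderOf z ∣ r := by
    intro z
    apply orderOf_dvd_of_pow_eq_one
    show r • (Multiplicative.toAdd z) = 0
    ext i
    simp
  constructor
  · apply Set.Subset.antisymm
    · apply range_orderOf_subset
      rintro ⟨x₁, x₂, x₃, z⟩
      simp only [Prod.orderOf_mk]
      rcases htri x₁ with ⟨g', h1, h2⟩ | h1
      · refine ⟨(g', x₂, x₃), ?_⟩
        simp only [Prod.orderOf_mk]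
        refine Nat.lcm_dvd (h2.trans (Nat.dvd_lcm_left _ _)) (Nat.lcm_dvd ?_ (Nat.lcm_dvd ?_ ?_))
        · exact (Nat.dvd_lcm_left _ _).trans (Nat.dvd_lcm_right _ _)
        · exact (Nat.dvd_lcm_right _ _).trans (Nat.dvd_lcm_right _ _)
        · exact ((hz z).trans h1).trans (Nat.dvd_lcm_left _ _)
      rcases htri x₂ with ⟨g', h1', h2⟩ | h2
      · refine ⟨(x₁, g', x₃), ?_⟩
        simp only [Prod.orderOf_mk]
        refine Nat.lcm_dvd (Nat.dvd_lcm_left _ _) (Nat.lcm_dvd ?_ (Nat.lcm_dvd ?_ ?_))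
        · exact (h2.trans (Nat.dvd_lcm_left _ _)).trans (Nat.dvd_lcm_right _ _)
        · exact (Nat.dvd_lcm_right _ _).trans (Nat.dvd_lcm_right _ _)
        · exact (((hz z).trans h1').trans (Nat.dvd_lcm_left _ _)).trans (Nat.dvd_lcm_right _ _)
      rcases htri x₃ with ⟨g', h1', h2'⟩ | h3
      · refine ⟨(x₁, x₂, g'), ?_⟩
        simp only [Prod.orderOf_mk]
        refine Nat.lcm_dvd (Nat.dvd_lcm_left _ _) (Nat.lcm_dvd ?_ (Nat.lcm_dvd ?_ ?_))
        · exact (Nat.dvd_lcm_left _ _).trans (Nat.dvd_lcm_right _ _)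
        · exact (h2'.trans (Nat.dvd_lcm_right _ _)).trans (Nat.dvd_lcm_right _ _)
        · exact (((hz z).trans h1').trans (Nat.dvd_lcm_right _ _)).trans (Nat.dvd_lcm_right _ _)
      refine ⟨(s, u, ρ), ?_⟩
      simp only [Prod.orderOf_mk]
      have hsu : ∀ k, (k ∣ orderOf s ∨ k ∣ orderOf u) → k ∣ (orderOf s).lcm ((orderOf u).lcm (orderOf ρ)) := by
        rintro k (h | h)
        · exact h.trans (Nat.dvd_lcm_left _ _)
        · exact (h.trans (Nat.dvd_lcm_left _ _)).trans (Nat.dvd_lcm_right _ _)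
      refine Nat.lcm_dvd (hsu _ h1) (Nat.lcm_dvd (hsu _ h2) (Nat.lcm_dvd (hsu _ h3) ?_))
      exact (((hz z).trans hρr).trans (Nat.dvd_lcm_right _ _)).trans (Nat.dvd_lcm_right _ _)
    · apply range_orderOf_subset
      rintro ⟨x₁, x₂, x₃⟩
      refine ⟨(x₁, x₂, x₃, 1), ?_⟩
      simp only [Prod.orderOf_mk, orderOf_one, Nat.lcm_one_right]
      exact dvd_rfl
  · intro hnj
    have hρu : orderOf u ∣ orderOf ρ := by
      rw [hu]
      have hpos : 0 < Nat.clog p n := Nat.clog_pos hp.one_lt hn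
      have h1 : p ^ (Nat.clog p n - 1) < n := Nat.pow_pred_clog_lt_self hp.one_lt hn
      have h2 : p ^ (Nat.clog p n - 1) < n - 1 := by
        rcases Nat.lt_or_ge (p ^ (Nat.clog p n - 1)) (n - 1) with h | h
        · exact h
        · exact absurd ⟨Nat.clog p n - 1, by omega⟩ hnj
      have := hρ _ h2
      rwa [show Nat.clog p n - 1 + 1 = Nat.clog p n by omega] at this
    apply Set.Subset.antisymm
    · apply range_orderOf_subset
      rintro ⟨x₁, x₂, z⟩
      simp only [Prod.orderOf_mk]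
      rcases htri x₁ with ⟨g', h1, h2⟩ | h1
      · refine ⟨(g', x₂), ?_⟩
        simp only [Prod.orderOf_mk]
        refine Nat.lcm_dvd (h2.trans (Nat.dvd_lcm_left _ _)) (Nat.lcm_dvd (Nat.dvd_lcm_right _ _) ?_)
        exact ((hz z).trans h1).trans (Nat.dvd_lcm_left _ _)
      rcases htri x₂ with ⟨g', h1', h2⟩ | h2
      · refine ⟨(x₁, g'), ?_⟩
        simp only [Prod.orderOf_mk]
        refine Nat.lcm_dvd (Nat.dvd_lcm_left _ _) (Nat.lcm_dvd (h2.trans (Nat.dvd_lcm_right _ _)) ?_)
        exact ((hz z).trans h1').trans (Nat.dvd_lcm_right _ _)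
      refine ⟨(s, ρ), ?_⟩
      simp only [Prod.orderOf_mk]
      have hsu : ∀ k, (k ∣ orderOf s ∨ k ∣ orderOf u) → k ∣ (orderOf s).lcm (orderOf ρ) := by
        rintro k (h | h)
        · exact h.trans (Nat.dvd_lcm_left _ _)
        · exact (h.trans hρu).trans (Nat.dvd_lcm_right _ _)
      refine Nat.lcm_dvd (hsu _ h1) (Nat.lcm_dvd (hsu _ h2) ?_)
      exact ((hz z).trans hρr).trans (Nat.dvd_lcm_right _ _)
    · apply range_orderOf_subset
      rintro ⟨x₁, x₂⟩
      refine ⟨(x₁, x₂, 1), ?_⟩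
      simp only [Prod.orderOf_mk, orderOf_one, Nat.lcm_one_right]
      exact dvd_rfl

end Cfsg.Agent.S2510
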