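import Cfsg.Statements.S2511
import Cfsg.Agent.Lib.UnSpec4
import Cfsg.Agent.Lib.SpecAssembly

set_option autoImplicit false
open Cfsg

namespace Cfsg.Agent.S2511

open Module Polynomial Cfsg.Agent.Lib.HermAlg Cfsg.Agent.Lib.UnSpec Cfsg.Agent.Lib.ClUnitary Cfsg.Agent.Lib.HermMat
  Cfsg.Agent.Lib.PSLTypes

universe u

theorem pow_sq_eq {K : Type*} [Monoid K] (β : K) (q : ℕ) (hq : 1 ≤ q) (h1 : β ^ (q + 1) = 1) : β ^ (q ^ 2) = β := by
  obtain ⟨t, rfl⟩ : ∃ t, q = t + 1 := ⟨q - 1, by omega⟩
  rw [show (t + 1) ^ 2 = (t + 1 + 1) * t + 1 by ring, pow_succ, pow_mul, h1, one_pow, one_mul]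

theorem exists_finite_order {F : Type*} [Field F] [Finite F] {V : Type*} [AddCommGroup V] [Module F V] [FiniteDimensional F V]
    (T : Module.End F V) (hT : LinearMap.det T = 1) : ∃ N, T ^ (N + 1) = 1 := by
  have hfinV : Finite V := Module.finite_of_finite F
  have hfin : Finite (Module.End F V) := Finite.of_injective (fun f : Module.End F V => (f : V → V)) DFunLike.coe_injective
  have hu : IsUnit T := by
    rw [LinearMap.isUnit_iff_isUnit_det, hT]; exact isUnit_one
  obtain ⟨u, rfl⟩ := hu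
  refine ⟨orderOf u - 1, ?_⟩
  rw [Nat.sub_add_cancel (orderOf_pos u), ← Units.val_pow_eq_pow_val, pow_orderOf_eq_one, Units.val_one]

variable {F : Type u} [Field F] [Fintype F] {q n : ℕ}

theorem good_D (hF : Fintype.card F = q ^ 2) (hn : 2 ≤ n) (r : ℕ) (hr : r.Prime) (hrq : r ∣ q + 1) (hrn : ¬ r ∣ n)
    (g : PSU n F q) (T : Module.End F (Fin n → F)) (hdet : LinearMap.det T = 1)
    (hT : ∀ x y, hermForm n F q (T x) (T y) = hermForm n F q x y)
    (hg : ∀ k : ℕ, g ^ k = 1 ↔ ∃ c : F, T ^ k = c • (1 : Module.End F (Fin n → F)))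
    (e : Module.End F (Fin n → F)) (he : e * e = e) (he0 : e ≠ 0) (he1 : e ≠ 1) (heT : e * T = T * e)
    (hadj : ∀ x y, hermForm n F q (e x) y = hermForm n F q x (e y)) :
    ∃ g' : PSU n F q, r ∣ orderOf g' ∧ orderOf g ∣ orderOf g' := by
  by_cases hrg : r ∣ orderOf g
  · exact ⟨g, hrg, dvd_rfl⟩
  have hB := isHerm_hermForm (n := n) hF
  have hrq2 : r ∣ Nat.card F - 1 := by
    rw [Nat.card_eq_fintype_card, hF, sq_sub_one]
    exact hrq.mul_right _
  obtain ⟨ζ, hζ⟩ := exists_orderOf (F := F) r hr.pos hrq2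
  have hζq : ζ ^ (q + 1) = 1 := by
    obtain ⟨t, ht⟩ := hrq
    rw [ht, pow_mul, ← hζ, pow_orderOf_eq_one, one_pow]
  have he' : (1 - e) * (1 - e) = 1 - e := by
    rw [mul_sub, mul_one, sub_mul, one_mul, he, sub_self, sub_zero]
  have hee' : e * (1 - e) = 0 := by rw [mul_sub, mul_one, he, sub_self]
  have he'e : (1 - e) * e = 0 := by rw [sub_mul, one_mul, he, sub_self]
  have he'0 : 1 - e ≠ 0 := fun h => he1 (sub_eq_zero.mp h).symm
  have hdim := finrank_idem e he
  rw [finrank_fintype_fun_eq_card, Fintype.card_fin] at hdim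
  set a := finrank F (LinearMap.range e) with ha
  set b := finrank F (LinearMap.ker e) with hb
  let x : Fˣ := ζ ^ b
  let y : Fˣ := (ζ⁻¹) ^ a
  have hxr : x ^ r = 1 := by
    show (ζ ^ b) ^ r = 1
    rw [← pow_mul, mul_comm, pow_mul, ← hζ, pow_orderOf_eq_one, one_pow]
  have hyr : y ^ r = 1 := by
    show (ζ⁻¹ ^ a) ^ r = 1
    rw [← pow_mul, mul_comm, pow_mul, inv_pow, ← hζ, pow_orderOf_eq_one, inv_one, one_pow]
  have hxq : x ^ (q + 1) = 1 := by
    show (ζ ^ b) ^ (q + 1) = 1
    rw [← pow_mul, mul_comm, pow_mul, hζq, one_pow]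
  have hyq : y ^ (q + 1) = 1 := by
    show (ζ⁻¹ ^ a) ^ (q + 1) = 1
    rw [← pow_mul, mul_comm, pow_mul, inv_pow, hζq, inv_one, one_pow]
  have hxy : x ^ a * y ^ b = 1 := by
    show (ζ ^ b) ^ a * (ζ⁻¹ ^ a) ^ b = 1
    rw [← pow_mul, ← pow_mul, mul_comm a, ← mul_pow, mul_inv_cancel, one_pow]
  -- the commuting element
  set t : Module.End F (Fin n → F) := (x : F) • e + (y : F) • (1 - e) with ht
  have htk : ∀ k : ℕ, t ^ k = ((x : F) ^ k) • e + ((y : F) ^ k) • (1 - e) := by
    intro k
    induction k with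
    | zero => rw [pow_zero, pow_zero, pow_zero, one_smul, one_smul, add_sub_cancel]
    | succ k ih =>
      rw [pow_succ, ih, ht, mul_add, add_mul, add_mul, smul_mul_smul_comm, smul_mul_smul_comm, smul_mul_smul_comm,
        smul_mul_smul_comm, he, he', hee', he'e, smul_zero, smul_zero, add_zero, zero_add, pow_succ, pow_succ]
  have htT : Commute T t := by
    show T * t = t * T
    rw [ht, mul_add, add_mul, mul_smul_comm, mul_smul_comm, smul_mul_assoc, smul_mul_assoc, mul_sub, sub_mul, heT, mul_one, one_mul]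
  have htiso : ∀ u v, hermForm n F q (t u) (t v) = hermForm n F q u v := by
    intro u v
    have hadj' : ∀ x y, hermForm n F q ((1 - e) x) y = hermForm n F q x ((1 - e) y) := by
      intro x y
      rw [LinearMap.sub_apply, hB.sub_left, hadj, LinearMap.sub_apply, hB.sub_right]
      rfl
    have hxq' : (x : F) * (x : F) ^ q = 1 := by
      rw [← pow_succ', ← Units.val_pow_eq_pow_val, hxq, Units.val_one]
    have hyq' : (y : F) * (y : F) ^ q = 1 := by
      rw [← pow_succ', ← Units.val_pow_eq_pow_val, hyq, Units.val_one]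
    have h1 : hermForm n F q (e u) (e v) = hermForm n F q u (e v) := by
      rw [hadj, ← Module.End.mul_apply, he]
    have h2 : hermForm n F q (e u) ((1 - e) v) = 0 := by
      rw [hadj, ← Module.End.mul_apply, hee', LinearMap.zero_apply, hB.zero_right]
    have h3 : hermForm n F q ((1 - e) u) (e v) = 0 := by
      rw [hadj', ← Module.End.mul_apply, he'e, LinearMap.zero_apply, hB.zero_right]
    have h4 : hermForm n F q ((1 - e) u) ((1 - e) v) = hermForm n F q u ((1 - e) v) := by
      rw [hadj', ← Module.End.mul_apply, he']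
    rw [ht, LinearMap.add_apply, LinearMap.add_apply, LinearMap.smul_apply, LinearMap.smul_apply, LinearMap.smul_apply,
      LinearMap.smul_apply, hB.add_left, hB.add_right, hB.add_right, hB.smul_left, hB.smul_left, hB.smul_left, hB.smul_left,
      hB.smul_right, hB.smul_right, hB.smul_right, hB.smul_right, h1, h2, h3, h4, frob_apply, frob_apply, mul_zero, mul_zero,
      mul_zero, mul_zero, add_zero, zero_add, ← mul_assoc, ← mul_assoc, hxq', hyq', one_mul, one_mul, ← hB.add_right]
    congr 1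
    rw [LinearMap.sub_apply]
    show e v + (v - e v) = v
    abel
  have hdett : LinearMap.det t = 1 := by
    have h1 := det_idem e he t (by
      rw [ht, mul_add, add_mul, mul_smul_comm, mul_smul_comm, smul_mul_assoc, smul_mul_assoc, hee', he'e])
      ((x : F) • (1 : Module.End F (LinearMap.range e))) ((y : F) • (1 : Module.End F (LinearMap.ker e))) ?_ ?_
    · rw [h1, LinearMap.det_smul, LinearMap.det_smul, map_one, map_one, mul_one, mul_one]
      have := congrArg Units.val hxy
      push_cast at this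
      exact this
    · rintro ⟨_, v, rfl⟩
      rw [ht, LinearMap.add_apply, LinearMap.smul_apply, LinearMap.smul_apply, LinearMap.smul_apply, ← Module.End.mul_apply, he,
        ← Module.End.mul_apply (1 - e), he'e, LinearMap.zero_apply, smul_zero, add_zero]
      rfl
    · rintro ⟨v, hv⟩
      rw [LinearMap.mem_ker] at hv
      rw [ht, LinearMap.add_apply, LinearMap.smul_apply, LinearMap.smul_apply, LinearMap.smul_apply, LinearMap.sub_apply, hv, sub_zero,
        smul_zero, zero_add]
      rfl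
  obtain ⟨g', hg'⟩ := exists_psu hF hn (V := Fin n → F) (by simp) hB (T * t)
    (by intro u v; rw [Module.End.mul_apply, Module.End.mul_apply, hT, htiso]) (by rw [map_mul, hdet, hdett, one_mul])
  have hV : Nontrivial (Fin n → F) := by
    have : Nonempty (Fin n) := ⟨⟨0, by omega⟩⟩
    infer_instance
  have key : ∀ k, g' ^ k = 1 → r ∣ k ∧ orderOf g ∣ k := by
    intro k hk
    obtain ⟨c, hc⟩ := (hg' k).mp hk
    rw [htT.mul_pow] at hc
    have htr : t ^ r = 1 := by
      have h1 : (x : F) ^ r = 1 := by rw [← Units.val_pow_eq_pow_val, hxr, Units.val_one]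
      have h2 : (y : F) ^ r = 1 := by rw [← Units.val_pow_eq_pow_val, hyr, Units.val_one]
      rw [htk, h1, h2, one_smul, one_smul, add_sub_cancel]
    have h5 : T ^ (k * r) = (c ^ r) • (1 : Module.End F (Fin n → F)) := by
      have h6 : (T ^ k * t ^ k) ^ r = T ^ (k * r) := by
        rw [((htT.pow_left k).pow_right k).mul_pow, ← pow_mul, ← pow_mul, mul_comm k r, pow_mul t, htr, one_pow, mul_one]
      rw [← h6, hc, _root_.smul_pow, one_pow]
    have h6 : orderOf g ∣ k * r := orderOf_dvd_of_pow_eq_one ((hg _).mpr ⟨_, h5⟩)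
    have h7 : orderOf g ∣ k := by
      refine Nat.Coprime.dvd_of_dvd_mul_right ?_ h6
      exact ((Nat.Prime.coprime_iff_not_dvd hr).mpr hrg).symm
    refine ⟨?_, h7⟩
    obtain ⟨c', hc'⟩ := (hg k).mp (orderOf_dvd_iff_pow_eq_one.mp h7)
    have hc0 : c' ≠ 0 := by
      rintro rfl
      have h8 := congrArg LinearMap.det hc'
      rw [map_pow, hdet, one_pow, LinearMap.det_smul, finrank_fintype_fun_eq_card, Fintype.card_fin, zero_pow (by omega), zero_mul] at h8
      exact one_ne_zero h8
    rw [hc', smul_mul_assoc, one_mul] at hc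
    have h8 : t ^ k = (c'⁻¹ * c) • (1 : Module.End F (Fin n → F)) := by
      rw [mul_smul, ← hc, smul_smul, inv_mul_cancel₀ hc0, one_smul]
    have h9 : ((x : F) ^ k) • e = (c'⁻¹ * c) • e := by
      have h10 : t ^ k * e = ((c'⁻¹ * c) • (1 : Module.End F (Fin n → F))) * e := by rw [h8]
      rw [htk, add_mul, smul_mul_assoc, smul_mul_assoc, he, he'e, smul_zero, add_zero, smul_mul_assoc, one_mul] at h10
      exact h10
    have h10 : ((y : F) ^ k) • (1 - e) = (c'⁻¹ * c) • (1 - e) := by
      have h10 : t ^ k * (1 - e) = ((c'⁻¹ * c) • (1 : Module.End F (Fin n → F))) * (1 - e) := by rw [h8]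
      rw [htk, add_mul, smul_mul_assoc, smul_mul_assoc, he', hee', smul_zero, zero_add, smul_mul_assoc, one_mul] at h10
      exact h10
    have h11 : (x : F) ^ k = c'⁻¹ * c := smul_left_injective F he0 h9
    have h12 : (y : F) ^ k = c'⁻¹ * c := smul_left_injective F he'0 h10
    have h13 : x ^ k = y ^ k := Units.ext (h11.trans h12.symm)
    have h15 : ζ ^ (n * k) = 1 := by
      have h16 : (ζ ^ b) ^ k = (ζ⁻¹ ^ a) ^ k := h13
      rw [← hdim, add_mul, pow_add, pow_mul, pow_mul ζ b, h16, ← mul_pow, ← mul_pow, mul_inv_cancel, one_pow, one_pow]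
    have := orderOf_dvd_of_pow_eq_one h15
    rw [hζ] at this
    exact (hr.dvd_mul.mp this).resolve_left hrn
  exact ⟨g', (key _ (pow_orderOf_eq_one g')).1, (key _ (pow_orderOf_eq_one g')).2⟩

variable (p : ℕ) [Fact p.Prime] [CharP F p]

include p in
theorem exists_singer (hF : Fintype.card F = q ^ 2) (hn : 3 ≤ n) :
    ∃ s : PSU n F q, (∀ (g : PSU n F q) (T : Module.End F (Fin n → F)),
      (∀ k : ℕ, g ^ k = 1 ↔ ∃ c : F, T ^ k = c • (1 : Module.End F (Fin n → F))) → LinearMap.det T = 1 → Odd n →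
      ∀ f : F[X], Irreducible f → f.natDegree = n → aeval T f = 0 →
        AdjoinRoot.root f ^ (q ^ n + 1) = 1 → orderOf g ∣ orderOf s) ∧
      (∀ (g : PSU n F q) (T : Module.End F (Fin n → F)) (N : ℕ),
      (∀ k : ℕ, g ^ k = 1 ↔ ∃ c : F, T ^ k = c • (1 : Module.End F (Fin n → F))) → LinearMap.det T = 1 →
      (∀ x y, hermForm n F q (T x) (T y) = hermForm n F q x y) → T ^ (N + 1) = 1 →
      ∀ (e : Module.End F (Fin n → F)) (f : F[X]), Irreducible f → n = 2 * f.natDegree → e * e = e → e * T = T * e →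
      (∀ x y, hermForm n F q (e x) y = hermForm n F q x ((1 - e) y)) → aeval T f * e = 0 → orderOf g ∣ orderOf s) := by
  rcases Nat.even_or_odd' n with ⟨d, hd | hd⟩
  · obtain ⟨s, hs⟩ := exists_singer_even (F := F) p hF (by omega) d hd
    refine ⟨s, ?_, ?_⟩
    · intro g T _ _ hodd
      exfalso
      obtain ⟨t, ht⟩ := hodd
      omega
    · intro g T N hg hdet hT hN e f hf hfn he heT hadj hTf
      exact hs g T N hg hdet hT hN e f hf (by omega) he heT hadj hTf
  · obtain ⟨s, hs⟩ := exists_singer_odd (F := F) p hF (by omega) ⟨d, hd⟩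
    refine ⟨s, ?_, ?_⟩
    · intro g T hg hdet _ f hf hfn hTf hroot
      exact hs g T hg hdet f hf hfn hTf hroot
    · intro g T N hg hdet hT hN e f hf hfn
      exfalso
      omega

include p in
theorem classify (hF : Fintype.card F = q ^ 2) (hn : 3 ≤ n) (r : ℕ) (hr : r.Prime) (hrq : r ∣ q + 1) (hrn : ¬ r ∣ n)
    (s : PSU n F q) (hs1 : ∀ (g : PSU n F q) (T : Module.End F (Fin n → F)),
      (∀ k : ℕ, g ^ k = 1 ↔ ∃ c : F, T ^ k = c • (1 : Module.End F (Fin n → F))) → LinearMap.det T = 1 → Odd n →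
      ∀ f : F[X], Irreducible f → f.natDegree = n → aeval T f = 0 →
        AdjoinRoot.root f ^ (q ^ n + 1) = 1 → orderOf g ∣ orderOf s)
    (hs2 : ∀ (g : PSU n F q) (T : Module.End F (Fin n → F)) (N : ℕ),
      (∀ k : ℕ, g ^ k = 1 ↔ ∃ c : F, T ^ k = c • (1 : Module.End F (Fin n → F))) → LinearMap.det T = 1 →
      (∀ x y, hermForm n F q (T x) (T y) = hermForm n F q x y) → T ^ (N + 1) = 1 →
      ∀ (e : Module.End F (Fin n → F)) (f : F[X]), Irreducible f → n = 2 * f.natDegree → e * e = e → e * T = T * e →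
      (∀ x y, hermForm n F q (e x) y = hermForm n F q x ((1 - e) y)) → aeval T f * e = 0 → orderOf g ∣ orderOf s)
    (g : PSU n F q) :
    (∃ g' : PSU n F q, r ∣ orderOf g' ∧ orderOf g ∣ orderOf g') ∨ orderOf g ∣ orderOf s ∨
      orderOf g ∣ p ^ Nat.clog p n := by
  have hp : p.Prime := Fact.out
  have hq2 := two_le_q hF
  obtain ⟨a, hqa⟩ := exists_q_eq p hF
  have ha0 : a ≠ 0 := by rintro rfl; rw [pow_zero] at hqa; omega
  have hpq : p ∣ q := by rw [hqa]; exact dvd_pow_self p ha0
  have hB := isHerm_hermForm (n := n) hF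
  obtain ⟨T, hT, hdet, hg⟩ := exists_isom hF (by omega) g
  obtain ⟨N, hN⟩ := exists_finite_order T hdet
  have hnt : Nontrivial (Fin n → F) := by
    have : Nonempty (Fin n) := ⟨⟨0, by omega⟩⟩
    infer_instance
  have hdimV : finrank F (Fin n → F) = n := by simp
  have hpow1 : ∀ k (c : F), T ^ k = c • (1 : Module.End F (Fin n → F)) → orderOf g ∣ k := by
    intro k c hk
    exact orderOf_dvd_of_pow_eq_one ((hg _).mpr ⟨c, hk⟩)
  have hroot : ∀ f : F[X], f ∣ minpoly F T → AdjoinRoot.root f ^ (N + 1) = 1 := by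
    intro f hfm
    have h1 : minpoly F T ∣ X ^ (N + 1) - 1 := by
      apply minpoly.dvd
      rw [map_sub, map_pow, aeval_X, map_one, hN, sub_self]
    have h2 := hfm.trans h1
    rw [← AdjoinRoot.mk_eq_zero, map_sub, map_pow, AdjoinRoot.mk_X, map_one, sub_eq_zero] at h2
    exact h2
  rcases trich hB (frob_frob hF) T hT N hN with
    ⟨e, he, he0, he1, heT, hadj⟩ | ⟨f, k, hf, hk1, hfk, hfm, hdeg⟩ | ⟨e, f, k, hf, hk1, he, heT, hadj, hfk, hfm, hdeg⟩
  · left
    exact good_D hF (by omega) r hr hrq hrn g T hdet hT hg e he he0 he1 heT hadj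
  · -- primary
    rw [hdimV] at hdeg
    have hff : Fact (Irreducible f) := ⟨hf⟩
    have hfd : FiniteDimensional F (AdjoinRoot f) := (AdjoinRoot.powerBasis hf.ne_zero).finite
    have hfin : Finite (AdjoinRoot f) := Module.finite_of_finite F
    have hfr : finrank F (AdjoinRoot f) = f.natDegree := by
      rw [(AdjoinRoot.powerBasis hf.ne_zero).finrank, AdjoinRoot.powerBasis_dim]
    obtain ⟨τ, hτ, hτ1, hττ⟩ := local_star hB (frob_frob hF) T hT N hN f k hfk hfm
    obtain ⟨hodd, hτq⟩ := odd_of_star hF τ hτ hττ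
    rw [hfr] at hodd hτq
    set d := f.natDegree with hd
    have hαs : AdjoinRoot.root f ^ (q ^ d + 1) = 1 := by
      rw [pow_succ, ← hτq, hτ1]
    have hd1 : 1 ≤ d := hf.natDegree_pos
    obtain ⟨M, hM⟩ : q + 1 ∣ q ^ d + 1 := by simpa using hodd.nat_add_dvd_pow_add_pow q 1
    obtain ⟨c, hc⟩ : ∃ c : F, algebraMap F (AdjoinRoot f) c = AdjoinRoot.root f ^ M := by
      apply mem_range_of_pow
      rw [hF]
      have h1 : (AdjoinRoot.root f ^ M) ^ (q + 1) = 1 := by
        rw [← pow_mul, mul_comm, ← hM, hαs]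
      exact pow_sq_eq _ q (by omega) h1
    have hscal : ∀ i, k ≤ p ^ i → orderOf g ∣ M * p ^ i := by
      intro i hi
      have h5 := pow_of_root p T 1 f k M i c (by rw [hfk, zero_mul]) hc.symm hi
      rw [mul_one] at h5
      exact hpow1 _ _ h5
    rcases Nat.lt_or_ge d 2 with hd2 | hd2
    · right; right
      have hd1' : d = 1 := by omega
      have hM1 : M = 1 := by
        rw [hd1', pow_one] at hM
        exact Nat.eq_of_mul_eq_mul_left (show 0 < q + 1 by omega) (by rw [← hM, mul_one])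
      have h6 := hscal (Nat.clog p n) (by
        have := Nat.le_pow_clog hp.one_lt n
        rw [hd1', one_mul] at hdeg
        omega)
      rwa [hM1, one_mul] at h6
    · rcases Nat.lt_or_ge d n with hdn | hdn
      · left
        obtain ⟨g', h3, h4, h5⟩ := exists_field_regular (n := n) p hF (by omega) r hr hrq hrn τ hτ hττ (by rw [hfr]; exact hdn) M
          (by rw [hfr]; exact hM)
        rw [hfr] at h5
        refine ⟨g', h3, ?_⟩
        set i := Nat.clog p k with hi
        refine (hscal i (Nat.le_pow_clog hp.one_lt k)).trans ?_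
        refine Nat.Coprime.mul_dvd_of_dvd_of_dvd ?_ h4 ?_
        · apply Nat.Coprime.pow_right
          rw [Nat.coprime_comm, Nat.Prime.coprime_iff_not_dvd hp]
          intro hps1
          have h6 : p ∣ q ^ d + 1 := by rw [hM]; exact hps1.mul_left _
          have := (Nat.dvd_add_right (hpq.trans (dvd_pow_self q (by omega : d ≠ 0)))).mp h6
          exact hp.one_lt.ne' (Nat.dvd_one.mp this)
        · rcases Nat.eq_zero_or_pos i with h | h
          · rw [h, pow_zero]; exact one_dvd _
          · have h13 := h5 (i - 1) (by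
              have hm2 : 2 ≤ k := by
                by_contra hm2
                have : k = 1 := by omega
                rw [this, Nat.clog_one_right] at hi
                omega
              have h14 : p ^ (i - 1) < k := Nat.pow_pred_clog_lt_self hp.one_lt hm2
              have h16 : d * (k - 1) + d = d * k := by
                conv_rhs => rw [show k = k - 1 + 1 by omega]
                ring
              have h17 : 2 * (k - 1) ≤ d * (k - 1) := Nat.mul_le_mul_right _ hd2
              omega)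
            rwa [show i - 1 + 1 = i by omega] at h13
      · right; left
        have hdn' : d = n := by
          have : d * 1 ≤ d * k := Nat.mul_le_mul_left _ hk1
          omega
        have hk : k = 1 := by
          rw [hdn'] at hdeg
          by_contra hk'
          have h2 : n * 2 ≤ n * k := Nat.mul_le_mul_left _ (by omega)
          omega
        rw [hk, pow_one] at hfk
        rw [hdn'] at hodd hαs
        exact hs1 g T hg hdet hodd f hf hdn' hfk hαs
  · -- hyperbolic pair
    rw [hdimV] at hdeg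
    have hff : Fact (Irreducible f) := ⟨hf⟩
    have hfd : FiniteDimensional F (AdjoinRoot f) := (AdjoinRoot.powerBasis hf.ne_zero).finite
    have hfin : Finite (AdjoinRoot f) := Module.finite_of_finite F
    have hfr : finrank F (AdjoinRoot f) = f.natDegree := by
      rw [(AdjoinRoot.powerBasis hf.ne_zero).finrank, AdjoinRoot.powerBasis_dim]
    have hcard : Nat.card (AdjoinRoot f) = (q ^ 2) ^ f.natDegree := by
      rw [Module.natCard_eq_pow_finrank (K := F) (V := AdjoinRoot f), hfr, Nat.card_eq_fintype_card, hF]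
    set d := f.natDegree with hd
    have hα0 : AdjoinRoot.root f ≠ 0 := by
      intro h
      have := hroot f hfm
      rw [h, zero_pow (by omega)] at this
      exact zero_ne_one this
    have hαq : AdjoinRoot.root f ^ ((q ^ 2) ^ d - 1) = 1 := by
      have := Fintype.ofFinite (AdjoinRoot f)
      rw [← hcard, Nat.card_eq_fintype_card]
      exact FiniteField.pow_card_sub_one_eq_one _ hα0
    have hd1 : 1 ≤ d := hf.natDegree_pos
    obtain ⟨M, hM⟩ : q + 1 ∣ (q ^ 2) ^ d - 1 := by
      have h1 : q ^ 2 - 1 ∣ (q ^ 2) ^ d - 1 := by simpa using Nat.sub_dvd_pow_sub_pow (q ^ 2) 1 d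
      rw [sq_sub_one] at h1
      exact (Dvd.intro _ rfl).trans h1
    obtain ⟨c, hc⟩ : ∃ c : F, algebraMap F (AdjoinRoot f) c = AdjoinRoot.root f ^ M := by
      apply mem_range_of_pow
      rw [hF]
      have h1 : (AdjoinRoot.root f ^ M) ^ (q + 1) = 1 := by
        rw [← pow_mul, mul_comm, ← hM, hαq]
      exact pow_sq_eq _ q (by omega) h1
    have hcc : c * c ^ q = 1 := by
      apply (algebraMap F (AdjoinRoot f)).injective
      rw [← pow_succ', map_pow, hc, ← pow_mul, mul_comm, ← hM, hαq, map_one]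
    have hscal : ∀ i, k ≤ p ^ i → orderOf g ∣ M * p ^ i := by
      intro i hi
      have h5 := pow_of_root p T e f k M i c hfk hc.symm hi
      refine hpow1 _ _ (scalar_of_half hF T e hT N hN heT hadj _ _ ?_ h5)
      rw [← pow_mul, mul_comm (p ^ i), pow_mul, ← mul_pow, hcc, one_pow]
    rcases Nat.lt_or_ge (2 * d) n with hdn | hdn
    · left
      obtain ⟨g', h3, h4, h5⟩ := exists_swap_regular (n := n) p hF (by omega) r hr hrq hrn (K := AdjoinRoot f)
        (by rw [hfr]; exact hdn) M (by rw [hfr]; exact hM)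
      rw [hfr] at h5
      refine ⟨g', h3, ?_⟩
      set i := Nat.clog p k with hi
      refine (hscal i (Nat.le_pow_clog hp.one_lt k)).trans ?_
      refine Nat.Coprime.mul_dvd_of_dvd_of_dvd ?_ h4 ?_
      · apply Nat.Coprime.pow_right
        rw [Nat.coprime_comm, Nat.Prime.coprime_iff_not_dvd hp]
        intro hps1
        have h18 : p ∣ (q ^ 2) ^ d - 1 := by rw [hM]; exact hps1.mul_left _
        have h19 : p ∣ (q ^ 2) ^ d := (hpq.trans (dvd_pow_self q (by omega))).trans (dvd_pow_self (q ^ 2) (by omega))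
        have h20 : 1 ≤ (q ^ 2) ^ d := Nat.one_le_pow _ _ (by positivity)
        have h21 : p ∣ 1 := by
          have := (Nat.dvd_sub h19 h18)
          rwa [Nat.sub_sub_self h20] at this
        exact hp.one_lt.ne' (Nat.dvd_one.mp h21)
      · rcases Nat.eq_zero_or_pos i with h | h
        · rw [h, pow_zero]; exact one_dvd _
        · have h13 := h5 (i - 1) (by
            have hm2 : 2 ≤ k := by
              by_contra hm2
              have : k = 1 := by omega
              rw [this, Nat.clog_one_right] at hi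
              omega
            have h14 : p ^ (i - 1) < k := Nat.pow_pred_clog_lt_self hp.one_lt hm2
            have h16 : d * (k - 1) + d = d * k := by
              conv_rhs => rw [show k = k - 1 + 1 by omega]
              ring
            have h17 : 1 * (k - 1) ≤ d * (k - 1) := Nat.mul_le_mul_right _ hd1
            omega)
          rwa [show i - 1 + 1 = i by omega] at h13
    · right; left
      have h6 : d * 1 ≤ d * k := Nat.mul_le_mul_left _ hk1
      have hdn' : n = 2 * d := by omega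
      have hk : k = 1 := by
        by_contra hk'
        have h2 : d * 2 ≤ d * k := Nat.mul_le_mul_left _ (by omega)
        omega
      rw [hk, pow_one] at hfk
      exact hs2 g T N hg hdet hT hN e f hf hdn' he heT hadj hfk

include p in
theorem exists_regular (hF : Fintype.card F = q ^ 2) (hn : 2 ≤ n) :
    ∃ u : PSU n F q, ∀ i, p ^ i < n → p ^ (i + 1) ∣ orderOf u := by
  have hp : p.Prime := Fact.out
  obtain ⟨R, _, _, _, _, star, l, u, hR, hSA, hu, huj, hk⟩ := exists_uni_herm hF p n (by omega)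
  obtain ⟨j, hj⟩ : ∃ j, n ≤ p ^ j := ⟨n, (Nat.lt_pow_self hp.one_lt).le⟩
  obtain ⟨g, hg⟩ := exists_of_sa hF hn hSA hR u hu (norm_eq_one_of_pow p u j (huj j hj))
  refine ⟨g, ?_⟩
  obtain ⟨c, hc⟩ := (hg _).mp (pow_orderOf_eq_one g)
  exact (hk _ _ hc).2

include p in
theorem exists_diag_regular (hF : Fintype.card F = q ^ 2) (hn : 2 ≤ n) (r : ℕ) (hr : r.Prime) (hrq : r ∣ q + 1) (hrn : ¬ r ∣ n) :
    ∃ u : PSU n F q, r ∣ orderOf u ∧ ∀ i, p ^ i < n - 1 → p ^ (i + 1) ∣ orderOf u := by
  have hp : p.Prime := Fact.out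
  have hrq2 : r ∣ Nat.card F - 1 := by
    rw [Nat.card_eq_fintype_card, hF, sq_sub_one]
    exact hrq.mul_right _
  obtain ⟨ζ, hζ⟩ := exists_orderOf (F := F) r hr.pos hrq2
  have hζq : ζ ^ (q + 1) = 1 := by
    obtain ⟨t, ht⟩ := hrq
    rw [ht, pow_mul, ← hζ, pow_orderOf_eq_one, one_pow]
  obtain ⟨R, _, _, _, _, star, l, u, hR, hSA, hu, huj, hk⟩ := exists_uni_herm hF p (n - 1) (by omega)
  obtain ⟨l', hSA'⟩ := exists_isSA_field hF (K := F) (frob hF) (fun c => rfl) (frob_frob hF)
  obtain ⟨j, hj⟩ : ∃ j, n - 1 ≤ p ^ j := ⟨n - 1, (Nat.lt_pow_self hp.one_lt).le⟩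
  obtain ⟨x, hx⟩ : ∃ x : Fˣ, x = ζ ^ (n - 1) := ⟨_, rfl⟩
  obtain ⟨y, hy⟩ : ∃ y : Fˣ, y = ζ⁻¹ := ⟨_, rfl⟩
  have hxq : (x : F) * (x : F) ^ q = 1 := by
    rw [← pow_succ', ← Units.val_pow_eq_pow_val, hx, ← pow_mul, mul_comm, pow_mul, hζq, one_pow, Units.val_one]
  have hyq : (y : F) * (y : F) ^ q = 1 := by
    rw [← pow_succ', ← Units.val_pow_eq_pow_val, hy, inv_pow, hζq, inv_one, Units.val_one]
  have hxy : (x : F) * (y : F) ^ (n - 1) = 1 := by
    rw [← Units.val_pow_eq_pow_val, ← Units.val_mul, hx, hy, inv_pow, mul_inv_cancel, Units.val_one]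
  obtain ⟨g, hg⟩ := exists_of_sa hF hn (hSA'.prod hSA) (by rw [finrank_prod, hR, finrank_self]; omega)
    ((x : F), algebraMap F R y * u) (by
      apply Prod.ext
      · exact hxq
      · show algebraMap F R y * u * star (algebraMap F R y * u) = 1
        rw [star.map_mul, hSA.star_alg, frob_apply]
        calc algebraMap F R y * u * (algebraMap F R ((y : F) ^ q) * star u) =
              (algebraMap F R y * algebraMap F R ((y : F) ^ q)) * (u * star u) := by ring
          _ = 1 := by rw [← map_mul, hyq, hu, map_one, one_mul]) (by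
      rw [norm_prod', map_mul, norm_eq_one_of_pow p u j (huj j hj), mul_one, Algebra.norm_algebraMap, hR, Algebra.norm_self]
      exact hxy)
  refine ⟨g, ?_⟩
  obtain ⟨c, hc⟩ := (hg _).mp (pow_orderOf_eq_one g)
  set m := orderOf g with hm
  have hU1 : (x : F) ^ m = c := congrArg Prod.fst hc
  have hU2 : (algebraMap F R y * u) ^ m = algebraMap F R c := congrArg Prod.snd hc
  have hym : (y : F) ^ m ≠ 0 := pow_ne_zero _ y.ne_zero
  have hU3 : u ^ m = algebraMap F R (((y : F) ^ m)⁻¹ * c) := by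
    rw [map_mul, ← hU2, mul_pow, ← map_pow, ← mul_assoc, ← map_mul, inv_mul_cancel₀ hym, map_one, one_mul]
  obtain ⟨h5, h6⟩ := hk _ _ hU3
  refine ⟨?_, h6⟩
  have h7 : (y : F) ^ m = (x : F) ^ m := by
    rw [hU1]
    calc (y : F) ^ m = (y : F) ^ m * (((y : F) ^ m)⁻¹ * c) := by rw [h5, mul_one]
      _ = c := by rw [← mul_assoc, mul_inv_cancel₀ hym, one_mul]
  have h8 : y ^ m = x ^ m := Units.ext h7
  have h9 : ζ ^ (n * m) = 1 := by
    rw [hx, hy] at h8
    rw [show n = (n - 1) + 1 by omega, add_mul, one_mul, pow_add, pow_mul ζ (n - 1), ← h8, ← mul_pow, inv_mul_cancel, one_pow]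
  have := orderOf_dvd_of_pow_eq_one h9
  rw [hζ] at this
  exact (hr.dvd_mul.mp this).resolve_left hrn

end Cfsg.Agent.S2511

namespace Cfsg.Agent.S2511

open Cfsg.Agent.Lib.SpecAssembly

/-- Let F be a finite field with q² elements, q = p^a, n ≥ 3 with (n, q) ≠ (3, 2), L = PSU(n, q) realised over F, and let r be a prime dividing q + 1 and not dividing n. Then for every m the direct product L × L × L × (ℤ/r)^m has the same set of element orders as L × L × L; and if n − 1 is not a power of p, then already L × L × (ℤ/r)^m has the same set of element orders as L × L. -/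
theorem result {F : Type*} [Field F] [Fintype F] (p a n q r m : ℕ) (hp : p.Prime) (ha : 1 ≤ a) (hq : q = p ^ a) (hF : Fintype.card F = q ^ 2)
    (hn : 3 ≤ n) (hn3 : ¬ (n = 3 ∧ q = 2)) (hr : r.Prime) (hrq : r ∣ q + 1) (hrn : ¬ r ∣ n) :
    Set.range (orderOf : Cfsg.PSU n F q × Cfsg.PSU n F q × Cfsg.PSU n F q × Multiplicative (Fin m → ZMod r) → ℕ) = Set.range (orderOf : Cfsg.PSU n F q × Cfsg.PSU n F q × Cfsg.PSU n F q → ℕ) ∧
    ((¬ ∃ j : ℕ, n - 1 = p ^ j) →
      Set.range (orderOf : Cfsg.PSU n F q × Cfsg.PSU n F q × Multiplicative (Fin m → ZMod r) → ℕ) = Set.range (orderOf : Cfsg.PSU n F q × Cfsg.PSU n F q → ℕ)) := by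
  classical
  have hpf : Fact p.Prime := ⟨hp⟩
  have hrf : Fact r.Prime := ⟨hr⟩
  have hch : CharP F p := charP_of_card_eq_prime_pow (f := a * 2) (by rw [hF, hq, pow_mul])
  have hfinL : Finite (Cfsg.PSU n F q) := Quotient.finite _
  obtain ⟨s, hs1, hs2⟩ := exists_singer (F := F) p hF hn
  obtain ⟨u, hu⟩ := exists_regular (F := F) (n := n) p hF (by omega)
  obtain ⟨ρ, hρr, hρ'⟩ := exists_diag_regular (F := F) (n := n) p hF (by omega) r hr hrq hrn
  set j := Nat.clog p n with hj
  have hpos : 0 < j := Nat.clog_pos hp.one_lt (by omega)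
  have hlt : p ^ (j - 1) < n := Nat.pow_pred_clog_lt_self hp.one_lt (by omega)
  have hu' : p ^ j ∣ orderOf u := by
    have := hu (j - 1) hlt
    rwa [show j - 1 + 1 = j by omega] at this
  obtain ⟨d, hd⟩ := hu'
  have hopos : 0 < orderOf u := orderOf_pos u
  have hd0 : d ≠ 0 := by rintro rfl; rw [mul_zero] at hd; omega
  have hod : orderOf (u ^ d) = p ^ j := by
    rw [orderOf_pow_of_dvd hd0 (hd ▸ dvd_mul_left d _), hd, Nat.mul_div_cancel _ (Nat.pos_of_ne_zero hd0)]
  obtain ⟨h3, h4⟩ := spectra_eq r m s (u ^ d) ρ hρr (by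
    intro g
    rw [hod]
    exact classify p hF hn r hr hrq hrn s hs1 hs2 g)
  refine ⟨h3, fun hnj => h4 ⟨ρ, hρr, ?_⟩⟩
  rw [hod]
  have h5 : p ^ (j - 1) ≠ n - 1 := fun h => hnj ⟨j - 1, h.symm⟩
  have := hρ' (j - 1) (by omega)
  rwa [show j - 1 + 1 = j by omega] at this

end Cfsg.Agent.S2511
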