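import Cfsg.Statements.S2512
import Cfsg.Agent.Lib.SympSpec2
import Cfsg.Agent.Lib.SpecAssembly

set_option autoImplicit false
open Cfsg

namespace Cfsg.Agent.S2512

open Module Polynomial Cfsg.Agent.Lib.HermAlg Cfsg.Agent.Lib.SympSpec Cfsg.Agent.Lib.SympMat

universe u

/-- an isometry which is the identity on one half of a hyperbolic decomposition is the identity -/
theorem eq_one_of_mul_eq {F : Type*} [Field F] {σ : F →+* F} {ε : F} {V : Type*} [AddCommGroup V] [Module F V]
    {B : V → V → F} (h : IsHerm σ ε B) (e S : Module.End F V) (hS : ∀ x y, B (S x) (S y) = B x y)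
    (hSu : Function.Surjective S) (heS : e * S = S * e) (hSe : S * e = e) (hadj : ∀ x y, B (e x) y = B x ((1 - e) y)) :
    S = 1 := by
  have hadj' : ∀ x y, B ((1 - e) x) y = B x (e y) := by
    intro x y
    rw [LinearMap.sub_apply, h.sub_left, hadj, LinearMap.sub_apply, h.sub_right, Module.End.one_apply, Module.End.one_apply,
      sub_sub_cancel]
  apply LinearMap.ext
  intro x
  have h1 : S ((1 - e) x) = (1 - e) x := by
    apply h.ext_left
    intro y
    obtain ⟨y', rfl⟩ := hSu y
    rw [hS, hadj', hadj', ← Module.End.mul_apply, heS, hSe]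
  have h2 : x = e x + (1 - e) x := by
    rw [LinearMap.sub_apply, Module.End.one_apply, add_sub_cancel]
  calc S x = S (e x) + S ((1 - e) x) := by rw [← map_add, ← h2]
    _ = e x + (1 - e) x := by rw [h1, ← Module.End.mul_apply, hSe]
    _ = x := h2.symm

/-- powers of `T` from powers of the root of `f` -/
theorem pow_of_root {F : Type*} [Field F] (p : ℕ) [Fact p.Prime] [CharP F p] {V : Type*} [AddCommGroup V] [Module F V]
    (T e : Module.End F V) (f : F[X]) (k M i : ℕ) (h0 : aeval T (f ^ k) * e = 0) (hM : AdjoinRoot.root f ^ M = 1)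
    (hi : k ≤ p ^ i) : T ^ (M * p ^ i) * e = e := by
  have h1 : f ∣ (X : F[X]) ^ M - 1 := by
    rw [← AdjoinRoot.mk_eq_zero, map_sub, map_pow, AdjoinRoot.mk_X, map_one, hM, sub_self]
  have h2 : f ^ k ∣ ((X : F[X]) ^ M - 1) ^ (p ^ i) := (pow_dvd_pow_of_dvd h1 k).trans (pow_dvd_pow _ hi)
  rw [sub_pow_char_pow, ← pow_mul, one_pow] at h2
  obtain ⟨c, hc⟩ := h2
  have h3 : aeval T ((X : F[X]) ^ (M * p ^ i) - 1) * e = 0 := by
    rw [hc, mul_comm, map_mul, mul_assoc, h0, mul_zero]
  rw [map_sub, map_pow, aeval_X, map_one, sub_mul, one_mul, sub_eq_zero] at h3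
  exact h3

variable {F : Type u} [Field F] {n : ℕ}

theorem exists_isom_odd (hn : 1 ≤ n) (g : Cfsg.PSp n F) (ho : Odd (orderOf g)) :
    ∃ T : Module.End F (Fin n ⊕ Fin n → F), (∀ x y, sympForm n F (T x) (T y) = sympForm n F x y) ∧
      T ^ orderOf g = 1 ∧ ∀ k : ℕ, g ^ k = 1 ↔ ∃ c : F, T ^ k = c • (1 : Module.End F (Fin n ⊕ Fin n → F)) := by
  obtain ⟨T, hT, -, hg⟩ := exists_isom g
  obtain ⟨c, hc⟩ := (hg _).mp (pow_orderOf_eq_one g)
  have hTk : ∀ (k : ℕ) x y, sympForm n F ((T ^ k) x) ((T ^ k) y) = sympForm n F x y := by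
    intro k
    induction k with
    | zero => intro x y; rfl
    | succ k ih => intro x y; rw [pow_succ, Module.End.mul_apply, Module.End.mul_apply, ih, hT]
  have hc2 : c * c = 1 := by
    have hnt : Nontrivial (Fin n ⊕ Fin n → F) := by
      have : Nonempty (Fin n) := ⟨⟨0, by omega⟩⟩
      infer_instance
    obtain ⟨x, hx⟩ := exists_ne (0 : Fin n ⊕ Fin n → F)
    obtain ⟨y, hy⟩ : ∃ y, sympForm n F x y ≠ 0 := by
      by_contra hcon
      push Not at hcon
      exact hx (eq_zero_of_sympForm hcon)
    have h1 := hTk (orderOf g) x y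
    rw [hc, LinearMap.smul_apply, LinearMap.smul_apply, Module.End.one_apply, Module.End.one_apply, sympForm_smul_left,
      sympForm_smul_right, ← mul_assoc] at h1
    exact mul_right_cancel₀ hy (h1.trans (one_mul _).symm)
  rcases mul_self_eq_one_iff.mp hc2 with h | h
  · exact ⟨T, hT, by rw [hc, h, one_smul], hg⟩
  · refine ⟨-T, ?_, ?_, ?_⟩
    · intro x y
      rw [LinearMap.neg_apply, LinearMap.neg_apply, isHerm_sympForm.neg_left, isHerm_sympForm.neg_right, neg_neg, hT]
    · have h1 : (-T) ^ orderOf g = -(T ^ orderOf g) := ho.neg_pow T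
      rw [h1, hc, h]
      ext x
      simp
    · intro k
      rw [hg]
      rcases Nat.even_or_odd k with hk | hk
      · have h1 : (-T) ^ k = T ^ k := hk.neg_pow T
        rw [h1]
      · have h1 : (-T) ^ k = -(T ^ k) := hk.neg_pow T
        rw [h1]
        constructor
        · rintro ⟨d, hd⟩
          exact ⟨-d, by rw [hd]; ext x; simp⟩
        · rintro ⟨d, hd⟩
          exact ⟨-d, by rw [← neg_neg (T ^ k), hd]; ext x; simp⟩

theorem good_D (h2 : (2 : F) ≠ 0) (g : Cfsg.PSp n F) (ho : Odd (orderOf g)) (T : Module.End F (Fin n ⊕ Fin n → F))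
    (hT : ∀ x y, sympForm n F (T x) (T y) = sympForm n F x y)
    (hTo : T ^ orderOf g = 1) (hg : ∀ k : ℕ, g ^ k = 1 ↔ ∃ c : F, T ^ k = c • (1 : Module.End F (Fin n ⊕ Fin n → F)))
    (e : Module.End F (Fin n ⊕ Fin n → F)) (he : e * e = e) (he0 : e ≠ 0) (he1 : e ≠ 1) (heT : e * T = T * e)
    (hadj : ∀ x y, sympForm n F (e x) y = sympForm n F x (e y)) :
    ∃ g' : Cfsg.PSp n F, 2 ∣ orderOf g' ∧ orderOf g ∣ orderOf g' := by
  set t := e + e - 1 with ht
  have htt : t * t = 1 := by
    rw [ht]
    simp only [mul_sub, sub_mul, mul_add, add_mul, he, mul_one, one_mul]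
    abel
  have htT : Commute T t := by
    show T * t = t * T
    rw [ht, mul_sub, sub_mul, mul_add, add_mul, heT, mul_one, one_mul]
  have htadj : ∀ x y, sympForm n F (t x) y = sympForm n F x (t y) := by
    intro x y
    rw [ht]
    simp only [LinearMap.sub_apply, LinearMap.add_apply, Module.End.one_apply]
    rw [isHerm_sympForm.sub_left, isHerm_sympForm.add_left, hadj, isHerm_sympForm.sub_right, isHerm_sympForm.add_right]
  have htiso : ∀ x y, sympForm n F (t x) (t y) = sympForm n F x y := by
    intro x y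
    rw [htadj, ← Module.End.mul_apply, htt, Module.End.one_apply]
  obtain ⟨g', hg'⟩ := exists_psp (n := n) (V := Fin n ⊕ Fin n → F) (by simp; ring) isHerm_sympForm sympForm_self (T * t)
    (by intro x y; rw [Module.End.mul_apply, Module.End.mul_apply, hT, htiso])
  have key : ∀ k, g' ^ k = 1 → 2 ∣ k ∧ orderOf g ∣ k := by
    intro k hk
    obtain ⟨c, hc⟩ := (hg' k).mp hk
    rw [htT.mul_pow] at hc
    rcases Nat.even_or_odd k with hk2 | hk2
    · refine ⟨even_iff_two_dvd.mp hk2, ?_⟩
      obtain ⟨j, rfl⟩ := even_iff_two_dvd.mp hk2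
      have h3 : t ^ (2 * j) = 1 := by rw [pow_mul, pow_two, htt, one_pow]
      rw [h3, mul_one] at hc
      exact orderOf_dvd_of_pow_eq_one ((hg _).mpr ⟨c, hc⟩)
    · exfalso
      obtain ⟨j, hj⟩ := hk2
      have h3 : t ^ k = t := by rw [hj, pow_succ, pow_mul, pow_two, htt, one_pow, one_mul]
      rw [h3] at hc
      have h4 : T ^ (k * 2) = (c * c) • (1 : Module.End F (Fin n ⊕ Fin n → F)) := by
        have h5 : (T ^ k * t) * (T ^ k * t) = T ^ (k * 2) := by
          have h6 : Commute (T ^ k) t := htT.pow_left k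
          calc (T ^ k * t) * (T ^ k * t) = T ^ k * (t * T ^ k) * t := by simp only [mul_assoc]
            _ = T ^ k * (T ^ k * t) * t := by rw [h6.eq]
            _ = (T ^ k * T ^ k) * (t * t) := by simp only [mul_assoc]
            _ = T ^ (k * 2) := by rw [htt, mul_one, pow_mul, pow_two]
        rw [← h5, hc, smul_mul_smul_comm, one_mul]
      have h5 : orderOf g ∣ k * 2 := orderOf_dvd_of_pow_eq_one ((hg _).mpr ⟨_, h4⟩)
      have h6 : orderOf g ∣ k := by
        refine Nat.Coprime.dvd_of_dvd_mul_right ?_ h5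
        exact ho.coprime_two_right
      obtain ⟨l, hl⟩ := h6
      rw [hl, pow_mul, hTo, one_pow, one_mul] at hc
      have h7 : e = c • e := by
        have h8 : t * e = (c • (1 : Module.End F (Fin n ⊕ Fin n → F))) * e := by rw [hc]
        rw [ht, sub_mul, add_mul, he, one_mul, smul_mul_assoc, one_mul, add_sub_cancel_right] at h8
        exact h8
      have h9 : c = 1 := by
        have h10 : (1 - c) • e = 0 := by
          rw [sub_smul (1 : F) c e, one_smul, ← h7, sub_self]
        rcases smul_eq_zero.mp h10 with h | h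
        · exact (sub_eq_zero.mp h).symm
        · exact absurd h he0
      rw [h9, one_smul, ht, sub_eq_iff_eq_add] at hc
      apply he1
      have h10 : (2 : F) • e = (2 : F) • (1 : Module.End F (Fin n ⊕ Fin n → F)) := by
        rw [two_smul, two_smul, hc]
      exact smul_right_injective _ h2 h10
  exact ⟨g', (key _ (pow_orderOf_eq_one g')).1, (key _ (pow_orderOf_eq_one g')).2⟩

variable [Finite F] (p : ℕ) [Fact p.Prime] [CharP F p]

theorem exists_card_eq : ∃ a, 1 ≤ a ∧ Nat.card F = p ^ a := by
  have := Fintype.ofFinite F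
  obtain ⟨a, ha1, ha2⟩ := FiniteField.card F p
  exact ⟨a, a.pos, by rw [Nat.card_eq_fintype_card, ha2]⟩

include p in
theorem classify (h2 : (2 : F) ≠ 0) (hn : 2 ≤ n) (g : Cfsg.PSp n F) (ho : Odd (orderOf g)) :
    (∃ g' : Cfsg.PSp n F, 2 ∣ orderOf g' ∧ orderOf g ∣ orderOf g') ∨ orderOf g ∣ Nat.card F ^ n - 1 ∨
      orderOf g ∣ Nat.card F ^ n + 1 ∨ orderOf g ∣ p ^ Nat.clog p (2 * n) := by
  have hp : p.Prime := Fact.out
  obtain ⟨T, hT, hTo, hg⟩ := exists_isom_odd (by omega) g ho
  have hnt : Nontrivial (Fin n ⊕ Fin n → F) := by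
    have : Nonempty (Fin n) := ⟨⟨0, by omega⟩⟩
    infer_instance
  have hdimV : finrank F (Fin n ⊕ Fin n → F) = 2 * n := by simp; ring
  set q := Nat.card F with hq
  obtain ⟨a, ha1, hqa⟩ := exists_card_eq (F := F) p
  rw [← hq] at hqa
  have hq1 : 1 < q := Finite.one_lt_card
  have hp2 : p ≠ 2 := by
    rintro rfl
    exact h2 (CharP.cast_eq_zero F 2)
  have hpodd : Odd p := hp.odd_of_ne_two hp2
  have hqodd : Odd q := by rw [hqa]; exact hpodd.pow
  obtain ⟨N, hN⟩ : ∃ N, orderOf g = N + 1 := ⟨orderOf g - 1, by obtain ⟨t, ht⟩ := ho; omega⟩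
  have hTk : ∀ (k : ℕ) x y, sympForm n F ((T ^ k) x) ((T ^ k) y) = sympForm n F x y := by
    intro k
    induction k with
    | zero => intro x y; rfl
    | succ k ih => intro x y; rw [pow_succ, Module.End.mul_apply, Module.End.mul_apply, ih, hT]
  have hpow1 : ∀ k, T ^ k = 1 → orderOf g ∣ k := by
    intro k hk
    exact orderOf_dvd_of_pow_eq_one ((hg _).mpr ⟨1, by rw [hk, one_smul]⟩)
  rcases trich isHerm_sympForm (fun c => rfl) T hT N (by rw [← hN]; exact hTo) with
    ⟨e, he, he0, he1, heT, hadj⟩ | ⟨f, k, hf, hk1, hfk, hfm, hdeg⟩ | ⟨e, f, k, hf, hk1, he, heT, hadj, hfk, hfm, hdeg⟩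
  · left
    exact good_D h2 g ho T hT hTo hg e he he0 he1 heT hadj
  · -- primary
    rw [hdimV] at hdeg
    have hff : Fact (Irreducible f) := ⟨hf⟩
    have hfd : FiniteDimensional F (AdjoinRoot f) := (AdjoinRoot.powerBasis hf.ne_zero).finite
    have hfin : Finite (AdjoinRoot f) := Module.finite_of_finite F
    have hfr : finrank F (AdjoinRoot f) = f.natDegree := by
      rw [(AdjoinRoot.powerBasis hf.ne_zero).finrank, AdjoinRoot.powerBasis_dim]
    obtain ⟨τ, hτ, hτ1, hττ⟩ := local_star isHerm_sympForm (fun c => rfl) T hT N (by rw [← hN]; exact hTo) f k hfk hfm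
    have hαo : AdjoinRoot.root f ^ orderOf g = 1 := by
      have h1 : minpoly F T ∣ X ^ orderOf g - 1 := by
        apply minpoly.dvd
        rw [map_sub, map_pow, aeval_X, map_one, hTo, sub_self]
      have h2 := hfm.trans h1
      rw [← AdjoinRoot.mk_eq_zero, map_sub, map_pow, AdjoinRoot.mk_X, map_one, sub_eq_zero] at h2
      exact h2
    have hd1 : 1 ≤ f.natDegree := hf.natDegree_pos
    by_cases hne : ∃ x, τ x ≠ x
    · obtain ⟨s, hs, hτs⟩ := involution_eq_pow τ hττ hne
      have hcard : Nat.card (AdjoinRoot f) = q ^ f.natDegree := by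
        rw [Module.natCard_eq_pow_finrank (K := F) (V := AdjoinRoot f), hfr]
      have hαs : AdjoinRoot.root f ^ (s + 1) = 1 := by
        rw [pow_succ, ← hτs, hτ1]
      have hdeven : Even f.natDegree := by
        rw [← hfr]; exact even_of_involution h2 τ hτ hττ hne
      have hps : p ∣ s := by
        apply hp.dvd_of_dvd_pow (n := 2)
        rw [← hs, hcard, hqa, ← pow_mul]
        exact dvd_pow_self p (by positivity)
      have hsodd : Odd s := by
        have h5 : Odd (s ^ 2) := by rw [← hs, hcard]; exact hqodd.pow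
        rw [pow_two] at h5
        exact (Nat.odd_mul.mp h5).1
      rcases Nat.lt_or_ge f.natDegree (2 * n) with hdn | hdn
      · left
        obtain ⟨g', h3, h4⟩ := exists_field_regular (n := n) p h2 τ hτ hττ hne (by rw [hfr]; exact hdn) s hs hτs
        rw [hfr] at h4
        refine ⟨g', ?_, ?_⟩
        · refine Dvd.dvd.trans ?_ h3
          rw [← even_iff_two_dvd]
          exact hsodd.add_one
        · set i := Nat.clog p k with hi
          have h5 : T ^ ((s + 1) * p ^ i) * 1 = 1 := by
            apply pow_of_root p T 1 f k (s + 1) i _ hαs (Nat.le_pow_clog hp.one_lt k)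
            rw [hfk, zero_mul]
          rw [mul_one] at h5
          refine (hpow1 _ h5).trans ?_
          refine Nat.Coprime.mul_dvd_of_dvd_of_dvd ?_ h3 ?_
          · apply Nat.Coprime.pow_right
            rw [Nat.coprime_comm, Nat.Prime.coprime_iff_not_dvd hp]
            intro hps1
            have := (Nat.dvd_add_right hps).mp hps1
            exact hp.one_lt.ne' (Nat.dvd_one.mp this)
          · rcases Nat.eq_zero_or_pos i with h | h
            · rw [h, pow_zero]; exact one_dvd _
            · have h13 := h4 (i - 1) (by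
                have hm2 : 2 ≤ k := by
                  by_contra hm2
                  have : k = 1 := by omega
                  rw [this, Nat.clog_one_right] at hi
                  omega
                have h14 : p ^ (i - 1) < k := Nat.pow_pred_clog_lt_self hp.one_lt hm2
                have h16 : f.natDegree * (k - 1) + f.natDegree = f.natDegree * k := by
                  conv_rhs => rw [show k = k - 1 + 1 by omega]
                  ring
                have hd2 : 2 ≤ f.natDegree := by
                  obtain ⟨t, ht⟩ := hdeven; omega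
                have h17 : 2 * (k - 1) ≤ f.natDegree * (k - 1) := Nat.mul_le_mul_right _ hd2
                omega)
              rwa [show i - 1 + 1 = i by omega] at h13
      · right; right; left
        have hd : f.natDegree = 2 * n := by
          have : f.natDegree * 1 ≤ f.natDegree * k := Nat.mul_le_mul_left _ hk1
          omega
        have hk : k = 1 := by
          rw [hd] at hdeg
          by_contra hk'
          have h2 : 2 * n * 2 ≤ 2 * n * k := Nat.mul_le_mul_left _ (by omega)
          omega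
        have hsq : s = q ^ n := by
          have h5 : s ^ 2 = (q ^ n) ^ 2 := by rw [← hs, hcard, hd, ← pow_mul, mul_comm]
          exact Nat.pow_left_injective (n := 2) (by omega) h5
        have h5 : T ^ ((s + 1) * p ^ 0) * 1 = 1 := by
          apply pow_of_root p T 1 f k (s + 1) 0 _ hαs (by rw [hk, pow_zero])
          rw [hfk, zero_mul]
        rw [mul_one, pow_zero, mul_one, hsq] at h5
        exact hpow1 _ h5
    · right; right; right
      push Not at hne
      have hα1 : AdjoinRoot.root f = 1 := by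
        rw [hne, mul_self_eq_one_iff] at hτ1
        rcases hτ1 with h | h
        · exact h
        · rw [h, ho.neg_one_pow] at hαo
          exfalso
          apply h2
          have h5 : algebraMap F (AdjoinRoot f) 2 = 0 := by
            rw [map_ofNat]
            have : (2 : AdjoinRoot f) = 1 - (-1) := by norm_num
            rw [this, hαo, sub_self]
          exact (map_eq_zero_iff _ (algebraMap F (AdjoinRoot f)).injective).mp h5
      have h5 : T ^ (1 * p ^ Nat.clog p (2 * n)) * 1 = 1 := by
        apply pow_of_root p T 1 f k 1 _ _ (by rw [pow_one, hα1])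
        · have h6 : 1 * k ≤ f.natDegree * k := Nat.mul_le_mul_right _ hd1
          have h7 := Nat.le_pow_clog hp.one_lt (2 * n)
          omega
        · rw [hfk, zero_mul]
      rw [mul_one, one_mul] at h5
      exact hpow1 _ h5
  · -- hyperbolic pair
    rw [hdimV] at hdeg
    have hff : Fact (Irreducible f) := ⟨hf⟩
    have hfd : FiniteDimensional F (AdjoinRoot f) := (AdjoinRoot.powerBasis hf.ne_zero).finite
    have hfin : Finite (AdjoinRoot f) := Module.finite_of_finite F
    have hfr : finrank F (AdjoinRoot f) = f.natDegree := by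
      rw [(AdjoinRoot.powerBasis hf.ne_zero).finrank, AdjoinRoot.powerBasis_dim]
    have hcard : Nat.card (AdjoinRoot f) = q ^ f.natDegree := by
      rw [Module.natCard_eq_pow_finrank (K := F) (V := AdjoinRoot f), hfr]
    have hαo : AdjoinRoot.root f ^ orderOf g = 1 := by
      have h1 : minpoly F T ∣ X ^ orderOf g - 1 := by
        apply minpoly.dvd
        rw [map_sub, map_pow, aeval_X, map_one, hTo, sub_self]
      have h2 := hfm.trans h1
      rw [← AdjoinRoot.mk_eq_zero, map_sub, map_pow, AdjoinRoot.mk_X, map_one, sub_eq_zero] at h2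
      exact h2
    have hα0 : AdjoinRoot.root f ≠ 0 := by
      intro h
      rw [h, zero_pow (by omega)] at hαo
      exact zero_ne_one hαo
    have hαq : AdjoinRoot.root f ^ (q ^ f.natDegree - 1) = 1 := by
      have := Fintype.ofFinite (AdjoinRoot f)
      rw [← hcard, Nat.card_eq_fintype_card]
      exact FiniteField.pow_card_sub_one_eq_one _ hα0
    have hd1 : 1 ≤ f.natDegree := hf.natDegree_pos
    have hpowe : ∀ M i : ℕ, AdjoinRoot.root f ^ M = 1 → k ≤ p ^ i → T ^ (M * p ^ i) = 1 := by
      intro M i hM hi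
      have h5 := pow_of_root p T e f k M i hfk hM hi
      refine eq_one_of_mul_eq isHerm_sympForm e (T ^ (M * p ^ i)) (hTk _) ?_ ?_ h5 hadj
      · intro y
        refine ⟨(T ^ (M * p ^ i * N)) y, ?_⟩
        rw [← Module.End.mul_apply, ← pow_add, show M * p ^ i + M * p ^ i * N = (N + 1) * (M * p ^ i) by ring, pow_mul,
          ← hN, hTo, one_pow, Module.End.one_apply]
      · exact (Commute.pow_right (show Commute e T from heT) _).eq
    have hdn : f.natDegree ≤ n := by
      have : f.natDegree * 1 ≤ f.natDegree * k := Nat.mul_le_mul_left _ hk1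
      omega
    rcases Nat.lt_or_ge f.natDegree n with hdn' | hdn'
    · left
      obtain ⟨g', h3, h4⟩ := exists_swap_regular (F := F) (n := n) p h2 (K := AdjoinRoot f) (by rw [hfr]; exact hdn')
      rw [hfr] at h4
      rw [hcard] at h3
      refine ⟨g', ?_, ?_⟩
      · refine Dvd.dvd.trans ?_ h3
        rw [← even_iff_two_dvd, Nat.even_sub' (Nat.one_le_pow _ _ (by omega))]
        exact ⟨fun _ => odd_one, fun _ => hqodd.pow⟩
      · set i := Nat.clog p k with hi
        have h5 := hpowe (q ^ f.natDegree - 1) i hαq (Nat.le_pow_clog hp.one_lt k)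
        refine (hpow1 _ h5).trans ?_
        refine Nat.Coprime.mul_dvd_of_dvd_of_dvd ?_ h3 ?_
        · apply Nat.Coprime.pow_right
          rw [Nat.coprime_comm, Nat.Prime.coprime_iff_not_dvd hp]
          intro hps1
          have h19 : p ∣ q ^ f.natDegree := by
            rw [hqa, ← pow_mul]; exact dvd_pow_self p (by positivity)
          have h20 : 1 ≤ q ^ f.natDegree := Nat.one_le_pow _ _ (by omega)
          have h21 : p ∣ 1 := by
            have := (Nat.dvd_sub h19 hps1)
            rwa [Nat.sub_sub_self h20] at this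
          exact hp.one_lt.ne' (Nat.dvd_one.mp h21)
        · rcases Nat.eq_zero_or_pos i with h | h
          · rw [h, pow_zero]; exact one_dvd _
          · have h13 := h4 (i - 1) (by
              have hm2 : 2 ≤ k := by
                by_contra hm2
                have : k = 1 := by omega
                rw [this, Nat.clog_one_right] at hi
                omega
              have h14 : p ^ (i - 1) < k := Nat.pow_pred_clog_lt_self hp.one_lt hm2
              have h16 : f.natDegree * (k - 1) + f.natDegree = f.natDegree * k := by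
                conv_rhs => rw [show k = k - 1 + 1 by omega]
                ring
              have h17 : 1 * (k - 1) ≤ f.natDegree * (k - 1) := Nat.mul_le_mul_right _ hd1
              omega)
            rwa [show i - 1 + 1 = i by omega] at h13
    · right; left
      have hd : f.natDegree = n := by omega
      have hk : k = 1 := by
        rw [hd] at hdeg
        by_contra hk'
        have h2 : n * 2 ≤ n * k := Nat.mul_le_mul_left _ (by omega)
        omega
      have h5 := hpowe (q ^ f.natDegree - 1) 0 hαq (by rw [hk, pow_zero])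
      rw [pow_zero, mul_one, hd] at h5
      exact hpow1 _ h5

include p in
theorem exists_singers (h2 : (2 : F) ≠ 0) (hn : 2 ≤ n) :
    ∃ s ρ : Cfsg.PSp n F, 2 ∣ orderOf ρ ∧ ∀ m : ℕ, Odd m → (m ∣ Nat.card F ^ n - 1 ∨ m ∣ Nat.card F ^ n + 1) →
      m ∣ orderOf ρ ∨ m ∣ orderOf s := by
  have hp : p.Prime := Fact.out
  obtain ⟨s₁, h₁⟩ := exists_split (F := F) (n := n) h2 (by omega)
  obtain ⟨s₂, h₂⟩ := exists_nonsplit (F := F) (n := n) p h2 (by omega)
  obtain ⟨a, ha1, hqa⟩ := exists_card_eq (F := F) p
  have hp2 : p ≠ 2 := by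
    rintro rfl
    exact h2 (CharP.cast_eq_zero F 2)
  have hqodd : Odd (Nat.card F ^ n) := by
    rw [hqa]; exact (hp.odd_of_ne_two hp2).pow.pow
  have h3 : ∀ m : ℕ, Odd m → m ∣ Nat.card F ^ n - 1 → m ∣ orderOf s₁ := fun m hm h =>
    hm.coprime_two_right.dvd_of_dvd_mul_left (h.trans h₁)
  have h4 : ∀ m : ℕ, Odd m → m ∣ Nat.card F ^ n + 1 → m ∣ orderOf s₂ := fun m hm h =>
    hm.coprime_two_right.dvd_of_dvd_mul_left (h.trans h₂)
  obtain ⟨t, ht⟩ := hqodd
  rcases Nat.even_or_odd t with hte | hto
  · obtain ⟨j, hj⟩ := hte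
    refine ⟨s₂, s₁, ?_, ?_⟩
    · have h5 : 2 * 2 ∣ Nat.card F ^ n - 1 := ⟨j, by omega⟩
      exact Nat.dvd_of_mul_dvd_mul_left (by omega) (h5.trans h₁)
    · rintro m hm (h | h)
      · exact Or.inl (h3 m hm h)
      · exact Or.inr (h4 m hm h)
  · obtain ⟨j, hj⟩ := hto
    refine ⟨s₁, s₂, ?_, ?_⟩
    · have h5 : 2 * 2 ∣ Nat.card F ^ n + 1 := ⟨j + 1, by omega⟩
      exact Nat.dvd_of_mul_dvd_mul_left (by omega) (h5.trans h₂)
    · rintro m hm (h | h)
      · exact Or.inr (h3 m hm h)
      · exact Or.inl (h4 m hm h)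

end Cfsg.Agent.S2512

namespace Cfsg.Agent.S2512

open Cfsg.Agent.Lib.SympSpec Cfsg.Agent.Lib.SpecAssembly

/-- Let F be a finite field of odd order q = p^a, n ≥ 2 (with q ≥ 3 automatic), and L = PSp(2n, F). Then for every m the direct product L × L × L × (ℤ/2)^m has the same set of element orders as L × L × L; and if 2n − 1 is not a power of p, then already L × L × (ℤ/2)^m has the same set of element orders as L × L. -/
theorem result {F : Type*} [Field F] [Fintype F] (p a n m : ℕ) (hp : p.Prime) (ha : 1 ≤ a) (hF : Fintype.card F = p ^ a) (hodd : Odd (Fintype.card F))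
    (hn : 2 ≤ n) :
    Set.range (orderOf : Cfsg.PSp n F × Cfsg.PSp n F × Cfsg.PSp n F × Multiplicative (Fin m → ZMod 2) → ℕ) = Set.range (orderOf : Cfsg.PSp n F × Cfsg.PSp n F × Cfsg.PSp n F → ℕ) ∧
    ((¬ ∃ j : ℕ, 2 * n - 1 = p ^ j) →
      Set.range (orderOf : Cfsg.PSp n F × Cfsg.PSp n F × Multiplicative (Fin m → ZMod 2) → ℕ) = Set.range (orderOf : Cfsg.PSp n F × Cfsg.PSp n F → ℕ)) := by
  classical
  have hpf : Fact p.Prime := ⟨hp⟩
  have h2f : Fact (Nat.Prime 2) := ⟨Nat.prime_two⟩
  have hch : CharP F p := charP_of_card_eq_prime_pow hF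
  have hfinL : Finite (Cfsg.PSp n F) := Quotient.finite _
  have hpodd : Odd p := by
    rcases hp.eq_two_or_odd' with h | h
    · rw [hF, h] at hodd
      rw [Nat.odd_pow_iff (by omega)] at hodd
      exact absurd hodd (by decide)
    · exact h
  have h2 : (2 : F) ≠ 0 := by
    intro h
    have h3 : ((2 : ℕ) : F) = 0 := by push_cast; exact h
    rw [CharP.cast_eq_zero_iff F p] at h3
    have h4 := Nat.le_of_dvd (by omega) h3
    have h5 := hp.two_le
    have h6 : p = 2 := by omega
    rw [h6] at hpodd
    exact absurd hpodd (by decide)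
  obtain ⟨s, ρ, hρ, hsρ⟩ := exists_singers (F := F) (n := n) p h2 hn
  obtain ⟨u, hu⟩ := exists_regular (F := F) (n := n) p h2 (by omega)
  obtain ⟨ρ', hρ2, hρ'⟩ := exists_neg_regular (F := F) (n := n) p h2 hn
  set j := Nat.clog p (2 * n) with hj
  have hpos : 0 < j := Nat.clog_pos hp.one_lt (by omega)
  have hlt : p ^ (j - 1) < 2 * n := Nat.pow_pred_clog_lt_self hp.one_lt (by omega)
  have hu' : p ^ j ∣ orderOf u := by
    have := hu (j - 1) hlt
    rwa [show j - 1 + 1 = j by omega] at this
  -- replace u by an element of order exactly p ^ j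
  obtain ⟨d, hd⟩ := hu'
  have hopos : 0 < orderOf u := orderOf_pos u
  have hd0 : d ≠ 0 := by rintro rfl; rw [mul_zero] at hd; omega
  have hod : orderOf (u ^ d) = p ^ j := by
    rw [orderOf_pow_of_dvd hd0 (hd ▸ dvd_mul_left d _), hd, Nat.mul_div_cancel _ (Nat.pos_of_ne_zero hd0)]
  have htri : ∀ g : Cfsg.PSp n F, (∃ g' : Cfsg.PSp n F, 2 ∣ orderOf g' ∧ orderOf g ∣ orderOf g') ∨
      orderOf g ∣ orderOf s ∨ orderOf g ∣ orderOf (u ^ d) := by
    intro g
    rcases Nat.even_or_odd (orderOf g) with he | ho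
    · exact Or.inl ⟨g, even_iff_two_dvd.mp he, dvd_rfl⟩
    · rcases classify p h2 hn g ho with h | h | h | h
      · exact Or.inl h
      · rcases hsρ _ ho (Or.inl h) with h | h
        · exact Or.inl ⟨ρ, hρ, h⟩
        · exact Or.inr (Or.inl h)
      · rcases hsρ _ ho (Or.inr h) with h | h
        · exact Or.inl ⟨ρ, hρ, h⟩
        · exact Or.inr (Or.inl h)
      · right; right; rw [hod]; exact h
  obtain ⟨h3, h4⟩ := spectra_eq 2 m s (u ^ d) ρ hρ htri
  refine ⟨h3, fun hnj => h4 ⟨ρ', hρ2, ?_⟩⟩
  rw [hod]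
  have h5 : p ^ (j - 1) ≠ 2 * n - 1 := fun h => hnj ⟨j - 1, h.symm⟩
  have h6 : Odd (p ^ (j - 1)) := hpodd.pow
  obtain ⟨t, ht⟩ := h6
  have := hρ' (j - 1) (by omega)
  rwa [show j - 1 + 1 = j by omega] at this

end Cfsg.Agent.S2512
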