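import Cfsg.Statements.S2513
import Cfsg.Agent.Lib.PSLSpectrum
import Cfsg.Agent.Lib.PolyOrder

set_option autoImplicit false
open Cfsg

namespace Cfsg.Agent.S2513

open Module Cfsg.Agent.Lib.PSLSpectrum Cfsg.Agent.Lib.PolyOrder

variable {F : Type*} [Field F] [Finite F]

theorem eq_one_of_ne_zero (hF : Nat.card F = 2) (c : F) (hc : c ≠ 0) : c = 1 := by
  have := Fintype.ofFinite F
  have h := FiniteField.pow_card_sub_one_eq_one c hc
  rw [← Nat.card_eq_fintype_card, hF] at h
  simpa using h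

/-- multiplication by a generator of the multiplicative group of the field with `2^d` elements -/
theorem exists_lmul (hF : Nat.card F = 2) (d : ℕ) (hd : 1 ≤ d) :
    ∃ (K : Type) (_ : AddCommGroup K) (_ : Module F K) (_ : FiniteDimensional F K) (T : Module.End F K),
      finrank F K = d ∧ LinearMap.det T ≠ 0 ∧ ∀ k, T ^ k = 1 → 2 ^ d - 1 ∣ k := by
  have : Fact (Nat.Prime 2) := ⟨Nat.prime_two⟩
  have hch : CharP F 2 := by
    have := Fintype.ofFinite F
    apply charP_of_card_eq_prime
    rw [← hF, Nat.card_eq_fintype_card]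
  have : NeZero d := ⟨by omega⟩
  let K := FiniteField.Extension F 2 d
  have : Finite K := inferInstance
  have := Fintype.ofFinite K
  obtain ⟨z, hz⟩ := IsCyclic.exists_generator (α := Kˣ)
  have hzo : orderOf z = 2 ^ d - 1 := by
    rw [orderOf_eq_card_of_forall_mem_zpowers hz, Nat.card_units, FiniteField.natCard_extension, hF]
  refine ⟨K, inferInstance, inferInstance, inferInstance, Algebra.lmul F K (z : K), FiniteField.finrank_extension F 2 d, ?_, ?_⟩
  · rw [← Algebra.norm_apply]
    exact Algebra.norm_ne_zero_iff.mpr z.ne_zero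
  · intro k hk
    rw [← hzo]
    apply orderOf_dvd_of_pow_eq_one
    have h1 : (Algebra.lmul F K (z : K)) ^ k = (1 : F) • (1 : Module.End F K) := by rw [hk, one_smul]
    rw [lmul_pow_eq_smul_one_iff, map_one] at h1
    apply Units.ext
    rw [Units.val_pow_eq_pow_val, h1, Units.val_one]

/-- an element of `PSL_n(2)` whose order is divisible by `2^d-1` and `2^(n-d)-1` -/
theorem exists_two (hF : Nat.card F = 2) (n d : ℕ) (hd : 1 ≤ d) (hdn : d ≤ n) :
    ∃ g : Matrix.ProjectiveSpecialLinearGroup (Fin n) F, ∀ k, g ^ k = 1 → 2 ^ d - 1 ∣ k ∧ (d < n → 2 ^ (n - d) - 1 ∣ k) := by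
  obtain ⟨K, i1, i2, i3, T, hK, hdet, hT⟩ := exists_lmul hF d hd
  have hone : ∀ (K : Type) [AddCommGroup K] [Module F K] [FiniteDimensional F K] (T : Module.End F K) (_ : 0 < finrank F K)
      (_ : LinearMap.det T ≠ 0) (k : ℕ) (c : F) (_ : T ^ k = c • (1 : Module.End F K)), T ^ k = 1 := by
    intro K _ _ _ T hK hT k c hc
    by_cases h0 : c = 0
    · exfalso
      have h1 := congrArg LinearMap.det hc
      rw [map_pow, LinearMap.det_smul, h0, zero_pow hK.ne', zero_mul] at h1
      exact hT (eq_zero_of_pow_eq_zero h1)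
    · rw [hc, eq_one_of_ne_zero hF c h0, one_smul]
  rcases Nat.lt_or_ge d n with hlt | hge
  · obtain ⟨K', j1, j2, j3, T', hK', hdet', hT'⟩ := exists_lmul hF (n - d) (by omega)
    have hdet2 : LinearMap.det (T.prodMap T') = 1 := by
      apply eq_one_of_ne_zero hF
      rw [LinearMap.det_prodMap]
      exact mul_ne_zero hdet hdet'
    obtain ⟨g, hg⟩ := exists_psl (n := n) (V := K × K') (by rw [finrank_prod, hK, hK']; omega) (T.prodMap T') hdet2
    refine ⟨g, fun k hk => ?_⟩
    obtain ⟨c, hc⟩ := (hg k).mp hk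
    rw [prodMap_pow', prodMap_eq_smul_one_iff] at hc
    exact ⟨hT k (hone K T (by omega) hdet k c hc.1), fun _ => hT' k (hone K' T' (by omega) hdet' k c hc.2)⟩
  · have hnd : d = n := le_antisymm hdn hge
    obtain ⟨g, hg⟩ := exists_psl (n := n) (V := K) (by omega) T (eq_one_of_ne_zero hF _ hdet)
    refine ⟨g, fun k hk => ⟨?_, fun h => by omega⟩⟩
    obtain ⟨c, hc⟩ := (hg k).mp hk
    exact hT k (hone K T (by omega) hdet k c hc)

/-- Let F be the field with two elements, n ≥ 2, L = PSL(n, F) and k₀ = ⌊(n + 3)/2⌋. Then for every k ≥ k₀ the direct product of k copies of L has the same set of element orders as the direct product of k₀ copies of L. -/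
theorem result {F : Type*} [Field F] [Fintype F] (hF : Fintype.card F = 2) (n k : ℕ) (hn : 2 ≤ n) (hk : (n + 3) / 2 ≤ k) :
    Set.range (orderOf : (Fin k → Matrix.ProjectiveSpecialLinearGroup (Fin n) F) → ℕ) = Set.range (orderOf : (Fin ((n + 3) / 2) → Matrix.ProjectiveSpecialLinearGroup (Fin n) F) → ℕ) := by
  classical
  have hF' : Nat.card F = 2 := by rw [Nat.card_eq_fintype_card, hF]
  have : Fact (Nat.Prime 2) := ⟨Nat.prime_two⟩
  have hch : CharP F 2 := charP_of_card_eq_prime hF
  have hfinL : Finite (Matrix.ProjectiveSpecialLinearGroup (Fin n) F) := Quotient.finite _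
  -- the unipotent element
  obtain ⟨u, hu⟩ : ∃ g : Matrix.ProjectiveSpecialLinearGroup (Fin n) F, ∀ k, g ^ k = 1 → ∀ i, 2 ^ i < n → 2 ^ (i + 1) ∣ k := by
    obtain ⟨U, hdet, ⟨v, hv, hUv⟩, -, hU⟩ := exists_unipotent (F := F) 2 n (by omega)
    obtain ⟨g, hg⟩ := exists_psl (n := n) (V := Fin n → F) (by simp) U hdet
    refine ⟨g, fun k hk => hU k ?_⟩
    obtain ⟨c, hc⟩ := (hg k).mp hk
    have h1 : (U ^ k) v = v := by
      clear hc hk
      induction k with
      | zero => rfl
      | succ k ih => rw [pow_succ, Module.End.mul_apply, hUv, ih]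
    rw [hc] at h1
    have h2 : (c - 1) • v = 0 := by
      rw [sub_smul, one_smul, sub_eq_zero]; exact h1
    have h3 : c = 1 := by
      rcases smul_eq_zero.mp h2 with h | h
      · exact sub_eq_zero.mp h
      · exact absurd h hv
    rw [hc, h3, one_smul]
  -- the semisimple elements
  have hss : ∀ i : ℕ, ∃ g : Matrix.ProjectiveSpecialLinearGroup (Fin n) F, 1 ≤ i → i ≤ n → ∀ k, g ^ k = 1 →
      2 ^ i - 1 ∣ k ∧ (i < n → 2 ^ (n - i) - 1 ∣ k) := by
    intro i
    by_cases h : 1 ≤ i ∧ i ≤ n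
    · obtain ⟨g, hg⟩ := exists_two hF' n i h.1 h.2
      exact ⟨g, fun _ _ => hg⟩
    · exact ⟨1, fun h1 h2 => absurd ⟨h1, h2⟩ h⟩
  choose s hs using hss
  let x : Fin ((n + 3) / 2) → Matrix.ProjectiveSpecialLinearGroup (Fin n) F :=
    fun i => if i.val = 0 then u else s (n + 1 - i.val)
  set N := orderOf x with hN
  have hxN : ∀ i, x i ^ N = 1 := fun i => by
    have := congrFun (pow_orderOf_eq_one x) i
    exact this
  have hN0 : 0 < N := orderOf_pos x
  have hN2 : ∀ i, 2 ^ i < n → 2 ^ (i + 1) ∣ N := by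
    have h1 := hxN ⟨0, by omega⟩
    have h2 : x ⟨0, by omega⟩ = u := if_pos rfl
    rw [h2] at h1
    exact hu N h1
  have hNd' : ∀ d, n < 2 * d → d ≤ n → 2 ^ d - 1 ∣ N ∧ (d < n → 2 ^ (n - d) - 1 ∣ N) := by
    intro d hd hdn
    have h1 := hxN ⟨n + 1 - d, by omega⟩
    have h2 : x ⟨n + 1 - d, by omega⟩ = s d := by
      show (if n + 1 - d = 0 then u else s (n + 1 - (n + 1 - d))) = s d
      rw [if_neg (by omega)]
      congr 1; omega
    rw [h2] at h1
    exact hs d (by omega) hdn N h1
  have hNd : ∀ d, 1 ≤ d → d ≤ n → 2 ^ d - 1 ∣ N := by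
    intro d hd hdn
    rcases lt_trichotomy n (2 * d) with h | h | h
    · exact (hNd' d h hdn).1
    · refine Dvd.dvd.trans ?_ (hNd' n (by omega) le_rfl).1
      rw [h, mul_comm, pow_mul]
      exact Nat.sub_one_dvd_pow_sub_one _ 2
    · have := (hNd' (n - d) (by omega) (by omega)).2 (by omega)
      rwa [show n - (n - d) = d by omega] at this
  -- exponent
  obtain ⟨j, hj1, hj2⟩ : ∃ j, n ≤ 2 ^ j ∧ 2 ^ j ∣ N := by
    refine ⟨Nat.clog 2 n, Nat.le_pow_clog (by norm_num) n, ?_⟩
    have h1 : 0 < Nat.clog 2 n := Nat.clog_pos (by norm_num) hn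
    have h2 := hN2 (Nat.clog 2 n - 1) (Nat.pow_pred_clog_lt_self (by norm_num) hn)
    rwa [show Nat.clog 2 n - 1 + 1 = Nat.clog 2 n by omega] at h2
  obtain ⟨E, hE⟩ := hj2
  have hexp : ∀ g : Matrix.ProjectiveSpecialLinearGroup (Fin n) F, g ^ N = 1 := by
    intro g
    obtain ⟨T, hT, hTk⟩ := exists_end g
    rw [hTk]
    refine ⟨1, ?_⟩
    rw [one_smul, hE, mul_comm]
    apply pow_eq_one_of_dvd 2 T (by rw [hT]; exact one_ne_zero)
    · intro i hi hin
      rw [hF']
      have hin' : i ≤ n := by simpa using hin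
      have h1 := hNd i hi hin'
      rw [hE] at h1
      refine Nat.Coprime.dvd_of_dvd_mul_left ?_ h1
      apply Nat.Coprime.pow_right
      have : Odd (2 ^ i - 1) := by
        apply Nat.Even.sub_odd
        · exact Nat.one_le_two_pow
        · exact (Nat.even_pow.mpr ⟨even_two, by omega⟩)
        · exact odd_one
      exact Nat.coprime_two_right.mpr this
    · simpa using hj1
  apply Set.Subset.antisymm
  · apply range_orderOf_subset
    intro y
    refine ⟨x, ?_⟩
    rw [← hN]
    apply orderOf_dvd_of_pow_eq_one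
    funext i
    exact hexp (y i)
  · apply range_orderOf_subset
    intro y
    refine ⟨fun i => if h : i.val < (n + 3) / 2 then y ⟨i.val, h⟩ else 1, ?_⟩
    apply orderOf_dvd_of_pow_eq_one
    funext i
    have h1 := congrFun (pow_orderOf_eq_one (fun i : Fin k => if h : i.val < (n + 3) / 2 then y ⟨i.val, h⟩ else 1))
      ⟨i.val, by omega⟩
    simpa [i.isLt] using h1

end Cfsg.Agent.S2513
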