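import Cfsg.Statements.S2514
import Cfsg.Agent.Lib.PSLSpectrum

set_option autoImplicit false
open Cfsg

namespace Cfsg.Agent.S2514

open Cfsg.Agent.Lib.PSLSpectrum

theorem exists_max {X : Type*} [Group X] [Finite X] (x : X) :
    ∃ x' : X, orderOf x ∣ orderOf x' ∧ ∀ m ∈ Set.range (orderOf : X → ℕ), orderOf x' ∣ m → m = orderOf x' := by
  classical
  have hne : {y : X | orderOf x ∣ orderOf y}.Nonempty := ⟨x, dvd_rfl⟩
  obtain ⟨x', hx', hmax⟩ := Set.exists_max_image {y : X | orderOf x ∣ orderOf y} orderOf (Set.toFinite _) hne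
  refine ⟨x', hx', ?_⟩
  rintro _ ⟨y, rfl⟩ hy
  exact le_antisymm (hmax y (Dvd.dvd.trans hx' hy)) (Nat.le_of_dvd (orderOf_pos y) hy)

/-- For a finite group X write μ(X) for the set of element orders of X that are maximal under divisibility. Let G and H be finite groups and k ≥ 1 such that μ(H) ⊆ μ(G) and μ(G) has fewer than k elements outside μ(H). Then the direct product of k copies of G has the same set of element orders as the direct product of k − 1 copies of G with H. -/
theorem result {G H : Type*} [Group G] [Finite G] [Group H] [Finite H] (k : ℕ) (hk : 1 ≤ k)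
    (hsub : {n : ℕ | n ∈ Set.range (orderOf : H → ℕ) ∧ ∀ m ∈ Set.range (orderOf : H → ℕ), n ∣ m → m = n} ⊆ {n : ℕ | n ∈ Set.range (orderOf : G → ℕ) ∧ ∀ m ∈ Set.range (orderOf : G → ℕ), n ∣ m → m = n})
    (hfew : ({n : ℕ | n ∈ Set.range (orderOf : G → ℕ) ∧ ∀ m ∈ Set.range (orderOf : G → ℕ), n ∣ m → m = n} \ {n : ℕ | n ∈ Set.range (orderOf : H → ℕ) ∧ ∀ m ∈ Set.range (orderOf : H → ℕ), n ∣ m → m = n}).ncard < k) :
    Set.range (orderOf : (Fin k → G) → ℕ) = Set.range (orderOf : (Fin (k - 1) → G) × H → ℕ) := by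
  classical
  obtain ⟨k', rfl⟩ := Nat.exists_eq_add_of_le' hk
  show Set.range (orderOf : (Fin (k' + 1) → G) → ℕ) = Set.range (orderOf : (Fin k' → G) × H → ℕ)
  apply Set.Subset.antisymm
  · apply range_orderOf_subset
    intro x
    choose x' hx' hmax using fun i => exists_max (x i)
    by_cases h : ∃ i, orderOf (x' i) ∈ {n : ℕ | n ∈ Set.range (orderOf : H → ℕ) ∧ ∀ m ∈ Set.range (orderOf : H → ℕ), n ∣ m → m = n}
    · obtain ⟨i, ⟨h, hh⟩, -⟩ := h
      refine ⟨(fun j => x' (i.succAbove j), h), ?_⟩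
      apply orderOf_dvd_of_pow_eq_one
      have h1 := pow_orderOf_eq_one ((fun j => x' (i.succAbove j), h) : (Fin k' → G) × H)
      set N := orderOf ((fun j => x' (i.succAbove j), h) : (Fin k' → G) × H)
      have h2 : ∀ j, x' (i.succAbove j) ^ N = 1 := fun j => congrFun (congrArg Prod.fst h1) j
      have h3 : h ^ N = 1 := congrArg Prod.snd h1
      funext l
      show x l ^ N = 1
      rw [← orderOf_dvd_iff_pow_eq_one]
      rcases Fin.eq_self_or_eq_succAbove i l with hl | ⟨j, hj⟩
      · rw [hl]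
        refine (hx' i).trans ?_
        rw [← hh]
        exact orderOf_dvd_of_pow_eq_one h3
      · rw [hj]
        exact (hx' _).trans (orderOf_dvd_of_pow_eq_one (h2 j))
    · push Not at h
      set M := ({n : ℕ | n ∈ Set.range (orderOf : G → ℕ) ∧ ∀ m ∈ Set.range (orderOf : G → ℕ), n ∣ m → m = n} \ {n : ℕ | n ∈ Set.range (orderOf : H → ℕ) ∧ ∀ m ∈ Set.range (orderOf : H → ℕ), n ∣ m → m = n}) with hM
      have hMfin : M.Finite := by
        apply Set.Finite.subset (Set.finite_range (orderOf : G → ℕ))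
        intro n hn
        exact hn.1.1
      have hmem : ∀ i, orderOf (x' i) ∈ M := fun i => ⟨⟨⟨x' i, rfl⟩, hmax i⟩, h i⟩
      obtain ⟨i, -, j, -, hij, hord⟩ : ∃ i ∈ (Set.univ : Set (Fin (k' + 1))), ∃ j ∈ (Set.univ : Set (Fin (k' + 1))), i ≠ j ∧ orderOf (x' i) = orderOf (x' j) := by
        apply Set.exists_ne_map_eq_of_ncard_lt_of_maps_to (t := M) _ (fun i _ => hmem i) hMfin
        rw [Set.ncard_univ, Nat.card_eq_fintype_card, Fintype.card_fin]
        exact hfew
      refine ⟨(fun j => x' (i.succAbove j), 1), ?_⟩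
      apply orderOf_dvd_of_pow_eq_one
      have h1 := pow_orderOf_eq_one ((fun j => x' (i.succAbove j), 1) : (Fin k' → G) × H)
      set N := orderOf ((fun j => x' (i.succAbove j), 1) : (Fin k' → G) × H)
      have h2 : ∀ j, x' (i.succAbove j) ^ N = 1 := fun j => congrFun (congrArg Prod.fst h1) j
      have h3 : ∀ l, l ≠ i → orderOf (x' l) ∣ N := by
        intro l hl
        rcases Fin.eq_self_or_eq_succAbove i l with hl' | ⟨j, hj⟩
        · exact absurd hl' hl
        · rw [hj]; exact orderOf_dvd_of_pow_eq_one (h2 j)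
      funext l
      show x l ^ N = 1
      rw [← orderOf_dvd_iff_pow_eq_one]
      by_cases hl : l = i
      · rw [hl]
        refine (hx' i).trans ?_
        rw [hord]
        exact h3 j (Ne.symm hij)
      · exact (hx' l).trans (h3 l hl)
  · apply range_orderOf_subset
    rintro ⟨y, h⟩
    obtain ⟨h', hh', hmaxh⟩ := exists_max h
    obtain ⟨⟨g, hg⟩, -⟩ := hsub ⟨⟨h', rfl⟩, hmaxh⟩
    refine ⟨Fin.cons g y, ?_⟩
    apply orderOf_dvd_of_pow_eq_one
    have h1 := pow_orderOf_eq_one (Fin.cons g y : Fin (k' + 1) → G)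
    set N := orderOf (Fin.cons g y : Fin (k' + 1) → G)
    have h2 : g ^ N = 1 := congrFun h1 0
    have h3 : ∀ j : Fin k', y j ^ N = 1 := fun j => congrFun h1 j.succ
    apply Prod.ext
    · funext j; exact h3 j
    · show h ^ N = 1
      rw [← orderOf_dvd_iff_pow_eq_one]
      refine hh'.trans ?_
      rw [← hg]
      exact orderOf_dvd_of_pow_eq_one h2

end Cfsg.Agent.S2514
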