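import Cfsg.Statements.S2515
import Cfsg.Agent.Lib.PSL2Orders

set_option autoImplicit false
open Cfsg

namespace Cfsg.Agent.S2515

open Matrix Cfsg.Agent.Lib.SL2Basic Cfsg.Agent.Lib.SL2Tori

section

variable {F : Type} [Field F] [Fintype F] [CharP F 3]

local notation "SL2" => Matrix.SpecialLinearGroup (Fin 2) F
local notation "M2" => Matrix (Fin 2) (Fin 2) F
local notation "PSL2" => Matrix.ProjectiveSpecialLinearGroup (Fin 2) F

/-- Frobenius on `SL₂` -/
noncomputable def fr (F : Type) [Field F] [CharP F 3] : F →+* F := frobenius F 3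

omit [Fintype F] in
theorem fr_apply (x : F) : fr F x = x ^ 3 := rfl

/-- twisted tensor action -/
noncomputable def rho0 : SL2 →* Module.End F M2 where
  toFun g := LinearMap.mulLeft F (g : M2) ∘ₗ LinearMap.mulRight F (((g : M2).map (fr F))ᵀ)
  map_one' := by
    apply LinearMap.ext
    intro X
    simp
  map_mul' g h := by
    apply LinearMap.ext
    intro X
    simp only [LinearMap.comp_apply, LinearMap.mulLeft_apply, LinearMap.mulRight_apply, Module.End.mul_apply,
      Matrix.SpecialLinearGroup.coe_mul, Matrix.map_mul, Matrix.transpose_mul, mul_assoc]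

omit [Fintype F] in
theorem rho0_apply (g : SL2) (X : M2) : rho0 g X = (g : M2) * (X * ((g : M2).map (fr F))ᵀ) := rfl

omit [Fintype F] in
theorem neg_one_map : ((-1 : M2).map (fr F)) = -1 := by
  ext i j
  fin_cases i <;> fin_cases j <;> simp

omit [Fintype F] in
theorem rho0_center {z : SL2} (hz : z ∈ Subgroup.center SL2) : rho0 z = 1 := by
  apply LinearMap.ext
  intro X
  rw [rho0_apply]
  rcases (mem_center_iff' z).1 hz with rfl | rfl
  · simp
  · simp [neg_one_map]

/-- the action of `PSL₂` -/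
noncomputable def rho1 : PSL2 →* Module.End F M2 :=
  QuotientGroup.lift (Subgroup.center SL2) rho0 (fun _ hz => rho0_center hz)

abbrev KK (F : Type) [Field F] := Matrix.ProjectiveSpecialLinearGroup (Fin 2) F × ℤˣ

/-- the action of `PSL₂ × {±1}` -/
noncomputable def rho : Representation F (KK F) M2 where
  toFun k := (((k.2 : ℤˣ) : ℤ) : F) • rho1 k.1
  map_one' := by simp
  map_mul' k l := by
    rw [Prod.snd_mul, Prod.fst_mul, map_mul, smul_mul_smul_comm]
    push_cast
    rfl

omit [Fintype F] in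
theorem rho_apply (A : SL2) (e : ℤˣ) (X : M2) :
    rho ((QuotientGroup.mk A : PSL2), e) X = ((e : ℤ) : F) • ((A : M2) * (X * ((A : M2).map (fr F))ᵀ)) := rfl

omit [Fintype F] in
/-- fixed vectors -/
theorem tr_of_fixed {A : SL2} {e : ℤˣ} {X : M2} (hX : X ≠ 0) (h : rho ((QuotientGroup.mk A : PSL2), e) X = X) :
    tr A ^ 3 = ((e : ℤ) : F) * tr A := by
  set ε : F := ((e : ℤ) : F) with hε
  have hε2 : ε * ε = 1 := by
    rcases Int.units_eq_one_or e with rfl | rfl <;> simp [hε]
  set B : SL2 := ⟨(A : M2).map (fr F), by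
    have h1 : ((A : M2).map (fr F)).det = fr F (A : M2).det := ((fr F).map_det (A : M2)).symm
    rw [h1, A.2, map_one]⟩ with hB
  have hB' : (B : M2) = (A : M2).map (fr F) := rfl
  have htB : tr B = tr A ^ 3 := by
    rw [tr_def, tr_def, hB', Matrix.map_apply, Matrix.map_apply, ← map_add, fr_apply]
  rw [rho_apply, ← hB', ← hε] at h
  -- A X = ε X C, with C = (Bᵀ)⁻¹
  have hBB : (B : M2)ᵀ * ((B⁻¹ : SL2) : M2)ᵀ = 1 := by
    rw [← Matrix.transpose_mul, ← Matrix.SpecialLinearGroup.coe_mul, inv_mul_cancel,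
      Matrix.SpecialLinearGroup.coe_one, Matrix.transpose_one]
  set C : M2 := ((B⁻¹ : SL2) : M2)ᵀ with hC
  have h1 : (A : M2) * X = ε • (X * C) := by
    have h2 : X * C = ε • ((A : M2) * X) := by
      nth_rewrite 1 [← h]
      rw [smul_mul_assoc, mul_assoc, mul_assoc, hBB, mul_one]
    rw [h2, smul_smul, hε2, one_smul]
  have hC2 : C * C = tr A ^ 3 • C - 1 := by
    have h3 := sq_eq (B⁻¹)
    rw [tr_inv, htB] at h3
    rw [hC, ← Matrix.transpose_mul, h3, Matrix.transpose_sub, Matrix.transpose_smul, Matrix.transpose_one]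
  have h4 : (A : M2) * ((A : M2) * X) = X * (C * C) := by
    rw [h1, mul_smul_comm, ← mul_assoc, h1, smul_mul_assoc, smul_smul, hε2, one_smul, mul_assoc]
  rw [← mul_assoc, sq_eq A, hC2, sub_mul, mul_sub, one_mul, mul_one, smul_mul_assoc, mul_smul_comm, h1, smul_smul] at h4
  have h5 : (tr A * ε - tr A ^ 3) • (X * C) = 0 := by
    rw [sub_smul]
    have := sub_left_injective h4
    rw [this, sub_self]
  have hXC : X * C ≠ 0 := by
    intro h0
    apply hX
    have h6 : C * (B : M2)ᵀ = 1 := by
      rw [hC, ← Matrix.transpose_mul, ← Matrix.SpecialLinearGroup.coe_mul, mul_inv_cancel,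
        Matrix.SpecialLinearGroup.coe_one, Matrix.transpose_one]
    calc X = X * (C * (B : M2)ᵀ) := by rw [h6, mul_one]
      _ = (X * C) * (B : M2)ᵀ := by rw [mul_assoc]
      _ = 0 := by rw [h0, zero_mul]
  have h7 := (smul_eq_zero.1 h5).resolve_right hXC
  linear_combination -h7


omit [Fintype F] in
theorem small_of_fixed (hsq : ¬ IsSquare (-1 : F)) {k : KK F} {X : M2} (hX : X ≠ 0) (h : rho k X = X) :
    k ^ 2 = 1 ∨ k ^ 3 = 1 := by
  obtain ⟨x, e⟩ := k
  induction x using QuotientGroup.induction_on with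
  | H A =>
    have h1 := tr_of_fixed hX h
    by_cases h0 : tr A = 0
    · left
      have h2 := sq_eq A
      rw [h0, zero_smul, zero_sub] at h2
      have h3 : A * A = -1 := Subtype.ext (by rw [Matrix.SpecialLinearGroup.coe_mul, h2]; rfl)
      have h4 : (QuotientGroup.mk A : PSL2) ^ 2 = 1 := by
        rw [← QuotientGroup.mk_pow, pow_two, h3, QuotientGroup.eq_one_iff, mem_center_iff']
        right; rfl
      ext1
      · exact h4
      · exact Int.units_sq e
    · have h2 : tr A ^ 2 = ((e : ℤ) : F) := by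
        have : tr A * (tr A ^ 2 - ((e : ℤ) : F)) = 0 := by linear_combination h1
        exact sub_eq_zero.1 ((mul_eq_zero.1 this).resolve_left h0)
      rcases Int.units_eq_one_or e with rfl | rfl
      · right
        have h3 : (3 : F) = 0 := by exact_mod_cast CharP.cast_eq_zero F 3
        have h4 : tr A ^ 2 = 4 := by
          rw [h2]; push_cast; linear_combination -h3
        have : Fact (Nat.Prime 3) := ⟨by norm_num⟩
        have h5 := pow_char_of_tr_sq (p := 3) h4
        ext1
        · change (QuotientGroup.mk A : PSL2) ^ 3 = 1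
          rw [← QuotientGroup.mk_pow, QuotientGroup.eq_one_iff, mem_center_iff']
          exact h5
        · change (1 : ℤˣ) ^ 3 = 1
          exact one_pow 3
      · exfalso
        apply hsq
        refine ⟨tr A, ?_⟩
        push_cast at h2
        linear_combination -h2

/-- the semidirect product -/
noncomputable abbrev phi (F : Type) [Field F] [CharP F 3] : KK F →* MulAut (Multiplicative (Matrix (Fin 2) (Fin 2) F)) :=
  (MulAutMultiplicative (Matrix (Fin 2) (Fin 2) F)).symm.toMonoidHom.comp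
    ((DistribMulAction.toAddAut ((Module.End F (Matrix (Fin 2) (Fin 2) F))ˣ) (Matrix (Fin 2) (Fin 2) F)).comp
      (rho (F := F)).asGroupHom)

abbrev HH (F : Type) [Field F] [CharP F 3] := Multiplicative (Matrix (Fin 2) (Fin 2) F) ⋊[phi F] KK F

/-- pair -/
def pr (v : M2) (k : KK F) : HH F := ⟨Multiplicative.ofAdd v, k⟩

omit [Fintype F] in
theorem pr_mul (v w : M2) (k l : KK F) : pr v k * pr w l = pr (v + rho k w) (k * l) := rfl

omit [Fintype F] in
theorem pr_one : pr (0 : M2) 1 = 1 := rfl

omit [Fintype F] in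
theorem pr_inj {v w : M2} {k l : KK F} (h : pr v k = pr w l) : v = w ∧ k = l :=
  ⟨congrArg SemidirectProduct.left h, congrArg SemidirectProduct.right h⟩

omit [Fintype F] in
theorem exists_pow (v : M2) (k : KK F) (n : ℕ) : ∃ w, pr v k ^ n = pr w (k ^ n) := by
  induction n with
  | zero => exact ⟨0, by simp [pr_one]⟩
  | succ n ih =>
    obtain ⟨w, hw⟩ := ih
    exact ⟨w + rho (k ^ n) v, by rw [pow_succ, pow_succ, hw, pr_mul]⟩

omit [Fintype F] in
theorem cube (w : M2) : pr w 1 ^ 3 = 1 := by
  rw [pow_succ, pow_two, pr_mul, pr_mul]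
  simp only [map_one, Module.End.one_apply, mul_one]
  rw [← pr_one]
  congr 1
  have : (3 : F) • w = 0 := by
    have h3 : (3 : F) = 0 := by exact_mod_cast CharP.cast_eq_zero F 3
    rw [h3, zero_smul]
  rw [← this]
  module

/-- upper bound for element orders -/
theorem order_dvd (hq : Fintype.card F % 4 = 3) (x : HH F) : orderOf x ∣ 6 ∨ orderOf x ∣ 9 ∨
    orderOf x ∣ Fintype.card F - 1 ∨ orderOf x ∣ (Fintype.card F + 1) / 2 := by
  have hsq : ¬ IsSquare (-1 : F) := fun h => FiniteField.isSquare_neg_one_iff.1 h hq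
  obtain ⟨v', k⟩ := x
  obtain ⟨v, rfl⟩ : ∃ v : M2, Multiplicative.ofAdd v = v' := ⟨Multiplicative.toAdd v', rfl⟩
  change orderOf (pr v k) ∣ 6 ∨ orderOf (pr v k) ∣ 9 ∨ orderOf (pr v k) ∣ _ ∨ orderOf (pr v k) ∣ _
  have key : ∀ m : ℕ, k ^ m = 1 → (∃ w : M2, w ≠ 0 ∧ rho k w = w) ∨ orderOf (pr v k) ∣ m := by
    intro m hm
    obtain ⟨w, hw⟩ := exists_pow v k m
    rw [hm] at hw
    have h1 : pr v k * pr w 1 = pr w 1 * pr v k := by
      rw [← hw, ← pow_succ, ← pow_succ']
    rw [pr_mul, pr_mul, map_one, Module.End.one_apply] at h1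
    have h2 : rho k w = w := by
      have := (pr_inj h1).1
      rw [add_comm w v] at this
      exact add_left_cancel this
    by_cases hw0 : w = 0
    · right
      apply orderOf_dvd_of_pow_eq_one
      rw [hw, hw0, pr_one]
    · left; exact ⟨w, hw0, h2⟩
  by_cases hfix : ∃ w : M2, w ≠ 0 ∧ rho k w = w
  · obtain ⟨w, hw, hkw⟩ := hfix
    rcases small_of_fixed hsq hw hkw with h | h
    · left
      apply orderOf_dvd_of_pow_eq_one
      obtain ⟨w', hw'⟩ := exists_pow v k 2
      rw [show 6 = 2 * 3 by norm_num, pow_mul, hw', h, cube]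
    · right; left
      apply orderOf_dvd_of_pow_eq_one
      obtain ⟨w', hw'⟩ := exists_pow v k 3
      rw [show 9 = 3 * 3 by norm_num, pow_mul, hw', h, cube]
  · have key' : ∀ m : ℕ, k ^ m = 1 → orderOf (pr v k) ∣ m := fun m hm => (key m hm).resolve_left hfix
    have : Fact (Nat.Prime 3) := ⟨by norm_num⟩
    have hg : Nat.gcd 2 (Fintype.card F - 1) = 2 := Nat.gcd_eq_left (by omega)
    obtain ⟨g, e⟩ := k
    have h3 := Cfsg.Agent.Lib.PSL2Orders.pow_cases (p := 3) g
    rw [hg] at h3
    have he : ∀ m, Even m → e ^ m = 1 := by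
      rintro m ⟨j, rfl⟩
      rw [← two_mul, pow_mul, Int.units_sq, one_pow]
    rcases h3 with h | h | h
    · left
      apply key' 6
      ext1
      · change g ^ 6 = 1
        rw [show 6 = 3 * 2 by norm_num, pow_mul, h, one_pow]
      · exact he 6 (by decide)
    · right; right; left
      apply key'
      have h2 : Fintype.card F - 1 = (Fintype.card F - 1) / 2 * 2 := by omega
      ext1
      · change g ^ (Fintype.card F - 1) = 1
        rw [h2, pow_mul, h, one_pow]
      · apply he
        rw [h2]; exact ⟨(Fintype.card F - 1) / 2, by omega⟩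
    · right; right; right
      apply key'
      ext1
      · exact h
      · apply he
        exact ⟨(Fintype.card F + 1) / 4, by omega⟩

theorem exists_orders (hq : Fintype.card F % 8 = 3) (h27 : 27 ≤ Fintype.card F) :
    (∃ x : HH F, orderOf x = 6) ∧ (∃ x : HH F, orderOf x = 9) ∧ (∃ x : HH F, orderOf x = Fintype.card F - 1) ∧
      (∃ x : HH F, orderOf x = (Fintype.card F + 1) / 2) := by
  have : Fact (Nat.Prime 3) := ⟨by norm_num⟩
  have hg : Nat.gcd 2 (Fintype.card F - 1) = 2 := Nat.gcd_eq_left (by omega)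
  have hspec := Cfsg.Agent.Lib.PSL2Orders.spectrum (F := F) 3
  rw [hg] at hspec
  have hinr : ∀ k : KK F, orderOf (SemidirectProduct.inr k : HH F) = orderOf k := fun k =>
    orderOf_injective _ SemidirectProduct.inr_injective k
  have hor : ∀ m : ℕ, m ∣ 3 ∨ m ∣ (Fintype.card F - 1) / 2 ∨ m ∣ (Fintype.card F + 1) / 2 → ∃ g : PSL2, orderOf g = m := by
    intro m hm
    have : m ∈ Set.range (orderOf : PSL2 → ℕ) := by rw [hspec]; exact hm
    exact this
  have hprod : ∀ g : PSL2, Odd (orderOf g) → orderOf ((g, -1) : KK F) = orderOf g * 2 := by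
    intro g hg
    rw [Prod.orderOf]
    have h2 : orderOf (-1 : ℤˣ) = 2 := by
      have : Fact (Nat.Prime 2) := ⟨by norm_num⟩
      exact orderOf_eq_prime (by simp) (by decide)
    change Nat.lcm (orderOf g) (orderOf (-1 : ℤˣ)) = _
    rw [h2]
    exact Nat.Coprime.lcm_eq_mul (Nat.coprime_two_right.2 hg)
  refine ⟨?_, ?_, ?_, ?_⟩
  · obtain ⟨g, hg⟩ := hor 3 (Or.inl dvd_rfl)
    exact ⟨SemidirectProduct.inr (g, -1), by rw [hinr, hprod g (by rw [hg]; decide), hg]⟩
  · let u : KK F := (QuotientGroup.mk (uu (1 : F)), 1)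
    let v : M2 := !![0, 0; 0, 1]
    have h3 : (3 : F) = 0 := by exact_mod_cast CharP.cast_eq_zero F 3
    have hu3 : u ^ 3 = 1 := by
      ext1
      · change (QuotientGroup.mk (uu (1 : F)) : PSL2) ^ 3 = 1
        rw [← QuotientGroup.mk_pow, QuotientGroup.eq_one_iff, mem_center_iff']
        apply pow_char_of_tr_sq
        rw [tr_def]; simp [uu]; norm_num
      · change (1 : ℤˣ) ^ 3 = 1
        exact one_pow 3
    have hmap : ((uu (1 : F) : SL2) : M2).map (fr F) = !![1, 1; 0, 1] := by
      ext i j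
      fin_cases i <;> fin_cases j <;> simp [uu]
    have huv : ∀ w : M2, rho u w = !![1, 1; 0, 1] * (w * !![1, 0; 1, 1]) := by
      intro w
      change rho ((QuotientGroup.mk (uu (1 : F)) : PSL2), (1 : ℤˣ)) w = _
      rw [rho_apply, hmap]
      have : (!![1, 1; 0, 1] : M2)ᵀ = !![1, 0; 1, 1] := by
        ext i j
        fin_cases i <;> fin_cases j <;> rfl
      rw [this]
      simp [uu]
    have hx3 : pr v u ^ 3 = pr !![2, 0; 0, 0] 1 := by
      rw [pow_succ, pow_two, pr_mul, pr_mul, show u * u * u = u ^ 3 by rw [pow_succ, pow_two], hu3,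
        map_mul, Module.End.mul_apply, huv, huv]
      congr 1
      ext i j
      fin_cases i <;> fin_cases j <;> simp [v, Matrix.mul_apply, Fin.sum_univ_two]
      · linear_combination h3
      · linear_combination h3
      · linear_combination h3
      · linear_combination h3
    refine ⟨pr v u, ?_⟩
    have h9 : orderOf (pr v u) ∣ 3 ^ 2 := by
      apply orderOf_dvd_of_pow_eq_one
      rw [show 3 ^ 2 = 3 * 3 by norm_num, pow_mul, hx3, cube]
    have hn3 : ¬ orderOf (pr v u) ∣ 3 ^ 1 := by
      intro h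
      have h4 := orderOf_dvd_iff_pow_eq_one.1 h
      rw [pow_one, hx3, ← pr_one] at h4
      have h5 := congrFun (congrFun (pr_inj h4).1 0) 0
      simp at h5
      exact one_ne_zero (α := F) (by linear_combination h3 - h5)
    obtain ⟨j, hj, hj2⟩ := (Nat.dvd_prime_pow Nat.prime_three).1 h9
    rw [hj2] at hn3 ⊢
    have hj3 : j = 2 := by
      by_contra hne
      exact hn3 (Nat.pow_dvd_pow 3 (by omega))
    rw [hj3]; norm_num
  · obtain ⟨g, hg⟩ := hor ((Fintype.card F - 1) / 2) (Or.inr (Or.inl dvd_rfl))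
    refine ⟨SemidirectProduct.inr (g, -1), ?_⟩
    rw [hinr, hprod g, hg]
    · omega
    · rw [hg, Nat.odd_iff]; omega
  · obtain ⟨g, hg⟩ := hor ((Fintype.card F + 1) / 2) (Or.inr (Or.inr dvd_rfl))
    refine ⟨SemidirectProduct.inr (g, 1), ?_⟩
    rw [hinr, Prod.orderOf]
    change Nat.lcm (orderOf g) (orderOf (1 : ℤˣ)) = _
    rw [orderOf_one, Nat.lcm_one_right, hg]

end

/-- Let q = 3^α with α ≥ 3 odd. There is a finite group H having a non-trivial normal 3-subgroup and whose element orders maximal under divisibility are exactly 6, 9, q − 1 and (q + 1)/2. -/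
theorem result (α : ℕ) (hα : 3 ≤ α) (hodd : Odd α) :
    ∃ (H : Type) (_ : Group H) (_ : Fintype H), (∃ P : Subgroup H, P.Normal ∧ P ≠ ⊥ ∧ IsPGroup 3 ↥P) ∧
      {n : ℕ | n ∈ Set.range (orderOf : H → ℕ) ∧ ∀ m ∈ Set.range (orderOf : H → ℕ), n ∣ m → m = n} = ({6, 9, 3 ^ α - 1, (3 ^ α + 1) / 2} : Set ℕ) := by
  have h3p : Fact (Nat.Prime 3) := ⟨by norm_num⟩
  let F := GaloisField 3 α
  have : Fintype F := Fintype.ofFinite F
  have hcard : Fintype.card F = 3 ^ α := by
    rw [← Nat.card_eq_fintype_card]; exact GaloisField.card 3 α (by omega)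
  have h27 : 27 ≤ 3 ^ α := by
    calc 27 = 3 ^ 3 := by norm_num
      _ ≤ 3 ^ α := Nat.pow_le_pow_right (by norm_num) hα
  have hmod : 3 ^ α % 8 = 3 := by
    obtain ⟨j, rfl⟩ := hodd
    rw [pow_succ, pow_mul]
    norm_num [Nat.mul_mod, Nat.pow_mod]
  have hn3 : ¬ 3 ∣ 3 ^ α - 1 := by
    have : 3 ∣ 3 ^ α := dvd_pow_self 3 (by omega)
    omega
  have hn3' : ¬ 3 ∣ (3 ^ α + 1) / 2 := by
    have : 3 ∣ 3 ^ α := dvd_pow_self 3 (by omega)
    omega
  have hfin : Finite (HH F) := Finite.of_equiv _ SemidirectProduct.equivProd.symm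
  refine ⟨HH F, inferInstance, Fintype.ofFinite _, ?_, ?_⟩
  · refine ⟨(SemidirectProduct.inl : Multiplicative (Matrix (Fin 2) (Fin 2) F) →* HH F).range, ?_, ?_, ?_⟩
    · rw [SemidirectProduct.range_inl_eq_ker_rightHom]; infer_instance
    · intro h
      have h1 : (pr (1 : Matrix (Fin 2) (Fin 2) F) 1 : HH F) ∈
        (SemidirectProduct.inl : Multiplicative (Matrix (Fin 2) (Fin 2) F) →* HH F).range :=
        ⟨Multiplicative.ofAdd 1, rfl⟩
      rw [h, Subgroup.mem_bot, ← pr_one] at h1
      exact one_ne_zero (pr_inj h1).1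
    · rintro ⟨_, ⟨w, rfl⟩⟩
      refine ⟨1, ?_⟩
      apply Subtype.ext
      rw [pow_one]
      exact cube (Multiplicative.toAdd w)
  · have hup := order_dvd (F := F) (by rw [hcard]; omega)
    obtain ⟨h6, h9, hm, hp⟩ := exists_orders (F := F) (by rw [hcard]; exact hmod) (by rw [hcard]; exact h27)
    rw [hcard] at hup hm hp
    have hle : ∀ {a b : ℕ}, 0 < b → a ∣ b → a ≤ b := fun hb h => Nat.le_of_dvd hb h
    have hor : ∀ m ∈ Set.range (orderOf : HH F → ℕ), m ∣ 6 ∨ m ∣ 9 ∨ m ∣ 3 ^ α - 1 ∨ m ∣ (3 ^ α + 1) / 2 := by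
      rintro _ ⟨x, rfl⟩
      exact hup x
    ext n
    simp only [Set.mem_setOf_eq, Set.mem_insert_iff, Set.mem_singleton_iff]
    constructor
    · rintro ⟨hn, hmax⟩
      rcases hor n hn with h | h | h | h
      · left; exact (hmax 6 h6 h).symm
      · right; left; exact (hmax 9 h9 h).symm
      · right; right; left; exact (hmax _ hm h).symm
      · right; right; right; exact (hmax _ hp h).symm
    · rintro (rfl | rfl | rfl | rfl)
      · refine ⟨h6, fun m hm' hd => ?_⟩
        rcases hor m hm' with h | h | h | h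
        · exact Nat.dvd_antisymm h hd
        · exact absurd (hd.trans h) (by norm_num)
        · exact absurd (((by norm_num : 3 ∣ 6).trans hd).trans h) hn3
        · exact absurd (((by norm_num : 3 ∣ 6).trans hd).trans h) hn3'
      · refine ⟨h9, fun m hm' hd => ?_⟩
        rcases hor m hm' with h | h | h | h
        · exact absurd (hd.trans h) (by norm_num)
        · exact Nat.dvd_antisymm h hd
        · exact absurd (((by norm_num : 3 ∣ 9).trans hd).trans h) hn3
        · exact absurd (((by norm_num : 3 ∣ 9).trans hd).trans h) hn3'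
      · refine ⟨hm, fun m hm' hd => ?_⟩
        rcases hor m hm' with h | h | h | h
        · have := hle (by norm_num) (hd.trans h); omega
        · have := hle (by norm_num) (hd.trans h); omega
        · exact Nat.dvd_antisymm h hd
        · have := hle (by omega) (hd.trans h); omega
      · refine ⟨hp, fun m hm' hd => ?_⟩
        rcases hor m hm' with h | h | h | h
        · have := hle (by norm_num) (hd.trans h); omega
        · have := hle (by norm_num) (hd.trans h); omega
        · have h1 := hd.trans h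
          have h2 : (3 ^ α + 1) / 2 ∣ 2 * ((3 ^ α + 1) / 2) - (3 ^ α - 1) := Nat.dvd_sub (dvd_mul_left _ _) h1
          have h3 : 2 * ((3 ^ α + 1) / 2) - (3 ^ α - 1) = 2 := by omega
          rw [h3] at h2
          have := hle (by norm_num) h2
          omega
        · exact Nat.dvd_antisymm h hd

end Cfsg.Agent.S2515
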