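import Cfsg.Statements.S2516

set_option autoImplicit false
open Cfsg

namespace Cfsg.Agent.S2516

/-- Let F be a field of characteristic p > 0, V a non-zero finite-dimensional F-vector space, G a finite group and ρ a representation of G on V; form the semidirect product V ⋊ G. For g ∈ G of order k, the coset Vg contains an element of order pk if and only if the minimal polynomial of ρ(g) does not divide 1 + X + ⋯ + X^(k−1). -/
theorem result {F : Type*} [Field F] (p : ℕ) [Fact p.Prime] [CharP F p] {V : Type*} [AddCommGroup V] [Module F V] [FiniteDimensional F V] [Nontrivial V]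
    {G : Type*} [Group G] [Finite G] (ρ : Representation F G V) (g : G) :
    (∃ x : Multiplicative V ⋊[(MulAutMultiplicative V).symm.toMonoidHom.comp
        ((DistribMulAction.toAddAut ((V →ₗ[F] V)ˣ) V).comp ρ.asGroupHom)] G,
        x.right = g ∧ orderOf x = p * orderOf g) ↔
      ¬ (minpoly F (ρ g) ∣ ∑ i ∈ Finset.range (orderOf g), (Polynomial.X : Polynomial F) ^ i) := by
  set φ := (MulAutMultiplicative V).symm.toMonoidHom.comp
        ((DistribMulAction.toAddAut ((V →ₗ[F] V)ˣ) V).comp ρ.asGroupHom) with hφ
  have hφa : ∀ (h : G) (v : V), φ h (Multiplicative.ofAdd v) = Multiplicative.ofAdd (ρ h v) := fun h v => rfl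
  have hpow : ∀ (n : ℕ) (v : V), ((⟨Multiplicative.ofAdd v, g⟩ : Multiplicative V ⋊[φ] G) ^ n) =
      ⟨Multiplicative.ofAdd ((∑ i ∈ Finset.range n, (ρ g) ^ i) v), g ^ n⟩ := by
    intro n v
    induction n with
    | zero => simp
    | succ n ih =>
      rw [pow_succ', ih]
      apply SemidirectProduct.ext
      · rw [SemidirectProduct.mul_left]
        show Multiplicative.ofAdd v * φ g (Multiplicative.ofAdd _) = _
        rw [hφa, Finset.sum_range_succ', ← ofAdd_add]
        congr 1
        rw [pow_zero, LinearMap.add_apply, Module.End.one_apply, add_comm]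
        congr 1
        rw [← Module.End.mul_apply, Finset.mul_sum]
        congr 1
        apply Finset.sum_congr rfl
        intro i _
        rw [pow_succ']
      · rw [SemidirectProduct.mul_right, pow_succ']
  have hp : p.Prime := Fact.out
  have hk : 0 < orderOf g := orderOf_pos g
  have hiff : (minpoly F (ρ g) ∣ ∑ i ∈ Finset.range (orderOf g), (Polynomial.X : Polynomial F) ^ i) ↔
      ∑ i ∈ Finset.range (orderOf g), (ρ g) ^ i = 0 := by
    rw [minpoly.dvd_iff]
    simp
  rw [hiff]
  constructor
  · rintro ⟨x, hxg, hx⟩ hS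
    obtain ⟨v, g'⟩ := x
    simp only at hxg
    subst hxg
    have h1 := hpow (orderOf g') (Multiplicative.toAdd v)
    rw [hS, pow_orderOf_eq_one] at h1
    have h2 : orderOf (⟨Multiplicative.ofAdd (Multiplicative.toAdd v), g'⟩ : Multiplicative V ⋊[φ] G) ∣ orderOf g' :=
      orderOf_dvd_of_pow_eq_one h1
    have h3 : p * orderOf g' ∣ orderOf g' := by rw [← hx]; exact h2
    have h4 := Nat.le_of_dvd hk h3
    have h5 : 2 * orderOf g' ≤ p * orderOf g' := Nat.mul_le_mul_right _ hp.two_le
    omega
  · intro hS
    obtain ⟨v, hv⟩ : ∃ v, (∑ i ∈ Finset.range (orderOf g), (ρ g) ^ i) v ≠ 0 := by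
      by_contra hcon
      push Not at hcon
      exact hS (LinearMap.ext hcon)
    refine ⟨⟨Multiplicative.ofAdd v, g⟩, rfl, ?_⟩
    set x : Multiplicative V ⋊[φ] G := ⟨Multiplicative.ofAdd v, g⟩ with hx
    have h1 : x ^ (orderOf g) ≠ 1 := by
      intro h
      rw [hpow] at h
      have := congrArg SemidirectProduct.left h
      exact hv this
    have h2 : x ^ (p * orderOf g) = 1 := by
      rw [mul_comm, pow_mul, hpow, pow_orderOf_eq_one]
      have h3 : ∀ w : V, (⟨Multiplicative.ofAdd w, 1⟩ : Multiplicative V ⋊[φ] G) = SemidirectProduct.inl (Multiplicative.ofAdd w) :=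
        fun w => rfl
      rw [h3, ← map_pow, ← ofAdd_nsmul]
      have h4 : p • (∑ i ∈ Finset.range (orderOf g), (ρ g) ^ i) v = 0 := by
        rw [← Nat.cast_smul_eq_nsmul F, CharP.cast_eq_zero, zero_smul]
      rw [h4, ofAdd_zero, map_one]
    have h5 : orderOf g ∣ orderOf x := by
      apply orderOf_dvd_of_pow_eq_one
      have := congrArg SemidirectProduct.right (pow_orderOf_eq_one x)
      rw [hpow] at this
      exact this
    obtain ⟨d, hd⟩ := h5
    have h6 := orderOf_dvd_of_pow_eq_one h2
    rw [hd, mul_comm p] at h6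
    have h7 : d ∣ p := Nat.dvd_of_mul_dvd_mul_left hk h6
    rcases (Nat.dvd_prime hp).mp h7 with h8 | h8
    · exfalso
      apply h1
      rw [← orderOf_dvd_iff_pow_eq_one, hd, h8, mul_one]
    · rw [hd, h8, mul_comm]

end Cfsg.Agent.S2516
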