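import Cfsg.Statements.S2518
import Cfsg.Agent.Lib.G2Three3
import Cfsg.Agent.Lib.PSL2Orders
import Cfsg.Agent.Lib.ClSL2Syl
import Cfsg.Agent.S1059

set_option autoImplicit false
open Cfsg

namespace Cfsg.Agent.S2518

open Cfsg.Lie Cfsg.Agent.Lib.ChevX Cfsg.Agent.Lib.G2Three Cfsg.Agent.Lib.G2ThreeLin Cfsg.Agent.Lib.ChevRel Cfsg.Agent.Lib.ChevAuto

section G2
variable {F : Type*} [Field F] [Fintype F] (hF : Fintype.card F = 3)

include hF in
theorem setup {r s : ℕ} (hr : 1 < r) (hs : 1 < s) (x : chevG2.group F) (hx : orderOf x = r * s) :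
    ∃ (f : ZMod 3 →+* F) (T h : Module.End F (Fin 7 → F)), Pres (LF f (two_ne' hF)) T ∧ Pres (LF f (two_ne' hF)) h ∧
      T ^ r = 1 ∧ T ≠ 1 ∧ h ^ s = 1 ∧ h ≠ 1 ∧ h * T = T * h := by
  have h3 : (3 : F) = 0 := by
    have : ((Fintype.card F : ℕ) : F) = 0 := Nat.cast_card_eq_zero F
    rw [hF] at this; exact_mod_cast this
  have hchar : CharP F 3 := by
    obtain ⟨p, hp⟩ := CharP.exists F
    have hpp : p.Prime := (CharP.char_is_prime_or_zero F p).resolve_right (by
      rintro rfl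
      have := CharP.cast_eq_zero_iff F 0 3
      have h0 := this.1 (by exact_mod_cast h3)
      norm_num at h0)
    have h1 := (CharP.cast_eq_zero_iff F p 3).1 (by exact_mod_cast h3)
    have h2 := (Nat.prime_dvd_prime_iff_eq hpp (by norm_num)).1 h1
    rw [← h2]; exact hp
  let f : ZMod 3 →+* F := ZMod.castHom (dvd_refl 3) F
  have hpos : 0 < r * s := by positivity
  refine ⟨f, rho f hF (x ^ s), rho f hF (x ^ r), rho_pres f hF _, rho_pres f hF _, ?_, ?_, ?_, ?_, ?_⟩
  · rw [← map_pow, ← pow_mul, mul_comm, ← hx, pow_orderOf_eq_one, map_one]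
  · intro h
    have h1 : x ^ s = 1 := rho_inj f hF (h.trans (map_one _).symm)
    have := Nat.le_of_dvd (by omega) (orderOf_dvd_of_pow_eq_one h1)
    rw [hx] at this
    nlinarith
  · rw [← map_pow, ← pow_mul, ← hx, pow_orderOf_eq_one, map_one]
  · intro h
    have h1 : x ^ r = 1 := rho_inj f hF (h.trans (map_one _).symm)
    have := Nat.le_of_dvd (by omega) (orderOf_dvd_of_pow_eq_one h1)
    rw [hx] at this
    nlinarith
  · rw [← map_mul, ← map_mul, ← pow_add, ← pow_add, add_comm]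

include hF in
theorem no_pair {r s : ℕ} (x : chevG2.group F) (hx : orderOf x = r * s)
    (h : (r = 7 ∧ s = 2) ∨ (r = 7 ∧ s = 3) ∨ (r = 13 ∧ s = 2) ∨ (r = 13 ∧ s = 3) ∨ (r = 13 ∧ s = 7)) : False := by
  have h3 : Nat.card F = 3 := by rw [Nat.card_eq_fintype_card, hF]
  have h7 : Module.finrank F (Fin 7 → F) = 7 := by simp
  obtain ⟨f, T, g, pT, pg, hT, hT1, hg, hg1, hc⟩ := setup hF (r := r) (s := s) (by omega) (by omega) x hx
  rcases h with ⟨rfl, rfl⟩ | ⟨rfl, rfl⟩ | ⟨rfl, rfl⟩ | ⟨rfl, rfl⟩ | ⟨rfl, rfl⟩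
  · exact hg1 (seven_two h3 h7 _ pT pg hT hT1 hc (by rw [← pow_two]; exact hg))
  · exact hg1 (seven_three h3 h7 hT hT1 hc hg)
  · exact hg1 (thirteen_two h3 h7 _ pT pg hT hT1 hc (by rw [← pow_two]; exact hg))
  · exact hg1 (thirteen_three h3 h7 _ pT hT hT1 hc hg)
  · exact hg1 (thirteen_seven h3 h7 _ pT hT hT1 hc hg)

include hF in
theorem exists_six : ∃ x : chevG2.group F, orderOf x = 6 := by
  have G := Cfsg.Agent.Lib.ChevOkG2.good
  have h3 : (3 : F) = 0 := by
    have : ((Fintype.card F : ℕ) : F) = 0 := Nat.cast_card_eq_zero F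
    rw [hF] at this; exact_mod_cast this
  have h2 := two_ne' hF
  have hn1 : (-1 : F) ≠ 0 := neg_ne_zero.2 one_ne_zero
  have hne : (-1 : F) ≠ 1 := by
    intro h; apply h2; linear_combination -h
  have hr7 : 7 < chevG2.nroots := by decide
  have hr6 : 6 < chevG2.nroots := by decide
  let u : GL chevG2.Idx F := xg chevG2 F 7 1
  let t : GL chevG2.Idx F := hg chevG2 F 7 (-1)
  have hu : orderOf u = 3 := by
    have : Fact (Nat.Prime 3) := ⟨by norm_num⟩
    apply orderOf_eq_prime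
    · change xg chevG2 F 7 1 ^ 3 = 1
      rw [pow_succ, pow_two, xg_add G, xg_add G]
      have : (1 + 1 + 1 : F) = 0 := by linear_combination h3
      rw [this, xg_zero G]
    · intro h
      exact one_ne_zero ((xg_eq_one_iff G hr7 (1 : F)).1 h)
  have hsq : t * t = 1 := by
    change hg chevG2 F 7 (-1) * hg chevG2 F 7 (-1) = 1
    rw [hg_mul G hr7 _ _ hn1 hn1, neg_mul_neg, one_mul]
    exact Cfsg.Agent.Lib.ChevH.hg_one G hr7
  have htconj : ∀ s (hs : s < chevG2.nroots) (c : F), t * xg chevG2 F s c * t⁻¹ =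
      xg chevG2 F s ((-1) ^ (∑ j ∈ Finset.range chevG2.rank, co chevG2 7 j * chevG2.cartan j s) * c) :=
    fun s hs c => hg_conj G hr7 hs (-1) hn1 c
  have hpr7 : ∑ j ∈ Finset.range chevG2.rank, co chevG2 7 j * chevG2.cartan j 7 = 2 := by decide +kernel
  have hpr6 : ∑ j ∈ Finset.range chevG2.rank, co chevG2 7 j * chevG2.cartan j 6 = -3 := by decide +kernel
  have ht : orderOf t = 2 := by
    have : Fact (Nat.Prime 2) := ⟨by norm_num⟩
    apply orderOf_eq_prime
    · rw [pow_two]; exact hsq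
    · intro h
      have := htconj 6 hr6 1
      rw [h, one_mul, inv_one, mul_one, hpr6] at this
      have h5 := xg_inj G hr6 this
      have h6 : ((-1 : F)) ^ (-3 : ℤ) = -1 := by
        rw [show (-3 : ℤ) = -(3 : ℤ) by norm_num, zpow_neg]
        norm_num [pow_succ]
      rw [h6, mul_one] at h5
      exact hne h5.symm
  have hcomm : Commute u t := by
    have := htconj 7 hr7 1
    rw [hpr7] at this
    have h6 : ((-1 : F)) ^ (2 : ℤ) = 1 := by norm_num
    rw [h6, one_mul] at this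
    rw [mul_inv_eq_iff_eq_mul] at this
    exact this.symm
  have huG : u ∈ chevG2.group F := xg_mem G 7 1
  have htG : t ∈ chevG2.group F := Cfsg.Agent.Lib.ChevPerf.hg_mem G 7 (-1)
  refine ⟨⟨u * t, mul_mem huG htG⟩, ?_⟩
  rw [Subgroup.orderOf_mk, hcomm.orderOf_mul_eq_mul_orderOf_of_coprime (by rw [hu, ht]; norm_num), hu, ht]

end G2

theorem dvd_iff {r : ℕ} (hr : r.Prime) (a b c d : ℕ) (ha : 0 < a) (hb : 0 < b) (hc : 0 < c) (hd : 0 < d) :
    r ∣ 2 ^ a * 3 ^ b * 7 ^ c * 13 ^ d ↔ r = 2 ∨ r = 3 ∨ r = 7 ∨ r = 13 := by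
  constructor
  · intro h
    rcases (Nat.Prime.dvd_mul hr).1 h with h | h
    · rcases (Nat.Prime.dvd_mul hr).1 h with h | h
      · rcases (Nat.Prime.dvd_mul hr).1 h with h | h
        · left; exact (Nat.prime_dvd_prime_iff_eq hr Nat.prime_two).1 (hr.dvd_of_dvd_pow h)
        · right; left; exact (Nat.prime_dvd_prime_iff_eq hr Nat.prime_three).1 (hr.dvd_of_dvd_pow h)
      · right; right; left; exact (Nat.prime_dvd_prime_iff_eq hr (by norm_num)).1 (hr.dvd_of_dvd_pow h)
    · right; right; right; exact (Nat.prime_dvd_prime_iff_eq hr (by norm_num)).1 (hr.dvd_of_dvd_pow h)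
  · rintro (rfl | rfl | rfl | rfl)
    · exact (((dvd_pow_self 2 ha.ne').mul_right _).mul_right _).mul_right _
    · exact (((dvd_pow_self 3 hb.ne').mul_left _).mul_right _).mul_right _
    · exact ((dvd_pow_self 7 hc.ne').mul_left _).mul_right _
    · exact (dvd_pow_self 13 hd.ne').mul_left _

theorem key_cases (r s : ℕ) (hr : r = 2 ∨ r = 3 ∨ r = 7 ∨ r = 13) (hs : s = 2 ∨ s = 3 ∨ s = 7 ∨ s = 13) (hrs : r ≠ s)
    (hcon : ¬ ((r = 2 ∧ s = 3) ∨ (r = 3 ∧ s = 2))) :
    ((r = 7 ∧ s = 2) ∨ (r = 7 ∧ s = 3) ∨ (r = 13 ∧ s = 2) ∨ (r = 13 ∧ s = 3) ∨ (r = 13 ∧ s = 7)) ∨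
      ((s = 7 ∧ r = 2) ∨ (s = 7 ∧ r = 3) ∨ (s = 13 ∧ r = 2) ∨ (s = 13 ∧ r = 3) ∨ (s = 13 ∧ r = 7)) := by
  rcases hr with rfl | rfl | rfl | rfl <;> rcases hs with rfl | rfl | rfl | rfl <;> simp_all

/-- Let F₃ be the field with 3 elements and F₁₃ the field with 13 elements. The Chevalley group G₂(F₃) and PSL(2, F₁₃) have the same prime graph: the same prime divisors of their orders, and for distinct primes r, s an element of order rs in one iff in the other. -/
theorem result {F : Type*} [Field F] [Fintype F] (hF : Fintype.card F = 3) {E : Type*} [Field E] [Fintype E] (hE : Fintype.card E = 13) :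
    ((∀ r : ℕ, r.Prime → (r ∣ Nat.card ↥(Cfsg.Lie.chevG2.group F) ↔ r ∣ Nat.card (Matrix.ProjectiveSpecialLinearGroup (Fin 2) E))) ∧
      (∀ r s : ℕ, r.Prime → s.Prime → r ≠ s → ((∃ x : ↥(Cfsg.Lie.chevG2.group F), orderOf x = r * s) ↔ (∃ y : (Matrix.ProjectiveSpecialLinearGroup (Fin 2) E), orderOf y = r * s)))) := by
  have hG : Nat.card ↥(Cfsg.Lie.chevG2.group F) = 2 ^ 6 * 3 ^ 6 * 7 ^ 1 * 13 ^ 1 := by
    rw [Cfsg.Agent.S1059.result hF]; norm_num
  have hL : Nat.card (Matrix.ProjectiveSpecialLinearGroup (Fin 2) E) = 2 ^ 2 * 3 ^ 1 * 7 ^ 1 * 13 ^ 1 := by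
    have h := Cfsg.Agent.Lib.ClSL2Syl.card_PSL2 (F := E) (by rw [hE]; decide)
    rw [hE] at h
    omega
  have hpE : CharP E 13 := by
    obtain ⟨p, hp⟩ := CharP.exists E
    have h13 : ((13 : ℕ) : E) = 0 := by rw [← hE]; exact Nat.cast_card_eq_zero E
    have hpp : p.Prime := (CharP.char_is_prime_or_zero E p).resolve_right (by
      rintro rfl
      have h0 := (CharP.cast_eq_zero_iff E 0 13).1 h13
      norm_num at h0)
    have h1 := (CharP.cast_eq_zero_iff E p 13).1 h13
    have h2 := (Nat.prime_dvd_prime_iff_eq hpp (by norm_num)).1 h1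
    rw [← h2]; exact hp
  have : Fact (Nat.Prime 13) := ⟨by norm_num⟩
  have hspec := Cfsg.Agent.Lib.PSL2Orders.spectrum (F := E) 13
  rw [hE] at hspec
  constructor
  · intro r hr
    rw [hG, hL, dvd_iff hr _ _ _ _ (by norm_num) (by norm_num) (by norm_num) (by norm_num),
      dvd_iff hr _ _ _ _ (by norm_num) (by norm_num) (by norm_num) (by norm_num)]
  · intro r s hr hs hrs
    have hsix : ∀ {r s : ℕ}, r.Prime → s.Prime → r ≠ s → r * s ∣ 6 → (r = 2 ∧ s = 3) ∨ (r = 3 ∧ s = 2) := by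
      intro r s hr hs hrs h
      have h1 : r ∣ 2 * 3 := (dvd_mul_right r s).trans h
      have h2 : s ∣ 2 * 3 := (dvd_mul_left s r).trans h
      have h1' : r = 2 ∨ r = 3 := by
        rcases (Nat.Prime.dvd_mul hr).1 h1 with h | h
        · left; exact (Nat.prime_dvd_prime_iff_eq hr Nat.prime_two).1 h
        · right; exact (Nat.prime_dvd_prime_iff_eq hr Nat.prime_three).1 h
      have h2' : s = 2 ∨ s = 3 := by
        rcases (Nat.Prime.dvd_mul hs).1 h2 with h | h
        · left; exact (Nat.prime_dvd_prime_iff_eq hs Nat.prime_two).1 h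
        · right; exact (Nat.prime_dvd_prime_iff_eq hs Nat.prime_three).1 h
      omega
    have hright : (∃ y : (Matrix.ProjectiveSpecialLinearGroup (Fin 2) E), orderOf y = r * s) ↔
        (r = 2 ∧ s = 3) ∨ (r = 3 ∧ s = 2) := by
      have : (∃ y : (Matrix.ProjectiveSpecialLinearGroup (Fin 2) E), orderOf y = r * s) ↔
        r * s ∈ Set.range (orderOf : (Matrix.ProjectiveSpecialLinearGroup (Fin 2) E) → ℕ) := Iff.rfl
      rw [this, hspec]
      simp only [Set.mem_setOf_eq]
      norm_num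
      have hprime : ∀ q : ℕ, q.Prime → ¬ r * s ∣ q := by
        intro q hq h
        have h1 := (Nat.prime_dvd_prime_iff_eq hr hq).1 ((dvd_mul_right r s).trans h)
        have h2 := (Nat.prime_dvd_prime_iff_eq hs hq).1 ((dvd_mul_left s r).trans h)
        exact hrs (h1.trans h2.symm)
      constructor
      · rintro (h | h | h)
        · exact absurd h (hprime 13 (by norm_num))
        · exact hsix hr hs hrs h
        · exact absurd h (hprime 7 (by norm_num))
      · rintro (⟨rfl, rfl⟩ | ⟨rfl, rfl⟩) <;> right <;> left <;> norm_num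
    rw [hright]
    constructor
    · rintro ⟨x, hx⟩
      have hdv : r * s ∣ 2 ^ 6 * 3 ^ 6 * 7 ^ 1 * 13 ^ 1 := by
        have h := orderOf_dvd_natCard x
        rw [hG, hx] at h
        exact h
      have hrG := (dvd_iff hr 6 6 1 1 (by norm_num) (by norm_num) (by norm_num) (by norm_num)).1
        ((dvd_mul_right r s).trans hdv)
      have hsG := (dvd_iff hs 6 6 1 1 (by norm_num) (by norm_num) (by norm_num) (by norm_num)).1
        ((dvd_mul_left s r).trans hdv)
      have hx' : orderOf x = s * r := by rw [hx, mul_comm]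
      by_contra hcon
      have key := key_cases r s hrG hsG hrs hcon
      rcases key with h | h
      · exact no_pair hF x hx h
      · exact no_pair hF x hx' h
    · rintro (⟨rfl, rfl⟩ | ⟨rfl, rfl⟩) <;> exact exists_six hF

end Cfsg.Agent.S2518
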