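import Cfsg.Statements.S2519
import Cfsg.Agent.Lib.ChevPG12
import Cfsg.Agent.Lib.ChevPG13

set_option autoImplicit false
open Cfsg

namespace Cfsg.Agent.S2519
open Cfsg.Lie Cfsg.Agent.Lib.ChevPG Cfsg.Agent.Lib.ChevSS Cfsg.Agent.Lib.ChevPG13

/-- Let F be a finite field of odd order q = p^a ≥ 5. The element orders of the Chevalley group G₂(F) that are maximal under divisibility are exactly p(q + 1), p(q − 1), q² − 1, q² + q + 1, q² − q + 1, together with p² when p is 3 or 5. -/
theorem result {F : Type*} [Field F] [Fintype F] (p a : ℕ) (hp : p.Prime) (hp2 : p ≠ 2) (ha : 1 ≤ a) (hF : Fintype.card F = p ^ a) (hq5 : 5 ≤ Fintype.card F) :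
    {n : ℕ | n ∈ Set.range (orderOf : ↥(Cfsg.Lie.chevG2.group F) → ℕ) ∧ ∀ m ∈ Set.range (orderOf : ↥(Cfsg.Lie.chevG2.group F) → ℕ), n ∣ m → m = n} =
      ({p * (p ^ a + 1), p * (p ^ a - 1), p ^ (2 * a) - 1, p ^ (2 * a) + p ^ a + 1, p ^ (2 * a) - p ^ a + 1} : Set ℕ) ∪
        (if p = 3 ∨ p = 5 then ({p ^ 2} : Set ℕ) else ∅) := by
  have fp : Fact p.Prime := ⟨hp⟩
  have hchar : CharP F p := by
    have h0 : (p : F) = 0 := by
      have := FiniteField.cast_card_eq_zero F
      rw [hF, Nat.cast_pow] at this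
      exact pow_eq_zero_iff (by omega) |>.mp this
    exact (CharP.charP_iff_prime_eq_zero hp).mpr h0
  have hcK : CharP (AlgebraicClosure F) p := charP_of_injective_algebraMap (algebraMap F (AlgebraicClosure F)).injective p
  obtain ⟨Z⟩ := exists_setup F (q := p ^ a) hF p
  have hq2 : p ^ (2 * a) = (p ^ a) ^ 2 := by rw [← pow_mul, mul_comm]
  rw [hq2]
  rw [hF] at hq5
  have hpq : p ∣ p ^ a := dvd_pow_self p (by omega)
  obtain ⟨q, hq⟩ : ∃ q, q = p ^ a := ⟨_, rfl⟩
  rw [← hq] at Z hq5 hpq ⊢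
  obtain ⟨t1, t2, t3⟩ := exists_tori Z
  obtain ⟨m1, m2⟩ := exists_mixed Z
  have key : ∀ n : ℕ, (∃ x ∈ chevG2.group F, orderOf x = n) → n ∈ Set.range (orderOf : ↥(Cfsg.Lie.chevG2.group F) → ℕ) := by
    rintro n ⟨x, hx, rfl⟩
    exact ⟨⟨x, hx⟩, Subgroup.orderOf_mk _ _⟩
  have hp0 : p ≤ p * (q + 1) := Nat.le_mul_of_pos_right p (by omega)
  have all : ∀ x : ↥(Cfsg.Lie.chevG2.group F), ∃ s ∈ ({p * (q + 1), p * (q - 1), q ^ 2 - 1, q ^ 2 + q + 1, q ^ 2 - q + 1} : Set ℕ) ∪ (if p = 3 ∨ p = 5 then ({p ^ 2} : Set ℕ) else ∅), orderOf x ∣ s := by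
    rintro ⟨x, hx⟩
    rw [Subgroup.orderOf_mk]
    rcases order_parts Z hx with (h | h | h) | ⟨k, hk, h⟩ | ⟨-, h | h⟩ | ⟨h, -⟩
    · exact ⟨_, by simp, h⟩
    · exact ⟨_, by simp, h⟩
    · exact ⟨_, by simp, h⟩
    · rw [hk]
      by_cases h35 : p = 3 ∨ p = 5
      · refine ⟨p ^ 2, ?_, h 2 ?_⟩
        · rw [if_pos h35]; simp
        · rcases h35 with rfl | rfl <;> norm_num
      · refine ⟨p * (q + 1), by simp, ?_⟩
        have h1 := h 1 (by
          rw [pow_one]
          push Not at h35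
          have h2 := hp.two_le
          by_contra hlt
          push Not at hlt
          interval_cases p
          · exact hp2 rfl
          · exact h35.1 rfl
          · norm_num at hp
          · exact h35.2 rfl)
        rw [pow_one] at h1
        exact h1.trans (dvd_mul_right p _)
    · exact ⟨_, by simp, h⟩
    · exact ⟨_, by simp, h⟩
    · exact absurd h hp2
  have ran : ({p * (q + 1), p * (q - 1), q ^ 2 - 1, q ^ 2 + q + 1, q ^ 2 - q + 1} : Set ℕ) ∪ (if p = 3 ∨ p = 5 then ({p ^ 2} : Set ℕ) else ∅) ⊆ Set.range (orderOf : ↥(Cfsg.Lie.chevG2.group F) → ℕ) := by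
    rintro n (hn | hn)
    · simp only [Set.mem_insert_iff, Set.mem_singleton_iff] at hn
      rcases hn with rfl | rfl | rfl | rfl | rfl
      · exact key _ m1
      · exact key _ m2
      · exact key _ t1
      · exact key _ t2
      · exact key _ t3
    · split_ifs at hn with h35
      · rw [Set.mem_singleton_iff] at hn
        rw [hn]
        apply key
        rcases h35 with h35 | h35
        · subst h35
          exact exists_unip 3 1 (by norm_num) (by
            rw [pow_one]
            exact reg3)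
        · subst h35
          exact exists_unip 5 1 (by norm_num) (by
            rw [pow_one]
            exact reg5)
      · exact absurd hn (Set.notMem_empty _)
  apply Set.Subset.antisymm (max_sub all ran)
  apply sub_max all ran
  have hin : ∀ s ∈ ({p * (q + 1), p * (q - 1), q ^ 2 - 1, q ^ 2 + q + 1, q ^ 2 - q + 1} : Set ℕ) ∪ (if p = 3 ∨ p = 5 then ({p ^ 2} : Set ℕ) else ∅),
      s ∈ [p * (q + 1), p * (q - 1), q ^ 2 - 1, q ^ 2 + q + 1, q ^ 2 - q + 1, p ^ 2] := by
    rintro n (hn | hn)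
    · simp only [Set.mem_insert_iff, Set.mem_singleton_iff] at hn
      simp only [List.mem_cons, List.not_mem_nil, or_false]
      tauto
    · split_ifs at hn with h35
      · rw [Set.mem_singleton_iff] at hn
        rw [hn]; simp
      · exact absurd hn (Set.notMem_empty _)
  intro s hs t ht h
  exact anti hp hpq hq5 s t (hin s hs) (hin t ht) h

end Cfsg.Agent.S2519
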