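import Cfsg.Statements.S2520
import Cfsg.Agent.Lib.ChevPG12
import Cfsg.Agent.Lib.ChevPG13

set_option autoImplicit false
open Cfsg

namespace Cfsg.Agent.S2520
open Cfsg.Lie Cfsg.Agent.Lib.ChevPG Cfsg.Agent.Lib.ChevSS Cfsg.Agent.Lib.ChevPG13

/-- Let F be a finite field with q = 2^a ≥ 4 elements and G₂(F) the Chevalley group of type G₂ over it. Every element order of G₂(F) maximal under divisibility lies in the set {8, 12, 2(q + 1), 2(q − 1), q² − 1, q² + q + 1, q² − q + 1}, and every member of that set is an element order of G₂(F). -/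
theorem result {F : Type*} [Field F] [Fintype F] (a : ℕ) (ha : 2 ≤ a) (hF : Fintype.card F = 2 ^ a) :
    {n : ℕ | n ∈ Set.range (orderOf : ↥(Cfsg.Lie.chevG2.group F) → ℕ) ∧ ∀ m ∈ Set.range (orderOf : ↥(Cfsg.Lie.chevG2.group F) → ℕ), n ∣ m → m = n} ⊆ ({8, 12, 2 * (2 ^ a + 1), 2 * (2 ^ a - 1), 2 ^ (2 * a) - 1, 2 ^ (2 * a) + 2 ^ a + 1, 2 ^ (2 * a) - 2 ^ a + 1} : Set ℕ) ∧
    ({8, 12, 2 * (2 ^ a + 1), 2 * (2 ^ a - 1), 2 ^ (2 * a) - 1, 2 ^ (2 * a) + 2 ^ a + 1, 2 ^ (2 * a) - 2 ^ a + 1} : Set ℕ) ⊆ Set.range (orderOf : ↥(Cfsg.Lie.chevG2.group F) → ℕ) := by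
  have f2 : Fact (Nat.Prime 2) := ⟨Nat.prime_two⟩
  have hchar : CharP F 2 := by
    have h1 : (2 : F) ^ a = 0 := by
      have := FiniteField.cast_card_eq_zero F
      rw [hF] at this
      exact_mod_cast this
    have h2 : (2 : F) = 0 := pow_eq_zero_iff (by omega) |>.mp h1
    exact CharTwo.of_one_ne_zero_of_two_eq_zero one_ne_zero h2
  have hcK : CharP (AlgebraicClosure F) 2 := charP_of_injective_algebraMap (algebraMap F (AlgebraicClosure F)).injective 2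
  obtain ⟨Z⟩ := exists_setup F (q := 2 ^ a) hF 2
  have hq2 : 2 ^ (2 * a) = (2 ^ a) ^ 2 := by rw [← pow_mul, mul_comm]
  rw [hq2]
  obtain ⟨t1, t2, t3⟩ := exists_tori Z
  obtain ⟨m1, m2⟩ := exists_mixed Z
  have e8 : ∃ x ∈ chevG2.group F, orderOf x = 8 := exists_unip 2 2 (by norm_num) (by
    rw [show (2 : ℕ) ^ 2 = 4 from rfl]
    exact reg2)
  have e12 := exists_twelve (F := F)
  have key : ∀ n : ℕ, (∃ x ∈ chevG2.group F, orderOf x = n) → n ∈ Set.range (orderOf : ↥(Cfsg.Lie.chevG2.group F) → ℕ) := by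
    rintro n ⟨x, hx, rfl⟩
    exact ⟨⟨x, hx⟩, Subgroup.orderOf_mk _ _⟩
  have hsub : ({8, 12, 2 * (2 ^ a + 1), 2 * (2 ^ a - 1), (2 ^ a) ^ 2 - 1, (2 ^ a) ^ 2 + 2 ^ a + 1, (2 ^ a) ^ 2 - 2 ^ a + 1} : Set ℕ) ⊆ Set.range (orderOf : ↥(Cfsg.Lie.chevG2.group F) → ℕ) := by
    intro n hn
    simp only [Set.mem_insert_iff, Set.mem_singleton_iff] at hn
    rcases hn with rfl | rfl | rfl | rfl | rfl | rfl | rfl
    · exact key _ e8
    · exact key _ e12
    · exact key _ m1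
    · exact key _ m2
    · exact key _ t1
    · exact key _ t2
    · exact key _ t3
  refine ⟨max_sub ?_ hsub, hsub⟩
  rintro ⟨x, hx⟩
  rw [Subgroup.orderOf_mk]
  simp only [Set.mem_insert_iff, Set.mem_singleton_iff, exists_eq_or_imp, exists_eq_left]
  rcases order_parts Z hx with h | ⟨k, hk, h⟩ | ⟨h, -⟩ | ⟨-, h⟩
  · tauto
  · left
    rw [hk]
    exact h 3 (by norm_num)
  · exact absurd rfl h
  · tauto

end Cfsg.Agent.S2520
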