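import Cfsg.Statements.S2521

set_option autoImplicit false
open Cfsg

namespace Cfsg.Agent.S2521

/-- Let B be a finite group that is the semidirect product of a nilpotent normal subgroup U by an abelian subgroup T (U ∩ T = 1, UT = B), and let t ∈ T have centralizer exactly T. Then every element of the coset tU is conjugate to t in B: for each u ∈ U there is b ∈ B with b t b⁻¹ = t u. -/
theorem result {B : Type*} [Group B] [Finite B] (U T : Subgroup B) [U.Normal] (hU : Group.IsNilpotent ↥U) (hT : IsMulCommutative ↥T)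
    (hcompl : Subgroup.IsComplement' U T) (t : B) (ht : t ∈ T) (hreg : Subgroup.centralizer ({t} : Set B) = T) (u : B) (hu : u ∈ U) :
    ∃ b : B, b * t * b⁻¹ = t * u := by
  have hN : U.Normal := inferInstance
  have hdisj : U ⊓ T = ⊥ := hcompl.disjoint.eq_bot
  let f : U → U := fun x => ⟨t⁻¹ * (x : B) * t * (x : B)⁻¹, by
    have h1 : t⁻¹ * (x : B) * t ∈ U := by
      have := hN.conj_mem x x.2 t⁻¹
      simpa using this
    exact U.mul_mem h1 (U.inv_mem x.2)⟩
  have hf : Function.Injective f := by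
    intro x y hxy
    have h1 : t⁻¹ * (x : B) * t * (x : B)⁻¹ = t⁻¹ * (y : B) * t * (y : B)⁻¹ := congrArg Subtype.val hxy
    have h2 : (x : B) * t * (x : B)⁻¹ = (y : B) * t * (y : B)⁻¹ := by
      have := congrArg (fun z => t * z) h1
      simpa [mul_assoc] using this
    have h3 : (y : B)⁻¹ * x ∈ Subgroup.centralizer ({t} : Set B) := by
      rw [Subgroup.mem_centralizer_singleton_iff]
      have : (x : B) * t = (y : B) * t * (y : B)⁻¹ * x := by
        rw [← h2]; group
      calc (y : B)⁻¹ * x * t = (y : B)⁻¹ * (x * t) := by group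
        _ = (y : B)⁻¹ * ((y : B) * t * (y : B)⁻¹ * x) := by rw [this]
        _ = t * ((y : B)⁻¹ * x) := by group
    rw [hreg] at h3
    have h4 : (y : B)⁻¹ * x ∈ U ⊓ T := ⟨U.mul_mem (U.inv_mem y.2) x.2, h3⟩
    rw [hdisj, Subgroup.mem_bot] at h4
    exact Subtype.ext (inv_mul_eq_one.mp h4).symm
  obtain ⟨b, hb⟩ := (Finite.injective_iff_surjective.mp hf) ⟨u, hu⟩
  refine ⟨b, ?_⟩
  have : t⁻¹ * (b : B) * t * (b : B)⁻¹ = u := congrArg Subtype.val hb
  rw [← this]; group

end Cfsg.Agent.S2521
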