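import Cfsg.Statements.S2525
import Cfsg.Agent.Lib.ChevPG5

set_option autoImplicit false
open Cfsg

namespace Cfsg.Agent.S2525
open Cfsg.Lie Cfsg.Agent.Lib.ChevPG Cfsg.Agent.Lib.ChevSS

theorem main {F : Type*} [Field F] [Fintype F] (n : ℕ) (hn : 1 ≤ n) (hF : Fintype.card F = 2 ^ n)
    (r s : ℕ) (hr : r.Prime) (hs : s.Prime) (hrs : r ≠ s) (hrG : r ∣ Nat.card ↥(chevF4.group F)) (hsG : s ∣ Nat.card ↥(chevF4.group F)) :
    (∃ x ∈ chevF4.group F, orderOf x = r * s) ↔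
      ¬ ((r = 2 ∧ orderOf ((Fintype.card F : ℕ) : ZMod s) ∈ ({8, 12} : Finset ℕ)) ∨ (s = 2 ∧ orderOf ((Fintype.card F : ℕ) : ZMod r) ∈ ({8, 12} : Finset ℕ)) ∨
       (r ≠ 2 ∧ s ≠ 2 ∧ bad (orderOf ((Fintype.card F : ℕ) : ZMod r)) (orderOf ((Fintype.card F : ℕ) : ZMod s)))) := by
  have f2 : Fact (Nat.Prime 2) := ⟨Nat.prime_two⟩
  have fr : Fact r.Prime := ⟨hr⟩
  have fs : Fact s.Prime := ⟨hs⟩
  have hchar : CharP F 2 := by
    have h1 : (2 : F) ^ n = 0 := by
      have := FiniteField.cast_card_eq_zero F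
      rw [hF] at this
      exact_mod_cast this
    have h2 : (2 : F) = 0 := pow_eq_zero_iff (by omega) |>.mp h1
    exact CharTwo.of_one_ne_zero_of_two_eq_zero one_ne_zero h2
  have hcK : CharP (AlgebraicClosure F) 2 := charP_of_injective_algebraMap (algebraMap F (AlgebraicClosure F)).injective 2
  obtain ⟨Z⟩ := exists_setup F (q := Fintype.card F) rfl 2
  have h2K : (2 : AlgebraicClosure F) = 0 := CharTwo.two_eq_zero
  -- the case of the prime two
  have htwo : ∀ (s : ℕ) (fs : Fact s.Prime), s ≠ 2 → s ∣ Nat.card ↥(chevF4.group F) →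
      ((∃ x ∈ chevF4.group F, orderOf x = 2 * s) ↔ ¬ orderOf ((Fintype.card F : ℕ) : ZMod s) ∈ ({8, 12} : Finset ℕ)) := by
    intro s fs hs2 hsG
    constructor
    · rintro ⟨x, hx, hxo⟩ h8
      have h8' : orderOf ((Fintype.card F : ℕ) : ZMod s) = 8 ∨ orderOf ((Fintype.card F : ℕ) : ZMod s) = 12 := by simpa using h8
      have hxs : orderOf (x ^ 2) = s := by
        rw [orderOf_pow, hxo, Nat.gcd_eq_right (dvd_mul_right 2 s), Nat.mul_div_cancel_left _ (by norm_num)]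
      have hx2 : orderOf (x ^ s) = 2 := by
        rw [orderOf_pow, hxo, Nat.gcd_eq_right (dvd_mul_left s 2), Nat.mul_div_cancel _ fs.out.pos]
      have h1 := no_2s Z rfl (pow_mem hx 2) (pow_mem hx s) s hs2 hxs h8' (by rw [← hx2, pow_orderOf_eq_one]) (by
        rw [← pow_add, ← pow_add, add_comm])
      rw [h1, orderOf_one] at hx2
      omega
    · intro h8
      have h3 := order_mem_idx hF hs2 hsG
      have h4 : ∃ x ∈ chevF4.group F, ∃ y ∈ chevF4.group F, orderOf x = s ∧ orderOf y = 2 ∧ x * y = y * x := by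
        by_cases h5 : orderOf ((Fintype.card F : ℕ) : ZMod s) = 1
        · exact exists_2s_one Z h2K s hs2 h5
        · apply exists_2s Z h2K s
          simp only [idx, List.mem_cons, List.not_mem_nil, or_false] at h3 ⊢
          simp only [Finset.mem_insert, Finset.mem_singleton] at h8
          tauto
      obtain ⟨x, hx, y, hy, hxo, hyo, hc⟩ := h4
      refine ⟨y * x, mul_mem hy hx, ?_⟩
      have hc' : Commute y x := hc.symm
      rw [hc'.orderOf_mul_eq_mul_orderOf_of_coprime, hyo, hxo]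
      rw [hyo, hxo]
      exact (Nat.coprime_primes Nat.prime_two fs.out).mpr (Ne.symm hs2)
  by_cases hr2 : r = 2
  · subst hr2
    rw [htwo s fs (Ne.symm hrs) hsG]
    constructor
    · rintro h (⟨-, h1⟩ | ⟨h1, -⟩ | ⟨h1, -⟩)
      · exact h h1
      · exact hrs h1.symm
      · exact h1 rfl
    · intro h h1
      exact h (Or.inl ⟨rfl, h1⟩)
  by_cases hs2 : s = 2
  · subst hs2
    have h1 := htwo r fr hr2 hrG
    rw [mul_comm r 2, h1]
    constructor
    · rintro h (⟨h1, -⟩ | ⟨-, h1⟩ | ⟨-, h1, -⟩)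
      · exact hr2 h1
      · exact h h1
      · exact h1 rfl
    · intro h h1
      exact h (Or.inr (Or.inl ⟨rfl, h1⟩))
  constructor
  · rintro ⟨x, hx, hxo⟩ (⟨h1, -⟩ | ⟨h1, -⟩ | ⟨-, -, h1⟩)
    · exact hr2 h1
    · exact hs2 h1
    · refine pair_not_bad Z hx ?_ ?_ r s hr2 hs2 (by rw [hxo]; exact dvd_mul_right r s) (by rw [hxo]; exact dvd_mul_left s r) h1
      · rw [hxo]
        exact Nat.Coprime.mul_left ((Nat.coprime_primes hr Nat.prime_two).mpr hr2) ((Nat.coprime_primes hs Nat.prime_two).mpr hs2)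
      · rw [hxo]
        exact mul_ne_zero hr.ne_zero hs.ne_zero
  · intro h
    rcases pick _ (order_mem_idx hF hr2 hrG) _ (order_mem_idx hF hs2 hsG) with h1 | ⟨c, hc, h1, h2⟩
    · exact absurd (Or.inr (Or.inr ⟨hr2, hs2, h1⟩)) h
    · obtain ⟨he, hx⟩ := WO_ok c hc
      exact exists_rs Z he hx r s hrs h1 h2

/-- Let F be a finite field with q = 2^n elements and G = F₄(F). For an odd prime r let e(r, q) be the multiplicative order of q modulo r. Two distinct primes r, s dividing the order of G are non-adjacent in the prime graph of G (no element of order rs) if and only if, up to swapping r and s, either r = 2 and e(s, q) ∈ {8, 12}, or r, s are both odd with k = e(r, q) < l = e(s, q) and one of: l ∈ {8, 12}; l = 6 and k ∈ {3, 4}; l = 4 and k = 3. -/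
theorem result {F : Type*} [Field F] [Fintype F] (n : ℕ) (hn : 1 ≤ n) (hF : Fintype.card F = 2 ^ n)
    (r s : ℕ) (hr : r.Prime) (hs : s.Prime) (hrs : r ≠ s) (hrG : r ∣ Nat.card ↥(Cfsg.Lie.chevF4.group F)) (hsG : s ∣ Nat.card ↥(Cfsg.Lie.chevF4.group F)) :
    (¬ ∃ x : ↥(Cfsg.Lie.chevF4.group F), orderOf x = r * s) ↔
      ((r = 2 ∧ orderOf ((Fintype.card F : ℕ) : ZMod s) ∈ ({8, 12} : Finset ℕ)) ∨ (s = 2 ∧ orderOf ((Fintype.card F : ℕ) : ZMod r) ∈ ({8, 12} : Finset ℕ)) ∨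
       (r ≠ 2 ∧ s ≠ 2 ∧
         ((orderOf ((Fintype.card F : ℕ) : ZMod r) < orderOf ((Fintype.card F : ℕ) : ZMod s) ∧ (orderOf ((Fintype.card F : ℕ) : ZMod s) ∈ ({8, 12} : Finset ℕ) ∨ (orderOf ((Fintype.card F : ℕ) : ZMod s) = 6 ∧ orderOf ((Fintype.card F : ℕ) : ZMod r) ∈ ({3, 4} : Finset ℕ)) ∨ (orderOf ((Fintype.card F : ℕ) : ZMod s) = 4 ∧ orderOf ((Fintype.card F : ℕ) : ZMod r) = 3))) ∨
          (orderOf ((Fintype.card F : ℕ) : ZMod s) < orderOf ((Fintype.card F : ℕ) : ZMod r) ∧ (orderOf ((Fintype.card F : ℕ) : ZMod r) ∈ ({8, 12} : Finset ℕ) ∨ (orderOf ((Fintype.card F : ℕ) : ZMod r) = 6 ∧ orderOf ((Fintype.card F : ℕ) : ZMod s) ∈ ({3, 4} : Finset ℕ)) ∨ (orderOf ((Fintype.card F : ℕ) : ZMod r) = 4 ∧ orderOf ((Fintype.card F : ℕ) : ZMod s) = 3)))))) := by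
  have h := main n hn hF r s hr hs hrs hrG hsG
  have h2 : (∃ x : ↥(Cfsg.Lie.chevF4.group F), orderOf x = r * s) ↔ ∃ x ∈ chevF4.group F, orderOf x = r * s := by
    constructor
    · rintro ⟨x, hx⟩
      exact ⟨x.1, x.2, by rw [← hx, Subgroup.orderOf_coe]⟩
    · rintro ⟨x, hx, ho⟩
      exact ⟨⟨x, hx⟩, by rw [← ho, Subgroup.orderOf_mk]⟩
  rw [h2, h, not_not]
  rfl

end Cfsg.Agent.S2525
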