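import Cfsg.Statements.S2556
import Cfsg.Agent.Lib.SzAut2
import Cfsg.Agent.Lib.SzBin6

set_option autoImplicit false
open Cfsg

namespace Cfsg.Agent.S2556

open Cfsg.Agent.Lib Cfsg.Agent.Lib.SuzukiOvoid Cfsg.Agent.Lib.SuzukiGroup
  Cfsg.Agent.Lib.SuzukiSyl Cfsg.Agent.Lib.SuzukiPts

/-- Let S be a Sylow 2-subgroup of the Suzuki group Sz(q), q = 2ⁿ with n = 2m + 1 ≥ 3 (realised as 4 × 4 matrices over the field with q elements). Then the largest normal 2-subgroup of the automorphism group of S is elementary abelian of order 2^(n²), and the automorphism group of S has order 2^(n²) · n · (q − 1). -/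
theorem result {S : Type*} [Group S] [Finite S] (m : ℕ) (hm : 1 ≤ m)
    {F : Type*} [Field F] [Fintype F] (hF : Fintype.card F = 2 ^ (2 * m + 1))
    (P : Sylow 2 ↥(Cfsg.Lie.Sz F (2 ^ (m + 1)))) (hS : Nonempty (S ≃* ↥(P : Subgroup ↥(Cfsg.Lie.Sz F (2 ^ (m + 1)))))) :
    Cfsg.IsElementaryAbelian 2 (Cfsg.pCore 2 (MulAut S)) ∧ Nat.card ↥(Cfsg.pCore 2 (MulAut S)) = 2 ^ ((2 * m + 1) ^ 2) ∧
      Nat.card (MulAut S) = 2 ^ ((2 * m + 1) ^ 2) * ((2 * m + 1) * (2 ^ (2 * m + 1) - 1)) := by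
  have hcp : CharP F 2 := SuzukiFin.charTwo hF
  have hθ := SuzukiFin.th_sq (F := F) (m := m) hF
  have hne := SuzukiFin.th_ne (F := F) hm hF
  have hFc : Nat.card F = 2 ^ (2 * m + 1) := by rw [Nat.card_eq_fintype_card, hF]
  have e : Lie.Sz F (2 ^ (m + 1)) ≃* Gz (SuzukiFin.th F m) :=
    (SuzukiLie.szEquiv m hm hF).symm.trans (MulEquiv.subgroupCongr (SuzukiFin.Sz_eq m))
  have hs2 : Function.Surjective (e.toMonoidHom) := e.surjective
  obtain ⟨p, hp⟩ := sylow_eq (SuzukiFin.th F m) hθ hne (P.mapSurjective hs2)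
  rw [Sylow.coe_mapSurjective] at hp
  obtain ⟨k, hk⟩ := exists_to _ hθ p
  obtain ⟨e0⟩ := hS
  have e1 : (P : Subgroup (Lie.Sz F (2 ^ (m + 1)))) ≃* Up (SuzukiFin.th F m) hθ hne p :=
    ((P : Subgroup (Lie.Sz F (2 ^ (m + 1)))).equivMapOfInjective e.toMonoidHom e.injective).trans
      (MulEquiv.subgroupCongr hp)
  have e2 : S ≃* USub (SuzukiFin.th F m) hθ := (e0.trans e1).trans (UpEquiv _ hθ hne p k hk).symm
  refine SzAut.main (n := 2 * m + 1) hFc hm rfl (SuzukiFin.th F m) ?_ (mulθ_surj _ hθ)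
    (fun a b => e2.symm ⟨Ug (SuzukiFin.th F m) hθ a b, Ug_mem _ hθ a b⟩) ?_ ?_ ?_
  · intro x
    rw [SuzukiFin.th_apply, SzAut.s_apply]
    congr 2
    rw [ZMod.val_natCast, Nat.mod_eq_of_lt (by omega)]
  · intro a b c d
    rw [← map_mul]
    congr 1
    exact Subtype.ext (Ug_mul _ hθ a b c d)
  · intro a b c d h
    exact Ug_inj _ hθ (congrArg Subtype.val (e2.symm.injective h))
  · intro x
    obtain ⟨a, b, hab⟩ := (mem_USub _ hθ).1 (e2 x).2
    refine ⟨a, b, ?_⟩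
    apply e2.injective
    rw [e2.apply_symm_apply]
    exact Subtype.ext hab

end Cfsg.Agent.S2556
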