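import Cfsg.Statements.S2558
import Cfsg.Agent.Lib.IsoSpE3
import Cfsg.Agent.Lib.SimForm2
-- import your own Cfsg.Agent.* helpers here

set_option autoImplicit false
open Cfsg

namespace Cfsg.Agent.S2558

/-- The number of conjugacy classes of the full orthogonal groups O⁺(2n,q) and O⁻(2n,q), q odd, 2n ≥ 4: for F a finite field of odd order q and n ≥ 2, the number k of conjugacy classes of the isometry group of the hyperbolic quadratic form Σ xᵢyᵢ on F^{2n}, and likewise of the elliptic form Σ xᵢyᵢ + (z₁² + a z₁z₂ + b z₂²) with anisotropic binary part, satisfies q^n/2 ≤ k ≤ 9.5·q^n. -/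
theorem result {F : Type*} [Field F] [Fintype F] (hodd : Odd (Fintype.card F)) (n : ℕ) (hn : 2 ≤ n) (a b : F) (hab : ∀ z₁ z₂ : F, z₁ ^ 2 + a * z₁ * z₂ + b * z₂ ^ 2 = 0 → z₁ = 0 ∧ z₂ = 0) :
    (Fintype.card F ^ n ≤ 2 * Nat.card (ConjClasses ↥(Cfsg.isometryGroup F (Cfsg.quadFormPlus n F))) ∧
      2 * Nat.card (ConjClasses ↥(Cfsg.isometryGroup F (Cfsg.quadFormPlus n F))) ≤ 19 * Fintype.card F ^ n) ∧
    (Fintype.card F ^ n ≤ 2 * Nat.card (ConjClasses ↥(Cfsg.isometryGroup F (Cfsg.quadFormMinus (n - 1) F a b))) ∧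
      2 * Nat.card (ConjClasses ↥(Cfsg.isometryGroup F (Cfsg.quadFormMinus (n - 1) F a b))) ≤ 19 * Fintype.card F ^ n) := by
  have h2 : (2 : F) ≠ 0 := by
    intro h0
    have h1 : ringChar F = 2 := by
      have h3 : (ringChar F) ∣ 2 := by
        rw [← ringChar.spec F]
        exact_mod_cast h0
      exact (Nat.prime_dvd_prime_iff_eq (CharP.char_is_prime F (ringChar F)) Nat.prime_two).1 h3
    haveI := ringChar.of_eq h1
    have h4 := FiniteField.even_card_of_char_two h1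
    rw [Nat.odd_iff] at hodd
    omega
  have hq : 3 ≤ Nat.card F := by
    rw [Nat.card_eq_fintype_card]
    have := Fintype.one_lt_card (α := F)
    rw [Nat.odd_iff] at hodd
    omega
  have hp : Lib.Quad.Nd (Lib.Quad.quadPlus n F) := Lib.Quad.nd_quadPlus
  have hm : Lib.Quad.Nd (Lib.Quad.quadMinus (n - 1) F a b) := Lib.SimForm.nd_minus h2 (n - 1) hab
  have c1 : Fintype.card (Fin n ⊕ Fin n) = 2 * n := by simp; omega
  have c2 : Fintype.card ((Fin (n - 1) ⊕ Fin (n - 1)) ⊕ Fin 2) = 2 * n := by simp; omega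
  rw [← Nat.card_eq_fintype_card]
  exact ⟨⟨Lib.IsoSp.two_mul_lower h2 hp hn c1, Lib.IsoSp.two_mul_upper h2 hq hp (by omega) c1⟩,
    Lib.IsoSp.two_mul_lower h2 hm hn c2, Lib.IsoSp.two_mul_upper h2 hq hm (by omega) c2⟩

end Cfsg.Agent.S2558
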