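import Cfsg.Statements.S2560
import Cfsg.Agent.Lib.IsoSpG9
import Cfsg.Agent.Lib.QuadForms
-- import your own Cfsg.Agent.* helpers here

set_option autoImplicit false
open Cfsg

namespace Cfsg.Agent.S2560

/-- The number of conjugacy classes of Ω(2n+1,q), q odd, n ≥ 2: for F a finite field of odd order q, the number k of conjugacy classes of the commutator subgroup of the isometry group of the quadratic form x₀² + Σ xᵢyᵢ on F^{2n+1} satisfies q^n/2 ≤ k ≤ 7.3·q^n. -/
theorem result {F : Type*} [Field F] [Fintype F] (hodd : Odd (Fintype.card F)) (n : ℕ) (hn : 2 ≤ n) :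
    Fintype.card F ^ n ≤ 2 * Nat.card (ConjClasses ↥(Cfsg.Omega F (Cfsg.quadFormOdd n F))) ∧
      10 * Nat.card (ConjClasses ↥(Cfsg.Omega F (Cfsg.quadFormOdd n F))) ≤ 73 * Fintype.card F ^ n := by
  have h2 : (2 : F) ≠ 0 := by
    intro h0
    have h1 : ringChar F = 2 := by
      have h3 : (ringChar F) ∣ 2 := by
        rw [← ringChar.spec F]
        exact_mod_cast h0
      exact (Nat.prime_dvd_prime_iff_eq (CharP.char_is_prime F (ringChar F)) Nat.prime_two).1 h3
    haveI := ringChar.of_eq h1
    have h4 := FiniteField.even_card_of_char_two h1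
    rw [Nat.odd_iff] at hodd
    omega
  have hq : 3 ≤ Nat.card F := by
    rw [Nat.card_eq_fintype_card]
    have := Fintype.one_lt_card (α := F)
    rw [Nat.odd_iff] at hodd
    omega
  have hp : Lib.Quad.Nd (Lib.Quad.quadOdd n F) := Lib.Quad.nd_quadOdd h2
  have c1 : Fintype.card (Unit ⊕ (Fin n ⊕ Fin n)) = 2 * n + 1 := by simp; omega
  rw [← Nat.card_eq_fintype_card]
  exact Lib.IsoSp.omega_odd_bounds h2 hq hp (by omega) c1

end Cfsg.Agent.S2560
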