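import Cfsg.Statements.S2587
import Cfsg.Agent.Lib.UnitStar
import Cfsg.Agent.Lib.NormInv

set_option autoImplicit false
open Cfsg

namespace Cfsg.Agent.S2587

open Cfsg.Agent.Lib.UnitStar Cfsg.Agent.Lib.NormInv

theorem result {K : Type*} [Field K] [Fintype K] {q n : ℕ} (hK : Fintype.card K = q ^ 2) (A B : ↥(Cfsg.GU n K q)) : IsConj A B ↔ IsConj (A : GL (Fin n) K) (B : GL (Fin n) K) := by
  classical
  constructor
  · intro h
    exact (Cfsg.GU n K q).subtype.map_isConj h
  intro h
  obtain ⟨φ, hφq, hφφ, ω, hω⟩ := exists_conj hK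
  rw [isConj_iff] at h
  obtain ⟨g, hg⟩ := h
  rw [mul_inv_eq_iff_eq_mul] at hg
  have hA := (mem_GU_iff φ hφq (A : GL (Fin n) K)).mp A.2
  have hB := (mem_GU_iff φ hφq (B : GL (Fin n) K)).mp B.2
  set MA : Matrix (Fin n) (Fin n) K := ((A : GL (Fin n) K) : Matrix (Fin n) (Fin n) K) with hMA
  set MB : Matrix (Fin n) (Fin n) K := ((B : GL (Fin n) K) : Matrix (Fin n) (Fin n) K) with hMB
  set G : Matrix (Fin n) (Fin n) K := (g : Matrix (Fin n) (Fin n) K) with hG
  have hgm : G * MA = MB * G := congrArg Units.val hg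
  -- `h = g* g` commutes with `A`
  have hA' : MA * st φ MA = 1 := mul_eq_one_comm.mp hA
  have hB' : MB * st φ MB = 1 := mul_eq_one_comm.mp hB
  have hcommA : (st φ G * G) * MA = MA * (st φ G * G) := by
    have h1 : st φ MA * st φ G = st φ G * st φ MB := by rw [← st_mul, ← st_mul, hgm]
    have h2 : st φ G * MB = MA * st φ G := by
      calc st φ G * MB = (MA * st φ MA) * st φ G * MB := by rw [hA', one_mul]
        _ = MA * (st φ MA * st φ G) * MB := by simp only [Matrix.mul_assoc]
        _ = MA * (st φ G * st φ MB) * MB := by rw [h1]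
        _ = MA * st φ G * (st φ MB * MB) := by simp only [Matrix.mul_assoc]
        _ = MA * st φ G := by rw [hB, mul_one]
    rw [Matrix.mul_assoc, hgm, ← Matrix.mul_assoc, h2, Matrix.mul_assoc]
  have hGu : IsUnit G := g.isUnit
  have hstu : ∀ X : Matrix (Fin n) (Fin n) K, IsUnit X → IsUnit (st φ X) := by
    intro X hX
    obtain ⟨Y, hY⟩ := hX.exists_right_inv
    have : st φ Y * st φ X = 1 := by rw [← st_mul, hY, st_one]
    exact IsUnit.of_mul_eq_one (st φ Y) (mul_eq_one_comm.mp this)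
  have hfin : Finite (Matrix (Fin n) (Fin n) K) := inferInstance
  obtain ⟨c, hcmem, hcu, hcc⟩ := exists_norm_eq_adjoin (F := K) (R := Matrix (Fin n) (Fin n) K) φ (st φ) (st_add φ) (st_mul φ) (st_one φ)
    (st_st φ hφφ) (st_algebraMap φ) {st φ G * G} (by
      intro x hx y hy
      rw [Set.mem_singleton_iff] at hx hy
      rw [hx, hy]) (by
      intro x hx
      rw [Set.mem_singleton_iff] at hx ⊢
      rw [hx, st_mul, st_st φ hφφ])
    (algebraMap K _ ω) (Subalgebra.algebraMap_mem _ _) (by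
      rw [st_algebraMap, ← map_sub]
      exact (IsUnit.mk0 _ (sub_ne_zero.mpr (Ne.symm hω))).map _)
    (st φ G * G) (Algebra.subset_adjoin rfl) ((hstu G hGu).mul hGu) (by rw [st_mul, st_st φ hφφ])
  -- `c` commutes with `A` and with `c*`
  have hcommc : ∀ x ∈ Algebra.adjoin K {st φ G * G}, x * MA = MA * x := by
    intro x hx
    refine Algebra.adjoin_induction (p := fun x _ => x * MA = MA * x) ?_ ?_ ?_ ?_ hx
    · intro x hx
      rw [Set.mem_singleton_iff] at hx
      rw [hx, hcommA]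
    · intro r
      exact Algebra.commutes r MA
    · intro x y _ _ h1 h2
      rw [add_mul, mul_add, h1, h2]
    · intro x y _ _ h1 h2
      rw [mul_assoc, h2, ← mul_assoc, h1, mul_assoc]
  have hcA := hcommc c hcmem
  have hstc : st φ c ∈ Algebra.adjoin K {st φ G * G} := by
    refine Algebra.adjoin_induction (p := fun x _ => st φ x ∈ Algebra.adjoin K {st φ G * G}) ?_ ?_ ?_ ?_ hcmem
    · intro x hx
      rw [Set.mem_singleton_iff] at hx
      rw [hx, st_mul, st_st φ hφφ]
      exact Algebra.subset_adjoin rfl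
    · intro r
      rw [st_algebraMap]
      exact Subalgebra.algebraMap_mem _ _
    · intro x y _ _ h1 h2
      rw [st_add]; exact Subalgebra.add_mem _ h1 h2
    · intro x y _ _ h1 h2
      rw [st_mul]; exact Subalgebra.mul_mem _ h2 h1
  have hcc' : st φ c * c = st φ G * G := by
    rw [← hcc]
    have hs : ∀ x ∈ ({st φ G * G} : Set (Matrix (Fin n) (Fin n) K)), ∀ y ∈ ({st φ G * G} : Set (Matrix (Fin n) (Fin n) K)), x * y = y * x := by
      intro x hx y hy
      rw [Set.mem_singleton_iff] at hx hy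
      rw [hx, hy]
    have := Algebra.isMulCommutative_adjoin K hs
    exact congrArg Subtype.val (mul_comm' (⟨st φ c, hstc⟩ : Algebra.adjoin K {st φ G * G}) ⟨c, hcmem⟩)
  -- the corrected conjugator
  let u : GL (Fin n) K := hcu.unit
  have hu : (u : Matrix (Fin n) (Fin n) K) = c := rfl
  have huA : u * (A : GL (Fin n) K) = (A : GL (Fin n) K) * u := by
    ext1
    exact hcA
  have hmem : g * u⁻¹ ∈ Cfsg.GU n K q := by
    rw [mem_GU_iff φ hφq]
    set Ci : Matrix (Fin n) (Fin n) K := ((u⁻¹ : GL (Fin n) K) : Matrix (Fin n) (Fin n) K) with hCi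
    have h1 : c * Ci = 1 := by
      have : u * u⁻¹ = 1 := mul_inv_cancel u
      exact congrArg Units.val this
    have h2 : st φ Ci * st φ c = 1 := by rw [← st_mul, h1, st_one]
    show st φ (G * Ci) * (G * Ci) = 1
    calc st φ (G * Ci) * (G * Ci) = st φ Ci * (st φ G * G) * Ci := by rw [st_mul]; simp only [Matrix.mul_assoc]
      _ = st φ Ci * (st φ c * c) * Ci := by rw [hcc']
      _ = (st φ Ci * st φ c) * (c * Ci) := by simp only [Matrix.mul_assoc]
      _ = 1 := by rw [h1, h2, one_mul]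
  rw [isConj_iff]
  refine ⟨⟨g * u⁻¹, hmem⟩, ?_⟩
  rw [mul_inv_eq_iff_eq_mul]
  apply Subtype.ext
  show g * u⁻¹ * (A : GL (Fin n) K) = (B : GL (Fin n) K) * (g * u⁻¹)
  have h3 : u⁻¹ * (A : GL (Fin n) K) = (A : GL (Fin n) K) * u⁻¹ := by
    rw [inv_mul_eq_iff_eq_mul, ← mul_assoc, huA, mul_assoc, mul_inv_cancel, mul_one]
  rw [mul_assoc, h3, ← mul_assoc, hg, mul_assoc]

end Cfsg.Agent.S2587
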