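import Cfsg.Statements.S2756
import Cfsg.Agent.Lib.GLAReal

set_option autoImplicit false
open Cfsg

namespace Cfsg.Agent.S2756

open Cfsg.Agent.Lib.CFSylow Cfsg.Agent.Lib.CFFusion Cfsg.Agent.Lib.GLAMain Cfsg.Agent.Lib.GLAReal in
theorem bc_aux {G : Type*} [Group G] [Finite G] {q : ℕ} [Fact q.Prime] (hq : q ≠ 2) (T : Sylow q G)
    {x g : G} (hxT : x ∈ (T : Subgroup G)) (hx1 : x ≠ 1)
    (hg : g ∈ Subgroup.normalizer (Cfsg.centerThompsonAOf (T : Subgroup G) : Set G))
    (hN : ∀ P : Sylow 2 ↥(Subgroup.normalizer (Cfsg.centerThompsonAOf (T : Subgroup G) : Set G)),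
      (P : Subgroup ↥(Subgroup.normalizer (Cfsg.centerThompsonAOf (T : Subgroup G) : Set G))).Normal) :
    g * x * g⁻¹ ≠ x⁻¹ := by
  intro h
  have hTp := T.isPGroup'
  have hc := Lib.CFSection.isConjugacyFunctor_induced (X := G) (Lib.ClosedPS.isChar_Wab (p := q))
  have hle := le_nz_functor hc hTp
  rw [Lib.ClosedPS.induced_Wab] at hle
  obtain ⟨P⟩ : Nonempty (Sylow 2 ↥(Subgroup.normalizer (Cfsg.centerThompsonAOf (T : Subgroup G) : Set G))) :=
    inferInstance
  have hodd : Odd (orderOf x) := by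
    obtain ⟨k, hk⟩ := (IsPGroup.iff_orderOf.1 hTp) ⟨x, hxT⟩
    rw [Subgroup.orderOf_mk] at hk
    rw [hk]
    exact ((Fact.out : q.Prime).odd_of_ne_two hq).pow
  have h1 := real_odd_trivial P (hN P) (x := ⟨x, hle hxT⟩) (g := ⟨g, hg⟩)
    (by rw [Subgroup.orderOf_mk]; exact hodd) (Subtype.ext h)
  exact hx1 (congrArg Subtype.val h1)

open Cfsg.Agent.Lib.CFSylow Cfsg.Agent.Lib.CFFusion Cfsg.Agent.Lib.GLAMain Cfsg.Agent.Lib.GLAReal in
theorem ca_aux {G : Type*} [Group G] [Finite G]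
    (h : ∀ (q : ℕ) [Fact q.Prime], q ≠ 2 → ∀ T : Sylow q G, ∀ x ∈ (T : Subgroup G), x ≠ 1 →
      ∀ g ∈ Subgroup.normalizer (Cfsg.centerThompsonAOf (T : Subgroup G) : Set G), g * x * g⁻¹ ≠ x⁻¹) :
    ∀ P : Sylow 2 G, (P : Subgroup G).Normal := by
  intro P
  refine Lib.TwoClosed.sylow_two_normal _ G le_rfl ?_ P
  intro x hx hreal
  by_contra hx1
  have h1 : orderOf x ≠ 1 := fun h => hx1 (orderOf_eq_one_iff.1 h)
  obtain ⟨q, hq, hqd⟩ := Nat.exists_prime_and_dvd h1
  have hF : Fact q.Prime := ⟨hq⟩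
  have hq2 : q ≠ 2 := by
    rintro rfl
    exact (Nat.not_even_iff_odd.2 hx) (even_iff_two_dvd.2 hqd)
  set y := x ^ (orderOf x / q) with hy
  have hyo : orderOf y = q := orderOf_pow_orderOf_div (orderOf_pos x).ne' hqd
  obtain ⟨c, hc⟩ := isConj_iff.1 (Lib.TwoClosed.isConj_inv_pow hreal (orderOf x / q))
  have hy1 : y ≠ 1 := by
    intro h0
    rw [h0, orderOf_one] at hyo
    exact hq.one_lt.ne hyo
  have hR := rel_of_inverted (p := q) hq2 (k := 1) (by rw [hyo, pow_one]) hy1 hc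
  obtain ⟨T⟩ : Nonempty (Sylow q G) := inferInstance
  obtain ⟨z, hz, hz1, g, hg, hgz⟩ := exists_in_normalizer hq2 (sylIn_sylow T) hR
  refine h q hq2 T z hz hz1 g ?_ hgz
  rw [Lib.ZJThm.centerThompsonAOf_eq]
  exact hg

theorem ab_aux {G : Type*} [Group G] [Finite G] (h : ∀ P : Sylow 2 G, (P : Subgroup G).Normal) (N : Subgroup G)
    (P : Sylow 2 ↥N) : (P : Subgroup ↥N).Normal := by
  obtain ⟨S⟩ : Nonempty (Sylow 2 G) := inferInstance
  have hS := h S
  have h1 : ((S : Subgroup G).subgroupOf N).Normal := inferInstance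
  have h2 : (P : Subgroup ↥N) = (S : Subgroup G).subgroupOf N := by
    apply le_antisymm
    · intro x hx
      rw [Subgroup.mem_subgroupOf]
      have h3 : IsPGroup 2 ((P : Subgroup ↥N).map N.subtype) := P.isPGroup'.map _
      obtain ⟨Q, hQ⟩ := h3.exists_le_sylow
      have h4 : (Q : Subgroup G) = S := by
        obtain ⟨g, hg⟩ := MulAction.exists_smul_eq G Q S
        have := h Q
        rw [← hg, Sylow.smul_eq_of_normal]
      rw [← h4]
      exact hQ ⟨x, hx, rfl⟩
    · have h3 : IsPGroup 2 ((S : Subgroup G).subgroupOf N) :=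
        S.isPGroup'.comap_of_injective N.subtype N.subtype_injective
      exact h3.le_sylow_of_normal P
  rw [h2]; exact h1

/-- For a finite group G the following are equivalent: (a) G has a normal Sylow 2-subgroup; (b) for every odd prime q dividing the order of G and every Sylow q-subgroup T, the normalizer of Z(J(T)) has a normal Sylow 2-subgroup; (c) for every odd prime q and every Sylow q-subgroup T, no nonidentity element of T is inverted by an element of the normalizer of Z(J(T)). Here J(T) is the Thompson subgroup generated by the abelian subgroups of T of largest order. Stated as the two equivalences (a) ⇔ (b) and (a) ⇔ (c). -/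
theorem result {G : Type*} [Group G] [Finite G] : ((∀ P : Sylow 2 G, (P : Subgroup G).Normal) ↔ ∀ (q : ℕ) [Fact q.Prime], q ≠ 2 → q ∣ Nat.card G → ∀ T : Sylow q G, ∀ P : Sylow 2 ↥(Subgroup.normalizer (Cfsg.centerThompsonAOf (T : Subgroup G) : Set G)), (P : Subgroup ↥(Subgroup.normalizer (Cfsg.centerThompsonAOf (T : Subgroup G) : Set G))).Normal) ∧ ((∀ P : Sylow 2 G, (P : Subgroup G).Normal) ↔ ∀ (q : ℕ) [Fact q.Prime], q ≠ 2 → ∀ T : Sylow q G, ∀ x ∈ (T : Subgroup G), x ≠ 1 → ∀ g ∈ Subgroup.normalizer (Cfsg.centerThompsonAOf (T : Subgroup G) : Set G), g * x * g⁻¹ ≠ x⁻¹) := by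
  refine ⟨⟨fun h q _ _ _ T P => ab_aux h _ P, fun h => ca_aux fun q _ hq T x hx hx1 g hg => ?_⟩,
    ⟨fun h q _ hq T x hx hx1 g hg => bc_aux hq T hx hx1 hg (fun P => ab_aux h _ P), ca_aux⟩⟩
  refine bc_aux hq T hx hx1 hg (fun P => h q hq ?_ T P)
  have h1 : orderOf x ∣ Nat.card G := orderOf_dvd_natCard x
  obtain ⟨k, hk⟩ := (IsPGroup.iff_orderOf.1 T.isPGroup') ⟨x, hx⟩
  rw [Subgroup.orderOf_mk] at hk
  have hk0 : k ≠ 0 := by
    rintro rfl
    rw [pow_zero, orderOf_eq_one_iff] at hk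
    exact hx1 hk
  rw [hk] at h1
  exact (dvd_pow_self q hk0).trans h1


end Cfsg.Agent.S2756
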