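import Cfsg.Statements.S2769
import Cfsg.Agent.Lib.QmPU7
import Cfsg.Agent.Lib.NatSL2

set_option autoImplicit false
open Cfsg

namespace Cfsg.Agent.S2769

open Cfsg.Agent.Lib.QmCore

open scoped commutatorElement

/-- Let G be a finite group and p a prime with C_G(O_p(G)) ≤ O_p(G), S a Sylow p-subgroup lying in exactly one maximal subgroup of G, and G/K ≅ PSL₂(p^n) for some normal K and n ≥ 1. Let J(S) be generated by the abelian subgroups of S of largest order. If [Z(J(S)), S] ≠ 1, then either [Z(J(S)), S] ∩ Z(S) is normal in G or C_S(Z(J(S))) is normal in G. -/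
theorem result {G : Type*} [Group G] [Finite G] {p : ℕ} [Fact p.Prime] (S : Sylow p G) (hE₁ : Subgroup.centralizer (Cfsg.pCore p G : Set G) ≤ Cfsg.pCore p G) (hE₂ : ∃! M : Subgroup G, IsCoatom M ∧ (S : Subgroup G) ≤ M) (K : Subgroup G) [K.Normal] (F : Type) [Field F] [Fintype F] (n : ℕ) (hn : 1 ≤ n) (hF : Fintype.card F = p ^ n) (hE₃ : Nonempty (G ⧸ K ≃* Matrix.ProjectiveSpecialLinearGroup (Fin 2) F)) (h : ⁅(Cfsg.centerThompsonAOf (S : Subgroup G)), (S : Subgroup G)⁆ ≠ ⊥) : (⁅(Cfsg.centerThompsonAOf (S : Subgroup G)), (S : Subgroup G)⁆ ⊓ ((S : Subgroup G) ⊓ Subgroup.centralizer ((S : Subgroup G) : Set G))).Normal ∨ (((S : Subgroup G) ⊓ Subgroup.centralizer (Cfsg.centerThompsonAOf (S : Subgroup G) : Set G))).Normal := by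
  have hchar : CharP F p := Cfsg.Agent.Lib.NatSL2.charP_of_card hF
  obtain ⟨M, φ, hP, -⟩ := PU.mk' S hE₂ K hE₃
  rw [PU.centerThompson_eq]
  by_cases hZ : (PU.ZS S).Normal
  · left
    -- Frattini argument
    have hcn : (Subgroup.centralizer (PU.ZS S : Set G)).Normal := PU.cent_normal hZ
    have hSC : (S : Subgroup G) ≤ Subgroup.centralizer (PU.ZS S : Set G) := by
      rw [Subgroup.le_centralizer_iff]; exact inf_le_right
    have h1 : Cfsg.Agent.Lib.LocBase.IsSyl p (S : Subgroup G) (Subgroup.centralizer (PU.ZS S : Set G)) :=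
      Cfsg.Agent.Lib.LocBase.isSyl_of_sylow_le hSC
    have h2 := h1.frattini_sup (H := ⊤) le_top (by rw [Subgroup.normalizer_eq_top])
    rw [top_inf_eq] at h2
    rw [← Subgroup.normalizer_eq_top_iff, eq_top_iff, ← h2]
    apply sup_le
    · apply le_norm_of
      intro c hc d hd
      have h3 : d * c = c * d := Subgroup.mem_centralizer_iff.1 hc d (Subgroup.mem_inf.1 hd).2
      have e : c * d * c⁻¹ = d := by rw [← h3]; group
      rw [e]; exact hd
    · apply le_norm_of
      intro g hg d hd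
      rw [Subgroup.mem_inf] at hd ⊢
      refine ⟨?_, ?_⟩
      · have hn : ∀ k ∈ Subgroup.normalizer ((S : Subgroup G) : Set G), (PU.ZJ S).map (MulAut.conj k).toMonoidHom ≤ PU.ZJ S := by
          rintro k hk _ ⟨z, hz, rfl⟩
          exact PU.norm_ZJ hk hz
        have h4 : ⁅PU.ZJ S, (S : Subgroup G)⁆.map (MulAut.conj g).toMonoidHom ≤ ⁅PU.ZJ S, (S : Subgroup G)⁆ := by
          rw [Subgroup.map_commutator]
          apply Subgroup.commutator_mono (hn g hg)
          rintro _ ⟨s, hs, rfl⟩
          exact (Subgroup.mem_normalizer_iff.1 hg s).1 hs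
        exact h4 ⟨d, hd.1, rfl⟩
      · have h5 := hd.2
        exact hZ.conj_mem d h5 g
  · by_cases hJ : PU.JS S ≤ Cfsg.pCore p G
    · right
      exact hP.BS_normal_of_J hE₁ hZ hJ
    · left
      have hb := hP.exists_BD hE₁ hZ hJ
      have hDn : ⁅PU.ZJ S, (S : Subgroup G)⁆.Normal := PU.BD.comm_normal hE₁ hb
      -- `[Z_J, S] ≤ Z_J`
      have hle : ⁅PU.ZJ S, (S : Subgroup G)⁆ ≤ PU.ZJ S := by
        rw [Subgroup.commutator_le]
        intro z hz s hs
        have h1 := PU.norm_ZJ (Subgroup.le_normalizer hs) (inv_mem hz)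
        have e : ⁅z, s⁆ = z * (s * z⁻¹ * s⁻¹) := by rw [commutatorElement_def]; group
        rw [e]; exact mul_mem hz h1
      apply PU.normal_of_le_center
      apply hP.central_of (N := Subgroup.centralizer ((⁅PU.ZJ S, (S : Subgroup G)⁆ : Subgroup G) : Set G))
      · intro hM
        apply hb.nle
        have h2 : PU.BS' S ≤ Subgroup.centralizer ((⁅PU.ZJ S, (S : Subgroup G)⁆ : Subgroup G) : Set G) :=
          inf_le_right.trans (Subgroup.centralizer_le (SetLike.coe_subset_coe.2 hle))
        have h3 : (Subgroup.centralizer ((⁅PU.ZJ S, (S : Subgroup G)⁆ : Subgroup G) : Set G)).Normal := PU.cent_normal hDn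
        exact h2.trans ((Subgroup.normal_le_normalCore).2 hM)
      · exact Subgroup.centralizer_le (SetLike.coe_subset_coe.2 inf_le_left)
      · rw [Subgroup.le_centralizer_iff]
        exact inf_le_right.trans inf_le_right

end Cfsg.Agent.S2769
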