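import Cfsg.Statements.S2770
import Cfsg.Agent.Lib.QmPU7
import Cfsg.Agent.Lib.NatSL2

set_option autoImplicit false
open Cfsg

namespace Cfsg.Agent.S2770

open Cfsg.Agent.Lib.QmCore

open scoped commutatorElement

/-- Let G be a finite group and p a prime with C_G(O_p(G)) ≤ O_p(G), S a Sylow p-subgroup lying in exactly one maximal subgroup of G, and G/K ≅ PSL₂(p^n) for some normal K and n ≥ 1. If Z(S) is not elementary abelian, then either ℧¹(Z(S)) (the subgroup generated by the p-th powers of the elements of Z(S)) is normal in G or C_S(Z(J(S))) is normal in G, J(S) being generated by the abelian subgroups of S of largest order. -/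
theorem result {G : Type*} [Group G] [Finite G] {p : ℕ} [Fact p.Prime] (S : Sylow p G) (hE₁ : Subgroup.centralizer (Cfsg.pCore p G : Set G) ≤ Cfsg.pCore p G) (hE₂ : ∃! M : Subgroup G, IsCoatom M ∧ (S : Subgroup G) ≤ M) (K : Subgroup G) [K.Normal] (F : Type) [Field F] [Fintype F] (n : ℕ) (hn : 1 ≤ n) (hF : Fintype.card F = p ^ n) (hE₃ : Nonempty (G ⧸ K ≃* Matrix.ProjectiveSpecialLinearGroup (Fin 2) F)) (h : ¬ Cfsg.IsElementaryAbelian p ((S : Subgroup G) ⊓ Subgroup.centralizer ((S : Subgroup G) : Set G))) : (Cfsg.powerClosure p 1 ((S : Subgroup G) ⊓ Subgroup.centralizer ((S : Subgroup G) : Set G))).Normal ∨ (((S : Subgroup G) ⊓ Subgroup.centralizer (Cfsg.centerThompsonAOf (S : Subgroup G) : Set G))).Normal := by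
  have hchar : CharP F p := Cfsg.Agent.Lib.NatSL2.charP_of_card hF
  obtain ⟨M, φ, hP, -⟩ := PU.mk' S hE₂ K hE₃
  rw [PU.centerThompson_eq]
  by_cases hZ : (PU.ZS S).Normal
  · left
    -- `℧¹` is characteristic
    constructor
    intro y hy g
    have hcl : ∀ w ∈ Cfsg.powerClosure p 1 (PU.ZS S), g * w * g⁻¹ ∈ Cfsg.powerClosure p 1 (PU.ZS S) := by
      intro w hw
      have h1 : (Cfsg.powerClosure p 1 (PU.ZS S)).map (MulAut.conj g).toMonoidHom ≤ Cfsg.powerClosure p 1 (PU.ZS S) := by
        unfold Cfsg.powerClosure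
        rw [MonoidHom.map_closure, Subgroup.closure_le]
        rintro _ ⟨_, ⟨x, hx, rfl⟩, rfl⟩
        apply Subgroup.subset_closure
        refine ⟨g * x * g⁻¹, hZ.conj_mem x hx g, ?_⟩
        show g * x ^ p ^ 1 * g⁻¹ = (g * x * g⁻¹) ^ p ^ 1
        rw [conj_pow]
      exact h1 ⟨w, hw, rfl⟩
    exact hcl y hy
  · by_cases hJ : PU.JS S ≤ Cfsg.pCore p G
    · right
      exact hP.BS_normal_of_J hE₁ hZ hJ
    · left
      have hVZ := hP.VZ_eq hE₁ hZ hJ
      apply PU.normal_of_le_center
      unfold Cfsg.powerClosure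
      rw [Subgroup.closure_le]
      rintro _ ⟨x, hx, rfl⟩
      have hxV : x ∈ PU.VZ S := Subgroup.subset_normalClosure hx
      rw [hVZ] at hxV
      obtain ⟨v, hv, z, hz, rfl⟩ := mem_sup_normal (PU.V1_normal p S) hxV
      have h1 : v ^ p = 1 := (PU.V1_elem hE₁).2 v hv
      have h2 : Commute v z := Subgroup.mem_centralizer_iff.1 hz.2 v trivial
      show (v * z) ^ p ^ 1 ∈ Subgroup.center G
      rw [pow_one, h2.mul_pow, h1, one_mul]
      apply pow_mem
      rw [Subgroup.mem_center_iff]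
      intro g
      exact Subgroup.mem_centralizer_iff.1 hz.2 g trivial

end Cfsg.Agent.S2770
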