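import Cfsg.Statements.S2788
import Cfsg.Agent.Lib.QmIso
import Cfsg.Agent.Lib.QmSemi2

set_option autoImplicit false
open Cfsg

namespace Cfsg.Agent.S2788

open Cfsg.Agent.Lib.QmCore

open Matrix Cfsg.Agent.Lib.ClSL2
open scoped MatrixGroups commutatorElement

/-- Let H act faithfully by conjugation on the elementary abelian p-subgroup V of a finite group with H ≅ SL₂(F), F a field with p^n elements, S a Sylow p-subgroup of H, and A ≤ S a subgroup of order at least 3 acting quadratically on V ([V, A, A] = 1). Then |V/C_V(a)| ≥ p^n for every nonidentity a ∈ A. -/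
theorem result {G : Type*} [Group G] [Finite G] {p : ℕ} [Fact p.Prime] (V H : Subgroup G) (hV : Cfsg.IsElementaryAbelian p V) (hHV : H ≤ Subgroup.normalizer (V : Set G)) (hf : H ⊓ Subgroup.centralizer (V : Set G) = ⊥) {F : Type*} [Field F] [Fintype F] (n : ℕ) (hF : Fintype.card F = p ^ n) (hiso : Nonempty (↥H ≃* Matrix.SpecialLinearGroup (Fin 2) F)) (S : Sylow p ↥H) (T : Subgroup G) (hT : T = ((S : Subgroup ↥H).map H.subtype)) (A : Subgroup G) (hA : A ≤ T) (hA3 : 3 ≤ Nat.card A) (hquad : ⁅⁅V, A⁆, A⁆ = ⊥) : ∀ a ∈ A, a ≠ 1 → p ^ n ≤ ((V ⊓ Subgroup.centralizer ({a} : Set G))).relIndex V := by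
  classical
  have hp : p.Prime := Fact.out
  obtain ⟨e⟩ := hiso
  have hchar : CharP F p := Cfsg.Agent.Lib.NatSL2.charP_of_card hF
  have hVc : ∀ x ∈ V, ∀ y ∈ V, x * y = y * x := fun x hx y hy =>
    congrArg Subtype.val (hV.1.is_comm.comm (⟨x, hx⟩ : ↥V) ⟨y, hy⟩)
  have hφ : ∀ g : ↥H, H.subtype g ∈ Subgroup.normalizer (V : Set G) := fun g => hHV g.2
  set X := AM V hVc H.subtype hφ with hXdef
  have hXt : ∀ x : X, p • x = 0 := fun x => AM.v_inj (by rw [AM.v_nsmul]; exact hV.2 _ x.v_mem)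
  have hff : ∀ g : ↥H, (∀ x : X, g • x = x) → g = 1 := by
    intro g hg
    have h1 : (g : G) ∈ H ⊓ Subgroup.centralizer (V : Set G) := by
      refine ⟨g.2, Subgroup.mem_centralizer_iff.2 fun v hv => ?_⟩
      exact ((AM.smul_eq_iff g (AM.mk v hv)).1 (hg (AM.mk v hv))).symm
    rw [hf, Subgroup.mem_bot] at h1
    exact Subtype.ext h1
  obtain ⟨e', he'⟩ := exists_iso_US e S
  intro a ha ha1
  have haT : a ∈ T := hA ha
  rw [hT] at haT
  obtain ⟨s, hs, rfl⟩ := haT
  have hs1 : s ≠ 1 := fun h => ha1 (by rw [h]; rfl)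
  -- cardinalities
  have hcard : Nat.card (fx (Subgroup.zpowers s) : AddSubgroup X) =
      Nat.card ↥(V ⊓ Subgroup.centralizer ({H.subtype s} : Set G)) := by
    rw [AM.card_fx]
    have : V ⊓ Subgroup.centralizer (((Subgroup.zpowers s).map H.subtype : Subgroup G) : Set G) =
        V ⊓ Subgroup.centralizer ({H.subtype s} : Set G) := by
      rw [MonoidHom.map_zpowers, Subgroup.zpowers_eq_closure, Subgroup.centralizer_closure]
    rw [this]
  have hrel : Nat.card ↥(V ⊓ Subgroup.centralizer ({H.subtype s} : Set G)) *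
      (V ⊓ Subgroup.centralizer ({H.subtype s} : Set G)).relIndex V = Nat.card V := by
    have := Subgroup.relIndex_mul_relIndex (⊥ : Subgroup G) (V ⊓ Subgroup.centralizer ({H.subtype s} : Set G)) V
      bot_le inf_le_left
    rwa [Subgroup.relIndex_bot_left, Subgroup.relIndex_bot_left] at this
  have hcX : Nat.card X = Nat.card V := AM.card V hVc H.subtype hφ
  have hpos : 0 < Nat.card ↥(V ⊓ Subgroup.centralizer ({H.subtype s} : Set G)) := Nat.card_pos
  rcases Nat.lt_or_ge n 2 with hn | hn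
  · -- small `n`
    obtain ⟨t, ht⟩ := card_pow hXt
    have h1 : (V ⊓ Subgroup.centralizer ({H.subtype s} : Set G)).relIndex V ∣ p ^ t := by
      rw [← ht, hcX, ← hrel]; exact Dvd.intro_left _ rfl
    obtain ⟨j, -, hj⟩ := (Nat.dvd_prime_pow hp).1 h1
    rw [hj]
    apply Nat.pow_le_pow_right hp.pos
    by_contra hcon
    have hj0 : j = 0 := by omega
    rw [hj0, pow_zero, Subgroup.relIndex_eq_one] at hj
    apply hs1
    apply hff
    intro x
    rw [AM.smul_eq_iff]
    have h2 := (hj x.v_mem).2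
    exact Subgroup.mem_centralizer_iff.1 h2 _ rfl
  · -- large `n`
    obtain ⟨x, hx⟩ := exists_uS ((he' s).1 hs)
    have hx0 : x ≠ 0 := by
      rintro rfl
      rw [uS_zero] at hx
      exact hs1 (e'.injective (by rw [hx, map_one]))
    obtain ⟨b, c, g, r, i, hb, hr, hrp, ho, hg, hd⟩ := exists_pair hF hn hx0
    have hsx : s = e'.symm (uS x) := by rw [← hx, MulEquiv.symm_apply_apply]
    have ho' : orderOf (e'.symm g) = r ^ (i + 1) := by
      rw [← ho]; exact MulEquiv.orderOf_eq e'.symm g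
    have hne : ∃ y : X, (e'.symm g) ^ (r ^ i) • y ≠ y := by
      by_contra hcon
      push Not at hcon
      have h1 := hff _ hcon
      have h2 := orderOf_dvd_of_pow_eq_one h1
      rw [ho'] at h2
      exact absurd (Nat.le_of_dvd (pow_pos hr.pos _) h2) (not_le.2 (Nat.pow_lt_pow_right hr.one_lt (by omega)))
    have hg' : e'.symm g ∈ Subgroup.zpowers s ⊔ Subgroup.zpowers (e'.symm b) := by
      have h1 : e'.symm g ∈ (Subgroup.zpowers (uS x : Matrix.SpecialLinearGroup (Fin 2) F) ⊔
        Subgroup.zpowers b).map e'.symm.toMonoidHom := ⟨g, hg, rfl⟩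
      rw [Subgroup.map_sup, MonoidHom.map_zpowers, MonoidHom.map_zpowers] at h1
      rw [hsx]; exact h1
    have hb' : e'.symm b = e'.symm c * s * (e'.symm c)⁻¹ := by
      rw [hsx, hb, map_mul, map_mul, map_inv]
    have key := ge_of_pair hXt hb' hr hrp ho' hg' hne hd
    rw [hcard, hcX, ← hrel, mul_comm] at key
    exact Nat.le_of_mul_le_mul_left key hpos

end Cfsg.Agent.S2788
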