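import Cfsg.Statements.S2896
import Cfsg.Agent.Lib.CharPLocal

set_option autoImplicit false
open Cfsg

namespace Cfsg.Agent.S2896

open Cfsg.Agent.Lib.CharPLocal Cfsg.Agent.Lib.LocBase

/-- Let p be a prime dividing the order of the finite group G, S a Sylow p-subgroup of G and X a subgroup of S. (i) If some nontrivial element z of the centre of X has F*(C_G(z)) = O_p(C_G(z)), then F*(N_G(X)) = O_p(N_G(X)). (ii) G has parabolic characteristic p if and only if F*(C_G(z)) = O_p(C_G(z)) for every nontrivial z ∈ Ω₁(Z(S)). (iii) If F*(C_G(z)) = O_p(C_G(z)) for every element z of S of order p, then G has local characteristic p. -/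
theorem result {G : Type*} [Group G] [Finite G] {p : ℕ} [Fact p.Prime] (hdiv : p ∣ Nat.card G) (S : Sylow p G) (X : Subgroup G) (hX : X ≤ (S : Subgroup G)) : (∀ z : G, z ≠ 1 → z ∈ X → (∀ x ∈ X, x * z = z * x) → Cfsg.generalizedFittingSubgroup ↥(Subgroup.centralizer ({z} : Set G)) = Cfsg.pCore p ↥(Subgroup.centralizer ({z} : Set G)) → Cfsg.generalizedFittingSubgroup ↥(Subgroup.normalizer (X : Set G)) = Cfsg.pCore p ↥(Subgroup.normalizer (X : Set G))) ∧ (Cfsg.IsOfParabolicCharacteristic p G ↔ ∀ z : G, z ≠ 1 → z ∈ Cfsg.omegaOne p ((S : Subgroup G) ⊓ Subgroup.centralizer ((S : Subgroup G) : Set G)) → Cfsg.generalizedFittingSubgroup ↥(Subgroup.centralizer ({z} : Set G)) = Cfsg.pCore p ↥(Subgroup.centralizer ({z} : Set G))) ∧ ((∀ z : G, z ∈ (S : Subgroup G) → orderOf z = p → Cfsg.generalizedFittingSubgroup ↥(Subgroup.centralizer ({z} : Set G)) = Cfsg.pCore p ↥(Subgroup.centralizer ({z} : Set G))) → Cfsg.IsOfLocalCharacteristic p G) := by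
  simp only [genFitting_eq_pCore_iff_isCharP]
  refine ⟨?_, parabolicChar_iff S, ?_⟩
  · intro z hz1 hzX hXz h
    refine isCharP_normalizer_of_center (S.2.to_le hX) hzX ?_ h
    intro x hx
    rw [Subgroup.mem_centralizer_singleton_iff]
    exact hXz x hx
  · intro h
    refine ⟨hdiv, fun T hT hT1 => ?_⟩
    rw [← isCharP_iff]
    obtain ⟨z, hzT, hTz, hzo⟩ := exists_central_orderOf hT hT1
    obtain ⟨P, hP⟩ := hT.exists_le_sylow
    obtain ⟨g, hg⟩ := MulAction.exists_smul_eq G P S
    have hg' : (S : Subgroup G) = (P : Subgroup G).map (MulAut.conj g).toMonoidHom := by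
      rw [← hg]; rfl
    have h3 : IsCharP p (Subgroup.centralizer ({g * z * g⁻¹} : Set G)) := by
      apply h
      · rw [hg', mem_map_conj]
        have : g⁻¹ * (g * z * g⁻¹) * g = z := by group
        rw [this]
        exact hP hzT
      · have : g * z * g⁻¹ = MulAut.conj g z := rfl
        rw [this, MulEquiv.orderOf_eq, hzo]
    rw [isCharP_centralizer_conj_iff] at h3
    exact isCharP_normalizer_of_center hT hzT hTz h3


end Cfsg.Agent.S2896
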