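import Cfsg.Statements.S2897
import Cfsg.Agent.Lib.CharPLocal

set_option autoImplicit false
open Cfsg

namespace Cfsg.Agent.S2897

open Cfsg.Agent.Lib.CharPLocal Cfsg.Agent.Lib.LocBase Subgroup

theorem charP_equiv {K K' : Type*} [Group K] [Group K'] (e : K ≃* K') {p : ℕ}
    (h : centralizer (pCore p K : Set K) ≤ pCore p K) : centralizer (pCore p K' : Set K') ≤ pCore p K' := by
  intro x hx
  have h1 : e.symm x ∈ centralizer (pCore p K : Set K) := by
    rw [mem_centralizer_iff] at hx ⊢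
    intro y hy
    have h2 : e y ∈ pCore p K' := (Cfsg.Agent.Lib.Cores.mem_pCore_equiv_iff p e y).mpr hy
    have h3 := hx (e y) h2
    have h4 := congrArg e.symm h3
    simpa using h4
  have h2 := (Cfsg.Agent.Lib.Cores.mem_pCore_equiv_iff p e _).mpr (h h1)
  simpa using h2

/-- Let p be a prime dividing the order of the finite group G, suppose G has parabolic characteristic p, let S be a Sylow p-subgroup of G and G₁ a normal subgroup of G. If Ω₁(Z(S ∩ G₁)) is nontrivial and contained in Ω₁(Z(S)), then G₁ has parabolic characteristic p. -/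
theorem result {G : Type*} [Group G] [Finite G] {p : ℕ} [Fact p.Prime] (hdiv : p ∣ Nat.card G) (hG : Cfsg.IsOfParabolicCharacteristic p G) (S : Sylow p G) (G₁ : Subgroup G) [G₁.Normal] (hne : Cfsg.omegaOne p (((S : Subgroup G) ⊓ G₁) ⊓ Subgroup.centralizer (((S : Subgroup G) ⊓ G₁ : Subgroup G) : Set G)) ≠ ⊥) (hle : Cfsg.omegaOne p (((S : Subgroup G) ⊓ G₁) ⊓ Subgroup.centralizer (((S : Subgroup G) ⊓ G₁ : Subgroup G) : Set G)) ≤ Cfsg.omegaOne p ((S : Subgroup G) ⊓ Subgroup.centralizer ((S : Subgroup G) : Set G))) : Cfsg.IsOfParabolicCharacteristic p ↥G₁ := by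
  rw [parabolicChar_iff S] at hG
  have hsyl : IsSyl p ((S : Subgroup G) ⊓ G₁) G₁ :=
    (isSyl_top S).inf_normal le_top (by rw [normalizer_eq_top])
  obtain ⟨S₁, hS₁⟩ := hsyl.exists_sylow
  rw [parabolicChar_iff S₁]
  intro z hz1 hz
  have hzG : (z : G) ∈ omegaOne p (((S : Subgroup G) ⊓ G₁) ⊓ centralizer (((S : Subgroup G) ⊓ G₁ : Subgroup G) : Set G)) := by
    have h1 : omegaOne p ((S₁ : Subgroup ↥G₁) ⊓ centralizer ((S₁ : Subgroup ↥G₁) : Set ↥G₁)) ≤
        (omegaOne p (((S : Subgroup G) ⊓ G₁) ⊓ centralizer (((S : Subgroup G) ⊓ G₁ : Subgroup G) : Set G))).comap G₁.subtype := by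
      unfold omegaOne
      rw [closure_le]
      rintro x ⟨⟨hx1, hx2⟩, hx3⟩
      apply Subgroup.subset_closure
      rw [hS₁] at hx1 hx2
      refine ⟨⟨hx1, mem_centralizer_iff.mpr fun s hs => ?_⟩, ?_⟩
      · have h2 := mem_centralizer_iff.mp hx2 ⟨s, hs.2⟩ hs
        exact congrArg Subtype.val h2
      · exact congrArg Subtype.val hx3
    exact h1 hz
  have h2 : IsCharP p (centralizer ({(z : G)} : Set G)) :=
    hG z (fun h => hz1 (Subtype.ext h)) (hle hzG)
  have h3 : IsCharP p (G₁ ⊓ centralizer ({(z : G)} : Set G)) := by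
    refine h2.of_normal inf_le_right (le_normalizer_inf ?_ le_normalizer)
    rw [normalizer_eq_top]; exact le_top
  rw [isCharP_iff] at h3 ⊢
  have hmap : (centralizer ({z} : Set ↥G₁)).map G₁.subtype = G₁ ⊓ centralizer ({(z : G)} : Set G) := by
    ext x
    constructor
    · rintro ⟨y, hy, rfl⟩
      refine ⟨y.2, mem_centralizer_singleton_iff.mpr ?_⟩
      exact congrArg Subtype.val (mem_centralizer_singleton_iff.mp hy)
    · rintro ⟨hx1, hx2⟩
      refine ⟨⟨x, hx1⟩, mem_centralizer_singleton_iff.mpr (Subtype.ext ?_), rfl⟩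
      exact mem_centralizer_singleton_iff.mp hx2
  let e := (centralizer ({z} : Set ↥G₁)).equivMapOfInjective G₁.subtype G₁.subtype_injective
  rw [← hmap] at h3
  exact charP_equiv e.symm h3


end Cfsg.Agent.S2897
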