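import Cfsg.Statements.S2898
import Cfsg.Agent.Lib.StrongPEmb
import Cfsg.Agent.Lib.LocBase
import Cfsg.Agent.Lib.H23Basic
import Cfsg.Agent.Lib.PAct

set_option autoImplicit false
open Cfsg

namespace Cfsg.Agent.S2898

open Cfsg.Agent.Lib.SylowRel

/-- In a group of characteristic `2`, a normal subgroup of odd order is trivial. -/
theorem odd_normal_eq_bot {N : Type*} [Group N] [Finite N]
    (hN : Subgroup.centralizer (Cfsg.pCore 2 N : Set N) ≤ Cfsg.pCore 2 N)
    (D : Subgroup N) (hD : D.Normal) (hodd : Odd (Nat.card D)) : D = ⊥ := by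
  have hp : Fact (Nat.Prime 2) := ⟨Nat.prime_two⟩
  have h2 : IsPGroup 2 ↥(Cfsg.pCore 2 N) := Cfsg.Agent.Lib.LocBase.isPGroup_pCore 2 _
  obtain ⟨n, hn⟩ := IsPGroup.iff_card.1 h2
  have hcop : (Nat.card D).Coprime (Nat.card (Cfsg.pCore 2 N)) := by
    rw [hn]
    exact Nat.Coprime.pow_right _ (Nat.coprime_two_right.2 hodd)
  have hinf : D ⊓ Cfsg.pCore 2 N = ⊥ := Subgroup.inf_eq_bot_of_coprime hcop
  have h3 : ⁅D, Cfsg.pCore 2 N⁆ = ⊥ := by
    rw [eq_bot_iff, ← hinf]
    exact le_inf (Subgroup.commutator_le_left _ _) (Subgroup.commutator_le_right _ _)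
  have h4 : D ≤ Subgroup.centralizer (Cfsg.pCore 2 N : Set N) :=
    Subgroup.commutator_eq_bot_iff_le_centralizer.1 h3
  rw [eq_bot_iff, ← hinf]
  exact le_inf le_rfl (h4.trans hN)


/-- Let G be a finite group of even order with parabolic characteristic 2. If the centre of G ⧸ O(G) is trivial, then O(G) = 1. -/
theorem result {G : Type*} [Group G] [Finite G] (h2 : 2 ∣ Nat.card G) (hG : Cfsg.IsOfParabolicCharacteristic 2 G) [hN : (Cfsg.oddCore G).Normal] (hZ : Subgroup.center (G ⧸ Cfsg.oddCore G) = ⊥) : Cfsg.oddCore G = ⊥ := by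
  have hp : Fact (Nat.Prime 2) := ⟨Nat.prime_two⟩
  set O : Subgroup G := Cfsg.oddCore G with hO
  have hOodd : Odd (Nat.card O) := Cfsg.Agent.Lib.H23Basic.odd_card_oddCore
  -- centralizers of central involutions of Sylow subgroups act freely on `O`
  have key : ∀ (S : Sylow 2 G) (z : G), z ∈ (S : Subgroup G) → (∀ s ∈ (S : Subgroup G), s * z = z * s) →
      orderOf z = 2 → O ⊓ Subgroup.centralizer ({z} : Set G) = ⊥ := by
    intro S z hz hcz hz2
    have hR : IsPGroup 2 (Subgroup.zpowers z) :=
      IsPGroup.of_card (n := 1) (by rw [Nat.card_zpowers, hz2, pow_one])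
    have hR1 : Subgroup.zpowers z ≠ ⊥ := by
      rw [Ne, Subgroup.zpowers_eq_bot]
      rintro rfl
      simp at hz2
    have hN : Subgroup.normalizer ((Subgroup.zpowers z : Subgroup G) : Set G) =
        Subgroup.centralizer ({z} : Set G) := by
      apply le_antisymm
      · intro g hg
        rw [Subgroup.mem_centralizer_singleton_iff]
        have h1 : g * z * g⁻¹ ∈ Subgroup.zpowers z :=
          (Subgroup.mem_normalizer_iff.1 hg z).1 (Subgroup.mem_zpowers z)
        obtain ⟨k, hk⟩ := Subgroup.mem_zpowers_iff.1 h1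
        rcases Int.even_or_odd k with ⟨m, hm⟩ | ⟨m, hm⟩
        · have hzk : z ^ k = 1 := by
            have : z ^ (2 : ℤ) = 1 := by
              rw [zpow_ofNat, ← hz2, pow_orderOf_eq_one]
            rw [hm, ← two_mul, zpow_mul, this, one_zpow]
          rw [hzk] at hk
          have h5 : z = 1 := by
            have := hk.symm
            have h6 : g * z = g := by rwa [mul_inv_eq_one] at this
            exact mul_eq_left.1 h6
          rw [h5, orderOf_one] at hz2
          norm_num at hz2
        · have hzk : z ^ k = z := by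
            rw [hm, zpow_add, zpow_mul, zpow_one]
            have : z ^ (2 : ℤ) = 1 := by
              rw [zpow_ofNat, ← hz2, pow_orderOf_eq_one]
            rw [this, one_zpow, one_mul]
          rw [hzk] at hk
          rw [eq_mul_inv_iff_mul_eq] at hk
          exact hk.symm
      · refine le_trans ?_ (Subgroup.centralizer_le_normalizer _)
        rw [Subgroup.zpowers_eq_closure, Subgroup.centralizer_closure]
    have hpar : Cfsg.IsParabolic 2 (Subgroup.normalizer ((Subgroup.zpowers z : Subgroup G) : Set G)) := by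
      refine ⟨S, ?_⟩
      rw [hN]
      intro s hs
      rw [Subgroup.mem_centralizer_singleton_iff]
      exact hcz s hs
    have hch := hG _ hR hR1 hpar
    have hD : (O ⊓ Subgroup.centralizer ({z} : Set G)).subgroupOf
        (Subgroup.normalizer ((Subgroup.zpowers z : Subgroup G) : Set G)) = ⊥ := by
      apply odd_normal_eq_bot hch
      · rw [hN]
        have : (O ⊓ Subgroup.centralizer ({z} : Set G)).subgroupOf (Subgroup.centralizer ({z} : Set G)) =
          O.subgroupOf (Subgroup.centralizer ({z} : Set G)) := Subgroup.inf_subgroupOf_right _ _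
        rw [this]
        infer_instance
      · have h1 : Nat.card ((O ⊓ Subgroup.centralizer ({z} : Set G)).subgroupOf
            (Subgroup.normalizer ((Subgroup.zpowers z : Subgroup G) : Set G))) =
            Nat.card (O ⊓ Subgroup.centralizer ({z} : Set G) : Subgroup G) := by
          apply Nat.card_congr
          exact (Subgroup.subgroupOfEquivOfLe (by rw [hN]; exact inf_le_right)).toEquiv
        rw [h1]
        exact Odd.of_dvd_nat hOodd (Subgroup.card_dvd_of_le inf_le_left)
    rw [Subgroup.subgroupOf_eq_bot] at hD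
    rw [hN] at hD
    exact le_bot_iff.1 (by
      have := hD.le_bot
      exact le_trans (le_inf le_rfl inf_le_right) this)
  by_contra hO1
  obtain ⟨S⟩ : Nonempty (Sylow 2 G) := inferInstance
  have hS1 : (S : Subgroup G) ≠ ⊥ := S.ne_bot_of_dvd_card h2
  have hact : ∀ z : G, orderOf z = 2 → O ⊓ Subgroup.centralizer ({z} : Set G) = ⊥ →
      ∀ x ∈ O, z * x * z⁻¹ = x⁻¹ := by
    intro z hz2 hz x hx
    let φ : ↥O →* ↥O := (MulAut.conjNormal z : ↥O ≃* ↥O).toMonoidHom
    have hφ : ∀ y : ↥O, ((φ y : ↥O) : G) = z * y * z⁻¹ := fun y => rfl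
    have hfpf : MonoidHom.FixedPointFree φ := by
      intro y hy
      have h1 : (y : G) ∈ O ⊓ Subgroup.centralizer ({z} : Set G) := by
        refine ⟨y.2, ?_⟩
        change (y : G) ∈ Subgroup.centralizer ({z} : Set G)
        rw [Subgroup.mem_centralizer_singleton_iff]
        have := congrArg Subtype.val hy
        rw [hφ, mul_inv_eq_iff_eq_mul] at this
        exact this.symm
      rw [hz, Subgroup.mem_bot] at h1
      exact Subtype.ext h1
    have hinv : Function.Involutive φ := by
      intro y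
      apply Subtype.ext
      rw [hφ, hφ]
      have hzz : z * z = 1 := by rw [← pow_two, ← hz2, pow_orderOf_eq_one]
      have hzi : z⁻¹ = z := by rw [inv_eq_iff_mul_eq_one]; exact hzz
      calc z * (z * y * z⁻¹) * z⁻¹ = (z * z) * y * (z⁻¹ * z⁻¹) := by group
        _ = y := by rw [hzi, hzz]; group
    have := hfpf.coe_eq_inv_of_involutive hinv
    have h3 := congrFun this ⟨x, hx⟩
    have h4 := congrArg Subtype.val h3
    rw [hφ] at h4
    exact h4
  -- the centralizer of `O` has odd order
  set C := Subgroup.centralizer (O : Set G) with hC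
  have hCodd : Odd (Nat.card C) := by
    by_contra hev
    rw [Nat.not_odd_iff_even] at hev
    have h1 : 2 ∣ Nat.card C := hev.two_dvd
    have hA1 : (S : Subgroup G) ⊓ C ≠ ⊥ := by
      intro h0
      have h5 := (Sylow.not_dvd_index (p := 2) S)
      obtain ⟨x, hx⟩ := exists_prime_orderOf_dvd_card' 2 h1
      have hxo : orderOf (x : G) = 2 := by rw [← hx]; exact Subgroup.orderOf_coe x
      obtain ⟨T, hT⟩ := (IsPGroup.of_card (p := 2) (n := 1)
        (by rw [Nat.card_zpowers, hxo, pow_one]) : IsPGroup 2 (Subgroup.zpowers (x : G))).exists_le_sylow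
      obtain ⟨g, -, hg⟩ := (isSyl_top T).exists_cj_eq (isSyl_top S)
      have h6 : g * x * g⁻¹ ∈ (S : Subgroup G) ⊓ C := by
        refine ⟨?_, ?_⟩
        · rw [← hg]; exact conj_mem_cj (hT (Subgroup.mem_zpowers _))
        · exact (inferInstance : C.Normal).conj_mem _ x.2 g
      rw [h0, Subgroup.mem_bot] at h6
      have h7 : (x : G) = 1 := by
        have := congrArg (fun y => g⁻¹ * y * g) h6
        simpa [mul_assoc] using this
      rw [h7, orderOf_one] at hxo
      norm_num at hxo
    obtain ⟨z, hz, hzc, hzo⟩ := Cfsg.Agent.Lib.PAct.exists_fixed_orderOf_eq (S := (S : Subgroup G))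
      (A := (S : Subgroup G) ⊓ C) S.2 (S.2.to_le inf_le_left) hA1
      (Cfsg.Agent.Lib.LocBase.le_normalizer_inf Subgroup.le_normalizer
        (by rw [Subgroup.normalizer_eq_top_iff.2 (inferInstance : C.Normal)]; exact le_top))
    have h8 := key S z hz.1 hzc hzo
    apply hO1
    rw [← h8, eq_comm, inf_eq_left]
    intro x hx
    rw [Subgroup.mem_centralizer_singleton_iff]
    exact (Subgroup.mem_centralizer_iff.1 hz.2 x hx)
  have hCO : C ≤ O := Cfsg.Agent.Lib.H23Basic.le_pPrimeCore inferInstance (Nat.coprime_two_right.2 hCodd)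
  obtain ⟨z, hz, hzc, hzo⟩ := Cfsg.Agent.Lib.PAct.exists_fixed_orderOf_eq (S := (S : Subgroup G))
      (A := (S : Subgroup G)) S.2 S.2 hS1 Subgroup.le_normalizer
  have hinvz := hact z hzo (key S z hz hzc hzo)
  have hcen : (QuotientGroup.mk z : G ⧸ Cfsg.oddCore G) ∈ Subgroup.center (G ⧸ Cfsg.oddCore G) := by
    rw [Subgroup.mem_center_iff]
    intro g
    obtain ⟨g, rfl⟩ := QuotientGroup.mk_surjective g
    rw [← QuotientGroup.mk_mul, ← QuotientGroup.mk_mul, QuotientGroup.eq]
    apply hCO
    rw [hC, Subgroup.mem_centralizer_iff]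
    intro x hx
    -- `(g z)⁻¹ (z g) = z⁻¹ g⁻¹ z g`
    have hn : O.Normal := inferInstance
    have h1 : g * x * g⁻¹ ∈ O := hn.conj_mem x hx g
    have h2 : z * (g * x * g⁻¹) * z⁻¹ = (g * x * g⁻¹)⁻¹ := hinvz _ h1
    have h4 : z * x * z⁻¹ = x⁻¹ := hinvz _ hx
    have h3 : ((g * z)⁻¹ * (z * g)) * x = x * ((g * z)⁻¹ * (z * g)) := by
      have h5 : (z * g) * x = (g * x * g⁻¹)⁻¹ * (z * g) := by
        rw [← h2]; group
      have h6 : (g * z) * x = (g * x * g⁻¹)⁻¹ * (g * z) := by
        have : z * x = x⁻¹ * z := by rw [← h4]; group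
        calc (g * z) * x = g * (z * x) := by group
          _ = g * (x⁻¹ * z) := by rw [this]
          _ = (g * x * g⁻¹)⁻¹ * (g * z) := by group
      have h7 : (g * z)⁻¹ * (g * x * g⁻¹)⁻¹ = x * (g * z)⁻¹ := by
        have := congrArg (fun y => (g * z)⁻¹ * y * (g * z)⁻¹) h6
        simp only [mul_assoc, mul_inv_cancel, mul_one] at this
        have h8 : (g * z)⁻¹ * (g * (z * (x * (g * z)⁻¹))) = x * (g * z)⁻¹ := by group
        rw [mul_assoc g x g⁻¹, ← this, h8]
      calc ((g * z)⁻¹ * (z * g)) * x = (g * z)⁻¹ * ((z * g) * x) := by group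
        _ = ((g * z)⁻¹ * (g * x * g⁻¹)⁻¹) * (z * g) := by rw [h5]; group
        _ = x * ((g * z)⁻¹ * (z * g)) := by rw [h7]; group
    exact h3.symm
  rw [hZ, Subgroup.mem_bot, QuotientGroup.eq_one_iff] at hcen
  have h9 := orderOf_dvd_natCard (⟨z, hcen⟩ : ↥(Cfsg.oddCore G))
  rw [Subgroup.orderOf_mk, hzo] at h9
  exact (Nat.not_even_iff_odd.2 hOodd) (even_iff_two_dvd.2 h9)


end Cfsg.Agent.S2898
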