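import Cfsg.Statements.S2907
import Mathlib.Tactic

set_option autoImplicit false
open Cfsg

namespace Cfsg.Agent.S2907

open scoped commutatorElement


/-- Let X be a finite semi-extraspecial p-group and x an element of X outside the centre. Then the index of C_X(x) in X equals the order of Z(X), and the commutators [x, y], y ∈ X, form exactly the centre Z(X). -/
theorem result {X : Type*} [Group X] [Finite X] {p : ℕ} [Fact p.Prime] (hX : Cfsg.IsSemiExtraspecial p X) (x : X) (hx : x ∉ Subgroup.center X) : (Subgroup.centralizer ({x} : Set X)).index = Nat.card ↥(Subgroup.center X) ∧ {z : X | ∃ y : X, z = x * y * x⁻¹ * y⁻¹} = (Subgroup.center X : Set X) := by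
  obtain ⟨⟨hpX, hfrat, hcomm⟩, hext⟩ := hX
  -- commutators are central
  have hc : ∀ a b : X, ⁅a, b⁆ ∈ Subgroup.center X := by
    intro a b
    rw [← hcomm]
    exact Subgroup.commutator_mem_commutator (Subgroup.mem_top a) (Subgroup.mem_top b)
  -- the homomorphism `y ↦ [x, y]`
  let f : X →* Subgroup.center X :=
    { toFun := fun y => ⟨⁅x, y⁆, hc x y⟩
      map_one' := by ext; simp
      map_mul' := by
        intro a b
        ext
        change ⁅x, a * b⁆ = ⁅x, a⁆ * ⁅x, b⁆
        rw [commutatorElement_mul_right_eq_mul_conj]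
        have := Subgroup.mem_center_iff.1 (hc x b) a
        calc ⁅x, a⁆ * a * ⁅x, b⁆ * a⁻¹ = ⁅x, a⁆ * (a * ⁅x, b⁆) * a⁻¹ := by group
          _ = ⁅x, a⁆ * (⁅x, b⁆ * a) * a⁻¹ := by rw [this]
          _ = ⁅x, a⁆ * ⁅x, b⁆ := by group }
  have hf : ∀ y, ((f y : Subgroup.center X) : X) = ⁅x, y⁆ := fun y => rfl
  have hker : f.ker = Subgroup.centralizer ({x} : Set X) := by
    ext y
    rw [MonoidHom.mem_ker, Subgroup.mem_centralizer_singleton_iff, ← Subtype.coe_inj, hf,
      Subgroup.coe_one, commutatorElement_eq_one_iff_mul_comm]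
    exact ⟨fun h => h.symm, fun h => h.symm⟩
  -- surjectivity
  have hsurj : Function.Surjective f := by
    rw [← MonoidHom.range_eq_top]
    by_contra hne
    -- a maximal subgroup containing the range
    obtain ⟨M, hM, hle⟩ := (eq_top_or_exists_le_coatom f.range).resolve_left hne
    let Y : Subgroup X := M.map (Subgroup.center X).subtype
    have hY : Y ≤ Subgroup.center X := Subgroup.map_subtype_le M
    have hYM : Y.subgroupOf (Subgroup.center X) = M :=
      Subgroup.comap_map_eq_self_of_injective (Subgroup.subtype_injective _) M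
    obtain ⟨hYn, hYe⟩ := hext Y hY (by rw [hYM]; exact hM)
    have hxc : (QuotientGroup.mk x : X ⧸ Y) ∈ Subgroup.center (X ⧸ Y) := by
      rw [Subgroup.mem_center_iff]
      intro y
      obtain ⟨y, rfl⟩ := QuotientGroup.mk_surjective y
      rw [← QuotientGroup.mk_mul, ← QuotientGroup.mk_mul, QuotientGroup.eq]
      have h1 : ⁅x, y⁆ ∈ Y := ⟨f y, hle ⟨y, rfl⟩, rfl⟩
      have h2 : (y * x)⁻¹ * (x * y) = (y * x)⁻¹ * ⁅x, y⁆ * (y * x) := by
        rw [commutatorElement_def]; group
      rw [h2]
      have := hYn.conj_mem _ h1 (y * x)⁻¹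
      rwa [inv_inv] at this
    -- the centre of `X ⧸ Y` is the image of the centre of `X`
    have hle2 : (Subgroup.center X).map (QuotientGroup.mk' Y) ≤ Subgroup.center (X ⧸ Y) := by
      rintro _ ⟨z, hz, rfl⟩
      rw [Subgroup.mem_center_iff]
      intro y
      obtain ⟨y, rfl⟩ := QuotientGroup.mk_surjective y
      change (QuotientGroup.mk y : X ⧸ Y) * QuotientGroup.mk z = QuotientGroup.mk z * QuotientGroup.mk y
      rw [← QuotientGroup.mk_mul, ← QuotientGroup.mk_mul, Subgroup.mem_center_iff.1 hz y]
    have hcardZ : Nat.card (Subgroup.center (X ⧸ Y)) = p := hYe.2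
    have hne1 : (Subgroup.center X).map (QuotientGroup.mk' Y) ≠ ⊥ := by
      intro h0
      have h3 : Subgroup.center X ≤ Y := by
        intro z hz
        have h4 : QuotientGroup.mk' Y z ∈ (Subgroup.center X).map (QuotientGroup.mk' Y) := ⟨z, hz, rfl⟩
        rw [h0, Subgroup.mem_bot] at h4
        exact (QuotientGroup.eq_one_iff z).1 h4
      apply hM.1
      rw [← hYM, Subgroup.subgroupOf_eq_top]
      exact h3
    have heq : (Subgroup.center X).map (QuotientGroup.mk' Y) = Subgroup.center (X ⧸ Y) := by
      apply Subgroup.eq_of_le_of_card_ge hle2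
      rw [hcardZ]
      have h5 := Subgroup.card_dvd_of_le hle2
      rw [hcardZ] at h5
      rcases (Nat.dvd_prime Fact.out).1 h5 with h6 | h6
      · exact absurd (Subgroup.card_eq_one.1 h6) hne1
      · exact h6.ge
    rw [← heq] at hxc
    obtain ⟨z, hz, hzx⟩ := hxc
    apply hx
    have h7 : z⁻¹ * x ∈ Y := by
      rw [← QuotientGroup.eq]; exact hzx
    have h8 := (Subgroup.center X).mul_mem hz (hY h7)
    rwa [mul_inv_cancel_left] at h8
  constructor
  · rw [← hker, Subgroup.index_ker, MonoidHom.range_eq_top.2 hsurj, Subgroup.card_top]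
  · ext z
    constructor
    · rintro ⟨y, rfl⟩
      have := (f y).2
      rw [hf, commutatorElement_def] at this
      exact this
    · intro hz
      obtain ⟨y, hy⟩ := hsurj ⟨z, hz⟩
      refine ⟨y, ?_⟩
      have := congrArg Subtype.val hy
      rw [hf, commutatorElement_def] at this
      exact this.symm


end Cfsg.Agent.S2907
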