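import Cfsg.Statements.S2908
import Cfsg.Agent.Lib.CopCom

set_option autoImplicit false
open Cfsg

namespace Cfsg.Agent.S2908

open Cfsg.Agent.Lib.LocBase Cfsg.Agent.Lib.CopCom
open scoped commutatorElement


/-- Let P be a p-subgroup of a finite group, normalized by a p-subgroup A and by a subgroup B of order prime to p that commutes elementwise with A. If [P, B] ≤ [P, A], then B centralizes P. -/
theorem result {G : Type*} [Group G] [Finite G] {p : ℕ} [Fact p.Prime] (P A B : Subgroup G) (hP : IsPGroup p ↥P) (hA : IsPGroup p ↥A) (hB : ¬ p ∣ Nat.card ↥B) (hnA : A ≤ Subgroup.normalizer (P : Set G)) (hnB : B ≤ Subgroup.normalizer (P : Set G)) (hAB : ⁅A, B⁆ = ⊥) (hcomm : ⁅P, B⁆ ≤ ⁅P, A⁆) : ⁅P, B⁆ = ⊥ := by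
  have hBp : pRes p B = B := pRes_eq_self_of_not_dvd hB
  have hBA : B ≤ Subgroup.normalizer (A : Set G) := by
    rw [Subgroup.commutator_comm, Subgroup.commutator_eq_bot_iff_le_centralizer] at hAB
    exact hAB.trans (Subgroup.centralizer_le_normalizer _)
  have hL : IsPGroup p ↥(P ⊔ A) := isPGroup_sup hP hA hnA
  have hBL : B ≤ Subgroup.normalizer ((P ⊔ A : Subgroup G) : Set G) := le_normalizer_sup hnB hBA
  have hN : P ⊔ A ≤ Subgroup.normalizer ((⁅P ⊔ A, P ⊔ A⁆ : Subgroup G) : Set G) :=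
    le_normalizer_commutator Subgroup.le_normalizer Subgroup.le_normalizer
  have h1 : ⁅P ⊔ A, B⁆ ≤ ⁅P ⊔ A, P ⊔ A⁆ := by
    have h2 : ⁅Subgroup.closure ((P : Set G) ∪ (A : Set G)), B⁆ ≤ ⁅P ⊔ A, P ⊔ A⁆ := by
      apply commutator_closure_le
      · rw [← Subgroup.sup_eq_closure]; exact hN
      · rintro x (hx | hx) b hb
        · exact (hcomm.trans (Subgroup.commutator_mono le_sup_left le_sup_right))
            (Subgroup.commutator_mem_commutator hx hb)
        · have h3 : ⁅x, b⁆ ∈ ⁅A, B⁆ := Subgroup.commutator_mem_commutator hx hb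
          rw [hAB, Subgroup.mem_bot] at h3
          rw [h3]
          exact Subgroup.one_mem _
    rwa [← Subgroup.sup_eq_closure] at h2
  have h4 := commutator_pRes_eq_bot (p := p) hL hBL (by rw [hBp]; exact h1)
  rw [hBp] at h4
  rw [eq_bot_iff, ← h4]
  exact Subgroup.commutator_mono le_sup_left le_rfl


end Cfsg.Agent.S2908
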