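import Cfsg.Statements.S2909
import Cfsg.Agent.Lib.CopCom
import Cfsg.Agent.Lib.CoprimeGen
import Cfsg.Agent.Lib.LargeLoc
import Cfsg.Agent.Lib.CharPLocal
import Cfsg.Agent.S2908

set_option autoImplicit false
open Cfsg

namespace Cfsg.Agent.S2909

open Subgroup Cfsg.Agent.Lib.LocBase Cfsg.Agent.Lib.CopCom Cfsg.Agent.Lib.LargeLoc
open scoped commutatorElement


/-- Let p be a prime, E a normal p-subgroup of the finite group G, and U a non-cyclic elementary abelian p-subgroup of G such that either C_E(U) = C_E(u) for every nontrivial u ∈ U, or [E, U] = [E, ⟨u⟩] for every nontrivial u ∈ U. If R is a subgroup of order prime to p normalized by U, then [R, U] centralizes E. -/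
theorem result {G : Type*} [Group G] [Finite G] {p : ℕ} [Fact p.Prime] (E : Subgroup G) [E.Normal] (hE : IsPGroup p ↥E) (U : Subgroup G) (hU : Cfsg.IsElementaryAbelian p U) (hnc : ¬ IsCyclic ↥U) (hcond : (∀ u ∈ U, u ≠ 1 → E ⊓ Subgroup.centralizer (U : Set G) = E ⊓ Subgroup.centralizer ({u} : Set G)) ∨ (∀ u ∈ U, u ≠ 1 → ⁅E, U⁆ = ⁅E, Subgroup.zpowers u⁆)) (R : Subgroup G) (hR : ¬ p ∣ Nat.card ↥R) (hRU : U ≤ Subgroup.normalizer (R : Set G)) : ⁅R, U⁆ ≤ Subgroup.centralizer (E : Set G) := by
  have hEn : ∀ X : Subgroup G, X ≤ normalizer (E : Set G) := fun X => by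
    rw [normalizer_eq_top]; exact le_top
  obtain ⟨hUab', hUexp⟩ := hU
  have hUab : U ≤ centralizer (U : Set G) := (le_centralizer_iff_isMulCommutative).mpr hUab'
  have hUp : IsPGroup p ↥U := fun ⟨u, hu⟩ => ⟨1, Subtype.ext (by rw [pow_one]; exact hUexp u hu)⟩
  have hcop : (Nat.card ↥U).Coprime (Nat.card ↥R) := by
    obtain ⟨k, hk⟩ := IsPGroup.iff_card.mp hUp
    rw [hk]
    exact Nat.Coprime.pow_left k ((Nat.Prime.coprime_iff_not_dvd (Fact.out)).mpr hR)
  have hgen := Cfsg.Agent.Lib.CoprimeGen.iSup_centralizer_eq hUab' hnc hRU hcop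
  -- the key claim
  have key : ∀ u ∈ U, u ≠ 1 → ⁅R ⊓ centralizer {u}, U⁆ ≤ centralizer (E : Set G) := by
    intro u hu hu1
    obtain ⟨X, hX⟩ : ∃ X, X = R ⊓ centralizer {u} := ⟨_, rfl⟩
    rw [← hX]
    have hXR : X ≤ R := by rw [hX]; exact inf_le_left
    have hXu : X ≤ centralizer ({u} : Set G) := by rw [hX]; exact inf_le_right
    have hUu : U ≤ centralizer ({u} : Set G) := hUab.trans (centralizer_le (by simpa using hu))
    have hUX : U ≤ normalizer (X : Set G) := by
      rw [hX]
      refine le_normalizer_inf hRU ?_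
      exact hUu.trans le_normalizer
    have hB1 : ⁅X, U⁆ ≤ X := commutator_le_left_of_le hUX
    have hBp : ¬ p ∣ Nat.card ↥⁅X, U⁆ := fun h =>
      hR (h.trans (card_dvd_of_le (hB1.trans hXR)))
    have hzp : IsPGroup p ↥(zpowers u) := hUp.to_le (zpowers_le.mpr hu)
    have hcz : centralizer ((zpowers u : Subgroup G) : Set G) = centralizer {u} := Cfsg.Agent.Lib.CharPLocal.centralizer_zpowers_eq u
    have hzB : ⁅zpowers u, ⁅X, U⁆⁆ = ⊥ := by
      rw [commutator_comm, commutator_eq_bot_iff_le_centralizer, hcz]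
      exact hB1.trans hXu
    rcases hcond with hc | hc
    · have h1 := hc u hu hu1
      have hXY : X ≤ normalizer ((E ⊓ centralizer (U : Set G) : Subgroup G) : Set G) := by
        rw [h1]
        exact le_normalizer_inf (hEn X) (hXu.trans le_normalizer)
      have h2 : ⁅⁅U, E ⊓ centralizer (U : Set G)⁆, X⁆ = ⊥ := by
        have : ⁅U, E ⊓ centralizer (U : Set G)⁆ = ⊥ := by
          rw [commutator_eq_bot_iff_le_centralizer, le_centralizer_iff]
          exact inf_le_right
        rw [this, commutator_bot_left]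
      have h3 : ⁅⁅E ⊓ centralizer (U : Set G), X⁆, U⁆ = ⊥ := by
        rw [commutator_eq_bot_iff_le_centralizer]
        exact (commutator_le_left_of_le hXY).trans inf_le_right
      have h4 : ⁅⁅X, U⁆, E ⊓ centralizer (U : Set G)⁆ = ⊥ := commutator_commutator_eq_bot_of_rotate h2 h3
      have h5 := thompson_PxQ hE hzp (hEn _) (hEn _) (pRes_eq_self_of_not_dvd hBp) hzB (by
        rw [hcz, ← h1, commutator_comm]; exact h4)
      rw [commutator_comm, commutator_eq_bot_iff_le_centralizer] at h5
      exact h5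
    · have h1 := hc u hu hu1
      obtain ⟨N, hN⟩ : ∃ N, N = ⁅E, U⁆ := ⟨_, rfl⟩
      have hUN : U ≤ normalizer (N : Set G) := by
        rw [hN]; exact le_normalizer_commutator (hEn U) le_normalizer
      have hXN : X ≤ normalizer (N : Set G) := by
        rw [hN, h1]
        refine le_normalizer_commutator (hEn X) ?_
        exact (hXu.trans (by rw [← hcz])).trans (centralizer_le_normalizer _)
      have hR1 : U ≤ relCent (normalizer (N : Set G)) E N le_rfl := by
        intro y hy
        refine ⟨hUN hy, fun a ha => ?_⟩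
        rw [← commutatorElement_inv]
        apply inv_mem
        rw [hN]
        exact commutator_mem_commutator ha hy
      have hR2 : X ≤ normalizer (relCent (normalizer (N : Set G)) E N le_rfl : Set G) :=
        hXN.trans (le_normalizer_relCent _ le_normalizer (hEn _) le_rfl)
      have h2 : ⁅X, U⁆ ≤ relCent (normalizer (N : Set G)) E N le_rfl :=
        (commutator_mono le_rfl hR1).trans (commutator_le_right_of_le hR2)
      have h3 : ⁅E, ⁅X, U⁆⁆ ≤ ⁅E, zpowers u⁆ := by
        rw [← h1, commutator_comm, commutator_le]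
        intro b hb e he
        rw [← hN]
        exact (h2 hb).2 e he
      have h4 := Cfsg.Agent.S2908.result E (zpowers u) ⁅X, U⁆ hE hzp hBp (hEn _) (hEn _) hzB h3
      rw [commutator_comm, commutator_eq_bot_iff_le_centralizer] at h4
      exact h4
  -- conclusion
  have hCn : ∀ X : Subgroup G, X ≤ normalizer ((centralizer (E : Set G) : Subgroup G) : Set G) := fun X =>
    le_normalizer_centralizer (hEn X)
  have h1 : R ≤ relCent ⊤ U (centralizer (E : Set G)) (hCn _) := by
    rw [← hgen]
    refine iSup₂_le fun u hu x hx => ⟨mem_top x, fun a ha => ?_⟩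
    exact key u hu.1 hu.2 (commutator_mem_commutator hx ha)
  rw [commutator_le]
  intro r hr u hu
  exact (h1 hr).2 u hu


end Cfsg.Agent.S2909
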