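import Cfsg.Statements.S2910
import Cfsg.Agent.Lib.Critical
import Cfsg.Agent.Lib.Transfer

set_option autoImplicit false
open Cfsg

namespace Cfsg.Agent.S2910

/-- Let p be an odd prime dividing the order of the finite group G and P a Sylow p-subgroup of G. If Ω₁(P) (generated by the elements of order dividing p) is contained in the centre of G, then G has a normal p-complement. In particular, if G is quasisimple then Ω₁(P) is not central in G. -/
theorem result {G : Type*} [Group G] [Finite G] {p : ℕ} [Fact p.Prime] (hp : p ≠ 2) (hdiv : p ∣ Nat.card G) (P : Sylow p G) (hZ : Cfsg.omegaOne p (P : Subgroup G) ≤ Subgroup.center G) : Cfsg.HasNormalPComplement p G ∧ ¬ Cfsg.IsQuasisimple G := by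
  have hnc : Cfsg.HasNormalPComplement p G := by
    apply Cfsg.Agent.Lib.Transfer.hasNormalPComplement_of_local
    intro D hD _ g hg hcop
    have hcen : ∀ x ∈ D, x ^ p = 1 → x ∈ Subgroup.center G := by
      intro x hx hxp
      obtain ⟨Q, hQ⟩ := hD.exists_le_sylow
      obtain ⟨y, hy⟩ := MulAction.exists_smul_eq G Q P
      have h1 : y * x * y⁻¹ ∈ (P : Subgroup G) := by
        rw [← hy, Sylow.coe_subgroup_smul]
        exact Subgroup.smul_mem_pointwise_smul _ _ _ (hQ hx)
      have h2 : y * x * y⁻¹ ∈ Subgroup.center G := by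
        apply hZ
        apply Subgroup.subset_closure
        refine ⟨h1, ?_⟩
        rw [conj_pow, hxp]; group
      have h3 := (inferInstance : (Subgroup.center G).Normal).conj_mem _ h2 y⁻¹
      have h4 : y⁻¹ * (y * x * y⁻¹) * y⁻¹⁻¹ = x := by group
      rwa [h4] at h3
    set φ := Subgroup.normalizerMonoidHom D ⟨g, hg⟩ with hφ
    have h1 : φ = 1 := by
      apply Cfsg.Agent.Lib.Critical.eq_one_of_omega hp hD
      · refine Nat.Coprime.coprime_dvd_left ?_ hcop
        refine (orderOf_map_dvd (Subgroup.normalizerMonoidHom D) ⟨g, hg⟩).trans ?_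
        rw [Subgroup.orderOf_mk]
      · intro x hx
        have h2 : (x : G) ^ p = 1 := by
          have := congrArg Subtype.val hx
          simpa using this
        have h3 := hcen x x.2 h2
        apply Subtype.ext
        show g * (x : G) * g⁻¹ = x
        rw [Subgroup.mem_center_iff.mp h3 g]; group
    rw [Subgroup.mem_centralizer_iff]
    intro x hx
    have h2 := congrArg (fun f : MulAut D => ((f ⟨x, hx⟩ : D) : G)) h1
    have h3 : g * x * g⁻¹ = x := h2
    calc x * g = (g * x * g⁻¹) * g := by rw [h3]
      _ = g * x := by group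
  refine ⟨hnc, ?_⟩
  intro hq
  have h1 := Cfsg.Agent.Lib.PNilp.hasNormalPComplement_iff_pResidual.mp hnc
  have h2 := Cfsg.Agent.Lib.PNilp.isPGroup_quotient_pResidual (G := G) p
  have h3 : Group.IsNilpotent (G ⧸ Cfsg.pResidual p G) := h2.isNilpotent
  have h4 : Cfsg.pResidual p G = ⊤ := by
    by_contra hne
    have h5 : Nontrivial (G ⧸ Cfsg.pResidual p G) := QuotientGroup.nontrivial_iff.mpr hne
    have h6 : Group.IsSolvable (G ⧸ Cfsg.pResidual p G) := inferInstance
    have h7 : commutator (G ⧸ Cfsg.pResidual p G) = ⊤ := by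
      have h8 : (commutator G).map (QuotientGroup.mk' (Cfsg.pResidual p G)) = commutator (G ⧸ Cfsg.pResidual p G) := by
        rw [commutator_def, Subgroup.map_commutator, ← MonoidHom.range_eq_map,
          MonoidHom.range_eq_top.mpr (QuotientGroup.mk'_surjective _), commutator_def]
      rw [← h8]
      have h9 : commutator G = ⊤ := hq.1.commutator_eq_top
      rw [h9, ← MonoidHom.range_eq_map, MonoidHom.range_eq_top.mpr (QuotientGroup.mk'_surjective _)]
    exact (Group.IsSolvable.commutator_lt_top_of_nontrivial (G ⧸ Cfsg.pResidual p G)).ne h7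
  rw [h4] at h1
  exact h1 (by rw [Subgroup.card_top]; exact hdiv)

end Cfsg.Agent.S2910
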