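import Cfsg.Statements.S2916
import Cfsg.Agent.Lib.GLT8
import Cfsg.Agent.Lib.MElevenInv
import Cfsg.Agent.Lib.M11Unique

set_option autoImplicit false
open Cfsg

namespace Cfsg.Agent.S2916

/-- Let G be a finite group with O²(G) = G (no proper normal subgroup of 2-power index), and let t be an involution of G whose centralizer C_G(t) is isomorphic to GL₂(3). Then G is isomorphic to PSL₃(3) or to the Mathieu group M₁₁. -/
theorem result {G : Type*} [Group G] [Finite G] (hO : Cfsg.pResidual 2 G = ⊤) (t : G) (ht : orderOf t = 2) (hC : Nonempty (↥(Subgroup.centralizer ({t} : Set G)) ≃* GL (Fin 2) (ZMod 3))) : (∃ (F : Type) (_ : Field F) (_ : Fintype F), Fintype.card F = 3 ∧ Nonempty (G ≃* Matrix.ProjectiveSpecialLinearGroup (Fin 3) F)) ∨ Cfsg.Spor.IsoM11 G := by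
  obtain ⟨e⟩ := hC
  obtain ⟨f, D, -⟩ := Lib.GLT4.exists_sit t ht e
  have h2 : ∀ N : Subgroup G, N.Normal → N.index ≠ 2 := by
    intro N hN hi
    have hle : Cfsg.pResidual 2 G ≤ N := by
      rw [Cfsg.pResidual, Subgroup.closure_le]
      intro g hg
      have hodd : Odd (orderOf g) := Nat.coprime_two_right.1 hg
      obtain ⟨k, hk⟩ := hodd
      have h3 : g = (g * g) ^ (k + 1) := by
        rw [← sq, ← pow_mul, show 2 * (k + 1) = orderOf g + 1 by omega, pow_succ, pow_orderOf_eq_one, one_mul]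
      rw [SetLike.mem_coe, h3]
      exact N.pow_mem (Subgroup.mul_self_mem_of_index_two hi g) _
    rw [hO, top_le_iff] at hle
    rw [hle, Subgroup.index_top] at hi
    omega
  have h1 : ∀ x : G, orderOf x = 2 → IsConj (f (-1)) x := fun x hx => D.isConj_t h2 hx
  rcases D.order h2 with h | h
  · left
    have : Fact (Nat.Prime 3) := ⟨Nat.prime_three⟩
    exact ⟨ZMod 3, inferInstance, inferInstance, ZMod.card 3, Lib.GLT8.main D h1 h⟩
  · right
    have := Lib.GLT5.simple D h1
    have hM : Nat.card ↥Cfsg.Spor.M11 = 7920 := Cfsg.Agent.Lib.MElevenInv.card_W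
    have hS : IsSimpleGroup ↥Cfsg.Spor.M11 := Cfsg.Agent.Lib.MElevenInv.simple_W
    have hF : Finite ↥Cfsg.Spor.M11 := Nat.finite_of_card_ne_zero (by rw [hM]; norm_num)
    exact Lib.M11ByOrder.unique_7920 h hM

end Cfsg.Agent.S2916
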