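import Cfsg.Statements.S2924
import Cfsg.Agent.Lib.Layer
import Cfsg.Agent.Lib.Cores
import Cfsg.Agent.Lib.H49Base
import Cfsg.Agent.Lib.OddInv
import Cfsg.Agent.Lib.SylAmb

set_option autoImplicit false
open Cfsg

namespace Cfsg.Agent.S2924

open Cfsg.Agent.Lib
open scoped commutatorElement

variable {X : Type*} [Group X] [Finite X]

/-- the core of the centralizer of `x`, in `X` -/
abbrev th (x : X) : Subgroup X :=
  (Cfsg.oddCore ↥(Subgroup.centralizer ({x} : Set X))).map (Subgroup.centralizer ({x} : Set X)).subtype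

theorem th_le (x : X) : th x ≤ Subgroup.centralizer ({x} : Set X) := Subgroup.map_subtype_le _

theorem odd_card_th (x : X) : Odd (Nat.card ↥(th x)) := by
  have h : Nat.card ↥(th x) = Nat.card ↥(Cfsg.oddCore ↥(Subgroup.centralizer ({x} : Set X))) :=
    Subgroup.card_map_of_injective (Subgroup.subtype_injective _)
  rw [h]
  exact Nat.coprime_two_right.mp (Cores.coprime_card_pPrimeCore 2 _)

theorem th_normal (x : X) {g : X} (hg : g ∈ Subgroup.centralizer ({x} : Set X)) {d : X} (hd : d ∈ th x) :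
    g * d * g⁻¹ ∈ th x := by
  obtain ⟨d', hd', rfl⟩ := hd
  have h1 : (Cfsg.oddCore ↥(Subgroup.centralizer ({x} : Set X))).Normal := inferInstance
  exact ⟨_, h1.conj_mem d' hd' ⟨g, hg⟩, rfl⟩

theorem mem_c {x g : X} : g ∈ Subgroup.centralizer ({x} : Set X) ↔ Commute g x := by
  rw [Subgroup.mem_centralizer_singleton_iff]; rfl

/-- an odd order subgroup meets a 2-subgroup trivially -/
theorem eq_one_of_odd_of_two {O Q : Subgroup X} (hO : Odd (Nat.card ↥O)) (hQ : IsPGroup 2 ↥Q) {d : X}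
    (h1 : d ∈ O) (h2 : d ∈ Q) : d = 1 := by
  apply H49Base.eq_one_of_mem_pgroup hQ h2
  exact Nat.coprime_two_right.mpr (OddInv.odd_orderOf_of_mem hO h1)

/-- the main application of Thompson's lemma: an element `d ∈ th x` centralising `y` centralises `O_2(C(y))` -/
theorem commute_pCore {x y : X} (hx2 : x * x = 1) (hxy : Commute x y) {d : X} (hd : d ∈ th x)
    (hdy : Commute d y) :
    ∀ q ∈ (Cfsg.pCore 2 ↥(Subgroup.centralizer ({y} : Set X))).map (Subgroup.centralizer ({y} : Set X)).subtype,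
      Commute d q := by
  set H := Subgroup.centralizer ({y} : Set X) with hH
  set Q := (Cfsg.pCore 2 ↥H).map H.subtype with hQdef
  have hQp : IsPGroup 2 ↥Q := (H49Base.isPGroup_pCore 2).map _
  have hQH : Q ≤ H := Subgroup.map_subtype_le _
  have hHQ : ∀ g ∈ H, g ∈ Subgroup.normalizer (Q : Set X) :=
    fun g hg => (Cores.le_normalizer_map_subtype (Cfsg.pCore 2 ↥H)) hg
  have hxH : x ∈ H := mem_c.mpr hxy
  have hdH : d ∈ H := mem_c.mpr hdy
  have hA : IsPGroup 2 ↥(Subgroup.zpowers x) := by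
    have h1 : x ^ 2 = 1 := by rw [pow_two, hx2]
    rcases (Nat.dvd_prime Nat.prime_two).mp (orderOf_dvd_of_pow_eq_one h1) with h2 | h2
    · exact IsPGroup.of_card (n := 0) (by rw [Nat.card_zpowers, h2, pow_zero])
    · exact IsPGroup.of_card (n := 1) (by rw [Nat.card_zpowers, h2, pow_one])
  have hdx : Commute d x := mem_c.mp (th_le x hd)
  refine H49Base.thompson_axb hA hQp ?_ ?_ ?_ (hHQ d hdH) ?_
  · rw [Subgroup.zpowers_le]; exact hHQ x hxH
  · exact Nat.coprime_two_right.mpr (OddInv.odd_orderOf_of_mem (odd_card_th x) hd)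
  · intro a ha
    obtain ⟨n, rfl⟩ := Subgroup.mem_zpowers_iff.mp ha
    exact hdx.zpow_right n
  · intro u hu hux
    have hux' : Commute u x := (hux x (Subgroup.mem_zpowers x)).symm
    -- [d,u] lies in Q and in th x
    have h1 : d * u * d⁻¹ * u⁻¹ ∈ Q :=
      Q.mul_mem ((Subgroup.mem_normalizer_iff.mp (hHQ d hdH) u).mp hu) (Q.inv_mem hu)
    have h2 : d * u * d⁻¹ * u⁻¹ ∈ th x := by
      have h3 : d * u * d⁻¹ * u⁻¹ = d * (u * d⁻¹ * u⁻¹) := by group
      rw [h3]
      exact (th x).mul_mem hd (th_normal x (mem_c.mpr hux') ((th x).inv_mem hd))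
    have h3 := eq_one_of_odd_of_two (odd_card_th x) hQp h2 h1
    have h4 : d * u = u * d := by
      have h5 : d * u = (d * u * d⁻¹ * u⁻¹) * (u * d) := by group
      rw [h5, h3, one_mul]
    exact h4

/-- a fixed-point-free involution inverts -/
theorem inverts {z : X} (hz : z * z = 1) {O : Subgroup X} (hn : ∀ d ∈ O, z * d * z⁻¹ ∈ O)
    (hfix : ∀ d ∈ O, Commute d z → d = 1) : ∀ d ∈ O, z * d * z⁻¹ = d⁻¹ := by
  let f : ↥O → ↥O := fun d => ⟨(d : X)⁻¹ * (z * d * z⁻¹), O.mul_mem (O.inv_mem d.2) (hn d d.2)⟩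
  have hinj : Function.Injective f := by
    intro a b hab
    have h1 : (a : X)⁻¹ * (z * a * z⁻¹) = (b : X)⁻¹ * (z * b * z⁻¹) := congrArg Subtype.val hab
    have h2 : (b : X) * (a : X)⁻¹ = z * ((b : X) * (a : X)⁻¹) * z⁻¹ := by
      have h3 : (b : X) * (a : X)⁻¹ * (z * a * z⁻¹) = z * b * z⁻¹ := by
        rw [mul_assoc, h1]; group
      calc (b : X) * (a : X)⁻¹ = ((b : X) * (a : X)⁻¹ * (z * a * z⁻¹)) * (z * a * z⁻¹)⁻¹ := by group
        _ = (z * b * z⁻¹) * (z * a * z⁻¹)⁻¹ := by rw [h3]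
        _ = _ := by group
    have h4 : Commute ((b : X) * (a : X)⁻¹) z := by
      have h5 := congrArg (· * z) h2
      simpa [Commute, SemiconjBy, mul_assoc] using h5
    have h6 := hfix _ (O.mul_mem b.2 (O.inv_mem a.2)) h4
    exact Subtype.ext (mul_inv_eq_one.mp h6).symm
  have hsurj : Function.Surjective f := Finite.surjective_of_injective hinj
  intro d hd
  obtain ⟨n, hn⟩ := hsurj ⟨d, hd⟩
  have h1 : d = (n : X)⁻¹ * (z * n * z⁻¹) := (congrArg Subtype.val hn).symm
  have hz' : z⁻¹ = z := inv_eq_of_mul_eq_one_left hz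
  rw [h1, mul_inv_rev, hz', inv_inv]
  have : z * ((n : X)⁻¹ * (z * n * z)) * z = z * (n : X)⁻¹ * z * n * (z * z) := by group
  rw [this, hz, mul_one]
  simp [mul_assoc, hz']

/-- two elements of odd order inverted by `z` ... -/
theorem commute_of_inverted {z d f : X} (hd : z * d * z⁻¹ = d⁻¹) (hf : z * f * z⁻¹ = f⁻¹)
    (hdf : z * (d * f * d⁻¹) * z⁻¹ = (d * f * d⁻¹)⁻¹) (hodd : Odd (orderOf d)) : Commute d f := by
  have h1 : (z * d * z⁻¹) * (z * f * z⁻¹) * (z * d * z⁻¹)⁻¹ = (d * f * d⁻¹)⁻¹ := by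
    rw [← hdf]; group
  rw [hd, hf] at h1
  -- d⁻¹ f⁻¹ d = d f⁻¹ d⁻¹
  have h2 : Commute (d * d) f := by
    have h3 : d⁻¹ * f⁻¹ * d = d * f⁻¹ * d⁻¹ := by
      have : (d * f * d⁻¹)⁻¹ = d * f⁻¹ * d⁻¹ := by group
      rw [this, inv_inv] at h1
      exact h1
    have h4 : d⁻¹ * f * d = d * f * d⁻¹ := by
      have := congrArg (·⁻¹) h3
      simpa [mul_assoc] using this
    show d * d * f = f * (d * d)
    calc d * d * f = d * (d * f * d⁻¹) * d := by group
      _ = d * (d⁻¹ * f * d) * d := by rw [h4]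
      _ = f * (d * d) := by group
  obtain ⟨k, hk⟩ := OddInv.exists_sqrt hodd
  -- d is a power of d * d
  have h5 : d = (d * d) ^ k := by
    rw [← pow_two, ← pow_mul, mul_comm, pow_mul, pow_two]
    exact hk.symm
  rw [h5]
  exact h2.pow_left k


/-- decomposition of an abelian group of odd order under a four-group, in the form needed -/
theorem commute_of_parts {V : Subgroup X} (hodd : Odd (Nat.card ↥V)) (hab : ∀ d ∈ V, ∀ f ∈ V, Commute d f)
    {s t f : X} (hs : s * s = 1) (ht : t * t = 1) (hst : Commute s t)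
    (hsV : ∀ d ∈ V, s * d * s⁻¹ ∈ V) (htV : ∀ d ∈ V, t * d * t⁻¹ ∈ V)
    (h1 : ∀ d ∈ V, Commute d s → Commute d f) (h2 : ∀ d ∈ V, Commute d t → Commute d f)
    (h3 : ∀ d ∈ V, Commute d (s * t) → Commute d f) : ∀ d ∈ V, Commute d f := by
  intro d hd
  have hs' : s⁻¹ = s := inv_eq_of_mul_eq_one_left hs
  have ht' : t⁻¹ = t := inv_eq_of_mul_eq_one_left ht
  set b := s * d * s⁻¹ with hb
  set c := t * d * t⁻¹ with hc
  set e := s * t * d * (s * t)⁻¹ with he
  have hbV : b ∈ V := hsV d hd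
  have hcV : c ∈ V := htV d hd
  have heV : e ∈ V := by
    have h4 := hsV _ (htV d hd)
    rw [he]; convert h4 using 1; group
  have hcomm := hab
  -- action of s and t
  have sb : s * b * s⁻¹ = d := by rw [hb, hs']; calc s * (s * d * s) * s = (s * s) * d * (s * s) := by group
      _ = d := by rw [hs]; group
  have tc : t * c * t⁻¹ = d := by rw [hc, ht']; calc t * (t * d * t) * t = (t * t) * d * (t * t) := by group
      _ = d := by rw [ht]; group
  have sc : s * c * s⁻¹ = e := by rw [hc, he]; group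
  have se : s * e * s⁻¹ = c := by
    rw [← sc, hs']; calc s * (s * c * s) * s = (s * s) * c * (s * s) := by group
      _ = c := by rw [hs]; group
  have tb : t * b * t⁻¹ = e := by
    rw [hb, he]
    calc t * (s * d * s⁻¹) * t⁻¹ = (t * s) * d * (t * s)⁻¹ := by group
      _ = (s * t) * d * (s * t)⁻¹ := by rw [hst.eq]
  have te : t * e * t⁻¹ = b := by
    rw [← tb, ht']; calc t * (t * b * t) * t = (t * t) * b * (t * t) := by group
      _ = b := by rw [ht]; group
  -- the three parts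
  have hu : ∀ {x y : X}, s * x * s⁻¹ = x → Commute x s := by
    intro x y h
    have := congrArg (· * s) h
    simpa [Commute, SemiconjBy, mul_assoc] using this.symm
  have hp : d * b ∈ V := V.mul_mem hd hbV
  have hcs : ∀ x y : X, s * (x * y) * s⁻¹ = (s * x * s⁻¹) * (s * y * s⁻¹) := by intro x y; group
  have hct : ∀ x y : X, t * (x * y) * t⁻¹ = (t * x * t⁻¹) * (t * y * t⁻¹) := by intro x y; group
  have hfix : ∀ w x : X, w * x * w⁻¹ = x → Commute x w := by
    intro w x h
    have := congrArg (· * w) h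
    simpa [Commute, SemiconjBy, mul_assoc] using this.symm
  -- (d b) is fixed by s
  have p1 : Commute (d * b) f := by
    apply h1 _ hp
    apply hfix
    rw [hcs, ← hb, sb]
    exact (hcomm _ hbV _ hd).eq
  -- (d c) is fixed by t
  have p2 : Commute (d * c) f := by
    apply h2 _ (V.mul_mem hd hcV)
    apply hfix
    rw [hct, ← hc, tc]
    exact (hcomm _ hcV _ hd).eq
  -- (d e) is fixed by s t
  have p3 : Commute (d * e) f := by
    apply h3 _ (V.mul_mem hd heV)
    apply hfix
    have e1 : (s * t) * (d * e) * (s * t)⁻¹ = s * (t * (d * e) * t⁻¹) * s⁻¹ := by group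
    rw [e1, hct, ← hc, te, hcs, sc, sb]
    exact (hcomm _ heV _ hd).eq
  -- (d b c e) is fixed by s
  have p4 : Commute (d * b * (c * e)) f := by
    apply h1 _ (V.mul_mem hp (V.mul_mem hcV heV))
    apply hfix
    have e1 : s * (d * b * (c * e)) * s⁻¹ = (s * d * s⁻¹) * (s * b * s⁻¹) * ((s * c * s⁻¹) * (s * e * s⁻¹)) := by group
    rw [e1, ← hb, sb, sc, se, (hcomm _ hbV _ hd).eq, (hcomm _ heV _ hcV).eq]
  -- d ^ 2 = (d b)(d c)(d e)(d b c e)⁻¹
  have hd2 : Commute (d * d) f := by
    have h4 : (d * b) * (d * c) * (d * e) = (d * d) * (d * b * (c * e)) := by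
      have hbd := (hcomm b hbV d hd).eq
      have hcd := (hcomm c hcV d hd).eq
      calc (d * b) * (d * c) * (d * e) = d * (b * d) * (c * d) * e := by group
        _ = d * (d * b) * (d * c) * e := by rw [hbd, hcd]
        _ = d * d * (b * d) * c * e := by group
        _ = d * d * (d * b) * c * e := by rw [hbd]
        _ = (d * d) * (d * b * (c * e)) := by group
    have h5 : d * d = ((d * b) * (d * c) * (d * e)) * (d * b * (c * e))⁻¹ := by
      rw [h4]; group
    rw [h5]
    exact ((p1.mul_left p2).mul_left p3).mul_left p4.inv_left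
  obtain ⟨k, hk⟩ := OddInv.exists_sqrt (OddInv.odd_orderOf_of_mem hodd hd)
  have h5 : d = (d * d) ^ k := by
    rw [← pow_two, ← pow_mul, mul_comm, pow_mul, pow_two]
    exact hk.symm
  rw [h5]
  exact hd2.pow_left k

theorem mem_th_of {y : X} {N : Subgroup X} (h1 : N ≤ Subgroup.centralizer ({y} : Set X))
    (h2 : Subgroup.centralizer ({y} : Set X) ≤ Subgroup.normalizer (N : Set X)) (h3 : Odd (Nat.card ↥N))
    {d : X} (hd : d ∈ N) : d ∈ th y := by
  have h4 : (N.subgroupOf (Subgroup.centralizer ({y} : Set X))).Normal := Subgroup.normal_subgroupOf_of_le_normalizer h2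
  have h5 : N.subgroupOf (Subgroup.centralizer ({y} : Set X)) ≤ Cfsg.oddCore ↥(Subgroup.centralizer ({y} : Set X)) := by
    apply Cores.le_pPrimeCore h4
    rw [Nat.coprime_two_right]
    have : Nat.card ↥(N.subgroupOf (Subgroup.centralizer ({y} : Set X))) = Nat.card ↥N :=
      Nat.card_congr (Subgroup.subgroupOfEquivOfLe h1).toEquiv
    rw [this]; exact h3
  exact ⟨⟨d, h1 hd⟩, h5 hd, rfl⟩

theorem conj_th {y g d : X} (hd : d ∈ th y) : g * d * g⁻¹ ∈ th (g * y * g⁻¹) := by
  have hn : Subgroup.centralizer ({y} : Set X) ≤ Subgroup.normalizer (th y : Set X) :=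
    Cores.le_normalizer_map_subtype _
  apply mem_th_of (N := (th y).map (MulAut.conj g).toMonoidHom)
  · rintro _ ⟨x, hx, rfl⟩
    have h1 : Commute x y := mem_c.mp (th_le y hx)
    rw [mem_c]
    show (g * x * g⁻¹) * (g * y * g⁻¹) = (g * y * g⁻¹) * (g * x * g⁻¹)
    calc (g * x * g⁻¹) * (g * y * g⁻¹) = g * (x * y) * g⁻¹ := by group
      _ = g * (y * x) * g⁻¹ := by rw [h1.eq]
      _ = _ := by group
  · intro c hc
    have hc' : Commute c (g * y * g⁻¹) := mem_c.mp hc
    have h1 : g⁻¹ * c * g ∈ Subgroup.centralizer ({y} : Set X) := by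
      rw [mem_c]
      show (g⁻¹ * c * g) * y = y * (g⁻¹ * c * g)
      calc (g⁻¹ * c * g) * y = g⁻¹ * (c * (g * y * g⁻¹)) * g := by group
        _ = g⁻¹ * ((g * y * g⁻¹) * c) * g := by rw [hc'.eq]
        _ = _ := by group
    have h2 := SylAmb.mem_normalizer_iff_map.mp (hn h1)
    rw [SylAmb.mem_normalizer_iff_map, SylAmb.map_conj_map_conj]
    conv_rhs => rw [← h2]
    rw [SylAmb.map_conj_map_conj]
    congr 3
    group
  · rw [Subgroup.card_map_of_injective (MulAut.conj g).injective]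
    exact odd_card_th y
  · exact ⟨d, hd, by simp⟩

/-- Let X be a finite group and Y an elementary abelian 2-subgroup of X of order at least 8 such that C_X(x) has no components (E(C_X(x)) = 1) for every nontrivial x ∈ Y, and F*(C_X(z)) = O₂(C_X(z)) for some nontrivial z ∈ Y. Then the subgroup generated by the cores O(C_X(y)), y ∈ Y nontrivial, has odd order and is normalized by N_X(Y). -/
theorem result {X : Type*} [Group X] [Finite X] (Y : Subgroup X) (hY : Cfsg.IsElementaryAbelian 2 Y) (h8 : 8 ≤ Nat.card ↥Y) (hE : ∀ x ∈ Y, x ≠ 1 → Cfsg.layer ↥(Subgroup.centralizer ({x} : Set X)) = ⊥) (hz : ∃ z ∈ Y, z ≠ 1 ∧ Cfsg.generalizedFittingSubgroup ↥(Subgroup.centralizer ({z} : Set X)) = Cfsg.pCore 2 ↥(Subgroup.centralizer ({z} : Set X))) : Odd (Nat.card ↥(⨆ y : {y : X // y ∈ Y ∧ y ≠ 1}, (Cfsg.oddCore ↥(Subgroup.centralizer ({(y : X)} : Set X))).map (Subgroup.centralizer ({(y : X)} : Set X)).subtype)) ∧ Subgroup.normalizer (Y : Set X) ≤ Subgroup.normalizer ((⨆ y : {y : X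 // y ∈ Y ∧ y ≠ 1}, (Cfsg.oddCore ↥(Subgroup.centralizer ({(y : X)} : Set X))).map (Subgroup.centralizer ({(y : X)} : Set X)).subtype : Subgroup X) : Set X) := by
  obtain ⟨z, hzY, hz1, hzF⟩ := hz
  have hYc : ∀ a ∈ Y, ∀ b ∈ Y, Commute a b := by
    intro a ha b hb
    exact congrArg Subtype.val (hY.1.is_comm.comm ⟨a, ha⟩ ⟨b, hb⟩)
  have hY2 : ∀ a ∈ Y, a * a = 1 := by
    intro a ha
    rw [← pow_two]; exact hY.2 a ha
  -- Claim B: no fixed points of z
  have hB : ∀ y ∈ Y, y ≠ 1 → ∀ d ∈ th y, Commute d z → d = 1 := by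
    intro y hy hy1 d hd hdz
    have h1 := commute_pCore (hY2 y hy) (hYc y hy z hzY) hd hdz
    set H := Subgroup.centralizer ({z} : Set X) with hH
    have hdH : d ∈ H := mem_c.mpr hdz
    have h2 : (⟨d, hdH⟩ : ↥H) ∈ Subgroup.centralizer (Cfsg.pCore 2 ↥H : Set ↥H) := by
      rw [Subgroup.mem_centralizer_iff]
      intro q hq
      exact Subtype.ext (h1 q ⟨q, hq, rfl⟩).eq.symm
    rw [← hzF] at h2
    have h3 := Layer.centralizer_genFitting_le h2
    rw [hzF] at h3
    have h4 : IsPGroup 2 ↥((Cfsg.pCore 2 ↥H).map H.subtype) := (H49Base.isPGroup_pCore 2).map _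
    exact eq_one_of_odd_of_two (odd_card_th y) h4 hd ⟨_, h3, rfl⟩
  -- Claim C: z inverts
  have hC : ∀ y ∈ Y, y ≠ 1 → ∀ d ∈ th y, z * d * z⁻¹ = d⁻¹ := by
    intro y hy hy1
    apply inverts (hY2 z hzY)
    · intro d hd
      exact th_normal y (mem_c.mpr (hYc z hzY y hy)) hd
    · exact hB y hy hy1
  -- Claim D: each core is abelian
  have hD : ∀ y ∈ Y, y ≠ 1 → ∀ d ∈ th y, ∀ f ∈ th y, Commute d f := by
    intro y hy hy1 d hd f hf
    apply commute_of_inverted (hC y hy hy1 d hd) (hC y hy hy1 f hf)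
    · exact hC y hy hy1 _ ((th y).mul_mem ((th y).mul_mem hd hf) ((th y).inv_mem hd))
    · exact OddInv.odd_orderOf_of_mem (odd_card_th y) hd
  -- Claim E: balance
  have hE' : ∀ x ∈ Y, x ≠ 1 → ∀ y ∈ Y, y ≠ 1 → ∀ d ∈ th x, Commute d y → d ∈ th y := by
    intro x hx hx1 y hy hy1 d hd hdy
    set H := Subgroup.centralizer ({y} : Set X) with hH
    have hdH : d ∈ H := mem_c.mpr hdy
    have h1 := commute_pCore (hY2 x hx) (hYc x hx y hy) hd hdy
    have hdodd := OddInv.odd_orderOf_of_mem (odd_card_th x) hd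
    have h2 : ∀ f ∈ th y, Commute d f := by
      intro f hf
      apply commute_of_inverted (hC x hx hx1 d hd) (hC y hy hy1 f hf) _ hdodd
      exact hC y hy hy1 _ (th_normal y hdH hf)
    have hcen : (⟨d, hdH⟩ : ↥H) ∈ Subgroup.centralizer (Cfsg.generalizedFittingSubgroup ↥H : Set ↥H) := by
      have h3 : Cfsg.generalizedFittingSubgroup ↥H ≤ Subgroup.centralizer ({(⟨d, hdH⟩ : ↥H)} : Set ↥H) := by
        unfold Cfsg.generalizedFittingSubgroup
        rw [hE y hy hy1, bot_sup_eq, Cores.fittingSubgroup_eq_iSup]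
        apply iSup_le
        intro p q hq
        rw [Subgroup.mem_centralizer_singleton_iff]
        by_cases hp : (p : ℕ) = 2
        · rw [hp] at hq
          exact Subtype.ext (h1 q ⟨q, hq, rfl⟩).eq.symm
        · have h4 : Cfsg.pCore (p : ℕ) ↥H ≤ Cfsg.oddCore ↥H := by
            apply Cores.le_pPrimeCore inferInstance
            haveI : Fact (p : ℕ).Prime := ⟨p.2⟩
            obtain ⟨n, hn⟩ := IsPGroup.iff_card.mp (H49Base.isPGroup_pCore (G := ↥H) (p : ℕ))
            rw [hn]
            apply Nat.Coprime.pow_left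
            exact (Nat.coprime_primes p.2 Nat.prime_two).mpr hp
          exact Subtype.ext (h2 q ⟨q, h4 hq, rfl⟩).eq.symm
      rw [Subgroup.mem_centralizer_iff]
      intro q hq
      exact Subgroup.mem_centralizer_singleton_iff.mp (h3 hq)
    have h5 := Layer.centralizer_genFitting_le hcen
    have h6 : Cfsg.generalizedFittingSubgroup ↥H ≤ Cfsg.pCore 2 ↥H ⊔ Cfsg.oddCore ↥H := by
      unfold Cfsg.generalizedFittingSubgroup
      rw [hE y hy hy1, bot_sup_eq, Cores.fittingSubgroup_eq_iSup]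
      apply iSup_le
      intro p
      by_cases hp : (p : ℕ) = 2
      · rw [hp]; exact le_sup_left
      · refine le_trans ?_ le_sup_right
        apply Cores.le_pPrimeCore inferInstance
        haveI : Fact (p : ℕ).Prime := ⟨p.2⟩
        obtain ⟨n, hn⟩ := IsPGroup.iff_card.mp (H49Base.isPGroup_pCore (G := ↥H) (p : ℕ))
        rw [hn]
        apply Nat.Coprime.pow_left
        exact (Nat.coprime_primes p.2 Nat.prime_two).mpr hp
    obtain ⟨a, ha, b, hb, hab⟩ := Subgroup.mem_sup_of_normal_right.mp (h6 h5)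
    have hbth : (b : X) ∈ th y := ⟨b, hb, rfl⟩
    have habX : (a : X) * (b : X) = d := congrArg Subtype.val hab
    have hcomm : Commute d ((b : X)⁻¹) := (h2 _ hbth).inv_right
    have haX : (a : X) = d * (b : X)⁻¹ := by rw [← habX]; group
    have haodd : Odd (orderOf (a : X)) := by
      rw [haX]
      have h7 := hcomm.orderOf_mul_dvd_mul_orderOf
      have h8 : Odd (orderOf d * orderOf ((b : X)⁻¹)) := by
        rw [orderOf_inv]
        exact hdodd.mul (OddInv.odd_orderOf_of_mem (odd_card_th y) hbth)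
      exact Odd.of_dvd_nat h8 h7
    have ha1 : (a : X) = 1 := by
      have h4 : IsPGroup 2 ↥((Cfsg.pCore 2 ↥H).map H.subtype) := (H49Base.isPGroup_pCore 2).map _
      exact H49Base.eq_one_of_mem_pgroup h4 ⟨a, ha, rfl⟩ (Nat.coprime_two_right.mpr haodd)
    rw [← habX, ha1, one_mul]
    exact hbth
  -- Claim F: all the cores commute
  have hF : ∀ a ∈ Y, a ≠ 1 → ∀ b ∈ Y, b ≠ 1 → ∀ d ∈ th a, ∀ f ∈ th b, Commute d f := by
    intro a ha ha1 b hb hb1 d hd f hf
    by_cases hab : a = b
    · subst hab; exact hD a ha ha1 d hd f hf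
    -- choose c outside ⟨a, b⟩
    obtain ⟨c, hc, hcab⟩ : ∃ c ∈ Y, c ∉ ({1, a, b, a * b} : Set X) := by
      by_contra hcon
      push Not at hcon
      have h1 : Nat.card ↥Y ≤ ({1, a, b, a * b} : Set X).ncard :=
        Set.ncard_le_ncard (fun x hx => hcon x hx) (Set.toFinite _)
      have e1 := Set.ncard_insert_le (1 : X) {a, b, a * b}
      have e2 := Set.ncard_insert_le a ({b, a * b} : Set X)
      have e3 := Set.ncard_insert_le b ({a * b} : Set X)
      rw [Set.ncard_singleton] at e3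
      omega
    simp only [Set.mem_insert_iff, Set.mem_singleton_iff, not_or] at hcab
    obtain ⟨hc1, hca, hcb, hcab⟩ := hcab
    have hbc : b * c ∈ Y := Y.mul_mem hb hc
    have hac : a * c ∈ Y := Y.mul_mem ha hc
    have habc : a * b * c ∈ Y := Y.mul_mem (Y.mul_mem ha hb) hc
    have inv_of : ∀ u ∈ Y, u⁻¹ = u := fun u hu => inv_eq_of_mul_eq_one_left (hY2 u hu)
    have hbc1 : b * c ≠ 1 := by
      intro h
      apply hcb
      rw [← inv_of b hb]
      exact (inv_eq_of_mul_eq_one_right h).symm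
    have hac1 : a * c ≠ 1 := by
      intro h
      apply hca
      rw [← inv_of a ha]
      exact (inv_eq_of_mul_eq_one_right h).symm
    have habc1 : a * b * c ≠ 1 := by
      intro h
      apply hcab
      rw [← inv_of _ (Y.mul_mem ha hb)]
      exact (inv_eq_of_mul_eq_one_right h).symm
    -- elements of th u commute with u
    have hself : ∀ u : X, ∀ x ∈ th u, Commute x u := fun u x hx => mem_c.mp (th_le u hx)
    refine commute_of_parts (odd_card_th a) (hD a ha ha1) (hY2 b hb) (hY2 c hc) (hYc b hb c hc)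
      (fun d hd => th_normal a (mem_c.mpr (hYc b hb a ha)) hd)
      (fun d hd => th_normal a (mem_c.mpr (hYc c hc a ha)) hd) ?_ ?_ ?_ d hd
    · intro d hd hdb
      exact hD b hb hb1 d (hE' a ha ha1 b hb hb1 d hd hdb) f hf
    · -- d commutes with a and c
      intro d hd hdc
      have hda := hself a d hd
      apply Commute.symm
      refine commute_of_parts (odd_card_th b) (hD b hb hb1) (hY2 a ha) (hY2 c hc) (hYc a ha c hc)
        (fun d hd => th_normal b (mem_c.mpr (hYc a ha b hb)) hd)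
        (fun d hd => th_normal b (mem_c.mpr (hYc c hc b hb)) hd) ?_ ?_ ?_ f hf
      · intro f hf hfa
        exact hD a ha ha1 f (hE' b hb hb1 a ha ha1 f hf hfa) d hd
      · intro f hf hfc
        exact hD c hc hc1 f (hE' b hb hb1 c hc hc1 f hf hfc) d (hE' a ha ha1 c hc hc1 d hd hdc)
      · intro f hf hfac
        exact hD _ hac hac1 f (hE' b hb hb1 _ hac hac1 f hf hfac) d
          (hE' a ha ha1 _ hac hac1 d hd (hda.mul_right hdc))
    · -- d commutes with a and bc
      intro d hd hdbc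
      have hda := hself a d hd
      apply Commute.symm
      refine commute_of_parts (odd_card_th b) (hD b hb hb1) (hY2 a ha) (hY2 c hc) (hYc a ha c hc)
        (fun d hd => th_normal b (mem_c.mpr (hYc a ha b hb)) hd)
        (fun d hd => th_normal b (mem_c.mpr (hYc c hc b hb)) hd) ?_ ?_ ?_ f hf
      · intro f hf hfa
        exact hD a ha ha1 f (hE' b hb hb1 a ha ha1 f hf hfa) d hd
      · intro f hf hfc
        have hfb := hself b f hf
        exact hD _ hbc hbc1 f (hE' b hb hb1 _ hbc hbc1 f hf (hfb.mul_right hfc)) d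
          (hE' a ha ha1 _ hbc hbc1 d hd hdbc)
      · intro f hf hfac
        have hfb := hself b f hf
        have e1 : a * b * c = b * (a * c) := by rw [(hYc a ha b hb).eq, mul_assoc]
        have e2 : a * b * c = a * (b * c) := mul_assoc _ _ _
        refine hD _ habc habc1 f (hE' b hb hb1 _ habc habc1 f hf ?_) d (hE' a ha ha1 _ habc habc1 d hd ?_)
        · rw [e1]; exact hfb.mul_right hfac
        · rw [e2]; exact hda.mul_right hdbc
  set J : Subgroup X := ⨆ y : {y : X // y ∈ Y ∧ y ≠ 1}, th (y : X) with hJ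
  have hJc : J ≤ Subgroup.centralizer (J : Set X) := by
    apply iSup_le
    rintro ⟨a, ha, ha1⟩
    rw [Subgroup.le_centralizer_iff]
    apply iSup_le
    rintro ⟨b, hb, hb1⟩ f hf
    rw [Subgroup.mem_centralizer_iff]
    intro d hd
    exact (hF a ha ha1 b hb hb1 d hd f hf).eq
  refine ⟨?_, ?_⟩
  · -- odd order
    let J' : Subgroup X :=
      { carrier := {x | x ∈ J ∧ Odd (orderOf x)}
        mul_mem' := by
          rintro x y ⟨hx, hx'⟩ ⟨hy, hy'⟩
          refine ⟨J.mul_mem hx hy, ?_⟩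
          have hc : Commute x y := (Subgroup.mem_centralizer_iff.mp (hJc hy) x hx)
          exact Odd.of_dvd_nat (hx'.mul hy') hc.orderOf_mul_dvd_mul_orderOf
        one_mem' := ⟨J.one_mem, by rw [orderOf_one]; exact odd_one⟩
        inv_mem' := by
          rintro x ⟨hx, hx'⟩
          exact ⟨J.inv_mem hx, by rwa [orderOf_inv]⟩ }
    have hJJ' : J ≤ J' := by
      apply iSup_le
      rintro ⟨a, ha, ha1⟩ d hd
      exact ⟨(le_iSup (fun y : {y : X // y ∈ Y ∧ y ≠ 1} => th (y : X)) ⟨a, ha, ha1⟩) hd,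
        OddInv.odd_orderOf_of_mem (odd_card_th a) hd⟩
    rw [← Nat.not_even_iff_odd]
    intro heven
    haveI : Fact (Nat.Prime 2) := ⟨Nat.prime_two⟩
    obtain ⟨x, hx⟩ := exists_prime_orderOf_dvd_card' (G := ↥J) 2 heven.two_dvd
    have h1 := (hJJ' x.2).2
    rw [Subgroup.orderOf_coe, hx] at h1
    exact absurd h1 (by decide)
  · -- normalised
    intro g hg
    have hstep : ∀ g ∈ Subgroup.normalizer (Y : Set X), J.map ((MulAut.conj g : MulAut X) : X →* X) ≤ J := by
      intro g hg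
      rw [hJ, Subgroup.map_iSup]
      apply iSup_le
      rintro ⟨a, ha, ha1⟩
      rintro _ ⟨d, hd, rfl⟩
      have hga : g * a * g⁻¹ ∈ Y := (Subgroup.mem_normalizer_iff.mp hg a).mp ha
      have hga1 : g * a * g⁻¹ ≠ 1 := by
        intro h
        apply ha1
        have : a = g⁻¹ * (g * a * g⁻¹) * g := by group
        rw [this, h]; group
      exact (le_iSup (fun y : {y : X // y ∈ Y ∧ y ≠ 1} => th (y : X)) ⟨g * a * g⁻¹, hga, hga1⟩) (conj_th hd)
    rw [Subgroup.mem_normalizer_iff_map_conj_eq]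
    apply Subgroup.eq_of_le_of_card_ge (hstep g hg)
    rw [Subgroup.card_map_of_injective (MulAut.conj g).injective]



end Cfsg.Agent.S2924
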