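import Cfsg.Statements.S2925
import Cfsg.Agent.Lib.Components
import Cfsg.Agent.Lib.Subnormal
import Cfsg.Agent.Lib.SylowIn

set_option autoImplicit false
open Cfsg

namespace Cfsg.Agent.S2925

open Cfsg.Agent.Lib.Components Cfsg.Agent.Lib.SylowIn Cfsg.Agent.Lib.Subnormal


/-- Let K be a component of the finite group X and T a Sylow 2-subgroup of X. If some abelian normal subgroup Y of T does not normalize K, then K ⧸ Z(K) has abelian Sylow 2-subgroups. -/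
theorem result {X : Type*} [Group X] [Finite X] (K : Subgroup X) (hK : Cfsg.IsComponent K) (T : Sylow 2 X) (Y : Subgroup X) (hYT : Y ≤ (T : Subgroup X)) (hYn : (Y.subgroupOf (T : Subgroup X)).Normal) (hYab : IsMulCommutative ↥Y) (hnot : ¬ Y ≤ Subgroup.normalizer (K : Set X)) (P : Sylow 2 (↥K ⧸ Subgroup.center ↥K)) : IsMulCommutative ↥(P : Subgroup (↥K ⧸ Subgroup.center ↥K)) := by
  -- an element of Y moving K
  obtain ⟨y, hyY, hyK⟩ := SetLike.not_le_iff_exists.mp hnot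
  have hne : K.map (MulAut.conj y).toMonoidHom ≠ K := by
    intro h
    exact hyK (Subgroup.mem_normalizer_iff_map_conj_eq.mpr h)
  have hcomm : K.map (MulAut.conj y).toMonoidHom ≤ Subgroup.centralizer (K : Set X) :=
    components_commute (isComponent_conj y hK) hK hne
  have hyT : y ∈ (T : Subgroup X) := hYT hyY
  -- key commutator computation
  have key : ∀ r s : X, r ∈ K → s ∈ K → r ∈ (T : Subgroup X) → s ∈ (T : Subgroup X) →
      ∀ k ∈ K, Commute (r * s * r⁻¹ * s⁻¹) k := by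
    intro r s hr hs hrT hsT
    have hY : ∀ r : X, r ∈ (T : Subgroup X) → r⁻¹ * (y * r * y⁻¹) ∈ Y := by
      intro r hrT
      have h1 : r⁻¹ * y * r ∈ Y := by
        have := hYn.conj_mem ⟨y, hyT⟩ hyY ⟨r⁻¹, (T : Subgroup X).inv_mem hrT⟩
        simpa [Subgroup.mem_subgroupOf] using this
      have h2 := Y.mul_mem h1 (Y.inv_mem hyY)
      convert h2 using 1
      group
    have h1 := hY r hrT
    have h2 := hY s hsT
    have hc : (r⁻¹ * (y * r * y⁻¹)) * (s⁻¹ * (y * s * y⁻¹)) = (s⁻¹ * (y * s * y⁻¹)) * (r⁻¹ * (y * r * y⁻¹)) := by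
      have := hYab.is_comm.comm ⟨_, h1⟩ ⟨_, h2⟩
      exact congrArg Subtype.val this
    have hK' : ∀ a ∈ K, ∀ b ∈ K, Commute (y * a * y⁻¹) b := by
      intro a ha b hb
      have h3 : y * a * y⁻¹ ∈ K.map (MulAut.conj y).toMonoidHom := ⟨a, ha, by simp⟩
      exact (Subgroup.mem_centralizer_iff.mp (hcomm h3) b hb).symm
    have e1 : (r⁻¹ * (y * r * y⁻¹)) * (s⁻¹ * (y * s * y⁻¹)) = (r⁻¹ * s⁻¹) * ((y * r * y⁻¹) * (y * s * y⁻¹)) := by
      have := (hK' r hr s⁻¹ (K.inv_mem hs)).eq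
      calc _ = r⁻¹ * ((y * r * y⁻¹) * s⁻¹) * (y * s * y⁻¹) := by group
        _ = r⁻¹ * (s⁻¹ * (y * r * y⁻¹)) * (y * s * y⁻¹) := by rw [this]
        _ = _ := by group
    have e2 : (s⁻¹ * (y * s * y⁻¹)) * (r⁻¹ * (y * r * y⁻¹)) = (s⁻¹ * r⁻¹) * ((y * s * y⁻¹) * (y * r * y⁻¹)) := by
      have := (hK' s hs r⁻¹ (K.inv_mem hr)).eq
      calc _ = s⁻¹ * ((y * s * y⁻¹) * r⁻¹) * (y * r * y⁻¹) := by group
        _ = s⁻¹ * (r⁻¹ * (y * s * y⁻¹)) * (y * r * y⁻¹) := by rw [this]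
        _ = _ := by group
    rw [e1, e2] at hc
    -- r s r⁻¹ s⁻¹ equals an element of y K y⁻¹
    have e3 : r * s * r⁻¹ * s⁻¹ = y * (s * r * s⁻¹ * r⁻¹) * y⁻¹ := by
      have h4 : (r⁻¹ * s⁻¹) * (y * (r * s) * y⁻¹) = (s⁻¹ * r⁻¹) * (y * (s * r) * y⁻¹) := by
        convert hc using 1 <;> group
      have h5 : (r * s) * (r⁻¹ * s⁻¹) = (y * (s * r) * y⁻¹) * (y * (r * s) * y⁻¹)⁻¹ := by
        rw [eq_mul_inv_iff_mul_eq, mul_assoc (r * s), h4]
        group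
      calc r * s * r⁻¹ * s⁻¹ = (r * s) * (r⁻¹ * s⁻¹) := by group
        _ = _ := by rw [h5]; group
    intro k hk
    rw [e3]
    exact hK' _ (K.mul_mem (K.mul_mem (K.mul_mem hs hr) (K.inv_mem hs)) (K.inv_mem hr)) k hk
  -- Sylow subgroups of K
  obtain ⟨Q₀, hQ₀⟩ := exists_sylow_eq_subgroupOf 2 hK.1 T
  obtain ⟨Q, hQ⟩ := Sylow.mapSurjective_surjective (f := QuotientGroup.mk' (Subgroup.center ↥K)) (QuotientGroup.mk'_surjective _) 2 P
  obtain ⟨k, hk⟩ := MulAction.exists_smul_eq ↥K Q₀ Q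
  refine ⟨⟨fun a b => ?_⟩⟩
  obtain ⟨a, ha⟩ := a
  obtain ⟨b, hb⟩ := b
  apply Subtype.ext
  show a * b = b * a
  rw [← hQ, Sylow.coe_mapSurjective] at ha hb
  obtain ⟨a', ha', rfl⟩ := ha
  obtain ⟨b', hb', rfl⟩ := hb
  have ha1 : a' ∈ (Q : Subgroup ↥K) := ha'
  have hb1 : b' ∈ (Q : Subgroup ↥K) := hb'
  rw [← hk, mem_smul_iff, hQ₀] at ha1 hb1
  have h3 : ∀ z ∈ K, Commute (((k⁻¹ * a' * k : ↥K) : X) * ((k⁻¹ * b' * k : ↥K) : X) * ((k⁻¹ * a' * k : ↥K) : X)⁻¹ * ((k⁻¹ * b' * k : ↥K) : X)⁻¹) z :=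
    key _ _ (k⁻¹ * a' * k).2 (k⁻¹ * b' * k).2 ha1 hb1
  have h4 : (k⁻¹ * a' * k) * (k⁻¹ * b' * k) * (k⁻¹ * a' * k)⁻¹ * (k⁻¹ * b' * k)⁻¹ ∈ Subgroup.center ↥K := by
    rw [Subgroup.mem_center_iff]
    intro z
    apply Subtype.ext
    exact ((h3 z z.2).eq).symm
  have h5 : a' * b' * a'⁻¹ * b'⁻¹ ∈ Subgroup.center ↥K := by
    have h6 := (inferInstance : (Subgroup.center ↥K).Normal).conj_mem _ h4 k
    convert h6 using 1
    group
  rw [← map_mul, ← map_mul]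
  apply QuotientGroup.eq.mpr
  have h7 : (a' * b')⁻¹ * (b' * a') ∈ Subgroup.center ↥K := by
    have h6 := (inferInstance : (Subgroup.center ↥K).Normal).conj_mem _ (Subgroup.inv_mem _ h5) (a' * b')⁻¹
    convert h6 using 1
    group
  exact h7


end Cfsg.Agent.S2925
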