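import Cfsg.Statements.S2929
import Cfsg.Agent.Lib.ThreeCycGen

set_option autoImplicit false
open Cfsg

namespace Cfsg.Agent.S2929

open scoped commutatorElement Pointwise
open Subgroup Equiv.Perm Cfsg.Agent.Lib Cfsg.Agent.Lib.ThreeCycGen

/-- Let n ≥ 5 and let H be a subgroup of the symmetric group of degree n whose generalized Fitting subgroup F*(H) is quasisimple. If H contains a Sylow 3-subgroup of the symmetric group, then F*(H) is isomorphic to an alternating group of degree m for some m ∈ {n − 2, n − 1, n}. -/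
theorem result (n : ℕ) (hn : 5 ≤ n) (H : Subgroup (Equiv.Perm (Fin n))) (hF : Cfsg.IsQuasisimple ↥(Cfsg.generalizedFittingSubgroup ↥H)) (hS : ∃ P : Sylow 3 (Equiv.Perm (Fin n)), (P : Subgroup (Equiv.Perm (Fin n))) ≤ H) : ∃ m : ℕ, (m = n - 2 ∨ m = n - 1 ∨ m = n) ∧ Nonempty (↥(Cfsg.generalizedFittingSubgroup ↥H) ≃* ↥(alternatingGroup (Fin m))) := by
  classical
  obtain ⟨P, hPH⟩ := hS
  obtain ⟨Q, X, hQ, hX, hfam⟩ := exists_family n
  obtain ⟨P', hQP'⟩ := hQ.exists_le_sylow
  haveI : Fact (Nat.Prime 3) := ⟨Nat.prime_three⟩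
  obtain ⟨g, hg⟩ := MulAction.exists_smul_eq (Equiv.Perm (Fin n)) P' P
  have hQH : ∀ s ∈ Q, g * s * g⁻¹ ∈ H := by
    intro s hs
    apply hPH
    rw [← hg, Sylow.coe_subgroup_smul]
    have h1 : MulAut.conj g • s ∈ MulAut.conj g • (P' : Subgroup (Equiv.Perm (Fin n))) :=
      Subgroup.smul_mem_pointwise_smul _ _ _ (hQP' hs)
    exact h1
  set F : Subgroup H := generalizedFittingSubgroup H with hFdef
  set L : Subgroup (Equiv.Perm (Fin n)) := F.map H.subtype with hL
  let e : F ≃* L := F.equivMapOfInjective H.subtype H.subtype_injective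
  have hFperf : ⁅F, F⁆ = F := Components.isPerfect_iff'.1 hF.1
  have hperf : ⁅L, L⁆ = L := by rw [hL, ← map_commutator, hFperf]
  have hntF := Components.nontrivial_of_quasisimple hF
  haveI hntL : Nontrivial L := e.symm.toEquiv.nontrivial
  have hne : L ≠ ⊥ := (Subgroup.nontrivial_iff_ne_bot L).1 hntL
  have hLq : IsQuasisimple L := Components.quasisimple_of_surjective hF e.toMonoidHom e.surjective
  have hLH : L ≤ H := map_subtype_le F
  have hFn : F.Normal := by rw [hFdef]; infer_instance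
  have hHL : H ≤ normalizer (L : Set (Equiv.Perm (Fin n))) := by
    intro h hh
    haveI := Fintype.ofFinite L
    refine mem_normalizer_fintype fun x hx => ?_
    obtain ⟨y, hy, rfl⟩ := mem_map.1 hx
    exact mem_map.2 ⟨⟨h, hh⟩ * y * ⟨h, hh⟩⁻¹, hFn.conj_mem y hy _, rfl⟩
  have hsimp : ∀ N : Subgroup (Equiv.Perm (Fin n)), N ≤ L → L ≤ normalizer (N : Set (Equiv.Perm (Fin n))) →
      N ≤ centralizer (L : Set (Equiv.Perm (Fin n))) ∨ N = L := by
    intro N hNL hLN
    haveI : (N.subgroupOf L).Normal := (normal_subgroupOf_iff_le_normalizer hNL).2 hLN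
    rcases Components.normal_le_center_or_eq_top hLq (N.subgroupOf L) with h | h
    · left
      intro x hx
      rw [mem_centralizer_iff]
      intro y hy
      exact congrArg Subtype.val (mem_center_iff.1 (h (show (⟨x, hNL hx⟩ : L) ∈ N.subgroupOf L from hx)) ⟨y, hy⟩)
    · exact Or.inr (le_antisymm hNL (subgroupOf_eq_top.1 h))
  have hC : ∀ s ∈ H, s ∈ centralizer (L : Set (Equiv.Perm (Fin n))) → s ∈ L := by
    intro s hs hsc
    have h1 : (⟨s, hs⟩ : H) ∈ centralizer (F : Set H) := by
      rw [mem_centralizer_iff]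
      intro y hy
      exact Subtype.ext (mem_centralizer_iff.1 hsc y (mem_map_of_mem _ hy))
    exact mem_map.2 ⟨⟨s, hs⟩, Layer.centralizer_genFitting_le h1, rfl⟩
  have key : ∀ s ∈ H, s.IsThreeCycle → s ∈ L ∧ ∃ D : Finset (Fin n), (∀ g ∈ L, ∀ x, x ∉ D → g x = x) ∧
      Nonempty (L ≃* alternatingGroup D) := by
    intro s hs hs3
    have hsn := hHL hs
    have hzn : zpowers s ≤ normalizer (L : Set (Equiv.Perm (Fin n))) := by rw [zpowers_le]; exact hsn
    refine restrict hs3 ?_ hperf hne hsn hsimp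
    have hM : ⁅L, zpowers s⁆ ≤ L := le_normalizer_iff_commutator_le_left.mp hzn
    rcases hsimp ⁅L, zpowers s⁆ hM (normalizer_commutator_ge_left L (zpowers s)) with h | h
    · exfalso
      apply not_mem_centralizer hs3 hperf (hC s hs)
      have h1 := Components.le_centralizer_of_perfect hperf h le_rfl
      rw [mem_centralizer_iff]
      intro x hx
      exact (mem_centralizer_iff.1 (h1 hx) s (mem_zpowers s)).symm
    · exact h
  -- some element of `X`
  have hXne : X.Nonempty := by rw [← Finset.card_pos]; omega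
  obtain ⟨x₀, hx₀⟩ := hXne
  obtain ⟨s₀, hs₀, hs₀3, -⟩ := hfam x₀ hx₀
  have hconj3 : ∀ s : Equiv.Perm (Fin n), s.IsThreeCycle → (g * s * g⁻¹).IsThreeCycle := by
    intro s hs
    rw [← card_support_eq_three_iff, card_support_conj, hs.card_support]
  obtain ⟨-, D, hD, ⟨e'⟩⟩ := key _ (hQH s₀ hs₀) (hconj3 s₀ hs₀3)
  have hXD : X.map g.toEmbedding ⊆ D := by
    intro y hy
    obtain ⟨x, hx, rfl⟩ := Finset.mem_map.1 hy
    obtain ⟨s, hs, hs3, hxs⟩ := hfam x hx
    have h1 := (key _ (hQH s hs) (hconj3 s hs3)).1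
    by_contra hxD
    have h2 := hD _ h1 _ hxD
    apply mem_support.1 hxs
    have h3 : g (s (g⁻¹ (g x))) = g x := h2
    have h4 : g⁻¹ (g x) = x := by simp
    rw [h4] at h3
    exact g.injective h3
  have hcard := Finset.card_le_card hXD
  rw [Finset.card_map] at hcard
  have hDn : D.card ≤ n := by
    have := Finset.card_le_univ D
    simpa using this
  refine ⟨D.card, by omega, ⟨(e.trans e').trans (Equiv.altCongrHom (Fintype.equivFinOfCardEq (by simp)))⟩⟩

end Cfsg.Agent.S2929
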