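import Cfsg.Statements.S2939
import Cfsg.Agent.Lib.SylowChain

set_option autoImplicit false
open Cfsg

namespace Cfsg.Agent.S2939

open Cfsg.Agent.Lib.SylowIn Cfsg.Agent.Lib.SylowChain
open scoped Pointwise

/-- Fusing elements factorised step by step. -/
inductive Fus {G : Type*} [Group G] (p : ℕ) (𝓕 : Set (Subgroup G)) : Sylow p G → Set G → G → Prop
  | base (S : Sylow p G) (A : Set G) (y₀ : G) (h : y₀ ∈ Subgroup.normalizer ((S : Subgroup G) : Set G)) :
      Fus p 𝓕 S A y₀
  | step (S : Sylow p G) (A : Set G) (y g : G) (Y : Subgroup G) (hY : Y ∈ sylowMembers p 𝓕 (S : Subgroup G))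
      (hy : y ∈ Y) (h : conjRight y A ⊆ (S : Set G) ∩ (Y : Set G)) (hg : Fus p 𝓕 S (conjRight y A) g) :
      Fus p 𝓕 S A (y * g)

variable {G : Type*} [Group G]

theorem conjRight_conjRight (g h : G) (A : Set G) : conjRight h (conjRight g A) = conjRight (g * h) A := by
  unfold conjRight
  rw [Set.image_image]
  apply Set.image_congr
  intro a _
  group

theorem conjRight_one (A : Set G) : conjRight (1 : G) A = A := by
  unfold conjRight; simp

theorem fus_iff (p : ℕ) (𝓕 : Set (Subgroup G)) (S : Sylow p G) (A : Set G) (g : G) :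
    Fus p 𝓕 S A g ↔ ∃ (n : ℕ) (Y : Fin n → Subgroup G) (y : Fin n → G) (y₀ : G),
      y₀ ∈ Subgroup.normalizer ((S : Subgroup G) : Set G) ∧
      (∀ i : Fin n, Y i ∈ sylowMembers p 𝓕 (S : Subgroup G) ∧ y i ∈ Y i) ∧
      g = (List.ofFn y).prod * y₀ ∧
      ∀ i : Fin n, conjRight (((List.ofFn y).take (i.val + 1)).prod) A ⊆ (S : Set G) ∩ (Y i : Set G) := by
  constructor
  · intro h
    induction h with
    | base A y₀ h =>
      exact ⟨0, fun i => i.elim0, fun i => i.elim0, y₀, h, fun i => i.elim0, by simp, fun i => i.elim0⟩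
    | step A y g Y hY hy h hg ih =>
      obtain ⟨n, Y', y', y₀, h0, h1, h2, h3⟩ := ih
      refine ⟨n + 1, Fin.cons Y Y', Fin.cons y y', y₀, h0, ?_, ?_, ?_⟩
      · intro i
        refine Fin.cases ?_ ?_ i
        · exact ⟨hY, hy⟩
        · intro j; simpa using h1 j
      · rw [List.ofFn_succ, List.prod_cons]
        simp only [Fin.cons_zero, Fin.cons_succ]
        rw [h2, mul_assoc]
      · intro i
        rw [List.ofFn_succ]
        simp only [Fin.cons_zero, Fin.cons_succ]
        refine Fin.cases ?_ ?_ i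
        · simpa using h
        · intro j
          have h4 := h3 j
          rw [conjRight_conjRight] at h4
          simpa using h4
  · rintro ⟨n, Y, y, y₀, h0, h1, h2, h3⟩
    induction n generalizing A g with
    | zero => 
      subst h2
      simpa using Fus.base (𝓕 := 𝓕) S A y₀ h0
    | succ n ih =>
      rw [List.ofFn_succ, List.prod_cons, mul_assoc] at h2
      subst h2
      refine Fus.step S A (y 0) _ (Y 0) (h1 0).1 (h1 0).2 ?_ ?_
      · have := h3 0
        rw [List.ofFn_succ] at this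
        simpa using this
      · refine ih _ _ (fun i => Y i.succ) (fun i => y i.succ) (fun i => h1 i.succ) rfl ?_
        intro i
        have := h3 i.succ
        rw [List.ofFn_succ] at this
        rw [conjRight_conjRight]
        simpa using this

theorem Fus.conj {p : ℕ} {𝓕 : Set (Subgroup G)} (h𝓕 : IsNormalSet 𝓕) {S : Sylow p G} {A : Set G} {g : G}
    (h : Fus p 𝓕 S A g) (x : G) : Fus p 𝓕 (x⁻¹ • S) (conjRight x A) (x⁻¹ * g * x) := by
  induction h with
  | base A y₀ h =>
    apply Fus.base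
    replace h : y₀ • S = S := Sylow.smul_eq_iff_mem_normalizer.mpr h
    have : (x⁻¹ * y₀ * x) • (x⁻¹ • S) = x⁻¹ • S := by
      rw [smul_smul]
      have : x⁻¹ * y₀ * x * x⁻¹ = x⁻¹ * y₀ := by group
      rw [this, mul_smul, h]
    exact Sylow.smul_eq_iff_mem_normalizer.mp this
  | step A y g Y hY hy h hg ih =>
    have h1 : x⁻¹ * (y * g) * x = (x⁻¹ * y * x) * (x⁻¹ * g * x) := by group
    rw [h1]
    have h2 : conjRight (x⁻¹ * y * x) (conjRight x A) = conjRight x (conjRight y A) := by
      rw [conjRight_conjRight, conjRight_conjRight]; congr 1; group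
    refine Fus.step _ _ _ _ (subgroupConjRight x Y) (sylowMembers_conj h𝓕 hY x) ?_ ?_ ?_
    · rw [mem_conjRight_iff]; convert hy using 1; group
    · rw [h2]
      rintro _ ⟨a, ha, rfl⟩
      obtain ⟨h3, h4⟩ := h ha
      refine ⟨?_, ?_⟩
      · show x⁻¹ * a * x ∈ ((x⁻¹ • S : Sylow p G) : Subgroup G)
        rw [mem_smul_iff]
        have h6 : a ∈ (S : Subgroup G) := h3
        convert h6 using 1; group
      · show x⁻¹ * a * x ∈ subgroupConjRight x Y
        rw [mem_conjRight_iff]
        have h6 : a ∈ Y := h4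
        convert h6 using 1; group
    · rw [h2]; exact ih

theorem fus_of_conn {p : ℕ} {𝓕 : Set (Subgroup G)} (h𝓕 : IsNormalSet 𝓕) {A : Set G} {S T : Sylow p G}
    (h : Conn p 𝓕 A S T) : ∀ g : G, g • S = T → Fus p 𝓕 S A g := by
  unfold Conn at h
  induction h using Relation.ReflTransGen.head_induction_on with
  | refl =>
    intro g hg
    exact Fus.base _ _ _ (Sylow.smul_eq_iff_mem_normalizer.mp hg)
  | @head S S' hR _ ih =>
    intro g hg
    obtain ⟨X, hX1, hX2, x, hx, hxS, hA1, hA2⟩ := hR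
    have h1 : (g * x⁻¹) • S' = T := by rw [← hxS, smul_smul]; simpa using hg
    have h2 := (ih _ h1).conj h𝓕 x
    have h3 : x⁻¹ • S' = S := by rw [← hxS, inv_smul_smul]
    have h4 : x⁻¹ * (g * x⁻¹) * x = x⁻¹ * g := by group
    rw [h3, h4] at h2
    have h5 : g = x * (x⁻¹ * g) := by group
    rw [h5]
    refine Fus.step S A x _ X hX1 hx ?_ h2
    rintro _ ⟨a, ha, rfl⟩
    refine ⟨?_, ?_⟩
    · show x⁻¹ * a * x ∈ (S : Subgroup G)
      rw [← h3, mem_smul_iff]
      have h6 : a ∈ (S' : Subgroup G) := hA1 ha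
      convert h6 using 1; group
    · show x⁻¹ * a * x ∈ X
      exact X.mul_mem (X.mul_mem (X.inv_mem hx) (hA2 ha)) hx

theorem conn_of_fus {p : ℕ} {𝓕 : Set (Subgroup G)} (h𝓕 : IsNormalSet 𝓕) {A : Set G} {S : Sylow p G} {g : G}
    (h : Fus p 𝓕 S A g) : Conn p 𝓕 A S (g • S) := by
  induction h with
  | base A y₀ h =>
    rw [Sylow.smul_eq_iff_mem_normalizer.mpr h]
    exact Relation.ReflTransGen.refl
  | step A y g Y hY hy h hg ih =>
    have h1 := Conn.conj h𝓕 ih y⁻¹
    rw [conjRight_conjRight, mul_inv_cancel, conjRight_one, inv_inv, smul_smul] at h1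
    refine Relation.ReflTransGen.head ?_ h1
    have h2 := sylowMembers_conj h𝓕 hY y⁻¹
    have h3 : subgroupConjRight y⁻¹ Y = Y := by
      ext z
      rw [mem_conjRight_iff, inv_inv]
      constructor
      · intro hz
        have := Y.mul_mem (Y.mul_mem hy hz) (Y.inv_mem hy)
        convert this using 1; group
      · intro hz
        exact Y.mul_mem (Y.mul_mem (Y.inv_mem hy) hz) hy
    rw [h3, inv_inv] at h2
    refine ⟨Y, hY, h2, y, hy, rfl, ?_, ?_⟩
    · intro a ha
      show a ∈ ((y • S : Sylow p G) : Subgroup G)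
      rw [mem_smul_iff]
      exact (h ⟨a, ha, rfl⟩).1
    · intro a ha
      have h4 : y⁻¹ * a * y ∈ Y := (h ⟨a, ha, rfl⟩).2
      have := Y.mul_mem (Y.mul_mem hy h4) (Y.inv_mem hy)
      show a ∈ Y
      convert this using 1; group


/-- Let p be a prime dividing the order of the finite group G and 𝓕 a family of subgroups of G closed under conjugation, with conjugates taken as X^g = g⁻¹Xg. Then 𝓕 controls Sylow p-intersections in G (any two distinct Sylow p-subgroups S and T with S ∩ T ≠ 1 are joined by a chain S = S₀, S₁, …, Sₙ = T of Sylow p-subgroups where, for each i, some member Xᵢ of 𝓕 meets both S_{i-1} and Sᵢ in Sylow p-subgroups of Xᵢ, satisfies S ∩ T ≤ Sᵢ ∩ Xᵢ, and contains an element xᵢ with Sᵢ^{xᵢ} = S_{i-1}) if and only if 𝓕 strongly controls p-fusion in G (whenever A is a subset of a Sylow p-subgroup S, A contains an element other than 1, and A^g ⊆ S, the element g factorises as g = y₁⋯yₙy with y ∈ N_G(S) and each yᵢ in a member Yᵢ of 𝓕 that meets S in a Sylow p-subgroup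 of Yᵢ, with A^{y₁⋯yᵢ} ⊆ S ∩ Yᵢ for each i). -/
theorem result {G : Type*} [Group G] [Finite G] {p : ℕ} [Fact p.Prime] (hdiv : p ∣ Nat.card G) (𝓕 : Set (Subgroup G)) (h𝓕 : Cfsg.IsNormalSet 𝓕) : Cfsg.ControlsSylowIntersections p 𝓕 ↔ Cfsg.FamilyStronglyControlsFusion p 𝓕 := by
  rw [controls_iff]
  unfold Cfsg.FamilyStronglyControlsFusion
  simp only [← fus_iff]
  constructor
  · intro h S A g hA hne hgA
    by_cases hS : g • S = S
    · exact Fus.base _ _ _ (Sylow.smul_eq_iff_mem_normalizer.mp hS)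
    · have hAT : A ⊆ (S : Set G) ∩ ((g • S : Sylow p G) : Set G) := by
        intro a ha
        refine ⟨hA ha, ?_⟩
        show a ∈ ((g • S : Sylow p G) : Subgroup G)
        rw [mem_smul_iff]
        exact hgA ⟨a, ha, rfl⟩
      have h1 : Conn p 𝓕 ((S : Set G) ∩ ((g • S : Sylow p G) : Set G)) S (g • S) := by
        apply h _ _ (Ne.symm hS)
        intro hbot
        obtain ⟨a, ha, ha1⟩ := hne
        apply ha1
        have h2 : a ∈ (S : Subgroup G) ⊓ ((g • S : Sylow p G) : Subgroup G) := hAT ha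
        rw [hbot, Subgroup.mem_bot] at h2
        exact h2
      exact fus_of_conn h𝓕 (h1.mono le_rfl hAT) g rfl
  · intro h S T hST hbot
    obtain ⟨g, rfl⟩ := MulAction.exists_smul_eq G S T
    apply conn_of_fus h𝓕
    apply h
    · exact Set.inter_subset_left
    · obtain ⟨a, ha⟩ := Subgroup.ne_bot_iff_exists_ne_one.mp hbot
      exact ⟨a.1, a.2, fun h => ha (Subtype.ext h)⟩
    · rintro _ ⟨a, ⟨-, ha⟩, rfl⟩
      have h2 : a ∈ ((g • S : Sylow p G) : Subgroup G) := ha
      rw [mem_smul_iff] at h2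
      exact h2


end Cfsg.Agent.S2939
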