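import Cfsg.Statements.S2940
import Cfsg.Agent.Lib.SylowIn

set_option autoImplicit false
open Cfsg

namespace Cfsg.Agent.S2940

open Cfsg.Agent.Lib.SylowIn
open scoped Pointwise


/-- Let S be a Sylow p-subgroup of the finite group G and G₁, G₂ subgroups containing S with G = G₁G₂. Then for every g ∈ G there is a Sylow p-subgroup U of G with S ∩ S^g ≤ U ≤ G₁ ∩ G₂^g (conjugates taken as X^g = g⁻¹Xg). -/
theorem result {G : Type*} [Group G] [Finite G] {p : ℕ} [Fact p.Prime] (S : Sylow p G) (G₁ G₂ : Subgroup G) (h1 : (S : Subgroup G) ≤ G₁) (h2 : (S : Subgroup G) ≤ G₂) (hfact : ∀ g : G, ∃ g₁ ∈ G₁, ∃ g₂ ∈ G₂, g = g₁ * g₂) (g : G) : ∃ U : Sylow p G, (S : Subgroup G) ⊓ Cfsg.subgroupConjRight g (S : Subgroup G) ≤ (U : Subgroup G) ∧ (U : Subgroup G) ≤ G₁ ⊓ Cfsg.subgroupConjRight g G₂ := by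
  obtain ⟨g₁, hg₁, g₂, hg₂, hg⟩ := hfact g⁻¹
  -- D = G₁ ∩ G₂^g contains the Sylow subgroup g₁ S g₁⁻¹
  have hD : ((g₁ • S : Sylow p G) : Subgroup G) ≤ G₁ ⊓ Cfsg.subgroupConjRight g G₂ := by
    intro x hx
    rw [mem_smul_iff] at hx
    refine ⟨?_, ?_⟩
    · show x ∈ G₁
      have := G₁.mul_mem (G₁.mul_mem hg₁ (h1 hx)) (G₁.inv_mem hg₁)
      simpa [mul_assoc] using this
    · show x ∈ Cfsg.subgroupConjRight g G₂
      rw [mem_conjRight_iff]
      have h3 : g = g₂⁻¹ * g₁⁻¹ := by rw [← inv_inv g, hg]; group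
      have := G₂.mul_mem (G₂.mul_mem (G₂.inv_mem hg₂) (h2 hx)) hg₂
      rw [h3]
      convert this using 1
      group
  have hR : IsPGroup p ↥((S : Subgroup G) ⊓ Cfsg.subgroupConjRight g (S : Subgroup G)) :=
    S.isPGroup'.to_le inf_le_left
  have hRD : (S : Subgroup G) ⊓ Cfsg.subgroupConjRight g (S : Subgroup G) ≤ G₁ ⊓ Cfsg.subgroupConjRight g G₂ := by
    refine inf_le_inf h1 ?_
    intro x hx
    rw [mem_conjRight_iff] at hx ⊢
    exact h2 hx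
  obtain ⟨d, hd, hle⟩ := exists_le_smul (g₁ • S) hD hR hRD
  refine ⟨d • g₁ • S, hle, ?_⟩
  intro x hx
  rw [mem_smul_iff] at hx
  have h3 := hD hx
  have h4 := Subgroup.mul_mem _ (Subgroup.mul_mem _ hd h3) (Subgroup.inv_mem _ hd)
  simpa [mul_assoc] using h4


end Cfsg.Agent.S2940
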