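import Cfsg.Statements.S2955
import Cfsg.Agent.Lib.SylowChain

set_option autoImplicit false
open Cfsg

namespace Cfsg.Agent.S2955

open Cfsg.Agent.Lib.SylowIn Cfsg.Agent.Lib.SylowChain
open scoped Pointwise


/-- Let p be a prime dividing the order of the finite group G and 𝓕 a conjugation-closed family of subgroups that controls Sylow p-intersections in G. Suppose the Sylow p-subgroups of G are chain-connected: any two of them are joined by a chain of Sylow p-subgroups, consecutive ones distinct with nontrivial intersection, all containing the intersection of the two ends (equivalently, the graph on the Sylow p-subgroups whose edges are the distinct pairs meeting nontrivially is connected). Then for every Sylow p-subgroup S, G is generated by N_G(S) together with the members of 𝓕 that meet S in a Sylow p-subgroup of themselves. -/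
theorem result {G : Type*} [Group G] [Finite G] (p : ℕ) [Fact p.Prime] (hdiv : p ∣ Nat.card G)
    (𝓕 : Set (Subgroup G)) (h𝓕 : Cfsg.IsNormalSet 𝓕) (hc : Cfsg.ControlsSylowIntersections p 𝓕)
    (hconn : Cfsg.IsSylowChainConnected p G) (S : Sylow p G) :
    (⨆ X ∈ Cfsg.sylowMembers p 𝓕 (S : Subgroup G), X) ⊔ Subgroup.normalizer ((S : Subgroup G) : Set G) = ⊤ := by
  set H : Subgroup G := (⨆ X ∈ Cfsg.sylowMembers p 𝓕 (S : Subgroup G), X) ⊔ Subgroup.normalizer ((S : Subgroup G) : Set G) with hH
  -- every Sylow subgroup reached from `S` is `h S h⁻¹` with `h ∈ H`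
  have key : ∀ (A : Set G) (T U : Sylow p G), Conn p 𝓕 A T U → (∃ h ∈ H, h • S = T) → ∃ h ∈ H, h • S = U := by
    intro A T U hTU
    induction hTU with
    | refl => exact fun h => h
    | tail _ hR ih =>
      intro h0
      obtain ⟨h, hh, rfl⟩ := ih h0
      obtain ⟨X, hX1, -, x, hx, rfl, -, -⟩ := hR
      refine ⟨x * h, ?_, by rw [mul_smul]⟩
      have h1 := sylowMembers_conj h𝓕 hX1 h
      rw [inv_smul_smul] at h1
      have h2 : Cfsg.subgroupConjRight h X ≤ H :=
        (le_iSup₂_of_le (f := fun X (_ : X ∈ Cfsg.sylowMembers p 𝓕 (S : Subgroup G)) => X) _ h1 le_rfl).trans le_sup_left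
      have h3 : h⁻¹ * x * h ∈ H := by
        apply h2
        rw [mem_conjRight_iff]
        convert hx using 1
        group
      have h4 := H.mul_mem hh h3
      convert h4 using 1
      group
  rw [controls_iff] at hc
  rw [eq_top_iff]
  intro g _
  obtain ⟨n, c, h0, hl, -, hcc⟩ := hconn S (g • S)
  have hstep : ∀ i : Fin (n + 1), ∃ h ∈ H, h • S = c i := by
    intro i
    induction i using Fin.induction with
    | zero => exact ⟨1, H.one_mem, by rw [one_smul, h0]⟩
    | succ i ih =>
      obtain ⟨h1, h2⟩ := hcc i
      exact key _ _ _ (hc _ _ h1 h2) ih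
  obtain ⟨h, hh, hhS⟩ := hstep (Fin.last n)
  rw [hl] at hhS
  have h5 : g⁻¹ * h ∈ Subgroup.normalizer ((S : Subgroup G) : Set G) := by
    have h6 : (g⁻¹ * h) • S = S := by rw [mul_smul, hhS, inv_smul_smul]
    exact Sylow.smul_eq_iff_mem_normalizer.mp h6
  have h6 : g⁻¹ * h ∈ H := (le_sup_right : _ ≤ H) h5
  have h7 := H.mul_mem hh (H.inv_mem h6)
  convert h7 using 1
  group


end Cfsg.Agent.S2955
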