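import Cfsg.Statements.S2956
import Cfsg.Agent.Lib.FunctorChain

set_option autoImplicit false
open Cfsg

namespace Cfsg.Agent.S2956

open Cfsg.Agent.Lib.SylowIn Cfsg.Agent.Lib.SylowChain Cfsg.Agent.Lib.SylAmb Cfsg.Agent.Lib.FunctorChain
open scoped Pointwise

variable {G : Type*} [Group G] [Finite G]

theorem exists_sylow_ge {p : ℕ} [Fact p.Prime] {A N : Subgroup G} (hA : IsSyl p A N) :
    ∃ S : Sylow p G, A ≤ (S : Subgroup G) := hA.2.1.exists_le_sylow

/-- the inductive step: two Sylow subgroups of a maximal `p`-local subgroup -/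
theorem conn_of_maximal {p : ℕ} [Fact p.Prime] {f : Subgroup G → Set (Subgroup G)}
    (hf : Cfsg.IsNormalizerFunctor p f)
    (hf1 : ∀ P : Subgroup G, IsPGroup p ↥P → P ≠ ⊥ → ∀ F ∈ f P, F ≠ ⊥)
    {𝓤 : Set (Subgroup G)} (h𝓕 : Cfsg.functorFamily p f ⊤ ⊆ 𝓤)
    (h𝓕' : ∀ M, Cfsg.IsMaximalPLocal p M → ¬ Cfsg.IsFunctorRegular p f M → M ∈ 𝓤)
    {D : Subgroup G} (hD : D ≠ ⊥)
    (hH : ∀ S T : Sylow p G, ∀ R : Subgroup G, R ≤ (S : Subgroup G) → R ≤ (T : Subgroup G) → D ≤ R →
      Nat.card ↥D < Nat.card ↥R → Conn p 𝓤 (D : Set G) S T)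
    {M : Subgroup G} (hM : Cfsg.IsMaximalPLocal p M) {A B : Subgroup G} (hA : IsSyl p A M) (hB : IsSyl p B M)
    (hDA : D ≤ A) (hDB : D ≤ B) (hcard : Nat.card ↥D < Nat.card ↥A)
    (IH : ∀ (N A' B' : Subgroup G), Cfsg.IsPLocal p N → IsSyl p A' N → IsSyl p B' N → D ≤ A' → D ≤ B' →
      Nat.card ↥A < Nat.card ↥A' → ∀ S T : Sylow p G, A' ≤ (S : Subgroup G) → B' ≤ (T : Subgroup G) →
      Conn p 𝓤 (D : Set G) S T) :
    ∀ S T : Sylow p G, A ≤ (S : Subgroup G) → B ≤ (T : Subgroup G) → Conn p 𝓤 (D : Set G) S T := by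
  intro S T hAS hBT
  by_cases hreg : Cfsg.IsFunctorRegular p f M
  · -- regular case
    have hAB : A ⊓ B ≠ ⊥ := by
      intro h
      apply hD
      rw [← le_bot_iff, ← h]
      exact le_inf hDA hDB
    have hm := mconn_of_regular hf hreg hA hB hAB
    have key : ∀ C : Subgroup G, MConn p f M (A ⊓ B) A C → ∀ U : Sylow p G, C ≤ (U : Subgroup G) →
        Conn p 𝓤 (D : Set G) S U := by
      intro C hC
      induction hC with
      | refl _ _ =>
        intro U hU
        exact hH S U A hAS hU hDA hcard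
      | step C hC P F hP hF x hx hC1 hDC ih =>
        intro U hU
        have hCM := hC.isSyl
        have hDABC : D ≤ C := (le_inf hDA hDB).trans hCM.2
        have hDABC' : D ≤ C.map (MulAut.conj x).toMonoidHom := (le_inf hDA hDB).trans hDC
        have hcC : Nat.card ↥C = Nat.card ↥A := by rw [hCM.1.card_eq, hA.card_eq]
        have hcC' : Nat.card ↥(C.map (MulAut.conj x).toMonoidHom) = Nat.card ↥A := by
          rw [Subgroup.card_map_of_injective (MulAut.conj x).injective, hcC]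
        have hcP : Nat.card ↥P = Nat.card ↥A := by rw [hP.card_eq, hA.card_eq]
        have hPne : P ≠ ⊥ := by
          rintro rfl
          rw [Subgroup.card_bot] at hcP
          have : 0 < Nat.card ↥D := Nat.card_pos
          omega
        have hC'1 : C.map (MulAut.conj x).toMonoidHom ≤ M ⊓ Subgroup.normalizer (F : Set G) := by
          rw [← map_conj_eq_of_mem hx]
          exact Subgroup.map_mono hC1
        have hPF := (hf P hP.2.1).1 F hF
        by_cases hPs : IsSyl p P ⊤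
        · -- the Sylow subgroups of `M` are Sylow in `G`
          have hCs : IsSyl p C ⊤ := isSyl_of_card_ge hPs hCM.1.2.1 le_top (by rw [hcP, hcC])
          obtain ⟨V, hV⟩ := hCs.exists_sylow_top
          have h1 := ih V hV.ge
          refine Conn.trans h1 ?_
          have hxV : x • V = U := by
            apply Sylow.ext
            rw [coe_smul_eq_map, hV]
            have hCs' : IsSyl p (C.map (MulAut.conj x).toMonoidHom) ⊤ :=
              isSyl_of_card_ge hPs (hCM.1.2.1.map _) le_top (by rw [hcP, hcC'])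
            exact hCs'.eq_of_le U.isPGroup' le_top hU
          have hUeq : (U : Subgroup G) = C.map (MulAut.conj x).toMonoidHom := by
            rw [← hxV, coe_smul_eq_map, hV]
          apply Relation.ReflTransGen.single
          have hmem : (⊤ : Subgroup G) ⊓ Subgroup.normalizer (F : Set G) ∈ 𝓤 :=
            h𝓕 (mem_functorFamily_iff.mpr ⟨P, hPs, F, hF, rfl⟩)
          refine ⟨⊤ ⊓ Subgroup.normalizer (F : Set G), ?_, ?_, x, ⟨trivial, hx.2⟩, hxV, ?_, ?_⟩
          · rw [mem_sylowMembers_iff]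
            refine ⟨hmem, ?_⟩
            have hle : (V : Subgroup G) ≤ ⊤ ⊓ Subgroup.normalizer (F : Set G) := by
              rw [hV]; exact le_inf le_top (hC1.trans inf_le_right)
            rw [inf_eq_left.mpr hle]
            exact isSyl_coe V hle
          · rw [mem_sylowMembers_iff]
            refine ⟨hmem, ?_⟩
            have hle : (U : Subgroup G) ≤ ⊤ ⊓ Subgroup.normalizer (F : Set G) := by
              rw [hUeq]; exact le_inf le_top (hC'1.trans inf_le_right)
            rw [inf_eq_left.mpr hle]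
            exact isSyl_coe U hle
          · intro y hy
            show y ∈ (U : Subgroup G)
            rw [hUeq]; exact hDABC' hy
          · intro y hy
            exact ⟨trivial, (hC'1 (hDABC' hy)).2⟩
        · -- go up to `N_G(F)`
          have hFne : F ≠ ⊥ := hf1 P hP.2.1 hPne F hF
          have hFp : IsPGroup p ↥F := hP.2.1.to_le hPF.1
          have hloc : Cfsg.IsPLocal p (Subgroup.normalizer (F : Set G)) := ⟨F, hFp, hFne, rfl⟩
          obtain ⟨Q₁, hQ₁, hQ₁s⟩ := exists_isSyl_ge hCM.1.2.1 (hC1.trans inf_le_right)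
          obtain ⟨Q₂, hQ₂, hQ₂s⟩ := exists_isSyl_ge (hCM.1.2.1.map (MulAut.conj x).toMonoidHom) (hC'1.trans inf_le_right)
          have hbig : Nat.card ↥A < Nat.card ↥Q₁ := by
            obtain ⟨P', hP'⟩ := exists_sylow_ge hP
            have hlt : P < (P' : Subgroup G) := by
              refine lt_of_le_of_ne hP' ?_
              intro heq
              apply hPs
              rw [heq]
              exact isSyl_coe P' le_top
            have h2 := lt_inf_normalizer P'.isPGroup' hlt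
            have h3 : Nat.card ↥P < Nat.card ↥((P' : Subgroup G) ⊓ Subgroup.normalizer (P : Set G)) :=
              Set.Finite.card_lt_card (Set.toFinite _) (SetLike.coe_ssubset_coe.mpr h2)
            have h4 := hQ₁s.card_le (P'.isPGroup'.to_le inf_le_left) (inf_le_right.trans hPF.2)
            omega
          obtain ⟨U₁, hU₁⟩ := exists_sylow_ge hQ₁s
          obtain ⟨U₂, hU₂⟩ := exists_sylow_ge hQ₂s
          have h5 := ih U₁ (hQ₁.trans hU₁)
          have h6 := IH _ Q₁ Q₂ hloc hQ₁s hQ₂s (hDABC.trans hQ₁) (hDABC'.trans hQ₂) hbig U₁ U₂ hU₁ hU₂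
          have h7 := hH U₂ U _ (hQ₂.trans hU₂) hU hDABC' (by omega)
          exact (h5.trans h6).trans h7
    exact key B hm T hBT
  · -- singular case
    obtain ⟨x, hx, hxB⟩ := hA.exists_conj hB
    have hmem := h𝓕' M hM hreg
    have hBx : B ≤ ((x • S : Sylow p G) : Subgroup G) := by
      rw [coe_smul_eq_map, ← hxB]
      exact Subgroup.map_mono hAS
    have hcB : Nat.card ↥B = Nat.card ↥A := by rw [hA.card_eq, hB.card_eq]
    have h1 := hH (x • S) T B hBx hBT hDB (by omega)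
    refine Conn.trans (Relation.ReflTransGen.single ?_) h1
    have haux : ∀ (U : Sylow p G) (C : Subgroup G), C ≤ (U : Subgroup G) → IsSyl p C M → IsSyl p ((U : Subgroup G) ⊓ M) M := by
      intro U C hCU hC
      have := hC.eq_of_le (R := (U : Subgroup G) ⊓ M) (U.isPGroup'.to_le inf_le_left) inf_le_right (le_inf hCU hC.1)
      rw [← this]; exact hC
    refine ⟨M, ?_, ?_, x, hx, rfl, ?_, ?_⟩
    · rw [mem_sylowMembers_iff]; exact ⟨hmem, haux S A hAS hA⟩
    · rw [mem_sylowMembers_iff]; exact ⟨hmem, haux _ B hBx hB⟩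
    · intro y hy; exact hBx (hDB hy)
    · intro y hy; exact hB.1 (hDB hy)

theorem conn_of_local {p : ℕ} [Fact p.Prime] {f : Subgroup G → Set (Subgroup G)}
    (hf : Cfsg.IsNormalizerFunctor p f)
    (hf1 : ∀ P : Subgroup G, IsPGroup p ↥P → P ≠ ⊥ → ∀ F ∈ f P, F ≠ ⊥)
    {𝓤 : Set (Subgroup G)} (h𝓕 : Cfsg.functorFamily p f ⊤ ⊆ 𝓤)
    (h𝓕' : ∀ M, Cfsg.IsMaximalPLocal p M → ¬ Cfsg.IsFunctorRegular p f M → M ∈ 𝓤)
    {D : Subgroup G} (hD : D ≠ ⊥)
    (hH : ∀ S T : Sylow p G, ∀ R : Subgroup G, R ≤ (S : Subgroup G) → R ≤ (T : Subgroup G) → D ≤ R →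
      Nat.card ↥D < Nat.card ↥R → Conn p 𝓤 (D : Set G) S T) (n : ℕ) :
    ∀ (N A B : Subgroup G), Cfsg.IsPLocal p N → IsSyl p A N → IsSyl p B N → D ≤ A → D ≤ B →
      Nat.card ↥D < Nat.card ↥A → Nat.card G - Nat.card ↥A = n →
      ∀ S T : Sylow p G, A ≤ (S : Subgroup G) → B ≤ (T : Subgroup G) → Conn p 𝓤 (D : Set G) S T := by
  induction n using Nat.strong_induction_on with
  | _ n ihn =>
  intro N A B hN hA hB hDA hDB hcard hn S T hAS hBT
  obtain ⟨M, hNM, hMmax⟩ := (Set.toFinite {M : Subgroup G | Cfsg.IsPLocal p M}).exists_le_maximal hN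
  have hM : Cfsg.IsMaximalPLocal p M := ⟨hMmax.prop, fun N' hN' hMN' => (hMmax.eq_of_le hN' hMN').symm⟩
  obtain ⟨A', hAA', hA'⟩ := exists_isSyl_ge hA.2.1 (hA.1.trans hNM)
  obtain ⟨B', hBB', hB'⟩ := exists_isSyl_ge hB.2.1 (hB.1.trans hNM)
  obtain ⟨S', hS'⟩ := exists_sylow_ge hA'
  obtain ⟨T', hT'⟩ := exists_sylow_ge hB'
  have hcB : Nat.card ↥B = Nat.card ↥A := by rw [hA.card_eq, hB.card_eq]
  have h1 := hH S S' A hAS (hAA'.trans hS') hDA hcard
  have h2 := hH T' T B (hBB'.trans hT') hBT hDB (by omega)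
  refine (h1.trans ?_).trans h2
  have hcA' : Nat.card ↥A ≤ Nat.card ↥A' := hA'.card_le hA.2.1 (hA.1.trans hNM)
  apply conn_of_maximal hf hf1 h𝓕 h𝓕' hD hH hM hA' hB' (hDA.trans hAA') (hDB.trans hBB') (by omega)
  · intro N₁ A₁ B₁ hN₁ hA₁ hB₁ hDA₁ hDB₁ hc₁ S₁ T₁ hS₁ hT₁
    have hle : Nat.card ↥A₁ ≤ Nat.card G := Subgroup.card_le_card_group A₁
    exact ihn (Nat.card G - Nat.card ↥A₁) (by omega) N₁ A₁ B₁ hN₁ hA₁ hB₁ hDA₁ hDB₁ (by omega) rfl S₁ T₁ hS₁ hT₁
  · exact hS'
  · exact hT'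


/-- Let p be a prime dividing the order of the finite group G, and f an assignment to every p-subgroup P of a set f(P) of subgroups of P, each normalized by N_G(P), compatible with conjugation, such that for P ≠ 1 the members of f(P) are nontrivial. Let 𝓕 be the family of the normalizers N_G(F) of the members F of f(S) over the Sylow p-subgroups S of G, and 𝓕' the family of the maximal p-local subgroups M of G that are singular for f (the corresponding family of normalizers inside M does not control Sylow p-intersections in M). Then 𝓕 ∪ 𝓕' controls Sylow p-intersections in G. -/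
theorem result {G : Type*} [Group G] [Finite G] (p : ℕ) [Fact p.Prime] (hdiv : p ∣ Nat.card G)
    (f : Subgroup G → Set (Subgroup G)) (hf : Cfsg.IsNormalizerFunctor p f)
    (hf1 : ∀ P : Subgroup G, IsPGroup p ↥P → P ≠ ⊥ → ∀ F ∈ f P, F ≠ ⊥)
    (𝓕 𝓕' : Set (Subgroup G)) (h𝓕 : 𝓕 = Cfsg.functorFamily p f ⊤)
    (h𝓕' : 𝓕' = {M | Cfsg.IsMaximalPLocal p M ∧ ¬ Cfsg.IsFunctorRegular p f M}) :
    Cfsg.ControlsSylowIntersections p (𝓕 ∪ 𝓕') := by
  subst h𝓕 h𝓕'
  rw [controls_iff]
  have key : ∀ n : ℕ, ∀ S T : Sylow p G, S ≠ T → (S : Subgroup G) ⊓ (T : Subgroup G) ≠ ⊥ →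
      Nat.card G - Nat.card ↥((S : Subgroup G) ⊓ (T : Subgroup G)) = n →
      Conn p (Cfsg.functorFamily p f ⊤ ∪ {M | Cfsg.IsMaximalPLocal p M ∧ ¬ Cfsg.IsFunctorRegular p f M})
        (((S : Subgroup G) ⊓ (T : Subgroup G) : Subgroup G) : Set G) S T := by
    intro n
    induction n using Nat.strong_induction_on with
    | _ n ihn =>
    intro S T hne hbot hn
    set D : Subgroup G := (S : Subgroup G) ⊓ (T : Subgroup G) with hDdef
    have hH : ∀ S₁ T₁ : Sylow p G, ∀ R : Subgroup G, R ≤ (S₁ : Subgroup G) → R ≤ (T₁ : Subgroup G) → D ≤ R →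
        Nat.card ↥D < Nat.card ↥R → Conn p (Cfsg.functorFamily p f ⊤ ∪ {M | Cfsg.IsMaximalPLocal p M ∧ ¬ Cfsg.IsFunctorRegular p f M})
          (D : Set G) S₁ T₁ := by
      intro S₁ T₁ R hR1 hR2 hDR hcard
      by_cases heq : S₁ = T₁
      · subst heq; exact Relation.ReflTransGen.refl
      · have hR3 : R ≤ (S₁ : Subgroup G) ⊓ (T₁ : Subgroup G) := le_inf hR1 hR2
        have hc : Nat.card ↥R ≤ Nat.card ↥((S₁ : Subgroup G) ⊓ (T₁ : Subgroup G)) :=
          Nat.le_of_dvd Nat.card_pos (Subgroup.card_dvd_of_le hR3)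
        have hle : Nat.card ↥((S₁ : Subgroup G) ⊓ (T₁ : Subgroup G)) ≤ Nat.card G := Subgroup.card_le_card_group _
        have h1 := ihn (Nat.card G - Nat.card ↥((S₁ : Subgroup G) ⊓ (T₁ : Subgroup G))) (by omega) S₁ T₁ heq
          (fun h => hbot (le_bot_iff.mp (h ▸ hDR.trans hR3))) rfl
        exact h1.mono le_rfl (hDR.trans hR3)
    have hDp : IsPGroup p ↥D := S.isPGroup'.to_le inf_le_left
    have hloc : Cfsg.IsPLocal p (Subgroup.normalizer (D : Set G)) := ⟨D, hDp, hbot, rfl⟩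
    have hDS : D < (S : Subgroup G) := by
      refine lt_of_le_of_ne inf_le_left ?_
      intro h
      have : (S : Subgroup G) ≤ (T : Subgroup G) := by rw [← h]; exact inf_le_right
      exact hne (Sylow.ext (S.is_maximal' T.isPGroup' this).symm)
    have hDT : D < (T : Subgroup G) := by
      refine lt_of_le_of_ne inf_le_right ?_
      intro h
      have : (T : Subgroup G) ≤ (S : Subgroup G) := by rw [← h]; exact inf_le_left
      exact hne (Sylow.ext (T.is_maximal' S.isPGroup' this))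
    have h1 := lt_inf_normalizer S.isPGroup' hDS
    have h2 := lt_inf_normalizer T.isPGroup' hDT
    obtain ⟨A, hA1, hA⟩ := exists_isSyl_ge (p := p) (S.isPGroup'.to_le inf_le_left : IsPGroup p ↥((S : Subgroup G) ⊓ Subgroup.normalizer (D : Set G))) inf_le_right
    obtain ⟨B, hB1, hB⟩ := exists_isSyl_ge (p := p) (T.isPGroup'.to_le inf_le_left : IsPGroup p ↥((T : Subgroup G) ⊓ Subgroup.normalizer (D : Set G))) inf_le_right
    obtain ⟨S', hS'⟩ := exists_sylow_ge hA
    obtain ⟨T', hT'⟩ := exists_sylow_ge hB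
    have hc1 : Nat.card ↥D < Nat.card ↥((S : Subgroup G) ⊓ Subgroup.normalizer (D : Set G)) :=
      Set.Finite.card_lt_card (Set.toFinite _) (SetLike.coe_ssubset_coe.mpr h1)
    have hc2 : Nat.card ↥D < Nat.card ↥((T : Subgroup G) ⊓ Subgroup.normalizer (D : Set G)) :=
      Set.Finite.card_lt_card (Set.toFinite _) (SetLike.coe_ssubset_coe.mpr h2)
    have hc3 : Nat.card ↥((S : Subgroup G) ⊓ Subgroup.normalizer (D : Set G)) ≤ Nat.card ↥A :=
      Nat.le_of_dvd Nat.card_pos (Subgroup.card_dvd_of_le hA1)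
    have h3 := hH S S' _ inf_le_left (hA1.trans hS') h1.le hc1
    have h4 := hH T' T _ (hB1.trans hT') inf_le_left h2.le hc2
    have h5 := conn_of_local hf hf1 (𝓤 := Cfsg.functorFamily p f ⊤ ∪ {M | Cfsg.IsMaximalPLocal p M ∧ ¬ Cfsg.IsFunctorRegular p f M})
      Set.subset_union_left (fun M hM hM' => Or.inr ⟨hM, hM'⟩) hbot hH _ _ A B hloc hA hB (h1.le.trans hA1)
      (h2.le.trans hB1) (by omega) rfl S' T' hS' hT'
    exact (h3.trans h5).trans h4
  intro S T hne hbot
  exact key _ S T hne hbot rfl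


end Cfsg.Agent.S2956
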