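import Cfsg.Statements.S2957
import Cfsg.Agent.Lib.FunctorChain
import Cfsg.Agent.S2940

set_option autoImplicit false
open Cfsg

namespace Cfsg.Agent.S2957

open Cfsg.Agent.Lib.SylowIn Cfsg.Agent.Lib.SylowChain Cfsg.Agent.Lib.SylAmb Cfsg.Agent.Lib.FunctorChain
open scoped Pointwise


/-- Let p be a prime dividing the order of the finite group G, f an equivariant assignment of a set of subgroups f(P) of P to every p-subgroup P, each normalized by N_G(P), and S a Sylow p-subgroup. If G = G₁G₂ for subgroups G₁, G₂ both containing S and both regular for f (in each Gᵢ, the family of normalizers in Gᵢ of the members of f(P), P a Sylow p-subgroup of Gᵢ, controls Sylow p-intersections), then G itself is regular for f. -/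
theorem result {G : Type*} [Group G] [Finite G] (p : ℕ) [Fact p.Prime] (hdiv : p ∣ Nat.card G)
    (f : Subgroup G → Set (Subgroup G)) (hf : Cfsg.IsNormalizerFunctor p f) (S : Sylow p G)
    (G₁ G₂ : Subgroup G) (h₁ : (S : Subgroup G) ≤ G₁) (h₂ : (S : Subgroup G) ≤ G₂)
    (hprod : ∀ g : G, ∃ g₁ ∈ G₁, ∃ g₂ ∈ G₂, g = g₁ * g₂)
    (hr₁ : Cfsg.IsFunctorRegular p f G₁) (hr₂ : Cfsg.IsFunctorRegular p f G₂) :
    Cfsg.IsFunctorRegular p f ⊤ := by
  apply regular_top_of_controls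
  rw [controls_iff]
  -- chains inside a regular subgroup containing Sylow subgroups
  have key : ∀ M : Subgroup G, Cfsg.IsFunctorRegular p f M → ∀ U V : Sylow p G, (U : Subgroup G) ≤ M →
      (V : Subgroup G) ≤ M → (U : Subgroup G) ⊓ (V : Subgroup G) ≠ ⊥ →
      Conn p (Cfsg.functorFamily p f ⊤) (((U : Subgroup G) ⊓ (V : Subgroup G) : Subgroup G) : Set G) U V := by
    intro M hM U V hU hV hbot
    exact conn_of_mconn hf (mconn_of_regular hf hM (isSyl_coe U hU) (isSyl_coe V hV) hbot) U V rfl rfl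
  have hnorm := isNormalSet_functorFamily_top hf
  intro T₁ T₂ hne hbot
  obtain ⟨g₁, rfl⟩ := MulAction.exists_smul_eq G S T₁
  obtain ⟨g₂, rfl⟩ := MulAction.exists_smul_eq G S T₂
  -- reduce to T₁ = S by conjugation
  set g : G := g₂⁻¹ * g₁ with hg
  obtain ⟨U, hU1, hU2⟩ := Cfsg.Agent.S2940.result S G₁ G₂ h₁ h₂ hprod g
  have hT : Cfsg.subgroupConjRight g (S : Subgroup G) = ((g⁻¹ • S : Sylow p G) : Subgroup G) := conjRight_sylow S g
  rw [hT] at hU1
  have hbot' : (S : Subgroup G) ⊓ ((g⁻¹ • S : Sylow p G) : Subgroup G) ≠ ⊥ := by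
    intro h
    apply hbot
    have h1 : ((g₁ • S : Sylow p G) : Subgroup G) ⊓ ((g₂ • S : Sylow p G) : Subgroup G) =
        ((S : Subgroup G) ⊓ ((g⁻¹ • S : Sylow p G) : Subgroup G)).map (MulAut.conj g₁).toMonoidHom := by
      rw [Subgroup.map_inf_eq _ _ _ (MulAut.conj g₁).injective, ← coe_smul_eq_map, ← coe_smul_eq_map, smul_smul]
      congr 3
      rw [hg]; group
    rw [h1, h, Subgroup.map_bot]
  have hUbot : (S : Subgroup G) ⊓ (U : Subgroup G) ≠ ⊥ := by
    intro h
    exact hbot' (le_bot_iff.mp (h ▸ le_inf inf_le_left hU1))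
  have hc1 := key G₁ hr₁ S U h₁ (hU2.trans inf_le_left) hUbot
  -- conjugate the pair (U, S^g) by g⁻¹
  have hUG₂ : ((g • U : Sylow p G) : Subgroup G) ≤ G₂ := by
    intro x hx
    rw [mem_smul_iff] at hx
    have h3 := (mem_conjRight_iff _ _ _).mp (hU2 hx).2
    convert h3 using 1
    group
  have hUbot2 : ((g • U : Sylow p G) : Subgroup G) ⊓ (S : Subgroup G) ≠ ⊥ := by
    intro h
    apply hbot'
    rw [← le_bot_iff]
    intro x hx
    have h3 : g * x * g⁻¹ ∈ ((g • U : Sylow p G) : Subgroup G) ⊓ (S : Subgroup G) := by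
      refine ⟨?_, ?_⟩
      · show g * x * g⁻¹ ∈ ((g • U : Sylow p G) : Subgroup G)
        rw [mem_smul_iff]
        have := hU1 hx
        convert this using 1
        group
      · show g * x * g⁻¹ ∈ (S : Subgroup G)
        have := hx.2
        have h4 : x ∈ ((g⁻¹ • S : Sylow p G) : Subgroup G) := hx.2
        rw [mem_smul_iff, inv_inv] at h4
        exact h4
    rw [h, Subgroup.mem_bot] at h3
    rw [Subgroup.mem_bot]
    have : x = g⁻¹ * (g * x * g⁻¹) * g := by group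
    rw [this, h3]; group
  have hc2 := key G₂ hr₂ (g • U) S hUG₂ h₂ hUbot2
  have hc3 := Conn.conj hnorm hc2 g
  rw [inv_smul_smul] at hc3
  have hc4 : Conn p (Cfsg.functorFamily p f ⊤) ((S : Set G) ∩ ((g⁻¹ • S : Sylow p G) : Set G)) S (g⁻¹ • S) := by
    refine Conn.trans (hc1.mono le_rfl ?_) (hc3.mono le_rfl ?_)
    · rintro x ⟨hx1, hx2⟩
      exact ⟨hx1, hU1 ⟨hx1, hx2⟩⟩
    · rintro x ⟨hx1, hx2⟩
      refine ⟨g * x * g⁻¹, ⟨?_, ?_⟩, by group⟩
      · show g * x * g⁻¹ ∈ ((g • U : Sylow p G) : Subgroup G)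
        rw [mem_smul_iff]
        have := hU1 ⟨hx1, hx2⟩
        convert this using 1
        group
      · show g * x * g⁻¹ ∈ (S : Subgroup G)
        have h4 : x ∈ ((g⁻¹ • S : Sylow p G) : Subgroup G) := hx2
        rw [mem_smul_iff, inv_inv] at h4
        exact h4
  have hc5 := Conn.conj hnorm hc4 g₁⁻¹
  rw [inv_inv, smul_smul] at hc5
  have h6 : g₁ * g⁻¹ = g₂ := by rw [hg]; group
  rw [h6] at hc5
  refine hc5.mono le_rfl ?_
  rintro x ⟨hx1, hx2⟩
  refine ⟨g₁⁻¹ * x * g₁, ⟨?_, ?_⟩, by group⟩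
  · have h7 : x ∈ ((g₁ • S : Sylow p G) : Subgroup G) := hx1
    rw [mem_smul_iff] at h7
    exact h7
  · have h7 : x ∈ ((g₂ • S : Sylow p G) : Subgroup G) := hx2
    rw [mem_smul_iff] at h7
    show g₁⁻¹ * x * g₁ ∈ ((g⁻¹ • S : Sylow p G) : Subgroup G)
    rw [mem_smul_iff, inv_inv]
    convert h7 using 1
    rw [hg]; group


end Cfsg.Agent.S2957
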