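import Cfsg.Statements.S2958

set_option autoImplicit false
open Cfsg

namespace Cfsg.Agent.S2958

/-- Let X, A, B be subgroups of a group G such that G is generated by the conjugates of X and every conjugate of X is contained in A or in B. Then A = G or B = G. -/
theorem result {G : Type*} [Group G] (X A B : Subgroup G) (hgen : (⨆ g : G, X.map (MulAut.conj g).toMonoidHom) = ⊤) (hcover : ∀ g : G, X.map (MulAut.conj g).toMonoidHom ≤ A ∨ X.map (MulAut.conj g).toMonoidHom ≤ B) : A = ⊤ ∨ B = ⊤ := by
  classical
  by_cases hA : ∀ g : G, X.map (MulAut.conj g).toMonoidHom ≤ A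
  · left
    rw [eq_top_iff, ← hgen]
    exact iSup_le hA
  · right
    push Not at hA
    obtain ⟨g₀, hg₀⟩ := hA
    -- conjugation calculus
    have hconj : ∀ a g : G, (X.map (MulAut.conj g).toMonoidHom).map (MulAut.conj a).toMonoidHom
        = X.map (MulAut.conj (a * g)).toMonoidHom := by
      intro a g
      rw [Subgroup.map_map]
      congr 1
      ext x
      simp [mul_assoc]
    -- B₀: generated by conjugates not in A
    let B₀ : Subgroup G := ⨆ g : {g : G // ¬ X.map (MulAut.conj g).toMonoidHom ≤ A}, X.map (MulAut.conj (g : G)).toMonoidHom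
    have hB₀B : B₀ ≤ B := by
      apply iSup_le
      rintro ⟨g, hg⟩
      exact (hcover g).resolve_left hg
    have hAnorm : A ≤ Subgroup.normalizer (B₀ : Set G) := by
      have key : ∀ a ∈ A, B₀.map (MulAut.conj a).toMonoidHom ≤ B₀ := by
        intro a ha
        show (⨆ g : {g : G // ¬ X.map (MulAut.conj g).toMonoidHom ≤ A}, X.map (MulAut.conj (g : G)).toMonoidHom).map (MulAut.conj a).toMonoidHom ≤ _
        rw [Subgroup.map_iSup]
        apply iSup_le
        rintro ⟨g, hg⟩
        simp only
        rw [hconj]
        have : ¬ X.map (MulAut.conj (a * g)).toMonoidHom ≤ A := by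
          intro h
          apply hg
          rw [← hconj] at h
          intro y hy
          have h1 : a * y * a⁻¹ ∈ A := by
            apply h
            exact ⟨y, hy, by simp⟩
          have h2 := A.mul_mem (A.mul_mem (A.inv_mem ha) h1) ha
          simpa [mul_assoc] using h2
        exact le_iSup (fun g : {g : G // ¬ X.map (MulAut.conj g).toMonoidHom ≤ A} => X.map (MulAut.conj (g : G)).toMonoidHom) ⟨a * g, this⟩
      intro a ha
      rw [Subgroup.mem_normalizer_iff]
      intro h
      constructor
      · intro hh
        apply key a ha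
        exact ⟨h, hh, by simp⟩
      · intro hh
        have := key a⁻¹ (A.inv_mem ha) ⟨_, hh, rfl⟩
        simpa [mul_assoc] using this
    have hnormtop : Subgroup.normalizer (B₀ : Set G) = ⊤ := by
      rw [eq_top_iff, ← hgen]
      apply iSup_le
      intro g
      by_cases hg : X.map (MulAut.conj g).toMonoidHom ≤ A
      · exact hg.trans hAnorm
      · refine le_trans ?_ Subgroup.le_normalizer
        exact le_iSup (fun g : {g : G // ¬ X.map (MulAut.conj g).toMonoidHom ≤ A} => X.map (MulAut.conj (g : G)).toMonoidHom) ⟨g, hg⟩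
    have hn : B₀.Normal := Subgroup.normalizer_eq_top_iff.mp hnormtop
    have h0 : X.map (MulAut.conj g₀).toMonoidHom ≤ B₀ :=
      le_iSup (fun g : {g : G // ¬ X.map (MulAut.conj g).toMonoidHom ≤ A} => X.map (MulAut.conj (g : G)).toMonoidHom) ⟨g₀, hg₀⟩
    have hall : ∀ g : G, X.map (MulAut.conj g).toMonoidHom ≤ B₀ := by
      intro g
      have : X.map (MulAut.conj g).toMonoidHom = (X.map (MulAut.conj g₀).toMonoidHom).map (MulAut.conj (g * g₀⁻¹)).toMonoidHom := by
        rw [hconj]; simp
      rw [this]
      rintro _ ⟨y, hy, rfl⟩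
      have := hn.conj_mem y (h0 hy) (g * g₀⁻¹)
      simpa [mul_assoc] using this
    have : (⊤ : Subgroup G) ≤ B₀ := by
      rw [← hgen]; exact iSup_le hall
    exact eq_top_iff.mpr (this.trans hB₀B)

end Cfsg.Agent.S2958
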