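import Cfsg.Statements.S2960
import Cfsg.Agent.Lib.H49Base

set_option autoImplicit false
open Cfsg

namespace Cfsg.Agent.S2960

open Cfsg.Agent.Lib.H49Base

/-- Let G be a finite group of characteristic p (C_G(O_p(G)) ≤ O_p(G)), p prime, T a Sylow p-subgroup of G and Q a normal subgroup of T with C_T(Q) ≤ Q. Then C_G(Q) ≤ Q. -/
theorem result {G : Type*} [Group G] [Finite G] {p : ℕ} [Fact p.Prime] (hG : Subgroup.centralizer (Cfsg.pCore p G : Set G) ≤ Cfsg.pCore p G) (T : Sylow p G) (Q : Subgroup G) (hQT : Q ≤ (T : Subgroup G)) (hQn : (T : Subgroup G) ≤ Subgroup.normalizer (Q : Set G)) (hC : (T : Subgroup G) ⊓ Subgroup.centralizer (Q : Set G) ≤ Q) : Subgroup.centralizer (Q : Set G) ≤ Q := by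
  have hPT : pCore p G ≤ (T : Subgroup G) := pCore_le_sylow T
  have hcp : ∀ c ∈ Subgroup.centralizer (Q : Set G), (orderOf c).Coprime p → c = 1 := by
    intro c hc hcop
    have hcC : c ∈ Subgroup.centralizer (pCore p G : Set G) := by
      rw [Subgroup.mem_centralizer_iff]
      intro x hx
      refine (thompson_axb (A := Q) (P := pCore p G) (T.isPGroup'.to_le hQT) (isPGroup_pCore p) ?_ hcop ?_ ?_ ?_ x hx).eq.symm
      · rw [Subgroup.normalizer_eq_top]; exact le_top
      · intro a ha
        exact (Subgroup.mem_centralizer_iff.mp hc a ha).symm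
      · rw [Subgroup.normalizer_eq_top]; trivial
      · intro y hy hyQ
        have h1 : y ∈ Q := by
          apply hC
          refine ⟨hPT hy, ?_⟩
          show y ∈ Subgroup.centralizer _
          rw [Subgroup.mem_centralizer_iff]
          intro a ha
          exact (hyQ a ha).eq
        exact (Subgroup.mem_centralizer_iff.mp hc y h1).symm
    have h1 : c ∈ pCore p G := hG hcC
    exact eq_one_of_mem_pgroup (isPGroup_pCore p) h1 hcop
  have hCp : IsPGroup p ↥(Subgroup.centralizer (Q : Set G)) := isPGroup_of_forall_coprime hcp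
  have hTn : (T : Subgroup G) ≤ Subgroup.normalizer ((Subgroup.centralizer (Q : Set G) : Subgroup G) : Set G) :=
    hQn.trans (normalizer_le_normalizer_centralizer Q)
  have hsup : IsPGroup p ↥((T : Subgroup G) ⊔ Subgroup.centralizer (Q : Set G)) :=
    IsPGroup.to_sup_of_normal_right' T.isPGroup' hCp hTn
  have heq := T.is_maximal' hsup le_sup_left
  intro x hx
  apply hC
  refine ⟨?_, hx⟩
  have : x ∈ (T : Subgroup G) ⊔ Subgroup.centralizer (Q : Set G) := Subgroup.mem_sup_right hx
  rw [heq] at this
  exact this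


end Cfsg.Agent.S2960
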