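import Cfsg.Statements.S2961
import Cfsg.Agent.Lib.H49Base
import Cfsg.Agent.S2960

set_option autoImplicit false
open Cfsg

namespace Cfsg.Agent.S2961

open Cfsg.Agent.Lib.H49Base
open scoped commutatorElement


/-- Let G be a finite group of characteristic p (C_G(O_p(G)) ≤ O_p(G)), p prime, T a Sylow p-subgroup of G and Q a normal subgroup of T with C_T(Q) ≤ Q. Then every subgroup L of G containing Q has characteristic p: C_L(O_p(L)) ≤ O_p(L). -/
theorem result {G : Type*} [Group G] [Finite G] {p : ℕ} [Fact p.Prime] (hG : Subgroup.centralizer (Cfsg.pCore p G : Set G) ≤ Cfsg.pCore p G) (T : Sylow p G) (Q : Subgroup G) (hQT : Q ≤ (T : Subgroup G)) (hQn : (T : Subgroup G) ≤ Subgroup.normalizer (Q : Set G)) (hC : (T : Subgroup G) ⊓ Subgroup.centralizer (Q : Set G) ≤ Q) (L : Subgroup G) (hQL : Q ≤ L) : Subgroup.centralizer (Cfsg.pCore p ↥L : Set ↥L) ≤ Cfsg.pCore p ↥L := by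
  have hCQ : Subgroup.centralizer (Q : Set G) ≤ Q := Cfsg.Agent.S2960.result hG T Q hQT hQn hC
  have hQp : IsPGroup p ↥Q := T.isPGroup'.to_le hQT
  set P := pCore p G with hPdef
  have hPn : P.Normal := inferInstance
  have hPp : IsPGroup p ↥P := isPGroup_pCore p
  have hPT : P ≤ (T : Subgroup G) := pCore_le_sylow T
  -- P₀ = [P,Q]
  have hP₀P : ⁅P, Q⁆ ≤ P := Subgroup.commutator_le_left P Q
  have hP₀Q : ⁅P, Q⁆ ≤ Q := (Subgroup.le_normalizer_iff_commutator_le_right).mp (hPT.trans hQn)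
  -- the p-core of L and its centraliser
  have hLP : ∀ y : G, ∀ hy : y ∈ L, y ∈ P → (⟨y, hy⟩ : ↥L) ∈ pCore p ↥L := by
    intro y hy hyP
    apply le_pCore (N := P.subgroupOf L) inferInstance (hPp.comap_subtype)
    exact hyP
  set C : Subgroup ↥L := Subgroup.centralizer (pCore p ↥L : Set ↥L) with hCdef
  have hCn : C.Normal := inferInstance
  -- E is generated by the p'-elements of C
  set E : Subgroup ↥L := Subgroup.closure {c : ↥L | c ∈ C ∧ (orderOf c).Coprime p} with hEdef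
  have hEn : E.Normal := by
    rw [← Subgroup.normalizer_eq_top_iff, eq_top_iff]
    refine le_trans ?_ (Subgroup.normalizer_le_normalizer_closure _)
    intro g _
    rw [Subgroup.mem_normalizer_iff_conj_image_eq]
    have key : ∀ g : ↥L, MulAut.conj g '' {c : ↥L | c ∈ C ∧ (orderOf c).Coprime p} ⊆ {c : ↥L | c ∈ C ∧ (orderOf c).Coprime p} := by
      rintro g _ ⟨c, ⟨hc, hcop⟩, rfl⟩
      refine ⟨hCn.conj_mem c hc g, ?_⟩
      rwa [MulEquiv.orderOf_eq (MulAut.conj g) c]
    apply Set.Subset.antisymm (key g)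
    intro c hc
    refine ⟨g⁻¹ * c * g, ?_, by simp [mul_assoc]⟩
    have := key g⁻¹ ⟨c, hc, rfl⟩
    simpa using this
  have hEC : E ≤ C := by
    rw [hEdef, Subgroup.closure_le]
    rintro c ⟨hc, -⟩
    exact hc
  -- elements of E centralise [P,Q]
  have hEP₀ : ∀ e : ↥L, e ∈ E → ∀ x ∈ ⁅P, Q⁆, Commute (e : G) x := by
    intro e he x hx
    have h1 := hLP x (hQL (hP₀Q hx)) (hP₀P hx)
    have h2 := Subgroup.mem_centralizer_iff.mp (hEC he) _ h1
    exact (congrArg Subtype.val h2).symm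
  -- Q and [Q,E] act trivially on P / [P,Q]
  set QL := Q.subgroupOf L with hQLdef
  have hPnP₀ : P ≤ Subgroup.normalizer (⁅P, Q⁆ : Subgroup G) := Subgroup.normalizer_commutator_ge_left P Q
  have hQnP₀ : Q ≤ Subgroup.normalizer (⁅P, Q⁆ : Subgroup G) := Subgroup.normalizer_commutator_ge_right P Q
  have hEnP₀ : ∀ e : ↥L, e ∈ E → (e : G) ∈ Subgroup.normalizer (⁅P, Q⁆ : Subgroup G) := by
    intro e he
    apply Subgroup.centralizer_le_normalizer
    rw [Subgroup.mem_centralizer_iff]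
    intro x hx
    exact (hEP₀ e he x hx).eq.symm
  -- N = [Q,E]
  set N : Subgroup ↥L := ⁅QL, E⁆ with hNdef
  have hNE : N ≤ E := Subgroup.commutator_le_right QL E
  let K : Subgroup G :=
    { carrier := {g | g ∈ Subgroup.normalizer ((⁅P, Q⁆ : Subgroup G) : Set G) ∧ ∀ x ∈ P, x⁻¹ * (g * x * g⁻¹) ∈ ⁅P, Q⁆}
      mul_mem' := by
        rintro g h ⟨hg, hg'⟩ ⟨hh, hh'⟩
        refine ⟨Subgroup.mul_mem _ hg hh, fun x hx => ?_⟩
        have h1 := (Subgroup.mem_normalizer_iff.mp hg _).mp (hh' x hx)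
        have h2 := Subgroup.mul_mem _ (hg' x hx) h1
        convert h2 using 1
        group
      one_mem' := by
        refine ⟨Subgroup.one_mem _, fun x hx => ?_⟩
        simp
      inv_mem' := by
        rintro g ⟨hg, hg'⟩
        refine ⟨Subgroup.inv_mem _ hg, fun x hx => ?_⟩
        have h1 := (Subgroup.mem_normalizer_iff''.mp hg _).mp (Subgroup.inv_mem _ (hg' x hx))
        convert h1 using 1
        group }
  have hQK : Q ≤ K := by
    intro q hq
    refine ⟨hQnP₀ hq, fun x hx => ?_⟩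
    have h1 : ⁅x⁻¹, q⁆ ∈ ⁅P, Q⁆ := Subgroup.commutator_mem_commutator (P.inv_mem hx) hq
    rw [commutatorElement_def] at h1
    convert h1 using 1
    group
  have hEK : ∀ e : ↥L, e ∈ E → ∀ g ∈ K, (e : G) * g * (e : G)⁻¹ ∈ K := by
    rintro e he g ⟨hg, hg'⟩
    have he' := hEnP₀ e he
    refine ⟨Subgroup.mul_mem _ (Subgroup.mul_mem _ he' hg) (Subgroup.inv_mem _ he'), fun x hx => ?_⟩
    have h1 : (e : G)⁻¹ * x * (e : G) ∈ P := by
      have := hPn.conj_mem x hx (e : G)⁻¹
      simpa using this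
    have h2 := (Subgroup.mem_normalizer_iff.mp he' _).mp (hg' _ h1)
    convert h2 using 1
    group
  have hNK : N ≤ K.comap L.subtype := by
    rw [hNdef, Subgroup.commutator_le]
    intro q hq e he
    show ((⁅q, e⁆ : ↥L) : G) ∈ K
    have h1 : ((⁅q, e⁆ : ↥L) : G) = (q : G) * ((e : G) * (q : G)⁻¹ * (e : G)⁻¹) := by
      rw [commutatorElement_def]
      simp [mul_assoc]
    rw [h1]
    exact K.mul_mem (hQK hq) (hEK e he _ (K.inv_mem (hQK hq)))
  have hNact : ∀ n : ↥L, n ∈ N → ∀ x ∈ P, x⁻¹ * ((n : G) * x * (n : G)⁻¹) ∈ ⁅P, Q⁆ := by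
    intro n hn x hx
    exact (hNK hn).2 x hx
  have hNp : IsPGroup p ↥N := by
    apply isPGroup_of_forall_coprime
    intro n hn hcop
    have hnG : (orderOf (n : G)).Coprime p := by rwa [Subgroup.orderOf_coe]
    have h1 : (n : G) ∈ Subgroup.centralizer (P : Set G) := by
      rw [Subgroup.mem_centralizer_iff]
      intro x hx
      refine (commute_of_commute_comm hPp hnG ?_ ?_ : Commute (n : G) x).eq.symm
      · exact P.mul_mem (P.inv_mem hx) (hPn.conj_mem x hx _)
      · exact hEP₀ n (hNE hn) _ (hNact n hn x hx)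
    exact Subtype.ext (eq_one_of_mem_pgroup hPp (hG h1) hnG)
  have hND : N ≤ pCore p ↥L := by
    apply le_pCore_of_normal_of_normal hEn hNE _ hNp
    exact Subgroup.normalizer_commutator_ge_right QL E
  apply le_pCore hCn
  apply isPGroup_of_forall_coprime
  intro c hc hcop
  have hcE : c ∈ E := Subgroup.subset_closure ⟨hc, hcop⟩
  have hcG : (orderOf (c : G)).Coprime p := by rwa [Subgroup.orderOf_coe]
  have h1 : (c : G) ∈ Subgroup.centralizer (Q : Set G) := by
    rw [Subgroup.mem_centralizer_iff]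
    intro q hq
    have h2 : Commute c ⟨q, hQL hq⟩ := by
      have h3 : (⟨q, hQL hq⟩ : ↥L)⁻¹ * (c * ⟨q, hQL hq⟩ * c⁻¹) ∈ N := by
        have h4 : ⁅(⟨q, hQL hq⟩ : ↥L)⁻¹, c⁆ ∈ N :=
          Subgroup.commutator_mem_commutator (QL.inv_mem (show (⟨q, hQL hq⟩ : ↥L) ∈ QL from hq)) hcE
        rw [commutatorElement_def] at h4
        convert h4 using 1
        group
      apply commute_of_commute_comm hNp hcop h3
      exact (Subgroup.mem_centralizer_iff.mp hc _ (hND h3)).symm
    exact (congrArg Subtype.val h2.eq).symm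
  exact Subtype.ext (eq_one_of_mem_pgroup hQp (hCQ h1) hcG)


end Cfsg.Agent.S2961
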