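import Cfsg.Statements.S2963
import Mathlib

set_option autoImplicit false
open Cfsg

namespace Cfsg.Agent.S2963

open MulAction
open scoped Pointwise

/-- Let n be odd. If the symmetric group of degree n is a minimal parabolic group for the prime 2, that is, a Sylow 2-subgroup is not normal and lies in exactly one maximal subgroup, then n = 2^m + 1 for some natural number m. -/
theorem result (n : ℕ) (hn : Odd n) (h : Cfsg.IsPMinimal 2 (Equiv.Perm (Fin n))) : ∃ m : ℕ, n = 2 ^ m + 1 := by
  classical
  have h2 : Fact (Nat.Prime 2) := ⟨Nat.prime_two⟩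
  obtain ⟨S⟩ : Nonempty (Sylow 2 (Equiv.Perm (Fin n))) := inferInstance
  obtain ⟨hnn, M, ⟨hM, hSM⟩, huniq⟩ := h S
  -- fixed point
  have hfix := S.isPGroup'.card_modEq_card_fixedPoints (α := Fin n)
  have hx : ∃ x : Fin n, ∀ s ∈ S, s x = x := by
    by_contra hcon
    have : (fixedPoints ↥(S : Subgroup (Equiv.Perm (Fin n))) (Fin n)) = ∅ := by
      rw [Set.eq_empty_iff_forall_notMem]
      intro x hx
      exact hcon ⟨x, fun s hs => hx ⟨s, hs⟩⟩
    rw [this] at hfix
    simp only [Nat.card_eq_fintype_card, Fintype.card_fin] at hfix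
    have h0 : Nat.card (∅ : Set (Fin n)) = 0 := by simp
    simp at hfix
    rw [Nat.odd_iff] at hn
    unfold Nat.ModEq at hfix
    omega
  obtain ⟨x, hx⟩ := hx
  have hn3 : 1 < n := by
    rcases Nat.lt_or_ge 1 n with h1 | h1
    · exact h1
    · exfalso
      have hn1 : n = 1 := by
        have := hn.pos
        omega
      subst hn1
      apply hnn
      have : Subsingleton (Equiv.Perm (Fin 1)) := inferInstance
      exact ⟨fun a ha g => by rwa [Subsingleton.elim (g * a * g⁻¹) a]⟩
  have : Nontrivial (Fin n) := Fin.nontrivial_iff_two_le.mpr hn3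
  -- general coatom facts
  have hco : ∀ s : Set (Fin n), s.Nonempty → sᶜ.Nonempty → (∀ g ∈ S, g • s = s) →
      stabilizer (Equiv.Perm (Fin n)) s = M := by
    intro s h1 h2 h3
    apply huniq
    refine ⟨Equiv.Perm.isCoatom_stabilizer h1 h2 ?_, ?_⟩
    · rw [Nat.card_eq_fintype_card, Fintype.card_fin]
      intro h
      rw [h] at hn
      exact absurd hn (by simp)
    · intro g hg
      exact h3 g hg
  have hMx : stabilizer (Equiv.Perm (Fin n)) ({x} : Set (Fin n)) = M := by
    apply hco _ (Set.singleton_nonempty x)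
    · obtain ⟨y, hy⟩ := exists_ne x
      exact ⟨y, hy⟩
    · intro g hg
      rw [Set.smul_set_singleton]
      congr 1
      exact hx g hg
  obtain ⟨y, hy⟩ := exists_ne x
  set O : Set (Fin n) := orbit ↥(S : Subgroup (Equiv.Perm (Fin n))) y with hO
  have hxO : x ∉ O := by
    rintro ⟨g, hg⟩
    apply hy
    have h1 : (g : Equiv.Perm (Fin n)) y = x := hg
    have h2 := hx g g.2
    exact (g : Equiv.Perm (Fin n)).injective (h1.trans h2.symm)
  have hyO : y ∈ O := mem_orbit_self y
  have hMO : stabilizer (Equiv.Perm (Fin n)) O = M := by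
    apply hco _ ⟨y, hyO⟩ ⟨x, hxO⟩
    intro g hg
    exact smul_orbit (⟨g, hg⟩ : ↥(S : Subgroup (Equiv.Perm (Fin n)))) y
  -- O is the complement of x
  have hOc : O = {x}ᶜ := by
    apply Set.Subset.antisymm
    · intro z hz
      simp only [Set.mem_compl_iff, Set.mem_singleton_iff]
      rintro rfl
      exact hxO hz
    · intro z hz
      by_contra hzO
      have hzx : z ≠ x := hz
      have h1 : Equiv.swap y z ∈ stabilizer (Equiv.Perm (Fin n)) ({x} : Set (Fin n)) := by
        rw [mem_stabilizer_iff, Set.smul_set_singleton]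
        congr 1
        exact Equiv.swap_apply_of_ne_of_ne hy.symm hzx.symm
      rw [hMx, ← hMO, mem_stabilizer_iff] at h1
      apply hzO
      rw [← h1]
      exact ⟨y, hyO, Equiv.swap_apply_left y z⟩
  obtain ⟨m, hm⟩ := S.isPGroup'.card_orbit y
  refine ⟨m, ?_⟩
  have h3 : Nat.card ↥O = 2 ^ m := hm
  rw [hOc, Nat.card_coe_set_eq, Set.ncard_compl, Set.ncard_singleton, Nat.card_eq_fintype_card, Fintype.card_fin] at h3
  omega

end Cfsg.Agent.S2963
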