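import Cfsg.Statements.S2998
import Cfsg.Agent.Lib.ConjSylow

set_option autoImplicit false
open Cfsg

namespace Cfsg.Agent.S2998

open Cfsg.Agent.Lib.ConjSylow



/-- Let G be a finite group, p a prime, P a Sylow p-subgroup of G and x ∈ P an element such that N_G(R) ≤ C_G(x) for every nontrivial subgroup R of P. Then P ≤ C_G(x); every G-conjugate of x lying in P equals x (so g ∈ C_G(x) whenever g x g⁻¹ ∈ P); and for every normal subgroup N of G, the image of x in G ⧸ N has the same property with respect to the image of P: the normalizer of every nontrivial subgroup of the image of P centralizes the image of x. -/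
theorem result {G : Type*} [Group G] [Finite G] {p : ℕ} [Fact p.Prime] (P : Sylow p G) (x : G) (hxP : x ∈ (P : Subgroup G)) (hlc : ∀ R : Subgroup G, R ≤ (P : Subgroup G) → R ≠ ⊥ → Subgroup.normalizer (R : Set G) ≤ Subgroup.centralizer ({x} : Set G)) : (P : Subgroup G) ≤ Subgroup.centralizer ({x} : Set G) ∧ (∀ g : G, g * x * g⁻¹ ∈ (P : Subgroup G) → g * x * g⁻¹ = x) ∧ ∀ (N : Subgroup G) [N.Normal], ∀ R : Subgroup (G ⧸ N), R ≤ (P : Subgroup G).map (QuotientGroup.mk' N) → R ≠ ⊥ → Subgroup.normalizer (R : Set (G ⧸ N)) ≤ Subgroup.centralizer ({(QuotientGroup.mk x : G ⧸ N)} : Set (G ⧸ N)) := by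
  classical
  have hPC : (P : Subgroup G) ≤ Subgroup.centralizer ({x} : Set G) := by
    by_cases hP : (P : Subgroup G) = ⊥
    · rw [hP]; exact bot_le
    · exact le_trans Subgroup.le_normalizer (hlc _ le_rfl hP)
  have hconj : ∀ g : G, g * x * g⁻¹ ∈ (P : Subgroup G) → g * x * g⁻¹ = x := by
    intro g hg
    by_cases hx1 : x = 1
    · simp [hx1]
    set y := g * x * g⁻¹ with hy
    have hy1 : y ≠ 1 := by
      intro h
      apply hx1
      have : x = g⁻¹ * y * g := by rw [hy]; group
      rw [this, h]; group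
    have hPb : (P : Subgroup G) ≠ ⊥ := by
      intro h; rw [h] at hxP; exact hx1 (Subgroup.mem_bot.1 hxP)
    have h1 : Subgroup.centralizer ({y} : Set G) ≤ Subgroup.centralizer ({x} : Set G) := by
      refine le_trans ?_ (hlc (Subgroup.zpowers y) (Subgroup.zpowers_le.2 hg) (by simpa using hy1))
      rw [← Subgroup.centralizer_closure, ← Subgroup.zpowers_eq_closure]
      exact Subgroup.centralizer_le_normalizer _
    have h2 : (Subgroup.centralizer ({x} : Set G)).map (MulAut.conj g).toMonoidHom =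
        Subgroup.centralizer ({y} : Set G) := conj_centralizer_singleton x g
    have h3 : Subgroup.centralizer ({y} : Set G) = Subgroup.centralizer ({x} : Set G) := by
      apply Subgroup.eq_of_le_of_card_ge h1
      rw [← h2, card_conj]
    have hs1 : IsSylowIn p (P : Subgroup G) (Subgroup.centralizer ({x} : Set G)) :=
      (sylow_isSylowIn_top P).mono hPC le_top
    have hs2 := hs1.conj g
    rw [h2, h3] at hs2
    obtain ⟨c, hc, hcP⟩ := hs1.exists_conj_eq hs2
    rw [conj_conj] at hcP
    have h4 : c * g ∈ Subgroup.centralizer ({x} : Set G) :=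
      hlc _ le_rfl hPb (mem_normalizer_iff_conj.2 hcP)
    have h5 : g ∈ Subgroup.centralizer ({x} : Set G) := by
      have : g = c⁻¹ * (c * g) := by group
      rw [this]
      exact Subgroup.mul_mem _ (Subgroup.inv_mem _ hc) h4
    rw [Subgroup.mem_centralizer_singleton_iff] at h5
    rw [hy, h5]; group
  refine ⟨hPC, hconj, ?_⟩
  intro N _ R hR hRb gb hgb
  obtain ⟨g, rfl⟩ := QuotientGroup.mk'_surjective N gb
  set H := R.comap (QuotientGroup.mk' N) with hH
  set R0 := (P : Subgroup G) ⊓ H with hR0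
  have hNH : N ≤ H := by
    intro n hn
    rw [hH, Subgroup.mem_comap]
    have : QuotientGroup.mk' N n = 1 := (QuotientGroup.eq_one_iff n).2 hn
    rw [this]; exact R.one_mem
  have hHsup : H = R0 ⊔ N := by
    apply le_antisymm
    · intro h hh
      obtain ⟨y, hyP, hyh⟩ := hR (Subgroup.mem_comap.1 hh)
      have hyH : y ∈ H := by rw [hH, Subgroup.mem_comap, hyh]; exact hh
      have : h = y * (y⁻¹ * h) := by group
      rw [this]
      refine Subgroup.mul_mem_sup ⟨hyP, hyH⟩ ?_
      rw [← QuotientGroup.eq_one_iff, QuotientGroup.mk_mul, QuotientGroup.mk_inv]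
      change ((QuotientGroup.mk' N) y)⁻¹ * (QuotientGroup.mk' N) h = 1
      rw [hyh]; group
    · exact sup_le inf_le_right hNH
  have hsN : IsSylowIn p ((P : Subgroup G) ⊓ N) N :=
    (sylow_isSylowIn_top P).inf le_top Subgroup.le_normalizer_of_normal
  have hsR : IsSylowIn p R0 H := by
    refine ⟨inf_le_right, P.isPGroup'.to_le inf_le_left, ?_⟩
    have h1 : R0 ≤ Subgroup.normalizer (N : Set G) := Subgroup.le_normalizer_of_normal
    have h2 := relIndex_sup_of_le_normalizer h1
    rw [← hHsup] at h2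
    rw [h2]
    intro hd
    apply hsN.2.2
    have h3 : ((P : Subgroup G) ⊓ N).relIndex N = R0.relIndex N := by
      rw [hR0, Subgroup.inf_relIndex_right, ← Subgroup.inf_relIndex_right ((P : Subgroup G) ⊓ H) N,
        inf_assoc, inf_of_le_right hNH, Subgroup.inf_relIndex_right]
    rw [h3]; exact hd
  have hR0b : R0 ≠ ⊥ := by
    intro h
    rw [h, bot_sup_eq] at hHsup
    apply hRb
    rw [eq_bot_iff]
    intro r hr
    obtain ⟨r, rfl⟩ := QuotientGroup.mk'_surjective N r
    have : r ∈ H := Subgroup.mem_comap.2 hr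
    rw [hHsup] at this
    exact Subgroup.mem_bot.2 ((QuotientGroup.eq_one_iff r).2 this)
  have hgH : ∀ h ∈ H, g * h * g⁻¹ ∈ H := by
    intro h hh
    rw [hH, Subgroup.mem_comap] at hh ⊢
    rw [map_mul, map_mul, map_inv]
    exact conj_mem_of_mem_normalizer hgb hh
  have hgN : g ∈ Subgroup.normalizer (H : Set G) := mem_normalizer_of_forall hgH
  obtain ⟨h, hh, hhg⟩ := hsR.frattini (H := Subgroup.normalizer (H : Set G)) le_rfl hgN
  have h6 : h * g ∈ Subgroup.centralizer ({x} : Set G) := hlc R0 inf_le_left hR0b hhg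
  rw [hHsup] at hh
  have hh' : h ∈ N ⊔ R0 := by rwa [sup_comm]
  obtain ⟨n, hn, r, hr, rfl⟩ := Subgroup.mem_sup_of_normal_left.1 hh'
  have hr' : r ∈ Subgroup.centralizer ({x} : Set G) := hPC hr.1
  -- g = r⁻¹ n⁻¹ c
  have h7 : QuotientGroup.mk' N g = QuotientGroup.mk' N (r⁻¹ * (n * r * g)) := by
    have hn1 : QuotientGroup.mk' N n = 1 := (QuotientGroup.eq_one_iff n).2 hn
    simp only [map_mul, map_inv, hn1]
    group
  have h8 : r⁻¹ * (n * r * g) ∈ Subgroup.centralizer ({x} : Set G) :=
    Subgroup.mul_mem _ (Subgroup.inv_mem _ hr') h6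
  rw [Subgroup.mem_centralizer_singleton_iff] at h8 ⊢
  rw [h7]
  change QuotientGroup.mk' N _ * QuotientGroup.mk' N x = QuotientGroup.mk' N x * _
  rw [← map_mul, ← map_mul, h8]


end Cfsg.Agent.S2998
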