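import Cfsg.Statements.S3003
import Cfsg.Agent.Lib.LeadLarge

set_option autoImplicit false
open Cfsg

namespace Cfsg.Agent.S3003

/-- Let G be a finite group, p a prime and Q a large p-subgroup of G: C_G(Q) ≤ Q and N_G(U) ≤ N_G(Q) for every nontrivial subgroup U of C_G(Q). Let Q ≤ G₁ ≤ G, let R be a subgroup of order prime to p normalized by G₁, and let U ≤ G₁ be a p-subgroup. If U contains a nontrivial element which is G₁-conjugate to an element of Z(Q), then C_R(U) = 1. In particular, if U is elementary abelian of order at least p² and every maximal subgroup of U contains a nontrivial element G₁-conjugate into Z(Q), then R = 1. -/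
theorem result {G : Type*} [Group G] [Finite G] {p : ℕ} [Fact p.Prime] (Q : Subgroup G) (hQp : IsPGroup p ↥Q) (hlarge : Cfsg.IsLarge Q) (G₁ : Subgroup G) (hQG : Q ≤ G₁) (R : Subgroup G) (hR : (Nat.card ↥R).Coprime p) (hGR : G₁ ≤ Subgroup.normalizer (R : Set G)) (U : Subgroup G) (hUG : U ≤ G₁) (hUp : IsPGroup p ↥U) : ((∃ x ∈ U, x ≠ 1 ∧ ∃ g ∈ G₁, g * x * g⁻¹ ∈ Q ⊓ Subgroup.centralizer (Q : Set G)) → R ⊓ Subgroup.centralizer (U : Set G) = ⊥) ∧ (Cfsg.IsElementaryAbelian p U → p ^ 2 ≤ Nat.card ↥U → (∀ U₀ : Subgroup G, U₀ ≤ U → IsCoatom (U₀.subgroupOf U) → ∃ x ∈ U₀, x ≠ 1 ∧ ∃ g ∈ G₁, g * x * g⁻¹ ∈ Q ⊓ Subgroup.centralizer (Q : Set G)) → R = ⊥) := by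
  refine ⟨?_, ?_⟩
  · rintro ⟨x, hxU, hx1, g, hg, hx⟩
    rw [eq_bot_iff, ← Cfsg.Agent.Lib.LeadLarge.inf_centralizer_eq_bot Q hQp hlarge G₁ hQG R hR hGR x hx1 g hg hx]
    exact inf_le_inf_left _ (Subgroup.centralizer_le (Set.singleton_subset_iff.mpr hxU))
  · intro hUe hcard hall
    by_contra hne
    have hU1 : U ≠ ⊥ := by
      rintro rfl
      rw [Subgroup.card_bot] at hcard
      have := (Fact.out : p.Prime).two_le
      nlinarith
    obtain ⟨U₀, hU₀, hco, hfix⟩ := Cfsg.Agent.Lib.LeadLarge.exists_coatom (p := p) hUe hU1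
      (hUG.trans hGR) hR hne
    obtain ⟨x, hxU, hx1, g, hg, hx⟩ := hall U₀ hU₀ hco
    apply hfix
    rw [eq_bot_iff, ← Cfsg.Agent.Lib.LeadLarge.inf_centralizer_eq_bot Q hQp hlarge G₁ hQG R hR hGR x hx1 g hg hx]
    exact inf_le_inf_left _ (Subgroup.centralizer_le (Set.singleton_subset_iff.mpr hxU))


end Cfsg.Agent.S3003
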