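import Cfsg.Statements.S3008
import Cfsg.Agent.Lib.ChermakDelgado
import Cfsg.Agent.Lib.ConjSylow

set_option autoImplicit false
open Cfsg

namespace Cfsg.Agent.S3008

open Cfsg.Agent.Lib.ChermakDelgado Cfsg.Agent.Lib.ConjSylow

open scoped commutatorElement Pointwise in
theorem lex_step {P : Type*} [Group P] [Finite P] {Q B : Subgroup P} (hQ : IsMinimalCentrallyLarge Q)
    (hB : IsMulCommutative B)
    (hVB : ((Subgroup.centralizer (Q : Set P) ⊔ B : Subgroup P) : Set P) =
      (Subgroup.centralizer (Q : Set P) : Set P) * (B : Set P))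
    (hnil : Group.IsNilpotent P)
    (hmax : ∀ S : Subgroup P, IsMinimalCentrallyLarge S →
      toLex (fun i : ℕ => Nat.card ↥(Subgroup.centralizer (S : Set P) ⊓ Subgroup.upperCentralSeries P i)) ≤
      toLex (fun i : ℕ => Nat.card ↥(Subgroup.centralizer (Q : Set P) ⊓ Subgroup.upperCentralSeries P i))) :
    B ≤ Subgroup.normalizer (Subgroup.centralizer (Q : Set P) : Set P) := by
  set V := Subgroup.centralizer (Q : Set P) with hV
  have hVab : IsMulCommutative V := by
    rw [Lib.ChermakDelgado.isMulCommutative_iff]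
    exact Subgroup.centralizer_le (SetLike.coe_subset_coe.2 (IsCentrallyLarge.centralizer_le hQ.1))
  intro x hx
  by_contra hcon
  rw [mem_normalizer_iff_conj] at hcon
  set V' := V.map (MulAut.conj x).toMonoidHom with hV'
  have hQx := isMinimalCentrallyLarge_conj hQ x
  have hV'e : Subgroup.centralizer ((Q.map (MulAut.conj x).toMonoidHom : Subgroup P) : Set P) = V' := by
    rw [hV', hV, conj_centralizer]
  have hV'ab : IsMulCommutative V' := by
    rw [← hV'e, Lib.ChermakDelgado.isMulCommutative_iff]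
    exact Subgroup.centralizer_le (SetLike.coe_subset_coe.2 (IsCentrallyLarge.centralizer_le hQx.1))
  -- the commutator set
  set K : Set P := {g | ∃ v ∈ V, g = ⁅v, x⁆} with hK
  have hKc : ∀ a ∈ K, ∀ b ∈ K, a * b = b * a := by
    rintro _ ⟨v, hv, rfl⟩ _ ⟨w, hw, rfl⟩
    exact (ito hVab hB hVB hv hw hx hx).eq
  have hKV : ∀ a ∈ K, ∃ v ∈ V, ∃ w ∈ V', a = v * w := by
    rintro _ ⟨v, hv, rfl⟩
    refine ⟨v, hv, x * v⁻¹ * x⁻¹, ?_, by rw [commutatorElement_def]; group⟩
    exact ⟨v⁻¹, V.inv_mem hv, by simp⟩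
  have cV : ∀ a ∈ V, ∀ b ∈ V, a * b = b * a := fun a ha b hb => setLike_mul_comm ha hb
  have cV' : ∀ a ∈ V', ∀ b ∈ V', a * b = b * a := fun a ha b hb => setLike_mul_comm ha hb
  set D := V ⊓ V' with hD
  set T : Set P := (D : Set P) ∪ K with hT
  have hTc : ∀ a ∈ T, ∀ b ∈ T, a * b = b * a := by
    have h1 : ∀ a ∈ D, ∀ b ∈ K, a * b = b * a := by
      intro a ha b hb
      obtain ⟨v, hv, w, hw, rfl⟩ := hKV b hb
      have e1 := cV a (Subgroup.mem_inf.1 ha).1 v hv
      have e2 := cV' a (Subgroup.mem_inf.1 ha).2 w hw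
      calc a * (v * w) = (a * v) * w := by group
        _ = (v * a) * w := by rw [e1]
        _ = v * (a * w) := by group
        _ = v * (w * a) := by rw [e2]
        _ = _ := by group
    rintro a (ha | ha) b (hb | hb)
    · exact cV a (Subgroup.mem_inf.1 ha).1 b (Subgroup.mem_inf.1 hb).1
    · exact h1 a ha b hb
    · exact (h1 b hb a ha).symm
    · exact hKc a ha b hb
  set U := Subgroup.closure T with hU
  have hUab : IsMulCommutative U := by
    rw [Lib.ChermakDelgado.isMulCommutative_iff, hU, Subgroup.closure_le]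
    intro a ha
    rw [SetLike.mem_coe, Subgroup.mem_centralizer_iff]
    intro b hb
    have : ∀ b ∈ Subgroup.closure T, b * a = a * b := by
      intro b hb
      have hle : Subgroup.closure T ≤ Subgroup.centralizer ({a} : Set P) := by
        rw [Subgroup.closure_le]
        intro c hc
        rw [SetLike.mem_coe, Subgroup.mem_centralizer_singleton_iff]
        exact hTc c hc a ha
      exact Subgroup.mem_centralizer_singleton_iff.1 (hle hb)
    exact this b hb
  have hDU : D ≤ U := fun d hd => Subgroup.subset_closure (Or.inl hd)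
  have hKU : ∀ a ∈ K, a ∈ U := fun a ha => Subgroup.subset_closure (Or.inr ha)
  have hUC : U ≤ Subgroup.centralizer ((Q ⊓ Q.map (MulAut.conj x).toMonoidHom : Subgroup P) : Set P) := by
    have i1 : V ≤ Subgroup.centralizer ((Q ⊓ Q.map (MulAut.conj x).toMonoidHom : Subgroup P) : Set P) :=
      Subgroup.centralizer_le (SetLike.coe_subset_coe.2 inf_le_left)
    have i2 : V' ≤ Subgroup.centralizer ((Q ⊓ Q.map (MulAut.conj x).toMonoidHom : Subgroup P) : Set P) := by
      rw [← hV'e]
      exact Subgroup.centralizer_le (SetLike.coe_subset_coe.2 inf_le_right)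
    rw [hU, Subgroup.closure_le]
    rintro a (ha | ha)
    · exact i1 (Subgroup.mem_inf.1 ha).1
    · obtain ⟨v, hv, w, hw, rfl⟩ := hKV a ha
      exact Subgroup.mul_mem _ (i1 hv) (i2 hw)
  -- counting
  have hcardU : Nat.card V ≤ Nat.card U := by
    have hsub : (V : Set P) * (V' : Set P) ⊆ (V : Set P) * (U : Set P) := by
      rintro _ ⟨a, ha, b, hb, rfl⟩
      obtain ⟨v, hv, rfl⟩ := hb
      refine ⟨a * v, V.mul_mem ha hv, ⁅v⁻¹, x⁆, hKU _ ⟨v⁻¹, V.inv_mem hv, rfl⟩, ?_⟩
      simp only [commutatorElement_def, MulEquiv.coe_toMonoidHom, MulAut.conj_apply]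
      group
    have h1 := card_mul_mul_card_inf V V'
    have h2 := card_mul_mul_card_inf V U
    have h3 : Nat.card ↥((V : Set P) * (V' : Set P)) ≤ Nat.card ↥((V : Set P) * (U : Set P)) :=
      Nat.card_mono (Set.toFinite _) hsub
    have h4 : Nat.card ↥(V ⊓ V') ≤ Nat.card ↥(V ⊓ U) :=
      Nat.card_mono (Set.toFinite _) (SetLike.coe_subset_coe.2 (le_inf inf_le_left hDU))
    have h5 : Nat.card V' = Nat.card V := card_conj V x
    have h6 := Nat.mul_le_mul h3 h4
    rw [h1, h2, h5] at h6
    exact Nat.le_of_mul_le_mul_left h6 Nat.card_pos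
  obtain ⟨S, hS, hSU⟩ := mcl_replace hQ hQx hUab (by rw [hV'e]; exact hDU) hUC hcardU
  have hmaxS := hmax S hS
  rw [hSU] at hmaxS
  rw [← not_lt] at hmaxS
  apply hmaxS
  -- minimal index with different intersections
  set Z := Subgroup.upperCentralSeries P with hZ
  have hZn : ∀ i, (Z i).map (MulAut.conj x).toMonoidHom = Z i := by
    intro i
    have : x ∈ Subgroup.normalizer (Z i : Set P) := by
      rw [Subgroup.normalizer_eq_top_iff.2 inferInstance]; exact Subgroup.mem_top x
    exact mem_normalizer_iff_conj.1 this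
  obtain ⟨n, hn⟩ := hnil.nilpotent
  have hex : ∃ i, V ⊓ Z i ≠ V' ⊓ Z i := ⟨n, by
    have : Z n = ⊤ := hn
    rw [this, inf_top_eq, inf_top_eq]
    exact fun h => hcon h.symm⟩
  classical
  obtain ⟨i, hi, hmin⟩ : ∃ i, V ⊓ Z i ≠ V' ⊓ Z i ∧ ∀ j < i, V ⊓ Z j = V' ⊓ Z j :=
    ⟨Nat.find hex, Nat.find_spec hex, fun j hj => not_not.1 (Nat.find_min hex hj)⟩
  have hi0 : i ≠ 0 := by
    rintro rfl
    apply hi
    simp [hZ]
  obtain ⟨k, rfl⟩ := Nat.exists_eq_succ_of_ne_zero hi0
  have hle : ∀ j ≤ k, Nat.card ↥(V ⊓ Z j) ≤ Nat.card ↥(U ⊓ Z j) := by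
    intro j hj
    apply Nat.card_mono (Set.toFinite _)
    rw [SetLike.coe_subset_coe]
    refine le_inf ?_ inf_le_right
    refine le_trans ?_ hDU
    refine le_inf inf_le_left ?_
    rw [hmin j (by omega)]
    exact inf_le_left
  have hlt : Nat.card ↥(V ⊓ Z k) ≠ Nat.card ↥(U ⊓ Z k) := by
    intro hEq
    have hVU : V ⊓ Z k ≤ U ⊓ Z k := by
      refine le_inf ?_ inf_le_right
      refine le_trans ?_ hDU
      refine le_inf inf_le_left ?_
      rw [hmin k (by omega)]
      exact inf_le_left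
    have hVU' : V ⊓ Z k = U ⊓ Z k := Subgroup.eq_of_le_of_card_ge hVU hEq.ge
    apply hi
    have hconj : (V ⊓ Z (k+1)).map (MulAut.conj x).toMonoidHom = V' ⊓ Z (k+1) := by
      rw [conj_inf, hZn]
    have hle2 : (V ⊓ Z (k+1)).map (MulAut.conj x).toMonoidHom ≤ V ⊓ Z (k+1) := by
      rintro _ ⟨v, hv, rfl⟩
      obtain ⟨hv1, hv2⟩ := Subgroup.mem_inf.1 hv
      have h1 : ⁅v⁻¹, x⁆ ∈ Z k := by
        have := (Subgroup.mem_upperCentralSeries_succ_iff).1 ((Z (k+1)).inv_mem hv2) x
        exact this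
      have h2 : ⁅v⁻¹, x⁆ ∈ U := hKU _ ⟨v⁻¹, V.inv_mem hv1, rfl⟩
      have h3 : ⁅v⁻¹, x⁆ ∈ V ⊓ Z k := by rw [hVU']; exact ⟨h2, h1⟩
      have h4 : (MulAut.conj x).toMonoidHom v = v * ⁅v⁻¹, x⁆ := by
        simp only [commutatorElement_def, MulEquiv.coe_toMonoidHom, MulAut.conj_apply]
        group
      rw [h4]
      refine Subgroup.mem_inf.2 ⟨V.mul_mem hv1 (Subgroup.mem_inf.1 h3).1, ?_⟩
      have h5 : (MulAut.conj x).toMonoidHom v ∈ (Z (k+1)).map (MulAut.conj x).toMonoidHom := ⟨v, hv2, rfl⟩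
      rw [hZn, h4] at h5
      exact h5
    rw [← hconj]
    exact (Subgroup.eq_of_le_of_card_ge hle2 (by rw [card_conj])).symm
  have hexd : ∃ j, Nat.card ↥(V ⊓ Z j) ≠ Nat.card ↥(U ⊓ Z j) := ⟨k, hlt⟩
  have hm1 := Nat.find_spec hexd
  have hm2 : Nat.find hexd ≤ k := Nat.find_min' hexd hlt
  refine ⟨Nat.find hexd, fun j hj => ?_, ?_⟩
  · exact not_not.1 (Nat.find_min hexd hj)
  · exact lt_of_le_of_ne (hle _ hm2) hm1

/-- Let P be a finite p-group, with J(P) generated by its abelian subgroups of largest order and J̃(P) = C_P(Z(J(P))); call R ≤ P centrally large if |R|·|Z(R)| is as large as possible, and let P_MCL be generated by the minimal centrally large subgroups. Then: for every centrally large Q, Q·J(P) ⊇ J̃(P); some minimal centrally large subgroup of P is normalized by both J(P) and P_MCL; if P = J(P) and d(P)² = |P|·|Z(P)|, where d(P) is the largest order of an abelian subgroup, then every minimal centrally large subgroup of P is abelian; and if every minimal centrally large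 subgroup is abelian then J̃(P) = J(P). -/
theorem result {p : ℕ} [Fact p.Prime] (P : Type*) [Group P] [Finite P] (hP : IsPGroup p P) : (∀ Q : Subgroup P, Cfsg.IsCentrallyLarge Q → Subgroup.centralizer ((Cfsg.thompsonSubgroupA P ⊓ Subgroup.centralizer (Cfsg.thompsonSubgroupA P : Set P) : Subgroup P) : Set P) ≤ Q ⊔ Cfsg.thompsonSubgroupA P) ∧ (∃ Q : Subgroup P, Cfsg.IsMinimalCentrallyLarge Q ∧ Cfsg.thompsonSubgroupA P ≤ Subgroup.normalizer (Q : Set P) ∧ Cfsg.minimalCentrallyLargeJoin P ≤ Subgroup.normalizer (Q : Set P)) ∧ (Cfsg.thompsonSubgroupA P = ⊤ → (∀ A ∈ Cfsg.maxAbelianSubgroups P, Nat.card ↥A ^ 2 = Nat.card P * Nat.card ↥(Subgroup.center P)) → ∀ Q : Subgroup P, Cfsg.IsMinimalCentrallyLarge Q → IsMulCommutative ↥Q) ∧ ((∀ Q : Subgroup P, Cfsg.IsMinimalCentrallyLarge Q → IsMulCommutative ↥Q) → Subgroup.centralizer ((Cfsg.thompsonSubgroupA P ⊓ Subgroup.centralizer (Cfsg.thompsonSubgroupA P : Set P) : Subgroup P) : Set P) = Cfsg.thompsonSubgroupA P) := by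
  have hnil : Group.IsNilpotent P := hP.isNilpotent
  refine ⟨?_, ?_, ?_, ?_⟩
  · intro Q hQ
    exact tildeJ_le_of_ge (isCentrallyLarge_sup_thompsonA hQ) le_sup_right
  · haveI : Nonempty {Q : Subgroup P // IsMinimalCentrallyLarge Q} := by
      obtain ⟨Q, hQ⟩ := exists_isMinimalCentrallyLarge (P := P)
      exact ⟨⟨Q, hQ⟩⟩
    obtain ⟨⟨Q, hQ⟩, hmax⟩ := Finite.exists_max (fun Q : {Q : Subgroup P // IsMinimalCentrallyLarge Q} =>
      toLex (fun i : ℕ => Nat.card ↥(Subgroup.centralizer ((Q : Subgroup P) : Set P) ⊓ Subgroup.upperCentralSeries P i)))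
    open scoped Pointwise in
    have hstep : ∀ B : Subgroup P, IsMulCommutative B →
        ((Subgroup.centralizer (Q : Set P) ⊔ B : Subgroup P) : Set P) =
          (Subgroup.centralizer (Q : Set P) : Set P) * (B : Set P) →
        B ≤ Subgroup.normalizer (Q : Set P) := by
      intro B hB hVB
      have h1 := lex_step hQ hB hVB hnil (fun S hS => hmax ⟨S, hS⟩)
      intro x hx
      have h2 := mem_normalizer_iff_conj.1 (h1 hx)
      rw [mem_normalizer_iff_conj]
      have h3 := IsCentralizerLarge.eq_cc (IsCentrallyLarge.large hQ.1)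
      rw [← h3, conj_centralizer, h2]
    refine ⟨Q, hQ, ?_, ?_⟩
    · apply sSup_le
      intro A hA
      exact hstep A hA.1 (cl_maxAbelian_centralizer hQ.1 hA).2
    · apply sSup_le
      intro R hR
      have hR' : IsMinimalCentrallyLarge R := hR
      rw [← mcl_eq_inf_sup hR' hQ]
      apply sup_le
      · exact inf_le_right.trans Subgroup.le_normalizer
      · apply hstep
        · rw [Lib.ChermakDelgado.isMulCommutative_iff]
          exact Subgroup.centralizer_le (SetLike.coe_subset_coe.2 (IsCentrallyLarge.centralizer_le hR'.1))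
        · exact (cd_main (isCentralizerLarge_centralizer (IsCentrallyLarge.large hQ.1)).1
            (isCentralizerLarge_centralizer (IsCentrallyLarge.large hR'.1)).1).1
  · intro hJ hA Q hQ
    have htop : IsCentrallyLarge (⊤ : Subgroup P) := by
      have := isCentrallyLarge_sup_thompsonA hQ.1
      rwa [hJ, sup_top_eq] at this
    obtain ⟨A, hAm⟩ := exists_maxAbelian (P := P)
    have hmax : Nat.card P * Nat.card ↥(Subgroup.center P) = maxCentralizerProduct P := by
      have h1 := IsCentrallyLarge.large htop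
      rw [isCentralizerLarge_iff, cdm] at h1
      simpa [Subgroup.centralizer_univ] using h1
    have hAl : IsCentrallyLarge A := by
      rw [isCentrallyLarge_iff, isCentralizerLarge_iff, cdm, maxAbelian_centralizer hAm]
      exact ⟨by rw [← hmax, ← hA A hAm]; ring, le_rfl⟩
    obtain ⟨R, hRA, hR⟩ := exists_minimal_le hAl
    have hRab : IsMulCommutative R := by
      rw [Lib.ChermakDelgado.isMulCommutative_iff]
      have := Lib.ChermakDelgado.isMulCommutative_iff.1 hAm.1
      exact hRA.trans (this.trans (Subgroup.centralizer_le (SetLike.coe_subset_coe.2 hRA)))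
    exact ((mcl_abelian_iff hR hRab Q).1 hQ).1
  · intro hab
    obtain ⟨Q, hQ⟩ := exists_isMinimalCentrallyLarge (P := P)
    have hJ : thompsonSubgroupA P = minimalCentrallyLargeJoin P := by
      unfold thompsonSubgroupA minimalCentrallyLargeJoin
      congr 1
      ext X
      exact (mcl_abelian_iff hQ (hab Q hQ) X).symm
    apply le_antisymm
    · apply tildeJ_le_of_ge _ le_rfl
      rw [hJ]; exact isCentrallyLarge_minimalCentrallyLargeJoin
    · rw [← Subgroup.le_centralizer_iff]
      exact inf_le_right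


end Cfsg.Agent.S3008
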