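import Cfsg.Statements.S3009
import Cfsg.Agent.Lib.QmConj
import Cfsg.Agent.Lib.NatSL2

set_option autoImplicit false
open Cfsg

namespace Cfsg.Agent.S3009

open Matrix Cfsg.Agent.Lib.ClSL2 Cfsg.Agent.Lib.QmCore

open scoped MatrixGroups

/-- Let p be a prime and let G and V be subgroups of a finite group with V elementary abelian and normalized by G, and G isomorphic to SL₂(F) for a finite field F with pⁿ elements. Suppose G acts irreducibly and nontrivially on V by conjugation (no G-invariant subgroups of V other than 1 and V, and [V, G] ≠ 1), and let S be a Sylow p-subgroup of G and V₀ = C_V(S). If [V, S, S] = 1 or |V| ≤ |V₀|², then G acts on V as SL₂(F) on its natural two-dimensional module; in particular |V| = |F|². -/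
theorem result {X : Type*} [Group X] [Finite X] {p : ℕ} [Fact p.Prime] (G V : Subgroup X) (hV : Cfsg.IsElementaryAbelian p V) (hGV : G ≤ Subgroup.normalizer (V : Set X)) (F : Type) [Field F] [Fintype F] (n : ℕ) (hF : Fintype.card F = p ^ n) (hG : Nonempty (↥G ≃* Matrix.SpecialLinearGroup (Fin 2) F)) (hirr : ∀ U : Subgroup X, U ≤ V → G ≤ Subgroup.normalizer (U : Set X) → U = ⊥ ∨ U = V) (hnt : ⁅V, G⁆ ≠ ⊥) (S : Sylow p ↥G) (hyp : ⁅⁅V, (S : Subgroup ↥G).map G.subtype⁆, (S : Subgroup ↥G).map G.subtype⁆ = ⊥ ∨ Nat.card ↥V ≤ Nat.card ↥(V ⊓ Subgroup.centralizer (((S : Subgroup ↥G).map G.subtype : Subgroup X) : Set X)) ^ 2) : Cfsg.ActsAsSL2OnSection F ⊤ G V ⊥ := by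
  classical
  obtain ⟨e⟩ := hG
  have hchar : CharP F p := Cfsg.Agent.Lib.NatSL2.charP_of_card hF
  have hVc : ∀ x ∈ V, ∀ y ∈ V, x * y = y * x := by
    intro x hx y hy
    have := hV.1.is_comm.comm (⟨x, hx⟩ : ↥V) ⟨y, hy⟩
    exact congrArg Subtype.val this
  have hVp : ∀ x ∈ V, x ^ p = 1 := by
    intro x hx
    exact hV.2 x hx
  have hφ : ∀ g : ↥G, G.subtype g ∈ Subgroup.normalizer (V : Set X) := fun g => hGV g.2
  -- adjust the isomorphism so that `S` becomes the upper unitriangular group
  have hfinSL : Finite SL(2, F) := inferInstance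
  obtain ⟨P, hP⟩ : ∃ P : Sylow p SL(2, F), (P : Subgroup SL(2, F)) = (S : Subgroup ↥G).map e.toMonoidHom := by
    refine ⟨Sylow.ofCard ((S : Subgroup ↥G).map e.toMonoidHom) ?_, rfl⟩
    rw [Subgroup.card_map_of_injective e.injective, Sylow.card_eq_multiplicity, Nat.card_congr e.toEquiv]
  obtain ⟨g, hg⟩ := MulAction.exists_smul_eq SL(2, F) P (sylowUS F p)
  let e' : ↥G ≃* SL(2, F) := e.trans (MulAut.conj g)
  have he' : ∀ l : ↥G, l ∈ S ↔ e' l ∈ US F := by
    intro l
    have h1 : l ∈ S ↔ e l ∈ (P : Subgroup SL(2, F)) := by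
      rw [hP]
      constructor
      · intro h; exact ⟨l, h, rfl⟩
      · rintro ⟨l', hl', h2⟩
        have h3 : l' = l := e.injective h2
        rw [← h3]; exact hl'
    have h2 : e l ∈ (P : Subgroup SL(2, F)) ↔ e' l ∈ US F := by
      rw [← coe_sylowUS (F := F) (p := p), ← hg, Sylow.coe_subgroup_smul]
      constructor
      · intro h
        exact ⟨e l, h, rfl⟩
      · rintro ⟨y, hy, h3⟩
        have h4 : g * y * g⁻¹ = g * e l * g⁻¹ := h3
        have h5 : y = e l := by
          have := mul_right_cancel h4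
          exact mul_left_cancel this
        rw [← h5]; exact hy
    rw [h1, h2]
  let act : DistribMulAction SL(2, F) (AM V hVc G.subtype hφ) :=
    DistribMulAction.compHom (AM V hVc G.subtype hφ) (e'.symm.toMonoidHom : SL(2, F) →* ↥G)
  have hact : ∀ (m : SL(2, F)) (x : AM V hVc G.subtype hφ), m • x = e'.symm m • x := fun _ _ => rfl
  have hfx : ∀ x : AM V hVc G.subtype hφ, x ∈ (fx (US F) : AddSubgroup (AM V hVc G.subtype hφ)) ↔
      ∀ s ∈ S, s • x = x := by
    intro x
    constructor
    · intro h s hs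
      have := h (e' s) ((he' s).1 hs)
      rw [hact, MulEquiv.symm_apply_apply] at this
      exact this
    · intro h m hm
      rw [hact]
      exact h _ ((he' _).2 (by rw [MulEquiv.apply_symm_apply]; exact hm))
  have hnat : Nonempty (NatAct F SL(2, F) (AM V hVc G.subtype hφ)) := by
    apply nat_of_irr (p := p)
    · intro x
      apply AM.v_inj
      rw [AM.v_nsmul, hVp _ x.v_mem]; rfl
    · intro W hW
      let U : Subgroup X :=
        { carrier := {x | ∃ hx : x ∈ V, (AM.mk x hx : AM V hVc G.subtype hφ) ∈ W}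
          one_mem' := ⟨V.one_mem, W.zero_mem⟩
          mul_mem' := by
            rintro x y ⟨hx, h1⟩ ⟨hy, h2⟩
            exact ⟨V.mul_mem hx hy, W.add_mem h1 h2⟩
          inv_mem' := by
            rintro x ⟨hx, h1⟩
            exact ⟨V.inv_mem hx, W.neg_mem h1⟩ }
      have hUV : U ≤ V := fun x hx => hx.1
      have hGU : G ≤ Subgroup.normalizer (U : Set X) := by
        intro k hk
        have key : ∀ k ∈ G, ∀ x ∈ U, k * x * k⁻¹ ∈ U := by
          rintro k hk x ⟨hx, h1⟩
          refine ⟨(Subgroup.mem_normalizer_iff.1 (hGV hk) x).1 hx, ?_⟩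
          have := hW (e' ⟨k, hk⟩) _ h1
          rw [hact, MulEquiv.symm_apply_apply] at this
          exact this
        rw [Subgroup.mem_normalizer_iff]
        intro x
        constructor
        · exact key k hk x
        · intro h
          have := key k⁻¹ (G.inv_mem hk) _ h
          have e1 : k⁻¹ * (k * x * k⁻¹) * k⁻¹⁻¹ = x := by group
          rwa [e1] at this
      rcases hirr U hUV hGU with h | h
      · left
        rw [eq_bot_iff]
        intro x hx
        have h1 : x.v ∈ U := ⟨x.v_mem, hx⟩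
        rw [h] at h1
        exact AM.v_inj h1
      · right
        rw [eq_top_iff]
        intro x _
        have h1 : x.v ∈ U := by rw [h]; exact x.v_mem
        obtain ⟨_, h2⟩ := h1
        exact h2
    · by_contra hc
      push Not at hc
      apply hnt
      rw [eq_bot_iff, Subgroup.commutator_le]
      intro v hv k hk
      have h1 := hc (e' ⟨k, hk⟩) (AM.mk v hv)
      rw [hact, MulEquiv.symm_apply_apply, AM.smul_eq_iff] at h1
      have h2 : k * v = v * k := h1
      rw [Subgroup.mem_bot, commutatorElement_def, ← h2]; group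
    · rcases hyp with hq | hc
      · left
        intro a ha x
        rw [hfx]
        intro s hs
        have ha' : e'.symm a ∈ S := (he' _).2 (by rw [MulEquiv.apply_symm_apply]; exact ha)
        have h1 : x.v * ((e'.symm a : ↥G) : X) * (x.v)⁻¹ * ((e'.symm a : ↥G) : X)⁻¹
            ∈ ⁅V, (S : Subgroup ↥G).map G.subtype⁆ :=
          Subgroup.commutator_mem_commutator x.v_mem ⟨_, ha', rfl⟩
        have hs' : (s : X) ∈ (S : Subgroup ↥G).map G.subtype := ⟨s, hs, rfl⟩
        have h2 := Subgroup.commutator_mem_commutator h1 hs'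
        rw [hq] at h2
        have h3 : x.v * ((e'.symm a : ↥G) : X) * (x.v)⁻¹ * ((e'.symm a : ↥G) : X)⁻¹ * (s : X)
            = (s : X) * (x.v * ((e'.symm a : ↥G) : X) * (x.v)⁻¹ * ((e'.symm a : ↥G) : X)⁻¹) := by
          have h4 : (x.v * ((e'.symm a : ↥G) : X) * (x.v)⁻¹ * ((e'.symm a : ↥G) : X)⁻¹) * (s : X)
            * (x.v * ((e'.symm a : ↥G) : X) * (x.v)⁻¹ * ((e'.symm a : ↥G) : X)⁻¹)⁻¹ * (s : X)⁻¹ = 1 := h2
          rw [mul_inv_eq_one] at h4
          exact mul_inv_eq_iff_eq_mul.1 h4
        have h5 : s • (x - a • x) = x - a • x := by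
          rw [AM.smul_eq_iff]
          have e1 : (x - a • x).v = x.v * ((e'.symm a : ↥G) : X) * (x.v)⁻¹ * ((e'.symm a : ↥G) : X)⁻¹ := by
            rw [AM.v_sub, hact, AM.v_smul]
            show x.v * (((e'.symm a : ↥G) : X) * x.v * ((e'.symm a : ↥G) : X)⁻¹)⁻¹ = _
            group
          rw [e1]
          exact h3.symm
        have h6 : a • x - x = -(x - a • x) := by abel
        rw [h6, smul_neg, h5]
      · right
        have e1 : Nat.card (fx (US F) : AddSubgroup (AM V hVc G.subtype hφ))
            = Nat.card ↥(V ⊓ Subgroup.centralizer (((S : Subgroup ↥G).map G.subtype : Subgroup X) : Set X)) := by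
          have e2 : (fx (US F) : AddSubgroup (AM V hVc G.subtype hφ)) = fx (S : Subgroup ↥G) := by
            ext x
            rw [hfx]; rfl
          rw [e2, AM.card_fx]
        rw [e1, AM.card]
        exact hc
  obtain ⟨N⟩ := hnat
  exact acts_of_nat (N.comp e'.toMonoidHom e'.surjective (by
    intro q x
    rw [hact]
    show q • x = e'.symm (e' q) • x
    rw [MulEquiv.symm_apply_apply]))

end Cfsg.Agent.S3009
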