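import Cfsg.Statements.S3011
import Mathlib
import Cfsg.Agent.Lib.BaerSuzuki

set_option autoImplicit false
open Cfsg

namespace Cfsg.Agent.S3011

open Subgroup

theorem odd_sq {G : Type*} [Group G] {h : G} (hh : Odd (orderOf h)) (h2 : h * h = 1) : h = 1 := by
  have h1 : orderOf h ∣ 2 := orderOf_dvd_of_pow_eq_one (by rw [pow_two, h2])
  have h3 : Nat.Coprime (orderOf h) 2 := (Nat.coprime_two_right).mpr hh
  exact orderOf_eq_one_iff.mp (Nat.Coprime.eq_one_of_dvd h3 h1)

theorem key {G : Type*} [Group G] {V : Subgroup G} (hS : Cfsg.IsSidkiPair V) {x y : G}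
    (hx : x ∈ V) (hy : y ∈ V) (hxx : x * x = 1) (hyy : y * y = 1)
    (hall : ∀ w ∈ V, w ≠ 1 → w = x ∨ w = y ∨ w = x * y) {h k : G} (hh : Odd (orderOf h))
    (hh1 : h ≠ 1) (hk : Odd (orderOf k)) (hk1 : k ≠ 1) (h1 : x * h * x⁻¹ = h⁻¹)
    (h2 : y * h * y⁻¹ = h) (h3 : x * k * x⁻¹ = k⁻¹) (h4 : y * k * y⁻¹ = k⁻¹) : False := by
  have hxi : x⁻¹ = x := inv_eq_of_mul_eq_one_left hxx
  have hyi : y⁻¹ = y := inv_eq_of_mul_eq_one_left hyy
  obtain ⟨m, hm⟩ := hh
  set t := h ^ (m + 1) with ht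
  have htt : t * t = h := by
    rw [ht, ← pow_add, show m + 1 + (m + 1) = orderOf h + 1 by omega, pow_succ, pow_orderOf_eq_one,
      one_mul]
  have hyt : y * t * y⁻¹ = t := by rw [ht, ← conj_pow, h2]
  have hxt : x * t * x⁻¹ = t⁻¹ := by rw [ht, ← conj_pow, h1, inv_pow]
  have hyt' : y * t = t * y := by
    calc y * t = y * t * y⁻¹ * y := by group
      _ = _ := by rw [hyt]
  have hyti : y * t⁻¹ = t⁻¹ * y := by
    have : Commute y t := hyt'
    exact this.inv_right.eq
  -- the conjugate of `k`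
  set k' := t * k * t⁻¹ with hk'
  have hk'o : Odd (orderOf k') := by
    have : orderOf k' = orderOf k := by
      rw [hk', ← MulAut.conj_apply]
      exact (MulAut.conj t).orderOf_eq k
    rwa [this]
  have hyk' : y * k' * y⁻¹ = k'⁻¹ := by
    calc y * (t * k * t⁻¹) * y⁻¹ = (y * t) * k * (t⁻¹ * y⁻¹) := by group
      _ = (t * y) * k * (t⁻¹ * y⁻¹) := by rw [hyt']
      _ = t * (y * k * (y * t)⁻¹) := by group
      _ = t * (y * k * (t * y)⁻¹) := by rw [hyt']
      _ = t * (y * k * y⁻¹) * t⁻¹ := by group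
      _ = _ := by rw [h4, hk']; group
  obtain ⟨w, hwV, hw1, hwk⟩ := hS k' y hy hk'o hyk'
  have hcontra : ∀ z : G, Odd (orderOf z) → ∀ u : G, u * z * u⁻¹ = z⁻¹ → u * z = z * u → z = 1 := by
    intro z hz u hu hu'
    apply odd_sq hz
    have : z = z⁻¹ := by
      rw [← hu, hu', mul_inv_cancel_right]
    nth_rewrite 2 [this]
    exact mul_inv_cancel z
  have hk'1 : k' ≠ 1 := by
    intro h
    apply hk1
    rw [hk'] at h
    calc k = t⁻¹ * (t * k * t⁻¹) * t := by group
      _ = 1 := by rw [h]; group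
  have hxtt : t⁻¹ * x * t = x * h := by
    calc t⁻¹ * x * t = (x * t * x⁻¹) * x * t := by rw [hxt]
      _ = x * (t * t) := by group
      _ = _ := by rw [htt]
  rcases hall w hwV hw1 with rfl | rfl | rfl
  · -- `w = x`
    have e1 : (w * h) * k = k * (w * h) := by
      rw [← hxtt]
      calc t⁻¹ * w * t * k = t⁻¹ * (w * (t * k * t⁻¹)) * t := by group
        _ = t⁻¹ * ((t * k * t⁻¹) * w) * t := by rw [← hk', hwk]
        _ = _ := by group
    have e2 : h * k * h⁻¹ = k⁻¹ := by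
      calc h * k * h⁻¹ = w⁻¹ * ((w * h) * k) * h⁻¹ := by group
        _ = w⁻¹ * (k * (w * h)) * h⁻¹ := by rw [e1]
        _ = w⁻¹ * k * w := by group
        _ = w * k * w⁻¹ := by rw [hxi]
        _ = _ := h3
    have e3 : ∀ n : ℕ, h ^ (2 * n + 1) * k * (h ^ (2 * n + 1))⁻¹ = k⁻¹ := by
      intro n
      induction n with
      | zero => simpa using e2
      | succ n ih =>
        have e4 : h * k⁻¹ * h⁻¹ = k := by
          calc h * k⁻¹ * h⁻¹ = (h * k * h⁻¹)⁻¹ := by group
            _ = _ := by rw [e2, inv_inv]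
        have e5 : h * (h * (h ^ (2 * n + 1) * k * (h ^ (2 * n + 1))⁻¹) * h⁻¹) * h⁻¹ = k⁻¹ := by
          rw [ih, e4, e2]
        rw [← e5, show 2 * (n + 1) + 1 = (2 * n + 1) + 1 + 1 by ring, pow_succ', pow_succ']
        group
    have e6 := e3 m
    rw [← hm, pow_orderOf_eq_one, one_mul, inv_one, mul_one] at e6
    apply hk1
    apply odd_sq hk
    nth_rewrite 2 [e6]
    exact mul_inv_cancel k
  · exact hk'1 (hcontra k' hk'o w hyk' hwk)
  · -- `w = x y`
    have e0 : t⁻¹ * (x * y) * t = x * h * y := by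
      calc t⁻¹ * (x * y) * t = t⁻¹ * x * (y * t) := by group
        _ = t⁻¹ * x * (t * y) := by rw [hyt']
        _ = (t⁻¹ * x * t) * y := by group
        _ = _ := by rw [hxtt]
    have e1 : (x * h * y) * k = k * (x * h * y) := by
      rw [← e0]
      calc t⁻¹ * (x * y) * t * k = t⁻¹ * ((x * y) * (t * k * t⁻¹)) * t := by group
        _ = t⁻¹ * ((t * k * t⁻¹) * (x * y)) * t := by rw [← hk', hwk]
        _ = _ := by group
    have e2 : h * k⁻¹ * h⁻¹ = k⁻¹ := by
      calc h * k⁻¹ * h⁻¹ = h * (y * k * y⁻¹) * h⁻¹ := by rw [h4]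
        _ = x⁻¹ * ((x * h * y) * k) * y⁻¹ * h⁻¹ := by group
        _ = x⁻¹ * (k * (x * h * y)) * y⁻¹ * h⁻¹ := by rw [e1]
        _ = x⁻¹ * k * x := by group
        _ = x * k * x⁻¹ := by rw [hxi]
        _ = _ := h3
    have hc : Commute h k := by
      have e3 : h * k * h⁻¹ = k := by
        calc h * k * h⁻¹ = (h * k⁻¹ * h⁻¹)⁻¹ := by group
          _ = _ := by rw [e2, inv_inv]
      show h * k = k * h
      nth_rewrite 2 [← e3]
      group
    have hhk : Odd (orderOf (h * k)) :=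
      Odd.of_dvd_nat (Odd.mul ⟨m, hm⟩ hk) hc.orderOf_mul_dvd_mul_orderOf
    have e4 : x * (h * k) * x⁻¹ = (h * k)⁻¹ := by
      calc x * (h * k) * x⁻¹ = (x * h * x⁻¹) * (x * k * x⁻¹) := by group
        _ = h⁻¹ * k⁻¹ := by rw [h1, h3]
        _ = (k * h)⁻¹ := by group
        _ = _ := by rw [hc.eq]
    have e5 : y * (h * k) * y⁻¹ = h * k⁻¹ := by
      calc y * (h * k) * y⁻¹ = (y * h * y⁻¹) * (y * k * y⁻¹) := by group
        _ = _ := by rw [h2, h4]
    obtain ⟨w, hwV, hw1, hwhk⟩ := hS (h * k) x hx hhk e4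
    have e6 : w * (h * k) * w⁻¹ = h * k := by rw [hwhk, mul_inv_cancel_right]
    rcases hall w hwV hw1 with rfl | rfl | rfl
    · have e7 := hcontra (h * k) hhk w e4 hwhk
      apply hh1
      have e8 : h = k⁻¹ := mul_eq_one_iff_eq_inv.mp e7
      have e9 : k = h⁻¹ := by rw [e8, inv_inv]
      apply hcontra h ⟨m, hm⟩ y
      · rw [e8, inv_inv]
        calc y * k⁻¹ * y⁻¹ = (y * k * y⁻¹)⁻¹ := by group
          _ = _ := by rw [h4, inv_inv]
      · calc y * h = y * h * y⁻¹ * y := by group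
          _ = _ := by rw [h2]
    · rw [e5] at e6
      apply hk1
      apply odd_sq hk
      have e7 : k⁻¹ = k := mul_left_cancel e6
      nth_rewrite 1 [← e7]
      exact inv_mul_cancel k
    · have e7 : x * y * (h * k) * (x * y)⁻¹ = h⁻¹ * k := by
        calc x * y * (h * k) * (x * y)⁻¹ = x * (y * (h * k) * y⁻¹) * x⁻¹ := by group
          _ = x * (h * k⁻¹) * x⁻¹ := by rw [e5]
          _ = (x * h * x⁻¹) * (x * k * x⁻¹)⁻¹ := by group
          _ = _ := by rw [h1, h3, inv_inv]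
      rw [e7] at e6
      apply hh1
      apply odd_sq ⟨m, hm⟩
      have e8 : h⁻¹ = h := mul_right_cancel e6
      nth_rewrite 1 [← e8]
      exact inv_mul_cancel h

theorem main {G : Type*} [Group G] [Finite G] {V : Subgroup G} (hV : Cfsg.IsElementaryAbelian 2 V)
    (hV1 : V ≠ ⊥) (hS : Cfsg.IsSidkiPair V) (h4 : Nat.card V ≤ 4) : V ⊓ Cfsg.pCore 2 G ≠ ⊥ := by
  classical
  have hsq : ∀ v ∈ V, v * v = 1 := fun v hv => by have := hV.2 v hv; rwa [pow_two] at this
  have hcomm : ∀ a ∈ V, ∀ b ∈ V, a * b = b * a := fun a ha b hb => by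
    have := hV.1
    exact setLike_mul_comm ha hb
  -- it suffices to find `v` inverting no nontrivial element of odd order
  suffices hsuff : ∃ v ∈ V, v ≠ 1 ∧ ∀ h : G, Odd (orderOf h) → v * h * v⁻¹ = h⁻¹ → h = 1 by
    obtain ⟨v, hv, hv1, hvh⟩ := hsuff
    intro hbot
    have hov : orderOf v = 2 := orderOf_eq_prime (by rw [pow_two, hsq v hv]) hv1
    obtain ⟨h, hh1, hho, hhi⟩ := Lib.BaerSuzuki.exists_inverted_odd v hov (by
      intro N hN hNp hvN
      have h1 : N ≤ Cfsg.pCore 2 G := le_sSup ⟨hN, hNp⟩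
      have h2 : v ∈ V ⊓ Cfsg.pCore 2 G := ⟨hv, h1 hvN⟩
      rw [hbot, mem_bot] at h2
      exact hv1 h2)
    exact hh1 (hvh h hho hhi)
  by_contra hcon
  push Not at hcon
  obtain ⟨x, hx, hx1⟩ := (Subgroup.bot_or_exists_ne_one V).resolve_left hV1
  obtain ⟨h, hho, hhi, hh1⟩ := hcon x hx hx1
  obtain ⟨y, hy, hy1, hyh⟩ := hS h x hx hho hhi
  have hyh' : y * h * y⁻¹ = h := by rw [hyh, mul_inv_cancel_right]
  have hxy : x ≠ y := by
    rintro rfl
    rw [hhi] at hyh'
    apply hh1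
    apply odd_sq hho
    nth_rewrite 1 [← hyh']
    exact inv_mul_cancel h
  have hxyne : x * y ≠ 1 := by
    intro e
    apply hxy
    have e1 : x = y⁻¹ := mul_eq_one_iff_eq_inv.mp e
    rw [e1]
    exact inv_eq_of_mul_eq_one_left (hsq y hy)
  have hall : ∀ w ∈ V, w ≠ 1 → w = x ∨ w = y ∨ w = x * y := by
    intro w hw hw1
    by_contra hne
    push Not at hne
    have := Fintype.ofFinite V
    let S : Finset V := {1, ⟨x, hx⟩, ⟨y, hy⟩, ⟨x * y, V.mul_mem hx hy⟩, ⟨w, hw⟩}
    have hS5 : S.card = 5 := by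
      have e1 : x ≠ x * y := fun e => hy1 (by
        have : x * 1 = x * y := by rw [mul_one]; exact e
        exact (mul_left_cancel this).symm)
      have e2 : y ≠ x * y := fun e => hx1 (by
        have : 1 * y = x * y := by rw [one_mul]; exact e
        exact (mul_right_cancel this).symm)
      have i1 : (1 : V) ∉ ({⟨x, hx⟩, ⟨y, hy⟩, ⟨x * y, V.mul_mem hx hy⟩, ⟨w, hw⟩} : Finset V) := by
        simp only [Finset.mem_insert, Finset.mem_singleton, Subtype.ext_iff, OneMemClass.coe_one, not_or]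
        exact ⟨Ne.symm hx1, Ne.symm hy1, Ne.symm hxyne, Ne.symm hw1⟩
      have i2 : (⟨x, hx⟩ : V) ∉ ({⟨y, hy⟩, ⟨x * y, V.mul_mem hx hy⟩, ⟨w, hw⟩} : Finset V) := by
        simp only [Finset.mem_insert, Finset.mem_singleton, Subtype.ext_iff, not_or]
        exact ⟨hxy, e1, Ne.symm hne.1⟩
      have i3 : (⟨y, hy⟩ : V) ∉ ({⟨x * y, V.mul_mem hx hy⟩, ⟨w, hw⟩} : Finset V) := by
        simp only [Finset.mem_insert, Finset.mem_singleton, Subtype.ext_iff, not_or]
        exact ⟨e2, Ne.symm hne.2.1⟩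
      have i4 : (⟨x * y, V.mul_mem hx hy⟩ : V) ∉ ({⟨w, hw⟩} : Finset V) := by
        simp only [Finset.mem_singleton, Subtype.ext_iff]
        exact Ne.symm hne.2.2
      rw [Finset.card_insert_of_notMem i1, Finset.card_insert_of_notMem i2,
        Finset.card_insert_of_notMem i3, Finset.card_insert_of_notMem i4, Finset.card_singleton]
    have h6 : S.card ≤ Fintype.card V := Finset.card_le_univ S
    rw [Nat.card_eq_fintype_card] at h4
    omega
  have hall'' : ∀ w ∈ V, w ≠ 1 → w = x * y ∨ w = y ∨ w = x * y * y := by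
    intro w hw hw1
    rcases hall w hw hw1 with h | h | h
    · right; right
      rw [mul_assoc, hsq y hy, mul_one]
      exact h
    · right; left; exact h
    · left; exact h
  obtain ⟨k, hko, hki, hk1⟩ := hcon y hy hy1
  obtain ⟨z, hz, hz1, hzk⟩ := hS k y hy hko hki
  have hzk' : z * k * z⁻¹ = k := by rw [hzk, mul_inv_cancel_right]
  rcases hall z hz hz1 with rfl | rfl | rfl
  · -- `x` centralizes `k`; `x y` inverts both
    refine key hS (x := z * y) (y := y) (V.mul_mem hx hy) hy ?_ (hsq y hy) hall'' hho hh1 hko hk1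
      ?_ hyh' ?_ hki
    · calc z * y * (z * y) = z * (y * z) * y := by group
        _ = z * (z * y) * y := by rw [hcomm y hy z hx]
        _ = (z * z) * (y * y) := by group
        _ = 1 := by rw [hsq z hx, hsq y hy, one_mul]
    · calc z * y * h * (z * y)⁻¹ = z * (y * h * y⁻¹) * z⁻¹ := by group
        _ = _ := by rw [hyh', hhi]
    · calc z * y * k * (z * y)⁻¹ = z * (y * k * y⁻¹) * z⁻¹ := by group
        _ = (z * k * z⁻¹)⁻¹ := by rw [hki]; group
        _ = _ := by rw [hzk']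
  · rw [hki] at hzk'
    apply hk1
    apply odd_sq hko
    nth_rewrite 1 [← hzk']
    exact inv_mul_cancel k
  · -- `x y` centralizes `k`, so `x` inverts `k`
    refine key hS hx hy (hsq x hx) (hsq y hy) hall hho hh1 hko hk1 hhi hyh' ?_ hki
    have hyi : y⁻¹ = y := inv_eq_of_mul_eq_one_left (hsq y hy)
    calc x * k * x⁻¹ = x * y * (y⁻¹ * k * y) * y⁻¹ * x⁻¹ := by group
      _ = x * y * (y * k * y⁻¹) * y⁻¹ * x⁻¹ := by rw [hyi]
      _ = (x * y * k * (x * y)⁻¹)⁻¹ := by rw [hki]; group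
      _ = _ := by rw [hzk']

/-- Let G be a finite group and V a nontrivial elementary abelian 2-subgroup of G of order at most 4 such that, whenever an element of V inverts an element h of G of odd order, some nontrivial element of V commutes with h. Then V meets O₂(G) nontrivially. (The case of order at most 4 has a short argument from the Baer–Suzuki theorem.) -/
theorem result {G : Type*} [Group G] [Finite G] (V : Subgroup G) (hV : Cfsg.IsElementaryAbelian 2 V) (hV1 : V ≠ ⊥) (hS : Cfsg.IsSidkiPair V) (h4 : Nat.card V ≤ 4) : V ⊓ Cfsg.pCore 2 G ≠ ⊥ := by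
  exact main hV hV1 hS h4

end Cfsg.Agent.S3011
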