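import Cfsg.Statements.S3013
-- import your own Cfsg.Agent.* helpers here

set_option autoImplicit false
open Cfsg

namespace Cfsg.Agent.S3013

/-- Let G be a finite group and V a nontrivial elementary abelian 2-subgroup of G satisfying the Sidki pair condition. Let v ∈ V and let x be an element of odd order inverted by v, and put C = C_G(v) ∩ C_G(x), the centralizer of the dihedral subgroup generated by v and x. Then C ∩ V is nontrivial and satisfies the Sidki pair condition inside C: every odd-order element of C inverted by an element of C ∩ V commutes with a nontrivial element of C ∩ V. -/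
theorem result {G : Type*} [Group G] [Finite G] (V : Subgroup G) (hV : Cfsg.IsElementaryAbelian 2 V) (hV1 : V ≠ ⊥) (hS : Cfsg.IsSidkiPair V) (v x : G) (hv : v ∈ V) (hx : Odd (orderOf x)) (hinv : v * x * v⁻¹ = x⁻¹) (C : Subgroup G) (hC : C = Subgroup.centralizer ({v} : Set G) ⊓ Subgroup.centralizer ({x} : Set G)) : C ⊓ V ≠ ⊥ ∧ Cfsg.IsSidkiPair ((C ⊓ V).subgroupOf C) := by
  have hcomm : ∀ a ∈ V, ∀ b ∈ V, a * b = b * a := by
    intro a ha b hb
    haveI := hV.1
    exact Subgroup.mul_comm_of_mem_isMulCommutative (H := V) ha hb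
  have memC : ∀ c : G, c ∈ C ↔ v * c = c * v ∧ x * c = c * x := by
    intro c
    rw [hC, Subgroup.mem_inf, Subgroup.mem_centralizer_singleton_iff, Subgroup.mem_centralizer_singleton_iff]
    constructor
    · rintro ⟨h1, h2⟩; exact ⟨h1.symm, h2.symm⟩
    · rintro ⟨h1, h2⟩; exact ⟨h1.symm, h2.symm⟩
  refine ⟨?_, ?_⟩
  · obtain ⟨w, hwV, hw1, hwx⟩ := hS x v hv hx hinv
    intro hbot
    apply hw1
    have : w ∈ C ⊓ V := ⟨(memC w).2 ⟨hcomm v hv w hwV, hwx.symm⟩, hwV⟩
    rw [hbot] at this
    exact Subgroup.mem_bot.1 this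
  · rintro ⟨h, hhC⟩ ⟨u, huC⟩ hu hodd hinv'
    have huV : u ∈ V := by
      have := Subgroup.mem_subgroupOf.1 hu
      exact this.2
    have hinv2 : u * h * u⁻¹ = h⁻¹ := by
      have := congrArg Subtype.val hinv'
      simpa using this
    have hodd2 : Odd (orderOf h) := by
      have h1 : orderOf (⟨h, hhC⟩ : C) = orderOf h := Subgroup.orderOf_mk h hhC
      rwa [h1] at hodd
    obtain ⟨hvh, hxh⟩ := (memC h).1 hhC
    obtain ⟨hvu, hxu⟩ := (memC u).1 huC
    have hcom : Commute h x := hxh.symm
    have hoddhx : Odd (orderOf (h * x)) :=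
      Odd.of_dvd_nat (hodd2.mul hx) hcom.orderOf_mul_dvd_mul_orderOf
    have hinvhx : (u * v) * (h * x) * (u * v)⁻¹ = (h * x)⁻¹ := by
      have e1 : (u * v) * (h * x) * (u * v)⁻¹ = u * ((v * h * v⁻¹) * (v * x * v⁻¹)) * u⁻¹ := by group
      rw [e1, hinv]
      have e2 : v * h * v⁻¹ = h := by rw [hvh]; group
      rw [e2]
      have e3 : u * (h * x⁻¹) * u⁻¹ = (u * h * u⁻¹) * (u * x⁻¹ * u⁻¹) := by group
      rw [e3, hinv2]
      have e4 : u * x⁻¹ * u⁻¹ = x⁻¹ := by
        have : u * x⁻¹ = x⁻¹ * u := (Commute.inv_right (show Commute u x from hxu.symm)).eq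
        rw [this]; group
      rw [e4, mul_inv_rev]
      exact (hcom.inv_inv).eq
    obtain ⟨w, hwV, hw1, hwhx⟩ := hS (h * x) (u * v) (V.mul_mem huV hv) hoddhx hinvhx
    have hwv : Commute w v := hcomm w hwV v hv
    have c1 : Commute w (h * x) := hwhx
    have c2 : Commute w (h * x⁻¹) := by
      have e : v * (h * x) * v⁻¹ = h * x⁻¹ := by
        have : v * (h * x) * v⁻¹ = (v * h * v⁻¹) * (v * x * v⁻¹) := by group
        rw [this, hinv, hvh]; group
      rw [← e]
      exact (hwv.mul_right c1).mul_right hwv.inv_right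
    have c3 : Commute w (h ^ 2) := by
      have e : (h * x⁻¹) * (h * x) = h ^ 2 := by
        have : x⁻¹ * h = h * x⁻¹ := (Commute.inv_left (show Commute x h from hxh)).eq
        calc (h * x⁻¹) * (h * x) = h * (x⁻¹ * h) * x := by group
          _ = h * (h * x⁻¹) * x := by rw [this]
          _ = h ^ 2 := by rw [mul_assoc, mul_assoc, inv_mul_cancel, mul_one, pow_two]
      rw [← e]
      exact c2.mul_right c1
    have c4 : Commute w h := by
      obtain ⟨k, hk⟩ := hodd2
      have : h = ((h ^ 2) ^ (k + 1)) := by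
        rw [← pow_mul]
        have h2 : 2 * (k + 1) = orderOf h + 1 := by omega
        rw [h2, pow_succ, pow_orderOf_eq_one, one_mul]
      rw [this]
      exact c3.pow_right _
    have c5 : Commute w x := by
      have e : x = h⁻¹ * (h * x) := by group
      rw [e]
      exact c4.inv_right.mul_right c1
    have hwC : w ∈ C := (memC w).2 ⟨hwv.symm.eq, c5.symm.eq⟩
    refine ⟨⟨w, hwC⟩, ?_, ?_, ?_⟩
    · exact Subgroup.mem_subgroupOf.2 ⟨hwC, hwV⟩
    · intro h; exact hw1 (congrArg Subtype.val h)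
    · exact Subtype.ext c4.eq


end Cfsg.Agent.S3013
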