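import Cfsg.Statements.S3014
import Cfsg.Agent.Lib.ConjSylow
import Cfsg.Agent.Lib.TransferTI

set_option autoImplicit false
open Cfsg

namespace Cfsg.Agent.S3014

open Cfsg.Agent.Lib.ConjSylow Cfsg.Agent.Lib.TransferTI



/-- Let G be a finite group and H ≤ M ≤ G subgroups such that for every g ∈ G the subgroup generated by H and g H g⁻¹ meets M exactly in H. If H is a maximal subgroup of M and M is a maximal subgroup of G, then the normal closure of H in G meets M exactly in H. -/
theorem result {G : Type*} [Group G] [Finite G] (H M : Subgroup G) (hHM : H ≤ M) (hcl : ∀ g : G, (H ⊔ H.map (MulAut.conj g).toMonoidHom) ⊓ M = H) (hmaxH : IsCoatom (H.subgroupOf M)) (hmaxM : IsCoatom M) : Subgroup.normalClosure (H : Set G) ⊓ M = H := by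
  have hMN : M ≤ Subgroup.normalizer (H : Set G) := by
    intro g hg
    apply mem_normalizer_of_conj_le
    have h1 := hcl g
    have h2 : H.map (MulAut.conj g).toMonoidHom ≤ (H ⊔ H.map (MulAut.conj g).toMonoidHom) ⊓ M := by
      refine le_inf le_sup_right ?_
      have h3 := mem_normalizer_iff_conj.1 (Subgroup.le_normalizer hg)
      calc H.map (MulAut.conj g).toMonoidHom ≤ M.map (MulAut.conj g).toMonoidHom := conj_mono g hHM
        _ = M := h3
    rwa [h1] at h2
  by_cases hn : H.Normal
  · rw [Subgroup.normalClosure_eq_self]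
    exact inf_eq_left.2 hHM
  have hNM : Subgroup.normalizer (H : Set G) = M := by
    rcases hmaxM.le_iff.1 hMN with h | h
    · exact absurd (normal_of_normalizer_eq_top h) hn
    · exact h
  by_cases hkey : ∀ g : G, g ∉ M → M ⊓ M.map (MulAut.conj g).toMonoidHom ≤ H
  · obtain ⟨K, hK, hKM, _⟩ := exists_normal_inf_eq hHM hMN (commutator_mem_of_isCoatom hHM hmaxH hMN) hkey
    have hHK : H ≤ K := by
      calc H = K ⊓ M := hKM.symm
        _ ≤ K := inf_le_left
    apply le_antisymm
    · calc Subgroup.normalClosure (H : Set G) ⊓ M ≤ K ⊓ M :=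
            inf_le_inf_right _ (Subgroup.normalClosure_le_normal hHK)
        _ = H := hKM
    · exact le_inf Subgroup.le_normalClosure hHM
  · push Not at hkey
    obtain ⟨g, hg, hle⟩ := hkey
    obtain ⟨m, hm, hmH⟩ := SetLike.not_le_iff_exists.1 hle
    obtain ⟨hmM, hmg⟩ := Subgroup.mem_inf.1 hm
    set L := H ⊔ H.map (MulAut.conj g).toMonoidHom with hL
    have hmL : m ∈ Subgroup.normalizer (L : Set G) := by
      rw [mem_normalizer_iff_conj, hL, conj_sup]
      have h1 : H.map (MulAut.conj m).toMonoidHom = H := mem_normalizer_iff_conj.1 (hMN hmM)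
      have h2 : (H.map (MulAut.conj g).toMonoidHom).map (MulAut.conj m).toMonoidHom =
          H.map (MulAut.conj g).toMonoidHom := by
        rw [← mem_normalizer_iff_conj, ← conj_normalizer]
        exact conj_mono g hMN hmg
      rw [h1, h2]
    have h1 : H ⊔ Subgroup.zpowers m = M := by
      rcases eq_or_eq_of_isCoatom_subgroupOf hmaxH (X := H ⊔ Subgroup.zpowers m) le_sup_left
        (sup_le hHM (Subgroup.zpowers_le.2 hmM)) hHM with h2 | h2
      · exfalso; apply hmH
        rw [← h2]
        exact Subgroup.mem_sup_right (Subgroup.mem_zpowers m)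
      · exact h2
    have h2 : M ≤ L ⊔ Subgroup.zpowers m := by
      rw [← h1]; exact sup_le_sup_right le_sup_left _
    rcases hmaxM.le_iff.1 h2 with h3 | h3
    · have hLn : L.Normal := by
        apply normal_of_normalizer_eq_top
        rw [eq_top_iff, ← h3]
        exact sup_le Subgroup.le_normalizer (Subgroup.zpowers_le.2 hmL)
      apply le_antisymm
      · calc Subgroup.normalClosure (H : Set G) ⊓ M ≤ L ⊓ M := by
              refine inf_le_inf_right _ ?_
              apply Subgroup.normalClosure_le_normal
              exact (le_sup_left : H ≤ L)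
          _ = H := hcl g
      · exact le_inf Subgroup.le_normalClosure hHM
    · exfalso
      have h4 : L ≤ M := by rw [← h3]; exact le_sup_left
      have h5 : L = H := by
        rw [← hcl g]; exact (inf_eq_left.2 h4).symm
      have h6 : g ∈ Subgroup.normalizer (H : Set G) := by
        apply mem_normalizer_of_conj_le
        calc H.map (MulAut.conj g).toMonoidHom ≤ L := le_sup_right
          _ = H := h5
      rw [hNM] at h6
      exact hg h6


end Cfsg.Agent.S3014
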