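import Cfsg.Statements.S3015
import Cfsg.Agent.Lib.ConjSylow
import Cfsg.Agent.Lib.TransferTI

set_option autoImplicit false
open Cfsg

namespace Cfsg.Agent.S3015

open Cfsg.Agent.Lib.ConjSylow Cfsg.Agent.Lib.TransferTI

theorem isCoatom_of_relIndex_prime {G : Type*} [Group G] [Finite G] {H M : Subgroup G} (hHM : H ≤ M)
    (h : (H.relIndex M).Prime) : IsCoatom (H.subgroupOf M) := by
  refine ⟨?_, ?_⟩
  · intro h1
    apply h.ne_one
    rw [Subgroup.relIndex, h1, Subgroup.index_top]
  · intro X hX
    have h2 : (H.subgroupOf M).relIndex X * X.index = H.relIndex M := Subgroup.relIndex_mul_index hX.le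
    have h3 : X.index ∣ H.relIndex M := ⟨_, by rw [mul_comm]; exact h2.symm⟩
    rcases (Nat.dvd_prime h).1 h3 with h4 | h4
    · exact Subgroup.index_eq_one.1 h4
    · exfalso
      rw [h4] at h2
      have h5 : (H.subgroupOf M).relIndex X = 1 := by
        have := h.pos
        exact Nat.eq_of_mul_eq_mul_right this (by rw [h2, one_mul])
      exact hX.not_ge (Subgroup.relIndex_eq_one.1 h5)

/-- if all elements of order prime to `r` are trivial then `M` is an `r`-group -/
theorem isPGroup_of_forall {G : Type*} [Group G] [Finite G] {M : Subgroup G} {r : ℕ} (hr : r.Prime)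
    (h : ∀ x ∈ M, (orderOf x).Coprime r → x = 1) : IsPGroup r M := by
  rintro ⟨x, hx⟩
  have hpos : orderOf x ≠ 0 := (orderOf_pos x).ne'
  obtain ⟨a, m, hm, hxm⟩ := Nat.exists_eq_pow_mul_and_not_dvd hpos r hr.ne_one
  refine ⟨a, ?_⟩
  apply Subtype.ext
  change x ^ r ^ a = 1
  apply h _ (M.pow_mem hx _)
  have h1 : orderOf (x ^ r ^ a) ∣ m := by
    apply orderOf_dvd_of_pow_eq_one
    rw [← pow_mul, ← hxm, pow_orderOf_eq_one]
  exact Nat.Coprime.coprime_dvd_left h1 ((hr.coprime_iff_not_dvd.2 hm).symm)

theorem mem_of_coprime {G : Type*} [Group G] [Finite G] {H M : Subgroup G} (hHM : H ≤ M)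
    (hn : M ≤ Subgroup.normalizer (H : Set G)) {x : G} (hx : x ∈ M)
    (hc : (orderOf x).Coprime (H.relIndex M)) : x ∈ H := by
  have hN : (H.subgroupOf M).Normal := (Subgroup.normal_subgroupOf_iff_le_normalizer hHM).2 hn
  have h1 : (⟨x, hx⟩ : M) ^ (H.subgroupOf M).index ∈ H.subgroupOf M :=
    Subgroup.pow_index_mem _ _
  have h2 : x ^ H.relIndex M ∈ H := Subgroup.mem_subgroupOf.1 h1
  obtain ⟨k, hk⟩ := exists_pow_eq_self_of_coprime hc.symm
  rw [← hk]
  exact H.pow_mem h2 _

/-- the subgroup generated by the elements of `M` of order prime to `r` -/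
def rRes {G : Type*} [Group G] (r : ℕ) (M : Subgroup G) : Subgroup G :=
  Subgroup.closure {x : G | x ∈ M ∧ (orderOf x).Coprime r}

theorem rRes_conj {G : Type*} [Group G] (r : ℕ) (M : Subgroup G) (g : G) :
    (rRes r M).map (MulAut.conj g).toMonoidHom = rRes r (M.map (MulAut.conj g).toMonoidHom) := by
  rw [rRes, MonoidHom.map_closure, rRes]
  congr 1
  ext y
  constructor
  · rintro ⟨x, ⟨hx, hx2⟩, rfl⟩
    refine ⟨⟨x, hx, rfl⟩, ?_⟩
    have : orderOf ((MulAut.conj g).toMonoidHom x) = orderOf x :=
      orderOf_injective _ (MulAut.conj g).injective x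
    rw [this]; exact hx2
  · rintro ⟨⟨x, hx, rfl⟩, hx2⟩
    refine ⟨x, ⟨hx, ?_⟩, rfl⟩
    have : orderOf ((MulAut.conj g).toMonoidHom x) = orderOf x :=
      orderOf_injective _ (MulAut.conj g).injective x
    rw [this] at hx2; exact hx2

/-- Let G be a finite non-abelian simple group, M a maximal subgroup of G and H a normal subgroup of M of prime index in M. Then G is generated by H together with one of its conjugates. -/
theorem result {G : Type*} [Group G] [Finite G] [IsSimpleGroup G] (hG : ¬ IsMulCommutative G) (M H : Subgroup G) (hmaxM : IsCoatom M) (hHM : H ≤ M) (hHn : (H.subgroupOf M).Normal) (hidx : (H.relIndex M).Prime) : ∃ g : G, H ⊔ H.map (MulAut.conj g).toMonoidHom = ⊤ := by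
  classical
  by_contra hcon
  push Not at hcon
  set r := H.relIndex M with hr
  haveI : Fact r.Prime := ⟨hidx⟩
  have hMN : M ≤ Subgroup.normalizer (H : Set G) :=
    (Subgroup.normal_subgroupOf_iff_le_normalizer hHM).1 hHn
  have hcoat : IsCoatom (H.subgroupOf M) := isCoatom_of_relIndex_prime hHM hidx
  have hMtop : M ≠ ⊤ := hmaxM.1
  have hHne : H ≠ M := by
    intro h
    apply hidx.ne_one
    rw [hr, h, Subgroup.relIndex_self]
  have hMbot : M ≠ ⊥ := by
    intro h
    apply hHne
    rw [h] at hHM ⊢
    exact le_bot_iff.1 hHM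
  have hHtop : H ≠ ⊤ := by
    intro h; rw [h] at hHM; exact hMtop (top_le_iff.1 hHM)
  have hNM : Subgroup.normalizer (M : Set G) = M := by
    rcases hmaxM.le_iff.1 (Subgroup.le_normalizer (H := M)) with h | h
    · rcases (normal_of_normalizer_eq_top h).eq_bot_or_eq_top with h1 | h1
      · exact absurd h1 hMbot
      · exact absurd h1 hMtop
    · exact h
  have key : ∀ g : G, g ∉ M → M ⊓ M.map (MulAut.conj g).toMonoidHom ≤ H := by
    intro g hg
    by_cases hHbot : H = ⊥
    · have h1 : H ≤ M ⊓ M.map (MulAut.conj g).toMonoidHom := by rw [hHbot]; exact bot_le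
      rcases eq_or_eq_of_isCoatom_subgroupOf hcoat h1 inf_le_left hHM with h2 | h2
      · exact h2.le
      · exfalso
        apply hg
        rw [← hNM]
        have h3 : M ≤ M.map (MulAut.conj g).toMonoidHom := inf_eq_left.1 h2
        rw [mem_normalizer_iff_conj]
        exact (Subgroup.eq_of_le_of_card_ge h3 (by rw [card_conj])).symm
    · have hNH : Subgroup.normalizer (H : Set G) = M := by
        rcases hmaxM.le_iff.1 hMN with h | h
        · rcases (normal_of_normalizer_eq_top h).eq_bot_or_eq_top with h1 | h1
          · exact absurd h1 hHbot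
          · exact absurd h1 hHtop
        · exact h
      have claim : ∀ g : G, g ∉ M → ¬ H ≤ M.map (MulAut.conj g).toMonoidHom := by
        intro g hg hle
        have hcard : Nat.card ↥(M.map (MulAut.conj g).toMonoidHom) = Nat.card M := card_conj M g
        have hrel : H.relIndex (M.map (MulAut.conj g).toMonoidHom) = r := by
          have h1 := Subgroup.relIndex_mul_relIndex ⊥ H M bot_le hHM
          have h2 := Subgroup.relIndex_mul_relIndex ⊥ H _ bot_le hle
          rw [Subgroup.relIndex_bot_left, Subgroup.relIndex_bot_left] at h1 h2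
          rw [hcard, ← h1] at h2
          exact Nat.eq_of_mul_eq_mul_left Nat.card_pos h2
        have h3 : rRes r M ≤ rRes r (M.map (MulAut.conj g).toMonoidHom) := by
          apply Subgroup.closure_mono
          rintro x ⟨hx, hx2⟩
          exact ⟨hle (mem_of_coprime hHM hMN hx hx2), hx2⟩
        have h4 : (rRes r M).map (MulAut.conj g).toMonoidHom = rRes r M := by
          symm
          apply Subgroup.eq_of_le_of_card_ge
          · rw [rRes_conj]; exact h3
          · rw [card_conj]
        have h5 : M ≤ Subgroup.normalizer (rRes r M : Set G) := by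
          intro y hy
          rw [mem_normalizer_iff_conj, rRes_conj, mem_normalizer_iff_conj.1 (Subgroup.le_normalizer hy)]
        have h6 : Subgroup.normalizer (rRes r M : Set G) = ⊤ := by
          rcases hmaxM.le_iff.1 h5 with h | h
          · exact h
          · exfalso; apply hg; rw [← h]; exact mem_normalizer_iff_conj.2 h4
        have h7 : rRes r M = ⊥ := by
          rcases (normal_of_normalizer_eq_top h6).eq_bot_or_eq_top with h1 | h1
          · exact h1
          · exfalso
            apply hMtop
            rw [eq_top_iff, ← h1, rRes, Subgroup.closure_le]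
            rintro x ⟨hx, _⟩
            exact hx
        have h8 : IsPGroup r M := by
          apply isPGroup_of_forall hidx
          intro x hx hx2
          have : x ∈ rRes r M := Subgroup.subset_closure ⟨hx, hx2⟩
          rw [h7] at this
          exact Subgroup.mem_bot.1 this
        have h9 : IsPGroup r ↥(M.map (MulAut.conj g).toMonoidHom) := isPGroup_conj h8 g
        have h10 : H < M.map (MulAut.conj g).toMonoidHom := by
          refine lt_of_le_of_ne hle ?_
          intro h
          apply hidx.ne_one
          rw [← hrel, ← h, Subgroup.relIndex_self]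
        have h11 := lt_inf_normalizer h9 h10
        have hcoat2 : IsCoatom (H.subgroupOf (M.map (MulAut.conj g).toMonoidHom)) :=
          isCoatom_of_relIndex_prime hle (by rw [hrel]; exact hidx)
        rcases eq_or_eq_of_isCoatom_subgroupOf hcoat2 h11.le inf_le_left hle with h12 | h12
        · exact h11.ne h12.symm
        · have h13 : M.map (MulAut.conj g).toMonoidHom ≤ M := by
            have := inf_eq_left.1 h12
            rwa [hNH] at this
          apply hg
          rw [← hNM]
          exact mem_normalizer_of_conj_le h13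
      intro m hm
      obtain ⟨hmM, hmg⟩ := Subgroup.mem_inf.1 hm
      by_contra hmH
      set L := H ⊔ H.map (MulAut.conj g).toMonoidHom with hL
      have hmL : m ∈ Subgroup.normalizer (L : Set G) := by
        rw [mem_normalizer_iff_conj, hL, conj_sup]
        have h1 : H.map (MulAut.conj m).toMonoidHom = H := mem_normalizer_iff_conj.1 (hMN hmM)
        have h2 : (H.map (MulAut.conj g).toMonoidHom).map (MulAut.conj m).toMonoidHom =
            H.map (MulAut.conj g).toMonoidHom := by
          rw [← mem_normalizer_iff_conj, ← conj_normalizer]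
          exact conj_mono g hMN hmg
        rw [h1, h2]
      have h1 : H ⊔ Subgroup.zpowers m = M := by
        rcases eq_or_eq_of_isCoatom_subgroupOf hcoat (X := H ⊔ Subgroup.zpowers m) le_sup_left
          (sup_le hHM (Subgroup.zpowers_le.2 hmM)) hHM with h2 | h2
        · exfalso; apply hmH
          rw [← h2]
          exact Subgroup.mem_sup_right (Subgroup.mem_zpowers m)
        · exact h2
      have h2 : M ≤ L ⊔ Subgroup.zpowers m := by
        rw [← h1]; exact sup_le_sup_right le_sup_left _
      rcases hmaxM.le_iff.1 h2 with h3 | h3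
      · have hLn : L.Normal := by
          apply normal_of_normalizer_eq_top
          rw [eq_top_iff, ← h3]
          exact sup_le Subgroup.le_normalizer (Subgroup.zpowers_le.2 hmL)
        rcases hLn.eq_bot_or_eq_top with h4 | h4
        · apply hHbot
          rw [eq_bot_iff, ← h4]; exact le_sup_left
        · exact hcon g h4
      · have h4 : L ≤ M := by rw [← h3]; exact le_sup_left
        have h5 : H.map (MulAut.conj g).toMonoidHom ≤ M := le_trans le_sup_right h4
        exact claim g⁻¹ (fun h => hg (by simpa using M.inv_mem h)) (conj_le_iff.1 h5)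
  obtain ⟨K, hK, hKM, hcomm⟩ := exists_normal_inf_eq hHM hMN (commutator_mem_of_isCoatom hHM hcoat hMN) key
  have hc : commutator G ≠ ⊥ := by
    intro h
    exact hG ((commutator_eq_bot_iff G).1 h)
  have hKtop : K = ⊤ := by
    rcases hK.eq_bot_or_eq_top with h | h
    · exfalso; apply hc; rw [eq_bot_iff, ← h]; exact hcomm
    · exact h
  rw [hKtop, top_inf_eq] at hKM
  exact hHne hKM.symm


end Cfsg.Agent.S3015
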