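import Cfsg.Statements.S3023
import Mathlib
import Cfsg.Agent.Lib.CharPLocal

set_option autoImplicit false
open Cfsg

namespace Cfsg.Agent.S3023

open Subgroup Lib.LocBase Lib.CharPLocal

theorem charP_equiv {A B : Type*} [Group A] [Group B] {p : ℕ} (e : A ≃* B)
    (h : centralizer (Cfsg.pCore p A : Set A) ≤ Cfsg.pCore p A) :
    centralizer (Cfsg.pCore p B : Set B) ≤ Cfsg.pCore p B := by
  have hm : (Cfsg.pCore p A).map e.toMonoidHom = Cfsg.pCore p B := Lib.Cores.map_pCore_equiv p e
  intro x hx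
  rw [← hm]
  refine ⟨e.symm x, h ?_, e.apply_symm_apply x⟩
  rw [mem_centralizer_iff]
  intro y hy
  apply e.injective
  rw [map_mul, map_mul, e.apply_symm_apply]
  exact mem_centralizer_iff.mp hx (e y) (hm ▸ mem_map_of_mem e.toMonoidHom hy)

/-- Let p be a prime, G a finite group of parabolic characteristic p (every p-local subgroup containing a Sylow p-subgroup of G has characteristic p), S a Sylow p-subgroup of G and G₁ a subnormal subgroup of G. If the centre of S ∩ G₁ is nontrivial and contained in the centre of S, then G₁ has parabolic characteristic p. -/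
theorem result {G : Type*} [Group G] [Finite G] {p : ℕ} [Fact p.Prime] (hG : Cfsg.IsOfParabolicCharacteristic p G) (S : Sylow p G) (G₁ : Subgroup G) (hsn : G₁.IsSubnormal) (hne : ((S : Subgroup G) ⊓ G₁) ⊓ Subgroup.centralizer (((S : Subgroup G) ⊓ G₁ : Subgroup G) : Set G) ≠ ⊥) (hle : ((S : Subgroup G) ⊓ G₁) ⊓ Subgroup.centralizer (((S : Subgroup G) ⊓ G₁ : Subgroup G) : Set G) ≤ (S : Subgroup G) ⊓ Subgroup.centralizer ((S : Subgroup G) : Set G)) : Cfsg.IsOfParabolicCharacteristic p ↥G₁ := by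
  have hsn' := subn_top_iff.mpr hsn
  have hS₁ : IsSyl p ((S : Subgroup G) ⊓ G₁) G₁ := hsn'.isSyl (isSyl_top S)
  obtain ⟨S₁, hS₁e⟩ := hS₁.exists_sylow
  rw [parabolicChar_iff S₁]
  intro z hz1 hz
  have hG' := (parabolicChar_iff S).mp hG
  have hz2 : (z : G) ≠ 1 := fun h => hz1 (Subtype.ext h)
  have hz3 : (z : G) ∈ Cfsg.omegaOne p ((S : Subgroup G) ⊓ centralizer ((S : Subgroup G) : Set G)) := by
    have h1 : Cfsg.omegaOne p ((S₁ : Subgroup ↥G₁) ⊓ centralizer ((S₁ : Subgroup ↥G₁) : Set ↥G₁)) ≤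
        (Cfsg.omegaOne p ((S : Subgroup G) ⊓ centralizer ((S : Subgroup G) : Set G))).comap G₁.subtype := by
      unfold Cfsg.omegaOne
      rw [closure_le]
      rintro x ⟨⟨hx1, hx2⟩, hx3⟩
      refine subset_closure ⟨?_, ?_⟩
      · apply hle
        rw [hS₁e] at hx1 hx2
        have hx1' := mem_subgroupOf.mp hx1
        refine ⟨hx1', ?_⟩
        refine mem_centralizer_iff.mpr ?_
        intro y hy
        have := mem_centralizer_iff.mp hx2 ⟨y, hy.2⟩ (mem_subgroupOf.mpr hy)
        exact congrArg Subtype.val this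
      · have := congrArg Subtype.val hx3
        simpa using this
    exact h1 hz
  have h4 := hG' z hz2 hz3
  set C := centralizer ({(z : G)} : Set G) with hC
  have h5 : Subn (G₁ ⊓ C) C := hsn'.inf le_top
  have h6 := h4.of_subn h5
  rw [isCharP_iff] at h6 ⊢
  have he : (centralizer ({z} : Set ↥G₁)).map G₁.subtype = G₁ ⊓ C := by
    ext x
    constructor
    · rintro ⟨y, hy, rfl⟩
      refine ⟨y.2, ?_⟩
      refine mem_centralizer_singleton_iff.mpr ?_
      exact congrArg Subtype.val (mem_centralizer_singleton_iff.mp hy)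
    · rintro ⟨hx1, hx2⟩
      refine ⟨⟨x, hx1⟩, ?_, rfl⟩
      refine mem_centralizer_singleton_iff.mpr ?_
      exact Subtype.ext (mem_centralizer_singleton_iff.mp hx2)
  let e : ↥(centralizer ({z} : Set ↥G₁)) ≃* ↥(G₁ ⊓ C) :=
    ((centralizer ({z} : Set ↥G₁)).equivMapOfInjective G₁.subtype G₁.subtype_injective).trans
      (MulEquiv.subgroupCongr he)
  exact charP_equiv e.symm h6

end Cfsg.Agent.S3023
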