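import Cfsg.Statements.S3025
import Mathlib
import Cfsg.Agent.Lib.UniqueInvolution

set_option autoImplicit false
open Cfsg

namespace Cfsg.Agent.S3025

open Subgroup

/-- Let F be a finite group and H a nontrivial subgroup of F that is contained in every nontrivial subgroup of F which H normalizes. Then F has a nontrivial normal subgroup N contained in every nontrivial normal subgroup of F (a unique minimal normal subgroup), N is simple, and one of the following holds: C_F(N) = 1; or H = N has prime order p, C_F(N) is cyclic of order a power of p, and F/C_F(N) is cyclic of order dividing p − 1; or H = N has order 2, N is central in F, and F is a generalized quaternion group. -/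
theorem result {F : Type*} [Group F] [Finite F] (H : Subgroup F) (hH : H ≠ ⊥)
    (hmin : ∀ R : Subgroup F, R ≠ ⊥ → H ≤ Subgroup.normalizer (R : Set F) → H ≤ R) :
    ∃ N : Subgroup F, N.Normal ∧ N ≠ ⊥ ∧ (∀ M : Subgroup F, M.Normal → M ≠ ⊥ → N ≤ M) ∧ IsSimpleGroup ↥N ∧
      (Subgroup.centralizer (N : Set F) = ⊥ ∨
       (H = N ∧ (Nat.card N).Prime ∧ IsCyclic ↥(Subgroup.centralizer (N : Set F)) ∧
          (∃ k : ℕ, 1 ≤ k ∧ Nat.card ↥(Subgroup.centralizer (N : Set F)) = Nat.card N ^ k) ∧
          (∃ g : F, Subgroup.centralizer (N : Set F) ⊔ Subgroup.zpowers g = ⊤) ∧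
          (Subgroup.centralizer (N : Set F)).index ∣ Nat.card N - 1) ∨
       (H = N ∧ Nat.card N = 2 ∧ Subgroup.centralizer (N : Set F) = ⊤ ∧
          ∃ k : ℕ, 1 ≤ k ∧ Nonempty (F ≃* QuaternionGroup (2 ^ k)))) := by
  classical
  set N : Subgroup F := normalClosure (H : Set F) with hNdef
  have hHN : H ≤ N := le_normalClosure
  have hN : N ≠ ⊥ := fun h => hH (le_bot_iff.mp (h ▸ hHN))
  have hNmin : ∀ M : Subgroup F, M.Normal → M ≠ ⊥ → N ≤ M := by
    intro M hM hM1
    apply normalClosure_le_normal
    exact hmin M hM1 (by rw [normalizer_eq_top]; exact le_top)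
  have hsimple : IsSimpleGroup ↥N := by
    have hnt : Nontrivial N := (Subgroup.nontrivial_iff_ne_bot N).mpr hN
    refine ⟨fun K hK => ?_⟩
    by_cases hK1 : K = ⊥
    · exact Or.inl hK1
    · right
      have hK'1 : K.map N.subtype ≠ ⊥ := by
        intro h
        exact hK1 ((Subgroup.map_eq_bot_iff_of_injective _ N.subtype_injective).mp h)
      have key : ∀ f : F, ∀ h ∈ H, f * h * f⁻¹ ∈ K.map N.subtype := by
        intro f
        have h1 := hmin ((K.map N.subtype).map (MulAut.conj f⁻¹).toMonoidHom) (by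
          intro h
          exact hK'1 ((Subgroup.map_eq_bot_iff_of_injective _ (MulAut.conj f⁻¹).injective).mp h)) (by
          intro n hn
          have hn' : n ∈ N := hHN hn
          refine mem_normalizer_fintype ?_
          rintro _ ⟨_, ⟨k, hk, rfl⟩, rfl⟩
          have hfn : f * n * f⁻¹ ∈ N := (normalClosure_normal : N.Normal).conj_mem n hn' f
          refine ⟨_, ⟨⟨f * n * f⁻¹, hfn⟩ * k * ⟨f * n * f⁻¹, hfn⟩⁻¹, hK.conj_mem k hk _, rfl⟩, ?_⟩
          simp only [Subgroup.coe_subtype, Subgroup.coe_mul, Subgroup.coe_inv,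
            MulEquiv.coe_toMonoidHom, MulAut.conj_apply]
          group)
        intro h hh
        obtain ⟨x, hx, e⟩ := h1 hh
        have e1 : f * h * f⁻¹ = x := by
          rw [← e]
          simp only [MulEquiv.coe_toMonoidHom, MulAut.conj_apply]
          group
        rw [e1]
        exact hx
      have h2 : N ≤ K.map N.subtype := by
        refine (closure_le (K := K.map N.subtype) (k := Group.conjugatesOfSet (H : Set F))).mpr ?_
        intro x hx
        obtain ⟨y, hy, hyx⟩ := Group.mem_conjugatesOfSet_iff.mp hx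
        obtain ⟨g, rfl⟩ := isConj_iff.mp hyx
        exact key g y hy
      rw [eq_top_iff]
      intro x _
      obtain ⟨y, hy, e⟩ := h2 x.2
      have : y = x := Subtype.ext e
      exact this ▸ hy
  refine ⟨N, normalClosure_normal, hN, hNmin, hsimple, ?_⟩
  by_cases hC : centralizer (N : Set F) = ⊥
  · exact Or.inl hC
  right
  have hNn : N.Normal := normalClosure_normal
  have hNC : N ≤ centralizer (N : Set F) := hNmin _ inferInstance hC
  let _ : CommGroup N := { (inferInstance : Group N) with
    mul_comm := fun a b => Subtype.ext (mem_centralizer_iff.mp (hNC b.2) a a.2) }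
  have hp : (Nat.card N).Prime := IsSimpleGroup.prime_card
  set p := Nat.card N with hpdef
  have : Fact p.Prime := ⟨hp⟩
  have hHN' : H = N := by
    refine le_antisymm hHN ?_
    have h1 : Nat.card H = p := by
      have h2 : Nat.card H ∣ p := Subgroup.card_dvd_of_le hHN
      rcases (Nat.dvd_prime hp).mp h2 with h | h
      · exact absurd (Subgroup.card_eq_one.mp h) hH
      · exact h
    exact (Subgroup.eq_of_le_of_card_ge hHN (by rw [h1])).ge
  set C : Subgroup F := centralizer (N : Set F) with hCdef
  have hle : ∀ R : Subgroup F, R ≤ C → R ≠ ⊥ → N ≤ R := by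
    intro R hR hR1
    rw [← hHN']
    refine hmin R hR1 ?_
    intro n hn
    refine mem_normalizer_fintype ?_
    intro r hr
    have h1 : n * r = r * n := mem_centralizer_iff.mp (hR hr) n (hHN hn)
    rw [h1, mul_inv_cancel_right]
    exact hr
  have hz : ∀ x : F, x ∈ C → orderOf x = p → zpowers x = N := by
    intro x hx hxp
    have h1 := hle (zpowers x) (zpowers_le.mpr hx) (by
      rw [Ne, zpowers_eq_bot]
      rintro rfl
      rw [orderOf_one] at hxp
      exact hp.one_lt.ne hxp)
    exact (Subgroup.eq_of_le_of_card_ge h1 (by rw [Nat.card_zpowers, hxp])).symm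
  have hCcard : ∃ k : ℕ, 1 ≤ k ∧ Nat.card C = p ^ k := by
    have h1 : Nat.card C = p ^ (Nat.card C).primeFactorsList.length := by
      apply Nat.eq_prime_pow_of_unique_prime_dvd Nat.card_pos.ne'
      intro r hr hrC
      have : Fact r.Prime := ⟨hr⟩
      obtain ⟨x, hx⟩ := exists_prime_orderOf_dvd_card' r hrC
      have h2 := hle (zpowers (x : F)) (zpowers_le.mpr x.2) (by
        rw [Ne, zpowers_eq_bot]
        intro h
        have : x = 1 := Subtype.ext h
        rw [this, orderOf_one] at hx
        exact hr.one_lt.ne hx)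
      have h3 := Subgroup.card_dvd_of_le h2
      rw [Nat.card_zpowers, Subgroup.orderOf_coe, hx] at h3
      exact ((Nat.prime_dvd_prime_iff_eq hp hr).mp h3).symm
    refine ⟨_, ?_, h1⟩
    by_contra h0
    have h4 : (Nat.card C).primeFactorsList.length = 0 := by omega
    rw [h4, pow_zero] at h1
    exact hC (Subgroup.card_eq_one.mp h1)
  obtain ⟨k, hk, hCk⟩ := hCcard
  have hCp : IsPGroup p C := IsPGroup.of_card hCk
  have hcq := Lib.UniqueInvolution.isCyclic_or_quaternion hCp (by
    intro x y hx hy
    rw [← Subgroup.orderOf_coe] at hx hy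
    have h1 := hz x x.2 hx
    have h2 := hz y y.2 hy
    have h3 : (y : F) ∈ zpowers (x : F) := by
      rw [h1, ← h2]
      exact mem_zpowers _
    obtain ⟨k, hk⟩ := mem_zpowers_iff.mp h3
    exact mem_zpowers_iff.mpr ⟨k, Subtype.ext (by simpa using hk)⟩)
  -- the quotient `F / C`
  let f : F →* MulAut N := MulAut.conjNormal
  have hker : f.ker = C := by
    ext x
    rw [MonoidHom.mem_ker, hCdef, mem_centralizer_iff]
    constructor
    · intro h n hn
      have h1 : f x ⟨n, hn⟩ = ⟨n, hn⟩ := by rw [h]; rfl
      have h2 : x * n * x⁻¹ = n := by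
        have := congrArg Subtype.val h1
        rwa [MulAut.conjNormal_apply] at this
      calc n * x = (x * n * x⁻¹) * x := by rw [h2]
        _ = _ := by group
    · intro h
      ext n
      rw [MulAut.conjNormal_apply, ← h n n.2, mul_inv_cancel_right]
      rfl
  have hNcyc : IsCyclic N := isCyclic_of_prime_card rfl
  let e := IsCyclic.mulAutMulEquiv N
  have hcardA : Nat.card (MulAut N) = p - 1 := by
    rw [Nat.card_congr e.toEquiv, Nat.card_eq_fintype_card, ZMod.card_units_eq_totient,
      Nat.totient_prime hp]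
  have hAcyc : IsCyclic (MulAut N) := by
    have : IsCyclic (ZMod (Nat.card N))ˣ := inferInstance
    exact isCyclic_of_surjective e.symm e.symm.surjective
  have hgen : ∃ g : F, C ⊔ zpowers g = ⊤ := by
    have h1 : IsCyclic f.range := inferInstance
    obtain ⟨⟨_, ⟨g, rfl⟩⟩, hg⟩ := h1.exists_generator
    refine ⟨g, ?_⟩
    rw [eq_top_iff]
    intro x _
    obtain ⟨m, hm⟩ := mem_zpowers_iff.mp (hg ⟨f x, ⟨x, rfl⟩⟩)
    have h2 : f g ^ m = f x := by simpa using congrArg Subtype.val hm
    have h3 : x * (g ^ m)⁻¹ ∈ f.ker := by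
      rw [MonoidHom.mem_ker, map_mul, map_inv, map_zpow, h2, mul_inv_cancel]
    rw [hker] at h3
    have h4 : x = (x * (g ^ m)⁻¹) * g ^ m := by group
    rw [h4]
    exact mul_mem (mem_sup_left h3) (mem_sup_right ⟨m, rfl⟩)
  have hidx : C.index ∣ p - 1 := by
    rw [← hker, Subgroup.index_ker, ← hcardA]
    exact Subgroup.card_subgroup_dvd_card _
  rcases hcq with hcyc | ⟨hp2, n, hn, ⟨eq⟩⟩
  · left
    exact ⟨hHN', hp, hcyc, ⟨k, hk, hCk⟩, hgen, hidx⟩
  · right
    have hCtop : C = ⊤ := by
      rw [← Subgroup.index_eq_one]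
      rw [hp2] at hidx
      exact Nat.dvd_one.mp hidx
    refine ⟨hHN', hp2, hCtop, n, hn, ⟨?_⟩⟩
    exact (Subgroup.topEquiv.symm.trans (MulEquiv.subgroupCongr hCtop.symm)).trans eq

end Cfsg.Agent.S3025
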