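import Cfsg.Statements.S3053
import Cfsg.Agent.Lib.ExtraP3
import Cfsg.Agent.Lib.LocBase

set_option autoImplicit false
open Cfsg

namespace Cfsg.Agent.S3053

open Subgroup Cfsg.Agent.Lib Cfsg.Agent.Lib.ExtraP3
open scoped commutatorElement

theorem zpow_conj {G : Type*} [Group G] {x a c : G} (h : x * a * x⁻¹ = a * c) (hc : x * c = c * x) (k : ℤ) :
    x ^ k * a * (x ^ k)⁻¹ = a * c ^ k := by
  have h1 : a⁻¹ * x * a⁻¹⁻¹ = c * x := by
    calc a⁻¹ * x * a⁻¹⁻¹ = a⁻¹ * (x * a * x⁻¹) * x := by group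
      _ = c * x := by rw [h]; group
  have h2 : (a⁻¹ * x * a⁻¹⁻¹) ^ k = a⁻¹ * x ^ k * a⁻¹⁻¹ := conj_zpow
  have hcx : Commute c x := hc.symm
  rw [h1, hcx.mul_zpow] at h2
  calc x ^ k * a * (x ^ k)⁻¹ = a * (a⁻¹ * x ^ k * a⁻¹⁻¹) * (x ^ k)⁻¹ := by group
    _ = a * c ^ k := by rw [← h2]; group

theorem result {G : Type*} [Group G] [Finite G]
    {p : ℕ} [Fact p.Prime] (hp : p ≠ 2) (P : Sylow p G) (hE : Cfsg.IsExtraspecial p ↥P)
    (hcard : Nat.card P = p ^ 3) (hexp : Monoid.exponent ↥P = p ^ 2) :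
    Cfsg.IsStronglyClosed ((Subgroup.center ↥P).map (P : Subgroup G).subtype) (P : Subgroup G) := by
  classical
  have hpp : p.Prime := Fact.out
  refine ⟨map_subtype_le _, ?_⟩
  rintro _ ⟨zP, hzP, rfl⟩ g hg
  obtain ⟨z, hzdef⟩ : ∃ z : G, z = (zP : G) := ⟨_, rfl⟩
  have hPs : (P : Subgroup G).subtype zP = z := hzdef.symm
  rw [hPs] at hg ⊢
  have hzPmem : z ∈ (P : Subgroup G) := by rw [hzdef]; exact zP.2
  by_cases hz1 : z = 1
  · rw [hz1]; simp
  by_contra hyZ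
  obtain ⟨y, hydef⟩ : ∃ y : G, y = g * z * g⁻¹ := ⟨_, rfl⟩
  rw [← hydef] at hg hyZ
  -- centre facts in ambient form
  have hcen : ∀ w ∈ (P : Subgroup G), (∀ u ∈ (P : Subgroup G), u * w = w * u) →
      w ∈ (Subgroup.center ↥P).map (P : Subgroup G).subtype := by
    intro w hw hcomm
    refine ⟨⟨w, hw⟩, ?_, rfl⟩
    exact mem_center_iff.mpr (fun u => Subtype.ext (hcomm u u.2))
  have hzc : ∀ u ∈ (P : Subgroup G), u * z = z * u := by
    intro u hu
    rw [hzdef]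
    exact congrArg Subtype.val (mem_center_iff.mp hzP ⟨u, hu⟩)
  have hgen : ∀ w v : G, w ∈ (Subgroup.center ↥P).map (P : Subgroup G).subtype →
      v ∈ (Subgroup.center ↥P).map (P : Subgroup G).subtype → w ≠ 1 → v ∈ zpowers w := by
    rintro _ _ ⟨w, hw, rfl⟩ ⟨v, hv, rfl⟩ hw1
    have hw1' : w ≠ 1 := by
      rintro rfl; exact hw1 rfl
    obtain ⟨k, hk⟩ := mem_zpowers_center hE hw hw1' hv
    exact ⟨k, by rw [← hk]; rfl⟩
  have hcomm : ∀ u ∈ (P : Subgroup G), ∀ v ∈ (P : Subgroup G),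
      v⁻¹ * (u * v * u⁻¹) ∈ (Subgroup.center ↥P).map (P : Subgroup G).subtype := by
    intro u hu v hv
    refine ⟨⁅(⟨v, hv⟩ : P)⁻¹, (⟨u, hu⟩ : P)⁆, commutator_mem hE _ _, ?_⟩
    show v⁻¹ * u * v⁻¹⁻¹ * u⁻¹ = _
    group
  have hcenel : ∀ w ∈ (Subgroup.center ↥P).map (P : Subgroup G).subtype, w ∈ (P : Subgroup G) ∧
      (∀ u ∈ (P : Subgroup G), u * w = w * u) ∧ w ^ p = 1 := by
    rintro _ ⟨w, hw, rfl⟩
    refine ⟨w.2, ?_, ?_⟩
    · intro u hu
      exact congrArg Subtype.val (mem_center_iff.mp hw ⟨u, hu⟩)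
    · exact congrArg Subtype.val (center_pow hE hw)
  have hmulpow : ∀ u ∈ (P : Subgroup G), ∀ v ∈ (P : Subgroup G), (u * v) ^ p = u ^ p * v ^ p := by
    intro u hu v hv
    exact congrArg Subtype.val (mul_pow_p hp hE ⟨u, hu⟩ ⟨v, hv⟩)
  have hpowcen : ∀ u ∈ (P : Subgroup G), u ^ p ∈ (Subgroup.center ↥P).map (P : Subgroup G).subtype := by
    intro u hu
    exact ⟨⟨u, hu⟩ ^ p, pow_mem_center hE _, rfl⟩
  -- the subgroup A
  let A : Subgroup G :=
    { carrier := {a | a ∈ (P : Subgroup G) ∧ a ^ p = 1}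
      mul_mem' := by
        rintro a b ⟨ha, ha'⟩ ⟨hb, hb'⟩
        exact ⟨mul_mem ha hb, by rw [hmulpow a ha b hb, ha', hb', one_mul]⟩
      one_mem' := ⟨one_mem _, one_pow _⟩
      inv_mem' := by
        rintro a ⟨ha, ha'⟩
        exact ⟨inv_mem ha, by rw [inv_pow, ha', inv_one]⟩ }
  have hAP : A ≤ (P : Subgroup G) := fun a ha => ha.1
  have hzp : z ^ p = 1 := (hcenel z ⟨zP, hzP, hPs⟩).2.2
  have hyp : y ^ p = 1 := by
    rw [hydef, conj_pow, hzp]; group
  have hzA : z ∈ A := ⟨hzPmem, hzp⟩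
  have hyA : y ∈ A := ⟨hg, hyp⟩
  -- an element of order p^2
  obtain ⟨x, hxP, hxp⟩ : ∃ x ∈ (P : Subgroup G), x ^ p ≠ 1 := by
    by_contra hcon
    push Not at hcon
    have h1 : Monoid.exponent ↥P ∣ p := by
      apply Monoid.exponent_dvd_of_forall_pow_eq_one
      intro u
      exact Subtype.ext (hcon u u.2)
    rw [hexp] at h1
    have h2 := Nat.le_of_dvd hpp.pos h1
    have := hpp.one_lt
    nlinarith
  have hxA : x ∉ A := fun h => hxp h.2
  -- cardinality of A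
  have hcardA : Nat.card A = p ^ 2 := by
    let φ : ↥P →* ↥(center ↥P) :=
      { toFun := fun u => ⟨u ^ p, pow_mem_center hE u⟩
        map_one' := Subtype.ext (one_pow _)
        map_mul' := fun u v => Subtype.ext (mul_pow_p hp hE u v) }
    have hker : φ.ker = A.subgroupOf (P : Subgroup G) := by
      ext u
      rw [MonoidHom.mem_ker, mem_subgroupOf]
      constructor
      · intro h
        exact ⟨u.2, by simpa [φ] using congrArg (fun v : ↥(center ↥P) => ((v : ↥P) : G)) h⟩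
      · intro h
        exact Subtype.ext (Subtype.ext h.2)
    have h1 : Nat.card (A.subgroupOf (P : Subgroup G)) = Nat.card A :=
      Nat.card_congr (Subgroup.subgroupOfEquivOfLe hAP).toEquiv
    have h2 : Nat.card A * Nat.card φ.range = p ^ 3 := by
      have h2' := Subgroup.card_mul_index φ.ker
      rw [Subgroup.index_ker] at h2'
      have h1' : Nat.card φ.ker = Nat.card A := by rw [hker]; exact h1
      rw [h1'] at h2'
      exact h2'.trans hcard
    have h3 : Nat.card φ.range ≤ p := by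
      have := Subgroup.card_le_card_group φ.range
      rwa [hE.2] at this
    have h4 : Nat.card A ∣ p ^ 3 := Dvd.intro _ h2
    obtain ⟨i, hi, hi2⟩ := (Nat.dvd_prime_pow hpp).mp h4
    have h5 : i ≠ 3 := by
      rintro rfl
      apply hxA
      have : A = (P : Subgroup G) := Subgroup.eq_of_le_of_card_ge hAP (by rw [hi2, hcard])
      rw [this]; exact hxP
    have h6 : 2 ≤ i := by
      by_contra hlt
      push Not at hlt
      have h7 : Nat.card A ≤ p := by
        rw [hi2]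
        calc p ^ i ≤ p ^ 1 := Nat.pow_le_pow_right hpp.pos (by omega)
          _ = p := pow_one p
      have h8 : p ^ 3 ≤ p * p := by
        calc p ^ 3 = Nat.card A * Nat.card φ.range := h2.symm
          _ ≤ p * p := Nat.mul_le_mul h7 h3
      have := hpp.one_lt
      nlinarith
    have h9 : i = 2 := by omega
    rw [hi2, h9]
  have hAcomm : ∀ a ∈ A, ∀ b ∈ A, a * b = b * a := by
    have h1 : IsMulCommutative A := by
      have := IsPGroup.isMulCommutative_of_card_eq_prime_sq hcardA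
      exact this
    intro a ha b hb
    exact congrArg Subtype.val (h1.is_comm.comm ⟨a, ha⟩ ⟨b, hb⟩)
  -- centralizers
  have hC : ∀ w ∈ A, w ∉ (Subgroup.center ↥P).map (P : Subgroup G).subtype →
      ∀ c ∈ (P : Subgroup G), c * w = w * c → c ∈ A := by
    intro w hw hwc c hc hcw
    by_contra hcA
    apply hwc
    apply hcen w hw.1
    let C : Subgroup G := (P : Subgroup G) ⊓ centralizer {w}
    have h1 : A ≤ C := by
      intro a ha
      exact ⟨hAP ha, mem_centralizer_singleton_iff.mpr (hAcomm a ha w hw)⟩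
    have h2 : c ∈ C := ⟨hc, mem_centralizer_singleton_iff.mpr hcw⟩
    have h3 : Nat.card C ∣ p ^ 3 := by
      rw [← hcard]; exact Subgroup.card_dvd_of_le inf_le_left
    obtain ⟨i, hi, hi2⟩ := (Nat.dvd_prime_pow hpp).mp h3
    have h4 : i = 3 := by
      by_contra hne
      have h5 : Nat.card C ≤ Nat.card A := by
        rw [hi2, hcardA]
        exact Nat.pow_le_pow_right hpp.pos (by omega)
      have h6 : A = C := Subgroup.eq_of_le_of_card_ge h1 h5
      apply hcA; rw [h6]; exact h2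
    have h7 : C = (P : Subgroup G) := by
      apply Subgroup.eq_of_le_of_card_ge inf_le_left
      rw [hi2, h4, hcard]
    intro u hu
    have : u ∈ C := by rw [h7]; exact hu
    exact mem_centralizer_singleton_iff.mp this.2
  have hAn : ∀ u ∈ (P : Subgroup G), ∀ a ∈ A, u * a * u⁻¹ ∈ A := by
    intro u hu a ha
    refine ⟨mul_mem (mul_mem hu ha.1) (inv_mem hu), ?_⟩
    rw [conj_pow, ha.2]; group
  -- the element n
  obtain ⟨n, hnA, hnz⟩ : ∃ n : G, (∀ a ∈ A, n * a * n⁻¹ ∈ A) ∧ n * z * n⁻¹ = y := by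
    have hle : ((g • P : Sylow p G) : Subgroup G) ≤ centralizer {y} := by
      rintro _ ⟨u, hu, rfl⟩
      rw [mem_centralizer_singleton_iff]
      show g * u * g⁻¹ * y = y * (g * u * g⁻¹)
      rw [hydef]
      calc g * u * g⁻¹ * (g * z * g⁻¹) = g * (u * z) * g⁻¹ := by group
        _ = g * (z * u) * g⁻¹ := by rw [hzc u hu]
        _ = g * z * g⁻¹ * (g * u * g⁻¹) := by group
    have hApg : IsPGroup p A := P.2.to_le hAP
    have hAle : A ≤ centralizer {y} := by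
      intro a ha
      rw [mem_centralizer_singleton_iff]
      exact hAcomm a ha y hyA
    obtain ⟨h, hh, hle2⟩ := (LocBase.isSyl_of_sylow_le hle).exists_conj_le hApg hAle
    have hm : ∀ a ∈ A, (g⁻¹ * h) * a * (g⁻¹ * h)⁻¹ ∈ A := by
      intro a ha
      have h1 : h * a * h⁻¹ ∈ ((g • P : Sylow p G) : Subgroup G) := hle2 ⟨a, ha, by simp⟩
      obtain ⟨u, hu, hu2⟩ := h1
      have hu3 : g * u * g⁻¹ = h * a * h⁻¹ := hu2
      have h2 : (g⁻¹ * h) * a * (g⁻¹ * h)⁻¹ = u := by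
        calc (g⁻¹ * h) * a * (g⁻¹ * h)⁻¹ = g⁻¹ * (h * a * h⁻¹) * g := by group
          _ = u := by rw [← hu3]; group
      rw [h2]
      refine ⟨hu, ?_⟩
      rw [← h2, conj_pow, ha.2]; group
    have hm2 : g⁻¹ * h ∈ normalizer (A : Set G) := by
      apply LocBase.mem_normalizer_of_map_conj_le
      rintro _ ⟨a, ha, rfl⟩
      exact hm a ha
    refine ⟨h⁻¹ * g, ?_, ?_⟩
    · intro a ha
      have h1 := (mem_normalizer_iff.mp (inv_mem hm2) a).mp ha
      have h2 : (g⁻¹ * h)⁻¹ = h⁻¹ * g := by group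
      rw [h2] at h1
      exact h1
    · have h1 : h * y = y * h := mem_centralizer_singleton_iff.mp hh
      calc h⁻¹ * g * z * (h⁻¹ * g)⁻¹ = h⁻¹ * (g * z * g⁻¹) * h := by group
        _ = h⁻¹ * (y * h) := by rw [← hydef]; group
        _ = y := by rw [← h1]; group
  have hnN : n ∈ normalizer (A : Set G) := by
    apply LocBase.mem_normalizer_of_map_conj_le
    rintro _ ⟨a, ha, rfl⟩
    exact hnA a ha
  have hnA' : ∀ a ∈ A, n⁻¹ * a * n ∈ A := by
    intro a ha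
    have h1 := (mem_normalizer_iff.mp (inv_mem hnN) a).mp ha
    simpa using h1
  have hPN : (P : Subgroup G) ≤ normalizer (A : Set G) := le_normalizer_iff.mpr hAn
  have hzZ : z ∈ (Subgroup.center ↥P).map (P : Subgroup G).subtype := ⟨zP, hzP, hPs⟩
  -- first transvection
  obtain ⟨X, hXP, hXz, hXy⟩ : ∃ X ∈ (P : Subgroup G), X * z * X⁻¹ = z ∧ X * y * X⁻¹ = y * z := by
    have h1 := hcomm x hxP y hg
    obtain ⟨z₁, hz₁⟩ : ∃ z₁, z₁ = y⁻¹ * (x * y * x⁻¹) := ⟨_, rfl⟩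
    rw [← hz₁] at h1
    have hz₁1 : z₁ ≠ 1 := by
      intro h
      apply hxA
      apply hC y hyA hyZ x hxP
      rw [hz₁] at h
      have h2 : x * y * x⁻¹ = y := by
        calc x * y * x⁻¹ = y * (y⁻¹ * (x * y * x⁻¹)) := by group
          _ = y := by rw [h, mul_one]
      calc x * y = (x * y * x⁻¹) * x := by group
        _ = y * x := by rw [h2]
    obtain ⟨i, hi⟩ := hgen z₁ z h1 hzZ hz₁1
    refine ⟨x ^ i, zpow_mem hxP i, ?_, ?_⟩
    · rw [hzc _ (zpow_mem hxP i)]; group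
    · have h3 : x * y * x⁻¹ = y * z₁ := by rw [hz₁]; group
      rw [zpow_conj h3 ((hcenel z₁ h1).2.1 x hxP) i]
      congr 1
  -- second transvection
  obtain ⟨X', hX'N, hX'y, hX'z⟩ : ∃ X' ∈ normalizer (A : Set G), X' * y * X'⁻¹ = y ∧ X' * z * X'⁻¹ = z * y⁻¹ := by
    obtain ⟨w, hw⟩ : ∃ w, w = n⁻¹ * z * n := ⟨_, rfl⟩
    have hwA : w ∈ A := by rw [hw]; exact hnA' z hzA
    have h1 := hcomm x hxP w hwA.1
    obtain ⟨z₂, hz₂⟩ : ∃ z₂, z₂ = w⁻¹ * (x * w * x⁻¹) := ⟨_, rfl⟩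
    rw [← hz₂] at h1
    have hwZ : w ∉ (Subgroup.center ↥P).map (P : Subgroup G).subtype := by
      intro hwc
      have hw1 : w ≠ 1 := by
        intro h
        apply hz1
        rw [hw] at h
        calc z = n * (n⁻¹ * z * n) * n⁻¹ := by group
          _ = 1 := by rw [h]; group
      obtain ⟨k, hk⟩ := hgen w z hwc hzZ hw1
      have h2 : y = z ^ k := by
        rw [← hnz, ← hk]
        show n * w ^ k * n⁻¹ = (w ^ k) ^ k
        rw [← conj_zpow]
        congr 1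
        rw [show w ^ k = z from hk, hw]; group
      apply hyZ
      rw [h2]
      exact zpow_mem hzZ k
    have hz₂1 : z₂ ≠ 1 := by
      intro h
      apply hxA
      apply hC w hwA hwZ x hxP
      rw [hz₂] at h
      have h2 : x * w * x⁻¹ = w := by
        calc x * w * x⁻¹ = w * (w⁻¹ * (x * w * x⁻¹)) := by group
          _ = w := by rw [h, mul_one]
      calc x * w = (x * w * x⁻¹) * x := by group
        _ = w * x := by rw [h2]
    obtain ⟨j, hj⟩ := hgen z₂ z⁻¹ h1 (inv_mem hzZ) hz₂1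
    have hj' : z₂ ^ j = z⁻¹ := hj
    have h3 : x * w * x⁻¹ = w * z₂ := by rw [hz₂]; group
    have h4 := zpow_conj h3 ((hcenel z₂ h1).2.1 x hxP) j
    refine ⟨n * x ^ j * n⁻¹, mul_mem (mul_mem hnN (hPN (zpow_mem hxP j))) (inv_mem hnN), ?_, ?_⟩
    · calc n * x ^ j * n⁻¹ * y * (n * x ^ j * n⁻¹)⁻¹ = n * (x ^ j * (n⁻¹ * y * n)) * (x ^ j)⁻¹ * n⁻¹ := by group
        _ = n * (x ^ j * z) * (x ^ j)⁻¹ * n⁻¹ := by rw [← hnz]; group
        _ = n * (z * x ^ j) * (x ^ j)⁻¹ * n⁻¹ := by rw [hzc _ (zpow_mem hxP j)]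
        _ = y := by rw [← hnz]; group
    · calc n * x ^ j * n⁻¹ * z * (n * x ^ j * n⁻¹)⁻¹ = n * (x ^ j * (n⁻¹ * z * n) * (x ^ j)⁻¹) * n⁻¹ := by group
        _ = n * (w * z⁻¹) * n⁻¹ := by rw [← hw, h4, hj']
        _ = (n * w * n⁻¹) * (n * z * n⁻¹)⁻¹ := by group
        _ = z * y⁻¹ := by rw [hnz, hw]; group
  -- the inverting element
  obtain ⟨hz', hy'⟩ := invert_of_transvections (hzc y hg).symm hXz hXy hX'y hX'z
  obtain ⟨t, ht⟩ : ∃ t, t = (X * X' * X) * (X * X' * X) := ⟨_, rfl⟩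
  rw [← ht] at hz' hy'
  have htN : t ∈ normalizer (A : Set G) := by
    have h1 : X ∈ normalizer (A : Set G) := hPN hXP
    rw [ht]
    exact mul_mem (mul_mem (mul_mem h1 hX'N) h1) (mul_mem (mul_mem h1 hX'N) h1)
  have hgenA : A = closure {z, y} := by
    symm
    apply Subgroup.eq_of_le_of_card_ge
    · rw [closure_le]
      rintro _ (rfl | rfl)
      · exact hzA
      · exact hyA
    · rw [hcardA]
      have hle : closure {z, y} ≤ A := by
        rw [closure_le]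
        rintro _ (rfl | rfl)
        · exact hzA
        · exact hyA
      have h1 : Nat.card (closure {z, y}) ∣ p ^ 2 := by
        rw [← hcardA]; exact Subgroup.card_dvd_of_le hle
      obtain ⟨i, hi, hi2⟩ := (Nat.dvd_prime_pow hpp).mp h1
      rw [hi2]
      apply Nat.pow_le_pow_right hpp.pos
      by_contra hlt
      push Not at hlt
      -- then closure = zpowers z
      have h2 : zpowers z ≤ closure {z, y} := by
        rw [zpowers_le]; exact subset_closure (by simp)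
      have h3 : Nat.card (zpowers z) = p := by
        rw [Nat.card_zpowers]
        rcases (Nat.dvd_prime hpp).mp (orderOf_dvd_of_pow_eq_one hzp) with h4 | h4
        · exfalso; exact hz1 (orderOf_eq_one_iff.mp h4)
        · exact h4
      have h5 : zpowers z = closure {z, y} := by
        apply Subgroup.eq_of_le_of_card_ge h2
        rw [h3, hi2]
        calc p ^ i ≤ p ^ 1 := Nat.pow_le_pow_right hpp.pos (by omega)
          _ = p := pow_one p
      have h6 : y ∈ zpowers z := by rw [h5]; exact subset_closure (by simp)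
      obtain ⟨k, hk⟩ := h6
      apply hyZ
      rw [← hk]
      exact zpow_mem hzZ k
  have hinvA : ∀ a ∈ A, t * a * t⁻¹ = a⁻¹ := by
    intro a ha
    rw [hgenA] at ha
    induction ha using closure_induction with
    | mem a ha =>
      rcases ha with rfl | rfl
      · exact hz'
      · exact hy'
    | one => group
    | mul a b ha hb iha ihb =>
      rw [← hgenA] at ha hb
      calc t * (a * b) * t⁻¹ = (t * a * t⁻¹) * (t * b * t⁻¹) := by group
        _ = a⁻¹ * b⁻¹ := by rw [iha, ihb]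
        _ = (a * b)⁻¹ := by rw [← mul_inv_rev, hAcomm b hb a ha]
    | inv a ha iha =>
      calc t * a⁻¹ * t⁻¹ = (t * a * t⁻¹)⁻¹ := by group
        _ = a⁻¹⁻¹ := by rw [iha]
  -- key: commutators of inverting elements with P centralize A
  have hkey : ∀ s : G, (∀ a ∈ A, s * a * s⁻¹ = a⁻¹) → ∀ u ∈ (P : Subgroup G),
      ∀ a ∈ A, (u⁻¹ * (s * u * s⁻¹)) * a = a * (u⁻¹ * (s * u * s⁻¹)) := by
    intro s hs u hu a ha
    have hsi : s⁻¹ * a * s = a⁻¹ := by
      have := hs a⁻¹ (inv_mem ha)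
      calc s⁻¹ * a * s = s⁻¹ * (a⁻¹⁻¹) * s := by group
        _ = s⁻¹ * (s * a⁻¹ * s⁻¹) * s := by rw [this]
        _ = a⁻¹ := by group
    have h1 : (s * u * s⁻¹) * a * (s * u * s⁻¹)⁻¹ = u * a * u⁻¹ := by
      calc (s * u * s⁻¹) * a * (s * u * s⁻¹)⁻¹ = s * (u * (s⁻¹ * a * s) * u⁻¹) * s⁻¹ := by group
        _ = s * (u * a⁻¹ * u⁻¹) * s⁻¹ := by rw [hsi]
        _ = (u * a⁻¹ * u⁻¹)⁻¹ := hs _ (hAn u hu _ (inv_mem ha))
        _ = u * a * u⁻¹ := by group
    calc (u⁻¹ * (s * u * s⁻¹)) * a = u⁻¹ * ((s * u * s⁻¹) * a * (s * u * s⁻¹)⁻¹) * (s * u * s⁻¹) := by group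
      _ = a * (u⁻¹ * (s * u * s⁻¹)) := by rw [h1]; group
  let C : Subgroup G := centralizer (A : Set G)
  have hPC : (P : Subgroup G) ≤ normalizer (C : Set G) := LocBase.le_normalizer_centralizer hPN
  have htP : ((t • P : Sylow p G) : Subgroup G) ≤ C ⊔ (P : Subgroup G) := by
    rintro _ ⟨u, hu, rfl⟩
    show t * u * t⁻¹ ∈ _
    have h1 : t * u * t⁻¹ = u * (u⁻¹ * (t * u * t⁻¹)) := by group
    rw [h1]
    refine mul_mem (mem_sup_right hu) (mem_sup_left ?_)
    rw [mem_centralizer_iff]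
    intro a ha
    exact (hkey t hinvA u hu a ha).symm
  have hSyl : LocBase.IsSyl p (P : Subgroup G) (C ⊔ (P : Subgroup G)) := LocBase.isSyl_of_sylow_le le_sup_right
  obtain ⟨k, hk, hle⟩ := hSyl.exists_conj_le (t • P).2 htP
  obtain ⟨q, hq, c, hc, rfl⟩ := LocBase.exists_mul_of_mem_sup_of_le' hPC hk
  have hct : ∀ u ∈ (P : Subgroup G), (c * t) * u * (c * t)⁻¹ ∈ (P : Subgroup G) := by
    intro u hu
    have h1 : (q * c) * (t * u * t⁻¹) * (q * c)⁻¹ ∈ (P : Subgroup G) :=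
      hle ⟨t * u * t⁻¹, ⟨u, hu, rfl⟩, by simp [mul_assoc]⟩
    have h2 : (c * t) * u * (c * t)⁻¹ = q⁻¹ * ((q * c) * (t * u * t⁻¹) * (q * c)⁻¹) * q := by group
    rw [h2]
    exact mul_mem (mul_mem (inv_mem hq) h1) hq
  have hctA : ∀ a ∈ A, (c * t) * a * (c * t)⁻¹ = a⁻¹ := by
    intro a ha
    have h1 : a⁻¹ * c = c * a⁻¹ := (mem_centralizer_iff.mp hc) _ (inv_mem ha)
    calc (c * t) * a * (c * t)⁻¹ = c * (t * a * t⁻¹) * c⁻¹ := by group
      _ = c * a⁻¹ * c⁻¹ := by rw [hinvA a ha]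
      _ = a⁻¹ := by rw [← h1]; group
  obtain ⟨a₀, ha₀⟩ : ∃ a₀, a₀ = x⁻¹ * ((c * t) * x * (c * t)⁻¹) := ⟨_, rfl⟩
  have ha₀P : a₀ ∈ (P : Subgroup G) := by rw [ha₀]; exact mul_mem (inv_mem hxP) (hct x hxP)
  have ha₀A : a₀ ∈ A := by
    apply hC y hyA hyZ a₀ ha₀P
    rw [ha₀]
    exact hkey (c * t) hctA x hxP y hyA
  have h1 : (c * t) * x ^ p * (c * t)⁻¹ = x ^ p := by
    rw [← conj_pow]
    have : (c * t) * x * (c * t)⁻¹ = x * a₀ := by rw [ha₀]; group
    rw [this, hmulpow x hxP a₀ ha₀P, ha₀A.2, mul_one]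
  have hxpZ := hcenel _ (hpowcen x hxP)
  have hxpA : x ^ p ∈ A := ⟨hxpZ.1, hxpZ.2.2⟩
  have h2 := hctA _ hxpA
  rw [h1] at h2
  have h3 : (x ^ p) ^ 2 = 1 := by
    rw [pow_two]
    calc x ^ p * x ^ p = x ^ p * (x ^ p)⁻¹ := by rw [← h2]
      _ = 1 := mul_inv_cancel _
  have h4 : (x ^ p) ^ p = 1 := hxpZ.2.2
  apply hxp
  have h5 : orderOf (x ^ p) ∣ 2 := orderOf_dvd_of_pow_eq_one h3
  have h6 : orderOf (x ^ p) ∣ p := orderOf_dvd_of_pow_eq_one h4
  have h7 : orderOf (x ^ p) ∣ 1 := by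
    have h8 : Nat.Coprime 2 p := (Nat.coprime_primes Nat.prime_two hpp).mpr (Ne.symm hp)
    rw [← h8.gcd_eq_one]
    exact Nat.dvd_gcd h5 h6
  exact orderOf_eq_one_iff.mp (Nat.dvd_one.mp h7)

end Cfsg.Agent.S3053
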