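import Cfsg.Statements.S3054
import Cfsg.Agent.Lib.ExtraTriG
-- import your own Cfsg.Agent.* helpers here

set_option autoImplicit false
open Cfsg

namespace Cfsg.Agent.S3054

/-- Let p be an odd prime and G a finite group with a Sylow p-subgroup P that is extraspecial of order p³ and exponent p. Suppose P contains three distinct subgroups A of order p² (each is elementary abelian of rank 2) such that every automorphism of A of order p is induced by conjugation by an element of G; equivalently the automorphism group induced on A by its normalizer contains the special linear group of A. Then p ≤ 13. -/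
theorem result {G : Type*} [Group G] [Finite G]
    {p : ℕ} [Fact p.Prime] (hp : p ≠ 2) (P : Sylow p G) (hE : Cfsg.IsExtraspecial p ↥P)
    (hcard : Nat.card P = p ^ 3) (hexp : Monoid.exponent ↥P = p)
    (A : Fin 3 → Subgroup G) (hA : Function.Injective A) (hAP : ∀ i, A i ≤ (P : Subgroup G))
    (hAcard : ∀ i, Nat.card ↥(A i) = p ^ 2)
    (hSL : ∀ i, ∀ φ : MulAut ↥(A i), orderOf φ = p → ∃ g : G, ∀ a : ↥(A i), (φ a : G) = g * (a : G) * g⁻¹) :
    p ≤ 13 := by
  obtain ⟨z, E⟩ := Lib.ExtraTri.Ext.of hE hcard hexp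
  choose v hv hvz using fun i => E.exists_v (hAcard i)
  have hzA : ∀ i, z ∈ A i := fun i => E.z_mem (hAP i) (hAcard i) (hv i) (hvz i)
  refine E.three hE.2 (fun i => ⟨v i, hAP i (hv i)⟩) hvz
    (fun i => E.of_SL (hAP i) (hAcard i) (hv i) (hvz i) (hSL i)) ?_
  intro i j hij a b hab
  apply hij
  apply hA
  have hvj : v i ∈ A j := by
    have h1 : v i = Lib.ExtraTri.pw (v j) a * Lib.ExtraTri.pw z b := hab
    rw [h1]
    exact mul_mem (Lib.ExtraTri.mem_of_pw (hv j) a) (Lib.ExtraTri.mem_of_pw (hzA j) b)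
  apply Subgroup.eq_of_le_of_card_ge
  · intro x hx
    obtain ⟨e, he⟩ := E.coords (hAP i) (hAcard i) (hv i) (hvz i) (hzA i)
    obtain ⟨y, hy⟩ := e.surjective ⟨x, hx⟩
    obtain ⟨⟨c, d⟩, rfl⟩ := Multiplicative.ofAdd.surjective y
    have h1 := he c d
    rw [hy] at h1
    have h2 : x = Lib.ExtraTri.pw (v i) c * Lib.ExtraTri.pw z d := h1
    rw [h2]
    exact mul_mem (Lib.ExtraTri.mem_of_pw hvj c) (Lib.ExtraTri.mem_of_pw (hzA j) d)
  · rw [hAcard, hAcard]

end Cfsg.Agent.S3054
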