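import Cfsg.Statements.S3055
import Cfsg.Agent.Lib.ExtraTriG
-- import your own Cfsg.Agent.* helpers here

set_option autoImplicit false
open Cfsg

namespace Cfsg.Agent.S3055

/-- Let p be an odd prime and G a finite group with a Sylow p-subgroup P that is extraspecial of order p³ and exponent p. If all nonidentity elements of P are conjugate in G, then p ≤ 7. -/
theorem result {G : Type*} [Group G] [Finite G]
    {p : ℕ} [Fact p.Prime] (hp : p ≠ 2) (P : Sylow p G) (hE : Cfsg.IsExtraspecial p ↥P)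
    (hcard : Nat.card P = p ^ 3) (hexp : Monoid.exponent ↥P = p)
    (hconj : ∀ x y : ↥P, x ≠ 1 → y ≠ 1 → ∃ g : G, g * (x : G) * g⁻¹ = (y : G)) :
    p ≤ 7 := by
  obtain ⟨z, E⟩ := Lib.ExtraTri.Ext.of hE hcard hexp
  refine E.all hE.2 ?_
  intro v hv hvz
  have hv1 : (⟨v, hv⟩ : ↥P) ≠ 1 := fun h =>
    hvz 0 (by rw [Lib.ExtraTri.pw_zero]; exact congrArg Subtype.val h)
  have hz1 : (⟨z, E.zP⟩ : ↥P) ≠ 1 := fun h => E.z1 (congrArg Subtype.val h)
  obtain ⟨g, hg⟩ := hconj ⟨v, hv⟩ ⟨z, E.zP⟩ hv1 hz1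
  exact E.of_conj hv hvz hg

end Cfsg.Agent.S3055
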