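import Cfsg.Statements.S3057
import Cfsg.Agent.Lib.SylowGraph2

set_option autoImplicit false
open Cfsg

namespace Cfsg.Agent.S3057

/-- Let p be a prime and G a finite p-solvable group of order divisible by p, with Sylow p-subgroup P. Then the Sylow p-subgroups of G fail to be chain-connected through nontrivial intersections (equivalently, G has a strongly p-embedded subgroup) if and only if O_p(G) = 1 and P is cyclic or, for p = 2, generalized quaternion. -/
theorem result {G : Type*} [Group G] [Finite G]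
    (p : ℕ) [Fact p.Prime] (hdiv : p ∣ Nat.card G) (hsol : Cfsg.IsPSolvable p G) (P : Sylow p G) :
    ¬ Cfsg.IsSylowChainConnected p G ↔
      Cfsg.pCore p G = ⊥ ∧ (IsCyclic ↥P ∨ (p = 2 ∧ ∃ n : ℕ, Nonempty (↥P ≃* QuaternionGroup (2 ^ n)))) := by
  have hp : p.Prime := Fact.out
  rw [Cfsg.Agent.Lib.SylowGraph.not_connected_iff]
  constructor
  · rintro ⟨H, hH⟩
    constructor
    · by_contra hcore
      apply hH.1
      obtain ⟨S, hS, -⟩ := hH.exists_sylow
      have h1 : Cfsg.pCore p G ≤ H :=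
        le_trans (Cfsg.Agent.Lib.LocBase.pCoreOf_top (G := G) p ▸
          (Cfsg.Agent.Lib.LocBase.isSyl_top S).pCoreOf_le) hS
      have hn : (Cfsg.pCore p G).Normal := inferInstance
      have h2 := hH.normalizer_le (Cfsg.Agent.Lib.LocBase.isPGroup_pCore p G) hcore h1
      rw [Subgroup.normalizer_eq_top] at h2
      exact top_le_iff.mp h2
    · obtain ⟨n, K, h0, hn, hmono, hnorm, hK⟩ := hsol
      -- the first term of order divisible by `p`
      have hex : ∃ i : ℕ, ∃ hi : i < n + 1, p ∣ Nat.card (K ⟨i, hi⟩) := by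
        refine ⟨n, Nat.lt_succ_self n, ?_⟩
        have : (⟨n, Nat.lt_succ_self n⟩ : Fin (n + 1)) = Fin.last n := rfl
        rw [this, hn, Subgroup.card_top]
        exact hdiv
      classical
      obtain ⟨i, ⟨hi, hdvd⟩, hmin⟩ : ∃ i : ℕ, (∃ hi : i < n + 1, p ∣ Nat.card (K ⟨i, hi⟩)) ∧
          ∀ j < i, ¬ ∃ hj : j < n + 1, p ∣ Nat.card (K ⟨j, hj⟩) :=
        ⟨Nat.find hex, Nat.find_spec hex, fun j hj => Nat.find_min hex hj⟩
      have hi0 : i ≠ 0 := by
        rintro rfl
        have : (⟨0, hi⟩ : Fin (n + 1)) = 0 := rfl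
        rw [this, h0, Subgroup.card_bot] at hdvd
        exact hp.one_lt.ne' (Nat.dvd_one.mp hdvd)
      obtain ⟨j, rfl⟩ := Nat.exists_eq_succ_of_ne_zero hi0
      have hj : j < n := by omega
      have hjK : ¬ p ∣ Nat.card (K ⟨j, by omega⟩) := fun h => hmin j (Nat.lt_succ_self j) ⟨by omega, h⟩
      have hle : K ⟨j, by omega⟩ ≤ K ⟨j + 1, hi⟩ := hmono (by simp [Fin.le_def])
      have hrel := hK ⟨j, hj⟩
      have e1 : (⟨j, hj⟩ : Fin n).castSucc = (⟨j, by omega⟩ : Fin (n + 1)) := rfl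
      have e2 : (⟨j, hj⟩ : Fin n).succ = (⟨j + 1, hi⟩ : Fin (n + 1)) := rfl
      rw [e1, e2] at hrel
      have hi' : ∃ m : ℕ, (K ⟨j, by omega⟩).relIndex (K ⟨j + 1, hi⟩) = p ^ m := by
        rcases hrel with h | h
        · exact h
        · exfalso
          have h1 : Nat.card (K ⟨j, by omega⟩) * (K ⟨j, by omega⟩).relIndex (K ⟨j + 1, hi⟩) =
              Nat.card (K ⟨j + 1, hi⟩) := by
            have := Subgroup.relIndex_mul_relIndex ⊥ (K ⟨j, by omega⟩) (K ⟨j + 1, hi⟩) bot_le hle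
            rwa [Subgroup.relIndex_bot_left, Subgroup.relIndex_bot_left] at this
          have hd : p ∣ Nat.card (K ⟨j + 1, hi⟩) := hdvd
          rw [← h1] at hd
          rcases hp.dvd_mul.mp hd with h2 | h2
          · exact hjK h2
          · exact hp.one_lt.ne' (Nat.dvd_one.mp (h ▸ Nat.dvd_gcd h2 dvd_rfl))
      have hnj := hnorm ⟨j, by omega⟩
      have hni := hnorm ⟨j + 1, hi⟩
      have huniq := hH.unique_of_series hle hjK hdvd hi' P
      rcases Cfsg.Agent.Lib.UniqueInvolution.isCyclic_or_quaternion (p := p) (P := P) P.2 (by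
        intro x y hx hy
        obtain ⟨k, hk⟩ := huniq x x.2 y y.2 ((Subgroup.orderOf_coe x).trans hx)
          ((Subgroup.orderOf_coe y).trans hy)
        exact ⟨k, Subtype.ext (by simpa using hk)⟩) with h | ⟨h2, m, -, h⟩
      · exact Or.inl h
      · exact Or.inr ⟨h2, m, h⟩
  · rintro ⟨hcore, hP⟩
    apply Cfsg.Agent.Lib.SylowGraph.exists_SPE_of_unique hdiv P hcore
    intro x hx y hy hxp hyp
    obtain ⟨k, hk⟩ := Cfsg.Agent.Lib.SylowGraph.unique_of_cyclic_or_quaternion (p := p) hP ⟨x, hx⟩ ⟨y, hy⟩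
      (by rw [← Subgroup.orderOf_coe]; exact hxp) (by rw [← Subgroup.orderOf_coe]; exact hyp)
    exact ⟨k, by simpa using congrArg Subtype.val hk⟩

end Cfsg.Agent.S3057
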