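import Cfsg.Statements.S3060
import Cfsg.Agent.Lib.DStarThm

set_option autoImplicit false
open Cfsg

namespace Cfsg.Agent.S3060

theorem result {G : Type*} [Group G] [Finite G] {p : ℕ} [Fact p.Prime] (hp : p ≠ 2)
    (hc : Subgroup.centralizer (Cfsg.pCore p G : Set G) ≤ Cfsg.pCore p G)
    (hst : ∀ (P : Subgroup G) [P.Normal], IsPGroup p P → Cfsg.IsPStableOn p P) (S : Sylow p G) :
    (Cfsg.dStarOf (S : Subgroup G)).Normal :=
  Cfsg.Agent.Lib.DStarThm.dStar_normal hc hst S

end Cfsg.Agent.S3060
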