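import Cfsg.Statements.S3061
import Cfsg.Agent.Lib.DStar

set_option autoImplicit false
open Cfsg

namespace Cfsg.Agent.S3061

theorem result {S : Type*} [Group S] [Finite S] {p : ℕ} [Fact p.Prime] (hS : IsPGroup p S) :
    Cfsg.dStar S ∈ Cfsg.dStarFamily S := by
  haveI := hS.isNilpotent
  exact Cfsg.Agent.Lib.DStar.dStar_mem_family

end Cfsg.Agent.S3061
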