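import Cfsg.Statements.S3062
import Cfsg.Agent.Lib.AbReplace

set_option autoImplicit false
open Cfsg

namespace Cfsg.Agent.S3062

open Cfsg.Agent.Lib.DStar Cfsg.Agent.Lib.AbReplace Subgroup

theorem result {S : Type*} [Group S] [Finite S] {p : ℕ} [Fact p.Prime]
    (hS : IsPGroup p S) :
    Subgroup.center S ≤ Cfsg.dStar S ∧
    Cfsg.dStar S ≤ Cfsg.thompsonSubgroupA S ⊓ Subgroup.centralizer (Cfsg.thompsonSubgroupA S : Set S) ∧
    ∀ A : Subgroup S, A.Normal → IsMulCommutative A →
      (∀ B : Subgroup S, B.Normal → IsMulCommutative B → A ≤ B → B = A) → Cfsg.dStar S ≤ A := by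
  haveI := hS.isNilpotent
  refine ⟨center_le_dStar, ?_, fun A h1 h2 h3 => dStar_le_maximal A h1 h2 h3⟩
  have key : ∀ B ∈ Cfsg.maxAbelianSubgroups S, Cfsg.dStar S ≤ B := by
    intro B hB
    apply centralizes_maxAb inferInstance dStar_comm _ B hB
    intro C hC hn
    exact family_centralizes dStar_mem_family C hC hn
  apply le_inf
  · obtain ⟨B, hB⟩ := exists_maxAb (S := S)
    exact (key B hB).trans (le_sSup hB)
  · rw [Subgroup.le_centralizer_iff]
    apply sSup_le
    intro B hB
    rw [Subgroup.le_centralizer_iff]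
    intro d hd
    rw [mem_centralizer_iff]
    intro b hb
    exact comm_of hB.1 hb (key B hB hd)

end Cfsg.Agent.S3062
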