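import Cfsg.Statements.S3063
import Cfsg.Agent.Lib.AbReplace

set_option autoImplicit false
open Cfsg

namespace Cfsg.Agent.S3063

theorem result {S : Type*} [Group S] [Finite S] {p : ℕ} [Fact p.Prime]
    (hS : IsPGroup p S) (hmeta : IsMulCommutative ↥(commutator S))
    (A : Subgroup S) (hA : A ∈ Cfsg.maxAbelianSubgroups S) :
    ∃ B ∈ Cfsg.maxAbelianSubgroups S, B.Normal ∧ B ≤ Subgroup.normalClosure (A : Set S) :=
  Cfsg.Agent.Lib.AbReplace.metabelian hmeta A hA

end Cfsg.Agent.S3063
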