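import Cfsg.Statements.S3064
import Cfsg.Agent.Lib.FrobThm
import Cfsg.Agent.Lib.CoprimeAction

set_option autoImplicit false
open Cfsg

namespace Cfsg.Agent.S3064

open Cfsg Cfsg.Agent.Lib Cfsg.Agent.Lib.SubgroupTools Subgroup
open scoped Pointwise

theorem isPGroup_closure_pair {G : Type*} [Group G] {p : ℕ} [Fact p.Prime] {x y : G}
    (hx : IsPGroup p (zpowers x)) (hy : IsPGroup p (zpowers y)) (h : x * y = y * x) :
    IsPGroup p (closure ({x, y} : Set G)) := by
  have h1 : closure ({x, y} : Set G) = zpowers x ⊔ zpowers y := by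
    rw [Set.insert_eq, Subgroup.closure_union, zpowers_eq_closure, zpowers_eq_closure]
  rw [h1]
  apply hx.to_sup_of_normal_left' hy
  rw [zpowers_le, mem_normalizer_iff]
  intro z
  constructor
  · intro hz
    obtain ⟨k, rfl⟩ := mem_zpowers_iff.1 hz
    have : y * x ^ k * y⁻¹ = x ^ k := by
      have : Commute x y := h
      have h2 := this.zpow_left k
      rw [← h2.eq, mul_inv_cancel_right]
    rw [this]; exact zpow_mem (mem_zpowers x) k
  · intro hz
    obtain ⟨k, hk⟩ := mem_zpowers_iff.1 hz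
    have h2 : z = y⁻¹ * x ^ k * y := by rw [hk]; group
    have : Commute x y := h
    have h3 := this.zpow_left k
    rw [h2, mul_assoc, h3.eq, inv_mul_cancel_left]
    exact zpow_mem (mem_zpowers x) k

theorem step {G : Type*} [Group G] [Finite G] {p : ℕ} [hp : Fact p.Prime] (x : G)
    (hxp : IsPGroup p (zpowers x))
    (hiso : ∀ g : G, IsPGroup p (closure ({x, g * x * g⁻¹} : Set G)) → g * x * g⁻¹ = x)
    (hb : ∀ H : Subgroup G, (Nat.card H).Coprime p → (∀ h ∈ H, x * h * x⁻¹ ∈ H) →
      ∀ h ∈ H, x * h = h * x)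
    (IH : ∀ H : Subgroup G, H ≠ ⊤ → x ∈ H → H ≤ centralizer ({x} : Set G)) : x ∈ center G := by
  by_contra hx
  set C := centralizer ({x} : Set G) with hCdef
  have hxC : x ∈ C := mem_centralizer_singleton_iff.2 rfl
  have hC : C ≠ ⊤ := by
    intro h
    apply hx
    rw [mem_center_iff]
    intro g
    have : g ∈ C := by rw [h]; trivial
    exact mem_centralizer_singleton_iff.1 this
  have hconjp : ∀ g : G, IsPGroup p (zpowers (g * x * g⁻¹)) := by
    intro g
    have h1 : zpowers (g * x * g⁻¹) = (zpowers x).map (MulAut.conj g).toMonoidHom := by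
      rw [MonoidHom.map_zpowers]; rfl
    rw [h1]
    exact hxp.map _
  have hcomm : ∀ g : G, g * x * g⁻¹ ∈ C → g ∈ C := by
    intro g hg
    have h1 := hiso g (isPGroup_closure_pair hxp (hconjp g) (mem_centralizer_singleton_iff.1 hg).symm)
    rw [mem_centralizer_singleton_iff]
    calc g * x = g * x * g⁻¹ * g := by group
      _ = x * g := by rw [h1]
  have hcore : ∀ g : G, g ∉ C → ∀ y ∈ C, g⁻¹ * y * g ∈ C → y ∈ center G := by
    intro g hg y hy hy2
    by_contra hyc
    have h1 : centralizer ({y} : Set G) ≠ ⊤ := by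
      intro h
      apply hyc
      rw [mem_center_iff]
      intro g
      have : g ∈ centralizer ({y} : Set G) := by rw [h]; trivial
      exact mem_centralizer_singleton_iff.1 this
    have h2 := IH _ h1 (mem_centralizer_singleton_iff.2 (mem_centralizer_singleton_iff.1 hy).symm)
    apply hg
    apply hcomm
    apply h2
    rw [mem_centralizer_singleton_iff]
    have h3 := mem_centralizer_singleton_iff.1 hy2
    calc g * x * g⁻¹ * y = g * (x * (g⁻¹ * y * g)) * g⁻¹ := by group
      _ = g * ((g⁻¹ * y * g) * x) * g⁻¹ := by rw [h3]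
      _ = y * (g * x * g⁻¹) := by group
  have hZC : center G ≤ C := by
    intro z hz
    rw [mem_centralizer_singleton_iff]
    exact (mem_center_iff.1 hz x).symm
  let f := QuotientGroup.mk' (center G)
  have hf : Function.Surjective f := QuotientGroup.mk'_surjective _
  have hker : ∀ z, f z = 1 ↔ z ∈ center G := fun z => QuotientGroup.eq_one_iff z
  have hcomap : (C.map f).comap f = C := by
    rw [comap_map_eq, QuotientGroup.ker_mk', sup_eq_left.2 hZC]
  have hF : IsFrobeniusComplement (C.map f) := by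
    refine ⟨?_, ?_, ?_⟩
    · intro h
      apply hx
      rw [← hker]
      have : f x ∈ C.map f := mem_map_of_mem f hxC
      rw [h] at this
      exact this
    · intro h
      apply hC
      rw [← hcomap, h, comap_top]
    · intro g hg
      obtain ⟨g, rfl⟩ := hf g
      have hgC : g ∉ C := fun h => hg (mem_map_of_mem f h)
      rw [eq_bot_iff]
      rintro y ⟨hy1, hy2⟩
      obtain ⟨y, hy, rfl⟩ := hy1
      have hy2' : (f g)⁻¹ * f y * f g ∈ C.map f := mem_conj_smul.1 hy2
      rw [← map_inv, ← map_mul, ← map_mul] at hy2'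
      have h3 : g⁻¹ * y * g ∈ C := by rw [← hcomap]; exact hy2'
      rw [mem_bot, hker]
      exact hcore g hgC y hy h3
  obtain ⟨N, hN1, hNn, hNc⟩ := FrobThm.exists_kernel hF
  have hcop := FrobGroup.coprime_card_index hF
  have hNi : (C.map f).index = Nat.card N := hNc.index_eq_card
  have hpx : p ∣ Nat.card (C.map f) := by
    have h1 : IsPGroup p (zpowers (f x)) := by
      rw [← MonoidHom.map_zpowers]
      exact hxp.map f
    have h2 : f x ≠ 1 := fun h => hx ((hker x).1 h)
    obtain ⟨k, hk⟩ := h1.exists_card_eq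
    have h3 : k ≠ 0 := by
      rintro rfl
      rw [pow_zero, Nat.card_zpowers, orderOf_eq_one_iff] at hk
      exact h2 hk
    have h4 : Nat.card (zpowers (f x)) ∣ Nat.card (C.map f) :=
      card_dvd_of_le (by rw [zpowers_le]; exact mem_map_of_mem f hxC)
    rw [hk] at h4
    exact (dvd_pow_self p h3).trans h4
  have hpN : ¬ p ∣ Nat.card N := by
    intro h
    rw [hNi] at hcop
    exact hp.out.one_lt.ne' (Nat.Coprime.eq_one_of_dvd (Nat.Coprime.coprime_dvd_left hpx hcop) h)
  have hN1' : Nat.card N ≠ 1 := by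
    rw [← hNi]
    intro h
    exact hF.2.1 (index_eq_one.1 h)
  obtain ⟨r, hr, hrN⟩ := Nat.exists_prime_and_dvd hN1'
  haveI := Fact.mk hr
  have hrp : r ≠ p := by rintro rfl; exact hpN hrN
  have hcopA : (Nat.card (zpowers (f x))).Coprime (Nat.card N) := by
    have h1 : IsPGroup p (zpowers (f x)) := by
      rw [← MonoidHom.map_zpowers]
      exact hxp.map f
    obtain ⟨k, hk⟩ := h1.exists_card_eq
    rw [hk]
    exact Nat.Coprime.pow_left k ((Nat.Prime.coprime_iff_not_dvd hp.out).2 hpN)
  obtain ⟨R, hRN, hRr, hRi, hRx⟩ := CoprimeAction.exists_invariant_sylow (A := zpowers (f x)) (K := N)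
    le_normalizer_of_normal hcopA (Or.inl inferInstance) r
  have hR1 : R ≠ ⊥ := by
    rintro rfl
    rw [relIndex_bot_left] at hRi
    exact hRi hrN
  -- pull back
  set M : Subgroup G := R.comap f with hM
  have hZM : center G ≤ M := by
    intro z hz
    rw [hM, mem_comap, (hker z).2 hz]
    exact one_mem _
  obtain ⟨S⟩ : Nonempty (Sylow r M) := inferInstance
  obtain ⟨hR1M, hR1r, hR1i⟩ := CoprimeAction.sylow_map_subtype_props S
  set R₁ := (S : Subgroup M).map M.subtype with hR₁
  have hmapM : M.map f = R := map_comap_eq_self_of_surjective hf R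
  have hmapR : R₁.map f = R := by
    apply le_antisymm (by rw [← hmapM]; exact map_mono hR1M)
    rw [← relIndex_eq_one]
    have h1 : (R₁.map f).relIndex R ∣ R₁.relIndex M := by
      rw [← hmapM, ← relIndex_comap]
      exact relIndex_dvd_of_le_left _ (le_comap_map _ _)
    have h2 : ∃ k : ℕ, (R₁.map f).relIndex R = r ^ k := by
      have h3 : (R₁.map f).relIndex R ∣ Nat.card R := relIndex_dvd_card _ _
      obtain ⟨k, hk⟩ := hRr.exists_card_eq
      rw [hk] at h3
      obtain ⟨j, _, hj⟩ := (Nat.dvd_prime_pow hr).1 h3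
      exact ⟨j, hj⟩
    obtain ⟨k, hk⟩ := h2
    rw [hk] at h1 ⊢
    rcases Nat.eq_zero_or_pos k with rfl | hk0
    · rfl
    · exact absurd ((dvd_pow_self r hk0.ne').trans h1) hR1i
  have hdec : ∀ m ∈ M, ∃ y ∈ R₁, ∃ z ∈ center G, y * z = m := by
    intro m hm
    have h1 : f m ∈ R₁.map f := by rw [hmapR]; exact hm
    obtain ⟨y, hy, hym⟩ := h1
    refine ⟨y, hy, y⁻¹ * m, ?_, by group⟩
    rw [← hker, map_mul, map_inv, hym, inv_mul_cancel]
  have hMN : M ≤ normalizer (R₁ : Set G) := by
    intro m hm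
    obtain ⟨y, hy, z, hz, rfl⟩ := hdec m hm
    apply mul_mem (le_normalizer hy)
    rw [mem_normalizer_iff]
    intro w
    have : z * w * z⁻¹ = w := by rw [← mem_center_iff.1 hz w, mul_inv_cancel_right]
    rw [this]
  have hxM : ∀ m ∈ M, x * m * x⁻¹ ∈ M := by
    intro m hm
    rw [hM, mem_comap, map_mul, map_mul, map_inv]
    exact (mem_normalizer_iff.1 (hRx (mem_zpowers (f x))) (f m)).1 hm
  have hxR : ∀ h ∈ R₁, x * h * x⁻¹ ∈ R₁ := by
    have h1 : MulAut.conj x • R₁ ≤ M := by
      intro y hy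
      rw [mem_conj_smul] at hy
      have := hxM _ (hR1M hy)
      have h2 : x * (x⁻¹ * y * x) * x⁻¹ = y := by group
      rwa [h2] at this
    have h2 : IsPGroup r (MulAut.conj x • R₁ : Subgroup G) := hR1r.map _
    have h3 : IsPGroup r (R₁ ⊔ MulAut.conj x • R₁ : Subgroup G) :=
      hR1r.to_sup_of_normal_left' h2 (h1.trans hMN)
    have h4 : R₁.relIndex (R₁ ⊔ MulAut.conj x • R₁) = 1 := by
      have h5 : R₁.relIndex (R₁ ⊔ MulAut.conj x • R₁) ∣ R₁.relIndex M :=
        (Dvd.intro _ (relIndex_mul_relIndex _ _ _ le_sup_left (sup_le hR1M h1)))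
      have h6 : R₁.relIndex (R₁ ⊔ MulAut.conj x • R₁) ∣ Nat.card ↥(R₁ ⊔ MulAut.conj x • R₁) :=
        relIndex_dvd_card _ _
      obtain ⟨k, hk⟩ := h3.exists_card_eq
      rw [hk] at h6
      obtain ⟨j, _, hj⟩ := (Nat.dvd_prime_pow hr).1 h6
      rw [hj] at h5 ⊢
      rcases Nat.eq_zero_or_pos j with rfl | hj0
      · rfl
      · exact absurd ((dvd_pow_self r hj0.ne').trans h5) hR1i
    rw [relIndex_eq_one] at h4
    intro h hh
    apply h4
    apply mem_sup_right
    rw [mem_conj_smul]
    have : x⁻¹ * (x * h * x⁻¹) * x = h := by group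
    rwa [this]
  have hcopR : (Nat.card R₁).Coprime p := by
    obtain ⟨k, hk⟩ := hR1r.exists_card_eq
    rw [hk]
    exact Nat.Coprime.pow_left k ((Nat.coprime_primes hr hp.out).2 hrp)
  have hcen := hb R₁ hcopR hxR
  apply hR1
  have h1 : R ≤ N ⊓ C.map f := by
    refine le_inf hRN ?_
    rw [← hmapR]
    apply map_mono
    intro h hh
    rw [mem_centralizer_singleton_iff]
    exact (hcen h hh).symm
  rw [hNc.disjoint.eq_bot] at h1
  exact le_bot_iff.1 h1

universe u

theorem main {p : ℕ} [hp : Fact p.Prime] (n : ℕ) : ∀ {G : Type u} [Group G] [Finite G], Nat.card G = n → ∀ (x : G)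
    (hxp : IsPGroup p (zpowers x))
    (hiso : ∀ g : G, IsPGroup p (closure ({x, g * x * g⁻¹} : Set G)) → g * x * g⁻¹ = x)
    (hb : ∀ H : Subgroup G, (Nat.card H).Coprime p → (∀ h ∈ H, x * h * x⁻¹ ∈ H) →
      ∀ h ∈ H, x * h = h * x), x ∈ center G := by
  induction n using Nat.strong_induction_on with
  | _ n ih =>
  intro G _ _ hn x hxp hiso hb
  apply step x hxp hiso hb
  intro H hH hxH
  have hlt : Nat.card H < n := by
    rw [← hn]
    exact lt_of_le_of_ne (card_le_card_group H) fun h => hH (eq_top_of_card_eq H h)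
  have h1 : (⟨x, hxH⟩ : H) ∈ center H := by
    apply ih _ hlt rfl
    · have h2 : zpowers (⟨x, hxH⟩ : H) = (zpowers x).subgroupOf H := by
        apply map_injective H.subtype_injective
        rw [MonoidHom.map_zpowers, subgroupOf_map_subtype, inf_eq_left.2 (by rw [zpowers_le]; exact hxH)]
        rfl
      rw [h2]
      exact hxp.comap_of_injective _ H.subtype_injective
    · intro g hg
      apply Subtype.ext
      apply hiso
      have h2 : closure ({x, (g : G) * x * (g : G)⁻¹} : Set G) =
          (closure ({⟨x, hxH⟩, g * ⟨x, hxH⟩ * g⁻¹} : Set H)).map H.subtype := by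
        rw [MonoidHom.map_closure, Set.image_pair]; rfl
      rw [h2]
      exact hg.map _
    · intro K hK hKx h hh
      apply Subtype.ext
      apply hb (K.map H.subtype)
      · rwa [card_map_of_injective H.subtype_injective]
      · rintro _ ⟨k, hk, rfl⟩
        exact ⟨_, hKx k hk, rfl⟩
      · exact mem_map_of_mem _ hh
  intro y hy
  rw [mem_centralizer_singleton_iff]
  have := mem_center_iff.1 h1 ⟨y, hy⟩
  exact congrArg Subtype.val this

/-- Let S be a Sylow p-subgroup of the finite group G and x an element of S such that (i) x is the only G-conjugate of x lying in S, and (ii) x centralizes every subgroup of order prime to p that it normalizes. Then x lies in the centre of G. -/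
theorem result {G : Type*} [Group G] [Finite G] {p : ℕ} [Fact p.Prime]
    (S : Sylow p G) (x : G) (hx : x ∈ S)
    (hU : ∀ g : G, g⁻¹ * x * g ∈ S → g⁻¹ * x * g = x)
    (hb : ∀ H : Subgroup G, (Nat.card H).Coprime p → (∀ h ∈ H, x * h * x⁻¹ ∈ H) → ∀ h ∈ H, x * h = h * x) :
    x ∈ Subgroup.center G := by
  apply main (p := p) (Nat.card G) rfl x
  · obtain ⟨k, hk⟩ := S.isPGroup'.exists_card_eq
    have h1 : Subgroup.zpowers x ≤ S := by rw [Subgroup.zpowers_le]; exact hx
    exact S.isPGroup'.to_le h1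
  · intro g hg
    obtain ⟨T, hT⟩ := hg.exists_le_sylow
    obtain ⟨h, hh⟩ := MulAction.exists_smul_eq G S T
    have h1 : x ∈ (T : Subgroup G) := hT (Subgroup.subset_closure (by simp))
    have h2 : g * x * g⁻¹ ∈ (T : Subgroup G) := hT (Subgroup.subset_closure (by simp))
    rw [← hh] at h1 h2
    have h1' : h⁻¹ * x * h ∈ (S : Subgroup G) := by
      have : x ∈ MulAut.conj h • (S : Subgroup G) := h1
      exact Lib.SubgroupTools.mem_conj_smul.1 this
    have h2' : h⁻¹ * (g * x * g⁻¹) * h ∈ (S : Subgroup G) := by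
      have : g * x * g⁻¹ ∈ MulAut.conj h • (S : Subgroup G) := h2
      exact Lib.SubgroupTools.mem_conj_smul.1 this
    have h3 := hU h h1'
    have h4 := hU (g⁻¹ * h) (by
      have : (g⁻¹ * h)⁻¹ * x * (g⁻¹ * h) = h⁻¹ * (g * x * g⁻¹) * h := by group
      rw [this]; exact h2')
    have h5 : g * x * g⁻¹ = h * ((g⁻¹ * h)⁻¹ * x * (g⁻¹ * h)) * h⁻¹ := by group
    rw [h5, h4, ← h3]
    have h6 : x * h = h * x := by
      calc x * h = h * (h⁻¹ * x * h) := by group
        _ = h * x := by rw [h3]
    rw [h3]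
    rw [← h6]; group
  · exact hb

end Cfsg.Agent.S3064
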