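import Cfsg.Statements.S3067
import Cfsg.Agent.Lib.CopInvCent2
import Cfsg.Agent.S0215

set_option autoImplicit false
open Cfsg

namespace Cfsg.Agent.S3067

open Subgroup in
theorem aux {G : Type*} [Group G] [Finite G] [IsSimpleGroup G]
    (hG : ¬ IsMulCommutative G) (τ : G) (hτ : orderOf τ = 2) (α : MulAut G) (p : ℕ) [hp : Fact p.Prime]
    (hα : α ^ p = 1) (hα1 : α ≠ 1) (hpG : ¬ p ∣ Nat.card G) (hC : centralizer {τ} ≤ Lib.CopInvCent.fx α) : False := by
  have h2 : Fact (Nat.Prime 2) := ⟨Nat.prime_two⟩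
  have hodd := Lib.CopInvCent.odd_index hα hpG hτ hC
  have hτC : τ ∈ Lib.CopInvCent.fx α := hC (mem_centralizer_singleton_iff.2 rfl)
  have hz : ∀ x ∈ zpowers τ, α x ∈ zpowers τ := by
    intro x hx
    have h3 : zpowers τ ≤ Lib.CopInvCent.fx α := by rw [zpowers_le]; exact hτC
    rw [Lib.CopInvCent.mem_fx.1 (h3 hx)]; exact hx
  have h1 : IsPGroup 2 (zpowers τ) := IsPGroup.of_card (n := 1) (by rw [Nat.card_zpowers, hτ, pow_one])
  obtain ⟨P, hP1, -, hP2, hPi, hP⟩ := Lib.CopInvCent.exists_inv_sylow_ge hα hpG (N := ⊤) hz (fun x _ => trivial) le_top h1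
  rw [relIndex_top_right] at hPi
  have hPC := Lib.CopInvCent.inv_two_le hα hpG hodd hP hP2
  obtain ⟨N, hN, hNo, hNc⟩ := S0215.result (hP2.toSylow hPi) τ hτ (hP1 (mem_zpowers τ)) (by
    intro g hg
    exact Lib.CopInvCent.subsingleton hα hα1 hpG hτ hC (hPC hg) (isConj_iff.2 ⟨g, rfl⟩) hτC (IsConj.refl τ))
  have hcen : τ ∈ center G := by
    have hNbot : N = ⊥ := by
      rcases hN.eq_bot_or_eq_top with h | h
      · exact h
      · exfalso
        rw [h, card_top] at hNo
        have h3 : 2 ∣ Nat.card G := hτ ▸ orderOf_dvd_natCard τ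
        exact (Nat.not_even_iff_odd.2 hNo) (even_iff_two_dvd.2 h3)
    rw [mem_center_iff]
    intro g
    have h3 := hNc g
    rw [hNbot, mem_bot] at h3
    have h4 : τ * g * (g * τ)⁻¹ = 1 := by rw [mul_inv_rev, ← h3]; group
    exact (mul_inv_eq_one.1 h4).symm
  rcases (inferInstance : (center G).Normal).eq_bot_or_eq_top with h | h
  · rw [h, mem_bot] at hcen
    rw [hcen, orderOf_one] at hτ
    omega
  · apply hG
    constructor
    constructor
    intro a b
    have : a ∈ center G := by rw [h]; trivial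
    exact (mem_center_iff.1 this b).symm

/-- Let G be a finite non-abelian simple group, τ an involution of G, and α a nontrivial automorphism of G whose order is coprime to the order of G. Then α moves some element of the centralizer of τ: α does not fix C_G(τ) elementwise. -/
theorem result {G : Type*} [Group G] [Finite G] [IsSimpleGroup G]
    (hG : ¬ IsMulCommutative G) (τ : G) (hτ : orderOf τ = 2) (α : MulAut G) (hα : α ≠ 1)
    (hcop : (orderOf α).Coprime (Nat.card G)) :
    ∃ c ∈ Subgroup.centralizer ({τ} : Set G), α c ≠ c := by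
  by_contra hcon
  push Not at hcon
  have hfin : Finite (MulAut G) := inferInstance
  have h1 : orderOf α ≠ 1 := fun h => hα (orderOf_eq_one_iff.1 h)
  obtain ⟨p, hp, hpd⟩ := Nat.exists_prime_and_dvd h1
  have : Fact p.Prime := ⟨hp⟩
  have h0 : orderOf α ≠ 0 := (orderOf_pos α).ne'
  have h2 : orderOf (α ^ (orderOf α / p)) = p := orderOf_pow_orderOf_div h0 hpd
  apply aux hG τ hτ (α ^ (orderOf α / p)) p (by have h3 := pow_orderOf_eq_one (α ^ (orderOf α / p)); rwa [h2] at h3)
    (fun h => by rw [h, orderOf_one] at h2; exact hp.one_lt.ne h2)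
    (fun h => by
      have h3 : p ∣ Nat.gcd (orderOf α) (Nat.card G) := Nat.dvd_gcd hpd h
      rw [hcop] at h3
      exact hp.one_lt.ne' (Nat.dvd_one.1 h3))
  intro c hc
  rw [Lib.CopInvCent.mem_fx]
  have h3 : ∀ n : ℕ, (α ^ n) c = c := by
    intro n
    induction n with
    | zero => simp
    | succ n ih => rw [pow_succ, MulAut.mul_apply, hcon c hc, ih]
  exact h3 _

end Cfsg.Agent.S3067
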