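import Cfsg.Statements.S3071
import Cfsg.Agent.Lib.FusionCentric

set_option autoImplicit false
open Cfsg

namespace Cfsg.Agent.S3071

/-- Let p be an odd prime and S a Sylow p-subgroup of the finite group G such that, for every subgroup P with Z(S) ≤ P ≤ S, the normalizer N_G(P) has no section isomorphic to SL₂(p). Let J(S) be the subgroup generated by the abelian subgroups of S of largest order. Then two elements of S are conjugate in G if and only if they are conjugate in N_G(Z(J(S))). -/
theorem result {G : Type*} [Group G] [Finite G] {p : ℕ} [Fact p.Prime]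
    (hp : p ≠ 2) (S : Sylow p G)
    (hfree : ∀ P : Subgroup G, (S : Subgroup G) ⊓ Subgroup.centralizer ((S : Subgroup G) : Set G) ≤ P → P ≤ S →
      ¬ ∃ (H K : Subgroup G) (hK : (K.subgroupOf H).Normal), H ≤ Subgroup.normalizer (P : Set G) ∧
        Nonempty ((H ⧸ K.subgroupOf H) ≃* Matrix.SpecialLinearGroup (Fin 2) (ZMod p))) :
    ∀ x ∈ S, ∀ y ∈ S, (∃ g : G, g * x * g⁻¹ = y) ↔
      ∃ n ∈ Subgroup.normalizer (Cfsg.centerThompsonAOf (S : Subgroup G) : Set G), n * x * n⁻¹ = y := by
  have hS := Lib.CFSylow.sylIn_sylow S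
  have hsf := Lib.FusionCentric.sl2_free hp hS (by
    intro P h1 h2 h3
    obtain ⟨K, f, hf⟩ := Lib.QdCtrl.involves_iff.1 h3
    refine hfree P h1 h2 ?_
    have h4 : Cfsg.Involves (Matrix.SpecialLinearGroup (Fin 2) (ZMod p)) ↥(K.map (Subgroup.normalizer (P : Set G)).subtype) := by
      have e := K.equivMapOfInjective _ (Subgroup.normalizer (P : Set G)).subtype_injective
      exact Lib.QdCtrl.involves_of_surjective (f.comp e.symm.toMonoidHom) (hf.comp e.symm.surjective)
    obtain ⟨L, g, hg⟩ := Lib.QdCtrl.involves_iff.1 h4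
    have e := L.equivMapOfInjective _ (K.map (Subgroup.normalizer (P : Set G)).subtype).subtype_injective
    set L' : Subgroup G := L.map (K.map (Subgroup.normalizer (P : Set G)).subtype).subtype with hL'
    have h5 : L' ≤ Subgroup.normalizer (P : Set G) := by
      rintro _ ⟨⟨_, y, hy, rfl⟩, _, rfl⟩
      exact y.2
    let φ : ↥L' →* Matrix.SpecialLinearGroup (Fin 2) (ZMod p) := g.comp e.symm.toMonoidHom
    have hφ : Function.Surjective φ := hg.comp e.symm.surjective
    have e2 : ((φ.ker).map L'.subtype).subgroupOf L' = φ.ker :=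
      Subgroup.comap_map_eq_self_of_injective L'.subtype_injective _
    have hn : (((φ.ker).map L'.subtype).subgroupOf L').Normal := by rw [e2]; infer_instance
    exact ⟨L', (φ.ker).map L'.subtype, hn, h5,
      ⟨(QuotientGroup.quotientMulEquivOfEq e2).trans (QuotientGroup.quotientKerEquivOfSurjective φ hφ)⟩⟩)
  intro x hx y hy
  constructor
  · rintro ⟨g, rfl⟩
    obtain ⟨n, hn, hn'⟩ := Lib.CFControl.sf_iff_set.1 hsf {x} g (Subgroup.mem_top g)
      (by simpa using hx) (by simpa using hy)
    exact ⟨n, hn.2, hn' x rfl⟩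
  · rintro ⟨n, -, h⟩
    exact ⟨n, h⟩

end Cfsg.Agent.S3071
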