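import Cfsg.Statements.S3072
import Cfsg.Agent.Lib.StrongAG

set_option autoImplicit false
open Cfsg

namespace Cfsg.Agent.S3072

/-- A strong form of the Alperin–Goldschmidt fusion Theorem. Let P be a Sylow p-subgroup of the finite group G, A a subset of P containing a nonidentity element, and g an element with g⁻¹Ag ⊆ P. Then g = c·x₁⋯xₙ·y with c ∈ C_G(A), y ∈ N_G(P) and, for each i, an element xᵢ and a subgroup Hᵢ ≤ P such that: N_P(Hᵢ) is a Sylow p-subgroup of N_G(Hᵢ); C_P(Hᵢ) ≤ Hᵢ; O_{p',p}(N_G(Hᵢ)) = Hᵢ·C_G(Hᵢ); the Sylow p-subgroups of N_G(Hᵢ)/Hᵢ are not chain-connected through nontrivial intersections (the quotient has a strongly p-embedded subgroup); xᵢ lies in O^p(Xᵢ), where Xᵢ/Hᵢ is the smallest normal subgroup of N_G(Hᵢ)/Hᵢ of order divisible by p; and (x₁⋯xᵢ₋₁)⁻¹A(x₁⋯xᵢ₋₁) ⊆ Hᵢ. -/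
theorem result {G : Type*} [Group G] [Finite G] {p : ℕ} [Fact p.Prime]
    (P : Sylow p G) (A : Set G) (hA : A ⊆ (P : Set G)) (hA1 : ∃ a ∈ A, a ≠ 1)
    (g : G) (hAg : (fun a => g⁻¹ * a * g) '' A ⊆ (P : Set G)) :
    ∃ (n : ℕ) (H X : Fin n → Subgroup G) (x : Fin n → G) (c y : G),
      c ∈ Subgroup.centralizer A ∧ y ∈ Subgroup.normalizer ((P : Subgroup G) : Set G) ∧
      g = c * (List.ofFn x).prod * y ∧
      ∀ i : Fin n,
        H i ≤ (P : Subgroup G) ∧
        ¬ p ∣ ((P : Subgroup G) ⊓ Subgroup.normalizer (H i : Set G)).relIndex (Subgroup.normalizer (H i : Set G)) ∧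
        (P : Subgroup G) ⊓ Subgroup.centralizer (H i : Set G) ≤ H i ∧
        (Cfsg.pPrimePCore p ↥(Subgroup.normalizer (H i : Set G))).map (Subgroup.normalizer (H i : Set G)).subtype =
          H i ⊔ Subgroup.centralizer (H i : Set G) ∧
        ¬ Cfsg.IsSylowChainConnected p
            (↥(Subgroup.normalizer (H i : Set G)) ⧸ (H i).subgroupOf (Subgroup.normalizer (H i : Set G))) ∧
        (H i ≤ X i ∧ X i ≤ Subgroup.normalizer (H i : Set G) ∧
          ((X i).subgroupOf (Subgroup.normalizer (H i : Set G))).Normal ∧ p ∣ (H i).relIndex (X i) ∧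
          ∀ Y : Subgroup G, H i ≤ Y → Y ≤ Subgroup.normalizer (H i : Set G) →
            (Y.subgroupOf (Subgroup.normalizer (H i : Set G))).Normal → p ∣ (H i).relIndex Y → X i ≤ Y) ∧
        x i ∈ (Cfsg.pResidual p ↥(X i)).map (X i).subtype ∧
        (fun a => (((List.ofFn x).take i.val).prod)⁻¹ * a * ((List.ofFn x).take i.val).prod) '' A ⊆ (H i : Set G) := by
  have hU : Subgroup.closure A ≤ (P : Subgroup G) := (Subgroup.closure_le _).2 hA
  have hUg : Lib.CFSylow.cj g⁻¹ (Subgroup.closure A) ≤ (P : Subgroup G) := by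
    rw [Lib.CFSylow.cj, Subgroup.map_le_iff_le_comap, Subgroup.closure_le]
    intro a ha
    have h1 := hAg ⟨a, ha, rfl⟩
    show g⁻¹ * a * (g⁻¹)⁻¹ ∈ (P : Subgroup G)
    rw [inv_inv]
    exact h1
  have hT := Lib.StrongAG.T_all (Lib.CFSylow.sylIn_sylow P) hU hUg
  obtain ⟨l, c, y, hc, hy, hg, hl⟩ := hT.normal_form
  have hof : List.ofFn (fun i : Fin l.length => (l[(i : ℕ)]).2.2) = l.map (fun a => a.2.2) :=
    List.ofFn_getElem_eq_map l (fun a => a.2.2)
  refine ⟨l.length, fun i => (l[(i : ℕ)]).1, fun i => (l[(i : ℕ)]).2.1, fun i => (l[(i : ℕ)]).2.2, c, y, ?_, hy, ?_, ?_⟩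
  · rwa [Subgroup.centralizer_closure] at hc
  · rw [hof]; exact hg
  · intro i
    obtain ⟨hok, hx, hle⟩ := hl i i.2
    refine ⟨hok.le, hok.syl, hok.cen, hok.core, hok.nconn, ⟨hok.leX, hok.Xle, hok.Xn, hok.Xp, hok.small⟩, ?_, ?_⟩
    · rw [Lib.LocBase.map_pResidual]; exact hx
    · rw [hof]
      rintro _ ⟨a, ha, rfl⟩
      apply hle
      refine ⟨a, Subgroup.subset_closure ha, ?_⟩
      show _ * a * (_)⁻¹ = _
      rw [inv_inv]

end Cfsg.Agent.S3072
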