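import Cfsg.Statements.S3073
import Cfsg.Agent.Lib.GoodChar
import Cfsg.Agent.Lib.LocBase

set_option autoImplicit false
universe u
open Cfsg

namespace Cfsg.Agent.S3073

/-- For an odd prime p, every finite p-group S has a characteristic subgroup K with C_S(K) ≤ K such that, whenever S is (isomorphic to) a Sylow p-subgroup of a finite group G, G has a normal p-complement if and only if N_G(K)/C_G(K) is a p-group, i.e. every element of N_G(K) of order prime to p centralizes K (K transported into G along the isomorphism). -/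
theorem result (p : ℕ) [Fact p.Prime] (hp : p ≠ 2)
    (S : Type u) [Group S] [Finite S] (hS : IsPGroup p S) :
    ∃ K : Subgroup S, K.Characteristic ∧ Subgroup.centralizer (K : Set S) ≤ K ∧
      ∀ (G : Type u) [Group G] [Finite G] (P : Sylow p G) (e : ↥(P : Subgroup G) ≃* S),
        Cfsg.HasNormalPComplement p G ↔
          ∀ g ∈ Subgroup.normalizer (((K.comap (e : ↥(P : Subgroup G) →* S)).map (P : Subgroup G).subtype : Subgroup G) : Set G),
            (orderOf g).Coprime p →
              g ∈ Subgroup.centralizer (((K.comap (e : ↥(P : Subgroup G) →* S)).map (P : Subgroup G).subtype : Subgroup G) : Set G) := by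
  classical
  refine ⟨Lib.GoodChar.GW.{u} p S, (Lib.GoodChar.good_GW hp S hS).1, (Lib.GoodChar.good_GW hp S hS).2.1, ?_⟩
  intro G _ _ P e
  have hPp : IsPGroup p ↥(P : Subgroup G) := P.isPGroup'
  have hK' : (((Lib.GoodChar.GW.{u} p S).comap (e : ↥(P : Subgroup G) →* S)).map (P : Subgroup G).subtype : Subgroup G) =
      (Lib.GoodChar.GW.{u} p ↥(P : Subgroup G)).map (P : Subgroup G).subtype := by
    congr 1
    have h1 := (Lib.GoodChar.isChar_GW hp).2 S ↥(P : Subgroup G) hS e.symm
    rw [← h1]
    ext x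
    constructor
    · intro hx
      exact ⟨e x, hx, e.symm_apply_apply x⟩
    · rintro ⟨s, hs, rfl⟩
      show e (e.symm s) ∈ Lib.GoodChar.GW.{u} p S
      rwa [e.apply_symm_apply]
  rw [hK']
  set K' : Subgroup G := (Lib.GoodChar.GW.{u} p ↥(P : Subgroup G)).map (P : Subgroup G).subtype with hK'd
  have hgood := Lib.GoodChar.good_GW hp ↥(P : Subgroup G) hPp
  have hK'P : K' ≤ P := Subgroup.map_subtype_le _
  have hK'p : IsPGroup p K' := hPp.to_le hK'P
  have hcP : (P : Subgroup G) ⊓ Subgroup.centralizer (K' : Set G) ≤ K' := by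
    rintro x ⟨hxP, hxc⟩
    refine ⟨⟨x, hxP⟩, hgood.2.1 ?_, rfl⟩
    rw [Subgroup.mem_centralizer_iff]
    intro y hy
    apply Subtype.ext
    exact Subgroup.mem_centralizer_iff.1 hxc y ⟨y, hy, rfl⟩
  constructor
  · intro h g hg hgo
    exact Lib.Transfer.mem_centralizer_of_hasNormalPComplement h K' hK'p g hg hgo
  · intro h
    have hctrl := Lib.GoodChar.nilCtrl_GW hp G
    refine hctrl (P : Subgroup G) (P : Subgroup G) (Lib.CFSylow.sylIn_sylow P) (Lib.ClosedCF.ClosedIn.self _ _) (fun _ => rfl) ?_
    show Cfsg.HasNormalPComplement p ↥(Subgroup.normalizer (K' : Set G))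
    rw [Lib.Transfer.hasNormalPComplement_iff_forall_centralizer]
    intro D hD g hg hgo
    have hPN : (P : Subgroup G) ≤ Subgroup.normalizer (K' : Set G) := by
      haveI : (Lib.GoodChar.GW.{u} p ↥(P : Subgroup G)).Characteristic := hgood.1
      haveI : (Lib.GoodChar.GW.{u} p ↥(P : Subgroup G)).Normal := inferInstance
      intro x hx
      rw [Subgroup.mem_normalizer_iff]
      have key : ∀ y : G, ∀ z ∈ (P : Subgroup G), y ∈ K' → z * y * z⁻¹ ∈ K' := by
        rintro _ z hz ⟨y, hy, rfl⟩
        exact ⟨(⟨z, hz⟩ : ↥(P : Subgroup G)) * y * (⟨z, hz⟩ : ↥(P : Subgroup G))⁻¹,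
          this.conj_mem y hy _, rfl⟩
      intro y
      refine ⟨key y x hx, fun h => ?_⟩
      have h1 := key _ x⁻¹ ((P : Subgroup G).inv_mem hx) h
      have h2 : x⁻¹ * (x * y * x⁻¹) * x⁻¹⁻¹ = y := by group
      rwa [h2] at h1
    have hCN : Subgroup.centralizer (K' : Set G) ≤ Subgroup.normalizer (K' : Set G) :=
      Subgroup.centralizer_le_normalizer _
    have hSyl : Lib.CFSylow.SylIn p ((P : Subgroup G) ⊓ Subgroup.centralizer (K' : Set G))
        (Subgroup.centralizer (K' : Set G)) := by
      refine (Lib.CFSylow.sylIn_sylow_of_le P hPN).inf_normal hCN ?_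
      exact Lib.LocBase.le_normalizer_centralizer le_rfl
    -- every p-subgroup centralizing K' lies in K'
    have hcent : ∀ Q : Subgroup G, IsPGroup p Q → Q ≤ Subgroup.centralizer (K' : Set G) → Q ≤ K' := by
      intro Q hQ hQc
      obtain ⟨c, hc, hcQ⟩ := hSyl.exists_conj_le hQ hQc
      have h1 := hcQ.trans hcP
      intro x hx
      obtain h2 : c * x * c⁻¹ ∈ K' := h1 ⟨x, hx, rfl⟩
      have h3 := Subgroup.mem_normalizer_iff.1 (hCN hc) x
      exact h3.2 h2
    set H : Subgroup G := D.map (Subgroup.normalizer (K' : Set G)).subtype ⊔ K' with hHd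
    have hDN : D.map (Subgroup.normalizer (K' : Set G)).subtype ≤ Subgroup.normalizer (K' : Set G) :=
      Subgroup.map_subtype_le _
    have hHp : IsPGroup p H := IsPGroup.to_sup_of_normal_right' (hD.map _) hK'p hDN
    have hHN : H ≤ Subgroup.normalizer (K' : Set G) := sup_le hDN Subgroup.le_normalizer
    have hgo' : Nat.Coprime (orderOf (g : G)) p := by rwa [Subgroup.orderOf_coe]
    have hgK := h g g.2 hgo'
    have hgH : (g : G) ∈ Subgroup.normalizer (H : Set G) := by
      rw [Lib.RelSylow.mem_normalizer_iff_map, hHd, Subgroup.map_sup,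
        Lib.RelSylow.conj_eq_of_mem_normalizer g.2]
      congr 1
      have h1 := Lib.RelSylow.conj_eq_of_mem_normalizer hg
      conv_rhs => rw [← h1]
      rw [Subgroup.map_map, Subgroup.map_map]
      rfl
    have hfin := Lib.NilWeak.mem_centralizer_of_self_centralizing hHp le_sup_right hHN
      (hcent _ (hHp.to_le inf_le_left) inf_le_right) hgH hgo' hgK
    rw [Subgroup.mem_centralizer_iff] at hfin ⊢
    intro d hd
    apply Subtype.ext
    exact hfin d ((le_sup_left : _ ≤ H) ⟨d, hd, rfl⟩)

end Cfsg.Agent.S3073
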