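import Cfsg.Statements.S3074
import Cfsg.Agent.Lib.QdFree
import Cfsg.Agent.Lib.ClSL2
import Cfsg.Agent.Lib.FrattiniQuot
import Cfsg.Agent.Lib.HBBasic
import Cfsg.Agent.Lib.Cores

set_option autoImplicit false
open Cfsg

namespace Cfsg.Agent.S3074

open Subgroup Cfsg.Agent.Lib
open scoped commutatorElement

theorem extra_of_card_cube {P : Type} [Group P] [Finite P] {p : ℕ} [hp : Fact p.Prime]
    (hcard : Nat.card P = p ^ 3) (hna : ∃ a b : P, a * b ≠ b * a) (hexp : ∀ x : P, x ^ p = 1) :
    Cfsg.IsExtraspecial p P ∧ Monoid.exponent P = p := by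
  have hP : IsPGroup p P := IsPGroup.of_card hcard
  have hpp : p.Prime := hp.out
  have hnt : Nontrivial P := by
    obtain ⟨a, b, hab⟩ := hna
    exact ⟨⟨a, 1, fun h => hab (by rw [h, one_mul, mul_one])⟩⟩
  have hZnt : Nontrivial (center P) := hP.center_nontrivial
  have hZdvd : Nat.card (center P) ∣ p ^ 3 := by rw [← hcard]; exact Subgroup.card_subgroup_dvd_card _
  obtain ⟨i, hi, hi2⟩ := (Nat.dvd_prime_pow hpp).mp hZdvd
  have hidx : Nat.card (center P) * (center P).index = p ^ 3 := by
    rw [Subgroup.card_mul_index, hcard]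
  have hi0 : i ≠ 0 := by
    rintro rfl
    rw [pow_zero] at hi2
    exact (Finite.one_lt_card (α := center P)).ne' hi2
  have hncyc : ¬ IsCyclic (P ⧸ center P) := by
    intro h
    obtain ⟨a, b, hab⟩ := hna
    apply hab
    exact commutative_of_cyclic_center_quotient (QuotientGroup.mk' (center P))
      (by rw [QuotientGroup.ker_mk']) a b
  have hi3 : i ≠ 3 := by
    rintro rfl
    rw [hi2] at hidx
    have h1 : (center P).index = 1 := by
      have : 0 < p ^ 3 := pow_pos hpp.pos 3
      exact Nat.eq_of_mul_eq_mul_left this (by rw [hidx, mul_one])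
    apply hncyc
    have : Subsingleton (P ⧸ center P) := by
      rw [← Finite.card_le_one_iff_subsingleton]
      exact h1.le
    infer_instance
  have hi22 : i ≠ 2 := by
    rintro rfl
    rw [hi2] at hidx
    have h1 : (center P).index = p := by
      have : 0 < p ^ 2 := pow_pos hpp.pos 2
      exact Nat.eq_of_mul_eq_mul_left this (by rw [hidx]; ring)
    apply hncyc
    exact isCyclic_of_prime_card (p := p) h1
  have hi1 : i = 1 := by omega
  subst hi1
  rw [pow_one] at hi2
  have hidx2 : (center P).index = p ^ 2 := by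
    rw [hi2] at hidx
    exact Nat.eq_of_mul_eq_mul_left hpp.pos (by rw [hidx]; ring)
  have hcomm : ∀ a b : P, ⁅a, b⁆ ∈ center P := by
    intro a b
    have h1 : IsMulCommutative (P ⧸ center P) := IsPGroup.isMulCommutative_of_card_eq_prime_sq (p := p) hidx2
    have h2 := h1.is_comm.comm (a : P ⧸ center P) (b : P ⧸ center P)
    rw [← QuotientGroup.eq_one_iff]
    rw [commutatorElement_def, QuotientGroup.mk_mul, QuotientGroup.mk_mul, QuotientGroup.mk_mul, h2,
      QuotientGroup.mk_inv, QuotientGroup.mk_inv]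
    group
  have hcle : commutator P ≤ center P := by
    rw [_root_.commutator_def, Subgroup.commutator_le]
    intro a _ b _
    exact hcomm a b
  have hceq : commutator P = center P := by
    have h1 : Nat.card (commutator P) ∣ p := by rw [← hi2]; exact Subgroup.card_dvd_of_le hcle
    rcases (Nat.dvd_prime hpp).mp h1 with h2 | h2
    · exfalso
      obtain ⟨a, b, hab⟩ := hna
      apply hab
      rw [Subgroup.card_eq_one] at h2
      have h3 : ⁅a, b⁆ ∈ commutator P := Subgroup.commutator_mem_commutator (mem_top a) (mem_top b)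
      rw [h2, Subgroup.mem_bot, commutatorElement_eq_one_iff_mul_comm] at h3
      exact h3
    · exact Subgroup.eq_of_le_of_card_ge hcle (by rw [h2, hi2])
  have hfr : frattini P = center P := by
    apply le_antisymm
    · exact FrattiniQuot.frattini_le hpp _ hcomm (fun a => by rw [hexp a]; exact one_mem _)
    · rw [← hceq]; exact HBBasic.commutator_le_frattini hP
  refine ⟨⟨⟨hP, hfr, hceq⟩, hi2⟩, ?_⟩
  rcases (Nat.dvd_prime hpp).mp (Monoid.exponent_dvd_of_forall_pow_eq_one hexp) with h | h
  · exfalso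
    rw [Monoid.exp_eq_one_iff] at h
    exact not_subsingleton P h
  · exact h

variable {p : ℕ} [hp : Fact p.Prime]

/-- `Qd(p)` as a set: `SL₂(p) × 𝔽_p²`. -/
def qdEquiv : ↥(Cfsg.qd p) ≃ Matrix.SpecialLinearGroup (Fin 2) (ZMod p) × (ZMod p × ZMod p) where
  toFun M := (⟨QdFree.qdBlock M, by
    obtain ⟨h1, h2, h3⟩ := QdFree.qd_last_row M.2
    have h4 := M.1.2
    rw [Matrix.det_fin_three] at h4
    rw [Matrix.det_fin_two]
    simp [QdFree.qdBlock]
    rw [h1, h2, h3] at h4
    linear_combination h4⟩, (M.1.1 0 2, M.1.1 1 2))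
  invFun x := QdFree.qdMk (x.1.1 0 0) (x.1.1 0 1) (x.1.1 1 0) (x.1.1 1 1) x.2.1 x.2.2 (by
    have := x.1.2
    rw [Matrix.det_fin_two] at this
    exact this)
  left_inv M := by
    obtain ⟨h1, h2, h3⟩ := QdFree.qd_last_row M.2
    apply Subtype.ext
    apply Subtype.ext
    ext i j
    fin_cases i <;> fin_cases j <;> simp [QdFree.qdMk, QdFree.qdBlock, h1, h2, h3]
  right_inv x := by
    obtain ⟨A, e, f⟩ := x
    refine Prod.ext ?_ (Prod.ext ?_ ?_)
    · apply Subtype.ext
      ext i j
      fin_cases i <;> fin_cases j <;> simp [QdFree.qdMk, QdFree.qdBlock]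
    · simp [QdFree.qdMk]
    · simp [QdFree.qdMk]

theorem card_qd : Nat.card ↥(Cfsg.qd p) = p ^ 3 * (p ^ 2 - 1) := by
  rw [Nat.card_congr qdEquiv, Nat.card_prod, Nat.card_prod, Nat.card_zmod, ClSL2.card_SL2 (ZMod.card p)]
  ring

theorem pow_eq_one_of_pElem (hp2 : p ≠ 2) {M : ↥(Cfsg.qd p)} {k : ℕ} (hM : M ^ (p ^ k) = 1) : M ^ p = 1 := by
  have h1 : (M.1.1) ^ (p ^ k) = 1 := by
    have := congrArg (fun x : ↥(Cfsg.qd p) => x.1.1) hM
    simpa using this
  have h2 := QdFree.sub_one_pow_of_pow_eq_one h1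
  have h3 : (M.1.1 - 1) ^ 3 = 0 := by
    have h4 : IsNilpotent (Matrix.toLin' (M.1.1 - 1)) := by
      refine ⟨p ^ k, ?_⟩
      rw [← Matrix.toLin'_pow, h2, map_zero]
    have h5 := IsNilpotent.charpoly_eq_X_pow_finrank h4
    have h6 := LinearMap.aeval_self_charpoly (Matrix.toLin' (M.1.1 - 1))
    rw [h5, map_pow, Polynomial.aeval_X, Module.finrank_fin_fun, ← Matrix.toLin'_pow] at h6
    exact (LinearEquiv.map_eq_zero_iff _).mp h6
  have h3p : 3 ≤ p ^ 1 := by
    have := hp.out.two_le
    rw [pow_one]; omega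
  have h4 := QdFree.pow_eq_one_of_sub_one_pow h3 h3p
  apply Subtype.ext
  apply Subtype.ext
  simpa using h4

/-- Let p be an odd prime. A Sylow p-subgroup of Qd(p), the split extension of an elementary abelian group of order p² by SL₂(p) acting naturally, is extraspecial of order p³ and exponent p. -/
theorem result (p : ℕ) [Fact p.Prime] (hp : p ≠ 2) (P : Sylow p ↥(Cfsg.qd p)) :
    Cfsg.IsExtraspecial p ↥P ∧ Nat.card P = p ^ 3 ∧ Monoid.exponent ↥P = p := by
  have hpp : p.Prime := Fact.out
  have hcard : Nat.card P = p ^ 3 := by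
    rw [Sylow.card_eq_multiplicity, card_qd]
    have h0 : 0 < p ^ 2 - 1 := by
      have := hpp.two_le
      have : 1 < p ^ 2 := by nlinarith
      omega
    have h1 : ¬ p ∣ p ^ 2 - 1 := by
      intro h
      have h2 : p ∣ p ^ 2 := dvd_pow_self p two_ne_zero
      have h3 : p ∣ 1 := by
        have h4 := (Nat.dvd_sub_iff_right (by omega : 1 ≤ p ^ 2) h2).mp h
        exact h4
      exact hpp.one_lt.ne' (Nat.dvd_one.mp h3)
    rw [Nat.factorization_mul (pow_ne_zero 3 hpp.ne_zero) h0.ne', Nat.factorization_pow]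
    simp [hpp.factorization_self, Nat.factorization_eq_zero_of_not_dvd h1]
  have hexp : ∀ x : P, x ^ p = 1 := by
    intro x
    obtain ⟨k, hk⟩ := P.2 x
    apply Subtype.ext
    exact pow_eq_one_of_pElem hp (k := k) (by simpa using congrArg Subtype.val hk)
  have hna : ∃ a b : P, a * b ≠ b * a := by
    by_contra hcon
    push Not at hcon
    -- the kernel of the block map
    have hT : (QdFree.qdBlock (p := p)).ker ≤ (P : Subgroup ↥(Cfsg.qd p)) := by
      have h1 : IsPGroup p (QdFree.qdBlock (p := p)).ker := by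
        rintro ⟨M, hM⟩
        refine ⟨1, ?_⟩
        rw [MonoidHom.mem_ker] at hM
        obtain ⟨h1, h2, h3⟩ := QdFree.qd_last_row M.2
        have a00 : M.1.1 0 0 = 1 := by simpa [QdFree.qdBlock] using congrFun (congrFun hM 0) 0
        have a01 : M.1.1 0 1 = 0 := by simpa [QdFree.qdBlock] using congrFun (congrFun hM 0) 1
        have a10 : M.1.1 1 0 = 0 := by simpa [QdFree.qdBlock] using congrFun (congrFun hM 1) 0
        have a11 : M.1.1 1 1 = 1 := by simpa [QdFree.qdBlock] using congrFun (congrFun hM 1) 1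
        have hsq : (M.1.1 - 1) ^ 2 = 0 := by
          ext i j
          rw [pow_two, Matrix.mul_apply, Fin.sum_univ_three]
          fin_cases i <;> fin_cases j <;> simp [h1, h2, h3, a00, a01, a10, a11]
        have h4 : (M.1.1) ^ (p ^ 1) = 1 :=
          QdFree.pow_eq_one_of_sub_one_pow hsq (by rw [pow_one]; exact hpp.two_le)
        apply Subtype.ext
        apply Subtype.ext
        apply Subtype.ext
        simpa using h4
      exact (Cores.le_pCore inferInstance h1).trans (Cores.pCore_le_sylow P)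
    have h1 : QdFree.qdMk (p := p) 1 0 0 1 1 0 (by ring) ∈ (QdFree.qdBlock (p := p)).ker := by
      rw [MonoidHom.mem_ker]
      ext i j
      fin_cases i <;> fin_cases j <;> simp [QdFree.qdBlock, QdFree.qdMk]
    have h2 : QdFree.qdMk (p := p) 1 0 0 1 0 1 (by ring) ∈ (QdFree.qdBlock (p := p)).ker := by
      rw [MonoidHom.mem_ker]
      ext i j
      fin_cases i <;> fin_cases j <;> simp [QdFree.qdBlock, QdFree.qdMk]
    have hPT : (P : Subgroup ↥(Cfsg.qd p)) ≤ (QdFree.qdBlock (p := p)).ker := by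
      intro M hM
      have e1 := congrArg (fun x : P => x.1.1.1) (hcon ⟨M, hM⟩ ⟨_, hT h1⟩)
      have e2 := congrArg (fun x : P => x.1.1.1) (hcon ⟨M, hM⟩ ⟨_, hT h2⟩)
      have e1' : M.1.1 * !![1, 0, 1; 0, 1, 0; 0, 0, 1] = !![1, 0, 1; 0, 1, 0; 0, 0, 1] * M.1.1 := e1
      have e2' : M.1.1 * !![1, 0, 0; 0, 1, 1; 0, 0, 1] = !![1, 0, 0; 0, 1, 1; 0, 0, 1] * M.1.1 := e2
      have a1 := congrFun (congrFun e1' 0) 2
      have a2 := congrFun (congrFun e1' 1) 2
      have b1 := congrFun (congrFun e2' 0) 2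
      have b2 := congrFun (congrFun e2' 1) 2
      obtain ⟨c1, c2, c3⟩ := QdFree.qd_last_row M.2
      simp [Matrix.mul_apply, Fin.sum_univ_three, c1, c2, c3] at a1 a2 b1 b2
      have a1' : M.1.1 0 0 = 1 := by linear_combination a1
      have b2' : M.1.1 1 1 = 1 := by linear_combination b2
      rw [MonoidHom.mem_ker]
      ext i j
      fin_cases i <;> fin_cases j <;> simp [QdFree.qdBlock, a1', a2, b1, b2']
    have hle : Nat.card P ≤ p ^ 2 := by
      let f : P → ZMod p × ZMod p := fun M => (M.1.1.1 0 2, M.1.1.1 1 2)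
      have hf : Function.Injective f := by
        intro M N hMN
        have hM := hPT M.2
        have hN := hPT N.2
        rw [MonoidHom.mem_ker] at hM hN
        have h5 : M.1.1.1 0 2 = N.1.1.1 0 2 := congrArg Prod.fst hMN
        have h6 : M.1.1.1 1 2 = N.1.1.1 1 2 := congrArg Prod.snd hMN
        obtain ⟨c1, c2, c3⟩ := QdFree.qd_last_row M.1.2
        obtain ⟨d1, d2, d3⟩ := QdFree.qd_last_row N.1.2
        have a00 : M.1.1.1 0 0 = 1 := by simpa [QdFree.qdBlock] using congrFun (congrFun hM 0) 0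
        have a01 : M.1.1.1 0 1 = 0 := by simpa [QdFree.qdBlock] using congrFun (congrFun hM 0) 1
        have a10 : M.1.1.1 1 0 = 0 := by simpa [QdFree.qdBlock] using congrFun (congrFun hM 1) 0
        have a11 : M.1.1.1 1 1 = 1 := by simpa [QdFree.qdBlock] using congrFun (congrFun hM 1) 1
        have b00 : N.1.1.1 0 0 = 1 := by simpa [QdFree.qdBlock] using congrFun (congrFun hN 0) 0
        have b01 : N.1.1.1 0 1 = 0 := by simpa [QdFree.qdBlock] using congrFun (congrFun hN 0) 1
        have b10 : N.1.1.1 1 0 = 0 := by simpa [QdFree.qdBlock] using congrFun (congrFun hN 1) 0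
        have b11 : N.1.1.1 1 1 = 1 := by simpa [QdFree.qdBlock] using congrFun (congrFun hN 1) 1
        apply Subtype.ext
        apply Subtype.ext
        apply Subtype.ext
        ext i j
        fin_cases i <;> fin_cases j <;> simp [h5, h6, c1, c2, c3, d1, d2, d3, a00, a01, a10, a11, b00, b01, b10, b11]
      have h7 := Nat.card_le_card_of_injective f hf
      rw [Nat.card_prod, Nat.card_zmod] at h7
      rw [pow_two]; exact h7
    rw [hcard] at hle
    have := hpp.one_lt
    nlinarith [pow_pos hpp.pos 2]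
  obtain ⟨h1, h2⟩ := extra_of_card_cube hcard hna hexp
  exact ⟨h1, hcard, h2⟩

end Cfsg.Agent.S3074
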