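import Cfsg.Statements.S3075
import Mathlib

set_option autoImplicit false
open Cfsg

namespace Cfsg.Agent.S3075

open Subgroup
open scoped commutatorElement

theorem sl_facts {F : Type*} [Field F] [Fintype F] {p : ℕ} [hpp : Fact p.Prime] (hp : p ≠ 2) (hF : Fintype.card F = p) :
    ∃ z : Matrix.SpecialLinearGroup (Fin 2) F, z ≠ 1 ∧ z * z = 1 ∧ (∀ g, z * g = g * z) ∧
      ∃ a b : Matrix.SpecialLinearGroup (Fin 2) F, a * b ≠ b * a := by
  have hchar : (2 : F) ≠ 0 := by
    intro h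
    have h1 : ((Fintype.card F : ℕ) : F) = 0 := FiniteField.cast_card_eq_zero F
    rw [hF] at h1
    obtain ⟨k, hk⟩ := hpp.out.odd_of_ne_two hp
    rw [hk] at h1
    push_cast at h1
    rw [h, zero_mul, zero_add] at h1
    exact one_ne_zero h1
  refine ⟨-1, ?_, by simp, fun g => by simp, ?_⟩
  · intro h
    have h1 := congrArg (fun m : Matrix.SpecialLinearGroup (Fin 2) F => (m : Matrix (Fin 2) (Fin 2) F) 0 0) h
    have h2 : (-1 : F) = 1 := by simpa using h1
    apply hchar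
    linear_combination (-1 : F) * h2
  · refine ⟨⟨!![1, 1; 0, 1], by simp [Matrix.det_fin_two]⟩, ⟨!![1, 0; 1, 1], by simp [Matrix.det_fin_two]⟩, ?_⟩
    intro h
    have h1 := congrArg Subtype.val h
    change (!![1, 1; 0, 1] * !![1, 0; 1, 1] : Matrix (Fin 2) (Fin 2) F) = !![1, 0; 1, 1] * !![1, 1; 0, 1] at h1
    have h3 := congrFun (congrFun h1 0) 0
    have h2 : (1 : F) + 1 = 1 := by
      simpa [Matrix.mul_apply, Fin.sum_univ_two] using h3
    exact one_ne_zero (by linear_combination h2 : (1 : F) = 0)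

/-- Conjugation actions on a cyclic normal subgroup commute. -/
theorem conj_comm_of_cyclic {N : Type*} [Group N] (B : Subgroup N) (hB : IsCyclic B)
    (hBn : B.Normal) (m n b : N) (hb : b ∈ B) :
    m * (n * b * n⁻¹) * m⁻¹ = n * (m * b * m⁻¹) * n⁻¹ := by
  have key : ∀ g : N, ∃ k : ℤ, ∀ b ∈ B, g * b * g⁻¹ = b ^ k := by
    intro g
    obtain ⟨k, hk⟩ := MonoidHom.map_cyclic (MulAut.conjNormal (H := B) g).toMonoidHom
    refine ⟨k, fun b hb => ?_⟩
    have := congrArg Subtype.val (hk ⟨b, hb⟩)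
    simpa using this
  obtain ⟨k, hk⟩ := key m
  obtain ⟨l, hl⟩ := key n
  rw [hl b hb, hk _ (zpow_mem hb l), hk b hb, hl _ (zpow_mem hb k), ← zpow_mul, ← zpow_mul, mul_comm]

theorem result {N : Type*} [Group N] [Finite N] {p : ℕ} [Fact p.Prime] (hp : p ≠ 2)
    (A : Subgroup N) [A.Normal] (hAcomm : IsMulCommutative A) (hAcard : Nat.card A = p ^ 2) (hAexp : Monoid.exponent ↥A = p)
    (hAself : Subgroup.centralizer (A : Set N) = A)
    {F : Type*} [Field F] [Fintype F] (hF : Fintype.card F = p) (e : N ⧸ A ≃* Matrix.SpecialLinearGroup (Fin 2) F) :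
    ∃ U : Subgroup N, A ⊓ U = ⊥ ∧ A ⊔ U = ⊤ := by
  have hpp : p.Prime := Fact.out
  obtain ⟨z, hz1, hzz, hzc, x0, y0, hxy⟩ := sl_facts (p := p) hp hF
  have hcomm : ∀ a ∈ A, ∀ b ∈ A, a * b = b * a := fun a ha b hb =>
    congrArg Subtype.val (hAcomm.is_comm.comm ⟨a, ha⟩ ⟨b, hb⟩)
  have hpow : ∀ a ∈ A, a ^ p = 1 := by
    intro a ha
    have h1 : (⟨a, ha⟩ : A) ^ p = 1 := by
      rw [← hAexp]; exact Monoid.pow_exponent_eq_one _
    exact congrArg Subtype.val h1
  obtain ⟨t, ht⟩ := QuotientGroup.mk_surjective (e.symm z)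
  -- conjugates of t lie in t A
  have htc : ∀ n : N, t⁻¹ * (n * t * n⁻¹) ∈ A := by
    intro n
    rw [← QuotientGroup.eq]
    apply e.injective
    rw [QuotientGroup.mk_mul, QuotientGroup.mk_mul, map_mul, map_mul, ht, e.apply_symm_apply, ← hzc, mul_assoc,
      ← map_mul, ← QuotientGroup.mk_mul, mul_inv_cancel]
    simp
  have htA : t ∉ A := by
    intro h
    rw [← QuotientGroup.eq_one_iff, ht] at h
    apply hz1
    have := congrArg e h
    simpa using this
  have htt : t * t ∈ A := by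
    rw [← QuotientGroup.eq_one_iff, QuotientGroup.mk_mul, ht, ← map_mul, hzz, map_one]
  have htt' : ∀ a ∈ A, t * (t * a * t⁻¹) * t⁻¹ = a := by
    intro a ha
    have h1 := hcomm _ htt _ ha
    calc t * (t * a * t⁻¹) * t⁻¹ = (t * t * a) * (t * t)⁻¹ := by group
      _ = a := by rw [h1]; group
  have hconjA : ∀ a ∈ A, ∀ g : N, g * a * g⁻¹ ∈ A := fun a ha g => (inferInstance : A.Normal).conj_mem a ha g
  -- action of `t` on A is preserved by conjugation
  have hact : ∀ n : N, ∀ a ∈ A, (n * t * n⁻¹) * a * (n * t * n⁻¹)⁻¹ = t * a * t⁻¹ := by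
    intro n a ha
    set c := t⁻¹ * (n * t * n⁻¹) with hc
    have h1 : n * t * n⁻¹ = t * c := by rw [hc]; group
    rw [h1]
    have h2 := hcomm c (htc n) a ha
    calc t * c * a * (t * c)⁻¹ = t * (c * a) * c⁻¹ * t⁻¹ := by group
      _ = t * a * t⁻¹ := by rw [h2]; group
  -- fixed points B and inverted elements C
  let B : Subgroup N :=
    { carrier := {a | a ∈ A ∧ t * a * t⁻¹ = a}
      mul_mem' := by
        rintro a b ⟨ha, ha'⟩ ⟨hb, hb'⟩
        refine ⟨mul_mem ha hb, ?_⟩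
        calc t * (a * b) * t⁻¹ = (t * a * t⁻¹) * (t * b * t⁻¹) := by group
          _ = a * b := by rw [ha', hb']
      one_mem' := ⟨one_mem _, by group⟩
      inv_mem' := by
        rintro a ⟨ha, ha'⟩
        refine ⟨inv_mem ha, ?_⟩
        calc t * a⁻¹ * t⁻¹ = (t * a * t⁻¹)⁻¹ := by group
          _ = a⁻¹ := by rw [ha'] }
  let C : Subgroup N :=
    { carrier := {a | a ∈ A ∧ t * a * t⁻¹ = a⁻¹}
      mul_mem' := by
        rintro a b ⟨ha, ha'⟩ ⟨hb, hb'⟩
        refine ⟨mul_mem ha hb, ?_⟩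
        calc t * (a * b) * t⁻¹ = (t * a * t⁻¹) * (t * b * t⁻¹) := by group
          _ = (a * b)⁻¹ := by rw [ha', hb', hcomm a ha b hb]; group
      one_mem' := ⟨one_mem _, by group⟩
      inv_mem' := by
        rintro a ⟨ha, ha'⟩
        refine ⟨inv_mem ha, ?_⟩
        calc t * a⁻¹ * t⁻¹ = (t * a * t⁻¹)⁻¹ := by group
          _ = a⁻¹⁻¹ := by rw [ha'] }
  have hBmem : ∀ a, a ∈ B ↔ a ∈ A ∧ t * a * t⁻¹ = a := fun a => Iff.rfl
  have hCmem : ∀ a, a ∈ C ↔ a ∈ A ∧ t * a * t⁻¹ = a⁻¹ := fun a => Iff.rfl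
  have hBA : B ≤ A := fun a ha => ha.1
  have hCA : C ≤ A := fun a ha => ha.1
  have hBn : B.Normal := by
    constructor
    rintro a ⟨ha, ha'⟩ n
    refine ⟨hconjA a ha n, ?_⟩
    have h1 := hact n⁻¹ a ha
    calc t * (n * a * n⁻¹) * t⁻¹ = n * ((n⁻¹ * t * n⁻¹⁻¹) * a * (n⁻¹ * t * n⁻¹⁻¹)⁻¹) * n⁻¹ := by group
      _ = n * a * n⁻¹ := by rw [h1, ha']
  have hCn : C.Normal := by
    constructor
    rintro a ⟨ha, ha'⟩ n
    refine ⟨hconjA a ha n, ?_⟩
    have h1 := hact n⁻¹ a ha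
    calc t * (n * a * n⁻¹) * t⁻¹ = n * ((n⁻¹ * t * n⁻¹⁻¹) * a * (n⁻¹ * t * n⁻¹⁻¹)⁻¹) * n⁻¹ := by group
      _ = (n * a * n⁻¹)⁻¹ := by rw [h1, ha']; group
  have hprodB : ∀ a ∈ A, a * (t * a * t⁻¹) ∈ B := by
    intro a ha
    refine ⟨mul_mem ha (hconjA a ha t), ?_⟩
    calc t * (a * (t * a * t⁻¹)) * t⁻¹ = (t * a * t⁻¹) * (t * (t * a * t⁻¹) * t⁻¹) := by group
      _ = a * (t * a * t⁻¹) := by rw [htt' a ha, hcomm _ (hconjA a ha t) a ha]
  have hprodC : ∀ a ∈ A, a * (t * a * t⁻¹)⁻¹ ∈ C := by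
    intro a ha
    refine ⟨mul_mem ha (inv_mem (hconjA a ha t)), ?_⟩
    calc t * (a * (t * a * t⁻¹)⁻¹) * t⁻¹ = (t * a * t⁻¹) * (t * (t * a * t⁻¹) * t⁻¹)⁻¹ := by group
      _ = (a * (t * a * t⁻¹)⁻¹)⁻¹ := by rw [htt' a ha]; group
  -- square roots
  obtain ⟨k, hk⟩ := hpp.odd_of_ne_two hp
  have hsqrt : ∀ a ∈ A, (a ^ (k + 1)) * (a ^ (k + 1)) = a := by
    intro a ha
    rw [← pow_add]
    have : k + 1 + (k + 1) = p + 1 := by omega
    rw [this, pow_succ, hpow a ha, one_mul]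
  have hsq1 : ∀ a ∈ A, a * a = 1 → a = 1 := by
    intro a ha h
    have h1 := hpow a ha
    rw [hk, pow_succ, pow_mul, pow_two, h, one_pow, one_mul] at h1
    exact h1
  -- t inverts A
  have hinv : ∀ a ∈ A, t * a * t⁻¹ = a⁻¹ := by
    by_contra hcon
    push Not at hcon
    obtain ⟨a, ha, hane⟩ := hcon
    have hBne : B ≠ ⊥ := by
      intro h
      have h1 := hprodB a ha
      rw [h, mem_bot] at h1
      apply hane
      exact (eq_inv_of_mul_eq_one_right h1)
    have hBneA : B ≠ A := by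
      intro h
      apply htA
      rw [← hAself, mem_centralizer_iff]
      intro b hb
      have : b ∈ B := by rw [h]; exact hb
      have h2 := this.2
      calc b * t = (t * b * t⁻¹) * t := by rw [h2]
        _ = t * b := by group
    have hCneA : C ≠ A := by
      intro h
      have : a ∈ C := by rw [h]; exact ha
      exact hane this.2
    have hCne : C ≠ ⊥ := by
      intro h
      apply hBneA
      apply le_antisymm hBA
      intro b hb
      have h1 := hprodC b hb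
      rw [h, mem_bot] at h1
      exact ⟨hb, (mul_inv_eq_one.mp h1).symm⟩
    have hcardlt : ∀ D : Subgroup N, D ≤ A → D ≠ ⊥ → D ≠ A → IsCyclic D := by
      intro D hDA hD1 hD2
      have h1 : Nat.card D ∣ p ^ 2 := by
        rw [← hAcard]; exact Subgroup.card_dvd_of_le hDA
      obtain ⟨i, hi, hi2⟩ := (Nat.dvd_prime_pow hpp).mp h1
      have h3 : Nat.card D = p := by
        interval_cases i
        · exfalso; apply hD1; rw [← Subgroup.card_eq_one, hi2, pow_zero]
        · rw [hi2, pow_one]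
        · exfalso; apply hD2; exact Subgroup.eq_of_le_of_card_ge hDA (by rw [hi2, hAcard])
      exact isCyclic_of_prime_card h3
    have hBc := hcardlt B hBA hBne hBneA
    have hCc := hcardlt C hCA hCne hCneA
    -- commutators centralize A
    have hcommA : ∀ m n : N, m * n * m⁻¹ * n⁻¹ ∈ A := by
      intro m n
      have hcenD : ∀ D : Subgroup N, IsCyclic D → D.Normal → ∀ b ∈ D,
          b * (m * n * m⁻¹ * n⁻¹) = (m * n * m⁻¹ * n⁻¹) * b := by
        intro D hD hDn b hb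
        have hb' : m⁻¹ * (n⁻¹ * b * n) * m ∈ D := by
          have h1 := hDn.conj_mem b hb n⁻¹
          have h2 := hDn.conj_mem _ h1 m⁻¹
          simpa using h2
        have h1 := conj_comm_of_cyclic D hD hDn m n _ hb'
        have h2 : m * n * m⁻¹ * n⁻¹ * b * (m * n * m⁻¹ * n⁻¹)⁻¹ = b := by
          calc m * n * m⁻¹ * n⁻¹ * b * (m * n * m⁻¹ * n⁻¹)⁻¹
              = m * (n * (m⁻¹ * (n⁻¹ * b * n) * m) * n⁻¹) * m⁻¹ := by group
            _ = n * (m * (m⁻¹ * (n⁻¹ * b * n) * m) * m⁻¹) * n⁻¹ := h1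
            _ = b := by group
        calc b * (m * n * m⁻¹ * n⁻¹) = (m * n * m⁻¹ * n⁻¹ * b * (m * n * m⁻¹ * n⁻¹)⁻¹) * (m * n * m⁻¹ * n⁻¹) := by rw [h2]
          _ = m * n * m⁻¹ * n⁻¹ * b := by group
      rw [← hAself, mem_centralizer_iff]
      intro b hb
      -- b = product of an element of B and one of C
      obtain ⟨r, hr⟩ : ∃ r, r = b ^ (k + 1) := ⟨_, rfl⟩
      have hrA : r ∈ A := by rw [hr]; exact pow_mem hb _
      have hb2 : b = (r * (t * r * t⁻¹)) * (r * (t * r * t⁻¹)⁻¹) := by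
        have h3 := hcomm r hrA _ (hconjA r hrA t)
        generalize t * r * t⁻¹ = s at h3 ⊢
        calc b = r * r := by rw [hr]; exact (hsqrt b hb).symm
          _ = r * (r * s) * s⁻¹ := by group
          _ = r * (s * r) * s⁻¹ := by rw [h3]
          _ = (r * s) * (r * s⁻¹) := by group
      rw [hb2]
      have e1 := hcenD B hBc hBn _ (hprodB r hrA)
      have e2 := hcenD C hCc hCn _ (hprodC r hrA)
      rw [mul_assoc, e2, ← mul_assoc, e1, mul_assoc]
    apply hxy
    obtain ⟨m, hm⟩ := QuotientGroup.mk_surjective (e.symm x0)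
    obtain ⟨n, hn⟩ := QuotientGroup.mk_surjective (e.symm y0)
    have h1 := hcommA m n
    rw [← QuotientGroup.eq_one_iff, QuotientGroup.mk_mul, QuotientGroup.mk_mul, QuotientGroup.mk_mul,
      QuotientGroup.mk_inv, QuotientGroup.mk_inv, hm, hn] at h1
    have h2 := congrArg e h1
    simp only [map_mul, map_inv, MulEquiv.apply_symm_apply, map_one] at h2
    have h3 : x0 * y0 = (x0 * y0 * x0⁻¹ * y0⁻¹) * (y0 * x0) := by group
    rw [h3, h2, one_mul]
  -- t has order two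
  have ht2 : t * t = 1 := by
    apply hsq1 _ htt
    have h1 := hinv _ htt
    have h2 : t * (t * t) * t⁻¹ = t * t := by group
    rw [h2] at h1
    calc t * t * (t * t) = t * t * (t * t)⁻¹ := by rw [← h1]
      _ = 1 := mul_inv_cancel _
  refine ⟨centralizer {t}, ?_, ?_⟩
  · rw [eq_bot_iff]
    rintro a ⟨ha, hac⟩
    rw [mem_bot]
    have hac' : a ∈ centralizer {t} := hac
    rw [mem_centralizer_singleton_iff] at hac'
    apply hsq1 a ha
    have h1 := hinv a ha
    have h2 : t * a * t⁻¹ = a := by rw [← hac']; group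
    rw [h2] at h1
    calc a * a = a * a⁻¹ := by rw [← h1]
      _ = 1 := mul_inv_cancel _
  · rw [eq_top_iff]
    intro n _
    -- n t n⁻¹ = t a
    set a := t⁻¹ * (n * t * n⁻¹) with hadef
    have haA : a ∈ A := htc n
    obtain ⟨r, hr⟩ : ∃ r, r = (a ^ (k + 1))⁻¹ := ⟨_, rfl⟩
    have hrA : r ∈ A := by rw [hr]; exact inv_mem (pow_mem haA _)
    have h1 : r * t * r⁻¹ = n * t * n⁻¹ := by
      have h2 : t⁻¹ * r * t = r⁻¹ := by
        have := hinv r⁻¹ (inv_mem hrA)
        rw [inv_inv] at this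
        calc t⁻¹ * r * t = t⁻¹ * (t * r⁻¹ * t⁻¹) * t := by rw [this]
          _ = r⁻¹ := by group
      calc r * t * r⁻¹ = t * (t⁻¹ * r * t) * r⁻¹ := by group
        _ = t * (r⁻¹ * r⁻¹) := by rw [h2]; group
        _ = t * a := by rw [hr, inv_inv, hsqrt a haA]
        _ = n * t * n⁻¹ := by rw [hadef]; group
    have h3 : r⁻¹ * n ∈ centralizer {t} := by
      rw [mem_centralizer_singleton_iff]
      calc r⁻¹ * n * t = r⁻¹ * (n * t * n⁻¹) * n := by group
        _ = r⁻¹ * (r * t * r⁻¹) * n := by rw [h1]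
        _ = t * (r⁻¹ * n) := by group
    have h4 : n = r * (r⁻¹ * n) := by group
    rw [h4]
    exact mul_mem (mem_sup_left hrA) (mem_sup_right h3)

end Cfsg.Agent.S3075
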