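import Cfsg.Statements.S3076
import Cfsg.Agent.Lib.Cores
import Cfsg.Agent.Lib.LocBase

set_option autoImplicit false
open Cfsg

namespace Cfsg.Agent.S3076

open Subgroup Cfsg.Agent.Lib Cfsg.Agent.Lib.LocBase
open scoped commutatorElement

section
variable {L : Type*} [Group L] [Finite L] {p : ℕ} [hp : Fact p.Prime]

/-- membership in the preimage of `O_p` for elements of a normal subgroup -/
theorem le_comap_pCore {C X : Subgroup L} [C.Normal] [hX : X.Normal]
    (h : ∀ x ∈ X, ∃ k : ℕ, x ^ p ^ k ∈ C) :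
    X ≤ (Cfsg.pCore p (L ⧸ C)).comap (QuotientGroup.mk' C) := by
  rw [← Subgroup.map_le_iff_le_comap]
  refine Cores.le_pCore (hX.map _ (QuotientGroup.mk'_surjective C)) ?_
  rintro ⟨_, x, hx, rfl⟩
  obtain ⟨k, hk⟩ := h x hx
  refine ⟨k, Subtype.ext ?_⟩
  show (QuotientGroup.mk' C x) ^ p ^ k = 1
  rw [← map_pow]
  exact (QuotientGroup.eq_one_iff _).mpr hk

omit [Finite L] in
theorem exists_pow_mem_of_mem_comap {C : Subgroup L} [C.Normal] {x : L}
    (hx : x ∈ (Cfsg.pCore p (L ⧸ C)).comap (QuotientGroup.mk' C)) : ∃ k : ℕ, x ^ p ^ k ∈ C := by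
  obtain ⟨k, hk⟩ := Cores.isPGroup_pCore p (L ⧸ C) ⟨_, Subgroup.mem_comap.mp hx⟩
  refine ⟨k, ?_⟩
  have h1 := congrArg Subtype.val hk
  simp only [QuotientGroup.mk'_apply] at h1
  rw [← QuotientGroup.eq_one_iff, QuotientGroup.mk_pow]
  exact h1

omit [Finite L] in
theorem le_comap_self {C : Subgroup L} [C.Normal] (X : Subgroup (L ⧸ C)) :
    C ≤ X.comap (QuotientGroup.mk' C) := by
  intro x hx
  rw [Subgroup.mem_comap, QuotientGroup.mk'_apply, (QuotientGroup.eq_one_iff x).mpr hx]
  exact one_mem _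

/-- A normal subgroup `C` with a central subgroup `H ⊓ C` of index prime to `p`, `H` a `p`-group centralized by `C`. -/
theorem le_sup_core {H C : Subgroup L} [C.Normal] (hH : IsPGroup p H)
    (hCH : ∀ c ∈ C, ∀ h ∈ H, c * h = h * c) (hidx : ¬ p ∣ (H ⊓ C).relIndex C) :
    C ≤ H ⊔ Cfsg.pPrimeCore p L ∧ ∀ c ∈ C, ∃ k : ℕ, c ^ p ^ k ∈ Cfsg.pPrimeCore p L := by
  have hQp : IsPGroup p ((H ⊓ C).subgroupOf C) := (hH.to_le inf_le_left).comap_subtype
  let Q : Sylow p C := hQp.toSylow hidx
  have hQ : (Q : Subgroup C) = (H ⊓ C).subgroupOf C := rfl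
  have hcen : normalizer ((Q : Subgroup C) : Set C) ≤ centralizer ((Q : Subgroup C) : Set C) := by
    intro c _
    rw [mem_centralizer_iff]
    intro q hq
    rw [hQ] at hq
    have hq' : (q : L) ∈ H := (mem_subgroupOf.mp hq).1
    exact Subtype.ext (hCH c c.2 q hq').symm
  set D := (MonoidHom.transferSylow Q hcen).ker with hD
  have hDc : IsComplement' D (Q : Subgroup C) := MonoidHom.ker_transferSylow_isComplement' Q hcen
  have hDp : ¬ p ∣ Nat.card D := MonoidHom.not_dvd_card_ker_transferSylow Q hcen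
  have hDK : D.map C.subtype ≤ Cfsg.pPrimeCore p L := by
    refine le_trans (Subgroup.map_mono (Cores.le_pPrimeCore inferInstance ?_))
      (Cores.map_pPrimeCore_subtype_le p C)
    exact ((Nat.Prime.coprime_iff_not_dvd hp.out).mpr hDp).symm
  have key : ∀ c ∈ C, ∃ d ∈ Cfsg.pPrimeCore p L, ∃ h ∈ H, d ∈ C ∧ c = d * h := by
    intro c hc
    have h1 : (⟨c, hc⟩ : C) ∈ D ⊔ (Q : Subgroup C) := by rw [hDc.sup_eq_top]; exact mem_top _
    obtain ⟨d, hd, q, hq, hdq⟩ := Subgroup.mem_sup_of_normal_left.mp h1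
    refine ⟨d, hDK ⟨d, hd, rfl⟩, q, ?_, d.2, ?_⟩
    · have hq2 : q ∈ (H ⊓ C).subgroupOf C := hq
      exact (mem_subgroupOf.mp hq2).1
    · exact (congrArg Subtype.val hdq).symm
  constructor
  · intro c hc
    obtain ⟨d, hd, h, hh, -, rfl⟩ := key c hc
    exact mul_mem (mem_sup_right hd) (mem_sup_left hh)
  · intro c hc
    obtain ⟨d, hd, h, hh, hdC, rfl⟩ := key c hc
    obtain ⟨k, hk⟩ := hH ⟨h, hh⟩
    have hk' : h ^ p ^ k = 1 := congrArg Subtype.val hk
    refine ⟨k, ?_⟩
    rw [(show Commute d h from hCH d hdC h hh).mul_pow, hk', mul_one]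
    exact pow_mem hd _

theorem main {H C T : Subgroup L} [hHn : H.Normal] [hCn : C.Normal] (hH : IsPGroup p H)
    (hC : C = centralizer (H : Set L)) (hT : IsSyl p T ⊤) (hHT : H ≤ T) :
    ¬ p ∣ H.relIndex ((Cfsg.pCore p (L ⧸ C)).comap (QuotientGroup.mk' C)) ↔
      (T ⊓ C ≤ H ∧ Cfsg.pPrimePCore p L = H ⊔ C) := by
  set N := (Cfsg.pCore p (L ⧸ C)).comap (QuotientGroup.mk' C) with hN
  set K := Cfsg.pPrimeCore p L with hK
  have hCH : ∀ c ∈ C, ∀ h ∈ H, c * h = h * c := by
    intro c hc h hh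
    rw [hC] at hc
    exact (mem_centralizer_iff.mp hc h hh).symm
  have hKH : K ⊓ H = ⊥ := by
    by_contra h
    have h1 : p ∣ Nat.card ↥(K ⊓ H) := by
      rcases (hH.to_le (inf_le_right : K ⊓ H ≤ H)).card_eq_or_dvd with h2 | h2
      · exact absurd (Subgroup.card_eq_one.mp h2) h
      · exact h2
    have h2 := (Cores.coprime_card_pPrimeCore p L)
    have h3 := h1.trans (Subgroup.card_dvd_of_le inf_le_left)
    exact (Nat.Prime.coprime_iff_not_dvd hp.out).mp h2.symm h3
  have hKn : K.Normal := inferInstance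
  have hKC : K ≤ C := by
    intro k hk
    rw [hC, mem_centralizer_iff]
    intro h hh
    have h1 : h * k * h⁻¹ * k⁻¹ ∈ K ⊓ H := by
      refine ⟨K.mul_mem (hKn.conj_mem k hk h) (K.inv_mem hk), ?_⟩
      have : h * k * h⁻¹ * k⁻¹ = h * (k * h⁻¹ * k⁻¹) := by group
      rw [this]
      exact H.mul_mem hh (hHn.conj_mem _ (H.inv_mem hh) k)
    rw [hKH, Subgroup.mem_bot] at h1
    have h2 : h * k * h⁻¹ = k := by rw [← mul_inv_eq_one]; exact h1
    calc h * k = (h * k * h⁻¹) * h := by group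
      _ = k * h := by rw [h2]
  have hHN : H ≤ N := by
    apply le_comap_pCore
    intro x hx
    obtain ⟨k, hk⟩ := hH ⟨x, hx⟩
    exact ⟨k, by rw [show x ^ p ^ k = 1 from congrArg Subtype.val hk]; exact one_mem _⟩
  have hCN : C ≤ N := le_comap_self _
  have hXN : Cfsg.pPrimePCore p L ≤ N := by
    apply le_comap_pCore
    intro x hx
    obtain ⟨k, hk⟩ := exists_pow_mem_of_mem_comap hx
    exact ⟨k, hKC hk⟩
  have hNX : ¬ p ∣ (H ⊓ C).relIndex C → N ≤ Cfsg.pPrimePCore p L := by
    intro hidx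
    have h1 := (le_sup_core hH hCH hidx).2
    apply le_comap_pCore
    intro x hx
    obtain ⟨k, hk⟩ := exists_pow_mem_of_mem_comap hx
    obtain ⟨j, hj⟩ := h1 _ hk
    refine ⟨k + j, ?_⟩
    rw [pow_add, pow_mul]
    exact hj
  have hrel : H.relIndex (H ⊔ C) = (H ⊓ C).relIndex C := by
    rw [Subgroup.relIndex_sup_left, Subgroup.inf_relIndex_right]
  constructor
  · intro hidx
    have hmul : H.relIndex (H ⊔ C) * (H ⊔ C).relIndex N = H.relIndex N :=
      Subgroup.relIndex_mul_relIndex H (H ⊔ C) N le_sup_left (sup_le hHN hCN)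
    have h1 : ¬ p ∣ (H ⊓ C).relIndex C := by
      intro h
      apply hidx
      rw [← hmul, hrel]
      exact Dvd.dvd.mul_right h _
    have hNX' := hNX h1
    have hNeq : N = H ⊔ C := by
      apply le_antisymm _ (sup_le hHN hCN)
      rw [← Subgroup.relIndex_eq_one]
      have h2 : (H ⊔ C).relIndex N ∣ C.relIndex N := Subgroup.relIndex_dvd_of_le_left N le_sup_right
      have h3 : ∃ n, C.relIndex N = p ^ n := by
        have : IsPGroup p (↥N ⧸ C.subgroupOf N) := by
          intro x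
          obtain ⟨x, rfl⟩ := QuotientGroup.mk_surjective x
          obtain ⟨k, hk⟩ := exists_pow_mem_of_mem_comap x.2
          refine ⟨k, ?_⟩
          rw [← QuotientGroup.mk_pow, QuotientGroup.eq_one_iff, mem_subgroupOf]
          simpa using hk
        obtain ⟨n, hn⟩ := IsPGroup.iff_card.mp this
        exact ⟨n, hn⟩
      obtain ⟨n, hn⟩ := h3
      rw [hn] at h2
      obtain ⟨k, hk, hk2⟩ := (Nat.dvd_prime_pow hp.out).mp h2
      rw [hk2]
      rcases Nat.eq_zero_or_pos k with h0 | h0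
      · rw [h0, pow_zero]
      · exfalso
        apply hidx
        rw [← hmul, hk2]
        exact Dvd.dvd.mul_left (dvd_pow_self p h0.ne') _
    constructor
    · have hs : IsSyl p H N := ⟨hHN, hH, hidx⟩
      have h4 : IsPGroup p ↥((T ⊓ C) ⊔ H) := hT.pgroup.to_le (sup_le inf_le_left hHT)
      have h5 := hs.eq_of_le h4 (sup_le (inf_le_right.trans hCN) hHN) le_sup_right
      calc T ⊓ C ≤ (T ⊓ C) ⊔ H := le_sup_left
        _ = H := h5.symm
    · rw [← hNeq]
      exact le_antisymm hXN hNX'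
  · rintro ⟨h1, h2⟩
    have hs : IsSyl p (T ⊓ C) C := hT.inf_normal le_top (by rw [Subgroup.normalizer_eq_top])
    have h3 : ¬ p ∣ (H ⊓ C).relIndex C := by
      intro h
      apply hs.ndvd
      exact h.trans (Subgroup.relIndex_dvd_of_le_left C (le_inf h1 inf_le_right))
    have h4 : N = H ⊔ C := by
      rw [← h2]
      exact le_antisymm (hNX h3) hXN
    rw [h4, hrel]
    exact h3

end

/-- Let P be a Sylow p-subgroup of the finite group G and H ≤ P a subgroup with N_P(H) a Sylow p-subgroup of N_G(H). Let N be the preimage in N_G(H) of O_p(N_G(H)/C_G(H)). Then H is a Sylow p-subgroup of N if and only if C_P(H) ≤ H and O_{p',p}(N_G(H)) = H·C_G(H). -/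
theorem result {G : Type*} [Group G] [Finite G] {p : ℕ} [Fact p.Prime]
    (P : Sylow p G) (H : Subgroup G) (hHP : H ≤ (P : Subgroup G))
    (hSyl : ¬ p ∣ ((P : Subgroup G) ⊓ Subgroup.normalizer (H : Set G)).relIndex (Subgroup.normalizer (H : Set G)))
    [hC : ((Subgroup.centralizer (H : Set G)).subgroupOf (Subgroup.normalizer (H : Set G))).Normal] :
    (H ≤ ((Cfsg.pCore p (↥(Subgroup.normalizer (H : Set G)) ⧸
              (Subgroup.centralizer (H : Set G)).subgroupOf (Subgroup.normalizer (H : Set G)))).comap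
            (QuotientGroup.mk' _)).map (Subgroup.normalizer (H : Set G)).subtype ∧
      ¬ p ∣ H.relIndex (((Cfsg.pCore p (↥(Subgroup.normalizer (H : Set G)) ⧸
              (Subgroup.centralizer (H : Set G)).subgroupOf (Subgroup.normalizer (H : Set G)))).comap
            (QuotientGroup.mk' _)).map (Subgroup.normalizer (H : Set G)).subtype)) ↔
    ((P : Subgroup G) ⊓ Subgroup.centralizer (H : Set G) ≤ H ∧
      (Cfsg.pPrimePCore p ↥(Subgroup.normalizer (H : Set G))).map (Subgroup.normalizer (H : Set G)).subtype =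
        H ⊔ Subgroup.centralizer (H : Set G)) := by
  set L := Subgroup.normalizer (H : Set G) with hL
  have hHL : H ≤ L := le_normalizer
  have hCL : Subgroup.centralizer (H : Set G) ≤ L := Subgroup.centralizer_le_normalizer _
  have hHn : (H.subgroupOf L).Normal := by rw [hL]; infer_instance
  have hH : IsPGroup p H := P.2.to_le hHP
  have hPL : IsSyl p ((P : Subgroup G) ⊓ L) L := ⟨inf_le_right, P.2.to_le inf_le_left, hSyl⟩
  have hT : IsSyl p (((P : Subgroup G) ⊓ L).subgroupOf L) ⊤ := by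
    refine ⟨le_top, hPL.pgroup.comap_subtype, ?_⟩
    rw [Subgroup.relIndex_top_right]
    exact hPL.ndvd
  have hCeq : (Subgroup.centralizer (H : Set G)).subgroupOf L =
      Subgroup.centralizer ((H.subgroupOf L : Subgroup L) : Set L) := by
    ext x
    rw [mem_subgroupOf, mem_centralizer_iff, mem_centralizer_iff]
    constructor
    · intro h y hy
      exact Subtype.ext (h y (mem_subgroupOf.mp hy))
    · intro h y hy
      exact congrArg Subtype.val (h ⟨y, hHL hy⟩ (mem_subgroupOf.mpr hy))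
  have hmain := main (p := p) (H := H.subgroupOf L)
    (C := (Subgroup.centralizer (H : Set G)).subgroupOf L) (T := ((P : Subgroup G) ⊓ L).subgroupOf L)
    hH.comap_subtype hCeq hT (Subgroup.comap_mono (le_inf hHP hHL))
  have hmapH : (H.subgroupOf L).map L.subtype = H := Subgroup.map_subgroupOf_eq_of_le hHL
  have hmapC : ((Subgroup.centralizer (H : Set G)).subgroupOf L).map L.subtype =
      Subgroup.centralizer (H : Set G) := Subgroup.map_subgroupOf_eq_of_le hCL
  set N := (Cfsg.pCore p (↥L ⧸ (Subgroup.centralizer (H : Set G)).subgroupOf L)).comap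
    (QuotientGroup.mk' ((Subgroup.centralizer (H : Set G)).subgroupOf L)) with hN
  have e1 : (H ≤ N.map L.subtype ∧ ¬ p ∣ H.relIndex (N.map L.subtype)) ↔
      ¬ p ∣ (H.subgroupOf L).relIndex N := by
    have h1 : H.relIndex (N.map L.subtype) = (H.subgroupOf L).relIndex N := by
      conv_lhs => rw [← hmapH]
      exact Subgroup.relIndex_map_map_of_injective _ _ L.subtype_injective
    rw [h1]
    constructor
    · exact fun h => h.2
    · intro h
      refine ⟨?_, h⟩
      conv_lhs => rw [← hmapH]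
      apply Subgroup.map_mono
      apply le_comap_pCore
      intro x hx
      obtain ⟨k, hk⟩ := hH ⟨x, mem_subgroupOf.mp hx⟩
      refine ⟨k, ?_⟩
      have : x ^ p ^ k = 1 := Subtype.ext (by simpa using congrArg Subtype.val hk)
      rw [this]; exact one_mem _
  have e2 : ((P : Subgroup G) ⊓ Subgroup.centralizer (H : Set G) ≤ H) ↔
      (((P : Subgroup G) ⊓ L).subgroupOf L ⊓ (Subgroup.centralizer (H : Set G)).subgroupOf L ≤
        H.subgroupOf L) := by
    constructor
    · rintro h x ⟨hx1, hx2⟩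
      exact mem_subgroupOf.mpr (h ⟨(mem_subgroupOf.mp hx1).1, mem_subgroupOf.mp hx2⟩)
    · rintro h x ⟨hx1, hx2⟩
      exact mem_subgroupOf.mp (@h ⟨x, hCL hx2⟩ ⟨mem_subgroupOf.mpr ⟨hx1, hCL hx2⟩, mem_subgroupOf.mpr hx2⟩)
  have e3 : ((Cfsg.pPrimePCore p ↥L).map L.subtype = H ⊔ Subgroup.centralizer (H : Set G)) ↔
      Cfsg.pPrimePCore p ↥L = H.subgroupOf L ⊔ (Subgroup.centralizer (H : Set G)).subgroupOf L := by
    have h1 : H ⊔ Subgroup.centralizer (H : Set G) =
        (H.subgroupOf L ⊔ (Subgroup.centralizer (H : Set G)).subgroupOf L).map L.subtype := by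
      rw [Subgroup.map_sup, hmapH, hmapC]
    rw [h1]
    exact (Subgroup.map_injective L.subtype_injective).eq_iff
  rw [e1, e2, e3]
  exact hmain

end Cfsg.Agent.S3076
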