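import Cfsg.Statements.S3078
import Cfsg.Agent.Lib.Repl78

set_option autoImplicit false
open Cfsg

namespace Cfsg.Agent.S3078

/-- A replacement Theorem for abelian subgroups of p-groups, p odd. Let G be a finite p-group with p odd, A an abelian subgroup of G, and B a subgroup of nilpotency class at most 2 with [B, B] ≤ A, such that A normalizes B but B does not normalize A. Then there is an abelian subgroup A* of G of the same order as A with A ∩ B strictly contained in A* ∩ B, A* contained in N_G(A) and in the normal closure of A, the exponent of A* dividing the exponent of A, and with the subgroup generated by the elements of order dividing p in A of order at most that of the corresponding subgroup of A* (the rank of A is at most the rank of A*). -/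
theorem result {G : Type*} [Group G] [Finite G] {p : ℕ} [Fact p.Prime] (hp : p ≠ 2) (hG : IsPGroup p G) (A B : Subgroup G) (hA : IsMulCommutative A) (hB2 : ⁅⁅B, B⁆, B⁆ = ⊥) (hBA : ⁅B, B⁆ ≤ A) (hAB : A ≤ Subgroup.normalizer (B : Set G)) (hBnA : ¬ B ≤ Subgroup.normalizer (A : Set G)) : ∃ Astar : Subgroup G, IsMulCommutative Astar ∧ Nat.card Astar = Nat.card A ∧ A ⊓ B < Astar ⊓ B ∧ Astar ≤ Subgroup.normalizer (A : Set G) ∧ Astar ≤ Subgroup.normalClosure (A : Set G) ∧ Monoid.exponent Astar ∣ Monoid.exponent A ∧ Nat.card (Cfsg.omegaOne p A) ≤ Nat.card (Cfsg.omegaOne p Astar) := by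
  classical
  by_cases hnotA : B ≤ A
  · exact absurd (hnotA.trans Subgroup.le_normalizer) hBnA
  set M : Subgroup G := B ⊔ A with hM
  have hBM : B ≤ M := le_sup_left
  have hAM : A ≤ M := le_sup_right
  have hinj := M.subtype_injective
  set A1 : Subgroup ↥M := A.subgroupOf M with hA1
  set B1 : Subgroup ↥M := B.subgroupOf M with hB1
  have hA1m : A1.map M.subtype = A := Subgroup.map_subgroupOf_eq_of_le hAM
  have hB1m : B1.map M.subtype = B := Subgroup.map_subgroupOf_eq_of_le hBM
  have hMB : M ≤ Subgroup.normalizer (B : Set G) := sup_le Subgroup.le_normalizer hAB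
  haveI hB1n : B1.Normal := by
    refine ⟨fun n hn g => ?_⟩
    exact (Subgroup.mem_normalizer_iff.1 (hMB g.2) (n : G)).1 hn
  have hMp : IsPGroup p ↥M := hG.to_subgroup M
  have hA1c : IsMulCommutative ↥A1 := by
    rw [← Subgroup.le_centralizer_iff_isMulCommutative] at hA ⊢
    intro a ha
    rw [Subgroup.mem_centralizer_iff]
    intro c hc
    exact Subtype.ext (Subgroup.mem_centralizer_iff.1 (hA ha) c hc)
  have hBA1 : ⁅B1, B1⁆ ≤ A1 := by
    rw [← Subgroup.map_le_map_iff_of_injective hinj, Subgroup.map_commutator, hA1m, hB1m]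
    exact hBA
  have hnot1 : ¬ B1 ≤ Subgroup.normalizer (A1 : Set ↥M) := by
    intro h
    apply hBnA
    intro b hb
    have h1 := h (show (⟨b, hBM hb⟩ : ↥M) ∈ B1 from hb)
    rw [Subgroup.mem_normalizer_iff] at h1 ⊢
    intro a
    constructor
    · intro ha
      exact (h1 ⟨a, hAM ha⟩).1 ha
    · intro ha
      have h2 : a ∈ M := by
        have h3 := M.mul_mem (M.mul_mem (M.inv_mem (hBM hb)) (hAM ha)) (hBM hb)
        have h4 : b⁻¹ * (b * a * b⁻¹) * b = a := by group
        rwa [h4] at h3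
      exact (h1 ⟨a, h2⟩).2 ha
  obtain ⟨b, hb, hbN, hbA⟩ := Lib.GlaubRepl3.exists_b hMp B1 A1 hnot1
  obtain ⟨h1, h2, h3, h4, h5, h6, h7, h8, h9, h10⟩ :=
    Lib.GlaubRepl2.main hMp B1 (fun h => absurd h hp) A1 hA1c hBA1 hnot1 b hb hbN hbA
  set As : Subgroup ↥M := (A1 ⊓ A1.map (MulAut.conj (b⁻¹)).toMonoidHom) ⊔
    Subgroup.closure {g : ↥M | ∃ a ∈ A1, g = a * b⁻¹ * a⁻¹ * b} with hAs
  have h11 := Lib.Repl78.card_omega_le hp B1 A1 hA1c hBA1 b hb hbN As h2 le_sup_left
    (fun a ha => (le_sup_right : _ ≤ As) (Subgroup.subset_closure ⟨a, ha, rfl⟩))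
  have hcard : Nat.card (As.map M.subtype) = Nat.card As := Subgroup.card_map_of_injective hinj
  have hcardA : Nat.card A = Nat.card A1 := by
    conv_lhs => rw [← hA1m]
    exact Subgroup.card_map_of_injective hinj
  let eS : As ≃* (As.map M.subtype) := As.equivMapOfInjective M.subtype hinj
  refine ⟨As.map M.subtype, ?_, ?_, ?_, ?_, ?_, ?_, ?_⟩
  · rw [← Subgroup.le_centralizer_iff_isMulCommutative] at h2 ⊢
    rintro _ ⟨a, ha, rfl⟩
    rw [Subgroup.mem_centralizer_iff]
    rintro _ ⟨c, hc, rfl⟩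
    rw [← map_mul, ← map_mul, Subgroup.mem_centralizer_iff.1 (h2 ha) c hc]
  · rw [hcard, hcardA, h1]
  · have h12 : (A1 ⊓ B1).map M.subtype < (As ⊓ B1).map M.subtype :=
      (Subgroup.map_lt_map_iff_of_injective hinj).2 h4
    rwa [Subgroup.map_inf _ _ _ hinj, Subgroup.map_inf _ _ _ hinj, hA1m, hB1m] at h12
  · rintro _ ⟨x, hx, rfl⟩
    have h13 := h7 hx
    rw [Subgroup.mem_normalizer_iff] at h13 ⊢
    intro a
    constructor
    · intro ha
      exact (h13 ⟨a, hAM ha⟩).1 ha
    · intro ha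
      have h14 : a ∈ M := by
        have h15 := M.mul_mem (M.mul_mem (M.inv_mem x.2) (hAM ha)) x.2
        have h16 : (x : G)⁻¹ * (M.subtype x * a * (M.subtype x)⁻¹) * x = a := by
          show (x : G)⁻¹ * ((x : G) * a * (x : G)⁻¹) * x = a
          group
        rwa [h16] at h15
      exact (h13 ⟨a, h14⟩).2 ha
  · rw [Subgroup.map_le_iff_le_comap, hAs]
    have hAn : A1 ≤ (Subgroup.normalClosure (A : Set G)).comap M.subtype := fun a ha =>
      Subgroup.subset_normalClosure ha
    refine sup_le (inf_le_left.trans hAn) ?_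
    rw [Subgroup.closure_le]
    rintro _ ⟨a, ha, rfl⟩
    show M.subtype (a * b⁻¹ * a⁻¹ * b) ∈ Subgroup.normalClosure (A : Set G)
    have h17 : M.subtype (a * b⁻¹ * a⁻¹ * b) = (a : G) * ((b : G)⁻¹ * (a : G)⁻¹ * ((b : G)⁻¹)⁻¹) := by
      show (a : G) * (b : G)⁻¹ * (a : G)⁻¹ * b = _
      group
    rw [h17]
    have h18 : (a : G) ∈ Subgroup.normalClosure (A : Set G) := hAn ha
    exact mul_mem h18 (Subgroup.normalClosure_normal.conj_mem _ (inv_mem h18) _)
  · rw [← Monoid.exponent_eq_of_mulEquiv eS]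
    refine (h10 hp).trans ?_
    have eA : A1 ≃* A := Subgroup.subgroupOfEquivOfLe hAM
    rw [Monoid.exponent_eq_of_mulEquiv eA]
  · rw [Lib.Repl78.omega_map M.subtype hinj, Subgroup.card_map_of_injective hinj]
    conv_lhs => rw [← hA1m]
    rw [Lib.Repl78.omega_map M.subtype hinj, Subgroup.card_map_of_injective hinj]
    exact h11

end Cfsg.Agent.S3078
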