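import Cfsg.Statements.S3079
import Cfsg.Agent.Lib.ClosedWF

set_option autoImplicit false
open Cfsg

namespace Cfsg.Agent.S3079

/-- Glauberman's ZJ-Theorem for strongly closed subgroups, p odd. Let G be a finite group that is p-stable in the normalizer form (for every p-subgroup U and g ∈ N_G(U) with [U, g, g] = 1, the image of g lies in O_p(N_G(U)/C_G(U))), with C_G(O_p(G)) ≤ O_p(G), let P be a Sylow p-subgroup and D a subgroup of P strongly closed in P with respect to G. Then Z(J(D)) is normal in G, where J(D) is generated by the abelian subgroups of D of largest order; and so is Ω₁(Z(J_e(D))), where J_e(D) is generated by the elementary abelian subgroups of D of largest order. -/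
theorem result {G : Type*} [Group G] [Finite G] {p : ℕ} [Fact p.Prime] (hp : p ≠ 2) (P : Sylow p G) (D : Subgroup G) (hD : Cfsg.IsStronglyClosed D (P : Subgroup G)) (hst : Cfsg.IsNormalizerPStable p G) (hc : Subgroup.centralizer ((Cfsg.pCore p G : Subgroup G) : Set G) ≤ Cfsg.pCore p G) : (Cfsg.centerThompsonAOf D).Normal ∧ (Cfsg.omegaOne p (Cfsg.centerThompsonOf p D)).Normal := by
  have hV : ∀ (V : Subgroup G) [V.Normal], IsPGroup p V → Cfsg.IsPStableOn p V := by
    intro V _ hVp
    refine Lib.ClosedPS.stableOn_of_hom hst (N := ⊤) (f := (Subgroup.topEquiv (G := G)).toMonoidHom)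
      (Subgroup.topEquiv (G := G)).surjective ?_ V hVp
    have h1 : (Subgroup.topEquiv (G := G)).toMonoidHom.ker = ⊥ :=
      (MonoidHom.ker_eq_bot_iff _).2 (Subgroup.topEquiv (G := G)).injective
    rw [h1, Subgroup.card_bot]
    exact (Fact.out : p.Prime).one_lt.ne' ∘ Nat.dvd_one.1
  have hS := Lib.RelSylow.isSyl_top_iff P
  constructor
  · rw [Lib.ZJThm.centerThompsonAOf_eq]
    exact Lib.ZJClosed.zj_normal Lib.ZJThm.fam_ab hS hD hp hc hV
  · rw [Lib.ClosedPS.omega_centerThompson_eq]
    exact Lib.ZJClosed.zj_normal (Lib.ZJThm.fam_elem hp) hS hD hp hc hV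

end Cfsg.Agent.S3079
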