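import Cfsg.Statements.S3080
import Cfsg.Agent.Lib.ClosedZJ

set_option autoImplicit false
open Cfsg

namespace Cfsg.Agent.S3080

/-- Let p be an odd prime, G a finite group that is p-stable in the normalizer form, P a Sylow p-subgroup such that N_G(U) is p-constrained for every nontrivial subgroup U of P, and D a subgroup of P strongly closed in P with respect to G. Then N_G(Z(J(D))) controls strong G-fusion in P (for every subset A of P and every g ∈ G with gAg⁻¹ ⊆ P, some element of that normalizer acts on A exactly as g does; J(D) is generated by the abelian subgroups of D of largest order), and so does N_G(Ω₁(Z(J_e(D)))) (J_e(D) generated by the elementary abelian subgroups of largest order). -/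
theorem result {G : Type*} [Group G] [Finite G] {p : ℕ} [Fact p.Prime] (hp : p ≠ 2) (P : Sylow p G) (D : Subgroup G) (hD : Cfsg.IsStronglyClosed D (P : Subgroup G)) (hst : Cfsg.IsNormalizerPStable p G) (hc : ∀ U : Subgroup G, U ≤ (P : Subgroup G) → U ≠ ⊥ → Cfsg.IsPConstrained p ↥(Subgroup.normalizer (U : Set G))) : (∀ A : Set G, A ⊆ (P : Subgroup G) → Cfsg.ControlsStrongFusionOf (Subgroup.normalizer ((Cfsg.centerThompsonAOf D) : Set G)) (P : Subgroup G) A) ∧ (∀ A : Set G, A ⊆ (P : Subgroup G) → Cfsg.ControlsStrongFusionOf (Subgroup.normalizer ((Cfsg.omegaOne p (Cfsg.centerThompsonOf p D)) : Set G)) (P : Subgroup G) A) := by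
  have hS := Lib.CFSylow.sylIn_sylow P
  have hD' := Lib.ClosedCF.closedIn_top.2 hD
  have key : ∀ W : (∀ (Q : Type _) [Group Q], Subgroup Q), Lib.ClosedZJ.IsZJ p W →
      Lib.CFControl.SF (Cfsg.inducedFunctor W D) ⊤ (P : Subgroup G) := by
    intro W hW
    apply Lib.ClosedWF.sf_of_local hW.isChar hS hD'
    intro T hT hT1
    exact hW.ctrl_of_constrained hp hst _ (hc T hT hT1)
  constructor
  · intro A hA
    rw [← Lib.ClosedPS.induced_Wab]
    exact Lib.ClosedWF.controlsStrongFusionOf_of_sf (key _ (Or.inl rfl)) hA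
  · intro A hA
    rw [← Lib.ClosedPS.induced_Wel']
    exact Lib.ClosedWF.controlsStrongFusionOf_of_sf (key _ (Or.inr rfl)) hA

end Cfsg.Agent.S3080
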