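import Cfsg.Statements.S3086
import Cfsg.Agent.Lib.H31PGV9

set_option autoImplicit false
open Cfsg

namespace Cfsg.Agent.S3086

open Cfsg.Agent.Lib.H31PGV8 Cfsg.Agent.Lib.H31PGV9

/-- The P(G,V)-theorem. Let p be a prime, G a finite group acting faithfully and linearly on a finite vector space V over the field with p elements, and A a nontrivial elementary abelian p-subgroup of G such that |A|·|C_V(A)| ≥ |B|·|C_V(B)| for every subgroup B of A. Then A normalizes every component (subnormal quasisimple subgroup) of G. -/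
theorem result {G V : Type*} [Group G] [Finite G] [AddCommGroup V] [Finite V] (p : ℕ) [Fact p.Prime] [Module (ZMod p) V]
    (ρ : Representation (ZMod p) G V) (hρ : Function.Injective ρ)
    (A : Subgroup G) (hA : A ≠ ⊥) (hAel : Cfsg.IsElementaryAbelian p A)
    (hP : ∀ B : Subgroup G, B ≤ A →
      Nat.card ↥B * Nat.card {v : V // ∀ b ∈ B, ρ b v = v} ≤ Nat.card ↥A * Nat.card {v : V // ∀ a ∈ A, ρ a v = v}) :
    ∀ K : Subgroup G, Cfsg.IsComponent K → A ≤ Subgroup.normalizer (K : Set G) := by
  intro K hK
  let σ : G →* AddMonoid.End V :=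
    { toFun := fun g => (ρ g).toAddMonoidHom
      map_one' := by ext v; change ρ 1 v = v; rw [map_one]; rfl
      map_mul' := by intro g h; ext v; change ρ (g * h) v = ρ g (ρ h v); rw [map_mul]; rfl }
  have hσ : ∀ g v, σ g v = ρ g v := fun _ _ => rfl
  have hpV : ∀ v : V, p • v = 0 := by
    intro v
    rw [← Nat.cast_smul_eq_nsmul (ZMod p), ZMod.natCast_self, zero_smul]
  have hBO : BO σ A := fun B hB => hP B hB
  rcases PP_all _ p hpV σ K A hK (fun a ha b hb => by
      have := hAel.1.is_comm.comm (⟨a, ha⟩ : A) ⟨b, hb⟩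
      exact congrArg Subtype.val this) hAel.2 hBO le_rfl with h | h
  · exact h
  · exfalso
    apply Cfsg.Agent.Lib.Components.component_ne_bot hK
    rw [Subgroup.eq_bot_iff_forall]
    intro k hk
    apply hρ
    rw [map_one]
    ext v
    have := congrArg (fun f : AddMonoid.End V => f v) (h k hk)
    exact this

end Cfsg.Agent.S3086
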