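import Cfsg.Statements.S3087
import Mathlib

set_option autoImplicit false
open Cfsg

namespace Cfsg.Agent.S3087

/-- counting -/
theorem aux {V : Type*} [AddCommGroup V] [Finite V] (p : ℕ) [Fact p.Prime] [Module (ZMod p) V]
    (A B W : Submodule (ZMod p) V) (hAB : A ≤ B) :
    Nat.card (W ⊓ B : Submodule (ZMod p) V) * Nat.card A ≤ Nat.card B * Nat.card (W ⊓ A : Submodule (ZMod p) V) := by
  have h1 : ((W ⊓ B) ⊔ A : Submodule (ZMod p) V) ≤ B := sup_le inf_le_right hAB
  have h2 : (W ⊓ B) ⊓ A = W ⊓ A := by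
    rw [inf_assoc, inf_eq_right.mpr hAB]
  have h3 : Nat.card (W ⊓ B : Submodule (ZMod p) V) * Nat.card A = Nat.card ((W ⊓ B) ⊔ A : Submodule (ZMod p) V) * Nat.card (W ⊓ A : Submodule (ZMod p) V) := by
    have e1 : ∀ X : Submodule (ZMod p) V, Nat.card X = p ^ Module.finrank (ZMod p) X := by
      intro X
      have := Module.natCard_eq_pow_finrank (K := ZMod p) (V := X)
      rw [this, Nat.card_zmod]
    rw [e1, e1, e1, e1, ← pow_add, ← pow_add, ← Submodule.finrank_sup_add_finrank_inf_eq, h2]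
  rw [h3]
  apply Nat.mul_le_mul_right
  exact Nat.card_le_card_of_injective (Submodule.inclusion h1) (Submodule.inclusion_injective h1)

theorem result {G V : Type*} [Group G] [Finite G] [AddCommGroup V] [Finite V] (p : ℕ) [Fact p.Prime] [Module (ZMod p) V]
    (ρ : Representation (ZMod p) G V) (W : Submodule (ZMod p) V) (hW : ∀ g : G, ∀ w ∈ W, ρ g w ∈ W)
    (A : Subgroup G)
    (hP : ∀ B : Subgroup G, B ≤ A →
      Nat.card ↥B * Nat.card {v : V // ∀ b ∈ B, ρ b v = v} ≤ Nat.card ↥A * Nat.card {v : V // ∀ a ∈ A, ρ a v = v})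
    (B : Subgroup G) (hBA : B ≤ A) (hCB : ∀ a ∈ A, (∀ w ∈ W, ρ a w = w) → a ∈ B) :
    Nat.card ↥B * Nat.card {w : W // ∀ b ∈ B, ρ b w = w} ≤ Nat.card ↥A * Nat.card {w : W // ∀ a ∈ A, ρ a w = w} := by
  classical
  let F : Subgroup G → Submodule (ZMod p) V := fun H =>
    { carrier := {v | ∀ b ∈ H, ρ b v = v}
      add_mem' := by
        intro x y hx hy b hb
        simp only [Set.mem_setOf_eq] at hx hy
        rw [map_add, hx b hb, hy b hb]
      zero_mem' := by intro b hb; simp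
      smul_mem' := by
        intro c x hx b hb
        simp only [Set.mem_setOf_eq] at hx
        rw [map_smul, hx b hb] }
  have eF : ∀ H : Subgroup G, Nat.card {v : V // ∀ b ∈ H, ρ b v = v} = Nat.card (F H) := fun H => rfl
  have eFW : ∀ H : Subgroup G, Nat.card {w : W // ∀ b ∈ H, ρ b w = w} = Nat.card (W ⊓ F H : Submodule (ZMod p) V) := by
    intro H
    refine Nat.card_congr ⟨fun w => ⟨w.1.1, w.1.2, w.2⟩, fun w => ⟨⟨w.1, w.2.1⟩, w.2.2⟩, fun w => rfl, fun w => rfl⟩
  have h := hP B hBA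
  rw [eF, eF] at h
  rw [eFW, eFW]
  have hle : F A ≤ F B := fun v hv b hb => hv b (hBA hb)
  have h2 := aux p (F A) (F B) W hle
  have pos : 0 < Nat.card (F A) := Nat.card_pos
  have : Nat.card B * Nat.card (W ⊓ F B : Submodule (ZMod p) V) * Nat.card (F A) ≤ Nat.card A * Nat.card (W ⊓ F A : Submodule (ZMod p) V) * Nat.card (F A) := by
    calc Nat.card B * Nat.card (W ⊓ F B : Submodule (ZMod p) V) * Nat.card (F A)
        = Nat.card B * (Nat.card (W ⊓ F B : Submodule (ZMod p) V) * Nat.card (F A)) := by ring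
      _ ≤ Nat.card B * (Nat.card (F B) * Nat.card (W ⊓ F A : Submodule (ZMod p) V)) := Nat.mul_le_mul_left _ h2
      _ = (Nat.card B * Nat.card (F B)) * Nat.card (W ⊓ F A : Submodule (ZMod p) V) := by ring
      _ ≤ (Nat.card A * Nat.card (F A)) * Nat.card (W ⊓ F A : Submodule (ZMod p) V) := Nat.mul_le_mul_right _ h
      _ = _ := by ring
  exact Nat.le_of_mul_le_mul_right this pos

end Cfsg.Agent.S3087
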