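import Cfsg.Statements.S3110
import Cfsg.Agent.Lib.SSF2Bal

set_option autoImplicit false
open Cfsg

namespace Cfsg.Agent.S3110

open Subgroup Cfsg Cfsg.Agent.Lib.SSF2 Cfsg.Agent.Lib.CoprimeHyper
open Cfsg.Agent.Lib.Balance (cpc_conj)

theorem normalizer_zpowers_of_two {G : Type*} [Group G] [Finite G] {x : G} (hx : orderOf x = 2) :
    normalizer (zpowers x : Set G) = centralizer ({x} : Set G) := by
  apply le_antisymm
  · intro g hg
    have h1 := (mem_normalizer_iff.1 hg x).1 (mem_zpowers x)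
    have h2 : (g * x * g⁻¹) = 1 ∨ g * x * g⁻¹ = x := by
      obtain ⟨n, hn⟩ := mem_zpowers_iff.1 h1
      have h3 : x ^ (2 : ℤ) = 1 := by
        have := pow_orderOf_eq_one x
        rw [hx] at this
        exact_mod_cast this
      rcases Int.even_or_odd' n with ⟨k, rfl | rfl⟩
      · left; rw [← hn, zpow_mul, h3, one_zpow]
      · right; rw [← hn, zpow_add, zpow_mul, h3, one_zpow, one_mul, zpow_one]
    rcases h2 with h2 | h2
    · exfalso
      have h3 : x = 1 := by
        have : x = g⁻¹ * (g * x * g⁻¹) * g := by group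
        rw [this, h2]; group
      rw [h3, orderOf_one] at hx
      omega
    · rw [mem_centralizer_singleton_iff]
      exact mul_inv_eq_iff_eq_mul.1 h2
  · rw [Cfsg.Agent.Lib.Signalizer.centralizer_singleton_eq]
    exact centralizer_le_normalizer _

/-- `{x ∈ A : x² = 1}` for abelian `A` -/
def om {G : Type*} [Group G] (A : Subgroup G) (hA : ∀ a ∈ A, ∀ b ∈ A, a * b = b * a) : Subgroup G where
  carrier := {x | x ∈ A ∧ x * x = 1}
  one_mem' := ⟨one_mem _, one_mul _⟩
  mul_mem' := by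
    rintro a b ⟨ha, ha2⟩ ⟨hb, hb2⟩
    refine ⟨mul_mem ha hb, ?_⟩
    calc a * b * (a * b) = a * (b * a) * b := by group
      _ = a * (a * b) * b := by rw [hA b hb a ha]
      _ = (a * a) * (b * b) := by group
      _ = 1 := by rw [ha2, hb2, one_mul]
  inv_mem' := by
    rintro a ⟨ha, ha2⟩
    exact ⟨inv_mem ha, by rw [← mul_inv_rev, ha2, inv_one]⟩

theorem om_elem {G : Type*} [Group G] (A : Subgroup G) (hA : ∀ a ∈ A, ∀ b ∈ A, a * b = b * a) :
    IsElementaryAbelian 2 (om A hA) := by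
  refine ⟨?_, ?_⟩
  · rw [isMulCommutative_iff_of_setLike]
    intro a ha b hb
    exact hA a ha.1 b hb.1
  · intro a ha
    rw [pow_two]; exact ha.2

theorem normalizer_le_om {G : Type*} [Group G] [Finite G] (A : Subgroup G)
    (hA : ∀ a ∈ A, ∀ b ∈ A, a * b = b * a) :
    normalizer (A : Set G) ≤ normalizer (om A hA : Set G) := by
  intro g hg
  apply mem_normalizer_of_conj_mem'
  rintro x ⟨hx, hx2⟩
  refine ⟨(mem_normalizer_iff.1 hg x).1 hx, ?_⟩
  calc g * x * g⁻¹ * (g * x * g⁻¹) = g * (x * x) * g⁻¹ := by group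
    _ = 1 := by rw [hx2]; group

theorem card_pow_two {G : Type*} [Group G] [Finite G] {E : Subgroup G} (hE : IsElementaryAbelian 2 E) {k : ℕ}
    (h : ¬ Nat.card E ≤ 2 ^ k) : 2 ^ (k + 1) ≤ Nat.card E := by
  have : Fact (Nat.Prime 2) := ⟨Nat.prime_two⟩
  obtain ⟨n, hn⟩ := IsPGroup.iff_card.mp (elemAb_isPGroup hE)
  rw [hn] at h ⊢
  rw [not_le, Nat.pow_lt_pow_iff_right (by norm_num)] at h
  exact Nat.pow_le_pow_right (by norm_num) h

/-- witnesses of `¬ PRankLE 2 k K` in ambient form -/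
theorem exists_of_not_prankLE {G : Type*} [Group G] [Finite G] {K : Subgroup G} {k : ℕ} (h : ¬ PRankLE 2 k K) :
    ∃ E : Subgroup G, E ≤ K ∧ IsElementaryAbelian 2 E ∧ 2 ^ (k + 1) ≤ Nat.card E := by
  unfold PRankLE at h
  push Not at h
  obtain ⟨E, hE1, hE2, hE3⟩ := h
  have hE : IsElementaryAbelian 2 (E.map K.subtype) := by
    refine ⟨?_, ?_⟩
    · rw [isMulCommutative_iff_of_setLike]
      rintro _ ⟨a, ha, rfl⟩ _ ⟨b, hb, rfl⟩
      have := isMulCommutative_iff_of_setLike.mp hE1 a ha b hb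
      exact congrArg Subtype.val this
    · rintro _ ⟨a, ha, rfl⟩
      exact congrArg Subtype.val (hE2 a ha)
  have hcard : Nat.card (E.map K.subtype) = Nat.card E := card_map_of_injective K.subtype_injective
  refine ⟨E.map K.subtype, map_subtype_le _, hE, card_pow_two hE ?_⟩
  rw [hcard]
  omega

/-- a normal elementary abelian subgroup of order at least 8 -/
theorem exists_normal_elem {G : Type*} [Group G] [Finite G] (S : Sylow 2 G) (A : Subgroup ↥(S : Subgroup G))
    (hAn : A.Normal) (hAab : IsMulCommutative ↥A) (hA3 : ¬ Cfsg.PRankLE 2 2 ↥A) :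
    ∃ E : Subgroup G, IsElementaryAbelian 2 E ∧ 2 ^ 3 ≤ Nat.card E ∧ (S : Subgroup G) ≤ normalizer (E : Set G) ∧
      E ≤ (S : Subgroup G) := by
  set B : Subgroup G := A.map (S : Subgroup G).subtype with hB
  have hBc : ∀ a ∈ B, ∀ b ∈ B, a * b = b * a := by
    rintro _ ⟨a, ha, rfl⟩ _ ⟨b, hb, rfl⟩
    have := isMulCommutative_iff_of_setLike.mp hAab a ha b hb
    exact congrArg Subtype.val this
  have hSB : (S : Subgroup G) ≤ normalizer (B : Set G) := by
    intro s hs
    apply mem_normalizer_of_conj_mem'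
    rintro _ ⟨a, ha, rfl⟩
    exact ⟨⟨s, hs⟩ * a * ⟨s, hs⟩⁻¹, hAn.conj_mem a ha ⟨s, hs⟩, rfl⟩
  refine ⟨om B hBc, om_elem B hBc, ?_, hSB.trans (normalizer_le_om B hBc), fun x hx => map_subtype_le _ hx.1⟩
  unfold PRankLE at hA3
  push Not at hA3
  obtain ⟨E, hE1, hE2, hE3⟩ := hA3
  have hinj : Function.Injective ((S : Subgroup G).subtype.comp A.subtype) :=
    (S : Subgroup G).subtype_injective.comp A.subtype_injective
  have hcard : Nat.card (E.map ((S : Subgroup G).subtype.comp A.subtype)) = Nat.card E := card_map_of_injective hinj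
  have hle : E.map ((S : Subgroup G).subtype.comp A.subtype) ≤ om B hBc := by
    rintro _ ⟨a, ha, rfl⟩
    refine ⟨⟨(a : ↥(S : Subgroup G)), a.2, rfl⟩, ?_⟩
    have := congrArg ((S : Subgroup G).subtype.comp A.subtype) (hE2 a ha)
    rw [map_pow, map_one, pow_two] at this
    exact this
  have hE : IsElementaryAbelian 2 (E.map ((S : Subgroup G).subtype.comp A.subtype)) :=
    elemAb_mono (om_elem B hBc) hle
  exact (card_pow_two hE (k := 2) (by rw [hcard]; omega)).trans (Subgroup.card_le_of_le hle)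

theorem exists_normal_elem' {G : Type*} [Group G] [Finite G] (S : Sylow 2 G) (A : Subgroup ↥(S : Subgroup G))
    (hAn : A.Normal) (hAab : IsMulCommutative ↥A) (hA3 : ¬ Cfsg.PRankLE 2 2 ↥A) (S' : Sylow 2 G) :
    ∃ E : Subgroup G, IsElementaryAbelian 2 E ∧ 2 ^ 3 ≤ Nat.card E ∧ (S' : Subgroup G) ≤ normalizer (E : Set G) ∧
      E ≤ (S' : Subgroup G) := by
  have : Fact (Nat.Prime 2) := ⟨Nat.prime_two⟩
  obtain ⟨E, hE, hE3, hSE, hES⟩ := exists_normal_elem S A hAn hAab hA3
  obtain ⟨g, hg⟩ := MulAction.exists_smul_eq G S S'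
  have hS' : (S' : Subgroup G) = (S : Subgroup G).map (MulAut.conj g).toMonoidHom := by
    rw [← hg]; rfl
  refine ⟨E.map (MulAut.conj g).toMonoidHom, ?_, ?_, ?_, ?_⟩
  · refine ⟨?_, ?_⟩
    · rw [isMulCommutative_iff_of_setLike]
      rintro _ ⟨a, ha, rfl⟩ _ ⟨b, hb, rfl⟩
      rw [← map_mul, ← map_mul, elemAb_comm hE ha hb]
    · rintro _ ⟨a, ha, rfl⟩
      rw [← map_pow, hE.2 a ha, map_one]
  · rw [Cfsg.Agent.Lib.LocBase.card_map_conj]; exact hE3
  · rw [hS', ← Cfsg.Agent.Lib.LocBase.map_conj_normalizer]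
    exact Subgroup.map_mono hSE
  · rw [hS']; exact Subgroup.map_mono hES

/-- Let G be a finite group in which every 2-local subgroup is 2-constrained and some Sylow 2-subgroup has a self-centralizing abelian normal subgroup of 2-rank at least 3, and let S be any Sylow 2-subgroup of G. Then there is a subgroup W of G of odd order such that, for every subgroup B of S of 2-rank at least 2, W is generated by the largest normal odd-order subgroups O(C_G(b)) of the centralizers of the non-identity elements b of B, and W is normalized by the normalizer of every such B. -/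
theorem result {G : Type*} [Group G] [Finite G]
    (h2c : ∀ T : Subgroup G, IsPGroup 2 T → T ≠ ⊥ → Cfsg.IsPConstrained 2 ↥(Subgroup.normalizer (T : Set G)))
    (S : Sylow 2 G) (A : Subgroup ↥(S : Subgroup G)) (hAn : A.Normal) (hAab : IsMulCommutative ↥A)
    (hAC : Subgroup.centralizer (A : Set ↥(S : Subgroup G)) = A) (hA3 : ¬ Cfsg.PRankLE 2 2 ↥A) (S' : Sylow 2 G) :
    ∃ W : Subgroup G, Odd (Nat.card ↥W) ∧
      ∀ B : Subgroup G, B ≤ (S' : Subgroup G) → ¬ Cfsg.PRankLE 2 1 ↥B →
        W = (⨆ b : {b : G // b ∈ B ∧ b ≠ 1}, Cfsg.centralizerPPrimeCore 2 (b : G)) ∧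
        Subgroup.normalizer (B : Set G) ≤ Subgroup.normalizer (W : Set G) := by
  have hp2 : Fact (Nat.Prime 2) := ⟨Nat.prime_two⟩
  have hc : ∀ x : G, orderOf x = 2 → IsPConstrained 2 ↥(centralizer ({x} : Set G)) := by
    intro x hx
    rw [← normalizer_zpowers_of_two hx]
    apply h2c
    · exact IsPGroup.of_card (n := 1) (by rw [Nat.card_zpowers, hx, pow_one])
    · intro h0
      rw [zpowers_eq_bot] at h0
      rw [h0, orderOf_one] at hx
      omega
  have hb := bal2_of_constrained hc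
  obtain ⟨E, hE, hE3, hSE, hES⟩ := exists_normal_elem' S A hAn hAab hA3 S'
  refine ⟨Wof E, odd_Wof hb hE hE3, ?_⟩
  intro B hBS hB
  obtain ⟨U, hUB, hU, hU2⟩ := exists_of_not_prankLE hB
  have hWU := Wof_eq_of_normal hb hE hE3 hSE (hUB.trans hBS) hU (by omega)
  have hWB : Wof B = Wof E := by
    apply le_antisymm
    · apply iSup_le
      rintro ⟨b, hbB, hb1⟩
      -- an involution in `⟨b⟩`
      have hbp : IsPGroup 2 (zpowers b) := S'.2.to_le (zpowers_le.2 (hBS hbB))
      obtain ⟨x, hx⟩ := exists_prime_orderOf_dvd_card' (G := zpowers b) 2 (by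
        rcases hbp.card_eq_or_dvd with h1 | h1
        · exfalso
          rw [Nat.card_zpowers, orderOf_eq_one_iff] at h1
          exact hb1 h1
        · exact h1)
      have hxo : orderOf (x : G) = 2 := by rw [← hx]; exact Subgroup.orderOf_coe x
      have hxS : (x : G) ∈ (S' : Subgroup G) := (zpowers_le.2 (hBS hbB)) x.2
      refine (cpc_le_of_mem hbp x.2 (hc _ hxo)).trans ?_
      rw [← Wof_inf_of_normal hb hE hE3 hSE hxS hxo]
      exact inf_le_left
    · rw [← hWU]; exact Wof_mono hUB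
  refine ⟨hWB.symm, ?_⟩
  rw [← hWB]
  exact normalizer_le_normalizer_Wof B

end Cfsg.Agent.S3110
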