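import Cfsg.Statements.S3153
import Cfsg.Agent.Lib.H34PComp
import Cfsg.Agent.Lib.H32Tight
import Cfsg.Agent.Lib.CoprimeGen
import Cfsg.Agent.Lib.PCoreTools

set_option autoImplicit false
open Cfsg

namespace Cfsg.Agent.S3153

open scoped commutatorElement
open Subgroup Cfsg.Agent.Lib.Components Cfsg.Agent.Lib.H34PComp Cfsg.Agent.Lib.PComponents Cfsg.Agent.Lib.H32Tight

universe u

variable {G : Type u} [Group G] [Finite G]

theorem qs_inf {P N : Subgroup G} (hP : IsQuasisimple ↥P) (hN : P ≤ normalizer (N : Set G)) :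
    P ⊓ N ≤ centralizer (P : Set G) ∨ P ≤ N := by
  have hn : (N.subgroupOf P).Normal := by
    constructor
    intro n hn x
    rw [mem_subgroupOf] at hn ⊢
    exact (mem_normalizer_iff.mp (hN x.2) n).mp hn
  rcases normal_le_center_or_eq_top hP (N.subgroupOf P) with h | h
  · left
    intro x hx
    have := h (show (⟨x, (mem_inf.1 hx).1⟩ : P) ∈ N.subgroupOf P from (mem_inf.1 hx).2)
    rw [mem_centralizer_iff]
    intro y hy
    exact congrArg Subtype.val (mem_center_iff.mp this ⟨y, hy⟩)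
  · right
    exact subgroupOf_eq_top.mp h

theorem sup_props {x y : G} (hx : x ^ 2 = 1) (hy : y ^ 2 = 1) (hc : Commute x y) :
    IsMulCommutative ↥(zpowers x ⊔ zpowers y) ∧ (∀ a ∈ zpowers x ⊔ zpowers y, a ^ 2 = 1) ∧
      ∀ a ∈ zpowers x ⊔ zpowers y, a = 1 ∨ a = x ∨ a = y ∨ a = x * y := by
  have hle : zpowers x ≤ centralizer ((zpowers y : Subgroup G) : Set G) := by
    rw [zpowers_le, mem_centralizer_iff]
    intro z hz
    obtain ⟨k, rfl⟩ := mem_zpowers_iff.mp hz
    exact (hc.zpow_right k).eq.symm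
  have hform : ∀ a ∈ zpowers x ⊔ zpowers y, ∃ i j : ℤ, a = x ^ i * y ^ j := by
    intro a ha
    obtain ⟨u, hu, v, hv, rfl⟩ := (mem_sup_of_commute hle).mp ha
    obtain ⟨i, rfl⟩ := mem_zpowers_iff.mp hu
    obtain ⟨j, rfl⟩ := mem_zpowers_iff.mp hv
    exact ⟨i, j, rfl⟩
  have hcomm : ∀ i j k l : ℤ, Commute (x ^ i * y ^ j) (x ^ k * y ^ l) := by
    intro i j k l
    have h1 : ∀ a b : ℤ, Commute (x ^ a) (y ^ b) := fun a b => hc.zpow_zpow a b
    have h2 : ∀ a b : ℤ, Commute (x ^ a) (x ^ b) := fun a b => (Commute.refl x).zpow_zpow a b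
    have h3 : ∀ a b : ℤ, Commute (y ^ a) (y ^ b) := fun a b => (Commute.refl y).zpow_zpow a b
    exact ((h2 i k).mul_right (h1 i l)).mul_left (((h1 k j).symm).mul_right (h3 j l))
  refine ⟨isMulCommutative_iff.mpr ?_, ?_, ?_⟩
  · rintro ⟨a, ha⟩ ⟨b, hb⟩
    obtain ⟨i, j, rfl⟩ := hform a ha
    obtain ⟨k, l, rfl⟩ := hform b hb
    exact Subtype.ext (hcomm i j k l).eq
  · intro a ha
    obtain ⟨i, j, rfl⟩ := hform a ha
    rw [((hc.zpow_zpow i j)).mul_pow, ← zpow_natCast, ← zpow_natCast, ← zpow_mul, ← zpow_mul, mul_comm i,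
      mul_comm j, zpow_mul, zpow_mul, zpow_natCast, zpow_natCast, hx, hy, one_zpow, one_zpow, one_mul]
  · have hz : ∀ z : G, z ^ 2 = 1 → ∀ i : ℤ, z ^ i = 1 ∨ z ^ i = z := by
      intro z hz i
      rcases Int.even_or_odd' i with ⟨k, rfl | rfl⟩
      · left; rw [zpow_mul, zpow_ofNat, hz, one_zpow]
      · right; rw [zpow_add, zpow_mul, zpow_ofNat, hz, one_zpow, one_mul, zpow_one]
    intro a ha
    obtain ⟨i, j, rfl⟩ := hform a ha
    rcases hz x hx i with h | h <;> rcases hz y hy j with h' | h' <;> rw [h, h'] <;> simp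

theorem comm_inv {C : Subgroup G} (hr : PRankLE 2 1 ↥C) {x y : G} (hxC : x ∈ C) (hyC : y ∈ C)
    (hx : x ^ 2 = 1) (hx1 : x ≠ 1) (hy : y ^ 2 = 1) (hy1 : y ≠ 1) (hc : Commute x y) : x = y := by
  classical
  by_contra hne
  have h1 := sup_props (G := C) (x := ⟨x, hxC⟩) (y := ⟨y, hyC⟩) (Subtype.ext hx) (Subtype.ext hy)
    (Subtype.ext hc.eq)
  have h2 := hr _ h1.1 h1.2.1
  set A := zpowers (⟨x, hxC⟩ : C) ⊔ zpowers ⟨y, hyC⟩ with hA
  have hxA : (⟨x, hxC⟩ : C) ∈ A := (le_sup_left : _ ≤ A) (mem_zpowers _)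
  have hyA : (⟨y, hyC⟩ : C) ∈ A := (le_sup_right : _ ≤ A) (mem_zpowers _)
  have h3 : ({1, ⟨x, hxC⟩, ⟨y, hyC⟩} : Finset C).card ≤ Nat.card A := by
    have : ((({1, ⟨x, hxC⟩, ⟨y, hyC⟩} : Finset C) : Set C)).ncard ≤ ((A : Subgroup C) : Set C).ncard := by
      apply Set.ncard_le_ncard _ (Set.toFinite _)
      intro z hz
      simp only [Finset.coe_insert, Finset.coe_singleton, Set.mem_insert_iff, Set.mem_singleton_iff] at hz
      rcases hz with rfl | rfl | rfl
      · exact one_mem A
      · exact hxA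
      · exact hyA
    rw [Set.ncard_coe_finset] at this
    rwa [← Nat.card_coe_set_eq] at this
  have h4 : ({1, ⟨x, hxC⟩, ⟨y, hyC⟩} : Finset C).card = 3 := by
    rw [Finset.card_eq_three]
    refine ⟨_, _, _, ?_, ?_, ?_, rfl⟩
    · intro h; exact hx1 (congrArg Subtype.val h).symm
    · intro h; exact hy1 (congrArg Subtype.val h).symm
    · intro h; exact hne (congrArg Subtype.val h)
  omega

/-- the `2`-element normalizing a Sylow 2-subgroup of `M` and lying in `M` lies in it. -/
theorem mem_syl {M : Subgroup G} (S : Sylow 2 ↥M) {g : G} (hgM : g ∈ M)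
    (hgN : ∀ s ∈ (S : Subgroup ↥M).map M.subtype, g * s * g⁻¹ ∈ (S : Subgroup ↥M).map M.subtype)
    (hg2 : g ^ 2 ∈ (S : Subgroup ↥M).map M.subtype) : g ∈ (S : Subgroup ↥M).map M.subtype := by
  have h2 : (⟨g, hgM⟩ : M) ^ 2 ∈ (S : Subgroup M) := by
    obtain ⟨s, hs, hsg⟩ := hg2
    have : s = (⟨g, hgM⟩ : M) ^ 2 := Subtype.ext hsg
    rw [← this]; exact hs
  have hN : (⟨g, hgM⟩ : M) ∈ normalizer ((S : Subgroup M) : Set M) := by
    rw [mem_normalizer_iff]
    have hle : ((S : Subgroup M).map (MulAut.conj (⟨g, hgM⟩ : M)).toMonoidHom) ≤ (S : Subgroup M) := by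
      rintro _ ⟨s, hs, rfl⟩
      obtain ⟨s', hs', hss⟩ := hgN s ⟨s, hs, rfl⟩
      have : s' = (⟨g, hgM⟩ : M) * s * (⟨g, hgM⟩ : M)⁻¹ := Subtype.ext hss
      change (⟨g, hgM⟩ : M) * s * (⟨g, hgM⟩ : M)⁻¹ ∈ _
      rw [← this]; exact hs'
    have heq : ((S : Subgroup M).map (MulAut.conj (⟨g, hgM⟩ : M)).toMonoidHom) = (S : Subgroup M) := by
      apply Subgroup.eq_of_le_of_card_ge hle
      rw [card_map_of_injective (MulAut.conj _).injective]
    intro n
    constructor
    · intro hn
      exact hle ⟨n, hn, rfl⟩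
    · intro hn
      rw [← heq] at hn
      obtain ⟨m, hm, hmn⟩ := hn
      have : m = n := (MulAut.conj (⟨g, hgM⟩ : M)).injective hmn
      rw [← this]; exact hm
  have hp : IsPGroup 2 ↥(zpowers (⟨g, hgM⟩ : M)) := by
    obtain ⟨k, hk⟩ := S.isPGroup' ⟨_, h2⟩
    rw [IsPGroup.iff_card, Nat.card_zpowers]
    have hk' : (⟨g, hgM⟩ : M) ^ 2 ^ (k + 1) = 1 := by
      have := congrArg Subtype.val hk
      rw [pow_succ', pow_mul]
      exact this
    obtain ⟨n, _, hn⟩ := (Nat.dvd_prime_pow Nat.prime_two).mp (orderOf_dvd_of_pow_eq_one hk')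
    exact ⟨n, hn⟩
  have h3 := hp.inf_normalizer_sylow S
  have h4 : (⟨g, hgM⟩ : M) ∈ zpowers (⟨g, hgM⟩ : M) ⊓ (S : Subgroup M) := by
    rw [← h3]
    exact mem_inf.2 ⟨mem_zpowers _, hN⟩
  exact ⟨_, (mem_inf.1 h4).2, rfl⟩

/-- Let X be a finite group and P a standard subgroup of X whose centralizer has 2-rank at most 1 and whose centre has odd order. Let S be a Sylow 2-subgroup of N_X(P) and t an involution of S centralizing P. Suppose some element g of X normalizes S, does not lie in S, has its square in S, and conjugates t into P·C_X(P). Then P commutes elementwise with the largest normal odd-order subgroup O(X) of X; consequently every t-invariant 2-component of X containing P is quasisimple. -/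
theorem result {X : Type*} [Group X] [Finite X] (P : Subgroup X) (hP : Cfsg.IsStandardSubgroup P)
    (hr : Cfsg.PRankLE 2 1 ↥(Subgroup.centralizer (P : Set X))) (hZ : Odd (Nat.card ↥(Subgroup.center ↥P)))
    (S : Sylow 2 ↥(Subgroup.normalizer (P : Set X))) (t : X) (ht : orderOf t = 2) (htS : t ∈ (S : Subgroup ↥(Subgroup.normalizer (P : Set X))).map (Subgroup.normalizer (P : Set X)).subtype)
    (htP : t ∈ Subgroup.centralizer (P : Set X))
    (g : X) (hgN : ∀ s ∈ (S : Subgroup ↥(Subgroup.normalizer (P : Set X))).map (Subgroup.normalizer (P : Set X)).subtype, g * s * g⁻¹ ∈ (S : Subgroup ↥(Subgroup.normalizer (P : Set X))).map (Subgroup.normalizer (P : Set X)).subtype)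
    (hgS : g ∉ (S : Subgroup ↥(Subgroup.normalizer (P : Set X))).map (Subgroup.normalizer (P : Set X)).subtype) (hg2 : g ^ 2 ∈ (S : Subgroup ↥(Subgroup.normalizer (P : Set X))).map (Subgroup.normalizer (P : Set X)).subtype)
    (hgt : g * t * g⁻¹ ∈ P ⊔ Subgroup.centralizer (P : Set X)) :
    ⁅P, Cfsg.oddCore X⁆ = ⊥ ∧
      ∀ L : Subgroup X, Cfsg.IsPComponent 2 L → P ≤ L → (∀ l ∈ L, t * l * t⁻¹ ∈ L) → Cfsg.IsQuasisimple ↥L := by
  obtain ⟨hPq, hPt, hPc, hPn⟩ := hP
  set C := centralizer (P : Set X) with hC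
  set S' := (S : Subgroup ↥(normalizer (P : Set X))).map (normalizer (P : Set X)).subtype with hS'
  have hOn : (oddCore X).Normal := Cfsg.Agent.Lib.PCoreTools.pPrimeCore_normal' 2 X
  have hOodd : (Nat.card ↥(oddCore X)).Coprime 2 := Cfsg.Agent.Lib.PCoreTools.coprime_card_pPrimeCore 2
  set O := oddCore X with hO
  have ht2 : t ^ 2 = 1 := by rw [← ht]; exact pow_orderOf_eq_one t
  have ht1 : t ≠ 1 := by
    intro h; rw [h, orderOf_one] at ht; omega
  -- centralizer of t
  have hCt : centralizer ({t} : Set X) ≤ normalizer (P : Set X) := by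
    rw [hPn]
    refine le_trans ?_ (normalizer_le hPt (X := zpowers t) ?_ ?_ (zpowers_le.mpr htP))
    · refine le_trans ?_ (centralizer_le_normalizer' (zpowers t))
      intro x hx
      have hx' : t * x = x * t := by
        exact mem_centralizer_iff.mp hx t rfl
      rw [mem_centralizer_iff]
      intro y hy
      obtain ⟨k, rfl⟩ := mem_zpowers_iff.mp hy
      exact (Commute.zpow_left (show Commute t x from hx') k).eq
    · rw [IsPGroup.iff_card, Nat.card_zpowers, ht]
      exact ⟨1, by norm_num⟩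
    · intro h
      rw [zpowers_eq_bot] at h
      exact ht1 h
  have hPC : P ≤ centralizer (C : Set X) := le_centralizer_comm le_rfl
  have hS'p : IsPGroup 2 ↥S' := S.isPGroup'.map _
  have hS'P : S' ≤ normalizer (P : Set X) := by
    rintro _ ⟨s, _, rfl⟩; exact s.2
  have hS'C : S' ≤ normalizer (C : Set X) := hPn ▸ hS'P
  -- unique involution in `S' ∩ C`
  have huniq : ∀ x ∈ S' ⊓ C, x ^ 2 = 1 → x ≠ 1 → x = t := by
    have hRp : IsPGroup 2 ↥(S' ⊓ C) := hS'p.to_le inf_le_left
    have hRn : Nontrivial ↥(S' ⊓ C) :=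
      ⟨⟨⟨t, mem_inf.2 ⟨htS, htP⟩⟩, 1, fun h => ht1 (congrArg Subtype.val h)⟩⟩
    have hcn := hRp.center_nontrivial
    obtain ⟨z, hz⟩ : ∃ z : ↥(center ↥(S' ⊓ C)), orderOf z = 2 := by
      apply exists_prime_orderOf_dvd_card' 2
      have hcp : IsPGroup 2 ↥(center ↥(S' ⊓ C)) := hRp.to_subgroup _
      obtain ⟨n, hn⟩ := IsPGroup.iff_card.mp hcp
      rw [hn]
      rcases n with _ | n
      · exfalso
        rw [pow_zero, Nat.card_eq_one_iff_unique] at hn
        exact not_subsingleton_iff_nontrivial.mpr hcn hn.1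
      · exact dvd_pow_self 2 (Nat.succ_ne_zero n)
    have hz2 : ((z : ↥(S' ⊓ C)) : X) ^ 2 = 1 := by
      have := pow_orderOf_eq_one z
      rw [hz] at this
      exact congrArg (fun w : ↥(center ↥(S' ⊓ C)) => ((w : ↥(S' ⊓ C)) : X)) this
    have hz1 : ((z : ↥(S' ⊓ C)) : X) ≠ 1 := by
      intro h
      have : z = 1 := Subtype.ext (Subtype.ext h)
      rw [this, orderOf_one] at hz; omega
    have key : ∀ x ∈ S' ⊓ C, x ^ 2 = 1 → x ≠ 1 → x = ((z : ↥(S' ⊓ C)) : X) := by
      intro x hx hx2 hx1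
      refine comm_inv hr (mem_inf.1 hx).2 (mem_inf.1 (z : ↥(S' ⊓ C)).2).2 hx2 hx1 hz2 hz1 ?_
      have := mem_center_iff.mp z.2 ⟨x, hx⟩
      exact congrArg Subtype.val this
    intro x hx hx2 hx1
    rw [key x hx hx2 hx1, key t (mem_inf.2 ⟨htS, htP⟩) ht2 ht1]
  have htZ : ∀ s ∈ S', s * t * s⁻¹ = t := by
    intro s hs
    apply huniq
    · refine mem_inf.2 ⟨mul_mem (mul_mem hs htS) (inv_mem hs), ?_⟩
      exact (mem_normalizer_iff.mp (hS'C hs) t).mp htP
    · rw [conj_pow, ht2]; group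
    · intro h
      apply ht1
      have := congrArg (fun w => s⁻¹ * w * s) h
      simpa [mul_assoc] using this
  -- the conjugate `t'`
  set t' := g * t * g⁻¹ with ht'
  have ht'S : t' ∈ S' := hgN t htS
  have ht'2 : t' ^ 2 = 1 := by rw [ht', conj_pow, ht2]; group
  have ht'1 : t' ≠ 1 := by
    intro h; apply ht1
    have := congrArg (fun w => g⁻¹ * w * g) h
    simpa [ht', mul_assoc] using this
  have ht't : t' ≠ t := by
    intro h
    apply hgS
    refine mem_syl S (hCt ?_) hgN hg2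
    rw [mem_centralizer_iff]
    rintro y rfl
    exact (mul_inv_eq_iff_eq_mul.mp h).symm
  have hcomm : Commute t' t := mul_inv_eq_iff_eq_mul.mp (htZ t' ht'S)
  obtain ⟨p, hp, c, hc, hpc⟩ := (mem_sup_of_commute (H := P) (N := C) hPC).mp hgt
  have hpcc : Commute p c := mem_centralizer_iff.mp hc p hp
  have hZn : ∀ z ∈ P ⊓ C, z ^ (Nat.card ↥(center ↥P)) = 1 := by
    intro z hz
    have h1 : (⟨z, (mem_inf.1 hz).1⟩ : P) ∈ center P := by
      rw [mem_center_iff]
      intro y
      exact Subtype.ext ((mem_centralizer_iff.mp (mem_inf.1 hz).2) y y.2)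
    have h2 := pow_card_eq_one' (x := (⟨_, h1⟩ : center P))
    exact congrArg (fun w : ↥(center ↥P) => ((w : ↥P) : X)) h2
  have hp2 : p ^ 2 ∈ P ⊓ C := by
    have h1 : p ^ 2 * c ^ 2 = 1 := by rw [← hpcc.mul_pow, hpc, ht'2]
    refine mem_inf.2 ⟨pow_mem hp 2, ?_⟩
    rw [eq_inv_of_mul_eq_one_left h1]
    exact inv_mem (pow_mem hc 2)
  obtain ⟨m, hm⟩ := hZ
  obtain ⟨p1, hp1d⟩ : ∃ p1, p1 = p ^ (Nat.card ↥(center ↥P)) := ⟨_, rfl⟩
  obtain ⟨c1, hc1d⟩ : ∃ c1, c1 = c ^ (Nat.card ↥(center ↥P)) := ⟨_, rfl⟩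
  have hp1 : p1 ^ 2 = 1 := by rw [hp1d, ← pow_mul, mul_comm, pow_mul]; exact hZn _ hp2
  have hpc1 : p1 * c1 = t' := by
    rw [hp1d, hc1d, ← hpcc.mul_pow, hpc, hm, pow_add, pow_mul, ht'2, one_pow, one_mul, pow_one]
  have hc1 : c1 ^ 2 = 1 := by
    have hcc : Commute p1 c1 := by rw [hp1d, hc1d]; exact hpcc.pow_pow _ _
    have h1 : p1 ^ 2 * c1 ^ 2 = 1 := by rw [← hcc.mul_pow, hpc1, ht'2]
    rwa [hp1, one_mul] at h1
  have hp1P : p1 ∈ P := hp1d ▸ pow_mem hp _
  have hc1C : c1 ∈ C := hc1d ▸ pow_mem hc _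
  have htp1 : Commute t p1 := (mem_centralizer_iff.mp htP p1 hp1P).symm
  have htc1 : Commute t c1 := by
    have : c1 = p1⁻¹ * t' := by rw [← hpc1]; group
    rw [this]
    exact htp1.inv_right.mul_right hcomm.symm
  have hcase : c1 = 1 ∨ c1 = t := by
    by_cases h : c1 = 1
    · exact Or.inl h
    · exact Or.inr (comm_inv hr hc1C htP hc1 h ht2 ht1 htc1.symm)
  have hp1c : p1 ∉ C := by
    intro h
    have h1 : p1 = 1 := by
      have h2 := hZn p1 (mem_inf.2 ⟨hp1P, h⟩)
      rw [hm, pow_add, pow_mul, hp1, one_pow, one_mul, pow_one] at h2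
      exact h2
    rw [h1, one_mul] at hpc1
    rcases hcase with h3 | h3
    · exact ht'1 (hpc1.symm.trans h3)
    · exact ht't (hpc1.symm.trans h3)
  have hp11 : p1 ≠ 1 := fun h => hp1c (h ▸ one_mem C)
  have hPO : ¬ P ≤ O := by
    intro h
    have h1 : orderOf p1 = 2 := orderOf_eq_prime hp1 hp11
    have h2 : orderOf (⟨p1, h hp1P⟩ : O) ∣ Nat.card O := orderOf_dvd_natCard _
    rw [Subgroup.orderOf_mk, h1] at h2
    have h3 := Nat.dvd_gcd h2 (dvd_refl 2)
    rw [hOodd] at h3
    omega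
  have hperf : ⁅P, P⁆ = P := isPerfect_iff'.mp hPq.1
  have hON : P ≤ normalizer (O : Set X) := by rw [normalizer_eq_top]; exact le_top
  have hDC : O ⊓ centralizer ({t} : Set X) ≤ C := by
    have h1 : ⁅P, O ⊓ centralizer ({t} : Set X)⁆ ≤ P ⊓ O := by
      refine le_inf ?_ ?_
      · rw [commutator_le]
        intro x hx y hy
        have := (mem_normalizer_iff.mp (hCt (mem_inf.1 hy).2) x⁻¹).mp (inv_mem hx)
        rw [commutatorElement_def, mul_assoc, mul_assoc, ← mul_assoc y]
        exact mul_mem hx this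
      · exact (commutator_mono le_rfl inf_le_left).trans (commutator_le_right P O)
    have h2 : P ⊓ O ≤ C := (qs_inf hPq hON).resolve_right hPO
    exact le_centralizer_comm (le_centralizer_of_perfect hperf (h1.trans h2) le_rfl)
  have hDp : ∀ x ∈ O ⊓ centralizer ({t} : Set X), Commute x p1 ∧ Commute x t := by
    intro x hx
    exact ⟨(mem_centralizer_iff.mp (hDC hx) p1 hp1P).symm,
      (mem_centralizer_iff.mp (mem_inf.1 hx).2 t rfl).symm⟩
  have hDD' : O ⊓ centralizer ({t} : Set X) = O ⊓ centralizer ({t'} : Set X) := by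
    apply Subgroup.eq_of_le_of_card_ge
    · intro x hx
      refine mem_inf.2 ⟨(mem_inf.1 hx).1, ?_⟩
      rw [mem_centralizer_iff]
      rintro y rfl
      rw [← hpc1]
      have h1 := hDp x hx
      refine (Commute.mul_right h1.1 ?_).symm
      rcases hcase with h3 | h3
      · rw [h3]; exact Commute.one_right x
      · rw [h3]; exact h1.2
    · rw [← card_map_of_injective (f := (MulAut.conj g⁻¹).toMonoidHom) (MulAut.conj g⁻¹).injective (K := O ⊓ centralizer ({t'} : Set X))]
      apply card_le_of_le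
      rintro _ ⟨x, hx, rfl⟩
      rw [SetLike.mem_coe, mem_inf] at hx
      refine mem_inf.2 ⟨?_, ?_⟩
      · exact hOn.conj_mem x hx.1 g⁻¹
      · rw [mem_centralizer_iff]
        rintro y rfl
        have h2 : t' * x = x * t' := mem_centralizer_iff.mp hx.2 t' rfl
        change y * (g⁻¹ * x * g⁻¹⁻¹) = (g⁻¹ * x * g⁻¹⁻¹) * y
        have h3 : y = g⁻¹ * t' * g := by rw [ht']; group
        have h4 : y * (g⁻¹ * x * g⁻¹⁻¹) = g⁻¹ * (t' * x) * g := by rw [h3]; group
        rw [h4, h2]
        conv_rhs => rw [h3]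
        group
  -- generation
  have hsp := sup_props ht2 hp1 htp1
  have hgen : ∀ w : X, (∀ a : X, a = t ∨ a = p1 ∨ a = t * p1 →
      O ⊓ centralizer ({a} : Set X) ≤ centralizer ({w} : Set X)) → w ∈ centralizer (O : Set X) := by
    intro w hw
    have hAp : IsPGroup 2 ↥(zpowers t ⊔ zpowers p1) := by
      rintro ⟨a, ha⟩
      exact ⟨1, Subtype.ext (hsp.2.1 a ha)⟩
    have h1 := Cfsg.Agent.Lib.CoprimeGen.iSup_centralizer_eq (A := zpowers t ⊔ zpowers p1) (K := O) hsp.1 ?_ ?_ ?_
    · have h2 : O ≤ centralizer ({w} : Set X) := by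
        rw [← h1]
        refine iSup₂_le ?_
        rintro a ⟨ha, ha1⟩
        refine hw a ?_
        rcases hsp.2.2 a ha with h | h | h | h
        · exact absurd h ha1
        · exact Or.inl h
        · exact Or.inr (Or.inl h)
        · exact Or.inr (Or.inr h)
      rw [mem_centralizer_iff]
      intro x hx
      exact (mem_centralizer_iff.mp (h2 hx) w rfl).symm
    · intro hcyc
      obtain ⟨⟨a, ha⟩, hga⟩ := hcyc
      have ha2 := hsp.2.1 a ha
      have hin : ∀ z ∈ zpowers t ⊔ zpowers p1, z ≠ 1 → z = a := by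
        intro z hz hz1
        obtain ⟨k, hk⟩ := mem_zpowers_iff.mp (hga ⟨z, hz⟩)
        have hk' : a ^ k = z := congrArg Subtype.val hk
        rcases Int.even_or_odd' k with ⟨l, rfl | rfl⟩
        · exfalso; apply hz1
          rw [← hk', zpow_mul, zpow_ofNat, ha2, one_zpow]
        · rw [← hk', zpow_add, zpow_mul, zpow_ofNat, ha2, one_zpow, one_mul, zpow_one]
      have h2 := hin t ((le_sup_left : _ ≤ zpowers t ⊔ zpowers p1) (mem_zpowers t)) ht1
      have h3 := hin p1 ((le_sup_right : _ ≤ zpowers t ⊔ zpowers p1) (mem_zpowers p1)) hp11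
      exact hp1c (h3.trans h2.symm ▸ htP)
    · rw [normalizer_eq_top]; exact le_top
    · obtain ⟨k, hk⟩ := IsPGroup.iff_card.mp hAp
      rw [hk]
      exact (Nat.Coprime.pow_right k hOodd).symm
  have hCOn : (centralizer (O : Set X)).Normal := inferInstance
  have hPCO : P ≤ centralizer (O : Set X) := by
    rcases qs_inf hPq (N := centralizer (O : Set X)) (by rw [normalizer_eq_top]; exact le_top) with h | h
    · exfalso
      rcases hcase with h3 | h3
      · -- t' = p1
        have htp : t' = p1 := by rw [← hpc1, h3, mul_one]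
        have hw : t * p1 ∈ centralizer (O : Set X) := by
          apply hgen
          rintro a (rfl | rfl | rfl)
          · intro x hx
            rw [mem_centralizer_iff]
            rintro y rfl
            exact ((hDp x hx).2.mul_right (hDp x hx).1).symm
          · intro x hx
            rw [← htp, ← hDD'] at hx
            rw [mem_centralizer_iff]
            rintro y rfl
            exact ((hDp x hx).2.mul_right (hDp x hx).1).symm
          · exact inf_le_right
        apply hp1c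
        have h5 : ⁅P, zpowers p1⁆ ≤ C := by
          rw [commutator_le]
          intro x hx y hy
          obtain ⟨k, rfl⟩ := mem_zpowers_iff.mp hy
          rcases Int.even_or_odd' k with ⟨l, rfl | rfl⟩
          · rw [zpow_mul, zpow_ofNat, hp1, one_zpow, commutatorElement_one_right]
            exact one_mem C
          · rw [zpow_add, zpow_mul, zpow_ofNat, hp1, one_zpow, one_mul, zpow_one]
            apply h
            have hxt : x * t = t * x := mem_centralizer_iff.mp htP x hx
            have hcp : ⁅x, p1⁆ ∈ P := by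
              rw [commutatorElement_def]
              exact mul_mem (mul_mem (mul_mem hx hp1P) (inv_mem hx)) (inv_mem hp1P)
            refine mem_inf.2 ⟨hcp, ?_⟩
            have h6 : ⁅x, p1⁆ * t = t * ⁅x, p1⁆ := mem_centralizer_iff.mp htP _ hcp
            have h7 : ⁅x, p1⁆ = x * (t * p1) * x⁻¹ * (t * p1)⁻¹ := by
              have h8 : ⁅x, p1⁆ = t * ⁅x, p1⁆ * t⁻¹ := by rw [← h6]; group
              rw [h8, commutatorElement_def, ← mul_assoc x t p1, hxt]
              group
            rw [h7]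
            exact mul_mem (hCOn.conj_mem _ hw x) (inv_mem hw)
        exact le_centralizer_comm (le_centralizer_of_perfect hperf h5 le_rfl) (mem_zpowers p1)
      · have htp : t' = t * p1 := by rw [← hpc1, h3]; exact htp1.symm.eq
        have hw : p1 ∈ centralizer (O : Set X) := by
          apply hgen
          rintro a (rfl | rfl | rfl)
          · intro x hx
            rw [mem_centralizer_iff]
            rintro y rfl
            exact (hDp x hx).1.symm
          · exact inf_le_right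
          · intro x hx
            rw [← htp, ← hDD'] at hx
            rw [mem_centralizer_iff]
            rintro y rfl
            exact (hDp x hx).1.symm
        exact hp1c (h (mem_inf.2 ⟨hp1P, hw⟩))
    · exact h
  refine ⟨le_centralizer_iff_commutator.mp hPCO, ?_⟩
  intro L hL hPL _
  refine ((isComponent_iff hL).mpr ?_).2
  rw [← le_centralizer_iff_commutator]
  change L ≤ centralizer (O : Set X)
  set π := QuotientGroup.mk' (pPrimeCore 2 X) with hπ
  have hMs : (L ⊓ centralizer (O : Set X)).IsSubnormal := hL.1.inf hCOn.isSubnormal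
  have hMap : (L ⊓ centralizer (O : Set X)).map π = L.map π := by
    have hLq : IsQuasisimple ↥(L.map π) := hL.2.1.2
    have hle : (L ⊓ centralizer (O : Set X)).map π ≤ L.map π := map_mono inf_le_left
    have hsn : (((L ⊓ centralizer (O : Set X)).map π).subgroupOf (L.map π)).IsSubnormal :=
      (hMs.map (QuotientGroup.mk'_surjective _)).subgroupOf
    rcases subnormal_le_center_or_eq_top hLq hsn with h | h
    · exfalso
      apply hPO
      have h1 : P.map π ≤ centralizer ((P.map π : Subgroup _) : Set _) := by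
        have hPle : P.map π ≤ (L ⊓ centralizer (O : Set X)).map π := map_mono (le_inf hPL hPCO)
        intro x hx
        have hx' := h (show (⟨x, hle (hPle hx)⟩ : ↥(L.map π)) ∈ _ from mem_subgroupOf.mpr (hPle hx))
        rw [mem_centralizer_iff]
        intro y hy
        exact congrArg Subtype.val (mem_center_iff.mp hx' ⟨y, hle (hPle hy)⟩)
      have h2 : ⁅P.map π, P.map π⁆ = P.map π := by rw [← map_commutator, hperf]
      have h3 := eq_bot_of_perfect_of_le_centralizer h2 h1
      rw [Subgroup.map_eq_bot_iff, hπ, QuotientGroup.ker_mk'] at h3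
      exact h3
    · exact le_antisymm hle (subgroupOf_eq_top.mp h)
  have := hL.2.2 _ hMs inf_le_left hMap
  rw [← this]
  exact inf_le_right

end Cfsg.Agent.S3153
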