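import Cfsg.Statements.S3154
import Cfsg.Agent.Lib.L34eH87

set_option autoImplicit false
open Cfsg

namespace Cfsg.Agent.S3154

/-- Let X be a finite quasisimple group whose centre is an elementary abelian 2-group and whose central quotient is isomorphic to the projective special linear group of dimension 3 over the field with 4 elements. Let T be a Sylow 2-subgroup of X and H ≠ K subgroups of T containing the centre Z(X) whose images in X/Z(X) are elementary abelian of order 16 (the two such subgroups of a Sylow 2-subgroup of the quotient). Then H and K are elementary abelian, H ∩ K is the centre of the subgroup they generate, and each of N_X(H), N_X(K) is a split extension of H, respectively K, by the projective special linear group of dimension 2 over the field with 4 elements (there is a complement isomorphic to that group). -/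
theorem result {X : Type*} [Group X] [Finite X] (hq : Cfsg.IsQuasisimple X) (hZ : Cfsg.IsElementaryAbelian 2 (Subgroup.center X))
    {F : Type*} [Field F] [Fintype F] (hF : Fintype.card F = 4) (hXL : Nonempty ((X ⧸ Subgroup.center X) ≃* Matrix.ProjectiveSpecialLinearGroup (Fin 3) F))
    (T : Sylow 2 X) (H K : Subgroup X) (hHK : H ≠ K) (hHT : H ≤ T) (hKT : K ≤ T) (hZH : Subgroup.center X ≤ H) (hZK : Subgroup.center X ≤ K)
    (hH : Cfsg.IsElementaryAbelian 2 (H.map (QuotientGroup.mk' (Subgroup.center X))) ∧ Nat.card ↥(H.map (QuotientGroup.mk' (Subgroup.center X))) = 16)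
    (hK : Cfsg.IsElementaryAbelian 2 (K.map (QuotientGroup.mk' (Subgroup.center X))) ∧ Nat.card ↥(K.map (QuotientGroup.mk' (Subgroup.center X))) = 16) :
    Cfsg.IsElementaryAbelian 2 H ∧ Cfsg.IsElementaryAbelian 2 K ∧
      H ⊓ K = (Subgroup.center ↥(H ⊔ K)).map (H ⊔ K).subtype ∧
      (∃ C : Subgroup X, C ≤ Subgroup.normalizer (H : Set X) ∧ C ⊓ H = ⊥ ∧ H ⊔ C = Subgroup.normalizer (H : Set X) ∧
        Nonempty (↥C ≃* Matrix.ProjectiveSpecialLinearGroup (Fin 2) F)) ∧
      (∃ C : Subgroup X, C ≤ Subgroup.normalizer (K : Set X) ∧ C ⊓ K = ⊥ ∧ K ⊔ C = Subgroup.normalizer (K : Set X) ∧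
        Nonempty (↥C ≃* Matrix.ProjectiveSpecialLinearGroup (Fin 2) F)) := by
  have hz : ∀ z ∈ Subgroup.center X, z ^ 2 = 1 := hZ.2
  obtain ⟨e⟩ := hXL
  obtain ⟨e', he'⟩ := Lib.L34H87.exists_std hF e T
  set π : X →* Matrix.ProjectiveSpecialLinearGroup (Fin 3) F :=
    e'.toMonoidHom.comp (QuotientGroup.mk' (Subgroup.center X)) with hπdef
  have hπ : Function.Surjective π := e'.surjective.comp (QuotientGroup.mk'_surjective _)
  have hker : π.ker = Subgroup.center X := by
    ext x
    rw [MonoidHom.mem_ker]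
    show e' (QuotientGroup.mk' (Subgroup.center X) x) = 1 ↔ _
    rw [EmbeddingLike.map_eq_one_iff, QuotientGroup.mk'_apply, QuotientGroup.eq_one_iff]
  have hcm : ∀ M : Subgroup X, Subgroup.center X ≤ M → M = (M.map π).comap π := by
    intro M hM
    rw [Subgroup.comap_map_eq, hker, sup_of_le_left hM]
  have hZT : Subgroup.center X ≤ (T : Subgroup X) := hZH.trans hHT
  have hT : (T : Subgroup X) = (Lib.PSLAut.UTb 3 F).comap π := by
    rw [← he']; exact hcm _ hZT
  have hcls : ∀ M : Subgroup X, M ≤ T → Subgroup.center X ≤ M →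
      (Cfsg.IsElementaryAbelian 2 (M.map (QuotientGroup.mk' (Subgroup.center X))) ∧
        Nat.card ↥(M.map (QuotientGroup.mk' (Subgroup.center X))) = 16) →
      M = (Lib.PSLAut.EL (Lib.L34H87.e0 : Fin 3 → F)).comap π ∨
      M = (Lib.PSLAut.ER (Lib.L34H87.e2 : Fin 3 → F)).comap π := by
    intro M hMT hZM hM
    have h1 : M.map π = (M.map (QuotientGroup.mk' (Subgroup.center X))).map e'.toMonoidHom := by
      rw [Subgroup.map_map]
    have h2 : Nat.card (M.map π) = 16 := by
      rw [h1, ← hM.2]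
      exact (Nat.card_congr (Subgroup.equivMapOfInjective _ _ e'.injective).toEquiv).symm
    have h3 : ∀ a ∈ M.map π, a ^ 2 = 1 := by
      rw [h1]
      rintro _ ⟨x, hx, rfl⟩
      rw [← map_pow, hM.1.2 x hx, map_one]
    have h4 : M.map π ≤ Lib.PSLAut.UTb 3 F := by
      rw [← he']; exact Subgroup.map_mono hMT
    rcases Lib.L34H87.eq_or_eq hF _ h4 h3 h2 with h | h
    · left; rw [← h]; exact hcm M hZM
    · right; rw [← h]; exact hcm M hZM
  obtain ⟨es⟩ := Lib.L34H87.sl2_equiv (F := F) (Lib.L34H87.two_eq hF)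
  have main : ∀ A B : Subgroup (Matrix.ProjectiveSpecialLinearGroup (Fin 3) F),
      Lib.L34H87.Pair (Matrix.SpecialLinearGroup (Fin 2) F) (Lib.PSLAut.UTb 3 F) A B →
      H = A.comap π → K = B.comap π →
      Cfsg.IsElementaryAbelian 2 H ∧ Cfsg.IsElementaryAbelian 2 K ∧
      H ⊓ K = (Subgroup.center ↥(H ⊔ K)).map (H ⊔ K).subtype ∧
      (∃ C : Subgroup X, C ≤ Subgroup.normalizer (H : Set X) ∧ C ⊓ H = ⊥ ∧ H ⊔ C = Subgroup.normalizer (H : Set X) ∧
        Nonempty (↥C ≃* Matrix.ProjectiveSpecialLinearGroup (Fin 2) F)) ∧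
      (∃ C : Subgroup X, C ≤ Subgroup.normalizer (K : Set X) ∧ C ⊓ K = ⊥ ∧ K ⊔ C = Subgroup.normalizer (K : Set X) ∧
        Nonempty (↥C ≃* Matrix.ProjectiveSpecialLinearGroup (Fin 2) F)) := by
    rintro A B hP rfl rfl
    refine ⟨Lib.L34H87.el_ab π hπ hker hz hP, Lib.L34H87.el_ab π hπ hker hz hP.symm,
      Lib.L34H87.inf_eq_center π hπ hker hz hP, ?_, ?_⟩
    · obtain ⟨C, h1, h2, h3, ⟨h4⟩⟩ := Lib.L34H87.exists_compl π hπ hker hz hP T hT
      exact ⟨C, h1, h2, h3, ⟨h4.trans es⟩⟩
    · obtain ⟨C, h1, h2, h3, ⟨h4⟩⟩ := Lib.L34H87.exists_compl π hπ hker hz hP.symm T hT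
      exact ⟨C, h1, h2, h3, ⟨h4.trans es⟩⟩
  rcases hcls H hHT hZH hH with h1 | h1 <;> rcases hcls K hKT hZK hK with h2 | h2
  · exact absurd (h1.trans h2.symm) hHK
  · exact main _ _ (Lib.L34H87.pair hF) h1 h2
  · exact main _ _ (Lib.L34H87.pair hF).symm h1 h2
  · exact absurd (h1.trans h2.symm) hHK

end Cfsg.Agent.S3154
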