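import Cfsg.Statements.S3155
import Mathlib

set_option autoImplicit false
open Cfsg

namespace Cfsg.Agent.S3155

/-- Let B be the direct product of three cyclic groups of order 4. Then the automorphism of B inverting every element is not the square of any automorphism of B. -/
theorem result {B : Type*} [CommGroup B] [Finite B] (hB : Nonempty (B ≃* Multiplicative (ZMod 4 × ZMod 4 × ZMod 4)))
    (τ : B ≃* B) : τ.trans τ ≠ MulEquiv.inv B := by
  have : Fact (1 < 4) := ⟨by norm_num⟩
  intro h
  obtain ⟨e⟩ := hB
  -- the induced additive automorphism of M = (ZMod 4)^3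
  let f : (ZMod 4 × ZMod 4 × ZMod 4) →+ (ZMod 4 × ZMod 4 × ZMod 4) :=
    AddMonoidHom.toMultiplicative.symm ((e.toMonoidHom.comp τ.toMonoidHom).comp e.symm.toMonoidHom)
  have hf : ∀ x, f (f x) = -x := by
    intro x
    have h1 : ∀ b : B, τ (τ b) = b⁻¹ := fun b => DFunLike.congr_fun h b
    show Multiplicative.toAdd (e (τ (e.symm (Multiplicative.ofAdd (Multiplicative.toAdd (e (τ (e.symm (Multiplicative.ofAdd x))))))))) = -x
    rw [ofAdd_toAdd, MulEquiv.symm_apply_apply, h1, map_inv, MulEquiv.apply_symm_apply]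
    rfl
  let g : (ZMod 4 × ZMod 4 × ZMod 4) →ₗ[ZMod 4] (ZMod 4 × ZMod 4 × ZMod 4) := AddMonoidHom.toZModLinearMap 4 f
  have hg : g.comp g = (-1 : ZMod 4) • LinearMap.id := by
    apply LinearMap.ext
    intro x
    rw [LinearMap.comp_apply, LinearMap.smul_apply, LinearMap.id_apply, neg_one_smul]
    exact hf x
  have h1 := congrArg LinearMap.det hg
  rw [LinearMap.det_comp, LinearMap.det_smul, LinearMap.det_id, mul_one] at h1
  have h2 : Module.finrank (ZMod 4) (ZMod 4 × ZMod 4 × ZMod 4) = 3 := by
    rw [Module.finrank_prod, Module.finrank_prod, Module.finrank_self]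
  rw [h2] at h1
  revert h1
  generalize LinearMap.det g = d
  revert d
  decide

end Cfsg.Agent.S3155
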