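import Cfsg.Statements.S3156
import Mathlib
import Cfsg.Agent.Lib.SU3S3H62

set_option autoImplicit false
open Cfsg

namespace Cfsg.Agent.S3156

/-- If a finite group T is isomorphic to a Sylow 2-subgroup of the projective special unitary group of dimension 3 with parameter 4 (realised over the field with 16 elements), then no subgroup of the automorphism group of T is isomorphic to the symmetric group of degree 3. -/
theorem result {T : Type*} [Group T] [Finite T] (hT : (∃ (F : Type) (_ : Field F) (_ : Fintype F), Fintype.card F = 16 ∧ ∃ S : Sylow 2 (Cfsg.PSU 3 F 4), Nonempty (T ≃* ↥(S : Subgroup (Cfsg.PSU 3 F 4))))) (H : Subgroup (MulAut T)) : ¬ Nonempty (↥H ≃* Equiv.Perm (Fin 3)) := by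
  rintro ⟨g⟩
  obtain ⟨F, _, _, hF, S, ⟨e⟩⟩ := hT
  have hF2 : Fintype.card F = 4 ^ 2 := by rw [hF]; norm_num
  have hc := Lib.SU3Syl.charTwo hF2
  have h2 : Fact (Nat.Prime 2) := ⟨Nat.prime_two⟩
  obtain ⟨e'⟩ := Lib.SylU3.sylow_equiv hF2 S
  let f : Equiv.Perm (Fin 3) →* MulAut (Lib.SylU3.U3 hF2) :=
    ((MulAut.congr (e.trans e'.symm)).toMonoidHom.comp H.subtype).comp g.symm.toMonoidHom
  have hf : Function.Injective f :=
    ((MulAut.congr (e.trans e'.symm)).injective.comp H.subtype_injective).comp g.symm.injective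
  have h1 := Lib.SU3S3H62.no_dihedral hF2 (f (finRotate 3)) (f (Equiv.swap 0 1))
    (by rw [← map_pow, ← map_one f]; congr 1; decide) (by rw [← map_pow, ← map_one f]; congr 1; decide)
    (by rw [← map_inv, ← map_mul, ← map_mul, ← map_inv]; congr 1; decide)
  rw [← map_one f] at h1
  exact absurd (hf h1) (by decide)

end Cfsg.Agent.S3156
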