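import Cfsg.Statements.S3161
import Cfsg.Agent.Lib.InvU3e
import Cfsg.Agent.Lib.InvU3h
import Cfsg.Agent.Lib.InvU3i

set_option autoImplicit false
open Cfsg

namespace Cfsg.Agent.S3161

/-- Let Q be a non-abelian finite 2-group admitting commuting automorphisms α of order 2 and ρ of order 2^n − 1, where n ≥ 2, such that the fixed points of α form an elementary abelian subgroup of order 2^n on whose nonidentity elements the group generated by ρ acts transitively. Then Q is isomorphic to a Sylow 2-subgroup of the projective special unitary group of dimension 3 with parameter 2^n (realised over the field with 4^n elements) or of the projective special linear group of dimension 3 over the field with 2^n elements. -/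
theorem result {Q : Type*} [Group Q] [Finite Q] (hQ : IsPGroup 2 Q) (hna : ¬ IsMulCommutative Q) (n : ℕ) (hn : 2 ≤ n)
    (α ρ : MulAut Q) (hα : orderOf α = 2) (hρ : orderOf ρ = 2 ^ n - 1) (hc : Commute α ρ)
    (C : Subgroup Q) (hC : ∀ x : Q, x ∈ C ↔ α x = x) (hCE : Cfsg.IsElementaryAbelian 2 C ∧ Nat.card ↥C = 2 ^ n)
    (htr : ∀ x y : Q, x ∈ C → y ∈ C → x ≠ 1 → y ≠ 1 → ∃ k : ℕ, (ρ ^ k) x = y) :
    (∃ (F : Type) (_ : Field F) (_ : Fintype F), Fintype.card F = 4 ^ n ∧
        ∃ S : Sylow 2 (Cfsg.PSU 3 F (2 ^ n)), Nonempty (Q ≃* ↥(S : Subgroup (Cfsg.PSU 3 F (2 ^ n))))) ∨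
      (∃ (F : Type) (_ : Field F) (_ : Fintype F), Fintype.card F = 2 ^ n ∧
        ∃ S : Sylow 2 (Matrix.ProjectiveSpecialLinearGroup (Fin 3) F), Nonempty (Q ≃* ↥(S : Subgroup (Matrix.ProjectiveSpecialLinearGroup (Fin 3) F)))) := by
  haveI : Fact (Nat.Prime 2) := ⟨Nat.prime_two⟩
  obtain ⟨⟨hCc, hC2⟩, hCcard⟩ := hCE
  have haa : ∀ x, α (α x) = x := by
    intro x
    have h1 : α ^ 2 = 1 := by rw [← hα]; exact pow_orderOf_eq_one α
    have h2 : (α ^ 2) x = x := by rw [h1]; rfl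
    exact h2
  have har : ∀ x, α (ρ x) = ρ (α x) := fun x => congrArg (fun f : MulAut Q => f x) hc.eq
  have hpow : ∀ (k : ℕ) (x : Q), (ρ ^ k) x = (ρ : Q → Q)^[k] x := by
    intro k
    induction k with
    | zero => intro x; rfl
    | succ k ih =>
      intro x
      rw [pow_succ', MulAut.mul_apply, Function.iterate_succ_apply', ih]
  have hcomm : ∀ x ∈ C, ∀ y ∈ C, x * y = y * x := by
    intro x hx y hy
    exact congrArg Subtype.val (hCc.is_comm.comm ⟨x, hx⟩ ⟨y, hy⟩)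
  have hsq : ∀ x ∈ C, x * x = 1 := by
    intro x hx
    rw [← sq]; exact hC2 x hx
  have hne : C ≠ ⊥ := by
    rintro rfl
    rw [Subgroup.card_bot] at hCcard
    have : 2 ^ 1 < 2 ^ n := Nat.pow_lt_pow_right (by norm_num) hn
    omega
  obtain ⟨K, hK, hK2, hKf, lam, ι, hKC, hD⟩ := Lib.InvU3.exists_D hQ α ρ haa har C hC hcomm hsq hne (by
    intro x y hx hy hx1 hy1
    obtain ⟨k, hk⟩ := htr x y hx hy hx1 hy1
    exact ⟨k, by rw [← hpow]; exact hk⟩)
  have hKn : Nat.card K = 2 ^ n := hKC.trans hCcard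
  have h4 : 2 < Nat.card K := by
    rw [hKn]
    calc 2 = 2 ^ 1 := by norm_num
      _ < 2 ^ n := Nat.pow_lt_pow_right (by norm_num) hn
  rcases Lib.InvU3.main h4 _ Q α ρ ι rfl hD with h | h
  · exact absurd ⟨⟨h⟩⟩ hna
  · rcases Lib.InvU3.ident hD h (by
      intro x
      rw [← hpow, hKn, ← hρ, pow_orderOf_eq_one]; rfl) hKn with ⟨F, i1, i2, hF, hS⟩ | ⟨F, i1, i2, hF, hS⟩
    · left
      obtain ⟨S⟩ : Nonempty (Sylow 2 (Cfsg.PSU 3 F (2 ^ n))) := inferInstance
      exact ⟨F, i1, i2, hF, S, hS S⟩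
    · right
      obtain ⟨S⟩ : Nonempty (Sylow 2 (Matrix.ProjectiveSpecialLinearGroup (Fin 3) F)) := inferInstance
      exact ⟨F, i1, i2, hF, S, hS S⟩

end Cfsg.Agent.S3161
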