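import Cfsg.Statements.S3162
import Cfsg.Agent.Lib.SU3AutGrp

set_option autoImplicit false
open Cfsg

namespace Cfsg.Agent.S3162

/-- Let S be a Sylow 2-subgroup of the special unitary group of dimension 3 with parameter q = 2^n (n ≥ 2; realised over the field with q² elements). Then the largest normal 2-subgroup of the automorphism group of S is elementary abelian of order 2^(2n²), and the automorphism group has order 2^(2n²) · 2n(q² − 1). -/
theorem result {S : Type*} [Group S] [Finite S] (n : ℕ) (hn : 2 ≤ n) {F : Type*} [Field F] [Fintype F] (hF : Fintype.card F = 4 ^ n)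
    (P : Sylow 2 ↥(Cfsg.SU 3 F (2 ^ n))) (hS : Nonempty (S ≃* ↥(P : Subgroup ↥(Cfsg.SU 3 F (2 ^ n))))) :
    Cfsg.IsElementaryAbelian 2 (Cfsg.pCore 2 (MulAut S)) ∧ Nat.card ↥(Cfsg.pCore 2 (MulAut S)) = 2 ^ (2 * n ^ 2) ∧
      Nat.card (MulAut S) = 2 ^ (2 * n ^ 2) * (2 * n * ((2 ^ n) ^ 2 - 1)) := by
  have hq := Lib.SU3Syl.card_sq hF
  have hc := Lib.SU3Syl.charTwo hF
  have h2 : Fact (Nat.Prime 2) := ⟨Nat.prime_two⟩
  obtain ⟨e⟩ := Lib.SU3Syl.sylow_equiv_SU hq P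
  obtain ⟨f⟩ := hS
  obtain ⟨h1, h2, h3⟩ := Lib.SU3AutGrp.main hq rfl (f.trans e.symm)
  refine ⟨h1, h2, ?_⟩
  rw [h3, Lib.SU3Syl.card_aut' hF, mul_comm (2 * n)]

end Cfsg.Agent.S3162
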