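import Cfsg.Statements.S3174
import Cfsg.Agent.Lib.RudF

set_option autoImplicit false
open Cfsg

namespace Cfsg.Agent.S3174

/-- Let T be a finite 2-group of order at least 2^14 in which the fourth term of the upper central series has order 16. Let W be the centralizer in T of the third term Z₃(T), and suppose the Frattini subgroup of W has order at most 8 and lies in every subgroup of W of index at most 16. Then T has order exactly 2^14; the derived subgroup of W and the Frattini subgroup of W both equal Z₃(T), which is elementary abelian of order 8; the centre of W has order 8; W is normal in T with quotient dihedral of order 8; and W modulo its derived subgroup is elementary abelian of order 2^8. -/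
theorem result {T : Type*} [Group T] [Finite T]
    (hT : IsPGroup 2 T) (ha : 2 ^ 14 ≤ Nat.card T) (hb : Nat.card ↥(Subgroup.upperCentralSeries T 4) = 16)
    (W : Subgroup T) (hW : W = Subgroup.centralizer ((Subgroup.upperCentralSeries T 3 : Subgroup T) : Set T))
    (hc : Nat.card ↥(frattini ↥W) ≤ 8) (hd : ∀ U : Subgroup ↥W, U.index ≤ 16 → frattini ↥W ≤ U) :
    Nat.card T = 2 ^ 14 ∧
      (commutator ↥W).map W.subtype = Subgroup.upperCentralSeries T 3 ∧
      (frattini ↥W).map W.subtype = Subgroup.upperCentralSeries T 3 ∧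
      Nat.card ↥(Subgroup.center ↥W) = 8 ∧
      Nat.card ↥(Subgroup.upperCentralSeries T 3) = 8 ∧ (∀ z ∈ Subgroup.upperCentralSeries T 3, z ^ 2 = 1) ∧
      (∃ (_ : W.Normal), Nonempty (T ⧸ W ≃* DihedralGroup 4)) ∧
      Nat.card (↥W ⧸ commutator ↥W) = 2 ^ 8 ∧ (∀ x : ↥W ⧸ commutator ↥W, x ^ 2 = 1) := by
  have h : Lib.RudB.Hyp T W := ⟨hT, ha, hb, hW, hc, hd⟩
  have hn := h.normal
  have hcW := h.cardW
  have hiW := h.idx
  have hcF : commutator W = frattini W := by
    apply Subgroup.map_injective W.subtype_injective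
    rw [h.derived, h.FrZ]
  have hF8 : Nat.card (frattini W) = 8 := by
    rw [← Lib.RudB.Hyp.card_Fr, h.FrZ, h.cZ 3 (by norm_num)]; norm_num
  refine ⟨?_, h.derived, h.FrZ, ?_, ?_, ?_, ?_, ?_, ?_⟩
  · rw [← W.card_mul_index, hcW, hiW]; norm_num
  · have h1 : Subgroup.center W = frattini W := by
      ext w
      rw [h.mem_Fr]
      constructor
      · intro hw
        apply h.nd w.2
        intro v hv
        have h2 := Subgroup.mem_center_iff.1 hw ⟨v, hv⟩
        have h3 : v * (w : T) = w * v := congrArg Subtype.val h2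
        have h4 : (w : T) * v * (w : T)⁻¹ * v⁻¹ = 1 := by rw [← h3]; group
        rw [h4]; exact Subgroup.one_mem _
      · intro hw
        rw [Subgroup.mem_center_iff]
        intro v
        exact Subtype.ext (h.cen v.2 hw)
    rw [h1, hF8]
  · rw [h.cZ 3 (by norm_num)]; norm_num
  · intro z hz
    rw [pow_two]; exact h.elem hz
  · refine ⟨hn, ?_⟩
    obtain ⟨z2, h2, h2'⟩ := h.exz (i := 1) (by norm_num)
    obtain ⟨z3, h3, h3'⟩ := h.exz (i := 2) (by norm_num)
    obtain ⟨e, -⟩ := h.dih h2 h2' h3 h3'
    exact ⟨e.symm⟩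
  · have h1 := (commutator W).card_mul_index
    rw [Subgroup.index_eq_card] at h1
    rw [hcW, hcF, hF8] at h1
    rw [hcF]
    norm_num at h1 ⊢
    omega
  · intro x
    obtain ⟨w, rfl⟩ := QuotientGroup.mk_surjective x
    rw [pow_two, ← QuotientGroup.mk_mul, QuotientGroup.eq_one_iff, hcF]
    exact h.sq_mem w

end Cfsg.Agent.S3174
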