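import Cfsg.Statements.S3175
import Cfsg.Agent.Lib.RudH

set_option autoImplicit false
open Cfsg

namespace Cfsg.Agent.S3175

/-- Let G be a finite group whose Sylow 2-subgroup T has order at least 2^14 and whose upper central series has fourth term of order 16; let W be the centralizer in T of the third term, and suppose the Frattini subgroup of W has order at most 8 and lies in every subgroup of W of index at most 16. Then the normalizer of T in G has a normal 2-complement, and W is weakly closed in T with respect to G. -/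
theorem result {G : Type*} [Group G] [Finite G]
    (T : Sylow 2 G) (ha : 2 ^ 14 ≤ Nat.card ↥(T : Subgroup G))
    (hb : Nat.card ↥(Subgroup.upperCentralSeries ↥(T : Subgroup G) 4) = 16)
    (W : Subgroup ↥(T : Subgroup G))
    (hW : W = Subgroup.centralizer ((Subgroup.upperCentralSeries ↥(T : Subgroup G) 3 : Subgroup ↥(T : Subgroup G)) : Set ↥(T : Subgroup G)))
    (hc : Nat.card ↥(frattini ↥W) ≤ 8)
    (hd : ∀ U : Subgroup ↥W, U.index ≤ 16 → frattini ↥W ≤ U) :
    Cfsg.HasNormalPComplement 2 ↥(Subgroup.normalizer ((T : Subgroup G) : Set G)) ∧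
      Cfsg.IsWeaklyClosed (W.map (T : Subgroup G).subtype) (T : Subgroup G) := by
  have hT : IsPGroup 2 (T : Subgroup G) := T.isPGroup'
  have h : Lib.RudB.Hyp (T : Subgroup G) W := ⟨hT, ha, hb, hW, hc, hd⟩
  constructor
  · -- the normalizer
    have hle : (T : Subgroup G) ≤ Subgroup.normalizer ((T : Subgroup G) : Set G) := Subgroup.le_normalizer
    set N := Subgroup.normalizer ((T : Subgroup G) : Set G) with hN
    let P : Sylow 2 N := T.subtype hle
    have hP : (P : Subgroup N) = (T : Subgroup G).subgroupOf N := rfl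
    have hPn : ((P : Subgroup N)).Normal := by
      rw [hP]
      exact Subgroup.normal_in_normalizer
    have hcop : (Nat.card (P : Subgroup N)).Coprime (P : Subgroup N).index := P.card_coprime_index
    obtain ⟨K, hK⟩ := Subgroup.exists_right_complement'_of_coprime hcop
    have hKodd : Odd (Nat.card K) := by
      have h1 : (P : Subgroup N).index = Nat.card K := hK.symm.index_eq_card
      rw [← h1, ← Nat.not_even_iff_odd, even_iff_two_dvd]
      exact P.not_dvd_index
    -- elements of `K` centralize `T`
    have hcen : ∀ k ∈ K, ∀ t : (T : Subgroup G), (k : G) * t * (k : G)⁻¹ = t := by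
      intro k hk
      have hkm : ∀ t : G, t ∈ (T : Subgroup G) ↔ (k : G) * t * (k : G)⁻¹ ∈ (T : Subgroup G) :=
        Subgroup.mem_normalizer_iff.1 k.2
      have hkm' : ∀ t : G, t ∈ (T : Subgroup G) → (k : G)⁻¹ * t * k ∈ (T : Subgroup G) := by
        intro t ht
        have h1 : (k : G) * ((k : G)⁻¹ * t * k) * (k : G)⁻¹ = t := by group
        exact (hkm _).2 (by rw [h1]; exact ht)
      let φ : MulAut (T : Subgroup G) :=
        { toFun := fun t => ⟨(k : G) * t * (k : G)⁻¹, (hkm t).1 t.2⟩
          invFun := fun t => ⟨(k : G)⁻¹ * t * k, hkm' t t.2⟩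
          left_inv := fun t => Subtype.ext (by simp [mul_assoc])
          right_inv := fun t => Subtype.ext (by simp [mul_assoc])
          map_mul' := fun a b => Subtype.ext (by simp [mul_assoc]) }
      have hφ : ∀ (n : ℕ) (t : (T : Subgroup G)), (((φ ^ n) t : (T : Subgroup G)) : G) = (k : G) ^ n * t * ((k : G) ^ n)⁻¹ := by
        intro n t
        induction n with
        | zero => simp
        | succ n ih =>
          rw [pow_succ', MulAut.mul_apply]
          show (k : G) * (((φ ^ n) t : (T : Subgroup G)) : G) * (k : G)⁻¹ = _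
          rw [ih, pow_succ']
          group
      have hkn : (k : G) ^ Nat.card K = 1 := by
        have h1 : (⟨k, hk⟩ : K) ^ Nat.card K = 1 := pow_card_eq_one'
        have h2 : (k : N) ^ Nat.card K = 1 := congrArg Subtype.val h1
        exact congrArg Subtype.val h2
      have h1 := h.aut_odd φ hKodd (by
        ext t
        rw [hφ, hkn]
        simp)
      intro t
      have h2 := congrArg (fun ψ : MulAut (T : Subgroup G) => ((ψ t : (T : Subgroup G)) : G)) h1
      exact h2
    refine ⟨P, K, ?_, hK.symm⟩
    constructor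
    intro k hk x
    obtain ⟨⟨t, k'⟩, hx⟩ := hK.2 x
    simp only at hx
    have h1 : ((k' : N) * k * (k' : N)⁻¹) ∈ K := K.mul_mem (K.mul_mem k'.2 hk) (K.inv_mem k'.2)
    have ht : ((t : N) : G) ∈ (T : Subgroup G) := by
      have h5 : (t : N) ∈ (T : Subgroup G).subgroupOf N := t.2
      exact h5
    have h2 := hcen _ h1 ⟨(t : N), ht⟩
    have h3 : x * k * x⁻¹ = (k' : N) * k * (k' : N)⁻¹ := by
      rw [← hx]
      apply Subtype.ext
      simp only [Subgroup.coe_mul, Subgroup.coe_inv] at h2 ⊢
      set y : G := ((k' : N) : G) * (k : G) * ((k' : N) : G)⁻¹ with hy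
      have h4 : ((t : N) : G) * y * ((t : N) : G)⁻¹ = y := by
        have h5 : y * ((t : N) : G) = ((t : N) : G) * y := by
          calc y * ((t : N) : G) = (y * ((t : N) : G) * y⁻¹) * y := by group
            _ = _ := by rw [h2]
        rw [← h5]; group
      calc ((t : N) : G) * ((k' : N) : G) * (k : G) * (((t : N) : G) * ((k' : N) : G))⁻¹
          = ((t : N) : G) * y * ((t : N) : G)⁻¹ := by rw [hy]; group
        _ = y := h4
    rw [h3]
    exact h1
  · refine ⟨Subgroup.map_subtype_le _, ?_⟩
    intro g hg
    let c : W →* (T : Subgroup G) :=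
      { toFun := fun w => ⟨g * ((w : (T : Subgroup G)) : G) * g⁻¹,
          hg ⟨_, ⟨(w : (T : Subgroup G)), w.2, rfl⟩, rfl⟩⟩
        map_one' := Subtype.ext (by simp)
        map_mul' := fun a b => Subtype.ext (by simp [mul_assoc]) }
    have hc' : Function.Injective c := by
      intro a b hab
      have h1 : g * ((a : (T : Subgroup G)) : G) * g⁻¹ = g * ((b : (T : Subgroup G)) : G) * g⁻¹ :=
        congrArg Subtype.val hab
      exact Subtype.ext (Subtype.ext (mul_left_cancel (mul_right_cancel h1)))
    have h1 := h.weak c hc'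
    conv_rhs => rw [← h1]
    ext x
    constructor
    · rintro ⟨_, ⟨w, hw, rfl⟩, rfl⟩
      exact ⟨c ⟨w, hw⟩, ⟨_, rfl⟩, rfl⟩
    · rintro ⟨_, ⟨w, rfl⟩, rfl⟩
      exact ⟨_, ⟨(w : (T : Subgroup G)), w.2, rfl⟩, rfl⟩

end Cfsg.Agent.S3175
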