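import Cfsg.Statements.S3178
import Cfsg.Agent.S0111
import Cfsg.Agent.Lib.PNilp
import Cfsg.Agent.Lib.H32Basic
import Cfsg.Agent.Lib.GroupUtil
import Mathlib

set_option autoImplicit false
open Cfsg

namespace Cfsg.Agent.S3178

theorem mem_zpowers_of_sq {G : Type*} [Group G] [Finite G] {a : G} {n : ℕ} (hn : 1 ≤ n) (hao : orderOf a = 2 ^ n)
    {x : G} (hx : x ∈ Subgroup.zpowers a) (hxx : x * x = 1) (hx1 : x ≠ 1) : x = a ^ 2 ^ (n - 1) := by
  rw [← mem_powers_iff_mem_zpowers] at hx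
  obtain ⟨k, rfl⟩ := hx
  obtain ⟨m, rfl⟩ : ∃ m, n = m + 1 := ⟨n - 1, by omega⟩
  rw [Nat.add_sub_cancel]
  simp only at hxx hx1 ⊢
  rw [← pow_add] at hxx
  have h1 : 2 ^ (m + 1) ∣ k + k := by rw [← hao]; exact orderOf_dvd_of_pow_eq_one hxx
  have h2 : 2 ^ m ∣ k := by
    rw [pow_succ, mul_comm, ← two_mul] at h1
    exact Nat.dvd_of_mul_dvd_mul_left (by norm_num) h1
  obtain ⟨c, rfl⟩ := h2
  rcases Nat.even_or_odd c with ⟨d, hd⟩ | ⟨d, hd⟩
  · exfalso; apply hx1
    rw [hd, ← two_mul, ← mul_assoc, ← pow_succ, ← hao, pow_mul, pow_orderOf_eq_one, one_pow]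
  · rw [hd, mul_add, mul_one, ← mul_assoc, ← pow_succ, ← hao, pow_add, pow_mul, pow_orderOf_eq_one, one_pow, one_mul]

/-- Groups with a modular Sylow 2-subgroup have a normal 2-complement. Let S, of order 2^(n+1) with n ≥ 3, be a Sylow 2-subgroup of a finite group G, and suppose S contains an element a of order 2^n and an involution b with b a b⁻¹ = a^(2^(n-1) + 1); so S is the non-abelian 2-group with a cyclic subgroup of index 2 that is neither dihedral, semidihedral nor generalized quaternion. Then G has a normal 2-complement. -/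
theorem result {G : Type*} [Group G] [Finite G]
    (S : Sylow 2 G) (n : ℕ) (hn : 3 ≤ n) (hS : Nat.card ↥(S : Subgroup G) = 2 ^ (n + 1))
    (a b : G) (ha : a ∈ (S : Subgroup G)) (hb : b ∈ (S : Subgroup G))
    (hao : orderOf a = 2 ^ n) (hbo : orderOf b = 2) (hrel : b * a * b⁻¹ = a ^ (2 ^ (n - 1) + 1)) :
    Cfsg.HasNormalPComplement 2 G := by
  classical
  have : Fact (Nat.Prime 2) := ⟨Nat.prime_two⟩
  obtain ⟨m, rfl⟩ : ∃ m, n = m + 3 := ⟨n - 3, by omega⟩
  have hn1 : m + 3 - 1 = m + 2 := by omega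
  rw [hn1] at hrel
  set z := a ^ 2 ^ (m + 2) with hz
  have hbb : b * b = 1 := by rw [← pow_two, ← hbo]; exact pow_orderOf_eq_one b
  have hb1 : b ≠ 1 := by rintro rfl; simp at hbo
  have hzz : z * z = 1 := by
    rw [hz, ← pow_add, ← two_mul, ← pow_succ', show m + 2 + 1 = m + 3 by ring, ← hao]; exact pow_orderOf_eq_one a
  have hz1 : z ≠ 1 := by
    intro h
    have h1 := orderOf_dvd_of_pow_eq_one h
    rw [hao, Nat.pow_dvd_pow_iff_le_right (by norm_num)] at h1
    omega
  have hA : Subgroup.zpowers a ≤ (S : Subgroup G) := (Subgroup.zpowers_le).2 ha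
  have hcardA : Nat.card (Subgroup.zpowers a) = 2 ^ (m + 3) := by rw [Nat.card_zpowers, hao]
  have hrelA : (Subgroup.zpowers a).relIndex (S : Subgroup G) = 2 := by
    have h1 := Lib.GroupUtil.card_mul_relIndex hA
    rw [hcardA, hS, pow_succ 2 (m + 3)] at h1
    exact Nat.eq_of_mul_eq_mul_left (by positivity) h1
  have hsq : ∀ y ∈ (S : Subgroup G), y * y ∈ Subgroup.zpowers a := by
    intro y hy
    have h1 : ((Subgroup.zpowers a).subgroupOf (S : Subgroup G)).index = 2 := hrelA
    have h2 := Subgroup.mul_self_mem_of_index_two h1 ⟨y, hy⟩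
    exact Subgroup.mem_subgroupOf.1 h2
  have hbA : b ∉ Subgroup.zpowers a := by
    rintro ⟨k, rfl⟩
    simp only at hrel
    have h1 : a ^ k * a * (a ^ k)⁻¹ = a := by group
    rw [h1, pow_succ] at hrel
    exact hz1 (by simpa using hrel.symm)
  -- z is central in S
  have hbz : b * z * b⁻¹ = z := by
    have h1 : b * z * b⁻¹ = (b * a * b⁻¹) ^ 2 ^ (m + 2) := by rw [hz, conj_pow]
    rw [h1, hrel, ← pow_mul, add_mul, one_mul, pow_add, ← hz]
    have h2 : a ^ (2 ^ (m + 2) * 2 ^ (m + 2)) = 1 := by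
      have : (2 : ℕ) ^ (m + 2) * 2 ^ (m + 2) = 2 ^ (m + 3) * 2 ^ (m + 1) := by
        rw [← pow_add, ← pow_add]; congr 1; ring
      rw [this, pow_mul, ← hao, pow_orderOf_eq_one, one_pow]
    rw [h2, one_mul]
  have hSz : (S : Subgroup G) ≤ Subgroup.centralizer ({z} : Set G) := by
    intro x hx
    rw [Subgroup.mem_centralizer_singleton_iff]
    have h1 : ((Subgroup.zpowers a).subgroupOf (S : Subgroup G)).index = 2 := hrelA
    by_cases hxA : x ∈ Subgroup.zpowers a
    · obtain ⟨k, rfl⟩ := hxA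
      rw [hz]
      show a ^ k * a ^ 2 ^ (m + 2) = a ^ 2 ^ (m + 2) * a ^ k
      rw [← zpow_natCast, ← zpow_add, ← zpow_add, add_comm]
    · -- b x ∈ A
      have h2 : b * x ∈ Subgroup.zpowers a := by
        have h3 := Subgroup.mul_mem_iff_of_index_two h1 (a := ⟨b, hb⟩) (b := ⟨x, hx⟩)
        have h4 : (⟨b, hb⟩ * ⟨x, hx⟩ : (S : Subgroup G)) ∈ (Subgroup.zpowers a).subgroupOf (S : Subgroup G) := by
          rw [h3, Subgroup.mem_subgroupOf, Subgroup.mem_subgroupOf]
          exact ⟨fun h => absurd h hbA, fun h => absurd h hxA⟩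
        exact Subgroup.mem_subgroupOf.1 h4
      obtain ⟨k, hk⟩ := h2
      have hk' : b * x = a ^ k := hk.symm
      have h5 : x = b⁻¹ * a ^ k := by rw [← hk']; group
      have h6 : a ^ k * z = z * a ^ k := by
        rw [hz, ← zpow_natCast, ← zpow_add, ← zpow_add, add_comm]
      have h7 : b⁻¹ * z = z * b⁻¹ := by
        calc b⁻¹ * z = b⁻¹ * (b * z * b⁻¹) := by rw [hbz]
          _ = z * b⁻¹ := by group
      rw [h5, mul_assoc, h6, ← mul_assoc, h7, mul_assoc]
  -- b is not conjugate into ⟨a⟩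
  have hnc : ¬ ∃ g : G, g * b * g⁻¹ ∈ Subgroup.zpowers a := by
    rintro ⟨g, hg⟩
    have hgb : g * b * g⁻¹ = z := by
      have := mem_zpowers_of_sq (n := m + 3) (by omega) hao hg (by
        calc g * b * g⁻¹ * (g * b * g⁻¹) = g * (b * b) * g⁻¹ := by group
          _ = 1 := by rw [hbb]; group) (by
        intro h
        apply hb1
        have : b = g⁻¹ * (g * b * g⁻¹) * g := by group
        rw [this, h]; group)
      rw [hn1] at this
      exact this
    -- a² commutes with b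
    have hba2 : b * (a * a) * b⁻¹ = a * a := by
      calc b * (a * a) * b⁻¹ = (b * a * b⁻¹) * (b * a * b⁻¹) := by group
        _ = a ^ (2 ^ (m + 2) + 1) * a ^ (2 ^ (m + 2) + 1) := by rw [hrel]
        _ = (a ^ 2 ^ (m + 2) * a ^ 2 ^ (m + 2)) * (a * a) := by
          rw [pow_succ, mul_assoc, ← mul_assoc a, (Commute.refl a).pow_right _ |>.eq]; group
        _ = a * a := by rw [← hz, hzz, one_mul]
    set y := g * (a * a) * g⁻¹ with hy
    have hyz : y * z = z * y := by
      have h1 : b * (a * a) = (a * a) * b := by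
        calc b * (a * a) = (b * (a * a) * b⁻¹) * b := by group
          _ = _ := by rw [hba2]
      rw [hy, ← hgb]
      calc g * (a * a) * g⁻¹ * (g * b * g⁻¹) = g * ((a * a) * b) * g⁻¹ := by group
        _ = g * (b * (a * a)) * g⁻¹ := by rw [h1]
        _ = _ := by group
    have hy2 : ∃ k : ℕ, y ^ 2 ^ k = 1 := by
      refine ⟨m + 3, ?_⟩
      rw [hy, conj_pow, ← pow_two, ← pow_mul, mul_comm, pow_mul, ← hao, pow_orderOf_eq_one]
      simp
    obtain ⟨c, hc, hcy⟩ := Lib.H32Basic.exists_conj_mem_sylow_of_le S (Subgroup.centralizer ({z} : Set G)) hSz y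
      (Subgroup.mem_centralizer_singleton_iff.2 hyz) hy2
    rw [Subgroup.mem_centralizer_singleton_iff] at hc
    -- (c y c⁻¹)^(2^(m+1)) ∈ A
    have h1 : (c * y * c⁻¹) ^ 2 ^ (m + 1) ∈ Subgroup.zpowers a := by
      rw [pow_succ', pow_mul, pow_two]
      exact pow_mem (hsq _ hcy) _
    have h2 : (c * y * c⁻¹) ^ 2 ^ (m + 1) = (c * g) * z * (c * g)⁻¹ := by
      rw [conj_pow, hy, conj_pow, ← pow_two, ← pow_mul, ← pow_succ', ← hz]; group
    rw [h2] at h1
    have h3 : (c * g) * z * (c * g)⁻¹ = z := by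
      have := mem_zpowers_of_sq (n := m + 3) (by omega) hao h1 (by
        calc (c * g) * z * (c * g)⁻¹ * ((c * g) * z * (c * g)⁻¹) = (c * g) * (z * z) * (c * g)⁻¹ := by group
          _ = 1 := by rw [hzz]; group) (by
        intro h
        apply hz1
        have : z = (c * g)⁻¹ * ((c * g) * z * (c * g)⁻¹) * (c * g) := by group
        rw [this, h]; group)
      rw [hn1] at this
      exact this
    have h4 : (c * g) * b * (c * g)⁻¹ = z := by
      calc (c * g) * b * (c * g)⁻¹ = c * (g * b * g⁻¹) * c⁻¹ := by group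
        _ = c * z * c⁻¹ := by rw [hgb]
        _ = z := by rw [hc]; group
    have h5 : b = z := by
      have := h4.trans h3.symm
      calc b = (c * g)⁻¹ * ((c * g) * b * (c * g)⁻¹) * (c * g) := by group
        _ = (c * g)⁻¹ * ((c * g) * z * (c * g)⁻¹) * (c * g) := by rw [this]
        _ = z := by group
    apply hbA
    rw [h5, hz]
    exact Subgroup.pow_mem _ (Subgroup.mem_zpowers a) _
  rcases Cfsg.Agent.S0111.result S (Subgroup.zpowers a) hA hrelA b hbo hb hbA with ⟨M, hMn, hMi, hbM⟩ | hcon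
  swap
  · exact absurd hcon hnc
  -- an element of order 2^(m+3) in M
  obtain ⟨x, hxM, hxo⟩ : ∃ x ∈ M, orderOf x = 2 ^ (m + 3) := by
    by_cases haM : a ∈ M
    · exact ⟨a, haM, hao⟩
    · refine ⟨b * a, ?_, ?_⟩
      · rw [Subgroup.mul_mem_iff_of_index_two hMi]
        exact ⟨fun h => absurd h hbM, fun h => absurd h haM⟩
      · -- (ba)^2 = a^(2^(m+2)+2)
        have h1 : (b * a) ^ 2 = a ^ (2 * (2 ^ (m + 1) + 1)) := by
          have e1 : (b * a) ^ 2 = (b * a * b⁻¹) * (b * b) * a := by rw [pow_two]; group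
          rw [e1, hbb, mul_one, hrel, ← pow_succ]
          congr 1; ring
        have h2 : (b * a) ^ 2 ^ (m + 3) = 1 := by
          rw [pow_succ', pow_mul, h1, ← pow_mul]
          have : 2 * (2 ^ (m + 1) + 1) * 2 ^ (m + 2) = 2 ^ (m + 3) * (2 ^ (m + 1) + 1) := by ring
          rw [this, pow_mul, ← hao, pow_orderOf_eq_one, one_pow]
        have h3 : (b * a) ^ 2 ^ (m + 2) ≠ 1 := by
          rw [pow_succ', pow_mul, h1, ← pow_mul]
          have : 2 * (2 ^ (m + 1) + 1) * 2 ^ (m + 1) = 2 ^ (m + 2) * 2 ^ (m + 1) + 2 ^ (m + 2) := by ring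
          rw [this, pow_add, ← hz, pow_mul, ← hz]
          have h4 : z ^ 2 ^ (m + 1) = 1 := by
            rw [pow_succ', pow_mul, pow_two, hzz, one_pow]
          rw [h4, one_mul]
          exact hz1
        exact orderOf_eq_prime_pow h3 h2
  -- M has a cyclic Sylow subgroup
  have hcardG : ∃ k, Odd k ∧ Nat.card G = 2 ^ (m + 4) * k := by
    refine ⟨(S : Subgroup G).index, ?_, ?_⟩
    · rw [← Nat.not_even_iff_odd, even_iff_two_dvd]; exact S.not_dvd_index
    · rw [← (S : Subgroup G).card_mul_index, hS]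
  obtain ⟨k, hk, hcG⟩ := hcardG
  have hcM : Nat.card M = 2 ^ (m + 3) * k := by
    have h1 := M.card_mul_index
    rw [hMi, hcG] at h1
    have : 2 ^ (m + 4) * k = (2 ^ (m + 3) * k) * 2 := by ring
    rw [this] at h1
    exact Nat.eq_of_mul_eq_mul_right (by norm_num) h1
  have hMev : (Nat.card M).minFac = 2 := by
    rw [Nat.minFac_eq_two_iff, hcM]
    exact dvd_mul_of_dvd_left (dvd_pow_self 2 (by omega)) _
  have hx' : orderOf (⟨x, hxM⟩ : M) = 2 ^ (m + 3) := by rw [Subgroup.orderOf_mk]; exact hxo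
  have hfac : (Nat.card M).factorization 2 = m + 3 := by
    rw [hcM, Nat.factorization_mul (by positivity) hk.pos.ne', Finsupp.add_apply,
      Nat.Prime.factorization_pow Nat.prime_two, Finsupp.single_eq_same,
      Nat.factorization_eq_zero_of_not_dvd (by rw [← even_iff_two_dvd]; exact Nat.not_even_iff_odd.2 hk), add_zero]
  let P : Sylow 2 M := Sylow.ofCard (Subgroup.zpowers (⟨x, hxM⟩ : M)) (by rw [Nat.card_zpowers, hx', hfac])
  have hPc : IsCyclic (P : Subgroup M) := by
    show IsCyclic (Subgroup.zpowers (⟨x, hxM⟩ : M))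
    infer_instance
  have hNM : HasNormalPComplement 2 M :=
    ⟨P, _, inferInstance, hPc.isComplement' hMev⟩
  rw [Lib.PNilp.hasNormalPComplement_iff_pResidual] at hNM ⊢
  have hle : pResidual 2 G ≤ M := Lib.PNilp.pResidual_le_of_index (k := 1) M (by rw [hMi, pow_one])
  rw [← Lib.PNilp.map_pResidual_of_le 2 M hle, Subgroup.card_map_of_injective M.subtype_injective]
  exact hNM

end Cfsg.Agent.S3178
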