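import Cfsg.Statements.S3179
import Cfsg.Agent.Lib.ClSLn
import Cfsg.Agent.Lib.SuzukiLie
import Cfsg.Agent.S0324
import Cfsg.Agent.Lib.SylU3

set_option autoImplicit false
open Cfsg

namespace Cfsg.Agent.S3179

/-- order-3 matrices -/
def ma : Matrix (Fin 5) (Fin 5) (ZMod 2) :=
  !![0,1,0,0,0; 1,1,0,0,0; 0,0,1,0,0; 0,0,0,1,0; 0,0,0,0,1]
def mb : Matrix (Fin 5) (Fin 5) (ZMod 2) :=
  !![1,0,0,0,0; 0,1,0,0,0; 0,0,0,1,0; 0,0,1,1,0; 0,0,0,0,1]

theorem ma3 : ma * (ma * ma) = 1 := by decide +kernel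
theorem mb3 : mb * (mb * mb) = 1 := by decide +kernel
theorem mab : ma * mb = mb * ma := by decide +kernel
theorem ma_ne : ma ≠ 1 := by decide +kernel
theorem mb_ne : mb ≠ 1 := by decide +kernel
theorem mab_ne : ma ≠ mb := by decide +kernel
theorem mab_ne' : ma ≠ mb * mb := by decide +kernel

def ga : GL (Fin 5) (ZMod 2) := ⟨ma, ma * ma, ma3, by rw [Matrix.mul_assoc]; exact ma3⟩
def gb : GL (Fin 5) (ZMod 2) := ⟨mb, mb * mb, mb3, by rw [Matrix.mul_assoc]; exact mb3⟩

theorem ga3 : ga ^ 3 = 1 := by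
  apply Units.ext
  rw [pow_succ, pow_succ, pow_one, mul_assoc]
  exact ma3
theorem gb3 : gb ^ 3 = 1 := by
  apply Units.ext
  rw [pow_succ, pow_succ, pow_one, mul_assoc]
  exact mb3
theorem gab : ga * gb = gb * ga := Units.ext mab
theorem ga_ne : ga ≠ 1 := fun h => ma_ne (congrArg Units.val h)
theorem gb_ne : gb ≠ 1 := fun h => mb_ne (congrArg Units.val h)
theorem gab_ne : ga ≠ gb := fun h => mab_ne (congrArg Units.val h)
theorem gab_ne' : ga ≠ gb * gb := fun h => mab_ne' (congrArg Units.val h)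

theorem card_psl2 {F : Type} [Field F] [Fintype F] {q : ℕ} (hF : Fintype.card F = q) :
    Nat.gcd 2 (q - 1) * Nat.card (Matrix.ProjectiveSpecialLinearGroup (Fin 2) F) = q * (q ^ 2 - 1) := by
  have h := Cfsg.Agent.Lib.ClSLn.card_PSL_formula hF 2 (by norm_num)
  have hq : 1 < q := by rw [← hF]; exact Fintype.one_lt_card
  simp only [Finset.prod_range_succ, Finset.range_zero, Finset.prod_empty] at h
  have h0 : 0 < q - 1 := by omega
  apply Nat.eq_of_mul_eq_mul_left h0
  calc (q - 1) * (Nat.gcd 2 (q - 1) * Nat.card (Matrix.ProjectiveSpecialLinearGroup (Fin 2) F)) =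
      Nat.gcd 2 (q - 1) * ((q - 1) * Nat.card (Matrix.ProjectiveSpecialLinearGroup (Fin 2) F)) := by ring
    _ = _ := by rw [h]; simp; ring

theorem exists_nine (F : Type) [Field F] [Fintype F] (hF : Fintype.card F = 2 ^ 3) :
    ∃ x : Matrix.ProjectiveSpecialLinearGroup (Fin 2) F, orderOf x = 9 := by
  have : CharP F 2 := Cfsg.Agent.Lib.SuzukiFin.charTwo hF
  have h2 : (2 : F) = 0 := CharTwo.two_eq_zero
  -- t with t^3 + t + 1 = 0
  obtain ⟨t, ht⟩ : ∃ t : F, t ^ 3 + t + 1 = 0 := by
    by_contra hcon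
    push Not at hcon
    have hall : ∀ x : F, x ^ 8 = x := by
      intro x
      have := FiniteField.pow_card x
      rw [hF] at this
      norm_num at this
      exact this
    -- x^8 - x = x (x-1)(x^3+x+1)(x^3+x^2+1)
    have h3 : ∀ x : F, x ≠ 0 → x ≠ 1 → x ^ 3 + x ^ 2 + 1 = 0 := by
      intro x hx0 hx1
      have e : x * (x + 1) * (x ^ 3 + x + 1) * (x ^ 3 + x ^ 2 + 1) = 0 := by
        have := hall x
        linear_combination this + (x ^ 7 + x ^ 6 + 2 * x ^ 5 + 2 * x ^ 4 + 1 * x ^ 3 + x ^ 2 + x) * h2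
      rcases mul_eq_zero.1 e with e | e
      · rcases mul_eq_zero.1 e with e | e
        · rcases mul_eq_zero.1 e with e | e
          · exact absurd e hx0
          · exfalso; apply hx1; linear_combination e - h2
        · exact absurd e (hcon x)
      · exact e
    -- for x ≠ 0,1: 1/x satisfies too: 1 + x + x^3 = 0
    obtain ⟨x, hx0, hx1⟩ : ∃ x : F, x ≠ 0 ∧ x ≠ 1 := by
      by_contra hc
      push Not at hc
      have : Fintype.card F ≤ 2 := by
        classical
        have : (Finset.univ : Finset F) ⊆ {0, 1} := by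
          intro y _
          by_cases hy : y = 0
          · simp [hy]
          · simp [hc y hy]
        calc Fintype.card F = (Finset.univ : Finset F).card := rfl
          _ ≤ _ := Finset.card_le_card this
          _ ≤ 2 := Finset.card_le_two
      omega
    have h4 := h3 x⁻¹ (inv_ne_zero hx0) (fun h => hx1 (inv_eq_one.1 h))
    apply hcon x
    have h5 : x ^ 3 * (x⁻¹ ^ 3 + x⁻¹ ^ 2 + 1) = 1 + x + x ^ 3 := by
      field_simp
    rw [h4, mul_zero] at h5
    linear_combination -h5
  -- the matrix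
  let M : Matrix (Fin 2) (Fin 2) F := !![0, 1; 1, t]
  have hdet : M.det = 1 := by
    rw [Matrix.det_fin_two_of]
    linear_combination -h2
  let g : Matrix.SpecialLinearGroup (Fin 2) F := ⟨M, hdet⟩
  have hM2 : M * M = !![1, t; t, 1 + t ^ 2] := by
    ext i j; fin_cases i <;> fin_cases j <;> simp [M, Matrix.mul_apply, Fin.sum_univ_two] <;> ring
  have hM3 : M * (M * M) = !![t, 1 + t ^ 2; 1 + t ^ 2, 1 + t] := by
    rw [hM2]
    ext i j; fin_cases i <;> fin_cases j <;> simp [M, Matrix.mul_apply, Fin.sum_univ_two] <;>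
      first | (ring; done) | (linear_combination ht - h2)
  have hM6 : (M * (M * M)) * (M * (M * M)) = M * (M * M) + 1 := by
    rw [hM3]
    ext i j; fin_cases i <;> fin_cases j <;> simp [Matrix.mul_apply, Fin.sum_univ_two] 
    · linear_combination (t - 0) * ht + (t ^ 2 - t) * h2
    · linear_combination (1 + t ^ 2) * t * h2
    · linear_combination (1 + t ^ 2) * t * h2
    · linear_combination (t) * ht + t ^ 2 * h2
  have hM9 : (M * (M * M)) * ((M * (M * M)) * (M * (M * M))) = 1 := by
    rw [hM6, mul_add, hM6, mul_one]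
    ext i j
    simp only [Matrix.add_apply]
    linear_combination ((M * (M * M)) i j) * h2
  have hg3 : g ^ 3 ∉ Subgroup.center (Matrix.SpecialLinearGroup (Fin 2) F) := by
    intro hc
    rw [Matrix.SpecialLinearGroup.mem_center_iff] at hc
    obtain ⟨r, -, hr⟩ := hc
    have h5 : (g ^ 3 : Matrix.SpecialLinearGroup (Fin 2) F).1 = M * (M * M) := by
      rw [pow_succ, pow_succ, pow_one, mul_assoc]; rfl
    rw [h5, hM3] at hr
    have h6 := congrFun (congrFun hr 0) 1
    simp at h6
    -- 1 + t^2 = 0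
    have h7 : (1 + t) ^ 2 = 0 := by linear_combination -h6 + t * h2
    have h8 : 1 + t = 0 := pow_eq_zero_iff (two_ne_zero) |>.1 h7
    have h9 : t = -1 := by linear_combination h8
    rw [h9] at ht
    have : (1 : F) = 0 := by linear_combination -ht
    exact one_ne_zero this
  have hg9 : g ^ 9 = 1 := by
    have h5 : g ^ 9 = (g * (g * g)) * ((g * (g * g)) * (g * (g * g))) := by
      simp only [pow_succ, pow_zero, one_mul, mul_assoc]
    rw [h5]
    exact Subtype.ext hM9
  have : Fact (Nat.Prime 3) := ⟨by norm_num⟩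
  refine ⟨QuotientGroup.mk g, ?_⟩
  have := orderOf_eq_prime_pow (p := 3) (n := 1) (x := (QuotientGroup.mk g : Matrix.ProjectiveSpecialLinearGroup (Fin 2) F)) ?_ ?_
  · rw [this]; norm_num
  · intro h
    rw [pow_one, ← QuotientGroup.mk_pow, QuotientGroup.eq_one_iff] at h
    exact hg3 h
  · have h99 : (3 : ℕ) ^ (1 + 1) = 9 := by norm_num
    rw [h99, ← QuotientGroup.mk_pow, hg9]
    rfl

theorem cardGL : Nat.card (GL (Fin 5) (ZMod 2)) = 9999360 := by
  rw [Matrix.card_GL_field]
  simp [Fin.prod_univ_succ, ZMod.card]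

theorem no_nine (g : GL (Fin 5) (ZMod 2)) : orderOf g ≠ 9 := by
  intro hg
  have : Fact (Nat.Prime 3) := ⟨by norm_num⟩
  -- a Sylow 3-subgroup containing ga, gb
  have hp : IsPGroup 3 (Subgroup.closure ({ga, gb} : Set (GL (Fin 5) (ZMod 2)))) := by
    intro x
    refine ⟨1, ?_⟩
    obtain ⟨x, hx⟩ := x
    apply Subtype.ext
    simp only [pow_one, Subgroup.coe_pow, Subgroup.coe_one]
    have hcomm : ∀ x ∈ Subgroup.closure ({ga, gb} : Set (GL (Fin 5) (ZMod 2))),
        ∀ y ∈ Subgroup.closure ({ga, gb} : Set (GL (Fin 5) (ZMod 2))), x * y = y * x := by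
      intro x hx y hy
      have := Subgroup.isMulCommutative_closure (k := ({ga, gb} : Set (GL (Fin 5) (ZMod 2)))) (by
        rintro a (rfl | rfl) b (rfl | rfl)
        · rfl
        · exact gab
        · exact gab.symm
        · rfl)
      have h2 := this.is_comm.comm (⟨x, hx⟩ : Subgroup.closure ({ga, gb} : Set (GL (Fin 5) (ZMod 2)))) ⟨y, hy⟩
      exact congrArg Subtype.val h2
    induction hx using Subgroup.closure_induction with
    | mem x hx =>
      rcases hx with rfl | rfl
      · exact ga3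
      · exact gb3
    | one => simp
    | mul x y hx hy ihx ihy =>
      have hc : Commute x y := hcomm x hx y hy
      rw [hc.mul_pow, ihx, ihy, one_mul]
    | inv x hx ih => rw [inv_pow, ih, inv_one]
  obtain ⟨P, hP⟩ := hp.exists_le_sylow
  have haP : ga ∈ P := hP (Subgroup.subset_closure (by simp))
  have hbP : gb ∈ P := hP (Subgroup.subset_closure (by simp))
  have hcard : ∀ Q : Sylow 3 (GL (Fin 5) (ZMod 2)), Nat.card Q = 9 := by
    intro Q
    rw [Q.card_eq_multiplicity, cardGL]
    have h1 : (9999360 : ℕ) = 3 ^ 2 * 1111040 := by norm_num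
    have : (9999360 : ℕ).factorization 3 = 2 := by
      rw [h1, Nat.factorization_mul (by norm_num) (by norm_num), Nat.Prime.factorization_pow (by norm_num)]
      simp [Nat.factorization_eq_zero_of_not_dvd (show ¬ 3 ∣ 1111040 by norm_num)]
    rw [this]
    norm_num
  -- zpowers g is Sylow
  have hz : IsPGroup 3 (Subgroup.zpowers g) := by
    apply IsPGroup.of_card (n := 2)
    rw [Nat.card_zpowers, hg]; norm_num
  obtain ⟨Q, hQ⟩ := hz.exists_le_sylow
  have hQe : Subgroup.zpowers g = (Q : Subgroup (GL (Fin 5) (ZMod 2))) := by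
    apply Subgroup.eq_of_le_of_card_ge hQ
    have h9 := hcard Q
    rw [Nat.card_zpowers, hg]
    exact h9.le
  have hcyc : IsCyclic Q := by
    have : IsCyclic (Subgroup.zpowers g) := inferInstance
    rw [hQe] at this
    exact this
  have hcP : IsCyclic P := by
    have e := Q.equiv P
    exact isCyclic_of_surjective e.toMonoidHom e.surjective
  -- in a cyclic group, elements of order 3 lie in one subgroup
  let a : P := ⟨ga, haP⟩
  let b : P := ⟨gb, hbP⟩
  have hao : orderOf a = 3 := by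
    apply orderOf_eq_prime
    · exact Subtype.ext ga3
    · intro h; exact ga_ne (congrArg Subtype.val h)
  have hbo : orderOf b = 3 := by
    apply orderOf_eq_prime
    · exact Subtype.ext gb3
    · intro h; exact gb_ne (congrArg Subtype.val h)
  classical
  have : Fintype P := Fintype.ofFinite P
  have hle := IsCyclic.card_pow_eq_one_le (α := P) (n := 3) (by norm_num)
  have hsub : ({1, a, b, b * b} : Finset P) ⊆ Finset.univ.filter (fun x : P => x ^ 3 = 1) := by
    intro x hx
    simp only [Finset.mem_insert, Finset.mem_singleton] at hx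
    rw [Finset.mem_filter]
    refine ⟨Finset.mem_univ _, ?_⟩
    have hb3 : b ^ 3 = 1 := Subtype.ext gb3
    rcases hx with rfl | rfl | rfl | rfl
    · exact one_pow _
    · exact Subtype.ext ga3
    · exact hb3
    · rw [← pow_two, ← pow_mul, mul_comm, pow_mul, hb3, one_pow]
  have h4 := (Finset.card_le_card hsub).trans hle
  have e1 : (1 : P) ≠ a := fun h => ga_ne (congrArg Subtype.val h).symm
  have e2 : (1 : P) ≠ b := fun h => gb_ne (congrArg Subtype.val h).symm
  have e3 : (1 : P) ≠ b * b := by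
    intro h
    apply e2
    have hb3 : b ^ 3 = 1 := Subtype.ext gb3
    rw [pow_succ, pow_two, ← h, one_mul] at hb3
    exact hb3.symm
  have e4 : a ≠ b := fun h => gab_ne (congrArg Subtype.val h)
  have e5 : a ≠ b * b := fun h => gab_ne' (congrArg Subtype.val h)
  have e6 : b ≠ b * b := fun h => e2 (mul_left_cancel (a := b) (by rw [mul_one]; exact h))
  rw [Finset.card_insert_of_notMem (by simp [e1, e2, e3]), Finset.card_insert_of_notMem (by simp [e4, e5]),
    Finset.card_insert_of_notMem (by simp [e6]), Finset.card_singleton] at h4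
  omega

/-- Let X be a section of the general linear group GL(5, 2), that is, a quotient of a subgroup of it. If X is isomorphic to PSL(2, 2^n) for some n ≥ 2, to a Suzuki group over the field with 2^(2m+1) elements for some m ≥ 1, or to PSU(3, 2^n) for some n ≥ 2, then X is isomorphic to PSL(2, 4). -/
theorem result {H : Subgroup (GL (Fin 5) (ZMod 2))}
    {K : Subgroup ↥H} [K.Normal]
    (hX : (∃ (n : ℕ) (F : Type) (_ : Field F) (_ : Fintype F), 2 ≤ n ∧ Fintype.card F = 2 ^ n ∧
        Nonempty (↥H ⧸ K ≃* Matrix.ProjectiveSpecialLinearGroup (Fin 2) F)) ∨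
      (∃ (m : ℕ) (F : Type) (_ : Field F) (_ : Fintype F), 1 ≤ m ∧ Fintype.card F = 2 ^ (2 * m + 1) ∧
        Nonempty (↥H ⧸ K ≃* ↥(Cfsg.Lie.Sz F (2 ^ (m + 1))))) ∨
      (∃ (n : ℕ) (F : Type) (_ : Field F) (_ : Fintype F), 2 ≤ n ∧ Fintype.card F = 4 ^ n ∧
        Nonempty (↥H ⧸ K ≃* Cfsg.PSU 3 F (2 ^ n)))) :
    ∃ (F : Type) (_ : Field F) (_ : Fintype F), Fintype.card F = 4 ∧
      Nonempty (↥H ⧸ K ≃* Matrix.ProjectiveSpecialLinearGroup (Fin 2) F) := by
  have hdiv : Nat.card (↥H ⧸ K) ∣ 9999360 := by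
    rw [← cardGL]
    exact (Subgroup.card_quotient_dvd_card K).trans (Subgroup.card_subgroup_dvd_card H)
  rcases hX with ⟨n, F, hF, hF2, hn, hcF, ⟨e⟩⟩ | ⟨m, F, hF, hF2, hm, hcF, ⟨e⟩⟩ | ⟨n, F, hF, hF2, hn, hcF, ⟨e⟩⟩
  · by_cases hn2 : n = 2
    · subst hn2
      exact ⟨F, hF, hF2, by rw [hcF]; norm_num, ⟨e⟩⟩
    exfalso
    have h1 := card_psl2 hcF
    have hg : Nat.gcd 2 (2 ^ n - 1) = 1 := by
      rw [Nat.gcd_comm]
      apply Nat.Coprime.symm
      rw [Nat.coprime_two_left]
      exact Nat.Even.sub_odd Nat.one_le_two_pow ((Nat.even_pow.2 ⟨even_two, by omega⟩)) odd_one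
    rw [hg, one_mul] at h1
    rw [Nat.card_congr e.toEquiv, h1] at hdiv
    have h2 : 2 ^ n ∣ 9999360 := (Dvd.intro _ rfl).trans hdiv
    have hn10 : n < 11 := by
      by_contra hcon
      have : 2 ^ 11 ∣ 9999360 := (pow_dvd_pow 2 (by omega)).trans h2
      revert this
      norm_num
    have hn3 : n = 3 := by
      interval_cases n <;> first | rfl | (exfalso; revert hdiv; norm_num; done) | (exact absurd rfl hn2)
    subst hn3
    -- an element of order 9
    obtain ⟨x, hx⟩ := exists_nine F hcF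
    have hy : orderOf (e.symm x) = 9 := by
      rw [← hx]; exact MulEquiv.orderOf_eq e.symm x
    obtain ⟨h, hh⟩ := QuotientGroup.mk_surjective (e.symm x)
    have h9 : 9 ∣ orderOf (h : GL (Fin 5) (ZMod 2)) := by
      rw [Subgroup.orderOf_coe, ← hy, ← hh]
      exact orderOf_map_dvd (QuotientGroup.mk' K) h
    obtain ⟨k, hk⟩ := h9
    have hk0 : k ≠ 0 := by
      rintro rfl
      have := orderOf_pos (h : GL (Fin 5) (ZMod 2))
      omega
    apply no_nine ((h : GL (Fin 5) (ZMod 2)) ^ k)
    rw [orderOf_pow, hk, Nat.gcd_eq_right (Dvd.intro_left 9 rfl)]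
    exact Nat.mul_div_cancel _ (Nat.pos_of_ne_zero hk0)
  · exfalso
    have : CharP F 2 := Cfsg.Agent.Lib.SuzukiFin.charTwo hcF
    have h1 := Cfsg.Agent.S0324.result (m := m) hm hcF
    rw [Nat.card_congr (Cfsg.Agent.Lib.SuzukiLie.szEquiv (F := F) m hm hcF).toEquiv] at h1
    rw [Nat.card_congr e.toEquiv, h1] at hdiv
    have h2 : (2 ^ (2 * m + 1)) ^ 2 ∣ 9999360 := (Dvd.intro _ rfl).trans ((Dvd.intro _ rfl).trans hdiv)
    have hm3 : m < 3 := by
      by_contra hcon
      have : 2 ^ 11 ∣ 9999360 := by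
        refine Dvd.dvd.trans ?_ h2
        rw [← pow_mul]
        exact pow_dvd_pow 2 (by omega)
      revert this
      norm_num
    interval_cases m <;> (revert hdiv; norm_num)
  · exfalso
    have h1 := Cfsg.Agent.Lib.SylU3.card_PSU_three (q := 2 ^ n) (F := F) (by rw [hcF, ← pow_mul, mul_comm, pow_mul]; norm_num)
    rw [Nat.card_congr e.toEquiv] at hdiv
    have h3 : (2 ^ n) ^ 3 * (((2 ^ n) ^ 2 - 1) * ((2 ^ n) ^ 3 + 1)) ∣ 3 * 9999360 := by
      rw [← h1]
      exact mul_dvd_mul (Nat.gcd_dvd_left _ _) hdiv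
    have h2 : (2 ^ n) ^ 3 ∣ 3 * 9999360 := (Dvd.intro _ rfl).trans h3
    have hn4 : n < 4 := by
      by_contra hcon
      have : 2 ^ 11 ∣ 3 * 9999360 := by
        refine Dvd.dvd.trans ?_ h2
        rw [← pow_mul]
        exact pow_dvd_pow 2 (by omega)
      revert this
      norm_num
    interval_cases n <;> (revert h3; norm_num)

end Cfsg.Agent.S3179
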