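import Cfsg.Statements.S3180
import Mathlib

set_option autoImplicit false
open Cfsg

namespace Cfsg.Agent.S3180

/-- Let P be a Sylow p-subgroup of a finite group J and P₁ a subgroup of P that is weakly closed in P with respect to J. If J acts on a set and two points, each fixed by every element of P₁, lie in one J-orbit, then they lie in one orbit of the normalizer of P₁ in J. -/
theorem result {J : Type*} [Group J] [Finite J]
    {p : ℕ} [Fact p.Prime] (P : Sylow p J) (P₁ : Subgroup J) (hW : Cfsg.IsWeaklyClosed P₁ (P : Subgroup J))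
    {Ω : Type*} [MulAction J Ω] (x y : Ω) (hx : ∀ g ∈ P₁, g • x = x) (hy : ∀ g ∈ P₁, g • y = y)
    (hc : ∃ g : J, g • x = y) :
    ∃ g ∈ Subgroup.normalizer (P₁ : Set J), g • x = y := by
  obtain ⟨g, hg⟩ := hc
  set Jy : Subgroup J := MulAction.stabilizer J y with hJy
  -- P₁ and its conjugate lie in the stabiliser
  have h1 : P₁ ≤ Jy := fun k hk => hy k hk
  have h2 : P₁.map (MulAut.conj g).toMonoidHom ≤ Jy := by
    rintro _ ⟨k, hk, rfl⟩
    show (g * k * g⁻¹) • y = y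
    rw [mul_smul, mul_smul, ← hg, inv_smul_smul, hx k hk]
  have hP1 : IsPGroup p P₁ := P.isPGroup'.to_le hW.1
  have hP2 : IsPGroup p (P₁.map (MulAut.conj g).toMonoidHom) := hP1.map _
  -- Sylow subgroups of Jy containing them
  obtain ⟨Q1, hQ1⟩ := (hP1.comap_subtype (K := Jy)).exists_le_sylow
  obtain ⟨Q2, hQ2⟩ := (hP2.comap_subtype (K := Jy)).exists_le_sylow
  obtain ⟨h, hh⟩ := MulAction.exists_smul_eq Jy Q2 Q1
  have hD : IsPGroup p ((Q1 : Subgroup Jy).map Jy.subtype) := Q1.isPGroup'.map _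
  obtain ⟨R, hR⟩ := hD.exists_le_sylow
  obtain ⟨k, hk⟩ := MulAction.exists_smul_eq J R P
  -- conjugates of P₁ in R are determined
  have key : ∀ a : J, P₁.map (MulAut.conj a).toMonoidHom ≤ (R : Subgroup J) →
      P₁.map (MulAut.conj (k * a)).toMonoidHom = P₁ := by
    intro a ha
    apply hW.2
    rintro _ ⟨z, hz, rfl⟩
    have h3 : a * z * a⁻¹ ∈ (R : Subgroup J) := ha ⟨z, hz, rfl⟩
    have h4 : k * (a * z * a⁻¹) * k⁻¹ ∈ ((k • R : Sylow p J) : Subgroup J) :=
      Subgroup.smul_mem_pointwise_smul (a * z * a⁻¹) (MulAut.conj k) _ h3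
    rw [hk] at h4
    show (k * a) * z * (k * a)⁻¹ ∈ _
    have : (k * a) * z * (k * a)⁻¹ = k * (a * z * a⁻¹) * k⁻¹ := by group
    rw [this]; exact h4
  have k1 := key 1 (by
    rintro _ ⟨z, hz, rfl⟩
    show 1 * z * 1⁻¹ ∈ _
    rw [one_mul, inv_one, mul_one]
    exact hR ⟨⟨z, h1 hz⟩, hQ1 hz, rfl⟩)
  have k2 := key ((h : J) * g) (by
    rintro _ ⟨z, hz, rfl⟩
    have h5 : (⟨g * z * g⁻¹, h2 ⟨z, hz, rfl⟩⟩ : Jy) ∈ (Q2 : Subgroup Jy) := hQ2 ⟨z, hz, rfl⟩
    have h6 : h * ⟨g * z * g⁻¹, h2 ⟨z, hz, rfl⟩⟩ * h⁻¹ ∈ ((h • Q2 : Sylow p Jy) : Subgroup Jy) :=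
      Subgroup.smul_mem_pointwise_smul _ (MulAut.conj h) _ h5
    rw [hh] at h6
    have h7 := hR ⟨_, h6, rfl⟩
    show (h : J) * g * z * ((h : J) * g)⁻¹ ∈ _
    have : (h : J) * g * z * ((h : J) * g)⁻¹ = (h : J) * (g * z * g⁻¹) * (h : J)⁻¹ := by group
    rw [this]; exact h7)
  refine ⟨(h : J) * g, ?_, ?_⟩
  · rw [Subgroup.mem_normalizer_iff]
    have k3 : P₁.map (MulAut.conj ((h : J) * g)).toMonoidHom = P₁ := by
      have e1 : P₁.map (MulAut.conj ((h : J) * g)).toMonoidHom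
          = (P₁.map (MulAut.conj (k * ((h : J) * g))).toMonoidHom).map (MulAut.conj k⁻¹).toMonoidHom := by
        rw [Subgroup.map_map]; congr 1; ext z; simp [mul_assoc]
      have e2 : P₁ = (P₁.map (MulAut.conj (k * 1)).toMonoidHom).map (MulAut.conj k⁻¹).toMonoidHom := by
        rw [Subgroup.map_map]
        have : ((MulAut.conj k⁻¹).toMonoidHom.comp (MulAut.conj (k * 1)).toMonoidHom) = MonoidHom.id J := by
          ext z; simp [mul_assoc]
        rw [this, Subgroup.map_id]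
      rw [e1, k2]; conv_rhs => rw [e2, k1]
    intro z
    constructor
    · intro hz
      have : (h : J) * g * z * ((h : J) * g)⁻¹ ∈ P₁.map (MulAut.conj ((h : J) * g)).toMonoidHom := ⟨z, hz, rfl⟩
      rwa [k3] at this
    · intro hz
      rw [← k3] at hz
      obtain ⟨w, hw, hwz⟩ := hz
      have : (h : J) * g * w * ((h : J) * g)⁻¹ = (h : J) * g * z * ((h : J) * g)⁻¹ := hwz
      have : w = z := by simpa using this
      rwa [← this]
  · rw [mul_smul, hg]; exact h.2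

end Cfsg.Agent.S3180
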