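import Cfsg.Statements.S3183
import Cfsg.Agent.Lib.H53Basic
import Cfsg.Agent.Lib.H32Basic
import Cfsg.Agent.Lib.SubgroupTools

set_option autoImplicit false
open Cfsg

namespace Cfsg.Agent.S3183

open Subgroup Pointwise Cfsg.Agent.Lib.SubgroupTools

/-- In a finite `2`-group (a Sylow subgroup) proper subgroups grow in the normalizer. -/
theorem lt_inf_normalizer {G : Type*} [Group G] [Finite G] (S : Sylow 2 G) (D : Subgroup G)
    (hD : D < (S : Subgroup G)) : D < (S : Subgroup G) ⊓ Subgroup.normalizer (D : Set G) := by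
  have : Fact (Nat.Prime 2) := ⟨Nat.prime_two⟩
  have hnil : Group.IsNilpotent (S : Subgroup G) := S.isPGroup'.isNilpotent
  have hlt : D.subgroupOf (S : Subgroup G) < ⊤ := by
    rw [lt_top_iff_ne_top, Ne, subgroupOf_eq_top]
    exact hD.not_ge
  have h1 := Group.normalizerCondition_of_isNilpotent (D.subgroupOf (S : Subgroup G)) hlt
  obtain ⟨s, hs, hsD⟩ := SetLike.exists_of_lt h1
  refine lt_of_le_of_ne (le_inf hD.le le_normalizer) ?_
  intro heq
  apply hsD
  rw [mem_subgroupOf, heq]
  refine ⟨s.2, ?_⟩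
  show (s : G) ∈ Subgroup.normalizer (D : Set G)
  rw [mem_normalizer_iff]
  rw [mem_normalizer_iff] at hs
  intro y
  constructor
  · intro hy
    exact (hs ⟨y, hD.le hy⟩).1 hy
  · intro hy
    have hyS : y ∈ (S : Subgroup G) := by
      have := mul_mem (mul_mem (inv_mem s.2) (hD.le hy)) s.2
      convert this using 1
      group
    exact (hs ⟨y, hyS⟩).2 hy

theorem key {G : Type*} [Group G] [Finite G]
    (hCI : ∀ S T : Sylow 2 G, S ≠ T → ∃ U : Sylow 2 G,
      (S : Subgroup G) ⊓ (T : Subgroup G) ≤ (Subgroup.center ↥(U : Subgroup G)).map (U : Subgroup G).subtype)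
    (S : Sylow 2 G) (x : G) (hxS : x ∈ (S : Subgroup G)) (T : Sylow 2 G) (hT : T ≠ S) (hxT : x ∈ (T : Subgroup G)) :
    ∀ s ∈ (S : Subgroup G), s * x = x * s := by
  have : Fact (Nat.Prime 2) := ⟨Nat.prime_two⟩
  obtain ⟨T', ⟨hT', hxT'⟩, hmax⟩ := Set.exists_max_image {T : Sylow 2 G | T ≠ S ∧ x ∈ (T : Subgroup G)}
    (fun T => Nat.card ((S : Subgroup G) ⊓ (T : Subgroup G) : Subgroup G)) (Set.toFinite _) ⟨T, hT, hxT⟩
  obtain ⟨U, hU⟩ := hCI S T' (Ne.symm hT')
  set D : Subgroup G := (S : Subgroup G) ⊓ (T' : Subgroup G) with hD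
  have hDS : D < (S : Subgroup G) := by
    refine lt_of_le_of_ne inf_le_left ?_
    intro h
    have h1 : (S : Subgroup G) ≤ T' := by rw [← h]; exact inf_le_right
    exact hT' (Sylow.ext (S.is_maximal' T'.isPGroup' h1))
  have hlt := lt_inf_normalizer S D hDS
  have hUc : ∀ d ∈ D, ∀ u ∈ (U : Subgroup G), u * d = d * u := by
    intro d hd u hu
    obtain ⟨c, hc, hcd⟩ := hU hd
    have := Subgroup.mem_center_iff.1 hc ⟨u, hu⟩
    have h2 := congrArg Subtype.val this
    rw [← hcd]; exact h2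
  have hUN : (U : Subgroup G) ≤ Subgroup.normalizer (D : Set G) := by
    intro u hu
    rw [mem_normalizer_iff_conj_smul]
    ext y
    rw [mem_conj_smul]
    constructor
    · intro hy
      have h1 := hUc _ hy u hu
      have h2 : u * (u⁻¹ * y * u) * u⁻¹ = u⁻¹ * y * u := by rw [h1]; group
      have h3 : u * (u⁻¹ * y * u) * u⁻¹ = y := by group
      rw [← h3, h2]; exact hy
    · intro hy
      have h1 := hUc _ hy u hu
      have h2 : u⁻¹ * y * u = y := by rw [mul_assoc, ← h1]; group
      rw [h2]; exact hy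
  obtain ⟨n, hnN, hn⟩ := Lib.H32Basic.exists_conj_le_sylow_of_le U (Subgroup.normalizer (D : Set G)) hUN
    ((S : Subgroup G) ⊓ Subgroup.normalizer (D : Set G)) inf_le_right (S.isPGroup'.to_le inf_le_left)
  -- U₁ = n⁻¹ • U
  have hle : (S : Subgroup G) ⊓ Subgroup.normalizer (D : Set G) ≤ ((n⁻¹ • U : Sylow 2 G) : Subgroup G) := by
    intro y hy
    rw [Sylow.coe_subgroup_smul, mem_conj_smul, inv_inv]
    exact hn y hy
  have hxD : x ∈ D := ⟨hxS, hxT'⟩
  have hxU1 : x ∈ ((n⁻¹ • U : Sylow 2 G) : Subgroup G) := hle (hlt.le hxD)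
  have hU1S : n⁻¹ • U = S := by
    by_contra hne
    have h1 := hmax (n⁻¹ • U) ⟨hne, hxU1⟩
    have h2 : Nat.card D < Nat.card ((S : Subgroup G) ⊓ ((n⁻¹ • U : Sylow 2 G) : Subgroup G) : Subgroup G) := by
      have h3 : D < (S : Subgroup G) ⊓ ((n⁻¹ • U : Sylow 2 G) : Subgroup G) :=
        lt_of_lt_of_le hlt (le_inf inf_le_left hle)
      exact Set.ncard_lt_ncard h3 (Set.toFinite _)
    exact absurd h1 (not_le.2 h2)
  intro s hs
  rw [← hU1S, Sylow.coe_subgroup_smul, mem_conj_smul, inv_inv] at hs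
  -- n x n⁻¹ ∈ D
  have h1 : n * x * n⁻¹ ∈ D := (mem_normalizer_iff.1 hnN x).1 hxD
  have h2 := hUc _ h1 _ hs
  have h3 := congrArg (fun z => n⁻¹ * z * n) h2
  simpa [mul_assoc] using h3

/-- Let G be a finite group in which the intersection of any two distinct Sylow 2-subgroups is contained in the centre of some Sylow 2-subgroup, and let S be a Sylow 2-subgroup. Then for every x in S the centralizer of x in S is a Sylow 2-subgroup of the centralizer of x in G (no 2-subgroup centralizing x is larger), and for every other Sylow 2-subgroup T the intersection S ∩ T lies in both the centre of S and the centre of T. -/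
theorem result {G : Type*} [Group G] [Finite G]
    (hCI : ∀ S T : Sylow 2 G, S ≠ T → ∃ U : Sylow 2 G,
      (S : Subgroup G) ⊓ (T : Subgroup G) ≤ (Subgroup.center ↥(U : Subgroup G)).map (U : Subgroup G).subtype)
    (S : Sylow 2 G) :
    (∀ x ∈ (S : Subgroup G), ∀ P : Subgroup G, IsPGroup 2 ↥P → P ≤ Subgroup.centralizer ({x} : Set G) →
        Nat.card ↥P ≤ Nat.card ↥((S : Subgroup G) ⊓ Subgroup.centralizer ({x} : Set G))) ∧
    (∀ T : Sylow 2 G, T ≠ S →
        (S : Subgroup G) ⊓ (T : Subgroup G) ≤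
          (Subgroup.center ↥(S : Subgroup G)).map (S : Subgroup G).subtype ⊓
            (Subgroup.center ↥(T : Subgroup G)).map (T : Subgroup G).subtype) := by
  have : Fact (Nat.Prime 2) := ⟨Nat.prime_two⟩
  refine ⟨?_, ?_⟩
  · intro x hx P hP hPC
    -- P ⊔ ⟨x⟩ is a 2-group
    have hxP : IsPGroup 2 (Subgroup.zpowers x) := S.isPGroup'.to_le (by rwa [Subgroup.zpowers_le])
    have hcomm : ∀ y ∈ P, y * x = x * y := fun y hy => Subgroup.mem_centralizer_singleton_iff.1 (hPC hy)
    have hnorm : P ≤ Subgroup.normalizer (Subgroup.zpowers x : Set G) := by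
      intro y hy
      rw [mem_normalizer_iff_conj_smul]
      rw [conj_smul_eq_map, MonoidHom.map_zpowers]
      have : (MulAut.conj y).toMonoidHom x = x := by
        show y * x * y⁻¹ = x
        rw [hcomm y hy]; group
      rw [this]
    have h2 : IsPGroup 2 (P ⊔ Subgroup.zpowers x : Subgroup G) := hP.to_sup_of_normal_right' hxP hnorm
    obtain ⟨T, hT⟩ := h2.exists_le_sylow
    by_cases hTS : T = S
    · subst hTS
      exact Subgroup.card_le_of_le (le_inf (le_sup_left.trans hT) hPC)
    · have hxT : x ∈ (T : Subgroup G) := hT (Subgroup.mem_sup_right (Subgroup.mem_zpowers x))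
      have hk := key hCI S x hx T hTS hxT
      have : (S : Subgroup G) ⊓ Subgroup.centralizer ({x} : Set G) = S := by
        apply inf_eq_left.2
        intro s hs
        rw [Subgroup.mem_centralizer_singleton_iff]
        exact hk s hs
      rw [this]
      have h3 : Nat.card P ≤ Nat.card (T : Subgroup G) := Subgroup.card_le_of_le (le_sup_left.trans hT)
      rwa [T.card_eq_multiplicity, ← S.card_eq_multiplicity] at h3
  · intro T hTS x hx
    refine ⟨?_, ?_⟩
    · refine ⟨⟨x, hx.1⟩, ?_, rfl⟩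
      rw [SetLike.mem_coe, Subgroup.mem_center_iff]
      intro s
      exact Subtype.ext (key hCI S x hx.1 T hTS hx.2 s s.2)
    · refine ⟨⟨x, hx.2⟩, ?_, rfl⟩
      rw [SetLike.mem_coe, Subgroup.mem_center_iff]
      intro s
      exact Subtype.ext (key hCI T x hx.2 S (Ne.symm hTS) hx.1 s s.2)

end Cfsg.Agent.S3183
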