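import Cfsg.Statements.S3184
import Cfsg.Agent.S0215
import Cfsg.Agent.S3183
import Cfsg.Agent.Lib.H23Basic
import Cfsg.Agent.Lib.H32Basic
import Mathlib

set_option autoImplicit false
open Cfsg

namespace Cfsg.Agent.S3184

open Subgroup

theorem cyc_unique {H : Type*} [Group H] [Finite H] [IsCyclic H] {x y : H} (hx : orderOf x = 2)
    (hy : orderOf y = 2) : x = y := by
  classical
  have : Fintype H := Fintype.ofFinite H
  have h1 : (Finset.univ.filter (fun a : H => orderOf a = 2)).card = 1 := by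
    rw [IsCyclic.card_orderOf_eq_totient]
    · rfl
    · rw [← hx]; exact orderOf_dvd_card
  rw [Finset.card_eq_one] at h1
  obtain ⟨a, ha⟩ := h1
  have e1 : x ∈ Finset.univ.filter (fun a : H => orderOf a = 2) := by simp [hx]
  have e2 : y ∈ Finset.univ.filter (fun a : H => orderOf a = 2) := by simp [hy]
  rw [ha, Finset.mem_singleton] at e1 e2
  rw [e1, e2]

theorem conj_eq_of_normalizer {G : Type*} [Group G] [Finite G] (S : Subgroup G) (C : Subgroup ↥S)
    (hCc : IsCyclic ↥C) (hCh : C.Characteristic) (c : ↥S) (hc : c ∈ C) (hc2 : orderOf c = 2) (g : G)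
    (hg : g ∈ Subgroup.normalizer (S : Set G)) : g * (c : G) * g⁻¹ = c := by
  let α : ↥S ≃* ↥S :=
    { toFun := fun x => ⟨g * x * g⁻¹, (Subgroup.mem_normalizer_iff.1 hg _).1 x.2⟩
      invFun := fun x => ⟨g⁻¹ * x * g, by
        have := (Subgroup.mem_normalizer_iff.1 (inv_mem hg) (x : G)).1 x.2
        simpa using this⟩
      left_inv := fun x => Subtype.ext (by simp [mul_assoc])
      right_inv := fun x => Subtype.ext (by simp [mul_assoc])
      map_mul' := fun x y => Subtype.ext (by simp [mul_assoc]) }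
  have h1 : α c ∈ C := by
    have h2 := Subgroup.characteristic_iff_map_eq.1 hCh α
    rw [← h2]; exact ⟨c, hc, rfl⟩
  have h3 : orderOf (α c) = 2 := by rw [MulEquiv.orderOf_eq, hc2]
  have h4 : (⟨α c, h1⟩ : C) = ⟨c, hc⟩ := cyc_unique (by rw [Subgroup.orderOf_mk]; exact h3) (by rw [Subgroup.orderOf_mk]; exact hc2)
  have h5 : α c = c := congrArg Subtype.val h4
  exact congrArg Subtype.val h5

/-- Let G be a finite group in which the intersection of any two distinct Sylow 2-subgroups is contained in the centre of some Sylow 2-subgroup, and let S be a Sylow 2-subgroup. If C is a nontrivial cyclic characteristic subgroup of S, then the involution of C is central modulo the largest normal subgroup of odd order of G: each of its conjugates has the same image in G/O(G). -/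
theorem result {G : Type*} [Group G] [Finite G]
    (hCI : ∀ S T : Sylow 2 G, S ≠ T → ∃ U : Sylow 2 G,
      (S : Subgroup G) ⊓ (T : Subgroup G) ≤ (Subgroup.center ↥(U : Subgroup G)).map (U : Subgroup G).subtype)
    (S : Sylow 2 G) (C : Subgroup ↥(S : Subgroup G)) (hC : C ≠ ⊥) (hCc : IsCyclic ↥C) (hCh : C.Characteristic)
    (c : ↥(S : Subgroup G)) (hc : c ∈ C) (hc2 : orderOf c = 2) :
    ∀ g : G, (QuotientGroup.mk (s := Cfsg.oddCore G) (g * (c : G) * g⁻¹)) =
      QuotientGroup.mk (s := Cfsg.oddCore G) (c : G) := by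
  classical
  have : Fact (Nat.Prime 2) := ⟨Nat.prime_two⟩
  have hiso : ∀ g : G, g * (c : G) * g⁻¹ ∈ S → g * (c : G) * g⁻¹ = c := by
    intro g hg
    by_cases hT : g • S = S
    · apply conj_eq_of_normalizer (S : Subgroup G) C hCc hCh c hc hc2
      exact Sylow.smul_eq_iff_mem_normalizer.1 hT
    · obtain ⟨-, h2⟩ := Cfsg.Agent.S3183.result hCI S
      have h3 := h2 (g • S) hT
      have h4 : g * (c : G) * g⁻¹ ∈ (S : Subgroup G) ⊓ ((g • S : Sylow 2 G) : Subgroup G) := by
        refine Subgroup.mem_inf.2 ⟨hg, ?_⟩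
        rw [Lib.H32Basic.mem_sylow_smul_iff]
        have : g⁻¹ * (g * (c : G) * g⁻¹) * g = c := by group
        rw [this]; exact c.2
      obtain ⟨⟨x, hx, hxe⟩, ⟨y, hy, hye⟩⟩ := h3 h4
      rw [SetLike.mem_coe, Subgroup.mem_center_iff] at hx hy
      have hxe' : (x : G) = g * (c : G) * g⁻¹ := hxe
      have hye' : (y : G) = g * (c : G) * g⁻¹ := hye
      -- c central in S
      have hcS : (c : G) ∈ Subgroup.centralizer ((S : Subgroup G) : Set G) := by
        rw [Subgroup.mem_centralizer_iff]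
        intro s hs
        have h5 : g * s * g⁻¹ ∈ ((g • S : Sylow 2 G) : Subgroup G) := by
          rw [Lib.H32Basic.mem_sylow_smul_iff]
          have : g⁻¹ * (g * s * g⁻¹) * g = s := by group
          rw [this]; exact hs
        have h6 := congrArg Subtype.val (hy ⟨_, h5⟩)
        have h7 : (g * s * g⁻¹) * (y : G) = y * (g * s * g⁻¹) := h6
        rw [hye'] at h7
        calc s * (c : G) = g⁻¹ * ((g * s * g⁻¹) * (g * (c : G) * g⁻¹)) * g := by group
          _ = g⁻¹ * ((g * (c : G) * g⁻¹) * (g * s * g⁻¹)) * g := by rw [h7]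
          _ = _ := by group
      have hcS' : g⁻¹⁻¹ * (c : G) * g⁻¹ ∈ Subgroup.centralizer ((S : Subgroup G) : Set G) := by
        rw [inv_inv, Subgroup.mem_centralizer_iff]
        intro s hs
        have h6 := congrArg Subtype.val (hx ⟨_, hs⟩)
        rw [← hxe']; exact h6
      obtain ⟨n, hn, hne⟩ := Sylow.conj_eq_normalizer_conj_of_mem_centralizer S (c : G) g⁻¹ hcS hcS'
      rw [inv_inv] at hne
      rw [hne]
      have := conj_eq_of_normalizer (S : Subgroup G) C hCc hCh c hc hc2 n⁻¹ (inv_mem hn)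
      rw [inv_inv] at this
      exact this
  obtain ⟨N, hN, hNo, hNc⟩ := Cfsg.Agent.S0215.result S (c : G) (by rw [Subgroup.orderOf_coe]; exact hc2) c.2 hiso
  have hle : N ≤ Cfsg.oddCore G := Lib.H23Basic.le_pPrimeCore hN (Nat.coprime_two_right.2 hNo)
  intro g
  rw [QuotientGroup.eq]
  have h1 : (c : G) * g * (c : G)⁻¹ * g⁻¹ ∈ Cfsg.oddCore G := hle (hNc g)
  have hn : (Cfsg.oddCore G).Normal := inferInstance
  have h2 := hn.conj_mem _ h1 g⁻¹
  have h3 := hn.conj_mem _ h2 (c : G)⁻¹
  have h4 := hn.conj_mem _ h3 g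
  -- (g c g⁻¹)⁻¹ * c = g c⁻¹ g⁻¹ c
  have h5 : (g * (c : G) * g⁻¹)⁻¹ * (c : G) = g * ((c : G)⁻¹ * (g⁻¹ * ((c : G) * g * (c : G)⁻¹ * g⁻¹) * g⁻¹⁻¹) * (c : G)⁻¹⁻¹) * g⁻¹ := by
    group
  rw [h5]; exact h4

end Cfsg.Agent.S3184
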