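import Cfsg.Statements.S3190
import Cfsg.Agent.Lib.CoprimeAction2
import Cfsg.Agent.Lib.H32PGroup
import Cfsg.Agent.Lib.Layer
import Mathlib

set_option autoImplicit false
open Cfsg

namespace Cfsg.Agent.S3190

open Subgroup

theorem map_center_le {X : Type*} [Group X] (R : Subgroup X) {x : X} (hx : x ∈ Subgroup.normalizer (R : Set X)) :
    ∀ z ∈ (Subgroup.center ↥R).map R.subtype, x * z * x⁻¹ ∈ (Subgroup.center ↥R).map R.subtype := by
  rintro _ ⟨z, hz, rfl⟩
  have h1 : x * (z : X) * x⁻¹ ∈ R := (Subgroup.mem_normalizer_iff.1 hx _).1 z.2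
  refine ⟨⟨_, h1⟩, ?_, rfl⟩
  rw [SetLike.mem_coe, Subgroup.mem_center_iff] at hz ⊢
  rintro ⟨r, hr⟩
  apply Subtype.ext
  show r * (x * (z : X) * x⁻¹) = x * (z : X) * x⁻¹ * r
  have h2 : x⁻¹ * r * x ∈ R := by
    have := (Subgroup.mem_normalizer_iff.1 (inv_mem hx) r).1 hr
    simpa using this
  have h3 := congrArg Subtype.val (hz ⟨_, h2⟩)
  have h4 : (x⁻¹ * r * x) * (z : X) = z * (x⁻¹ * r * x) := h3
  calc r * (x * (z : X) * x⁻¹) = x * ((x⁻¹ * r * x) * (z : X)) * x⁻¹ := by group
    _ = x * ((z : X) * (x⁻¹ * r * x)) * x⁻¹ := by rw [h4]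
    _ = _ := by group

/-- Let p be an odd prime and, inside a finite group, let P be a p-subgroup normalized by a Klein four-group T. Let R be a subgroup of P, normal in P and normalized by T, such that P is the product of R with the centralizer of T in P. If T centralizes the centre of P, then T centralizes the centre of R. -/
theorem result {X : Type*} [Group X] [Finite X]
    {p : ℕ} (hp : p.Prime) (hodd : Odd p) (P T R : Subgroup X) (hP : IsPGroup p ↥P) (hT : IsKleinFour ↥T)
    (hTP : T ≤ Subgroup.normalizer (P : Set X)) (hRP : R ≤ P) (hRn : (R.subgroupOf P).Normal)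
    (hTR : T ≤ Subgroup.normalizer (R : Set X)) (hfac : R ⊔ (P ⊓ Subgroup.centralizer (T : Set X)) = P)
    (hZ : T ≤ Subgroup.centralizer (((Subgroup.center ↥P).map P.subtype : Subgroup X) : Set X)) :
    T ≤ Subgroup.centralizer (((Subgroup.center ↥R).map R.subtype : Subgroup X) : Set X) := by
  classical
  have hpf : Fact p.Prime := ⟨hp⟩
  set Z : Subgroup X := (Subgroup.center ↥R).map R.subtype with hZd
  have hZR : Z ≤ R := Subgroup.map_subtype_le _
  have hZc : ∀ z ∈ Z, ∀ r ∈ R, r * z = z * r := by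
    rintro _ ⟨z, hz, rfl⟩ r hr
    exact congrArg Subtype.val (Subgroup.mem_center_iff.1 hz ⟨r, hr⟩)
  have hZab : IsMulCommutative Z := ⟨⟨fun a b => Subtype.ext (hZc b b.2 a (hZR a.2))⟩⟩
  have hnorm : ∀ x ∈ Subgroup.normalizer (R : Set X), x ∈ Subgroup.normalizer (Z : Set X) := by
    intro x hx
    rw [Subgroup.mem_normalizer_iff]
    intro y
    refine ⟨fun hy => map_center_le R hx y hy, fun hy => ?_⟩
    have := map_center_le R (inv_mem hx) _ hy
    convert this using 1; group
  have hTZ : T ≤ Subgroup.normalizer (Z : Set X) := fun x hx => hnorm x (hTR hx)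
  have hcardT : Nat.card T = 4 := hT.card_four
  have hcop : (Nat.card T).Coprime (Nat.card Z) := by
    obtain ⟨k, hk⟩ := IsPGroup.iff_card.1 (hP.to_le (hZR.trans hRP))
    rw [hk, hcardT]
    apply Nat.Coprime.pow_right
    have : Nat.Coprime (2 ^ 2) p := Nat.Coprime.pow_left 2 (Nat.coprime_two_left.2 hodd)
    exact this
  have hbot := Lib.CoprimeAction2.inf_commutator_eq_bot_of_abelian (A := T) (V := Z) hTZ hcop
  have hDZ : ⁅Z, T⁆ ≤ Z := Subgroup.le_normalizer_iff_commutator_le_left.1 hTZ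
  have hRnorm : P ≤ Subgroup.normalizer (R : Set X) := Subgroup.normal_subgroupOf_iff_le_normalizer hRP |>.1 hRn
  have hPD : P ≤ Subgroup.normalizer ((⁅Z, T⁆ : Subgroup X) : Set X) := by
    rw [← hfac, sup_le_iff]
    constructor
    · intro r hr
      apply Subgroup.centralizer_le_normalizer
      rw [Subgroup.mem_centralizer_iff]
      intro y hy
      exact (hZc y (hDZ hy) r hr).symm
    · intro x hx
      have hxP := (Subgroup.mem_inf.1 hx).1
      have hxT := (Subgroup.mem_inf.1 hx).2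
      have h1 : x ∈ Subgroup.normalizer (Z : Set X) := hnorm x (hRnorm hxP)
      have h2 : x ∈ Subgroup.normalizer (T : Set X) := Subgroup.centralizer_le_normalizer _ hxT
      rw [Lib.SubgroupTools.mem_normalizer_iff_conj_smul, Lib.SubgroupTools.conj_smul_eq_map,
        Subgroup.map_commutator, ← Lib.SubgroupTools.conj_smul_eq_map, ← Lib.SubgroupTools.conj_smul_eq_map,
        Lib.SubgroupTools.mem_normalizer_iff_conj_smul.1 h1, Lib.SubgroupTools.mem_normalizer_iff_conj_smul.1 h2]
  have hD : ⁅Z, T⁆ = ⊥ := by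
    by_contra hne
    have hDP : IsPGroup p (⁅Z, T⁆ : Subgroup X) := hP.to_le ((hDZ.trans hZR).trans hRP)
    have hdvd : p ∣ Nat.card (⁅Z, T⁆ : Subgroup X) := by
      have h1 : Nontrivial (⁅Z, T⁆ : Subgroup X) := (Subgroup.nontrivial_iff_ne_bot _).2 hne
      obtain ⟨n, hn, h2⟩ := hDP.nontrivial_iff_card.1 h1
      rw [h2]; exact dvd_pow_self p hn.ne'
    obtain ⟨x, hxD, hx1, hxc⟩ := Lib.H32PGroup.exists_fixed_of_normalizes hP hPD hdvd
    have hxP : x ∈ P := hRP (hZR (hDZ hxD))
    have hxZ : x ∈ ((Subgroup.center ↥P).map P.subtype : Subgroup X) := by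
      refine ⟨⟨x, hxP⟩, ?_, rfl⟩
      rw [SetLike.mem_coe, Subgroup.mem_center_iff]
      rintro ⟨y, hy⟩
      exact Subtype.ext (hxc y hy)
    have hxT : x ∈ Subgroup.centralizer (T : Set X) := by
      rw [Subgroup.mem_centralizer_iff]
      intro y hy
      exact (Subgroup.mem_centralizer_iff.1 (hZ hy) x hxZ).symm
    have : x ∈ (Z ⊓ Subgroup.centralizer (T : Set X)) ⊓ ⁅Z, T⁆ :=
      Subgroup.mem_inf.2 ⟨Subgroup.mem_inf.2 ⟨hDZ hxD, hxT⟩, hxD⟩
    rw [hbot, Subgroup.mem_bot] at this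
    exact hx1 this
  rw [Subgroup.commutator_comm, Subgroup.commutator_eq_bot_iff_le_centralizer] at hD
  exact hD

end Cfsg.Agent.S3190
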