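import Cfsg.Statements.S3195
import Cfsg.Agent.Lib.SubgroupTools
import Cfsg.Agent.S0199

set_option autoImplicit false
open Cfsg

namespace Cfsg.Agent.S3195

open Subgroup Pointwise Cfsg.Agent.Lib.SubgroupTools

theorem conj_mul_swap {G : Type*} [Group G] {a b : G} (ha : a * a = 1) (hb : b * b = 1) :
    a * (a * b) * a⁻¹ = (a * b)⁻¹ := by
  have ha' : a⁻¹ = a := inv_eq_of_mul_eq_one_left ha
  have hb' : b⁻¹ = b := inv_eq_of_mul_eq_one_left hb
  rw [mul_inv_rev, ha', hb', ← mul_assoc, ha, one_mul]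

/-- Baer–Suzuki for involutions: an involution outside `O₂(G)` inverts a nontrivial element of
odd order. -/
theorem exists_inverted {G : Type*} [Group G] [Finite G] (a : G) (ha : a * a = 1)
    (haO : a ∉ Cfsg.pCore 2 G) :
    ∃ g y : G, y ≠ 1 ∧ Odd (orderOf y) ∧ a * y * a⁻¹ = y⁻¹ ∧ y ∈ Subgroup.zpowers (a * (g * a * g⁻¹)) := by
  have : Fact (Nat.Prime 2) := ⟨Nat.prime_two⟩
  by_contra hcon
  push Not at hcon
  apply haO
  have hainv : a⁻¹ = a := inv_eq_of_mul_eq_one_left ha
  have haP : IsPGroup 2 (Subgroup.zpowers a) := by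
    apply isPGroup_of_forall_pow_eq_one
    intro x hx
    obtain ⟨k, rfl⟩ := Subgroup.mem_zpowers_iff.1 hx
    rw [← zpow_natCast, ← zpow_mul, mul_comm, zpow_mul, zpow_natCast, sq, ha, one_zpow]
  obtain ⟨N, hN, hN2, hXN⟩ := Cfsg.Agent.S0199.result (p := 2) (Subgroup.zpowers a) haP (by
    intro g
    set b := g * a * g⁻¹ with hb
    have hbb : b * b = 1 := by
      have : b * b = g * (a * a) * g⁻¹ := by rw [hb]; group
      rw [this, ha]; group
    set u := a * b with hu
    have hinv : ∀ y ∈ Subgroup.zpowers u, a * y * a⁻¹ = y⁻¹ := by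
      intro y hy
      obtain ⟨k, rfl⟩ := Subgroup.mem_zpowers_iff.1 hy
      rw [← conj_zpow, hu, conj_mul_swap ha hbb, inv_zpow]
    -- u has 2-power order
    have hu2 : ∃ k, orderOf u = 2 ^ k := by
      have hpos : orderOf u ≠ 0 := (orderOf_pos u).ne'
      obtain ⟨k, m, hm, hkm⟩ := Nat.exists_eq_pow_mul_and_not_dvd hpos 2 (by norm_num)
      refine ⟨k, ?_⟩
      have hmo : Odd m := Nat.not_even_iff_odd.1 (fun h => hm h.two_dvd)
      have hord : orderOf (u ^ (2 ^ k)) = m := by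
        rw [orderOf_pow_of_dvd (by positivity) (by rw [hkm]; exact dvd_mul_right _ _), hkm]
        exact Nat.mul_div_cancel_left _ (by positivity)
      have hmem : u ^ (2 ^ k) ∈ Subgroup.zpowers u := Subgroup.pow_mem _ (Subgroup.mem_zpowers u) _
      by_cases h1 : u ^ (2 ^ k) = 1
      · rw [h1, orderOf_one] at hord
        rw [hkm, ← hord, mul_one]
      · exact absurd hmem (hcon g (u ^ (2 ^ k)) h1 (by rw [hord]; exact hmo) (hinv _ hmem))
    obtain ⟨k, hk⟩ := hu2
    have huP : IsPGroup 2 (Subgroup.zpowers u) := IsPGroup.of_card (by rw [Nat.card_zpowers, hk])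
    have hnorm : Subgroup.zpowers a ≤ Subgroup.normalizer (Subgroup.zpowers u : Set G) := by
      rw [Subgroup.zpowers_le, mem_normalizer_iff_conj_smul, conj_smul_eq_map, MonoidHom.map_zpowers]
      have : (MulAut.conj a).toMonoidHom u = u⁻¹ := hinv u (Subgroup.mem_zpowers u)
      rw [this, Subgroup.zpowers_inv]
    have h2 : IsPGroup 2 (Subgroup.zpowers u ⊔ Subgroup.zpowers a : Subgroup G) :=
      huP.to_sup_of_normal_left' haP hnorm
    refine h2.to_le ?_
    refine sup_le le_sup_right ?_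
    rw [MonoidHom.map_zpowers, Subgroup.zpowers_le]
    have : (MulAut.conj g).toMonoidHom a = a⁻¹ * u := by
      show g * a * g⁻¹ = a⁻¹ * (a * b)
      rw [hb]; group
    rw [this]
    exact mul_mem (inv_mem (Subgroup.mem_sup_right (Subgroup.mem_zpowers a)))
      (Subgroup.mem_sup_left (Subgroup.mem_zpowers u)))
  exact (le_sSup (show N ∈ {N : Subgroup G | N.Normal ∧ IsPGroup 2 N} from ⟨hN, hN2⟩)) (hXN (Subgroup.mem_zpowers a))

theorem mem_zpowers_sq {G : Type*} [Group G] {z : G} (hz : Odd (orderOf z)) : ∃ k : ℕ, z = (z ^ 2) ^ k := by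
  obtain ⟨k, hk⟩ := hz
  refine ⟨k + 1, ?_⟩
  have : z ^ (2 * k + 1) = 1 := by rw [← hk, pow_orderOf_eq_one]
  rw [← pow_mul, show 2 * (k + 1) = (2 * k + 1) + 1 by ring, pow_succ, this, one_mul]

theorem commute_of_commute_sq {G : Type*} [Group G] {c z : G} (hz : Odd (orderOf z)) (h : Commute c (z ^ 2)) :
    Commute c z := by
  obtain ⟨k, hk⟩ := mem_zpowers_sq hz
  rw [hk]; exact h.pow_right k

theorem eq_one_of_sq {G : Type*} [Group G] {z : G} (hz : Odd (orderOf z)) (h : z ^ 2 = 1) : z = 1 := by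
  obtain ⟨k, hk⟩ := mem_zpowers_sq hz
  rw [hk, h, one_pow]

theorem eq_one_of_inv {G : Type*} [Group G] {z : G} (hz : Odd (orderOf z)) (h : z = z⁻¹) : z = 1 := by
  apply eq_one_of_sq hz
  rw [sq]; nth_rw 2 [h]; exact mul_inv_cancel z

/-- The main computation. -/
theorem main {G : Type*} [Group G] [Finite G] (A : Subgroup G) [IsKleinFour A]
    (h : ∀ a ∈ A, a ≠ 1 → ∀ g : G, ∃ c ∈ A, c ≠ 1 ∧ Commute c (g * a * g⁻¹))
    (u v : G) (hu : u ∈ A) (hv : v ∈ A) (hu1 : u ≠ 1) (hv1 : v ≠ 1) (huv : u ≠ v)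
    (y y' : G) (hy1 : y ≠ 1) (hy1' : y' ≠ 1) (hyo : Odd (orderOf y)) (hyo' : Odd (orderOf y'))
    (huy : u * y * u⁻¹ = y⁻¹) (hvy : Commute v y) (hvy' : v * y' * v⁻¹ = y'⁻¹) (huy' : Commute u y') : False := by
  -- elements of A
  have hAel : ∀ c ∈ A, c ≠ 1 → c = u ∨ c = v ∨ c = u * v := by
    intro c hc hc1
    by_cases h1 : c = u
    · exact Or.inl h1
    by_cases h2 : c = v
    · exact Or.inr (Or.inl h2)
    right; right
    have := IsKleinFour.eq_mul_of_ne_all (x := (⟨u, hu⟩ : A)) (y := ⟨v, hv⟩) (z := ⟨c, hc⟩)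
      (by simpa using hu1) (by simpa using hv1) (by simpa using huv) (by simpa using hc1) (by simpa using h1)
      (by simpa using h2)
    exact congrArg Subtype.val this
  have hAc : ∀ c ∈ A, ∀ d ∈ A, Commute c d := by
    intro c hc d hd
    have := (IsKleinFour.isMulCommutative (G := A)).is_comm.comm ⟨c, hc⟩ ⟨d, hd⟩
    exact congrArg Subtype.val this
  set z := y'⁻¹ * y * y' with hz
  have hzo : Odd (orderOf z) := by
    have : orderOf z = orderOf y := by
      have e : z = MulAut.conj y'⁻¹ y := by rw [hz, MulAut.conj_apply, inv_inv]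
      rw [e]
      exact MulEquiv.orderOf_eq _ _
    rw [this]; exact hyo
  have hz1 : z ≠ 1 := by
    intro h0
    apply hy1
    have : y = y' * z * y'⁻¹ := by rw [hz]; group
    rw [this, h0]; group
  have huz : u * z * u⁻¹ = z⁻¹ := by
    have e1 : u * z * u⁻¹ = (u * y' * u⁻¹)⁻¹ * (u * y * u⁻¹) * (u * y' * u⁻¹) := by rw [hz]; group
    have e2 : u * y' * u⁻¹ = y' := by rw [huy'.eq]; group
    rw [e1, e2, huy, hz]; group
  have hu2 : (y * y')⁻¹ * u * (y * y') = u * z ^ 2 := by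
    have e1 : y⁻¹ * u = u * y := by
      rw [← huy]; group
    have e2 : y'⁻¹ * u = u * y'⁻¹ := (huy'.inv_right.eq).symm
    calc (y * y')⁻¹ * u * (y * y') = y'⁻¹ * (y⁻¹ * u) * y * y' := by group
    _ = (y'⁻¹ * u) * y * y * y' := by rw [e1]; group
    _ = u * (y'⁻¹ * y * y') * (y'⁻¹ * y * y') := by rw [e2]; group
    _ = u * z ^ 2 := by rw [hz, sq, mul_assoc]
  -- first: y and y' commute
  have hcomm : Commute y' y := by
    obtain ⟨c, hcA, hc1, hc⟩ := h u hu hu1 (y * y')⁻¹
    rw [inv_inv, hu2] at hc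
    have hcu : Commute c u := hAc c hcA u hu
    have hcz2 : Commute c (z ^ 2) := by
      have h1 : Commute c (u⁻¹ * (u * z ^ 2)) := (hcu.inv_right).mul_right hc
      rwa [inv_mul_cancel_left] at h1
    have hcz : Commute c z := commute_of_commute_sq hzo hcz2
    -- v y'^2 commutes with z
    have hvz : Commute (v * y' ^ 2) z := by
      have e1 : y'⁻¹ * v * y' = v * y' ^ 2 := by
        have : y'⁻¹ * v = v * y' := by rw [← hvy']; group
        rw [this, sq, mul_assoc]
      rw [← e1, hz]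
      have := hvy.eq
      show y'⁻¹ * v * y' * (y'⁻¹ * y * y') = y'⁻¹ * y * y' * (y'⁻¹ * v * y')
      calc y'⁻¹ * v * y' * (y'⁻¹ * y * y') = y'⁻¹ * (v * y) * y' := by group
      _ = y'⁻¹ * y * y' * (y'⁻¹ * v * y') := by rw [this]; group
    rcases hAel c hcA hc1 with rfl | rfl | rfl
    · exfalso
      apply hz1
      apply eq_one_of_inv hzo
      rw [← huz, hcz.eq]; group
    · have h1 : Commute (y' ^ 2) z := by
        have := (hcz.inv_left).mul_left hvz
        rwa [inv_mul_cancel_left] at this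
      have h2 : Commute y' z := (commute_of_commute_sq hyo' h1.symm).symm
      have h3 : z = y := by
        have : y = y' * z * y'⁻¹ := by rw [hz]; group
        rw [this, h2.eq]; group
      rwa [h3] at h2
    · exfalso
      -- v inverts z
      have h1 : v * z * v⁻¹ = z⁻¹ := by
        have e1 : (u * v) * z * (u * v)⁻¹ = z := by rw [hcz.eq]; group
        have e2 : v * z * v⁻¹ = u⁻¹ * ((u * v) * z * (u * v)⁻¹) * u := by group
        rw [e2, e1]
        have e3 := congrArg (fun t => (u⁻¹ * t * u)⁻¹) huz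
        simp only [mul_inv_rev, inv_inv] at e3
        have e4 : u⁻¹ * z * u = (u⁻¹ * (u * z * u⁻¹) * u)⁻¹ := by rw [huz]; group
        rw [e4]; group
      -- y'^2 inverts z
      have h2 : y' ^ 2 * z * (y' ^ 2)⁻¹ = z⁻¹ := by
        have e1 : (v * y' ^ 2) * z * (v * y' ^ 2)⁻¹ = z := by rw [hvz.eq]; group
        have e2 : y' ^ 2 * z * (y' ^ 2)⁻¹ = v⁻¹ * ((v * y' ^ 2) * z * (v * y' ^ 2)⁻¹) * v := by group
        rw [e2, e1]
        have e4 : v⁻¹ * z * v = (v⁻¹ * (v * z * v⁻¹) * v)⁻¹ := by rw [h1]; group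
        rw [e4]; group
      -- then y'^4 commutes with z, so y' commutes
      have h3 : Commute ((y' ^ 2) ^ 2) z := by
        have e1 : (y' ^ 2) ^ 2 * z * ((y' ^ 2) ^ 2)⁻¹ = z := by
          have e2 : (y' ^ 2) ^ 2 * z * ((y' ^ 2) ^ 2)⁻¹ = y' ^ 2 * (y' ^ 2 * z * (y' ^ 2)⁻¹) * (y' ^ 2)⁻¹ := by
            group
          rw [e2, h2]
          have e3 : y' ^ 2 * z⁻¹ * (y' ^ 2)⁻¹ = (y' ^ 2 * z * (y' ^ 2)⁻¹)⁻¹ := by group
          rw [e3, h2, inv_inv]
        have := congrArg (· * (y' ^ 2) ^ 2) e1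
        have h5 : (y' ^ 2) ^ 2 * z = z * (y' ^ 2) ^ 2 := by simpa using this
        exact h5
      have ho2 : Odd (orderOf (y' ^ 2)) := by
        exact Odd.of_dvd_nat hyo' (orderOf_pow_dvd 2)
      have h4 : Commute z (y' ^ 2) := commute_of_commute_sq ho2 h3.symm
      apply hz1
      apply eq_one_of_inv hzo
      rw [← h2, ← h4.eq]; group
  -- the second part
  set t := y * y' with ht
  have hto : Odd (orderOf t) := by
    have h1 : orderOf t ∣ orderOf y * orderOf y' := (hcomm.symm).orderOf_mul_dvd_mul_orderOf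
    exact Odd.of_dvd_nat (hyo.mul hyo') h1
  have hwt : (u * v) * t * (u * v)⁻¹ = t⁻¹ := by
    have e1 : (u * v) * t * (u * v)⁻¹ = (u * (v * y * v⁻¹) * u⁻¹) * (u * (v * y' * v⁻¹) * u⁻¹) := by rw [ht]; group
    have e2 : v * y * v⁻¹ = y := by rw [hvy.eq]; group
    have e3 : u * y'⁻¹ * u⁻¹ = y'⁻¹ := by rw [huy'.inv_right.eq]; group
    rw [e1, e2, hvy', huy, e3, ht, mul_inv_rev]
    exact (hcomm.inv_inv.eq).symm
  have hut : u * t * u⁻¹ = y⁻¹ * y' := by
    have e1 : u * t * u⁻¹ = (u * y * u⁻¹) * (u * y' * u⁻¹) := by rw [ht]; group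
    have e3 : u * y' * u⁻¹ = y' := by rw [huy'.eq]; group
    rw [e1, huy, e3]
  have hvt : v * t * v⁻¹ = y * y'⁻¹ := by
    have e1 : v * t * v⁻¹ = (v * y * v⁻¹) * (v * y' * v⁻¹) := by rw [ht]; group
    have e2 : v * y * v⁻¹ = y := by rw [hvy.eq]; group
    rw [e1, hvy', e2]
  have hw1 : u * v ≠ 1 := by
    intro h0
    apply huv
    have hvv : v * v = 1 := by
      have := IsKleinFour.mul_self (⟨v, hv⟩ : A)
      exact congrArg Subtype.val this
    have : u * v = v * v := by rw [h0, hvv]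
    exact mul_right_cancel this
  obtain ⟨c, hcA, hc1, hc⟩ := h (u * v) (mul_mem hu hv) hw1 t⁻¹
  have hconj : t⁻¹ * (u * v) * t⁻¹⁻¹ = (u * v) * t ^ 2 := by
    have e : t⁻¹ * (u * v) = (u * v) * t := by rw [← hwt]; group
    rw [e, inv_inv, sq, mul_assoc]
  rw [hconj] at hc
  have hcw : Commute c (u * v) := hAc c hcA _ (mul_mem hu hv)
  have hct : Commute c t := by
    apply commute_of_commute_sq hto
    have h1 : Commute c ((u * v)⁻¹ * ((u * v) * t ^ 2)) := (hcw.inv_right).mul_right hc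
    rwa [inv_mul_cancel_left] at h1
  have hfin : c * t * c⁻¹ = t := by rw [hct.eq]; group
  rcases hAel c hcA hc1 with rfl | rfl | rfl
  · rw [hut, ht] at hfin
    apply hy1
    apply eq_one_of_inv hyo
    exact (mul_right_cancel hfin).symm
  · rw [hvt, ht] at hfin
    apply hy1'
    apply eq_one_of_inv hyo'
    exact (mul_left_cancel hfin).symm
  · have h1 : t = 1 := eq_one_of_inv hto (by rw [← hwt, hfin])
    have h2 : y' = y⁻¹ := by
      rw [eq_comm, inv_eq_iff_mul_eq_one]; exact h1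
    apply hy1
    apply eq_one_of_inv hyo
    rw [← huy]
    rw [h2] at huy'
    have : Commute u y := by simpa using huy'.inv_right
    rw [this.eq]; group

/-- Let A be a Klein four-subgroup of a finite group G. If every G-conjugate of every involution of A commutes with some involution of A (its centralizer meets A nontrivially), then A meets the largest normal 2-subgroup O₂(G) nontrivially. -/
theorem result {G : Type*} [Group G] [Finite G]
    (A : Subgroup G) (hA : IsKleinFour ↥A)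
    (h : ∀ a ∈ A, a ≠ 1 → ∀ g : G, A ⊓ Subgroup.centralizer ({g * a * g⁻¹} : Set G) ≠ ⊥) :
    A ⊓ Cfsg.pCore 2 G ≠ ⊥ := by
  have hKF := hA
  intro hbot
  have h' : ∀ a ∈ A, a ≠ 1 → ∀ g : G, ∃ c ∈ A, c ≠ 1 ∧ Commute c (g * a * g⁻¹) := by
    intro a ha ha1 g
    have h1 := h a ha ha1 g
    rw [Ne, Subgroup.eq_bot_iff_forall] at h1
    push Not at h1
    obtain ⟨c, hc, hc1⟩ := h1
    refine ⟨c, hc.1, hc1, ?_⟩
    exact Subgroup.mem_centralizer_singleton_iff.1 hc.2
  have hsq : ∀ a ∈ A, a * a = 1 := by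
    intro a ha
    have := IsKleinFour.mul_self (⟨a, ha⟩ : A)
    exact congrArg Subtype.val this
  have hAc : ∀ c ∈ A, ∀ d ∈ A, Commute c d := by
    intro c hc d hd
    have := (IsKleinFour.isMulCommutative (G := A)).is_comm.comm ⟨c, hc⟩ ⟨d, hd⟩
    exact congrArg Subtype.val this
  -- for every a there is another b centralizing an odd element inverted by a
  have step : ∀ a ∈ A, a ≠ 1 → ∃ b ∈ A, b ≠ 1 ∧ b ≠ a ∧ ∃ y : G, y ≠ 1 ∧ Odd (orderOf y) ∧
      a * y * a⁻¹ = y⁻¹ ∧ Commute b y := by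
    intro a ha ha1
    have haO : a ∉ Cfsg.pCore 2 G := by
      intro haO
      apply ha1
      have : a ∈ (A ⊓ Cfsg.pCore 2 G : Subgroup G) := ⟨ha, haO⟩
      rwa [hbot, Subgroup.mem_bot] at this
    obtain ⟨g, y, hy1, hyo, hinv, hyz⟩ := exists_inverted a (hsq a ha) haO
    obtain ⟨b, hb, hb1, hbc⟩ := h' a ha ha1 g
    have hby : Commute b y := by
      obtain ⟨k, rfl⟩ := Subgroup.mem_zpowers_iff.1 hyz
      exact ((hAc b hb a ha).mul_right hbc).zpow_right k
    refine ⟨b, hb, hb1, ?_, y, hy1, hyo, hinv, hby⟩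
    rintro rfl
    apply hy1
    apply eq_one_of_inv hyo
    rw [← hinv, hby.eq]; group
  -- pick a nontrivial element
  have hnt : ∃ a ∈ A, a ≠ 1 := by
    by_contra hcon
    push Not at hcon
    have : A = ⊥ := (Subgroup.eq_bot_iff_forall A).2 hcon
    have h4 := hA.card_four
    rw [this, Subgroup.card_bot] at h4
    omega
  obtain ⟨a, ha, ha1⟩ := hnt
  obtain ⟨b, hb, hb1, hba, y, hy1, hyo, hay, hby⟩ := step a ha ha1
  obtain ⟨c, hc, hc1, hcb, y', hy1', hyo', hby', hcy'⟩ := step b hb hb1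
  -- b centralizes y, every other element inverts y; c ≠ b centralizes y', every other inverts y'
  have hcy : c * y * c⁻¹ = y⁻¹ := by
    by_cases hca : c = a
    · rw [hca]; exact hay
    · have e : c = a * b := by
        have := IsKleinFour.eq_mul_of_ne_all (x := (⟨a, ha⟩ : A)) (y := ⟨b, hb⟩) (z := ⟨c, hc⟩)
          (by simpa using ha1) (by simpa using hb1) (by simpa using Ne.symm hba) (by simpa using hc1)
          (by simpa using hca) (by simpa using hcb)
        exact congrArg Subtype.val this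
      rw [e]
      have e1 : a * b * y * (a * b)⁻¹ = a * (b * y * b⁻¹) * a⁻¹ := by group
      rw [e1, hby.eq, mul_inv_cancel_right, hay]
  exact main A h' c b hc hb hc1 hb1 hcb y y' hy1 hy1' hyo hyo' hcy hby hby' hcy'

end Cfsg.Agent.S3195
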