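import Cfsg.Statements.S3196
import Cfsg.Agent.Lib.SubgroupTools
import Cfsg.Agent.Lib.GroupUtil
import Cfsg.Agent.Lib.H32PGroup
import Cfsg.Agent.Lib.H23Basic
import Cfsg.Agent.S0199

set_option autoImplicit false
open Cfsg

namespace Cfsg.Agent.S3196

open Subgroup Pointwise Cfsg.Agent.Lib.SubgroupTools

section

variable {G : Type*} [Group G] [Finite G] {p : ℕ} [hp : Fact p.Prime] (K : Set (Subgroup G))

/-- The non-identity elements of the members of `K`. -/
def El (K : Set (Subgroup G)) : Set G := {x | x ≠ 1 ∧ Subgroup.zpowers x ∈ K}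

variable (hK : ∀ X ∈ K, Nat.card X = p)

include hK in
omit [Finite G] hp in
theorem El_pow {x : G} (hx : x ∈ El K) : x ^ p = 1 := by
  have := hK _ hx.2
  rw [Nat.card_zpowers] at this
  rw [← this, pow_orderOf_eq_one]

include hK in
theorem mem_El_iff {x : G} {X : Subgroup G} (hX : X ∈ K) (hx : x ∈ X) (hx1 : x ≠ 1) :
    x ∈ El K ∧ Subgroup.zpowers x = X := by
  have h1 : Subgroup.zpowers x = X := by
    apply eq_of_le_of_card_ge
    · rwa [Subgroup.zpowers_le]
    · have h2 : orderOf x ∣ p := by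
        rw [← hK X hX]
        exact Subgroup.orderOf_dvd_natCard X hx
      have h3 : orderOf x ≠ 1 := by rwa [Ne, orderOf_eq_one_iff]
      rw [hK X hX, Nat.card_zpowers]
      exact (((Nat.dvd_prime hp.out).1 h2).resolve_left h3).ge
  exact ⟨⟨hx1, h1 ▸ hX⟩, h1⟩

/-- If `y` is in `⟨x⟩` and nontrivial, `x` of prime order then `x ∈ ⟨y⟩`. -/
theorem mem_zpowers_symm {x y : G} (hx : x ^ p = 1) (hy : y ∈ Subgroup.zpowers x) (hy1 : y ≠ 1) :
    x ∈ Subgroup.zpowers y := by
  have h0 : orderOf x ∣ p := orderOf_dvd_of_pow_eq_one hx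
  have h1 : Subgroup.zpowers y = Subgroup.zpowers x := by
    apply eq_of_le_of_card_ge
    · rwa [Subgroup.zpowers_le]
    · rw [Nat.card_zpowers, Nat.card_zpowers]
      have h2 : orderOf y ∣ orderOf x := orderOf_dvd_of_mem_zpowers hy
      have h3 : orderOf y ≠ 1 := by rwa [Ne, orderOf_eq_one_iff]
      have h4 : orderOf y = p := ((Nat.dvd_prime hp.out).1 (h2.trans h0)).resolve_left h3
      rw [h4]
      exact Nat.le_of_dvd hp.out.pos h0
  rw [h1]; exact Subgroup.mem_zpowers x

end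

/-- Abstract elementwise version of the hypotheses. -/
structure Geo {G : Type*} [Group G] (p : ℕ) (E : Set G) : Prop where
  ne_one : ∀ x ∈ E, x ≠ 1
  pow_eq : ∀ x ∈ E, x ^ p = 1
  conj : ∀ x ∈ E, ∀ g : G, g * x * g⁻¹ ∈ E
  mul_mem : ∀ x ∈ E, ∀ y ∈ E, Commute x y → x * y ≠ 1 → x * y ∈ E
  pow_mem : ∀ x ∈ E, ∀ k : ℕ, x ^ k ≠ 1 → x ^ k ∈ E
  line : ∀ x ∈ E, ∀ y ∈ E, ∀ w ∈ E, Commute x y → Commute y w ∨ ∃ j : ℕ, Commute (x * y ^ j) w
  ex : ∀ x ∈ E, ∃ y ∈ E, Commute x y ∧ x ∉ Subgroup.zpowers y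

namespace Geo

variable {G : Type*} [Group G] {p : ℕ} {E : Set G} (h : Geo p E)
include h

theorem mul_pow_mem {x y : G} (hx : x ∈ E) (hy : y ∈ E) (hc : Commute x y) (j : ℕ) (h1 : x * y ^ j ≠ 1) :
    x * y ^ j ∈ E := by
  by_cases hj : y ^ j = 1
  · rw [hj, mul_one]; exact hx
  · exact h.mul_mem x hx _ (h.pow_mem y hy j hj) (hc.pow_right j) h1

/-- common neighbours exist -/
theorem exists_common {x w : G} (hx : x ∈ E) (hw : w ∈ E) (hxw : ¬ Commute x w) :
    ∃ d ∈ E, Commute x d ∧ Commute d w := by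
  obtain ⟨y, hy, hxy, hn⟩ := h.ex x hx
  rcases h.line x hx y hy w hw hxy with h1 | ⟨j, h1⟩
  · exact ⟨y, hy, hxy, h1⟩
  · refine ⟨x * y ^ j, h.mul_pow_mem hx hy hxy j ?_, (Commute.refl x).mul_right (hxy.pow_right j), h1⟩
    intro h0
    apply hn
    have : x = (y ^ j)⁻¹ := eq_inv_of_mul_eq_one_left h0
    rw [this]
    exact inv_mem (Subgroup.pow_mem _ (Subgroup.mem_zpowers y) j)

/-- If the common neighbours of a noncommuting pair form a clique, they are central. -/
theorem central_of_clique {x w : G} (hx : x ∈ E) (hw : w ∈ E) (hxw : ¬ Commute x w)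
    (hcl : ∀ d ∈ E, ∀ e ∈ E, Commute x d → Commute d w → Commute x e → Commute e w → Commute d e)
    {d : G} (hd : d ∈ E) (hxd : Commute x d) (hdw : Commute d w) : ∀ t ∈ E, Commute t d := by
  -- everything commuting with w commutes with d
  have hstar : ∀ e ∈ E, Commute e w → Commute e d := by
    intro e he hew
    rcases h.line e he w hw x hx hew with h1 | ⟨j, h1⟩
    · exact absurd h1.symm hxw
    · by_cases h2 : e * w ^ j = 1
      · have : e = (w ^ j)⁻¹ := eq_inv_of_mul_eq_one_left h2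
        rw [this]
        exact ((hdw.pow_right j).symm).inv_left
      · have h3 := h.mul_pow_mem he hw hew j h2
        have h4 : Commute (e * w ^ j) w := hew.mul_left ((Commute.refl w).pow_left j)
        have h5 := hcl (e * w ^ j) h3 d hd h1.symm h4 hxd hdw
        have h6 : Commute (w ^ j) d := (hdw.symm).pow_left j
        have h7 := h5.mul_left h6.inv_left
        rwa [mul_inv_cancel_right] at h7
  intro t ht
  by_contra hcon
  rcases h.line x hx d hd t ht hxd with h1 | ⟨j, h1⟩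
  · exact hcon h1.symm
  · set x' := x * d ^ j with hx'
    have hx'w : ¬ Commute x' w := by
      intro h2
      apply hxw
      have h3 : Commute (d ^ j)⁻¹ w := (hdw.pow_left j).inv_left
      have h4 := h2.mul_left h3
      rwa [hx', mul_inv_cancel_right] at h4
    have hx'1 : x' ≠ 1 := by
      intro h2
      apply hx'w
      rw [h2]; exact Commute.one_left w
    have hx'E : x' ∈ E := h.mul_pow_mem hx hd hxd j hx'1
    have hx'd : Commute x' d := hxd.mul_left ((Commute.refl d).pow_left j)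
    rcases h.line t ht x' hx'E w hw h1.symm with h2 | ⟨i, h2⟩
    · exact hx'w h2
    · by_cases h3 : t * x' ^ i = 1
      · apply hcon
        have : t = (x' ^ i)⁻¹ := eq_inv_of_mul_eq_one_left h3
        rw [this]
        exact (hx'd.pow_left i).inv_left
      · have h4 := hstar _ (h.mul_pow_mem ht hx'E h1.symm i h3) h2
        apply hcon
        have h5 := h4.mul_left (hx'd.pow_left i).inv_left
        rwa [mul_inv_cancel_right] at h5

/-- If the common neighbours do not form a clique, the pair generates a class-2 group. -/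
theorem class_two {x w y u : G} (hx : x ∈ E) (hw : w ∈ E) (hxw : ¬ Commute x w) (hy : y ∈ E) (hu : u ∈ E)
    (hxy : Commute x y) (hyw : Commute y w) (hxu : Commute x u) (huw : Commute u w) (hyu : ¬ Commute y u) :
    Commute (x⁻¹ * w⁻¹ * x * w) x ∧ Commute (x⁻¹ * w⁻¹ * x * w) w := by
  have hwu1 : w * u ≠ 1 := by
    intro h0
    apply hxw
    have : w = u⁻¹ := eq_inv_of_mul_eq_one_left h0
    rw [this]; exact hxu.inv_right
  have hwuE : w * u ∈ E := h.mul_mem w hw u hu huw.symm hwu1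
  rcases h.line x hx y hy (w * u) hwuE hxy with h1 | ⟨j, h1⟩
  · exfalso
    apply hyu
    have := (hyw.inv_right).mul_right h1
    rwa [inv_mul_cancel_left] at this
  · have hyjw : Commute (y ^ j) w := hyw.pow_left j
    have hxyj : Commute x (y ^ j) := hxy.pow_right j
    have e1 : x⁻¹ * w⁻¹ * x * w = (u * y ^ j) * (y ^ j * u)⁻¹ := by
      have h2 : x * y ^ j * (w * u) = w * u * (x * y ^ j) := h1.eq
      have h3 : x * w * (y ^ j * u) = w * x * (u * y ^ j) := by
        calc x * w * (y ^ j * u) = x * (w * y ^ j) * u := by group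
        _ = x * y ^ j * (w * u) := by rw [← hyjw.eq]; group
        _ = w * (u * x) * y ^ j := by rw [h2]; group
        _ = w * x * (u * y ^ j) := by rw [← hxu.eq]; group
      have h4 : x * w = w * x * (u * y ^ j) * (y ^ j * u)⁻¹ := by rw [← h3]; group
      calc x⁻¹ * w⁻¹ * x * w = x⁻¹ * w⁻¹ * (x * w) := by group
      _ = (u * y ^ j) * (y ^ j * u)⁻¹ := by rw [h4]; group
    rw [e1]
    refine ⟨?_, ?_⟩
    · exact ((hxu.symm.mul_left hxyj.symm).mul_left ((hxyj.symm.mul_left hxu.symm).inv_left))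
    · exact ((huw.mul_left hyjw).mul_left ((hyjw.mul_left huw).inv_left))

/-- If the commutator of a non-commuting pair is in `E` and commutes with the pair, it is central. -/
theorem central_commutator {x w : G} (hx : x ∈ E) (hw : w ∈ E)
    (hc : x⁻¹ * w⁻¹ * x * w ∈ E) (hcx : Commute (x⁻¹ * w⁻¹ * x * w) x) (hcw : Commute (x⁻¹ * w⁻¹ * x * w) w) :
    ∀ t ∈ E, Commute t (x⁻¹ * w⁻¹ * x * w) := by
  set c := x⁻¹ * w⁻¹ * x * w with hcdef
  intro t ht
  by_contra hcon
  rcases h.line x hx c hc t ht hcx.symm with h1 | ⟨i, h1⟩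
  · exact hcon h1.symm
  rcases h.line w hw c hc t ht hcw.symm with h2 | ⟨j, h2⟩
  · exact hcon h2.symm
  have e : c = (x * c ^ i)⁻¹ * (w * c ^ j)⁻¹ * (x * c ^ i) * (w * c ^ j) := by
    have a1 : Commute (c ^ i) x := hcx.pow_left i
    have a2 : Commute (c ^ i) w := hcw.pow_left i
    have a3 : Commute (c ^ j) x := hcx.pow_left j
    have a4 : Commute (c ^ j) (c ^ i) := (Commute.refl c).pow_pow j i
    have a5 : Commute (c ^ i) (w * c ^ j) := a2.mul_right a4.symm
    have a6 : Commute (c ^ j) (x * c ^ i) := a3.mul_right a4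
    calc c = x⁻¹ * w⁻¹ * x * w := hcdef
    _ = (x * c ^ i)⁻¹ * (w * c ^ j)⁻¹ * (x * c ^ i) * (w * c ^ j) := by
      have b1 : (w * c ^ j)⁻¹ * (x * c ^ i) = (w⁻¹ * x) * (c ^ i * (c ^ j)⁻¹) := by
        calc (w * c ^ j)⁻¹ * (x * c ^ i) = (c ^ j)⁻¹ * w⁻¹ * (x * c ^ i) := by rw [mul_inv_rev]
        _ = w⁻¹ * ((c ^ j)⁻¹ * (x * c ^ i)) := by
            rw [((hcw.pow_left j).inv_left.inv_right).eq]; group
        _ = w⁻¹ * ((x * c ^ i) * (c ^ j)⁻¹) := by rw [a6.inv_left.eq]
        _ = (w⁻¹ * x) * (c ^ i * (c ^ j)⁻¹) := by group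
      have b2 : Commute (c ^ i) (w⁻¹ * x) := (a2.inv_right).mul_right a1
      calc x⁻¹ * w⁻¹ * x * w = x⁻¹ * (w⁻¹ * x) * w := by group
      _ = (x⁻¹ * (c ^ i)⁻¹) * ((w⁻¹ * x) * c ^ i) * w := by rw [← b2.eq]; group
      _ = (x * c ^ i)⁻¹ * ((w⁻¹ * x) * c ^ i) * w := by
          rw [mul_inv_rev, (a1.inv_inv).eq]
      _ = (x * c ^ i)⁻¹ * ((w⁻¹ * x) * (c ^ i * (c ^ j)⁻¹)) * (w * c ^ j) := by
          have : (c ^ j)⁻¹ * (w * c ^ j) = w := by rw [← (hcw.pow_left j).eq]; group
          calc (x * c ^ i)⁻¹ * ((w⁻¹ * x) * c ^ i) * w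
              = (x * c ^ i)⁻¹ * ((w⁻¹ * x) * c ^ i) * ((c ^ j)⁻¹ * (w * c ^ j)) := by rw [this]
          _ = _ := by group
      _ = (x * c ^ i)⁻¹ * (w * c ^ j)⁻¹ * (x * c ^ i) * (w * c ^ j) := by rw [← b1]; group
  apply hcon
  rw [e]
  exact ((h1.inv_left.mul_left h2.inv_left).mul_left h1 |>.mul_left h2).symm

end Geo

/-- class two pair generates a `p`-group -/
theorem isPGroup_pair {G : Type*} [Group G] [Finite G] {p : ℕ} [hp : Fact p.Prime] {x w : G}
    (hx : x ^ p = 1) (hw : w ^ p = 1) (hcx : Commute (x⁻¹ * w⁻¹ * x * w) x) (hcw : Commute (x⁻¹ * w⁻¹ * x * w) w) :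
    IsPGroup p (Subgroup.zpowers x ⊔ Subgroup.zpowers w : Subgroup G) := by
  set c := x⁻¹ * w⁻¹ * x * w with hcdef
  have hz : ∀ g : G, g ^ p = 1 → IsPGroup p (Subgroup.zpowers g) := by
    intro g hg
    apply isPGroup_of_forall_pow_eq_one
    intro y hy
    obtain ⟨k, rfl⟩ := Subgroup.mem_zpowers_iff.1 hy
    rw [← zpow_natCast, ← zpow_mul, mul_comm, zpow_mul, zpow_natCast, hg, one_zpow]
  have hxw : w⁻¹ * x * w = x * c := by rw [hcdef]; group
  have hc : c ^ p = 1 := by
    have h1 : (w⁻¹ * x * w) ^ p = 1 := by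
      have : (w⁻¹ * x * w) = w⁻¹ * x * w⁻¹⁻¹ := by group
      rw [this, conj_pow, hx]; group
    rw [hxw, hcx.symm.mul_pow, hx, one_mul] at h1
    exact h1
  have h1 : IsPGroup p (Subgroup.zpowers c ⊔ Subgroup.zpowers x : Subgroup G) := by
    apply (hz c hc).to_sup_of_normal_left' (hz x hx)
    rw [Subgroup.zpowers_le, mem_normalizer_iff_conj_smul, conj_smul_eq_map, MonoidHom.map_zpowers]
    have : (MulAut.conj x).toMonoidHom c = c := by
      show x * c * x⁻¹ = c
      rw [← hcx.eq]; group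
    rw [this]
  have h2 : IsPGroup p ((Subgroup.zpowers c ⊔ Subgroup.zpowers x) ⊔ Subgroup.zpowers w : Subgroup G) := by
    apply h1.to_sup_of_normal_left' (hz w hw)
    rw [Subgroup.zpowers_le]
    have h3 : w⁻¹ ∈ Subgroup.normalizer ((Subgroup.zpowers c ⊔ Subgroup.zpowers x : Subgroup G) : Set G) := by
      rw [mem_normalizer_iff_conj_smul]
      apply eq_of_le_of_card_ge
      · rw [conj_smul_sup, conj_smul_eq_map, conj_smul_eq_map, MonoidHom.map_zpowers, MonoidHom.map_zpowers]
        have e1 : (MulAut.conj w⁻¹).toMonoidHom c = c := by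
          show w⁻¹ * c * w⁻¹⁻¹ = c
          rw [← hcw.inv_right.eq]; group
        have e2 : (MulAut.conj w⁻¹).toMonoidHom x = x * c := by
          show w⁻¹ * x * w⁻¹⁻¹ = x * c
          rw [inv_inv, hxw]
        rw [e1, e2]
        apply sup_le le_sup_left
        rw [Subgroup.zpowers_le]
        exact mul_mem (Subgroup.mem_sup_right (Subgroup.mem_zpowers x)) (Subgroup.mem_sup_left (Subgroup.mem_zpowers c))
      · exact (card_conj_smul _ _).ge
    have := inv_mem h3
    rwa [inv_inv] at this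
  exact h2.to_le (sup_le (le_sup_right.trans le_sup_left) le_sup_right)

theorem isPGroup_zpowers {G : Type*} [Group G] {p : ℕ} (g : G) (hg : g ^ p = 1) : IsPGroup p (Subgroup.zpowers g) := by
  apply isPGroup_of_forall_pow_eq_one
  intro y hy
  obtain ⟨k, rfl⟩ := Subgroup.mem_zpowers_iff.1 hy
  rw [← zpow_natCast, ← zpow_mul, mul_comm, zpow_mul, zpow_natCast, hg, one_zpow]

theorem comm_one_of_commute {G : Type*} [Group G] {x w : G} (h : Commute x w) : x⁻¹ * w⁻¹ * x * w = 1 := by
  have : x * w = w * x := h.eq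
  calc x⁻¹ * w⁻¹ * x * w = x⁻¹ * w⁻¹ * (x * w) := by group
  _ = 1 := by rw [this]; group

/-- existence of a central element -/
theorem Geo.exists_central {G : Type*} [Group G] [Finite G] {p : ℕ} [hp : Fact p.Prime] {E : Set G} (h : Geo p E)
    (hne : E.Nonempty) : ∃ v ∈ E, ∀ t ∈ E, Commute t v := by
  by_cases hall : ∀ x ∈ E, ∀ w ∈ E, Commute x w
  · obtain ⟨v, hv⟩ := hne
    exact ⟨v, hv, fun t ht => hall t ht v hv⟩
  by_cases hA : ∃ x ∈ E, ∃ w ∈ E, ¬ Commute x w ∧
      (∀ d ∈ E, ∀ e ∈ E, Commute x d → Commute d w → Commute x e → Commute e w → Commute d e)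
  · obtain ⟨x, hx, w, hw, hxw, hcl⟩ := hA
    obtain ⟨d, hd, h1, h2⟩ := h.exists_common hx hw hxw
    exact ⟨d, hd, h.central_of_clique hx hw hxw hcl hd h1 h2⟩
  push Not at hA hall
  -- all pairs generate p-groups
  have hpair : ∀ x ∈ E, ∀ w ∈ E, IsPGroup p (Subgroup.zpowers x ⊔ Subgroup.zpowers w : Subgroup G) := by
    intro x hx w hw
    by_cases hxw : Commute x w
    · apply isPGroup_pair (h.pow_eq x hx) (h.pow_eq w hw)
      · rw [comm_one_of_commute hxw]; exact Commute.one_left x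
      · rw [comm_one_of_commute hxw]; exact Commute.one_left w
    · obtain ⟨y, hy, u, hu, h1, h2, h3, h4, h5⟩ := hA x hx w hw hxw
      obtain ⟨h6, h7⟩ := h.class_two hx hw hxw hy hu h1 h2 h3 h4 h5
      exact isPGroup_pair (h.pow_eq x hx) (h.pow_eq w hw) h6 h7
  have hEO : ∀ x ∈ E, x ∈ Cfsg.pCore p G := by
    intro x hx
    obtain ⟨N, hN, hNp, hxN⟩ := Cfsg.Agent.S0199.result (p := p) (Subgroup.zpowers x) (isPGroup_zpowers x (h.pow_eq x hx)) (by
      intro g
      rw [MonoidHom.map_zpowers]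
      exact hpair x hx _ (h.conj x hx g))
    exact Lib.H23Basic.le_pCore hN hNp (hxN (Subgroup.mem_zpowers x))
  set N : Subgroup G := Subgroup.closure E with hNdef
  have hNO : N ≤ Cfsg.pCore p G := (Subgroup.closure_le _).2 hEO
  have hNp : IsPGroup p N := (Lib.H23Basic.isPGroup_pCore p).to_le hNO
  -- maximal clique subgroup
  obtain ⟨F, ⟨hF1, hF2⟩, hFmax⟩ := Set.exists_max_image
    {F : Subgroup G | (∀ x ∈ F, x ≠ 1 → x ∈ E) ∧ ∀ x ∈ F, ∀ y ∈ F, Commute x y}
    (fun F => Nat.card F) (Set.toFinite _) ⟨⊥, by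
      refine ⟨?_, ?_⟩
      · intro x hx hx1; exact absurd (Subgroup.mem_bot.1 hx) hx1
      · intro x hx y hy; rw [Subgroup.mem_bot.1 hx]; exact Commute.one_left y⟩
  have hext : ∀ w ∈ E, (∀ f ∈ F, Commute f w) → w ∈ F := by
    intro w hw hc
    have hnorm : Subgroup.zpowers w ≤ Subgroup.normalizer (F : Set G) := by
      rw [Subgroup.zpowers_le, Subgroup.mem_normalizer_iff]
      intro y
      constructor
      · intro hy
        have : w * y * w⁻¹ = y := by rw [← (hc y hy).eq]; group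
        rw [this]; exact hy
      · intro hy
        have h1 : w⁻¹ * (w * y * w⁻¹) * w = w * y * w⁻¹ := by
          rw [mul_assoc, (hc _ hy).eq]; group
        have h2 : w⁻¹ * (w * y * w⁻¹) * w = y := by group
        rw [← h2, h1]; exact hy
    have hmem : F ⊔ Subgroup.zpowers w ∈ {F : Subgroup G | (∀ x ∈ F, x ≠ 1 → x ∈ E) ∧ ∀ x ∈ F, ∀ y ∈ F, Commute x y} := by
      refine ⟨?_, ?_⟩
      · intro x hx hx1
        obtain ⟨f, hf, k, hk, rfl⟩ := (mem_sup_of_le_normalizer hnorm).1 hx
        obtain ⟨j, rfl⟩ := (mem_powers_iff_mem_zpowers.2 hk)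
        by_cases hf1 : f = 1
        · subst hf1
          simp only [one_mul] at hx1 ⊢
          exact h.pow_mem w hw j hx1
        · exact h.mul_pow_mem (hF1 f hf hf1) hw (hc f hf) j hx1
      · intro x hx y hy
        obtain ⟨f, hf, k, hk, rfl⟩ := (mem_sup_of_le_normalizer hnorm).1 hx
        obtain ⟨j, rfl⟩ := (mem_powers_iff_mem_zpowers.2 hk)
        obtain ⟨f', hf', k', hk', rfl⟩ := (mem_sup_of_le_normalizer hnorm).1 hy
        obtain ⟨j', rfl⟩ := (mem_powers_iff_mem_zpowers.2 hk')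
        simp only
        have c1 : Commute f f' := hF2 f hf f' hf'
        have c2 : Commute f (w ^ j') := (hc f hf).pow_right j'
        have c3 : Commute (w ^ j) f' := ((hc f' hf').symm).pow_left j
        have c4 : Commute (w ^ j) (w ^ j') := (Commute.refl w).pow_pow j j'
        exact (c1.mul_right c2).mul_left (c3.mul_right c4)
    have h1 := hFmax _ hmem
    have h2 : F = F ⊔ Subgroup.zpowers w := eq_of_le_of_card_ge le_sup_left h1
    rw [h2]
    exact Subgroup.mem_sup_right (Subgroup.mem_zpowers w)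
  have hFN : F ≤ N := by
    intro x hx
    by_cases hx1 : x = 1
    · rw [hx1]; exact one_mem _
    · exact Subgroup.subset_closure (hF1 x hx hx1)
  have hFne : F ≠ ⊥ := by
    intro h0
    obtain ⟨w, hw⟩ := hne
    have : w ∈ F := hext w hw (by
      intro f hf; rw [h0, Subgroup.mem_bot] at hf; rw [hf]; exact Commute.one_left w)
    rw [h0, Subgroup.mem_bot] at this
    exact h.ne_one w hw this
  have hFp : IsPGroup p F := hNp.to_le hFN
  by_cases hnor : N ≤ Subgroup.normalizer (F : Set G)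
  · have hdvd : p ∣ Nat.card F := by
      obtain ⟨n, hn⟩ := IsPGroup.iff_card.1 hFp
      rw [hn]
      apply dvd_pow_self
      rintro rfl
      rw [pow_zero] at hn
      exact hFne (Subgroup.card_eq_one.1 hn)
    obtain ⟨v, hvF, hv1, hv⟩ := Lib.H32PGroup.exists_fixed_of_normalizes hNp hnor hdvd
    exact ⟨v, hF1 v hvF hv1, fun t ht => hv t (Subgroup.subset_closure ht)⟩
  · set M : Subgroup G := N ⊓ Subgroup.normalizer (F : Set G) with hM
    have hMN : M < N := by
      refine lt_of_le_of_ne inf_le_left ?_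
      intro h0
      apply hnor
      rw [← h0]; exact inf_le_right
    have hlt := Lib.GroupUtil.lt_inf_normalizer_of_isPGroup hNp hMN
    obtain ⟨g, hg, hgM⟩ := SetLike.exists_of_lt hlt
    have hgN : g ∈ N := hg.1
    have hgM' : g ∈ Subgroup.normalizer (M : Set G) := hg.2
    have hgF : MulAut.conj g • F ≠ F := by
      intro h0
      exact hgM ⟨hgN, mem_normalizer_iff_conj_smul.2 h0⟩
    have hFM : F ≤ M := le_inf hFN le_normalizer
    have hgMM : MulAut.conj g • M = M := conj_smul_of_mem_normalizer hgM'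
    have hF'M : MulAut.conj g • F ≤ M := by
      rw [← hgMM]; exact conj_smul_mono g hFM
    have hnle : ¬ (MulAut.conj g • F ≤ F) := by
      intro h0
      exact hgF (eq_of_le_of_card_ge h0 (card_conj_smul g F).ge)
    rw [SetLike.not_le_iff_exists] at hnle
    obtain ⟨w, hwF', hwF⟩ := hnle
    have hw1 : w ≠ 1 := fun h0 => hwF (h0 ▸ one_mem F)
    have hF'E : ∀ z ∈ MulAut.conj g • F, z ≠ 1 → z ∈ E := by
      intro z hz hz1
      rw [mem_conj_smul] at hz
      have h1 : g⁻¹ * z * g ≠ 1 := by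
        intro h0
        apply hz1
        have : z = g * (g⁻¹ * z * g) * g⁻¹ := by group
        rw [this, h0]; group
      have h2 := h.conj _ (hF1 _ hz h1) g
      have h3 : g * (g⁻¹ * z * g) * g⁻¹ = z := by group
      rwa [h3] at h2
    have hwE : w ∈ E := hF'E w hwF' hw1
    have hex : ∃ x ∈ F, ¬ Commute x w := by
      by_contra hcon
      push Not at hcon
      exact hwF (hext w hwE hcon)
    obtain ⟨x, hxF, hxw⟩ := hex
    have hx1 : x ≠ 1 := by
      intro h0; apply hxw; rw [h0]; exact Commute.one_left w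
    have hcF : x⁻¹ * w⁻¹ * x * w ∈ F := by
      have hwn : w ∈ Subgroup.normalizer (F : Set G) := (hF'M hwF').2
      have h1 := (Subgroup.mem_normalizer_iff.1 (inv_mem hwn) x).1 hxF
      rw [inv_inv] at h1
      have h2 := F.mul_mem (inv_mem hxF) h1
      have h3 : x⁻¹ * (w⁻¹ * x * w) = x⁻¹ * w⁻¹ * x * w := by group
      rwa [h3] at h2
    have hcF' : x⁻¹ * w⁻¹ * x * w ∈ MulAut.conj g • F := by
      have hxn : x ∈ Subgroup.normalizer ((MulAut.conj g • F : Subgroup G) : Set G) := by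
        have h1 : x ∈ MulAut.conj g • M := by rw [hgMM]; exact hFM hxF
        rw [mem_conj_smul] at h1
        have h2 : g⁻¹ * x * g ∈ Subgroup.normalizer (F : Set G) := h1.2
        rw [mem_normalizer_iff_conj_smul] at h2 ⊢
        rw [← conj_smul_mul]
        have h3 : x * g = g * (g⁻¹ * x * g) := by group
        rw [h3, conj_smul_mul, h2]
      have h1 := (Subgroup.mem_normalizer_iff.1 (inv_mem hxn) w⁻¹).1 (inv_mem hwF')
      rw [inv_inv] at h1
      exact Subgroup.mul_mem _ h1 hwF'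
    have hc1 : x⁻¹ * w⁻¹ * x * w ≠ 1 := by
      intro h0
      apply hxw
      have : x * w = w * x * (x⁻¹ * w⁻¹ * x * w) := by group
      rw [h0, mul_one] at this
      exact this
    have hF'c : ∀ a ∈ MulAut.conj g • F, ∀ b ∈ MulAut.conj g • F, Commute a b := by
      intro a ha b hb
      rw [mem_conj_smul] at ha hb
      have h1 := (hF2 _ ha _ hb).eq
      have h2 := congrArg (fun t => g * t * g⁻¹) h1
      have h3 : a * b = b * a := by
        have e1 : g * (g⁻¹ * a * g * (g⁻¹ * b * g)) * g⁻¹ = a * b := by group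
        have e2 : g * (g⁻¹ * b * g * (g⁻¹ * a * g)) * g⁻¹ = b * a := by group
        rw [← e1, ← e2]; exact h2
      exact h3
    exact ⟨_, hF1 _ hcF hc1, h.central_commutator (hF1 x hxF hx1) hwE (hF1 _ hcF hc1)
      (hF2 _ hcF x hxF) (hF'c _ hcF' w hwF')⟩

/-- Let p be a prime and K a set of subgroups of order p of a finite group G, closed under conjugation, such that at least two distinct members of K commute elementwise, and whenever two distinct members X, Y of K commute: every subgroup of order p of the group XY they generate belongs to K, and every member W of K has centralizer meeting XY nontrivially. Then some member V of K commutes elementwise with every member of K and lies in O_p(G); in particular G is not simple. -/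
theorem result {G : Type*} [Group G] [Finite G]
    {p : ℕ} (hp : p.Prime) (K : Set (Subgroup G)) (hK : ∀ X ∈ K, Nat.card ↥X = p)
    (hKc : ∀ X ∈ K, ∀ g : G, X.map (MulAut.conj g).toMonoidHom ∈ K)
    (hex : ∃ X ∈ K, ∃ Y ∈ K, X ≠ Y ∧ ∀ x ∈ X, ∀ y ∈ Y, x * y = y * x)
    (ha : ∀ X ∈ K, ∀ Y ∈ K, X ≠ Y → (∀ x ∈ X, ∀ y ∈ Y, x * y = y * x) →
      ∀ Z : Subgroup G, Z ≤ X ⊔ Y → Nat.card ↥Z = p → Z ∈ K)
    (hb : ∀ X ∈ K, ∀ Y ∈ K, X ≠ Y → (∀ x ∈ X, ∀ y ∈ Y, x * y = y * x) →
      ∀ W ∈ K, (X ⊔ Y) ⊓ Subgroup.centralizer (W : Set G) ≠ ⊥) :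
    (∃ V ∈ K, (∀ W ∈ K, ∀ v ∈ V, ∀ w ∈ W, v * w = w * v) ∧ V ≤ Cfsg.pCore p G) ∧ ¬ IsSimpleGroup G := by
  have : Fact p.Prime := ⟨hp⟩
  have hpow : ∀ x ∈ El K, x ^ p = 1 := fun x hx => El_pow K hK hx
  -- the geometric package
  have hmulm : ∀ x ∈ El K, ∀ y ∈ El K, Commute x y → x * y ≠ 1 → x * y ∈ El K := by
    intro x hx y hy hc h1
    by_cases hEq : Subgroup.zpowers x = Subgroup.zpowers y
    · refine (mem_El_iff K hK hx.2 ?_ h1).1
      refine mul_mem (Subgroup.mem_zpowers x) ?_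
      rw [hEq]; exact Subgroup.mem_zpowers y
    · refine ⟨h1, ?_⟩
      apply ha _ hx.2 _ hy.2 hEq
      · intro a ha b hb
        obtain ⟨i, rfl⟩ := Subgroup.mem_zpowers_iff.1 ha
        obtain ⟨j, rfl⟩ := Subgroup.mem_zpowers_iff.1 hb
        exact ((hc.zpow_left i).zpow_right j).eq
      · rw [Subgroup.zpowers_le]
        exact mul_mem (Subgroup.mem_sup_left (Subgroup.mem_zpowers x)) (Subgroup.mem_sup_right (Subgroup.mem_zpowers y))
      · rw [Nat.card_zpowers]
        have h2 : (x * y) ^ p = 1 := by rw [hc.mul_pow, hpow x hx, hpow y hy, one_mul]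
        exact orderOf_eq_prime h2 h1
  have hpowm : ∀ x ∈ El K, ∀ k : ℕ, x ^ k ≠ 1 → x ^ k ∈ El K := by
    intro x hx k h1
    exact (mem_El_iff K hK hx.2 (Subgroup.pow_mem _ (Subgroup.mem_zpowers x) k) h1).1
  have hconj : ∀ x ∈ El K, ∀ g : G, g * x * g⁻¹ ∈ El K := by
    intro x hx g
    refine ⟨?_, ?_⟩
    · intro h0
      apply hx.1
      have : x = g⁻¹ * (g * x * g⁻¹) * g := by group
      rw [this, h0]; group
    · have := hKc _ hx.2 g
      rwa [MonoidHom.map_zpowers] at this
  have hline : ∀ x ∈ El K, ∀ y ∈ El K, ∀ w ∈ El K, Commute x y → Commute y w ∨ ∃ j : ℕ, Commute (x * y ^ j) w := by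
    intro x hx y hy w hw hc
    by_cases hEq : Subgroup.zpowers x = Subgroup.zpowers y
    · right
      have h1 : x⁻¹ ∈ Subgroup.zpowers y := by rw [← hEq]; exact inv_mem (Subgroup.mem_zpowers x)
      obtain ⟨j, hj⟩ := mem_powers_iff_mem_zpowers.2 h1
      simp only at hj
      refine ⟨j, ?_⟩
      rw [hj, mul_inv_cancel]; exact Commute.one_left w
    · have hcomm : ∀ a ∈ Subgroup.zpowers x, ∀ b ∈ Subgroup.zpowers y, a * b = b * a := by
        intro a ha b hb
        obtain ⟨i, rfl⟩ := Subgroup.mem_zpowers_iff.1 ha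
        obtain ⟨j, rfl⟩ := Subgroup.mem_zpowers_iff.1 hb
        exact ((hc.zpow_left i).zpow_right j).eq
      have h1 := hb _ hx.2 _ hy.2 hEq hcomm _ hw.2
      rw [Ne, Subgroup.eq_bot_iff_forall] at h1
      push Not at h1
      obtain ⟨e, ⟨he1, he2⟩, he3⟩ := h1
      have hnorm : Subgroup.zpowers y ≤ Subgroup.normalizer (Subgroup.zpowers x : Set G) := by
        rw [Subgroup.zpowers_le, mem_normalizer_iff_conj_smul, conj_smul_eq_map, MonoidHom.map_zpowers]
        have : (MulAut.conj y).toMonoidHom x = x := by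
          show y * x * y⁻¹ = x
          rw [← hc.eq]; group
        rw [this]
      obtain ⟨a, ha', b, hb', hab⟩ := (mem_sup_of_le_normalizer hnorm).1 he1
      have hew : Commute e w := by
        have := Subgroup.mem_centralizer_iff.1 he2 w (Subgroup.mem_zpowers w)
        exact this.symm
      by_cases ha1 : a = 1
      · left
        rw [ha1, one_mul] at hab
        have hb1 : b ≠ 1 := by rw [hab]; exact he3
        have hyb : y ∈ Subgroup.zpowers b := mem_zpowers_symm (hpow y hy) hb' hb1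
        obtain ⟨k, hk⟩ := Subgroup.mem_zpowers_iff.1 hyb
        rw [← hk, hab]
        exact hew.zpow_left k
      · right
        have hxa : x ∈ Subgroup.zpowers a := mem_zpowers_symm (hpow x hx) ha' ha1
        obtain ⟨k, hk⟩ := mem_powers_iff_mem_zpowers.2 hxa
        simp only at hk
        obtain ⟨j, hj⟩ := mem_powers_iff_mem_zpowers.2 (Subgroup.pow_mem _ hb' k)
        simp only at hj
        refine ⟨j, ?_⟩
        have hcab : Commute a b := hcomm a ha' b hb'
        have h2 : x * y ^ j = e ^ k := by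
          rw [hj, ← hk, ← hab, hcab.mul_pow]
        rw [h2]
        exact hew.pow_left k
  -- generators of the members
  have hgen : ∀ X ∈ K, ∃ x ∈ El K, Subgroup.zpowers x = X := by
    intro X hX
    have hne : X ≠ ⊥ := by
      intro h0
      have := hK X hX
      rw [h0, Subgroup.card_bot] at this
      exact hp.one_lt.ne this
    rw [Ne, Subgroup.eq_bot_iff_forall] at hne
    push Not at hne
    obtain ⟨x, hx, hx1⟩ := hne
    obtain ⟨h1, h2⟩ := mem_El_iff K hK hX hx hx1
    exact ⟨x, h1, h2⟩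
  obtain ⟨X, hX, Y, hY, hXY, hXYc⟩ := hex
  obtain ⟨x0, hx0, hx0X⟩ := hgen X hX
  obtain ⟨y0, hy0, hy0Y⟩ := hgen Y hY
  have hc0 : Commute x0 y0 := hXYc x0 (hx0X ▸ Subgroup.mem_zpowers x0) y0 (hy0Y ▸ Subgroup.mem_zpowers y0)
  have hz0 : Subgroup.zpowers x0 ≠ Subgroup.zpowers y0 := by rw [hx0X, hy0Y]; exact hXY
  have hx0y0 : x0 ∉ Subgroup.zpowers y0 := by
    intro h0
    apply hz0
    exact (mem_El_iff K hK hy0.2 h0 hx0.1).2
  have hexx : ∀ x ∈ El K, ∃ y ∈ El K, Commute x y ∧ x ∉ Subgroup.zpowers y := by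
    intro x hx
    -- find e in the line commuting with x
    have he : ∃ e ∈ El K, Commute e x ∧ Commute e x0 ∧ Commute e y0 := by
      rcases hline x0 hx0 y0 hy0 x hx hc0 with h1 | ⟨j, h1⟩
      · exact ⟨y0, hy0, h1, hc0.symm, Commute.refl _⟩
      · have h2 : x0 * y0 ^ j ≠ 1 := by
          intro h0
          apply hx0y0
          have : x0 = (y0 ^ j)⁻¹ := eq_inv_of_mul_eq_one_left h0
          rw [this]
          exact inv_mem (Subgroup.pow_mem _ (Subgroup.mem_zpowers y0) j)
        refine ⟨x0 * y0 ^ j, ?_, h1, (Commute.refl x0).mul_left (hc0.symm.pow_left j),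
          hc0.mul_left ((Commute.refl y0).pow_left j)⟩
        by_cases hj : y0 ^ j = 1
        · rw [hj, mul_one]; exact hx0
        · exact hmulm _ hx0 _ (hpowm _ hy0 j hj) (hc0.pow_right j) h2
    obtain ⟨e, heE, hex', hex0, hey0⟩ := he
    by_cases h1 : x ∈ Subgroup.zpowers e
    · obtain ⟨k, hk⟩ := Subgroup.mem_zpowers_iff.1 h1
      have hxx0 : Commute x x0 := by rw [← hk]; exact hex0.zpow_left k
      have hxy0 : Commute x y0 := by rw [← hk]; exact hey0.zpow_left k
      by_cases h2 : x ∈ Subgroup.zpowers y0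
      · refine ⟨x0, hx0, hxx0, ?_⟩
        intro h3
        apply hz0
        rw [← (mem_El_iff K hK hx0.2 h3 hx.1).2, (mem_El_iff K hK hy0.2 h2 hx.1).2]
      · exact ⟨y0, hy0, hxy0, h2⟩
    · exact ⟨e, heE, hex'.symm, h1⟩
  have hGeo : Geo p (El K) := ⟨fun x hx => hx.1, hpow, hconj, hmulm, hpowm, hline, hexx⟩
  obtain ⟨v, hv, hvc⟩ := hGeo.exists_central ⟨x0, hx0⟩
  have hvp : IsPGroup p (Subgroup.zpowers v) := isPGroup_zpowers v (hpow v hv)
  obtain ⟨N, hN, hNp, hvN⟩ := Cfsg.Agent.S0199.result (p := p) (Subgroup.zpowers v) hvp (by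
    intro g
    rw [MonoidHom.map_zpowers]
    have h1 : Commute v (g * v * g⁻¹) := (hvc _ (hconj v hv g)).symm
    apply isPGroup_pair (hpow v hv) (hpow _ (hconj v hv g))
    · show Commute (v⁻¹ * (g * v * g⁻¹)⁻¹ * v * (g * v * g⁻¹)) v
      rw [comm_one_of_commute h1]; exact Commute.one_left v
    · show Commute (v⁻¹ * (g * v * g⁻¹)⁻¹ * v * (g * v * g⁻¹)) (g * v * g⁻¹)
      rw [comm_one_of_commute h1]; exact Commute.one_left _)
  have hVO : Subgroup.zpowers v ≤ Cfsg.pCore p G := hvN.trans (Lib.H23Basic.le_pCore hN hNp)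
  refine ⟨⟨Subgroup.zpowers v, hv.2, ?_, hVO⟩, ?_⟩
  · intro W hW a ha' w hw
    by_cases hw1 : w = 1
    · rw [hw1, mul_one, one_mul]
    · obtain ⟨k, rfl⟩ := Subgroup.mem_zpowers_iff.1 ha'
      have h1 := hvc w (mem_El_iff K hK hW hw hw1).1
      exact ((h1.symm).zpow_left k).eq
  · intro hsimp
    have hNtop : N = ⊤ := by
      rcases hN.eq_bot_or_eq_top with h0 | h0
      · exfalso
        rw [h0] at hvN
        have := hvN (Subgroup.mem_zpowers v)
        exact hv.1 (Subgroup.mem_bot.1 this)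
      · exact h0
    have hGp : IsPGroup p G := by
      rw [hNtop] at hNp
      exact hNp.of_equiv Subgroup.topEquiv
    have hnt : Nontrivial G := hsimp.toNontrivial
    have hcen : Nontrivial (Subgroup.center G) := hGp.center_nontrivial
    have hctop : Subgroup.center G = ⊤ := by
      rcases (inferInstance : (Subgroup.center G).Normal).eq_bot_or_eq_top with h0 | h0
      · exfalso
        exact (Subgroup.nontrivial_iff_ne_bot _).1 hcen h0
      · exact h0
    -- zpowers x0 is normal so top, and same for y0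
    have hall : ∀ x : G, x ≠ 1 → Subgroup.zpowers x = ⊤ := by
      intro x hx1
      have hnorm : (Subgroup.zpowers x).Normal := by
        constructor
        intro n hn g
        have : n ∈ Subgroup.center G := by rw [hctop]; trivial
        have h2 := Subgroup.mem_center_iff.1 this g
        rw [h2]
        simpa using hn
      rcases hnorm.eq_bot_or_eq_top with h0 | h0
      · exact absurd (Subgroup.zpowers_eq_bot.1 h0) hx1
      · exact h0
    exact hz0 ((hall x0 hx0.1).trans (hall y0 hy0.1).symm)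

end Cfsg.Agent.S3196
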