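import Cfsg.Statements.S3200
import Cfsg.Agent.Lib.HallPi
import Cfsg.Agent.S0563

set_option autoImplicit false
open Cfsg

namespace Cfsg.Agent.S3200

open Subgroup Pointwise Cfsg.Agent.Lib.HallPi

/-- an odd order subgroup of 2-power index is a complement of every Sylow 2-subgroup -/
theorem compl_of_odd {K : Type*} [Group K] [Finite K] (P : Sylow 2 K) (D : Subgroup K)
    (hD : Odd (Nat.card D)) (hi : ∃ k : ℕ, D.index = 2 ^ k) :
    Subgroup.IsComplement' (P : Subgroup K) D := by
  obtain ⟨k, hk⟩ := hi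
  have h1 : Nat.card D * 2 ^ k = Nat.card K := by rw [← hk]; exact D.card_mul_index
  have h2 : (Nat.card K).factorization 2 = k := by
    rw [← h1, Nat.factorization_mul Nat.card_pos.ne' (by positivity), Finsupp.add_apply,
      Nat.factorization_eq_zero_of_not_dvd (by
        intro h; exact (Nat.not_even_iff_odd.mpr hD) (even_iff_two_dvd.mpr h)),
      Nat.Prime.factorization_pow Nat.prime_two, Finsupp.single_eq_same, zero_add]
  have h3 : Nat.card (P : Subgroup K) = 2 ^ k := by rw [P.card_eq_multiplicity, h2]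
  apply Subgroup.isComplement'_of_coprime
  · rw [h3, ← h1]; ring
  · rw [h3]
    apply Nat.Coprime.pow_left
    rw [Nat.coprime_comm, Nat.coprime_two_right]
    exact hD

theorem odd_compl {K : Type*} [Group K] [Finite K] (P : Sylow 2 K) (D : Subgroup K)
    (h : Subgroup.IsComplement' (P : Subgroup K) D) :
    Odd (Nat.card D) ∧ ∃ k : ℕ, D.index = 2 ^ k := by
  have h1 := h.card_mul
  constructor
  · rw [← Nat.not_even_iff_odd, even_iff_two_dvd]
    intro h2
    apply P.not_dvd_index
    have h3 := (P : Subgroup K).card_mul_index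
    rw [← h1] at h3
    rw [Nat.eq_of_mul_eq_mul_left Nat.card_pos h3]
    exact h2
  · obtain ⟨k, hk⟩ := IsPGroup.iff_card.mp P.2
    refine ⟨k, ?_⟩
    rw [← hk]
    have h3 := D.card_mul_index
    rw [← h1, mul_comm (Nat.card (P : Subgroup K))] at h3
    exact Nat.eq_of_mul_eq_mul_left Nat.card_pos h3

/-- Let H be a finite group in which a Sylow 2-subgroup has an abelian complement (an abelian subgroup meeting it trivially whose product with it is all of H). Then H is solvable, and every subgroup and every quotient group of H again has a Sylow 2-subgroup with an abelian complement. -/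
theorem result {H : Type*} [Group H] [Finite H]
    (S : Sylow 2 H) (C : Subgroup H) (hC : IsMulCommutative ↥C) (hSC : Subgroup.IsComplement' (S : Subgroup H) C) :
    Group.IsSolvable H ∧
    (∀ L : Subgroup H, ∃ (P : Sylow 2 ↥L) (D : Subgroup ↥L), IsMulCommutative ↥D ∧ Subgroup.IsComplement' (P : Subgroup ↥L) D) ∧
    (∀ (N : Subgroup H) [N.Normal], ∃ (P : Sylow 2 (H ⧸ N)) (D : Subgroup (H ⧸ N)),
      IsMulCommutative ↥D ∧ Subgroup.IsComplement' (P : Subgroup (H ⧸ N)) D) := by
  classical
  obtain ⟨hCodd, k, hCi⟩ := odd_compl S C hSC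
  have hCcomm : ∀ a ∈ C, ∀ b ∈ C, a * b = b * a := isMulCommutative_iff_of_setLike.mp hC
  have hS : Group.IsNilpotent (S : Subgroup H) := S.2.isNilpotent
  have hCn : Group.IsNilpotent C := by
    let _ : CommGroup C := { (inferInstance : Group C) with
      mul_comm := fun a b => Subtype.ext (hCcomm a a.2 b b.2) }
    infer_instance
  have hcop : (Nat.card (S : Subgroup H)).Coprime (Nat.card C) := by
    obtain ⟨j, hj⟩ := IsPGroup.iff_card.mp S.2
    rw [hj]
    apply Nat.Coprime.pow_left
    rw [Nat.coprime_comm, Nat.coprime_two_right]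
    exact hCodd
  have hsol : Group.IsSolvable H := by
    refine (Cfsg.Agent.S0563.result (S : Subgroup H) C hS hCn hcop ?_).1
    intro g
    obtain ⟨⟨a, b⟩, hab⟩ := hSC.2 g
    exact ⟨a, a.2, b, b.2, hab.symm⟩
  refine ⟨hsol, ?_, ?_⟩
  · intro L
    set π : Set ℕ := {p | p ≠ 2} with hπ
    have hCh : Cfsg.IsPiHall π C := by
      refine ⟨?_, ?_⟩
      · rintro p hp hpd rfl
        exact (Nat.not_even_iff_odd.mpr hCodd) (even_iff_two_dvd.mpr hpd)
      · intro p hp hp2 hpd
        rw [hCi] at hpd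
        exact hp2 ((Nat.prime_dvd_prime_iff_eq hp Nat.prime_two).mp (hp.dvd_of_dvd_pow hpd))
    have hsL : Group.IsSolvable L := inferInstance
    obtain ⟨D, hD⟩ := exists_isPiHall (G := L) π
    obtain ⟨P⟩ : Nonempty (Sylow 2 L) := inferInstance
    have hDodd : Odd (Nat.card D) := by
      rw [← Nat.not_even_iff_odd, even_iff_two_dvd]
      intro h2
      exact hD.1 2 Nat.prime_two h2 rfl
    have hDi : ∃ k : ℕ, D.index = 2 ^ k := by
      refine ⟨D.index.primeFactorsList.length, ?_⟩
      apply Nat.eq_prime_pow_of_unique_prime_dvd Subgroup.index_ne_zero_of_finite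
      intro d hd hdd
      by_contra hne
      exact hD.2 d hd hne hdd
    refine ⟨P, D, ?_, compl_of_odd P D hDodd hDi⟩
    have hDn : PiNum π (Nat.card (D.map L.subtype)) := by
      rw [card_map_of_injective L.subtype_injective]
      exact hD.1
    obtain ⟨x, hx⟩ := exists_conj_le C (D.map L.subtype) hCh hDn
    rw [isMulCommutative_iff_of_setLike]
    intro a ha b hb
    have h1 : ∀ d ∈ D, x⁻¹ * (d : H) * x ∈ C := by
      intro d hd
      have h2 := hx ⟨d, hd, rfl⟩
      rw [Cfsg.Agent.Lib.SubgroupTools.mem_conj_smul] at h2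
      exact h2
    have h2 := hCcomm _ (h1 a ha) _ (h1 b hb)
    apply Subtype.ext
    show (a : H) * b = b * a
    have h3 : x * ((x⁻¹ * (a : H) * x) * (x⁻¹ * (b : H) * x)) * x⁻¹ =
      x * ((x⁻¹ * (b : H) * x) * (x⁻¹ * (a : H) * x)) * x⁻¹ := by rw [h2]
    have h4 : ∀ u v : H, x * ((x⁻¹ * u * x) * (x⁻¹ * v * x)) * x⁻¹ = u * v := by intro u v; group
    rwa [h4, h4] at h3
  · intro N _
    obtain ⟨P⟩ : Nonempty (Sylow 2 (H ⧸ N)) := inferInstance
    refine ⟨P, C.map (QuotientGroup.mk' N), ?_, compl_of_odd P _ ?_ ?_⟩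
    · rw [isMulCommutative_iff_of_setLike]
      rintro _ ⟨a, ha, rfl⟩ _ ⟨b, hb, rfl⟩
      rw [← map_mul, hCcomm a ha b hb, map_mul]
    · exact Odd.of_dvd_nat hCodd (card_map_dvd C (QuotientGroup.mk' N))
    · have h1 : (C.map (QuotientGroup.mk' N)).index ∣ C.index := index_map_dvd C (QuotientGroup.mk'_surjective N)
      rw [hCi] at h1
      obtain ⟨j, _, hj⟩ := (Nat.dvd_prime_pow Nat.prime_two).mp h1
      exact ⟨j, hj⟩

end Cfsg.Agent.S3200
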