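import Cfsg.Statements.S3201
import Cfsg.Agent.Lib.H70Frattini
import Cfsg.Agent.Lib.H53Quat

set_option autoImplicit false
open Cfsg

namespace Cfsg.Agent.S3201

open Cfsg.Agent.Lib

theorem order_two {S : Type*} [Group S] (C : Subgroup S) [C.Normal] {s : S} (hs : s * s ∈ C) (hsC : s ∉ C) :
    orderOf (QuotientGroup.mk' C s) = 2 := by
  have : Fact (Nat.Prime 2) := ⟨Nat.prime_two⟩
  apply orderOf_eq_prime
  · rw [pow_two, ← map_mul]
    exact (QuotientGroup.eq_one_iff _).2 hs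
  · intro h
    exact hsC ((QuotientGroup.eq_one_iff _).1 h)

theorem invol_eq {S : Type*} [Group S] (C : Subgroup S) [C.Normal]
    (hu : ∃! x : S ⧸ C, orderOf x = 2) {s t : S} (hs : s * s ∈ C) (hsC : s ∉ C) (ht : t * t ∈ C) (htC : t ∉ C) :
    s⁻¹ * t ∈ C := by
  have h1 := hu.unique (order_two C hs hsC) (order_two C ht htC)
  exact QuotientGroup.eq.1 h1

theorem invol_mem {S : Type*} [Group S] (Z C : Subgroup S) [C.Normal] (hCZ : C ≤ Z)
    (hsq : ∀ z ∈ Z, z * z ∈ C) (hne : ¬ Z ≤ C)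
    (hu : ∃! x : S ⧸ C, orderOf x = 2) (s : S) (hs : s * s ∈ C) : s ∈ Z := by
  by_cases hsC : s ∈ C
  · exact hCZ hsC
  · obtain ⟨t, ht, htC⟩ := SetLike.not_le_iff_exists.1 hne
    have h1 := invol_eq C hu hs hsC (hsq t ht) htC
    have h2 : s = t * (s⁻¹ * t)⁻¹ := by group
    rw [h2]
    exact mul_mem ht (inv_mem (hCZ h1))

/-- everything about one `C` relative to fixed `x`, `y` -/
theorem rel {S : Type*} [Group S] [Finite S] (hS : IsPGroup 2 S) (Z C : Subgroup S) [C.Normal]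
    (hZ : ∀ d ∈ Z, ∀ s : S, s * d = d * s) (hCZ : C ≤ Z)
    (hsq : ∀ z ∈ Z, z * z ∈ C) (hne : ¬ Z ≤ C)
    (hna : ¬ IsMulCommutative (S ⧸ C)) (hu : ∃! x : S ⧸ C, orderOf x = 2)
    (x y : S) (h1 : ∀ s, ∃ k : ℕ, ∃ d ∈ Z, s = x ^ k * d ∨ s = y * x ^ k * d)
    (m : ℕ) (hd : y * x * y⁻¹ * x ∈ Z) (he : y * y * (x ^ (2 ^ m))⁻¹ ∈ Z)
    (hxy : y * x ≠ x * y) (hxZ : x ∉ Z) (hm : ∀ k : ℕ, x ^ k ∈ Z ↔ 2 ^ m ∣ k) :
    (y * x * y⁻¹ * x ∈ C) ∧ (y * y * (x ^ (2 ^ m))⁻¹ ∈ C) ∧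
      (∀ k : ℕ, x ^ k ∈ C ↔ 2 ^ (m + 1) ∣ k) := by
  have : Fact (Nat.Prime 2) := ⟨Nat.prime_two⟩
  set π := QuotientGroup.mk' C with hπ
  have hker : ∀ s, π s = 1 ↔ s ∈ C := fun s => QuotientGroup.eq_one_iff s
  obtain ⟨t, ht, htC⟩ := SetLike.not_le_iff_exists.1 hne
  obtain ⟨n, hn⟩ := (IsPGroup.iff_orderOf.1 (hS.to_quotient C)) (π x)
  have hxC : x ∉ C := fun h => hxZ (hCZ h)
  have hn1 : 1 ≤ n := by
    rcases Nat.eq_zero_or_pos n with rfl | h
    · exfalso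
      rw [pow_zero, orderOf_eq_one_iff, hker] at hn
      exact hxC hn
    · exact h
  have hxk : ∀ k : ℕ, x ^ k ∈ C ↔ 2 ^ n ∣ k := by
    intro k
    rw [← hker, map_pow, ← hn, orderOf_dvd_iff_pow_eq_one]
  -- the involution
  have hxi : x ^ (2 ^ (n - 1)) * x ^ (2 ^ (n - 1)) ∈ C := by
    rw [← pow_add, ← two_mul, ← pow_succ', hxk, Nat.sub_add_cancel hn1]
  have hxi' : x ^ (2 ^ (n - 1)) ∉ C := by
    rw [hxk, Nat.pow_dvd_pow_iff_le_right (by norm_num)]
    omega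
  have hxiZ : x ^ (2 ^ (n - 1)) ∈ Z := invol_mem Z C hCZ hsq hne hu _ hxi
  have hnm : n - 1 = m := by
    have a1 : 2 ^ m ∣ 2 ^ (n - 1) := (hm _).1 hxiZ
    have a2 : 2 ^ n ∣ 2 * 2 ^ m := by
      rw [← hxk, two_mul, pow_add]
      exact hsq _ ((hm _).2 dvd_rfl)
    rw [← pow_succ', Nat.pow_dvd_pow_iff_le_right (by norm_num)] at a2
    rw [Nat.pow_dvd_pow_iff_le_right (by norm_num)] at a1
    omega
  have hn' : n = m + 1 := by omega
  -- Z maps into powers of x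
  have hZx : ∀ z ∈ Z, π z ∈ Subgroup.zpowers (π x) := by
    intro z hz
    by_cases hzC : z ∈ C
    · rw [(hker z).2 hzC]; exact one_mem _
    · have a1 := invol_eq C hu hxi hxi' (hsq z hz) hzC
      have a2 : π (x ^ (2 ^ (n - 1))) = π z := QuotientGroup.eq.2 a1
      rw [← a2, map_pow]
      exact Subgroup.npow_mem_zpowers _ _
  have hks := UniqueInvolution.key_step (p := 2) (P := S ⧸ C) (a := π x) (x := π y) (n := n) hn ?_ ?_ ?_ ?_ ?_
  · obtain ⟨-, b1, -, b2⟩ := hks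
    refine ⟨?_, ?_, fun k => ?_⟩
    · rw [← hker, map_mul, map_mul, map_mul, map_inv, b1, inv_mul_cancel]
    · rw [← hker, map_mul, map_mul, map_inv, map_pow, ← pow_two, b2, hnm, mul_inv_cancel]
    · rw [hxk, hn']
  · intro h
    obtain ⟨j, hj⟩ := h
    have a1 : π y = π (x ^ j) := by rw [map_zpow]; exact hj.symm
    have a2 := QuotientGroup.eq.1 a1
    apply hxy
    have a3 : x ^ j = y * (y⁻¹ * x ^ j) := by group
    have a4 := hZ _ (hCZ a2) x
    have a5 : y = x ^ j * (y⁻¹ * x ^ j)⁻¹ := by group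
    have a6 : Commute x (y⁻¹ * x ^ j) := a4
    rw [a5]
    exact (((Commute.refl x).zpow_right j).mul_right a6.inv_right).symm.eq
  · have a1 : π y * π x * (π y)⁻¹ = π (y * x * y⁻¹ * x) * (π x)⁻¹ := by
      rw [map_mul, map_mul, map_mul, map_inv]; group
    rw [a1]
    exact mul_mem (hZx _ hd) (inv_mem (Subgroup.mem_zpowers _))
  · have a1 : (π y) ^ 2 = π (y * y * (x ^ (2 ^ m))⁻¹) * (π x) ^ (2 ^ m) := by
      rw [map_mul, map_mul, map_inv, map_pow, pow_two]; group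
    rw [a1]
    exact mul_mem (hZx _ he) (Subgroup.npow_mem_zpowers _ _)
  · intro h
    apply hna
    have hπxy : Commute (π x) (π y) := h.symm
    have hπd : ∀ e ∈ Z, ∀ s, Commute (π s) (π e) := by
      intro e he s
      show π s * π e = π e * π s
      rw [← map_mul, ← map_mul, hZ e he s]
    have hcomm1 : ∀ u, Commute (π x) u → Commute (π y) u → ∀ s, (∀ e ∈ Z, Commute (π e) u) → Commute (π s) u := by
      intro u hux huy s hu
      obtain ⟨k, e, he, rfl | rfl⟩ := h1 s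
      · rw [map_mul, map_pow]
        exact (hux.pow_left k).mul_left (hu e he)
      · rw [map_mul, map_mul, map_pow]
        exact (huy.mul_left (hux.pow_left k)).mul_left (hu e he)
    have hsx : ∀ s, Commute (π s) (π x) := fun s =>
      hcomm1 _ (Commute.refl _) hπxy.symm s (fun e he => (hπd e he x).symm)
    have hsy : ∀ s, Commute (π s) (π y) := fun s =>
      hcomm1 _ hπxy (Commute.refl _) s (fun e he => (hπd e he y).symm)
    have hst : ∀ s t, Commute (π s) (π t) := fun s t =>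
      hcomm1 _ (hsx t).symm (hsy t).symm s (fun e he => (hπd e he t).symm)
    refine ⟨⟨fun a b => ?_⟩⟩
    obtain ⟨a, rfl⟩ := QuotientGroup.mk'_surjective C a
    obtain ⟨b, rfl⟩ := QuotientGroup.mk'_surjective C b
    exact hst a b
  · intro u hu2
    obtain ⟨s, rfl⟩ := QuotientGroup.mk'_surjective C u
    rw [← map_pow] at hu2
    have a1 : s * s ∈ C := by rw [← pow_two]; exact (hker _).1 hu2
    exact hZx s (invol_mem Z C hCZ hsq hne hu s a1)

theorem main {S : Type*} [Group S] [Finite S] (hS : IsPGroup 2 S) (n : ℕ) (hn : 2 ≤ n) (Z : Subgroup S)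
    (C' : Fin n → Subgroup S) (hZc : ∀ d ∈ Z, ∀ s : S, s * d = d * s) (hCZ : ∀ i, C' i ≤ Z)
    (hsq : ∀ i, ∀ z ∈ Z, z * z ∈ C' i) (hne : ∀ i, ¬ Z ≤ C' i) (hint : ∀ s, (∀ i, s ∈ C' i) → s = 1)
    (hCq : ∀ i, ∃ (_ : (C' i).Normal), ¬ IsMulCommutative (S ⧸ C' i) ∧ ∃! x : S ⧸ C' i, orderOf x = 2) :
    ∃ E Q : Subgroup S, Cfsg.IsInternalDirectProduct E Q ⊤ ∧ Cfsg.IsElementaryAbelian 2 E ∧
      ¬ IsMulCommutative ↥Q ∧ ∃! x : ↥Q, orderOf x = 2 := by
  classical
  have : Fact (Nat.Prime 2) := ⟨Nat.prime_two⟩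
  obtain ⟨i0⟩ : Nonempty (Fin n) := ⟨⟨0, by omega⟩⟩
  obtain ⟨hn0, hna0, hu0⟩ := hCq i0
  obtain ⟨m, hm, x, y, h1, h2, h3, h4, h5⟩ := Lib.H53Quat.frame hS (C' i0) hna0 hu0
  have hxZ : x ∉ Z := by
    intro h
    have h6 : x ^ 2 ∈ C' i0 := by rw [pow_two]; exact hsq i0 x h
    have h7 := Nat.le_of_dvd (by norm_num) ((h4 2).1 h6)
    have h8 : 2 ^ 2 ≤ 2 ^ (m + 1) := Nat.pow_le_pow_right (by norm_num) (by omega)
    omega
  have hxy : y * x ≠ x * y := by
    intro h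
    have e1 : x ^ 2 ∈ C' i0 := by
      have : x ^ 2 = y * x * y⁻¹ * x := by rw [h, pow_two]; group
      rw [this]; exact h2
    have h7 := Nat.le_of_dvd (by norm_num) ((h4 2).1 e1)
    have h8 : 2 ^ 2 ≤ 2 ^ (m + 1) := Nat.pow_le_pow_right (by norm_num) (by omega)
    omega
  have h1Z : ∀ s, ∃ k : ℕ, ∃ d ∈ Z, s = x ^ k * d ∨ s = y * x ^ k * d := by
    intro s
    obtain ⟨k, d, hd, h⟩ := h1 s
    exact ⟨k, d, hCZ i0 hd, h⟩
  have hxm : x ^ (2 ^ m) ∈ Z := by
    apply invol_mem Z (C' i0) (hCZ i0) (hsq i0) (hne i0) hu0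
    rw [← pow_add, ← two_mul, ← pow_succ', h4]
  have hmZ : ∀ k : ℕ, x ^ k ∈ Z ↔ 2 ^ m ∣ k := by
    intro k
    constructor
    · intro h
      have h6 := hsq i0 _ h
      rw [← pow_add, ← two_mul, h4, pow_succ'] at h6
      exact Nat.dvd_of_mul_dvd_mul_left (by norm_num) h6
    · rintro ⟨j, rfl⟩
      rw [pow_mul]; exact pow_mem hxm j
  have hrel : ∀ i, (y * x * y⁻¹ * x ∈ C' i) ∧ (y * y * (x ^ (2 ^ m))⁻¹ ∈ C' i) ∧
      (∀ k : ℕ, x ^ k ∈ C' i ↔ 2 ^ (m + 1) ∣ k) := by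
    intro i
    obtain ⟨hni, hnai, hui⟩ := hCq i
    exact rel hS Z (C' i) hZc (hCZ i) (hsq i) (hne i) hnai hui x y h1Z m (hCZ i0 h2) (hCZ i0 h3) hxy hxZ hmZ
  have hd1 : y * x * y⁻¹ * x = 1 := hint _ (fun i => (hrel i).1)
  have he1 : y * y * (x ^ (2 ^ m))⁻¹ = 1 := hint _ (fun i => (hrel i).2.1)
  have hinv : y * x * y⁻¹ = x⁻¹ := eq_inv_of_mul_eq_one_left hd1
  have hyy : y ^ 2 = x ^ (2 ^ m) := by rw [pow_two]; exact mul_inv_eq_one.1 he1
  have hx1 : x ^ (2 * 2 ^ m) = 1 := hint _ (fun i => by rw [(hrel i).2.2, pow_succ'])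
  have hNZ : NeZero (2 * 2 ^ m) := ⟨by positivity⟩
  set q := Lib.UniqueInvolution.quatHom (2 ^ m) x y hx1 hyy hinv with hq
  have hqa : ∀ k : ZMod (2 * 2 ^ m), q (QuaternionGroup.a k) = x ^ k.val := by
    intro k
    have : QuaternionGroup.a k = (QuaternionGroup.a 1 : QuaternionGroup (2 ^ m)) ^ k.val := by
      rw [QuaternionGroup.a_one_pow, ZMod.natCast_zmod_val]
    rw [this, map_pow, hq, Lib.UniqueInvolution.quatHom_a_one]
  have hqx : ∀ k : ZMod (2 * 2 ^ m), q (QuaternionGroup.xa k) = y * x ^ k.val := by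
    intro k
    have : QuaternionGroup.xa k = (QuaternionGroup.xa 0 : QuaternionGroup (2 ^ m)) * QuaternionGroup.a k := by
      rw [QuaternionGroup.xa_mul_a, zero_add]
    rw [this, map_mul, hqa, hq, Lib.UniqueInvolution.quatHom_xa_zero]
  set Q : Subgroup S := q.range with hQ
  have hQx : x ∈ Q := ⟨QuaternionGroup.a 1, by rw [hq, Lib.UniqueInvolution.quatHom_a_one]⟩
  have hQy : y ∈ Q := ⟨QuaternionGroup.xa 0, by rw [hq, Lib.UniqueInvolution.quatHom_xa_zero]⟩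
  have hQel : ∀ s ∈ Q, ∃ k : ℕ, s = x ^ k ∨ s = y * x ^ k := by
    rintro _ ⟨g, rfl⟩
    rcases g with k | k
    · exact ⟨k.val, Or.inl (hqa k)⟩
    · exact ⟨k.val, Or.inr (hqx k)⟩
  have hynZ : ∀ k : ℕ, y * x ^ k ∉ Z := by
    intro k h
    apply hxy
    have h6 : Commute x (y * x ^ k) := hZc _ h x
    have h7 : Commute x ((y * x ^ k) * (x ^ k)⁻¹) := h6.mul_right ((Commute.refl x).pow_right k).inv_right
    rw [mul_inv_cancel_right] at h7
    exact h7.symm.eq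
  -- the involution
  set e := x ^ (2 ^ m) with he
  have heZ : e ∈ Z := hxm
  have hee : e * e = 1 := by rw [he, ← pow_add, ← two_mul]; exact hx1
  have heC : ∀ i, e ∉ C' i := by
    intro i h
    rw [he, (hrel i).2.2, Nat.pow_dvd_pow_iff_le_right (by norm_num)] at h
    omega
  have hZ2 : ∀ z ∈ Z, z * z = 1 := fun z hz => hint _ (fun i => hsq i z hz)
  have hQinv : ∀ s ∈ Q, s * s = 1 → s = 1 ∨ s = e := by
    intro s hs hss
    have hsZ : s ∈ Z := invol_mem Z (C' i0) (hCZ i0) (hsq i0) (hne i0) hu0 s (by rw [hss]; exact one_mem _)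
    obtain ⟨k, rfl | rfl⟩ := hQel s hs
    · by_cases hk : 2 ^ (m + 1) ∣ k
      · left
        exact hint _ (fun i => ((hrel i).2.2 k).2 hk)
      · right
        have h6 : e⁻¹ * x ^ k = 1 := by
          apply hint
          intro i
          obtain ⟨hni, hnai, hui⟩ := hCq i
          exact invol_eq (C' i) hui (by rw [hee]; exact one_mem _) (heC i) (by rw [hss]; exact one_mem _)
            (fun h => hk (((hrel i).2.2 k).1 h))
        exact (inv_mul_eq_one.1 h6).symm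
    · exact absurd hsZ (hynZ k)
  have he1 : e ≠ 1 := fun h => heC i0 (by rw [h]; exact one_mem _)
  have heQ : e ∈ Q := pow_mem hQx _
  refine ⟨C' i0, Q, ⟨le_top, le_top, ?_, ?_, ?_⟩, ⟨?_, ?_⟩, ?_, ?_⟩
  · intro a ha b _
    exact (hZc a (hCZ i0 ha) b).symm
  · rw [eq_bot_iff]
    rintro s ⟨hs1, hs2⟩
    rw [Subgroup.mem_bot]
    rcases hQinv s hs2 (hZ2 s (hCZ i0 hs1)) with h | h
    · exact h
    · exact absurd (by rw [← h]; exact hs1) (heC i0)
  · rw [eq_top_iff]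
    intro s _
    obtain ⟨k, d, hd, rfl | rfl⟩ := h1 s
    · exact mul_mem (Subgroup.mem_sup_right (pow_mem hQx k)) (Subgroup.mem_sup_left hd)
    · exact mul_mem (Subgroup.mem_sup_right (mul_mem hQy (pow_mem hQx k))) (Subgroup.mem_sup_left hd)
  · refine ⟨⟨fun a b => Subtype.ext ?_⟩⟩
    exact (hZc b (hCZ i0 b.2) a)
  · intro a ha
    rw [pow_two]; exact hZ2 a (hCZ i0 ha)
  · rintro ⟨⟨hcom⟩⟩
    exact hxy (congrArg Subtype.val (hcom ⟨y, hQy⟩ ⟨x, hQx⟩))
  · refine ⟨⟨e, heQ⟩, ?_, ?_⟩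
    · show orderOf (⟨e, heQ⟩ : Q) = 2
      apply orderOf_eq_prime
      · rw [pow_two]; exact Subtype.ext hee
      · intro h; exact he1 (congrArg Subtype.val h)
    · rintro ⟨s, hs⟩ h
      have h' : orderOf (⟨s, hs⟩ : Q) = 2 := h
      have h6 : (⟨s, hs⟩ : Q) ^ 2 = 1 := by rw [← h']; exact pow_orderOf_eq_one _
      have h7 : s * s = 1 := by
        rw [pow_two] at h6; exact congrArg Subtype.val h6
      rcases hQinv s hs h7 with h8 | h8
      · exfalso
        subst h8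
        have : (⟨1, hs⟩ : Q) = 1 := rfl
        rw [this, orderOf_one] at h'
        omega
      · exact Subtype.ext h8

/-- Let S be a finite 2-group whose centre Z(S) has n ≥ 2 distinct maximal subgroups C₁, …, Cₙ with trivial intersection such that each quotient S/Cᵢ is a non-abelian group with exactly one involution (a generalized quaternion group). Then S is the internal direct product of an elementary abelian subgroup and a non-abelian subgroup with exactly one involution. -/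
theorem result {S : Type*} [Group S] [Finite S]
    (hS : IsPGroup 2 S) (n : ℕ) (hn : 2 ≤ n) (C : Fin n → Subgroup ↥(Subgroup.center S))
    (hCmax : ∀ i, IsCoatom (C i)) (hCinj : Function.Injective C) (hCint : ⨅ i, C i = ⊥)
    (hCq : ∀ i, ∃ (_ : ((C i).map (Subgroup.center S).subtype).Normal),
      ¬ IsMulCommutative (S ⧸ (C i).map (Subgroup.center S).subtype) ∧
      ∃! x : S ⧸ (C i).map (Subgroup.center S).subtype, orderOf x = 2) :
    ∃ E Q : Subgroup S, Cfsg.IsInternalDirectProduct E Q ⊤ ∧ Cfsg.IsElementaryAbelian 2 E ∧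
      ¬ IsMulCommutative ↥Q ∧ ∃! x : ↥Q, orderOf x = 2 := by
  classical
  have : Fact (Nat.Prime 2) := ⟨Nat.prime_two⟩
  have hCZ : ∀ i, (C i).map (Subgroup.center S).subtype ≤ Subgroup.center S := by
    rintro i _ ⟨d, -, rfl⟩; exact d.2
  refine main hS n hn (Subgroup.center S) (fun i => (C i).map (Subgroup.center S).subtype)
    (fun d hd s => Subgroup.mem_center_iff.1 hd s) hCZ ?_ ?_ ?_ hCq
  · intro i z hz
    have h1 := Lib.H70Frattini.coatom_index (hS.to_subgroup (Subgroup.center S)) (hCmax i)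
    have h2 := Subgroup.mul_self_mem_of_index_two h1 ⟨z, hz⟩
    exact Subgroup.mem_map_of_mem (Subgroup.center S).subtype h2
  · intro i h
    apply (hCmax i).1
    rw [eq_top_iff]
    intro z _
    obtain ⟨d, hd, hdz⟩ := h z.2
    have : d = z := Subtype.ext hdz
    rw [← this]; exact hd
  · intro s hs
    obtain ⟨i0⟩ : Nonempty (Fin n) := ⟨⟨0, by omega⟩⟩
    have hsZ : s ∈ Subgroup.center S := hCZ i0 (hs i0)
    have h1 : (⟨s, hsZ⟩ : Subgroup.center S) ∈ ⨅ i, C i := by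
      rw [Subgroup.mem_iInf]
      intro i
      obtain ⟨d, hd, hds⟩ := hs i
      have : d = ⟨s, hsZ⟩ := Subtype.ext hds
      rw [← this]; exact hd
    rw [hCint, Subgroup.mem_bot] at h1
    exact congrArg Subtype.val h1

end Cfsg.Agent.S3201
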