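import Cfsg.Statements.S3202
import Cfsg.Agent.Lib.H53Quat

set_option autoImplicit false
open Cfsg

namespace Cfsg.Agent.S3202

theorem core {S : Type*} [Group S] [Finite S] (hS : IsPGroup 2 S) (C : Subgroup S) [C.Normal]
    (hCc : ∀ d ∈ C, ∀ s : S, s * d = d * s)
    (hna : ¬ IsMulCommutative (S ⧸ C)) (hu : ∃! x : S ⧸ C, orderOf x = 2) :
    ∃ N : Subgroup S, N ≠ ⊥ ∧ IsCyclic ↥N ∧ N.Characteristic := by
  obtain ⟨m, hm, x, y, h1, h2, h3, h4, h5⟩ := Lib.H53Quat.frame hS C hna hu
  set d := y * x * y⁻¹ * x with hd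
  set c := y * x * y⁻¹ * x⁻¹ with hc
  have hdx : x * d = d * x := hCc d h2 x
  have hcx : x * c = c * x := by
    have e : c = d * (x⁻¹ * x⁻¹) := by rw [hc, hd]; group
    rw [e, ← mul_assoc, hdx]; group
  have hy2 : (y * y) * x = x * (y * y) := by
    set e := y * y * (x ^ (2 ^ m))⁻¹ with he
    have e1 : y * y = e * x ^ (2 ^ m) := by rw [he]; group
    have e2 : x * e = e * x := hCc e h3 x
    have e3 : Commute x e := e2
    have e4 : Commute x (x ^ (2 ^ m)) := (Commute.refl x).pow_right _
    rw [e1]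
    exact (e3.mul_right e4).symm.eq
  have hcy : y * c * y⁻¹ = c⁻¹ := by
    calc y * c * y⁻¹ = ((y * y) * x) * (y * y)⁻¹ * (y * x⁻¹ * y⁻¹) := by rw [hc]; group
      _ = (x * (y * y)) * (y * y)⁻¹ * (y * x⁻¹ * y⁻¹) := by rw [hy2]
      _ = c⁻¹ := by rw [hc]; group
  have hxk : ∀ k : ℕ, x ^ k * c = c * x ^ k := fun k => (show Commute x c from hcx).pow_left k
  have hconj : ∀ s : S, s * c * s⁻¹ = c ∨ s * c * s⁻¹ = c⁻¹ := by
    intro s
    obtain ⟨k, e, he, rfl | rfl⟩ := h1 s
    · left
      have e1 := hCc e he c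
      calc x ^ k * e * c * (x ^ k * e)⁻¹ = x ^ k * (e * c) * e⁻¹ * (x ^ k)⁻¹ := by group
        _ = (x ^ k * c) * (x ^ k)⁻¹ := by rw [← e1]; group
        _ = c := by rw [hxk]; group
    · right
      have e1 := hCc e he c
      calc y * x ^ k * e * c * (y * x ^ k * e)⁻¹ = y * (x ^ k * (e * c) * e⁻¹ * (x ^ k)⁻¹) * y⁻¹ := by group
        _ = y * ((x ^ k * c) * (x ^ k)⁻¹) * y⁻¹ := by rw [← e1]; group
        _ = y * c * y⁻¹ := by rw [hxk]; group
        _ = _ := hcy
  set N : Subgroup S := Subgroup.zpowers c with hN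
  have hNn : N.Normal := by
    refine ⟨?_⟩
    rintro _ ⟨j, rfl⟩ s
    show s * c ^ j * s⁻¹ ∈ N
    rw [← conj_zpow]
    rcases hconj s with h | h <;> rw [h]
    · exact Subgroup.zpow_mem _ (Subgroup.mem_zpowers c) j
    · exact Subgroup.zpow_mem _ (inv_mem (Subgroup.mem_zpowers c)) j
  set π := QuotientGroup.mk' N with hπ
  have hπxy : Commute (π x) (π y) := by
    have : π c = 1 := (QuotientGroup.eq_one_iff c).2 (Subgroup.mem_zpowers c)
    rw [hc, map_mul, map_mul, map_mul, map_inv, map_inv] at this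
    show π x * π y = π y * π x
    rw [mul_inv_eq_one, mul_inv_eq_iff_eq_mul] at this
    exact this.symm
  have hπd : ∀ e ∈ C, ∀ s, Commute (π s) (π e) := by
    intro e he s
    show π s * π e = π e * π s
    rw [← map_mul, ← map_mul, hCc e he s]
  have hcomm1 : ∀ u, Commute (π x) u → Commute (π y) u → ∀ s, (∀ e ∈ C, Commute (π e) u) → Commute (π s) u := by
    intro u hux huy s hu
    obtain ⟨k, e, he, rfl | rfl⟩ := h1 s
    · rw [map_mul, map_pow]
      exact (hux.pow_left k).mul_left (hu e he)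
    · rw [map_mul, map_mul, map_pow]
      exact (huy.mul_left (hux.pow_left k)).mul_left (hu e he)
  have hsx : ∀ s, Commute (π s) (π x) := fun s =>
    hcomm1 _ (Commute.refl _) hπxy.symm s (fun e he => (hπd e he x).symm)
  have hsy : ∀ s, Commute (π s) (π y) := fun s =>
    hcomm1 _ hπxy (Commute.refl _) s (fun e he => (hπd e he y).symm)
  have hst : ∀ s t, Commute (π s) (π t) := fun s t =>
    hcomm1 _ (hsx t).symm (hsy t).symm s (fun e he => (hπd e he t).symm)
  have hle : commutator S ≤ N := by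
    rw [commutator_def, Subgroup.commutator_le]
    intro g _ h _
    rw [← QuotientGroup.eq_one_iff (N := N)]
    change π (g * h * g⁻¹ * h⁻¹) = 1
    rw [← commutatorElement_def]
    rw [map_commutatorElement, commutatorElement_eq_one_iff_commute]
    exact hst g h
  have hcm : c ∈ commutator S := by
    rw [commutator_def]
    exact Subgroup.commutator_mem_commutator (Subgroup.mem_top y) (Subgroup.mem_top x)
  have heq : commutator S = N := le_antisymm hle (by rw [hN, Subgroup.zpowers_le]; exact hcm)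
  refine ⟨commutator S, ?_, ?_, inferInstance⟩
  · intro hb
    rw [hb, Subgroup.mem_bot] at hcm
    have e : x ^ 2 ∈ C := by
      have e1 : x ^ 2 = d := by
        calc x ^ 2 = c * (x * x) := by rw [hcm, one_mul, pow_two]
          _ = d := by rw [hc, hd]; group
      rw [e1]; exact h2
    have := (h4 2).1 e
    have h6 := Nat.le_of_dvd (by norm_num) this
    have h7 : 2 ^ 2 ≤ 2 ^ (m + 1) := Nat.pow_le_pow_right (by norm_num) (by omega)
    omega
  · rw [heq, hN]
    exact inferInstance

/-- Let S be a finite 2-group of 2-rank exactly 2 and D a maximal subgroup of the centre of S such that S/D is a non-abelian group with exactly one involution (a generalized quaternion group). Then S has a nontrivial cyclic characteristic subgroup. -/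
theorem result {S : Type*} [Group S]
    [Finite S] (hS : IsPGroup 2 S) (hr2 : Cfsg.PRankLE 2 2 S) (hr1 : ¬ Cfsg.PRankLE 2 1 S)
    (D : Subgroup ↥(Subgroup.center S)) (hD : IsCoatom D)
    (hq : ∃ (_ : (D.map (Subgroup.center S).subtype).Normal),
      ¬ IsMulCommutative (S ⧸ D.map (Subgroup.center S).subtype) ∧
      ∃! x : S ⧸ D.map (Subgroup.center S).subtype, orderOf x = 2) :
    ∃ C : Subgroup S, C ≠ ⊥ ∧ IsCyclic ↥C ∧ C.Characteristic := by
  obtain ⟨hn, hna, hu⟩ := hq
  exact core hS (D.map (Subgroup.center S).subtype) (by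
    rintro _ ⟨d, -, rfl⟩ s
    exact Subgroup.mem_center_iff.1 d.2 s) hna hu

end Cfsg.Agent.S3202
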