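import Cfsg.Statements.S3208
import Cfsg.Agent.Lib.H53Basic

set_option autoImplicit false
open Cfsg

namespace Cfsg.Agent.S3208

/-- Let j be an involution of a finite group G, H a subgroup of G, and T a Sylow 2-subgroup of H ∩ C_G(j) containing j such that ⟨j⟩ is a characteristic subgroup of T. Then T is a Sylow 2-subgroup of H. -/
theorem result {G : Type*} [Group G] [Finite G]
    (j : G) (hj : orderOf j = 2) (H T : Subgroup G) (hT : T ≤ H ⊓ Subgroup.centralizer ({j} : Set G)) (h2 : IsPGroup 2 ↥T)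
    (hSyl : ¬ 2 ∣ T.relIndex (H ⊓ Subgroup.centralizer ({j} : Set G))) (hjT : j ∈ T)
    (hchar : ((Subgroup.zpowers j).subgroupOf T).Characteristic) :
    ¬ 2 ∣ T.relIndex H := by
  intro hdvd
  have : Fact (Nat.Prime 2) := ⟨Nat.prime_two⟩
  set T0 : Subgroup H := T.subgroupOf H with hT0
  have hTH : T ≤ H := hT.trans inf_le_left
  obtain ⟨n, hn⟩ := (IsPGroup.iff_card (p := 2)).1 (h2.comap_subtype (K := H))
  have hn' : Nat.card T0 = 2 ^ n := hn
  set N : Subgroup H := Subgroup.normalizer (T0 : Set H) with hN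
  have h1 := Sylow.card_quotient_normalizer_modEq_card_quotient hn'
  have h3 : 2 ∣ T0.relIndex N := by
    have h4 : Nat.card (H ⧸ T0) = T.relIndex H := rfl
    rw [h4] at h1
    have h5 : Nat.card (↥N ⧸ T0.subgroupOf N) = T0.relIndex N := rfl
    rw [← h5]
    exact (Nat.modEq_zero_iff_dvd.1 (h1.trans (Nat.modEq_zero_iff_dvd.2 hdvd)))
  -- the normalizer centralizes j
  have hNc : N.map H.subtype ≤ H ⊓ Subgroup.centralizer ({j} : Set G) := by
    rintro _ ⟨x, hx, rfl⟩
    refine ⟨x.2, ?_⟩
    show (x : G) ∈ Subgroup.centralizer ({j} : Set G)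
    rw [Subgroup.mem_centralizer_singleton_iff]
    have hxN : (x : G) ∈ Subgroup.normalizer (T : Set G) := by
      rw [Subgroup.mem_normalizer_iff]
      have hx' := Subgroup.mem_normalizer_iff.1 hx
      intro y
      constructor
      · intro hy
        exact (hx' ⟨y, hTH hy⟩).1 hy
      · intro hy
        have hyH : y ∈ H := by
          have := H.mul_mem (H.mul_mem (H.inv_mem x.2) (hTH hy)) x.2
          convert this using 1
          group
        exact (hx' ⟨y, hyH⟩).2 hy
    set φ : MulAut T := T.normalizerMonoidHom ⟨x, hxN⟩ with hφ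
    have hφ1 : ∀ y : T, ((φ y : T) : G) = x * y * (x : G)⁻¹ := fun y => rfl
    have hjz : (⟨j, hjT⟩ : T) ∈ (Subgroup.zpowers j).subgroupOf T := Subgroup.mem_zpowers j
    have h6 : φ ⟨j, hjT⟩ ∈ (Subgroup.zpowers j).subgroupOf T := by
      have := hchar.fixed φ
      rw [← this] at hjz
      exact hjz
    have h7 : (x : G) * j * (x : G)⁻¹ ∈ Subgroup.zpowers j := h6
    have h9 := congrArg (· * (x : G)) (Lib.H53Basic.conj_eq_of_mem_zpowers hj h7)
    simpa using h9
  have h10 : T0.relIndex N = T.relIndex (N.map H.subtype) := by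
    have : T = T0.map H.subtype := by rw [hT0, Subgroup.subgroupOf_map_subtype, inf_eq_left.2 hTH]
    conv_rhs => rw [this]
    rw [Subgroup.relIndex_map_map_of_injective _ _ H.subtype_injective]
  apply hSyl
  have h11 : T ≤ N.map H.subtype := by
    have : T = T0.map H.subtype := by rw [hT0, Subgroup.subgroupOf_map_subtype, inf_eq_left.2 hTH]
    rw [this]
    exact Subgroup.map_mono Subgroup.le_normalizer
  rw [← Subgroup.relIndex_mul_relIndex T (N.map H.subtype) _ h11 hNc]
  exact Dvd.dvd.mul_right (h10 ▸ h3) _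

end Cfsg.Agent.S3208
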