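import Cfsg.Statements.S3209
import Cfsg.Agent.Lib.H53SL2
import Cfsg.Agent.Lib.H53Basic
import Cfsg.Agent.Lib.SubgroupTools

set_option autoImplicit false
open Cfsg

namespace Cfsg.Agent.S3209

open Subgroup Pointwise Cfsg.Agent.Lib.SubgroupTools

/-- Let L₁ ≅ SL₂(q₁) and L₂ ≅ SL₂(q₂), q₁ and q₂ odd, be elementwise-commuting subgroups of a finite group meeting in ⟨j⟩ for an involution j. Then L₁L₂ has exactly two conjugacy classes of involutions: the central involution j, and one further class (there is an involution x ≠ j in L₁L₂, and every involution of L₁L₂ other than j is conjugate to x by an element of L₁L₂). -/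
theorem result {G : Type*} [Group G] [Finite G]
    {F₁ : Type*} [Field F₁] [Fintype F₁] {F₂ : Type*} [Field F₂] [Fintype F₂]
    (hF₁ : Odd (Fintype.card F₁)) (hF₂ : Odd (Fintype.card F₂)) (L₁ L₂ : Subgroup G)
    (e₁ : ↥L₁ ≃* Matrix.SpecialLinearGroup (Fin 2) F₁) (e₂ : ↥L₂ ≃* Matrix.SpecialLinearGroup (Fin 2) F₂)
    (hc : ∀ x ∈ L₁, ∀ y ∈ L₂, x * y = y * x) (j : G) (hj : orderOf j = 2) (hm : L₁ ⊓ L₂ = Subgroup.zpowers j) :
    ∃ x ∈ L₁ ⊔ L₂, orderOf x = 2 ∧ x ≠ j ∧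
      ∀ y ∈ L₁ ⊔ L₂, orderOf y = 2 → y = j ∨ ∃ g ∈ L₁ ⊔ L₂, g * x * g⁻¹ = y := by
  have h21 : (2 : F₁) ≠ 0 := Lib.ClUtil.two_ne_zero_of_odd_card hF₁
  have h22 : (2 : F₂) ≠ 0 := Lib.ClUtil.two_ne_zero_of_odd_card hF₂
  have hjm : j ∈ L₁ ⊓ L₂ := hm ▸ Subgroup.mem_zpowers j
  have hj1 : j ≠ 1 := by rintro rfl; rw [orderOf_one] at hj; omega
  have hjj : j * j = 1 := by
    have := pow_orderOf_eq_one j
    rwa [hj, sq] at this
  have hjo1 : orderOf (⟨j, hjm.1⟩ : L₁) = 2 := by rw [← hj]; exact Subgroup.orderOf_mk _ _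
  have hjo2 : orderOf (⟨j, hjm.2⟩ : L₂) = 2 := by rw [← hj]; exact Subgroup.orderOf_mk _ _
  obtain ⟨x1, hx1⟩ := Lib.H53SL2.exists_sq_eq e₁ h21 hjo1
  obtain ⟨x2, hx2⟩ := Lib.H53SL2.exists_sq_eq e₂ h22 hjo2
  have hx1' : (x1 : G) * x1 = j := congrArg Subtype.val hx1
  have hx2' : (x2 : G) * x2 = j := congrArg Subtype.val hx2
  have hnorm : L₂ ≤ Subgroup.normalizer (L₁ : Set G) := by
    intro y hy
    rw [Subgroup.mem_normalizer_iff]
    intro z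
    constructor
    · intro hz
      have : y * z * y⁻¹ = z := by rw [← hc z hz y hy]; group
      rw [this]; exact hz
    · intro hz
      have h1 : y⁻¹ * (y * z * y⁻¹) * y = y * z * y⁻¹ := by rw [mul_assoc, hc _ hz y hy]; group
      have h2 : y⁻¹ * (y * z * y⁻¹) * y = z := by group
      rw [← h2, h1]; exact hz
  have hL : ∀ z, z ∈ L₁ ⊔ L₂ → ∃ a ∈ L₁, ∃ b ∈ L₂, a * b = z := fun z hz => (mem_sup_of_le_normalizer hnorm).1 hz
  have hint : ∀ z, z ∈ L₁ → z ∈ L₂ → z = 1 ∨ z = j := by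
    intro z h1 h2
    have : z ∈ L₁ ⊓ L₂ := ⟨h1, h2⟩
    rw [hm] at this
    exact (Lib.H53Basic.mem_zpowers_iff_of_orderOf_two hj z).1 this
  have hx1nj : (x1 : G) ∉ L₂ := by
    intro h
    rcases hint x1 x1.2 h with h1 | h1
    · rw [h1, one_mul] at hx1'; exact hj1 hx1'.symm
    · rw [h1, hjj] at hx1'; exact hj1 hx1'.symm
  have hsq : ((x1 : G) * x2) * (x1 * x2) = 1 := by
    calc ((x1 : G) * x2) * (x1 * x2) = x1 * (x2 * x1) * x2 := by group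
    _ = x1 * (x1 * x2) * x2 := by rw [hc x1 x1.2 x2 x2.2]
    _ = (x1 * x1) * (x2 * x2) := by group
    _ = 1 := by rw [hx1', hx2', hjj]
  have hne1 : (x1 : G) * x2 ≠ 1 := by
    intro h
    apply hx1nj
    rw [eq_inv_of_mul_eq_one_left h]; exact inv_mem x2.2
  have hnej : (x1 : G) * x2 ≠ j := by
    intro h
    apply hx1nj
    rw [eq_mul_inv_of_mul_eq h]; exact mul_mem hjm.2 (inv_mem x2.2)
  refine ⟨(x1 : G) * x2, mul_mem (Subgroup.mem_sup_left x1.2) (Subgroup.mem_sup_right x2.2), ?_, hnej, ?_⟩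
  · exact orderOf_eq_prime (by rw [sq]; exact hsq) hne1
  intro y hy hy2
  have hyy : y * y = 1 := by
    have := pow_orderOf_eq_one y
    rwa [hy2, sq] at this
  have hy1 : y ≠ 1 := by rintro rfl; rw [orderOf_one] at hy2; omega
  obtain ⟨a, ha, b, hb, rfl⟩ := hL y hy
  have hab : (a * a) * (b * b) = 1 := by
    rw [← hyy]
    calc (a * a) * (b * b) = a * (a * b) * b := by group
    _ = a * (b * a) * b := by rw [hc a ha b hb]
    _ = (a * b) * (a * b) := by group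
  have haa : a * a ∈ L₂ := by
    rw [eq_inv_of_mul_eq_one_left hab]; exact inv_mem (mul_mem hb hb)
  rcases hint (a * a) (mul_mem ha ha) haa with h1 | h1
  · left
    have hbb : b * b = 1 := by rw [h1, one_mul] at hab; exact hab
    have ha' := Lib.H53SL2.eq_of_sq_eq_one e₁ h21 hjo1 (a := ⟨a, ha⟩) (Subtype.ext h1)
    have hb' := Lib.H53SL2.eq_of_sq_eq_one e₂ h22 hjo2 (a := ⟨b, hb⟩) (Subtype.ext hbb)
    have ha'' : a = 1 ∨ a = j := ha'.imp (congrArg Subtype.val) (congrArg Subtype.val)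
    have hb'' : b = 1 ∨ b = j := hb'.imp (congrArg Subtype.val) (congrArg Subtype.val)
    rcases ha'' with rfl | rfl <;> rcases hb'' with rfl | rfl
    · exact absurd (one_mul 1) hy1
    · rw [one_mul]
    · rw [mul_one]
    · exact absurd hjj hy1
  · right
    have hbb : b * b = j := by
      rw [h1] at hab
      have := eq_inv_of_mul_eq_one_right hab
      rw [this, inv_eq_iff_mul_eq_one, hjj]
    obtain ⟨g1, hg1⟩ := Lib.H53SL2.conj_of_sq_eq e₁ h21 hjo1 (x := x1) (y := ⟨a, ha⟩) hx1 (Subtype.ext h1)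
    obtain ⟨g2, hg2⟩ := Lib.H53SL2.conj_of_sq_eq e₂ h22 hjo2 (x := x2) (y := ⟨b, hb⟩) hx2 (Subtype.ext hbb)
    have hg1' : (g1 : G) * x1 * (g1 : G)⁻¹ = a := congrArg Subtype.val hg1
    have hg2' : (g2 : G) * x2 * (g2 : G)⁻¹ = b := congrArg Subtype.val hg2
    refine ⟨(g1 : G) * g2, mul_mem (Subgroup.mem_sup_left g1.2) (Subgroup.mem_sup_right g2.2), ?_⟩
    rw [← hg1', ← hg2']
    have c1 : (g2 : G) * x1 = x1 * g2 := (hc x1 x1.2 g2 g2.2).symm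
    have c2 : (g1 : G)⁻¹ * g2 = g2 * (g1 : G)⁻¹ := hc _ (inv_mem g1.2) g2 g2.2
    have c3 : (g1 : G)⁻¹ * x2 = x2 * (g1 : G)⁻¹ := hc _ (inv_mem g1.2) x2 x2.2
    have c4 : (g1 : G)⁻¹ * (g2 : G)⁻¹ = (g2 : G)⁻¹ * (g1 : G)⁻¹ := hc _ (inv_mem g1.2) _ (inv_mem g2.2)
    calc (g1 : G) * g2 * (x1 * x2) * ((g1 : G) * g2)⁻¹ = g1 * (g2 * x1) * x2 * ((g2 : G)⁻¹ * (g1 : G)⁻¹) := by group
    _ = g1 * x1 * (g2 * x2 * (g2 : G)⁻¹ * (g1 : G)⁻¹) := by rw [c1]; group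
    _ = g1 * x1 * ((g1 : G)⁻¹ * (g2 * x2 * (g2 : G)⁻¹)) := by
        congr 1
        rw [hc _ (inv_mem g1.2) _ (mul_mem (mul_mem g2.2 x2.2) (inv_mem g2.2))]
    _ = (g1 : G) * x1 * (g1 : G)⁻¹ * (g2 * x2 * (g2 : G)⁻¹) := by group

end Cfsg.Agent.S3209
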