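import Cfsg.Statements.S3210
import Cfsg.Agent.Lib.H53SL2
import Cfsg.Agent.Lib.H53SL2b
import Cfsg.Agent.Lib.H53Basic
import Cfsg.Agent.Lib.SubgroupTools

set_option autoImplicit false
open Cfsg

namespace Cfsg.Agent.S3210

open Subgroup Pointwise Cfsg.Agent.Lib.SubgroupTools

theorem le_norm_of_comm {G : Type*} [Group G] {L₁ L₂ : Subgroup G} (hc : ∀ x ∈ L₁, ∀ y ∈ L₂, x * y = y * x) :
    L₂ ≤ Subgroup.normalizer (L₁ : Set G) := by
  intro y hy
  rw [Subgroup.mem_normalizer_iff]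
  intro z
  constructor
  · intro hz
    have : y * z * y⁻¹ = z := by rw [← hc z hz y hy]; group
    rw [this]; exact hz
  · intro hz
    have h1 : y⁻¹ * (y * z * y⁻¹) * y = y * z * y⁻¹ := by rw [mul_assoc, hc _ hz y hy]; group
    have h2 : y⁻¹ * (y * z * y⁻¹) * y = z := by group
    rw [← h2, h1]; exact hz

/-- One half of the uniqueness of the decomposition. -/
theorem half {G : Type*} [Group G]
    {F₁ : Type*} [Field F₁] [Fintype F₁] {F₂ : Type*} [Field F₂] [Fintype F₂]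
    (hF₁ : Odd (Fintype.card F₁)) (hF₂ : Odd (Fintype.card F₂)) (L₁ L₂ : Subgroup G)
    (e₁ : ↥L₁ ≃* Matrix.SpecialLinearGroup (Fin 2) F₁) (e₂ : ↥L₂ ≃* Matrix.SpecialLinearGroup (Fin 2) F₂)
    (hc : ∀ x ∈ L₁, ∀ y ∈ L₂, x * y = y * x) (j : G) (hj : orderOf j = 2) (hm : L₁ ⊓ L₂ = Subgroup.zpowers j)
    (R₁ R₂ : Subgroup G) (hcR : ∀ x ∈ R₁, ∀ y ∈ R₂, x * y = y * x) (hmR : R₁ ⊓ R₂ = Subgroup.zpowers j)
    (hY : L₁ ⊔ L₂ = R₁ ⊔ R₂) : L₁ ≤ R₁ ∨ L₁ ≤ R₂ := by
  have h21 : (2 : F₁) ≠ 0 := Lib.ClUtil.two_ne_zero_of_odd_card hF₁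
  have h22 : (2 : F₂) ≠ 0 := Lib.ClUtil.two_ne_zero_of_odd_card hF₂
  have hjm : j ∈ L₁ ⊓ L₂ := hm ▸ Subgroup.mem_zpowers j
  have hjR : j ∈ R₁ ⊓ R₂ := hmR ▸ Subgroup.mem_zpowers j
  have hjo1 : orderOf (⟨j, hjm.1⟩ : L₁) = 2 := by rw [← hj]; exact Subgroup.orderOf_mk _ _
  have hjo2 : orderOf (⟨j, hjm.2⟩ : L₂) = 2 := by rw [← hj]; exact Subgroup.orderOf_mk _ _
  have hL : ∀ z, z ∈ L₁ ⊔ L₂ → ∃ a ∈ L₁, ∃ b ∈ L₂, a * b = z :=
    fun z hz => (mem_sup_of_le_normalizer (le_norm_of_comm hc)).1 hz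
  have hR : ∀ z, z ∈ L₁ ⊔ L₂ → ∃ a ∈ R₁, ∃ b ∈ R₂, a * b = z := by
    intro z hz
    rw [hY] at hz
    exact (mem_sup_of_le_normalizer (le_norm_of_comm hcR)).1 hz
  have hR1Y : R₁ ≤ L₁ ⊔ L₂ := hY ▸ le_sup_left
  -- j is central in Y
  have hjc : ∀ z, z ∈ L₁ ⊔ L₂ → z * j = j * z := by
    intro z hz
    obtain ⟨a, ha, b, hb, rfl⟩ := hL z hz
    have h1 : a * j = j * a := hc a ha j hjm.2
    have h2 : b * j = j * b := (hc j hjm.1 b hb).symm
    rw [mul_assoc, h2, ← mul_assoc, h1, mul_assoc]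
  have hstep : ∀ x ∈ L₁, ∃ r₁ ∈ R₁, ∃ r₂ ∈ R₂, r₁ * r₂ = x ∧ r₁ ∈ L₁ ∧ r₂ ∈ L₁ := by
    intro x hx
    obtain ⟨r₁, hr₁, r₂, hr₂, hrx⟩ := hR x (Subgroup.mem_sup_left hx)
    have hr1L : r₁ ∈ L₁ := by
      obtain ⟨a, ha, b, hb, hab⟩ := hL r₁ (hR1Y hr₁)
      have hb1 : (⟨b, hb⟩ : L₂) = 1 ∨ (⟨b, hb⟩ : L₂) = ⟨j, hjm.2⟩ := by
        apply Lib.H53SL2b.emb_central_mod e₂ h22 hjo2
        rintro ⟨y, hy⟩
        obtain ⟨s₁, hs₁, s₂, hs₂, hsy⟩ := hR y (Subgroup.mem_sup_right hy)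
        -- x y = y x
        have hxy : x * y = y * x := hc x hx y hy
        have h1 : (r₁ * s₁) * (r₂ * s₂) = (s₁ * r₁) * (s₂ * r₂) := by
          calc (r₁ * s₁) * (r₂ * s₂) = r₁ * (s₁ * r₂) * s₂ := by group
          _ = (r₁ * r₂) * (s₁ * s₂) := by rw [hcR s₁ hs₁ r₂ hr₂]; group
          _ = (s₁ * s₂) * (r₁ * r₂) := by rw [hrx, hsy, hxy]
          _ = s₁ * (s₂ * r₁) * r₂ := by group
          _ = (s₁ * r₁) * (s₂ * r₂) := by rw [← hcR r₁ hr₁ s₂ hs₂]; group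
        set z := (s₁ * r₁)⁻¹ * (r₁ * s₁) with hz
        have hz2 : z = (s₂ * r₂) * (r₂ * s₂)⁻¹ := by
          have : (r₁ * s₁) = (s₁ * r₁) * (s₂ * r₂) * (r₂ * s₂)⁻¹ := by rw [← h1]; group
          rw [hz, this]; group
        have hzj : z = 1 ∨ z = j := by
          have h3 : z ∈ R₁ ⊓ R₂ := by
            refine Subgroup.mem_inf.2 ⟨?_, ?_⟩
            · exact mul_mem (inv_mem (mul_mem hs₁ hr₁)) (mul_mem hr₁ hs₁)
            · rw [hz2]; exact mul_mem (mul_mem hs₂ hr₂) (inv_mem (mul_mem hr₂ hs₂))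
          rw [hmR] at h3
          exact (Lib.H53Basic.mem_zpowers_iff_of_orderOf_two hj z).1 h3
        have hzc : ∀ w ∈ L₁ ⊔ L₂, w * z = z * w := by
          intro w hw
          rcases hzj with h | h
          · rw [h, mul_one, one_mul]
          · rw [h]; exact hjc w hw
        have hs₂Y : s₂ ∈ L₁ ⊔ L₂ := hY ▸ Subgroup.mem_sup_right hs₂
        have h4 : r₁ * y = y * r₁ * z := by
          calc r₁ * y = (r₁ * s₁) * s₂ := by rw [← hsy]; group
          _ = (s₁ * r₁) * (z * s₂) := by rw [hz]; group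
          _ = s₁ * (r₁ * s₂) * z := by rw [← hzc s₂ hs₂Y]; group
          _ = y * r₁ * z := by rw [hcR r₁ hr₁ s₂ hs₂, ← hsy]; group
        have h5 : b * y = y * b * z := by
          have h6 : a * (b * y) = a * (y * b * z) := by
            calc a * (b * y) = r₁ * y := by rw [← hab]; group
            _ = y * r₁ * z := h4
            _ = (y * a) * b * z := by rw [← hab]; group
            _ = a * (y * b * z) := by rw [← hc a ha y hy]; group
          exact mul_left_cancel h6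
        rcases hzj with h | h
        · left; rw [h, mul_one] at h5; exact Subtype.ext h5
        · right; rw [h] at h5; exact Subtype.ext h5
      have hb2 : b = 1 ∨ b = j := hb1.imp (congrArg Subtype.val) (congrArg Subtype.val)
      rw [← hab]
      refine mul_mem ha ?_
      rcases hb2 with h | h
      · rw [h]; exact one_mem _
      · rw [h]; exact hjm.1
    refine ⟨r₁, hr₁, r₂, hr₂, hrx, hr1L, ?_⟩
    have : r₂ = r₁⁻¹ * x := by rw [← hrx]; group
    rw [this]; exact mul_mem (inv_mem hr1L) hx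
  rcases Lib.H53SL2b.emb_indecomposable e₁ h21 hjo1 (R₁.subgroupOf L₁) (R₂.subgroupOf L₁)
    (fun a ha b hb => Subtype.ext (hcR a ha b hb)) (by
      rintro ⟨x, hx⟩
      obtain ⟨r₁, hr₁, r₂, hr₂, h1, h2, h3⟩ := hstep x hx
      exact ⟨⟨r₁, h2⟩, hr₁, ⟨r₂, h3⟩, hr₂, Subtype.ext h1⟩) with h | h
  · right
    intro x hx
    obtain ⟨r₁, hr₁, r₂, hr₂, h1, h2, h3⟩ := hstep x hx
    rw [← h1]
    refine mul_mem ?_ hr₂
    have h4 : r₁ = 1 ∨ r₁ = j := (h ⟨r₁, h2⟩ hr₁).imp (congrArg Subtype.val) (congrArg Subtype.val)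
    rcases h4 with h4 | h4
    · rw [h4]; exact one_mem _
    · rw [h4]; exact hjR.2
  · left
    intro x hx
    obtain ⟨r₁, hr₁, r₂, hr₂, h1, h2, h3⟩ := hstep x hx
    rw [← h1]
    refine mul_mem hr₁ ?_
    have h4 : r₂ = 1 ∨ r₂ = j := (h ⟨r₂, h3⟩ hr₂).imp (congrArg Subtype.val) (congrArg Subtype.val)
    rcases h4 with h4 | h4
    · rw [h4]; exact one_mem _
    · rw [h4]; exact hjR.1

/-- Let G be a finite group with subgroups L₁ ≅ SL₂(q₁) and L₂ ≅ SL₂(q₂), q₁ and q₂ odd prime powers, which commute elementwise and meet in ⟨j⟩ for an involution j, and suppose L₁L₂ has index 2 in C_G(j). Then every element n of C_G(j) outside L₁L₂ either normalizes both L₁ and L₂, or conjugates L₁ onto L₂; in the second case q₁ = q₂ and there is an element n′ of C_G(j) outside L₁L₂ conjugating L₁ onto L₂ with n′² ∈ ⟨j⟩. -/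
theorem result {G : Type*} [Group G] [Finite G]
    {F₁ : Type*} [Field F₁] [Fintype F₁] {F₂ : Type*} [Field F₂] [Fintype F₂]
    (hF₁ : Odd (Fintype.card F₁)) (hF₂ : Odd (Fintype.card F₂)) (L₁ L₂ : Subgroup G)
    (e₁ : ↥L₁ ≃* Matrix.SpecialLinearGroup (Fin 2) F₁) (e₂ : ↥L₂ ≃* Matrix.SpecialLinearGroup (Fin 2) F₂)
    (hc : ∀ x ∈ L₁, ∀ y ∈ L₂, x * y = y * x) (j : G) (hj : orderOf j = 2) (hm : L₁ ⊓ L₂ = Subgroup.zpowers j)
    (hle : L₁ ⊔ L₂ ≤ Subgroup.centralizer ({j} : Set G)) (hi : (L₁ ⊔ L₂).relIndex (Subgroup.centralizer ({j} : Set G)) = 2) (n : G) (hn : n ∈ Subgroup.centralizer ({j} : Set G)) (hn' : n ∉ L₁ ⊔ L₂) :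
    (L₁.map (MulAut.conj n).toMonoidHom = L₁ ∧ L₂.map (MulAut.conj n).toMonoidHom = L₂) ∨
      (L₁.map (MulAut.conj n).toMonoidHom = L₂ ∧ Fintype.card F₁ = Fintype.card F₂ ∧
        ∃ n' ∈ Subgroup.centralizer ({j} : Set G), n' ∉ L₁ ⊔ L₂ ∧ L₁.map (MulAut.conj n').toMonoidHom = L₂ ∧ n' ^ 2 ∈ Subgroup.zpowers j) := by
  have h21 : (2 : F₁) ≠ 0 := Lib.ClUtil.two_ne_zero_of_odd_card hF₁
  have h22 : (2 : F₂) ≠ 0 := Lib.ClUtil.two_ne_zero_of_odd_card hF₂
  set C := Subgroup.centralizer ({j} : Set G) with hC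
  set Y := L₁ ⊔ L₂ with hY
  have hjm : j ∈ L₁ ⊓ L₂ := hm ▸ Subgroup.mem_zpowers j
  have hnj : n * j = j * n := Subgroup.mem_centralizer_singleton_iff.1 hn
  have hidx : (Y.subgroupOf C).index = 2 := hi
  have hYn : (Y.subgroupOf C).Normal := Subgroup.normal_of_index_eq_two hidx
  have hYconj : MulAut.conj n • Y = Y := by
    apply eq_of_le_of_card_ge
    · intro y hy
      rw [mem_conj_smul] at hy
      have h1 := hYn.conj_mem ⟨_, hle hy⟩ hy ⟨n, hn⟩
      rw [mem_subgroupOf] at h1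
      have h2 : n * (n⁻¹ * y * n) * n⁻¹ = y := by group
      rw [← h2]; exact h1
    · exact (card_conj_smul n Y).ge
  set R₁ := MulAut.conj n • L₁ with hR₁
  set R₂ := MulAut.conj n • L₂ with hR₂
  have hcR : ∀ x ∈ R₁, ∀ y ∈ R₂, x * y = y * x := by
    intro x hx y hy
    rw [mem_conj_smul] at hx hy
    have h1 := congrArg (fun t => n * t * n⁻¹) (hc _ hx _ hy)
    have e1 : n * (n⁻¹ * x * n * (n⁻¹ * y * n)) * n⁻¹ = x * y := by group
    have e2 : n * (n⁻¹ * y * n * (n⁻¹ * x * n)) * n⁻¹ = y * x := by group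
    rw [← e1, ← e2]; exact h1
  have hmR : R₁ ⊓ R₂ = Subgroup.zpowers j := by
    rw [hR₁, hR₂, ← conj_smul_inf, hm, conj_smul_eq_map, MonoidHom.map_zpowers]
    have : (MulAut.conj n).toMonoidHom j = j := by
      show n * j * n⁻¹ = j
      rw [hnj]; group
    rw [this]
  have hYR : Y = R₁ ⊔ R₂ := by rw [← hYconj, hY, conj_smul_sup]
  have k1 : Nat.card R₁ = Nat.card L₁ := card_conj_smul n L₁
  have k2 : Nat.card R₂ = Nat.card L₂ := card_conj_smul n L₂
  have c1 := half hF₁ hF₂ L₁ L₂ e₁ e₂ hc j hj hm R₁ R₂ hcR hmR hYR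
  have c2 := half hF₂ hF₁ L₂ L₁ e₂ e₁ (fun x hx y hy => (hc y hy x hx).symm) j hj (by rw [inf_comm]; exact hm)
    R₁ R₂ hcR hmR (by rw [sup_comm]; exact hYR)
  -- L₁ is not contained in L₂ etc.
  have hn12 : ¬ L₁ ≤ L₂ := by
    intro h
    have hjo1 : orderOf (⟨j, hjm.1⟩ : L₁) = 2 := by rw [← hj]; exact Subgroup.orderOf_mk _ _
    obtain ⟨x, hx⟩ := Lib.H53SL2.exists_sq_eq e₁ h21 hjo1
    have h1 : (x : G) ∈ L₁ ⊓ L₂ := ⟨x.2, h x.2⟩
    rw [hm] at h1
    have hx' : (x : G) * x = j := congrArg Subtype.val hx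
    have hj1 : j ≠ 1 := by rintro rfl; rw [orderOf_one] at hj; omega
    have hjj : j * j = 1 := by
      have := pow_orderOf_eq_one j
      rwa [hj, sq] at this
    rcases (Lib.H53Basic.mem_zpowers_iff_of_orderOf_two hj _).1 h1 with h2 | h2
    · rw [h2, one_mul] at hx'; exact hj1 hx'.symm
    · rw [h2, hjj] at hx'; exact hj1 hx'.symm
  have hn21 : ¬ L₂ ≤ L₁ := by
    intro h
    have hjo2 : orderOf (⟨j, hjm.2⟩ : L₂) = 2 := by rw [← hj]; exact Subgroup.orderOf_mk _ _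
    obtain ⟨x, hx⟩ := Lib.H53SL2.exists_sq_eq e₂ h22 hjo2
    have h1 : (x : G) ∈ L₁ ⊓ L₂ := ⟨h x.2, x.2⟩
    rw [hm] at h1
    have hx' : (x : G) * x = j := congrArg Subtype.val hx
    have hj1 : j ≠ 1 := by rintro rfl; rw [orderOf_one] at hj; omega
    have hjj : j * j = 1 := by
      have := pow_orderOf_eq_one j
      rwa [hj, sq] at this
    rcases (Lib.H53Basic.mem_zpowers_iff_of_orderOf_two hj _).1 h1 with h2 | h2
    · rw [h2, one_mul] at hx'; exact hj1 hx'.symm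
    · rw [h2, hjj] at hx'; exact hj1 hx'.symm
  rcases c1 with c1 | c1
  · have e1 : L₁ = R₁ := eq_of_le_of_card_ge c1 k1.le
    rcases c2 with c2 | c2
    · exact absurd (e1 ▸ c2) hn21
    · have e2 : L₂ = R₂ := eq_of_le_of_card_ge c2 k2.le
      left
      exact ⟨e1.symm, e2.symm⟩
  · rcases c2 with c2 | c2
    · have h1 : Nat.card L₁ ≤ Nat.card L₂ := k2 ▸ Subgroup.card_le_of_le c1
      have h2 : Nat.card L₂ ≤ Nat.card L₁ := k1 ▸ Subgroup.card_le_of_le c2
      have e1 : L₁ = R₂ := eq_of_le_of_card_ge c1 (k2.trans_le h2)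
      have e2 : L₂ = R₁ := eq_of_le_of_card_ge c2 (k1.trans_le h1)
      right
      refine ⟨e2.symm, ?_, ?_⟩
      · have hcard : Nat.card L₁ = Nat.card L₂ := le_antisymm h1 h2
        rw [Nat.card_congr e₁.toEquiv, Nat.card_congr e₂.toEquiv, Lib.ClSL2.card_SL2 rfl, Lib.ClSL2.card_SL2 rfl] at hcard
        have p1 : 1 < Fintype.card F₁ := Fintype.one_lt_card
        have p2 : 1 < Fintype.card F₂ := Fintype.one_lt_card
        have mono : ∀ a b : ℕ, 1 < a → a < b → a * (a ^ 2 - 1) < b * (b ^ 2 - 1) := by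
          intro a b ha hab
          have : a ^ 2 < b ^ 2 := Nat.pow_lt_pow_left hab (by norm_num)
          have h1a : 1 < a ^ 2 := by nlinarith
          exact Nat.mul_lt_mul_of_lt_of_le hab (by omega) (by omega)
        rcases lt_trichotomy (Fintype.card F₁) (Fintype.card F₂) with h | h | h
        · exact absurd hcard (mono _ _ p1 h).ne
        · exact h
        · exact absurd hcard (mono _ _ p2 h).ne'
      · -- construct n'
        have hn2 : n * n ∈ Y := by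
          have := Subgroup.mul_self_mem_of_index_two hidx (⟨n, hn⟩ : C)
          exact this
        obtain ⟨a, ha, b, hb, hab⟩ := (mem_sup_of_le_normalizer (le_norm_of_comm hc)).1 hn2
        have hna : n * a * n⁻¹ ∈ L₂ := by
          rw [e2, hR₁, mem_conj_smul]
          have : n⁻¹ * (n * a * n⁻¹) * n = a := by group
          rw [this]; exact ha
        have hnb : n * b * n⁻¹ ∈ L₁ := by
          rw [e1, hR₂, mem_conj_smul]
          have : n⁻¹ * (n * b * n⁻¹) * n = b := by group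
          rw [this]; exact hb
        have hrel : (n * b * n⁻¹) * (n * a * n⁻¹) = a * b := by
          rw [hc _ hnb _ hna]
          calc n * a * n⁻¹ * (n * b * n⁻¹) = n * (a * b) * n⁻¹ := by group
          _ = a * b := by rw [hab]; group
        have hz1 : a⁻¹ * (n * b * n⁻¹) = b * (n * a * n⁻¹)⁻¹ := by
          have : (n * b * n⁻¹) = a * b * (n * a * n⁻¹)⁻¹ := by rw [← hrel]; group
          rw [this]; group
        have hz : b * (n * a * n⁻¹)⁻¹ ∈ Subgroup.zpowers j := by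
          rw [← hm]
          refine Subgroup.mem_inf.2 ⟨?_, mul_mem hb (inv_mem hna)⟩
          rw [← hz1]
          exact mul_mem (inv_mem ha) hnb
        refine ⟨a⁻¹ * n, ?_, ?_, ?_, ?_⟩
        · exact mul_mem (inv_mem (hle (Subgroup.mem_sup_left ha))) hn
        · intro h
          apply hn'
          have : n = a * (a⁻¹ * n) := by group
          rw [this]; exact mul_mem (Subgroup.mem_sup_left ha) h
        · show MulAut.conj (a⁻¹ * n) • L₁ = L₂
          rw [conj_smul_mul, ← hR₁, ← e2]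
          have : a⁻¹ ∈ Subgroup.normalizer (L₂ : Set G) :=
            le_norm_of_comm (fun x hx y hy => (hc y hy x hx).symm) (inv_mem ha)
          exact conj_smul_of_mem_normalizer this
        · have h3 : (a⁻¹ * n) ^ 2 = (n * a * n⁻¹)⁻¹ * b := by
            calc (a⁻¹ * n) ^ 2 = a⁻¹ * (n * a * n⁻¹)⁻¹ * (n * n) := by rw [sq]; group
            _ = (n * a * n⁻¹)⁻¹ * a⁻¹ * (a * b) := by
                rw [hc _ (inv_mem ha) _ (inv_mem hna), ← hab]
            _ = (n * a * n⁻¹)⁻¹ * b := by group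
          have h4 : (n * a * n⁻¹)⁻¹ * b = b * (n * a * n⁻¹)⁻¹ := by
            -- z = b * c⁻¹ is central in L₂
            rcases (Lib.H53Basic.mem_zpowers_iff_of_orderOf_two hj _).1 hz with h5 | h5
            · have : b = n * a * n⁻¹ := by rwa [mul_inv_eq_one] at h5
              rw [← this]; group
            · have h6 : b = j * (n * a * n⁻¹) := by rw [← h5]; group
              have h7 : (n * a * n⁻¹) * j = j * (n * a * n⁻¹) := (hc j hjm.1 _ hna).symm
              calc (n * a * n⁻¹)⁻¹ * b = (n * a * n⁻¹)⁻¹ * (j * (n * a * n⁻¹)) := by rw [h6]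
              _ = j := by rw [← h7]; group
              _ = b * (n * a * n⁻¹)⁻¹ := h5.symm
          rw [h3, h4]; exact hz
    · -- L₁ ≤ R₂ and L₂ ≤ R₂
      exfalso
      have e2 : L₂ = R₂ := eq_of_le_of_card_ge c2 k2.le
      exact hn12 (c1.trans e2.ge)

end Cfsg.Agent.S3210
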