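import Cfsg.Statements.S3211
import Cfsg.Agent.Lib.H53TwoSL2c
import Cfsg.Agent.Lib.H53SL2c
import Cfsg.Agent.Lib.H53Basic
import Cfsg.Agent.Lib.H53Iso
import Cfsg.Agent.Lib.Components

set_option autoImplicit false
open Cfsg

namespace Cfsg.Agent.S3211

open Subgroup Cfsg.Agent.Lib.H53TwoSL2

theorem two_ne {F : Type*} [Field F] [Fintype F] (hFo : Odd (Fintype.card F)) : (2 : F) ≠ 0 := by
  intro h
  have hc : CharP F 2 := CharTwo.of_one_ne_zero_of_two_eq_zero one_ne_zero h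
  have h1 : ringChar F = 2 := ringChar.eq F 2 ▸ rfl
  have h2 := FiniteField.even_card_of_char_two h1
  rw [Nat.odd_iff] at hFo
  omega

theorem frame {G : Type*} [Group G] [Finite G]
    {F₁ : Type*} [Field F₁] [Fintype F₁] {F₂ : Type*} [Field F₂] [Fintype F₂]
    (hF₁ : Odd (Fintype.card F₁)) (hF₂ : Odd (Fintype.card F₂)) (L₁ L₂ : Subgroup G)
    (e₁ : ↥L₁ ≃* Matrix.SpecialLinearGroup (Fin 2) F₁) (e₂ : ↥L₂ ≃* Matrix.SpecialLinearGroup (Fin 2) F₂)
    (hc : ∀ x ∈ L₁, ∀ y ∈ L₂, x * y = y * x) (j : G) (hj : orderOf j = 2) (hm : L₁ ⊓ L₂ = Subgroup.zpowers j)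
    (hle : L₁ ⊔ L₂ ≤ Subgroup.centralizer ({j} : Set G)) (hi : (L₁ ⊔ L₂).relIndex (Subgroup.centralizer ({j} : Set G)) = 2) (n : G) (hn : n ∈ Subgroup.centralizer ({j} : Set G))
    (hn2 : n ^ 2 = j) (hswap : L₁.map (MulAut.conj n).toMonoidHom = L₂) :
    ∃ w v, Fr j n w v L₁ L₂ := by
  have h2 := two_ne hF₁
  have hjm : j ∈ L₁ ⊓ L₂ := by rw [hm]; exact mem_zpowers j
  obtain ⟨hj1, hj2⟩ := Subgroup.mem_inf.1 hjm
  have hjL : orderOf (⟨j, hj1⟩ : L₁) = 2 := by rw [← hj]; exact (Subgroup.orderOf_coe (⟨j, hj1⟩ : L₁)).symm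
  obtain ⟨w, v, ww, vv, inv, ab⟩ := Lib.H53SL2c.exists_frame e₁ h2 hjL
  have hjj : j * j = 1 := by rw [← pow_two, ← hj]; exact pow_orderOf_eq_one j
  have hj1' : j ≠ 1 := by rintro rfl; simp at hj
  have hjc : ∀ x ∈ L₁, x * j = j * x := fun x hx =>
    mem_centralizer_singleton_iff.1 (hle (mem_sup_left hx))
  have hnn : n * n = j := by rw [← pow_two]; exact hn2
  have hwL2 : (w : G) ∉ L₂ := by
    intro h
    have h1 : (w : G) ∈ zpowers j := by rw [← hm]; exact ⟨w.2, h⟩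
    have h3 : (w : G) * w = j := congrArg Subtype.val ww
    rcases (Lib.H53Basic.mem_zpowers_iff_of_orderOf_two hj _).1 h1 with h4 | h4
    · rw [h4, mul_one] at h3; exact hj1' h3.symm
    · rw [h4, hjj] at h3; exact hj1' h3.symm
  have hn1 : ∀ x ∈ L₁, n * x * n⁻¹ ∈ L₂ := by
    intro x hx
    rw [← hswap]
    exact ⟨x, hx, rfl⟩
  have hle' : L₁ ≤ centralizer (L₂ : Set G) := by
    intro x hx
    rw [mem_centralizer_iff]
    intro y hy
    exact (hc x hx y hy).symm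
  have hsup : ∀ x, x ∈ L₁ ⊔ L₂ → ∃ y ∈ L₁, ∃ z ∈ L₂, y * z = x := fun x hx =>
    (Lib.Components.mem_sup_of_commute hle').1 hx
  have hnot : n ∉ L₁ ⊔ L₂ := by
    intro h
    obtain ⟨y, hy, z, hz, hyz⟩ := hsup n h
    have h1 := hn1 w w.2
    apply hwL2
    have h3 : n * (w : G) * n⁻¹ = y * w * y⁻¹ := by
      rw [← hyz]
      calc y * z * w * (y * z)⁻¹ = y * (z * w) * z⁻¹ * y⁻¹ := by group
        _ = y * (w * z) * z⁻¹ * y⁻¹ := by rw [hc w w.2 z hz]
        _ = _ := by group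
    have h4 : y * w * y⁻¹ ∈ L₂ := by rw [← h3]; exact h1
    have h5 := hc y hy _ h4
    have h6 : (w : G) = y * w * y⁻¹ := by
      calc (w : G) = y⁻¹ * (y * w * y⁻¹ * y) := by group
        _ = y⁻¹ * (y * (y * w * y⁻¹)) := by rw [h5]
        _ = _ := by group
    rw [h6]; exact h4
  have hnC : n * j = j * n := mem_centralizer_singleton_iff.1 hn
  refine ⟨w, v, ?_⟩
  exact {
    hc := hc
    hm := fun x h1 h2 => (Lib.H53Basic.mem_zpowers_iff_of_orderOf_two hj _).1 (by rw [← hm]; exact ⟨h1, h2⟩)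
    jL1 := hj1
    jL2 := hj2
    jj := hjj
    j1 := hj1'
    nn := hnn
    n1 := hn1
    n2 := by
      intro x hx
      rw [← hswap] at hx
      obtain ⟨y, hy, rfl⟩ := hx
      have : n * ((MulAut.conj n).toMonoidHom y) * n⁻¹ = y := by
        calc n * (n * y * n⁻¹) * n⁻¹ = (n * n) * y * (n * n)⁻¹ := by group
          _ = j * y * j⁻¹ := by rw [hnn]
          _ = y := by rw [← hjc y hy]; group
      rw [this]; exact hy
    wL := w.2
    vL := v.2
    ww := congrArg Subtype.val ww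
    vv := congrArg Subtype.val vv
    inv := fun t ht h => congrArg Subtype.val (inv ⟨t, ht⟩ (Subtype.ext h))
    ab := fun s hs t ht h1 h2 => congrArg Subtype.val (ab ⟨s, hs⟩ ⟨t, ht⟩ (Subtype.ext h1) (Subtype.ext h2))
    cj := by
      intro y hy hyy
      obtain ⟨l, hl⟩ := Lib.H53SL2.conj_of_sq_eq e₁ h2 hjL (x := ⟨y, hy⟩) (y := w) (Subtype.ext hyy) ww
      exact ⟨l, l.2, congrArg Subtype.val hl⟩
    uni := by
      intro y hy hyy
      rcases Lib.H53SL2.eq_of_sq_eq_one e₁ h2 hjL (a := ⟨y, hy⟩) (Subtype.ext hyy) with h | h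
      · left; exact congrArg Subtype.val h
      · right; exact congrArg Subtype.val h
    jc := hjc
    C := by
      intro c hcj
      have hidx : ((L₁ ⊔ L₂).subgroupOf (centralizer ({j} : Set G))).index = 2 := hi
      have hcC : c ∈ centralizer ({j} : Set G) := mem_centralizer_singleton_iff.2 hcj
      by_cases hcs : c ∈ L₁ ⊔ L₂
      · obtain ⟨y, hy, z, hz, hyz⟩ := hsup c hcs
        exact ⟨y, hy, z, hz, Or.inl hyz.symm⟩
      · have h1 := Subgroup.mul_mem_iff_of_index_two hidx (a := ⟨c, hcC⟩) (b := ⟨n⁻¹, inv_mem hn⟩)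
        have h3 : c * n⁻¹ ∈ L₁ ⊔ L₂ := by
          have h4 : (⟨c, hcC⟩ : centralizer ({j} : Set G)) ∉ (L₁ ⊔ L₂).subgroupOf (centralizer ({j} : Set G)) := hcs
          have h5 : (⟨n⁻¹, inv_mem hn⟩ : centralizer ({j} : Set G)) ∉ (L₁ ⊔ L₂).subgroupOf (centralizer ({j} : Set G)) := by
            intro h6
            have h7 : n⁻¹ ∈ L₁ ⊔ L₂ := h6
            exact hnot (by simpa using inv_mem h7)
          have h6 := h1.2 ⟨fun h => absurd h h4, fun h => absurd h h5⟩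
          exact h6
        obtain ⟨y, hy, z, hz, hyz⟩ := hsup _ h3
        refine ⟨y, hy, z, hz, Or.inr ?_⟩
        rw [hyz]; group }

/-- Let G be a finite group with subgroups L₁ ≅ SL₂(q₁) and L₂ ≅ SL₂(q₂), q₁ and q₂ odd prime powers, which commute elementwise and meet in ⟨j⟩ for an involution j, and suppose L₁L₂ has index 2 in C_G(j). If some n ∈ C_G(j) with n² = j interchanges L₁ and L₂ under conjugation (so that C_G(j) = L₁L₂⟨n⟩), then G = C_G(j)O(G). -/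
theorem result {G : Type*} [Group G] [Finite G]
    {F₁ : Type*} [Field F₁] [Fintype F₁] {F₂ : Type*} [Field F₂] [Fintype F₂]
    (hF₁ : Odd (Fintype.card F₁)) (hF₂ : Odd (Fintype.card F₂)) (L₁ L₂ : Subgroup G)
    (e₁ : ↥L₁ ≃* Matrix.SpecialLinearGroup (Fin 2) F₁) (e₂ : ↥L₂ ≃* Matrix.SpecialLinearGroup (Fin 2) F₂)
    (hc : ∀ x ∈ L₁, ∀ y ∈ L₂, x * y = y * x) (j : G) (hj : orderOf j = 2) (hm : L₁ ⊓ L₂ = Subgroup.zpowers j)
    (hle : L₁ ⊔ L₂ ≤ Subgroup.centralizer ({j} : Set G)) (hi : (L₁ ⊔ L₂).relIndex (Subgroup.centralizer ({j} : Set G)) = 2) (n : G) (hn : n ∈ Subgroup.centralizer ({j} : Set G))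
    (hn2 : n ^ 2 = j) (hswap : L₁.map (MulAut.conj n).toMonoidHom = L₂) :
    Subgroup.centralizer ({j} : Set G) ⊔ Cfsg.oddCore G = ⊤ := by
  obtain ⟨w, v, D⟩ := frame hF₁ hF₂ L₁ L₂ e₁ e₂ hc j hj hm hle hi n hn hn2 hswap
  exact Lib.H53Iso.centralizer_sup_of_isolated j hj (fun g hg => D.isolated g hg)

end Cfsg.Agent.S3211
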