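import Cfsg.Statements.S3213
import Cfsg.Agent.Lib.SL2Basic

set_option autoImplicit false
open Cfsg

namespace Cfsg.Agent.S3213

open Module

section Abstract

variable {F : Type*} [Field F] {V : Type*} [AddCommGroup V] [Module F V] [FiniteDimensional F V]

theorem finrank_range_sq_le (hV : finrank F V = 4) (N : V →ₗ[F] V) (hN : ∀ v, N (N (N v)) = 0) :
    finrank F (LinearMap.range (N ∘ₗ N)) ≤ 1 := by
  -- rank of N restricted to range N
  have e1 := LinearMap.finrank_range_add_finrank_ker N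
  have e2 := LinearMap.finrank_range_add_finrank_ker (N.domRestrict (LinearMap.range N))
  have e3 : LinearMap.range (N.domRestrict (LinearMap.range N)) = LinearMap.range (N ∘ₗ N) := by
    ext v
    constructor
    · rintro ⟨⟨_, u, rfl⟩, rfl⟩
      exact ⟨u, rfl⟩
    · rintro ⟨u, rfl⟩
      exact ⟨⟨N u, u, rfl⟩, rfl⟩
  rw [e3] at e2
  -- ker of restriction embeds in ker N
  have e4 : finrank F (LinearMap.ker (N.domRestrict (LinearMap.range N))) ≤ finrank F (LinearMap.ker N) := by
    let f : LinearMap.ker (N.domRestrict (LinearMap.range N)) →ₗ[F] LinearMap.ker N :=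
      LinearMap.codRestrict _ ((LinearMap.range N).subtype ∘ₗ Submodule.subtype _) (fun x => x.2)
    refine LinearMap.finrank_le_finrank_of_injective (f := f) ?_
    intro a b h
    apply Subtype.ext; apply Subtype.ext
    exact congrArg (fun z : LinearMap.ker N => (z : V)) h
  -- range N² embeds in that kernel
  have e5 : finrank F (LinearMap.range (N ∘ₗ N)) ≤ finrank F (LinearMap.ker (N.domRestrict (LinearMap.range N))) := by
    have hle : LinearMap.range (N ∘ₗ N) ≤ LinearMap.range N := by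
      rintro _ ⟨u, rfl⟩; exact ⟨N u, rfl⟩
    let f : LinearMap.range (N ∘ₗ N) →ₗ[F] LinearMap.ker (N.domRestrict (LinearMap.range N)) :=
      LinearMap.codRestrict _ (Submodule.inclusion hle) (by
        rintro ⟨_, u, rfl⟩
        exact hN u)
    refine LinearMap.finrank_le_finrank_of_injective (f := f) ?_
    intro a b h
    apply Subtype.ext
    exact congrArg (fun z : LinearMap.ker (N.domRestrict (LinearMap.range N)) => ((z : LinearMap.range N) : V)) h
  rw [hV] at e1
  omega

theorem abstract_main [Fintype F] (hF : Fintype.card F = 3) (hV : finrank F V = 4)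
    (B : V →ₗ[F] V →ₗ[F] F) (hBa : ∀ u w, B u w = - B w u) (hBn : ∀ v, (∀ w, B v w = 0) → v = 0)
    (g y : V →ₗ[F] V) (hg : ∀ u w, B (g u) (g w) = B u w) (hy : ∀ u w, B (y u) (y w) = B u w)
    (hg3 : ∀ v, g (g (g v)) = v) (hg1 : ∃ v, g v ≠ v) (hgy : ∀ v, g (y (g v)) = y v) :
    finrank F (LinearMap.ker (g - LinearMap.id)) = 2 ∧ ∀ v w, g v = v → g w = w → B v w = 0 := by
  have hcube : ∀ a : F, a ^ 3 = a := fun a => by rw [← hF]; exact FiniteField.pow_card a
  have h3 : (3 : F) = 0 := by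
    have : ((Fintype.card F : ℕ) : F) = 0 := Nat.cast_card_eq_zero F
    rw [hF] at this; exact_mod_cast this
  have h2 : (2 : F) ≠ 0 := by
    intro h
    have : (1 : F) = 0 := by linear_combination h3 - h
    exact one_ne_zero this
  set N : V →ₗ[F] V := g - LinearMap.id with hN
  have hNv : ∀ v, N v = g v - v := fun v => rfl
  have hgN : ∀ v, g v = N v + v := fun v => by rw [hNv]; abel
  have hN3 : ∀ v, N (N (N v)) = 0 := by
    intro v
    have h1 : N (N (N v)) = g (g (g v)) - v - (3 : F) • (g (g v) - g v) := by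
      simp only [hNv, map_sub]
      have h2 : (3 : F) • (g (g v) - g v) = (g (g v) - g v) + (g (g v) - g v) + (g (g v) - g v) := by
        rw [show (3 : F) = 1 + 1 + 1 by norm_num, add_smul, add_smul, one_smul]
      rw [h2]; abel
    rw [h1, h3, zero_smul, hg3]; simp
  -- (A)
  have hA : ∀ u w, B (N u) w = - B (g u) (N w) := by
    intro u w
    have h1 : B (g u) (N w) = B u w - B (g u) w := by rw [hNv w, map_sub, hg]
    rw [h1, hNv u, map_sub, LinearMap.sub_apply]; ring
  have hA2 : ∀ u w, B (N u) (N (N w)) = 0 := by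
    intro u w
    rw [hA, hN3, map_zero, neg_zero]
  have hcomm : ∀ v, g (N v) = N (g v) := fun v => by simp only [hNv, map_sub]
  have hA3 : ∀ u w, B (N (N u)) w = B u (N (N w)) := by
    intro u w
    rw [hA, hcomm, hA, neg_neg, hgN (g u), map_add, LinearMap.add_apply, hA2, zero_add, hgN u, map_add,
      LinearMap.add_apply, hA2, zero_add]
  have hself : ∀ u, B (N (N u)) u = 0 := by
    intro u
    have h1 := hA3 u u
    have h4 := hBa u (N (N u))
    have h5 : 2 * B (N (N u)) u = 0 := by linear_combination h1 + h4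
    rcases mul_eq_zero.1 h5 with h | h
    · exact absurd h h2
    · exact h
  have hrank := finrank_range_sq_le hV N hN3
  have hN2 : ∀ v, N (N v) = 0 := by
    by_contra hcon
    push Not at hcon
    obtain ⟨u0, hu0⟩ := hcon
    have hsp : ∀ u, ∃ l : F, l • (N (N u0)) = N (N u) := by
      have h1 := finrank_le_one_iff.1 hrank
      obtain ⟨⟨v1, hv1⟩, h1⟩ := h1
      obtain ⟨c0, hc0⟩ := h1 ⟨N (N u0), u0, rfl⟩
      have hc0' : c0 • v1 = N (N u0) := congrArg Subtype.val hc0
      have hc00 : c0 ≠ 0 := by rintro rfl; rw [zero_smul] at hc0'; exact hu0 hc0'.symm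
      intro u
      obtain ⟨c, hc⟩ := h1 ⟨N (N u), u, rfl⟩
      have hc' : c • v1 = N (N u) := congrArg Subtype.val hc
      refine ⟨c * c0⁻¹, ?_⟩
      rw [← hc0', ← hc', smul_smul, mul_assoc, inv_mul_cancel₀ hc00, mul_one]
    apply hu0
    apply hBn
    intro w
    obtain ⟨l, hl⟩ := hsp w
    have h1 : B (N (N w)) u0 = 0 := by
      rw [← hl, map_smul, LinearMap.smul_apply, hself, smul_zero]
    rw [hA3, hBa, h1, neg_zero]
  have hker : ∀ v, v ∈ LinearMap.ker N ↔ g v = v := by
    intro v; rw [LinearMap.mem_ker, hNv, sub_eq_zero]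
  have hrk : LinearMap.range N ≤ LinearMap.ker N := by
    rintro _ ⟨u, rfl⟩; exact hN2 u
  have e1 := LinearMap.finrank_range_add_finrank_ker N
  have e2 := Submodule.finrank_mono hrk
  rw [hV] at e1
  have hsym : ∀ u w, B (N u) w = B (N w) u := by
    intro u w
    have h1 : B (N u) (N w) = 0 := by rw [hA, hN2, map_zero, neg_zero]
    rw [hA, hgN u, map_add, LinearMap.add_apply, h1, zero_add, hBa, neg_neg]
  have hge : 2 ≤ finrank F (LinearMap.range N) := by
    by_contra hlt
    have hle1 : finrank F (LinearMap.range N) ≤ 1 := by omega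
    obtain ⟨u0, hu0⟩ := hg1
    have hu0' : N u0 ≠ 0 := by rw [hNv, sub_ne_zero]; exact hu0
    have hsp : ∀ u, ∃ l : F, l • (N u0) = N u := by
      have h1 := finrank_le_one_iff.1 hle1
      obtain ⟨⟨v1, hv1⟩, h1⟩ := h1
      obtain ⟨c0, hc0⟩ := h1 ⟨N u0, u0, rfl⟩
      have hc0' : c0 • v1 = N u0 := congrArg Subtype.val hc0
      have hc00 : c0 ≠ 0 := by rintro rfl; rw [zero_smul] at hc0'; exact hu0' hc0'.symm
      intro u
      obtain ⟨c, hc⟩ := h1 ⟨N u, u, rfl⟩
      have hc' : c • v1 = N u := congrArg Subtype.val hc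
      refine ⟨c * c0⁻¹, ?_⟩
      rw [← hc0', ← hc', smul_smul, mul_assoc, inv_mul_cancel₀ hc00, mul_one]
    have hc : B (N u0) u0 ≠ 0 := by
      intro h0
      apply hu0'
      apply hBn
      intro w
      obtain ⟨l, hl⟩ := hsp w
      rw [hsym, ← hl, map_smul, LinearMap.smul_apply, h0, smul_zero]
    -- the conjugating element
    have hNy : ∀ v, N (y v) = - y (N v) := by
      intro v
      have h1 : g (y v) = y (g (g v)) := by
        have := hgy (g (g v))
        rwa [hg3] at this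
      have h5 : g (g v) = N v + N v + v := by
        rw [hgN (g v), hgN v, map_add, hN2]; abel
      have h4 : y (N v) + y (N v) = - y (N v) := by
        have : (3 : F) • y (N v) = 0 := by rw [h3, zero_smul]
        rw [show (3 : F) = 1 + 1 + 1 by norm_num, add_smul, add_smul, one_smul] at this
        exact eq_neg_of_add_eq_zero_left this
      rw [hNv (y v), h1, h5, map_add, map_add, add_sub_cancel_right, h4]
    obtain ⟨l, hl⟩ := hsp (y u0)
    have h1 : B (N (y u0)) (y u0) = - B (N u0) u0 := by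
      rw [hNy, map_neg, LinearMap.neg_apply, hy]
    have h4 : B (N (y u0)) (y u0) = l * l * B (N u0) u0 := by
      rw [← hl, map_smul, LinearMap.smul_apply, hsym, ← hl, map_smul, LinearMap.smul_apply, smul_eq_mul,
        smul_eq_mul, mul_assoc]
    have h5 : l * l = -1 := by
      have : (l * l + 1) * B (N u0) u0 = 0 := by linear_combination h1 - h4
      rcases mul_eq_zero.1 this with h | h
      · exact eq_neg_of_add_eq_zero_left h
      · exact absurd h hc
    have h6 := hcube l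
    have h7 : l * 2 = 0 := by linear_combination l * h5 - h6
    rcases mul_eq_zero.1 h7 with h | h
    · rw [h] at h5
      have : (1 : F) = 0 := by linear_combination h5
      exact one_ne_zero this
    · exact h2 h
  have hk2 : finrank F (LinearMap.ker N) = 2 := by omega
  refine ⟨hk2, ?_⟩
  have heq : LinearMap.range N = LinearMap.ker N := Submodule.eq_of_le_of_finrank_eq hrk (by omega)
  intro v w hv hw
  have hv' : v ∈ LinearMap.range N := by rw [heq]; exact (hker v).2 hv
  obtain ⟨u, rfl⟩ := hv'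
  rw [hA, (hker w).2 hw |> LinearMap.mem_ker.1, map_zero, neg_zero]

end Abstract

theorem exists_inverting {K : Type*} [Field K] [Fintype K] (hK : Fintype.card K = 5)
    (x : Matrix.SpecialLinearGroup (Fin 2) K) (hx : orderOf x = 3) :
    ∃ y : Matrix.SpecialLinearGroup (Fin 2) K, x * y * x = y := by
  have h5 : (5 : K) = 0 := by
    have : ((Fintype.card K : ℕ) : K) = 0 := Nat.cast_card_eq_zero K
    rw [hK] at this; exact_mod_cast this
  have hp : ∀ a : K, a ^ 5 = a := fun a => by rw [← hK]; exact FiniteField.pow_card a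
  have hdet := Lib.SL2Basic.det2 x
  have hx3 : x * x * x = 1 := by
    have : x ^ 3 = 1 := by rw [← hx]; exact pow_orderOf_eq_one x
    rwa [pow_succ, pow_two] at this
  have hne : x ≠ 1 := by rintro rfl; simp at hx
  have hc : (x : Matrix (Fin 2) (Fin 2) K) 1 0 ≠ 0 := by
    intro hc
    have h := congrArg (fun z : Matrix.SpecialLinearGroup (Fin 2) K => (z : Matrix (Fin 2) (Fin 2) K)) hx3
    simp only [Matrix.SpecialLinearGroup.coe_mul, Matrix.SpecialLinearGroup.coe_one] at h
    have h00 := congrFun (congrFun h 0) 0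
    have h01 := congrFun (congrFun h 0) 1
    simp [Matrix.mul_apply, Fin.sum_univ_two, hc] at h00 h01
    rw [hc, mul_zero, sub_zero] at hdet
    set a := (x : Matrix (Fin 2) (Fin 2) K) 0 0 with ha
    set b := (x : Matrix (Fin 2) (Fin 2) K) 0 1 with hb
    set d := (x : Matrix (Fin 2) (Fin 2) K) 1 1 with hd
    have ha0 : a ≠ 0 := by rintro h; rw [h, zero_mul] at hdet; exact zero_ne_one hdet
    have h4 : a ^ 5 = a := hp a
    have ha1 : a = 1 := by
      have h6 : a * (a - 1) = 0 := by linear_combination h4 - (a ^ 2) * h00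
      rcases mul_eq_zero.1 h6 with h | h
      · exact absurd h ha0
      · exact sub_eq_zero.1 h
    have hd1 : d = 1 := by rw [ha1, one_mul] at hdet; exact hdet
    have hb0 : b = 0 := by
      rw [ha1, hd1] at h01
      linear_combination 2 * h01 - b * h5
    apply hne
    apply Lib.SL2Basic.ext2
    · simpa using ha1
    · simpa using hb0
    · simpa using hc
    · simpa using hd1
  set a := (x : Matrix (Fin 2) (Fin 2) K) 0 0 with ha
  set b := (x : Matrix (Fin 2) (Fin 2) K) 0 1 with hb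
  set c := (x : Matrix (Fin 2) (Fin 2) K) 1 0 with hcdef
  set d := (x : Matrix (Fin 2) (Fin 2) K) 1 1 with hd
  have hq : 2 * (a - d) / c * c = 2 * (a - d) := div_mul_cancel₀ _ hc
  let y : Matrix.SpecialLinearGroup (Fin 2) K := ⟨!![3, 2 * (a - d) / c; 0, 2], by
    rw [Matrix.det_fin_two_of]
    linear_combination h5⟩
  have hy : (y : Matrix (Fin 2) (Fin 2) K) = !![3, 2 * (a - d) / c; 0, 2] := rfl
  have key : y * x = x⁻¹ * y := by
    apply Lib.SL2Basic.ext2 <;>
      rw [Matrix.SpecialLinearGroup.coe_mul, Matrix.SpecialLinearGroup.coe_mul, Lib.SL2Basic.inv_coe, hy,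
        Matrix.mul_apply, Matrix.mul_apply, Fin.sum_univ_two, Fin.sum_univ_two]
    · simp [← ha, ← hb, ← hcdef, ← hd]
      linear_combination hq + (a - d) * h5
    · simp [← ha, ← hb, ← hcdef, ← hd]
      linear_combination b * h5
    · simp [← ha, ← hb, ← hcdef, ← hd]
      linear_combination c * h5
    · simp [← ha, ← hb, ← hcdef, ← hd]
      linear_combination hq
  refine ⟨y, ?_⟩
  rw [mul_assoc, key]; group

/-- Let F be the field with 3 elements and K the field with 5 elements. For every injective homomorphism φ from SL₂(K) into the symplectic group Sp₄(F) (4 × 4 matrices g with g J gᵀ = J for the standard alternating matrix J) and every element x of order 3 of SL₂(K), the vectors of F⁴ fixed by φ(x) form a 2-dimensional subspace that is totally isotropic for the alternating form defined by J. -/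
theorem result {F : Type*} [Field F] [Fintype F] (hF : Fintype.card F = 3)
    {K : Type*} [Field K] [Fintype K] (hK : Fintype.card K = 5)
    (φ : Matrix.SpecialLinearGroup (Fin 2) K →* ↥(Matrix.symplecticGroup (Fin 2) F)) (hφ : Function.Injective φ)
    (x : Matrix.SpecialLinearGroup (Fin 2) K) (hx : orderOf x = 3) :
    Module.finrank F ↥(LinearMap.ker (Matrix.toLin' ((φ x : Matrix (Fin 2 ⊕ Fin 2) (Fin 2 ⊕ Fin 2) F)) - LinearMap.id)) = 2 ∧
      ∀ v w : Fin 2 ⊕ Fin 2 → F, (φ x : Matrix (Fin 2 ⊕ Fin 2) (Fin 2 ⊕ Fin 2) F).mulVec v = v →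
        (φ x : Matrix (Fin 2 ⊕ Fin 2) (Fin 2 ⊕ Fin 2) F).mulVec w = w →
          dotProduct v ((Matrix.J (Fin 2) F).mulVec w) = 0 := by
  classical
  obtain ⟨y, hy⟩ := exists_inverting hK x hx
  have hform : ∀ z : ↥(Matrix.symplecticGroup (Fin 2) F), ∀ u w : Fin 2 ⊕ Fin 2 → F,
      dotProduct ((z : Matrix (Fin 2 ⊕ Fin 2) (Fin 2 ⊕ Fin 2) F).mulVec u)
        ((Matrix.J (Fin 2) F).mulVec ((z : Matrix (Fin 2 ⊕ Fin 2) (Fin 2 ⊕ Fin 2) F).mulVec w)) =
      dotProduct u ((Matrix.J (Fin 2) F).mulVec w) := by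
    intro z u w
    have hz := SymplecticGroup.mem_iff'.1 z.2
    calc dotProduct ((z : Matrix (Fin 2 ⊕ Fin 2) (Fin 2 ⊕ Fin 2) F).mulVec u)
            ((Matrix.J (Fin 2) F).mulVec ((z : Matrix (Fin 2 ⊕ Fin 2) (Fin 2 ⊕ Fin 2) F).mulVec w))
        = dotProduct u (((z : Matrix (Fin 2 ⊕ Fin 2) (Fin 2 ⊕ Fin 2) F).transpose).mulVec
          ((Matrix.J (Fin 2) F).mulVec ((z : Matrix (Fin 2 ⊕ Fin 2) (Fin 2 ⊕ Fin 2) F).mulVec w))) := by
          rw [Matrix.dotProduct_mulVec u, Matrix.vecMul_transpose]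
      _ = _ := by rw [Matrix.mulVec_mulVec, Matrix.mulVec_mulVec, hz]
  have hJT : (Matrix.J (Fin 2) F).transpose = - Matrix.J (Fin 2) F := Matrix.J_transpose (Fin 2) F
  have hJJ : Matrix.J (Fin 2) F * Matrix.J (Fin 2) F = -1 := Matrix.J_squared (Fin 2) F
  let B : (Fin 2 ⊕ Fin 2 → F) →ₗ[F] (Fin 2 ⊕ Fin 2 → F) →ₗ[F] F :=
    LinearMap.mk₂ F (fun u w => dotProduct u ((Matrix.J (Fin 2) F).mulVec w))
      (fun u u' w => by rw [add_dotProduct])
      (fun c u w => by rw [smul_dotProduct])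
      (fun u w w' => by rw [Matrix.mulVec_add, dotProduct_add])
      (fun c u w => by rw [Matrix.mulVec_smul, dotProduct_smul])
  have hB : ∀ u w, B u w = dotProduct u ((Matrix.J (Fin 2) F).mulVec w) := fun u w => rfl
  have hx3 : ∀ v, Matrix.toLin' (φ x : Matrix (Fin 2 ⊕ Fin 2) (Fin 2 ⊕ Fin 2) F)
      (Matrix.toLin' (φ x : Matrix (Fin 2 ⊕ Fin 2) (Fin 2 ⊕ Fin 2) F)
        (Matrix.toLin' (φ x : Matrix (Fin 2 ⊕ Fin 2) (Fin 2 ⊕ Fin 2) F) v)) = v := by
    intro v
    have h1 : x * (x * x) = 1 := by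
      have : x ^ 3 = 1 := by rw [← hx]; exact pow_orderOf_eq_one x
      rwa [pow_succ', pow_two] at this
    have h2 : (φ x : Matrix (Fin 2 ⊕ Fin 2) (Fin 2 ⊕ Fin 2) F) * ((φ x : Matrix (Fin 2 ⊕ Fin 2) (Fin 2 ⊕ Fin 2) F) *
        (φ x : Matrix (Fin 2 ⊕ Fin 2) (Fin 2 ⊕ Fin 2) F)) = 1 := by
      have := congrArg (fun z : ↥(Matrix.symplecticGroup (Fin 2) F) => (z : Matrix (Fin 2 ⊕ Fin 2) (Fin 2 ⊕ Fin 2) F))
        (congrArg φ h1)
      simpa [map_mul] using this
    rw [Matrix.toLin'_apply, Matrix.toLin'_apply, Matrix.toLin'_apply, Matrix.mulVec_mulVec, Matrix.mulVec_mulVec,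
      Matrix.mul_assoc, h2, Matrix.one_mulVec]
  have hxy : ∀ v, Matrix.toLin' (φ x : Matrix (Fin 2 ⊕ Fin 2) (Fin 2 ⊕ Fin 2) F)
      (Matrix.toLin' (φ y : Matrix (Fin 2 ⊕ Fin 2) (Fin 2 ⊕ Fin 2) F)
        (Matrix.toLin' (φ x : Matrix (Fin 2 ⊕ Fin 2) (Fin 2 ⊕ Fin 2) F) v)) =
        Matrix.toLin' (φ y : Matrix (Fin 2 ⊕ Fin 2) (Fin 2 ⊕ Fin 2) F) v := by
    intro v
    have h2 : (φ x : Matrix (Fin 2 ⊕ Fin 2) (Fin 2 ⊕ Fin 2) F) * ((φ y : Matrix (Fin 2 ⊕ Fin 2) (Fin 2 ⊕ Fin 2) F) *
        (φ x : Matrix (Fin 2 ⊕ Fin 2) (Fin 2 ⊕ Fin 2) F)) = φ y := by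
      have := congrArg (fun z : ↥(Matrix.symplecticGroup (Fin 2) F) => (z : Matrix (Fin 2 ⊕ Fin 2) (Fin 2 ⊕ Fin 2) F))
        (congrArg φ hy)
      simpa [map_mul, Matrix.mul_assoc] using this
    rw [Matrix.toLin'_apply, Matrix.toLin'_apply, Matrix.toLin'_apply, Matrix.toLin'_apply, Matrix.mulVec_mulVec,
      Matrix.mulVec_mulVec, Matrix.mul_assoc, h2]
  have hne : ∃ v, Matrix.toLin' (φ x : Matrix (Fin 2 ⊕ Fin 2) (Fin 2 ⊕ Fin 2) F) v ≠ v := by
    by_contra hcon
    push Not at hcon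
    have h1 : Matrix.toLin' (φ x : Matrix (Fin 2 ⊕ Fin 2) (Fin 2 ⊕ Fin 2) F) =
        Matrix.toLin' (1 : Matrix (Fin 2 ⊕ Fin 2) (Fin 2 ⊕ Fin 2) F) := by
      apply LinearMap.ext
      intro v
      rw [hcon v, Matrix.toLin'_one, LinearMap.id_apply]
    have h2 := Matrix.toLin'.injective h1
    have h3 : φ x = 1 := Subtype.ext h2
    have h4 : x = 1 := hφ (by rw [h3, map_one])
    rw [h4] at hx
    simp at hx
  have hanti : ∀ u w, B u w = - B w u := by
    intro u w
    rw [hB, hB, Matrix.dotProduct_mulVec, ← Matrix.mulVec_transpose, hJT, Matrix.neg_mulVec, neg_dotProduct,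
      dotProduct_comm]
  have hnd : ∀ v, (∀ w, B v w = 0) → v = 0 := by
    intro v h
    have h1 : ∀ w, dotProduct v w = 0 := by
      intro w
      have h2 := h (- (Matrix.J (Fin 2) F).mulVec w)
      rw [hB, Matrix.mulVec_neg, Matrix.mulVec_mulVec, hJJ, Matrix.neg_mulVec, Matrix.one_mulVec, neg_neg] at h2
      exact h2
    exact dotProduct_eq_zero v h1
  have hmain := abstract_main hF (V := Fin 2 ⊕ Fin 2 → F) (by simp) B hanti hnd
    (Matrix.toLin' (φ x : Matrix (Fin 2 ⊕ Fin 2) (Fin 2 ⊕ Fin 2) F))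
    (Matrix.toLin' (φ y : Matrix (Fin 2 ⊕ Fin 2) (Fin 2 ⊕ Fin 2) F))
    (fun u w => hform (φ x) u w) (fun u w => hform (φ y) u w) hx3 hne hxy
  refine ⟨hmain.1, ?_⟩
  intro v w hv hw
  exact hmain.2 v w (by rw [Matrix.toLin'_apply]; exact hv) (by rw [Matrix.toLin'_apply]; exact hw)

end Cfsg.Agent.S3213
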