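import Cfsg.Statements.S3225
import Mathlib.GroupTheory.Transfer
import Mathlib.GroupTheory.SpecificGroups.Cyclic
import Mathlib.GroupTheory.IndexNormal
import Mathlib.Tactic

set_option autoImplicit false
open Cfsg

namespace Cfsg.Agent.S3225

open MulAction Subgroup MonoidHom

lemma htwo : ∀ a : Multiplicative (ZMod 2), a ≠ 1 → a = Multiplicative.ofAdd 1 := by
  decide

/-- Let G be a finite group of even order with no subgroup of index 2, S a Sylow 2-subgroup of G and M a subgroup of index 2 in S such that, for some n ≥ 1, every element of S outside M has order greater than 2^(n−1). Then every element of S of order 2ⁿ is conjugate in G to an element of M. -/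
theorem result {G : Type*} [Group G] [Finite G] (hev : Even (Nat.card G))
    (hG : ∀ H : Subgroup G, H.index ≠ 2) (S : Sylow 2 G) (M : Subgroup G) (hMS : M ≤ (S : Subgroup G)) (hM : M.relIndex (S : Subgroup G) = 2)
    (n : ℕ) (hn : 1 ≤ n) (hord : ∀ y ∈ (S : Subgroup G), y ∉ M → 2 ^ (n - 1) < orderOf y)
    (x : G) (hx : x ∈ (S : Subgroup G)) (hxn : orderOf x = 2 ^ n) :
    ∃ g : G, g * x * g⁻¹ ∈ M := by
  classical
  by_contra hcon
  push Not at hcon
  have hidx : (M.subgroupOf (S : Subgroup G)).index = 2 := hM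
  haveI hnorm : (M.subgroupOf (S : Subgroup G)).Normal := Subgroup.normal_of_index_eq_two hidx
  have hcardQ : Nat.card (↥(S : Subgroup G) ⧸ M.subgroupOf (S : Subgroup G)) = 2 := hidx
  haveI : Fact (Nat.Prime 2) := ⟨Nat.prime_two⟩
  have hcardZ : Nat.card (Multiplicative (ZMod 2)) = 2 := by
    simp
  let e : (↥(S : Subgroup G) ⧸ M.subgroupOf (S : Subgroup G)) ≃* Multiplicative (ZMod 2) :=
    mulEquivOfPrimeCardEq (p := 2) hcardQ hcardZ
  let ϕ : ↥(S : Subgroup G) →* Multiplicative (ZMod 2) :=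
    e.toMonoidHom.comp (QuotientGroup.mk' (M.subgroupOf (S : Subgroup G)))
  have hϕ : ∀ s : ↥(S : Subgroup G), ϕ s = 1 ↔ (s : G) ∈ M := by
    intro s
    show e (QuotientGroup.mk' _ s) = 1 ↔ _
    rw [MulEquiv.map_eq_one_iff, QuotientGroup.mk'_apply, QuotientGroup.eq_one_iff, Subgroup.mem_subgroupOf]
  -- the transfer is trivial
  have htriv : transfer ϕ x = 1 := by
    by_contra hne
    apply hG (transfer ϕ).ker
    rw [Subgroup.index_ker]
    have h1 : Nat.card (transfer ϕ).range ∣ 2 := by
      have := Subgroup.card_subgroup_dvd_card (transfer ϕ).range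
      rwa [hcardZ] at this
    rcases (Nat.dvd_prime Nat.prime_two).1 h1 with h | h
    · exfalso
      rw [Subgroup.card_eq_one] at h
      have : transfer ϕ x ∈ (transfer ϕ).range := ⟨x, rfl⟩
      rw [h, Subgroup.mem_bot] at this
      exact hne this
    · exact h
  haveI : Fintype (G ⧸ (S : Subgroup G)) := Fintype.ofFinite _
  haveI : Fintype (Quotient (orbitRel (zpowers x) (G ⧸ (S : Subgroup G)))) := Fintype.ofFinite _
  rw [transfer_eq_prod_quotient_orbitRel_zpowers_quot] at htriv
  have hpow : ∀ q : G ⧸ (S : Subgroup G), Function.minimalPeriod (x • ·) q ∣ 2 ^ n := by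
    intro q
    rw [← hxn, ← MulAction.pow_smul_eq_iff_minimalPeriod_dvd, pow_orderOf_eq_one, one_smul]
  have key : ∀ (a : G) (r : ℕ) (hmem : a⁻¹ * x ^ r * a ∈ (S : Subgroup G)), r ∣ 2 ^ n →
      ϕ ⟨a⁻¹ * x ^ r * a, hmem⟩ = Multiplicative.ofAdd ((r : ℕ) : ZMod 2) := by
    intro a r hmem hr
    obtain ⟨k, hk, hk2⟩ := (Nat.dvd_prime_pow Nat.prime_two).1 hr
    rcases Nat.eq_zero_or_pos k with h0 | h0
    · subst h0
      subst hk2
      have h7 : ((2 ^ 0 : ℕ) : ZMod 2) = 1 := by simp
      rw [h7]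
      apply htwo
      intro h
      rw [hϕ] at h
      apply hcon (a⁻¹)
      simpa using h
    · have heven : ((r : ℕ) : ZMod 2) = 0 := by
        rw [hk2, ZMod.natCast_eq_zero_iff]
        exact dvd_pow_self 2 (by omega)
      rw [heven, ofAdd_zero, hϕ]
      by_contra hnot
      have h1 := hord _ hmem hnot
      have h2 : orderOf (a⁻¹ * x ^ r * a) ∣ 2 ^ (n - 1) := by
        have h3 : a⁻¹ * x ^ r * a = MulAut.conj (a⁻¹) (x ^ r) := by
          simp [MulAut.conj_apply]
        rw [h3, MulEquiv.orderOf_eq, orderOf_dvd_iff_pow_eq_one, hk2, ← pow_mul, ← pow_add]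
        rw [← orderOf_dvd_iff_pow_eq_one, hxn]
        exact pow_dvd_pow 2 (by omega)
      have h4 := Nat.le_of_dvd (by positivity) h2
      omega
  have hterm : ∀ q : Quotient (orbitRel (zpowers x) (G ⧸ (S : Subgroup G))),
      ϕ ⟨q.out.out⁻¹ * x ^ Function.minimalPeriod (x • ·) q.out * q.out.out,
            QuotientGroup.out_conj_pow_minimalPeriod_mem (S : Subgroup G) x q.out⟩ =
        Multiplicative.ofAdd ((Function.minimalPeriod (x • ·) q.out : ℕ) : ZMod 2) :=
    fun q => key _ _ _ (hpow _)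
  rw [Fintype.prod_congr _ _ hterm] at htriv
  rw [← ofAdd_sum, ← ofAdd_zero] at htriv
  have h5 := Multiplicative.ofAdd.injective htriv
  rw [← Nat.cast_sum, ZMod.natCast_eq_zero_iff] at h5
  have h6 : Fintype.card (G ⧸ (S : Subgroup G)) =
      ∑ q : Quotient (orbitRel (zpowers x) (G ⧸ (S : Subgroup G))), Function.minimalPeriod (x • ·) q.out := by
    haveI : ∀ q : orbitRel.Quotient (zpowers x) (G ⧸ (S : Subgroup G)),
      NeZero (Function.minimalPeriod (x • ·) q.out) := fun q => inferInstance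
    rw [Fintype.card_congr (quotientEquivSigmaZMod (S : Subgroup G) x)]
    rw [Fintype.card_sigma]
    apply Finset.sum_congr rfl
    intro q _
    exact ZMod.card _
  rw [← h6, ← Nat.card_eq_fintype_card] at h5
  exact S.not_dvd_index h5

end Cfsg.Agent.S3225
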