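import Cfsg.Statements.S3244
import Cfsg.Agent.Lib.SigTrans
import Cfsg.Agent.Lib.InvAct

set_option autoImplicit false
open Cfsg

namespace Cfsg.Agent.S3244

open Subgroup Cfsg.Agent.Lib.LocBase Cfsg.Agent.Lib.ConstrainedLocal Cfsg.Agent.Lib.PConstraint
  Cfsg.Agent.Lib.SigCon Cfsg.Agent.Lib.NormalFour Cfsg.Agent.Lib.SigTwo Cfsg.Agent.Lib.SigTrans
open scoped commutatorElement

section main

variable {G : Type*} [Group G] [Finite G]

/-- two involutions in a cyclic group are equal -/
theorem involution_unique {C : Type*} [Group C] [Finite C] (hC : IsCyclic C) {x y : C} (hx : orderOf x = 2)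
    (hy : orderOf y = 2) : x = y := by
  classical
  have := Fintype.ofFinite C
  have h1 := IsCyclic.card_pow_eq_one_le (α := C) (n := 2) (by norm_num)
  by_contra hne
  have h2 : ({1, x, y} : Finset C) ⊆ Finset.univ.filter (fun a : C => a ^ 2 = 1) := by
    intro a ha
    simp only [Finset.mem_insert, Finset.mem_singleton] at ha
    simp only [Finset.mem_filter, Finset.mem_univ, true_and]
    rcases ha with rfl | rfl | rfl
    · simp
    · rw [← hx, pow_orderOf_eq_one]
    · rw [← hy, pow_orderOf_eq_one]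
  have h3 : ({1, x, y} : Finset C).card = 3 := by
    rw [Finset.card_eq_three]
    refine ⟨1, x, y, ?_, ?_, hne, rfl⟩
    · rintro rfl; rw [orderOf_one] at hx; omega
    · rintro rfl; rw [orderOf_one] at hy; omega
  have h4 := Finset.card_le_card h2
  omega

/-- the involution belonging to a maximal 2-local subgroup -/
theorem exists_inv {M : Subgroup G} (hM : IsMaximalTwoLocal M) (hcyc : IsCyclic (center (pCore 2 M)))
    (hchar : IsCharP 2 M) :
    ∃ z : G, orderOf z = 2 ∧ M = centralizer ({z} : Set G) ∧ z ∈ pCoreOf 2 M ∧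
      ∀ t : G, orderOf t = 2 → t ∈ M → (∀ y ∈ pCoreOf 2 M, y * t = t * y) → t = z := by
  haveI : Fact (Nat.Prime 2) := ⟨Nat.prime_two⟩
  obtain ⟨T, hT, hT1, rfl⟩ := hM.1
  set M := normalizer (T : Set G) with hMdef
  -- the core is nontrivial
  have hcore : T ≤ pCoreOf 2 M := Cfsg.Agent.Lib.LocBase.le_pCoreOf le_normalizer le_rfl hT
  have hne : pCore 2 M ≠ ⊥ := by
    rw [pCore_ne_bot_iff]
    intro h
    apply hT1
    rw [eq_bot_iff, ← h]
    exact hcore
  have hQp : IsPGroup 2 (pCore 2 M) := Cfsg.Agent.Lib.LocBase.isPGroup_pCore 2 M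
  have hnt : Nontrivial (pCore 2 M) := (Subgroup.nontrivial_iff_ne_bot _).2 hne
  have hcnt : Nontrivial (center (pCore 2 M)) := hQp.center_nontrivial
  have hcp : IsPGroup 2 (center (pCore 2 M)) := hQp.to_subgroup _
  obtain ⟨k, hk0, hk⟩ := (hcp.nontrivial_iff_card).1 hcnt
  have hdvd : 2 ∣ Nat.card (center (pCore 2 M)) := by rw [hk]; exact dvd_pow_self 2 hk0.ne'
  obtain ⟨z0, hz0⟩ := exists_prime_orderOf_dvd_card' 2 hdvd
  set z : G := (((z0 : pCore 2 M) : M) : G) with hz
  have hzo : orderOf z = 2 := by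
    rw [hz, Subgroup.orderOf_coe, Subgroup.orderOf_coe, Subgroup.orderOf_coe, hz0]
  have hzQ : z ∈ pCoreOf 2 M := ⟨_, (z0 : pCore 2 M).2, rfl⟩
  have huniq : ∀ t : G, orderOf t = 2 → t ∈ M → (∀ y ∈ pCoreOf 2 M, y * t = t * y) → t = z := by
    intro t ht htM htc
    have h1 : t ∈ pCoreOf 2 M := hchar ⟨htM, mem_centralizer_iff.2 htc⟩
    obtain ⟨t1, ht1, ht1'⟩ := h1
    have h2 : (⟨t1, ht1⟩ : pCore 2 M) ∈ center (pCore 2 M) := by
      rw [mem_center_iff]
      rintro ⟨y, hy⟩
      apply Subtype.ext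
      apply Subtype.ext
      have := htc (y : G) ⟨y, hy, rfl⟩
      rw [← ht1'] at this
      exact this
    have h3 : orderOf (⟨⟨t1, ht1⟩, h2⟩ : center (pCore 2 M)) = 2 := by
      have e1 := Subgroup.orderOf_coe (⟨⟨t1, ht1⟩, h2⟩ : center (pCore 2 M))
      have e2 := Subgroup.orderOf_coe (⟨t1, ht1⟩ : pCore 2 M)
      have e3 := Subgroup.orderOf_coe t1
      refine e1.symm.trans (e2.symm.trans (e3.symm.trans ?_))
      have e4 : (t1 : G) = t := ht1'
      rw [e4]; exact ht
    have h4 := involution_unique hcyc h3 hz0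
    rw [← ht1', hz, ← h4]
    rfl
  refine ⟨z, hzo, ?_, hzQ, huniq⟩
  -- `M ≤ C(z)`
  have hzM : z ∈ M := (z0 : pCore 2 M).1.2
  have hzc : ∀ y ∈ pCoreOf 2 M, y * z = z * y := by
    rintro _ ⟨y, hy, rfl⟩
    have := mem_center_iff.1 z0.2 ⟨y, hy⟩
    exact congrArg (fun x : pCore 2 M => ((x : M) : G)) this
  have hle : M ≤ centralizer ({z} : Set G) := by
    intro g hg
    rw [mem_centralizer_singleton_iff]
    have h1 : g * z * g⁻¹ = z := by
      apply huniq
      · rw [← hzo]
        exact orderOf_injective (MulAut.conj g).toMonoidHom (MulAut.conj g).injective z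
      · exact mul_mem (mul_mem hg hzM) (inv_mem hg)
      · intro y hy
        have h2 : g⁻¹ * y * g ∈ pCoreOf 2 M := conj_mem_of_le_normalizer' (le_normalizer_pCoreOf 2 M) hg hy
        have h3 := hzc _ h2
        calc y * (g * z * g⁻¹) = g * ((g⁻¹ * y * g) * z) * g⁻¹ := by group
          _ = g * (z * (g⁻¹ * y * g)) * g⁻¹ := by rw [h3]
          _ = g * z * g⁻¹ * y := by group
    exact mul_inv_eq_iff_eq_mul.1 h1
  have h2 : IsTwoLocal (normalizer (zpowers z : Set G)) := by
    refine ⟨zpowers z, isPGroup_zpowers_two hzo, ?_, rfl⟩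
    rw [Ne, zpowers_eq_bot]
    rintro h
    rw [h, orderOf_one] at hzo
    omega
  have h3 : centralizer ({z} : Set G) ≤ normalizer (zpowers z : Set G) := by
    rw [← centralizer_zpowers_eq]
    exact centralizer_le_normalizer _
  have h4 := hM.2 _ h2 (hle.trans h3)
  exact le_antisymm hle (h3.trans h4.le)

/-- an involution lies in a maximal 2-local containing its centralizer -/
theorem exists_maxTwoLocal {T : Subgroup G} (hT : IsPGroup 2 T) (hT1 : T ≠ ⊥) :
    ∃ M, IsMaximalTwoLocal M ∧ normalizer (T : Set G) ≤ M := by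
  obtain ⟨M, h1, h2, h3⟩ := exists_maximal_ge (Q := fun X : Subgroup G => IsTwoLocal X)
    (H := normalizer (T : Set G)) ⟨T, hT, hT1, rfl⟩
  exact ⟨M, ⟨h1, fun N hN hle => (h3 N hN hle).symm⟩, h2⟩

variable (hcyc : ∀ M : Subgroup G, IsMaximalTwoLocal M → IsCyclic (center (pCore 2 M)))
  (hchar : ∀ M : Subgroup G, IsMaximalTwoLocal M → IsCharP 2 M)

include hcyc hchar

/-- a maximal 2-local containing a Sylow 2-subgroup meets every other one in odd order -/
theorem eq_of_common {M P : Subgroup G} (hM : IsMaximalTwoLocal M) (hP : IsSyl 2 P ⊤) (hPM : P ≤ M) (n : ℕ) :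
    ∀ (N R : Subgroup G), IsMaximalTwoLocal N → IsSyl 2 R (N ⊓ M) → R ≠ ⊥ → Nat.card G - Nat.card R = n → N = M := by
  haveI : Fact (Nat.Prime 2) := ⟨Nat.prime_two⟩
  obtain ⟨z, hz, hzM, hzQ, hzu⟩ := exists_inv hM (hcyc M hM) (hchar M hM)
  induction n using Nat.strong_induction_on with
  | _ n ih =>
    intro N R hN hR hR1 hn
    obtain ⟨z', hz', hzN, hzQ', hzu'⟩ := exists_inv hN (hcyc N hN) (hchar N hN)
    have hRM : R ≤ M := hR.le.trans inf_le_right
    have hRN : R ≤ N := hR.le.trans inf_le_left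
    -- `R` is a Sylow 2-subgroup of `N`
    have hRsyl : IsSyl 2 R N := by
      obtain ⟨R1, hR1', hRR1⟩ := exists_isSyl_ge hR.pgroup hRN
      by_cases heq : R = R1
      · rw [heq]; exact hR1'
      exfalso
      have hlt1 : R < R1 := lt_of_le_of_ne hRR1 heq
      -- `R` is not Sylow in `M`
      obtain ⟨S1, hS1, hRS1⟩ := exists_isSyl_ge hR.pgroup hRM
      have hPMs : IsSyl 2 P M := hP.of_le hPM le_top
      have hne : R ≠ S1 := by
        intro h
        have h1 : Nat.card S1 = Nat.card P :=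
          le_antisymm (hPMs.card_le hS1.pgroup hS1.le) (hS1.card_le hPMs.pgroup hPMs.le)
        have h2 : Nat.card R1 ≤ Nat.card P := hP.card_le hR1'.pgroup le_top
        have h3 : Nat.card R < Nat.card R1 := by
          by_contra hge
          rw [not_lt] at hge
          exact heq (Subgroup.eq_of_le_of_card_ge hRR1 hge)
        rw [h, h1] at h3
        omega
      have hlt : R < S1 := lt_of_le_of_ne hRS1 hne
      have hg := Cfsg.Agent.Lib.Alperin.lt_inf_normalizer S1 R hS1.pgroup hlt
      obtain ⟨N', hN', hle'⟩ := exists_maxTwoLocal hR.pgroup hR1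
      have hsub : S1 ⊓ normalizer (R : Set G) ≤ N' ⊓ M := le_inf (inf_le_right.trans hle') (inf_le_left.trans hS1.le)
      obtain ⟨R', hR', hRR'⟩ := exists_isSyl_ge (p := 2) (hS1.pgroup.to_le inf_le_left) hsub
      have hcard : Nat.card R < Nat.card R' := by
        have h1 : R < R' := lt_of_lt_of_le hg hRR'
        by_contra hge
        rw [not_lt] at hge
        exact h1.ne (Subgroup.eq_of_le_of_card_ge h1.le hge)
      have hle2 : Nat.card R' ≤ Nat.card G := Subgroup.card_le_card_group R'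
      have hN'M : N' = M := by
        apply ih (Nat.card G - Nat.card R') (by omega) N' R' hN' hR' _ rfl
        rintro rfl
        rw [Subgroup.card_bot] at hcard
        have : 0 < Nat.card R := Nat.card_pos
        omega
      -- normalizer of `R` in `R1`
      have hg1 := Cfsg.Agent.Lib.Alperin.lt_inf_normalizer R1 R hR1'.pgroup hlt1
      have hsub1 : R1 ⊓ normalizer (R : Set G) ≤ N ⊓ M := by
        refine le_inf (inf_le_left.trans hR1'.le) (inf_le_right.trans ?_)
        rw [← hN'M]; exact hle'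
      exact hg1.ne (hR.eq_of_le (hR1'.pgroup.to_le inf_le_left) hsub1 hg1.le)
    have hQR : pCoreOf 2 N ≤ R := hRsyl.pCoreOf_le
    have hz'R : z' ∈ R := hQR hzQ'
    have hzc : ∀ y ∈ M, y * z = z * y := by
      intro y hy
      rw [hzM] at hy
      exact mem_centralizer_singleton_iff.1 hy
    have hzN' : z ∈ N := by
      rw [hzN, mem_centralizer_singleton_iff]
      exact (hzc z' (hRM hz'R)).symm
    have hzz' : z = z' := hzu' z hz hzN' (fun y hy => hzc y (hRM (hQR hy)))
    rw [hzN, hzM, hzz']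

theorem eq_of_inv {M P N : Subgroup G} (hM : IsMaximalTwoLocal M) (hP : IsSyl 2 P ⊤) (hPM : P ≤ M)
    (hN : IsMaximalTwoLocal N) {u : G} (hu : orderOf u = 2) (huN : u ∈ N) (huM : u ∈ M) : N = M := by
  haveI : Fact (Nat.Prime 2) := ⟨Nat.prime_two⟩
  obtain ⟨R, hR, huR⟩ := exists_isSyl_ge (p := 2) (A := zpowers u) (H := N ⊓ M) (isPGroup_zpowers_two hu)
    (zpowers_le.2 ⟨huN, huM⟩)
  refine eq_of_common hcyc hchar hM hP hPM _ N R hN hR ?_ rfl
  rintro rfl
  have := huR (mem_zpowers u)
  rw [Subgroup.mem_bot] at this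
  rw [this, orderOf_one] at hu
  omega

omit hcyc hchar in
theorem ne_bot_of_orderOf {u : G} (hu : orderOf u = 2) : zpowers u ≠ ⊥ := by
  rw [Ne, zpowers_eq_bot]
  rintro rfl
  rw [orderOf_one] at hu
  omega

theorem centralizer_le_of_inv {M P : Subgroup G} (hM : IsMaximalTwoLocal M) (hP : IsSyl 2 P ⊤) (hPM : P ≤ M)
    {u : G} (hu : orderOf u = 2) (huM : u ∈ M) : centralizer ({u} : Set G) ≤ M := by
  obtain ⟨N, hN, hle⟩ := exists_maxTwoLocal (isPGroup_zpowers_two hu) (ne_bot_of_orderOf hu)
  have h1 : centralizer ({u} : Set G) ≤ N := by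
    rw [← centralizer_zpowers_eq]
    exact (centralizer_le_normalizer _).trans hle
  have h2 := eq_of_inv hcyc hchar hM hP hPM hN hu (h1 (mem_centralizer_self u)) huM
  rw [← h2]; exact h1

/-- the involution is the only one in `M` -/
theorem unique_inv {M P : Subgroup G} (hM : IsMaximalTwoLocal M) (hMtop : M ≠ ⊤) (hP : IsSyl 2 P ⊤) (hPM : P ≤ M) :
    ∃ z : G, ∀ t ∈ M, orderOf t = 2 → t = z := by
  haveI : Fact (Nat.Prime 2) := ⟨Nat.prime_two⟩
  obtain ⟨z, hz, hzM, hzQ, hzu⟩ := exists_inv hM (hcyc M hM) (hchar M hM)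
  have hcz := fun {u : G} (hu : orderOf u = 2) (huM : u ∈ M) => centralizer_le_of_inv hcyc hchar hM hP hPM hu huM
  -- conjugates of `z` in `M`
  have key : ∀ g : G, g * z * g⁻¹ ∈ M → g * z * g⁻¹ = z := by
    intro g hg
    have ho : orderOf (g * z * g⁻¹) = 2 := by
      rw [← hz]
      exact orderOf_injective (MulAut.conj g).toMonoidHom (MulAut.conj g).injective z
    have h1 := hcz ho hg
    have h4 : centralizer ({g * z * g⁻¹} : Set G) = (centralizer ({z} : Set G)).map (MulAut.conj g).toMonoidHom := by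
      rw [← centralizer_zpowers_eq z, map_conj_centralizer, MonoidHom.map_zpowers, centralizer_zpowers_eq]
      rfl
    have h5 : Nat.card (centralizer ({g * z * g⁻¹} : Set G)) = Nat.card M := by
      rw [h4, card_map_conj, hzM]
    have h6 : centralizer ({g * z * g⁻¹} : Set G) = M := Subgroup.eq_of_le_of_card_ge h1 h5.ge
    apply hzu _ ho hg
    intro y hy
    have h7 : y ∈ centralizer ({g * z * g⁻¹} : Set G) := by
      rw [h6]; exact Cfsg.Agent.Lib.LocBase.pCoreOf_le M hy
    exact mem_centralizer_singleton_iff.1 h7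
  refine ⟨z, fun t ht hto => ?_⟩
  obtain ⟨g, hg⟩ : ∃ g, g ∉ M := by
    by_contra h
    push Not at h
    exact hMtop (eq_top_iff.2 fun x _ => h x)
  set s := g * z * g⁻¹ with hs
  have hso : orderOf s = 2 := by
    rw [← hz]
    exact orderOf_injective (MulAut.conj g).toMonoidHom (MulAut.conj g).injective z
  have hsM : s ∉ M := by
    intro hsM
    have h1 := key g hsM
    apply hg
    rw [hzM, mem_centralizer_singleton_iff]
    exact mul_inv_eq_iff_eq_mul.1 h1
  have hodd : Odd (orderOf (t * s)) := by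
    rcases Nat.even_or_odd (orderOf (t * s)) with h | h
    · exfalso
      obtain ⟨u, -, hu, hut, hus⟩ := Cfsg.Agent.Lib.InvAct.exists_central_of_even hto hso h
      have huM : u ∈ M := hcz hto ht (mem_centralizer_singleton_iff.2 hut)
      exact hsM (hcz hu huM (mem_centralizer_singleton_iff.2 hus.symm))
    · exact h
  obtain ⟨k, h1, -, -⟩ := Cfsg.Agent.Lib.InvAct.exists_conj_of_odd hto hso hodd
  set c := (t * s) ^ k with hc
  have h2 : t = (c⁻¹ * g) * z * (c⁻¹ * g)⁻¹ := by
    have : t = c⁻¹ * s * c := by rw [← h1]; group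
    rw [this, hs]; group
  have h3 := key (c⁻¹ * g) (by rw [← h2]; exact ht)
  rw [h2, h3]

end main

/-- Say that a finite group G is of characteristic 2 type in the early sense when a Sylow 2-subgroup S of G has a self-centralizing normal subgroup of rank at least 3, S normalizes no nontrivial subgroup of odd order, and every 2-local subgroup of G is 2-constrained. If G is a non-abelian simple group of characteristic 2 type in this sense, then for some maximal 2-local subgroup M of G the centre of O₂(M) is not cyclic. -/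
theorem result {G : Type*} [Group G] [Finite G] [IsSimpleGroup G]
    (hG : ¬ IsMulCommutative G) (S : Sylow 2 G) (A : Subgroup G) (hA : Cfsg.IsSCN (S : Subgroup G) A) (hA3 : ¬ Cfsg.PRankLE 2 2 ↥A)
    (hinv : ∀ X : Subgroup G, Odd (Nat.card ↥X) → (S : Subgroup G) ≤ Subgroup.normalizer (X : Set G) → X = ⊥)
    (hcon : ∀ T : Subgroup G, IsPGroup 2 ↥T → T ≠ ⊥ → Cfsg.IsPConstrained 2 ↥(Subgroup.normalizer (T : Set G))) :
    ∃ M : Subgroup G, Cfsg.IsMaximalTwoLocal M ∧ ¬ IsCyclic ↥(Subgroup.center ↥(Cfsg.pCore 2 ↥M)) := by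
  haveI : Fact (Nat.Prime 2) := ⟨Nat.prime_two⟩
  by_contra hno
  push Not at hno
  have hscn : SCN 2 (S : Subgroup G) A := ⟨isSyl_top S, hA.1, hA.2.1, hA.2.2⟩
  have hr : 4 < Nat.card (omega A hscn.comm) := lt_card_omega hscn.comm hA3
  have hcon' : ∀ t : G, orderOf t = 2 → IsPConstrained 2 (centralizer ({t} : Set G)) := by
    intro t ht
    have h1 := (constrained_rel (hcon (zpowers t) (isPGroup_zpowers_two ht) (ne_bot_of_orderOf ht))
      (P := zpowers t) le_normalizer (isPGroup_zpowers_two ht)).2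
    rwa [inf_eq_left.2 (centralizer_le_normalizer _), centralizer_zpowers_eq] at h1
  have hchar1 : ∀ t : G, orderOf t = 2 → CharP 2 (centralizer ({t} : Set G)) :=
    fun t ht => charP_all hscn hr hcon' hinv ht
  have hchar : ∀ M : Subgroup G, IsMaximalTwoLocal M → IsCharP 2 M := by
    rintro M ⟨⟨T, hT, hT1, rfl⟩, -⟩
    rw [isCharP_iff]
    exact (charP_of_elements hchar1 hT hT1).1
  -- a maximal 2-local containing `S`
  have hAS : (S : Subgroup G) ≠ ⊥ := by
    intro h
    have h1 : A = ⊥ := by rw [eq_bot_iff, ← h]; exact hA.1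
    have h2 : omega A hscn.comm ≤ ⊥ := h1 ▸ omega_le hscn.comm
    rw [le_bot_iff] at h2
    rw [h2, Subgroup.card_bot] at hr
    omega
  obtain ⟨M, hM, hle⟩ := exists_maxTwoLocal S.2 hAS
  have hSM : (S : Subgroup G) ≤ M := le_normalizer.trans hle
  have hMtop : M ≠ ⊤ := by
    intro h
    obtain ⟨⟨T, hT, hT1, hTM⟩, -⟩ := hM
    have h1 : T.Normal := by
      rw [← normalizer_eq_top_iff, ← hTM, h]
    have h2 : T = ⊤ := (h1.eq_bot_or_eq_top).resolve_left hT1
    have h3 : IsPGroup 2 G := by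
      rw [h2] at hT
      exact hT.of_equiv Subgroup.topEquiv
    have h4 : Nontrivial (center G) := h3.center_nontrivial
    have h5 : center G = ⊤ := (Normal.eq_bot_or_eq_top (inferInstance : (center G).Normal)).resolve_left
      ((Subgroup.nontrivial_iff_ne_bot _).1 h4)
    apply hG
    rw [isMulCommutative_iff]
    intro a b
    have : b ∈ center G := by rw [h5]; trivial
    exact mem_center_iff.1 this a
  obtain ⟨z, hz⟩ := unique_inv hno hchar hM hMtop (isSyl_top S) hSM
  obtain ⟨x, y, hx, hy, hx1, hy1, hxy⟩ := exists_two_involutions (F := omega A hscn.comm) (fun f hf => hf.2)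
    (by omega)
  apply hxy
  rw [hz x (hSM (hA.1 hx.1)) (orderOf_eq_two hx.2 hx1), hz y (hSM (hA.1 hy.1)) (orderOf_eq_two hy.2 hy1)]

end Cfsg.Agent.S3244
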