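import Cfsg.Statements.S3246
import Cfsg.Agent.Lib.ConstrainedLocal
import Cfsg.Agent.Lib.NormalFour

set_option autoImplicit false
open Cfsg

namespace Cfsg.Agent.S3246

open Subgroup Cfsg.Agent.Lib.ConstrainedLocal Cfsg.Agent.Lib.PConstraint Cfsg.Agent.Lib.LocBase
  Cfsg.Agent.Lib.NormalFour

theorem centralizer_zpowers' {G : Type*} [Group G] (t : G) :
    centralizer ((zpowers t : Subgroup G) : Set G) = centralizer ({t} : Set G) := by
  rw [zpowers_eq_closure, centralizer_closure]

theorem isPGroup_zpowers' {G : Type*} [Group G] {t : G} (ht : orderOf t = 2) : IsPGroup 2 (zpowers t) := by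
  apply IsPGroup.of_card (n := 1)
  rw [Nat.card_zpowers, ht, pow_one]

/-- Let G be a finite group whose Sylow 2-subgroup S has a self-centralizing normal subgroup of rank at least 3. Suppose that either every maximal 2-local subgroup of G is 2-constrained with no nontrivial normal subgroup of odd order, or the centralizer of every involution of G is 2-constrained with no nontrivial normal subgroup of odd order. Then S normalizes no nontrivial subgroup of G of odd order and every 2-local subgroup of G is 2-constrained. -/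
theorem result {G : Type*} [Group G] [Finite G]
    (S : Sylow 2 G) (A : Subgroup G) (hA : Cfsg.IsSCN (S : Subgroup G) A) (hA3 : ¬ Cfsg.PRankLE 2 2 ↥A)
    (h : (∀ M : Subgroup G, Cfsg.IsMaximalTwoLocal M → Cfsg.IsPConstrained 2 ↥M ∧ Cfsg.oddCore ↥M = ⊥) ∨
      (∀ t : G, orderOf t = 2 → Cfsg.IsPConstrained 2 ↥(Subgroup.centralizer ({t} : Set G)) ∧
        Cfsg.oddCore ↥(Subgroup.centralizer ({t} : Set G)) = ⊥)) :
    (∀ X : Subgroup G, Odd (Nat.card ↥X) → (S : Subgroup G) ≤ Subgroup.normalizer (X : Set G) → X = ⊥) ∧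
      (∀ T : Subgroup G, IsPGroup 2 ↥T → T ≠ ⊥ → Cfsg.IsPConstrained 2 ↥(Subgroup.normalizer (T : Set G))) := by
  haveI : Fact (Nat.Prime 2) := ⟨Nat.prime_two⟩
  have hcent : ∀ t : G, orderOf t = 2 → CharP 2 (centralizer ({t} : Set G)) := by
    intro t ht
    rcases h with h | h
    · have ht1 : zpowers t ≠ ⊥ := by
        rw [Ne, zpowers_eq_bot]
        rintro rfl
        rw [orderOf_one] at ht
        omega
      obtain ⟨M, hM, hle, hmax⟩ := exists_maximal_ge (Q := fun M : Subgroup G => IsTwoLocal M)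
        (H := normalizer (zpowers t : Set G)) ⟨_, isPGroup_zpowers' ht, ht1, rfl⟩
      have hMm : IsMaximalTwoLocal M := ⟨hM, fun N hN hMN => (hmax N hN hMN).symm⟩
      obtain ⟨h1, h2⟩ := h M hMm
      have hMc : CharP 2 M := charP_iff.2 ⟨h2, h1⟩
      have h3 := (charP_rel hMc (le_normalizer.trans hle) (isPGroup_zpowers' ht)).2
      rwa [inf_eq_left.2 ((centralizer_le_normalizer _).trans hle), centralizer_zpowers'] at h3
    · exact charP_iff.2 ⟨(h t ht).2, (h t ht).1⟩
  have hAc : A ≤ centralizer (A : Set G) := by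
    conv_lhs => rw [← hA.2.2]
    exact inf_le_right
  refine ⟨?_, ?_⟩
  · intro X hX hSX
    obtain ⟨z, w, hz, hw, hzz, hww, hz1, hw1, hwz, h1, h2⟩ := exists_normal_four S.2 hA.1 hA.2.1 hAc
      (lt_of_le_of_lt (by norm_num) (lt_card_omega hAc hA3))
    exact eq_bot_of_four (isSyl_top S) (hA.1 hz) (hA.1 hw) hzz hww hz1 hw1 hwz h1 h2
      (fun t ht => isCharP_iff.2 (hcent t ht)) hX hSX
  · intro T hT hT1
    exact (charP_iff.1 (charP_of_elements hcent hT hT1).1).2

end Cfsg.Agent.S3246
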