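import Cfsg.Statements.S3247
import Cfsg.Agent.Lib.ConstrainedLocal

set_option autoImplicit false
open Cfsg

namespace Cfsg.Agent.S3247

open Subgroup Cfsg.Agent.Lib.ConstrainedLocal Cfsg.Agent.Lib.PConstraint

/-- Let G be a finite group and p a prime; here a p-local subgroup means the normalizer of a nontrivial p-subgroup, other than G itself. If every p-local subgroup of G that is maximal among p-local subgroups is p-constrained, or if the centralizer of every element of order p of G is p-constrained, then every p-local subgroup of G is p-constrained. -/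
theorem result {G : Type*} [Group G] [Finite G] (p : ℕ) [hp : Fact p.Prime]
    (h : (∀ M : Subgroup G, (∃ T : Subgroup G, IsPGroup p ↥T ∧ T ≠ ⊥ ∧ M = Subgroup.normalizer (T : Set G)) → M ≠ ⊤ →
        (∀ M' : Subgroup G, (∃ T' : Subgroup G, IsPGroup p ↥T' ∧ T' ≠ ⊥ ∧ M' = Subgroup.normalizer (T' : Set G)) → M' ≠ ⊤ → M ≤ M' → M = M') →
        Cfsg.IsPConstrained p ↥M) ∨
      (∀ x : G, orderOf x = p → Cfsg.IsPConstrained p ↥(Subgroup.centralizer ({x} : Set G))))
    (T : Subgroup G) (hT : IsPGroup p ↥T) (hT1 : T ≠ ⊥) (hTG : Subgroup.normalizer (T : Set G) ≠ ⊤) :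
    Cfsg.IsPConstrained p ↥(Subgroup.normalizer (T : Set G)) := by
  rcases h with h | h
  · obtain ⟨M, ⟨h1, h1'⟩, h2, h3⟩ := exists_maximal_ge
      (Q := fun M : Subgroup G => (∃ T : Subgroup G, IsPGroup p ↥T ∧ T ≠ ⊥ ∧ M = Subgroup.normalizer (T : Set G)) ∧ M ≠ ⊤)
      (H := normalizer (T : Set G)) ⟨⟨T, hT, hT1, rfl⟩, hTG⟩
    have hM := h M h1 h1' (fun M' h4 h5 => h3 M' ⟨h4, h5⟩)
    have := (constrained_rel hM (le_normalizer.trans h2) hT).1
    rwa [inf_eq_left.2 h2] at this
  · exact (constrained_of_elements h hT hT1).1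

end Cfsg.Agent.S3247
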