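import Cfsg.Statements.S3265
import Cfsg.Agent.Lib.OddGraph
import Mathlib.GroupTheory.Perm.Cycle.Type
import Mathlib.Dynamics.PeriodicPts.Lemmas
import Mathlib.GroupTheory.Perm.ViaEmbedding
import Mathlib.Tactic

set_option autoImplicit false
open Cfsg

namespace Cfsg.Agent.S3265

open Equiv Equiv.Perm

section gen

variable {α : Type*} [Fintype α] [DecidableEq α]

lemma odd_prod' {ι : Type*} (s : Finset ι) (k : ι → ℕ) (h : ∀ i, Odd (k i)) : Odd (∏ i ∈ s, k i) := by
  apply Finset.prod_induction _ Odd
  · intro a b ha hb; exact ha.mul hb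
  · exact odd_one
  · intro i _; exact h i

/-- an element has odd order iff each point has an odd period -/
lemma odd_iff (g : Perm α) : Odd (orderOf g) ↔ ∀ v : α, ∃ k : ℕ, Odd k ∧ (g ^ k) v = v := by
  constructor
  · intro h v
    exact ⟨orderOf g, h, by rw [pow_orderOf_eq_one]; rfl⟩
  · intro h
    choose k hk hkv using h
    have h1 : g ^ (∏ v : α, k v) = 1 := by
      ext v
      have hdvd : k v ∣ ∏ v : α, k v := Finset.dvd_prod_of_mem _ (Finset.mem_univ v)
      obtain ⟨m, hm⟩ := hdvd
      rw [hm, pow_mul]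
      have : ∀ m : ℕ, ((g ^ k v) ^ m) v = v := by
        intro m
        induction m with
        | zero => simp
        | succ m ih => rw [pow_succ, Perm.mul_apply, hkv, ih]
      rw [this]; rfl
    exact Odd.of_dvd_nat (odd_prod' _ _ hk) (orderOf_dvd_of_pow_eq_one h1)

lemma pow_fix {g : Perm α} {u : α} (hu : g u = u) (j : ℕ) : (g ^ j) u = u := by
  induction j with
  | zero => simp
  | succ j ih => rw [pow_succ, Perm.mul_apply, hu, ih]

/-- inserting two fixed points `u v` before `f` -/
lemma odd_insert {g : Perm α} {u v f : α} (huv : u ≠ v) (hfu : f ≠ u) (hfv : f ≠ v) (hu : g u = u) (hv : g v = v)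
    (hg : Odd (orderOf g)) : Odd (orderOf ((swap f v * swap f u) * g)) := by
  rw [odd_iff]
  set c := swap f v * swap f u with hc
  set h := c * g with hh
  have cf : c f = u := by
    rw [hc, Perm.mul_apply, swap_apply_left, swap_apply_of_ne_of_ne hfu.symm huv]
  have cu : c u = v := by
    rw [hc, Perm.mul_apply, swap_apply_right, swap_apply_left]
  have cv : c v = f := by
    rw [hc, Perm.mul_apply, swap_apply_of_ne_of_ne hfv.symm huv.symm, swap_apply_right]
  have co : ∀ w, w ≠ f → w ≠ u → w ≠ v → c w = w := by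
    intro w h1 h2 h3
    rw [hc, Perm.mul_apply, swap_apply_of_ne_of_ne h1 h2, swap_apply_of_ne_of_ne h1 h3]
  set k := Function.minimalPeriod (⇑g) f with hk
  have hkf : (g ^ k) f = f := by
    have := Function.isPeriodicPt_minimalPeriod (⇑g) f
    rwa [Function.IsPeriodicPt, Function.IsFixedPt, Equiv.Perm.iterate_eq_pow] at this
  have hkdvd : k ∣ orderOf g := by
    apply Function.IsPeriodicPt.minimalPeriod_dvd
    rw [Function.IsPeriodicPt, Function.IsFixedPt, Equiv.Perm.iterate_eq_pow, pow_orderOf_eq_one]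
    rfl
  have hkodd : Odd k := Odd.of_dvd_nat hg hkdvd
  have hkpos : 0 < k := hkodd.pos
  have hmin : ∀ j, 0 < j → j < k → (g ^ j) f ≠ f := by
    intro j hj hjk hjf
    have : Function.IsPeriodicPt (⇑g) j f := by
      rw [Function.IsPeriodicPt, Function.IsFixedPt, Equiv.Perm.iterate_eq_pow]; exact hjf
    have := this.minimalPeriod_le hj
    omega
  have hneu : ∀ (j : ℕ) (w : α), w ≠ u → (g ^ j) w ≠ u := by
    intro j w hw h1
    apply hw
    have := pow_fix hu j
    rw [← h1] at this
    have h2 : (g ^ j) ((g ^ j) w) = (g ^ j) w := this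
    have := (g ^ j).injective h2
    rw [← this, h1]
  have hnev : ∀ (j : ℕ) (w : α), w ≠ v → (g ^ j) w ≠ v := by
    intro j w hw h1
    apply hw
    have := pow_fix hv j
    rw [← h1] at this
    have h2 : (g ^ j) ((g ^ j) w) = (g ^ j) w := this
    have := (g ^ j).injective h2
    rw [← this, h1]
  have hpow : ∀ j, j < k → (h ^ j) f = (g ^ j) f := by
    intro j
    induction j with
    | zero => intro _; simp
    | succ j ih =>
      intro hj
      rw [pow_succ', Perm.mul_apply, ih (by omega), hh, Perm.mul_apply, ← Perm.mul_apply g, ← pow_succ']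
      exact co _ (hmin _ (by omega) hj) (hneu _ _ hfu) (hnev _ _ hfv)
  have hk1 : (h ^ k) f = u := by
    obtain ⟨m, hm⟩ : ∃ m, k = m + 1 := ⟨k - 1, by omega⟩
    rw [hm, pow_succ', Perm.mul_apply, hpow m (by omega), hh, Perm.mul_apply, ← Perm.mul_apply g, ← pow_succ',
      ← hm, hkf, cf]
  have hk2 : (h ^ (k + 1)) f = v := by
    rw [pow_succ', Perm.mul_apply, hk1, hh, Perm.mul_apply, hu, cu]
  have hk3 : (h ^ (k + 2)) f = f := by
    rw [pow_succ', Perm.mul_apply, hk2, hh, Perm.mul_apply, hv, cv]
  have hk2odd : Odd (k + 2) := by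
    rcases hkodd with ⟨m, hm⟩; exact ⟨m + 1, by omega⟩
  have horb : ∀ (i : ℕ), (h ^ (k + 2)) ((h ^ i) f) = (h ^ i) f := by
    intro i
    rw [← Perm.mul_apply, ← pow_add, add_comm, pow_add, Perm.mul_apply, hk3]
  intro w
  by_cases hwu : w = u
  · exact ⟨k + 2, hk2odd, by rw [hwu, ← hk1]; exact horb k⟩
  by_cases hwv : w = v
  · exact ⟨k + 2, hk2odd, by rw [hwv, ← hk2]; exact horb (k + 1)⟩
  by_cases hw : ∃ i : ℕ, (g ^ i) f = w
  · obtain ⟨i, hi⟩ := hw
    have hi2 : (g ^ (i % k)) f = w := by
      rw [← hi]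
      conv_rhs => rw [← Nat.mod_add_div i k]
      rw [pow_add, Perm.mul_apply]
      have : (g ^ (k * (i / k))) f = f := by
        rw [pow_mul]; exact pow_fix hkf _
      rw [this]
    refine ⟨k + 2, hk2odd, ?_⟩
    rw [← hi2, ← hpow _ (Nat.mod_lt _ hkpos)]
    exact horb _
  · push Not at hw
    refine ⟨orderOf g, hg, ?_⟩
    have : ∀ j : ℕ, (h ^ j) w = (g ^ j) w := by
      intro j
      induction j with
      | zero => simp
      | succ j ih =>
        rw [pow_succ', Perm.mul_apply, ih, hh, Perm.mul_apply, ← Perm.mul_apply g, ← pow_succ']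
        apply co
        · intro h1
          -- g^(j+1) w = f, so w = g^(ord*(j+1) - (j+1)) f
          apply hw (orderOf g * (j + 1) - (j + 1))
          have hpos : 0 < orderOf g := orderOf_pos g
          have hle : j + 1 ≤ orderOf g * (j + 1) := Nat.le_mul_of_pos_left _ hpos
          rw [← h1, ← Perm.mul_apply, ← pow_add, Nat.sub_add_cancel hle, pow_mul, pow_orderOf_eq_one, one_pow]
          rfl
        · exact hneu _ _ hwu
        · exact hnev _ _ hwv
    rw [this, pow_orderOf_eq_one]; rfl

/-! identities between products of transpositions of distinct points -/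

lemma via_swap {k : ℕ} (p : Fin k ↪ α) (i j : Fin k) :
    viaEmbeddingHom p (swap i j) = swap (p i) (p j) := by
  ext v
  by_cases hv : v ∈ Set.range p
  · obtain ⟨m, rfl⟩ := hv
    rw [viaEmbeddingHom_apply, viaEmbedding_apply, ← Function.Embedding.swap_apply]
  · rw [viaEmbeddingHom_apply, viaEmbedding_apply_of_notMem _ _ _ hv, swap_apply_of_ne_of_ne]
    · rintro rfl; exact hv ⟨i, rfl⟩
    · rintro rfl; exact hv ⟨j, rfl⟩

/-- the embedding given by a list without duplicates -/
def emb (l : List α) (h : l.Nodup) : Fin l.length ↪ α := ⟨l.get, List.nodup_iff_injective_get.1 h⟩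

lemma id_E {a b w : α} (h : [a, b, w].Nodup) : swap a b * swap b w = swap w b * swap w a := by
  have := congrArg (viaEmbeddingHom (emb _ h))
    (by decide +kernel : (swap 0 1 * swap 1 2 : Perm (Fin 3)) = swap 2 1 * swap 2 0)
  simp only [map_mul] at this
  simp only [via_swap] at this
  exact this

lemma id_C1x {a b c d p : α} (h : [a, b, c, d, p].Nodup) :
    swap a b * swap c d * (swap p a * swap b c) =
      (swap c d * swap c b) * (swap p a * swap p c) := by
  have := congrArg (viaEmbeddingHom (emb _ h))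
    (by decide +kernel : (swap 0 1 * swap 2 3 * (swap 4 0 * swap 1 2) : Perm (Fin 5)) =
      (swap 2 3 * swap 2 1) * (swap 4 0 * swap 4 2))
  simp only [map_mul] at this
  simp only [via_swap] at this
  exact this

lemma id_C1y {a b c d p : α} (h : [a, b, c, d, p].Nodup) :
    (swap p a * swap b c) * (swap b c * swap d a) = swap p d * swap p a := by
  have := congrArg (viaEmbeddingHom (emb _ h))
    (by decide +kernel : ((swap 4 0 * swap 1 2) * (swap 1 2 * swap 3 0) : Perm (Fin 5)) =
      swap 4 3 * swap 4 0)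
  simp only [map_mul] at this
  simp only [via_swap] at this
  exact this

lemma id_C2x {a b c d p q : α} (h : [a, b, c, d, p, q].Nodup) :
    swap a b * swap c d * swap p q * (swap p a * swap q c * swap b d) =
      (swap p c * swap p b) * (swap q a * swap q d) := by
  have := congrArg (viaEmbeddingHom (emb _ h))
    (by decide +kernel : (swap 0 1 * swap 2 3 * swap 4 5 * (swap 4 0 * swap 5 2 * swap 1 3) : Perm (Fin 6)) =
      (swap 4 2 * swap 4 1) * (swap 5 0 * swap 5 3))
  simp only [map_mul] at this
  simp only [via_swap] at this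
  exact this

lemma id_C2y {a b c d p q : α} (h : [a, b, c, d, p, q].Nodup) :
    (swap p a * swap q c * swap b d) * (swap b c * swap d a) * swap p q =
      (swap p d * swap p c) * (swap q b * swap q a) := by
  have := congrArg (viaEmbeddingHom (emb _ h))
    (by decide +kernel : ((swap 4 0 * swap 5 2 * swap 1 3) * (swap 1 2 * swap 3 0) * swap 4 5 : Perm (Fin 6)) =
      (swap 4 3 * swap 4 2) * (swap 5 1 * swap 5 0))
  simp only [map_mul] at this
  simp only [via_swap] at this
  exact this

lemma id_D {a b c d e f : α} (h : [a, b, c, d, e, f].Nodup) :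
    swap a b * swap c d * swap e f * (swap b c * swap d e) * swap a f =
      (swap f d * swap f b) * (swap a c * swap a e) := by
  have := congrArg (viaEmbeddingHom (emb _ h))
    (by decide +kernel : (swap 0 1 * swap 2 3 * swap 4 5 * (swap 1 2 * swap 3 4) * swap 0 5 : Perm (Fin 6)) =
      (swap 5 3 * swap 5 1) * (swap 0 2 * swap 0 4))
  simp only [map_mul] at this
  simp only [via_swap] at this
  exact this

lemma odd_of_cube {g : Perm α} (h : g ^ 3 = 1) : Odd (orderOf g) :=
  Odd.of_dvd_nat (by decide) (orderOf_dvd_of_pow_eq_one h)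

lemma id_8a {a b c d e f g k : α} (h : [a, b, c, d, e, f, g, k].Nodup) :
    ((swap a b * swap c d * (swap e f * swap g k)) * (swap a b * swap f g * swap c e * swap d k)) ^ 3 = 1 := by
  have := congrArg (viaEmbeddingHom (emb _ h))
    (by decide +kernel : ((swap 0 1 * swap 2 3 * (swap 4 5 * swap 6 7)) * (swap 0 1 * swap 5 6 * swap 2 4 * swap 3 7) : Perm (Fin 8)) ^ 3 = 1)
  simp only [map_mul, map_pow, map_one] at this
  simp only [via_swap] at this
  exact this

lemma id_8b {a b c d e f g k : α} (h : [a, b, c, d, e, f, g, k].Nodup) :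
    ((swap a b * swap f g * swap c e * swap d k) * (swap b c * swap d a * (swap f g * swap k e))) ^ 3 = 1 := by
  have := congrArg (viaEmbeddingHom (emb _ h))
    (by decide +kernel : ((swap 0 1 * swap 5 6 * swap 2 4 * swap 3 7) * (swap 1 2 * swap 3 0 * (swap 5 6 * swap 7 4)) : Perm (Fin 8)) ^ 3 = 1)
  simp only [map_mul, map_pow, map_one] at this
  simp only [via_swap] at this
  exact this

lemma id_8c {a b c d e f g k : α} (h : [a, b, c, d, e, f, g, k].Nodup) :
    ((swap a b * swap c d * swap e f * swap g k) * (swap a b * swap d e * swap c g * swap f k)) ^ 3 = 1 := by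
  have := congrArg (viaEmbeddingHom (emb _ h))
    (by decide +kernel : ((swap 0 1 * swap 2 3 * swap 4 5 * swap 6 7) * (swap 0 1 * swap 3 4 * swap 2 6 * swap 5 7) : Perm (Fin 8)) ^ 3 = 1)
  simp only [map_mul, map_pow, map_one] at this
  simp only [via_swap] at this
  exact this

lemma id_8d {a b c d e f g k : α} (h : [a, b, c, d, e, f, g, k].Nodup) :
    ((swap a b * swap d e * swap c g * swap f k) * (swap b c * swap d e * swap f g * swap k a)) ^ 3 = 1 := by
  have := congrArg (viaEmbeddingHom (emb _ h))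
    (by decide +kernel : ((swap 0 1 * swap 3 4 * swap 2 6 * swap 5 7) * (swap 1 2 * swap 3 4 * swap 5 6 * swap 7 0) : Perm (Fin 8)) ^ 3 = 1)
  simp only [map_mul, map_pow, map_one] at this
  simp only [via_swap] at this
  exact this

/-! removing and adding transpositions -/

lemma comm_swap {x : Perm α} {a b : α} (ha : x a = a) (hb : x b = b) : Commute (swap a b) x := by
  show swap a b * x = x * swap a b
  rw [mul_swap_eq_swap_mul, ha, hb]

lemma add_swap {x : Perm α} (hx : x * x = 1) {a b : α} (hab : a ≠ b) (ha : x a = a) (hb : x b = b) :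
    (swap a b * x) * (swap a b * x) = 1 ∧ (swap a b * x).support.card = x.support.card + 2 := by
  constructor
  · have := comm_swap ha hb
    calc (swap a b * x) * (swap a b * x) = swap a b * (x * swap a b) * x := by group
      _ = swap a b * (swap a b * x) * x := by rw [this.eq]
      _ = 1 := by rw [← mul_assoc, swap_mul_self, one_mul, hx]
  · have hd : Perm.Disjoint (swap a b) x := by
      intro v
      by_cases h1 : v = a
      · right; rw [h1, ha]
      · by_cases h2 : v = b
        · right; rw [h2, hb]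
        · left; exact swap_apply_of_ne_of_ne h1 h2
    rw [hd.card_support_mul, card_support_swap hab, add_comm]

lemma remove_swap {x : Perm α} (hx : x * x = 1) {a b : α} (hab : a ≠ b) (hxa : x a = b) :
    ∃ x' : Perm α, x' * x' = 1 ∧ x' a = a ∧ x' b = b ∧ (∀ v, v ≠ a → v ≠ b → x' v = x v) ∧
      x = swap a b * x' ∧ x'.support.card + 2 = x.support.card := by
  have hxb : x b = a := by
    have : (x * x) a = a := by rw [hx]; rfl
    rw [Perm.mul_apply, hxa] at this
    exact this
  have h1 : x = swap a b * (swap a b * x) := by rw [← mul_assoc, swap_mul_self, one_mul]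
  have h2 : (swap a b * x) a = a := by rw [Perm.mul_apply, hxa, swap_apply_right]
  have h3 : (swap a b * x) b = b := by rw [Perm.mul_apply, hxb, swap_apply_left]
  have hcomm : swap a b * x = x * swap a b := by
    rw [mul_swap_eq_swap_mul, hxa, hxb, swap_comm]
  have h4 : (swap a b * x) * (swap a b * x) = 1 := by
    calc (swap a b * x) * (swap a b * x) = (swap a b * x) * (x * swap a b) := by rw [← hcomm]
      _ = swap a b * (x * x) * swap a b := by group
      _ = 1 := by rw [hx, mul_one, swap_mul_self]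
  refine ⟨swap a b * x, h4, h2, h3, ?_, h1, ?_⟩
  · intro v hva hvb
    rw [Perm.mul_apply]
    apply swap_apply_of_ne_of_ne
    · intro h
      apply hvb
      have : x (x v) = x a := by rw [h]
      rw [← Perm.mul_apply, hx, hxa] at this
      exact this
    · intro h
      apply hva
      have : x (x v) = x b := by rw [h]
      rw [← Perm.mul_apply, hx, hxb] at this
      exact this
  · have := (add_swap h4 hab h2 h3).2
    rw [← this, ← h1]

lemma invol_apply {x : Perm α} (hx : x * x = 1) (v : α) : x (x v) = v := by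
  rw [← Perm.mul_apply, hx]; rfl

lemma odd_comm {g h : Perm α} (H : Odd (orderOf (g * h))) : Odd (orderOf (h * g)) := by
  rwa [Cfsg.Agent.Lib.OddGraph.orderOf_mul_comm']

/-- The exceptional configuration. -/
def Exc (S : Finset α) (x y : Perm α) : Prop := S.card = 4 ∧ x.support.card = 4 ∧ x ≠ y

/-- Goal of the induction -/
def Mid (S : Finset α) (x y : Perm α) : Prop :=
  ∃ z : Perm α, z * z = 1 ∧ (∀ v, v ∉ S → z v = v) ∧ z.support.card = x.support.card ∧
    Odd (orderOf (x * z)) ∧ Odd (orderOf (z * y))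

lemma Mid.symm {S : Finset α} {x y : Perm α} (hc : x.support.card = y.support.card) (h : Mid S x y) : Mid S y x := by
  obtain ⟨z, h1, h2, h3, h4, h5⟩ := h
  exact ⟨z, h1, h2, h3.trans hc, odd_comm h5, odd_comm h4⟩

lemma swap_fix {a b v : α} (h1 : v ≠ a) (h2 : v ≠ b) : swap a b v = v := swap_apply_of_ne_of_ne h1 h2

/-- rule B: a common edge -/
lemma ruleB {S : Finset α} {x' y' : Perm α} {p q : α} (hpq : p ≠ q) (hp : p ∈ S) (hq : q ∈ S)
    (hx : x' * x' = 1) (hxp : x' p = p) (hxq : x' q = q) (hyp : y' p = p) (hyq : y' q = q)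
    (h : Mid ((S.erase p).erase q) x' y') : Mid S (swap p q * x') (swap p q * y') := by
  obtain ⟨z, h1, h2, h3, h4, h5⟩ := h
  have hzp : z p = p := h2 p (by simp)
  have hzq : z q = q := h2 q (by simp)
  obtain ⟨h6, h7⟩ := add_swap h1 hpq hzp hzq
  refine ⟨swap p q * z, h6, ?_, ?_, ?_, ?_⟩
  · intro v hv
    have hvp : v ≠ p := by rintro rfl; exact hv hp
    have hvq : v ≠ q := by rintro rfl; exact hv hq
    rw [Perm.mul_apply, h2 v (by simp [hv]), swap_fix hvp hvq]
  · rw [h7, (add_swap hx hpq hxp hxq).2, h3]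
  · have : swap p q * x' * (swap p q * z) = x' * z := by
      rw [(comm_swap hxp hxq).eq, mul_assoc, ← mul_assoc (swap p q), swap_mul_self, one_mul]
    rw [this]; exact h4
  · have : swap p q * z * (swap p q * y') = z * y' := by
      rw [(comm_swap hzp hzq).eq, mul_assoc, ← mul_assoc (swap p q), swap_mul_self, one_mul]
    rw [this]; exact h5

/-- rule E: the beginning `a - b - c` of a path, `a` fixed by `y` -/
lemma ruleE {S : Finset α} {x' y' : Perm α} {a b c : α} (hab : a ≠ b) (hbc : b ≠ c) (hac : a ≠ c)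
    (ha : a ∈ S) (hb : b ∈ S)
    (hx : x' * x' = 1) (hxa : x' a = a) (hxb : x' b = b) (hya : y' a = a) (hyb : y' b = b) (hyc : y' c = c)
    (h : Mid ((S.erase a).erase b) x' y') : Mid S (swap a b * x') (swap b c * y') := by
  obtain ⟨z, h1, h2, h3, h4, h5⟩ := h
  have hza : z a = a := h2 a (by simp)
  have hzb : z b = b := h2 b (by simp)
  obtain ⟨h6, h7⟩ := add_swap h1 hab hza hzb
  refine ⟨swap a b * z, h6, ?_, ?_, ?_, ?_⟩
  · intro v hv
    have hvp : v ≠ a := by rintro rfl; exact hv ha
    have hvq : v ≠ b := by rintro rfl; exact hv hb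
    rw [Perm.mul_apply, h2 v (by simp [hv]), swap_fix hvp hvq]
  · rw [h7, (add_swap hx hab hxa hxb).2, h3]
  · have : swap a b * x' * (swap a b * z) = x' * z := by
      rw [(comm_swap hxa hxb).eq, mul_assoc, ← mul_assoc (swap a b), swap_mul_self, one_mul]
    rw [this]; exact h4
  · have hwa : z c ≠ a := fun h => hac (z.injective (by rw [h, hza]))
    have hwb : z c ≠ b := fun h => hbc (z.injective (by rw [h, hzb]))
    have hn : [a, b, z c].Nodup := by
      simp [hab, hwa.symm, hwb.symm]
    have : swap a b * z * (swap b c * y') = (swap (z c) b * swap (z c) a) * (z * y') := by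
      rw [← id_E hn, mul_assoc, ← mul_assoc z, mul_swap_eq_swap_mul, hzb]
      simp only [mul_assoc]
    rw [this]
    exact odd_insert hab hwa hwb (by rw [Perm.mul_apply, hya, hza]) (by rw [Perm.mul_apply, hyb, hzb]) h5

/-- rule F: two 2-paths of different types -/
lemma ruleF {S : Finset α} {x' y' : Perm α} {a b c d : α} (hn : [a, b, c, d].Nodup)
    (hb : b ∈ S) (hc : c ∈ S) (hx : x' * x' = 1)
    (hxa : x' a = a) (hxb : x' b = b) (hxc : x' c = c)
    (hyb : y' b = b) (hyc : y' c = c) (hyd : y' d = d)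
    (h : Mid ((((S.erase a).erase b).erase c).erase d) x' y') : Mid S (swap a b * x') (swap c d * y') := by
  obtain ⟨z, h1, h2, h3, h4, h5⟩ := h
  simp only [List.nodup_cons, List.mem_cons, List.not_mem_nil, or_false, not_or, List.nodup_nil, and_true,
    not_false_eq_true] at hn
  obtain ⟨⟨hab, hac, had⟩, ⟨hbc, hbd⟩, hcd⟩ := hn
  have hza : z a = a := h2 a (by simp)
  have hzb : z b = b := h2 b (by simp)
  have hzc : z c = c := h2 c (by simp)
  have hzd : z d = d := h2 d (by simp)
  obtain ⟨h6, h7⟩ := add_swap h1 hbc hzb hzc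
  refine ⟨swap b c * z, h6, ?_, ?_, ?_, ?_⟩
  · intro v hv
    have hvp : v ≠ b := by rintro rfl; exact hv hb
    have hvq : v ≠ c := by rintro rfl; exact hv hc
    rw [Perm.mul_apply, h2 v (by simp [hv]), swap_fix hvp hvq]
  · rw [h7, (add_swap hx hab hxa hxb).2, h3]
  · have : swap a b * x' * (swap b c * z) = (swap c b * swap c a) * (x' * z) := by
      rw [← id_E (by simp [hab, hac, hbc]), mul_assoc, ← mul_assoc x', ← (comm_swap hxb hxc).eq]
      simp only [mul_assoc]
    rw [this]
    exact odd_insert hab (Ne.symm hac) (Ne.symm hbc) (by rw [Perm.mul_apply, hza, hxa]) (by rw [Perm.mul_apply, hzb, hxb]) h4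
  · have : swap b c * z * (swap c d * y') = (swap d c * swap d b) * (z * y') := by
      rw [← id_E (by simp [hbc, hbd, hcd]), mul_assoc, ← mul_assoc z, ← (comm_swap hzc hzd).eq]
      simp only [mul_assoc]
    rw [this]
    exact odd_insert hbc (Ne.symm hbd) (Ne.symm hcd) (by rw [Perm.mul_apply, hyb, hzb]) (by rw [Perm.mul_apply, hyc, hzc]) h5

/-- rule C: absorbing a 4-cycle `a b c d` into a nonempty rest -/
lemma ruleC {S : Finset α} {x' y' : Perm α} {a b c d p : α} (hn : [a, b, c, d, p].Nodup)
    (ha : a ∈ S) (hb : b ∈ S) (hc : c ∈ S) (hd : d ∈ S) (hp : p ∈ S)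
    (hx : x' * x' = 1)
    (hxa : x' a = a) (hxb : x' b = b) (hxc : x' c = c) (hxd : x' d = d)
    (hya : y' a = a) (hyb : y' b = b) (hyc : y' c = c) (hyd : y' d = d)
    (h : Mid ((((S.erase a).erase b).erase c).erase d) x' y') :
    Mid S (swap a b * (swap c d * x')) (swap b c * (swap d a * y')) := by
  obtain ⟨z, h1, h2, h3, h4, h5⟩ := h
  have hn' := hn
  simp only [List.nodup_cons, List.mem_cons, List.not_mem_nil, or_false, not_or, List.nodup_nil, and_true,
    not_false_eq_true] at hn'
  obtain ⟨⟨hab, hac, had, hap⟩, ⟨hbc, hbd, hbp⟩, ⟨hcd, hcp⟩, hdp⟩ := hn'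
  have hza : z a = a := h2 a (by simp)
  have hzb : z b = b := h2 b (by simp)
  have hzc : z c = c := h2 c (by simp)
  have hzd : z d = d := h2 d (by simp)
  have hcardx : (swap a b * (swap c d * x')).support.card = x'.support.card + 2 + 2 := by
    obtain ⟨e1, e2⟩ := add_swap hx hcd hxc hxd
    rw [(add_swap e1 hab (by rw [Perm.mul_apply, hxa, swap_fix hac had])
      (by rw [Perm.mul_apply, hxb, swap_fix hbc hbd])).2, e2]
  by_cases hzp : z p = p
  · -- z = (p a)(b c) z'
    obtain ⟨h6, h7⟩ := add_swap h1 hbc hzb hzc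
    obtain ⟨h8, h9⟩ := add_swap h6 (Ne.symm hap) (by rw [Perm.mul_apply, hzp, swap_fix (Ne.symm hbp) (Ne.symm hcp)])
      (by rw [Perm.mul_apply, hza, swap_fix hab hac])
    refine ⟨swap p a * (swap b c * z), h8, ?_, ?_, ?_, ?_⟩
    · intro v hv
      have hva : v ≠ a := by rintro rfl; exact hv ha
      have hvb : v ≠ b := by rintro rfl; exact hv hb
      have hvc : v ≠ c := by rintro rfl; exact hv hc
      have hvp : v ≠ p := by rintro rfl; exact hv hp
      rw [Perm.mul_apply, Perm.mul_apply, h2 v (by simp [hv]), swap_fix hvb hvc, swap_fix hvp hva]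
    · rw [h9, h7, hcardx, h3]
    · have c1 := comm_swap hzp hza
      have c2 := comm_swap hzb hzc
      have c3 : Commute (swap a b) (x' * z) := comm_swap (by rw [Perm.mul_apply, hza, hxa]) (by rw [Perm.mul_apply, hzb, hxb])
      have c4 : Commute (swap c d) (x' * z) := comm_swap (by rw [Perm.mul_apply, hzc, hxc]) (by rw [Perm.mul_apply, hzd, hxd])
      have e : swap a b * (swap c d * x') * (swap p a * (swap b c * z)) =
          (x' * z) * (swap a b * swap c d * (swap p a * swap b c)) := by
        calc swap a b * (swap c d * x') * (swap p a * (swap b c * z))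
            = swap a b * swap c d * x' * (swap p a * (swap b c * z)) := by simp only [mul_assoc]
          _ = swap a b * swap c d * x' * (swap p a * (z * swap b c)) := by rw [c2.eq]
          _ = swap a b * swap c d * x' * ((swap p a * z) * swap b c) := by simp only [mul_assoc]
          _ = swap a b * swap c d * x' * ((z * swap p a) * swap b c) := by rw [c1.eq]
          _ = swap a b * (swap c d * (x' * z)) * (swap p a * swap b c) := by simp only [mul_assoc]
          _ = swap a b * ((x' * z) * swap c d) * (swap p a * swap b c) := by rw [c4.eq]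
          _ = (swap a b * (x' * z)) * swap c d * (swap p a * swap b c) := by simp only [mul_assoc]
          _ = ((x' * z) * swap a b) * swap c d * (swap p a * swap b c) := by rw [c3.eq]
          _ = (x' * z) * (swap a b * swap c d * (swap p a * swap b c)) := by simp only [mul_assoc]
      rw [e]
      apply odd_comm
      rw [id_C1x hn, mul_assoc]
      apply odd_insert hbd (Ne.symm hbc) hcd
      · rw [Perm.mul_apply, Perm.mul_apply, Perm.mul_apply, hzb, hxb, swap_fix hbp hbc, swap_fix hbp (Ne.symm hab)]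
      · rw [Perm.mul_apply, Perm.mul_apply, Perm.mul_apply, hzd, hxd, swap_fix hdp (Ne.symm hcd), swap_fix hdp (Ne.symm had)]
      · apply odd_insert (Ne.symm hac) (Ne.symm hcp) (Ne.symm hap)
        · rw [Perm.mul_apply, hzc, hxc]
        · rw [Perm.mul_apply, hza, hxa]
        · exact h4
    · have c1 := comm_swap hzb hzc
      have c2 := comm_swap hzd hza
      have e : swap p a * (swap b c * z) * (swap b c * (swap d a * y')) =
          ((swap p a * swap b c) * (swap b c * swap d a)) * (z * y') := by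
        calc swap p a * (swap b c * z) * (swap b c * (swap d a * y'))
            = swap p a * swap b c * (z * swap b c) * (swap d a * y') := by simp only [mul_assoc]
          _ = swap p a * swap b c * (swap b c * z) * (swap d a * y') := by rw [← c1.eq]
          _ = swap p a * swap b c * swap b c * (z * swap d a) * y' := by simp only [mul_assoc]
          _ = swap p a * swap b c * swap b c * (swap d a * z) * y' := by rw [← c2.eq]
          _ = ((swap p a * swap b c) * (swap b c * swap d a)) * (z * y') := by simp only [mul_assoc]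
      rw [e, id_C1y hn]
      exact odd_insert had (Ne.symm hap) (Ne.symm hdp) (by rw [Perm.mul_apply, hya, hza])
        (by rw [Perm.mul_apply, hyd, hzd]) h5
  · -- z = (p a)(q c)(b d) (p q) z'
    set q := z p with hq
    have hpq : p ≠ q := Ne.symm hzp
    have hqa : q ≠ a := fun h => hap (z.injective (by rw [← hq, h, hza])).symm
    have hqb : q ≠ b := fun h => hbp (z.injective (by rw [← hq, h, hzb])).symm
    have hqc : q ≠ c := fun h => hcp (z.injective (by rw [← hq, h, hzc])).symm
    have hqd : q ≠ d := fun h => hdp (z.injective (by rw [← hq, h, hzd])).symm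
    have hqS : q ∈ S := by
      by_contra hqS
      apply hpq
      have := h2 q (by simp [hqS])
      exact z.injective (by rw [this])
    obtain ⟨z', k1, k2, k3, k4, k5, k6⟩ := remove_swap h1 hpq hq.symm
    have k4a := (k4 a hap (Ne.symm hqa)).trans hza
    have k4b := (k4 b hbp (Ne.symm hqb)).trans hzb
    have k4c := (k4 c hcp (Ne.symm hqc)).trans hzc
    have k4d := (k4 d hdp (Ne.symm hqd)).trans hzd
    have hn6 : [a, b, c, d, p, q].Nodup := by
      simp [hab, hac, had, hap, Ne.symm hqa, hbc, hbd, hbp, Ne.symm hqb, hcd, hcp, Ne.symm hqc, hdp, Ne.symm hqd, hpq]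
    -- build z
    obtain ⟨l1, l2⟩ := add_swap k1 hbd k4b k4d
    obtain ⟨l3, l4⟩ := add_swap l1 hqc (by rw [Perm.mul_apply, k3, swap_fix hqb hqd])
      (by rw [Perm.mul_apply, k4c, swap_fix (Ne.symm hbc) hcd])
    obtain ⟨l5, l6⟩ := add_swap l3 (Ne.symm hap)
      (by rw [Perm.mul_apply, Perm.mul_apply, k2, swap_fix (Ne.symm hbp) (Ne.symm hdp), swap_fix hpq (Ne.symm hcp)])
      (by rw [Perm.mul_apply, Perm.mul_apply, k4a, swap_fix hab had, swap_fix (Ne.symm hqa) hac])
    have e0 : swap p a * (swap q c * (swap b d * z')) = (swap p a * swap q c * swap b d) * z' := by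
      simp only [mul_assoc]
    refine ⟨swap p a * (swap q c * (swap b d * z')), l5, ?_, ?_, ?_, ?_⟩
    · intro v hv
      have hva : v ≠ a := by rintro rfl; exact hv ha
      have hvb : v ≠ b := by rintro rfl; exact hv hb
      have hvc : v ≠ c := by rintro rfl; exact hv hc
      have hvd : v ≠ d := by rintro rfl; exact hv hd
      have hvp : v ≠ p := by rintro rfl; exact hv hp
      have hvq : v ≠ q := by rintro rfl; exact hv hqS
      rw [Perm.mul_apply, Perm.mul_apply, Perm.mul_apply, k4 v hvp hvq, h2 v (by simp [hv]), swap_fix hvb hvd,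
        swap_fix hvq hvc, swap_fix hvp hva]
    · rw [l6, l4, l2, hcardx, ← h3, ← k6]
    · rw [e0]
      have c1 : Commute (swap p a) z' := comm_swap k2 k4a
      have c2 : Commute (swap q c) z' := comm_swap k3 k4c
      have c3 : Commute (swap b d) z' := comm_swap k4b k4d
      have cτ : Commute (swap p a * swap q c * swap b d) z' := (c1.mul_left c2).mul_left c3
      have c0 : Commute (swap p q) z' := comm_swap k2 k3
      have c4 : Commute (swap a b) (x' * z) := comm_swap (by rw [Perm.mul_apply, hza, hxa]) (by rw [Perm.mul_apply, hzb, hxb])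
      have c5 : Commute (swap c d) (x' * z) := comm_swap (by rw [Perm.mul_apply, hzc, hxc]) (by rw [Perm.mul_apply, hzd, hxd])
      have e1 : z' = z * swap p q := by
        rw [k5, c0.eq, mul_assoc, swap_mul_self, mul_one]
      have e : swap a b * (swap c d * x') * ((swap p a * swap q c * swap b d) * z') =
          (x' * z) * (swap a b * swap c d * swap p q * (swap p a * swap q c * swap b d)) := by
        calc swap a b * (swap c d * x') * ((swap p a * swap q c * swap b d) * z')
            = swap a b * (swap c d * x') * (z' * (swap p a * swap q c * swap b d)) := by rw [cτ.eq]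
          _ = swap a b * (swap c d * (x' * z)) * (swap p q * (swap p a * swap q c * swap b d)) := by
              rw [e1]; simp only [mul_assoc]
          _ = swap a b * ((x' * z) * swap c d) * (swap p q * (swap p a * swap q c * swap b d)) := by rw [c5.eq]
          _ = (swap a b * (x' * z)) * swap c d * (swap p q * (swap p a * swap q c * swap b d)) := by simp only [mul_assoc]
          _ = ((x' * z) * swap a b) * swap c d * (swap p q * (swap p a * swap q c * swap b d)) := by rw [c4.eq]
          _ = _ := by simp only [mul_assoc]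
      rw [e]
      apply odd_comm
      rw [id_C2x hn6, mul_assoc]
      apply odd_insert hbc (Ne.symm hbp) (Ne.symm hcp)
      · rw [Perm.mul_apply, Perm.mul_apply, Perm.mul_apply, hzb, hxb, swap_fix (Ne.symm hqb) hbd,
          swap_fix (Ne.symm hqb) (Ne.symm hab)]
      · rw [Perm.mul_apply, Perm.mul_apply, Perm.mul_apply, hzc, hxc, swap_fix (Ne.symm hqc) hcd,
          swap_fix (Ne.symm hqc) (Ne.symm hac)]
      · apply odd_insert (Ne.symm had) hqd hqa
        · rw [Perm.mul_apply, hzd, hxd]
        · rw [Perm.mul_apply, hza, hxa]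
        · exact h4
    · rw [e0]
      have c1 : Commute (swap b c) z' := comm_swap k4b k4c
      have c2 : Commute (swap d a) z' := comm_swap k4d k4a
      have c3 : Commute (swap b c * swap d a) z' := c1.mul_left c2
      have e1 : z' = swap p q * z := by
        rw [k5, ← mul_assoc, swap_mul_self, one_mul]
      have e : (swap p a * swap q c * swap b d) * z' * (swap b c * (swap d a * y')) =
          ((swap p a * swap q c * swap b d) * (swap b c * swap d a) * swap p q) * (z * y') := by
        calc (swap p a * swap q c * swap b d) * z' * (swap b c * (swap d a * y'))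
            = (swap p a * swap q c * swap b d) * (z' * (swap b c * swap d a)) * y' := by simp only [mul_assoc]
          _ = (swap p a * swap q c * swap b d) * ((swap b c * swap d a) * z') * y' := by rw [← c3.eq]
          _ = _ := by rw [e1]; simp only [mul_assoc]
      rw [e, id_C2y hn6, mul_assoc]
      apply odd_insert hcd (Ne.symm hcp) (Ne.symm hdp)
      · rw [Perm.mul_apply, Perm.mul_apply, Perm.mul_apply, hyc, hzc, swap_fix (Ne.symm hqc) (Ne.symm hac),
          swap_fix (Ne.symm hqc) (Ne.symm hbc)]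
      · rw [Perm.mul_apply, Perm.mul_apply, Perm.mul_apply, hyd, hzd, swap_fix (Ne.symm hqd) (Ne.symm had),
          swap_fix (Ne.symm hqd) (Ne.symm hbd)]
      · apply odd_insert hab hqa hqb
        · rw [Perm.mul_apply, hya, hza]
        · rw [Perm.mul_apply, hyb, hzb]
        · exact h5

/-- rule D: contracting a long path -/
lemma ruleD {S : Finset α} {x₀ y' : Perm α} {a b c d e f : α} (hn : [a, b, c, d, e, f].Nodup)
    (hb : b ∈ S) (hc : c ∈ S) (hd : d ∈ S) (he : e ∈ S)
    (hx : x₀ * x₀ = 1)
    (hxa : x₀ a = a) (hxb : x₀ b = b) (hxc : x₀ c = c) (hxd : x₀ d = d) (hxe : x₀ e = e) (hxf : x₀ f = f)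
    (h : Mid ((((S.erase b).erase c).erase d).erase e) (swap a f * x₀) y') :
    Mid S (swap a b * (swap c d * (swap e f * x₀))) (swap b c * (swap d e * y')) := by
  obtain ⟨z, h1, h2, h3, h4, h5⟩ := h
  have hn' := hn
  simp only [List.nodup_cons, List.mem_cons, List.not_mem_nil, or_false, not_or, List.nodup_nil, and_true,
    not_false_eq_true] at hn'
  obtain ⟨⟨hab, hac, had, hae, haf⟩, ⟨hbc, hbd, hbe, hbf⟩, ⟨hcd, hce, hcf⟩, ⟨hde, hdf⟩, hef⟩ := hn'
  have hzb : z b = b := h2 b (by simp)
  have hzc : z c = c := h2 c (by simp)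
  have hzd : z d = d := h2 d (by simp)
  have hze : z e = e := h2 e (by simp)
  obtain ⟨l1, l2⟩ := add_swap h1 hde hzd hze
  obtain ⟨l3, l4⟩ := add_swap l1 hbc (by rw [Perm.mul_apply, hzb, swap_fix hbd hbe])
    (by rw [Perm.mul_apply, hzc, swap_fix hcd hce])
  refine ⟨swap b c * (swap d e * z), l3, ?_, ?_, ?_, ?_⟩
  · intro v hv
    have hvb : v ≠ b := by rintro rfl; exact hv hb
    have hvc : v ≠ c := by rintro rfl; exact hv hc
    have hvd : v ≠ d := by rintro rfl; exact hv hd
    have hve : v ≠ e := by rintro rfl; exact hv he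
    rw [Perm.mul_apply, Perm.mul_apply, h2 v (by simp [hv]), swap_fix hvd hve, swap_fix hvb hvc]
  · obtain ⟨m1, m2⟩ := add_swap hx hef hxe hxf
    obtain ⟨m3, m4⟩ := add_swap m1 hcd (by rw [Perm.mul_apply, hxc, swap_fix hce hcf])
      (by rw [Perm.mul_apply, hxd, swap_fix hde hdf])
    obtain ⟨m5, m6⟩ := add_swap m3 hab
      (by rw [Perm.mul_apply, Perm.mul_apply, hxa, swap_fix hae haf, swap_fix hac had])
      (by rw [Perm.mul_apply, Perm.mul_apply, hxb, swap_fix hbe hbf, swap_fix hbc hbd])
    rw [l4, l2, h3, (add_swap hx haf hxa hxf).2, m6, m4, m2]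
  · have c1 : Commute (swap b c) x₀ := comm_swap hxb hxc
    have c2 : Commute (swap d e) x₀ := comm_swap hxd hxe
    have c3 : Commute (swap b c * swap d e) x₀ := c1.mul_left c2
    have e1 : x₀ = swap a f * (swap a f * x₀) := by rw [← mul_assoc, swap_mul_self, one_mul]
    have e : swap a b * (swap c d * (swap e f * x₀)) * (swap b c * (swap d e * z)) =
        (swap a b * swap c d * swap e f * (swap b c * swap d e) * swap a f) * ((swap a f * x₀) * z) := by
      calc swap a b * (swap c d * (swap e f * x₀)) * (swap b c * (swap d e * z))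
          = swap a b * swap c d * swap e f * (x₀ * (swap b c * swap d e)) * z := by simp only [mul_assoc]
        _ = swap a b * swap c d * swap e f * ((swap b c * swap d e) * x₀) * z := by rw [← c3.eq]
        _ = swap a b * swap c d * swap e f * ((swap b c * swap d e) * (swap a f * (swap a f * x₀))) * z := by
            rw [← e1]
        _ = _ := by simp only [mul_assoc]
    rw [e, id_D hn, mul_assoc]
    apply odd_insert hbd (Ne.symm hbf) (Ne.symm hdf)
    · rw [Perm.mul_apply, Perm.mul_apply, Perm.mul_apply, Perm.mul_apply, hzb, hxb, swap_fix (Ne.symm hab) hbf,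
        swap_fix (Ne.symm hab) hbe, swap_fix (Ne.symm hab) hbc]
    · rw [Perm.mul_apply, Perm.mul_apply, Perm.mul_apply, Perm.mul_apply, hzd, hxd, swap_fix (Ne.symm had) hdf,
        swap_fix (Ne.symm had) hde, swap_fix (Ne.symm had) (Ne.symm hcd)]
    · apply odd_insert (Ne.symm hce) hae hac
      · rw [Perm.mul_apply, Perm.mul_apply, hze, hxe, swap_fix (Ne.symm hae) hef]
      · rw [Perm.mul_apply, Perm.mul_apply, hzc, hxc, swap_fix (Ne.symm hac) hcf]
      · exact h4
  · have c1 : Commute (swap b c) z := comm_swap hzb hzc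
    have c2 : Commute (swap d e) z := comm_swap hzd hze
    have hdis : Commute (swap b c) (swap d e) := comm_swap (swap_fix hbd hbe) (swap_fix hcd hce)
    have c3 : Commute (swap b c * swap d e) z := c1.mul_left c2
    have e : swap b c * (swap d e * z) * (swap b c * (swap d e * y')) = z * y' := by
      calc swap b c * (swap d e * z) * (swap b c * (swap d e * y'))
          = ((swap b c * swap d e) * z) * (swap b c * swap d e) * y' := by simp only [mul_assoc]
        _ = (z * (swap b c * swap d e)) * (swap b c * swap d e) * y' := by rw [c3.eq]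
        _ = z * (swap b c * (swap d e * swap b c) * swap d e) * y' := by simp only [mul_assoc]
        _ = z * (swap b c * (swap b c * swap d e) * swap d e) * y' := by rw [hdis.eq]
        _ = z * y' := by
          have : swap b c * (swap b c * swap d e) * swap d e = (1 : Perm α) := by
            rw [← mul_assoc, swap_mul_self, one_mul, swap_mul_self]
          rw [this, mul_one]
    rw [e]; exact h5

lemma four {S : Finset α} {a b c d e f g k : α} (hn : [a, b, c, d, e, f, g, k].Nodup)
    (hS : ∀ v ∈ [a, b, c, d, e, f, g, k], v ∈ S) :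
    (swap a b * swap c d * swap e f * swap g k) * (swap a b * swap c d * swap e f * swap g k) = 1 ∧
    (∀ v, v ∉ S → (swap a b * swap c d * swap e f * swap g k) v = v) ∧
    (swap a b * swap c d * swap e f * swap g k).support.card = 8 := by
  have hn' := hn
  simp only [List.nodup_cons, List.mem_cons, List.not_mem_nil, or_false, not_or, List.nodup_nil, and_true,
    not_false_eq_true] at hn'
  obtain ⟨⟨hab, hac, had, hae, haf, hag, hak⟩, ⟨hbc, hbd, hbe, hbf, hbg, hbk⟩, ⟨hcd, hce, hcf, hcg, hck⟩,
    ⟨hde, hdf, hdg, hdk⟩, ⟨hef, heg, hek⟩, ⟨hfg, hfk⟩, hgk⟩ := hn'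
  obtain ⟨l1, l2⟩ := add_swap (x := (1 : Perm α)) (by simp) hgk rfl rfl
  obtain ⟨l3, l4⟩ := add_swap l1 hef (by rw [Perm.mul_apply, Perm.one_apply, swap_fix heg hek])
    (by rw [Perm.mul_apply, Perm.one_apply, swap_fix hfg hfk])
  obtain ⟨l5, l6⟩ := add_swap l3 hcd
    (by rw [Perm.mul_apply, Perm.mul_apply, Perm.one_apply, swap_fix hcg hck, swap_fix hce hcf])
    (by rw [Perm.mul_apply, Perm.mul_apply, Perm.one_apply, swap_fix hdg hdk, swap_fix hde hdf])
  obtain ⟨l7, l8⟩ := add_swap l5 hab
    (by rw [Perm.mul_apply, Perm.mul_apply, Perm.mul_apply, Perm.one_apply, swap_fix hag hak, swap_fix hae haf,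
      swap_fix hac had])
    (by rw [Perm.mul_apply, Perm.mul_apply, Perm.mul_apply, Perm.one_apply, swap_fix hbg hbk, swap_fix hbe hbf,
      swap_fix hbc hbd])
  have e' : swap a b * (swap c d * (swap e f * (swap g k * 1))) = swap a b * swap c d * swap e f * swap g k := by
    simp only [mul_assoc, mul_one]
  rw [e'] at l7 l8
  refine ⟨l7, ?_, ?_⟩
  · intro v hv
    have h : ∀ w ∈ [a, b, c, d, e, f, g, k], v ≠ w := by
      rintro w hw rfl; exact hv (hS _ hw)
    rw [Perm.mul_apply, Perm.mul_apply, Perm.mul_apply, swap_fix (h g (by simp)) (h k (by simp)),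
      swap_fix (h e (by simp)) (h f (by simp)), swap_fix (h c (by simp)) (h d (by simp)),
      swap_fix (h a (by simp)) (h b (by simp))]
  · rw [l8, l6, l4, l2]; simp

lemma supp_sub {S : Finset α} {x : Perm α} (h : ∀ v, v ∉ S → x v = v) : x.support ⊆ S := by
  intro v hv
  by_contra h1
  exact (mem_support.1 hv) (h v h1)

/-- structure of the exceptional configurations -/
lemma excCycle {S : Finset α} {x y : Perm α} (hx : x * x = 1) (hy : y * y = 1)
    (hxS : ∀ v, v ∉ S → x v = v) (hyS : ∀ v, v ∉ S → y v = v) (hc : x.support.card = y.support.card)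
    (hE : Exc S x y) (a : α) (ha : a ∈ S) :
    x a ≠ a ∧ y a ≠ a ∧ x a ≠ y a ∧ y (x a) = x (y a) ∧ S = {a, x a, y a, y (x a)} := by
  obtain ⟨h4, hx4, hxy⟩ := hE
  have hsx : x.support = S := Finset.eq_of_subset_of_card_le (supp_sub hxS) (by rw [h4, hx4])
  have hsy : y.support = S := Finset.eq_of_subset_of_card_le (supp_sub hyS) (by rw [h4, ← hc, hx4])
  have fx : ∀ v ∈ S, x v ≠ v := by
    intro v hv; rw [← hsx] at hv; exact mem_support.1 hv
  have fy : ∀ v ∈ S, y v ≠ v := by
    intro v hv; rw [← hsy] at hv; exact mem_support.1 hv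
  have mx : ∀ v ∈ S, x v ∈ S := by
    intro v hv
    rw [← hsx] at hv ⊢
    exact apply_mem_support.2 hv
  have my : ∀ v ∈ S, y v ∈ S := by
    intro v hv
    rw [← hsy] at hv ⊢
    exact apply_mem_support.2 hv
  have xx := invol_apply hx
  have yy := invol_apply hy
  -- general structure from a point where x and y differ
  have key : ∀ a ∈ S, x a ≠ y a → y (x a) = x (y a) ∧ S = {a, x a, y a, y (x a)} := by
    intro a ha hne
    have h1 : ({a, x a, y a, x (y a)} : Finset α) ⊆ S := by
      intro v hv
      simp only [Finset.mem_insert, Finset.mem_singleton] at hv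
      rcases hv with rfl | rfl | rfl | rfl
      · exact ha
      · exact mx _ ha
      · exact my _ ha
      · exact mx _ (my _ ha)
    have hcard : ({a, x a, y a, x (y a)} : Finset α).card = 4 := by
      rw [Finset.card_insert_of_notMem, Finset.card_insert_of_notMem, Finset.card_insert_of_notMem,
        Finset.card_singleton]
      · simp only [Finset.mem_singleton]
        exact fun h => fx _ (my _ ha) h.symm
      · simp only [Finset.mem_insert, Finset.mem_singleton, not_or]
        exact ⟨hne, fun h => fy _ ha (x.injective h).symm⟩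
      · simp only [Finset.mem_insert, Finset.mem_singleton, not_or]
        refine ⟨fun h => fx _ ha h.symm, fun h => fy _ ha h.symm, fun h => ?_⟩
        apply hne
        rw [h, xx, ← h]
    have hS : ({a, x a, y a, x (y a)} : Finset α) = S := Finset.eq_of_subset_of_card_le h1 (by rw [h4, hcard])
    have h2 : y (x a) ∈ ({a, x a, y a, x (y a)} : Finset α) := by
      rw [hS]; exact my _ (mx _ ha)
    simp only [Finset.mem_insert, Finset.mem_singleton] at h2
    have h3 : y (x a) = x (y a) := by
      rcases h2 with h | h | h | h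
      · exfalso; apply hne; rw [← yy (x a), h]
      · exact absurd h (fy _ (mx _ ha))
      · exact absurd (y.injective h) (fx _ ha)
      · exact h
    exact ⟨h3, by rw [h3, hS]⟩
  obtain ⟨a0, hne⟩ : ∃ a0, x a0 ≠ y a0 := by
    by_contra h
    push Not at h
    exact hxy (Equiv.ext h)
  have ha0 : a0 ∈ S := by
    by_contra h
    exact hne (by rw [hxS _ h, hyS _ h])
  obtain ⟨k1, k2⟩ := key a0 ha0 hne
  have hne' : x a ≠ y a := by
    have ha' := ha
    rw [k2] at ha'
    simp only [Finset.mem_insert, Finset.mem_singleton] at ha'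
    rcases ha' with h | h | h | h
    · rw [h]; exact hne
    · rw [h, xx]
      intro h5
      apply hne
      have := congrArg y h5
      rw [yy] at this
      exact this.symm
    · rw [h, yy, ← k1]
      intro h5
      apply hne
      have := congrArg y h5
      rw [yy] at this
      exact this
    · rw [h, yy, k1, xx]
      exact fun h5 => hne h5.symm
  exact ⟨fx a ha, fy a ha, hne', key a ha hne'⟩

def Good (S : Finset α) (x y : Perm α) : Prop :=
  x * x = 1 ∧ y * y = 1 ∧ (∀ v, v ∉ S → x v = v) ∧ (∀ v, v ∉ S → y v = v) ∧ x.support.card = y.support.card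

def IH (S : Finset α) : Prop :=
  ∀ (S' : Finset α) (x' y' : Perm α), S'.card < S.card → Good S' x' y' → ¬ Exc S' x' y' → Mid S' x' y'

lemma Good.symm {S : Finset α} {x y : Perm α} (h : Good S x y) : Good S y x :=
  ⟨h.2.1, h.1, h.2.2.2.1, h.2.2.1, h.2.2.2.2.symm⟩

lemma Exc.symm {S : Finset α} {x y : Perm α} (h : Good S x y) (hE : Exc S x y) : Exc S y x :=
  ⟨hE.1, by rw [← h.2.2.2.2]; exact hE.2.1, hE.2.2.symm⟩

lemma triv_of_empty {S : Finset α} {x : Perm α} (h : ∀ v, v ∉ S → x v = v) (hS : S = ∅) : x = 1 := by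
  ext v; rw [h v (by simp [hS])]; rfl

lemma caseC {S : Finset α} {x y : Perm α} (ih : IH S) (hg : Good S x y) (hE : ¬ Exc S x y) (a : α)
    (hxa : x a ≠ a) (hya : y a ≠ a) (hxya : x a ≠ y a) (h4 : y (x a) = x (y a)) : Mid S x y := by
  obtain ⟨hx, hy, hxS, hyS, hcard⟩ := hg
  have xx := invol_apply hx
  have yy := invol_apply hy
  have mx : ∀ v, x v ≠ v → v ∈ S := by
    intro v hv; by_contra h; exact hv (hxS v h)
  have my : ∀ v, y v ≠ v → v ∈ S := by
    intro v hv; by_contra h; exact hv (hyS v h)
  obtain ⟨b, hb⟩ : ∃ b, x a = b := ⟨_, rfl⟩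
  obtain ⟨d, hd⟩ : ∃ d, y a = d := ⟨_, rfl⟩
  obtain ⟨c, hc⟩ : ∃ c, y b = c := ⟨_, rfl⟩
  rw [hb] at hxa
  rw [hd] at hya
  rw [hb, hd] at hxya
  rw [hb, hd, hc] at h4
  have hxc : x c = d := by rw [h4, xx]
  have hyd : y d = a := by rw [← hd, yy]
  have hxb : x b = a := by rw [← hb, xx]
  have hab : a ≠ b := hxa.symm
  have had : a ≠ d := hya.symm
  have hbd : b ≠ d := hxya
  have hbc : b ≠ c := by
    intro h
    apply had
    rw [← hxb, h, hxc]
  have hac : a ≠ c := by
    intro h
    apply hbd
    rw [← hb, h, hxc]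
  have hcd : c ≠ d := by
    intro h
    apply hab
    apply y.injective
    rw [hd, hc, h]
  have haS : a ∈ S := mx a (by rw [hb]; exact hxa)
  have hbS : b ∈ S := mx b (by rw [hxb]; exact hab)
  have hcS : c ∈ S := mx c (by rw [hxc]; exact hcd.symm)
  have hdS : d ∈ S := my d (by rw [hyd]; exact had)
  obtain ⟨x1, p1, p2, p3, p4, p5, p6⟩ := remove_swap hx hab hb
  obtain ⟨x2, q1, q2, q3, q4, q5, q6⟩ := remove_swap p1 hcd ((p4 c hac.symm hbc.symm).trans hxc)
  have hx2a : x2 a = a := (q4 a hac had).trans p2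
  have hx2b : x2 b = b := (q4 b hbc hbd).trans p3
  obtain ⟨y1, r1, r2, r3, r4, r5, r6⟩ := remove_swap hy hbc hc
  obtain ⟨y2, s1, s2, s3, s4, s5, s6⟩ := remove_swap r1 had.symm ((r4 d hbd.symm hcd.symm).trans hyd)
  have hy2b : y2 b = b := (s4 b hbd hab.symm).trans r2
  have hy2c : y2 c = c := (s4 c hcd hac.symm).trans r3
  set S' := (((S.erase a).erase b).erase c).erase d with hS'
  have hx2S : ∀ v, v ∉ S' → x2 v = v := by
    intro v hv
    by_cases h1 : v = a; · rw [h1, hx2a]
    by_cases h2 : v = b; · rw [h2, hx2b]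
    by_cases h3 : v = c; · rw [h3, q2]
    by_cases h4 : v = d; · rw [h4, q3]
    rw [q4 v h3 h4, p4 v h1 h2]
    apply hxS
    intro h5
    apply hv
    simp [hS', h1, h2, h3, h4, h5]
  have hy2S : ∀ v, v ∉ S' → y2 v = v := by
    intro v hv
    by_cases h1 : v = a; · rw [h1, s3]
    by_cases h2 : v = b; · rw [h2, hy2b]
    by_cases h3 : v = c; · rw [h3, hy2c]
    by_cases h4 : v = d; · rw [h4, s2]
    rw [s4 v h4 h1, r4 v h2 h3]
    apply hyS
    intro h5
    apply hv
    simp [hS', h1, h2, h3, h4, h5]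
  have hS'card : S'.card + 4 = S.card := by
    have e1 := Finset.card_erase_of_mem haS
    have e2 := Finset.card_erase_of_mem (s := S.erase a) (a := b) (by simp [hab.symm, hbS])
    have e3 := Finset.card_erase_of_mem (s := (S.erase a).erase b) (a := c) (by simp [hac.symm, hbc.symm, hcS])
    have e4 := Finset.card_erase_of_mem (s := ((S.erase a).erase b).erase c) (a := d)
      (by simp [had.symm, hbd.symm, hcd.symm, hdS])
    have f1 := Finset.card_pos.2 ⟨a, haS⟩
    have f2 := Finset.card_pos (s := S.erase a) |>.2 ⟨b, by simp [hab.symm, hbS]⟩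
    have f3 := Finset.card_pos (s := (S.erase a).erase b) |>.2 ⟨c, by simp [hac.symm, hbc.symm, hcS]⟩
    have f4 := Finset.card_pos (s := ((S.erase a).erase b).erase c) |>.2 ⟨d, by simp [had.symm, hbd.symm, hcd.symm, hdS]⟩
    rw [hS']
    omega
  have hgood : Good S' x2 y2 := ⟨q1, s1, hx2S, hy2S, by omega⟩
  have hxe : x = swap a b * (swap c d * x2) := by rw [p5, q5]
  have hye : y = swap b c * (swap d a * y2) := by rw [r5, s5]
  by_cases hemp : S' = ∅
  · exfalso
    apply hE
    refine ⟨?_, ?_, ?_⟩
    · rw [← hS'card, hemp]; simp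
    · have : x2 = 1 := triv_of_empty hx2S hemp
      rw [this] at q6
      simp at q6
      omega
    · intro h
      apply hbd
      rw [← hb, ← hd, h]
  · obtain ⟨p, hp⟩ := Finset.nonempty_iff_ne_empty.2 hemp
    by_cases hE' : Exc S' x2 y2
    · -- two four cycles
      obtain ⟨k1, k2, k3, k4, k5⟩ := excCycle q1 s1 hx2S hy2S hgood.2.2.2.2 hE' p hp
      obtain ⟨e, he⟩ : ∃ e, p = e := ⟨_, rfl⟩
      obtain ⟨f, hf⟩ : ∃ f, x2 e = f := ⟨_, rfl⟩
      obtain ⟨k, hk⟩ : ∃ k, y2 e = k := ⟨_, rfl⟩
      obtain ⟨g, hg⟩ : ∃ g, y2 f = g := ⟨_, rfl⟩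
      rw [he] at hp
      rw [he, hf] at k1
      rw [he, hk] at k2
      rw [he, hf, hk] at k3
      rw [he, hf, hk, hg] at k4
      rw [he, hf, hk, hg] at k5
      have xx2 := invol_apply q1
      have yy2 := invol_apply s1
      have hx2g : x2 g = k := by rw [k4, xx2]
      have hy2k : y2 k = e := by rw [← hk, yy2]
      have hx2f : x2 f = e := by rw [← hf, xx2]
      have hef : e ≠ f := k1.symm
      have hek : e ≠ k := k2.symm
      have hfk : f ≠ k := k3
      have hfg : f ≠ g := by
        intro h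
        apply hek
        rw [← hx2f, h, hx2g]
      have heg : e ≠ g := by
        intro h
        apply hfk
        rw [← hf, h, hx2g]
      have hgk : g ≠ k := by
        intro h
        apply hef
        apply y2.injective
        rw [hk, hg, h]
      have hmem : ∀ v ∈ S', v ≠ a ∧ v ≠ b ∧ v ≠ c ∧ v ≠ d ∧ v ∈ S := by
        intro v hv
        simp only [hS', Finset.mem_erase] at hv
        tauto
      obtain ⟨he1, he2, he3, he4, he5⟩ := hmem e hp
      obtain ⟨hf1, hf2, hf3, hf4, hf5⟩ := hmem f (by rw [k5]; simp)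
      obtain ⟨hg1, hg2, hg3, hg4, hg5⟩ := hmem g (by rw [k5]; simp)
      obtain ⟨hk1, hk2, hk3, hk4, hk5⟩ := hmem k (by rw [k5]; simp)
      have hn : [a, b, c, d, e, f, g, k].Nodup := by
        simp [hab, hac, had, hbc, hbd, hcd, he1.symm, he2.symm, he3.symm, he4.symm, hf1.symm, hf2.symm, hf3.symm,
          hf4.symm, hg1.symm, hg2.symm, hg3.symm, hg4.symm, hk1.symm, hk2.symm, hk3.symm, hk4.symm,
          hef, heg, hek, hfg, hfk, hgk]
      obtain ⟨x3, t1, t2, t3, t4, t5, t6⟩ := remove_swap q1 hef hf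
      obtain ⟨x4, u1, u2, u3, u4, u5, u6⟩ := remove_swap t1 hgk ((t4 g heg.symm hfg.symm).trans hx2g)
      have hx4 : x4 = 1 := by
        ext v
        rw [Perm.one_apply]
        by_cases h1 : v = e; · rw [h1, u4 e heg hek, t2]
        by_cases h2 : v = f; · rw [h2, u4 f hfg hfk, t3]
        by_cases h3 : v = g; · rw [h3, u2]
        by_cases h4 : v = k; · rw [h4, u3]
        rw [u4 v h3 h4, t4 v h1 h2]
        apply hx2S
        rw [k5]
        simp [h1, h2, h3, h4]
      obtain ⟨y3, v1, v2, v3, v4, v5, v6⟩ := remove_swap s1 hfg hg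
      obtain ⟨y4, w1, w2, w3, w4, w5, w6⟩ := remove_swap v1 hek.symm ((v4 k hfk.symm hgk.symm).trans hy2k)
      have hy4 : y4 = 1 := by
        ext v
        rw [Perm.one_apply]
        by_cases h1 : v = e; · rw [h1, w3]
        by_cases h2 : v = f; · rw [h2, w4 f hfk hef.symm, v2]
        by_cases h3 : v = g; · rw [h3, w4 g hgk heg.symm, v3]
        by_cases h4 : v = k; · rw [h4, w2]
        rw [w4 v h4 h1, v4 v h2 h3]
        apply hy2S
        rw [k5]
        simp [h1, h2, h3, h4]
      have hxe' : x = swap a b * swap c d * (swap e f * swap g k) := by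
        rw [hxe, t5, u5, hx4, mul_one]
        simp only [mul_assoc]
      have hye' : y = swap b c * swap d a * (swap f g * swap k e) := by
        rw [hye, v5, w5, hy4, mul_one]
        simp only [mul_assoc]
      have hn2 : [a, b, f, g, c, e, d, k].Nodup := by
        simp [hab, hac, had, hbc, hbd, hcd, he1.symm, he2.symm, he3.symm, he4, hf1.symm, hf2.symm, hf3,
          hf4, hg1.symm, hg2.symm, hg3, hg4, hk1.symm, hk2.symm, hk3.symm, hk4.symm,
          hef.symm, heg.symm, hek, hfg, hfk, hgk]
      obtain ⟨z1, z2, z3⟩ := four (S := S) hn2 (by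
        intro v hv
        simp only [List.mem_cons, List.not_mem_nil, or_false] at hv
        rcases hv with h | h | h | h | h | h | h | h <;> rw [h] <;> assumption)
      refine ⟨_, z1, z2, ?_, ?_, ?_⟩
      · rw [z3, ← p6, ← q6, ← t6, ← u6, hx4]; simp
      · rw [hxe']
        exact odd_of_cube (id_8a hn)
      · rw [hye']
        exact odd_of_cube (id_8b hn)
    · rw [hxe, hye]
      have hp' := hp
      simp only [hS', Finset.mem_erase] at hp'
      obtain ⟨hpd, hpc, hpb, hpa, hpS⟩ := hp'
      refine ruleC (p := p) ?_ haS hbS hcS hdS hpS q1 hx2a hx2b q2 q3 s3 hy2b hy2c s2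
        (ih S' x2 y2 (by omega) hgood hE')
      simp [hab, hac, had, hbc, hbd, hcd, hpa.symm, hpb.symm, hpc.symm, hpd.symm]

/-- no four-cycles -/
def NoC (x y : Perm α) : Prop := ∀ a, x a ≠ a → y a ≠ a → x a ≠ y a → y (x a) ≠ x (y a)

lemma NoC.symm {x y : Perm α} (h : NoC x y) : NoC y x := fun a h1 h2 h3 h4 => h a h2 h1 h3.symm h4.symm

lemma not_exc_of_noC {S : Finset α} {x y x' y' : Perm α} (h : NoC x y) (hg : Good S x' y')
    (hx : ∀ v ∈ S, x' v = x v) (hy : ∀ v ∈ S, y' v = y v) : ¬ Exc S x' y' := by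
  intro hE
  have hne : S.Nonempty := by rw [← Finset.card_pos, hE.1]; norm_num
  obtain ⟨a, ha⟩ := hne
  obtain ⟨h1, h2, h3, h4, h5⟩ := excCycle hg.1 hg.2.1 hg.2.2.1 hg.2.2.2.1 hg.2.2.2.2 hE a ha
  have hxa : x' a ∈ S := by rw [h5]; simp
  have hya : y' a ∈ S := by
    by_contra h6
    have := hg.2.2.2.1 _ h6
    exact h2 (y'.injective this)
  rw [hx a ha] at h1
  rw [hy a ha] at h2
  rw [hx a ha, hy a ha] at h3
  rw [hy _ hxa, hx _ hya, hx a ha, hy a ha] at h4
  exact h a h1 h2 h3 h4

lemma caseA {S : Finset α} {x y : Perm α} (ih : IH S) (hg : Good S x y) (hC : NoC x y) (p : α)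
    (hp : p ∈ S) (hxp : x p = p) (hyp : y p = p) : Mid S x y := by
  have hg' : Good (S.erase p) x y := by
    refine ⟨hg.1, hg.2.1, ?_, ?_, hg.2.2.2.2⟩
    · intro v hv
      by_cases h : v = p
      · rw [h, hxp]
      · exact hg.2.2.1 v (by simpa [h] using hv)
    · intro v hv
      by_cases h : v = p
      · rw [h, hyp]
      · exact hg.2.2.2.1 v (by simpa [h] using hv)
  obtain ⟨z, h1, h2, h3, h4, h5⟩ := ih (S.erase p) x y (Finset.card_erase_lt_of_mem hp) hg'
    (not_exc_of_noC hC hg' (fun _ _ => rfl) (fun _ _ => rfl))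
  exact ⟨z, h1, fun v hv => h2 v (by simp [hv]), h3, h4, h5⟩

lemma caseB {S : Finset α} {x y : Perm α} (ih : IH S) (hg : Good S x y) (hC : NoC x y) (p : α)
    (hxp : x p ≠ p) (hxyp : x p = y p) : Mid S x y := by
  obtain ⟨hx, hy, hxS, hyS, hcard⟩ := hg
  obtain ⟨q, hq⟩ : ∃ q, x p = q := ⟨_, rfl⟩
  rw [hq] at hxp hxyp
  have hpq : p ≠ q := hxp.symm
  have hxq : x q = p := by rw [← hq]; exact invol_apply hx p
  have hpS : p ∈ S := by by_contra h; exact hpq (by rw [← hq, hxS p h])
  have hqS : q ∈ S := by by_contra h; exact hpq (by rw [← hxq, hxS q h])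
  obtain ⟨x1, p1, p2, p3, p4, p5, p6⟩ := remove_swap hx hpq hq
  obtain ⟨y1, r1, r2, r3, r4, r5, r6⟩ := remove_swap hy hpq hxyp.symm
  have hg' : Good ((S.erase p).erase q) x1 y1 := by
    refine ⟨p1, r1, ?_, ?_, by omega⟩
    · intro v hv
      by_cases h1 : v = p; · rw [h1, p2]
      by_cases h2 : v = q; · rw [h2, p3]
      rw [p4 v h1 h2]
      exact hxS v (by simpa [h1, h2] using hv)
    · intro v hv
      by_cases h1 : v = p; · rw [h1, r2]
      by_cases h2 : v = q; · rw [h2, r3]
      rw [r4 v h1 h2]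
      exact hyS v (by simpa [h1, h2] using hv)
  have hlt : ((S.erase p).erase q).card < S.card :=
    lt_of_lt_of_le (Finset.card_erase_lt_of_mem (by simp [hpq.symm, hqS])) (Finset.card_le_card (Finset.erase_subset _ _))
  have := ih _ _ _ hlt hg' (not_exc_of_noC hC hg' (fun v hv => by
      simp only [Finset.mem_erase] at hv; exact p4 v hv.2.1 hv.1) (fun v hv => by
      simp only [Finset.mem_erase] at hv; exact r4 v hv.2.1 hv.1))
  rw [p5, r5]
  exact ruleB hpq hpS hqS p1 p2 p3 r2 r3 this

lemma caseE {S : Finset α} {x y : Perm α} (ih : IH S) (hg : Good S x y) (a : α)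
    (hya : y a = a) (hxa : x a ≠ a) (hyxa : y (x a) ≠ x a) : Mid S x y := by
  obtain ⟨hx, hy, hxS, hyS, hcard⟩ := hg
  obtain ⟨b, hb⟩ : ∃ b, x a = b := ⟨_, rfl⟩
  obtain ⟨c, hc⟩ : ∃ c, y b = c := ⟨_, rfl⟩
  rw [hb, hc] at hyxa
  rw [hb] at hxa
  have hab : a ≠ b := hxa.symm
  have hbc : b ≠ c := hyxa.symm
  have hac : a ≠ c := by
    intro h
    apply hab
    apply y.injective
    rw [hya, hc, h]
  have hxb : x b = a := by rw [← hb]; exact invol_apply hx a
  have hyc : y c = b := by rw [← hc]; exact invol_apply hy b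
  have haS : a ∈ S := by by_contra h; exact hab (by rw [← hb, hxS a h])
  have hbS : b ∈ S := by by_contra h; exact hab (by rw [← hxb, hxS b h])
  have hcS : c ∈ S := by by_contra h; exact hbc (by rw [← hyc, hyS c h])
  obtain ⟨x1, p1, p2, p3, p4, p5, p6⟩ := remove_swap hx hab hb
  obtain ⟨y1, r1, r2, r3, r4, r5, r6⟩ := remove_swap hy hbc hc
  have hy1a : y1 a = a := (r4 a hab hac).trans hya
  have hg' : Good ((S.erase a).erase b) x1 y1 := by
    refine ⟨p1, r1, ?_, ?_, by omega⟩
    · intro v hv
      by_cases h1 : v = a; · rw [h1, p2]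
      by_cases h2 : v = b; · rw [h2, p3]
      rw [p4 v h1 h2]
      exact hxS v (by simpa [h1, h2] using hv)
    · intro v hv
      by_cases h1 : v = a; · rw [h1, hy1a]
      by_cases h2 : v = b; · rw [h2, r2]
      by_cases h3 : v = c; · rw [h3, r3]
      rw [r4 v h2 h3]
      exact hyS v (by simpa [h1, h2] using hv)
  have hlt : ((S.erase a).erase b).card < S.card :=
    lt_of_lt_of_le (Finset.card_erase_lt_of_mem (by simp [hab.symm, hbS])) (Finset.card_le_card (Finset.erase_subset _ _))
  have hnE : ¬ Exc ((S.erase a).erase b) x1 y1 := by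
    intro hE
    have := (excCycle p1 r1 hg'.2.2.1 hg'.2.2.2.1 hg'.2.2.2.2 hE c (by simp [hac.symm, hbc.symm, hcS])).2.1
    exact this r3
  have := ih _ _ _ hlt hg' hnE
  rw [p5, r5]
  exact ruleE hab hbc hac haS hbS p1 p2 p3 hy1a r2 r3 this

lemma caseF {S : Finset α} {x y : Perm α} (ih : IH S) (hg : Good S x y) (hC : NoC x y) (a c : α)
    (hya : y a = a) (hxa : x a ≠ a) (hyxa : y (x a) = x a)
    (hxc : x c = c) (hyc : y c ≠ c) (hxyc : x (y c) = y c) : Mid S x y := by
  obtain ⟨hx, hy, hxS, hyS, hcard⟩ := hg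
  obtain ⟨b, hb⟩ : ∃ b, x a = b := ⟨_, rfl⟩
  obtain ⟨d, hd⟩ : ∃ d, y c = d := ⟨_, rfl⟩
  rw [hb] at hyxa hxa
  rw [hd] at hxyc hyc
  have hab : a ≠ b := hxa.symm
  have hcd : c ≠ d := hyc.symm
  have hxb : x b = a := by rw [← hb]; exact invol_apply hx a
  have hyd : y d = c := by rw [← hd]; exact invol_apply hy c
  have hac : a ≠ c := by
    intro h; apply hab; rw [← hb, h, hxc]
  have hbc : b ≠ c := by
    intro h; apply hac; rw [← hxb, h, hxc]
  have had : a ≠ d := by
    intro h; apply hcd; rw [← hyd, ← h, hya]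
  have hbd : b ≠ d := by
    intro h; apply hbc; rw [← hyd, ← h, hyxa]
  have haS : a ∈ S := by by_contra h; exact hab (by rw [← hb, hxS a h])
  have hbS : b ∈ S := by by_contra h; exact hab (by rw [← hxb, hxS b h])
  have hcS : c ∈ S := by by_contra h; exact hcd (by rw [← hd, hyS c h])
  obtain ⟨x1, p1, p2, p3, p4, p5, p6⟩ := remove_swap hx hab hb
  obtain ⟨y1, r1, r2, r3, r4, r5, r6⟩ := remove_swap hy hcd hd
  have hx1c : x1 c = c := (p4 c hac.symm hbc.symm).trans hxc
  have hx1d : x1 d = d := (p4 d had.symm hbd.symm).trans hxyc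
  have hy1a : y1 a = a := (r4 a hac had).trans hya
  have hy1b : y1 b = b := (r4 b hbc hbd).trans hyxa
  have hg' : Good ((((S.erase a).erase b).erase c).erase d) x1 y1 := by
    refine ⟨p1, r1, ?_, ?_, by omega⟩
    · intro v hv
      by_cases h1 : v = a; · rw [h1, p2]
      by_cases h2 : v = b; · rw [h2, p3]
      by_cases h3 : v = c; · rw [h3, hx1c]
      by_cases h4 : v = d; · rw [h4, hx1d]
      rw [p4 v h1 h2]
      exact hxS v (by simpa [h1, h2, h3, h4] using hv)
    · intro v hv
      by_cases h1 : v = a; · rw [h1, hy1a]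
      by_cases h2 : v = b; · rw [h2, hy1b]
      by_cases h3 : v = c; · rw [h3, r2]
      by_cases h4 : v = d; · rw [h4, r3]
      rw [r4 v h3 h4]
      exact hyS v (by simpa [h1, h2, h3, h4] using hv)
  have hlt : ((((S.erase a).erase b).erase c).erase d).card < S.card :=
    lt_of_le_of_lt (Finset.card_le_card ((Finset.erase_subset _ _).trans ((Finset.erase_subset _ _).trans
      (Finset.erase_subset _ _)))) (Finset.card_erase_lt_of_mem haS)
  have := ih _ _ _ hlt hg' (not_exc_of_noC hC hg' (fun v hv => by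
      simp only [Finset.mem_erase] at hv; exact p4 v hv.2.2.2.1 hv.2.2.1) (fun v hv => by
      simp only [Finset.mem_erase] at hv; exact r4 v hv.2.1 hv.1))
  rw [p5, r5]
  exact ruleF (by simp [hab, hac, had, hbc, hbd, hcd]) hbS hcS p1 p2 p3 hx1c hy1b r2 r3 this

lemma caseD {S : Finset α} {x y : Perm α} (ih : IH S) (hg : Good S x y) (hC : NoC x y)
    (hfx : ∀ v ∈ S, x v ≠ v) (hfy : ∀ v ∈ S, y v ≠ v) (hxy : ∀ v ∈ S, x v ≠ y v) (a : α) (haS : a ∈ S) :
    Mid S x y := by
  obtain ⟨hx, hy, hxS, hyS, hcard⟩ := hg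
  have xx := invol_apply hx
  have yy := invol_apply hy
  have mx : ∀ v ∈ S, x v ∈ S := by
    intro v hv
    by_contra h
    exact hfx v hv (x.injective (hxS _ h))
  have my : ∀ v ∈ S, y v ∈ S := by
    intro v hv
    by_contra h
    exact hfy v hv (y.injective (hyS _ h))
  obtain ⟨b, hb⟩ : ∃ b, x a = b := ⟨_, rfl⟩
  have hbS : b ∈ S := hb ▸ mx a haS
  obtain ⟨c, hc⟩ : ∃ c, y b = c := ⟨_, rfl⟩
  have hcS : c ∈ S := hc ▸ my b hbS
  obtain ⟨d, hd⟩ : ∃ d, x c = d := ⟨_, rfl⟩
  have hdS : d ∈ S := hd ▸ mx c hcS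
  obtain ⟨e, he⟩ : ∃ e, y d = e := ⟨_, rfl⟩
  have heS : e ∈ S := he ▸ my d hdS
  obtain ⟨f, hf⟩ : ∃ f, x e = f := ⟨_, rfl⟩
  have hfS : f ∈ S := hf ▸ mx e heS
  have hxb : x b = a := by rw [← hb, xx]
  have hyc : y c = b := by rw [← hc, yy]
  have hxd : x d = c := by rw [← hd, xx]
  have hye : y e = d := by rw [← he, yy]
  have hxf : x f = e := by rw [← hf, xx]
  have hab : a ≠ b := fun h => hfx a haS (hb.trans h.symm)
  have hbc : b ≠ c := fun h => hfy b hbS (hc.trans h.symm)
  have hac : a ≠ c := fun h => hxy b hbS (by rw [hxb, hc, h])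
  have hcd : c ≠ d := fun h => hfx c hcS (hd.trans h.symm)
  have hbd : b ≠ d := fun h => hac (by rw [← hxb, h, hxd])
  have had : a ≠ d := fun h => hbc (by rw [← hb, h, hxd])
  have hde : d ≠ e := fun h => hfy d hdS (he.trans h.symm)
  have hce : c ≠ e := fun h => hbd (by rw [← hyc, h, hye])
  have hbe : b ≠ e := fun h => hcd (by rw [← hc, h, hye])
  have hae : a ≠ e := by
    intro h
    have hya : y a = d := by rw [h, hye]
    refine hC a (hb ▸ hab.symm) (hya ▸ had.symm) (by rw [hb, hya]; exact hbd) ?_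
    rw [hb, hya, hc, hxd]
  have hef : e ≠ f := fun h => hfx e heS (hf.trans h.symm)
  have hdf : d ≠ f := fun h => hce (by rw [← hxd, h, hxf])
  have hcf : c ≠ f := fun h => hde (by rw [← hd, h, hxf])
  have hbf : b ≠ f := fun h => hae (by rw [← hxb, h, hxf])
  have haf : a ≠ f := fun h => hbe (by rw [← hb, h, hxf])
  obtain ⟨x1, p1, p2, p3, p4, p5, p6⟩ := remove_swap hx hab hb
  obtain ⟨x2, q1, q2, q3, q4, q5, q6⟩ := remove_swap p1 hcd ((p4 c hac.symm hbc.symm).trans hd)
  obtain ⟨x0, r1, r2, r3, r4, r5, r6⟩ := remove_swap q1 hef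
    ((q4 e hce.symm hde.symm).trans ((p4 e hae.symm hbe.symm).trans hf))
  have hx0a : x0 a = a := (r4 a hae haf).trans ((q4 a hac had).trans p2)
  have hx0b : x0 b = b := (r4 b hbe hbf).trans ((q4 b hbc hbd).trans p3)
  have hx0c : x0 c = c := (r4 c hce hcf).trans q2
  have hx0d : x0 d = d := (r4 d hde hdf).trans q3
  have hx0v : ∀ v, v ≠ a → v ≠ b → v ≠ c → v ≠ d → v ≠ e → v ≠ f → x0 v = x v :=
    fun v h1 h2 h3 h4 h5 h6 => (r4 v h5 h6).trans ((q4 v h3 h4).trans (p4 v h1 h2))
  obtain ⟨y1, s1, s2, s3, s4, s5, s6⟩ := remove_swap hy hbc hc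
  obtain ⟨y2, t1, t2, t3, t4, t5, t6⟩ := remove_swap s1 hde ((s4 d hbd.symm hcd.symm).trans he)
  have hy2b : y2 b = b := (t4 b hbd hbe).trans s2
  have hy2c : y2 c = c := (t4 c hcd hce).trans s3
  have hy2v : ∀ v, v ≠ b → v ≠ c → v ≠ d → v ≠ e → y2 v = y v :=
    fun v h2 h3 h4 h5 => (t4 v h4 h5).trans (s4 v h2 h3)
  set S' := (((S.erase b).erase c).erase d).erase e with hS'
  obtain ⟨u1, u2⟩ := add_swap r1 haf hx0a r3
  have hg' : Good S' (swap a f * x0) y2 := by
    refine ⟨u1, t1, ?_, ?_, by omega⟩
    · intro v hv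
      have hva : v ≠ a := by
        rintro rfl; apply hv; simp [hS', hab, hac, had, hae, haS]
      have hvf : v ≠ f := by
        rintro rfl; apply hv; simp [hS', hbf.symm, hcf.symm, hdf.symm, hef.symm, hfS]
      rw [Perm.mul_apply]
      have : x0 v = v := by
        by_cases h2 : v = b; · rw [h2, hx0b]
        by_cases h3 : v = c; · rw [h3, hx0c]
        by_cases h4 : v = d; · rw [h4, hx0d]
        by_cases h5 : v = e; · rw [h5, r2]
        rw [hx0v v hva h2 h3 h4 h5 hvf]
        apply hxS
        intro h; apply hv; simp [hS', h2, h3, h4, h5, h]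
      rw [this, swap_fix hva hvf]
    · intro v hv
      by_cases h2 : v = b; · rw [h2, hy2b]
      by_cases h3 : v = c; · rw [h3, hy2c]
      by_cases h4 : v = d; · rw [h4, t2]
      by_cases h5 : v = e; · rw [h5, t3]
      rw [hy2v v h2 h3 h4 h5]
      apply hyS
      intro h; apply hv; simp [hS', h2, h3, h4, h5, h]
  have hlt : S'.card < S.card :=
    lt_of_le_of_lt (Finset.card_le_card ((Finset.erase_subset _ _).trans ((Finset.erase_subset _ _).trans
      (Finset.erase_subset _ _)))) (Finset.card_erase_lt_of_mem hbS)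
  have hxe : x = swap a b * (swap c d * (swap e f * x0)) := by rw [p5, q5, r5]
  have hye' : y = swap b c * (swap d e * y2) := by rw [s5, t5]
  by_cases hE : Exc S' (swap a f * x0) y2
  · have haS' : a ∈ S' := by simp [hS', hab, hac, had, hae, haS]
    obtain ⟨k1, k2, k3, k4, k5⟩ := excCycle u1 t1 hg'.2.2.1 hg'.2.2.2.1 hg'.2.2.2.2 hE a haS'
    have hx'a : (swap a f * x0) a = f := by rw [Perm.mul_apply, hx0a, swap_apply_left]
    obtain ⟨k, hk⟩ : ∃ k, y2 a = k := ⟨_, rfl⟩
    obtain ⟨g, hg⟩ : ∃ g, y2 f = g := ⟨_, rfl⟩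
    rw [hk] at k2
    rw [hx'a, hk] at k3
    rw [hx'a, hk, hg] at k4
    rw [hx'a, hk, hg] at k5
    have hfk : f ≠ k := k3
    have hak : a ≠ k := k2.symm
    have hx'f : (swap a f * x0) f = a := by
      have := invol_apply u1 a
      rwa [hx'a] at this
    have hx'g : (swap a f * x0) g = k := by rw [k4]; exact invol_apply u1 k
    have hfg : f ≠ g := fun h => hak (hx'f.symm.trans ((congrArg (swap a f * x0) h).trans hx'g))
    have hag : a ≠ g := fun h => hfk (hx'a.symm.trans ((congrArg (swap a f * x0) h).trans hx'g))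
    have hgk : g ≠ k := by
      intro h
      apply haf
      apply y2.injective
      rw [hk, hg, h]
    have hx0g : x0 g = k := by
      have h1 : swap a f (x0 g) = k := hx'g
      have h2 : x0 g = swap a f k := by rw [← h1, swap_apply_self]
      rw [h2, swap_fix hak.symm hfk.symm]
    have hy2k : y2 k = a := by rw [← hk]; exact invol_apply t1 a
    have hmem : ∀ v ∈ S', v ≠ b ∧ v ≠ c ∧ v ≠ d ∧ v ≠ e ∧ v ∈ S := by
      intro v hv
      simp only [hS', Finset.mem_erase] at hv
      tauto
    obtain ⟨hg1, hg2, hg3, hg4, hg5⟩ := hmem g (by rw [k5]; simp)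
    obtain ⟨hk1, hk2, hk3, hk4, hk5⟩ := hmem k (by rw [k5]; simp)
    have hn : [a, b, c, d, e, f, g, k].Nodup := by
      simp [hab, hac, had, hae, haf, hag, hak, hbc, hbd, hbe, hbf, hg1.symm, hk1.symm, hcd, hce, hcf, hg2.symm,
        hk2.symm, hde, hdf, hg3.symm, hk3.symm, hef, hg4.symm, hk4.symm, hfg, hfk, hgk]
    obtain ⟨x4, v1, v2, v3, v4, v5, v6⟩ := remove_swap r1 hgk hx0g
    have hx4 : x4 = 1 := by
      ext v
      rw [Perm.one_apply]
      by_cases h1 : v = a; · rw [h1, v4 a hag hak, hx0a]
      by_cases h2 : v = f; · rw [h2, v4 f hfg hfk, r3]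
      by_cases h3 : v = g; · rw [h3, v2]
      by_cases h4 : v = k; · rw [h4, v3]
      rw [v4 v h3 h4]
      have := hg'.2.2.1 v (by rw [k5]; simp [h1, h2, h3, h4])
      have h5 : x0 v = swap a f v := by
        rw [Perm.mul_apply] at this
        have h6 := congrArg (swap a f) this
        rwa [swap_apply_self] at h6
      rw [h5, swap_fix h1 h2]
    obtain ⟨y3, w1, w2, w3, w4, w5, w6⟩ := remove_swap t1 hfg hg
    obtain ⟨y4, z1, z2, z3, z4, z5, z6⟩ := remove_swap w1 hak.symm ((w4 k hfk.symm hgk.symm).trans hy2k)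
    have hy4 : y4 = 1 := by
      ext v
      rw [Perm.one_apply]
      by_cases h1 : v = a; · rw [h1, z3]
      by_cases h2 : v = f; · rw [h2, z4 f hfk haf.symm, w2]
      by_cases h3 : v = g; · rw [h3, z4 g hgk hag.symm, w3]
      by_cases h4 : v = k; · rw [h4, z2]
      rw [z4 v h4 h1, w4 v h2 h3]
      exact hg'.2.2.2.1 v (by rw [k5]; simp [h1, h2, h3, h4])
    have hxe' : x = swap a b * swap c d * swap e f * swap g k := by
      rw [hxe, v5, hx4, mul_one]
      simp only [mul_assoc]
    have hye'' : y = swap b c * swap d e * swap f g * swap k a := by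
      rw [hye', w5, z5, hy4, mul_one]
      simp only [mul_assoc]
    have hn2 : [a, b, d, e, c, g, f, k].Nodup := by
      simp [hab, hac, had, hae, haf, hag, hak, hbc, hbd, hbe, hbf, hg1.symm, hk1.symm, hcd.symm, hce.symm, hcf,
        hg2.symm, hk2.symm, hde, hdf, hg3.symm, hk3.symm, hef, hg4.symm, hk4.symm, hfg.symm, hfk, hgk]
    obtain ⟨o1, o2, o3⟩ := four (S := S) hn2 (by
      intro v hv
      simp only [List.mem_cons, List.not_mem_nil, or_false] at hv
      rcases hv with h | h | h | h | h | h | h | h <;> rw [h] <;> assumption)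
    refine ⟨_, o1, o2, ?_, ?_, ?_⟩
    · rw [o3, ← p6, ← q6, ← r6, ← v6, hx4]; simp
    · rw [hxe']
      exact odd_of_cube (id_8c hn)
    · rw [hye'']
      exact odd_of_cube (id_8d hn)
  · have := ih _ _ _ hlt hg' hE
    rw [hxe, hye']
    exact ruleD (by simp [hab, hac, had, hae, haf, hbc, hbd, hbe, hbf, hcd, hce, hcf, hde, hdf, hef])
      hbS hcS hdS heS r1 hx0a hx0b hx0c hx0d r2 r3 this

theorem main (n : ℕ) : ∀ (S : Finset α) (x y : Perm α), S.card = n → Good S x y → ¬ Exc S x y → Mid S x y := by
  induction n using Nat.strong_induction_on with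
  | _ n IHn =>
    intro S x y hn hg hE
    have ih : IH S := fun S' x' y' hlt hg' hE' => IHn S'.card (by omega) S' x' y' rfl hg' hE'
    by_cases hC : NoC x y
    swap
    · unfold NoC at hC
      push Not at hC
      obtain ⟨a, h1, h2, h3, h4⟩ := hC
      exact caseC ih hg hE a h1 h2 h3 h4
    by_cases hA : ∃ p ∈ S, x p = p ∧ y p = p
    · obtain ⟨p, h1, h2, h3⟩ := hA
      exact caseA ih hg hC p h1 h2 h3
    push Not at hA
    by_cases hB : ∃ p, x p ≠ p ∧ x p = y p
    · obtain ⟨p, h1, h2⟩ := hB
      exact caseB ih hg hC p h1 h2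
    push Not at hB
    by_cases hE1 : ∃ a, y a = a ∧ x a ≠ a ∧ y (x a) ≠ x a
    · obtain ⟨a, h1, h2, h3⟩ := hE1
      exact caseE ih hg a h1 h2 h3
    push Not at hE1
    by_cases hE2 : ∃ a, x a = a ∧ y a ≠ a ∧ x (y a) ≠ y a
    · obtain ⟨a, h1, h2, h3⟩ := hE2
      have := caseE ih hg.symm a h1 h2 h3
      exact this.symm hg.2.2.2.2.symm
    push Not at hE2
    -- support sizes
    have hcount : (∃ a ∈ S, y a = a) → (∃ c ∈ S, x c = c) := by
      rintro ⟨a, haS, ha⟩
      by_contra h
      push Not at h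
      have h1 : S ⊆ x.support := fun v hv => mem_support.2 (h v hv)
      have h2 : y.support ⊂ S := by
        rw [Finset.ssubset_iff_of_subset (supp_sub hg.2.2.2.1)]
        exact ⟨a, haS, by simp [ha]⟩
      have := Finset.card_lt_card h2
      have := Finset.card_le_card h1
      have := hg.2.2.2.2
      omega
    have hcount' : (∃ a ∈ S, x a = a) → (∃ c ∈ S, y c = c) := by
      rintro ⟨a, haS, ha⟩
      by_contra h
      push Not at h
      have h1 : S ⊆ y.support := fun v hv => mem_support.2 (h v hv)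
      have h2 : x.support ⊂ S := by
        rw [Finset.ssubset_iff_of_subset (supp_sub hg.2.2.1)]
        exact ⟨a, haS, by simp [ha]⟩
      have := Finset.card_lt_card h2
      have := Finset.card_le_card h1
      have := hg.2.2.2.2
      omega
    by_cases hF : ∃ a ∈ S, y a = a
    · obtain ⟨c, hcS, hxc⟩ := hcount hF
      obtain ⟨a, haS, hya⟩ := hF
      have hxa : x a ≠ a := fun h => hA a haS h hya
      have hyc : y c ≠ c := hA c hcS hxc
      exact caseF ih hg hC a c hya hxa (hE1 a hya hxa) hxc hyc (hE2 c hxc hyc)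
    · have hF' : ¬ ∃ a ∈ S, x a = a := fun h => hF (hcount' h)
      push Not at hF hF'
      rcases S.eq_empty_or_nonempty with h | ⟨a, haS⟩
      · have h1 : x = 1 := triv_of_empty hg.2.2.1 h
        have h2 : y = 1 := triv_of_empty hg.2.2.2.1 h
        subst h1 h2
        refine ⟨1, by simp, fun _ _ => rfl, rfl, ?_, ?_⟩ <;> simp
      · exact caseD ih hg hC hF' hF (fun v hv h => hB v (hF' v hv) h) a haS

lemma cycleType_invol {x : Perm α} (hx : x * x = 1) : x.cycleType = Multiset.replicate (x.support.card / 2) 2 := by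
  have h : ∀ n ∈ x.cycleType, n = 2 := by
    intro n hn
    have h1 := two_le_of_mem_cycleType hn
    have h2 := dvd_of_mem_cycleType hn
    have h3 : orderOf x ∣ 2 := orderOf_dvd_of_pow_eq_one (by rw [pow_two, hx])
    have := Nat.le_of_dvd (by norm_num) (h2.trans h3)
    omega
  obtain ⟨k, hk⟩ : ∃ k, x.cycleType = Multiset.replicate k 2 := ⟨_, Multiset.eq_replicate_of_mem h⟩
  have h4 := sum_cycleType x
  rw [hk, Multiset.sum_replicate, smul_eq_mul] at h4
  rw [hk, ← h4, Nat.mul_div_cancel _ (by norm_num)]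

lemma isConj_invol {x y : Perm α} (hx : x * x = 1) (hy : y * y = 1) (h : x.support.card = y.support.card) :
    IsConj x y := by
  rw [isConj_iff_cycleType_eq, cycleType_invol hx, cycleType_invol hy, h]

lemma card_of_isConj {x y : Perm α} (h : IsConj x y) : x.support.card = y.support.card := by
  rw [isConj_iff_cycleType_eq] at h
  rw [← sum_cycleType, ← sum_cycleType, h]

lemma sq_of_isConj {x y : Perm α} (hx : x * x = 1) (h : IsConj x y) : y * y = 1 := by
  obtain ⟨c, hc⟩ := isConj_iff.1 h
  rw [← hc]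
  calc c * x * c⁻¹ * (c * x * c⁻¹) = c * (x * x) * c⁻¹ := by group
    _ = 1 := by rw [hx]; group

lemma not_odd_of_invol {g : Perm α} (h1 : g * g = 1) (h2 : g ≠ 1) : ¬ Odd (orderOf g) := by
  have : orderOf g = 2 := orderOf_eq_prime (by rw [pow_two, h1]) h2
  rw [this]; decide

lemma id_far {a b c d : α} (h : [a, b, c, d].Nodup) :
    swap a b * swap c d * (swap a c * swap b d) = swap a d * swap b c := by
  have := congrArg (viaEmbeddingHom (emb _ h))
    (by decide +kernel : (swap 0 1 * swap 2 3 * (swap 0 2 * swap 1 3) : Perm (Fin 4)) = swap 0 3 * swap 1 2)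
  simp only [map_mul] at this
  simp only [via_swap] at this
  exact this

theorem far (h5 : 5 ≤ Fintype.card α) (t : Perm α) (ht : t * t = 1) (ht1 : t ≠ 1) :
    ∃ x y : Perm α, IsConj t x ∧ IsConj t y ∧ x ≠ y ∧ ¬ Odd (orderOf (x * y)) := by
  obtain ⟨a, ha⟩ : ∃ a, t a ≠ a := by
    by_contra h; push Not at h; exact ht1 (Equiv.ext h)
  obtain ⟨b, hb⟩ : ∃ b, t a = b := ⟨_, rfl⟩
  rw [hb] at ha
  have hab : a ≠ b := ha.symm
  obtain ⟨t1, p1, p2, p3, p4, p5, p6⟩ := remove_swap ht hab hb
  by_cases h1 : t1 = 1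
  · -- a transposition
    obtain ⟨c, hc⟩ : ∃ c, c ∉ ({a, b} : Finset α) := by
      by_contra h
      push Not at h
      have : (Finset.univ : Finset α).card ≤ ({a, b} : Finset α).card := Finset.card_le_card (fun v _ => h v)
      have h2 := Finset.card_le_two (a := a) (b := b)
      rw [Finset.card_univ] at this
      omega
    obtain ⟨d, hd⟩ : ∃ d, d ∉ ({a, b, c} : Finset α) := by
      by_contra h
      push Not at h
      have : (Finset.univ : Finset α).card ≤ ({a, b, c} : Finset α).card := Finset.card_le_card (fun v _ => h v)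
      have h2 := Finset.card_le_three (a := a) (b := b) (c := c)
      rw [Finset.card_univ] at this
      omega
    simp only [Finset.mem_insert, Finset.mem_singleton, not_or] at hc hd
    have hte : t = swap a b := by rw [p5, h1, mul_one]
    have hcd : c ≠ d := Ne.symm hd.2.2
    have h3 : swap a b ≠ swap c d := by
      intro h
      have h4 := congrArg (fun g : Perm α => g c) h
      simp only [swap_apply_left, swap_fix hc.1 hc.2] at h4
      exact hcd h4
    refine ⟨t, swap c d, IsConj.refl t, ?_, ?_, ?_⟩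
    · rw [hte]
      exact isConj_invol (swap_mul_self _ _) (swap_mul_self _ _) (by rw [card_support_swap hab, card_support_swap hcd])
    · rw [hte]; exact h3
    · rw [hte]
      have hcomm : Commute (swap a b) (swap c d) :=
        comm_swap (swap_fix (Ne.symm hc.1) (Ne.symm hd.1)) (swap_fix (Ne.symm hc.2) (Ne.symm hd.2.1))
      apply not_odd_of_invol
      · calc swap a b * swap c d * (swap a b * swap c d) = swap a b * (swap c d * swap a b) * swap c d := by
              simp only [mul_assoc]
          _ = swap a b * (swap a b * swap c d) * swap c d := by rw [hcomm.eq]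
          _ = 1 := by rw [← mul_assoc, swap_mul_self, one_mul, swap_mul_self]
      · intro h
        apply h3
        rw [mul_eq_one_iff_eq_inv] at h
        rw [h, swap_inv]
  · obtain ⟨c, hc⟩ : ∃ c, t1 c ≠ c := by
      by_contra h; push Not at h; exact h1 (Equiv.ext h)
    obtain ⟨d, hd⟩ : ∃ d, t1 c = d := ⟨_, rfl⟩
    rw [hd] at hc
    have hcd : c ≠ d := hc.symm
    have hac : a ≠ c := by rintro rfl; exact hcd (p2.symm.trans hd)
    have hbc : b ≠ c := by rintro rfl; exact hcd (p3.symm.trans hd)
    have had : a ≠ d := by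
      intro h; apply hac
      apply t1.injective
      rw [p2, hd, h]
    have hbd : b ≠ d := by
      intro h; apply hbc
      apply t1.injective
      rw [p3, hd, h]
    obtain ⟨t2, q1, q2, q3, q4, q5, q6⟩ := remove_swap p1 hcd hd
    have e1 : t2 a = a := (q4 a hac had).trans p2
    have e2 : t2 b = b := (q4 b hbc hbd).trans p3
    obtain ⟨u1, u2⟩ := add_swap q1 hbd e2 q3
    obtain ⟨u3, u4⟩ := add_swap u1 hac (by rw [Perm.mul_apply, e1, swap_fix hab had])
      (by rw [Perm.mul_apply, q2, swap_fix hbc.symm hcd])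
    have hte : t = swap a b * swap c d * t2 := by rw [p5, q5, mul_assoc]
    have hco : Commute t2 (swap a c * swap b d) :=
      ((comm_swap e1 q2).mul_left (comm_swap e2 q3)).symm
    have hprod : t * (swap a c * (swap b d * t2)) = swap a d * swap b c := by
      have hid := id_far (a := a) (b := b) (c := c) (d := d) (by simp [hab, hac, had, hbc, hbd, hcd])
      rw [hte, ← hid]
      calc swap a b * swap c d * t2 * (swap a c * (swap b d * t2))
          = swap a b * swap c d * (t2 * (swap a c * swap b d)) * t2 := by simp only [mul_assoc]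
        _ = swap a b * swap c d * (swap a c * swap b d) * (t2 * t2) := by rw [hco.eq]; simp only [mul_assoc]
        _ = _ := by rw [q1, mul_one]
    have hne : swap a d * swap b c ≠ 1 := by
      intro h
      have h4 := congrArg (fun g : Perm α => g a) h
      simp only [Perm.mul_apply, swap_fix hab hac, swap_apply_left, Perm.one_apply] at h4
      exact had h4.symm
    refine ⟨t, swap a c * (swap b d * t2), IsConj.refl t, isConj_invol ht u3 (by omega), ?_, ?_⟩
    · intro h
      apply hne
      rw [← hprod, ← h, ht]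
    · rw [hprod]
      apply not_odd_of_invol _ hne
      have hcomm : Commute (swap a d) (swap b c) :=
        comm_swap (swap_fix hab hac) (swap_fix hbd.symm hcd.symm)
      calc swap a d * swap b c * (swap a d * swap b c) = swap a d * (swap b c * swap a d) * swap b c := by
              simp only [mul_assoc]
          _ = swap a d * (swap a d * swap b c) * swap b c := by rw [hcomm.eq]
          _ = 1 := by rw [← mul_assoc, swap_mul_self, one_mul, swap_mul_self]

end gen

/-- Let n ≥ 5 and let X be a conjugacy class of involutions of the symmetric group of degree n. The graph on X joining two distinct involutions whose product has odd order is connected and has diameter exactly 2. -/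
theorem result (n : ℕ) (hn : 5 ≤ n) (t : Equiv.Perm (Fin n)) (ht : orderOf t = 2) :
    (SimpleGraph.fromRel fun x y : {x : Equiv.Perm (Fin n) // IsConj t x} =>
        Odd (orderOf (x.1 * y.1))).Connected ∧
      (SimpleGraph.fromRel fun x y : {x : Equiv.Perm (Fin n) // IsConj t x} =>
        Odd (orderOf (x.1 * y.1))).diam = 2 := by
  have htt : t * t = 1 := by rw [← pow_two, ← ht, pow_orderOf_eq_one]
  have ht1 : t ≠ 1 := by
    rintro rfl
    simp at ht
  apply Cfsg.Agent.Lib.OddGraph.class_graph t
  · intro x y hx hy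
    have h1 := sq_of_isConj htt hx
    have h2 := sq_of_isConj htt hy
    have hc : x.support.card = y.support.card := (card_of_isConj hx).symm.trans (card_of_isConj hy)
    have hg : Good (Finset.univ : Finset (Fin n)) x y :=
      ⟨h1, h2, fun v hv => absurd (Finset.mem_univ v) hv, fun v hv => absurd (Finset.mem_univ v) hv, hc⟩
    have hE : ¬ Exc (Finset.univ : Finset (Fin n)) x y := by
      intro h
      have := h.1
      rw [Finset.card_univ, Fintype.card_fin] at this
      omega
    obtain ⟨z, h3, -, h4, h5, h6⟩ := main _ _ x y rfl hg hE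
    exact ⟨z, isConj_invol htt h3 ((card_of_isConj hx).trans h4.symm), h5, h6⟩
  · exact far (by rw [Fintype.card_fin]; exact hn) t htt ht1

end Cfsg.Agent.S3265
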