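import Cfsg.Statements.S3266
import Cfsg.Agent.Lib.OddGraph
import Mathlib.LinearAlgebra.Matrix.SpecialLinearGroup
import Mathlib.NumberTheory.LegendreSymbol.QuadraticChar.Basic
import Mathlib.FieldTheory.Finite.Basic
import Mathlib.Tactic

set_option autoImplicit false
open Cfsg

namespace Cfsg.Agent.S3266

open Matrix

section NT

variable {F : Type*} [Field F] [Fintype F]

/-- hyperbola count: `y² = (u-c)² + s²` has `q-1` solutions -/
lemma sum_quadraticChar [DecidableEq F] (hF2 : ringChar F ≠ 2) (c s : F) (hs : s ≠ 0) :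
    ∑ u : F, (quadraticChar F ((u - c) ^ 2 + s ^ 2)) = -1 := by
  have h2 : (2 : F) ≠ 0 := Ring.two_ne_zero hF2
  have h1 : ∑ u : F, (quadraticChar F ((u - c) ^ 2 + s ^ 2) + 1) = (Fintype.card F : ℤ) - 1 := by
    have e1 : ∀ u : F, quadraticChar F ((u - c) ^ 2 + s ^ 2) + 1 =
        ((Finset.univ.filter (fun y : F => y ^ 2 = (u - c) ^ 2 + s ^ 2)).card : ℤ) := by
      intro u
      rw [← quadraticChar_card_sqrts hF2]
      congr 2
      ext y
      simp
    rw [Finset.sum_congr rfl (fun u _ => e1 u), ← Nat.cast_sum]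
    have e2 : ∑ u : F, (Finset.univ.filter (fun y : F => y ^ 2 = (u - c) ^ 2 + s ^ 2)).card =
        Fintype.card Fˣ := by
      rw [← Finset.card_sigma, ← Finset.card_univ (α := Fˣ)]
      symm
      apply Finset.card_bij (fun (v : Fˣ) _ => (⟨c + (s ^ 2 / v - v) / 2, (s ^ 2 / v + v) / 2⟩ : (_ : F) × F))
      · intro v _
        simp only [Finset.mem_sigma, Finset.mem_univ, true_and, Finset.mem_filter]
        have hv : (v : F) ≠ 0 := v.ne_zero
        field_simp
        ring
      · intro v _ w _ h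
        have ha := congrArg (fun p : (_ : F) × F => p.1) h
        have hb := congrArg (fun p : (_ : F) × F => p.2) h
        simp only at ha hb
        apply Units.ext
        have hv : (v : F) ≠ 0 := v.ne_zero
        have hw : (w : F) ≠ 0 := w.ne_zero
        have : (v : F) = ((s ^ 2 / v + v) / 2) - (c + (s ^ 2 / v - v) / 2) + c := by ring_nf; field_simp
        rw [this, ha, hb]
        field_simp
        ring
      · rintro ⟨u, y⟩ hb
        simp only [Finset.mem_sigma, Finset.mem_univ, true_and, Finset.mem_filter] at hb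
        have hv : y - (u - c) ≠ 0 := by
          intro h0
          apply hs
          have : s ^ 2 = (y - (u - c)) * (y + (u - c)) := by linear_combination -hb
          rw [h0, zero_mul] at this
          exact pow_eq_zero_iff (two_ne_zero) |>.1 this
        refine ⟨Units.mk0 _ hv, Finset.mem_univ _, ?_⟩
        have hs2 : s ^ 2 / (y - (u - c)) = y + (u - c) := by
          field_simp
          linear_combination -hb
        simp only [Units.val_mk0, hs2]
        congr 1
        · field_simp; ring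
        · field_simp; ring
    rw [e2, Fintype.card_units]
    have : 1 ≤ Fintype.card F := Fintype.card_pos
    push_cast [Nat.cast_sub this]
    ring
  rw [Finset.sum_add_distrib] at h1
  simp only [Finset.sum_const, Finset.card_univ, nsmul_eq_mul, mul_one] at h1
  linarith

lemma exists_split (hF2 : Fintype.card F % 4 = 3) (hF : 4 ≤ Fintype.card F) (c s : F) (hs : s ≠ 0)
    (hcs : c ^ 2 + s ^ 2 = 1) :
    ∃ g h w : F, g ≠ 0 ∧ h ≠ 0 ∧
      w ^ 2 = -((g * h + (g * h)⁻¹ - 2 * c) * (g / h + h / g - 2 * c)) := by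
  classical
  have hne2 : ringChar F ≠ 2 := by
    intro h
    have := FiniteField.even_card_of_char_two h
    omega
  have h2 : (2 : F) ≠ 0 := Ring.two_ne_zero hne2
  have hneg : quadraticChar F (-1) = -1 := by
    rw [quadraticChar_neg_one_iff_not_isSquare, FiniteField.isSquare_neg_one_iff]
    omega
  have hf0 : ∀ u : F, (u - c) ^ 2 + s ^ 2 ≠ 0 := by
    intro u h0
    have : IsSquare (-1 : F) := ⟨(u - c) / s, by field_simp; linear_combination -h0⟩
    rw [FiniteField.isSquare_neg_one_iff] at this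
    omega
  have hsum := sum_quadraticChar hne2 c s hs
  -- there are `A B ≠ 0` with equal characters and distinct characters of `f`
  have key : ∃ A B : F, A ≠ 0 ∧ B ≠ 0 ∧ quadraticChar F A = quadraticChar F B ∧
      quadraticChar F ((A - c) ^ 2 + s ^ 2) ≠ quadraticChar F ((B - c) ^ 2 + s ^ 2) := by
    by_contra hcon
    push Not at hcon
    obtain ⟨N, hN⟩ := FiniteField.exists_nonsquare (F := F) hne2
    have hN0 : N ≠ 0 := by rintro rfl; exact hN ⟨0, by simp⟩
    have hχN : quadraticChar F N = -1 := quadraticChar_neg_one_iff_not_isSquare.2 hN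
    set d1 : ℤ := quadraticChar F ((1 - c) ^ 2 + s ^ 2) with hd1
    set d2 : ℤ := quadraticChar F ((N - c) ^ 2 + s ^ 2) with hd2
    have hlin : ∀ u : F, 2 * quadraticChar F ((u - c) ^ 2 + s ^ 2) =
        (d1 + d2) + (d1 - d2) * quadraticChar F u + (if u = 0 then 2 - (d1 + d2) else 0) := by
      intro u
      by_cases hu : u = 0
      · subst hu
        have : ((0 : F) - c) ^ 2 + s ^ 2 = 1 := by rw [← hcs]; ring
        rw [this]
        simp
      · simp only [hu, if_false, add_zero]
        rcases quadraticChar_dichotomy hu with h | h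
        · have := hcon u 1 hu one_ne_zero (by rw [h]; simp)
          rw [this, h]; ring
        · have := hcon u N hu hN0 (by rw [h, hχN])
          rw [this, h]; ring
    have hsum2 : ∑ u : F, 2 * quadraticChar F ((u - c) ^ 2 + s ^ 2) =
        ∑ u : F, ((d1 + d2) + (d1 - d2) * quadraticChar F u + (if u = 0 then 2 - (d1 + d2) else 0)) :=
      Finset.sum_congr rfl (fun u _ => hlin u)
    rw [← Finset.mul_sum, hsum, Finset.sum_add_distrib, Finset.sum_add_distrib, ← Finset.mul_sum,
      quadraticChar_sum_zero hne2] at hsum2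
    simp only [Finset.sum_const, Finset.card_univ, nsmul_eq_mul, mul_zero, add_zero, Finset.sum_ite_eq',
      Finset.mem_univ, if_true] at hsum2
    have e : (d1 + d2) * ((Fintype.card F : ℤ) - 1) = -4 := by linarith
    have hq : (7 : ℤ) ≤ Fintype.card F := by
      have : 7 ≤ Fintype.card F := by omega
      exact_mod_cast this
    rcases lt_trichotomy (d1 + d2) 0 with h | h | h
    · nlinarith
    · rw [h] at e; norm_num at e
    · nlinarith
  obtain ⟨A, B, hA, hB, hAB, hne⟩ := key
  have hχAB : quadraticChar F (A * B) = 1 := by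
    rw [map_mul, ← hAB]
    rcases quadraticChar_dichotomy hA with h | h <;> rw [h] <;> norm_num
  have hAB0 : A * B ≠ 0 := mul_ne_zero hA hB
  obtain ⟨g, hg⟩ := (quadraticChar_one_iff_isSquare hAB0).1 hχAB
  have hg0 : g ≠ 0 := by rintro rfl; apply hAB0; rw [hg]; ring
  have hff : quadraticChar F (((A - c) ^ 2 + s ^ 2) * ((B - c) ^ 2 + s ^ 2)) = -1 := by
    rw [map_mul]
    rcases quadraticChar_dichotomy (hf0 A) with h | h <;> rcases quadraticChar_dichotomy (hf0 B) with h' | h'
    · exact absurd (h.trans h'.symm) hne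
    · rw [h, h']; norm_num
    · rw [h, h']; norm_num
    · exact absurd (h.trans h'.symm) hne
  have hχ : quadraticChar F (-((A + A⁻¹ - 2 * c) * (B + B⁻¹ - 2 * c))) = 1 := by
    have e1 : -((A + A⁻¹ - 2 * c) * (B + B⁻¹ - 2 * c)) =
        (-1) * ((((A - c) ^ 2 + s ^ 2) * ((B - c) ^ 2 + s ^ 2)) * (A * B)⁻¹) := by
      have e2 : (A - c) ^ 2 + s ^ 2 = A * (A + A⁻¹ - 2 * c) := by
        field_simp; linear_combination hcs
      have e3 : (B - c) ^ 2 + s ^ 2 = B * (B + B⁻¹ - 2 * c) := by
        field_simp; linear_combination hcs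
      rw [e2, e3]
      field_simp
    rw [e1, map_mul, hneg, map_mul, hff]
    have e4 : quadraticChar F (A * B)⁻¹ = 1 := by
      have : quadraticChar F ((A * B)⁻¹ * (A * B)) = 1 := by
        rw [inv_mul_cancel₀ hAB0]; simp
      rw [map_mul, hχAB, mul_one] at this
      exact this
    rw [e4]; norm_num
  have hne0 : -((A + A⁻¹ - 2 * c) * (B + B⁻¹ - 2 * c)) ≠ 0 := by
    intro h0
    rw [h0] at hχ
    simp at hχ
  obtain ⟨w, hw⟩ := (quadraticChar_one_iff_isSquare hne0).1 hχ
  refine ⟨g, A / g, w, hg0, div_ne_zero hA hg0, ?_⟩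
  have e1 : g * (A / g) = A := by field_simp
  have e2 : g / (A / g) = B := by
    field_simp
    rw [pow_two, ← hg]
  have e3 : A / g / g = B⁻¹ := by
    field_simp
    rw [pow_two, ← hg]
  rw [e1, e2, e3, hw]
  ring

end NT

section Mat

variable {F : Type*} [Field F]

local notation "SL" => Matrix.SpecialLinearGroup (Fin 2) F
local notation "PSL" => Matrix.ProjectiveSpecialLinearGroup (Fin 2) F

lemma mem_center_iff' (A : SL) : A ∈ Subgroup.center SL ↔ A 0 1 = 0 ∧ A 1 0 = 0 ∧ A 0 0 = A 1 1 := by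
  constructor
  · intro h
    obtain ⟨r, _, hr⟩ := Matrix.SpecialLinearGroup.mem_center_iff.1 h
    have e : ∀ i j, (A : Matrix (Fin 2) (Fin 2) F) i j = Matrix.scalar (Fin 2) r i j := by
      intro i j; rw [hr]
    refine ⟨?_, ?_, ?_⟩
    · have := e 0 1; simpa using this
    · have := e 1 0; simpa using this
    · have h0 := e 0 0; have h1 := e 1 1; simp at h0 h1; rw [h0, h1]
  · rintro ⟨h1, h2, h3⟩
    rw [Matrix.SpecialLinearGroup.mem_center_iff]
    have hdet := A.det_coe
    rw [Matrix.det_fin_two] at hdet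
    refine ⟨A 0 0, ?_, ?_⟩
    · rw [h1, h2] at hdet
      rw [← h3] at hdet
      simp only [Fintype.card_fin, pow_two]
      linear_combination hdet
    · ext i j
      fin_cases i <;> fin_cases j <;> simp [h1, h2, h3]

lemma det_eq (A : SL) : A 0 0 * A 1 1 - A 0 1 * A 1 0 = 1 := by
  have hdet := A.det_coe
  rwa [Matrix.det_fin_two] at hdet

/-- Cayley-Hamilton -/
lemma sq_eq (A : SL) : (A : Matrix (Fin 2) (Fin 2) F) * A = (A 0 0 + A 1 1) • (A : Matrix (Fin 2) (Fin 2) F) - 1 := by
  have hd := det_eq A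
  ext i j
  fin_cases i <;> fin_cases j <;>
    simp [Matrix.mul_apply, Fin.sum_univ_two] <;> first | linear_combination -hd | ring

lemma scalar_mem_center (A : SL) (r : F) (h : (A : Matrix (Fin 2) (Fin 2) F) = r • (1 : Matrix (Fin 2) (Fin 2) F)) :
    A ∈ Subgroup.center SL := by
  rw [mem_center_iff']
  have e : ∀ i j, (A : Matrix (Fin 2) (Fin 2) F) i j = (r • (1 : Matrix (Fin 2) (Fin 2) F)) i j := by
    intro i j; rw [h]
  refine ⟨?_, ?_, ?_⟩
  · have := e 0 1; simpa using this
  · have := e 1 0; simpa using this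
  · have h0 := e 0 0; have h1 := e 1 1; simp at h0 h1; rw [h0, h1]

lemma mk_eq_one (A : SL) : (QuotientGroup.mk A : PSL) = 1 ↔ A ∈ Subgroup.center SL :=
  QuotientGroup.eq_one_iff A

lemma odd_of_pow (A : SL) (n : ℕ) (hn : Odd n) (h : A ^ n ∈ Subgroup.center SL) :
    Odd (orderOf (QuotientGroup.mk A : PSL)) := by
  have h1 : (QuotientGroup.mk A : PSL) ^ n = 1 := by
    rw [← QuotientGroup.mk_pow, mk_eq_one]; exact h
  exact Odd.of_dvd_nat hn (orderOf_dvd_of_pow_eq_one h1)

/-- unipotent elements (up to sign) have odd order in `PSL` in odd characteristic -/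
lemma odd_of_unipotent [Fintype F] (h2 : ringChar F ≠ 2) (A : SL) (e : F) (he : e * e = 1)
    (hA : A 0 0 + A 1 1 = 2 * e) : Odd (orderOf (QuotientGroup.mk A : PSL)) := by
  haveI : CharP F (ringChar F) := ringChar.charP F
  have hp : (ringChar F).Prime := CharP.char_is_prime F (ringChar F)
  haveI : Fact (ringChar F).Prime := ⟨hp⟩
  have hodd : Odd (ringChar F) := hp.odd_of_ne_two h2
  apply odd_of_pow A (ringChar F) hodd
  have hsq := sq_eq A
  rw [hA] at hsq
  set M := (A : Matrix (Fin 2) (Fin 2) F) with hM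
  set N := M - e • (1 : Matrix (Fin 2) (Fin 2) F) with hN
  have hNN : N * N = 0 := by
    rw [hN, sub_mul, mul_sub, mul_sub, hsq]
    simp only [smul_mul_assoc, mul_smul_comm, one_mul, mul_one, smul_smul, he, one_smul]
    module
  have hcomm : Commute N (e • (1 : Matrix (Fin 2) (Fin 2) F)) := by
    show N * _ = _ * N
    simp
  have hMN : M = N + e • (1 : Matrix (Fin 2) (Fin 2) F) := by rw [hN]; abel
  have hNp : N ^ (ringChar F) = 0 := by
    obtain ⟨k, hk⟩ := Nat.exists_eq_add_of_le hp.two_le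
    rw [hk, pow_add, pow_two, hNN, zero_mul]
  apply scalar_mem_center _ (e ^ (ringChar F))
  rw [Matrix.SpecialLinearGroup.coe_pow, ← hM, hMN, add_pow_char_of_commute _ hcomm, hNp, zero_add,
    smul_pow, one_pow]

/-- split semisimple elements -/
lemma odd_of_split [Fintype F] (h3 : Fintype.card F % 4 = 3) (A : SL) (h : F) (hh : h ≠ 0)
    (hA : A 0 0 + A 1 1 = h + h⁻¹) : Odd (orderOf (QuotientGroup.mk A : PSL)) := by
  have hne2 : ringChar F ≠ 2 := by
    intro h
    have := FiniteField.even_card_of_char_two h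
    omega
  by_cases hs : h = h⁻¹
  · apply odd_of_unipotent hne2 A h
    · calc h * h = h * h⁻¹ := by rw [← hs]
        _ = 1 := mul_inv_cancel₀ hh
    · rw [hA, ← hs]; ring
  · set n := Fintype.card F / 2 with hn
    have hnodd : Odd n := by
      rw [Nat.odd_iff]; omega
    apply odd_of_pow A n hnodd
    set M := (A : Matrix (Fin 2) (Fin 2) F) with hM
    have hsq := sq_eq A
    rw [hA] at hsq
    obtain ⟨e, he, hen⟩ : ∃ e : F, e * e = 1 ∧ h ^ n = e := by
      rcases FiniteField.pow_dichotomy hne2 hh with h1 | h1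
      · exact ⟨1, by ring, h1⟩
      · exact ⟨-1, by ring, h1⟩
    have hdiv : (Polynomial.X - Polynomial.C h) * (Polynomial.X - Polynomial.C h⁻¹) ∣
        (Polynomial.X ^ n - Polynomial.C e : Polynomial F) := by
      apply IsCoprime.mul_dvd
      · apply Polynomial.isCoprime_X_sub_C_of_isUnit_sub
        rw [isUnit_iff_ne_zero]
        exact sub_ne_zero.2 hs
      · rw [Polynomial.dvd_iff_isRoot, Polynomial.IsRoot.def]
        simp [hen]
      · rw [Polynomial.dvd_iff_isRoot, Polynomial.IsRoot.def]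
        simp only [Polynomial.eval_sub, Polynomial.eval_pow, Polynomial.eval_X, Polynomial.eval_C, inv_pow, hen]
        have he0 : e ≠ 0 := by rintro rfl; simp at he
        field_simp
        linear_combination -he
    obtain ⟨q, hq⟩ := hdiv
    have h0 : Polynomial.aeval M ((Polynomial.X - Polynomial.C h) * (Polynomial.X - Polynomial.C h⁻¹)) = 0 := by
      simp only [map_mul, map_sub, Polynomial.aeval_X, Polynomial.aeval_C]
      rw [sub_mul, mul_sub, mul_sub, hsq]
      simp only [Algebra.algebraMap_eq_smul_one, smul_mul_assoc, mul_smul_comm, one_mul, mul_one, smul_smul,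
        mul_inv_cancel₀ hh, inv_mul_cancel₀ hh, one_smul]
      module
    have h1 := congrArg (Polynomial.aeval M) hq
    rw [map_mul, h0, zero_mul] at h1
    simp only [map_sub, map_pow, Polynomial.aeval_X, Polynomial.aeval_C] at h1
    apply scalar_mem_center _ e
    rw [Matrix.SpecialLinearGroup.coe_pow, ← hM, ← Algebra.algebraMap_eq_smul_one]
    exact sub_eq_zero.1 h1

/-- elements with nonzero trace have odd order in characteristic two -/
lemma odd_of_char_two [Finite F] (h2 : (2 : F) = 0) (A : SL) (hA : A 0 0 + A 1 1 ≠ 0) :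
    Odd (orderOf (QuotientGroup.mk A : PSL)) := by
  by_contra hodd
  rw [Nat.not_odd_iff_even] at hodd
  obtain ⟨m, hm⟩ := hodd
  have hpos : 0 < orderOf (QuotientGroup.mk A : PSL) := orderOf_pos _
  have hm0 : 0 < m := by omega
  set B := A ^ m with hB
  have hB1 : B ∉ Subgroup.center SL := by
    rw [← mk_eq_one, hB, QuotientGroup.mk_pow]
    intro h
    have := Nat.le_of_dvd hm0 (orderOf_dvd_of_pow_eq_one h)
    omega
  have hB2 : B * B ∈ Subgroup.center SL := by
    rw [← mk_eq_one, hB, ← pow_add, ← hm, QuotientGroup.mk_pow, pow_orderOf_eq_one]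
  have hcomm : A * B = B * A := by rw [hB, ← pow_succ, ← pow_succ']
  rw [mem_center_iff'] at hB2 hB1
  -- trace of B is zero
  have hd := det_eq B
  obtain ⟨h3, h4, h5⟩ := hB2
  simp only [Matrix.SpecialLinearGroup.coe_mul, Matrix.mul_apply, Fin.sum_univ_two] at h3 h4 h5
  have htr : B 0 0 + B 1 1 = 0 := by
    by_contra ht
    apply hB1
    have e1 : B 0 1 = 0 := by
      have : B 0 1 * (B 0 0 + B 1 1) = 0 := by linear_combination h3
      rcases mul_eq_zero.1 this with h | h
      · exact h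
      · exact absurd h ht
    have e2 : B 1 0 = 0 := by
      have : B 1 0 * (B 0 0 + B 1 1) = 0 := by linear_combination h4
      rcases mul_eq_zero.1 this with h | h
      · exact h
      · exact absurd h ht
    refine ⟨e1, e2, ?_⟩
    rw [e1, e2] at h5
    have : (B 0 0 - B 1 1) * (B 0 0 + B 1 1) = 0 := by linear_combination h5
    rcases mul_eq_zero.1 this with h | h
    · exact sub_eq_zero.1 h
    · exact absurd h ht
  have h11 : B 1 1 = B 0 0 := by linear_combination htr - B 0 0 * h2
  have hc : ∀ i j, (A * B) i j = (B * A) i j := by intro i j; rw [hcomm]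
  have c01 := hc 0 1
  have c10 := hc 1 0
  simp only [Matrix.SpecialLinearGroup.coe_mul, Matrix.mul_apply, Fin.sum_univ_two] at c01 c10
  rw [h11] at c01 c10
  apply hA
  have e3 : B 0 1 * (A 0 0 + A 1 1) = 0 := by linear_combination c01 + B 0 1 * A 1 1 * h2
  have e4 : B 1 0 * (A 0 0 + A 1 1) = 0 := by linear_combination c10 + B 1 0 * A 0 0 * h2
  rcases mul_eq_zero.1 e3 with h | h
  · rcases mul_eq_zero.1 e4 with h' | h'
    · exfalso; exact hB1 ⟨h, h', h11.symm⟩
    · exact h'
  · exact h

/-- involutions of `PSL₂` are the images of non-scalar matrices of trace zero -/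
lemma orderOf_mk (A : SL) : orderOf (QuotientGroup.mk A : PSL) = 2 ↔ (A 0 0 + A 1 1 = 0 ∧ A ∉ Subgroup.center SL) := by
  have hd := det_eq A
  constructor
  · intro h
    have hA1 : A ∉ Subgroup.center SL := by
      rw [← mk_eq_one]; intro h1; rw [h1] at h; simp at h
    refine ⟨?_, hA1⟩
    have hA2 : A * A ∈ Subgroup.center SL := by
      have h7 := pow_orderOf_eq_one (QuotientGroup.mk A : PSL)
      rw [h, pow_two, ← QuotientGroup.mk_mul, mk_eq_one] at h7
      exact h7
    rw [mem_center_iff'] at hA2 hA1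
    obtain ⟨h3, h4, h5⟩ := hA2
    simp only [Matrix.SpecialLinearGroup.coe_mul, Matrix.mul_apply, Fin.sum_univ_two] at h3 h4 h5
    by_contra ht
    apply hA1
    have e1 : A 0 1 = 0 := by
      have : A 0 1 * (A 0 0 + A 1 1) = 0 := by linear_combination h3
      rcases mul_eq_zero.1 this with h | h
      · exact h
      · exact absurd h ht
    have e2 : A 1 0 = 0 := by
      have : A 1 0 * (A 0 0 + A 1 1) = 0 := by linear_combination h4
      rcases mul_eq_zero.1 this with h | h
      · exact h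
      · exact absurd h ht
    refine ⟨e1, e2, ?_⟩
    rw [e1, e2] at h5
    have : (A 0 0 - A 1 1) * (A 0 0 + A 1 1) = 0 := by linear_combination h5
    rcases mul_eq_zero.1 this with h | h
    · exact sub_eq_zero.1 h
    · exact absurd h ht
  · rintro ⟨htr, hA⟩
    apply orderOf_eq_prime
    · rw [← QuotientGroup.mk_pow, mk_eq_one]
      apply scalar_mem_center _ (-1)
      rw [Matrix.SpecialLinearGroup.coe_pow, pow_two, sq_eq, htr]
      simp
    · rw [Ne, mk_eq_one]; exact hA

/-- the standard involution -/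
def J : SL := ⟨!![0, -1; 1, 0], by simp [Matrix.det_fin_two]⟩

lemma not_center_of_trace_zero (h2 : (2 : F) ≠ 0) (A : SL) (h : A 0 0 + A 1 1 = 0) : A ∉ Subgroup.center SL := by
  intro hc
  rw [mem_center_iff'] at hc
  obtain ⟨h3, h4, h5⟩ := hc
  have hd := det_eq A
  have : A 0 0 = 0 := by
    have : 2 * A 0 0 = 0 := by linear_combination h + h5
    rcases mul_eq_zero.1 this with h | h
    · exact absurd h h2
    · exact h
  rw [h3, this] at hd
  simp at hd

/-- all non-scalar trace zero matrices are conjugate in `SL₂` -/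
lemma exists_conj_J [Fintype F] (A : SL) (htr : A 0 0 + A 1 1 = 0) (hA : A ∉ Subgroup.center SL) :
    ∃ P : SL, P * J * P⁻¹ = A := by
  have hd := det_eq A
  have h11 : A 1 1 = - A 0 0 := by linear_combination htr
  rw [h11] at hd
  -- find a vector with det [v, Av] = 1
  obtain ⟨x, y, hxy⟩ : ∃ x y : F, A 1 0 * x ^ 2 - 2 * A 0 0 * x * y - A 0 1 * y ^ 2 = 1 := by
    by_cases hc2 : ringChar F = 2
    · have h2 : (2 : F) = 0 := by
        have := ringChar.Nat.cast_ringChar (R := F)
        rw [hc2] at this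
        exact_mod_cast this
      have hsq : ∀ a : F, ∃ b : F, b ^ 2 = a := by
        intro a
        obtain ⟨b, hb⟩ := FiniteField.isSquare_of_char_two hc2 a
        exact ⟨b, by rw [hb]; ring⟩
      by_cases hc : A 1 0 = 0
      · have hb : A 0 1 ≠ 0 := by
          intro hb
          apply hA
          rw [mem_center_iff', h11]
          exact ⟨hb, hc, by linear_combination A 0 0 * h2⟩
        obtain ⟨b, hb'⟩ := hsq (-(A 0 1)⁻¹)
        refine ⟨0, b, ?_⟩
        rw [hb']
        field_simp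
        simp
      · obtain ⟨b, hb'⟩ := hsq ((A 1 0)⁻¹)
        refine ⟨b, 0, ?_⟩
        rw [hb']
        field_simp
        simp
    · have h2 : (2 : F) ≠ 0 := Ring.two_ne_zero hc2
      by_cases hc : A 1 0 = 0
      · have ha : A 0 0 ≠ 0 := by
          rintro ha
          rw [ha, hc] at hd; simp at hd
        refine ⟨-(1 + A 0 1) / (2 * A 0 0), 1, ?_⟩
        rw [hc]
        field_simp
        ring
      · -- c u² + y²/c = 1
        have hodd : Fintype.card F % 2 = 1 := FiniteField.odd_card_of_char_ne_two hc2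
        obtain ⟨u, y, huy⟩ := FiniteField.exists_root_sum_quadratic
          (f := Polynomial.C (A 1 0) * Polynomial.X ^ 2 - Polynomial.C 1)
          (g := Polynomial.C ((A 1 0)⁻¹) * Polynomial.X ^ 2)
          (by
            rw [Polynomial.degree_sub_C]
            · exact Polynomial.degree_C_mul_X_pow 2 hc
            · rw [Polynomial.degree_C_mul_X_pow 2 hc]; norm_num)
          (Polynomial.degree_C_mul_X_pow 2 (inv_ne_zero hc)) hodd
        simp at huy
        refine ⟨u + A 0 0 / A 1 0 * y, y, ?_⟩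
        have huy' : (A 1 0) ^ 2 * u ^ 2 + y ^ 2 = A 1 0 := by
          have : A 1 0 * (A 1 0 * u ^ 2 - 1 + (A 1 0)⁻¹ * y ^ 2) = 0 := by rw [huy, mul_zero]
          have h9 : A 1 0 * (A 1 0)⁻¹ = 1 := mul_inv_cancel₀ hc
          linear_combination this - y ^ 2 * h9
        apply mul_left_cancel₀ hc
        have h10 : A 1 0 * (u + A 0 0 / A 1 0 * y) = A 1 0 * u + A 0 0 * y := by
          field_simp
        calc A 1 0 * (A 1 0 * (u + A 0 0 / A 1 0 * y) ^ 2 - 2 * A 0 0 * (u + A 0 0 / A 1 0 * y) * y - A 0 1 * y ^ 2)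
            = (A 1 0 * (u + A 0 0 / A 1 0 * y)) ^ 2 - 2 * A 0 0 * (A 1 0 * (u + A 0 0 / A 1 0 * y)) * y - A 0 1 * A 1 0 * y ^ 2 := by
              ring
          _ = A 1 0 * 1 := by
              rw [h10]
              linear_combination huy' + y ^ 2 * hd
  let P : SL := ⟨!![x, A 0 0 * x + A 0 1 * y; y, A 1 0 * x - A 0 0 * y], by
    rw [Matrix.det_fin_two]
    simp
    linear_combination hxy⟩
  refine ⟨P, ?_⟩
  rw [mul_inv_eq_iff_eq_mul]
  apply Subtype.ext
  rw [Matrix.SpecialLinearGroup.coe_mul, Matrix.SpecialLinearGroup.coe_mul]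
  ext i j
  fin_cases i <;> fin_cases j <;>
    simp [P, J, Matrix.mul_apply, Fin.sum_univ_two, h11]
  all_goals first | linear_combination x * hd | linear_combination y * hd | ring

lemma exists_conj_of_involutions [Fintype F] (x y : PSL) (hx : orderOf x = 2) (hy : orderOf y = 2) :
    ∃ g : PSL, g * x * g⁻¹ = y := by
  obtain ⟨A, rfl⟩ := QuotientGroup.mk_surjective x
  obtain ⟨B, rfl⟩ := QuotientGroup.mk_surjective y
  obtain ⟨h1, h2⟩ := (orderOf_mk A).1 hx
  obtain ⟨h3, h4⟩ := (orderOf_mk B).1 hy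
  obtain ⟨P, rfl⟩ := exists_conj_J A h1 h2
  obtain ⟨Q, rfl⟩ := exists_conj_J B h3 h4
  refine ⟨QuotientGroup.mk (Q * P⁻¹), ?_⟩
  rw [← QuotientGroup.mk_inv, ← QuotientGroup.mk_mul, ← QuotientGroup.mk_mul]
  congr 1
  group

lemma orderOf_conj' {G : Type*} [Group G] (g x : G) : orderOf (g * x * g⁻¹) = orderOf x := by
  have : g * x * g⁻¹ = MulAut.conj g x := by rw [MulAut.conj_apply]
  rw [this, MulEquiv.orderOf_eq]

/-- existence of a middle involution -/
def Good (x y : PSL) : Prop := ∃ z : PSL, orderOf z = 2 ∧ Odd (orderOf (x * z)) ∧ Odd (orderOf (z * y))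

lemma good_conj (g x y : PSL) (h : Good x y) : Good (g * x * g⁻¹) (g * y * g⁻¹) := by
  obtain ⟨z, h1, h2, h3⟩ := h
  refine ⟨g * z * g⁻¹, ?_, ?_, ?_⟩
  · rw [orderOf_conj']; exact h1
  · have : g * x * g⁻¹ * (g * z * g⁻¹) = g * (x * z) * g⁻¹ := by group
    rw [this, orderOf_conj']; exact h2
  · have : g * z * g⁻¹ * (g * y * g⁻¹) = g * (z * y) * g⁻¹ := by group
    rw [this, orderOf_conj']; exact h3

/-- it is enough to treat one `x` -/
lemma good_of_good [Fintype F] (x₀ : PSL) (hx₀ : orderOf x₀ = 2) (h : ∀ y : PSL, orderOf y = 2 → Good x₀ y)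
    (x y : PSL) (hx : orderOf x = 2) (hy : orderOf y = 2) : Good x y := by
  obtain ⟨g, rfl⟩ := exists_conj_of_involutions x₀ x hx₀ hx
  have := good_conj g x₀ (g⁻¹ * y * g) (h _ (by
    have := orderOf_conj' g⁻¹ y
    rw [inv_inv] at this
    rw [this]; exact hy))
  have e : g * (g⁻¹ * y * g) * g⁻¹ = y := by group
  rwa [e] at this

/-- characteristic two -/
lemma good_char_two [Fintype F] (h2 : (2 : F) = 0) (hc2 : ringChar F = 2) (x y : PSL)
    (hx : orderOf x = 2) (hy : orderOf y = 2) : Good x y := by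
  obtain ⟨X, rfl⟩ := QuotientGroup.mk_surjective x
  obtain ⟨Y, rfl⟩ := QuotientGroup.mk_surjective y
  obtain ⟨hX1, hX2⟩ := (orderOf_mk X).1 hx
  obtain ⟨hY1, hY2⟩ := (orderOf_mk Y).1 hy
  have hsq : ∀ a : F, ∃ b : F, b ^ 2 = a := by
    intro a
    obtain ⟨b, hb⟩ := FiniteField.isSquare_of_char_two hc2 a
    exact ⟨b, by rw [hb]; ring⟩
  have hXne : X 0 1 ≠ 0 ∨ X 1 0 ≠ 0 := by
    by_contra hcon
    push Not at hcon
    apply hX2
    rw [mem_center_iff']
    exact ⟨hcon.1, hcon.2, by linear_combination hX1 - X 1 1 * h2⟩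
  have hYne : Y 0 1 ≠ 0 ∨ Y 1 0 ≠ 0 := by
    by_contra hcon
    push Not at hcon
    apply hY2
    rw [mem_center_iff']
    exact ⟨hcon.1, hcon.2, by linear_combination hY1 - Y 1 1 * h2⟩
  -- two linear functionals
  obtain ⟨q, r, hqr1, hqr2⟩ : ∃ q r : F, X 1 0 * q + X 0 1 * r ≠ 0 ∧ Y 1 0 * q + Y 0 1 * r ≠ 0 := by
    by_cases hx1 : X 1 0 = 0
    · have hx2 : X 0 1 ≠ 0 := by tauto
      by_cases hy1 : Y 0 1 = 0
      · have hy2 : Y 1 0 ≠ 0 := by tauto
        refine ⟨1, 1, ?_, ?_⟩
        · simpa [hx1] using hx2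
        · simpa [hy1] using hy2
      · refine ⟨0, 1, ?_, ?_⟩
        · simpa using hx2
        · simpa using hy1
    · by_cases hy1 : Y 1 0 = 0
      · have hy2 : Y 0 1 ≠ 0 := by tauto
        by_cases hx2 : X 0 1 = 0
        · refine ⟨1, 1, ?_, ?_⟩
          · simpa [hx2] using hx1
          · simpa [hy1] using hy2
        · refine ⟨0, 1, ?_, ?_⟩
          · simpa using hx2
          · simpa using hy2
      · refine ⟨1, 0, ?_, ?_⟩
        · simpa using hx1
        · simpa using hy1
  obtain ⟨p, hp⟩ := hsq (1 + q * r)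
  let Z : SL := ⟨!![p, q; r, p], by
    rw [Matrix.det_fin_two]
    simp
    linear_combination hp⟩
  have hZ00 : Z 0 0 = p := rfl
  have hZ01 : Z 0 1 = q := rfl
  have hZ10 : Z 1 0 = r := rfl
  have hZ11 : Z 1 1 = p := rfl
  have hX11 : X 1 1 = X 0 0 := by linear_combination hX1 - X 0 0 * h2
  have hY11 : Y 1 1 = Y 0 0 := by linear_combination hY1 - Y 0 0 * h2
  refine ⟨QuotientGroup.mk Z, ?_, ?_, ?_⟩
  · rw [orderOf_mk]
    constructor
    · rw [hZ00, hZ11]; linear_combination p * h2
    · rw [mem_center_iff', hZ01, hZ10]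
      rintro ⟨h3, h4, -⟩
      apply hqr1
      rw [h3, h4]; ring
  · rw [← QuotientGroup.mk_mul]
    apply odd_of_char_two h2
    simp only [Matrix.SpecialLinearGroup.coe_mul, Matrix.mul_apply, Fin.sum_univ_two]
    rw [hZ00, hZ01, hZ10, hZ11, hX11]
    intro h
    apply hqr1
    linear_combination h - X 0 0 * p * h2
  · rw [← QuotientGroup.mk_mul]
    apply odd_of_char_two h2
    simp only [Matrix.SpecialLinearGroup.coe_mul, Matrix.mul_apply, Fin.sum_univ_two]
    rw [hZ00, hZ01, hZ10, hZ11, hY11]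
    intro h
    apply hqr2
    linear_combination h - Y 0 0 * p * h2

/-- `q ≡ 1 mod 4` -/
lemma good_mod_one [Fintype F] (hc2 : ringChar F ≠ 2) (i : F) (hi : i * i = -1) (x y : PSL)
    (hx : orderOf x = 2) (hy : orderOf y = 2) : Good x y := by
  have h2 : (2 : F) ≠ 0 := Ring.two_ne_zero hc2
  have hi0 : i ≠ 0 := by rintro rfl; simp at hi
  let D : SL := ⟨!![i, 0; 0, -i], by
    rw [Matrix.det_fin_two]
    simp
    linear_combination -hi⟩
  have hD00 : D 0 0 = i := rfl
  have hD01 : D 0 1 = 0 := rfl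
  have hD10 : D 1 0 = 0 := rfl
  have hD11 : D 1 1 = -i := rfl
  have hD : orderOf (QuotientGroup.mk D : PSL) = 2 := by
    rw [orderOf_mk]
    have : D 0 0 + D 1 1 = 0 := by rw [hD00, hD11]; ring
    exact ⟨this, not_center_of_trace_zero h2 D this⟩
  apply good_of_good (QuotientGroup.mk D) hD _ x y hx hy
  clear hx hy x y
  intro y hy
  obtain ⟨Y, rfl⟩ := QuotientGroup.mk_surjective y
  obtain ⟨hY1, hY2⟩ := (orderOf_mk Y).1 hy
  have hdY := det_eq Y
  have hY11 : Y 1 1 = - Y 0 0 := by linear_combination hY1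
  -- candidate `Z = [i q; r -i]` with `q r = 0`
  have key : ∀ q r e : F, q * r = 0 → e * e = 1 → 2 * Y 0 0 * i + q * Y 1 0 + r * Y 0 1 = 2 * e →
      Good (QuotientGroup.mk D) (QuotientGroup.mk Y) := by
    intro q r e hqr he hE
    let Z : SL := ⟨!![i, q; r, -i], by
      rw [Matrix.det_fin_two]
      simp
      linear_combination -hi - hqr⟩
    have hZ00 : Z 0 0 = i := rfl
    have hZ01 : Z 0 1 = q := rfl
    have hZ10 : Z 1 0 = r := rfl
    have hZ11 : Z 1 1 = -i := rfl
    have hZt : Z 0 0 + Z 1 1 = 0 := by rw [hZ00, hZ11]; ring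
    refine ⟨QuotientGroup.mk Z, ?_, ?_, ?_⟩
    · rw [orderOf_mk]; exact ⟨hZt, not_center_of_trace_zero h2 Z hZt⟩
    · rw [← QuotientGroup.mk_mul]
      apply odd_of_unipotent hc2 _ (-1) (by ring)
      simp only [Matrix.SpecialLinearGroup.coe_mul, Matrix.mul_apply, Fin.sum_univ_two]
      rw [hZ00, hZ01, hZ10, hZ11, hD00, hD01, hD10, hD11]
      linear_combination 2 * hi
    · rw [← QuotientGroup.mk_mul]
      apply odd_of_unipotent hc2 _ e he
      simp only [Matrix.SpecialLinearGroup.coe_mul, Matrix.mul_apply, Fin.sum_univ_two]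
      rw [hZ00, hZ01, hZ10, hZ11, hY11]
      linear_combination hE
  by_cases hc : Y 1 0 = 0
  · by_cases hb : Y 0 1 = 0
    · -- Y diagonal
      rw [hc, hb, hY11] at hdY
      apply key 0 0 (Y 0 0 * i) (by ring)
      · linear_combination hdY + Y 0 0 * Y 0 0 * hi
      · rw [hc, hb]; ring
    · apply key 0 ((2 - 2 * Y 0 0 * i) / Y 0 1) 1 (by ring) (by ring)
      field_simp
      ring
  · apply key ((2 - 2 * Y 0 0 * i) / Y 1 0) 0 1 (by ring) (by ring)
    field_simp
    ring

/-- `q ≡ 3 mod 4` -/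
lemma good_mod_three [Fintype F] (h3 : Fintype.card F % 4 = 3) (h4 : 4 ≤ Fintype.card F) (x y : PSL)
    (hx : orderOf x = 2) (hy : orderOf y = 2) : Good x y := by
  classical
  have hc2 : ringChar F ≠ 2 := by
    intro h
    have := FiniteField.even_card_of_char_two h
    omega
  have h2 : (2 : F) ≠ 0 := Ring.two_ne_zero hc2
  have hJ00 : (J : SL) 0 0 = 0 := rfl
  have hJ01 : (J : SL) 0 1 = -1 := rfl
  have hJ10 : (J : SL) 1 0 = 1 := rfl
  have hJ11 : (J : SL) 1 1 = 0 := rfl
  have hJt : (J : SL) 0 0 + (J : SL) 1 1 = 0 := by rw [hJ00, hJ11]; ring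
  have hJ : orderOf (QuotientGroup.mk J : PSL) = 2 := by
    rw [orderOf_mk]; exact ⟨hJt, not_center_of_trace_zero h2 J hJt⟩
  apply good_of_good (QuotientGroup.mk J) hJ _ x y hx hy
  clear hx hy x y
  intro y hy
  obtain ⟨Y, rfl⟩ := QuotientGroup.mk_surjective y
  obtain ⟨hY1, hY2⟩ := (orderOf_mk Y).1 hy
  have hd := det_eq Y
  have hY11 : Y 1 1 = - Y 0 0 := by linear_combination hY1
  rw [hY11] at hd
  obtain ⟨a, ha⟩ : ∃ a, a = Y 0 0 := ⟨_, rfl⟩
  obtain ⟨b, hb⟩ : ∃ b, b = Y 0 1 := ⟨_, rfl⟩
  obtain ⟨c, hc⟩ : ∃ c, c = Y 1 0 := ⟨_, rfl⟩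
  rw [← ha] at hY11
  rw [← ha, ← hb, ← hc] at hd
  by_cases hsplit : ∃ h : F, h ≠ 0 ∧ b - c = h + h⁻¹
  · obtain ⟨h, hh, hbc⟩ := hsplit
    refine ⟨QuotientGroup.mk J, hJ, ?_, ?_⟩
    · have : (QuotientGroup.mk J : PSL) * QuotientGroup.mk J = 1 := by
        have := pow_orderOf_eq_one (QuotientGroup.mk J : PSL)
        rwa [hJ, pow_two] at this
      rw [this]; simp
    · rw [← QuotientGroup.mk_mul]
      apply odd_of_split h3 _ h hh
      simp only [Matrix.SpecialLinearGroup.coe_mul, Matrix.mul_apply, Fin.sum_univ_two]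
      rw [hJ00, hJ01, hJ10, hJ11, ← ha, ← hb, ← hc, hY11]
      linear_combination hbc
  · -- nonsplit case: `4 - τ²` is a nonzero square
    set τ := b - c with hτ
    have hns : ¬ IsSquare (τ ^ 2 - 4) := by
      rintro ⟨s, hs⟩
      apply hsplit
      have h4' : (4 : F) ≠ 0 := by
        have : (4 : F) = 2 * 2 := by norm_num
        rw [this]; exact mul_ne_zero h2 h2
      have hprod : ((τ + s) / 2) * ((τ - s) / 2) = 1 := by
        field_simp
        linear_combination hs
      have hne : (τ + s) / 2 ≠ 0 := left_ne_zero_of_mul_eq_one hprod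
      refine ⟨(τ + s) / 2, hne, ?_⟩
      rw [inv_eq_of_mul_eq_one_right hprod]
      field_simp
      ring
    have hneg : quadraticChar F (-1) = -1 := by
      rw [quadraticChar_neg_one_iff_not_isSquare, FiniteField.isSquare_neg_one_iff]
      omega
    have hχ : quadraticChar F (4 - τ ^ 2) = 1 := by
      have e : (4 : F) - τ ^ 2 = (-1) * (τ ^ 2 - 4) := by ring
      rw [e, map_mul, hneg, quadraticChar_neg_one_iff_not_isSquare.2 hns]
      norm_num
    have hne0 : (4 : F) - τ ^ 2 ≠ 0 := by
      intro h; rw [h] at hχ; simp at hχ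
    obtain ⟨σ, hσ⟩ := (quadraticChar_one_iff_isSquare hne0).1 hχ
    have hσ0 : σ ≠ 0 := by rintro rfl; apply hne0; rw [hσ]; ring
    -- `c₀ = -τ/2`
    obtain ⟨g, h, w, hg, hh, hw⟩ := exists_split h3 h4 (-τ / 2) (σ / 2) (div_ne_zero hσ0 h2) (by
      field_simp
      linear_combination -hσ)
    -- parameters
    obtain ⟨D, hD⟩ : ∃ D : F, D = 4 - τ ^ 2 := ⟨_, rfl⟩
    obtain ⟨P₁, hP₁⟩ : ∃ p : F, p = h + h⁻¹ := ⟨_, rfl⟩
    obtain ⟨P₂, hP₂⟩ : ∃ p : F, p = g + g⁻¹ := ⟨_, rfl⟩
    rw [← hD] at hne0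
    have hw' : w ^ 2 = 4 - P₁ ^ 2 - P₂ ^ 2 - τ * P₁ * P₂ - τ ^ 2 := by
      rw [hw, hP₁, hP₂]
      field_simp
      ring
    obtain ⟨α, hα⟩ : ∃ α : F, α = (2 * P₁ + τ * P₂) / D := ⟨_, rfl⟩
    obtain ⟨β, hβ⟩ : ∃ β : F, β = (2 * P₂ + τ * P₁) / D := ⟨_, rfl⟩
    obtain ⟨γ, hγ⟩ : ∃ γ : F, γ = w / D := ⟨_, rfl⟩
    have hα1 : 2 * α - τ * β = P₁ := by
      rw [hα, hβ]; field_simp; rw [hD]; ring
    have hβ1 : 2 * β - τ * α = P₂ := by
      rw [hα, hβ]; field_simp; rw [hD]; ring
    have hquad : α ^ 2 + β ^ 2 - τ * α * β + γ ^ 2 * D = 1 := by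
      rw [hγ, div_pow, hw', hα, hβ]
      field_simp
      rw [hD]
      ring
    clear_value τ
    subst hτ
    let Z : SL := ⟨!![β * a - γ * (b + c), -α + β * b + 2 * γ * a; α + β * c + 2 * γ * a, -(β * a - γ * (b + c))], by
      rw [Matrix.det_fin_two]
      simp
      rw [hD] at hquad
      linear_combination hquad + (β ^ 2 + 4 * γ ^ 2) * hd⟩
    have hZ00 : Z 0 0 = β * a - γ * (b + c) := rfl
    have hZ01 : Z 0 1 = -α + β * b + 2 * γ * a := rfl
    have hZ10 : Z 1 0 = α + β * c + 2 * γ * a := rfl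
    have hZ11 : Z 1 1 = -(β * a - γ * (b + c)) := rfl
    have hZt : Z 0 0 + Z 1 1 = 0 := by rw [hZ00, hZ11]; ring
    have hh' : (-h)⁻¹ = -(h⁻¹) := inv_neg
    have hg' : (-g)⁻¹ = -(g⁻¹) := inv_neg
    refine ⟨QuotientGroup.mk Z, ?_, ?_, ?_⟩
    · rw [orderOf_mk]; exact ⟨hZt, not_center_of_trace_zero h2 Z hZt⟩
    · rw [← QuotientGroup.mk_mul]
      apply odd_of_split h3 _ (-h) (neg_ne_zero.2 hh)
      simp only [Matrix.SpecialLinearGroup.coe_mul, Matrix.mul_apply, Fin.sum_univ_two]
      rw [hZ00, hZ01, hZ10, hZ11, hJ00, hJ01, hJ10, hJ11, hh']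
      linear_combination (-1) * hα1 - hP₁
    · rw [← QuotientGroup.mk_mul]
      apply odd_of_split h3 _ (-g) (neg_ne_zero.2 hg)
      simp only [Matrix.SpecialLinearGroup.coe_mul, Matrix.mul_apply, Fin.sum_univ_two]
      rw [hZ00, hZ01, hZ10, hZ11, ← ha, ← hb, ← hc, hY11, hg']
      linear_combination (-1) * hβ1 - hP₂ - 2 * β * hd

lemma orderOf_eq_of_isConj {G : Type*} [Group G] {x y : G} (h : IsConj x y) : orderOf x = orderOf y := by
  rw [isConj_iff] at h
  obtain ⟨g, rfl⟩ := h
  rw [orderOf_conj']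

lemma isConj_iff_orderOf [Fintype F] (t z : PSL) (ht : orderOf t = 2) : IsConj t z ↔ orderOf z = 2 := by
  constructor
  · intro h; rw [← orderOf_eq_of_isConj h]; exact ht
  · intro h
    rw [isConj_iff]
    exact exists_conj_of_involutions t z ht h

lemma good_all [Fintype F] (hF : 4 ≤ Fintype.card F) (x y : PSL)
    (hx : orderOf x = 2) (hy : orderOf y = 2) : Good x y := by
  by_cases hc2 : ringChar F = 2
  · have h2 : (2 : F) = 0 := by
      have := ringChar.Nat.cast_ringChar (R := F)
      rw [hc2] at this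
      exact_mod_cast this
    exact good_char_two h2 hc2 x y hx hy
  · by_cases h3 : Fintype.card F % 4 = 3
    · exact good_mod_three h3 hF x y hx hy
    · obtain ⟨i, hi⟩ := (FiniteField.isSquare_neg_one_iff (F := F)).2 h3
      exact good_mod_one hc2 i hi.symm x y hx hy

/-- two distinct involutions whose product is an involution -/
lemma exists_far [Fintype F] (hF : 4 ≤ Fintype.card F) :
    ∃ x y : PSL, orderOf x = 2 ∧ orderOf y = 2 ∧ x ≠ y ∧ ¬ Odd (orderOf (x * y)) := by
  by_cases hc2 : ringChar F = 2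
  · have h2 : (2 : F) = 0 := by
      have := ringChar.Nat.cast_ringChar (R := F)
      rw [hc2] at this
      exact_mod_cast this
    -- an element different from 0 and 1
    obtain ⟨l, hl0, hl1⟩ : ∃ l : F, l ≠ 0 ∧ l ≠ 1 := by
      classical
      by_contra hcon
      push Not at hcon
      have : (Finset.univ : Finset F) ⊆ {0, 1} := by
        intro l _
        by_cases hl : l = 0
        · simp [hl]
        · simp [hcon l hl]
      have h5 := Finset.card_le_card this
      rw [Finset.card_univ] at h5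
      have h6 : ({0, 1} : Finset F).card ≤ 2 := Finset.card_le_two
      omega
    let A : F → SL := fun u => ⟨!![1, u; 0, 1], by simp [Matrix.det_fin_two]⟩
    have hA : ∀ u : F, u ≠ 0 → orderOf (QuotientGroup.mk (A u) : PSL) = 2 := by
      intro u hu
      rw [orderOf_mk]
      constructor
      · show (1 : F) + 1 = 0
        linear_combination h2
      · rw [mem_center_iff']
        rintro ⟨h, -, -⟩
        exact hu h
    have hmul : ∀ u v : F, A u * A v = A (u + v) := by
      intro u v
      apply Subtype.ext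
      rw [Matrix.SpecialLinearGroup.coe_mul]
      ext i j
      fin_cases i <;> fin_cases j <;> simp [A, Matrix.mul_apply, Fin.sum_univ_two, add_comm]
    have h1l : (1 : F) + l ≠ 0 := by
      intro h; apply hl1; linear_combination h - h2
    have hprod : orderOf ((QuotientGroup.mk (A 1) : PSL) * QuotientGroup.mk (A l)) = 2 := by
      rw [← QuotientGroup.mk_mul, hmul]
      exact hA _ h1l
    refine ⟨QuotientGroup.mk (A 1), QuotientGroup.mk (A l), hA 1 one_ne_zero, hA l hl0, ?_, ?_⟩
    · intro h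
      rw [h] at hprod
      have h8 := hA l hl0
      have h9 := pow_orderOf_eq_one (QuotientGroup.mk (A l) : PSL)
      rw [h8, pow_two] at h9
      rw [h9] at hprod
      simp at hprod
    · rw [hprod]; decide
  · have h2 : (2 : F) ≠ 0 := Ring.two_ne_zero hc2
    have hodd : Fintype.card F % 2 = 1 := FiniteField.odd_card_of_char_ne_two hc2
    obtain ⟨a, b, hab⟩ := FiniteField.exists_root_sum_quadratic
          (f := (Polynomial.X ^ 2 : Polynomial F))
          (g := (Polynomial.X ^ 2 + Polynomial.C 1 : Polynomial F))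
          (Polynomial.degree_X_pow 2)
          (by
            rw [Polynomial.degree_add_C]
            · exact Polynomial.degree_X_pow 2
            · rw [Polynomial.degree_X_pow]; norm_num) hodd
    simp at hab
    let K : SL := ⟨!![a, b; b, -a], by
      rw [Matrix.det_fin_two]
      simp
      linear_combination -hab⟩
    have hK00 : K 0 0 = a := rfl
    have hK01 : K 0 1 = b := rfl
    have hK10 : K 1 0 = b := rfl
    have hK11 : K 1 1 = -a := rfl
    have hJ00 : (J : SL) 0 0 = 0 := rfl
    have hJ01 : (J : SL) 0 1 = -1 := rfl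
    have hJ10 : (J : SL) 1 0 = 1 := rfl
    have hJ11 : (J : SL) 1 1 = 0 := rfl
    have hK : orderOf (QuotientGroup.mk K : PSL) = 2 := by
      rw [orderOf_mk]
      have : K 0 0 + K 1 1 = 0 := by rw [hK00, hK11]; ring
      exact ⟨this, not_center_of_trace_zero h2 K this⟩
    have hJ : orderOf (QuotientGroup.mk J : PSL) = 2 := by
      rw [orderOf_mk]
      have : (J : SL) 0 0 + (J : SL) 1 1 = 0 := by rw [hJ00, hJ11]; ring
      exact ⟨this, not_center_of_trace_zero h2 J this⟩
    have hprod : orderOf ((QuotientGroup.mk J : PSL) * QuotientGroup.mk K) = 2 := by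
      rw [← QuotientGroup.mk_mul, orderOf_mk]
      have : (J * K : SL) 0 0 + (J * K : SL) 1 1 = 0 := by
        simp only [Matrix.SpecialLinearGroup.coe_mul, Matrix.mul_apply, Fin.sum_univ_two]
        rw [hK00, hK01, hK10, hK11, hJ00, hJ01, hJ10, hJ11]
        ring
      exact ⟨this, not_center_of_trace_zero h2 _ this⟩
    refine ⟨QuotientGroup.mk J, QuotientGroup.mk K, hJ, hK, ?_, ?_⟩
    · intro h
      rw [h] at hprod
      have h9 := pow_orderOf_eq_one (QuotientGroup.mk K : PSL)
      rw [hK, pow_two] at h9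
      rw [h9] at hprod
      simp at hprod
    · rw [hprod]; decide

end Mat

/-- Let F be a finite field with at least 4 elements and let X be a conjugacy class of involutions of PSL(2, F). The graph on X joining two distinct involutions whose product has odd order is connected and has diameter exactly 2. -/
theorem result {F : Type*} [Field F] [Fintype F] (hF : 4 ≤ Fintype.card F)
    (t : Matrix.ProjectiveSpecialLinearGroup (Fin 2) F) (ht : orderOf t = 2) :
    (SimpleGraph.fromRel fun x y : {x : Matrix.ProjectiveSpecialLinearGroup (Fin 2) F // IsConj t x} =>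
        Odd (orderOf (x.1 * y.1))).Connected ∧
      (SimpleGraph.fromRel fun x y : {x : Matrix.ProjectiveSpecialLinearGroup (Fin 2) F // IsConj t x} =>
        Odd (orderOf (x.1 * y.1))).diam = 2 := by
  apply Cfsg.Agent.Lib.OddGraph.class_graph
  · intro x y hx hy
    rw [isConj_iff_orderOf _ _ ht] at hx hy
    obtain ⟨z, h1, h2, h3⟩ := good_all hF x y hx hy
    exact ⟨z, (isConj_iff_orderOf _ _ ht).2 h1, h2, h3⟩
  · obtain ⟨x, y, h1, h2, h3, h4⟩ := exists_far (F := F) hF
    exact ⟨x, y, (isConj_iff_orderOf _ _ ht).2 h1, (isConj_iff_orderOf _ _ ht).2 h2, h3, h4⟩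

end Cfsg.Agent.S3266
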