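import Cfsg.Statements.S3269
import Cfsg.Agent.Lib.LocBase
import Cfsg.Agent.Lib.H55Quat
import Cfsg.Agent.Lib.ZStarIso
import Cfsg.Agent.S0201

set_option autoImplicit false
open Cfsg

namespace Cfsg.Agent.S3269

open Subgroup Cfsg.Agent.Lib.LocBase
open scoped commutatorElement

section quat

theorem quat_pow (M k : ℕ) : (QuaternionGroup.a 2 : QuaternionGroup M) ^ k = QuaternionGroup.a ((2 * k : ℕ) : ZMod (2 * M)) := by
  induction k with
  | zero =>
    rw [pow_zero, QuaternionGroup.one_def, mul_zero, Nat.cast_zero]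
  | succ k ih =>
    rw [pow_succ, ih, QuaternionGroup.a_mul_a]
    congr 1
    push_cast
    ring

/-- properties of the quaternion group -/
theorem quat_props (n : ℕ) (hn : 1 ≤ n) :
    ∃ z : QuaternionGroup (2 ^ n), z ≠ 1 ∧ z * z = 1 ∧ (∀ x : QuaternionGroup (2 ^ n), x * x = 1 → x = 1 ∨ x = z) ∧
      (∃ (a b : QuaternionGroup (2 ^ n)) (k : ℕ), ⁅a, b⁆ ^ k = z) := by
  obtain ⟨m, rfl⟩ : ∃ m, n = m + 1 := ⟨n - 1, by omega⟩
  haveI : NeZero (2 ^ (m + 1)) := ⟨pow_ne_zero _ (by norm_num)⟩
  set z : QuaternionGroup (2 ^ (m + 1)) := QuaternionGroup.a ((2 ^ (m + 1) : ℕ) : ZMod (2 * 2 ^ (m + 1))) with hz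
  have hne : z ≠ 1 := by
    rw [hz, QuaternionGroup.one_def, Ne, QuaternionGroup.a.injEq]
    rw [ZMod.natCast_eq_zero_iff]
    intro h
    have := Nat.le_of_dvd (pow_pos (by norm_num) _) h
    have h2 : 0 < 2 ^ (m + 1) := pow_pos (by norm_num) _
    omega
  have hzz : z * z = 1 := by
    rw [hz, QuaternionGroup.a_mul_a, QuaternionGroup.one_def, QuaternionGroup.a.injEq, ← Nat.cast_add, ← two_mul]
    exact ZMod.natCast_self _
  refine ⟨z, hne, hzz, ?_, ?_⟩
  · intro x hx
    by_cases h : x = 1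
    · exact Or.inl h
    · right
      exact Cfsg.Agent.Lib.H55Quat.eq_of_orderOf_two _ (orderOf_eq_prime (by rw [pow_two, hx]) h)
  · refine ⟨QuaternionGroup.a 1, QuaternionGroup.xa 0, 2 ^ m, ?_⟩
    have h1 : ⁅(QuaternionGroup.a 1 : QuaternionGroup (2 ^ (m + 1))), (QuaternionGroup.xa 0 : QuaternionGroup (2 ^ (m + 1)))⁆ = QuaternionGroup.a 2 := by
      rw [commutatorElement_def, mul_inv_eq_iff_eq_mul, mul_inv_eq_iff_eq_mul, QuaternionGroup.a_mul_xa,
        QuaternionGroup.a_mul_xa, QuaternionGroup.xa_mul_a]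
      congr 1
      ring
    rw [h1, hz]
    have h3 : 2 * 2 ^ m = 2 ^ (m + 1) := by ring
    rw [quat_pow, h3]

end quat

section main

variable {G : Type*} [Group G] [Finite G]

/-- the data of the direct factor `Q` of `S` -/
structure Fac (S Q R : Subgroup G) (z : G) : Prop where
  hQS : Q ≤ S
  hRS : R ≤ S
  hcomm : ∀ a ∈ Q, ∀ b ∈ R, a * b = b * a
  hinf : Q ⊓ R = ⊥
  hsup : Q ⊔ R = S
  hz1 : z ≠ 1
  hzz : z * z = 1
  hzQ : z ∈ Q
  huniq : ∀ x ∈ Q, x * x = 1 → x = 1 ∨ x = z
  hcommz : z ∈ ⁅Q, Q⁆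

theorem Fac.decomp {S Q R : Subgroup G} {z : G} (h : Fac S Q R z) {s : G} (hs : s ∈ S) :
    ∃ q ∈ Q, ∃ r ∈ R, s = q * r := by
  rw [← h.hsup] at hs
  apply exists_mul_of_mem_sup_of_le _ hs
  intro r hr
  apply centralizer_le_normalizer
  rw [mem_centralizer_iff]
  intro q hq
  exact h.hcomm q hq r hr

theorem Fac.le_normalizer_left {S Q R : Subgroup G} {z : G} (h : Fac S Q R z) : S ≤ normalizer (Q : Set G) := by
  rw [← h.hsup]
  refine sup_le le_normalizer ?_
  intro r hr
  apply centralizer_le_normalizer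
  rw [mem_centralizer_iff]
  intro q hq
  exact h.hcomm q hq r hr

/-- conjugation by an element normalizing `S` -/
theorem Fac.conj {S Q R : Subgroup G} {z : G} (h : Fac S Q R z) {n : G} (hn : n ∈ normalizer (S : Set G)) :
    Fac S (Q.map (MulAut.conj n).toMonoidHom) (R.map (MulAut.conj n).toMonoidHom) (n * z * n⁻¹) := by
  have hS : S.map (MulAut.conj n).toMonoidHom = S := map_conj_eq_of_mem hn
  have hinj : Function.Injective (MulAut.conj n).toMonoidHom := (MulAut.conj n).injective
  refine ⟨?_, ?_, ?_, ?_, ?_, ?_, ?_, ?_, ?_, ?_⟩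
  · rw [← hS]; exact Subgroup.map_mono h.hQS
  · rw [← hS]; exact Subgroup.map_mono h.hRS
  · rintro _ ⟨a, ha, rfl⟩ _ ⟨b, hb, rfl⟩
    rw [← map_mul, ← map_mul, h.hcomm a ha b hb]
  · rw [← Subgroup.map_inf _ _ _ hinj, h.hinf, Subgroup.map_bot]
  · rw [← Subgroup.map_sup, h.hsup, hS]
  · intro h1
    apply h.hz1
    have : z = n⁻¹ * (n * z * n⁻¹) * n := by group
    rw [this, h1]; group
  · calc n * z * n⁻¹ * (n * z * n⁻¹) = n * (z * z) * n⁻¹ := by group
      _ = 1 := by rw [h.hzz]; group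
  · exact ⟨z, h.hzQ, rfl⟩
  · rintro _ ⟨x, hx, rfl⟩ hxx
    have h1 : x * x = 1 := by
      apply hinj
      rw [map_mul, map_one]; exact hxx
    rcases h.huniq x hx h1 with h2 | h2
    · left; rw [h2, map_one]
    · right; rw [h2]; rfl
  · rw [← Subgroup.map_commutator]
    exact ⟨z, h.hcommz, rfl⟩

/-- two factors with different involutions: the second involution lies in `R` -/
theorem Fac.mem_of_ne {S Q R Q1 R1 : Subgroup G} {z z1 : G} (h : Fac S Q R z) (h1 : Fac S Q1 R1 z1) (hS : IsPGroup 2 S)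
    (hne : z1 ≠ z) : z1 ∈ R := by
  have hinf : Q ⊓ Q1 = ⊥ := by
    rw [eq_bot_iff]
    intro x hx
    by_contra hx1
    rw [Subgroup.mem_bot] at hx1
    -- an involution in `⟨x⟩`
    have hxS : IsPGroup 2 (zpowers x) := hS.to_le (zpowers_le.2 (h.hQS hx.1))
    have h2 : 2 ∣ Nat.card (zpowers x) := by
      obtain ⟨k, hk⟩ := hxS.exists_card_eq
      rcases Nat.eq_zero_or_pos k with h0 | h0
      · rw [h0, pow_zero, Nat.card_zpowers, orderOf_eq_one_iff] at hk
        exact absurd hk hx1
      · rw [hk]; exact dvd_pow_self 2 h0.ne'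
    haveI : Fact (Nat.Prime 2) := ⟨Nat.prime_two⟩
    obtain ⟨y, hy⟩ := exists_prime_orderOf_dvd_card' 2 h2
    have hy1 : (y : G) ≠ 1 := by
      intro h3
      rw [← Subgroup.orderOf_coe, h3, orderOf_one] at hy
      omega
    have hyy : (y : G) * y = 1 := by
      rw [← pow_two, ← hy, ← Subgroup.orderOf_coe, pow_orderOf_eq_one]
    have hyQ : (y : G) ∈ Q := (zpowers_le.2 hx.1) y.2
    have hyQ1 : (y : G) ∈ Q1 := (zpowers_le.2 hx.2) y.2
    have h3 := (h.huniq y hyQ hyy).resolve_left hy1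
    have h4 := (h1.huniq y hyQ1 hyy).resolve_left hy1
    exact hne (h4.symm.trans h3)
  have hcomm : Q1 ≤ centralizer (Q : Set G) := by
    rw [← commutator_eq_bot_iff_le_centralizer, eq_bot_iff, ← hinf]
    apply le_inf
    · exact commutator_le_right_of_le (h1.hQS.trans h.le_normalizer_left)
    · exact commutator_le_left_of_le (h.hQS.trans h1.le_normalizer_left)
  -- `[Q1, Q1] ≤ R`
  have hle : ⁅Q1, Q1⁆ ≤ R := by
    rw [commutator_le]
    intro a ha b hb
    obtain ⟨q, hq, r, hr, rfl⟩ := h.decomp (h1.hQS ha)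
    obtain ⟨q', hq', r', hr', rfl⟩ := h.decomp (h1.hQS hb)
    -- `q` is central in `Q`
    have hqc : ∀ y ∈ Q, y * q = q * y := by
      intro y hy
      have h2 := mem_centralizer_iff.1 (hcomm ha) y hy
      have h3 := h.hcomm y hy r hr
      have h4 : y * q * r = q * y * r := by
        calc y * q * r = y * (q * r) := by group
          _ = q * r * y := h2
          _ = q * (r * y) := by group
          _ = q * (y * r) := by rw [h3]
          _ = q * y * r := by group
      exact mul_right_cancel h4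
    have e1 := hqc q' hq'
    have e2 := h.hcomm q hq r' hr'
    have e3 := h.hcomm q' hq' r hr
    have h5 : ⁅q * r, q' * r'⁆ = ⁅r, r'⁆ := by
      rw [commutatorElement_def, commutatorElement_def, mul_inv_eq_iff_eq_mul, mul_inv_eq_iff_eq_mul]
      have e4 := h.hcomm q' hq' ⁅r, r'⁆ (mul_mem (mul_mem (mul_mem hr hr') (inv_mem hr)) (inv_mem hr'))
      have e5 := h.hcomm q hq r hr
      have e6 : r * r' * r⁻¹ * r'⁻¹ * (r' * r) = r * r' := by group
      calc q * r * (q' * r') = q * (r * q') * r' := by group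
        _ = q * (q' * r) * r' := by rw [e3]
        _ = (q * q') * (r * r') := by group
        _ = (q' * q) * (r * r' * r⁻¹ * r'⁻¹ * (r' * r)) := by rw [e1, e6]
        _ = q' * (q * (r * r' * r⁻¹ * r'⁻¹)) * (r' * r) := by group
        _ = q' * ((r * r' * r⁻¹ * r'⁻¹) * q) * (r' * r) := by
            rw [h.hcomm q hq _ (mul_mem (mul_mem (mul_mem hr hr') (inv_mem hr)) (inv_mem hr'))]
        _ = (q' * (r * r' * r⁻¹ * r'⁻¹)) * (q * r') * r := by group
        _ = ((r * r' * r⁻¹ * r'⁻¹) * q') * (r' * q) * r := by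
            rw [h.hcomm q' hq' _ (mul_mem (mul_mem (mul_mem hr hr') (inv_mem hr)) (inv_mem hr')), e2]
        _ = r * r' * r⁻¹ * r'⁻¹ * (q' * r') * (q * r) := by group
    rw [h5]
    exact mul_mem (mul_mem (mul_mem hr hr') (inv_mem hr)) (inv_mem hr')
  exact hle h1.hcommz

/-- a fixed involution -/
theorem exists_fixed {S Q R : Subgroup G} {z : G} (h : Fac S Q R z) (hS : IsPGroup 2 S)
    (hcen : ∀ x ∈ S, x * x = 1 → ∀ s ∈ S, x * s = s * x) :
    ∃ v : G, v ∈ S ∧ v ≠ 1 ∧ v * v = 1 ∧ ∀ n ∈ normalizer (S : Set G), n * v * n⁻¹ = v := by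
  classical
  have := Fintype.ofFinite G
  set N := normalizer (S : Set G) with hN
  set Zs : Subgroup G := S ⊓ centralizer (S : Set G) with hZs
  have hcomm : ∀ a b : Zs, a * b = b * a := fun a b => Subtype.ext (mem_centralizer_iff.1 b.2.2 a a.2.1)
  letI : CommGroup Zs := { (inferInstance : Group Zs) with mul_comm := hcomm }
  have hNZ : N ≤ normalizer (Zs : Set G) := le_normalizer_inf le_rfl (le_normalizer_centralizer le_rfl)
  have hconjZ : ∀ n ∈ N, n * z * n⁻¹ ∈ Zs := by
    intro n hn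
    have h1 := h.conj hn
    have h2 : n * z * n⁻¹ ∈ S := h1.hQS h1.hzQ
    refine ⟨h2, mem_centralizer_iff.2 fun s hs => ?_⟩
    exact (hcen _ h2 h1.hzz s hs).symm
  let O : Finset Zs := Finset.univ.filter (fun u => ∃ n ∈ N, (u : G) = n * z * n⁻¹)
  have hO : ∀ u : Zs, u ∈ O ↔ ∃ n ∈ N, (u : G) = n * z * n⁻¹ := by
    intro u; simp [O]
  let v : Zs := ∏ u ∈ O, u
  refine ⟨v, v.2.1, ?_, ?_, ?_⟩
  · have hzZ : z ∈ Zs := by
      have := hconjZ 1 (one_mem _)
      simpa using this
    have hzO : (⟨z, hzZ⟩ : Zs) ∈ O := (hO _).2 ⟨1, one_mem _, by simp⟩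
    have h1 : v = ⟨z, hzZ⟩ * ∏ u ∈ O.erase ⟨z, hzZ⟩, u := (Finset.mul_prod_erase O (fun u => u) hzO).symm
    have h2 : ∏ u ∈ O.erase ⟨z, hzZ⟩, u ∈ R.subgroupOf Zs := by
      apply Subgroup.prod_mem
      intro u hu
      rw [Finset.mem_erase] at hu
      obtain ⟨n, hn, hun⟩ := (hO u).1 hu.2
      show (u : G) ∈ R
      rw [hun]
      apply h.mem_of_ne (h.conj hn) hS
      intro h3
      apply hu.1
      apply Subtype.ext
      rw [hun, h3]
    intro h3
    have h4 : v = 1 := Subtype.ext h3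
    rw [h1, mul_eq_one_iff_eq_inv] at h4
    have h5 : z ∈ R := by
      have h6 : (⟨z, hzZ⟩ : Zs) ∈ R.subgroupOf Zs := by
        rw [h4]; exact inv_mem h2
      exact h6
    have h6 : z ∈ Q ⊓ R := ⟨h.hzQ, h5⟩
    rw [h.hinf, Subgroup.mem_bot] at h6
    exact h.hz1 h6
  · have h1 : v * v = 1 := by
      show (∏ u ∈ O, u) * (∏ u ∈ O, u) = 1
      rw [← Finset.prod_mul_distrib]
      apply Finset.prod_eq_one
      intro u hu
      obtain ⟨n, hn, hun⟩ := (hO u).1 hu
      apply Subtype.ext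
      show (u : G) * u = 1
      rw [hun]
      exact (h.conj hn).hzz
    exact congrArg Subtype.val h1
  · intro n hn
    let ψ : Zs →* Zs :=
      { toFun := fun u => ⟨n * u * n⁻¹, conj_mem_of_le_normalizer hNZ hn u.2⟩
        map_one' := Subtype.ext (by simp)
        map_mul' := fun a b => Subtype.ext (by
          show n * (a * b : G) * n⁻¹ = n * a * n⁻¹ * (n * b * n⁻¹)
          group) }
    have hψ : ∀ u : Zs, (ψ u : G) = n * u * n⁻¹ := fun u => rfl
    have h1 : ψ v = v := by
      show ψ (∏ u ∈ O, u) = ∏ u ∈ O, u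
      rw [map_prod]
      apply Finset.prod_nbij (fun u => ψ u)
      · intro u hu
        obtain ⟨m, hm, hum⟩ := (hO u).1 hu
        rw [hO]
        refine ⟨n * m, mul_mem hn hm, ?_⟩
        rw [hψ, hum]; group
      · intro a _ b _ hab
        apply Subtype.ext
        have h2 := congrArg Subtype.val hab
        simp only [hψ] at h2
        exact mul_left_cancel (mul_right_cancel h2)
      · intro u hu
        obtain ⟨m, hm, hum⟩ := (hO u).1 hu
        refine ⟨⟨n⁻¹ * u * n, conj_mem_of_le_normalizer' hNZ hn u.2⟩, ?_, ?_⟩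
        · show _ ∈ O
          rw [hO]
          refine ⟨n⁻¹ * m, mul_mem (inv_mem hn) hm, ?_⟩
          show n⁻¹ * (u : G) * n = _
          rw [hum]; group
        · apply Subtype.ext
          show n * (n⁻¹ * (u : G) * n) * n⁻¹ = u
          group
      · intro u _; rfl
    exact congrArg Subtype.val h1

end main

theorem brauerSuzuki : Cfsg.Agent.Lib.ZStar.BrauerSuzukiStatement :=
  fun _ _ _ S n e hO => Cfsg.Agent.S0201.result S n e hO

/-- Let G be a finite group whose Sylow 2-subgroup S is an internal direct product Q × R with Q generalized quaternion (of order at least 8) and R a subgroup all of whose involutions are central in R. Then G is not simple. In particular no finite simple group has a Sylow 2-subgroup that is a direct product of one or more generalized quaternion groups. -/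
theorem result {G : Type*} [Group G] [Finite G]
    (S : Sylow 2 G) (Q R : Subgroup G) (hQR : Cfsg.IsInternalDirectProduct Q R (S : Subgroup G))
    (n : ℕ) (hn : 1 ≤ n) (eQ : ↥Q ≃* QuaternionGroup (2 ^ n))
    (hR : ∀ r ∈ R, orderOf r = 2 → ∀ s ∈ R, r * s = s * r) :
    ¬ IsSimpleGroup G := by
  intro hsimple
  haveI : Fact (Nat.Prime 2) := ⟨Nat.prime_two⟩
  obtain ⟨hQS, hRS, hcomm, hinf, hsup⟩ := hQR
  -- the factor
  obtain ⟨z0, hz01, hz0z, hz0u, a, b, k, hab⟩ := quat_props n hn
  have hcoe : ∀ x y : QuaternionGroup (2 ^ n), ((eQ.symm (x * y) : Q) : G) = (eQ.symm x : Q) * (eQ.symm y : Q) := by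
    intro x y; rw [map_mul]; rfl
  have hFac : Fac (S : Subgroup G) Q R (eQ.symm z0 : Q) := by
    refine ⟨hQS, hRS, hcomm, hinf, hsup, ?_, ?_, (eQ.symm z0).2, ?_, ?_⟩
    · intro h
      apply hz01
      have h1 : eQ.symm z0 = 1 := Subtype.ext h
      rwa [EmbeddingLike.map_eq_one_iff] at h1
    · rw [← hcoe, hz0z, map_one]; rfl
    · intro x hx hxx
      have h1 : eQ ⟨x, hx⟩ * eQ ⟨x, hx⟩ = 1 := by
        rw [← map_mul, EmbeddingLike.map_eq_one_iff]
        exact Subtype.ext hxx
      rcases hz0u _ h1 with h2 | h2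
      · left
        rw [EmbeddingLike.map_eq_one_iff] at h2
        exact congrArg Subtype.val h2
      · right
        rw [← h2, MulEquiv.symm_apply_apply]
    · have h1 : ((eQ.symm z0 : Q) : G) = ⁅((eQ.symm a : Q) : G), ((eQ.symm b : Q) : G)⁆ ^ k := by
        rw [← hab, map_pow, map_commutatorElement]
        rfl
      rw [h1]
      exact pow_mem (commutator_mem_commutator (eQ.symm a).2 (eQ.symm b).2) k
  -- involutions of `S` are central in `S`
  have hcen : ∀ x ∈ (S : Subgroup G), x * x = 1 → ∀ s ∈ (S : Subgroup G), x * s = s * x := by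
    intro x hx hxx s hs
    obtain ⟨q, hq, r, hr, rfl⟩ := hFac.decomp hx
    obtain ⟨q', hq', r', hr', rfl⟩ := hFac.decomp hs
    have h1 : q * q * (r * r) = 1 := by
      rw [← hxx]
      calc q * q * (r * r) = q * (q * r) * r := by group
        _ = q * (r * q) * r := by rw [hcomm q hq r hr]
        _ = q * r * (q * r) := by group
    have h2 : q * q ∈ Q ⊓ R := by
      refine ⟨mul_mem hq hq, ?_⟩
      rw [eq_inv_of_mul_eq_one_left h1]
      exact R.inv_mem (R.mul_mem hr hr)
    rw [hinf, Subgroup.mem_bot] at h2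
    have h3 : r * r = 1 := by rwa [h2, one_mul] at h1
    -- `q` central in `Q`
    have hqc : q * q' = q' * q := by
      rcases hFac.huniq q hq h2 with h4 | h4
      · rw [h4]; simp
      · have h5 : q' * q * q'⁻¹ = q := by
          have h6 : q' * q * q'⁻¹ ∈ Q := mul_mem (mul_mem hq' hq) (inv_mem hq')
          have h7 : (q' * q * q'⁻¹) * (q' * q * q'⁻¹) = 1 := by
            calc (q' * q * q'⁻¹) * (q' * q * q'⁻¹) = q' * (q * q) * q'⁻¹ := by group
              _ = 1 := by rw [h2]; group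
          rcases hFac.huniq _ h6 h7 with h8 | h8
          · exfalso
            apply hFac.hz1
            rw [← h4]
            have : q = q'⁻¹ * (q' * q * q'⁻¹) * q' := by group
            rw [this, h8]; group
          · rw [h8, h4]
        exact (mul_inv_eq_iff_eq_mul.1 h5).symm
    have hrc : r * r' = r' * r := by
      by_cases h4 : r = 1
      · rw [h4]; simp
      · exact hR r hr (orderOf_eq_prime (by rw [pow_two, h3]) h4) r' hr'
    calc q * r * (q' * r') = q * (r * q') * r' := by group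
      _ = q * (q' * r) * r' := by rw [hcomm q' hq' r hr]
      _ = (q * q') * (r * r') := by group
      _ = (q' * q) * (r' * r) := by rw [hqc, hrc]
      _ = q' * (q * r') * r := by group
      _ = q' * (r' * q) * r := by rw [hcomm q hq r' hr']
      _ = q' * r' * (q * r) := by group
  obtain ⟨v, hvS, hv1, hvv, hvN⟩ := exists_fixed hFac S.2 hcen
  have hiso : ∀ g : G, g * v * g⁻¹ ∈ S → g * v * g⁻¹ = v := by
    intro g hg
    have h1 : v ∈ centralizer ((S : Subgroup G) : Set G) :=
      mem_centralizer_iff.2 fun s hs => (hcen v hvS hvv s hs).symm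
    have h2 : (g * v * g⁻¹) * (g * v * g⁻¹) = 1 := by
      calc (g * v * g⁻¹) * (g * v * g⁻¹) = g * (v * v) * g⁻¹ := by group
        _ = 1 := by rw [hvv]; group
    have h3 : (g⁻¹)⁻¹ * v * g⁻¹ ∈ centralizer ((S : Subgroup G) : Set G) := by
      rw [inv_inv]
      exact mem_centralizer_iff.2 fun s hs => (hcen _ hg h2 s hs).symm
    obtain ⟨n, hn, h4⟩ := Sylow.conj_eq_normalizer_conj_of_mem_centralizer S v g⁻¹ h1 h3
    rw [inv_inv] at h4
    rw [h4]
    have := hvN n⁻¹ (inv_mem hn)
    simpa using this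
  have hZ := Cfsg.Agent.Lib.ZStarIso.inZStar_of_sylow brauerSuzuki G S hvS hiso
  have hv2 : orderOf v = 2 := orderOf_eq_prime (by rw [pow_two, hvv]) hv1
  rcases (hsimple.eq_bot_or_eq_top_of_normal (pPrimeCore 2 G) (pPrimeCore_normal 2 G)) with h1 | h1
  · -- `v` central
    have h2 : v ∈ center G := by
      rw [mem_center_iff]
      intro g
      have h3 := hZ g
      rw [h1, Subgroup.mem_bot, mul_inv_eq_one, mul_inv_eq_iff_eq_mul] at h3
      exact h3
    have h3 : center G = ⊤ := by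
      rcases hsimple.eq_bot_or_eq_top_of_normal (center G) inferInstance with h4 | h4
      · exfalso
        rw [h4, Subgroup.mem_bot] at h2
        exact hv1 h2
      · exact h4
    have h4 : ⁅Q, Q⁆ = ⊥ := by
      rw [commutator_eq_bot_iff_le_centralizer]
      intro x _
      rw [mem_centralizer_iff]
      intro y _
      have : x ∈ center G := by rw [h3]; trivial
      exact mem_center_iff.1 this y
    have h5 := hFac.hcommz
    rw [h4, Subgroup.mem_bot] at h5
    exact hFac.hz1 h5
  · have h2 := Cfsg.Agent.Lib.Cores.coprime_card_pPrimeCore 2 G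
    rw [h1, Subgroup.card_top] at h2
    have h3 : 2 ∣ Nat.card G := by rw [← hv2]; exact orderOf_dvd_natCard v
    exact Nat.not_coprime_of_dvd_of_dvd (by norm_num) h3 (dvd_refl _) h2


end Cfsg.Agent.S3269
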