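import Cfsg.Statements.S3300
import Cfsg.Agent.Lib.CocExt3

set_option autoImplicit false
open Cfsg

namespace Cfsg.Agent.S3300

open Cfsg.Agent.Lib Cfsg.Agent.Lib.LocBase Cfsg.Agent.Lib.CocExt Cfsg.Agent.Lib.Yoshida
open Subgroup

/-- Let G be a finite group with no nontrivial 2-group quotient (O^2(G) = G), z an involution of G with H = C_G(z), and suppose E = O_2(H) is extraspecial with C_G(E) ≤ E and of order 2^(2n+1) with n ≥ 3. If H has a normal subgroup of index 2, then z is conjugate in G to an element of E other than z. -/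
theorem result {G : Type*} [Group G] [Finite G] (hres : Cfsg.pResidual 2 G = ⊤) (z : G) (hz : orderOf z = 2)
    (E : Subgroup G) (hE : E = (Cfsg.pCore 2 ↥(Subgroup.centralizer ({z} : Set G))).map (Subgroup.centralizer ({z} : Set G)).subtype)
    (hext : Cfsg.IsExtraspecial 2 ↥E) (hcent : Subgroup.centralizer (E : Set G) ≤ E) (n : ℕ) (hn : 3 ≤ n) (hcard : Nat.card ↥E = 2 ^ (2 * n + 1))
    (K : Subgroup G) (hKH : K ≤ Subgroup.centralizer ({z} : Set G))
    (hKn : ∀ h ∈ Subgroup.centralizer ({z} : Set G), K.map (MulAut.conj h).toMonoidHom = K)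
    (hKi : K.relIndex (Subgroup.centralizer ({z} : Set G)) = 2) :
    ∃ g : G, g * z * g⁻¹ ∈ E ∧ g * z * g⁻¹ ≠ z := by
  have h := Ctx.of z hz E hE hext hcent
  have h2 : Fact (Nat.Prime 2) := ⟨Nat.prime_two⟩
  by_contra hcon
  push Not at hcon
  obtain ⟨P, hP, hEP⟩ := exists_isSyl_ge (p := 2) h.ex.isP h.le
  have hPK : P ≤ K := by
    intro u hu
    have h1 := h.thm3 hres (by
      rw [hcard]
      have : 2 ^ 7 ≤ 2 ^ (2 * n + 1) := Nat.pow_le_pow_right (by norm_num) (by omega)
      omega) hcon (abM_pow 2) (toAbM ↥(Subgroup.centralizer ({z} : Set G)) 2) hP.pgroup hEP hP.le hu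
    rw [fx_of_mem _ (hP.le hu)] at h1
    exact mem_of_toAbM (K := K.subgroupOf (Subgroup.centralizer ({z} : Set G))) hKi h1
  apply hP.ndvd
  rw [← hKi]
  exact Subgroup.relIndex_dvd_of_le_left _ hPK

end Cfsg.Agent.S3300
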