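import Cfsg.Statements.S3301
import Cfsg.Agent.Lib.CocExt3

set_option autoImplicit false
open Cfsg

namespace Cfsg.Agent.S3301

open Cfsg.Agent.Lib Cfsg.Agent.Lib.LocBase Cfsg.Agent.Lib.CocExt Cfsg.Agent.Lib.Yoshida
open Subgroup

/-- Let G be a finite group with no nontrivial 2-group quotient (O^2(G) = G), z an involution of G with H = C_G(z), and suppose E = O_2(H) is extraspecial with C_G(E) ≤ E. Then the Sylow 2-subgroups of H/[H, H] are elementary abelian: every element of 2-power order of the abelianization of H has order at most 2. -/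
theorem result {G : Type*} [Group G] [Finite G] (hres : Cfsg.pResidual 2 G = ⊤) (z : G) (hz : orderOf z = 2)
    (E : Subgroup G) (hE : E = (Cfsg.pCore 2 ↥(Subgroup.centralizer ({z} : Set G))).map (Subgroup.centralizer ({z} : Set G)).subtype)
    (hext : Cfsg.IsExtraspecial 2 ↥E) (hcent : Subgroup.centralizer (E : Set G) ≤ E) :
    ∀ q : Abelianization ↥(Subgroup.centralizer ({z} : Set G)), (∃ k : ℕ, orderOf q = 2 ^ k) → q ^ 2 = 1 := by
  have h := Ctx.of z hz E hE hext hcent
  have h2 : Fact (Nat.Prime 2) := ⟨Nat.prime_two⟩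
  obtain ⟨P, hP, hEP⟩ := exists_isSyl_ge (p := 2) h.ex.isP h.le
  apply exponent_two hP
  intro x hx
  set φ := toAbM ↥(Subgroup.centralizer ({z} : Set G)) 4 with hφ
  have h1 : fx φ x ^ 2 = 1 := by
    by_cases hc : Nat.card E ≤ 16
    · refine h.thm2s hc ?_ φ hP.pgroup hEP hP.le hx
      intro K hK hn hKp
      have h3 : K.subgroupOf (Subgroup.centralizer ({z} : Set G)) ≤ Cfsg.pCore 2 _ :=
        le_sSup ⟨normal_subgroupOf_of_le_normalizer hn, hKp.comap_of_injective _ (Subgroup.subtype_injective _)⟩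
      rw [hE, ← map_subgroupOf_eq_of_le hK]
      exact Subgroup.map_mono h3
    · exact h.thm2 hres (by omega) (abM_pow 4) φ hP.pgroup hEP hP.le hx
  rw [fx_of_mem _ (hP.le hx), ← map_pow] at h1
  obtain ⟨k, hk⟩ := toAbM_eq_one h1
  exact ⟨k, by rw [← map_pow]; exact hk⟩

end Cfsg.Agent.S3301
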