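import Cfsg.Statements.S3303
import Cfsg.Agent.Lib.H55Sylow
import Cfsg.Agent.Lib.H55Solv

set_option autoImplicit false
open Cfsg

namespace Cfsg.Agent.S3303

/-- Let G be a finite solvable group in which the intersection of any two distinct Sylow 2-subgroups is cyclic. Then G/O(G) has a normal Sylow 2-subgroup, where O(G) is the largest normal subgroup of odd order. -/
theorem result {G : Type*} [Group G] [Finite G] (hs : Group.IsSolvable G)
    (hC : ∀ S T : Sylow 2 G, S ≠ T → IsCyclic ↥((S : Subgroup G) ⊓ (T : Subgroup G))) :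
    ∃ P : Sylow 2 (G ⧸ Cfsg.oddCore G), (P : Subgroup (G ⧸ Cfsg.oddCore G)).Normal := by
  by_contra hcon
  push Not at hcon
  have hs' : Group.IsSolvable (G ⧸ Cfsg.oddCore G) := by
    have := hs
    infer_instance
  have hcore : Cfsg.pPrimeCore 2 (G ⧸ Cfsg.oddCore G) = ⊥ :=
    Cfsg.Agent.Lib.Cores.pPrimeCore_quotient_pPrimeCore 2 G
  obtain ⟨P⟩ : Nonempty (Sylow 2 (G ⧸ Cfsg.oddCore G)) := inferInstance
  have hP := hcon P
  -- another Sylow subgroup
  have : ∃ T : Sylow 2 (G ⧸ Cfsg.oddCore G), P ≠ T := by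
    by_contra h
    push Not at h
    apply hP
    have : Subsingleton (Sylow 2 (G ⧸ Cfsg.oddCore G)) := ⟨fun a b => (h a).symm.trans (h b)⟩
    exact Sylow.normal_of_subsingleton P
  obtain ⟨T, hT⟩ := this
  obtain ⟨S₁, T₁, hne, -, -, hmap⟩ := Cfsg.Agent.Lib.H55Sylow.exists_sylow_pair_lift _ P T hT
  have hc := hC S₁ T₁ hne
  have hc' : IsCyclic ↥((P : Subgroup (G ⧸ Cfsg.oddCore G)) ⊓ (T : Subgroup (G ⧸ Cfsg.oddCore G))) := by
    rw [← hmap]
    exact isCyclic_of_surjective _ ((QuotientGroup.mk' _).subgroupMap_surjective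
      ((S₁ : Subgroup G) ⊓ (T₁ : Subgroup G)))
  have hle : Cfsg.pCore 2 (G ⧸ Cfsg.oddCore G) ≤ (P : Subgroup (G ⧸ Cfsg.oddCore G)) ⊓ (T : Subgroup (G ⧸ Cfsg.oddCore G)) :=
    le_inf (Cfsg.Agent.Lib.Cores.pCore_le_sylow P) (Cfsg.Agent.Lib.Cores.pCore_le_sylow T)
  have hcc : IsCyclic ↥(Cfsg.pCore 2 (G ⧸ Cfsg.oddCore G)) :=
    isCyclic_of_injective (Subgroup.inclusion hle) (Subgroup.inclusion_injective hle)
  have h2 := Cfsg.Agent.Lib.H55Solv.isPGroup_of_aut hs' 2 hcore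
    (Cfsg.Agent.Lib.H55Solv.isPGroup_mulAut_of_cyclic (Cfsg.Agent.Lib.Cores.isPGroup_pCore 2 _))
  apply hP
  have hPtop : (P : Subgroup (G ⧸ Cfsg.oddCore G)) = ⊤ := by
    have h3 : IsPGroup 2 (⊤ : Subgroup (G ⧸ Cfsg.oddCore G)) := h2.to_subgroup ⊤
    exact (P.3 h3 le_top).symm
  rw [hPtop]
  infer_instance

end Cfsg.Agent.S3303
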