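import Cfsg.Statements.S3304
import Cfsg.Agent.Lib.H55Oct

set_option autoImplicit false
open Cfsg

namespace Cfsg.Agent.S3304

open Cfsg.Agent.Lib

theorem pair_subgroup {G : Type*} [Group G] (a b : G) (ha : a * a = 1) (hb : b * b = 1) (hab : a * b = b * a) :
    ∃ A : Subgroup G, a ∈ A ∧ b ∈ A ∧ (∀ x ∈ A, ∀ y ∈ A, x * y = y * x) ∧ (∀ x ∈ A, x * x = 1) := by
  have hc : Commute a b := hab
  have hmul : ∀ i j k l : ℕ, a ^ i * b ^ j * (a ^ k * b ^ l) = a ^ (i + k) * b ^ (j + l) := by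
    intro i j k l
    have h1 : b ^ j * a ^ k = a ^ k * b ^ j := (hc.symm.pow_pow j k).eq
    calc a ^ i * b ^ j * (a ^ k * b ^ l) = a ^ i * (b ^ j * a ^ k) * b ^ l := by group
      _ = a ^ i * (a ^ k * b ^ j) * b ^ l := by rw [h1]
      _ = a ^ (i + k) * b ^ (j + l) := by rw [pow_add, pow_add]; group
  have hsq : ∀ i j : ℕ, a ^ i * b ^ j * (a ^ i * b ^ j) = 1 := by
    intro i j
    rw [hmul, ← two_mul, ← two_mul, pow_mul, pow_mul, pow_two, ha, pow_two, hb, one_pow, one_pow, one_mul]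
  refine ⟨{ carrier := {g | ∃ i j : ℕ, g = a ^ i * b ^ j}
            mul_mem' := ?_
            one_mem' := ⟨0, 0, by simp⟩
            inv_mem' := ?_ }, ⟨1, 0, by simp⟩, ⟨0, 1, by simp⟩, ?_, ?_⟩
  · rintro _ _ ⟨i, j, rfl⟩ ⟨k, l, rfl⟩
    exact ⟨i + k, j + l, hmul i j k l⟩
  · rintro _ ⟨i, j, rfl⟩
    exact ⟨i, j, inv_eq_of_mul_eq_one_left (hsq i j)⟩
  · rintro _ ⟨i, j, rfl⟩ _ ⟨k, l, rfl⟩
    rw [hmul, hmul, add_comm i k, add_comm j l]
  · rintro _ ⟨i, j, rfl⟩
    exact hsq i j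

/-- Let G be a finite solvable group in which the intersection of any two distinct Sylow 2-subgroups has 2-rank at most 1 (contains no Klein four-group). Write Q = G/O(G), O(G) the largest normal subgroup of odd order. Then Q has a normal Sylow 2-subgroup; or Q is isomorphic to GL(2,3); or Q has order 48, centre of order 2 with central quotient isomorphic to the symmetric group of degree 4, and generalized quaternion Sylow 2-subgroups of order 16 (the binary octahedral group). The last two are the two representation groups of the symmetric group of degree 4. -/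
theorem result {G : Type*} [Group G] [Finite G] (hs : Group.IsSolvable G)
    (hI : ∀ S T : Sylow 2 G, S ≠ T → Cfsg.PRankLE 2 1 ↥((S : Subgroup G) ⊓ (T : Subgroup G))) :
    (∃ P : Sylow 2 (G ⧸ Cfsg.oddCore G), (P : Subgroup (G ⧸ Cfsg.oddCore G)).Normal) ∨
    Nonempty ((G ⧸ Cfsg.oddCore G) ≃* GL (Fin 2) (ZMod 3)) ∨
    (Nat.card (G ⧸ Cfsg.oddCore G) = 48 ∧ Nat.card ↥(Subgroup.center (G ⧸ Cfsg.oddCore G)) = 2 ∧
      Nonempty ((G ⧸ Cfsg.oddCore G) ⧸ Subgroup.center (G ⧸ Cfsg.oddCore G) ≃* Equiv.Perm (Fin 4)) ∧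
      ∀ P : Sylow 2 (G ⧸ Cfsg.oddCore G), Nonempty (↥(P : Subgroup (G ⧸ Cfsg.oddCore G)) ≃* QuaternionGroup 4)) := by
  have hs' : Group.IsSolvable (G ⧸ Cfsg.oddCore G) := by
    have := hs
    infer_instance
  have hcore : Cfsg.pPrimeCore 2 (G ⧸ Cfsg.oddCore G) = ⊥ := Cores.pPrimeCore_quotient_pPrimeCore 2 G
  by_cases hnn : ∃ P : Sylow 2 (G ⧸ Cfsg.oddCore G), (P : Subgroup (G ⧸ Cfsg.oddCore G)).Normal
  · exact Or.inl hnn
  right
  push Not at hnn
  -- two distinct Sylow subgroups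
  obtain ⟨S', T', hST⟩ : ∃ S' T' : Sylow 2 (G ⧸ Cfsg.oddCore G), S' ≠ T' := by
    by_contra hcon
    push Not at hcon
    obtain ⟨P⟩ : Nonempty (Sylow 2 (G ⧸ Cfsg.oddCore G)) := inferInstance
    have : Subsingleton (Sylow 2 (G ⧸ Cfsg.oddCore G)) := ⟨hcon⟩
    exact hnn P (Sylow.normal_of_subsingleton P)
  obtain ⟨S, T, hne, -, -, hmap⟩ := H55Sylow.exists_sylow_pair_lift (Cfsg.oddCore G) S' T' hST
  have hrank := hI S T hne
  obtain ⟨f⟩ := H55QuatSolv.exists_equiv_map ((S : Subgroup G) ⊓ (T : Subgroup G)) (S.2.to_le inf_le_left)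
  rw [hmap] at f
  have hO1 : Cfsg.pCore 2 (G ⧸ Cfsg.oddCore G) ≤ (S' : Subgroup (G ⧸ Cfsg.oddCore G)) ⊓ (T' : Subgroup (G ⧸ Cfsg.oddCore G)) :=
    le_inf (Cores.pCore_le_sylow S') (Cores.pCore_le_sylow T')
  -- no two distinct commuting involutions
  have hcommuting : ∀ x ∈ Cfsg.pCore 2 (G ⧸ Cfsg.oddCore G), ∀ y ∈ Cfsg.pCore 2 (G ⧸ Cfsg.oddCore G),
      x * x = 1 → x ≠ 1 → y * y = 1 → y ≠ 1 → x * y = y * x → x = y := by
    intro x hx y hy hx2 hx1 hy2 hy1 hxy
    by_contra hxy'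
    set a := f.symm ⟨x, hO1 hx⟩ with ha
    set b := f.symm ⟨y, hO1 hy⟩ with hb
    obtain ⟨A, haA, hbA, hAc, hAs⟩ := pair_subgroup a b
      (by rw [ha, ← map_mul]; rw [← map_one f.symm]; congr 1; exact Subtype.ext hx2)
      (by rw [hb, ← map_mul]; rw [← map_one f.symm]; congr 1; exact Subtype.ext hy2)
      (by rw [ha, hb, ← map_mul, ← map_mul]; congr 1; exact Subtype.ext hxy)
    have h1 := hrank A ⟨⟨fun u v => Subtype.ext (hAc u u.2 v v.2)⟩⟩ (by
      intro u hu; rw [pow_two]; exact hAs u hu)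
    have hane : a ≠ 1 := by
      intro h
      rw [ha] at h
      have := (map_eq_one_iff f.symm f.symm.injective).1 h
      exact hx1 (congrArg Subtype.val this)
    have hbne : b ≠ 1 := by
      intro h
      rw [hb] at h
      have := (map_eq_one_iff f.symm f.symm.injective).1 h
      exact hy1 (congrArg Subtype.val this)
    have habne : a ≠ b := by
      intro h
      rw [ha, hb] at h
      exact hxy' (congrArg Subtype.val (f.symm.injective h))
    have h3 : 3 ≤ Nat.card ↥A := by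
      have hsub : ({1, a, b} : Set _) ⊆ (A : Set _) := by
        rintro u (rfl | rfl | rfl)
        · exact one_mem _
        · exact haA
        · exact hbA
      have h4 := Set.ncard_le_ncard hsub (Set.toFinite _)
      have h5 : ({1, a, b} : Set ↥((S : Subgroup G) ⊓ (T : Subgroup G))).ncard = 3 :=
        Set.ncard_eq_three.2 ⟨1, a, b, hane.symm, hbne.symm, habne, rfl⟩
      rw [h5] at h4
      exact h4
    omega
  have huniq : ∀ x y : ↥(Cfsg.pCore 2 (G ⧸ Cfsg.oddCore G)), orderOf x = 2 → orderOf y = 2 → x = y := by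
    intro x y hx hy
    -- central involution
    have hp := Cores.isPGroup_pCore 2 (G ⧸ Cfsg.oddCore G)
    have hnt : Nontrivial ↥(Cfsg.pCore 2 (G ⧸ Cfsg.oddCore G)) := ⟨x, 1, H55Invol.ne_one hx⟩
    have hcnt : Nontrivial (Subgroup.center ↥(Cfsg.pCore 2 (G ⧸ Cfsg.oddCore G))) := hp.center_nontrivial
    have hcp : IsPGroup 2 (Subgroup.center ↥(Cfsg.pCore 2 (G ⧸ Cfsg.oddCore G))) := hp.to_subgroup _
    obtain ⟨w, hw⟩ : ∃ w : Subgroup.center ↥(Cfsg.pCore 2 (G ⧸ Cfsg.oddCore G)), orderOf w = 2 := by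
      have hc1 : 2 ∣ Nat.card (Subgroup.center ↥(Cfsg.pCore 2 (G ⧸ Cfsg.oddCore G))) := by
        obtain ⟨k, hk⟩ := IsPGroup.iff_card.1 hcp
        rw [hk]
        apply dvd_pow_self
        rintro rfl
        rw [pow_zero] at hk
        have := Finite.one_lt_card (α := Subgroup.center ↥(Cfsg.pCore 2 (G ⧸ Cfsg.oddCore G)))
        omega
      have : Fact (Nat.Prime 2) := ⟨Nat.prime_two⟩
      exact exists_prime_orderOf_dvd_card' 2 hc1
    have key : ∀ v : ↥(Cfsg.pCore 2 (G ⧸ Cfsg.oddCore G)), orderOf v = 2 → v = w := by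
      intro v hv
      have hv2 := H55Invol.mul_self hv
      have hw2 := H55Invol.mul_self hw
      have h1 := Subgroup.mem_center_iff.1 w.2 v
      apply Subtype.ext
      apply hcommuting _ v.2 _ (w : ↥(Cfsg.pCore 2 (G ⧸ Cfsg.oddCore G))).2
      · exact congrArg Subtype.val hv2
      · intro h; exact H55Invol.ne_one hv (Subtype.ext h)
      · have := congrArg Subtype.val hw2
        exact congrArg Subtype.val this
      · intro h
        apply H55Invol.ne_one hw
        exact Subtype.ext (Subtype.ext h)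
      · exact congrArg Subtype.val h1
    rw [key x hx, key y hy]
  rcases H55QuatSolv.dichotomy hs' hcore huniq with h2 | ⟨⟨e⟩⟩
  · exfalso
    apply hnn S'
    have : (S' : Subgroup (G ⧸ Cfsg.oddCore G)) = ⊤ := by
      rw [eq_top_iff]
      have h1 : IsPGroup 2 (⊤ : Subgroup (G ⧸ Cfsg.oddCore G)) := IsPGroup.of_equiv h2 Subgroup.topEquiv.symm
      exact (S'.is_maximal' h1 le_top).le
    rw [this]; infer_instance
  · have hcard := H55Oct.card_eq hs' hcore e hnn
    by_cases hno : ∀ u : G ⧸ Cfsg.oddCore G, u * u = 1 → u ∈ Cfsg.pCore 2 (G ⧸ Cfsg.oddCore G)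
    · right
      exact ⟨hcard, H55Oct.card_center hs' hcore e, H55Oct.quot_center hs' hcore e hcard,
        fun P => H55Oct.caseB e hcard hno P⟩
    · left
      push Not at hno
      obtain ⟨u, hu, huO⟩ := hno
      exact H55Oct.caseA hs' hcore e hcard hu huO

end Cfsg.Agent.S3304
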