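import Cfsg.Statements.S3309
import Cfsg.Agent.Lib.H55Thompson

set_option autoImplicit false
open Cfsg

namespace Cfsg.Agent.S3309

/-- `Z_2 × D_8` -/
abbrev P0 := Multiplicative (ZMod 2) × DihedralGroup 4

/-- parity of the rotation index -/
def par : DihedralGroup 4 → ZMod 2
  | .r i => (i.val : ZMod 2)
  | .sr i => (i.val : ZMod 2)

/-- reflection indicator -/
def refl' : DihedralGroup 4 → ZMod 2
  | .r _ => 0
  | .sr _ => 1

/-- the four characters nontrivial on the first factor -/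
def chi (α β : ZMod 2) : P0 →* Multiplicative (ZMod 2) where
  toFun x := Multiplicative.ofAdd (Multiplicative.toAdd x.1 + α * par x.2 + β * refl' x.2)
  map_one' := by revert α β; decide +kernel
  map_mul' := by revert α β; decide +kernel

def c0 : P0 := (Multiplicative.ofAdd 1, 1)
def z0 : P0 := (1, .r 2)
def a0 : P0 := (1, .r 1)
def b1 : P0 := (1, .sr 0)
def b2 : P0 := (Multiplicative.ofAdd 1, .sr 0)
def b3 : P0 := (1, .sr 1)
def b4 : P0 := (Multiplicative.ofAdd 1, .sr 1)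

attribute [irreducible] c0 z0 a0 b1 b2 b3 b4 chi

theorem cover : ∀ y : P0, y * y = 1 → y = 1 ∨ y = c0 ∨ y = z0 ∨ y = c0 * z0 ∨
    (∃ w : P0, w * y * w⁻¹ = b1) ∨ (∃ w : P0, w * y * w⁻¹ = b2) ∨ (∃ w : P0, w * y * w⁻¹ = b3) ∨
      (∃ w : P0, w * y * w⁻¹ = b4) := by
  decide +kernel

theorem chi_conj (α β : ZMod 2) (w y : P0) : chi α β (w * y * w⁻¹) = chi α β y := by
  rw [map_mul, map_mul, map_inv, mul_comm (chi α β w), mul_inv_cancel_right]

theorem pattern (A : P0 → Prop) (hc : ∀ w y, A y → A (w * y * w⁻¹)) (hz : ¬ A z0)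
    (h : ∀ α β, ∃ y, chi α β y = 1 ∧ y * y = 1 ∧ y ≠ 1 ∧ A y) :
    (A b1 ∧ A b2) ∨ (A b3 ∧ A b4) := by
  have key : ∀ α β, (chi α β b1 = 1 ∧ A b1) ∨ (chi α β b2 = 1 ∧ A b2) ∨ (chi α β b3 = 1 ∧ A b3) ∨
      (chi α β b4 = 1 ∧ A b4) := by
    intro α β
    obtain ⟨y, h1, h2, h3, h4⟩ := h α β
    rcases cover y h2 with h5 | h5 | h5 | h5 | ⟨w, h5⟩ | ⟨w, h5⟩ | ⟨w, h5⟩ | ⟨w, h5⟩
    · exact absurd h5 h3
    · exfalso
      rw [h5] at h1
      revert h1 α β; decide +kernel
    · rw [h5] at h4; exact absurd h4 hz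
    · exfalso
      rw [h5] at h1
      revert h1 α β; decide +kernel
    · left
      rw [← h5, chi_conj]
      exact ⟨h1, hc w y h4⟩
    · right; left
      rw [← h5, chi_conj]
      exact ⟨h1, hc w y h4⟩
    · right; right; left
      rw [← h5, chi_conj]
      exact ⟨h1, hc w y h4⟩
    · right; right; right
      rw [← h5, chi_conj]
      exact ⟨h1, hc w y h4⟩
  have n1 : chi 0 1 b1 ≠ 1 ∧ chi 1 1 b1 ≠ 1 ∧ chi 0 0 b2 ≠ 1 ∧ chi 1 0 b2 ≠ 1 ∧ chi 0 1 b3 ≠ 1 ∧
      chi 1 0 b3 ≠ 1 ∧ chi 0 0 b4 ≠ 1 ∧ chi 1 1 b4 ≠ 1 := by decide +kernel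
  have k1 := key 0 0
  have k2 := key 0 1
  have k3 := key 1 0
  have k4 := key 1 1
  tauto

/-- A finite group whose Sylow 2-subgroups are isomorphic to the direct product of a group of order 2 and the dihedral group of order 8 is not a non-abelian simple group. -/
theorem result {G : Type*} [Group G] [Finite G] (S : Sylow 2 G) (hS : Nonempty (↥(S : Subgroup G) ≃* Multiplicative (ZMod 2) × DihedralGroup 4))
    [IsSimpleGroup G] (hG : ¬ IsMulCommutative G) : False := by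
  obtain ⟨e⟩ := hS
  set ι : P0 →* G := (S : Subgroup G).subtype.comp e.symm.toMonoidHom with hι
  have hinj : Function.Injective ι := (S : Subgroup G).subtype_injective.comp e.symm.injective
  have hmem : ∀ y, ι y ∈ S := fun y => (e.symm y).2
  have hsurj : ∀ x ∈ S, ∃ y, ι y = x := fun x hx => ⟨e ⟨x, hx⟩, by
    show ((e.symm (e ⟨x, hx⟩) : ↥(S : Subgroup G)) : G) = x
    rw [e.symm_apply_apply]⟩
  have hcen : ∀ c : P0, (∀ y : P0, y * c = c * y) → ∀ x ∈ S, x * ι c = ι c * x := by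
    intro c hc x hx
    obtain ⟨y, rfl⟩ := hsurj x hx
    rw [← map_mul, hc, map_mul]
  have cc : ∀ y : P0, y * c0 = c0 * y := by decide +kernel
  have cz : ∀ y : P0, y * z0 = z0 * y := by decide +kernel
  have ccz : ∀ y : P0, y * (c0 * z0) = (c0 * z0) * y := by decide +kernel
  -- Burnside
  have burn : ∀ u v : P0, (∀ y : P0, y * u = u * y) → (∀ y : P0, y * v = v * y) → IsConj (ι u) (ι v) →
      ∃ n ∈ Subgroup.normalizer ((S : Subgroup G) : Set G), n * ι u * n⁻¹ = ι v := by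
    intro u v hu hv huv
    obtain ⟨g, hg⟩ := isConj_iff.1 huv
    have h1 : ι u ∈ Subgroup.centralizer ((S : Subgroup G) : Set G) := by
      rw [Subgroup.mem_centralizer_iff]
      intro x hx
      exact hcen u hu x hx
    have h2 : (g⁻¹)⁻¹ * ι u * g⁻¹ ∈ Subgroup.centralizer ((S : Subgroup G) : Set G) := by
      rw [inv_inv, hg, Subgroup.mem_centralizer_iff]
      intro x hx
      exact hcen v hv x hx
    obtain ⟨n, hn, h3⟩ := Sylow.conj_eq_normalizer_conj_of_mem_centralizer S (ι u) (g⁻¹) h1 h2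
    refine ⟨n⁻¹, inv_mem hn, ?_⟩
    rw [inv_inv, ← h3, inv_inv, hg]
  have hz : ∀ n ∈ Subgroup.normalizer ((S : Subgroup G) : Set G), n * ι z0 * n⁻¹ = ι z0 := by
    intro n hn
    have h1 : n * ι a0 * n⁻¹ ∈ (S : Subgroup G) := (Subgroup.mem_normalizer_iff.1 hn _).1 (hmem a0)
    obtain ⟨y, hy⟩ := hsurj _ h1
    have h2 : a0 * a0 = z0 := by decide +kernel
    have h3 : n * ι z0 * n⁻¹ = ι (y * y) := by
      rw [map_mul, hy, ← h2, map_mul]; group
    have h4 : ∀ y : P0, y * y = 1 ∨ y * y = z0 := by decide +kernel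
    rcases h4 y with h | h
    · exfalso
      rw [h, map_one] at h3
      have h5 : ι z0 = 1 := by
        calc ι z0 = n⁻¹ * (n * ι z0 * n⁻¹) * n := by group
          _ = 1 := by rw [h3]; group
      have h6 : z0 = 1 := (map_eq_one_iff ι hinj).1 h5
      revert h6; decide +kernel
    · rw [h3, h]
  have F1 : ¬ IsConj (ι c0) (ι z0) := by
    intro h
    obtain ⟨n, hn, h1⟩ := burn _ _ cc cz h
    have h2 := hz n hn
    rw [← h1] at h2
    have h3 : n * ι c0 * n⁻¹ = ι z0 := h1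
    have h4 : ι c0 = ι z0 := by
      rw [← hz n hn] at h1
      have := mul_left_cancel (mul_right_cancel h1)
      exact this
    have h5 := hinj h4
    revert h5; decide +kernel
  have F2 : ¬ IsConj (ι (c0 * z0)) (ι z0) := by
    intro h
    obtain ⟨n, hn, h1⟩ := burn _ _ ccz cz h
    have h4 : ι (c0 * z0) = ι z0 := by
      rw [← hz n hn] at h1
      have := mul_left_cancel (mul_right_cancel h1)
      exact this
    have h5 := hinj h4
    revert h5; decide +kernel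
  have F3 : ¬ IsConj (ι c0) (ι (c0 * z0)) := by
    intro h
    obtain ⟨n, hn, h1⟩ := burn _ _ cc ccz h
    have h2 : n * ι (c0 * z0) * n⁻¹ = ι c0 := by
      have h3 : (c0 * z0) * z0 = c0 := by decide +kernel
      calc n * ι (c0 * z0) * n⁻¹ = (n * ι c0 * n⁻¹) * (n * ι z0 * n⁻¹) := by rw [map_mul]; group
        _ = ι (c0 * z0 * z0) := by rw [h1, hz n hn, ← map_mul]
        _ = ι c0 := by rw [h3]
    have h4 := Cfsg.Agent.Lib.H55Thompson.no_swap S hn (hcen _ cc) h1 h2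
    have h5 := hinj h4
    revert h5; decide +kernel
  -- transfer
  have hchi : ∀ α β, chi α β c0 = Multiplicative.ofAdd 1 := by decide +kernel
  have hzz : z0 * z0 = 1 := by decide +kernel
  have hc00 : c0 * c0 = 1 := by decide +kernel
  have trans : ∀ u : P0, u * u = 1 → u ≠ 1 → ∀ α β, ∃ y, chi α β y = 1 ∧ y * y = 1 ∧ y ≠ 1 ∧ IsConj (ι u) (ι y) := by
    intro u hu hu1 α β
    set Q : Subgroup G := ((chi α β).ker.comap e.toMonoidHom).map (S : Subgroup G).subtype with hQ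
    have hQS : Q ≤ (S : Subgroup G) := Subgroup.map_subtype_le _
    have hidx : Q.relIndex (S : Subgroup G) = 2 := by
      rw [hQ, Cfsg.Agent.Lib.SylowTools.relIndex_map_subtype, Subgroup.index_comap_of_surjective _ e.surjective,
        Subgroup.index_ker]
      have : (chi α β).range = ⊤ := by
        rw [eq_top_iff]
        intro x _
        have h1 : ∀ x : Multiplicative (ZMod 2), x = 1 ∨ x = Multiplicative.ofAdd 1 := by decide +kernel
        rcases h1 x with rfl | rfl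
        · exact one_mem _
        · exact ⟨c0, hchi α β⟩
      rw [this, Subgroup.card_top, Nat.card_eq_fintype_card]
      rfl
    obtain ⟨g, hg⟩ := Cfsg.Agent.Lib.H55Thompson.thompson_transfer hG S Q hQS hidx (ι u)
      (by rw [← map_mul, hu, map_one])
    obtain ⟨x, hx, hx2⟩ := hg
    have hx3 : chi α β (e x) = 1 := hx
    have hx4 : ι (e x) = g⁻¹ * ι u * g := by
      rw [← hx2]
      show ((e.symm (e x) : ↥(S : Subgroup G)) : G) = x
      rw [e.symm_apply_apply]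
    have hconj : IsConj (ι u) (ι (e x)) := by
      rw [hx4]
      exact isConj_iff.2 ⟨g⁻¹, by group⟩
    refine ⟨e x, hx3, ?_, ?_, hconj⟩
    · apply hinj
      rw [map_mul, hx4, map_one]
      calc g⁻¹ * ι u * g * (g⁻¹ * ι u * g) = g⁻¹ * (ι u * ι u) * g := by group
        _ = 1 := by rw [← map_mul, hu, map_one]; group
    · intro h
      rw [h, map_one] at hconj
      have h5 : ι u = 1 := isConj_one_left.1 hconj
      exact hu1 ((map_eq_one_iff ι hinj).1 h5)
  have hcl : ∀ u w y : P0, IsConj (ι u) (ι y) → IsConj (ι u) (ι (w * y * w⁻¹)) := by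
    intro u w y h
    refine h.trans (isConj_iff.2 ⟨ι w, ?_⟩)
    rw [map_mul, map_mul, map_inv]
  have pA := pattern (fun y => IsConj (ι c0) (ι y)) (fun w y h => hcl c0 w y h) F1
    (trans c0 (by decide +kernel) (by decide +kernel))
  have pB := pattern (fun y => IsConj (ι (c0 * z0)) (ι y)) (fun w y h => hcl (c0 * z0) w y h) F2
    (trans (c0 * z0) (by decide +kernel) (by decide +kernel))
  have disj : ∀ y : P0, IsConj (ι c0) (ι y) → ¬ IsConj (ι (c0 * z0)) (ι y) := by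
    intro y h1 h2
    exact F3 (h1.trans h2.symm)
  -- every noncentral involution is of type A or B
  have q1234 : (IsConj (ι c0) (ι b1) ∨ IsConj (ι (c0 * z0)) (ι b1)) ∧
      (IsConj (ι c0) (ι b2) ∨ IsConj (ι (c0 * z0)) (ι b2)) ∧
      (IsConj (ι c0) (ι b3) ∨ IsConj (ι (c0 * z0)) (ι b3)) ∧
      (IsConj (ι c0) (ι b4) ∨ IsConj (ι (c0 * z0)) (ι b4)) := by
    rcases pA with ⟨h1, h2⟩ | ⟨h1, h2⟩
    · rcases pB with ⟨h3, h4⟩ | ⟨h3, h4⟩
      · exact absurd h3 (disj _ h1)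
      · exact ⟨Or.inl h1, Or.inl h2, Or.inr h3, Or.inr h4⟩
    · rcases pB with ⟨h3, h4⟩ | ⟨h3, h4⟩
      · exact ⟨Or.inr h3, Or.inr h4, Or.inl h1, Or.inl h2⟩
      · exact absurd h3 (disj _ h1)
  obtain ⟨q1, q2, q3, q4⟩ := q1234
  have hall : ∀ y : P0, y * y = 1 → y = 1 ∨ y = z0 ∨ IsConj (ι c0) (ι y) ∨ IsConj (ι (c0 * z0)) (ι y) := by
    intro y hy
    have hb : ∀ u b : P0, IsConj (ι u) (ι b) → (∃ w : P0, w * y * w⁻¹ = b) → IsConj (ι u) (ι y) := by
      rintro u b h ⟨w, hw⟩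
      refine h.trans (isConj_iff.2 ⟨(ι w)⁻¹, ?_⟩)
      rw [← hw, map_mul, map_mul, map_inv]; group
    have hq : ∀ b : P0, (IsConj (ι c0) (ι b) ∨ IsConj (ι (c0 * z0)) (ι b)) → (∃ w : P0, w * y * w⁻¹ = b) →
        y = 1 ∨ y = z0 ∨ IsConj (ι c0) (ι y) ∨ IsConj (ι (c0 * z0)) (ι y) := by
      rintro b (h | h) h'
      · exact Or.inr (Or.inr (Or.inl (hb _ _ h h')))
      · exact Or.inr (Or.inr (Or.inr (hb _ _ h h')))
    rcases cover y hy with h5 | h5 | h5 | h5 | h5 | h5 | h5 | h5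
    · exact Or.inl h5
    · rw [h5]; exact Or.inr (Or.inr (Or.inl (IsConj.refl _)))
    · exact Or.inr (Or.inl h5)
    · rw [h5]; exact Or.inr (Or.inr (Or.inr (IsConj.refl _)))
    · exact hq b1 q1 h5
    · exact hq b2 q2 h5
    · exact hq b3 q3 h5
    · exact hq b4 q4 h5
  -- z0 is isolated
  have hiso : ∀ y : P0, IsConj (ι z0) (ι y) → y = z0 := by
    intro y hy
    obtain ⟨g, hg⟩ := isConj_iff.1 hy
    have hyy : y * y = 1 := by
      apply hinj
      rw [map_mul, map_one, ← hg]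
      calc g * ι z0 * g⁻¹ * (g * ι z0 * g⁻¹) = g * (ι z0 * ι z0) * g⁻¹ := by group
        _ = g * ι (z0 * z0) * g⁻¹ := by rw [map_mul]
        _ = 1 := by rw [hzz, map_one]; group
    rcases hall y hyy with h | h | h | h
    · exfalso
      rw [h, map_one] at hy
      have h5 : ι z0 = 1 := isConj_one_left.1 hy
      have h6 : z0 = 1 := (map_eq_one_iff ι hinj).1 h5
      revert h6; decide +kernel
    · exact h
    · exact absurd (h.trans hy.symm) F1
    · exact absurd (h.trans hy.symm) F2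
  -- pick a noncentral involution of type A
  obtain ⟨b, hb, hbne⟩ : ∃ b : P0, IsConj (ι c0) (ι b) ∧ b ≠ c0 := by
    rcases pA with h | h
    · exact ⟨b1, h.1, by decide +kernel⟩
    · exact ⟨b3, h.1, by decide +kernel⟩
  obtain ⟨h, hh⟩ := isConj_iff.1 hb.symm
  obtain ⟨g, hg1, hg2⟩ := Cfsg.Agent.Lib.H55Thompson.exists_conj_into S (hcen _ cc) hh
  have hgc : g * ι c0 * g⁻¹ ∈ S := hg2 _ (hmem _) (by rw [← map_mul, ← map_mul, cc b])
  have hgz : g * ι z0 * g⁻¹ ∈ S := hg2 _ (hmem _) (by rw [← map_mul, ← map_mul, cz b])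
  obtain ⟨y, hy⟩ := hsurj _ hgc
  obtain ⟨y', hy'⟩ := hsurj _ hgz
  have hy'z : y' = z0 := hiso y' (by rw [hy']; exact isConj_iff.2 ⟨g, rfl⟩)
  rw [hy'z] at hy'
  have hA : IsConj (ι c0) (ι y) := by rw [hy]; exact isConj_iff.2 ⟨g, rfl⟩
  have hB : IsConj (ι (c0 * z0)) (ι (y * z0)) := by
    rw [map_mul ι y, hy, hy']
    refine isConj_iff.2 ⟨g, ?_⟩
    rw [map_mul]; group
  have hyy : y * y = 1 := by
    apply hinj
    rw [map_mul, map_one, hy]
    calc g * ι c0 * g⁻¹ * (g * ι c0 * g⁻¹) = g * (ι c0 * ι c0) * g⁻¹ := by group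
      _ = g * ι (c0 * c0) * g⁻¹ := by rw [map_mul]
      _ = 1 := by rw [hc00, map_one]; group
  have hcase : ∀ y : P0, y * y = 1 → y = 1 ∨ y = c0 ∨ y = z0 ∨ y = c0 * z0 ∨ ∃ w : P0, w * y * w⁻¹ = y * z0 := by
    decide +kernel
  rcases hcase y hyy with h5 | h5 | h5 | h5 | ⟨w, h5⟩
  · rw [h5, map_one] at hA
    have h6 : ι c0 = 1 := isConj_one_left.1 hA
    have h7 : c0 = 1 := (map_eq_one_iff ι hinj).1 h6
    revert h7; decide +kernel
  · rw [h5] at hy
    have h6 : ι b = ι c0 := by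
      have h7 : g * ι b * g⁻¹ = g * ι c0 * g⁻¹ := hg1.trans hy
      exact mul_left_cancel (mul_right_cancel h7)
    exact hbne (hinj h6)
  · rw [h5] at hA; exact F1 hA
  · rw [h5] at hA; exact F3 hA
  · have := hcl c0 w y hA
    rw [h5] at this
    exact disj _ this hB

end Cfsg.Agent.S3309
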