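import Cfsg.Statements.S3349
import Mathlib

set_option autoImplicit false
open Cfsg
open scoped commutatorElement

namespace Cfsg.Agent.S3349

/-- Let Q be a finite extraspecial p-group and α an automorphism of Q fixing every element of some maximal abelian subgroup of Q. Then the order of α is a power of p. -/
theorem result {Q : Type*} [Group Q] [Finite Q]
    (p : ℕ) [Fact p.Prime] (hQ : Cfsg.IsExtraspecial p Q) (α : MulAut Q)
    (A : Subgroup Q) (hA : IsMulCommutative A) (hmax : ∀ B : Subgroup Q, A ≤ B → IsMulCommutative B → B = A)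
    (hfix : ∀ a ∈ A, α a = a) :
    ∃ k : ℕ, orderOf α = p ^ k := by
  have hAc : ∀ a ∈ A, ∀ b ∈ A, a * b = b * a := by
    intro a ha b hb
    have := hA.is_comm.comm (⟨a, ha⟩ : A) ⟨b, hb⟩
    exact congrArg Subtype.val this
  -- centralizer of A is contained in A
  have hcent : ∀ x : Q, (∀ a ∈ A, x * a = a * x) → x ∈ A := by
    intro x hx
    have hcl : IsMulCommutative (Subgroup.closure ((A : Set Q) ∪ {x})) := by
      refine ⟨⟨?_⟩⟩
      intro u v
      have key := Subgroup.closure_le_centralizer_centralizer ((A : Set Q) ∪ {x})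
      have hsub : ((A : Set Q) ∪ {x}) ⊆ Subgroup.centralizer ((A : Set Q) ∪ {x}) := by
        rintro y (hy | hy)
        · rw [SetLike.mem_coe, Subgroup.mem_centralizer_iff]
          rintro z (hz | hz)
          · exact hAc z hz y hy
          · rw [Set.mem_singleton_iff] at hz
            rw [hz]; exact hx y hy
        · rw [Set.mem_singleton_iff] at hy
          rw [SetLike.mem_coe, Subgroup.mem_centralizer_iff]
          rintro z (hz | hz)
          · rw [hy]; exact (hx z hz).symm
          · rw [Set.mem_singleton_iff] at hz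
            rw [hz, hy]
      have h1 : Subgroup.closure ((A : Set Q) ∪ {x}) ≤ Subgroup.centralizer ((A : Set Q) ∪ {x}) :=
        (Subgroup.closure_le _).2 hsub
      have h2 : Subgroup.closure ((A : Set Q) ∪ {x}) ≤ Subgroup.centralizer
          (Subgroup.closure ((A : Set Q) ∪ {x}) : Set Q) := by
        rw [Subgroup.centralizer_closure]
        exact h1
      have h3 := h2 u.2
      rw [Subgroup.mem_centralizer_iff] at h3
      exact Subtype.ext (h3 v v.2).symm
    have h4 := hmax _ (fun a ha => Subgroup.subset_closure (Or.inl ha)) hcl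
    rw [← h4]
    exact Subgroup.subset_closure (Or.inr rfl)
  -- the commutator subgroup is central, hence in A
  have hZ : Subgroup.center Q ≤ A := by
    intro z hz
    apply hcent
    intro a _
    exact (Subgroup.mem_center_iff.1 hz a).symm
  have hcomm : commutator Q ≤ A := by
    rw [hQ.1.2.2]; exact hZ
  have hnorm : ∀ q : Q, ∀ a ∈ A, q * a * q⁻¹ ∈ A := by
    intro q a ha
    have h1 : q * a * q⁻¹ = ⁅q, a⁆ * a := by
      rw [commutatorElement_def]; group
    rw [h1]
    exact A.mul_mem (hcomm (Subgroup.commutator_mem_commutator (Subgroup.mem_top q) (Subgroup.mem_top a))) ha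
  -- q⁻¹ * α q ∈ A
  have hd : ∀ q : Q, q⁻¹ * α q ∈ A := by
    intro q
    apply hcent
    intro a ha
    have h1 : α (q * a * q⁻¹) = q * a * q⁻¹ := hfix _ (hnorm q a ha)
    rw [map_mul, map_mul, hfix a ha, map_inv] at h1
    -- α q * a * (α q)⁻¹ = q * a * q⁻¹
    have h2 : α q * a = q * a * q⁻¹ * α q := by
      rw [← h1]; group
    calc q⁻¹ * α q * a = q⁻¹ * (α q * a) := by group
      _ = q⁻¹ * (q * a * q⁻¹ * α q) := by rw [h2]
      _ = a * (q⁻¹ * α q) := by group
  have hpow : ∀ (k : ℕ) (q : Q), (α ^ k) q = q * (q⁻¹ * α q) ^ k := by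
    intro k
    induction k with
    | zero => intro q; simp
    | succ k ih =>
      intro q
      rw [pow_succ', MulAut.mul_apply, ih q, map_mul]
      have h1 : α ((q⁻¹ * α q) ^ k) = (q⁻¹ * α q) ^ k := hfix _ (A.pow_mem (hd q) k)
      rw [h1, pow_succ', ← mul_assoc, ← mul_assoc, mul_inv_cancel, one_mul]
  obtain ⟨n, hn⟩ := (IsPGroup.iff_card (p := p) (G := Q)).1 hQ.1.1
  have hone : α ^ (p ^ n) = 1 := by
    ext q
    rw [hpow, ← hn, pow_card_eq_one']
    simp
  exact (Nat.dvd_prime_pow (Fact.out : p.Prime)).1 (orderOf_dvd_of_pow_eq_one hone) |>.imp (fun k hk => hk.2)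

end Cfsg.Agent.S3349
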