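import Cfsg.Statements.S3366
import Cfsg.Agent.Lib.H12Shape6

set_option autoImplicit false
open Cfsg

namespace Cfsg.Agent.S3366

open Cfsg.Agent.Lib.H12Shape

theorem two_ne_zmod : ¬ (2 : ZMod 3) = 0 := by decide

/-- Let X be a finite group with O₃(X) extraspecial of order 27 and exponent 3, X/O₃(X) isomorphic to SL(2,3), O₂(X) = 1, and a Sylow 3-subgroup of X containing an elementary abelian subgroup of order 27. Then X is isomorphic to the centralizer in PSp(4,3) of a 3-central element of order 3 (an element of order 3 in the centre of a Sylow 3-subgroup). -/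
theorem result {X : Type*} [Group X] [Finite X]
    (hR : Cfsg.IsExtraspecial 3 (Cfsg.pCore 3 X)) (hRcard : Nat.card (Cfsg.pCore 3 X) = 27)
    (hRexp : ∀ r ∈ Cfsg.pCore 3 X, r ^ 3 = 1)
    (e : X ⧸ Cfsg.pCore 3 X ≃* Matrix.SpecialLinearGroup (Fin 2) (ZMod 3))
    (hO2 : Cfsg.pCore 2 X = ⊥)
    (hE : ∃ E : Subgroup X, IsMulCommutative E ∧ (∀ a ∈ E, a ^ 3 = 1) ∧ Nat.card E = 27)
    (F : Type*) [Field F] [Fintype F] (hF : Fintype.card F = 3) :
    ∃ (c : Cfsg.PSp 2 F) (S : Sylow 3 (Cfsg.PSp 2 F)), orderOf c = 3 ∧ c ∈ (S : Subgroup (Cfsg.PSp 2 F)) ∧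
      c ∈ Subgroup.centralizer ((S : Subgroup (Cfsg.PSp 2 F)) : Set (Cfsg.PSp 2 F)) ∧
      Nonempty (X ≃* Subgroup.centralizer ({c} : Set (Cfsg.PSp 2 F))) := by
  have hp3 : Fact (Nat.Prime 3) := ⟨Nat.prime_three⟩
  have hp2 : Fact (Nat.Prime 2) := ⟨Nat.prime_two⟩
  have hcom : commutator (Cfsg.pCore 3 X) ≤ Subgroup.center (Cfsg.pCore 3 X) := hR.1.2.2.le
  -- noncommuting elements
  have hrs : ∃ r ∈ Cfsg.pCore 3 X, ∃ s ∈ Cfsg.pCore 3 X, r * s ≠ s * r := by
    by_contra hcon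
    push Not at hcon
    have htop : Subgroup.center (Cfsg.pCore 3 X) = ⊤ := by
      rw [eq_top_iff]
      intro g _
      rw [Subgroup.mem_center_iff]
      intro h
      exact Subtype.ext (hcon h h.2 g g.2)
    have := hR.2
    rw [htop, Subgroup.card_top, hRcard] at this
    norm_num at this
  obtain ⟨r, hr, s, hs, hrs⟩ := hrs
  obtain ⟨D, -, -, hD⟩ := mkD (Cfsg.pCore 3 X) hRcard hRexp hcom hr hs hrs
  let π : X →* Matrix.SpecialLinearGroup (Fin 2) (ZMod 3) :=
    e.toMonoidHom.comp (QuotientGroup.mk' (Cfsg.pCore 3 X))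
  have hπ : Function.Surjective π := e.surjective.comp (QuotientGroup.mk'_surjective _)
  have hker : ∀ x, π x = 1 ↔ x ∈ Cfsg.pCore 3 X := by
    intro x
    show e (QuotientGroup.mk' (Cfsg.pCore 3 X) x) = 1 ↔ _
    rw [map_eq_one_iff e e.injective, ← MonoidHom.mem_ker, QuotientGroup.ker_mk']
  have hzc := z_central (Cfsg.pCore 3 X) D hD π hπ hker
  obtain ⟨t, ht, hpt⟩ := exists_t (Cfsg.pCore 3 X) π hπ hker hRexp
  -- t does not centralize R
  have hns : ¬ ∀ g ∈ Cfsg.pCore 3 X, t * g = g * t := by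
    intro hcon
    have hcen : ∀ x, x * t = t * x := by
      intro x
      obtain ⟨d, hd, c, hc, hx⟩ := frattini (Cfsg.pCore 3 X) π hker hRexp ht hpt x
      rw [hx, mul_assoc, hc, ← mul_assoc, ← hcon d hd, mul_assoc]
    have h1 : Subgroup.zpowers t ≤ Cfsg.pCore 2 X := by
      apply le_sSup
      constructor
      · constructor
        intro n hn g
        have : g * n = n * g := by
          obtain ⟨k, rfl⟩ := Subgroup.mem_zpowers_iff.1 hn
          exact (show Commute g t from hcen g).zpow_right k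
        rw [this, mul_inv_cancel_right]
        exact hn
      · have h2 : orderOf t ∣ 2 := orderOf_dvd_of_pow_eq_one (by rw [pow_two]; exact ht)
        rcases (Nat.dvd_prime Nat.prime_two).1 h2 with h3 | h3
        · exact IsPGroup.of_card (n := 0) (by rw [Nat.card_zpowers, h3, pow_zero])
        · exact IsPGroup.of_card (n := 1) (by rw [Nat.card_zpowers, h3, pow_one])
    rw [hO2] at h1
    have h2 : t = 1 := (Subgroup.mem_bot).1 (h1 (Subgroup.mem_zpowers t))
    rw [h2, map_one] at hpt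
    exact neg_one_ne hpt.symm
  obtain ⟨D', hD', htr, hts⟩ := exists_D' (Cfsg.pCore 3 X) D hD hRcard hRexp hcom hzc ht hns
  have hzc' := z_central (Cfsg.pCore 3 X) D' hD' π hπ hker
  obtain ⟨E, hE1, hE2, hE3⟩ := hE
  obtain ⟨y, hyt, hy3, hy1⟩ := exists_y (Cfsg.pCore 3 X) D' hD' hzc' ht htr hts π hker hpt hRcard hRexp E hE1 hE2 hE3
  obtain ⟨H, hH1, hH2, hH3⟩ := exists_H (Cfsg.pCore 3 X) D' hD' hzc' ht htr hts π hπ hker hpt hRexp hyt hy3 hy1
  let ι : ZMod 3 ≃+* F := ZMod.ringEquivOfPrime F Nat.prime_three hF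
  obtain ⟨Φ, hΦ1, hΦ2, hΦ3⟩ := exists_phi (Cfsg.pCore 3 X) D' hD' hzc' ht htr hts π hπ hker hpt H hH1 hH2 hH3 ι
  have h3 : (3 : F) = 0 := by
    have : ι (3 : ZMod 3) = ι 0 := by congr 1
    rwa [map_zero, map_ofNat] at this
  have h2 : (2 : F) ≠ 0 := by
    intro h
    have h4 : ι (2 : ZMod 3) = ι 0 := by rw [map_zero, map_ofNat, h]
    have h5 : (2 : ZMod 3) = 0 := ι.injective h4
    exact two_ne_zmod h5
  obtain ⟨ψ⟩ := psp_part h2 h3 Φ hΦ1 hΦ2 hΦ3
  -- orders
  have hX : Nat.card X = 648 := by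
    have := Subgroup.card_eq_card_quotient_mul_card_subgroup (Cfsg.pCore 3 X)
    rw [this, hRcard, Nat.card_congr e.toEquiv, card_SL]
  have hC : Nat.card (Subgroup.centralizer ({ptr F} : Set (Cfsg.PSp 2 F))) = 648 := by
    rw [← Nat.card_congr ψ.toEquiv, hX]
  have hP := card_psp h2 hF
  have hCi : (Subgroup.centralizer ({ptr F} : Set (Cfsg.PSp 2 F))).index = 40 := by
    have := Subgroup.card_mul_index (Subgroup.centralizer ({ptr F} : Set (Cfsg.PSp 2 F)))
    rw [hC, hP] at this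
    omega
  have hfin : Finite (Cfsg.PSp 2 F) := Nat.finite_of_card_ne_zero (by rw [hP]; decide)
  let c' : Subgroup.centralizer ({ptr F} : Set (Cfsg.PSp 2 F)) := ⟨ptr F, by
    rw [Subgroup.mem_centralizer_singleton_iff]⟩
  have hc3 : orderOf (ptr F) = 3 := orderOf_ptr h2 h3
  have hc'3 : orderOf c' = 3 := by rw [← hc3]; exact Subgroup.orderOf_mk _ _
  have hcp : IsPGroup 3 (Subgroup.zpowers c') := IsPGroup.of_card (n := 1) (by rw [Nat.card_zpowers, hc'3, pow_one])
  obtain ⟨S0, hS0⟩ := hcp.exists_le_sylow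
  let S1 : Subgroup (Cfsg.PSp 2 F) :=
    (S0 : Subgroup (Subgroup.centralizer ({ptr F} : Set (Cfsg.PSp 2 F)))).map (Subgroup.subtype _)
  have hS1 : IsPGroup 3 S1 := S0.2.map _
  have hS1i : ¬ 3 ∣ S1.index := by
    have h4 : S1.index = (S0 : Subgroup (Subgroup.centralizer ({ptr F} : Set (Cfsg.PSp 2 F)))).index * 40 := by
      rw [← hCi]
      exact Subgroup.index_map_subtype _
    rw [h4, Nat.Prime.dvd_mul Nat.prime_three]
    rintro (h5 | h5)
    · exact S0.not_dvd_index h5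
    · norm_num at h5
  refine ⟨ptr F, hS1.toSylow hS1i, hc3, ?_, ?_, ⟨ψ⟩⟩
  · show ptr F ∈ S1
    exact ⟨c', hS0 (Subgroup.mem_zpowers _), rfl⟩
  · rw [Subgroup.mem_centralizer_iff]
    intro h hh
    have hh' : h ∈ S1 := hh
    obtain ⟨h0, -, rfl⟩ := hh'
    have := h0.2
    rw [Subgroup.mem_centralizer_singleton_iff] at this
    exact this

end Cfsg.Agent.S3366
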