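import Cfsg.Statements.S3391
import Cfsg.Agent.Lib.SuzukiFixity
import Cfsg.Agent.Lib.SuzukiLie

set_option autoImplicit false
open Cfsg

namespace Cfsg.Agent.S3391

open Cfsg.Agent.Lib.SuzukiOvoid Cfsg.Agent.Lib.SuzukiGroup Cfsg.Agent.Lib.SuzukiFin
  Cfsg.Agent.Lib.SuzukiStab Cfsg.Agent.Lib.SuzukiSyl Cfsg.Agent.Lib.SuzukiPts in
theorem aux {F : Type*} [Field F] [Finite F] [CharP F 2] (θ : F ≃+* F)
    (hθ : ∀ x, θ (θ x) = x ^ 2) (hne : ∃ x, θ x ≠ x ^ 2) {m : ℕ} (hm : 1 ≤ m)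
    (hF : Nat.card F = 2 ^ (2 * m + 1)) {G : Type*} [Group G]
    (e : G ≃* Gz θ) {Ω : Type*} [Finite Ω] [MulAction G Ω] (htr : MulAction.IsPretransitive G Ω)
    (hfix : ∀ g : G, g ≠ 1 → Nat.card (MulAction.fixedBy Ω g) ≤ 2)
    (hex : ∃ g : G, g ≠ 1 ∧ Nat.card (MulAction.fixedBy Ω g) = 2) :
    (Nat.card Ω = Nat.card F ^ 2 + 1 ∧ MulAction.IsMultiplyPretransitive G Ω 2) ∨
    (Nat.card Ω = Nat.card F ^ 2 * (Nat.card F ^ 2 + 1) ∧
      ∀ α : Ω, Nat.card (MulAction.stabilizer G α) = Nat.card F - 1) := by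
  let _ : MulAction (Gz θ) Ω := MulAction.compHom Ω e.symm.toMonoidHom
  have hact : ∀ (g : Gz θ) (p : Ω), g • p = e.symm g • p := fun _ _ => rfl
  have hfx : ∀ g : Gz θ, MulAction.fixedBy Ω g = MulAction.fixedBy Ω (e.symm g) := fun _ => rfl
  have htr' : MulAction.IsPretransitive (Gz θ) Ω := by
    refine ⟨fun x y => ?_⟩
    obtain ⟨g, hg⟩ := MulAction.exists_smul_eq G x y
    exact ⟨e g, by rw [hact, e.symm_apply_apply, hg]⟩
  have h1 := Cfsg.Agent.Lib.SuzukiFixity.fixity θ hθ hne (Ω := Ω) hm hF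
    (fun g hg => by
      rw [hfx]
      exact hfix _ (fun h => hg (e.symm.injective (h.trans (map_one _).symm))))
    (by
      obtain ⟨g, hg, h⟩ := hex
      refine ⟨e g, fun h => hg (e.injective (h.trans (map_one _).symm)), ?_⟩
      rw [hfx, e.symm_apply_apply, h])
  rcases h1 with ⟨h1, h2⟩ | ⟨h1, h2⟩
  · refine Or.inl ⟨h1, ?_⟩
    rw [MulAction.is_two_pretransitive_iff] at h2 ⊢
    intro a b c d hab hcd
    obtain ⟨g, hg1, hg2⟩ := h2 hab hcd
    exact ⟨e.symm g, hg1, hg2⟩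
  · refine Or.inr ⟨h1, fun α => ?_⟩
    rw [← h2 α]
    exact (Nat.card_congr (e.symm.toEquiv.subtypeEquiv (fun g => Iff.rfl))).symm

/-- Let q = 2^{2m+1} ≥ 8 and let G be isomorphic to the Suzuki group Sz(q). If G acts faithfully and transitively on a finite set Ω with fixity 2 (every non-identity element fixes at most two points, and some fixes exactly two), then either |Ω| = q² + 1 and the action is 2-transitive, or |Ω| = q²(q² + 1) and the point stabilizers have order q − 1. -/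
theorem result {G : Type*} [Group G] [Finite G] (F : Type) [Field F] [Fintype F] (m : ℕ) (hm : 1 ≤ m) (hF : Fintype.card F = 2 ^ (2 * m + 1))
    (e : G ≃* ↥(Cfsg.Lie.Sz F (2 ^ (m + 1)))) {Ω : Type*} [Fintype Ω] [MulAction G Ω] [FaithfulSMul G Ω] (htr : MulAction.IsPretransitive G Ω)
    (hfix : ∀ g : G, g ≠ 1 → Nat.card (MulAction.fixedBy Ω g) ≤ 2) (hex : ∃ g : G, g ≠ 1 ∧ Nat.card (MulAction.fixedBy Ω g) = 2) :
    (Fintype.card Ω = Fintype.card F ^ 2 + 1 ∧ MulAction.IsMultiplyPretransitive G Ω 2) ∨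
    (Fintype.card Ω = Fintype.card F ^ 2 * (Fintype.card F ^ 2 + 1) ∧ ∀ α : Ω, Nat.card (MulAction.stabilizer G α) = Fintype.card F - 1) := by
  have : CharP F 2 := Cfsg.Agent.Lib.SuzukiFin.charTwo hF
  have hθ := Cfsg.Agent.Lib.SuzukiFin.th_sq hF
  have hne := Cfsg.Agent.Lib.SuzukiFin.th_ne hm hF
  have hSz := Cfsg.Agent.Lib.SuzukiFin.Sz_eq (F := F) m
  have hq : Nat.card F = 2 ^ (2 * m + 1) := by rw [Nat.card_eq_fintype_card, hF]
  have e' := e.trans ((Cfsg.Agent.Lib.SuzukiLie.szEquiv m hm hF).symm.trans (MulEquiv.subgroupCongr hSz))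
  have h := aux _ hθ hne hm hq e' htr hfix hex
  rw [Nat.card_eq_fintype_card, Nat.card_eq_fintype_card] at h
  exact h

end Cfsg.Agent.S3391
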