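import Cfsg.Statements.S3399
import Cfsg.Agent.Lib.ProMain
import Cfsg.Agent.Lib.ProRD

set_option autoImplicit false
open Cfsg

namespace Cfsg.Agent.S3399

/-- Let G be a transitive permutation group of finite degree n and K a nontrivial subgroup of G that is pronormal in G (K and gKg⁻¹ are conjugate inside ⟨K, gKg⁻¹⟩ for every g ∈ G). If K fixes exactly f points, then f ≤ (n − 1)/2, that is, 2f + 1 ≤ n. -/
theorem result (n : ℕ) (G : Subgroup (Equiv.Perm (Fin n)))
    (htrans : ∀ a b : Fin n, ∃ g ∈ G, g a = b)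
    (K : Subgroup (Equiv.Perm (Fin n))) (hKG : K ≤ G) (hK : K ≠ ⊥)
    (hpro : ∀ g ∈ G, ∃ w ∈ K ⊔ K.map (MulAut.conj g).toMonoidHom,
      K.map (MulAut.conj w).toMonoidHom = K.map (MulAut.conj g).toMonoidHom) :
    2 * Nat.card {a : Fin n // ∀ k ∈ K, k a = a} + 1 ≤ n := by
    have key := Cfsg.Agent.Lib.Pro.redD (fun G Ω _ _ B f s => Cfsg.Agent.Lib.Pro.no_sit s) (G := G) (Ω := Fin n)
      (fun a b => by
        obtain ⟨g, hg, h⟩ := htrans a b
        exact ⟨⟨g, hg⟩, h⟩) (K.subgroupOf G) (by
      intro g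
      obtain ⟨v, hv, he⟩ := hpro g g.2
      have hmap : ∀ x : G, ((K.subgroupOf G).map (MulAut.conj x).toMonoidHom).map G.subtype =
          K.map (MulAut.conj (x : Equiv.Perm (Fin n))).toMonoidHom := by
        intro x
        ext y
        simp only [Subgroup.mem_map, Subgroup.mem_subgroupOf]
        constructor
        · rintro ⟨_, ⟨k, hk, rfl⟩, rfl⟩
          exact ⟨k, hk, rfl⟩
        · rintro ⟨k, hk, rfl⟩
          exact ⟨_, ⟨⟨k, hKG hk⟩, hk, rfl⟩, rfl⟩
      have hsup : ((K.subgroupOf G) ⊔ (K.subgroupOf G).map (MulAut.conj g).toMonoidHom).map G.subtype =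
          K ⊔ K.map (MulAut.conj (g : Equiv.Perm (Fin n))).toMonoidHom := by
        rw [Subgroup.map_sup, hmap]
        congr 1
        rw [Subgroup.map_subgroupOf_eq_of_le hKG]
      rw [← hsup] at hv
      obtain ⟨v', hv', rfl⟩ := hv
      refine ⟨v', hv', ?_⟩
      apply Subgroup.map_injective G.subtype_injective
      rw [hmap, hmap]
      exact he) (by
      obtain ⟨k, hk, hk1⟩ := K.bot_or_exists_ne_one.resolve_left hK
      have : ∃ a, k a ≠ a := by
        by_contra hcon
        push Not at hcon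
        exact hk1 (Equiv.ext hcon)
      obtain ⟨a, ha⟩ := this
      exact ⟨⟨k, hKG hk⟩, hk, a, ha⟩)
    rw [Nat.card_fin] at key
    have he : {a : Fin n | ∀ k ∈ K.subgroupOf G, k • a = a} = {a : Fin n | ∀ k ∈ K, k a = a} := by
      ext a
      simp only [Set.mem_setOf_eq]
      constructor
      · intro h k hk
        exact h ⟨k, hKG hk⟩ hk
      · intro h k hk
        exact h k hk
    rw [he] at key
    exact key

end Cfsg.Agent.S3399
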