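import Cfsg.Statements.S3413
import Cfsg.Agent.Lib.MElevenInv

set_option autoImplicit false
set_option linter.unusedSectionVars false
open Cfsg

namespace Cfsg.Agent.S3413

open Cfsg.Agent.Lib.MElevenInv Cfsg.Agent.Lib.MElevenGraph

section general

variable {H : Type*} [Group H] [Finite H] (E : H ≃ W) (hE : ∀ x y : H, x * y = y * x ↔ E x * E y = E y * E x)

include hE

theorem card_cent (h : H) : Nat.card (Subgroup.centralizer ({h} : Set H)) =
    Nat.card (Subgroup.centralizer ({E h} : Set W)) := by
  apply Nat.card_congr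
  refine ⟨fun x => ⟨E x.1, ?_⟩, fun x => ⟨E.symm x.1, ?_⟩, ?_, ?_⟩
  · rw [Subgroup.mem_centralizer_singleton_iff]
    exact (hE _ _).1 (Subgroup.mem_centralizer_singleton_iff.1 x.2)
  · rw [Subgroup.mem_centralizer_singleton_iff, hE, E.apply_symm_apply]
    exact Subgroup.mem_centralizer_singleton_iff.1 x.2
  · intro x
    exact Subtype.ext (E.symm_apply_apply _)
  · intro x
    exact Subtype.ext (E.apply_symm_apply _)

theorem range_t : Set.range (fun x : Fin 165 => E.symm (tau x)) =
    {h : H | Nat.card (Subgroup.centralizer ({h} : Set H)) = 48} := by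
  ext h
  rw [Set.mem_ofPred_eq, card_cent E hE]
  have := Set.ext_iff.1 range_tau (E h)
  rw [Set.mem_ofPred_eq] at this
  rw [← this]
  constructor
  · rintro ⟨x, rfl⟩
    exact ⟨x, (E.apply_symm_apply _).symm⟩
  · rintro ⟨x, hx⟩
    exact ⟨x, by show E.symm (tau x) = h; rw [hx, E.symm_apply_apply]⟩

theorem exists_rho (h : H) (x : Fin 165) : ∃ y : Fin 165, E.symm (tau y) = h * E.symm (tau x) * h⁻¹ := by
  have h1 : h * E.symm (tau x) * h⁻¹ ∈ {h : H | Nat.card (Subgroup.centralizer ({h} : Set H)) = 48} := by
    rw [Set.mem_ofPred_eq]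
    have h2 : IsConj (E.symm (tau x)) (h * E.symm (tau x) * h⁻¹) := isConj_iff.2 ⟨h, rfl⟩
    rw [← card_cent_conj h2]
    have h3 : E.symm (tau x) ∈ Set.range (fun x : Fin 165 => E.symm (tau x)) := ⟨x, rfl⟩
    rw [range_t E hE] at h3
    exact h3
  rw [← range_t E hE] at h1
  exact h1

noncomputable def rho (h : H) (x : Fin 165) : Fin 165 := (exists_rho E hE h x).choose

theorem rho_spec (h : H) (x : Fin 165) : E.symm (tau (rho E hE h x)) = h * E.symm (tau x) * h⁻¹ :=
  (exists_rho E hE h x).choose_spec

theorem rho_eq {h : H} {x y : Fin 165} (hy : E.symm (tau y) = h * E.symm (tau x) * h⁻¹) : rho E hE h x = y := by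
  apply tau_inj
  apply E.symm.injective
  rw [rho_spec, hy]

noncomputable def rhoHom : H →* Equiv.Perm (Fin 165) :=
  MonoidHom.toHomPerm
    { toFun := fun h x => rho E hE h x
      map_one' := by
        funext x
        exact rho_eq E hE (by
          show E.symm (tau x) = _
          simp)
      map_mul' := by
        intro g h
        funext x
        apply rho_eq
        show E.symm (tau (rho E hE g (rho E hE h x))) = _
        rw [rho_spec, rho_spec]
        group }

theorem rhoHom_spec (h : H) (x : Fin 165) : E.symm (tau (rhoHom E hE h x)) = h * E.symm (tau x) * h⁻¹ :=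
  rho_spec E hE h x

theorem comm_iff (x y : Fin 165) : E.symm (tau x) * E.symm (tau y) = E.symm (tau y) * E.symm (tau x) ↔ R x y := by
  rw [hE, E.apply_symm_apply, E.apply_symm_apply, tau_comm]

theorem rhoHom_mem (h : H) : rhoHom E hE h ∈ AR := by
  intro x y
  rw [← comm_iff E hE, ← comm_iff E hE, rhoHom_spec, rhoHom_spec]
  constructor
  · intro h1
    have h2 : h * (E.symm (tau x) * E.symm (tau y)) * h⁻¹ = h * (E.symm (tau y) * E.symm (tau x)) * h⁻¹ := by
      calc _ = h * E.symm (tau x) * h⁻¹ * (h * E.symm (tau y) * h⁻¹) := by group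
        _ = _ := by rw [h1]; group
    exact mul_left_cancel (mul_right_cancel h2)
  · intro h1
    calc h * E.symm (tau x) * h⁻¹ * (h * E.symm (tau y) * h⁻¹) = h * (E.symm (tau x) * E.symm (tau y)) * h⁻¹ := by group
      _ = _ := by rw [h1]; group

theorem rhoHom_inj (h1 : E 1 = 1) : Function.Injective (rhoHom E hE) := by
  rw [injective_iff_map_eq_one]
  intro k hk
  have h2 : E k = 1 := by
    apply eq_one_of_comm
    intro x
    have h3 := rhoHom_spec E hE k x
    rw [hk] at h3
    have h4 : k * E.symm (tau x) = E.symm (tau x) * k := by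
      have h5 : E.symm (tau x) = k * E.symm (tau x) * k⁻¹ := h3
      calc k * E.symm (tau x) = (k * E.symm (tau x) * k⁻¹) * k := by group
        _ = _ := by rw [← h5]
    have h6 := (hE _ _).1 h4
    rwa [E.apply_symm_apply] at h6
  apply E.injective
  rw [h2, h1]

theorem card_H : Nat.card H = 7920 := by rw [Nat.card_congr E, card_W]

theorem exists_equiv (h1 : E 1 = 1) : Nonempty (H ≃* AR) := by
  let f : H →* AR := (rhoHom E hE).codRestrict AR (rhoHom_mem E hE)
  have hf : Function.Injective f := by
    intro a b hab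
    exact rhoHom_inj E hE h1 (congrArg Subtype.val hab)
  have hb : Function.Bijective f := by
    rw [Nat.bijective_iff_injective_and_card]
    refine ⟨hf, le_antisymm (Nat.card_le_card_of_injective _ hf) ?_⟩
    rw [card_H E hE]
    exact card_AR
  exact ⟨MulEquiv.ofBijective f hb⟩

end general

/-- Let H be a finite group whose commuting graph (vertices the non-identity elements, two joined when they commute) is isomorphic to that of the Mathieu group M_11: there is a bijection between the non-identity elements of H and of M_11 under which two elements commute exactly when their images do. Then H ≅ M_11. -/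
theorem result {H : Type*} [Group H] [Finite H]
    (f : {h : H // h ≠ 1} ≃ {g : ↥Cfsg.Spor.M11 // g ≠ 1})
    (hf : ∀ x y : {h : H // h ≠ 1}, (x : H) * y = y * x ↔ ((f x) : ↥Cfsg.Spor.M11) * (f y) = (f y) * (f x)) :
    Nonempty (H ≃* ↥Cfsg.Spor.M11) := by
  classical
  let g : H → W := fun h => if hh : h = 1 then 1 else (f ⟨h, hh⟩).1
  let g' : W → H := fun h => if hh : h = 1 then 1 else (f.symm ⟨h, hh⟩).1
  have g_one : g 1 = 1 := dif_pos rfl
  have g_ne : ∀ h (hh : h ≠ 1), g h = (f ⟨h, hh⟩).1 := fun h hh => dif_neg hh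
  have g'_one : g' 1 = 1 := dif_pos rfl
  have g'_ne : ∀ h (hh : h ≠ 1), g' h = (f.symm ⟨h, hh⟩).1 := fun h hh => dif_neg hh
  let E0 : H ≃ W :=
    { toFun := g
      invFun := g'
      left_inv := by
        intro h
        by_cases hh : h = 1
        · rw [hh, g_one, g'_one]
        · rw [g_ne h hh, g'_ne _ (f ⟨h, hh⟩).2]
          simp
      right_inv := by
        intro h
        by_cases hh : h = 1
        · rw [hh, g'_one, g_one]
        · rw [g'_ne h hh, g_ne _ (f.symm ⟨h, hh⟩).2]
          simp }
  have hE0 : ∀ x y : H, x * y = y * x ↔ g x * g y = g y * g x := by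
    intro x y
    by_cases hx : x = 1
    · rw [hx, g_one]; simp
    · by_cases hy : y = 1
      · rw [hy, g_one]; simp
      · rw [g_ne x hx, g_ne y hy]
        exact hf ⟨x, hx⟩ ⟨y, hy⟩
  obtain ⟨e⟩ := exists_equiv E0 hE0 g_one
  obtain ⟨e'⟩ := exists_equiv (Equiv.refl W) (fun _ _ => Iff.rfl) rfl
  exact ⟨e.trans e'.symm⟩

end Cfsg.Agent.S3413
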