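import Cfsg.Statements.S3421
import Cfsg.Agent.Lib.SpcA10
import Cfsg.Agent.Lib.PF14Odd

set_option autoImplicit false
open Cfsg

namespace Cfsg.Agent.S3421

/-- Let F be a finite field with more than 3 elements. A finite group G is isomorphic to PSL(2, F) if and only if G has the same set of element orders and the same order as PSL(2, F). -/
theorem result {G : Type*} [Group G] [Finite G] {F : Type*} [Field F] [Fintype F] (hF : 3 < Fintype.card F) :
    Nonempty (G ≃* Matrix.ProjectiveSpecialLinearGroup (Fin 2) F) ↔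
      (Set.range (orderOf : G → ℕ) = Set.range (orderOf : Matrix.ProjectiveSpecialLinearGroup (Fin 2) F → ℕ) ∧
        Nat.card G = Nat.card (Matrix.ProjectiveSpecialLinearGroup (Fin 2) F)) := by
  constructor
  · rintro ⟨i⟩
    refine ⟨?_, Nat.card_congr i.toEquiv⟩
    ext m
    constructor
    · rintro ⟨x, rfl⟩
      exact ⟨i x, MulEquiv.orderOf_eq i x⟩
    · rintro ⟨x, rfl⟩
      exact ⟨i.symm x, MulEquiv.orderOf_eq i.symm x⟩
  · rintro ⟨h1, h2⟩
    exact Cfsg.Agent.Lib.SpcA.main (fun H _ _ h => Cfsg.Agent.Lib.PF14Odd.odd_order h) hF h1 h2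

end Cfsg.Agent.S3421
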