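import Cfsg.Statements.S3493
import Cfsg.Agent.Lib.ExtPrim
import Cfsg.Agent.Lib.MinFactor
import Cfsg.Agent.Lib.ExtPrimDiag

set_option autoImplicit false
open Cfsg

namespace Cfsg.Agent.S3493

open MulAction Cfsg.Agent.Lib.MinFactor Cfsg.Agent.Lib.ExtPrim
open scoped Pointwise

/-- a commuting family `{h t h⁻¹}` indexed by `h ∈ S` has an invariant nontrivial product. -/
theorem exists_invariant {G : Type*} [Group G] [Finite G] (S : Subgroup G) (t : G)
    (hcomm : ∀ h ∈ S, ∀ k ∈ S, Commute (h * t * h⁻¹) (k * t * k⁻¹))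
    (N : Subgroup G) (hN : ∀ h ∈ S, h * t * h⁻¹ ∈ N)
    (C : Subgroup G) (hC : ∀ h ∈ S, h * t * h⁻¹ ≠ t → h * t * h⁻¹ ∈ C) (htC : t ∉ C) :
    ∃ P ∈ N, P ≠ 1 ∧ ∀ h ∈ S, h * P * h⁻¹ = P := by
  classical
  have : Fintype G := Fintype.ofFinite G
  let E : Finset G := (Finset.univ.filter (fun h => h ∈ S)).image (fun h => h * t * h⁻¹)
  have hE : ∀ x, x ∈ E ↔ ∃ h ∈ S, h * t * h⁻¹ = x := by
    intro x
    simp [E]
  have hEc : {x | x ∈ E.val}.Pairwise Commute := by
    intro x hx y hy _
    obtain ⟨h, hh, rfl⟩ := (hE x).mp hx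
    obtain ⟨k, hk, rfl⟩ := (hE y).mp hy
    exact hcomm h hh k hk
  refine ⟨E.val.noncommProd hEc, ?_, ?_, ?_⟩
  · refine Multiset.noncommProd_induction E.val hEc (fun x => x ∈ N) (fun a b ha hb => N.mul_mem ha hb) N.one_mem ?_
    intro x hx
    obtain ⟨h, hh, rfl⟩ := (hE x).mp hx
    exact hN h hh
  · intro h1
    have htE : t ∈ E.val := (hE t).mpr ⟨1, S.one_mem, by simp⟩
    have h2 := Multiset.mul_noncommProd_erase E.val htE hEc
    rw [h1] at h2
    have h3 : ∀ (c' : {x | x ∈ E.val.erase t}.Pairwise Commute), (E.val.erase t).noncommProd c' ∈ C := by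
      intro c'
      refine Multiset.noncommProd_induction _ c' (fun x => x ∈ C) (fun a b ha hb => C.mul_mem ha hb) C.one_mem ?_
      intro x hx
      have hxE : x ∈ E.val := Multiset.mem_of_mem_erase hx
      have hxt : x ≠ t := by
        rintro rfl
        exact (Multiset.Nodup.notMem_erase E.nodup) hx
      obtain ⟨h, hh, rfl⟩ := (hE x).mp hxE
      exact hC h hh hxt
    apply htC
    have h4 := eq_inv_of_mul_eq_one_left h2
    rw [h4]
    exact C.inv_mem (h3 _)
  · intro h hh
    have h5 := Multiset.map_noncommProd E.val hEc (MulAut.conj h).toMonoidHom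
    have h6 : E.val.map (MulAut.conj h).toMonoidHom = E.val := by
      have h7 : E.map ⟨(MulAut.conj h), (MulAut.conj h).injective⟩ = E := by
        ext x
        rw [Finset.mem_map, hE]
        constructor
        · rintro ⟨y, hy, rfl⟩
          obtain ⟨k, hk, rfl⟩ := (hE y).mp hy
          refine ⟨h * k, S.mul_mem hh hk, ?_⟩
          simp [mul_assoc]
        · rintro ⟨k, hk, rfl⟩
          refine ⟨(h⁻¹ * k) * t * (h⁻¹ * k)⁻¹, (hE _).mpr ⟨h⁻¹ * k, S.mul_mem (S.inv_mem hh) hk, rfl⟩, ?_⟩
          simp [mul_assoc]
      exact congrArg Finset.val h7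
    have h8 : (MulAut.conj h).toMonoidHom (E.val.noncommProd hEc) = h * (E.val.noncommProd hEc) * h⁻¹ := by
      simp
    rw [← h8, h5]
    congr 1

/-- the case of nontrivial stabilizers -/
theorem main_case {G : Type*} [Group G] [Finite G] {Ω : Type*} [Fintype Ω] [MulAction G Ω] [FaithfulSMul G Ω] (hΩ : 2 ≤ Fintype.card Ω) (hprim : MulAction.IsPreprimitive G Ω)
    (hH : ∀ α : Ω, stabilizer G α ≠ ⊥) (hep : ∀ (α : Ω) (ω : Ω), MulAction.IsPreprimitive (MulAction.stabilizer G α) (MulAction.orbit (MulAction.stabilizer G α) ω)) :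
    (∃ N : Subgroup G, N.Normal ∧ N ≠ ⊥ ∧ IsMulCommutative N ∧ ∀ ω : Ω, MulAction.stabilizer N ω = ⊥) ∨ (∃ T : Subgroup G, T.Normal ∧ IsSimpleGroup T ∧ ¬ IsMulCommutative T ∧ Subgroup.centralizer (T : Set G) = ⊥) := by
  classical
  have : Nontrivial Ω := Fintype.one_lt_card_iff_nontrivial.mp hΩ
  have hGnt : Nontrivial G := by
    obtain ⟨a, b, hab⟩ := exists_pair_ne Ω
    obtain ⟨g, hg⟩ := exists_smul_eq G a b
    refine ⟨⟨g, 1, ?_⟩⟩
    rintro rfl
    rw [one_smul] at hg
    exact hab hg
  -- nontrivial normal subgroups are transitive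
  have hnormtr : ∀ N : Subgroup G, N.Normal → N ≠ ⊥ → ∀ a b : Ω, ∃ n ∈ N, n • a = b := by
    intro N hN hN1 a b
    have hf : MulAction.fixedPoints N Ω ≠ Set.univ := by
      intro h
      apply hN1
      apply Lib.ExtPrim.normal_fix_bot N hN a
      intro n hn
      have : a ∈ MulAction.fixedPoints N Ω := by rw [h]; trivial
      exact this ⟨n, hn⟩
    have ht : IsPretransitive N Ω :=
      (inferInstance : MulAction.IsQuasiPreprimitive G Ω).isPretransitive_of_normal hf
    obtain ⟨⟨n, hn⟩, h⟩ := ht.exists_smul_eq a b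
    exact ⟨n, hn, h⟩
  -- something commuting with a transitive set and fixing a point is trivial
  have hsemi : ∀ (A : Subgroup G), (∀ a b : Ω, ∃ n ∈ A, n • a = b) → ∀ x : G, (∀ a ∈ A, x * a = a * x) →
      ∀ ω : Ω, x • ω = ω → x = 1 := by
    intro A hA x hx ω hω
    refine FaithfulSMul.eq_of_smul_eq_smul (α := Ω) (fun y => ?_)
    obtain ⟨a, ha, rfl⟩ := hA ω y
    rw [one_smul, ← mul_smul, hx a ha, mul_smul, hω]
  obtain ⟨N, hN⟩ := exists_min (G := G)
  have htr := hnormtr N hN.normal hN.ne_bot
  by_cases hab : IsMulCommutative N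
  · left
    refine ⟨N, hN.normal, hN.ne_bot, hab, fun ω => ?_⟩
    rw [eq_bot_iff]
    rintro ⟨n, hn⟩ hnω
    have hnω' : n • ω = ω := hnω
    have := hsemi N htr n (fun a ha => congrArg Subtype.val (hab.is_comm.comm ⟨n, hn⟩ ⟨a, ha⟩)) ω hnω'
    rw [Subgroup.mem_bot]
    exact Subtype.ext this
  obtain ⟨T, hT⟩ := exists_factor hN hab
  have hTconj : ∀ n ∈ N, ∀ t ∈ T, n * t * n⁻¹ ∈ T := fun n hn t ht =>
    (Subgroup.mem_normalizer_iff.mp (hT.le_norm hn) t).mp ht
  have hTnc : ¬ ∀ a ∈ T, ∀ b ∈ T, a * b = b * a := by
    intro h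
    apply hT.ne_bot
    rw [eq_bot_iff]
    intro x hx
    rw [Subgroup.mem_bot]
    exact hT.inf_cent x hx (fun t ht => h x hx t ht)
  obtain ⟨α⟩ := (inferInstance : Nonempty Ω)
  by_cases hcase : ∀ g, cj g T = T
  · -- T is normal, T = N
    have hTn : T.Normal := by
      constructor
      intro x hx g
      have := conj_mem_cj (g := g) hx
      rwa [hcase g] at this
    have hNT : T = N := by
      rcases hN.min T hTn hT.le with h | h
      · exact absurd h hT.ne_bot
      · exact h
    subst hNT
    have hsimple : IsSimpleGroup T := by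
      have : Nontrivial T := (Subgroup.nontrivial_iff_ne_bot T).mpr hT.ne_bot
      refine ⟨fun L hL => ?_⟩
      have h := hT.simple (L.map T.subtype) (by
        intro x hx
        obtain ⟨y, _, rfl⟩ := Subgroup.mem_map.mp hx
        exact y.2) (by
        intro t ht l hl
        obtain ⟨y, hy, rfl⟩ := Subgroup.mem_map.mp hl
        refine Subgroup.mem_map.mpr ⟨⟨t, ht⟩ * y * ⟨t, ht⟩⁻¹, hL.conj_mem y hy _, ?_⟩
        simp)
      rcases h with h | h
      · left
        exact (Subgroup.map_eq_bot_iff_of_injective _ T.subtype_injective).mp h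
      · right
        rw [eq_top_iff]
        intro x _
        have : (x : G) ∈ L.map T.subtype := by rw [h]; exact x.2
        obtain ⟨y, hy, hyx⟩ := Subgroup.mem_map.mp this
        have : y = x := Subtype.ext hyx
        rwa [← this]
    right
    refine ⟨T, hTn, hsimple, hab, ?_⟩
    by_contra hC
    have hCn : (Subgroup.centralizer (T : Set G)).Normal := by infer_instance
    have hCtr := hnormtr _ hCn hC
    have hTCc : ∀ t ∈ T, ∀ c ∈ Subgroup.centralizer (T : Set G), t * c = c * t := fun t ht c hc =>
      Subgroup.mem_centralizer_iff.mp hc t ht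
    apply diag_contra hprim hH hep α T (Subgroup.centralizer (T : Set G)) hTCc
    · intro t ht h
      exact hsemi _ hCtr t (fun c hc => hTCc t ht c hc) α h
    · intro c hc h
      exact hsemi _ htr c (fun t ht => (hTCc t ht c hc).symm) α h
    · exact hCtr α
    · exact hT.simple
    · exact hTnc
    · intro g _
      left
      refine ⟨hcase g, ?_⟩
      rw [cj_eq_iff_normalizer]
      rw [Subgroup.normalizer_eq_top_iff.mpr hCn]
      trivial
  · -- at least two factors
    exfalso
    push Not at hcase
    obtain ⟨g0, hg0⟩ := hcase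
    -- every conjugate is an H-conjugate
    have hHconj : ∀ g : G, ∃ h : G, h • α = α ∧ cj h T = cj g T := by
      intro g
      obtain ⟨n, hn, hnα⟩ := htr α (g⁻¹ • α)
      refine ⟨g * n, by rw [mul_smul, hnα, smul_inv_smul], ?_⟩
      rw [cj_mul, cj_eq_iff_normalizer.mpr (hT.le_norm hn)]
    obtain ⟨h0, hh0α, hh0⟩ := hHconj g0
    have hh0T : cj h0 T ≠ T := by rw [hh0]; exact hg0
    -- the subgroup S
    let S : Subgroup (stabilizer G α) := (Subgroup.normalizer (T : Set G)).subgroupOf (stabilizer G α)
    have hSmem : ∀ h : stabilizer G α, h ∈ S ↔ cj (h : G) T = T := by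
      intro h
      rw [Subgroup.mem_subgroupOf, cj_eq_iff_normalizer]
    have hStop : S ≠ ⊤ := by
      intro h
      have : (⟨h0, hh0α⟩ : stabilizer G α) ∈ S := by rw [h]; trivial
      exact hh0T ((hSmem _).mp this)
    -- maximality argument
    have hSx : ∀ t ∈ T, t • α ≠ α → (∀ h : G, h • α = α → h • t • α = t • α → cj h T = T) →
        ∀ h : G, h • α = α → cj h T = T → h • t • α = t • α := by
      intro t ht htα hle h hh hhT
      have hco := stab2_coatom hprim hH hep htα
      have hle' : stabilizer (stabilizer G α) (t • α) ≤ S := by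
        intro k hk
        rw [hSmem]
        exact hle k k.2 hk
      rcases hco.le_iff.mp hle' with h1 | h1
      · exact absurd h1 hStop
      · have : (⟨h, hh⟩ : stabilizer G α) ∈ S := (hSmem _).mpr hhT
        rw [h1] at this
        exact this
    set K : Subgroup G := N ⊓ stabilizer G α with hK
    have hKle : K ≤ stabilizer G α := inf_le_right
    have hKn : stabilizer G α ≤ Subgroup.normalizer (K : Set G) := by
      intro g hg
      apply Subgroup.mem_normalizer_fintype
      rintro k ⟨hk1, hk2⟩
      exact ⟨hN.normal.conj_mem k hk1 g, (stabilizer G α).mul_mem ((stabilizer G α).mul_mem hg hk2)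
        ((stabilizer G α).inv_mem hg)⟩
    by_cases hK1 : K = ⊥
    · -- N regular
      have hNreg : ∀ n ∈ N, n • α = α → n = 1 := by
        intro n hn h
        have : n ∈ K := ⟨hn, h⟩
        rwa [hK1, Subgroup.mem_bot] at this
      have hNeq : ∀ a ∈ N, ∀ b ∈ N, a • α = b • α → a = b := by
        intro a ha b hb h
        have := hNreg (b⁻¹ * a) (N.mul_mem (N.inv_mem hb) ha) (by rw [mul_smul, h, inv_smul_smul])
        rw [inv_mul_eq_one] at this
        exact this.symm
      have hhtα : ∀ h : G, h • α = α → ∀ t : G, (h * t * h⁻¹) • α = h • t • α := by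
        intro h hh t
        have : h⁻¹ • α = α := by rw [inv_smul_eq_iff, hh]
        rw [mul_smul, mul_smul, this]
      -- (*)
      have hstar : ∀ t ∈ T, ∀ h : G, h • α = α → cj h T = T → h * t * h⁻¹ = t := by
        intro t ht h hh hhT
        by_cases ht1 : t = 1
        · rw [ht1]; simp
        have htα : t • α ≠ α := fun h => ht1 (hNreg t (hT.le ht) h)
        have h1 := hSx t ht htα (by
          intro k hk hkt
          have e1 : k * t * k⁻¹ = t := by
            apply hNeq _ (hN.normal.conj_mem t (hT.le ht) k) _ (hT.le ht)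
            rw [hhtα k hk, hkt]
          rcases hT.conj k with h2 | h2
          · exact h2
          · exfalso
            apply ht1
            apply hT.inf_cent t ht
            intro s hs
            have := h2 (k * t * k⁻¹) (conj_mem_cj ht) s hs
            rwa [e1] at this) h hh hhT
        apply hNeq _ (hN.normal.conj_mem t (hT.le ht) h) _ (hT.le ht)
        rw [hhtα h hh, h1]
      -- choose t
      obtain ⟨t, ht, ht1⟩ : ∃ t ∈ T, t ≠ 1 := by
        by_contra hcon
        push Not at hcon
        exact hT.ne_bot ((Subgroup.eq_bot_iff_forall T).mpr hcon)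
      obtain ⟨P, hPN, hP1, hPinv⟩ := exists_invariant (stabilizer G α) t (by
        intro h hh k hk
        have hh' : h • α = α := hh
        have hk' : k • α = α := hk
        have hkh : (k⁻¹ * h) • α = α := by rw [mul_smul, hh', inv_smul_eq_iff, hk']
        have hc : Commute ((k⁻¹ * h) * t * (k⁻¹ * h)⁻¹) t := by
          rcases hT.conj (k⁻¹ * h) with h2 | h2
          · rw [hstar t ht _ hkh h2]
          · exact h2 _ (conj_mem_cj ht) t ht
        have e : h * t * h⁻¹ = k * ((k⁻¹ * h) * t * (k⁻¹ * h)⁻¹) * k⁻¹ := by group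
        rw [e]
        show k * _ * k⁻¹ * (k * t * k⁻¹) = k * t * k⁻¹ * (k * _ * k⁻¹)
        have := hc.eq
        calc k * ((k⁻¹ * h) * t * (k⁻¹ * h)⁻¹) * k⁻¹ * (k * t * k⁻¹)
            = k * (((k⁻¹ * h) * t * (k⁻¹ * h)⁻¹) * t) * k⁻¹ := by group
          _ = k * (t * ((k⁻¹ * h) * t * (k⁻¹ * h)⁻¹)) * k⁻¹ := by rw [this]
          _ = k * t * k⁻¹ * (k * ((k⁻¹ * h) * t * (k⁻¹ * h)⁻¹) * k⁻¹) := by group)
        N (fun h _ => hN.normal.conj_mem t (hT.le ht) h) (Subgroup.centralizer (T : Set G)) (by
        intro h hh hne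
        rcases hT.conj h with h2 | h2
        · exact absurd (hstar t ht h hh h2) hne
        · rw [Subgroup.mem_centralizer_iff]
          intro s hs
          exact (h2 _ (conj_mem_cj ht) s hs).symm) (by
        intro htC
        apply ht1
        apply hT.inf_cent t ht
        intro s hs
        exact (Subgroup.mem_centralizer_iff.mp htC s hs).symm)
      have hPα : P • α ≠ α := fun h => hP1 (hNreg P hPN h)
      have hle : stabilizer G α ≤ stabilizer G (P • α) := by
        intro h hh
        have hh' : h • α = α := hh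
        show h • P • α = P • α
        rw [← hhtα h hh', hPinv h hh]
      have htop := two_stab_top hprim hH hPα (stabilizer G (P • α)) hle le_rfl
      obtain ⟨g, hg⟩ := exists_smul_eq G (P • α) α
      have : g ∈ stabilizer G (P • α) := by rw [htop]; trivial
      rw [mem_stabilizer_iff, hg] at this
      exact hPα this.symm
    · -- K nontrivial
      have hKT : ∀ k ∈ K, cj k T = T := fun k hk => cj_eq_iff_normalizer.mpr (hT.le_norm hk.1)
      -- the projection R
      have hRT : ∀ t ∈ T, ∃ c ∈ N, (∀ s ∈ T, c * s = s * c) ∧ (t * c) • α = α := by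
        by_contra hcon
        push Not at hcon
        obtain ⟨t, ht, htR⟩ := hcon
        have htα : t • α ≠ α := by
          intro h
          exact htR 1 N.one_mem (fun s _ => by simp) (by rw [mul_one, h])
        have h1 := hSx t ht htα (by
          intro h hh hht
          rcases hT.conj h with h2 | h2
          · exact h2
          · exfalso
            have hhi : h⁻¹ • α = α := by rw [inv_smul_eq_iff, hh]
            refine htR (h * t * h⁻¹)⁻¹ (N.inv_mem (hN.normal.conj_mem t (hT.le ht) h)) ?_ ?_
            · intro s hs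
              have := h2 _ (conj_mem_cj (g := h) ht) s hs
              rw [inv_mul_eq_iff_eq_mul, ← mul_assoc, this, mul_inv_cancel_right]
            · have e1 : t * (h * t * h⁻¹)⁻¹ = (h * t * h⁻¹)⁻¹ * t := by
                have := h2 _ (conj_mem_cj (g := h) ht) t ht
                rw [eq_inv_mul_iff_mul_eq, ← mul_assoc, this, mul_inv_cancel_right]
              rw [e1, mul_smul, inv_smul_eq_iff, mul_smul, mul_smul, hhi, hht])
        exact hK1 (manning hprim hH hep htα K hKle hKn (fun k hk => h1 k hk.2 (hKT k hk)))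
      -- T is semiregular
      have hT1 : ∀ t ∈ T, t • α = α → t = 1 := by
        have := hT.simple (T ⊓ stabilizer G α) inf_le_left (by
          rintro t ht l ⟨hl, hlα⟩
          obtain ⟨c, hc, hcs, hcα⟩ := hRT t ht
          refine ⟨T.mul_mem (T.mul_mem ht hl) (T.inv_mem ht), ?_⟩
          have hlα' : l • α = α := hlα
          show (t * l * t⁻¹) • α = α
          have h1 : t * l * t⁻¹ = (t * c) * l * (t * c)⁻¹ := by
            calc t * l * t⁻¹ = t * (l * c) * c⁻¹ * t⁻¹ := by group
              _ = t * (c * l) * c⁻¹ * t⁻¹ := by rw [hcs l hl]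
              _ = (t * c) * l * (t * c)⁻¹ := by group
          have h2 : (t * c)⁻¹ • α = α := by rw [inv_smul_eq_iff, hcα]
          rw [h1, mul_smul, mul_smul, h2, hlα', hcα])
        rcases this with h | h
        · intro t ht htα
          have : t ∈ T ⊓ stabilizer G α := ⟨ht, htα⟩
          rwa [h, Subgroup.mem_bot] at this
        · exfalso
          apply hT.ne_bot
          rw [eq_bot_iff]
          intro t ht
          rw [Subgroup.mem_bot]
          refine FaithfulSMul.eq_of_smul_eq_smul (α := Ω) (fun x => ?_)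
          obtain ⟨n, hn, rfl⟩ := htr α x
          have h1 : n⁻¹ * t * n ∈ T := by
            have := hTconj n⁻¹ (N.inv_mem hn) t ht
            simpa using this
          rw [← h] at h1
          have h2 : (n⁻¹ * t * n) • α = α := h1.2
          rw [mul_smul, mul_smul, inv_smul_eq_iff] at h2
          rw [h2, one_smul]
      -- y α ∈ T α for y in any conjugate
      have hyT : ∀ g : G, ∀ y ∈ cj g T, ∃ t ∈ T, y • α = t • α := by
        intro g y hy
        obtain ⟨h, hh, hhg⟩ := hHconj g
        rw [← hhg] at hy
        have hs := mem_cj.mp hy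
        obtain ⟨k, hk, hkx⟩ := same_orbits hprim hH hep K hK1 hKle hKn ((h⁻¹ * y * h) • α) h hh
        refine ⟨k * (h⁻¹ * y * h) * k⁻¹, hTconj k hk.1 _ hs, ?_⟩
        have hki : k⁻¹ • α = α := by rw [inv_smul_eq_iff]; exact (show k • α = α from hk.2).symm
        rw [mul_smul (k * (h⁻¹ * y * h)), hki, mul_smul k, hkx, ← mul_smul h,
          show h * (h⁻¹ * y * h) = y * h by group, mul_smul y, hh]
      have hTtr : ∀ a b : Ω, ∃ t ∈ T, t • a = b := by
        -- N preserves T α
        have hsub : ∀ n ∈ N, ∀ t ∈ T, ∃ s ∈ T, n • t • α = s • α := by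
          have hle : N ≤ stabilizer G ((fun t : G => t • α) '' (T : Set G)) := by
            apply hT.gen
            intro g y hy
            have hpres : ∀ y ∈ cj g T, ∀ t ∈ T, ∃ s ∈ T, y • t • α = s • α := by
              intro y hy t ht
              obtain ⟨s, hs, hys⟩ := hyT g y hy
              rcases hT.conj g with h2 | h2
              · rw [h2] at hy
                exact ⟨y * t, T.mul_mem hy ht, by rw [mul_smul]⟩
              · refine ⟨t * s, T.mul_mem ht hs, ?_⟩
                rw [← mul_smul, h2 y hy t ht, mul_smul, hys, mul_smul]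
            rw [mem_stabilizer_iff]
            ext x
            rw [Set.mem_smul_set_iff_inv_smul_mem]
            constructor
            · rintro ⟨t, ht, hx⟩
              obtain ⟨s, hs, hys⟩ := hpres y hy t ht
              refine ⟨s, hs, ?_⟩
              show s • α = x
              rw [← hys]
              have hx' : t • α = y⁻¹ • x := hx
              rw [hx', smul_inv_smul]
            · rintro ⟨t, ht, rfl⟩
              obtain ⟨s, hs, hys⟩ := hpres y⁻¹ ((cj g T).inv_mem hy) t ht
              exact ⟨s, hs, hys.symm⟩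
          intro n hn t ht
          have h1 := hle hn
          rw [mem_stabilizer_iff] at h1
          have h2 : n • t • α ∈ n • ((fun t : G => t • α) '' (T : Set G)) :=
            Set.smul_mem_smul_set ⟨t, ht, rfl⟩
          rw [h1] at h2
          obtain ⟨s, hs, h3⟩ := h2
          exact ⟨s, hs, h3.symm⟩
        have hα : ∀ b : Ω, ∃ t ∈ T, t • α = b := by
          intro b
          obtain ⟨n, hn, rfl⟩ := htr α b
          obtain ⟨s, hs, h⟩ := hsub n hn 1 T.one_mem
          rw [one_smul] at h
          exact ⟨s, hs, h.symm⟩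
        intro a b
        obtain ⟨t, ht, rfl⟩ := hα a
        obtain ⟨s, hs, rfl⟩ := hα b
        exact ⟨s * t⁻¹, T.mul_mem hs (T.inv_mem ht), by rw [mul_smul, inv_smul_smul]⟩
      -- C = cj h0 T
      have hTC : ∀ t ∈ T, ∀ c ∈ cj h0 T, t * c = c * t := by
        intro t ht c hc
        rcases hT.conj h0 with h2 | h2
        · exact absurd h2 hh0T
        · exact (h2 c hc t ht).symm
      have hC1 : ∀ c ∈ cj h0 T, c • α = α → c = 1 := fun c hc h =>
        hsemi T hTtr c (fun t ht => (hTC t ht c hc).symm) α h
      have hCtr : ∀ β : Ω, ∃ c ∈ cj h0 T, c • α = β := by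
        intro β
        obtain ⟨t, ht, h⟩ := hTtr α (h0⁻¹ • β)
        refine ⟨h0 * t * h0⁻¹, conj_mem_cj ht, ?_⟩
        have : h0⁻¹ • α = α := by rw [inv_smul_eq_iff, hh0α]
        rw [mul_smul, mul_smul, this, h, smul_inv_smul]
      have hdich : ∀ g : G, cj g T = T ∨ cj g T = cj h0 T := by
        intro g
        rcases hT.conj g with h2 | h2
        · exact Or.inl h2
        · right
          apply Subgroup.eq_of_le_of_card_ge
          · intro y hy
            obtain ⟨c, hc, hcy⟩ := hCtr (y • α)
            have : c⁻¹ * y = 1 := by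
              apply hsemi T hTtr _ _ α
              · rw [mul_smul, ← hcy, inv_smul_smul]
              · intro t ht
                have e1 : c⁻¹ * t = t * c⁻¹ := by
                  rw [inv_mul_eq_iff_eq_mul, ← mul_assoc, ← hTC t ht c hc, mul_inv_cancel_right]
                calc c⁻¹ * y * t = c⁻¹ * (y * t) := by group
                  _ = c⁻¹ * (t * y) := by rw [h2 y hy t ht]
                  _ = (c⁻¹ * t) * y := by group
                  _ = t * (c⁻¹ * y) := by rw [e1]; group
            rw [inv_mul_eq_one] at this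
            rw [← this]; exact hc
          · rw [card_cj, card_cj]
      apply diag_contra hprim hH hep α T (cj h0 T) hTC hT1 hC1 hCtr hT.simple hTnc
      intro g _
      rcases hdich g with h1 | h1
      · left
        refine ⟨h1, ?_⟩
        rw [← cj_mul]
        rcases hdich (g * h0) with h2 | h2
        · exfalso
          apply hh0T
          rw [cj_mul] at h2
          conv_rhs at h2 => rw [← h1]
          exact cj_inj h2
        · exact h2
      · right
        refine ⟨h1, ?_⟩
        rw [← cj_mul]
        rcases hdich (g * h0) with h2 | h2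
        · exact h2
        · exfalso
          apply hh0T
          rw [cj_mul, ← h1] at h2
          rw [← h1]
          exact cj_inj h2

/-- An extremely primitive permutation group is of affine type or almost simple. Let a finite group G act faithfully and primitively on a finite set Ω with at least two points, in such a way that every point stabilizer acts primitively on each of its own orbits in Ω (an orbit of size one counts as primitive). Then either G has a non-trivial abelian normal subgroup whose elements other than the identity fix no point (affine type), or G has a non-abelian simple normal subgroup with trivial centralizer (almost simple). -/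
theorem result {G : Type*} [Group G] [Finite G] {Ω : Type*} [Fintype Ω] [MulAction G Ω] [FaithfulSMul G Ω] (hΩ : 2 ≤ Fintype.card Ω) (hprim : MulAction.IsPreprimitive G Ω) (hep : ∀ (α : Ω) (ω : Ω), MulAction.IsPreprimitive (MulAction.stabilizer G α) (MulAction.orbit (MulAction.stabilizer G α) ω)) :
    (∃ N : Subgroup G, N.Normal ∧ N ≠ ⊥ ∧ IsMulCommutative N ∧ ∀ ω : Ω, MulAction.stabilizer N ω = ⊥) ∨ (∃ T : Subgroup G, T.Normal ∧ IsSimpleGroup T ∧ ¬ IsMulCommutative T ∧ Subgroup.centralizer (T : Set G) = ⊥) := by
  classical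
  have : Nontrivial Ω := Fintype.one_lt_card_iff_nontrivial.mp hΩ
  by_cases hH : ∀ α : Ω, stabilizer G α ≠ ⊥
  · exact main_case hΩ hprim hH hep
  · push Not at hH
    obtain ⟨α, hα⟩ := hH
    left
    have hco : IsCoatom (⊥ : Subgroup G) := by
      rw [← hα]
      exact IsPreprimitive.isCoatom_stabilizer_of_isPreprimitive G α
    have hall : ∀ ω : Ω, stabilizer G ω = ⊥ := by
      intro ω
      obtain ⟨g, rfl⟩ := exists_smul_eq G α ω
      rw [← Subgroup.card_eq_one, card_stab_smul, hα, Subgroup.card_eq_one]
    refine ⟨⊤, inferInstance, hco.1.symm, ?_, ?_⟩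
    · obtain ⟨g, hg⟩ : ∃ g : G, g ≠ 1 := by
        by_contra hcon
        push Not at hcon
        apply hco.1
        rw [eq_comm, eq_bot_iff]
        intro x _
        rw [Subgroup.mem_bot]
        exact hcon x
      have htop : Subgroup.zpowers g = ⊤ := by
        rcases hco.le_iff.mp (bot_le : ⊥ ≤ Subgroup.zpowers g) with h | h
        · exact h
        · exact absurd (Subgroup.zpowers_eq_bot.mp h) hg
      refine ⟨⟨fun a b => ?_⟩⟩
      apply Subtype.ext
      have ha : (a : G) ∈ Subgroup.zpowers g := by rw [htop]; trivial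
      have hb : (b : G) ∈ Subgroup.zpowers g := by rw [htop]; trivial
      obtain ⟨k, hk⟩ := Subgroup.mem_zpowers_iff.mp ha
      obtain ⟨l, hl⟩ := Subgroup.mem_zpowers_iff.mp hb
      rw [Subgroup.coe_mul, Subgroup.coe_mul, ← hk, ← hl, ← zpow_add, ← zpow_add, add_comm]
    · intro ω
      rw [eq_bot_iff]
      rintro ⟨g, hg⟩ hgω
      have : g ∈ stabilizer G ω := hgω
      rw [hall ω, Subgroup.mem_bot] at this
      rw [Subgroup.mem_bot]
      exact Subtype.ext this

end Cfsg.Agent.S3493
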