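import Cfsg.Statements.S3495
import Cfsg.Agent.Lib.ExtPrim

set_option autoImplicit false
open Cfsg

namespace Cfsg.Agent.S3495

/-- Let a finite group G act faithfully and primitively on a finite set Ω with non-trivial point stabilizers, each acting primitively on every one of its orbits (an extremely primitive group), and suppose G has an elementary abelian normal p-subgroup N acting regularly on Ω (affine type). Then every non-trivial subgroup M of a point stabilizer G_α that is normal in G_α has the same orbits on Ω as G_α, and normalizes no subgroup of N other than 1 and N. -/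
theorem result {G : Type*} [Group G] [Finite G] {Ω : Type*} [Fintype Ω] [MulAction G Ω] [FaithfulSMul G Ω] (hprim : MulAction.IsPreprimitive G Ω) (hH : ∀ α : Ω, MulAction.stabilizer G α ≠ ⊥) (hep : ∀ (α : Ω) (ω : Ω), MulAction.IsPreprimitive (MulAction.stabilizer G α) (MulAction.orbit (MulAction.stabilizer G α) ω))
    (N : Subgroup G) [N.Normal] (hNc : IsMulCommutative N) (p : ℕ) (hp : p.Prime) (hNp : ∀ n ∈ N, n ^ p = 1)
    (hNtr : MulAction.IsPretransitive N Ω) (hNreg : ∀ ω : Ω, MulAction.stabilizer N ω = ⊥) (α : Ω) (M : Subgroup G) (hM : M ≠ ⊥) (hMle : M ≤ MulAction.stabilizer G α)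
    (hMn : MulAction.stabilizer G α ≤ Subgroup.normalizer (M : Set G)) :
    (∀ ω : Ω, MulAction.orbit M ω = MulAction.orbit (MulAction.stabilizer G α) ω) ∧
    (∀ L : Subgroup G, L ≤ N → M ≤ Subgroup.normalizer (L : Set G) → L = ⊥ ∨ L = N) := by
  have hso := Lib.ExtPrim.same_orbits hprim hH hep M hM hMle hMn
  have hreg : ∀ n ∈ N, ∀ ω : Ω, n • ω = ω → n = 1 := by
    intro n hn ω h
    have : (⟨n, hn⟩ : N) ∈ MulAction.stabilizer N ω := h
    rw [hNreg ω, Subgroup.mem_bot] at this
    exact congrArg Subtype.val this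
  refine ⟨?_, ?_⟩
  · intro ω
    ext x
    constructor
    · rintro ⟨⟨m, hm⟩, rfl⟩
      exact ⟨⟨m, hMle hm⟩, rfl⟩
    · rintro ⟨⟨g, hg⟩, rfl⟩
      obtain ⟨m, hm, h⟩ := hso ω g hg
      exact ⟨⟨m, hm⟩, h⟩
  · intro L hLN hML
    by_cases hL : L = ⊥
    · exact Or.inl hL
    · right
      -- G_α normalises L
      have h1 : ∀ g : G, g • α = α → ∀ l ∈ L, g * l * g⁻¹ ∈ L := by
        intro g hg l hl
        obtain ⟨m, hm, h⟩ := hso (l • α) g hg
        have hmα : m • α = α := hMle hm
        have hml : m * l * m⁻¹ ∈ L := (Subgroup.mem_normalizer_iff.mp (hML hm) l).mp hl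
        have hgl : g * l * g⁻¹ ∈ N := (inferInstance : N.Normal).conj_mem l (hLN hl) g
        have e1 : (g * l * g⁻¹) • α = g • l • α := by
          have : g⁻¹ • α = α := by rw [inv_smul_eq_iff, hg]
          rw [mul_smul, mul_smul, this]
        have e2 : (m * l * m⁻¹) • α = m • l • α := by
          have : m⁻¹ • α = α := by rw [inv_smul_eq_iff, hmα]
          rw [mul_smul, mul_smul, this]
        have e3 : (g * l * g⁻¹) • α = (m * l * m⁻¹) • α := by rw [e1, e2, h]
        have e4 : (m * l * m⁻¹)⁻¹ * (g * l * g⁻¹) = 1 := by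
          apply hreg _ (N.mul_mem (N.inv_mem (hLN hml)) hgl) α
          rw [mul_smul, e3, inv_smul_smul]
        rw [inv_mul_eq_one] at e4
        rw [← e4]
        exact hml
      have hnorm : L.Normal := by
        constructor
        intro l hl g
        -- write g = n h
        obtain ⟨⟨n, hn⟩, hnα⟩ := MulAction.exists_smul_eq N α (g • α)
        have hnα' : n • α = g • α := hnα
        have hh : (n⁻¹ * g) • α = α := by rw [mul_smul, ← hnα', inv_smul_smul]
        have h2 := h1 _ hh l hl
        have h3 : n * ((n⁻¹ * g) * l * (n⁻¹ * g)⁻¹) * n⁻¹ = (n⁻¹ * g) * l * (n⁻¹ * g)⁻¹ := by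
          have := hNc.is_comm.comm ⟨n, hn⟩ ⟨_, hLN h2⟩
          have h4 : n * ((n⁻¹ * g) * l * (n⁻¹ * g)⁻¹) = ((n⁻¹ * g) * l * (n⁻¹ * g)⁻¹) * n :=
            congrArg Subtype.val this
          rw [h4]; group
        have h5 : g * l * g⁻¹ = n * ((n⁻¹ * g) * l * (n⁻¹ * g)⁻¹) * n⁻¹ := by group
        rw [h5, h3]
        exact h2
      -- L is transitive
      have hLnf : MulAction.fixedPoints L Ω ≠ Set.univ := by
        intro h
        apply hL
        apply Lib.ExtPrim.normal_fix_bot L hnorm α
        intro n hn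
        have : α ∈ MulAction.fixedPoints L Ω := by rw [h]; trivial
        exact this ⟨n, hn⟩
      have hLt : MulAction.IsPretransitive L Ω :=
        (inferInstance : MulAction.IsQuasiPreprimitive G Ω).isPretransitive_of_normal hLnf
      apply le_antisymm hLN
      intro n hn
      obtain ⟨⟨l, hl⟩, h⟩ := MulAction.exists_smul_eq L α (n • α)
      have h' : l • α = n • α := h
      have h6 : l⁻¹ * n = 1 := by
        apply hreg _ (N.mul_mem (N.inv_mem (hLN hl)) hn) α
        rw [mul_smul, ← h', inv_smul_smul]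
      rw [inv_mul_eq_one] at h6
      rw [← h6]
      exact hl

end Cfsg.Agent.S3495
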