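import Cfsg.Statements.S3496
import Cfsg.Agent.Lib.H58ExtPrimAb
import Cfsg.Agent.Lib.H58Frob
import Cfsg.Agent.Lib.Fitting
import Cfsg.Agent.Lib.MinFactor
import Cfsg.Agent.Lib.H64Irr
import Cfsg.Agent.Lib.CopRank
import Cfsg.Agent.S3495

set_option autoImplicit false
open Cfsg

namespace Cfsg.Agent.S3496

open MulAction Cfsg.Agent.Lib.ExtPrim Cfsg.Agent.Lib.H58ExtPrimAb Cfsg.Agent.Lib.MinFactor

theorem main {G : Type*} [Group G] [Finite G] {Ω : Type*} [Fintype Ω] [MulAction G Ω] [FaithfulSMul G Ω] [Group.IsSolvable G] (p d : ℕ) (hp : p.Prime) (hcard : Fintype.card Ω = p ^ d)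
    (hprim : MulAction.IsPreprimitive G Ω) (hH : ∀ α : Ω, MulAction.stabilizer G α ≠ ⊥) (hep : ∀ (α : Ω) (ω : Ω), MulAction.IsPreprimitive (MulAction.stabilizer G α) (MulAction.orbit (MulAction.stabilizer G α) ω)) (α : Ω) :
    ∃ q : ℕ, q.Prime ∧ (∀ ω : Ω, ω ≠ α → Nat.card (MulAction.orbit (MulAction.stabilizer G α) ω) = q) ∧
      q ∣ p ^ d - 1 ∧ (∀ i : ℕ, 0 < i → i < d → ¬ q ∣ p ^ i - 1) ∧
      ∃ T : Subgroup G, T ≤ MulAction.stabilizer G α ∧ MulAction.stabilizer G α ≤ Subgroup.normalizer (T : Set G) ∧ Nat.card T = q ∧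
        (∃ h : G, MulAction.stabilizer G α = T ⊔ Subgroup.zpowers h) ∧ Nat.card (MulAction.stabilizer G α) ∣ q * d := by
  classical
  have hpf : Fact p.Prime := ⟨hp⟩
  have hnontriv : Nontrivial Ω := nontrivial_of_stab hprim α (hH α)
  have h : ExtPr G Ω := ⟨hprim, hH, hep⟩
  have hnt : ∃ ω : Ω, ω ≠ α := exists_ne α
  have hd0 : d ≠ 0 := by
    rintro rfl
    rw [pow_zero] at hcard
    have := Fintype.one_lt_card (α := Ω)
    omega
  set H := stabilizer G α with hHdef
  have hHnt : Nontrivial H := (Subgroup.nontrivial_iff_ne_bot H).mpr (hH α)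
  -- A minimal normal subgroup of H
  obtain ⟨A, hAmin⟩ := exists_min (G := H)
  have hAn := hAmin.normal
  have hA1 := hAmin.ne_bot
  obtain ⟨hAcomm, q, hq, hAq⟩ := Lib.Fitting.minimal_normal_solvable hA1 inferInstance hAmin.min
  have hqf : Fact q.Prime := ⟨hq⟩
  have hab : ∀ a ∈ A, ∀ b ∈ A, a * b = b * a := by
    intro a ha b hb
    exact congrArg Subtype.val (hAcomm.is_comm.comm ⟨a, ha⟩ ⟨b, hb⟩)
  have hdvd := card_dvd A hAn hA1 hab h
  rw [Nat.card_eq_fintype_card (α := Ω), hcard] at hdvd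
  have hpd : 1 ≤ p ^ d := Nat.one_le_pow _ _ hp.pos
  have hAnt : Nontrivial A := (Subgroup.nontrivial_iff_ne_bot A).mpr hA1
  have hqA : q ∣ Nat.card A := by
    obtain ⟨x, hx⟩ := exists_ne (1 : A)
    have h1 : orderOf x = q := orderOf_eq_prime (Subtype.ext (hAq x x.2)) hx
    rw [← h1]
    exact orderOf_dvd_natCard x
  have hqp : q ≠ p := by
    rintro rfl
    have h1 : q ∣ q ^ d - 1 := hqA.trans hdvd
    have h2 : q ∣ q ^ d := dvd_pow_self q hd0
    have h3 : q ∣ 1 := by
      have := (Nat.dvd_sub h2 h1)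
      rwa [Nat.sub_sub_self hpd] at this
    exact hq.one_lt.ne' (Nat.dvd_one.mp h3)
  -- N minimal normal in G
  have hGnt : Nontrivial G := by
    obtain ⟨x, hx⟩ := exists_ne (1 : H)
    exact ⟨⟨x, 1, fun h => hx (Subtype.ext h)⟩⟩
  obtain ⟨N, hNmin⟩ := exists_min (G := G)
  have hNn := hNmin.normal
  obtain ⟨hNcomm, r, hr, hNr⟩ := Lib.Fitting.minimal_normal_solvable hNmin.ne_bot inferInstance hNmin.min
  have hNab : ∀ a ∈ N, ∀ b ∈ N, a * b = b * a := by
    intro a ha b hb
    exact congrArg Subtype.val (hNcomm.is_comm.comm ⟨a, ha⟩ ⟨b, hb⟩)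
  have hNt : IsPretransitive N Ω := by
    apply (inferInstance : MulAction.IsQuasiPreprimitive G Ω).isPretransitive_of_normal
    intro h
    apply hNmin.ne_bot
    rw [eq_bot_iff]
    intro n hn
    rw [Subgroup.mem_bot]
    apply FaithfulSMul.eq_of_smul_eq_smul (α := Ω)
    intro a
    rw [one_smul]
    have : a ∈ MulAction.fixedPoints N Ω := by rw [h]; trivial
    exact this ⟨n, hn⟩
  have hsemi : ∀ x : G, (∀ a ∈ N, x * a = a * x) → ∀ ω : Ω, x • ω = ω → x = 1 := by
    intro x hx ω hω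
    refine FaithfulSMul.eq_of_smul_eq_smul (α := Ω) (fun y => ?_)
    obtain ⟨⟨a, ha⟩, rfl⟩ := MulAction.exists_smul_eq N ω y
    show x • a • ω = (1 : G) • a • ω
    rw [one_smul, ← mul_smul, hx a ha, mul_smul, hω]
  have hNst : ∀ ω : Ω, stabilizer N ω = ⊥ := by
    intro ω
    rw [eq_bot_iff]
    rintro ⟨x, hx⟩ hω
    rw [Subgroup.mem_bot]
    exact Subtype.ext (hsemi x (fun a ha => hNab x hx a ha) ω hω)
  have hNcard : Nat.card N = p ^ d := by
    rw [← hcard, ← Nat.card_eq_fintype_card]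
    refine Nat.card_congr (Equiv.ofBijective (fun x : N => (x : G) • α) ⟨?_, ?_⟩)
    · intro x y hxy
      have hxy' : (x : G) • α = (y : G) • α := hxy
      have h1 : y⁻¹ * x ∈ stabilizer N α := by
        show ((y : G)⁻¹ * (x : G)) • α = α
        rw [mul_smul, hxy', inv_smul_smul]
      rw [hNst, Subgroup.mem_bot, inv_mul_eq_one] at h1
      exact h1.symm
    · intro ω
      obtain ⟨x, hx⟩ := MulAction.exists_smul_eq N α ω
      exact ⟨x, hx⟩
  have hrp : r = p := by
    have hNnt : Nontrivial N := (Subgroup.nontrivial_iff_ne_bot N).mpr hNmin.ne_bot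
    obtain ⟨x, hx⟩ := exists_ne (1 : N)
    have hrf : Fact r.Prime := ⟨hr⟩
    have h1 : orderOf x = r := orderOf_eq_prime (Subtype.ext (hNr x x.2)) hx
    have h2 : r ∣ p ^ d := by
      rw [← h1, ← hNcard]
      exact orderOf_dvd_natCard x
    exact (Nat.prime_dvd_prime_iff_eq hr hp).mp (hr.dvd_of_dvd_pow h2)
  subst hrp
  -- the subgroup M of G
  set M : Subgroup G := A.map H.subtype with hM
  have hMH : M ≤ H := Subgroup.map_subtype_le _
  have hM1 : M ≠ ⊥ := by
    intro h1
    exact hA1 ((Subgroup.map_eq_bot_iff_of_injective _ (Subgroup.subtype_injective _)).mp h1)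
  have hMn : H ≤ Subgroup.normalizer (M : Set G) := map_normal A hAn
  have hMab : ∀ a ∈ M, ∀ b ∈ M, a * b = b * a := by
    rintro _ ⟨a, ha, rfl⟩ _ ⟨b, hb, rfl⟩
    exact congrArg Subtype.val (hab a ha b hb)
  have hMq : ∀ a ∈ M, a ^ q = 1 := by
    rintro _ ⟨a, ha, rfl⟩
    exact congrArg Subtype.val (hAq a ha)
  have hMcard : Nat.card M = Nat.card A := by
    rw [hM]
    exact Nat.card_congr (A.equivMapOfInjective H.subtype H.subtype_injective).toEquiv.symm
  have hirr := (Cfsg.Agent.S3495.result hprim hH hep N hNcomm r hr hNr hNt hNst α M hM1 hMH hMn).2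
  -- fixed points of elements of M on N
  have hfix : ∀ z ∈ M, z ≠ 1 → N ⊓ Subgroup.centralizer {z} = ⊥ := by
    intro z hz hz1
    rcases hirr (N ⊓ Subgroup.centralizer {z}) inf_le_left (by
      intro m hm
      rw [Subgroup.mem_normalizer_iff]
      have key : ∀ m ∈ M, ∀ x ∈ N ⊓ Subgroup.centralizer {z}, m * x * m⁻¹ ∈ N ⊓ Subgroup.centralizer {z} := by
        intro m hm x hx
        refine ⟨hNn.conj_mem x hx.1 m, ?_⟩
        have h1 : x * z = z * x := Subgroup.mem_centralizer_singleton_iff.1 hx.2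
        apply Subgroup.mem_centralizer_singleton_iff.2
        have h2 := hMab m hm z hz
        have h3 : m⁻¹ * z = z * m⁻¹ := hMab _ (M.inv_mem hm) z hz
        calc m * x * m⁻¹ * z = m * x * (m⁻¹ * z) := by group
          _ = m * (x * z) * m⁻¹ := by rw [h3]; group
          _ = (m * z) * x * m⁻¹ := by rw [h1]; group
          _ = z * (m * x * m⁻¹) := by rw [h2]; group
      intro x
      constructor
      · exact key m hm x
      · intro hx
        have := key m⁻¹ (M.inv_mem hm) _ hx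
        rwa [show m⁻¹ * (m * x * m⁻¹) * m⁻¹⁻¹ = x by group] at this) with h1 | h1
    · exact h1
    · exfalso
      apply hz1
      apply hsemi z _ α (hMH hz)
      intro a ha
      rw [← h1] at ha
      exact (Subgroup.mem_centralizer_singleton_iff.1 ha.2).symm
  have hNp : IsPGroup r N := IsPGroup.of_card hNcard
  have hNtop : Subgroup.normalizer (N : Set G) = ⊤ := Subgroup.normalizer_eq_top N
  obtain ⟨y, hy, hy1⟩ : ∃ y ∈ M, y ≠ 1 := by
    obtain ⟨⟨y, hy⟩, hy1⟩ := Subgroup.ne_bot_iff_exists_ne_one.mp hM1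
    exact ⟨y, hy, fun h => hy1 (Subtype.ext h)⟩
  have hMy : M = Subgroup.zpowers y := by
    apply le_antisymm
    · intro x hx
      rcases Lib.CopRank.centralizer_ne_bot_of_two hr hq hqp hNp hNmin.ne_bot (x := x) (y := y)
        (by rw [hNtop]; trivial) (by rw [hNtop]; trivial) (hMab x hx y hy) (hMq x hx) (hMq y hy) with h1 | ⟨j, h1⟩
      · exact absurd (hfix y hy hy1) h1
      · by_cases h2 : x * y ^ j = 1
        · rw [mul_eq_one_iff_eq_inv] at h2
          rw [h2]
          exact Subgroup.inv_mem _ (Subgroup.pow_mem _ (Subgroup.mem_zpowers y) j)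
        · exact absurd (hfix _ (M.mul_mem hx (M.pow_mem hy j)) h2) h1
    · rw [Subgroup.zpowers_le]; exact hy
  have hyo : orderOf y = q := orderOf_eq_prime (hMq y hy) hy1
  have hMq' : Nat.card M = q := by rw [hMy, Nat.card_zpowers, hyo]
  have hAq' : Nat.card A = q := by rw [← hMcard, hMq']
  -- d is the order of p modulo q
  have hyirr : ∀ B : Subgroup G, B ≤ N → (∀ b ∈ B, y * b * y⁻¹ ∈ B) → B = ⊥ ∨ B = N := by
    intro B hBN hB
    apply hirr B hBN
    rw [hMy, Subgroup.zpowers_le]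
    exact Subgroup.mem_normalizer_fintype hB
  have hd : d = orderOf (r : ZMod q) := by
    have h1 := Lib.H64Irr.card_eq_of_irreducible_conj (p := q) (q := r) hqp.symm N ⟨hNcomm, hNr⟩ y
      (fun a ha => hNn.conj_mem a ha y) (by
        intro a _
        rw [hMq y hy]; simp) (by
        by_contra hcon
        push Not at hcon
        apply hy1
        apply hsemi y _ α (hMH hy)
        intro a ha
        have := hcon a ha
        rwa [mul_inv_eq_iff_eq_mul] at this) hyirr
    rw [hNcard] at h1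
    exact Nat.pow_right_injective hr.two_le h1
  have hqpd : q ∣ r ^ d - 1 := by rw [← hAq']; exact hdvd
  have hqi : ∀ i : ℕ, 0 < i → i < d → ¬ q ∣ r ^ i - 1 := by
    intro i hi hid hqi
    have h1 : (r : ZMod q) ^ i = 1 := by
      have h2 : ((r ^ i - 1 : ℕ) : ZMod q) = 0 := (ZMod.natCast_eq_zero_iff _ _).mpr hqi
      rw [Nat.cast_sub (Nat.one_le_pow _ _ hr.pos), sub_eq_zero] at h2
      simpa using h2
    have h2 := orderOf_le_of_pow_eq_one hi h1
    omega
  refine ⟨q, hq, ?_, hqpd, hqi, M, hMH, hMn, hMq', ?_⟩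
  · intro ω hω
    rw [card_orb A hAn hA1 hab h hω, hAq']
  -- the action of H on A
  let ψ : H →* MulAut A := MulAut.conjNormal
  have hψ : ∀ (g : H) (a : A), ((ψ g a : A) : H) = g * a * g⁻¹ := fun g a => rfl
  have hker : ψ.ker = A := by
    ext g
    rw [MonoidHom.mem_ker]
    constructor
    · intro h1
      apply cent_le A hAn hA1 hab h hnt g
      intro a ha
      have h2 := hψ g ⟨a, ha⟩
      rw [h1] at h2
      have h3 : a = g * a * g⁻¹ := h2
      rw [eq_mul_inv_iff_mul_eq] at h3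
      exact h3.symm
    · intro hg
      refine MulEquiv.ext fun a => Subtype.ext ?_
      rw [hψ]
      show g * a * g⁻¹ = a
      rw [hab g hg a a.2, mul_inv_cancel_right]
  -- the power map
  have hAcop : (Nat.card A).Coprime r := by
    rw [hAq']
    exact (Nat.coprime_primes hq hr).mpr hqp
  let _ : CommGroup A := { (inferInstance : Group A) with
    mul_comm := fun a b => hAcomm.is_comm.comm a b }
  let F : MulAut A := MulEquiv.ofBijective (powMonoidHom r) (by
    have := (powCoprime hAcop).bijective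
    exact this)
  have hF : ∀ a : A, F a = a ^ r := fun a => rfl
  have hFi : ∀ (i : ℕ) (a : A), (F ^ i) a = a ^ (r ^ i) := by
    intro i
    induction i with
    | zero => intro a; simp
    | succ i ih =>
      intro a
      rw [pow_succ, MulAut.mul_apply, hF, ih, ← pow_mul, pow_succ, mul_comm]
  have hFd : F ^ d = 1 := by
    ext a
    rw [hFi]
    have h1 : a ^ q = 1 := Subtype.ext (hAq a a.2)
    obtain ⟨c, hc⟩ := hqpd
    have h2 : r ^ d = q * c + 1 := by omega
    rw [h2, pow_succ, pow_mul, h1, one_pow, one_mul]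
    rfl
  -- every automorphism induced by H is a power of F
  obtain ⟨y0, hy0, hy0y⟩ : ∃ y0 ∈ A, (y0 : G) = y := by
    obtain ⟨y0, h1, h2⟩ := Subgroup.mem_map.mp hy
    exact ⟨y0, h1, h2⟩
  have hA0 : ∀ a ∈ A, ∃ k : ℕ, y0 ^ k = a := by
    intro a ha
    have h1 : (a : G) ∈ Subgroup.zpowers y := by
      rw [← hMy]; exact Subgroup.mem_map_of_mem _ ha
    obtain ⟨k, hk⟩ := (mem_powers_iff_mem_zpowers.mpr h1 : (a : G) ∈ Submonoid.powers y)
    refine ⟨k, Subtype.ext ?_⟩
    rw [← hk, ← hy0y]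
    rfl
  have hrange : ψ.range ≤ Subgroup.zpowers F := by
    rintro _ ⟨g, rfl⟩
    obtain ⟨j, hj⟩ := hA0 (g * y0 * g⁻¹) (hAn.conj_mem y0 hy0 g)
    -- the linear statement
    have hNnt : Nontrivial N := (Subgroup.nontrivial_iff_ne_bot N).mpr hNmin.ne_bot
    let _ : CommGroup N := { (inferInstance : Group N) with
      mul_comm := fun a b => hNcomm.is_comm.comm a b }
    obtain ⟨i, hi⟩ := Lib.H58Frob.frob_mul (q := r) (A := N) (fun a => Subtype.ext (hNr a a.2))
      (MulAut.conjNormal y) (by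
      intro B hB
      rcases hyirr (B.map N.subtype) (Subgroup.map_subtype_le _) (by
        rintro _ ⟨b, hb, rfl⟩
        exact ⟨_, hB b hb, rfl⟩) with h1 | h1
      · left
        exact (Subgroup.map_eq_bot_iff_of_injective _ N.subtype_injective).mp h1
      · right
        rw [eq_top_iff]
        intro x _
        have : (x : G) ∈ B.map N.subtype := by rw [h1]; exact x.2
        obtain ⟨x', hx', hxx⟩ := this
        rwa [← show x' = x from Subtype.ext hxx]) j (MulAut.conjNormal (g : G)) (by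
      rw [← map_pow, ← map_mul, ← map_mul]
      congr 1
      have h1 := congrArg (fun z : H => (z : G)) hj
      have h2 : y ^ j = g * y * (g : G)⁻¹ := by
        rw [← hy0y]; exact h1
      rw [h2]; group)
    -- so y^j = y^(r^i)
    have h3 : y ^ j = y ^ (r ^ i) := by
      have h4 : (y ^ (r ^ i))⁻¹ * y ^ j = 1 := by
        apply hsemi _ _ α
        · exact H.mul_mem (H.inv_mem (H.pow_mem (hMH hy) _)) (H.pow_mem (hMH hy) _)
        · intro a ha
          rw [← map_pow, ← map_pow] at hi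
          have h5 := congrArg (fun f : MulAut N => ((f ⟨a, ha⟩ : N) : G)) hi
          have h6 : y ^ j * a * (y ^ j)⁻¹ = y ^ (r ^ i) * a * (y ^ (r ^ i))⁻¹ := h5
          calc (y ^ (r ^ i))⁻¹ * y ^ j * a = (y ^ (r ^ i))⁻¹ * (y ^ j * a * (y ^ j)⁻¹) * y ^ j := by group
            _ = (y ^ (r ^ i))⁻¹ * (y ^ (r ^ i) * a * (y ^ (r ^ i))⁻¹) * y ^ j := by rw [h6]
            _ = a * ((y ^ (r ^ i))⁻¹ * y ^ j) := by group
      rw [inv_mul_eq_one] at h4
      exact h4.symm
    have h7 : y0 ^ j = y0 ^ (r ^ i) := by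
      apply Subtype.ext
      rw [← hy0y] at h3
      exact h3
    refine ⟨i, ?_⟩
    show F ^ (i : ℤ) = ψ g
    rw [zpow_natCast]
    refine MulEquiv.ext fun a => Subtype.ext ?_
    rw [hFi, hψ]
    obtain ⟨k, hk⟩ := hA0 a a.2
    show ((a : H)) ^ (r ^ i) = g * a * g⁻¹
    rw [← hk, ← pow_mul, mul_comm k, pow_mul, ← h7, hj, conj_pow]
  have hcardH : Nat.card H = q * Nat.card ψ.range := by
    rw [← Subgroup.card_mul_index A, hAq']
    congr 1
    exact (congrArg Subgroup.index hker).symm.trans (Subgroup.index_ker ψ)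
  constructor
  · -- a second generator
    have hc : IsCyclic ψ.range := by
      have h1 : IsCyclic (Subgroup.zpowers F) := inferInstance
      exact isCyclic_of_injective (Subgroup.inclusion hrange) (Subgroup.inclusion_injective hrange)
    obtain ⟨⟨_, ⟨g, rfl⟩⟩, hg⟩ := hc.exists_generator
    refine ⟨g, le_antisymm ?_ ?_⟩
    · intro x hx
      obtain ⟨k, hk⟩ := hg ⟨ψ ⟨x, hx⟩, ⟨_, rfl⟩⟩
      have hk' : ψ g ^ k = ψ ⟨x, hx⟩ := congrArg Subtype.val hk
      have h1 : (⟨x, hx⟩ : H) * (g ^ k)⁻¹ ∈ ψ.ker := by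
        rw [MonoidHom.mem_ker, map_mul, map_inv, map_zpow, hk', mul_inv_cancel]
      rw [hker] at h1
      have h2 : x * ((g : G) ^ k)⁻¹ ∈ M := Subgroup.mem_map_of_mem H.subtype h1
      have h3 : x = x * ((g : G) ^ k)⁻¹ * (g : G) ^ k := by group
      rw [h3]
      exact Subgroup.mul_mem_sup h2 (Subgroup.zpow_mem _ (Subgroup.mem_zpowers _) k)
    · rw [sup_le_iff, Subgroup.zpowers_le]
      exact ⟨hMH, g.2⟩
  · rw [hcardH]
    apply Nat.mul_dvd_mul_left
    apply (Subgroup.card_dvd_of_le hrange).trans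
    rw [Nat.card_zpowers]
    exact orderOf_dvd_of_pow_eq_one hFd

/-- The soluble extremely primitive groups. Let a finite solvable group G act faithfully and primitively on a finite set Ω with p ^ d points (p prime), with non-trivial point stabilizers each acting primitively on every one of its orbits. Then there is a prime q such that every orbit of a point stabilizer G_α other than {α} has exactly q points, q divides p ^ d − 1 but no p ^ i − 1 with 0 < i < d, and G_α has a normal subgroup T of order q with G_α generated by T and one further element and the order of G_α dividing q·d (so G_α is cyclic of order q, or an extension of T by a cyclic group of order dividing d). -/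
theorem result {G : Type*} [Group G] [Finite G] {Ω : Type*} [Fintype Ω] [MulAction G Ω] [FaithfulSMul G Ω] [Group.IsSolvable G] (p d : ℕ) (hp : p.Prime) (hcard : Fintype.card Ω = p ^ d)
    (hprim : MulAction.IsPreprimitive G Ω) (hH : ∀ α : Ω, MulAction.stabilizer G α ≠ ⊥) (hep : ∀ (α : Ω) (ω : Ω), MulAction.IsPreprimitive (MulAction.stabilizer G α) (MulAction.orbit (MulAction.stabilizer G α) ω)) (α : Ω) :
    ∃ q : ℕ, q.Prime ∧ (∀ ω : Ω, ω ≠ α → Nat.card (MulAction.orbit (MulAction.stabilizer G α) ω) = q) ∧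
      q ∣ p ^ d - 1 ∧ (∀ i : ℕ, 0 < i → i < d → ¬ q ∣ p ^ i - 1) ∧
      ∃ T : Subgroup G, T ≤ MulAction.stabilizer G α ∧ MulAction.stabilizer G α ≤ Subgroup.normalizer (T : Set G) ∧ Nat.card T = q ∧
        (∃ h : G, MulAction.stabilizer G α = T ⊔ Subgroup.zpowers h) ∧ Nat.card (MulAction.stabilizer G α) ∣ q * d :=
  main p d hp hcard hprim hH hep α

end Cfsg.Agent.S3496
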