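import Cfsg.Statements.S3497
import Cfsg.Agent.Lib.H58ExtPrimAb
import Cfsg.Agent.Lib.H58ElemAb
import Cfsg.Agent.Lib.Fitting
import Cfsg.Agent.Lib.Cores3

set_option autoImplicit false
open Cfsg

namespace Cfsg.Agent.S3497

open MulAction Cfsg.Agent.Lib.ExtPrim Cfsg.Agent.Lib.H58ExtPrimAb in
theorem main {G : Type*} [Group G] [Finite G] {Ω : Type*} [Fintype Ω] [MulAction G Ω] [FaithfulSMul G Ω] (hprim : MulAction.IsPreprimitive G Ω) (hep : ∀ (α : Ω) (ω : Ω), MulAction.IsPreprimitive (MulAction.stabilizer G α) (MulAction.orbit (MulAction.stabilizer G α) ω)) (α : Ω)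
    (hH1 : MulAction.stabilizer G α ≠ ⊥) (hHp : ¬ (Nat.card (MulAction.stabilizer G α)).Prime) :
    Subgroup.center (MulAction.stabilizer G α) = ⊥ ∧
    IsMulCommutative (Cfsg.fittingSubgroup (MulAction.stabilizer G α)) ∧
    ∃ p e : ℕ, p.Prime ∧ Nat.card (Cfsg.fittingSubgroup (MulAction.stabilizer G α)) = p ^ e ∧
      (∀ x ∈ Cfsg.fittingSubgroup (MulAction.stabilizer G α), x ^ p = 1) ∧
      (Cfsg.fittingSubgroup (MulAction.stabilizer G α) ≠ ⊥ →
        p ^ e ∣ Fintype.card Ω - 1 ∧
        ∃ φ : MulAction.stabilizer G α →* GL (Fin e) (ZMod p), φ.ker = Cfsg.fittingSubgroup (MulAction.stabilizer G α)) := by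
  classical
  have hnontriv : Nontrivial Ω := nontrivial_of_stab hprim α hH1
  have hst : ∀ β : Ω, stabilizer G β ≠ ⊥ := by
    intro β hβ
    have := hprim.toIsPretransitive
    obtain ⟨g, hg⟩ := MulAction.exists_smul_eq G β α
    apply hH1
    have h1 := card_stab_smul g β
    rw [hg, hβ] at h1
    rw [← Subgroup.card_eq_one, h1]
    simp
  have h : ExtPr G Ω := ⟨hprim, hst, hep⟩
  have hnt : ∃ ω : Ω, ω ≠ α := exists_ne α
  set H := stabilizer G α with hHdef
  set F := Cfsg.fittingSubgroup H with hF
  have hFn : F.Normal := Lib.Fitting.normal_fittingSubgroup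
  have hFnil : Group.IsNilpotent F := Lib.Fitting.isNilpotent_fittingSubgroup
  have hZF : Subgroup.center H ≤ F := by
    apply Lib.Fitting.le_fittingSubgroup
    · infer_instance
    · let _ : CommGroup (Subgroup.center H) := { (inferInstance : Group (Subgroup.center H)) with
        mul_comm := fun a b => Subtype.ext (Subgroup.mem_center_iff.mp b.2 a) }
      exact CommGroup.isNilpotent (G := Subgroup.center H)
  by_cases hFb : F = ⊥
  · refine ⟨?_, ?_, 2, 0, Nat.prime_two, ?_, ?_, ?_⟩
    · rw [hFb] at hZF
      exact le_bot_iff.mp hZF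
    · rw [hFb]; infer_instance
    · rw [hFb]; simp
    · intro x hx
      rw [hFb, Subgroup.mem_bot] at hx
      rw [hx, one_pow]
    · intro h1; exact absurd hFb h1
  · -- the centre of F
    let A : Subgroup H := (Subgroup.center F).map F.subtype
    have hAn : A.Normal := by
      exact Lib.Fitting.normal_map_subtype_of_characteristic inferInstance
    have hAF : A ≤ F := Subgroup.map_subtype_le _
    have hFnt : Nontrivial F := (Subgroup.nontrivial_iff_ne_bot F).mpr hFb
    have hA1 : A ≠ ⊥ := by
      intro h1
      have h2 := (Subgroup.map_eq_bot_iff_of_injective _ (Subgroup.subtype_injective _)).mp h1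
      obtain ⟨z, _, hz1, hz2⟩ := Lib.Cores.exists_mem_center_of_normal (G := F) (K := ⊤) inferInstance
        (by
          intro h4
          obtain ⟨x, hx⟩ := exists_ne (1 : F)
          have : x ∈ (⊤ : Subgroup F) := Subgroup.mem_top x
          rw [h4, Subgroup.mem_bot] at this
          exact hx this)
      rw [h2, Subgroup.mem_bot] at hz1
      exact hz2 hz1
    have hAcF : ∀ a ∈ A, ∀ b ∈ F, b * a = a * b := by
      rintro a ha b hb
      obtain ⟨y, hy, rfl⟩ := Subgroup.mem_map.mp ha
      have := Subgroup.mem_center_iff.mp hy ⟨b, hb⟩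
      exact congrArg Subtype.val this
    have hab : ∀ a ∈ A, ∀ b ∈ A, a * b = b * a := by
      intro a ha b hb
      exact (hAcF a ha b (hAF hb)).symm
    have hFA : F = A := by
      apply le_antisymm _ hAF
      intro c hc
      exact cent_le A hAn hA1 hab h hnt c (fun a ha => hAcF a ha c hc)
    rw [← hFA] at hAn hA1 hab
    obtain ⟨p, hp, hpp⟩ := exists_prime F hAn hA1 hab h hnt
    have : Fact p.Prime := ⟨hp⟩
    have hFp : IsPGroup p F := by
      intro x
      exact ⟨1, by rw [pow_one]; exact Subtype.ext (hpp x x.2)⟩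
    obtain ⟨e, he⟩ := hFp.exists_card_eq
    refine ⟨?_, ?_, p, e, hp, he, hpp, ?_⟩
    · by_contra hZ
      have hZA : Subgroup.center H = F := min_of_le F hAn hA1 hab h hnt _ (by infer_instance) hZF hZ
      have hHF : ∀ c : H, c ∈ F := by
        intro c
        apply cent_le F hAn hA1 hab h hnt c
        intro a ha
        rw [← hZA] at ha
        exact Subgroup.mem_center_iff.mp ha c
      obtain ⟨x, hx⟩ := exists_ne (1 : F)
      have hx1 : (x : H) ≠ 1 := fun h1 => hx (Subtype.ext h1)
      have hB : Subgroup.zpowers (x : H) = F := by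
        apply min_of_le F hAn hA1 hab h hnt
        · constructor
          intro a _ g
          have : g * a = a * g := hab g (hHF g) a (hHF a)
          rw [this, mul_inv_cancel_right]
          assumption
        · rw [Subgroup.zpowers_le]
          exact x.2
        · rw [Ne, Subgroup.zpowers_eq_bot]
          exact hx1
      apply hHp
      have h1 : F = ⊤ := by
        rw [eq_top_iff]; intro c _; exact hHF c
      rw [← Subgroup.card_top (G := H), ← h1, ← hB, Nat.card_zpowers, orderOf_eq_prime (hpp x x.2) hx1]
      exact hp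
    · refine ⟨⟨?_⟩⟩
      intro a b
      exact Subtype.ext (hab a a.2 b b.2)
    · intro _
      constructor
      · rw [← he, ← Nat.card_eq_fintype_card]
        exact card_dvd F hAn hA1 hab h
      · obtain ⟨φ, hφ⟩ := Lib.H58ElemAb.exists_toGL F hAn p e hab hpp he
        refine ⟨φ, ?_⟩
        rw [hφ]
        apply le_antisymm
        · intro c hc
          apply cent_le F hAn hA1 hab h hnt c
          intro a ha
          exact (Subgroup.mem_centralizer_iff.mp hc a ha).symm
        · intro c hc
          rw [Subgroup.mem_centralizer_iff]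
          intro a ha
          exact hab a ha c hc

/-- Restrictions on the point stabilizer of an extremely primitive group. Let a finite group G act faithfully and primitively on a finite set Ω with point stabilizers H = G_α whose order is neither 1 nor a prime, each acting primitively on every one of its orbits. Then H has trivial center, the Fitting subgroup F(H) is an elementary abelian p-group for some prime p, and if F(H) ≠ 1 has order p ^ e then p ^ e divides the number of points minus one and H / F(H) embeds in GL_e(p) (there is a homomorphism from H to GL_e(p) with kernel exactly F(H)). -/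
theorem result {G : Type*} [Group G] [Finite G] {Ω : Type*} [Fintype Ω] [MulAction G Ω] [FaithfulSMul G Ω] (hprim : MulAction.IsPreprimitive G Ω) (hep : ∀ (α : Ω) (ω : Ω), MulAction.IsPreprimitive (MulAction.stabilizer G α) (MulAction.orbit (MulAction.stabilizer G α) ω)) (α : Ω)
    (hH1 : MulAction.stabilizer G α ≠ ⊥) (hHp : ¬ (Nat.card (MulAction.stabilizer G α)).Prime) :
    Subgroup.center (MulAction.stabilizer G α) = ⊥ ∧
    IsMulCommutative (Cfsg.fittingSubgroup (MulAction.stabilizer G α)) ∧
    ∃ p e : ℕ, p.Prime ∧ Nat.card (Cfsg.fittingSubgroup (MulAction.stabilizer G α)) = p ^ e ∧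
      (∀ x ∈ Cfsg.fittingSubgroup (MulAction.stabilizer G α), x ^ p = 1) ∧
      (Cfsg.fittingSubgroup (MulAction.stabilizer G α) ≠ ⊥ →
        p ^ e ∣ Fintype.card Ω - 1 ∧
        ∃ φ : MulAction.stabilizer G α →* GL (Fin e) (ZMod p), φ.ker = Cfsg.fittingSubgroup (MulAction.stabilizer G α)) :=
  main hprim hep α hH1 hHp

end Cfsg.Agent.S3497
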