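import Cfsg.Statements.S3498
import Cfsg.Agent.Lib.CoprimeAction
import Cfsg.Agent.Lib.NilpTools

set_option autoImplicit false
open Cfsg

namespace Cfsg.Agent.S3498

open Subgroup in
theorem main {G : Type*} [Group G] [Finite G] (T : Subgroup G) [hTn : T.Normal] (hT : IsSimpleGroup T) (hTc : ¬ IsMulCommutative T)
    (hC : Subgroup.centralizer (T : Set G) = ⊥) (H : Subgroup G) (hmax : IsCoatom H) (hHp : (Nat.card H).Prime) : False := by
  classical
  set p := Nat.card H with hp
  have : Fact p.Prime := ⟨hHp⟩
  have hcyc : IsCyclic H := isCyclic_of_prime_card (p := p) hp.symm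
  have hHcomm : ∀ a ∈ H, ∀ b ∈ H, a * b = b * a := by
    intro a ha b hb
    have := hcyc.isMulCommutative.is_comm.comm (⟨a, ha⟩ : H) ⟨b, hb⟩
    exact congrArg Subtype.val this
  -- subgroups of H
  have hsub : ∀ K : Subgroup G, K ≤ H → K = ⊥ ∨ K = H := by
    intro K hK
    rcases (Nat.dvd_prime hHp).mp (Subgroup.card_dvd_of_le hK) with h1 | h1
    · exact Or.inl (Subgroup.card_eq_one.mp h1)
    · exact Or.inr (Subgroup.eq_of_le_of_card_ge hK (by rw [h1]))
  have hTab : ¬ (∀ a ∈ T, ∀ b ∈ T, a * b = b * a) := by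
    intro h
    exact hTc ⟨⟨fun a b => Subtype.ext (h a a.2 b b.2)⟩⟩
  have hT1 : T ≠ ⊥ := by
    intro h
    apply hTab
    rw [h]
    intro a ha b hb
    rw [Subgroup.mem_bot] at ha hb
    rw [ha, hb]
  -- normal subgroups contain T or meet it trivially
  have hmeet : ∀ N : Subgroup G, N.Normal → T ≤ N ∨ T ⊓ N = ⊥ := by
    intro N hN
    have h1 : (N.subgroupOf T).Normal := inferInstance
    rcases hT.eq_bot_or_eq_top_of_normal _ h1 with h2 | h2
    · right
      rw [Subgroup.subgroupOf_eq_bot] at h2
      exact (disjoint_iff.mp h2.symm)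
    · left
      exact Subgroup.subgroupOf_eq_top.mp h2
  -- H does not contain T, T does not lie in H
  have hTH : ¬ T ≤ H := by
    intro h
    exact hTab (fun a ha b hb => hHcomm a (h ha) b (h hb))
  have hHn : ¬ H.Normal := by
    intro hn
    rcases hmeet H hn with h1 | h1
    · exact hTH h1
    · have h2 : H ≤ centralizer (T : Set G) := by
        intro x hx
        rw [mem_centralizer_iff]
        intro t ht
        have h3 : t * x * t⁻¹ * x⁻¹ ∈ T ⊓ H := by
          refine mem_inf.mpr ⟨?_, ?_⟩
          · have : t * x * t⁻¹ * x⁻¹ = t * (x * t⁻¹ * x⁻¹) := by group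
            rw [this]
            exact T.mul_mem ht (hTn.conj_mem _ (T.inv_mem ht) x)
          · exact H.mul_mem (hn.conj_mem x hx t) (H.inv_mem hx)
        rw [h1, mem_bot] at h3
        rw [mul_inv_eq_one, mul_inv_eq_iff_eq_mul] at h3
        exact h3
      rw [hC, le_bot_iff] at h2
      rw [h2] at hp
      simp at hp
      exact hHp.one_lt.ne hp.symm
  have hN : normalizer (H : Set G) = H := by
    rcases hmax.le_iff.mp (le_normalizer (H := H)) with h1 | h1
    · exact absurd (Subgroup.normalizer_eq_top_iff.mp h1) hHn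
    · exact h1
  have hHpg : IsPGroup p H := IsPGroup.of_card (n := 1) (by rw [pow_one])
  obtain ⟨P, hP⟩ := hHpg.exists_le_sylow
  have hPH : (P : Subgroup G) = H := by
    by_contra hne
    have hlt : H < P := lt_of_le_of_ne hP (Ne.symm hne)
    have hPn : Group.IsNilpotent (P : Subgroup G) := P.2.isNilpotent
    have h2 := Lib.NilpTools.lt_inf_normalizer hPn hlt
    rw [hN] at h2
    exact absurd (h2.trans_le inf_le_right) (lt_irrefl _)
  have hPc : normalizer ((P : Subgroup G) : Set G) ≤ centralizer ((P : Subgroup G) : Set G) := by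
    rw [hPH, hN]
    intro x hx
    rw [mem_centralizer_iff]
    intro y hy
    exact hHcomm y hy x hx
  set K := (MonoidHom.transferSylow P hPc).ker with hK
  have hKc : K.IsComplement' (P : Subgroup G) := MonoidHom.ker_transferSylow_isComplement' P hPc
  have hKp : ¬ p ∣ Nat.card K := MonoidHom.not_dvd_card_ker_transferSylow P hPc
  have hTK : T ≤ K := by
    rcases hmeet K (by rw [hK]; infer_instance) with h1 | h1
    · exact h1
    · exfalso
      have h2 : K ≤ centralizer (T : Set G) := by
        intro x hx
        rw [mem_centralizer_iff]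
        intro t ht
        have hKn : K.Normal := by rw [hK]; infer_instance
        have h3 : t * x * t⁻¹ * x⁻¹ ∈ T ⊓ K := by
          refine mem_inf.mpr ⟨?_, ?_⟩
          · have : t * x * t⁻¹ * x⁻¹ = t * (x * t⁻¹ * x⁻¹) := by group
            rw [this]
            exact T.mul_mem ht (hTn.conj_mem _ (T.inv_mem ht) x)
          · exact K.mul_mem (hKn.conj_mem x hx t) (K.inv_mem hx)
        rw [h1, mem_bot] at h3
        rw [mul_inv_eq_one, mul_inv_eq_iff_eq_mul] at h3
        exact h3
      rw [hC, le_bot_iff] at h2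
      have h3 := hKc.sup_eq_top
      rw [h2, bot_sup_eq, hPH] at h3
      exact hmax.1 h3
  have hTp : ¬ p ∣ Nat.card T := fun h => hKp (h.trans (Subgroup.card_dvd_of_le hTK))
  have hTnt : Nontrivial T := (Subgroup.nontrivial_iff_ne_bot T).mpr hT1
  obtain ⟨q, hq, hqT⟩ := Nat.exists_prime_and_dvd (n := Nat.card T) (by
    have := Finite.one_lt_card (α := T); omega)
  have : Fact q.Prime := ⟨hq⟩
  obtain ⟨Q, hQT, hQq, hQi, hQn⟩ := Lib.CoprimeAction.exists_invariant_sylow (A := H) (K := T)
    (by rw [Subgroup.normalizer_eq_top]; exact le_top) ((Nat.Prime.coprime_iff_not_dvd hHp).mpr hTp)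
    (Or.inl (Group.isSolvable_of_comm fun a b => Subtype.ext (hHcomm a a.2 b b.2))) q
  have hQ1 : Q ≠ ⊥ := by
    rintro rfl
    rw [Subgroup.relIndex_bot_left] at hQi
    exact hQi hqT
  have hQH : ¬ Q ≤ H := by
    intro h
    rcases hsub Q h with h1 | h1
    · exact hQ1 h1
    · apply hTp
      have := Subgroup.card_dvd_of_le hQT
      rw [h1] at this
      exact this
  have htop : H ⊔ Q = ⊤ := by
    rcases hmax.le_iff.mp (le_sup_left (a := H) (b := Q)) with h1 | h1
    · exact h1
    · exact absurd (h1 ▸ le_sup_right) hQH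
  have hQN : Q.Normal := by
    rw [← Subgroup.normalizer_eq_top_iff, eq_top_iff, ← htop]
    exact sup_le hQn le_normalizer
  have hTQ : T ≤ Q := by
    rcases hmeet Q hQN with h1 | h1
    · exact h1
    · rw [inf_eq_right.mpr hQT] at h1
      exact absurd h1 hQ1
  have hTq : IsPGroup q T := hQq.to_le hTQ
  have hcn := hTq.center_nontrivial
  rcases hT.eq_bot_or_eq_top_of_normal (center T) inferInstance with h1 | h1
  · rw [h1] at hcn
    exact not_nontrivial _ hcn
  · apply hTab
    intro a ha b hb
    have h2 : (⟨b, hb⟩ : T) ∈ center T := by rw [h1]; exact mem_top _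
    exact congrArg Subtype.val (mem_center_iff.mp h2 ⟨a, ha⟩)

/-- A maximal subgroup of a finite almost simple group does not have prime order. Here G is almost simple in the sense that it has a non-abelian simple normal subgroup T with trivial centralizer. -/
theorem result {G : Type*} [Group G] [Finite G] (T : Subgroup G) [T.Normal] (hT : IsSimpleGroup T) (hTc : ¬ IsMulCommutative T)
    (hC : Subgroup.centralizer (T : Set G) = ⊥) (H : Subgroup G) (hmax : IsCoatom H) : ¬ (Nat.card H).Prime :=
  fun h => main T hT hTc hC H hmax h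

end Cfsg.Agent.S3498
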