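import Cfsg.Statements.S3504

set_option autoImplicit false
open Cfsg

namespace Cfsg.Agent.S3504

open Equiv Equiv.Perm

/-- the cycle type of a derangement of prime order -/
theorem cycleType_derangement {n : ℕ} (g : Perm (Fin n)) (hp : (orderOf g).Prime) (hd : ∀ i, g i ≠ i) :
    orderOf g ∣ n ∧ g.cycleType = Multiset.replicate (n / orderOf g) (orderOf g) := by
  obtain ⟨k, hk⟩ := Equiv.Perm.cycleType_prime_order hp
  have h1 : g.cycleType.sum = n := by
    rw [Equiv.Perm.sum_cycleType]
    have : g.support = Finset.univ := by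
      ext i; simp [hd i]
    rw [this]; simp
  have h2 : (k + 1) * orderOf g = n := by
    rw [hk, Multiset.sum_replicate, smul_eq_mul] at h1
    exact h1
  have h4 : n / orderOf g = k + 1 := Nat.div_eq_of_eq_mul_left hp.pos h2.symm
  exact ⟨⟨k + 1, h2.symm.trans (mul_comm _ _)⟩, by rw [h4, hk]⟩

theorem exists_derangement {n p : ℕ} (hn : n ≠ 0) (hp : p.Prime) (hpn : p ∣ n) :
    ∃ g : Perm (Fin n), orderOf g = p ∧ ∀ i, g i ≠ i := by
  have h1 : ∃ g : Perm (Fin n), g.cycleType = Multiset.replicate (n / p) p := by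
    rw [Equiv.Perm.exists_with_cycleType_iff]
    constructor
    · rw [Multiset.sum_replicate, smul_eq_mul, Nat.div_mul_cancel hpn]
      simp
    · intro a ha
      rw [Multiset.eq_of_mem_replicate ha]
      exact hp.two_le
  obtain ⟨g, hg⟩ := h1
  have hnp : n / p ≠ 0 := by
    intro h
    have := Nat.div_mul_cancel hpn
    rw [h] at this; simp at this; exact hn this.symm
  refine ⟨g, ?_, ?_⟩
  · rw [← Equiv.Perm.lcm_cycleType, hg]
    apply Nat.dvd_antisymm
    · rw [Multiset.lcm_dvd]
      intro b hb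
      rw [Multiset.eq_of_mem_replicate hb]
    · exact Multiset.dvd_lcm (Multiset.mem_replicate.mpr ⟨hnp, rfl⟩)
  · have h2 : g.cycleType.sum = n := by
      rw [hg, Multiset.sum_replicate, smul_eq_mul, Nat.div_mul_cancel hpn]
    rw [Equiv.Perm.sum_cycleType] at h2
    have h3 : g.support = Finset.univ := by
      apply Finset.eq_univ_of_card
      rw [h2]; simp
    intro i
    have : i ∈ g.support := by rw [h3]; exact Finset.mem_univ i
    exact Equiv.Perm.mem_support.mp this

/-- For n ≥ 5, the fixed-point-free permutations of prime order in the symmetric group of degree n form a single conjugacy class if and only if n is a prime power. -/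
theorem result (n : ℕ) (hn : 5 ≤ n) :
    Nat.card {c : ConjClasses (Equiv.Perm (Fin n)) // ∃ g : Equiv.Perm (Fin n), ConjClasses.mk g = c ∧ (orderOf g).Prime ∧ ∀ i : Fin n, g i ≠ i} = 1 ↔ IsPrimePow n := by
  classical
  have hn0 : n ≠ 0 := by omega
  have key : Nat.card {c : ConjClasses (Equiv.Perm (Fin n)) // ∃ g : Equiv.Perm (Fin n), ConjClasses.mk g = c ∧ (orderOf g).Prime ∧ ∀ i : Fin n, g i ≠ i} = n.primeFactors.card := by
    have h1 : ∀ p : n.primeFactors, ∃ g : Perm (Fin n), orderOf g = p ∧ ∀ i, g i ≠ i := by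
      rintro ⟨p, hp⟩
      exact exists_derangement hn0 (Nat.prime_of_mem_primeFactors hp) (Nat.dvd_of_mem_primeFactors hp)
    choose f hf1 hf2 using h1
    have hpr : ∀ p : n.primeFactors, (orderOf (f p)).Prime := by
      intro p; rw [hf1]; exact Nat.prime_of_mem_primeFactors p.2
    rw [← Nat.card_eq_finsetCard n.primeFactors]
    symm
    refine Nat.card_congr (Equiv.ofBijective (fun p => ⟨ConjClasses.mk (f p), f p, rfl, hpr p, hf2 p⟩) ⟨?_, ?_⟩)
    · intro p q hpq
      have h2 : ConjClasses.mk (f p) = ConjClasses.mk (f q) := congrArg Subtype.val hpq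
      rw [ConjClasses.mk_eq_mk_iff_isConj] at h2
      have h3 := h2
      rw [Equiv.Perm.isConj_iff_cycleType_eq] at h3
      apply Subtype.ext
      rw [← hf1, ← hf1, ← Equiv.Perm.lcm_cycleType, ← Equiv.Perm.lcm_cycleType, h3]
    · rintro ⟨c, g, rfl, hg, hd⟩
      have h2 := cycleType_derangement g hg hd
      refine ⟨⟨orderOf g, Nat.mem_primeFactors.mpr ⟨hg, h2.1, hn0⟩⟩, ?_⟩
      apply Subtype.ext
      show ConjClasses.mk (f _) = ConjClasses.mk g
      rw [ConjClasses.mk_eq_mk_iff_isConj, Equiv.Perm.isConj_iff_cycleType_eq,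
        (cycleType_derangement (f _) (hpr _) (hf2 _)).2, hf1]
      exact h2.2.symm
  rw [key, isPrimePow_iff_card_primeFactors_eq_one]

end Cfsg.Agent.S3504
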