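import Cfsg.Statements.S3508
import Cfsg.Agent.Lib.H58ElemAb

set_option autoImplicit false
open Cfsg

namespace Cfsg.Agent.S3508

theorem two_pow (j : ℕ) : j + 3 < 2 ^ (j + 3 - 1) := by
  induction j with
  | zero => decide
  | succ j ih =>
    have : 2 ^ (j + 1 + 3 - 1) = 2 * 2 ^ (j + 3 - 1) := (pow_succ' 2 (j + 3 - 1))
    omega

theorem three_pow (j : ℕ) : j + 2 < 3 ^ (j + 2 - 1) := by
  induction j with
  | zero => decide
  | succ j ih =>
    have : 3 ^ (j + 1 + 2 - 1) = 3 * 3 ^ (j + 2 - 1) := (pow_succ' 3 (j + 2 - 1))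
    omega

section Lin

variable {V : Type*} [AddCommGroup V] (p : ℕ) [hp : Fact p.Prime] [Module (ZMod p) V] [Finite V]

open Polynomial in
theorem poly_identity (s : ℕ) : (∑ i ∈ Finset.range (p ^ s), (X : (ZMod p)[X]) ^ i) = (X - 1) ^ (p ^ s - 1) := by
  have h1 : (X - 1 : (ZMod p)[X]) ≠ 0 := by
    have := X_sub_C_ne_zero (1 : ZMod p)
    simpa using this
  apply mul_left_cancel₀ h1
  have h2 : (X - 1 : (ZMod p)[X]) * (∑ i ∈ Finset.range (p ^ s), (X : (ZMod p)[X]) ^ i) = X ^ (p ^ s) - 1 := by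
    rw [mul_comm]; exact geom_sum_mul X (p ^ s)
  rw [h2, ← pow_succ', Nat.sub_add_cancel (Nat.one_le_pow _ _ hp.out.pos)]
  rw [sub_pow_char_pow, one_pow]

open Polynomial in
theorem end_identity (s : ℕ) (φ : Module.End (ZMod p) V) :
    (∑ i ∈ Finset.range (p ^ s), φ ^ i) = (φ - 1) ^ (p ^ s - 1) := by
  have h := congrArg (aeval φ) (poly_identity p s)
  simpa using h

open Polynomial in
theorem end_pow (s : ℕ) (φ : Module.End (ZMod p) V) : (φ - 1) ^ (p ^ s) = φ ^ (p ^ s) - 1 := by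
  have h1 : ((X - 1 : (ZMod p)[X])) ^ (p ^ s) = X ^ (p ^ s) - 1 := by
    rw [sub_pow_char_pow, one_pow]
  have h := congrArg (aeval φ) h1
  simpa using h

theorem nilp (m : ℕ) (hm : Nat.card V = p ^ m) (φ : Module.End (ZMod p) V) (r : ℕ) (hφ : φ ^ (p ^ r) = 1) :
    (φ - 1) ^ m = 0 := by
  have h1 : IsNilpotent (φ - 1) := ⟨p ^ r, by rw [end_pow, hφ, sub_self]⟩
  have hrank : Module.finrank (ZMod p) V = m := by
    have h1 := FiniteField.pow_finrank_eq_natCard p V
    rw [hm] at h1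
    exact Nat.pow_right_injective hp.out.two_le h1
  have h2 := IsNilpotent.charpoly_eq_X_pow_finrank h1
  have h3 := LinearMap.aeval_self_charpoly (φ - 1)
  rw [h2, hrank] at h3
  simpa using h3

theorem core0 (m : ℕ) (hcard : Nat.card V = p ^ m) (e : V ≃+ V) (f : ℕ → V ≃+ V) (hf0 : ∀ x, f 0 x = x)
    (hf : ∀ k x, f (k + 1) x = f k (e x)) (r : ℕ)
    (he : ∀ x, f (p ^ r) x = x) (s : ℕ) (hs : m < p ^ s) :
    (∀ x, f (p ^ s) x = x) ∧ ∀ a : V, ∑ i ∈ Finset.range (p ^ s), f i a = 0 := by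
  classical
  let φ : Module.End (ZMod p) V := e.toAddMonoidHom.toZModLinearMap p
  have hφ : ∀ x : V, φ x = e x := fun x => rfl
  have hφk : ∀ (k : ℕ) (x : V), (φ ^ k) x = f k x := by
    intro k
    induction k with
    | zero => intro x; simp [hf0]
    | succ k ih =>
      intro x
      rw [pow_succ, Module.End.mul_apply, hφ, ih, hf]
  have hφr : φ ^ (p ^ r) = 1 := by
    apply LinearMap.ext
    intro x
    rw [hφk, he]
    rfl
  have hm0 := nilp p m hcard φ r hφr
  have h0 : (φ - 1) ^ (p ^ s - 1) = 0 := by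
    obtain ⟨c, hc⟩ := Nat.exists_eq_add_of_le (show m ≤ p ^ s - 1 by omega)
    rw [hc, pow_add, hm0, zero_mul]
  have h0' : (φ - 1) ^ (p ^ s) = 0 := by
    obtain ⟨c, hc⟩ := Nat.exists_eq_add_of_le (show m ≤ p ^ s by omega)
    rw [hc, pow_add, hm0, zero_mul]
  have hφ1 : φ ^ (p ^ s) = 1 := by
    rw [end_pow] at h0'
    exact sub_eq_zero.mp h0'
  have hsum : ∑ i ∈ Finset.range (p ^ s), φ ^ i = 0 := by
    rw [end_identity, h0]
  constructor
  · intro x
    have h2 := hφk (p ^ s) x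
    rw [hφ1] at h2
    exact h2.symm
  · intro a
    have h2 := congrArg (fun f : Module.End (ZMod p) V => f a) hsum
    simp only [LinearMap.sum_apply, LinearMap.zero_apply] at h2
    rw [Finset.sum_congr rfl (fun i _ => hφk i a)] at h2
    exact h2

end Lin

theorem core {A : Type*} [CommGroup A] [Finite A] (p m : ℕ) [hp : Fact p.Prime] (hA : ∀ a : A, a ^ p = 1)
    (hcard : Nat.card A = p ^ m) (e : MulAut A) (r : ℕ) (he : e ^ (p ^ r) = 1) (s : ℕ) (hs : m < p ^ s) :
    e ^ (p ^ s) = 1 ∧ ∀ a : A, ∏ i ∈ Finset.range (p ^ s), (e ^ i) a = 1 := by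
  classical
  let _ : Module (ZMod p) (Additive A) := AddCommGroup.zmodModule (n := p) (by
    intro x
    exact congrArg Additive.ofMul (hA x.toMul))
  have hfin : Finite (Additive A) := inferInstanceAs (Finite A)
  have hcN : Nat.card (Additive A) = p ^ m := hcard
  obtain ⟨h1, h2⟩ := core0 (V := Additive A) p m hcN (MulEquiv.toAdditive e) (fun k => MulEquiv.toAdditive (e ^ k))
    (fun x => rfl) (fun k x => by rw [pow_succ]; rfl) r (fun x => by rw [he]; rfl) s hs
  constructor
  · ext x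
    exact h1 (Additive.ofMul x)
  · intro a
    exact h2 (Additive.ofMul a)

section Grp

open MulAction

theorem bound {G : Type*} [Group G] [Finite G] {Ω : Type*} [Fintype Ω] [MulAction G Ω] [FaithfulSMul G Ω] (p m : ℕ) (hp : p.Prime) (hcard : Fintype.card Ω = p ^ m)
    (N : Subgroup G) [N.Normal] (hNc : IsMulCommutative N) (hNp : ∀ n ∈ N, n ^ p = 1)
    (hNtr : MulAction.IsPretransitive N Ω) (hNreg : ∀ ω : Ω, MulAction.stabilizer N ω = ⊥)
    (g : G) (r : ℕ) (hr : 1 ≤ r) (hg : orderOf g = p ^ r) :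
    p ^ (r - 1) ≤ m := by
  classical
  have : Fact p.Prime := ⟨hp⟩
  by_contra hlt
  push Not at hlt
  have hne : Nonempty Ω := by
    rw [← Fintype.card_pos_iff, hcard]; exact pow_pos hp.pos _
  obtain ⟨α⟩ := hne
  obtain ⟨n, hn⟩ := MulAction.exists_smul_eq N α (g • α)
  have hn' : (n : G) • α = g • α := hn
  set h : G := (n : G)⁻¹ * g with hh
  have hhα : h • α = α := by rw [hh, mul_smul, ← hn', inv_smul_smul]
  have hgh : g = n * h := by rw [hh]; group
  have hNst : ∀ x ∈ N, ∀ ω : Ω, x • ω = ω → x = 1 := by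
    intro x hx ω hω
    have h1 : (⟨x, hx⟩ : N) ∈ stabilizer N ω := hω
    rw [hNreg, Subgroup.mem_bot] at h1
    exact congrArg Subtype.val h1
  have hhα' : ∀ k : ℕ, (h ^ k) • α = α := by
    intro k
    induction k with
    | zero => simp
    | succ k ih => rw [pow_succ, mul_smul, hhα, ih]
  have hhr : h ^ (p ^ r) = 1 := by
    apply hNst _ _ α (hhα' _)
    rw [← QuotientGroup.eq_one_iff]
    have h1 : ((h : G) : G ⧸ N) = (g : G ⧸ N) := by
      rw [QuotientGroup.eq]
      have h2 : h⁻¹ * g = h⁻¹ * n * h⁻¹⁻¹ := by rw [inv_inv, mul_assoc, ← hgh]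
      rw [h2]
      exact Subgroup.Normal.conj_mem inferInstance _ n.2 _
    rw [QuotientGroup.mk_pow, h1, ← QuotientGroup.mk_pow, ← hg, pow_orderOf_eq_one]
    rfl
  have hcN : Nat.card N = p ^ m := by
    rw [← hcard, ← Nat.card_eq_fintype_card]
    refine Nat.card_congr (Equiv.ofBijective (fun x : N => (x : G) • α) ⟨?_, ?_⟩)
    · intro x y hxy
      have hxy' : (x : G) • α = (y : G) • α := hxy
      have h1 : (y : G)⁻¹ * (x : G) = 1 := by
        apply hNst _ (N.mul_mem (N.inv_mem y.2) x.2) α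
        rw [mul_smul, hxy', inv_smul_smul]
      rw [inv_mul_eq_one] at h1
      exact Subtype.ext h1.symm
    · intro ω
      obtain ⟨x, hx⟩ := MulAction.exists_smul_eq N α ω
      exact ⟨x, hx⟩
  let _ : CommGroup N := { (inferInstance : Group N) with
    mul_comm := fun a b => hNc.is_comm.comm a b }
  obtain ⟨hA, hB⟩ := core (A := N) p m (fun a => Subtype.ext (hNp a a.2)) hcN (MulAut.conjNormal h) r
    (by rw [← map_pow, hhr, map_one]) (r - 1) hlt
  set k := p ^ (r - 1) with hk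
  have hhk : h ^ k = 1 := by
    have h1 : ∀ x : N, h ^ k * x * (h ^ k)⁻¹ = x := by
      intro x
      rw [← map_pow] at hA
      have h4 := congrArg (fun f : MulAut N => ((f x : N) : G)) hA
      exact h4
    apply FaithfulSMul.eq_of_smul_eq_smul (α := Ω)
    intro ω
    obtain ⟨x, hx⟩ := MulAction.exists_smul_eq N α ω
    have hx' : (x : G) • α = ω := hx
    have h2 : h ^ k * x = x * h ^ k := by
      have := h1 x
      rwa [mul_inv_eq_iff_eq_mul] at this
    rw [← hx', ← mul_smul, h2, mul_smul, hhα' k, one_smul]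
  have hpow : ∀ j : ℕ, g ^ j = ((∏ i ∈ Finset.range j, ((MulAut.conjNormal h : MulAut N) ^ i) n : N) : G) * h ^ j := by
    intro j
    induction j with
    | zero => simp
    | succ j ih =>
      rw [Finset.prod_range_succ, pow_succ, ih, ← map_pow, Subgroup.coe_mul, MulAut.conjNormal_apply]
      conv_lhs => rw [hgh]
      group
  have hgk : g ^ k = 1 := by
    rw [hpow k, hhk, mul_one, hB n]
    rfl
  have h1 := orderOf_dvd_of_pow_eq_one hgk
  rw [hg, hk, Nat.pow_dvd_pow_iff_le_right hp.one_lt] at h1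
  omega

end Grp

/-- Let a finite group G act faithfully on a set Ω with p ^ m points (p prime) and have an elementary abelian normal p-subgroup N acting regularly on Ω (so G is a group of affine transformations of an m-dimensional space over the field with p elements). If G contains an element of order p ^ r with r ≥ 1, then p ^ (r − 1) ≤ m. In particular an element of order p ^ m forces m ≤ 2, and m ≤ 1 when p is odd. -/
theorem result {G : Type*} [Group G] [Finite G] {Ω : Type*} [Fintype Ω] [MulAction G Ω] [FaithfulSMul G Ω] (p m : ℕ) (hp : p.Prime) (hcard : Fintype.card Ω = p ^ m)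
    (N : Subgroup G) [N.Normal] (hNc : IsMulCommutative N) (hNp : ∀ n ∈ N, n ^ p = 1)
    (hNtr : MulAction.IsPretransitive N Ω) (hNreg : ∀ ω : Ω, MulAction.stabilizer N ω = ⊥)
    (g : G) (r : ℕ) (hr : 1 ≤ r) (hg : orderOf g = p ^ r) :
    p ^ (r - 1) ≤ m ∧ (r = m → m ≤ 2 ∧ (2 < p → m ≤ 1)) := by
  have h1 := bound p m hp hcard N hNc hNp hNtr hNreg g r hr hg
  refine ⟨h1, ?_⟩
  intro hrm
  rw [hrm] at h1
  constructor
  · by_contra hm
    push Not at hm
    have h2 : 2 ^ (m - 1) ≤ p ^ (m - 1) := Nat.pow_le_pow_left hp.two_le _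
    have h3 : m < 2 ^ (m - 1) := by
      obtain ⟨j, rfl⟩ : ∃ j, m = j + 3 := ⟨m - 3, by omega⟩
      exact two_pow j
    omega
  · intro hp2
    by_contra hm
    push Not at hm
    have h2 : 3 ^ (m - 1) ≤ p ^ (m - 1) := Nat.pow_le_pow_left hp2 _
    have h3 : m < 3 ^ (m - 1) := by
      obtain ⟨j, rfl⟩ : ∃ j, m = j + 2 := ⟨m - 2, by omega⟩
      exact three_pow j
    omega

end Cfsg.Agent.S3508
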