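import Cfsg.Statements.S3511

set_option autoImplicit false
open Cfsg

namespace Cfsg.Agent.S3511

/-- Let a finite group G act faithfully on a set Ω. If every element of G of square-free order has a regular cycle (an orbit of the cyclic group it generates with trivial stabilizer), then every element of G has a regular cycle. -/
theorem result {G : Type*} [Group G] [Finite G] {Ω : Type*} [MulAction G Ω] [FaithfulSMul G Ω]
    (h : ∀ g : G, Squarefree (orderOf g) → ∃ ω : Ω, MulAction.stabilizer (Subgroup.zpowers g) ω = ⊥) (g : G) :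
    ∃ ω : Ω, MulAction.stabilizer (Subgroup.zpowers g) ω = ⊥ := by
  classical
  have hn0 : orderOf g ≠ 0 := (orderOf_pos g).ne'
  set n := orderOf g with hn
  set r := ∏ p ∈ n.primeFactors, p with hr
  have hrn : r ∣ n := Nat.prod_primeFactors_dvd n
  have hr0 : r ≠ 0 := fun h0 => hn0 (by rw [h0] at hrn; exact zero_dvd_iff.mp hrn)
  have hsq : Squarefree r := by
    rw [hr]
    refine Finset.squarefree_prod_of_pairwise_isCoprime (fun p hp q hq hpq => ?_) (fun p hp => ?_)
    · exact (Nat.coprime_iff_isRelPrime.mp ((Nat.coprime_primes (Nat.prime_of_mem_primeFactors hp)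
        (Nat.prime_of_mem_primeFactors hq)).mpr hpq))
    · exact (Nat.prime_of_mem_primeFactors hp).squarefree
  obtain ⟨m, hm⟩ := hrn
  have hm0 : m ≠ 0 := by rintro rfl; exact hn0 (by simpa using hm)
  have hord : orderOf (g ^ m) = r := by
    rw [orderOf_pow_of_dvd hm0 (by rw [← hn, hm]; exact dvd_mul_left m r), ← hn, hm]
    exact Nat.mul_div_cancel r (Nat.pos_of_ne_zero hm0)
  obtain ⟨ω, hω⟩ := h (g ^ m) (by rw [hord]; exact hsq)
  refine ⟨ω, ?_⟩
  rw [eq_bot_iff]
  intro x hx
  by_contra hx1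
  have hx1' : x ≠ 1 := fun h1 => hx1 (by simp [h1])
  have hfix : (x : G) • ω = ω := hx
  have hxo : orderOf (x : G) ≠ 1 := by
    intro h1
    rw [orderOf_eq_one_iff] at h1
    exact hx1' (Subtype.ext h1)
  set p := (orderOf (x : G)).minFac with hp
  have hpp : p.Prime := Nat.minFac_prime hxo
  obtain ⟨k, hk⟩ := Nat.minFac_dvd (orderOf (x : G))
  rw [← hp] at hk
  have hk0 : k ≠ 0 := by
    rintro rfl
    exact (orderOf_pos (x : G)).ne' (by simpa using hk)
  have hyo : orderOf ((x : G) ^ k) = p := by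
    rw [orderOf_pow_of_dvd hk0 (by rw [hk]; exact dvd_mul_left k p), hk]
    exact Nat.mul_div_cancel p (Nat.pos_of_ne_zero hk0)
  have hyfix : ((x : G) ^ k) • ω = ω := by
    have : ∀ j : ℕ, ((x : G) ^ j) • ω = ω := by
      intro j
      induction j with
      | zero => simp
      | succ j ih => rw [pow_succ, mul_smul, hfix, ih]
    exact this k
  -- write x^k as a power of g
  obtain ⟨i, hi⟩ := Subgroup.mem_zpowers_iff.mp (Subgroup.pow_mem _ x.2 k)
  have hpn : p ∣ n := by
    have h1 : orderOf ((x : G) ^ k) ∣ orderOf g := by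
      rw [← hi]
      exact orderOf_dvd_of_mem_zpowers (Subgroup.zpow_mem_zpowers g i)
    rwa [hyo] at h1
  have hpr : p ∣ r := Finset.dvd_prod_of_mem (fun p => p) (Nat.mem_primeFactors.mpr ⟨hpp, hpn, hn0⟩)
  have hgi : g ^ (i * (p : ℤ)) = 1 := by
    rw [zpow_mul, hi, ← hyo]
    simp [pow_orderOf_eq_one]
  have hdiv : (n : ℤ) ∣ i * (p : ℤ) := by
    rw [hn]
    exact orderOf_dvd_iff_zpow_eq_one.mpr hgi
  have hmi : (m : ℤ) ∣ i := by
    obtain ⟨s, hs⟩ := hpr
    have : ((r * m : ℕ) : ℤ) ∣ i * (p : ℤ) := by rw [← hm]; exact hdiv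
    rw [hs] at this
    have h2 : (p : ℤ) * ((s : ℤ) * m) ∣ (p : ℤ) * i := by
      push_cast at this
      rw [mul_comm i] at this
      rwa [mul_assoc] at this
    have h3 := (mul_dvd_mul_iff_left (by exact_mod_cast hpp.ne_zero : (p : ℤ) ≠ 0)).mp h2
    exact (dvd_mul_left _ _).trans h3
  obtain ⟨j, hj⟩ := hmi
  have hmem : (x : G) ^ k ∈ Subgroup.zpowers (g ^ m) := by
    rw [Subgroup.mem_zpowers_iff]
    refine ⟨j, ?_⟩
    rw [← hi, hj, zpow_mul, zpow_natCast]
  have hstab : (⟨(x : G) ^ k, hmem⟩ : Subgroup.zpowers (g ^ m)) ∈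
      MulAction.stabilizer (Subgroup.zpowers (g ^ m)) ω := by
    rw [MulAction.mem_stabilizer_iff]
    exact hyfix
  rw [hω, Subgroup.mem_bot] at hstab
  have : (x : G) ^ k = 1 := congrArg Subtype.val hstab
  rw [this, orderOf_one] at hyo
  exact hpp.one_lt.ne hyo

end Cfsg.Agent.S3511
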