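import Cfsg.Statements.S3514

set_option autoImplicit false
open Cfsg

namespace Cfsg.Agent.S3514

theorem relIndex_sup_eq {G : Type*} [Group G] [Finite G] (S K : Subgroup G) [K.Normal] :
    S.relIndex (S ⊔ K) = S.relIndex K := by
  have h1 : K.relIndex (S ⊔ K) = K.relIndex S := Subgroup.relIndex_sup_right S K
  have c1 : (⊥ : Subgroup G).relIndex K * K.relIndex (S ⊔ K) = (⊥ : Subgroup G).relIndex (S ⊔ K) :=
    Subgroup.relIndex_mul_relIndex _ _ _ bot_le le_sup_right
  have c2 : (⊥ : Subgroup G).relIndex S * S.relIndex (S ⊔ K) = (⊥ : Subgroup G).relIndex (S ⊔ K) :=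
    Subgroup.relIndex_mul_relIndex _ _ _ bot_le le_sup_left
  have c3 : (⊥ : Subgroup G).relIndex (S ⊓ K) * (S ⊓ K).relIndex S = (⊥ : Subgroup G).relIndex S :=
    Subgroup.relIndex_mul_relIndex _ _ _ bot_le inf_le_left
  have c4 : (⊥ : Subgroup G).relIndex (S ⊓ K) * (S ⊓ K).relIndex K = (⊥ : Subgroup G).relIndex K :=
    Subgroup.relIndex_mul_relIndex _ _ _ bot_le inf_le_right
  rw [Subgroup.inf_relIndex_left] at c3
  rw [Subgroup.inf_relIndex_right] at c4
  rw [h1] at c1
  have hS0 : (⊥ : Subgroup G).relIndex S ≠ 0 := by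
    rw [Subgroup.relIndex_bot_left]; exact Nat.card_pos.ne'
  have : (⊥ : Subgroup G).relIndex S * S.relIndex (S ⊔ K) = (⊥ : Subgroup G).relIndex S * S.relIndex K := by
    rw [c2, ← c1, ← c4, ← c3]; ring
  exact mul_left_cancel₀ hS0 this

/-- Let p be a prime, V a finite vector space over the field with p elements, and H a group of linear transformations of V all of whose orbits on V have size coprime to p. (i) Every normal subgroup K of H has all its orbits on V of size coprime to p. (ii) If N is a group of linear transformations of V of order coprime to p that is normalized by H, then the group generated by N and H has all its orbits on V of size coprime to p. -/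
theorem result (p : ℕ) [Fact p.Prime] {V : Type*} [AddCommGroup V] [Module (ZMod p) V] [Finite V]
    (H : Subgroup (V ≃ₗ[ZMod p] V)) (hH : ∀ v : V, ¬ p ∣ Nat.card {u : V | ∃ h ∈ H, h v = u}) :
    (∀ K : Subgroup (V ≃ₗ[ZMod p] V), K ≤ H → H ≤ Subgroup.normalizer (K : Set (V ≃ₗ[ZMod p] V)) →
        ∀ v : V, ¬ p ∣ Nat.card {u : V | ∃ k ∈ K, k v = u}) ∧
    (∀ N : Subgroup (V ≃ₗ[ZMod p] V), ¬ p ∣ Nat.card N → H ≤ Subgroup.normalizer (N : Set (V ≃ₗ[ZMod p] V)) →
        ∀ v : V, ¬ p ∣ Nat.card {u : V | ∃ x ∈ N ⊔ H, x v = u}) := by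
  classical
  have hp : p.Prime := Fact.out
  haveI : Finite (V ≃ₗ[ZMod p] V) := Finite.of_injective (fun e => (e : V → V)) DFunLike.coe_injective
  -- the stabilizer of v in the whole linear group
  let S : V → Subgroup (V ≃ₗ[ZMod p] V) := fun v => MulAction.stabilizer (V ≃ₗ[ZMod p] V) v
  have key : ∀ (L : Subgroup (V ≃ₗ[ZMod p] V)) (v : V),
      Nat.card {u : V | ∃ k ∈ L, k v = u} = (S v).relIndex L := by
    intro L v
    have h1 : {u : V | ∃ k ∈ L, k v = u} = MulAction.orbit L v := by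
      ext u
      simp only [Set.mem_setOf_eq, MulAction.mem_orbit_iff]
      constructor
      · rintro ⟨k, hk, rfl⟩; exact ⟨⟨k, hk⟩, rfl⟩
      · rintro ⟨⟨k, hk⟩, rfl⟩; exact ⟨k, hk, rfl⟩
    rw [h1, Nat.card_coe_set_eq, ← MulAction.index_stabilizer]
    rfl
  refine ⟨?_, ?_⟩
  · intro K hKH hn v hdiv
    apply hH v
    rw [key] at hdiv ⊢
    refine hdiv.trans ?_
    haveI : (K.subgroupOf H).Normal := (Subgroup.normal_subgroupOf_iff_le_normalizer hKH).mpr hn
    have e1 : ((S v).subgroupOf H).relIndex (K.subgroupOf H) = (S v).relIndex K := by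
      rw [Subgroup.relIndex_subgroupOf hKH]
    have e2 := relIndex_sup_eq ((S v).subgroupOf H) (K.subgroupOf H)
    rw [e1] at e2
    rw [← e2]
    exact Subgroup.relIndex_dvd_index_of_le le_sup_left
  · intro N hN hn v hdiv
    rw [key] at hdiv
    have h1 : (S v).relIndex (N ⊔ H) ∣ (S v ⊓ H).relIndex (N ⊔ H) :=
      Subgroup.relIndex_dvd_of_le_left _ inf_le_left
    have h2 : (S v).relIndex (H ⊓ (N ⊔ H)) * H.relIndex (N ⊔ H) = (S v ⊓ H).relIndex (N ⊔ H) :=
      Subgroup.relIndex_inf_mul_relIndex _ _ _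
    have h3 : H ⊓ (N ⊔ H) = H := inf_eq_left.mpr le_sup_right
    rw [h3] at h2
    have h4 : p ∣ (S v).relIndex H * H.relIndex (N ⊔ H) := by
      rw [h2]; exact hdiv.trans h1
    rcases (Nat.Prime.dvd_mul hp).mp h4 with h5 | h5
    · exact hH v (by rw [key]; exact h5)
    · apply hN
      refine h5.trans ?_
      have hle : N ≤ N ⊔ H := le_sup_left
      have hle' : N ⊔ H ≤ Subgroup.normalizer (N : Set (V ≃ₗ[ZMod p] V)) :=
        sup_le Subgroup.le_normalizer hn
      haveI : (N.subgroupOf (N ⊔ H)).Normal := (Subgroup.normal_subgroupOf_iff_le_normalizer hle).mpr hle'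
      have e2 := relIndex_sup_eq (H.subgroupOf (N ⊔ H)) (N.subgroupOf (N ⊔ H))
      have e3 : (H.subgroupOf (N ⊔ H)) ⊔ (N.subgroupOf (N ⊔ H)) = ⊤ := by
        rw [← Subgroup.subgroupOf_sup le_sup_right le_sup_left, sup_comm H N, Subgroup.subgroupOf_self]
      rw [e3, Subgroup.relIndex_top_right, Subgroup.relIndex_subgroupOf le_sup_left] at e2
      have e4 : H.relIndex (N ⊔ H) = H.relIndex N := e2
      rw [e4]
      exact Subgroup.relIndex_dvd_card _ _

end Cfsg.Agent.S3514
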