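import Cfsg.Statements.S3515

set_option autoImplicit false
open Cfsg

namespace Cfsg.Agent.S3515

theorem four_points : ∀ x : Fin 2 → ZMod 2, x = 0 ∨ x = Pi.single 0 1 ∨ x = Pi.single 1 1 ∨ x = 1 := by
  decide

theorem ne0 : (1 : Fin 2 → ZMod 2) ≠ 0 := by decide
theorem ne1 : (1 : Fin 2 → ZMod 2) ≠ Pi.single 0 1 := by decide
theorem ne2 : (1 : Fin 2 → ZMod 2) ≠ Pi.single 1 1 := by decide

/-- Every primitive affine permutation group of degree p² is 3-closed. Let p be a prime and G a group of permutations of the plane V = F_p² consisting of affine maps x ↦ Ax + b, containing all translations, and acting primitively on V. Then any permutation σ of V that agrees on every triple of points with some element of G (σ preserves every G-orbit on ordered triples) already lies in G. -/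
theorem result (p : ℕ) [Fact p.Prime] (G : Subgroup (Equiv.Perm (Fin 2 → ZMod p)))
    (haff : (G : Set (Equiv.Perm (Fin 2 → ZMod p))) ⊆ {τ : Equiv.Perm (Fin 2 → ZMod p) | ∃ (A : (Fin 2 → ZMod p) ≃ₗ[ZMod p] (Fin 2 → ZMod p)) (b : Fin 2 → ZMod p), ∀ x, τ x = A x + b})
    (htrans : ∀ b : Fin 2 → ZMod p, ∃ g ∈ G, ∀ x, g x = x + b) (hprim : MulAction.IsPreprimitive G (Fin 2 → ZMod p))
    (σ : Equiv.Perm (Fin 2 → ZMod p)) (hσ : (∀ t : Fin 3 → (Fin 2 → ZMod p), ∃ g ∈ G, ∀ i, σ (t i) = g (t i))) : σ ∈ G := by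
  classical
  have hp : p.Prime := Fact.out
  obtain ⟨g, hgG, hg⟩ := hσ ![0, Pi.single 0 1, Pi.single 1 1]
  have hg0 : σ 0 = g 0 := hg 0
  have hg1 : σ (Pi.single 0 1) = g (Pi.single 0 1) := hg 1
  have hg2 : σ (Pi.single 1 1) = g (Pi.single 1 1) := hg 2
  suffices hsg : σ = g by rw [hsg]; exact hgG
  obtain ⟨A, b, hA⟩ := haff hgG
  -- affine ratio property
  have hratio : ∀ (a c : Fin 2 → ZMod p) (l : ZMod p), σ (a + l • (c - a)) = σ a + l • (σ c - σ a) := by
    intro a c l
    obtain ⟨h, hhG, hh⟩ := hσ ![a, c, a + l • (c - a)]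
    obtain ⟨B, d, hB⟩ := haff hhG
    have h0 : σ a = h a := hh 0
    have h1 : σ c = h c := hh 1
    have h2 : σ (a + l • (c - a)) = h (a + l • (c - a)) := hh 2
    rw [h0, h1, h2, hB, hB, hB, map_add, map_smul, map_sub]
    have : B c + d - (B a + d) = B c - B a := by abel
    rw [this]
    abel
  by_cases hp2 : p = 2
  · subst hp2
    -- four points
    have hall : ∀ x : Fin 2 → ZMod 2, x = 0 ∨ x = Pi.single 0 1 ∨ x = Pi.single 1 1 ∨ x = 1 :=
      four_points
    have hne : ∀ x : Fin 2 → ZMod 2, x = 0 ∨ x = Pi.single 0 1 ∨ x = Pi.single 1 1 → σ x = g x := by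
      rintro x (rfl | rfl | rfl)
      · exact hg0
      · exact hg1
      · exact hg2
    have hd1 : (1 : Fin 2 → ZMod 2) ≠ 0 := ne0
    have hd2 : (1 : Fin 2 → ZMod 2) ≠ Pi.single 0 1 := ne1
    have hd3 : (1 : Fin 2 → ZMod 2) ≠ Pi.single 1 1 := ne2
    ext1 x
    rcases hall x with h | h | h | h
    · exact hne x (Or.inl h)
    · exact hne x (Or.inr (Or.inl h))
    · exact hne x (Or.inr (Or.inr h))
    · subst h
      -- g⁻¹ (σ 1) must be 1
      have h3 : g⁻¹ (σ 1) = 1 := by
        rcases hall (g⁻¹ (σ 1)) with h | h | h | h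
        · exfalso
          have h4 : σ 1 = g 0 := by rw [← h]; simp
          rw [← hg0] at h4
          exact hd1 (σ.injective h4)
        · exfalso
          have h4 : σ 1 = g (Pi.single 0 1) := by rw [← h]; simp
          rw [← hg1] at h4
          exact hd2 (σ.injective h4)
        · exfalso
          have h4 : σ 1 = g (Pi.single 1 1) := by rw [← h]; simp
          rw [← hg2] at h4
          exact hd3 (σ.injective h4)
        · exact h
      calc σ 1 = g (g⁻¹ (σ 1)) := by simp
        _ = g 1 := by rw [h3]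
  · have h2 : (2 : ZMod p) ≠ 0 := by
      intro h
      have : ((2 : ℕ) : ZMod p) = 0 := by exact_mod_cast h
      rw [ZMod.natCast_eq_zero_iff] at this
      exact hp2 ((Nat.prime_dvd_prime_iff_eq hp Nat.prime_two).mp this)
    have hline : ∀ (i : Fin 2) (l : ZMod p), σ (l • Pi.single i 1) = g (l • Pi.single i 1) := by
      intro i l
      have h3 := hratio 0 (Pi.single i 1) l
      simp only [zero_add, sub_zero] at h3
      have h4 : σ (Pi.single i 1) = g (Pi.single i 1) := by
        fin_cases i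
        · exact hg1
        · exact hg2
      rw [h3, h4, hg0, hA, hA, hA, map_smul, map_zero, zero_add, add_sub_cancel_right, add_comm]
    ext1 x
    have hx : x = (2 * x 0) • (Pi.single 0 1 : Fin 2 → ZMod p) + (2⁻¹ : ZMod p) •
        ((2 * x 1) • (Pi.single 1 1 : Fin 2 → ZMod p) - (2 * x 0) • (Pi.single 0 1 : Fin 2 → ZMod p)) := by
      ext i
      fin_cases i
      · simp
        field_simp
        ring
      · simp
        field_simp
    rw [hx, hratio, hline, hline, hA, hA, hA]
    rw [map_add, map_smul _ (2⁻¹ : ZMod p), map_sub, add_sub_add_right_eq_sub]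
    abel

end Cfsg.Agent.S3515
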