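import Cfsg.Statements.S3516

set_option autoImplicit false
open Cfsg

namespace Cfsg.Agent.S3516

/-- Let p be an odd prime, d ≥ 3, and G a group of affine permutations x ↦ Ax + b of V = F_p^d containing all translations and all maps x ↦ Ax with A of determinant 1. Then the 3-closure of G is the full affine group: a permutation σ of V agrees on every triple of points with some element of G if and only if σ is an affine map. -/
theorem result (p : ℕ) [Fact p.Prime] (hp : p ≠ 2) (d : ℕ) (hd : 3 ≤ d) (G : Subgroup (Equiv.Perm (Fin d → ZMod p)))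
    (haff : (G : Set (Equiv.Perm (Fin d → ZMod p))) ⊆ {τ : Equiv.Perm (Fin d → ZMod p) | ∃ (A : (Fin d → ZMod p) ≃ₗ[ZMod p] (Fin d → ZMod p)) (b : Fin d → ZMod p), ∀ x, τ x = A x + b})
    (htrans : ∀ b : Fin d → ZMod p, ∃ g ∈ G, ∀ x, g x = x + b)
    (hsl : ∀ A : (Fin d → ZMod p) ≃ₗ[ZMod p] (Fin d → ZMod p), LinearMap.det (A : (Fin d → ZMod p) →ₗ[ZMod p] (Fin d → ZMod p)) = 1 → ∃ g ∈ G, ∀ x, g x = A x)
    (σ : Equiv.Perm (Fin d → ZMod p)) :
    (∀ t : Fin 3 → (Fin d → ZMod p), ∃ g ∈ G, ∀ i, σ (t i) = g (t i)) ↔ σ ∈ {τ : Equiv.Perm (Fin d → ZMod p) | ∃ (A : (Fin d → ZMod p) ≃ₗ[ZMod p] (Fin d → ZMod p)) (b : Fin d → ZMod p), ∀ x, τ x = A x + b} := by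
  classical
  have hpp : p.Prime := Fact.out
  constructor
  · intro hσ
    have h2 : (2 : ZMod p) ≠ 0 := by
      intro h
      have : ((2 : ℕ) : ZMod p) = 0 := by exact_mod_cast h
      rw [ZMod.natCast_eq_zero_iff] at this
      exact hp ((Nat.prime_dvd_prime_iff_eq hpp Nat.prime_two).mp this)
    -- affine ratio property
    have hratio : ∀ (a c : Fin d → ZMod p) (l : ZMod p), σ (a + l • (c - a)) = σ a + l • (σ c - σ a) := by
      intro a c l
      obtain ⟨h, hhG, hh⟩ := hσ ![a, c, a + l • (c - a)]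
      obtain ⟨B, e, hB⟩ := haff hhG
      have h0 : σ a = h a := hh 0
      have h1 : σ c = h c := hh 1
      have h2 : σ (a + l • (c - a)) = h (a + l • (c - a)) := hh 2
      rw [h0, h1, h2, hB, hB, hB, map_add, map_smul, map_sub]
      have : B c + e - (B a + e) = B c - B a := by abel
      rw [this]
      abel
    have hsmul : ∀ (l : ZMod p) (x : Fin d → ZMod p), σ (l • x) - σ 0 = l • (σ x - σ 0) := by
      intro l x
      have := hratio 0 x l
      simp only [zero_add, sub_zero] at this
      rw [this]; abel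
    have hadd : ∀ x y : Fin d → ZMod p, σ (x + y) - σ 0 = (σ x - σ 0) + (σ y - σ 0) := by
      intro x y
      have h3 := hratio ((2 : ZMod p) • x) ((2 : ZMod p) • y) (2⁻¹)
      have h4 : (2 : ZMod p) • x + (2⁻¹ : ZMod p) • ((2 : ZMod p) • y - (2 : ZMod p) • x) = x + y := by
        rw [smul_sub, smul_smul, smul_smul, inv_mul_cancel₀ h2, one_smul, one_smul, two_smul]
        abel
      rw [h4] at h3
      have h5 := hsmul 2 x
      have h6 := hsmul 2 y
      have h7 : σ ((2 : ZMod p) • x) = (2 : ZMod p) • (σ x - σ 0) + σ 0 := by rw [← h5]; abel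
      have h8 : σ ((2 : ZMod p) • y) = (2 : ZMod p) • (σ y - σ 0) + σ 0 := by rw [← h6]; abel
      rw [h3, h7, h8, add_sub_add_right_eq_sub, smul_sub (2⁻¹ : ZMod p), smul_smul, smul_smul,
        inv_mul_cancel₀ h2, one_smul, one_smul, two_smul]
      abel
    let A0 : (Fin d → ZMod p) →ₗ[ZMod p] (Fin d → ZMod p) :=
      { toFun := fun x => σ x - σ 0
        map_add' := hadd
        map_smul' := hsmul }
    have hinj : Function.Injective A0 := by
      intro x y hxy
      have : σ x - σ 0 = σ y - σ 0 := hxy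
      exact σ.injective (sub_left_injective this)
    refine ⟨LinearEquiv.ofInjectiveEndo A0 hinj, σ 0, fun x => ?_⟩
    have : (LinearEquiv.ofInjectiveEndo A0 hinj) x = σ x - σ 0 := rfl
    rw [this]; abel
  · rintro ⟨A, b, hA⟩ t
    -- a proper subspace containing the differences
    set W : Submodule (ZMod p) (Fin d → ZMod p) := Submodule.span (ZMod p) {t 1 - t 0, t 2 - t 0} with hW
    have hWlt : W < ⊤ := by
      rw [lt_top_iff_ne_top]
      intro htop
      have h1 : Module.finrank (ZMod p) W ≤ 2 := by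
        refine (finrank_span_le_card _).trans ?_
        have : ({t 1 - t 0, t 2 - t 0} : Set (Fin d → ZMod p)).toFinset = {t 1 - t 0, t 2 - t 0} := by
          ext; simp
        rw [this]
        exact Finset.card_le_two
      rw [htop, finrank_top, Module.finrank_fin_fun] at h1
      omega
    obtain ⟨f, hf0, hf⟩ := Submodule.exists_le_ker_of_lt_top W hWlt
    obtain ⟨v, hv⟩ : ∃ v, f v ≠ 0 := by
      by_contra hcon
      push Not at hcon
      exact hf0 (LinearMap.ext hcon)
    set δ : ZMod p := (LinearMap.det (A : (Fin d → ZMod p) →ₗ[ZMod p] (Fin d → ZMod p)))⁻¹ with hδ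
    have hdet0 : LinearMap.det (A : (Fin d → ZMod p) →ₗ[ZMod p] (Fin d → ZMod p)) ≠ 0 := by
      have := LinearEquiv.isUnit_det' A
      exact this.ne_zero
    set w : Fin d → ZMod p := ((δ - 1) * (f v)⁻¹) • v with hw
    have hfw : 1 + f w = δ := by
      rw [hw, map_smul, smul_eq_mul, mul_assoc, inv_mul_cancel₀ hv]; ring
    have hδu : IsUnit (1 + f w) := by
      rw [hfw, hδ]; exact (inv_ne_zero hdet0).isUnit
    set C : (Fin d → ZMod p) ≃ₗ[ZMod p] (Fin d → ZMod p) := LinearEquiv.dilatransvection hδu with hC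
    have hCW : ∀ x ∈ W, C x = x := by
      intro x hx
      rw [hC, LinearEquiv.dilatransvection.apply]
      have : f x = 0 := hf hx
      rw [this, zero_smul, add_zero]
    have hdetC : LinearMap.det (C : (Fin d → ZMod p) →ₗ[ZMod p] (Fin d → ZMod p)) = δ := by
      rw [hC, LinearEquiv.dilatransvection.coe_toLinearMap, LinearMap.transvection.det, hfw]
    have hdetB : LinearMap.det ((C.trans A : (Fin d → ZMod p) ≃ₗ[ZMod p] (Fin d → ZMod p)) :
        (Fin d → ZMod p) →ₗ[ZMod p] (Fin d → ZMod p)) = 1 := by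
      rw [LinearEquiv.coe_trans, LinearMap.det_comp, hdetC, hδ, mul_inv_cancel₀ hdet0]
    obtain ⟨g, hgG, hg⟩ := hsl (C.trans A) hdetB
    obtain ⟨τ, hτG, hτ⟩ := htrans (A (t 0) + b - (C.trans A) (t 0))
    refine ⟨τ * g, G.mul_mem hτG hgG, fun i => ?_⟩
    have hmem : t i - t 0 ∈ W := by
      fin_cases i
      · simp
      · exact Submodule.subset_span (by simp)
      · exact Submodule.subset_span (by simp)
    rw [Equiv.Perm.mul_apply, hτ, hg, hA]
    have h9 : (C.trans A) (t i) - (C.trans A) (t 0) = A (t i) - A (t 0) := by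
      rw [← map_sub, LinearEquiv.trans_apply, hCW _ hmem, map_sub]
    calc A (t i) + b = (A (t i) - A (t 0)) + (A (t 0) + b) := by abel
      _ = ((C.trans A) (t i) - (C.trans A) (t 0)) + (A (t 0) + b) := by rw [h9]
      _ = (C.trans A) (t i) + (A (t 0) + b - (C.trans A) (t 0)) := by abel

end Cfsg.Agent.S3516
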