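import Cfsg.Statements.S3517


set_option autoImplicit false
open Cfsg

namespace Cfsg.Agent.S3517

theorem exists_equiv_of_linearIndependent {K V ι : Type*} [Field K] [AddCommGroup V] [Module K V]
    [FiniteDimensional K V] (u v : ι → V) (hu : LinearIndependent K u) (hv : LinearIndependent K v) :
    ∃ A : V ≃ₗ[K] V, ∀ i, A (u i) = v i := by
  classical
  obtain ⟨W1, h1⟩ := Submodule.exists_isCompl (Submodule.span K (Set.range u))
  obtain ⟨W2, h2⟩ := Submodule.exists_isCompl (Submodule.span K (Set.range v))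
  have e1 : ∃ e : Submodule.span K (Set.range u) ≃ₗ[K] Submodule.span K (Set.range v),
      ∀ i, e ⟨u i, Submodule.subset_span ⟨i, rfl⟩⟩ = ⟨v i, Submodule.subset_span ⟨i, rfl⟩⟩ := by
    refine ⟨(Module.Basis.span hu).equiv (Module.Basis.span hv) (Equiv.refl _), ?_⟩
    intro i
    have : (⟨u i, Submodule.subset_span ⟨i, rfl⟩⟩ : Submodule.span K (Set.range u)) = Module.Basis.span hu i :=
      (Module.Basis.span_apply hu i).symm
    rw [this, Module.Basis.equiv_apply]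
    exact Module.Basis.span_apply hv i
  obtain ⟨e1, he1⟩ := e1
  have hf : Module.finrank K W1 = Module.finrank K W2 := by
    have a1 := Submodule.finrank_add_eq_of_isCompl h1
    have a2 := Submodule.finrank_add_eq_of_isCompl h2
    have a3 := e1.finrank_eq
    omega
  let e2 : W1 ≃ₗ[K] W2 := LinearEquiv.ofFinrankEq _ _ hf
  refine ⟨(Submodule.prodEquivOfIsCompl _ _ h1).symm ≪≫ₗ (e1.prodCongr e2) ≪≫ₗ
    Submodule.prodEquivOfIsCompl _ _ h2, fun i => ?_⟩
  have h3 : (Submodule.prodEquivOfIsCompl _ _ h1).symm (u i) =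
      (⟨u i, Submodule.subset_span ⟨i, rfl⟩⟩, 0) :=
    Submodule.prodEquivOfIsCompl_symm_apply_left _ _ h1 ⟨u i, Submodule.subset_span ⟨i, rfl⟩⟩
  simp [h3, he1]

theorem aux (d : ℕ) (u1 u2 v1 v2 : Fin d → ZMod 2) (h1 : u1 = 0 ↔ v1 = 0) (h2 : u2 = 0 ↔ v2 = 0)
    (h3 : u1 = u2 ↔ v1 = v2) :
    ∃ A : (Fin d → ZMod 2) ≃ₗ[ZMod 2] (Fin d → ZMod 2), A u1 = v1 ∧ A u2 = v2 := by
  have one : ∀ a b : Fin d → ZMod 2, a ≠ 0 → b ≠ 0 →
      ∃ A : (Fin d → ZMod 2) ≃ₗ[ZMod 2] (Fin d → ZMod 2), A a = b := by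
    intro a b ha hb
    obtain ⟨A, hA⟩ := exists_equiv_of_linearIndependent (K := ZMod 2) (ι := Unit) (fun _ => a) (fun _ => b)
      (LinearIndependent.of_subsingleton () ha) (LinearIndependent.of_subsingleton () hb)
    exact ⟨A, hA ()⟩
  have ind : ∀ a b : Fin d → ZMod 2, a ≠ 0 → b ≠ 0 → a ≠ b → LinearIndependent (ZMod 2) ![a, b] := by
    intro a b ha hb hab
    rw [LinearIndependent.pair_iff' ha]
    intro c
    have hc : c = 0 ∨ c = 1 := by revert c; decide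
    rcases hc with rfl | rfl
    · rw [zero_smul]; exact hb.symm
    · rw [one_smul]; exact hab
  by_cases hu1 : u1 = 0
  · have hv1 := h1.mp hu1
    by_cases hu2 : u2 = 0
    · exact ⟨LinearEquiv.refl _ _, by simp [hu1, hv1], by simp [hu2, h2.mp hu2]⟩
    · obtain ⟨A, hA⟩ := one u2 v2 hu2 (fun h => hu2 (h2.mpr h))
      exact ⟨A, by rw [hu1, hv1, map_zero], hA⟩
  · have hv1 : v1 ≠ 0 := fun h => hu1 (h1.mpr h)
    by_cases hu2 : u2 = 0
    · obtain ⟨A, hA⟩ := one u1 v1 hu1 hv1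
      exact ⟨A, hA, by rw [hu2, h2.mp hu2, map_zero]⟩
    · have hv2 : v2 ≠ 0 := fun h => hu2 (h2.mpr h)
      by_cases h : u1 = u2
      · obtain ⟨A, hA⟩ := one u1 v1 hu1 hv1
        exact ⟨A, hA, by rw [← h, hA, h3.mp h]⟩
      · have hv : v1 ≠ v2 := fun h' => h (h3.mpr h')
        obtain ⟨A, hA⟩ := exists_equiv_of_linearIndependent _ _ (ind u1 u2 hu1 hu2 h) (ind v1 v2 hv1 hv2 hv)
        exact ⟨A, by simpa using hA 0, by simpa using hA 1⟩


/-- For d ≥ 3, the 3-closure of the affine group AGL_d(2) acting on F_2^d is the full symmetric group: every permutation of F_2^d agrees on every ordered triple of points with some affine map (AGL_d(2) is 3-transitive). -/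
theorem result (d : ℕ) (hd : 3 ≤ d) (σ : Equiv.Perm (Fin d → ZMod 2)) (t : Fin 3 → (Fin d → ZMod 2)) :
    ∃ (A : (Fin d → ZMod 2) ≃ₗ[ZMod 2] (Fin d → ZMod 2)) (b : Fin d → ZMod 2), ∀ i, σ (t i) = A (t i) + b := by
  obtain ⟨A, h1, h2⟩ := aux d (t 1 - t 0) (t 2 - t 0) (σ (t 1) - σ (t 0)) (σ (t 2) - σ (t 0))
    (by rw [sub_eq_zero, sub_eq_zero, σ.injective.eq_iff])
    (by rw [sub_eq_zero, sub_eq_zero, σ.injective.eq_iff])
    (by rw [sub_left_inj, sub_left_inj, σ.injective.eq_iff])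
  refine ⟨A, σ (t 0) - A (t 0), ?_⟩
  intro i
  fin_cases i
  · simp
  · rw [map_sub] at h1
    show σ (t 1) = A (t 1) + (σ (t 0) - A (t 0))
    rw [eq_comm, sub_eq_sub_iff_add_eq_add] at h1
    rw [add_sub, eq_sub_iff_add_eq, h1]
  · rw [map_sub] at h2
    show σ (t 2) = A (t 2) + (σ (t 0) - A (t 0))
    rw [eq_comm, sub_eq_sub_iff_add_eq_add] at h2
    rw [add_sub, eq_sub_iff_add_eq, h2]

end Cfsg.Agent.S3517
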