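import Cfsg.Statements.S3518


set_option autoImplicit false
open Cfsg

namespace Cfsg.Agent.S3518

open Finset Polynomial

theorem sum_pow_small (p : ℕ) [Fact p.Prime] (n : ℕ) (hn0 : 0 < n) (hn : n < 2 * (p - 1)) :
    ∑ y : ZMod p, y ^ n = if n = p - 1 then -1 else 0 := by
  have hp : p.Prime := Fact.out
  have hp2 := hp.two_le
  split_ifs with h
  · subst h
    have h1 : ∀ y : ZMod p, y ^ (p - 1) = 1 - (if y = 0 then 1 else 0) := by
      intro y
      by_cases hy : y = 0
      · rw [hy, if_pos rfl, zero_pow (by omega), sub_self]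
      · rw [if_neg hy, sub_zero, ZMod.pow_card_sub_one_eq_one hy]
    rw [Finset.sum_congr rfl (fun y _ => h1 y), Finset.sum_sub_distrib]
    simp
  · rcases lt_or_gt_of_ne h with h1 | h1
    · exact FiniteField.sum_pow_lt_card_sub_one (K := ZMod p) _ (by rwa [ZMod.card])
    · have h2 : ∀ y : ZMod p, y ^ n = y ^ (n - (p - 1)) := by
        intro y
        have h3 : y ^ n = y ^ (n - p) * y ^ p := by rw [← pow_add]; congr 1; omega
        rw [h3, ZMod.pow_card, ← pow_succ]
        congr 1; omega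
      rw [Finset.sum_congr rfl (fun y _ => h2 y)]
      exact FiniteField.sum_pow_lt_card_sub_one (K := ZMod p) _ (by rw [ZMod.card]; omega)

theorem sum_mul_sub_pow (p : ℕ) [Fact p.Prime] (m i : ℕ) (hi : i ≤ m) (hm : m < p - 1) (z : ZMod p) :
    ∑ y : ZMod p, y ^ (p - 1 - i) * (z - y) ^ m = - ((m.choose i : ZMod p) * (-1) ^ i * z ^ (m - i)) := by
  have h1 : ∀ y : ZMod p, y ^ (p - 1 - i) * (z - y) ^ m =
      ∑ j ∈ range (m + 1), ((-1) ^ j * z ^ (m - j) * (m.choose j : ZMod p)) * y ^ (p - 1 - i + j) := by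
    intro y
    rw [sub_eq_add_neg, add_comm, add_pow, Finset.mul_sum]
    refine Finset.sum_congr rfl fun j _ => ?_
    rw [neg_pow, pow_add]; ring
  rw [Finset.sum_congr rfl (fun y _ => h1 y), Finset.sum_comm]
  rw [Finset.sum_eq_single i]
  · rw [← Finset.mul_sum, sum_pow_small p _ (by omega) (by omega), if_pos (by omega)]
    ring
  · intro j hj hji
    rw [Finset.mem_range] at hj
    rw [← Finset.mul_sum, sum_pow_small p _ (by omega) (by omega), if_neg (by omega), mul_zero]
  · intro h
    exact absurd (Finset.mem_range.mpr (by omega)) h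

/-- key: if `(σ x - σ y)^m = (x-y)^m` with `0 < m`, `2m ≤ p-1` then `σ` is affine. -/
theorem affine_of_pow (p : ℕ) [Fact p.Prime] (σ : Equiv.Perm (ZMod p)) (m : ℕ) (hm0 : 0 < m)
    (hm : 2 * m ≤ p - 1) (h : ∀ x y, (σ x - σ y) ^ m = (x - y) ^ m) :
    ∃ a b : ZMod p, ∀ x, σ x = a * x + b := by
  have hp : p.Prime := Fact.out
  have hp2 := hp.two_le
  -- powers of σ are of degree at most m
  have key : ∀ j, j ≤ m → ∃ g : (ZMod p)[X], g.natDegree ≤ m ∧ ∀ x, g.eval x = σ x ^ j := by
    intro j hj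
    set i := m - j with hi
    set c : ZMod p := (m.choose i : ZMod p) * (-1) ^ i with hc
    have hc0 : c ≠ 0 := by
      refine mul_ne_zero ?_ (pow_ne_zero _ (by simp))
      intro h0
      rw [ZMod.natCast_eq_zero_iff] at h0
      have h1 : p ∣ m.factorial := by
        have := Nat.choose_mul_factorial_mul_factorial (n := m) (k := i) (by omega)
        rw [← this, mul_assoc]
        exact Dvd.dvd.mul_right h0 _
      have := (hp.dvd_factorial).mp h1
      omega
    refine ⟨C (-c⁻¹) * ∑ y : ZMod p, C (σ y ^ (p - 1 - i)) * (X - C y) ^ m, ?_, ?_⟩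
    · refine (natDegree_C_mul_le _ _).trans ?_
      refine natDegree_sum_le_of_forall_le _ _ fun y _ => ?_
      refine (natDegree_C_mul_le _ _).trans ?_
      refine natDegree_pow_le.trans ?_
      rw [natDegree_X_sub_C, mul_one]
    · intro x
      have h1 : ∑ y : ZMod p, σ y ^ (p - 1 - i) * (x - y) ^ m = - (c * σ x ^ (m - i)) := by
        rw [hc, ← sum_mul_sub_pow p m i (by omega) (by omega) (σ x)]
        rw [← Equiv.sum_comp σ (fun y => y ^ (p - 1 - i) * (σ x - y) ^ m)]
        exact Finset.sum_congr rfl fun y _ => by rw [h]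
      rw [eval_mul, eval_C, eval_finsetSum]
      simp only [eval_mul, eval_C, eval_pow, eval_sub, eval_X]
      rw [h1]
      have h2 : m - i = j := by omega
      rw [h2, neg_mul_neg, ← mul_assoc, inv_mul_cancel₀ hc0, one_mul]
  obtain ⟨f, hf, hfx⟩ := key 1 hm0
  have hfx' : ∀ x, f.eval x = σ x := fun x => by rw [hfx, pow_one]
  have hdeg : f.natDegree ≤ 1 := by
    by_contra hcon
    push Not at hcon
    set e := f.natDegree with he
    set j := m / e + 1 with hj
    have hj1 : m < j * e := by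
      rw [hj, add_mul, one_mul]
      have := Nat.lt_div_mul_add (a := m) (b := e) (by omega)
      omega
    have hj2 : j * e ≤ 2 * m := by
      rw [hj, add_mul, one_mul]
      have := Nat.div_mul_le_self m e
      omega
    have hj3 : j ≤ m := by
      have : m / e ≤ m / 2 := Nat.div_le_div_left (by omega) (by omega)
      omega
    obtain ⟨g, hg, hgx⟩ := key j hj3
    have h1 : g = f ^ j := by
      have h2 : (g - f ^ j).natDegree < p := by
        refine (natDegree_sub_le _ _).trans_lt ?_
        rw [natDegree_pow]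
        refine max_lt (by omega) ?_
        rw [← he]; omega
      have h3 : g - f ^ j = 0 := by
        refine eq_zero_of_natDegree_lt_card_of_eval_eq_zero (g - f ^ j) (f := (id : ZMod p → ZMod p)) (fun a b h => h) ?_ ?_
        · intro i
          simp [hgx, hfx']
        · rw [ZMod.card]; exact h2
      exact sub_eq_zero.mp h3
    rw [h1, natDegree_pow, ← he] at hg
    omega
  refine ⟨f.coeff 1, f.coeff 0, fun x => ?_⟩
  rw [← hfx' x]
  conv_lhs => rw [eq_X_add_C_of_natDegree_le_one hdeg]
  simp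


/-- Closures of subgroups of the one-dimensional affine group. Let p be a prime and G a group of permutations of F_p lying in the affine group AGL₁(p) = {x ↦ ax + b, a ≠ 0} and containing all translations. (1) If G is a proper subgroup of AGL₁(p), then G is 2-closed: a permutation of F_p agreeing on every ordered pair of points with some element of G lies in G. (2) Every permutation of F_p agrees on every ordered pair with some element of AGL₁(p) (the 2-closure of AGL₁(p) is the symmetric group). (3) AGL₁(p) is 3-closed: a permutation agreeing on every ordered triple with some affine map is affine. -/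
theorem result (p : ℕ) [Fact p.Prime] (G : Subgroup (Equiv.Perm (ZMod p))) (hG : G ≤ Cfsg.affineGroup (ZMod p))
    (htrans : ∀ b : ZMod p, ∃ g ∈ G, ∀ x, g x = x + b) :
    (G ≠ Cfsg.affineGroup (ZMod p) → ∀ σ : Equiv.Perm (ZMod p), (∀ t : Fin 2 → ZMod p, ∃ g ∈ G, ∀ i, σ (t i) = g (t i)) → σ ∈ G) ∧
    (∀ σ : Equiv.Perm (ZMod p), (∀ t : Fin 2 → ZMod p, ∃ g ∈ Cfsg.affineGroup (ZMod p), ∀ i, σ (t i) = g (t i))) ∧
    (∀ σ : Equiv.Perm (ZMod p), (∀ t : Fin 3 → ZMod p, ∃ g ∈ Cfsg.affineGroup (ZMod p), ∀ i, σ (t i) = g (t i)) → σ ∈ Cfsg.affineGroup (ZMod p)) := by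
  have hp : p.Prime := Fact.out
  have hp2 := hp.two_le
  -- two affine maps agreeing at 0 and 1 are equal
  have eqaff : ∀ g ∈ Cfsg.affineGroup (ZMod p), ∀ h ∈ Cfsg.affineGroup (ZMod p), g 0 = h 0 → g 1 = h 1 →
      ∀ x, g x = h x := by
    rintro g ⟨a, b, hg⟩ h ⟨c, d, hh⟩ h0 h1 x
    rw [hg, hh, mul_zero, mul_zero, zero_add, zero_add] at h0
    rw [hg, hh, h0, mul_one, mul_one, add_left_inj] at h1
    rw [hg, hh, h0, h1]
  have hinj01 : (0 : ZMod p) ≠ 1 := zero_ne_one
  refine ⟨?_, ?_, ?_⟩
  · intro hne σ hσ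
    -- the subgroup H of multipliers
    let H : Subgroup (ZMod p)ˣ :=
      { carrier := {a | ∃ g ∈ G, ∃ b : ZMod p, ∀ x, g x = (a : ZMod p) * x + b}
        one_mem' := ⟨1, G.one_mem, 0, fun x => by simp⟩
        mul_mem' := by
          rintro a c ⟨g, hg, b, h1⟩ ⟨h, hh, d, h2⟩
          refine ⟨g * h, G.mul_mem hg hh, (a : ZMod p) * d + b, fun x => ?_⟩
          simp only [Equiv.Perm.coe_mul, Function.comp_apply, h1, h2, Units.val_mul]; ring
        inv_mem' := by
          rintro a ⟨g, hg, b, h1⟩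
          refine ⟨g⁻¹, G.inv_mem hg, -((a⁻¹ : (ZMod p)ˣ) : ZMod p) * b, fun x => ?_⟩
          apply g.injective
          rw [Equiv.Perm.inv_def, Equiv.apply_symm_apply, h1, mul_add, ← mul_assoc, Units.mul_inv, one_mul,
            neg_mul, mul_neg, ← mul_assoc, Units.mul_inv, one_mul, neg_add_cancel_right] }
    have hmem : ∀ g ∈ G, ∀ (a : (ZMod p)ˣ) (b : ZMod p), (∀ x, g x = (a : ZMod p) * x + b) → a ∈ H :=
      fun g hg a b h => ⟨g, hg, b, h⟩
    have hHG : ∀ a ∈ H, ∀ b : ZMod p, ∀ g : Equiv.Perm (ZMod p), (∀ x, g x = (a : ZMod p) * x + b) → g ∈ G := by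
      rintro a ⟨h, hh, d, h1⟩ b g hg
      obtain ⟨t, ht, htx⟩ := htrans (b - d)
      have : g = t * h := by
        refine Equiv.ext fun x => ?_
        rw [Equiv.Perm.coe_mul, Function.comp_apply, hg, htx, h1]
        ring
      rw [this]
      exact G.mul_mem ht hh
    have hHtop : H ≠ ⊤ := by
      intro htop
      apply hne
      refine le_antisymm hG ?_
      rintro g ⟨a, b, hg⟩
      exact hHG a (by rw [htop]; exact Subgroup.mem_top _) b g hg
    set m := Nat.card H with hm
    have hm0 : 0 < m := Nat.card_pos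
    have hmi : m * H.index = p - 1 := by
      rw [hm, Subgroup.card_mul_index, Nat.card_eq_fintype_card, ZMod.card_units]
    have hi0 : H.index ≠ 0 := Subgroup.index_ne_zero_of_finite
    have hi1 : H.index ≠ 1 := fun h => hHtop (Subgroup.index_eq_one.mp h)
    have hm2 : 2 * m ≤ p - 1 := by
      rw [← hmi, mul_comm 2 m]
      exact Nat.mul_le_mul_left _ (by omega)
    have hpow : ∀ x y, (σ x - σ y) ^ m = (x - y) ^ m := by
      intro x y
      obtain ⟨g, hg, hgt⟩ := hσ ![x, y]
      obtain ⟨a, b, hab⟩ := hG hg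
      have haH := hmem g hg a b hab
      have h1 : σ x = g x := hgt 0
      have h2 : σ y = g y := hgt 1
      rw [h1, h2, hab, hab]
      have h3 : (a : ZMod p) * x + b - (a * y + b) = a * (x - y) := by ring
      rw [h3, mul_pow]
      have h4 : a ^ m = 1 := by
        have := pow_card_eq_one' (x := (⟨a, haH⟩ : H))
        exact congrArg Subtype.val this
      rw [← Units.val_pow_eq_pow_val, h4, Units.val_one, one_mul]
    obtain ⟨a, b, hab⟩ := affine_of_pow p σ m hm0 hm2 hpow
    obtain ⟨g, hg, hgt⟩ := hσ ![0, 1]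
    have h0 : σ 0 = g 0 := hgt 0
    have h1 : σ 1 = g 1 := hgt 1
    have ha : a ≠ 0 := by
      rintro rfl
      have : σ 0 = σ 1 := by rw [hab, hab]; simp
      exact hinj01 (σ.injective this)
    have hσa : σ ∈ Cfsg.affineGroup (ZMod p) := ⟨Units.mk0 a ha, b, hab⟩
    have : σ = g := Equiv.ext (eqaff σ hσa g (hG hg) h0 h1)
    rw [this]; exact hg
  · intro σ t
    by_cases h : t 0 = t 1
    · refine ⟨Equiv.addRight (σ (t 0) - t 0), ⟨1, σ (t 0) - t 0, fun x => by simp⟩, ?_⟩
      intro i
      fin_cases i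
      · simp
      · simp [← h]
    · have h1 : t 0 - t 1 ≠ 0 := sub_ne_zero.mpr h
      have h2 : σ (t 0) - σ (t 1) ≠ 0 := sub_ne_zero.mpr (fun h' => h (σ.injective h'))
      set a : (ZMod p)ˣ := Units.mk0 ((σ (t 0) - σ (t 1)) / (t 0 - t 1)) (div_ne_zero h2 h1) with ha
      refine ⟨(Units.mulLeft a).trans (Equiv.addRight (σ (t 0) - a * t 0)),
        ⟨a, σ (t 0) - a * t 0, fun x => by simp⟩, ?_⟩
      have h3 : (a : ZMod p) * (t 0 - t 1) = σ (t 0) - σ (t 1) := by
        rw [ha, Units.val_mk0, div_mul_cancel₀ _ h1]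
      intro i
      fin_cases i
      · simp
      · simp only [Fin.mk_one, Fin.isValue, Equiv.trans_apply, Units.mulLeft_apply, Equiv.coe_addRight]
        linear_combination h3
  · intro σ hσ
    obtain ⟨g, hg, hgt⟩ := hσ ![0, 1, 0]
    have h0 : σ 0 = g 0 := hgt 0
    have h1 : σ 1 = g 1 := hgt 1
    have : σ = g := by
      ext1 x
      obtain ⟨k, hk, hkt⟩ := hσ ![0, 1, x]
      have k0 : σ 0 = k 0 := hkt 0
      have k1 : σ 1 = k 1 := hkt 1
      have kx : σ x = k x := hkt 2
      rw [kx]
      exact eqaff k hk g hg (by rw [← k0, h0]) (by rw [← k1, h1]) x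
    rw [this]; exact hg

end Cfsg.Agent.S3518
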