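import Cfsg.Statements.S3532
import Cfsg.Agent.Lib.AffSpec
import Cfsg.Agent.Lib.PSL2Orders

set_option autoImplicit false
open Cfsg

namespace Cfsg.Agent.S3532

open Cfsg.Agent.Lib.AffSpec


/-- Let q ≥ 4 be a prime power and L = PSL(2,q). There is a finite solvable group with the same set of element orders as L × L (so L × L is not determined by its spectrum). -/
theorem result {F : Type*} [Field F] [Fintype F] (hF : 4 ≤ Fintype.card F) :
    ∃ (H : Type) (_ : Group H) (_ : Finite H), Group.IsSolvable H ∧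
      Set.range (orderOf : H → ℕ) = Set.range (orderOf : Matrix.ProjectiveSpecialLinearGroup (Fin 2) F × Matrix.ProjectiveSpecialLinearGroup (Fin 2) F → ℕ) := by
  classical
  obtain ⟨p, hchar⟩ := CharP.exists F
  obtain ⟨n, hp, hn⟩ := FiniteField.card F p
  haveI : Fact p.Prime := ⟨hp⟩
  set q := Fintype.card F with hq
  set d := Nat.gcd 2 (q - 1) with hd
  have hdq : d ∣ q - 1 := Nat.gcd_dvd_right _ _
  have hd2 : d ∣ 2 := Nat.gcd_dvd_left _ _
  have hdq' : d ∣ q + 1 := by
    have : q + 1 = (q - 1) + 2 := by omega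
    rw [this]
    exact dvd_add hdq hd2
  set s := (q - 1) / d with hs
  set t := (q + 1) / d with ht
  have hn0 : (n : ℕ) ≠ 0 := n.pos.ne'
  have hc1 : Nat.card (GaloisField p n) = q := by rw [GaloisField.card p n hn0, hn]
  have hc2 : Nat.card (GaloisField p (2 * n)) = q ^ 2 := by
    rw [GaloisField.card p (2 * n) (by omega), hn, mul_comm 2, pow_mul]
  have hf1 : Finite (GaloisField p n) := Nat.finite_of_card_ne_zero (by rw [hc1]; omega)
  have hf2 : Finite (GaloisField p (2 * n)) := Nat.finite_of_card_ne_zero (by rw [hc2]; positivity)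
  obtain ⟨C1, hC1⟩ := exists_subgroup (K := GaloisField p n) s (by
    rw [hc1]; exact Nat.div_dvd_of_dvd hdq)
  obtain ⟨C2, hC2⟩ := exists_subgroup (K := GaloisField p (2 * n)) t (by
    rw [hc2]
    refine (Nat.div_dvd_of_dvd hdq').trans ⟨q - 1, ?_⟩
    rw [← Nat.sq_sub_sq])
  refine ⟨Aff C1 × Aff C2, inferInstance, ?_, ?_, ?_⟩
  · haveI := finite C1
    haveI := finite C2
    infer_instance
  · haveI := isSolvable C1
    haveI := isSolvable C2
    infer_instance
  · have e1 := spectrum p C1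
    have e2 := spectrum p C2
    have e3 := Cfsg.Agent.Lib.PSL2Orders.spectrum (F := F) p
    rw [hC1] at e1
    rw [hC2] at e2
    have m1 : ∀ m, (m ∣ p ∨ m ∣ s) ↔ ∃ g : Aff C1, orderOf g = m := fun m => (Set.ext_iff.mp e1 m).symm
    have m2 : ∀ m, (m ∣ p ∨ m ∣ t) ↔ ∃ g : Aff C2, orderOf g = m := fun m => (Set.ext_iff.mp e2 m).symm
    have m3 : ∀ m, (m ∣ p ∨ m ∣ s ∨ m ∣ t) ↔ ∃ g : Matrix.ProjectiveSpecialLinearGroup (Fin 2) F, orderOf g = m :=
      fun m => (Set.ext_iff.mp e3 m).symm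
    ext m
    constructor
    · rintro ⟨⟨g, h⟩, rfl⟩
      rw [Prod.orderOf]
      obtain ⟨g', hg'⟩ := (m3 (orderOf g)).mp (by
        rcases (m1 _).mpr ⟨g, rfl⟩ with h1 | h1
        · exact Or.inl h1
        · exact Or.inr (Or.inl h1))
      obtain ⟨h', hh'⟩ := (m3 (orderOf h)).mp (by
        rcases (m2 _).mpr ⟨h, rfl⟩ with h1 | h1
        · exact Or.inl h1
        · exact Or.inr (Or.inr h1))
      refine ⟨(g', h'), ?_⟩
      rw [Prod.orderOf, hg', hh']
    · rintro ⟨⟨g, h⟩, rfl⟩
      rw [Prod.orderOf]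
      have key : ∀ a b, (a ∣ p ∨ a ∣ s) → (b ∣ p ∨ b ∣ t) → ∃ x : Aff C1 × Aff C2, orderOf x = a.lcm b := by
        intro a b ha hb
        obtain ⟨x, hx⟩ := (m1 a).mp ha
        obtain ⟨y, hy⟩ := (m2 b).mp hb
        exact ⟨(x, y), by rw [Prod.orderOf, hx, hy]⟩
      have key' : ∀ a b, (a ∣ p ∨ a ∣ s) → (b ∣ p ∨ b ∣ t) → ∃ x : Aff C1 × Aff C2, orderOf x = b.lcm a := by
        intro a b ha hb
        rw [Nat.lcm_comm]; exact key a b ha hb
      have hA := (m3 (orderOf g)).mpr ⟨g, rfl⟩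
      have hB := (m3 (orderOf h)).mpr ⟨h, rfl⟩
      show ∃ x : Aff C1 × Aff C2, orderOf x = (orderOf g).lcm (orderOf h)
      generalize orderOf g = a at hA
      generalize orderOf h = b at hB
      rcases hA with hA | hA | hA
      · rcases hB with hB | hB | hB
        · have := key (a.lcm b) 1 (Or.inl (Nat.lcm_dvd hA hB)) (Or.inl (one_dvd _))
          rwa [Nat.lcm_one_right] at this
        · exact key' b a (Or.inr hB) (Or.inl hA)
        · exact key a b (Or.inl hA) (Or.inr hB)
      · rcases hB with hB | hB | hB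
        · exact key a b (Or.inr hA) (Or.inl hB)
        · have := key (a.lcm b) 1 (Or.inr (Nat.lcm_dvd hA hB)) (Or.inl (one_dvd _))
          rwa [Nat.lcm_one_right] at this
        · exact key a b (Or.inr hA) (Or.inr hB)
      · rcases hB with hB | hB | hB
        · exact key' b a (Or.inl hB) (Or.inr hA)
        · exact key' b a (Or.inr hB) (Or.inr hA)
        · have := key 1 (a.lcm b) (Or.inl (one_dvd _)) (Or.inr (Nat.lcm_dvd hA hB))
          rwa [Nat.lcm_one_left] at this

end Cfsg.Agent.S3532
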