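import Cfsg.Statements.S3547
import Cfsg.Agent.Lib.Derangements

set_option autoImplicit false
open Cfsg

namespace Cfsg.Agent.S3547


/-- Let G act faithfully and transitively on a finite set Ω, let D be the subgroup generated by the derangements, and let r_G and r_D be the numbers of orbits of G and of D on ordered pairs of points (the permutation ranks). Then r_D − 1 = (r_G − 1)·[G : D]. -/
theorem result {G Ω : Type*} [Group G] [Finite G] [MulAction G Ω] [FaithfulSMul G Ω] [Finite Ω]
    (htrans : MulAction.IsPretransitive G Ω) :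
    Nat.card (MulAction.orbitRel.Quotient ↥(Subgroup.closure {g : G | ∀ ω : Ω, g • ω ≠ ω}) (Ω × Ω)) - 1 =
      (Nat.card (MulAction.orbitRel.Quotient G (Ω × Ω)) - 1) * (Subgroup.closure {g : G | ∀ ω : Ω, g • ω ≠ ω}).index := by
  rcases isEmpty_or_nonempty Ω with hΩ | hΩ
  · have h1 : Nat.card (MulAction.orbitRel.Quotient ↥(Subgroup.closure {g : G | ∀ ω : Ω, g • ω ≠ ω}) (Ω × Ω)) = 0 := by
      rw [Nat.card_eq_zero]; left
      exact ⟨fun q => Quotient.inductionOn' q (fun x => hΩ.false x.1)⟩
    have h2 : Nat.card (MulAction.orbitRel.Quotient G (Ω × Ω)) = 0 := by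
      rw [Nat.card_eq_zero]; left
      exact ⟨fun q => Quotient.inductionOn' q (fun x => hΩ.false x.1)⟩
    rw [h1, h2]; simp
  · have h := Cfsg.Agent.Lib.Derangements.rank_formula (G := G) (Ω := Ω)
    unfold Cfsg.Agent.Lib.Derangements.derSub at h
    have h1 : 1 ≤ Nat.card (MulAction.orbitRel.Quotient G (Ω × Ω)) := by
      have : Nonempty (MulAction.orbitRel.Quotient G (Ω × Ω)) := by
        obtain ⟨x⟩ := hΩ
        exact ⟨Quotient.mk'' (x, x)⟩
      exact Nat.card_pos
    rw [Nat.sub_mul, one_mul]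
    have h2 : (Subgroup.closure {g : G | ∀ ω : Ω, g • ω ≠ ω}).index ≤
        Nat.card (MulAction.orbitRel.Quotient G (Ω × Ω)) * (Subgroup.closure {g : G | ∀ ω : Ω, g • ω ≠ ω}).index := Nat.le_mul_of_pos_left _ h1
    omega

end Cfsg.Agent.S3547
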