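import Cfsg.Statements.S3548
import Cfsg.Agent.Lib.Derangements

set_option autoImplicit false
open Cfsg

namespace Cfsg.Agent.S3548

open MulAction Cfsg.Agent.Lib.Derangements

theorem isPrimePow_of_regular_normal {G Ω : Type*} [Group G] [Finite G] [MulAction G Ω] [FaithfulSMul G Ω] [Finite Ω]
    [IsPretransitive G Ω] (hΩ : 2 ≤ Nat.card Ω) (D : Subgroup G) [D.Normal] [IsPretransitive D Ω] (α : Ω)
    (hreg : ∀ d ∈ D, d • α = α → d = 1)
    (htr : ∀ β γ : Ω, β ≠ α → γ ≠ α → ∃ g : G, g • α = α ∧ g • β = γ) : IsPrimePow (Nat.card Ω) := by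
  have hcard : Nat.card D = Nat.card Ω := by
    have h1 := index_stabilizer_of_transitive D α
    have h2 : stabilizer D α = ⊥ := by
      rw [eq_bot_iff]
      intro d hd
      rw [Subgroup.mem_bot]
      exact Subtype.ext (hreg d d.2 hd)
    rw [h2, Subgroup.index_bot] at h1
    exact h1
  have hconj : ∀ d₁ ∈ D, ∀ d₂ ∈ D, d₁ ≠ 1 → d₂ ≠ 1 → orderOf d₁ = orderOf d₂ := by
    intro d₁ h₁ d₂ h₂ n₁ n₂
    obtain ⟨g, hg1, hg2⟩ := htr (d₁ • α) (d₂ • α) (fun h => n₁ (hreg _ h₁ h)) (fun h => n₂ (hreg _ h₂ h))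
    have hc : g * d₁ * g⁻¹ ∈ D := Subgroup.Normal.conj_mem inferInstance _ h₁ g
    have h3 : (g * d₁ * g⁻¹) • α = d₂ • α := by
      rw [mul_smul, mul_smul, inv_smul_eq_iff.mpr hg1.symm, hg2]
    have h4 : d₂⁻¹ * (g * d₁ * g⁻¹) = 1 := by
      apply hreg _ (D.mul_mem (D.inv_mem h₂) hc)
      rw [mul_smul, h3, inv_smul_smul]
    have h5 : d₂ = g * d₁ * g⁻¹ := inv_mul_eq_one.mp h4
    rw [h5, ← MulAut.conj_apply, MulEquiv.orderOf_eq]
  rw [isPrimePow_iff_unique_prime_dvd, ← hcard]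
  have key : ∀ p : ℕ, p.Prime → p ∣ Nat.card D → ∃ d ∈ D, d ≠ 1 ∧ orderOf d = p := by
    intro p hp hpd
    have := Fact.mk hp
    obtain ⟨x, hx⟩ := exists_prime_orderOf_dvd_card' p hpd
    refine ⟨x, x.2, ?_, ?_⟩
    · intro h
      have : x = 1 := Subtype.ext h
      rw [this, orderOf_one] at hx
      exact hp.one_lt.ne hx
    · rw [← hx, Subgroup.orderOf_coe]
  refine ⟨(Nat.card D).minFac, ⟨Nat.minFac_prime (by omega), Nat.minFac_dvd _⟩, ?_⟩
  rintro q ⟨hq, hqd⟩
  obtain ⟨d₁, m₁, n₁, o₁⟩ := key q hq hqd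
  obtain ⟨d₂, m₂, n₂, o₂⟩ := key _ (Nat.minFac_prime (by omega : Nat.card D ≠ 1)) (Nat.minFac_dvd _)
  rw [← o₁, ← o₂]
  exact hconj _ m₁ _ m₂ n₁ n₂


/-- Let G act faithfully and transitively on a finite set with n ≥ 2 points and let D be the subgroup generated by the derangements. Then the index of D in G divides n − 1, and if it equals n − 1 then n is a prime power. -/
theorem result {G Ω : Type*} [Group G] [Finite G] [MulAction G Ω] [FaithfulSMul G Ω] [Finite Ω]
    (htrans : MulAction.IsPretransitive G Ω) (hΩ : 2 ≤ Nat.card Ω) :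
    (Subgroup.closure {g : G | ∀ ω : Ω, g • ω ≠ ω}).index ∣ Nat.card Ω - 1 ∧
    ((Subgroup.closure {g : G | ∀ ω : Ω, g • ω ≠ ω}).index = Nat.card Ω - 1 → IsPrimePow (Nat.card Ω)) := by
  have hne : Nonempty Ω := by
    by_contra h
    rw [not_nonempty_iff] at h
    rw [Nat.card_of_isEmpty] at hΩ
    omega
  obtain ⟨α⟩ := hne
  have hcompl : ({α}ᶜ : Set Ω).ncard = Nat.card Ω - 1 := by
    rw [Set.ncard_compl, Set.ncard_singleton]
  have hdvd := index_dvd_ncard (G := G) (Ω := Ω) α {α}ᶜ (by simp)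
    (by
      intro g hg x hx
      simp only [Set.mem_compl_iff, Set.mem_singleton_iff] at hx ⊢
      intro h
      apply hx
      rw [← hg] at h
      exact smul_left_cancel g h)
  rw [hcompl] at hdvd
  refine ⟨hdvd, fun heq => ?_⟩
  have hN := derSub_normal G Ω
  have hne : Nonempty Ω := ⟨α⟩
  have hT := (main (G := G) (Ω := Ω)).1
  have horb : ∀ β : Ω, β ≠ α → (orbit (stabilizer G α) β) = {α}ᶜ := by
    intro β hβ
    have hsub : orbit (stabilizer G α) β ⊆ {α}ᶜ := by
      rintro _ ⟨h, rfl⟩ hh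
      apply hβ
      have hh' : (h : G) • β = α := hh
      have h2 : (h : G) • α = α := h.2
      exact smul_left_cancel _ (hh'.trans h2.symm)
    have h1 := index_dvd_orbit (G := G) (Ω := Ω) hβ
    have hpos : 0 < (orbit (stabilizer G α) β).ncard := (Set.ncard_pos).mpr ⟨β, mem_orbit_self β⟩
    have h2 := Nat.le_of_dvd hpos h1
    apply Set.eq_of_subset_of_ncard_le hsub
    rw [hcompl, ← heq]
    exact h2
  have hDα : ∀ d ∈ derSub G Ω, d • α = α → d = 1 := by
    intro d hd hdα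
    apply FaithfulSMul.eq_of_smul_eq_smul (α := Ω)
    intro β
    rw [one_smul]
    by_cases hβ : β = α
    · rw [hβ, hdα]
    · have h1 := stab_stab_le (G := G) (Ω := Ω) hβ
      have h2 : stabilizer (stabilizer G α) β = (derSub G Ω).subgroupOf (stabilizer G α) := by
        apply Subgroup.eq_of_le_of_card_ge h1
        have h3 : (stabilizer (stabilizer G α) β).index = ((derSub G Ω).subgroupOf (stabilizer G α)).index := by
          rw [index_stabilizer, horb β hβ, hcompl, ← heq]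
          exact index_eq_relIndex α
        have h4 := (stabilizer (stabilizer G α) β).card_mul_index
        have h5 := ((derSub G Ω).subgroupOf (stabilizer G α)).card_mul_index
        rw [h3, ← h5] at h4
        have h6 : 0 < ((derSub G Ω).subgroupOf (stabilizer G α)).index := Nat.pos_of_ne_zero Subgroup.index_ne_zero_of_finite
        exact (Nat.eq_of_mul_eq_mul_right h6 h4).ge
      have h7 : (⟨d, hdα⟩ : stabilizer G α) ∈ (derSub G Ω).subgroupOf (stabilizer G α) := by
        rw [Subgroup.mem_subgroupOf]; exact hd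
      rw [← h2] at h7
      exact h7
  apply isPrimePow_of_regular_normal (G := G) hΩ (derSub G Ω) α hDα
  intro β γ hβ hγ
  have : γ ∈ orbit (stabilizer G α) β := by rw [horb β hβ]; exact hγ
  obtain ⟨h, hh⟩ := this
  exact ⟨h, h.2, hh⟩

end Cfsg.Agent.S3548
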