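import Cfsg.Statements.S3549
import Cfsg.Agent.Lib.Derangements

set_option autoImplicit false
open Cfsg

namespace Cfsg.Agent.S3549

open MulAction Cfsg.Agent.Lib.Derangements
open scoped Pointwise


/-- Let G act faithfully, transitively but imprimitively on a finite set with n points, and let D be the subgroup generated by the derangements. Then the index of D in G is at most √n − 1. -/
theorem result {G Ω : Type*} [Group G] [Finite G] [MulAction G Ω] [FaithfulSMul G Ω] [Finite Ω]
    (htrans : MulAction.IsPretransitive G Ω) (himp : ¬ MulAction.IsPreprimitive G Ω) :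
    ((Subgroup.closure {g : G | ∀ ω : Ω, g • ω ≠ ω}).index : ℝ) ≤ Real.sqrt (Nat.card Ω) - 1 := by
  have hblock : ∃ B : Set Ω, IsBlock G B ∧ ¬ IsTrivialBlock B := by
    by_contra hcon
    push Not at hcon
    exact himp { isTrivialBlock_of_isBlock := fun {B} hB => hcon B hB }
  obtain ⟨B, hB, hBt⟩ := hblock
  have hB1 : ¬ B.Subsingleton := fun h => hBt (Or.inl h)
  have hB2 : B ≠ Set.univ := fun h => hBt (Or.inr h)
  rw [Set.not_subsingleton_iff] at hB1
  obtain ⟨α, hα⟩ := hB1.nonempty
  have hprod := hB.ncard_block_mul_ncard_orbit_eq hB1.nonempty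
  have hb : 2 ≤ B.ncard := (Set.one_lt_ncard_iff_nontrivial).mpr hB1
  have hm : (orbit G B).ncard ≠ 1 := by
    intro h
    apply hB2
    rw [h, mul_one] at hprod
    exact (B.eq_univ_iff_ncard).mpr hprod
  have hm0 : (orbit G B).ncard ≠ 0 := by
    have : 0 < (orbit G B).ncard := (Set.ncard_pos).mpr ⟨B, mem_orbit_self B⟩
    omega
  set b := B.ncard with hbdef
  set m := (orbit G B).ncard with hmdef
  set i := (derSub G Ω).index with hidef
  have hi1 : i ∣ b - 1 := by
    have := index_dvd_ncard (G := G) (Ω := Ω) α (B \ {α}) (by simp)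
      (by
        intro g hg x hx
        refine ⟨?_, ?_⟩
        · have h1 : g • B = B := hB.smul_eq_of_mem hα (by rw [hg]; exact hα)
          rw [← h1]
          exact Set.smul_mem_smul_set hx.1
        · intro h
          apply hx.2
          rw [Set.mem_singleton_iff] at h ⊢
          rw [← hg] at h
          exact smul_left_cancel g h)
    rw [Set.ncard_sdiff_singleton_of_mem hα] at this
    exact this
  have hi2 : i ∣ Nat.card Ω - 1 := by
    have hcompl : ({α}ᶜ : Set Ω).ncard = Nat.card Ω - 1 := by
      rw [Set.ncard_compl, Set.ncard_singleton]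
    have := index_dvd_ncard (G := G) (Ω := Ω) α {α}ᶜ (by simp)
      (by
        intro g hg x hx
        simp only [Set.mem_compl_iff, Set.mem_singleton_iff] at hx ⊢
        intro h
        apply hx
        rw [← hg] at h
        exact smul_left_cancel g h)
    rw [hcompl] at this
    exact this
  have hi3 : i ∣ m - 1 := by
    rw [← hprod] at hi2
    have h1 : b * m - 1 = (b - 1) * m + (m - 1) := by
      obtain ⟨b', hb'⟩ : ∃ b', b = b' + 1 := ⟨b - 1, by omega⟩
      rw [hb', add_mul, one_mul, Nat.add_sub_cancel]
      omega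
    rw [h1] at hi2
    exact (Nat.dvd_add_right (Dvd.dvd.mul_right hi1 m)).mp hi2
  have hle1 : i + 1 ≤ b := by
    have := Nat.le_of_dvd (by omega) hi1
    omega
  have hle2 : i + 1 ≤ m := by
    have := Nat.le_of_dvd (by omega) hi3
    omega
  have hsq : (i + 1) * (i + 1) ≤ Nat.card Ω := by
    rw [← hprod]
    exact Nat.mul_le_mul hle1 hle2
  have h5 : ((i : ℝ) + 1) ≤ Real.sqrt (Nat.card Ω) := by
    apply Real.le_sqrt_of_sq_le
    rw [sq]
    exact_mod_cast hsq
  change (i : ℝ) ≤ _
  linarith

end Cfsg.Agent.S3549
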