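import Cfsg.Statements.S3560


set_option autoImplicit false
open Cfsg

namespace Cfsg.Agent.S3560

open Equiv

section Ham

variable {Ω ι α : Type*} [Fintype ι] [DecidableEq ι] [Fintype α] [DecidableEq α] (E : Ω ≃ (ι → α))

/-- automorphism group of the Hamming scheme. -/
def ham : Subgroup (Perm Ω) where
  carrier := {σ | ∀ a b, hammingDist (E (σ a)) (E (σ b)) = hammingDist (E a) (E b)}
  one_mem' := fun _ _ => rfl
  mul_mem' := by
    intro σ τ h1 h2 a b
    show hammingDist (E (σ (τ a))) (E (σ (τ b))) = _
    rw [h1, h2]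
  inv_mem' := by
    intro σ h a b
    have := h (σ⁻¹ a) (σ⁻¹ b)
    have h5 : ∀ z, σ (σ⁻¹ z) = z := fun z => σ.apply_symm_apply z
    rw [h5, h5] at this
    exact this.symm

omit [DecidableEq ι] [Fintype α] in
theorem mk_mem (τ : Perm (ι → α)) (h : ∀ x y, hammingDist (τ x) (τ y) = hammingDist x y) :
    E.symm.permCongr τ ∈ ham E := by
  intro a b
  show hammingDist (E (E.symm (τ (E a)))) (E (E.symm (τ (E b)))) = _
  rw [E.apply_symm_apply, E.apply_symm_apply, h]

omit [Fintype ι] [DecidableEq ι] [Fintype α] in
theorem exists_two (a b c d : α) (hab : b ≠ a) (hcd : d ≠ c) : ∃ τ : Perm α, τ a = c ∧ τ b = d := by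
  refine ⟨swap (swap a c b) d * swap a c, ?_, ?_⟩
  · rw [Perm.mul_apply, swap_apply_left]
    apply swap_apply_of_ne_of_ne
    · intro h
      apply hab
      have h1 : swap a c a = swap a c b := by rw [swap_apply_left]; exact h
      exact ((swap a c).injective h1).symm
    · exact hcd.symm
  · rw [Perm.mul_apply, swap_apply_left]

omit [Fintype α] in
theorem exists_pair (u v : ι → α) (i j : ι) (c d : α) (hc : c ≠ u i) (hd : d ≠ v j) :
    ∃ τ : Perm (ι → α), (∀ x y, hammingDist (τ x) (τ y) = hammingDist x y) ∧ τ u = v ∧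
      τ (Function.update u i c) = Function.update v j d := by
  obtain ⟨ρ, hρ1, hρ2⟩ := exists_two (u i) c (v j) d hc hd
  let t : ι → Perm α := fun k => if k = j then ρ else swap (u (swap i j k)) (v k)
  refine ⟨(Equiv.arrowCongr (swap i j) (Equiv.refl α)).trans (Equiv.piCongrRight t), ?_, ?_, ?_⟩
  · intro x y
    have h1 := hammingDist_comp (fun k => (t k : α → α)) (x := fun k => x (swap i j k)) (y := fun k => y (swap i j k))
      (fun k => (t k).injective)
    have h2 : hammingDist (fun k => x (swap i j k)) (fun k => y (swap i j k)) = hammingDist x y := by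
      unfold hammingDist
      refine Finset.card_bij (fun k _ => swap i j k) ?_ (fun a _ b _ h => (swap i j).injective h) ?_
      · intro k hk
        rw [Finset.mem_filter] at hk ⊢
        exact ⟨Finset.mem_univ _, hk.2⟩
      · intro k hk
        rw [Finset.mem_filter] at hk
        refine ⟨swap i j k, ?_, swap_apply_self _ _ _⟩
        rw [Finset.mem_filter]
        refine ⟨Finset.mem_univ _, ?_⟩
        dsimp only
        rw [swap_apply_self]
        exact hk.2
    rw [← h2, ← h1]
    rfl
  · funext k
    show t k (u (swap i j k)) = v k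
    by_cases hk : k = j
    · simp only [t, if_pos hk]
      rw [hk, swap_apply_right]; exact hρ1
    · simp only [t, if_neg hk]
      rw [swap_apply_left]
  · funext k
    show t k (Function.update u i c (swap i j k)) = Function.update v j d k
    by_cases hk : k = j
    · simp only [t, if_pos hk]
      rw [hk, swap_apply_right, Function.update_self, Function.update_self]; exact hρ2
    · simp only [t, if_neg hk]
      have h1 : swap i j k ≠ i := by
        intro h
        apply hk
        rw [← swap_apply_self i j k, h, swap_apply_left]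
      rw [Function.update_of_ne h1, Function.update_of_ne hk, swap_apply_left]

omit [Fintype α] in
theorem exists_coord (i : ι) (τ : Perm α) : ∃ g ∈ ham E, ∀ x, E (g x) = Function.update (E x) i (τ (E x i)) := by
  classical
  let t : ι → Perm α := fun k => if k = i then τ else 1
  refine ⟨E.symm.permCongr (Equiv.piCongrRight t), mk_mem E _ ?_, ?_⟩
  · intro x y
    exact hammingDist_comp (fun k => (t k : α → α)) (fun k => (t k).injective)
  · intro x
    show E (E.symm (fun k => t k (E x k))) = _
    rw [E.apply_symm_apply]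
    funext k
    by_cases hk : k = i
    · subst hk; simp [t]
    · simp [t, hk]

open scoped Pointwise in
theorem ham_preprimitive (hα : 3 ≤ Fintype.card α) (hne : Nonempty Ω) : MulAction.IsPreprimitive (ham E) Ω := by
  have hnt : Nontrivial α := Fintype.one_lt_card_iff_nontrivial.mp (by omega)
  have htr : MulAction.IsPretransitive (ham E) Ω := by
    refine ⟨fun x y => ?_⟩
    by_cases hι : Nonempty ι
    · obtain ⟨i⟩ := hι
      obtain ⟨c, hc⟩ := exists_ne (E x i)
      obtain ⟨d, hd⟩ := exists_ne (E y i)
      obtain ⟨τ, hτ, h1, _⟩ := exists_pair (E x) (E y) i i c d hc hd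
      refine ⟨⟨_, mk_mem E τ hτ⟩, ?_⟩
      show E.symm (τ (E x)) = y
      rw [h1, E.symm_apply_apply]
    · rw [not_nonempty_iff] at hι
      refine ⟨1, ?_⟩
      rw [one_smul]
      apply E.injective
      exact Subsingleton.elim _ _
  obtain ⟨a⟩ := hne
  refine MulAction.IsPreprimitive.of_isTrivialBlock_base a ?_
  intro B haB hB
  rw [MulAction.IsTrivialBlock, or_iff_not_imp_left]
  intro hns
  rw [Set.not_subsingleton_iff] at hns
  obtain ⟨x, hx, y, hy, hxy⟩ := hns
  have key : ∀ g : ham E, ∀ z ∈ B, g • z ∈ B → ∀ w ∈ B, g • w ∈ B := by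
    intro g z hz hgz w hw
    have h1 : g • B = B := by
      rw [MulAction.isBlock_iff_smul_eq_of_nonempty] at hB
      exact hB ⟨g • z, Set.smul_mem_smul_set hz, hgz⟩
    rw [← h1]
    exact Set.smul_mem_smul_set hw
  -- two points at distance one
  obtain ⟨i, hi⟩ : ∃ i, E x i ≠ E y i := by
    by_contra hcon
    push Not at hcon
    exact hxy (E.injective (funext hcon))
  obtain ⟨z, hz⟩ : ∃ z, z ∉ ({E x i, E y i} : Finset α) := by
    by_contra hcon
    push Not at hcon
    have h1 : (Finset.univ : Finset α) ⊆ {E x i, E y i} := fun z _ => hcon z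
    have h2 := Finset.card_le_card h1
    have h3 := Finset.card_le_two (a := E x i) (b := E y i)
    rw [Finset.card_univ] at h2
    omega
  rw [Finset.mem_insert, Finset.mem_singleton, not_or] at hz
  obtain ⟨g0, hg0, hg0'⟩ := exists_coord E i (swap (E y i) z)
  have h1 : g0 x = x := by
    apply E.injective
    rw [hg0', swap_apply_of_ne_of_ne hi (Ne.symm hz.1), Function.update_eq_self]
  have h2 : E (g0 y) = Function.update (E y) i z := by
    rw [hg0', swap_apply_left]
  have h3 : g0 y ∈ B := key ⟨g0, hg0⟩ x hx (by show g0 x ∈ B; rw [h1]; exact hx) y hy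
  -- neighbours
  have hnb : ∀ v ∈ B, ∀ j d, E.symm (Function.update (E v) j d) ∈ B := by
    intro v hv j d
    by_cases hd : d = E v j
    · rw [hd, Function.update_eq_self, E.symm_apply_apply]; exact hv
    · obtain ⟨τ, hτ, h4, h5⟩ := exists_pair (E y) (E v) i j z d hz.2 hd
      have h6 := key ⟨_, mk_mem E τ hτ⟩ y hy (by
        show E.symm (τ (E y)) ∈ B
        rw [h4, E.symm_apply_apply]; exact hv) (g0 y) h3
      have h7 : E.symm (τ (E (g0 y))) ∈ B := h6
      rw [h2, h5] at h7
      exact h7
  rw [Set.eq_univ_iff_forall]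
  intro w
  have hall : ∀ S : Finset ι, E.symm (S.piecewise (E w) (E x)) ∈ B := by
    intro S
    induction S using Finset.induction_on with
    | empty => rw [Finset.piecewise_empty, E.symm_apply_apply]; exact hx
    | insert j S hj ih =>
      rw [Finset.piecewise_insert]
      have := hnb _ ih j (E w j)
      rw [E.apply_symm_apply] at this
      exact this
  have := hall Finset.univ
  rw [Finset.piecewise_univ, E.symm_apply_apply] at this
  exact this

theorem ham_not_two (hα : 2 ≤ Fintype.card α) (hι : 2 ≤ Fintype.card ι) (hne : Nonempty Ω) :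
    ¬ MulAction.IsMultiplyPretransitive (ham E) Ω 2 := by
  intro h
  rw [MulAction.is_two_pretransitive_iff] at h
  have hnt : Nontrivial α := Fintype.one_lt_card_iff_nontrivial.mp (by omega)
  obtain ⟨i, j, hij⟩ := Fintype.exists_pair_of_one_lt_card (α := ι) (by omega)
  obtain ⟨a⟩ := hne
  obtain ⟨c, hc⟩ := exists_ne (E a i)
  obtain ⟨d, hd⟩ := exists_ne (E a j)
  set b := E.symm (Function.update (E a) i c) with hb
  set e := E.symm (Function.update (Function.update (E a) i c) j d) with he
  have hab : a ≠ b := by
    intro h1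
    have h2 : E a i = Function.update (E a) i c i := by
      conv_lhs => rw [h1, hb, E.apply_symm_apply]
    rw [Function.update_self] at h2
    exact hc h2.symm
  have hae : a ≠ e := by
    intro h1
    have h2 : E a j = Function.update (Function.update (E a) i c) j d j := by
      conv_lhs => rw [h1, he, E.apply_symm_apply]
    rw [Function.update_self] at h2
    exact hd h2.symm
  obtain ⟨g, hg1, hg2⟩ := h hab hae
  have h1 := g.2 a b
  have hg1' : (g : Perm Ω) a = a := hg1
  have hg2' : (g : Perm Ω) b = e := hg2
  rw [hg1', hg2', he, hb, E.apply_symm_apply, E.apply_symm_apply] at h1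
  unfold hammingDist at h1
  have h2 : (Finset.univ.filter fun k => E a k ≠ Function.update (E a) i c k) = {i} := by
    ext k
    rw [Finset.mem_filter, Finset.mem_singleton]
    constructor
    · rintro ⟨_, hk⟩
      by_contra hne
      exact hk (Function.update_of_ne hne _ _).symm
    · rintro rfl
      refine ⟨Finset.mem_univ _, ?_⟩
      rw [Function.update_self]; exact hc.symm
  have h3 : ({i, j} : Finset ι) ⊆ (Finset.univ.filter fun k => E a k ≠ Function.update (Function.update (E a) i c) j d k) := by
    intro k hk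
    rw [Finset.mem_insert, Finset.mem_singleton] at hk
    rw [Finset.mem_filter]
    refine ⟨Finset.mem_univ _, ?_⟩
    rcases hk with rfl | rfl
    · rw [Function.update_of_ne hij, Function.update_self]; exact hc.symm
    · rw [Function.update_self]; exact hd.symm
  have h4 := Finset.card_le_card h3
  rw [h1, h2, Finset.card_pair hij, Finset.card_singleton] at h4
  omega

end Ham


/-- Let K be a finite group isomorphic to a direct product of r ≥ 2 groups all of the same order m ≥ 3. Then K is not a B-group: there is a primitive but not doubly transitive permutation group (on some finite set) containing a regular subgroup isomorphic to K. -/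
theorem result {K : Type*} [Group K] [Finite K] {ι : Type*} [Fintype ι] (F : ι → Type*) [∀ i, Group (F i)]
    (hr : 2 ≤ Fintype.card ι) (m : ℕ) (hm : 3 ≤ m) (hcard : ∀ i, Nat.card (F i) = m) (e : K ≃* (∀ i, F i)) :
    ∃ (n : ℕ) (G R : Subgroup (Equiv.Perm (Fin n))), R ≤ G ∧ Nonempty (↥R ≃* K) ∧
      MulAction.IsPretransitive ↥R (Fin n) ∧ (∀ a : Fin n, MulAction.stabilizer ↥R a = ⊥) ∧
      MulAction.IsPreprimitive ↥G (Fin n) ∧ ¬ MulAction.IsMultiplyPretransitive ↥G (Fin n) 2 := by
  classical
  have hfin : ∀ i, Finite (F i) := fun i => Nat.finite_of_card_ne_zero (by rw [hcard]; omega)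
  have φ : ∀ i, F i ≃ Fin m := fun i => (Finite.equivFin (F i)).trans (finCongr (hcard i))
  -- points
  let n := Fintype.card (ι → Fin m)
  let E : Fin n ≃ (ι → Fin m) := (Fintype.equivFin (ι → Fin m)).symm
  let Φ : (∀ i, F i) ≃ (ι → Fin m) := Equiv.piCongrRight φ
  let T : (∀ i, F i) ≃ Fin n := Φ.trans E.symm
  let ρ : (∀ i, F i) →* Equiv.Perm (Fin n) :=
    (T.permCongrHom.toMonoidHom).comp (MulAction.toPermHom (∀ i, F i) (∀ i, F i))
  have hρ : ∀ x a, ρ x a = T (x * T.symm a) := fun x a => rfl
  have hinj : Function.Injective ρ := by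
    intro x y hxy
    have h1 := congrArg (fun σ : Equiv.Perm (Fin n) => σ (T 1)) hxy
    simp only [hρ, T.symm_apply_apply, mul_one] at h1
    exact T.injective h1
  have hne : Nonempty (Fin n) := ⟨T 1⟩
  refine ⟨n, ham E, ρ.range, ?_, ⟨(MonoidHom.ofInjective hinj).symm.trans e.symm⟩, ?_, ?_, ?_, ?_⟩
  · rintro _ ⟨x, rfl⟩
    have h1 : ρ x = E.symm.permCongr (Φ.permCongr (Equiv.mulLeft x)) := by
      refine Equiv.ext fun a => ?_
      rfl
    rw [h1]
    apply mk_mem
    intro u v
    have h2 := hammingDist_comp (fun i => (fun y => φ i (x i * (φ i).symm y) : Fin m → Fin m)) (x := u) (y := v)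
      (fun i => (φ i).injective.comp ((mul_right_injective (x i)).comp (φ i).symm.injective))
    exact h2
  · refine ⟨fun a b => ?_⟩
    refine ⟨⟨ρ (T.symm b * (T.symm a)⁻¹), ⟨_, rfl⟩⟩, ?_⟩
    show ρ (T.symm b * (T.symm a)⁻¹) a = b
    rw [hρ, inv_mul_cancel_right, T.apply_symm_apply]
  · intro a
    rw [eq_bot_iff]
    rintro ⟨_, x, rfl⟩ hx
    rw [MulAction.mem_stabilizer_iff] at hx
    have hx' : ρ x a = a := hx
    rw [hρ] at hx'
    have h1 : x * T.symm a = T.symm a := by
      apply T.injective
      rw [hx', T.apply_symm_apply]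
    have h2 : x = 1 := mul_eq_right.mp h1
    rw [Subgroup.mem_bot]
    apply Subtype.ext
    show ρ x = 1
    rw [h2, map_one]
  · exact ham_preprimitive E (by rw [Fintype.card_fin]; exact hm) hne
  · exact ham_not_two E (by rw [Fintype.card_fin]; omega) hr hne

end Cfsg.Agent.S3560
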