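import Cfsg.Statements.S3572
import Cfsg.Agent.Lib.DihB11

set_option autoImplicit false
open Cfsg

namespace Cfsg.Agent.S3572

open Cfsg.Agent.Lib.DihB

theorem aux {G Ω : Type*} [Group G] [MulAction G Ω] (hprim : MulAction.IsPreprimitive G Ω) {m : ℕ} [NeZero m]
    (hm : 2 ≤ m) (ι : DihedralGroup m →* G) (ω : Ω) (hb : Function.Bijective (fun d => ι d • ω)) :
    ∀ a b : Ω, a ≠ ω → b ≠ ω → ∃ g : G, g • ω = ω ∧ g • a = b := by
  classical
  have hinj : ∀ x y, ι x • ω = ι y • ω → x = y := fun x y h => hb.1 h
  let φ : DihedralGroup m ≃ Ω := Equiv.ofBijective _ hb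
  have hφ : ∀ d, φ d = ι d • ω := fun d => rfl
  -- the permutation induced by `h`
  let π : G → DihedralGroup m → DihedralGroup m := fun h z => φ.symm (h • φ z)
  have hπ : ∀ h z, ι (π h z) • ω = h • (ι z • ω) := by
    intro h z
    rw [← hφ, ← hφ]
    simp only [π, Equiv.apply_symm_apply]
  have hπbij : ∀ h, Function.Bijective (π h) := by
    intro h
    exact φ.symm.bijective.comp ((MulAction.bijective h).comp φ.bijective)
  -- key relation
  have hkey : ∀ h x z, ∃ g : G, g • ω = ω ∧ g • (ι (x⁻¹ * z) • ω) = ι ((π h x)⁻¹ * π h z) • ω := by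
    intro h x z
    refine ⟨(ι (π h x))⁻¹ * h * ι x, ?_, ?_⟩
    · rw [mul_smul, mul_smul, ← hπ h x, inv_smul_smul]
    · rw [map_mul, map_mul, map_inv, map_inv, mul_smul, mul_smul, mul_smul, mul_smul, smul_inv_smul, hπ h z]
  let S : SR m :=
    { rel := fun x y => ∃ g : G, g • ω = ω ∧ g • (ι x • ω) = ι y • ω
      eqv := by
        refine ⟨fun x => ⟨1, one_smul _ _, one_smul _ _⟩, ?_, ?_⟩
        · rintro x y ⟨g, h1, h2⟩
          exact ⟨g⁻¹, by rw [inv_smul_eq_iff, h1], by rw [inv_smul_eq_iff, h2]⟩
        · rintro x y z ⟨g, h1, h2⟩ ⟨g', h1', h2'⟩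
          exact ⟨g' * g, by rw [mul_smul, h1, h1'], by rw [mul_smul, h2, h2']⟩
      one := by
        rintro x ⟨g, h1, h2⟩
        rw [map_one, one_smul, h1] at h2
        apply hinj
        rw [map_one, one_smul]
        exact h2.symm
      inv := by
        rintro x y ⟨g, h1, h2⟩
        refine ⟨(ι y)⁻¹ * g * ι x, ?_, ?_⟩
        · rw [mul_smul, mul_smul, h2, inv_smul_smul]
        · rw [map_inv, map_inv, mul_smul, mul_smul, smul_inv_smul, h1]
      mul := by
        rintro f g hf hg x y ⟨h, h1, h2⟩
        have hx : π h x = y := hinj _ _ (by rw [hπ, h2])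
        rw [conv, conv, ← Equiv.sum_comp (Equiv.ofBijective _ (hπbij h)) (fun z => f z * g (z⁻¹ * y))]
        refine Finset.sum_congr rfl fun z _ => ?_
        simp only [Equiv.ofBijective_apply]
        rw [hf z (π h z) ⟨h, h1, (hπ h z).symm⟩, ← hx, hg _ _ (hkey h z x)]
      prim := by
        rintro f hf ⟨t, ht, htf⟩ d
        let B : Set Ω := {a | ∀ z, f ((φ.symm a)⁻¹ * z) = f z}
        have hB : ∀ h : G, ∀ a c : Ω, a ∈ B → h • a ∈ B → c ∈ B → h • c ∈ B := by
          intro h a c ha hha hc z
          obtain ⟨z', rfl⟩ := (hπbij h).2 z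
          have e : ∀ a, φ.symm (h • a) = π h (φ.symm a) := by
            intro a; simp only [π, Equiv.apply_symm_apply]
          have k1 := hf _ _ (hkey h (φ.symm c) z')
          have k2 := hf _ _ (hkey h (φ.symm a) z')
          rw [e, ← k1, hc, ← ha, k2, ← e, hha]
        have hblock : MulAction.IsBlock G B := by
          rw [MulAction.isBlock_iff_smul_eq_of_mem]
          intro h a ha hha
          apply Set.Subset.antisymm
          · rintro _ ⟨c, hc, rfl⟩
            exact hB h a c ha hha hc
          · intro c hc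
            refine ⟨h⁻¹ • c, ?_, smul_inv_smul _ _⟩
            exact hB h⁻¹ (h • a) c hha (by rwa [inv_smul_smul]) hc
        have e0 : φ.symm ω = 1 := by
          rw [Equiv.symm_apply_eq, hφ, map_one, one_smul]
        rcases hprim.isTrivialBlock_of_isBlock hblock with h | h
        · exfalso
          have h1 : ω ∈ B := by
            intro z; rw [e0, inv_one, one_mul]
          have h2 : φ t⁻¹ ∈ B := by
            intro z; rw [Equiv.symm_apply_apply, inv_inv]; exact htf z
          have h3 := h h2 h1
          rw [← Equiv.eq_symm_apply, e0] at h3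
          exact ht (inv_eq_one.1 h3)
        · have h1 : φ d⁻¹ ∈ B := by rw [h]; trivial
          have := h1 1
          rwa [Equiv.symm_apply_apply, inv_inv, mul_one] at this }
  intro a b ha hb'
  have h1 : φ.symm a ≠ 1 := by
    intro h
    rw [Equiv.symm_apply_eq, hφ, map_one, one_smul] at h
    exact ha h
  have h2 : φ.symm b ≠ 1 := by
    intro h
    rw [Equiv.symm_apply_eq, hφ, map_one, one_smul] at h
    exact hb' h
  obtain ⟨g, hg1, hg2⟩ := S.triv hm h1 h2
  refine ⟨g, hg1, ?_⟩
  rw [← hφ, ← hφ, Equiv.apply_symm_apply, Equiv.apply_symm_apply] at hg2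
  exact hg2

/-- A finite primitive permutation group containing a dihedral subgroup that acts regularly (transitively with trivial point stabilizers) is doubly transitive. -/
theorem result {G Ω : Type*} [Group G] [Finite G] [MulAction G Ω] [FaithfulSMul G Ω] [Finite Ω]
    (hprim : MulAction.IsPreprimitive G Ω) (D : Subgroup G) (m : ℕ) (hD : Nonempty (↥D ≃* DihedralGroup m))
    (hDreg : MulAction.IsPretransitive ↥D Ω ∧ ∀ a : Ω, MulAction.stabilizer ↥D a = ⊥) :
    MulAction.IsMultiplyPretransitive G Ω 2 := by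
  classical
  obtain ⟨e⟩ := hD
  obtain ⟨htr, hst⟩ := hDreg
  rw [MulAction.isMultiplyPretransitive_iff]
  intro x y
  have hm0 : m ≠ 0 := by
    rintro rfl
    have h1 : Finite (DihedralGroup 0) := Finite.of_equiv _ e.toEquiv
    exact not_finite (DihedralGroup 0)
  have : NeZero m := ⟨hm0⟩
  set ω : Ω := x 0 with hω
  let ι : DihedralGroup m →* G := D.subtype.comp e.symm.toMonoidHom
  have hι : ∀ d, ι d • ω = (e.symm d : D) • ω := fun d => rfl
  have hb : Function.Bijective (fun d => ι d • ω) := by
    constructor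
    · intro d d' h
      simp only [hι] at h
      have h1 : (e.symm d)⁻¹ * e.symm d' ∈ MulAction.stabilizer D ω := by
        rw [MulAction.mem_stabilizer_iff, mul_smul, ← h, inv_smul_smul]
      rw [hst, Subgroup.mem_bot, inv_mul_eq_one] at h1
      exact e.symm.injective h1
    · intro a
      obtain ⟨g, hg⟩ := MulAction.exists_smul_eq D ω a
      refine ⟨e g, ?_⟩
      simp only [hι]
      rw [MulEquiv.symm_apply_apply]; exact hg
  have htr' := hprim.toIsPretransitive
  -- transitivity of the stabilizer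
  have key : ∀ a b : Ω, a ≠ ω → b ≠ ω → ∃ g : G, g • ω = ω ∧ g • a = b := by
    rcases Nat.lt_or_ge m 2 with hm | hm
    · have hm1 : m = 1 := by omega
      subst hm1
      intro a b ha hb'
      have hcard : Nat.card Ω = 2 := by
        rw [← Nat.card_congr (Equiv.ofBijective _ hb), DihedralGroup.nat_card]
      refine ⟨1, one_smul _ _, ?_⟩
      rw [one_smul]
      have := Nat.card_eq_two_iff' ω |>.1 hcard
      exact this.unique ha hb'
    · exact aux hprim hm ι ω hb
  obtain ⟨g, hg⟩ := MulAction.exists_smul_eq G (y 0) ω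
  have h1 : x 1 ≠ ω := fun h => by
    have := x.injective h
    simp at this
  have h2 : g • y 1 ≠ ω := by
    rw [← hg]
    intro h
    have := y.injective (smul_left_cancel g h)
    simp at this
  obtain ⟨k, hk1, hk2⟩ := key _ _ h1 h2
  refine ⟨g⁻¹ * k, ?_⟩
  ext i
  rw [Function.Embedding.smul_apply, mul_smul, inv_smul_eq_iff]
  fin_cases i
  · exact hk1.trans hg.symm
  · exact hk2

end Cfsg.Agent.S3572
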