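import Cfsg.Statements.S3573
import Cfsg.Agent.Lib.PrimeOrdPerm

set_option autoImplicit false
open Cfsg

namespace Cfsg.Agent.S3573


/-- Let 1 ≤ k with 2k < n and consider the symmetric group of degree n acting on the k-subsets of an n-set. Let r be a prime dividing the number C(n,k) of k-subsets. If r is odd, then every permutation of order r fixes some k-subset if and only if r ≤ k and the remainder of k modulo r is at most the remainder of n modulo r. If r = 2, then every involution fixes some k-subset if and only if k is even or n is odd. -/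
theorem result (n k : ℕ) (hk : 1 ≤ k) (hkn : 2 * k < n) (r : ℕ) (hr : r.Prime) (hrd : r ∣ Nat.choose n k) :
    (r ≠ 2 → ((∀ σ : Equiv.Perm (Fin n), orderOf σ = r → ∃ s : Finset (Fin n), s.card = k ∧ s.image σ = s) ↔
      (r ≤ k ∧ k % r ≤ n % r))) ∧
    (r = 2 → ((∀ σ : Equiv.Perm (Fin n), orderOf σ = 2 → ∃ s : Finset (Fin n), s.card = k ∧ s.image σ = s) ↔
      (Even k ∨ Odd n))) := by
  have hrn : r ≤ n := by
    by_contra h
    push Not at h
    have h1 : r ∣ n.factorial := by
      rw [← Nat.choose_mul_factorial_mul_factorial (show k ≤ n by omega), mul_assoc]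
      exact Dvd.dvd.mul_right hrd _
    have := hr.dvd_factorial.mp h1
    omega
  have main := Cfsg.Agent.Lib.PrimeOrdPerm.forall_exists_image_eq_iff n k r hr hrn (by omega)
  refine ⟨fun _ => ?_, fun h2 => ?_⟩
  · rw [main]
    refine ⟨fun h => ⟨?_, h⟩, fun h => h.2⟩
    by_contra hlt
    push Not at hlt
    haveI : Fact r.Prime := ⟨hr⟩
    have h1 := Choose.choose_modEq_choose_mod_mul_choose_div_nat (p := r) (n := n) (k := k)
    rw [Nat.div_eq_of_lt hlt, Nat.choose_zero_right, mul_one] at h1
    have h2 : r ∣ (n % r).choose (k % r) := (Nat.ModEq.dvd_iff h1 dvd_rfl).mp hrd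
    have h3 : r ∣ (n % r).factorial := by
      rw [← Nat.choose_mul_factorial_mul_factorial h, mul_assoc]
      exact Dvd.dvd.mul_right h2 _
    have := hr.dvd_factorial.mp h3
    have := Nat.mod_lt n hr.pos
    omega
  · subst h2
    rw [main, Nat.even_iff, Nat.odd_iff]
    omega

end Cfsg.Agent.S3573
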