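import Cfsg.Statements.S3575
import Cfsg.Agent.Lib.PrimeOrdPerm

set_option autoImplicit false
open Cfsg

namespace Cfsg.Agent.S3575

open Equiv Equiv.Perm Cfsg.Agent.Lib.PrimeOrdPerm

/-- distributing -/
theorem exists_distrib {ι : Type*} [DecidableEq ι] (S : Finset ι) (M : ℕ) :
    ∀ e : ℕ, e ≤ S.card * M → ∃ h : ι → ℕ, (∀ i, h i ≤ M) ∧ ∑ i ∈ S, h i = e := by
  induction S using Finset.induction_on with
  | empty =>
    intro e he
    refine ⟨fun _ => 0, fun _ => Nat.zero_le _, ?_⟩
    simp at he
    simp [he]
  | insert j S hj ih =>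
    intro e he
    rw [Finset.card_insert_of_notMem hj, add_mul, one_mul] at he
    obtain ⟨h, hh, hs⟩ := ih (e - min e M) (by
      rcases le_total e M with h1 | h1
      · rw [min_eq_left h1, Nat.sub_self]; exact Nat.zero_le _
      · rw [min_eq_right h1]; omega)
    refine ⟨fun i => if i = j then min e M else h i, ?_, ?_⟩
    · intro i
      dsimp only
      split_ifs
      · exact min_le_right _ _
      · exact hh i
    · rw [Finset.sum_insert hj]
      simp only [if_true]
      rw [Finset.sum_congr rfl (g := h)]
      · rw [hs]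
        have := min_le_left e M
        omega
      · intro i hi
        rw [if_neg]
        rintro rfl
        exact hj hi

/-- a permutation with `r`-th power one and a prescribed number of fixed points -/
theorem exists_perm_fixed {α : Type*} [Fintype α] [DecidableEq α] (r F : ℕ) (hr : r.Prime)
    (hF : F ≤ Fintype.card α) (hFr : F ≡ Fintype.card α [MOD r]) :
    ∃ σ : Perm α, σ ^ r = 1 ∧ (σ.supportᶜ).card = F := by
  obtain ⟨c, hc⟩ : ∃ c, Fintype.card α = F + c * r := by
    obtain ⟨c, hc⟩ := (Nat.modEq_iff_dvd' hF).mp hFr
    exact ⟨c, by rw [mul_comm c r, ← hc]; omega⟩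
  obtain ⟨σ, hσ⟩ := (Equiv.Perm.exists_with_cycleType_iff (α := α) (m := Multiset.replicate c r)).mpr (by
    constructor
    · rw [Multiset.sum_replicate, smul_eq_mul]
      omega
    · intro a ha
      rw [Multiset.eq_of_mem_replicate ha]; exact hr.two_le)
  refine ⟨σ, ?_, ?_⟩
  · rw [← orderOf_dvd_iff_pow_eq_one, ← Equiv.Perm.lcm_cycleType, hσ, Multiset.lcm_dvd]
    intro b hb
    rw [Multiset.eq_of_mem_replicate hb]
  · rw [Finset.card_compl, ← Equiv.Perm.sum_cycleType, hσ, Multiset.sum_replicate, smul_eq_mul]
    omega

theorem cycleType_eq_of_pow {α : Type*} [Fintype α] [DecidableEq α] (r : ℕ) (hr : r.Prime) (σ : Perm α)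
    (hσ : σ ^ r = 1) : σ.cycleType = Multiset.replicate (σ.support.card / r) r := by
  have h1 : ∀ a ∈ σ.cycleType, a = r := by
    intro a ha
    have h2 := Equiv.Perm.dvd_of_mem_cycleType ha
    have h3 := h2.trans (orderOf_dvd_of_pow_eq_one hσ)
    rcases (Nat.dvd_prime hr).mp h3 with h4 | h4
    · have := Equiv.Perm.two_le_of_mem_cycleType ha
      omega
    · exact h4
  have h2 := Multiset.eq_replicate_of_mem h1
  have h3 : σ.support.card = Multiset.card σ.cycleType * r := by
    conv_lhs => rw [← Equiv.Perm.sum_cycleType, h2]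
    rw [Multiset.sum_replicate, smul_eq_mul]
  rw [h3, Nat.mul_div_cancel _ hr.pos]
  exact h2

theorem isConj_of_pow {α : Type*} [Fintype α] [DecidableEq α] (r : ℕ) (hr : r.Prime) (σ τ : Perm α)
    (hσ : σ ^ r = 1) (hτ : τ ^ r = 1) (h : (σ.supportᶜ).card = (τ.supportᶜ).card) : IsConj σ τ := by
  rw [Equiv.Perm.isConj_iff_cycleType_eq, cycleType_eq_of_pow r hr σ hσ, cycleType_eq_of_pow r hr τ hτ]
  have h1 := Finset.card_add_card_compl σ.support
  have h2 := Finset.card_add_card_compl τ.support
  have h3 : σ.support.card = τ.support.card := by omega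
  rw [h3]

/-- The combinatorial criterion for one permutation. -/
theorem crit (a b : ℕ) (ha : 0 < a) (r : ℕ) (hr : r.Prime) (σ : Perm (Fin (a * b))) (hσ : σ ^ r = 1) :
    (∃ f : Fin (a * b) → Fin b, (∀ j : Fin b, Nat.card {x : Fin (a * b) // f x = j} = a) ∧
          ∃ π : Equiv.Perm (Fin b), ∀ x : Fin (a * b), f (σ x) = π (f x)) ↔
    ∃ s ≤ b, s ≡ b [MOD r] ∧ s * (a % r) ≤ (σ.supportᶜ).card ∧ (σ.supportᶜ).card ≤ s * a := by
  classical
  have : Fact r.Prime := ⟨hr⟩
  constructor
  · rintro ⟨f, hf, π, hπ⟩
    have hcard : ∀ j : Fin b, (Finset.univ.filter (fun x => f x = j)).card = a := by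
      intro j
      have := hf j
      rw [Nat.card_eq_fintype_card, Fintype.card_subtype] at this
      exact this
    have hsurj : Function.Surjective f := by
      intro j
      have : 0 < (Finset.univ.filter (fun x => f x = j)).card := by rw [hcard]; exact ha
      obtain ⟨x, hx⟩ := Finset.card_pos.mp this
      exact ⟨x, (Finset.mem_filter.mp hx).2⟩
    have hpow : ∀ n x, f ((σ ^ n) x) = (π ^ n) (f x) := by
      intro n
      induction n with
      | zero => intro x; rfl
      | succ n ih =>
        intro x
        rw [pow_succ', pow_succ', Equiv.Perm.mul_apply, Equiv.Perm.mul_apply, hπ, ih]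
    have hπr : π ^ r = 1 := by
      refine Equiv.ext fun j => ?_
      obtain ⟨x, rfl⟩ := hsurj j
      rw [← hpow, hσ]; rfl
    have hs : (π.supportᶜ).card ≡ b [MOD r] := by
      have := Equiv.Perm.card_compl_support_modEq (p := r) (n := 1) (σ := π) (by rw [pow_one]; exact hπr)
      rwa [Fintype.card_fin] at this
    refine ⟨(π.supportᶜ).card, (Finset.card_le_univ _).trans (by rw [Fintype.card_fin]), hs, ?_⟩
    -- fibres over fixed blocks
    have hdec : (σ.supportᶜ).card = ∑ j ∈ π.supportᶜ, ((Finset.univ.filter (fun x => f x = j)) ∩ σ.supportᶜ).card := by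
      rw [Finset.card_eq_sum_card_fiberwise (f := f) (t := π.supportᶜ)]
      · refine Finset.sum_congr rfl fun j _ => ?_
        congr 1
        ext x
        simp only [Finset.mem_filter, Finset.mem_inter, Finset.mem_univ, true_and]
        exact and_comm
      · intro x hx
        have hx' : σ x = x := by
          have := Finset.mem_coe.mp hx
          rwa [Finset.mem_compl, Equiv.Perm.notMem_support] at this
        rw [Finset.mem_coe, Finset.mem_compl, Equiv.Perm.notMem_support, ← hπ, hx']
    have hfib : ∀ j ∈ π.supportᶜ, a % r ≤ ((Finset.univ.filter (fun x => f x = j)) ∩ σ.supportᶜ).card ∧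
        ((Finset.univ.filter (fun x => f x = j)) ∩ σ.supportᶜ).card ≤ a := by
      intro j hj
      rw [Finset.mem_compl, Equiv.Perm.notMem_support] at hj
      constructor
      · have h1 := card_inter_fixed_modEq σ r hσ (Finset.univ.filter (fun x => f x = j)) (by
          intro x
          simp only [Finset.mem_filter, Finset.mem_univ, true_and]
          rw [hπ]
          constructor
          · intro h
            apply π.injective
            rw [h, hj]
          · intro h
            rw [h, hj])
        rw [hcard] at h1
        have h2 : _ % r = a % r := h1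
        rw [← h2]
        exact Nat.mod_le _ _
      · refine (Finset.card_le_card Finset.inter_subset_left).trans ?_
        rw [hcard]
    rw [hdec]
    constructor
    · rw [← smul_eq_mul]
      exact Finset.card_nsmul_le_sum _ _ _ fun j hj => (hfib j hj).1
    · exact (Finset.sum_le_card_nsmul _ _ _ fun j hj => (hfib j hj).2).trans_eq (smul_eq_mul _ _)
  · rintro ⟨s, hsb, hs, h1, h2⟩
    set F := (σ.supportᶜ).card with hF
    have hFmod : F ≡ a * b [MOD r] := by
      have := Equiv.Perm.card_compl_support_modEq (p := r) (n := 1) (σ := σ) (by rw [pow_one]; exact hσ)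
      rwa [Fintype.card_fin] at this
    have hsF : s * (a % r) ≡ F [MOD r] := by
      refine Nat.ModEq.trans ?_ hFmod.symm
      rw [mul_comm a b]
      exact Nat.ModEq.mul hs (Nat.mod_modEq a r)
    obtain ⟨e, he⟩ := (Nat.modEq_iff_dvd' h1).mp hsF
    obtain ⟨π, hπ, hπs⟩ := exists_perm_fixed (α := Fin b) r s hr (by rwa [Fintype.card_fin]) (by rwa [Fintype.card_fin])
    obtain ⟨h, hh, hsum⟩ := exists_distrib (π.supportᶜ) (a / r) e (by
      rw [hπs]
      have h3 := Nat.div_add_mod a r
      have h4 : r * e ≤ r * (s * (a / r)) := by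
        rw [← he]
        have h5 : s * a = r * (s * (a / r)) + s * (a % r) := by
          conv_lhs => rw [← h3]
          ring
        omega
      exact Nat.le_of_mul_le_mul_left h4 hr.pos)
    have hτ : ∀ j : Fin b, ∃ τ : Perm (Fin a), τ ^ r = 1 ∧ (τ.supportᶜ).card = a % r + r * h j := by
      intro j
      refine exists_perm_fixed (α := Fin a) r _ hr ?_ ?_
      · rw [Fintype.card_fin]
        have h3 := Nat.div_add_mod a r
        have h4 := Nat.mul_le_mul_left r (hh j)
        omega
      · rw [Fintype.card_fin]
        show (a % r + r * h j) % r = a % r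
        rw [Nat.add_mul_mod_self_left, Nat.mod_mod]
    choose τ hτ1 hτ2 using hτ
    -- the model permutation
    let g : Fin b → Perm (Fin a) := fun j => if π j = j then τ j else 1
    let σ' : Perm (Fin b × Fin a) := (Equiv.prodShear π (fun j => g j))
    have hσ' : ∀ j y, σ' (j, y) = (π j, g j y) := fun j y => rfl
    have hfst : ∀ n z, ((σ' ^ n) z).1 = (π ^ n) z.1 := by
      intro n
      induction n with
      | zero => intro z; rfl
      | succ n ih =>
        rintro ⟨j, y⟩
        rw [pow_succ', pow_succ', Equiv.Perm.mul_apply, Equiv.Perm.mul_apply]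
        rw [← ih (j, y)]
        rfl
    have hpow : σ' ^ r = 1 := by
      refine Equiv.ext ?_
      rintro ⟨j, y⟩
      by_cases hj : π j = j
      · have h3 : ∀ n, (σ' ^ n) (j, y) = (j, (τ j ^ n) y) := by
          intro n
          induction n with
          | zero => rfl
          | succ n ih =>
            rw [pow_succ', pow_succ', Equiv.Perm.mul_apply, ih, hσ', hj]
            simp only [g, if_pos hj]
            rfl
        rw [h3, hτ1]; rfl
      · have h3 : ∀ n, (σ' ^ n) (j, y) = ((π ^ n) j, y) := by
          intro n
          induction n with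
          | zero => rfl
          | succ n ih =>
            rw [pow_succ', pow_succ', Equiv.Perm.mul_apply, ih, hσ']
            have h4 : ¬ π ((π ^ n) j) = (π ^ n) j := by
              intro h5
              apply hj
              have h6 : (π ^ n) (π j) = (π ^ n) j := by
                rw [← Equiv.Perm.mul_apply, ← pow_succ, pow_succ', Equiv.Perm.mul_apply, h5]
              exact (π ^ n).injective h6
            simp only [g, if_neg h4]
            rfl
        rw [h3, hπ]; rfl
    let E : Fin b × Fin a ≃ Fin (a * b) := Fintype.equivOfCardEq (by simp [mul_comm])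
    let σ'' : Perm (Fin (a * b)) := E.permCongr σ'
    have hσ''r : σ'' ^ r = 1 := by
      have : σ'' ^ r = E.permCongr (σ' ^ r) := by
        have := map_pow (E.permCongrHom) σ' r
        exact this.symm
      rw [this, hpow]
      exact map_one (E.permCongrHom)
    have hfix : (σ''.supportᶜ).card = F := by
      have h3 : (σ''.supportᶜ).card = (σ'.supportᶜ).card := by
        symm
        refine Finset.card_bij (fun x _ => E x) ?_ (fun x _ y _ h => E.injective h) ?_
        · intro x hx
          rw [Finset.mem_compl, Equiv.Perm.notMem_support] at hx ⊢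
          show E (σ' (E.symm (E x))) = E x
          rw [E.symm_apply_apply, hx]
        · intro x hx
          rw [Finset.mem_compl, Equiv.Perm.notMem_support] at hx
          refine ⟨E.symm x, ?_, E.apply_symm_apply x⟩
          rw [Finset.mem_compl, Equiv.Perm.notMem_support]
          have h4 : E (σ' (E.symm x)) = x := hx
          exact (E.symm_apply_eq.mpr h4.symm).symm
      rw [h3]
      have h4 : (σ'.supportᶜ).card = ∑ j ∈ π.supportᶜ, ((τ j).supportᶜ).card := by
        rw [Finset.card_eq_sum_card_fiberwise (f := Prod.fst) (t := π.supportᶜ)]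
        · refine Finset.sum_congr rfl fun j hj => ?_
          rw [Finset.mem_compl, Equiv.Perm.notMem_support] at hj
          symm
          refine Finset.card_bij (fun y _ => (j, y)) ?_ (fun y _ y' _ h => (Prod.mk.inj h).2) ?_
          · intro y hy
            rw [Finset.mem_compl, Equiv.Perm.notMem_support] at hy
            rw [Finset.mem_filter, Finset.mem_compl, Equiv.Perm.notMem_support]
            refine ⟨?_, rfl⟩
            rw [hσ']
            simp only [g, if_pos hj, hj, hy]
          · rintro ⟨j', y⟩ hy
            rw [Finset.mem_filter, Finset.mem_compl, Equiv.Perm.notMem_support] at hy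
            obtain ⟨hy, rfl⟩ := hy
            refine ⟨y, ?_, rfl⟩
            rw [Finset.mem_compl, Equiv.Perm.notMem_support]
            rw [hσ'] at hy
            have := (Prod.mk.inj hy).2
            simp only [g] at this
            rwa [if_pos hj] at this
        · rintro ⟨j, y⟩ hx
          have hx' := Finset.mem_coe.mp hx
          rw [Finset.mem_compl, Equiv.Perm.notMem_support, hσ'] at hx'
          rw [Finset.mem_coe, Finset.mem_compl, Equiv.Perm.notMem_support]
          exact (Prod.mk.inj hx').1
      rw [h4, Finset.sum_congr rfl (fun j _ => hτ2 j), Finset.sum_add_distrib, ← Finset.mul_sum, hsum,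
        Finset.sum_const, hπs, smul_eq_mul]
      omega
    obtain ⟨c, hc⟩ := isConj_iff.mp (isConj_of_pow r hr σ'' σ hσ''r hσ (by rw [hfix]))
    refine ⟨fun x => (E.symm (c⁻¹ x)).1, ?_, π, ?_⟩
    · intro j
      have h3 : {x : Fin (a * b) // (E.symm (c⁻¹ x)).1 = j} ≃ Fin a :=
        { toFun := fun x => (E.symm (c⁻¹ x.1)).2
          invFun := fun y => ⟨c (E (j, y)), by simp⟩
          left_inv := by
            rintro ⟨x, hx⟩
            apply Subtype.ext
            show c (E (j, (E.symm (c⁻¹ x)).2)) = x
            rw [← hx, Prod.mk.eta, E.apply_symm_apply]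
            exact c.apply_symm_apply x
          right_inv := by
            intro y
            simp }
      rw [Nat.card_congr h3, Nat.card_eq_fintype_card, Fintype.card_fin]
    · intro x
      show (E.symm (c⁻¹ (σ x))).1 = π (E.symm (c⁻¹ x)).1
      rw [← hc]
      show (E.symm (c⁻¹ (c (E (σ' (E.symm (c⁻¹ x))))))).1 = _
      have h5 : ∀ z, c⁻¹ (c z) = z := fun z => c.symm_apply_apply z
      rw [h5, E.symm_apply_apply]
      rfl

/-- the arithmetic -/
theorem arith (a b : ℕ) (ha : 2 ≤ a) (hb : 2 ≤ b) (r : ℕ) (hr : r.Prime) (hrn : r ≤ a * b) :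
    (∀ F, F ≡ a * b [MOD r] → F + r ≤ a * b → ∃ s ≤ b, s ≡ b [MOD r] ∧ s * (a % r) ≤ F ∧ F ≤ s * a) ↔
    (r ≤ a ∧ (a % r = 0 ∨ (b % r = 0 ∧ a % r = 1) ∨
        (a % r ≠ 0 ∧ b % r ≠ 0 ∧ (b % r) * (a % r) < r ∧ (b < r ∨ (b % r + r) * (a % r) ≤ (b % r) * a + r)))) := by
  have hr2 := hr.two_le
  have hl : a % r ≤ a := Nat.mod_le _ _
  have hlr : a % r < r := Nat.mod_lt _ hr.pos
  have hkr : b % r < r := Nat.mod_lt _ hr.pos
  have hkb : b % r ≤ b := Nat.mod_le _ _
  constructor
  · intro H
    -- k ℓ < r
    have h1 : (b % r) * (a % r) < r := by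
      obtain ⟨s, _, hs, h2, _⟩ := H (a * b % r) (Nat.mod_modEq _ _) (by
        have h3 := Nat.div_add_mod (a * b) r
        have h4 : 1 ≤ a * b / r := Nat.div_pos hrn hr.pos
        have h5 : r * 1 ≤ r * (a * b / r) := Nat.mul_le_mul_left _ h4
        omega)
      have h3 : b % r ≤ s := by
        have : s % r = b % r := hs
        rw [← this]; exact Nat.mod_le _ _
      have h4 : (b % r) * (a % r) ≤ s * (a % r) := Nat.mul_le_mul_right _ h3
      have := Nat.mod_lt (a * b) hr.pos
      omega
    have h2 : r ≤ b → (b % r + r) * (a % r) ≤ (b % r) * a + r := by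
      intro hrb
      have hb' := Nat.div_add_mod b r
      have hq : 1 ≤ b / r := Nat.div_pos hrb hr.pos
      have hbk : b % r + r ≤ b := by
        have h5 : r * 1 ≤ r * (b / r) := Nat.mul_le_mul_left _ hq
        omega
      obtain ⟨s, hsb, hs, h3, h4⟩ := H ((b % r) * a + r) (by
        have : (b % r) * a + r ≡ (b % r) * a [MOD r] := by
          show ((b % r) * a + r) % r = ((b % r) * a) % r
          rw [Nat.add_mod_right]
        refine this.trans ?_
        rw [mul_comm a b]
        exact Nat.ModEq.mul (Nat.mod_modEq b r) rfl) (by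
        have h5 : (b % r + r) * a ≤ b * a := Nat.mul_le_mul_right _ hbk
        have h6 : r * 2 ≤ r * a := Nat.mul_le_mul_left _ ha
        rw [add_mul] at h5
        rw [mul_comm a b]
        omega)
      have h5 : b % r + r ≤ s := by
        have hs' : s % r = b % r := hs
        have hs2 := Nat.div_add_mod s r
        rcases Nat.eq_zero_or_pos (s / r) with h6 | h6
        · exfalso
          rw [h6, mul_zero, zero_add, hs'] at hs2
          rw [← hs2] at h4
          omega
        · have h7 : r * 1 ≤ r * (s / r) := Nat.mul_le_mul_left _ h6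
          omega
      exact (Nat.mul_le_mul_right _ h5).trans h3
    have hra : r ≤ a := by
      by_contra hcon
      push Not at hcon
      rw [Nat.mod_eq_of_lt hcon] at h1 h2
      rcases lt_or_ge b r with h3 | h3
      · rw [Nat.mod_eq_of_lt h3, mul_comm] at h1
        omega
      · have h4 := h2 h3
        rw [add_mul] at h4
        have h5 : r * 2 ≤ r * a := Nat.mul_le_mul_left _ ha
        omega
    refine ⟨hra, ?_⟩
    by_cases hl0 : a % r = 0
    · exact Or.inl hl0
    · right
      by_cases hk0 : b % r = 0
      · left
        refine ⟨hk0, ?_⟩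
        have hrb : r ≤ b := by
          by_contra hcon
          push Not at hcon
          rw [Nat.mod_eq_of_lt hcon] at hk0
          omega
        have h3 := h2 hrb
        rw [hk0, zero_add, zero_mul, zero_add] at h3
        have h4 : r * (a % r) ≤ r * 1 := by rw [mul_one]; exact h3
        have := Nat.le_of_mul_le_mul_left h4 hr.pos
        omega
      · right
        refine ⟨hl0, hk0, h1, ?_⟩
        rcases lt_or_ge b r with h3 | h3
        · exact Or.inl h3
        · exact Or.inr (h2 h3)
  · rintro ⟨hra, hcond⟩ F hF hFn
    have h1 : (b % r) * (a % r) < r := by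
      rcases hcond with h | ⟨h, _⟩ | ⟨_, _, h, _⟩
      · rw [h, mul_zero]; exact hr.pos
      · rw [h, zero_mul]; exact hr.pos
      · exact h
    have h2 : r ≤ b → (b % r + r) * (a % r) ≤ (b % r) * a + r := by
      intro hrb
      rcases hcond with h | ⟨h, h'⟩ | ⟨_, _, _, h | h⟩
      · rw [h, mul_zero]; exact Nat.zero_le _
      · rw [h, h', zero_add, mul_one, zero_mul, zero_add]
      · omega
      · exact h
    have hFk : F % r = (b % r) * (a % r) := by
      have h3 : F % r = (a * b) % r := hF
      rw [h3, mul_comm a b, Nat.mul_mod, Nat.mod_eq_of_lt h1]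
    have hkF : (b % r) * (a % r) ≤ F := by rw [← hFk]; exact Nat.mod_le _ _
    -- maximal t with (k + r t) ≤ b and (k + r t) ℓ ≤ F
    obtain ⟨t, ht1, ht2, ht3⟩ : ∃ t, b % r + r * t ≤ b ∧ (b % r + r * t) * (a % r) ≤ F ∧
        (b % r + r * (t + 1) ≤ b → F < (b % r + r * (t + 1)) * (a % r)) := by
      let P : ℕ → Prop := fun t => b % r + r * t ≤ b ∧ (b % r + r * t) * (a % r) ≤ F
      have hP0 : P 0 := ⟨by simpa using hkb, by simpa using hkF⟩
      have hb : ∀ t, P t → t ≤ b := by
        intro t ht
        have h3 : 1 * t ≤ r * t := Nat.mul_le_mul_right _ (by omega)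
        have := ht.1
        omega
      have hmax := Nat.findGreatest_spec (P := P) (Nat.zero_le b) hP0
      refine ⟨Nat.findGreatest P b, hmax.1, hmax.2, ?_⟩
      intro h3
      by_contra hcon
      push Not at hcon
      have h4 : P (Nat.findGreatest P b + 1) := ⟨h3, hcon⟩
      have h5 := Nat.le_findGreatest (hb _ h4) h4
      omega
    refine ⟨b % r + r * t, ht1, ?_, ht2, ?_⟩
    · show (b % r + r * t) % r = b % r
      rw [Nat.add_mul_mod_self_left, Nat.mod_mod]
    · set k := b % r with hk
      set s := k + r * t with hs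
      by_cases hlast : k + r * (t + 1) ≤ b
      · have h3 := ht3 hlast
        have hs' : k + r * (t + 1) = s + r := by rw [hs]; ring
        rw [hs'] at h3 hlast
        by_contra hcon
        push Not at hcon
        -- F ≥ s a + r
        have h4 : s * a + r ≤ F := by
          have h5 : s * a ≡ F [MOD r] := by
            refine Nat.ModEq.trans ?_ hF.symm
            rw [mul_comm a b]
            refine Nat.ModEq.mul ?_ rfl
            show s % r = b % r
            rw [hs, Nat.add_mul_mod_self_left, hk, Nat.mod_mod]
          obtain ⟨c, hc⟩ := (Nat.modEq_iff_dvd' hcon.le).mp h5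
          have hc0 : 1 ≤ c := by
            by_contra h0
            have : c = 0 := by omega
            rw [this, mul_zero] at hc
            omega
          have : r * 1 ≤ r * c := Nat.mul_le_mul_left _ hc0
          omega
        have h5 := h2 (by omega)
        have h6 : (r * t) * (a % r) ≤ (r * t) * a := Nat.mul_le_mul_left _ hl
        have h7 : (s + r) * (a % r) = (k + r) * (a % r) + (r * t) * (a % r) := by rw [hs]; ring
        have h8 : s * a = k * a + (r * t) * a := by rw [hs]; ring
        omega
      · have hsb : s = b := by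
          have hb' := Nat.div_add_mod b r
          have h3 : b / r ≤ t := by
            by_contra hcon
            push Not at hcon
            apply hlast
            have : r * (t + 1) ≤ r * (b / r) := Nat.mul_le_mul_left _ (by omega)
            omega
          have : r * (b / r) ≤ r * t := Nat.mul_le_mul_left _ h3
          omega
        rw [hsb, mul_comm b a]
        omega


/-- Let a, b ≥ 2 and consider the symmetric group of degree a·b acting on the partitions of an (a·b)-set into b parts of size a (encoded as maps onto a b-element set all of whose fibres have a elements; a permutation fixes such a partition when it permutes the fibres). Let r be a prime dividing the number (ab)!/((a!)^b·b!) of such partitions, and let ℓ and k be the remainders of a and b modulo r. Then every permutation of order r fixes some such partition if and only if r ≤ a and one of the following holds: ℓ = 0; or k = 0 and ℓ = 1; or ℓ and k are non-zero, k·ℓ < r, and either b < r or (k + r)·ℓ ≤ k·a + r. -/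
theorem result (a b : ℕ) (ha : 2 ≤ a) (hb : 2 ≤ b) (r : ℕ) (hr : r.Prime)
    (hrd : r ∣ (a * b).factorial / (a.factorial ^ b * b.factorial)) :
    (∀ σ : Equiv.Perm (Fin (a * b)), orderOf σ = r →
        ∃ f : Fin (a * b) → Fin b, (∀ j : Fin b, Nat.card {x : Fin (a * b) // f x = j} = a) ∧
          ∃ π : Equiv.Perm (Fin b), ∀ x : Fin (a * b), f (σ x) = π (f x)) ↔
      (r ≤ a ∧ (a % r = 0 ∨ (b % r = 0 ∧ a % r = 1) ∨
        (a % r ≠ 0 ∧ b % r ≠ 0 ∧ (b % r) * (a % r) < r ∧ (b < r ∨ (b % r + r) * (a % r) ≤ (b % r) * a + r)))) := by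
  have hrn : r ≤ a * b := by
    have h1 : r ∣ (a * b).factorial := by
      refine hrd.trans (Nat.div_dvd_of_dvd ?_)
      have h2 := Nat.uniformBell_mul_eq b (n := a) (by omega)
      rw [mul_comm a b, ← h2, mul_assoc]
      exact Dvd.intro_left _ rfl
    exact hr.dvd_factorial.mp h1
  rw [← arith a b ha hb r hr hrn]
  constructor
  · intro H F hF hFn
    obtain ⟨σ, hσ, hσF⟩ := exists_perm_fixed (α := Fin (a * b)) r F hr (by rw [Fintype.card_fin]; omega)
      (by rwa [Fintype.card_fin])
    have hr0 := hr.pos
    haveI : Fact r.Prime := ⟨hr⟩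
    have hord : orderOf σ = r := by
      refine orderOf_eq_prime hσ ?_
      rintro rfl
      rw [Equiv.Perm.support_one, Finset.compl_empty, Finset.card_univ, Fintype.card_fin] at hσF
      omega
    have h1 := (crit a b (by omega) r hr σ hσ).mp (H σ hord)
    rwa [hσF] at h1
  · intro H σ hσ
    have hσr : σ ^ r = 1 := by rw [← hσ]; exact pow_orderOf_eq_one σ
    refine (crit a b (by omega) r hr σ hσr).mpr (H _ ?_ ?_)
    · haveI : Fact r.Prime := ⟨hr⟩
      have h9 := Equiv.Perm.card_compl_support_modEq (p := r) (n := 1) (σ := σ) (by rw [pow_one]; exact hσr)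
      rwa [Fintype.card_fin] at h9
    · obtain ⟨c, hc0, hc, _⟩ := exists_cycles σ r hr hσ
      have h1 := Finset.card_add_card_compl σ.support
      rw [Fintype.card_fin, hc] at h1
      have : 1 * r ≤ c * r := Nat.mul_le_mul_right _ hc0
      omega

end Cfsg.Agent.S3575
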