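import Cfsg.Statements.S3589
import Cfsg.Agent.Lib.SpSpec67
import Cfsg.Agent.Lib.PSLSpectrum

set_option autoImplicit false
open Cfsg

namespace Cfsg.Agent.S3589

open QuadraticMap Module Cfsg.Agent.Lib Cfsg.Agent.Lib.Quad Cfsg.Agent.Lib.SpBound67 Cfsg.Agent.Lib.GaussSign67 Cfsg.Agent.Lib.OReal67

theorem ne_zero_of {F : Type*} [Field F] [Fintype F] [CharP F 2] {a b : F}
    (hab : ∀ z₁ z₂ : F, z₁ ^ 2 + a * z₁ * z₂ + b * z₂ ^ 2 = 0 → z₁ = 0 ∧ z₂ = 0) : a ≠ 0 := by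
  rintro rfl
  obtain ⟨t, ht⟩ := FiniteField.isSquare_of_char_two (F := F) (ringChar.eq_iff.2 inferInstance) b
  have := hab t 1 (by rw [ht]; linear_combination (t * t) * (CharTwo.two_eq_zero : (2 : F) = 0))
  exact one_ne_zero this.2

theorem orderOf_toLE {ι : Type} [Fintype ι] [DecidableEq ι] {F : Type*} [Field F] {Q : QuadraticForm F (ι → F)}
    (x : ↥(Cfsg.isometryGroup F ⇑Q)) (k : ℕ) :
    x ^ k = 1 ↔ (toLE (x : Matrix.GeneralLinearGroup ι F)) ^ k = 1 := by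
  rw [← map_pow, MulEquiv.map_eq_one_iff, ← Subgroup.coe_pow, OneMemClass.coe_eq_one]

/-- Let F be a finite field of characteristic 2 and let a, b ∈ F make the binary form z₁² + a z₁z₂ + b z₂² anisotropic. Then the symplectic group PSp(8,F) (= Sp(8,F)) and the full isometry group of the non-singular quadratic form x₁y₁ + x₂y₂ + x₃y₃ + (z₁² + a z₁z₂ + b z₂²) of minus type in dimension 8 have the same set of element orders. -/
theorem result {F : Type*} [Field F] [Fintype F]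
    [CharP F 2] (a b : F) (han : ∀ z₁ z₂ : F, z₁ ^ 2 + a * z₁ * z₂ + b * z₂ ^ 2 = 0 → z₁ = 0 ∧ z₂ = 0) :
    Set.range (orderOf : Cfsg.PSp 4 F → ℕ) = Set.range (orderOf : ↥(Cfsg.isometryGroup F (Cfsg.quadFormMinus 3 F a b)) → ℕ) := by
  have ha := ne_zero_of han
  have hfinG : Finite (Matrix.GeneralLinearGroup ((Fin 3 ⊕ Fin 3) ⊕ Fin 2) F) := inferInstance
  have hfin : Finite ↥(Cfsg.isometryGroup F (Cfsg.quadFormMinus 3 F a b)) := inferInstance
  have hfinP : Finite (Cfsg.PSp 4 F) := inferInstance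
  apply Set.Subset.antisymm
  · apply PSLSpectrum.range_orderOf_subset
    intro g
    obtain ⟨s, hs, hgs⟩ := SpSpec67.psp_dvd g
    obtain ⟨χ, hχ, hχ1⟩ := exists_char F
    obtain ⟨δ, Q, T, t, hQ, hgQ, hTO, -, hk⟩ := real_false hχ hχ1 ⟨a, b, han⟩ s hs
    obtain ⟨e, he⟩ := minus_of_gs (k := 3) hχ hQ (by simp) (by rw [hgQ]; ring) han
    have h1 : QuadNorm.conjLE e T ∈ O (quadMinus 3 F a b) := (QuadNorm.conjLE_mem e he T).2 hTO
    refine ⟨ofO h1, ?_⟩
    refine hgs.trans (hk _ ?_ (fun h => absurd h (by decide)))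
    have h2 := (orderOf_toLE (ofO h1) (orderOf (ofO h1))).1 (pow_orderOf_eq_one _)
    rw [toLE_ofO, ← map_pow] at h2
    exact (MulEquiv.map_eq_one_iff (QuadNorm.conjLE e)).1 h2
  · apply PSLSpectrum.range_orderOf_subset
    intro x
    have hnd : Nd (quadMinus 3 F a b) := nd_quadMinus (by
      have h4 : (4 : F) = 0 := by linear_combination 2 * (CharTwo.two_eq_zero : (2 : F) = 0)
      rw [h4, zero_mul, sub_zero]
      exact pow_ne_zero 2 ha)
    have hx : toLE (x : Matrix.GeneralLinearGroup ((Fin 3 ⊕ Fin 3) ⊕ Fin 2) F) ∈ O (quadMinus 3 F a b) := by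
      rw [← mem_isometryGroup_iff_toLE, coe_quadMinus]
      exact x.2
    obtain ⟨g, hg⟩ := SpSpec67.exists_psp_O (n := 4) (by norm_num) (by simp) hnd _ hx
    refine ⟨g, ?_⟩
    apply orderOf_dvd_of_pow_eq_one
    have h1 := (hg _).1 (pow_orderOf_eq_one g)
    rw [← map_pow, MulEquiv.map_eq_one_iff, ← Subgroup.coe_pow, OneMemClass.coe_eq_one] at h1
    exact h1

end Cfsg.Agent.S3589
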