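import Cfsg.Statements.S3590
import Cfsg.Agent.Lib.AffSpec67
import Cfsg.Agent.Lib.PSLSpectrum
import Cfsg.Agent.Lib.QuadIndex

set_option autoImplicit false
open Cfsg

namespace Cfsg.Agent.S3590

open QuadraticMap Module Cfsg.Agent.Lib Cfsg.Agent.Lib.Quad Cfsg.Agent.Lib.SpBound67 Cfsg.Agent.Lib.GaussSign67 Cfsg.Agent.Lib.OReal67
  Cfsg.Agent.Lib.SpSpec67 Cfsg.Agent.Lib.AffSpec67

universe u

section field
variable (F : Type u) [Field F] [Finite F] [CharP F 2]

theorem exists_aniso : ∃ a b : F, ∀ z₁ z₂ : F, z₁ ^ 2 + a * z₁ * z₂ + b * z₂ ^ 2 = 0 → z₁ = 0 ∧ z₂ = 0 := by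
  have h20 : (2 : F) = 0 := CharTwo.two_eq_zero
  obtain ⟨b, hb⟩ : ∃ b : F, ∀ t : F, t ^ 2 + t ≠ b := by
    by_contra hcon
    push Not at hcon
    have hs : Function.Surjective (fun t : F => t ^ 2 + t) := hcon
    have hi := (Finite.injective_iff_surjective.2 hs)
    have h1 : (0 : F) = 1 := hi (by show (0 : F) ^ 2 + 0 = 1 ^ 2 + 1; linear_combination -h20)
    exact zero_ne_one h1
  refine ⟨1, b, fun z₁ z₂ h => ?_⟩
  have hz : z₂ = 0 := by
    by_contra hz
    apply hb (z₁ / z₂)
    field_simp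
    linear_combination h - b * z₂ ^ 2 * h20
  subst hz
  refine ⟨?_, rfl⟩
  have h1 : z₁ ^ 2 = 0 := by linear_combination h
  exact pow_eq_zero_iff two_ne_zero |>.1 h1

end field

section group
variable {F : Type u} [Field F] {V : Type u} [AddCommGroup V] [Module F V]

/-- the action on `V^k` -/
def act (F : Type u) [Field F] (V : Type u) [AddCommGroup V] [Module F V] (k : ℕ) :
    (V ≃ₗ[F] V) →* MulAut (Multiplicative (Fin k → V)) where
  toFun T := 
    { toFun := fun f => Multiplicative.ofAdd (fun j => T (Multiplicative.toAdd f j))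
      invFun := fun f => Multiplicative.ofAdd (fun j => T.symm (Multiplicative.toAdd f j))
      left_inv := fun f => by
        apply Multiplicative.toAdd.injective
        funext j
        exact T.symm_apply_apply _
      right_inv := fun f => by
        apply Multiplicative.toAdd.injective
        funext j
        exact T.apply_symm_apply _
      map_mul' := fun f g => by
        apply Multiplicative.toAdd.injective
        funext j
        exact map_add T _ _ }
  map_one' := rfl
  map_mul' _ _ := rfl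

/-- the affine group -/
abbrev HH (K : Subgroup (V ≃ₗ[F] V)) (k : ℕ) : Type u :=
  SemidirectProduct (Multiplicative (Fin k → V)) K ((act F V k).comp K.subtype)

theorem right_pow {K : Subgroup (V ≃ₗ[F] V)} {k : ℕ} (x : HH K k) (n : ℕ) : (x ^ n).right = x.right ^ n :=
  map_pow SemidirectProduct.rightHom x n

theorem left_pow {K : Subgroup (V ≃ₗ[F] V)} {k : ℕ} (x : HH K k) (n : ℕ) (j : Fin k) :
    (Multiplicative.toAdd (x ^ n).left) j = ∑ i ∈ Finset.range n, ((x.right : V ≃ₗ[F] V) ^ i) ((Multiplicative.toAdd x.left) j) := by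
  induction n with
  | zero => rfl
  | succ n ih =>
    rw [pow_succ, SemidirectProduct.mul_left, Finset.sum_range_succ, ← ih, right_pow]
    rfl

theorem pow_eq_one {K : Subgroup (V ≃ₗ[F] V)} {k : ℕ} (x : HH K k) (n : ℕ) :
    x ^ n = 1 ↔ (x.right : V ≃ₗ[F] V) ^ n = 1 ∧
      ∀ j, ∑ i ∈ Finset.range n, ((x.right : V ≃ₗ[F] V) ^ i) ((Multiplicative.toAdd x.left) j) = 0 := by
  constructor
  · intro h
    constructor
    · have h1 := right_pow x n
      rw [h] at h1
      have h2 : ((x.right ^ n : K) : V ≃ₗ[F] V) = 1 := by rw [← h1]; rfl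
      rw [← h2, Subgroup.coe_pow]
    · intro j
      rw [← left_pow, h]; rfl
  · rintro ⟨h1, h2⟩
    apply SemidirectProduct.ext
    · apply Multiplicative.toAdd.injective
      funext j
      rw [left_pow, h2]; rfl
    · rw [right_pow]
      apply Subtype.ext
      rw [Subgroup.coe_pow, h1]; rfl

theorem finrank_mov_conj {W : Type u} [AddCommGroup W] [Module F W] (e : V ≃ₗ[F] W) (T : V ≃ₗ[F] V) :
    finrank F (mov (QuadNorm.conjLE e T)) = finrank F (mov T) := by
  have h1 : mov (QuadNorm.conjLE e T) = (mov T).map e.toLinearMap := by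
    ext x
    rw [mem_mov, Submodule.mem_map]
    constructor
    · rintro ⟨y, rfl⟩
      refine ⟨T (e.symm y) - e.symm y, mem_mov.2 ⟨_, rfl⟩, ?_⟩
      show e (T (e.symm y) - e.symm y) = _
      rw [map_sub, LinearEquiv.apply_symm_apply]; rfl
    · rintro ⟨y, hy, rfl⟩
      obtain ⟨z, rfl⟩ := mem_mov.1 hy
      refine ⟨e z, ?_⟩
      show _ = e (T z - z)
      rw [QuadNorm.conjLE_apply, LinearEquiv.symm_apply_apply, map_sub]
  rw [h1]
  exact LinearEquiv.finrank_map_eq e (mov T)

theorem end_pow (T : V ≃ₗ[F] V) (k : ℕ) (x : V) : (((T : V →ₗ[F] V) : Module.End F V) ^ k) x = (T ^ k) x := by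
  induction k generalizing x with
  | zero => rfl
  | succ k ih => rw [pow_succ, pow_succ, Module.End.mul_apply, ih]; rfl

/-- the affine bound -/
theorem aff [Finite F] [CharP F 2] [FiniteDimensional F V] {Q : QuadraticForm F V} (hQ : Nd Q) (hV : finrank F V = 8)
    {T : V ≃ₗ[F] V} (hT : T ∈ O Q) (hpar : Even (finrank F (mov T))) :
    ∃ s ∈ LL 4, T ^ (val (Nat.card F) s) = 1 ∧ ∀ x, ∑ i ∈ Finset.range (val (Nat.card F) s), (T ^ i) x = 0 := by
  classical
  have hfinV : Finite V := Module.finite_of_finite F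
  have hfinE : Finite (V ≃ₗ[F] V) := Finite.of_injective (fun f => (f : V → V)) DFunLike.coe_injective
  have hm : 0 < orderOf T := orderOf_pos T
  have hE : ∀ k, ((T : V →ₗ[F] V) : Module.End F V) ^ k = 1 ↔ T ^ k = 1 := by
    intro k
    constructor
    · intro h
      ext1 x
      rw [← end_pow, h]; rfl
    · intro h
      ext1 x
      rw [end_pow, h]; rfl
  have hTm : ∀ k, ((T : V →ₗ[F] V) : Module.End F V) ^ k = 1 ↔ orderOf T ∣ k := by
    intro k
    rw [hE, orderOf_dvd_iff_pow_eq_one]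
  have hB := polar_herm (F := F) hQ
  have hTB : ∀ x y, polar Q (T x) (T y) = polar Q x y := polar_of_mem hT
  by_cases hN : ∑ i ∈ Finset.range (orderOf T), ((T : V →ₗ[F] V) : Module.End F V) ^ i = 0
  · obtain ⟨M, ⟨s, hs, rfl⟩, hM⟩ := bd4 F V (fun x y => polar Q x y) hV hB polar_alt ((T : V →ₗ[F] V) : Module.End F V) hTB
      (orderOf T - 1) (by rw [Nat.sub_add_cancel hm]; exact (hTm _).2 dvd_rfl)
    refine ⟨s, hs, (hE _).1 hM, ?_⟩
    intro x
    obtain ⟨c, hc⟩ := (hTm _).1 hM
    rw [hc, OReal67.sum_periodic (pow_orderOf_eq_one T)]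
    have h1 : ∑ i ∈ Finset.range (orderOf T), (T ^ i) x = 0 := by
      have h2 := LinearMap.congr_fun hN x
      rw [LinearMap.sum_apply, LinearMap.zero_apply] at h2
      rw [← h2]
      exact Finset.sum_congr rfl fun i _ => (end_pow T i x).symm
    rw [h1, smul_zero]
  · have hker : finrank F (LinearMap.ker (((T : V →ₗ[F] V) : Module.End F V) - 1)) ≠ 1 := by
      intro h
      have h1 : finrank F (mov T) + finrank F (fixS T) = finrank F V := finrank_mov_add_fixS T
      have h2 : fixS T = LinearMap.ker (((T : V →ₗ[F] V) : Module.End F V) - 1) := by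
        ext x
        rw [mem_fixS, LinearMap.mem_ker, LinearMap.sub_apply, sub_eq_zero]; rfl
      rw [h2, h, hV] at h1
      have h3 : finrank F (mov T) = 7 := by omega
      rw [h3] at hpar
      exact absurd hpar (by decide)
    obtain ⟨s, hs, c, hc⟩ := aff_bound (B := fun x y => polar Q x y) hV hB polar_alt ((T : V →ₗ[F] V) : Module.End F V) hTB hm hTm hker hN
    refine ⟨s, hs, ?_, ?_⟩
    · rw [hc, mul_comm 2, mul_assoc, pow_mul, pow_orderOf_eq_one, one_pow]
    · intro x
      rw [hc, mul_comm 2, mul_assoc, OReal67.sum_periodic (pow_orderOf_eq_one T), mul_smul, two_nsmul' F]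

end group

/-- Let F be a finite field of characteristic 2. Then PSp(8,F) is not determined by its set of element orders, not even up to finitely many groups: for every bound there is a finite group of larger order with exactly the same set of element orders as PSp(8,F). -/
theorem result {F : Type*} [Field F] [Fintype F]
    [CharP F 2] (M : ℕ) :
    ∃ (H : Type) (_ : Group H) (_ : Fintype H), M < Fintype.card H ∧ Set.range (orderOf : H → ℕ) = Set.range (orderOf : Cfsg.PSp 4 F → ℕ) := by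
  classical
  obtain ⟨a, b, hab⟩ := exists_aniso F
  obtain ⟨χ, hχ, hχ1⟩ := exists_char F
  have h20 : (2 : F) = 0 := CharTwo.two_eq_zero
  have ha : a ≠ 0 := by
    rintro rfl
    obtain ⟨t, ht⟩ := FiniteField.isSquare_of_char_two (F := F) (ringChar.eq_iff.2 inferInstance) b
    have := hab t 1 (by rw [ht]; linear_combination (t * t) * h20)
    exact one_ne_zero this.2
  have hnd : Nd (quadMinus 3 F a b) := nd_quadMinus (by
    have h4 : (4 : F) = 0 := by linear_combination 2 * h20
    rw [h4, zero_mul, sub_zero]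
    exact pow_ne_zero 2 ha)
  have hdim : finrank F ((Fin 3 ⊕ Fin 3) ⊕ Fin 2 → F) = 8 := by simp
  have hgen : GenHyp (quadMinus 3 F a b) := genHyp_of_card (Or.inr (by rw [hdim]; norm_num))
  set W := ((Fin 3 ⊕ Fin 3) ⊕ Fin 2 → F) with hW
  let par := parHom hnd (hnd.R_eq_O hgen)
  let K : Subgroup (W ≃ₗ[F] W) := par.ker.map (O (quadMinus 3 F a b)).subtype
  have hK : ∀ T : W ≃ₗ[F] W, T ∈ K ↔ T ∈ O (quadMinus 3 F a b) ∧ Even (finrank F (mov T)) := by
    intro T
    constructor
    · rintro ⟨T', hT', rfl⟩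
      refine ⟨T'.2, ?_⟩
      exact (sgn_eq_one_iff).1 (MonoidHom.mem_ker.1 hT')
    · rintro ⟨h1, h2⟩
      refine ⟨⟨T, h1⟩, ?_, rfl⟩
      apply MonoidHom.mem_ker.2
      exact (sgn_eq_one_iff).2 h2
  have hfinW : Finite W := inferInstance
  have hfinE : Finite (W ≃ₗ[F] W) := Finite.of_injective (fun f => (f : W → W)) DFunLike.coe_injective
  have hfinK : Finite K := inferInstance
  have hfinM : Finite (Multiplicative (Fin (M + 1) → W)) := inferInstanceAs (Finite (Fin (M + 1) → W))
  have hfinH : Finite (HH K (M + 1)) := Finite.of_equiv _ (SemidirectProduct.equivProd).symm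
  obtain ⟨G, hG1, hG2, ⟨φ⟩⟩ := Finite.exists_type_univ_nonempty_mulEquiv.{_, 0} (HH K (M + 1))
  refine ⟨G, hG1, hG2, ?_, ?_⟩
  · rw [← Nat.card_eq_fintype_card, ← Nat.card_congr φ.toEquiv, SemidirectProduct.card]
    have h1 : Nat.card (Multiplicative (Fin (M + 1) → W)) = (Nat.card W) ^ (M + 1) :=
      (Nat.card_fun (α := Fin (M + 1)) (β := W)).trans (by rw [Nat.card_fin])
    have h2 : 1 < Nat.card W := Finite.one_lt_card
    have h3 : 0 < Nat.card K := Nat.card_pos
    rw [h1]
    calc M < M + 1 := Nat.lt_succ_self M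
      _ < (Nat.card W) ^ (M + 1) := Nat.lt_pow_self h2
      _ ≤ _ := Nat.le_mul_of_pos_right _ h3
  · have hφ : Set.range (orderOf : G → ℕ) = Set.range (orderOf : HH K (M + 1) → ℕ) := by
      ext n
      constructor
      · rintro ⟨x, rfl⟩
        exact ⟨φ.symm x, MulEquiv.orderOf_eq φ.symm x⟩
      · rintro ⟨x, rfl⟩
        exact ⟨φ x, MulEquiv.orderOf_eq φ x⟩
    rw [hφ]
    have hreal : ∀ s ∈ LL 4, ∃ x : HH K (M + 1), val (Nat.card F) s ∣ orderOf x := by
      intro s hs
      obtain ⟨Q, T, t, hQ, hgQ, hTO, hpar, hk⟩ := real_true hχ hχ1 ⟨a, b, hab⟩ s hs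
      obtain ⟨e, he⟩ := minus_of_gs (k := 3) hχ hQ (by simp) (by rw [hgQ]; ring) hab
      have h1 : QuadNorm.conjLE e T ∈ K := (hK _).2 ⟨(QuadNorm.conjLE_mem e he T).2 hTO, by
        rw [finrank_mov_conj]; exact Nat.even_iff.2 hpar⟩
      let x : HH K (M + 1) := ⟨Multiplicative.ofAdd (fun _ => e t), ⟨QuadNorm.conjLE e T, h1⟩⟩
      refine ⟨x, ?_⟩
      obtain ⟨h2, h3⟩ := (pow_eq_one x (orderOf x)).1 (pow_orderOf_eq_one x)
      apply hk
      · have h4 : (QuadNorm.conjLE e T) ^ (orderOf x) = 1 := h2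
        rw [← map_pow] at h4
        exact (MulEquiv.map_eq_one_iff (QuadNorm.conjLE e)).1 h4
      · intro _
        have h4 : ∑ i ∈ Finset.range (orderOf x), ((QuadNorm.conjLE e T) ^ i) (e t) = 0 := h3 0
        apply e.injective
        rw [map_zero, map_sum, ← h4]
        exact Finset.sum_congr rfl fun i _ => (OReal67.conj_pow e T i t).symm
    have hreal' : ∀ s ∈ LL 4, ∃ g : Cfsg.PSp 4 F, val (Nat.card F) s ∣ orderOf g := by
      intro s hs
      obtain ⟨δ, Q, T, t, hQ, hgQ, hTO, -, hk⟩ := real_false hχ hχ1 ⟨a, b, hab⟩ s hs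
      obtain ⟨g, hg⟩ := exists_psp_O (n := 4) (by norm_num) (by simp) hQ T hTO
      exact ⟨g, hk _ ((hg _).1 (pow_orderOf_eq_one g)) (fun h => absurd h (by decide))⟩
    have hfinP : Finite (Cfsg.PSp 4 F) := inferInstance
    apply Set.Subset.antisymm
    · apply PSLSpectrum.range_orderOf_subset
      intro x
      obtain ⟨h1, h2⟩ := (hK _).1 x.right.2
      obtain ⟨s, hs, h3, h4⟩ := aff hnd hdim h1 h2
      obtain ⟨g, hg⟩ := hreal' s hs
      refine ⟨g, (orderOf_dvd_of_pow_eq_one ?_).trans hg⟩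
      rw [pow_eq_one]
      exact ⟨h3, fun j => h4 _⟩
    · apply PSLSpectrum.range_orderOf_subset
      intro g
      obtain ⟨s, hs, hgs⟩ := psp_dvd g
      obtain ⟨x, hx⟩ := hreal s hs
      exact ⟨x, hgs.trans hx⟩

end Cfsg.Agent.S3590
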