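import Cfsg.Statements.S3592
import Cfsg.Agent.Lib.M11Nse
import Cfsg.Agent.Lib.M11Unique
import Cfsg.Agent.Lib.NseTools
import Cfsg.Agent.Lib.MElevenInv

set_option autoImplicit false
open Cfsg

namespace Cfsg.Agent.S3592

open Subgroup Cfsg.Agent.Lib.NseTools Cfsg.Agent.Lib.M11ByOrder

theorem primes_7920 (r : ℕ) (hr : r.Prime) (h : r ∣ 7920) : r = 2 ∨ r = 3 ∨ r = 5 ∨ r = 11 := by
  rw [show 7920 = 2 ^ 4 * (3 ^ 2 * (5 * 11)) by norm_num, hr.dvd_mul, hr.dvd_mul, hr.dvd_mul] at h
  rcases h with h | h | h | h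
  · left; exact (Nat.prime_dvd_prime_iff_eq hr Nat.prime_two).1 (hr.dvd_of_dvd_pow h)
  · right; left; exact (Nat.prime_dvd_prime_iff_eq hr Nat.prime_three).1 (hr.dvd_of_dvd_pow h)
  · right; right; left; exact (Nat.prime_dvd_prime_iff_eq hr Nat.prime_five).1 h
  · right; right; right; exact (Nat.prime_dvd_prime_iff_eq hr (by norm_num)).1 h

theorem arith11 (n : ℕ) (hmem : n * (11 - 1) ∈ ({0, 1, 165, 440, 990, 1320, 1440, 1584, 1980} : Finset ℕ))
    (h1 : n ≡ 1 [MOD 11]) : n = 144 := by
  simp only [Finset.mem_insert, Finset.mem_singleton] at hmem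
  unfold Nat.ModEq at h1
  omega

theorem arith5 (n : ℕ) (hmem : n * (5 - 1) ∈ ({0, 1, 165, 440, 990, 1320, 1440, 1584, 1980} : Finset ℕ))
    (h1 : n ≡ 1 [MOD 5]) : n = 396 := by
  simp only [Finset.mem_insert, Finset.mem_singleton] at hmem
  unfold Nat.ModEq at h1
  omega

theorem pow_two_mod (k : ℕ) (hk : 0 < k) (h : 2 ^ k ∣ 7920) : ¬ 2 ^ k ≡ 1 [MOD 11] := by
  have h4 : k ≤ 4 := by
    by_contra hk
    have : 2 ^ 5 ∣ 7920 := (pow_dvd_pow 2 (by omega)).trans h
    revert this; decide
  interval_cases k <;> decide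

theorem pow_three_mod (k : ℕ) (hk : 0 < k) (h : 3 ^ k ∣ 7920) : ¬ 3 ^ k ≡ 1 [MOD 11] := by
  have h4 : k ≤ 2 := by
    by_contra hk
    have : 3 ^ 3 ∣ 7920 := (pow_dvd_pow 3 (by omega)).trans h
    revert this; decide
  interval_cases k <;> decide

/-- Let M be the Mathieu group M₁₁ (order 7920). If a finite group G has the same order as M and the same set of values of the function 'number of elements of order n' (taken over the element orders n that occur), then G is isomorphic to M. -/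
theorem result {G : Type*} [Group G] [Finite G]
    (hcard : Nat.card G = Nat.card ↥Cfsg.Spor.M11)
    (hnse : {c : ℕ | 0 < c ∧ ∃ n : ℕ, c = Nat.card {g : G // orderOf g = n}} =
      {c : ℕ | 0 < c ∧ ∃ n : ℕ, c = Nat.card {g : ↥Cfsg.Spor.M11 // orderOf g = n}}) :
    Nonempty (G ≃* ↥Cfsg.Spor.M11) := by
  have hM : Nat.card ↥Cfsg.Spor.M11 = 7920 := Cfsg.Agent.Lib.MElevenInv.card_W
  have hS : IsSimpleGroup ↥Cfsg.Spor.M11 := Cfsg.Agent.Lib.MElevenInv.simple_W
  have hF : Finite ↥Cfsg.Spor.M11 := Nat.finite_of_card_ne_zero (by rw [hM]; norm_num)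
  have hG : Nat.card G = 7920 := by rw [hcard, hM]
  have hmem : ∀ n : ℕ, Nat.card {g : G // orderOf g = n} ∈ ({0, 1, 165, 440, 990, 1320, 1440, 1584, 1980} : Finset ℕ) := by
    intro n
    rcases Nat.eq_zero_or_pos (Nat.card {g : G // orderOf g = n}) with h | h
    · rw [h]; decide
    · have h1 : Nat.card {g : G // orderOf g = n} ∈ {c : ℕ | 0 < c ∧ ∃ n : ℕ, c = Nat.card {g : G // orderOf g = n}} :=
        ⟨h, n, rfl⟩
      rw [hnse] at h1
      obtain ⟨-, m, hm⟩ := h1
      rw [hm]
      exact card_order hM m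
  have i11 : Fact (Nat.Prime 11) := ⟨by norm_num⟩
  have i5 : Fact (Nat.Prime 5) := ⟨by norm_num⟩
  have c11 : ∀ P : Sylow 11 G, Nat.card P = 11 := card_sylow_prime (m := 720) (by rw [hG]) (by norm_num)
  have c5 : ∀ P : Sylow 5 G, Nat.card P = 5 := card_sylow_prime (m := 1584) (by rw [hG]) (by norm_num)
  have n11 : Nat.card (Sylow 11 G) = 144 := by
    obtain ⟨P⟩ : Nonempty (Sylow 11 G) := inferInstance
    have h1 := hmem 11
    rw [card_order_prime c11] at h1
    exact arith11 _ h1 (card_sylow_modEq_one 11 G)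
  have n5 : Nat.card (Sylow 5 G) = 396 := by
    have h1 := hmem 5
    rw [card_order_prime c5] at h1
    exact arith5 _ h1 (card_sylow_modEq_one 5 G)
  have hGs : IsSimpleGroup G := by
    refine isSimple_of_normalizers (p := 11) (q := 5) (by decide) ?_ c5 ?_ ?_ (by rw [hG]; norm_num)
    · intro P
      have h := card_sylow_mul P
      rw [n11, hG] at h
      omega
    · intro Q
      have h := card_sylow_mul Q
      rw [n5, hG] at h
      have h' : Nat.card (normalizer ((Q : Subgroup G) : Set G)) = 20 := by omega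
      rw [h']; norm_num
    · intro r k hr h11 h5 hk hd
      rw [hG] at hd
      have hr' : r ∣ 7920 := (dvd_pow_self r hk.ne').trans hd
      rcases primes_7920 r hr hr' with h | h | h | h
      · subst h; exact pow_two_mod k hk hd
      · subst h; exact pow_three_mod k hk hd
      · exact absurd h h5
      · exact absurd h h11
  exact unique_7920 hG hM

end Cfsg.Agent.S3592
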