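import Cfsg.Statements.S3599
import Mathlib
-- import your own Cfsg.Agent.* helpers here

set_option autoImplicit false
open Cfsg

namespace Cfsg.Agent.S3599

/-- Affine maps `x ↦ u x + c` with `u ∈ U`. -/
@[ext] structure Aff (K : Type) [Field K] (U : Subgroup Kˣ) where
  c : K
  u : U

variable {K : Type} [Field K] {U : Subgroup Kˣ}

instance affGroup : Group (Aff K U) where
  mul x y := ⟨x.c + ((x.u : Kˣ) : K) * y.c, x.u * y.u⟩
  one := ⟨0, 1⟩
  inv x := ⟨-(((x.u : Kˣ)⁻¹ : Kˣ) : K) * x.c, x.u⁻¹⟩
  mul_assoc x y z := by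
    apply Aff.ext
    · show x.c + ((x.u : Kˣ) : K) * y.c + (((x.u * y.u : U) : Kˣ) : K) * z.c = x.c + ((x.u : Kˣ) : K) * (y.c + ((y.u : Kˣ) : K) * z.c)
      rw [Subgroup.coe_mul, Units.val_mul]; ring
    · exact mul_assoc _ _ _
  one_mul x := by
    apply Aff.ext
    · show (0 : K) + (((1 : U) : Kˣ) : K) * x.c = x.c
      simp
    · exact one_mul _
  mul_one x := by
    apply Aff.ext
    · show x.c + ((x.u : Kˣ) : K) * 0 = x.c
      simp
    · exact mul_one _
  inv_mul_cancel x := by
    apply Aff.ext
    · show -(((x.u : Kˣ)⁻¹ : Kˣ) : K) * x.c + (((x.u⁻¹ : U) : Kˣ) : K) * x.c = 0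
      simp
    · exact inv_mul_cancel _

@[simp] theorem mul_c (x y : Aff K U) : (x * y).c = x.c + ((x.u : Kˣ) : K) * y.c := rfl
@[simp] theorem mul_u (x y : Aff K U) : (x * y).u = x.u * y.u := rfl
@[simp] theorem one_c : (1 : Aff K U).c = 0 := rfl
@[simp] theorem one_u : (1 : Aff K U).u = 1 := rfl
@[simp] theorem inv_c (x : Aff K U) : (x⁻¹).c = -(((x.u : Kˣ)⁻¹ : Kˣ) : K) * x.c := rfl
@[simp] theorem inv_u (x : Aff K U) : (x⁻¹).u = x.u⁻¹ := rfl

theorem pow_u (x : Aff K U) (n : ℕ) : (x ^ n).u = x.u ^ n := by
  induction n with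
  | zero => simp
  | succ n ih => rw [pow_succ, mul_u, ih, pow_succ]

theorem pow_c (x : Aff K U) (n : ℕ) : (x ^ n).c = (∑ i ∈ Finset.range n, ((x.u : Kˣ) : K) ^ i) * x.c := by
  induction n with
  | zero => simp
  | succ n ih =>
    rw [pow_succ, mul_c, ih, pow_u, Finset.sum_range_succ]
    push_cast
    ring

theorem tr_mul (c d : K) : (⟨c, 1⟩ : Aff K U) * ⟨d, 1⟩ = ⟨c + d, 1⟩ := by
  apply Aff.ext
  · show c + (((1 : U) : Kˣ) : K) * d = c + d
    simp
  · exact mul_one _

theorem tr_inv (c : K) : (⟨c, 1⟩ : Aff K U)⁻¹ = ⟨-c, 1⟩ := by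
  apply Aff.ext
  · show -((((1 : U) : Kˣ)⁻¹ : Kˣ) : K) * c = -c
    simp
  · exact inv_one

theorem conj_tr (x : Aff K U) (c : K) : x * ⟨c, 1⟩ * x⁻¹ = ⟨((x.u : Kˣ) : K) * c, 1⟩ := by
  apply Aff.ext
  · show x.c + ((x.u : Kˣ) : K) * c + (((x.u * 1 : U) : Kˣ) : K) * (-(((x.u : Kˣ)⁻¹ : Kˣ) : K) * x.c) = ((x.u : Kˣ) : K) * c
    rw [mul_one]
    have : ((x.u : Kˣ) : K) * (((x.u : Kˣ)⁻¹ : Kˣ) : K) = 1 := by simp
    linear_combination (-x.c) * this
  · show x.u * 1 * x.u⁻¹ = 1
    rw [mul_one, mul_inv_cancel]

def affEquiv : Aff K U ≃ K × U where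
  toFun x := (x.c, x.u)
  invFun y := ⟨y.1, y.2⟩
  left_inv _ := rfl
  right_inv _ := rfl

/-- An additive subgroup of a field with `a ^ k` elements, `k` the order of `a` modulo `b`, stable under
multiplication by an element of order `b`, is trivial or everything. -/
theorem stable_trivial [Finite K] {a b k : ℕ} (ha : a.Prime) (hb : b.Prime) (hk : k = orderOf (a : ZMod b))
    (hK : Nat.card K = a ^ k) (v : Kˣ) (hv : orderOf v = b) (A : AddSubgroup K)
    (hA : ∀ c ∈ A, (v : K) * c ∈ A) : A = ⊥ ∨ A = ⊤ := by
  classical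
  by_cases hbot : A = ⊥
  · exact Or.inl hbot
  right
  have hstab : ∀ n : ℕ, ∀ c ∈ A, ((v ^ n : Kˣ) : K) * c ∈ A := by
    intro n
    induction n with
    | zero => intro c hc; simpa using hc
    | succ n ih =>
      intro c hc
      have := hA _ (ih c hc)
      rw [pow_succ', Units.val_mul, mul_assoc]
      exact this
  have hfin : IsOfFinOrder v := isOfFinOrder_of_finite v
  let S : SubMulAction (Subgroup.zpowers v) K :=
    { carrier := A
      smul_mem' := by
        rintro ⟨g, hg⟩ c hc
        rw [← mem_powers_iff_mem_zpowers] at hg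
        obtain ⟨n, rfl⟩ := hg
        exact hstab n c hc }
  have hfact := Fact.mk hb
  have hp : IsPGroup b (Subgroup.zpowers v) := by
    apply IsPGroup.of_card (n := 1)
    rw [Nat.card_zpowers, hv, pow_one]
  have hmod := hp.card_modEq_card_fixedPoints S
  have hv1 : v ≠ 1 := by
    rintro rfl
    rw [orderOf_one] at hv
    exact hb.one_lt.ne hv
  have hfix : Nat.card (MulAction.fixedPoints (Subgroup.zpowers v) S) = 1 := by
    rw [Nat.card_eq_one_iff_unique]
    constructor
    · constructor
      rintro ⟨⟨x, hx⟩, hx'⟩ ⟨⟨y, hy⟩, hy'⟩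
      have h0 : ∀ z (hz : z ∈ S), (⟨z, hz⟩ : S) ∈ MulAction.fixedPoints (Subgroup.zpowers v) S → z = 0 := by
        intro z hz hz'
        have := hz' ⟨v, Subgroup.mem_zpowers v⟩
        have h2 : (v : K) * z = z := congrArg Subtype.val this
        have h3 : ((v : K) - 1) * z = 0 := by rw [sub_mul, h2, one_mul, sub_self]
        rcases mul_eq_zero.mp h3 with h | h
        · exfalso; apply hv1; apply Units.ext
          rw [Units.val_one]; exact sub_eq_zero.mp h
        · exact h
      apply Subtype.ext
      apply Subtype.ext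
      show x = y
      rw [h0 x hx hx', h0 y hy hy']
    · refine ⟨⟨⟨0, A.zero_mem⟩, ?_⟩⟩
      intro g
      apply Subtype.ext
      show ((g : Kˣ) : K) * 0 = 0
      simp
  have hSA : Nat.card S = Nat.card A := rfl
  rw [hfix, hSA] at hmod
  -- the order of `A`
  have hdvd : Nat.card A ∣ a ^ k := by rw [← hK]; exact A.card_addSubgroup_dvd_card
  obtain ⟨d, hd, hAd⟩ := (Nat.dvd_prime_pow ha).mp hdvd
  rw [hAd] at hmod
  have h1 : (a : ZMod b) ^ d = 1 := by
    have := (ZMod.natCast_eq_natCast_iff _ _ _).mpr hmod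
    simpa using this
  have h2 : k ∣ d := by rw [hk]; exact orderOf_dvd_of_pow_eq_one h1
  have hd0 : d ≠ 0 := by
    rintro rfl
    rw [pow_zero] at hAd
    exact hbot (AddSubgroup.eq_bot_of_card_eq A hAd)
  have h3 : k ≤ d := Nat.le_of_dvd (Nat.pos_of_ne_zero hd0) h2
  have h4 : d = k := le_antisymm hd h3
  apply AddSubgroup.eq_top_of_card_eq
  rw [hAd, hK, h4]

/-- The minimal Frobenius group of type `a ^ k : b`. -/
theorem exists_frob (a b : ℕ) (ha : a.Prime) (hb : b.Prime) (hab : a ≠ b) :
    ∃ (F : Type) (_ : Group F) (_ : Fintype F),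
      (∀ x : F, orderOf x = 1 ∨ orderOf x = a ∨ orderOf x = b) ∧
      (∃ x : F, orderOf x = a) ∧ (∃ x : F, orderOf x = b) ∧
      (Nat.card F = a ^ orderOf (a : ZMod b) * b) ∧ 0 < orderOf (a : ZMod b) ∧
      (∀ H : Subgroup F, a ∣ Nat.card H → b ∣ Nat.card H → H = ⊤) ∧
      (∀ N : Subgroup F, N.Normal → N ≠ ⊥ → a ^ orderOf (a : ZMod b) ∣ Nat.card N) := by
  classical
  have hfa := Fact.mk ha
  have hfb := Fact.mk hb
  set k := orderOf (a : ZMod b) with hk
  have hk0 : 0 < k := by
    rw [hk, orderOf_pos_iff]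
    have hne : (a : ZMod b) ≠ 0 := by
      intro h
      rw [ZMod.natCast_eq_zero_iff] at h
      exact hab ((Nat.prime_dvd_prime_iff_eq hb ha).mp h).symm
    have h1 : IsOfFinOrder (Units.mk0 (a : ZMod b) hne) := isOfFinOrder_of_finite _
    rw [isOfFinOrder_iff_pow_eq_one] at h1 ⊢
    obtain ⟨n, hn, h⟩ := h1
    refine ⟨n, hn, ?_⟩
    have := congrArg Units.val h
    simpa using this
  let K := GaloisField a k
  have hfinK : Finite K := inferInstance
  have hK : Nat.card K = a ^ k := GaloisField.card a k hk0.ne'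
  have hft : Fintype K := Fintype.ofFinite K
  have hbd : b ∣ Nat.card Kˣ := by
    rw [Nat.card_units, hK]
    have h1 : (a : ZMod b) ^ k = 1 := pow_orderOf_eq_one _
    have h2 : ((a ^ k : ℕ) : ZMod b) = ((1 : ℕ) : ZMod b) := by push_cast; exact h1
    rw [ZMod.natCast_eq_natCast_iff] at h2
    exact (Nat.modEq_iff_dvd' (Nat.one_le_pow _ _ ha.pos)).mp h2.symm
  obtain ⟨ζ, hζ⟩ := exists_prime_orderOf_dvd_card' b hbd
  let U : Subgroup Kˣ := Subgroup.zpowers ζ
  have hU : Nat.card U = b := by rw [Nat.card_zpowers, hζ]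
  let F := Aff K U
  have hUb : ∀ u : U, u ^ b = 1 := by
    intro u
    rw [← hU]
    exact pow_card_eq_one'
  have hUo : ∀ u : U, u ≠ 1 → orderOf (u : Kˣ) = b := by
    intro u hu
    rw [Subgroup.orderOf_coe]
    exact orderOf_eq_prime (hUb u) hu
  have hchar : CharP K a := inferInstance
  have hcop : Nat.Coprime a b := (Nat.coprime_primes ha hb).mpr hab
  have hU1 : ∀ u : U, u ^ a = 1 → u = 1 := by
    intro u hu
    have h1 : orderOf u ∣ a := orderOf_dvd_of_pow_eq_one hu
    have h2 : orderOf u ∣ b := orderOf_dvd_of_pow_eq_one (hUb u)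
    have h3 := Nat.dvd_gcd h1 h2
    rw [Nat.Coprime.gcd_eq_one hcop] at h3
    exact orderOf_eq_one_iff.mp (Nat.dvd_one.mp h3)
  -- translations have order dividing `a`
  have htr : ∀ x : F, x.u = 1 → x ^ a = 1 := by
    intro x hx
    apply Aff.ext
    · rw [pow_c, hx]
      simp
    · rw [pow_u, hx, one_pow]; rfl
  -- other elements have order `b`
  have hother : ∀ x : F, x.u ≠ 1 → orderOf x = b := by
    intro x hx
    apply orderOf_eq_prime
    · apply Aff.ext
      · rw [pow_c, one_c]
        have hne : ((x.u : Kˣ) : K) ≠ 1 := by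
          intro h
          apply hx
          apply Subtype.ext
          apply Units.ext
          exact h
        have hgs := mul_geom_sum ((x.u : Kˣ) : K) b
        have hpow : ((x.u : Kˣ) : K) ^ b = 1 := by
          have := hUb x.u
          have h2 := congrArg (fun z : U => (((z : Kˣ)) : K)) this
          simpa using h2
        rw [hpow, sub_self] at hgs
        rcases mul_eq_zero.mp hgs with h | h
        · exact absurd (sub_eq_zero.mp h) hne
        · rw [h, zero_mul]
      · rw [pow_u, hUb]; rfl
    · intro h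
      apply hx
      rw [h]; rfl
  have hord : ∀ x : F, orderOf x = 1 ∨ orderOf x = a ∨ orderOf x = b := by
    intro x
    by_cases hx : x.u = 1
    · have := orderOf_dvd_of_pow_eq_one (htr x hx)
      rcases (Nat.dvd_prime ha).mp this with h | h
      · exact Or.inl h
      · exact Or.inr (Or.inl h)
    · exact Or.inr (Or.inr (hother x hx))
  have hcardF : Nat.card F = a ^ k * b := by
    rw [Nat.card_congr affEquiv, Nat.card_prod, hK, hU]
  have hfinF : Finite F := Finite.of_equiv _ (affEquiv (K := K) (U := U)).symm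
  -- the translation subgroup of a subgroup
  let T : Subgroup F → AddSubgroup K := fun H =>
    { carrier := {c | (⟨c, 1⟩ : F) ∈ H}
      add_mem' := by
        intro c d hc hd
        have := H.mul_mem hc hd
        rw [tr_mul] at this
        exact this
      zero_mem' := H.one_mem
      neg_mem' := by
        intro c hc
        have := H.inv_mem hc
        rw [tr_inv] at this
        exact this }
  have hTmem : ∀ (H : Subgroup F) (c : K), c ∈ T H ↔ (⟨c, 1⟩ : F) ∈ H := fun _ _ => Iff.rfl
  have hconj : ∀ (x : F) (c : K), x * ⟨c, 1⟩ * x⁻¹ = ⟨((x.u : Kˣ) : K) * c, 1⟩ := by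
    intro x c
    exact conj_tr x c
  have hTcard : ∀ H : Subgroup F, T H = ⊤ → a ^ k ∣ Nat.card H := by
    intro H hH
    let f : Multiplicative K →* F :=
      { toFun := fun c => ⟨Multiplicative.toAdd c, 1⟩
        map_one' := rfl
        map_mul' := fun c d => (tr_mul _ _).symm }
    have hf : Function.Injective f := by
      intro c d h
      have := congrArg Aff.c h
      exact this
    have hle : f.range ≤ H := by
      rintro _ ⟨c, rfl⟩
      have : Multiplicative.toAdd c ∈ T H := by rw [hH]; trivial
      exact this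
    have hc : Nat.card f.range = a ^ k := by
      rw [← hK]
      exact (Nat.card_congr (MonoidHom.ofInjective hf).toEquiv).symm
    rw [← hc]
    exact Subgroup.card_dvd_of_le hle
  refine ⟨F, inferInstance, Fintype.ofFinite F, hord, ?_, ?_, hcardF, hk0, ?_, ?_⟩
  · refine ⟨⟨1, 1⟩, ?_⟩
    apply orderOf_eq_prime (htr _ rfl)
    intro h
    exact one_ne_zero (congrArg Aff.c h)
  · refine ⟨⟨0, ⟨ζ, Subgroup.mem_zpowers ζ⟩⟩, ?_⟩
    apply hother
    intro h
    have : ζ = 1 := congrArg Subtype.val h
    rw [this, orderOf_one] at hζ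
    exact hb.one_lt.ne hζ
  · intro H haH hbH
    obtain ⟨⟨t, ht⟩, hto⟩ := exists_prime_orderOf_dvd_card' a haH
    obtain ⟨⟨x, hx⟩, hxo⟩ := exists_prime_orderOf_dvd_card' b hbH
    rw [Subgroup.orderOf_mk] at hto hxo
    have htu : t.u = 1 := by
      by_contra h
      rw [hother t h] at hto
      exact hab hto.symm
    have hxu : x.u ≠ 1 := by
      intro h
      have h1 := orderOf_dvd_of_pow_eq_one (htr x h)
      rw [hxo] at h1
      exact hab ((Nat.prime_dvd_prime_iff_eq hb ha).mp h1).symm
    have htc : t.c ≠ 0 := by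
      intro h
      have : t = 1 := Aff.ext h htu
      rw [this, orderOf_one] at hto
      exact ha.one_lt.ne hto
    have hstab : ∀ c ∈ T H, ((x.u : Kˣ) : K) * c ∈ T H := by
      intro c hc
      rw [hTmem] at hc ⊢
      rw [← hconj]
      exact H.mul_mem (H.mul_mem hx hc) (H.inv_mem hx)
    have hT : T H = ⊤ := by
      rcases stable_trivial ha hb hk hK _ (hUo x.u hxu) (T H) hstab with h | h
      · exfalso
        apply htc
        have : t.c ∈ T H := by
          rw [hTmem]
          have : (⟨t.c, 1⟩ : F) = t := Aff.ext rfl htu.symm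
          rw [this]; exact ht
        rw [h] at this
        exact (AddSubgroup.mem_bot).mp this
      · exact h
    have h1 := hTcard H hT
    have h2 : a ^ k * b ∣ Nat.card H := Nat.Coprime.mul_dvd_of_dvd_of_dvd (Nat.Coprime.pow_left k hcop) h1 hbH
    apply Subgroup.eq_top_of_card_eq
    apply le_antisymm (Subgroup.card_le_card_group H)
    rw [hcardF]
    exact Nat.le_of_dvd Nat.card_pos h2
  · intro N hN hNne
    apply hTcard
    -- a non-trivial element of `N`
    obtain ⟨⟨n, hn⟩, hn1⟩ := Subgroup.ne_bot_iff_exists_ne_one.mp hNne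
    have hn1' : n ≠ 1 := fun h => hn1 (Subtype.ext h)
    have hstab : ∀ c ∈ T N, ((((⟨ζ, Subgroup.mem_zpowers ζ⟩ : U)) : Kˣ) : K) * c ∈ T N := by
      intro c hc
      rw [hTmem] at hc ⊢
      have := hconj (⟨0, ⟨ζ, Subgroup.mem_zpowers ζ⟩⟩ : F) c
      rw [← this]
      exact hN.conj_mem _ hc _
    rcases stable_trivial ha hb hk hK ζ hζ (T N) hstab with h | h
    · exfalso
      -- all commutators with translations are trivial
      have hcomm : ∀ c : K, ((n.u : Kˣ) : K) * c = c := by
        intro c
        have h1 : n * ⟨c, 1⟩ * n⁻¹ * (⟨c, 1⟩ : F)⁻¹ ∈ N := by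
          have h2 : n * ⟨c, 1⟩ * n⁻¹ * (⟨c, 1⟩ : F)⁻¹ = n * ((⟨c, 1⟩ : F) * n⁻¹ * (⟨c, 1⟩ : F)⁻¹) := by group
          rw [h2]
          exact N.mul_mem hn (hN.conj_mem _ (N.inv_mem hn) _)
        rw [hconj] at h1
        have h3 : (⟨((n.u : Kˣ) : K) * c, 1⟩ : F) * (⟨c, 1⟩ : F)⁻¹ = ⟨((n.u : Kˣ) : K) * c - c, 1⟩ := by
          rw [tr_inv, tr_mul, sub_eq_add_neg]
        rw [h3, ← hTmem, h, AddSubgroup.mem_bot] at h1
        exact sub_eq_zero.mp h1
      have hnu : n.u = 1 := by
        apply Subtype.ext
        apply Units.ext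
        have := hcomm 1
        rw [mul_one] at this
        exact this
      have hnc : n.c ∈ T N := by
        rw [hTmem]
        have : (⟨n.c, 1⟩ : F) = n := Aff.ext rfl hnu.symm
        rw [this]; exact hn
      rw [h, AddSubgroup.mem_bot] at hnc
      exact hn1' (Aff.ext hnc hnu)
    · exact h

theorem orderOf_pi {s : ℕ} {G : Fin s → Type} [∀ j, Group (G j)] (x : ∀ j, G j)
    (hcop : ∀ i j, i ≠ j → Nat.Coprime (orderOf (x i)) (orderOf (x j))) :
    orderOf x = ∏ j, orderOf (x j) := by
  apply Nat.dvd_antisymm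
  · apply orderOf_dvd_of_pow_eq_one
    funext j
    rw [Pi.pow_apply, Pi.one_apply, ← orderOf_dvd_iff_pow_eq_one]
    exact Finset.dvd_prod_of_mem _ (Finset.mem_univ j)
  · apply Finset.prod_dvd_of_isRelPrime
    · intro i _ j _ hij
      exact Nat.coprime_iff_isRelPrime.mp (hcop i j hij)
    · intro j _
      exact orderOf_map_dvd (Pi.evalMonoidHom G j) x

/-- A finite group is critical with respect to a set Ω of natural numbers when its set of element orders is Ω while no proper section H/N (H a subgroup, N normal in H, (H, N) ≠ (whole group, 1)) has Ω as its set of element orders. Let s ≥ 1 and let p(j,0), p(j,1) (j < s) be 2s pairwise distinct primes, and let Ω be the set of all products c(0)·…·c(s−1) with each c(j) ∈ {1, p(j,0), p(j,1)}. Then there are 2^s pairwise non-isomorphic finite groups critical with respect to Ω. -/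
theorem result (s : ℕ) (hs : 1 ≤ s) (p : Fin s → Fin 2 → ℕ)
    (hp : ∀ j i, (p j i).Prime) (hinj : ∀ j i j' i', p j i = p j' i' → j = j' ∧ i = i') :
    ∃ (G : Fin (2 ^ s) → Type) (_ : ∀ a, Group (G a)) (_ : ∀ a, Fintype (G a)),
      (∀ a b, a ≠ b → ¬ Nonempty (G a ≃* G b)) ∧
      ∀ a, Set.range (orderOf : (G a) → ℕ) = {m : ℕ | ∃ c : Fin s → ℕ, (∀ j, c j = 1 ∨ c j = p j 0 ∨ c j = p j 1) ∧ m = ∏ j, c j} ∧
      ∀ (H : Subgroup (G a)) (N : Subgroup ↥H) [N.Normal], (H ≠ ⊤ ∨ N ≠ ⊥) → Set.range (orderOf : (↥H ⧸ N) → ℕ) ≠ {m : ℕ | ∃ c : Fin s → ℕ, (∀ j, c j = 1 ∨ c j = p j 0 ∨ c j = p j 1) ∧ m = ∏ j, c j} := by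
  classical
  have hne : ∀ i : Fin 2, i ≠ i + 1 := by decide
  have hcases : ∀ (i : Fin 2) (P : Fin 2 → Prop), P i → P (i + 1) → P 0 ∧ P 1 := by
    intro i P h1 h2
    fin_cases i
    · exact ⟨h1, h2⟩
    · exact ⟨h2, h1⟩
  have hex := fun (j : Fin s) (i : Fin 2) => exists_frob (p j i) (p j (i + 1)) (hp j i) (hp j (i + 1))
    (fun h => hne i (hinj _ _ _ _ h).2)
  choose F hFg hFf ho hoa hob hcard hk0 hfull hnorm using hex
  let ε : Fin (2 ^ s) → Fin s → Fin 2 := finFunctionFinEquiv.symm
  have hord01 : ∀ (j : Fin s) (i : Fin 2) (x : F j i), orderOf x = 1 ∨ orderOf x = p j 0 ∨ orderOf x = p j 1 := by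
    intro j i x
    have h := ho j i x
    fin_cases i
    · exact h
    · rcases h with h | h | h
      · exact Or.inl h
      · exact Or.inr (Or.inr h)
      · exact Or.inr (Or.inl h)
  have hexo : ∀ (j : Fin s) (i i' : Fin 2), ∃ x : F j i, orderOf x = p j i' := by
    intro j i i'
    have h1 := hoa j i
    have h2 := hob j i
    have := hcases i (fun i' => ∃ x : F j i, orderOf x = p j i') h1 h2
    fin_cases i'
    · exact this.1
    · exact this.2
  have hcopr : ∀ (i j : Fin s), i ≠ j → ∀ m n : ℕ, (m = 1 ∨ m = p i 0 ∨ m = p i 1) → (n = 1 ∨ n = p j 0 ∨ n = p j 1) →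
      Nat.Coprime m n := by
    intro i j hij m n hm hn
    have key : ∀ a b : Fin 2, Nat.Coprime (p i a) (p j b) := fun a b =>
      (Nat.coprime_primes (hp i a) (hp j b)).mpr (fun h => hij (hinj _ _ _ _ h).1)
    rcases hm with rfl | rfl | rfl
    · exact Nat.coprime_one_left _
    · rcases hn with rfl | rfl | rfl
      · exact Nat.coprime_one_right _
      · exact key _ _
      · exact key _ _
    · rcases hn with rfl | rfl | rfl
      · exact Nat.coprime_one_right _
      · exact key _ _
      · exact key _ _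
  -- the primes dividing the order of a factor
  have hprime : ∀ (j : Fin s) (i : Fin 2) (r : ℕ), r.Prime → r ∣ Nat.card (F j i) → r = p j 0 ∨ r = p j 1 := by
    intro j i r hr h
    have := Fact.mk hr
    obtain ⟨x, hx⟩ := exists_prime_orderOf_dvd_card' r h
    rcases hord01 j i x with h | h | h
    · rw [hx] at h; exact absurd h hr.one_lt.ne'
    · left; rw [← hx, h]
    · right; rw [← hx, h]
  have hcardp : ∀ (j : Fin s) (i : Fin 2), (Nat.card (F j i)).factorization (p j i) = orderOf ((p j i : ℕ) : ZMod (p j (i + 1))) := by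
    intro j i
    have hne' : p j i ≠ p j (i + 1) := fun h => hne i (hinj _ _ _ _ h).2
    rw [hcard, Nat.factorization_mul (pow_ne_zero _ (hp j i).ne_zero) (hp j (i + 1)).ne_zero, Nat.factorization_pow]
    rw [Finsupp.add_apply, Finsupp.smul_apply, (hp j i).factorization_self, (hp j (i + 1)).factorization,
      Finsupp.single_apply, if_neg (Ne.symm hne')]
    simp
  have hcardq : ∀ (j : Fin s) (i : Fin 2), (Nat.card (F j i)).factorization (p j (i + 1)) = 1 := by
    intro j i
    have hne' : p j i ≠ p j (i + 1) := fun h => hne i (hinj _ _ _ _ h).2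
    rw [hcard, Nat.factorization_mul (pow_ne_zero _ (hp j i).ne_zero) (hp j (i + 1)).ne_zero, Nat.factorization_pow]
    rw [Finsupp.add_apply, Finsupp.smul_apply, (hp j (i + 1)).factorization_self, (hp j i).factorization,
      Finsupp.single_apply, if_neg hne']
    simp
  have hfacG : ∀ (e : Fin s → Fin 2) (j : Fin s) (i : Fin 2),
      (Nat.card ((j : Fin s) → F j (e j))).factorization (p j i) = (Nat.card (F j (e j))).factorization (p j i) := by
    intro e j i
    rw [Nat.card_pi, Nat.factorization_prod (fun j _ => Nat.card_pos.ne'), Finsupp.finsetSum_apply,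
      Finset.sum_eq_single j]
    · intro j' _ hj'
      apply Nat.factorization_eq_zero_of_not_dvd
      intro h
      rcases hprime j' _ _ (hp j _) h with h | h
      · exact hj' (hinj _ _ _ _ h).1.symm
      · exact hj' (hinj _ _ _ _ h).1.symm
    · intro h; exact absurd (Finset.mem_univ j) h
  have hk1 : ∀ (j : Fin s) (i : Fin 2), orderOf ((p j i : ℕ) : ZMod (p j (i + 1))) = 1 → p j (i + 1) < p j i := by
    intro j i h
    rw [orderOf_eq_one_iff] at h
    have h1 : ((p j i : ℕ) : ZMod (p j (i + 1))) = ((1 : ℕ) : ZMod (p j (i + 1))) := by rw [h]; simp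
    rw [ZMod.natCast_eq_natCast_iff] at h1
    have h2 := (Nat.modEq_iff_dvd' (hp j i).one_lt.le).mp h1.symm
    have h3 := Nat.le_of_dvd (Nat.sub_pos_of_lt (hp j i).one_lt) h2
    have := (hp j i).one_lt
    omega
  refine ⟨fun a => (j : Fin s) → F j (ε a j), fun a => inferInstance, fun a => inferInstance, ?_, ?_⟩
  · -- distinct orders
    rintro a b hab ⟨f⟩
    have hcab : Nat.card ((j : Fin s) → F j (ε a j)) = Nat.card ((j : Fin s) → F j (ε b j)) := Nat.card_congr f.toEquiv
    obtain ⟨j, hj⟩ : ∃ j, ε a j ≠ ε b j := by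
      by_contra hcon
      push Not at hcon
      exact hab (finFunctionFinEquiv.symm.injective (funext hcon))
    have hj2 : ε b j = ε a j + 1 := by
      revert hj
      generalize ε a j = x
      generalize ε b j = y
      revert x y
      decide
    have hj3 : ε a j + 1 + 1 = ε a j := by
      generalize ε a j = x
      revert x
      decide
    have e1 := hfacG (ε a) j (ε a j)
    have e2 := hfacG (ε b) j (ε a j)
    have e3 := hfacG (ε a) j (ε a j + 1)
    have e4 := hfacG (ε b) j (ε a j + 1)
    rw [hcardp] at e1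
    rw [hj2] at e2 e4
    rw [hcardp] at e4
    rw [hcardq] at e3
    have e5 := hcardq j (ε a j + 1)
    rw [hj3] at e5
    rw [e5] at e2
    rw [hcab] at e1 e3
    have h1 := hk1 j (ε a j) (by rw [← e1, e2])
    have h2 := hk1 j (ε a j + 1) (by rw [← e4, e3])
    rw [hj3] at h2
    omega
  · intro a
    have horder : ∀ x : (j : Fin s) → F j (ε a j), orderOf x = ∏ j, orderOf (x j) := by
      intro x
      apply orderOf_pi
      intro i j hij
      exact hcopr i j hij _ _ (hord01 _ _ _) (hord01 _ _ _)
    refine ⟨?_, ?_⟩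
    · ext m
      constructor
      · rintro ⟨x, rfl⟩
        exact ⟨fun j => orderOf (x j), fun j => hord01 _ _ _, horder x⟩
      · rintro ⟨c, hc, rfl⟩
        have : ∀ j, ∃ x : F j (ε a j), orderOf x = c j := by
          intro j
          rcases hc j with h | h | h
          · exact ⟨1, by rw [h, orderOf_one]⟩
          · obtain ⟨x, hx⟩ := hexo j (ε a j) 0
            exact ⟨x, by rw [h, hx]⟩
          · obtain ⟨x, hx⟩ := hexo j (ε a j) 1
            exact ⟨x, by rw [h, hx]⟩
        choose x hx using this
        refine ⟨x, ?_⟩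
        rw [horder]
        exact Finset.prod_congr rfl (fun j _ => hx j)
    · intro H N _ hHN heq
      -- elements of prime order in the section
      have hsec : ∀ (j : Fin s) (i : Fin 2), p j i ∣ Nat.card (H ⧸ N) := by
        intro j i
        have : p j i ∈ Set.range (orderOf : (↥H ⧸ N) → ℕ) := by
          rw [heq]
          refine ⟨fun j' => if j' = j then p j i else 1, ?_, ?_⟩
          · intro j'
            by_cases h : j' = j
            · subst h
              simp only [if_true]
              fin_cases i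
              · right; left; rfl
              · right; right; rfl
            · simp [h]
          · rw [Finset.prod_ite_eq' Finset.univ j (fun _ => p j i)]
            simp
        obtain ⟨x, hx⟩ := this
        rw [← hx]
        exact orderOf_dvd_natCard x
      have hcardH : Nat.card H = Nat.card (H ⧸ N) * Nat.card N := Subgroup.card_eq_card_quotient_mul_card_subgroup N
      have hHd : ∀ (j : Fin s) (i : Fin 2), p j i ∣ Nat.card H := fun j i => by
        rw [hcardH]; exact Dvd.dvd.mul_right (hsec j i) _
      -- elements of prime order live in one factor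
      have hsingle : ∀ (j : Fin s) (i : Fin 2) (x : (j : Fin s) → F j (ε a j)), orderOf x = p j i →
          x = Pi.mulSingle j (x j) ∧ orderOf (x j) = p j i := by
        intro j i x hx
        have h1 : ∀ j', j' ≠ j → x j' = 1 := by
          intro j' hj'
          have h2 : orderOf (x j') ∣ p j i := by
            rw [← hx]
            exact orderOf_map_dvd (Pi.evalMonoidHom _ j') x
          have h3 : Nat.Coprime (orderOf (x j')) (p j i) := by
            apply hcopr j' j hj' _ _ (hord01 _ _ _)
            fin_cases i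
            · right; left; rfl
            · right; right; rfl
          rw [← orderOf_eq_one_iff]
          exact Nat.Coprime.eq_one_of_dvd h3 h2
        have h4 : x = Pi.mulSingle j (x j) := by
          funext j'
          by_cases h : j' = j
          · subst h; rw [Pi.mulSingle_eq_same]
          · rw [Pi.mulSingle_eq_of_ne h, h1 j' h]
        refine ⟨h4, ?_⟩
        rw [← hx, horder x]
        rw [Finset.prod_eq_single j]
        · intro j' _ hj'
          rw [h1 j' hj', orderOf_one]
        · intro h; exact absurd (Finset.mem_univ j) h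
      have hHj : ∀ j, H.comap (MonoidHom.mulSingle (fun j => F j (ε a j)) j) = ⊤ := by
        intro j
        have key : ∀ i : Fin 2, p j i ∣ Nat.card (H.comap (MonoidHom.mulSingle (fun j => F j (ε a j)) j)) := by
          intro i
          have := Fact.mk (hp j i)
          obtain ⟨⟨x, hxH⟩, hx⟩ := exists_prime_orderOf_dvd_card' (p j i) (hHd j i)
          rw [Subgroup.orderOf_mk] at hx
          obtain ⟨h1, h2⟩ := hsingle j i x hx
          have h3 : x j ∈ H.comap (MonoidHom.mulSingle (fun j => F j (ε a j)) j) := by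
            rw [Subgroup.mem_comap]
            show Pi.mulSingle j (x j) ∈ H
            rw [← h1]; exact hxH
          rw [← h2, ← Subgroup.orderOf_mk _ h3]
          exact orderOf_dvd_natCard _
        apply hfull
        · exact key _
        · exact key _
      have hHtop : H = ⊤ := by
        rw [eq_top_iff]
        intro x _
        apply Subgroup.pi_mem_of_mulSingle_mem
        intro j
        have : x j ∈ H.comap (MonoidHom.mulSingle (fun j => F j (ε a j)) j) := by rw [hHj]; trivial
        exact this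
      have hNne : N ≠ ⊥ := by
        rcases hHN with h | h
        · exact absurd hHtop h
        · exact h
      -- the image of `N` in the whole group
      let N' : Subgroup ((j : Fin s) → F j (ε a j)) := N.map H.subtype
      have hN'n : N'.Normal := by
        refine ⟨?_⟩
        rintro _ ⟨n, hn, rfl⟩ g
        have hg : g ∈ H := by rw [hHtop]; trivial
        refine ⟨⟨g, hg⟩ * n * ⟨g, hg⟩⁻¹, ?_, rfl⟩
        exact Subgroup.Normal.conj_mem inferInstance n hn _
      have hN'card : Nat.card N' = Nat.card N :=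
        (Nat.card_congr (N.equivMapOfInjective H.subtype H.subtype_injective).toEquiv).symm
      have hNcard1 : Nat.card N ≠ 1 := by
        intro h
        exact hNne (Subgroup.eq_bot_of_card_eq N h)
      obtain ⟨r, hr, hrN⟩ := Nat.exists_prime_and_dvd hNcard1
      have hfr := Fact.mk hr
      rw [← hN'card] at hrN
      obtain ⟨⟨n, hnN⟩, hno⟩ := exists_prime_orderOf_dvd_card' r hrN
      rw [Subgroup.orderOf_mk] at hno
      have hn1 : n ≠ 1 := by
        rintro rfl
        rw [orderOf_one] at hno
        exact hr.one_lt.ne hno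
      obtain ⟨j, hj⟩ : ∃ j, n j ≠ 1 := by
        by_contra hcon
        push Not at hcon
        exact hn1 (funext hcon)
      have hrj : ∃ i, r = p j i := by
        have h1 : orderOf (n j) ∣ r := by
          rw [← hno]
          exact orderOf_map_dvd (Pi.evalMonoidHom _ j) n
        have h2 : orderOf (n j) = r := by
          rcases (Nat.dvd_prime hr).mp h1 with h | h
          · exact absurd (orderOf_eq_one_iff.mp h) hj
          · exact h
        rcases hord01 j (ε a j) (n j) with h | h | h
        · exact absurd (orderOf_eq_one_iff.mp h) hj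
        · exact ⟨0, by rw [← h2, h]⟩
        · exact ⟨1, by rw [← h2, h]⟩
      obtain ⟨i, hi⟩ := hrj
      rw [hi] at hno
      obtain ⟨h1, h2⟩ := hsingle j i n hno
      let Nj := N'.comap (MonoidHom.mulSingle (fun j => F j (ε a j)) j)
      have hNjn : Nj.Normal := Subgroup.Normal.comap hN'n _
      have hNjne : Nj ≠ ⊥ := by
        intro h
        have h3 : n j ∈ Nj := by
          show Pi.mulSingle j (n j) ∈ N'
          rw [← h1]; exact hnN
        rw [h, Subgroup.mem_bot] at h3
        exact hj h3
      have hd := hnorm j (ε a j) Nj hNjn hNjne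
      -- `Nj` embeds in `N'`
      have hNjN : Nat.card Nj ∣ Nat.card N' := by
        have h3 : Nj.map (MonoidHom.mulSingle (fun j => F j (ε a j)) j) ≤ N' := Subgroup.map_comap_le _ _
        have h4 : Nat.card (Nj.map (MonoidHom.mulSingle (fun j => F j (ε a j)) j)) = Nat.card Nj :=
          (Nat.card_congr (Nj.equivMapOfInjective _ (Pi.mulSingle_injective (M := fun j => F j (ε a j)) j)).toEquiv).symm
        rw [← h4]
        exact Subgroup.card_dvd_of_le h3
      -- the order of the whole group
      have hcardG : Nat.card ((j : Fin s) → F j (ε a j)) = ∏ j, Nat.card (F j (ε a j)) := Nat.card_pi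
      have hcardG2 : Nat.card ((j : Fin s) → F j (ε a j)) = Nat.card (H ⧸ N) * Nat.card N := by
        rw [← hcardH, hHtop, Subgroup.card_top]
      have hfac : (Nat.card ((j : Fin s) → F j (ε a j))).factorization (p j (ε a j)) =
          orderOf ((p j (ε a j) : ℕ) : ZMod (p j (ε a j + 1))) := by
        rw [hcardG, Nat.factorization_prod (fun j _ => Nat.card_pos.ne'), Finsupp.finsetSum_apply,
          Finset.sum_eq_single j]
        · exact hcardp j (ε a j)
        · intro j' _ hj'
          apply Nat.factorization_eq_zero_of_not_dvd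
          intro h
          rcases hprime j' _ _ (hp j _) h with h | h
          · exact hj' (hinj _ _ _ _ h).1.symm
          · exact hj' (hinj _ _ _ _ h).1.symm
        · intro h; exact absurd (Finset.mem_univ j) h
      have hle : orderOf ((p j (ε a j) : ℕ) : ZMod (p j (ε a j + 1))) ≤ (Nat.card N).factorization (p j (ε a j)) := by
        rw [← (hp j (ε a j)).pow_dvd_iff_le_factorization Nat.card_pos.ne', ← hN'card]
        exact hd.trans hNjN
      have hlt : 1 ≤ (Nat.card (H ⧸ N)).factorization (p j (ε a j)) := by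
        rw [← (hp j (ε a j)).pow_dvd_iff_le_factorization Nat.card_pos.ne', pow_one]
        exact hsec j _
      rw [hcardG2, Nat.factorization_mul Nat.card_pos.ne' Nat.card_pos.ne', Finsupp.add_apply] at hfac
      omega

end Cfsg.Agent.S3599
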