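import Cfsg.Statements.S3639
import Cfsg.Agent.Lib.PrimeGraphExt
import Cfsg.Agent.Lib.SzFixed
import Mathlib.FieldTheory.Finite.Basic

set_option autoImplicit false
open Cfsg

namespace Cfsg.Agent.S3639

open Cfsg.Agent.Lib.PrimeGraphExt Cfsg.Agent.Lib.SzFixed Matrix

/-- natural action -/
@[reducible] def act (F : Type*) [Field F] (k : ℕ) : DistribMulAction ↥(Cfsg.Lie.Sz F (2 ^ k)) (Fin 4 → F) where
  smul g v := g.1.1 *ᵥ v
  one_smul v := by
    show (1 : Matrix (Fin 4) (Fin 4) F) *ᵥ v = v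
    exact Matrix.one_mulVec v
  mul_smul g h v := by
    show (g.1.1 * h.1.1) *ᵥ v = g.1.1 *ᵥ (h.1.1 *ᵥ v)
    rw [Matrix.mulVec_mulVec]
  smul_zero g := Matrix.mulVec_zero g.1.1
  smul_add g v w := Matrix.mulVec_add g.1.1 v w

/-- Let S be the Suzuki group over the field with q = 2^(2m+1) ≥ 8 elements. Then there are finite groups of arbitrarily large order with the same prime graph as S. -/
theorem result {F : Type*} [Field F] [Fintype F] {m : ℕ} (hm : 1 ≤ m) (hF : Fintype.card F = 2 ^ (2 * m + 1)) (N : ℕ) :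
    ∃ (H : Type) (_ : Group H) (_ : Fintype H), N < Fintype.card H ∧ ((∀ r : ℕ, r.Prime → (r ∣ Nat.card ↥(Cfsg.Lie.Sz F (2 ^ (m + 1))) ↔ r ∣ Nat.card H)) ∧
      (∀ r s : ℕ, r.Prime → s.Prime → r ≠ s → ((∃ x : ↥(Cfsg.Lie.Sz F (2 ^ (m + 1))), orderOf x = r * s) ↔ (∃ y : H, orderOf y = r * s)))) := by
  classical
  have hchar : CharP F 2 := by
    obtain ⟨p, hp⟩ := CharP.exists F
    have hpp : p.Prime := (CharP.char_is_prime_or_zero F p).resolve_right (by
      rintro rfl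
      exact CharP.char_ne_zero_of_finite F 0 rfl)
    obtain ⟨n, hn, hc⟩ := FiniteField.card F p
    rw [hF] at hc
    have : p ∣ 2 ^ (2 * m + 1) := by rw [hc]; exact dvd_pow_self p n.ne_zero
    have h2 := (Nat.prime_dvd_prime_iff_eq hpp Nat.prime_two).mp (hpp.dvd_of_dvd_pow this)
    exact h2 ▸ hp
  let _ := act F (m + 1)
  obtain ⟨H, iH, fH, hN, hs⟩ := unbounded (K := ↥(Cfsg.Lie.Sz F (2 ^ (m + 1)))) (V := Fin 4 → F) 2 Nat.prime_two
    (by
      intro v
      funext i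
      show 2 • v i = 0
      rw [two_nsmul, CharTwo.add_self_eq_zero])
    ⟨fun _ => 1, fun h => one_ne_zero (congrFun h 0)⟩
    (by
      have : Fact (Nat.Prime 2) := ⟨Nat.prime_two⟩
      have h1 : orderOf (⟨Jgl F, Jgl_mem (m + 1)⟩ : ↥(Cfsg.Lie.Sz F (2 ^ (m + 1)))) = 2 := by
        apply orderOf_eq_prime
        · apply Subtype.ext
          exact Jgl_sq
        · intro h
          exact Jgl_ne_one (congrArg Subtype.val h)
      have h2 := orderOf_dvd_natCard (⟨Jgl F, Jgl_mem (m + 1)⟩ : ↥(Cfsg.Lie.Sz F (2 ^ (m + 1))))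
      rwa [h1] at h2)
    (by
      intro r hr hr2
      right
      intro g hg v hgv
      by_contra hv
      have h4 := pow_four_eq_one g.2 hv hgv
      have h5 : g ^ 4 = 1 := Subtype.ext h4
      have h6 := orderOf_dvd_of_pow_eq_one h5
      rw [hg] at h6
      have : r ∣ 2 := hr.dvd_of_dvd_pow (show r ∣ 2 ^ 2 from h6)
      exact hr2 ((Nat.prime_dvd_prime_iff_eq hr Nat.prime_two).mp this)) N
  have fH' : Fintype H := Fintype.ofFinite H
  refine ⟨H, iH, fH', ?_, hs⟩
  rw [← Nat.card_eq_fintype_card]; exact hN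

end Cfsg.Agent.S3639
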