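import Cfsg.Statements.S3641
import Cfsg.Agent.Lib.Deg18e
import Cfsg.Agent.Lib.ClSeven

set_option autoImplicit false
open Cfsg

namespace Cfsg.Agent.S3641

/-- `PGL_2` over isomorphic fields -/
noncomputable def pglCongr {F K : Type*} [Field F] [Field K] (e : F ≃+* K) :
    (GL (Fin 2) F ⧸ Subgroup.center (GL (Fin 2) F)) ≃* (GL (Fin 2) K ⧸ Subgroup.center (GL (Fin 2) K)) :=
  QuotientGroup.congr _ _ (Units.mapEquiv (e.mapMatrix (m := Fin 2)).toMulEquiv)
    (Cfsg.Agent.Lib.ClSeven.center_map _)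

/-- Let G be a finite group with trivial centre whose set of Sylow numbers (numbers of Sylow r-subgroups, r over the prime divisors of its order) is exactly {18, 136, 153}. Then G is isomorphic to PSL(2, 17) or to PGL(2, 17). -/
theorem result {G : Type*} [Group G] [Finite G] (hZ : Subgroup.center G = ⊥) (hNS : {c : ℕ | ∃ r : ℕ, r.Prime ∧ r ∣ Nat.card G ∧ c = Nat.card (Sylow r G)} = ({18, 136, 153} : Set ℕ))
    {F : Type*} [Field F] [Fintype F] (hF : Fintype.card F = 17) :
    Nonempty (G ≃* Matrix.ProjectiveSpecialLinearGroup (Fin 2) F) ∨ Nonempty (G ≃* (GL (Fin 2) F ⧸ Subgroup.center (GL (Fin 2) F))) := by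
  classical
  obtain ⟨ρ, hinj, hgood⟩ := Cfsg.Agent.Lib.Deg18.main hZ hNS
  have e0 : G ≃* ρ.range := MonoidHom.ofInjective hinj
  rcases hgood.card_T_cases with h | h
  · right
    obtain ⟨e⟩ := hgood.pgl h
    exact ⟨(e0.trans e).trans (pglCongr (FiniteField.ringEquivOfCardEq
      ((ZMod.card 17).trans hF.symm)))⟩
  · left
    obtain ⟨E, hE, hEf, hc, ⟨e⟩⟩ := hgood.psl h
    exact ⟨(e0.trans e).trans (Cfsg.Agent.Lib.ClSeven.pslCongr 2
      (FiniteField.ringEquivOfCardEq (hc.trans hF.symm)))⟩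

end Cfsg.Agent.S3641
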