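import Cfsg.Statements.S3648
import Cfsg.Agent.Lib.H1NseB
import Cfsg.Agent.Lib.H1NseD
import Cfsg.Agent.Lib.ClSLn
import Cfsg.Agent.Lib.ClSL2

set_option autoImplicit false
open Cfsg

namespace Cfsg.Agent.S3648

open Lib Lib.H1NseA Lib.H1NseD

theorem pgl_congr {E F : Type*} [Field E] [Field F] (e : E ≃+* F) :
    Nonempty (Matrix.ProjGenLinGroup (Fin 2) E ≃* (GL (Fin 2) F ⧸ Subgroup.center (GL (Fin 2) F))) := by
  let f : GL (Fin 2) E ≃* GL (Fin 2) F := Units.mapEquiv (e.mapMatrix : Matrix (Fin 2) (Fin 2) E ≃+* Matrix (Fin 2) (Fin 2) F).toMulEquiv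
  refine ⟨QuotientGroup.congr _ _ f ?_⟩
  ext x
  constructor
  · rintro ⟨y, hy, rfl⟩
    rw [Subgroup.mem_center_iff]
    intro z
    obtain ⟨w, rfl⟩ := f.surjective z
    have h1 := Subgroup.mem_center_iff.1 hy w
    show f w * f y = f y * f w
    rw [← map_mul, ← map_mul, h1]
  · intro hx
    obtain ⟨y, rfl⟩ := f.surjective x
    refine ⟨y, ?_, rfl⟩
    show y ∈ Subgroup.center _
    rw [Subgroup.mem_center_iff]
    intro z
    have h1 := Subgroup.mem_center_iff.1 hx (f z)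
    rw [← map_mul, ← map_mul] at h1
    exact f.injective h1

/-- For a finite group X let nse(X) be the set of values of the function 'number of elements of order k' over the element orders k that occur. Let F be a finite field of odd order q > 3 and P = PGL(2, F) = GL(2, F) modulo its centre. If G is a finite group with the same order as P and nse(G) = nse(P), then G is isomorphic to P. -/
theorem result {F : Type*} [Field F] [Fintype F] (hodd : Odd (Fintype.card F)) (h3 : 3 < Fintype.card F)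
    {G : Type*} [Group G] [Finite G] (hcard : Nat.card G = Nat.card (GL (Fin 2) F ⧸ Subgroup.center (GL (Fin 2) F)))
    (hnse : {c : ℕ | 0 < c ∧ ∃ n : ℕ, c = Nat.card {g : G // orderOf g = n}} = {c : ℕ | 0 < c ∧ ∃ n : ℕ, c = Nat.card {g : (GL (Fin 2) F ⧸ Subgroup.center (GL (Fin 2) F)) // orderOf g = n}}) :
    Nonempty (G ≃* (GL (Fin 2) F ⧸ Subgroup.center (GL (Fin 2) F))) := by
  classical
  obtain ⟨p, hchar⟩ := CharP.exists F
  obtain ⟨f, hp, hf⟩ := FiniteField.card F p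
  have hpf : Fact p.Prime := ⟨hp⟩
  have hp2 : p ≠ 2 := by
    rintro rfl
    rw [hf] at hodd
    have h1 : Odd 2 := (Nat.odd_pow_iff f.ne_zero).1 hodd
    exact (by decide : ¬ Odd 2) h1
  set q := Fintype.card F with hq
  have hf0 : (f : ℕ) ≠ 0 := f.ne_zero
  have hq9 : 9 ≤ q ^ 2 := by nlinarith
  have hPG : Nat.card (PG F) = q * (q ^ 2 - 1) := by
    rw [← ClSL2.card_SL2 (F := F) rfl, ← ClSLn.card_PGL]
    rfl
  have hG : Nat.card G = q * (q ^ 2 - 1) := by rw [hcard]; exact hPG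
  have hmp : mo (PG F) p = q ^ 2 - 1 := H1NseD.mo_p hp2
  have hm2 : mo (PG F) 2 = q ^ 2 := H1NseD.mo_two hp2
  have hV : ∀ n, mo G n = 1 ∨ mo G n = q ^ 2 - 1 ∨ q ∣ mo G n := by
    intro n
    by_cases h0 : mo G n = 0
    · right; right; rw [h0]; exact dvd_zero q
    have h1 : mo G n ∈ {c : ℕ | 0 < c ∧ ∃ n : ℕ, c = Nat.card {g : G // orderOf g = n}} :=
      ⟨Nat.pos_of_ne_zero h0, n, rfl⟩
    rw [hnse] at h1
    obtain ⟨-, m, hm⟩ := h1
    have hm' : mo G n = mo (PG F) m := hm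
    rw [hm']
    by_cases hm1 : m = 1
    · left; rw [hm1, mo_one]
    by_cases hmp' : m = p
    · right; left; rw [hmp', hmp]
    · right; right; exact H1NseD.mo_other hp2 hm1 hmp'
  have h2 : ∃ n, mo G n = q ^ 2 := by
    have h1 : mo (PG F) 2 ∈ {c : ℕ | 0 < c ∧ ∃ n : ℕ, c = Nat.card {g : (GL (Fin 2) F ⧸ Subgroup.center (GL (Fin 2) F)) // orderOf g = n}} :=
      ⟨by rw [hm2]; omega, 2, rfl⟩
    rw [← hnse] at h1
    obtain ⟨-, m, hm⟩ := h1
    exact ⟨m, by rw [← hm2]; exact hm.symm⟩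
  have H : H1NseB.Hyp G p f q := {
    hp := hp
    hp2 := hp2
    hf := hf0
    hq := hf
    hG := hG
    hD := fun g => H1NseA.dichotomy hp hp2 hf0 hf hG hV h2 g
    hmp := H1NseA.mo_p hp hp2 hf0 hf hG hV h2
    hm2 := H1NseA.mo_two hp hp2 hf0 hf h2 }
  obtain ⟨E, hE, hEf, hEc, ⟨e⟩⟩ := H1NseB.main H
  have e1 : E ≃+* F := FiniteField.ringEquivOfCardEq (by rw [hEc])
  obtain ⟨e2⟩ := pgl_congr e1
  exact ⟨e.trans e2⟩

end Cfsg.Agent.S3648
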