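import Cfsg.Statements.S3660
import Cfsg.Agent.Lib.PrimeGraphSL2

set_option autoImplicit false
open Cfsg

namespace Cfsg.Agent.S3660

open Cfsg.Agent.Lib.PrimeGraphExt Cfsg.Agent.Lib.PrimeGraphSL2

/-- The prime graph of a finite group has the prime divisors of its order as vertices, two distinct primes p, q being joined when the group has an element of order pq; two groups have the same prime graph when they have the same prime divisors and the same joined pairs. Let F be a finite field of characteristic 2 with at least 4 elements. Then there are finite groups of arbitrarily large order with the same prime graph as PSL(2,F); in particular PSL(2,F) is not determined by its prime graph. -/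
theorem result {F : Type*} [Field F] [Fintype F] [CharP F 2] (hF : 4 ≤ Fintype.card F) (N : ℕ) :
    ∃ (H : Type) (_ : Group H) (_ : Finite H), N < Nat.card H ∧
      ((∀ p : ℕ, p.Prime → (p ∣ Nat.card (Matrix.ProjectiveSpecialLinearGroup (Fin 2) F) ↔ p ∣ Nat.card H)) ∧
      (∀ p q : ℕ, p.Prime → q.Prime → p ≠ q → ((∃ g : (Matrix.ProjectiveSpecialLinearGroup (Fin 2) F), orderOf g = p * q) ↔ (∃ g : H, orderOf g = p * q)))) := by
  classical
  obtain ⟨H, iH, fH, hN, hs⟩ := unbounded_sl2 (F := F) N
  refine ⟨H, iH, fH, hN, ?_⟩
  let e : Matrix.ProjectiveSpecialLinearGroup (Fin 2) F ≃* Matrix.SpecialLinearGroup (Fin 2) F :=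
    (QuotientGroup.quotientMulEquivOfEq center_eq_bot).trans QuotientGroup.quotientBot
  exact (SameGraph.of_mulEquiv e).trans hs

end Cfsg.Agent.S3660
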