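import Cfsg.Statements.S3663
import Cfsg.Agent.Lib.U34Const
import Cfsg.Agent.Lib.PrimeGraphFun
import Cfsg.Agent.Lib.SUTransport
import Mathlib.FieldTheory.Finite.GaloisField
import Mathlib.LinearAlgebra.Matrix.GeneralLinearGroup.Card

set_option autoImplicit false
open Cfsg

namespace Cfsg.Agent.S3663

open Matrix Cfsg.Agent.Lib.K16 Cfsg.Agent.Lib.U34 Cfsg.Agent.Lib.PrimeGraphExt Cfsg.Agent.Lib.PrimeGraphFun

abbrev K := ↥(SU 3 K16 4)

lemma h_smul (g : K) (u v : V3) : h (g.1.1 *ᵥ u) (g.1.1 *ᵥ v) = h u v := (mem_SU_iff g.1).mp g.2 u v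

lemma mulVec_inv (g : K) (v : V3) : (g⁻¹).1.1 *ᵥ (g.1.1 *ᵥ v) = v := by
  rw [Matrix.mulVec_mulVec]
  have : (g⁻¹).1.1 * g.1.1 = 1 := by
    have h1 : g⁻¹ * g = 1 := inv_mul_cancel g
    have h2 := congrArg (fun x : K => x.1.1) h1
    exact h2
  rw [this, Matrix.one_mulVec]

lemma iso_act (g : K) (v : V3) : iso (g.1.1 *ᵥ v) ↔ iso v := by
  unfold iso
  rw [h_smul]
  constructor
  · rintro ⟨h1, h2⟩
    refine ⟨fun h => h1 ?_, h2⟩
    rw [h, Matrix.mulVec_zero]
  · rintro ⟨h1, h2⟩
    refine ⟨fun h => h1 ?_, h2⟩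
    have := mulVec_inv g v
    rw [h, Matrix.mulVec_zero] at this
    exact this.symm

lemma inC_act (g : K) {f : V3 → ZMod 5} (hf : InC f) : InC (fun v => f (g.1.1 *ᵥ v)) := by
  refine ⟨?_, ?_, ?_⟩
  · intro v hv
    exact hf.van _ (fun h => hv ((iso_act g v).mp h))
  · intro a v ha
    show f (g.1.1 *ᵥ (a • v)) = _
    rw [Matrix.mulVec_smul]
    exact hf.sc a _ ha
  · intro u v hv huv
    have h1 := hf.bl (g.1.1 *ᵥ u) (g.1.1 *ᵥ v) ((iso_act g v).mpr hv) (by rw [h_smul]; exact huv)
    rw [← h1]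
    congr 1
    refine Finset.sum_congr rfl fun m _ => ?_
    rw [Matrix.mulVec_add, Matrix.mulVec_smul]

def C : AddSubgroup (V3 → ZMod 5) where
  carrier := {f | InC f}
  zero_mem' := ⟨fun _ _ => rfl, fun _ _ _ => rfl, fun _ _ _ _ => by simp⟩
  add_mem' := by
    intro f f' hf hf'
    refine ⟨fun v hv => ?_, fun a v ha => ?_, fun u v hv huv => ?_⟩
    · show f v + f' v = 0
      rw [hf.van v hv, hf'.van v hv, add_zero]
    · show f _ + f' _ = f _ + f' _
      rw [hf.sc a v ha, hf'.sc a v ha]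
    · show (f v + f' v) + ∑ m : K16, (f (u + m • v) + f' (u + m • v)) = 0
      rw [Finset.sum_add_distrib]
      have h1 := hf.bl u v hv huv
      have h2 := hf'.bl u v hv huv
      linear_combination h1 + h2
  neg_mem' := by
    intro f hf
    refine ⟨fun v hv => ?_, fun a v ha => ?_, fun u v hv huv => ?_⟩
    · show -f v = 0
      rw [hf.van v hv, neg_zero]
    · show -f _ = -f _
      rw [hf.sc a v ha]
    · show -f v + ∑ m : K16, -f (u + m • v) = 0
      rw [Finset.sum_neg_distrib]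
      have h1 := hf.bl u v hv huv
      linear_combination -h1

open Classical in
/-- indicator of isotropic vectors -/
noncomputable def ind (v : V3) : ZMod 5 := if iso v then 1 else 0

lemma ind_act (g : K) (v : V3) : ind (g.1.1 *ᵥ v) = ind v := by
  unfold ind
  rw [iso_act]

/-- the difference map -/
noncomputable def D : (V3 → ZMod 5) →+ (V3 × V3 → ZMod 5) where
  toFun f := fun q => ind q.2 * f q.1 - ind q.1 * f q.2
  map_zero' := by funext q; simp
  map_add' f f' := by funext q; simp; ring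

@[reducible] def actP : MulAction K (V3 × V3) where
  smul g q := (g.1.1 *ᵥ q.1, g.1.1 *ᵥ q.2)
  one_smul q := by
    show ((1 : Matrix (Fin 3) (Fin 3) K16) *ᵥ q.1, (1 : Matrix (Fin 3) (Fin 3) K16) *ᵥ q.2) = q
    rw [Matrix.one_mulVec, Matrix.one_mulVec]
  mul_smul g g' q := by
    show ((g.1.1 * g'.1.1) *ᵥ q.1, (g.1.1 * g'.1.1) *ᵥ q.2) =
      (g.1.1 *ᵥ (g'.1.1 *ᵥ q.1), g.1.1 *ᵥ (g'.1.1 *ᵥ q.2))
    rw [Matrix.mulVec_mulVec, Matrix.mulVec_mulVec]

lemma coe_pow (g : K) (n : ℕ) : (g ^ n).1.1 = g.1.1 ^ n := by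
  induction n with
  | zero => rfl
  | succ n ih => rw [pow_succ, pow_succ, ← ih]; rfl

lemma ext_K {g g' : K} (hg : g.1.1 = g'.1.1) : g = g' := Subtype.ext (Subtype.ext hg)

lemma order_g15 : orderOf g15 = 5 * 3 := by
  apply orderOf_eq_of_pow_and_pow_div_prime (by norm_num)
  · apply ext_K
    rw [coe_pow]; exact m15_pow.1
  · intro p hp hpd
    have : p = 3 ∨ p = 5 := by
      have h1 : p ∣ 5 * 3 := hpd
      rcases (Nat.Prime.dvd_mul hp).mp h1 with h | h
      · right; exact (Nat.prime_dvd_prime_iff_eq hp (by norm_num)).mp h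
      · left; exact (Nat.prime_dvd_prime_iff_eq hp (by norm_num)).mp h
    rcases this with rfl | rfl
    · intro h
      have h2 := congrArg (fun x : K => x.1.1) h
      simp only [coe_pow] at h2
      exact m15_pow.2.2 h2
    · intro h
      have h2 := congrArg (fun x : K => x.1.1) h
      simp only [coe_pow] at h2
      exact m15_pow.2.1 h2

lemma order_g10 : orderOf g10 = 5 * 2 := by
  apply orderOf_eq_of_pow_and_pow_div_prime (by norm_num)
  · apply ext_K
    rw [coe_pow]; exact m10_pow.1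
  · intro p hp hpd
    have : p = 2 ∨ p = 5 := by
      have h1 : p ∣ 5 * 2 := hpd
      rcases (Nat.Prime.dvd_mul hp).mp h1 with h | h
      · right; exact (Nat.prime_dvd_prime_iff_eq hp (by norm_num)).mp h
      · left; exact (Nat.prime_dvd_prime_iff_eq hp (by norm_num)).mp h
    rcases this with rfl | rfl
    · intro h
      have h2 := congrArg (fun x : K => x.1.1) h
      simp only [coe_pow] at h2
      exact m10_pow.2.2 h2
    · intro h
      have h2 := congrArg (fun x : K => x.1.1) h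
      simp only [coe_pow] at h2
      exact m10_pow.2.1 h2

lemma order_g13 : orderOf g13 = 13 := by
  have : Fact (Nat.Prime 13) := ⟨by norm_num⟩
  apply orderOf_eq_prime
  · apply ext_K
    rw [coe_pow]; exact m13_pow
  · intro h
    exact m13_ne (congrArg (fun x : K => x.1.1) h)

lemma card_not_dvd : ¬ 13 ^ 2 ∣ Nat.card K := by
  intro hd
  have h1 : Nat.card K ∣ Nat.card (SpecialLinearGroup (Fin 3) K16) := Subgroup.card_subgroup_dvd_card _
  have h2 : Nat.card (SpecialLinearGroup (Fin 3) K16) ∣ Nat.card (GL (Fin 3) K16) :=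
    Subgroup.card_dvd_of_injective (Matrix.SpecialLinearGroup.toGL) Matrix.SpecialLinearGroup.toGL_injective
  have h3 := hd.trans (h1.trans h2)
  rw [Matrix.card_GL_field, card_K16] at h3
  simp only [Fin.prod_univ_three] at h3
  norm_num at h3

lemma w1iso : iso ![1, k 2, k 4] := by
  have : (![1, k 2, k 4] : V3) ≠ 0 ∧ h ![1, k 2, k 4] ![1, k 2, k 4] = 0 := by decide +kernel
  exact this

lemma w2iso : iso ![1, k 4, k 2] := by
  have : (![1, k 4, k 2] : V3) ≠ 0 ∧ h ![1, k 4, k 2] ![1, k 4, k 2] = 0 := by decide +kernel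
  exact this

lemma w1val : f0 ![1, k 2, k 4] = 1 := by decide +kernel
lemma w2val : f0 ![1, k 4, k 2] = -1 := by decide +kernel

theorem unbounded_K (N : ℕ) :
    ∃ (H : Type) (_ : Group H) (_ : Finite H), N < Nat.card H ∧ SameGraph K H := by
  let _ := actP
  refine unbounded_fun (K := K) (Y := V3 × V3) 5 (by norm_num) (C.map D) ?_ ?_ ?_ ?_ N
  · rintro g _ ⟨f, hf, rfl⟩
    refine ⟨fun v => f (g.1.1 *ᵥ v), inC_act g hf, ?_⟩
    funext q
    show ind q.2 * f (g.1.1 *ᵥ q.1) - ind q.1 * f (g.1.1 *ᵥ q.2) =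
      ind (g.1.1 *ᵥ q.2) * f (g.1.1 *ᵥ q.1) - ind (g.1.1 *ᵥ q.1) * f (g.1.1 *ᵥ q.2)
    rw [ind_act, ind_act]
  · refine ⟨D f0, ⟨f0, inC_f0, rfl⟩, ?_⟩
    intro h0
    have h1 := congrFun h0 (![1, k 2, k 4], ![1, k 4, k 2])
    have h2 : ind ![1, k 4, k 2] * f0 ![1, k 2, k 4] - ind ![1, k 2, k 4] * f0 ![1, k 4, k 2] = 0 := h1
    have i1 : ind ![1, k 2, k 4] = 1 := by
      unfold ind
      rw [if_pos]
      exact w1iso
    have i2 : ind ![1, k 4, k 2] = 1 := by
      unfold ind
      rw [if_pos]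
      exact w2iso
    rw [i1, i2, w1val, w2val] at h2
    exact absurd h2 (by decide)
  · have h1 := orderOf_dvd_natCard g15
    rw [order_g15] at h1
    exact (dvd_mul_right 5 3).trans h1
  · intro r hr hr5
    by_cases h2 : r = 2
    · left; exact ⟨g10, by rw [order_g10, h2]⟩
    by_cases h3 : r = 3
    · left; exact ⟨g15, by rw [order_g15, h3]⟩
    right
    intro g hg F hF hinv
    obtain ⟨f, hf, rfl⟩ := hF
    have hr13 : r = 13 := by
      rcases pow_eq_one g.2 with h | h
      · have h4 : g ^ 13 = 1 := Subtype.ext h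
        have := orderOf_dvd_of_pow_eq_one h4
        rw [hg] at this
        exact (Nat.prime_dvd_prime_iff_eq hr (by norm_num)).mp this
      · exfalso
        have h4 : g ^ 60 = 1 := Subtype.ext h
        have h5 := orderOf_dvd_of_pow_eq_one h4
        rw [hg, show 60 = 2 ^ 2 * 3 * 5 by norm_num] at h5
        rcases (Nat.Prime.dvd_mul hr).mp h5 with h6 | h6
        · rcases (Nat.Prime.dvd_mul hr).mp h6 with h7 | h7
          · exact h2 ((Nat.prime_dvd_prime_iff_eq hr Nat.prime_two).mp (hr.dvd_of_dvd_pow h7))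
          · exact h3 ((Nat.prime_dvd_prime_iff_eq hr Nat.prime_three).mp h7)
        · exact hr5 ((Nat.prime_dvd_prime_iff_eq hr (by norm_num)).mp h6)
    subst hr13
    have hinv' : ∀ u v : V3, ind (g.1.1 *ᵥ v) * f (g.1.1 *ᵥ u) - ind (g.1.1 *ᵥ u) * f (g.1.1 *ᵥ v) =
        ind v * f u - ind u * f v := fun u v => hinv (u, v)
    simp only [ind_act] at hinv'
    have hi1 : ∀ u, iso u → ind u = 1 := fun u hu => by unfold ind; rw [if_pos hu]
    have hi0 : ∀ u, ¬ iso u → ind u = 0 := fun u hu => by unfold ind; rw [if_neg hu]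
    set c := f (g.1.1 *ᵥ ![1, k 2, k 4]) - f ![1, k 2, k 4] with hc
    have hstep : ∀ u, iso u → f (g.1.1 *ᵥ u) = f u + c := by
      intro u hu
      have h1 := hinv' u ![1, k 2, k 4]
      rw [hi1 u hu, hi1 _ w1iso] at h1
      rw [hc]
      linear_combination h1
    have hiter : ∀ (n : ℕ) (u : V3), iso u → f ((g ^ n).1.1 *ᵥ u) = f u + n * c := by
      intro n
      induction n with
      | zero =>
        intro u hu
        have : ((g ^ 0 : K)).1.1 *ᵥ u = u := by
          rw [pow_zero]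
          exact Matrix.one_mulVec u
        rw [this]; simp
      | succ n ih =>
        intro u hu
        have : ((g ^ (n + 1) : K)).1.1 *ᵥ u = g.1.1 *ᵥ ((g ^ n).1.1 *ᵥ u) := by
          rw [pow_succ', Matrix.mulVec_mulVec]; rfl
        rw [this, hstep _ ((iso_act (g ^ n) u).mpr hu), ih u hu]
        push_cast; ring
    have hc0 : c = 0 := by
      have h1 := hiter 13 ![1, k 2, k 4] w1iso
      have h2 : g ^ 13 = 1 := by rw [← hg]; exact pow_orderOf_eq_one g
      have h3 : ((g ^ 13 : K)).1.1 *ᵥ ![1, k 2, k 4] = ![1, k 2, k 4] := by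
        rw [h2]; exact Matrix.one_mulVec _
      rw [h3] at h1
      have h4 : ((13 : ℕ) : ZMod 5) * c = 0 := by linear_combination -h1
      have h5 : ∀ c : ZMod 5, ((13 : ℕ) : ZMod 5) * c = 0 → c = 0 := by decide
      exact h5 c h4
    have hfg : ∀ u, f (g.1.1 *ᵥ u) = f u := by
      intro u
      by_cases hu : iso u
      · rw [hstep u hu, hc0, add_zero]
      · rw [hf.van u hu, hf.van _ (fun h => hu ((iso_act g u).mp h))]
    have hfn : ∀ (n : ℕ) (u : V3), f ((g ^ n).1.1 *ᵥ u) = f u := by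
      intro n
      induction n with
      | zero =>
        intro u
        have : ((g ^ 0 : K)).1.1 *ᵥ u = u := by
          rw [pow_zero]
          exact Matrix.one_mulVec u
        rw [this]
      | succ n ih =>
        intro u
        have : ((g ^ (n + 1) : K)).1.1 *ᵥ u = g.1.1 *ᵥ ((g ^ n).1.1 *ᵥ u) := by
          rw [pow_succ', Matrix.mulVec_mulVec]; rfl
        rw [this, hfg, ih u]
    have hfz : ∀ y ∈ Subgroup.zpowers g, ∀ u, f (y.1.1 *ᵥ u) = f u := by
      intro y hy u
      rw [← mem_powers_iff_mem_zpowers] at hy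
      obtain ⟨n, rfl⟩ := hy
      exact hfn n u
    obtain ⟨x, hx⟩ := exists_conj_mem_zpowers 13 (by norm_num) card_not_dvd g g13 hg order_g13
    have hT : ∀ w, f (x.1.1 *ᵥ (m13 *ᵥ w)) = f (x.1.1 *ᵥ w) := by
      intro w
      have h1 := hfz _ hx (x.1.1 *ᵥ w)
      have h2 : (x * g13 * x⁻¹ : K).1.1 *ᵥ (x.1.1 *ᵥ w) = x.1.1 *ᵥ (m13 *ᵥ w) := by
        have h3 : (x * g13 * x⁻¹ : K).1.1 = x.1.1 * m13 * (x⁻¹).1.1 := rfl
        rw [h3, ← Matrix.mulVec_mulVec, mulVec_inv, Matrix.mulVec_mulVec]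
      rw [h2] at h1
      exact h1
    have hconst : ∀ w, iso w → f w = f (x.1.1 *ᵥ P 0) := by
      intro w hw
      have h1 := const_of_invariant (inC_act x hf) hT ((x⁻¹).1.1 *ᵥ w) ((iso_act x⁻¹ w).mpr hw)
      have h2 : x.1.1 *ᵥ ((x⁻¹).1.1 *ᵥ w) = w := by
        have := mulVec_inv x⁻¹ w
        rw [inv_inv] at this
        exact this
      simp only [h2] at h1
      exact h1
    funext q
    show ind q.2 * f q.1 - ind q.1 * f q.2 = 0
    by_cases h1 : iso q.1
    · by_cases h2 : iso q.2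
      · rw [hi1 _ h1, hi1 _ h2, hconst _ h1, hconst _ h2, sub_self]
      · rw [hi0 _ h2, hf.van _ h2]; ring
    · rw [hi0 _ h1, hf.van _ h1]; ring

/-! ### The centre is trivial, and transport to an arbitrary field with 16 elements -/

def mc : Matrix (Fin 3) (Fin 3) K16 := mat 0 0 1 1 0 0 0 1 0
def md : Matrix (Fin 3) (Fin 3) K16 := mat 1 0 0 0 10 0 0 0 12

theorem chkc : chk mc := by decide +kernel
theorem chkd : chk md := by decide +kernel

theorem cube_fifth : ∀ a : K16, a * a * a = 1 → a * a ^ 4 = 1 → a = 1 := by decide +kernel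

lemma center_K : Subgroup.center K = ⊥ := by
  rw [eq_bot_iff]
  intro z hz
  rw [Subgroup.mem_bot]
  rw [Subgroup.mem_center_iff] at hz
  have hc := congrArg (fun x : K => x.1.1) (hz (toSU mc chkc))
  have hd := congrArg (fun x : K => x.1.1) (hz (toSU md chkd))
  have hc' : mc * z.1.1 = z.1.1 * mc := hc
  have hd' : md * z.1.1 = z.1.1 * md := hd
  have ec : mc = !![0, 0, 1; 1, 0, 0; 0, 1, 0] := by decide +kernel
  have ed : md = !![1, 0, 0; 0, k 10, 0; 0, 0, k 12] := by decide +kernel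
  rw [ec] at hc'
  rw [ed] at hd'
  have n1 : (1 : K16) ≠ k 10 := by decide
  have n2 : (1 : K16) ≠ k 12 := by decide
  have n3 : k 10 ≠ k 12 := by decide
  have off : ∀ {a b x : K16}, a ≠ b → a * x = x * b → x = 0 := by
    intro a b x hab h
    have : (a - b) * x = 0 := by rw [sub_mul, h, mul_comm x b, sub_self]
    rcases mul_eq_zero.mp this with h | h
    · exact absurd (sub_eq_zero.mp h) hab
    · exact h
  have d01 := congrFun (congrFun hd' 0) 1
  have d02 := congrFun (congrFun hd' 0) 2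
  have d10 := congrFun (congrFun hd' 1) 0
  have d12 := congrFun (congrFun hd' 1) 2
  have d20 := congrFun (congrFun hd' 2) 0
  have d21 := congrFun (congrFun hd' 2) 1
  have c01 := congrFun (congrFun hc' 1) 0
  have c12 := congrFun (congrFun hc' 2) 1
  simp [Matrix.mul_apply, Fin.sum_univ_three] at d01 d02 d10 d12 d20 d21 c01 c12
  have z01 : z.1.1 0 1 = 0 := off n1 (by rw [one_mul]; exact d01)
  have z02 : z.1.1 0 2 = 0 := off n2 (by rw [one_mul]; exact d02)
  have z10 : z.1.1 1 0 = 0 := off n1.symm (by rw [mul_one]; exact d10)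
  have z12 : z.1.1 1 2 = 0 := off n3 d12
  have z20 : z.1.1 2 0 = 0 := off n2.symm (by rw [mul_one]; exact d20)
  have z21 : z.1.1 2 1 = 0 := off n3.symm d21
  have hdet := z.1.2
  rw [Matrix.det_fin_three, z01, z02, z10, z12, z20, z21, ← c12, ← c01] at hdet
  have hdet' : z.1.1 0 0 * z.1.1 0 0 * z.1.1 0 0 = 1 := by linear_combination hdet
  have hun := entries_of_mem_SU z.2 0 0
  rw [z10, z20, if_pos rfl] at hun
  have hun' : z.1.1 0 0 * z.1.1 0 0 ^ 4 = 1 := by linear_combination hun
  have h1 := cube_fifth _ hdet' hun'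
  apply ext_K
  show z.1.1 = 1
  ext i j
  fin_cases i <;> fin_cases j
  · exact h1
  · exact z01
  · exact z02
  · exact z10
  · exact c01 ▸ h1
  · exact z12
  · exact z20
  · exact z21
  · exact c12 ▸ c01 ▸ h1

/-- The prime graph of a finite group has the prime divisors of its order as vertices, two distinct primes p, q being joined when the group has an element of order pq; two groups have the same prime graph when they have the same prime divisors and the same joined pairs. Let F be the field with 16 elements and L = PSU(3,4) realised over F. There are finite groups of arbitrarily large order with the same prime graph as L. -/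
theorem result {F : Type*} [Field F] [Fintype F] (hF : Fintype.card F = 16) (N : ℕ) :
    ∃ (H : Type) (_ : Group H) (_ : Finite H), N < Nat.card H ∧
      ((∀ p : ℕ, p.Prime → (p ∣ Nat.card (Cfsg.PSU 3 F 4) ↔ p ∣ Nat.card H)) ∧
      (∀ p q : ℕ, p.Prime → q.Prime → p ≠ q → ((∃ g : (Cfsg.PSU 3 F 4), orderOf g = p * q) ↔ (∃ g : H, orderOf g = p * q)))) := by
  obtain ⟨H, iH, fH, hN, hs⟩ := unbounded_K N
  refine ⟨H, iH, fH, hN, ?_⟩
  have e : F ≃+* K16 := FiniteField.ringEquivOfCardEq (by rw [hF, card_K16])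
  have e1 : PSU 3 F 4 ≃* PSU 3 K16 4 := Cfsg.Agent.Lib.SUTransport.psuEquiv e 3 4
  have e2 : PSU 3 K16 4 ≃* K := (QuotientGroup.quotientMulEquivOfEq center_K).trans QuotientGroup.quotientBot
  exact (SameGraph.of_mulEquiv (e1.trans e2)).trans hs

end Cfsg.Agent.S3663
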