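import Cfsg.Statements.S3664
import Cfsg.Agent.Lib.H76PGB
import Cfsg.Agent.Lib.H76SzD
import Mathlib.FieldTheory.Finite.GaloisField

set_option autoImplicit false
open Cfsg

namespace Cfsg.Agent.S3664

theorem exists_field : ∃ (E : Type) (_ : Field E) (_ : CharP E 2) (_ : Finite E), (∀ x : E, x ^ 8 = x) ∧ ∃ x : E, x ≠ 0 ∧ x ≠ 1 := by
  have f2 : Fact (Nat.Prime 2) := ⟨Nat.prime_two⟩
  have hcard : Nat.card (GaloisField 2 3) = 8 := by
    rw [GaloisField.card 2 3 (by norm_num)]
    norm_num
  have hfin : Finite (GaloisField 2 3) := Nat.finite_of_card_ne_zero (by rw [hcard]; norm_num)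
  refine ⟨GaloisField 2 3, inferInstance, inferInstance, hfin, ?_, ?_⟩
  · intro x
    have := Fintype.ofFinite (GaloisField 2 3)
    have h := FiniteField.pow_card x
    rwa [← Nat.card_eq_fintype_card, hcard] at h
  · by_contra hcon
    push Not at hcon
    have h1 : (Set.univ : Set (GaloisField 2 3)) ⊆ {0, 1} := by
      intro x _
      by_cases h : x = 0
      · exact Or.inl h
      · exact Or.inr (hcon x h)
    have h2 := Set.ncard_le_ncard h1 (Set.toFinite _)
    rw [Set.ncard_univ, hcard] at h2
    have h3 : ({0, 1} : Set (GaloisField 2 3)).ncard ≤ 2 := by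
      have := Set.ncard_insert_le (0 : GaloisField 2 3) {1}
      rw [Set.ncard_singleton] at this
      exact this
    omega

/-- The prime graph of a finite group has the prime divisors of its order as vertices, two distinct primes p, q being joined when the group has an element of order pq; two groups have the same prime graph when they have the same prime divisors and the same joined pairs. Let F be the field with 3 elements and L = PSp(6,F). There are finite groups of arbitrarily large order with the same prime graph as L (a prime graph shared by the orthogonal groups Ω₇(3) and PΩ⁺₈(3)). -/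
theorem result {F : Type*} [Field F] [Fintype F] (hF : Fintype.card F = 3) (N : ℕ) :
    ∃ (H : Type) (_ : Group H) (_ : Finite H), N < Nat.card H ∧
      ((∀ p : ℕ, p.Prime → (p ∣ Nat.card (Cfsg.PSp 3 F) ↔ p ∣ Nat.card H)) ∧
      (∀ p q : ℕ, p.Prime → q.Prime → p ≠ q → ((∃ g : (Cfsg.PSp 3 F), orderOf g = p * q) ↔ (∃ g : H, orderOf g = p * q)))) := by
  obtain ⟨E, _, _, _, h8, hx⟩ := exists_field
  exact Cfsg.Agent.Lib.H76Sz.main (F := E) h8 hx (Cfsg.Agent.Lib.H76PG.pspec hF) N

end Cfsg.Agent.S3664
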