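import Cfsg.Statements.S3678
import Cfsg.Agent.Lib.PrimeGraphSL2
import Mathlib.FieldTheory.Finite.GaloisField
import Mathlib.FieldTheory.Finite.Basic

set_option autoImplicit false
open Cfsg

namespace Cfsg.Agent.S3678

open Cfsg.Agent.Lib.PrimeGraphExt Cfsg.Agent.Lib.PrimeGraphSL2 Matrix

/-- a product of two distinct primes does not divide a prime power -/
lemma not_dvd_prime_pow {r s a k : ℕ} (hr : r.Prime) (hs : s.Prime) (hrs : r ≠ s) (ha : a.Prime) :
    ¬ r * s ∣ a ^ k := by
  intro h
  have h1 : r ∣ a := hr.dvd_of_dvd_pow ((dvd_mul_right r s).trans h)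
  have h2 : s ∣ a := hs.dvd_of_dvd_pow ((dvd_mul_left s r).trans h)
  rw [Nat.prime_dvd_prime_iff_eq hr ha] at h1
  rw [Nat.prime_dvd_prime_iff_eq hs ha] at h2
  exact hrs (h1.trans h2.symm)

lemma key {L : Type*} [Group L] [Finite L] (hL : ∀ x : L, x ^ 4 = 1 ∨ x ^ 9 = 1 ∨ x ^ 7 = 1)
    (hL' : 2 ∣ Nat.card L ∧ 3 ∣ Nat.card L ∧ 7 ∣ Nat.card L) (r : ℕ) (hr : r.Prime) :
    r ∣ Nat.card L ↔ r = 2 ∨ r = 3 ∨ r = 7 := by
  constructor
  · intro h
    have hfr : Fact r.Prime := ⟨hr⟩
    obtain ⟨x, hx⟩ := exists_prime_orderOf_dvd_card' (G := L) r h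
    rcases hL x with h4 | h9 | h7
    · left
      have := orderOf_dvd_of_pow_eq_one h4
      rw [hx] at this
      exact (Nat.prime_dvd_prime_iff_eq hr Nat.prime_two).mp (hr.dvd_of_dvd_pow (show r ∣ 2 ^ 2 from this))
    · right; left
      have := orderOf_dvd_of_pow_eq_one h9
      rw [hx] at this
      exact (Nat.prime_dvd_prime_iff_eq hr Nat.prime_three).mp (hr.dvd_of_dvd_pow (show r ∣ 3 ^ 2 from this))
    · right; right
      have := orderOf_dvd_of_pow_eq_one h7
      rw [hx] at this
      exact (Nat.prime_dvd_prime_iff_eq hr (by norm_num)).mp this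
  · rintro (rfl | rfl | rfl)
    · exact hL'.1
    · exact hL'.2.1
    · exact hL'.2.2

lemma key2 {L : Type*} [Group L] [Finite L] (hL : ∀ x : L, x ^ 4 = 1 ∨ x ^ 9 = 1 ∨ x ^ 7 = 1)
    (r s : ℕ) (hr : r.Prime) (hs : s.Prime) (hrs : r ≠ s) : ¬ ∃ x : L, orderOf x = r * s := by
  rintro ⟨x, hx⟩
  rcases hL x with h | h | h
  · have := orderOf_dvd_of_pow_eq_one h
    rw [hx] at this
    exact not_dvd_prime_pow hr hs hrs Nat.prime_two (show r * s ∣ 2 ^ 2 from this)
  · have := orderOf_dvd_of_pow_eq_one h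
    rw [hx] at this
    exact not_dvd_prime_pow hr hs hrs Nat.prime_three (show r * s ∣ 3 ^ 2 from this)
  · have := orderOf_dvd_of_pow_eq_one h
    rw [hx] at this
    exact not_dvd_prime_pow (k := 1) hr hs hrs (show Nat.Prime 7 by norm_num) (by simpa using this)

/-- Groups all of whose elements have order dividing `4`, `9` or `7`, and with elements of order 2, 3, 7,
have the same prime graph. -/
lemma sameGraph_of_orders {K H : Type*} [Group K] [Group H] [Finite K] [Finite H]
    (hK : ∀ x : K, x ^ 4 = 1 ∨ x ^ 9 = 1 ∨ x ^ 7 = 1) (hH : ∀ x : H, x ^ 4 = 1 ∨ x ^ 9 = 1 ∨ x ^ 7 = 1)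
    (hK' : 2 ∣ Nat.card K ∧ 3 ∣ Nat.card K ∧ 7 ∣ Nat.card K)
    (hH' : 2 ∣ Nat.card H ∧ 3 ∣ Nat.card H ∧ 7 ∣ Nat.card H) : SameGraph K H := by
  refine ⟨fun r hr => (key hK hK' r hr).trans (key hH hH' r hr).symm, fun r s hr hs hrs => ?_⟩
  constructor
  · intro h; exact absurd h (key2 hK r s hr hs hrs)
  · intro h; exact absurd h (key2 hH r s hr hs hrs)

/-- Cayley-Hamilton for SL2 -/
lemma sq_eq {F : Type*} [Field F] (g : Matrix (Fin 2) (Fin 2) F) (hg : g.det = 1) :
    g * g = (g 0 0 + g 1 1) • g - 1 := by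
  rw [Matrix.det_fin_two] at hg
  ext i j
  fin_cases i <;> fin_cases j <;>
    simp [Matrix.mul_apply, Fin.sum_univ_succ, Matrix.sub_apply, Matrix.smul_apply]
  · linear_combination (-1 : F) * hg
  · ring
  · ring
  · linear_combination (-1 : F) * hg

lemma sl2_eight {F : Type*} [Field F] [Fintype F] [CharP F 2] (hF : Fintype.card F = 8)
    (x : SpecialLinearGroup (Fin 2) F) : x ^ 4 = 1 ∨ x ^ 9 = 1 ∨ x ^ 7 = 1 := by
  set g := x.1 with hg
  have hdet : g.det = 1 := x.2
  set t := g 0 0 + g 1 1 with ht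
  have h2 : (2 : F) = 0 := CharTwo.two_eq_zero
  have hneg : ∀ y : F, -y = y := fun y => CharTwo.neg_eq y
  have hnegM : ∀ A B : Matrix (Fin 2) (Fin 2) F, A - B = A + B := by
    intro A B
    ext i j
    simp [CharTwo.sub_eq_add]
  have h1 : g * g = t • g + 1 := by rw [sq_eq g hdet, hnegM]
  have hadd : ∀ A : Matrix (Fin 2) (Fin 2) F, A + A = 0 := by
    intro A
    ext i j
    simp [CharTwo.add_self_eq_zero]
  -- g^4 = t^3 g + (t^2 + 1)
  have h4 : g ^ 4 = (t ^ 3) • g + (t ^ 2 + 1) • (1 : Matrix (Fin 2) (Fin 2) F) := by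
    have : g ^ 4 = (g * g) * (g * g) := by noncomm_ring
    rw [this, h1]
    have e : (t • g + 1) * (t • g + 1) = (t * t) • (g * g) + (t • g + t • g) + 1 := by
      simp only [mul_add, add_mul, mul_one, one_mul, smul_mul_assoc, mul_smul_comm, smul_smul, smul_add]
      abel
    rw [e, hadd, h1]
    ext i j
    simp [Matrix.smul_apply, Matrix.add_apply]
    ring
  have h8 : g ^ 8 = (t ^ 7) • g + (t ^ 6 + t ^ 4 + 1) • (1 : Matrix (Fin 2) (Fin 2) F) := by
    have : g ^ 8 = (g ^ 4) * (g ^ 4) := by noncomm_ring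
    rw [this, h4]
    have e : ((t ^ 3) • g + (t ^ 2 + 1) • (1 : Matrix (Fin 2) (Fin 2) F)) * ((t ^ 3) • g + (t ^ 2 + 1) • (1 : Matrix (Fin 2) (Fin 2) F))
        = (t ^ 6) • (g * g) + ((t ^ 3 * (t ^ 2 + 1)) • g + (t ^ 3 * (t ^ 2 + 1)) • g) + ((t ^ 2 + 1) ^ 2) • 1 := by
      simp only [mul_add, add_mul, mul_one, one_mul, smul_mul_assoc, mul_smul_comm, smul_smul]
      ext i j
      simp [Matrix.smul_apply, Matrix.add_apply]
      ring
    rw [e, hadd, h1]
    ext i j
    simp [Matrix.smul_apply, Matrix.add_apply]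
    linear_combination (t ^ 2 * (1 : Matrix (Fin 2) (Fin 2) F) i j) * h2
  by_cases ht0 : t = 0
  · left
    have : g * g = 1 := by rw [h1, ht0, zero_smul, zero_add]
    apply Subtype.ext
    have e : (x ^ 4).1 = g ^ 4 := SpecialLinearGroup.coe_pow x 4
    have e2 : g ^ 4 = (g * g) * (g * g) := by noncomm_ring
    show (x ^ 4).1 = 1
    rw [e, e2, this, one_mul]
  · have ht7 : t ^ 7 = 1 := by
      have := FiniteField.pow_card t
      rw [hF] at this
      have h3 : t * (t ^ 7 - 1) = 0 := by linear_combination this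
      rcases mul_eq_zero.mp h3 with h | h
      · exact absurd h ht0
      · exact sub_eq_zero.mp h
    set c := t ^ 6 + t ^ 5 + t ^ 3 with hc
    have hcc : c * c = c := by
      have h12 : t ^ 12 = t ^ 5 := by
        calc t ^ 12 = t ^ 7 * t ^ 5 := by ring
          _ = t ^ 5 := by rw [ht7, one_mul]
      have h10 : t ^ 10 = t ^ 3 := by
        calc t ^ 10 = t ^ 7 * t ^ 3 := by ring
          _ = t ^ 3 := by rw [ht7, one_mul]
      rw [hc]
      linear_combination h12 + h10 + (t ^ 11 + t ^ 9 + t ^ 8) * h2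
    have hc' : t ^ 6 + t ^ 4 + 1 = t * c := by
      rw [hc]
      linear_combination (-1 : F) * ht7
    have hc01 : c = 0 ∨ c = 1 := by
      have : c * (c - 1) = 0 := by linear_combination hcc
      rcases mul_eq_zero.mp this with h | h
      · exact Or.inl h
      · exact Or.inr (sub_eq_zero.mp h)
    right
    rcases hc01 with h0 | h0
    · right
      have e8 : g ^ 8 = g := by
        rw [h8, ht7, hc', h0, mul_zero, zero_smul, add_zero, one_smul]
      have : x ^ 8 = x := by
        apply Subtype.ext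
        rw [SpecialLinearGroup.coe_pow]; exact e8
      have h9 : x ^ 7 * x = 1 * x := by rw [← pow_succ, one_mul]; exact this
      exact mul_right_cancel h9
    · left
      have e8 : g ^ 8 = g + t • 1 := by
        rw [h8, ht7, hc', h0, mul_one, one_smul]
      have e9 : g ^ 9 = 1 := by
        have : g ^ 9 = g ^ 8 * g := pow_succ g 8
        rw [this, e8, add_mul, h1, smul_mul_assoc, one_mul]
        have := hadd (t • g)
        calc t • g + 1 + t • g = (t • g + t • g) + 1 := by abel
          _ = 1 := by rw [this, zero_add]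
      apply Subtype.ext
      rw [SpecialLinearGroup.coe_pow]; exact e9

lemma sl2_eight_card {F : Type*} [Field F] [Fintype F] [CharP F 2] (hF : Fintype.card F = 8) :
    2 ∣ Nat.card (SpecialLinearGroup (Fin 2) F) ∧ 3 ∣ Nat.card (SpecialLinearGroup (Fin 2) F) ∧
      7 ∣ Nat.card (SpecialLinearGroup (Fin 2) F) := by
  classical
  have h2 : (2 : F) = 0 := CharTwo.two_eq_zero
  refine ⟨?_, ?_, ?_⟩
  · let t : SpecialLinearGroup (Fin 2) F := ⟨!![1, 1; 0, 1], by simp [Matrix.det_fin_two]⟩
    have ht : t ^ 2 = 1 := by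
      apply Subtype.ext
      rw [pow_two]
      show !![(1 : F), 1; 0, 1] * !![1, 1; 0, 1] = 1
      ext i j
      fin_cases i <;> fin_cases j <;> simp [Matrix.mul_apply, Fin.sum_univ_succ, CharTwo.add_self_eq_zero]
    have ht1 : t ≠ 1 := by
      intro h
      have := congrFun (congrFun (congrArg Subtype.val h) 0) 1
      have h2 : (1 : F) = 0 := this
      exact one_ne_zero h2
    have h3 := orderOf_dvd_natCard t
    rwa [orderOf_eq_prime ht ht1] at h3
  · let t : SpecialLinearGroup (Fin 2) F := ⟨!![0, 1; 1, 1], by simp [Matrix.det_fin_two, CharTwo.neg_eq]⟩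
    have ht : t ^ 3 = 1 := by
      apply Subtype.ext
      rw [pow_succ, pow_two]
      show !![(0 : F), 1; 1, 1] * !![0, 1; 1, 1] * !![0, 1; 1, 1] = 1
      ext i j
      fin_cases i <;> fin_cases j <;>
        simp [Matrix.mul_apply, Fin.sum_univ_succ, CharTwo.add_self_eq_zero]
    have ht1 : t ≠ 1 := by
      intro h
      have := congrFun (congrFun (congrArg Subtype.val h) 0) 1
      have h2 : (1 : F) = 0 := this
      exact one_ne_zero h2
    have : Fact (Nat.Prime 3) := ⟨Nat.prime_three⟩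
    have h3 := orderOf_dvd_natCard t
    rwa [orderOf_eq_prime ht ht1] at h3
  · have : ∃ a : F, a ≠ 0 ∧ a ≠ 1 := by
      by_contra hcon
      push Not at hcon
      have hsub : (Finset.univ : Finset F) ⊆ {0, 1} := by
        intro a _
        by_cases ha : a = 0
        · simp [ha]
        · simp [hcon a ha]
      have := Finset.card_le_card hsub
      rw [Finset.card_univ, hF] at this
      have h3 : ({0, 1} : Finset F).card ≤ 2 := Finset.card_le_two
      omega
    obtain ⟨a, ha0, ha1⟩ := this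
    have ha7 : a ^ 7 = 1 := by
      have := FiniteField.pow_card_sub_one_eq_one a ha0
      rwa [hF] at this
    let t : SpecialLinearGroup (Fin 2) F := ⟨!![a, 0; 0, a⁻¹], by simp [Matrix.det_fin_two, ha0]⟩
    have htp : ∀ n : ℕ, (t ^ n).1 = !![a ^ n, 0; 0, (a⁻¹) ^ n] := by
      intro n
      induction n with
      | zero => 
        ext i j
        fin_cases i <;> fin_cases j <;> simp
      | succ n ih =>
        rw [pow_succ, SpecialLinearGroup.coe_mul, ih]
        show _ * !![a, 0; 0, a⁻¹] = _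
        ext i j
        fin_cases i <;> fin_cases j <;> simp [Matrix.mul_apply, Fin.sum_univ_succ, pow_succ]
    have ht : t ^ 7 = 1 := by
      apply Subtype.ext
      rw [htp, inv_pow, ha7]
      ext i j
      fin_cases i <;> fin_cases j <;> simp
    have ht1 : t ≠ 1 := by
      intro h
      have := congrFun (congrFun (congrArg Subtype.val h) 0) 0
      have h2 : a = 1 := this
      exact ha1 h2
    have : Fact (Nat.Prime 7) := ⟨by norm_num⟩
    have h3 := orderOf_dvd_natCard t
    rwa [orderOf_eq_prime ht ht1] at h3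

/-- elements of `PSL(2,7)` -/
lemma psl2_seven {F : Type*} [Field F] [Fintype F] (hF : Fintype.card F = 7)
    (y : ProjectiveSpecialLinearGroup (Fin 2) F) : y ^ 4 = 1 ∨ y ^ 9 = 1 ∨ y ^ 7 = 1 := by
  obtain ⟨x, rfl⟩ := QuotientGroup.mk_surjective y
  have h7 : (7 : F) = 0 := by
    have := FiniteField.cast_card_eq_zero F
    rw [hF] at this
    exact_mod_cast this
  -- scalar matrices are central
  have hcen : ∀ z : SpecialLinearGroup (Fin 2) F, (z.1 = 1 ∨ z.1 = -1) →
      (QuotientGroup.mk z : ProjectiveSpecialLinearGroup (Fin 2) F) = 1 := by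
    intro z hz
    rw [QuotientGroup.eq_one_iff, SpecialLinearGroup.mem_center_iff]
    rcases hz with h | h
    · exact ⟨1, by simp, by rw [h]; simp⟩
    · refine ⟨-1, by simp, ?_⟩
      rw [h]
      ext i j
      by_cases hij : i = j
      · subst hij; simp
      · simp [hij]
  set g := x.1 with hg
  have hdet : g.det = 1 := x.2
  set t := g 0 0 + g 1 1 with ht
  have h1 : g * g = t • g - 1 := sq_eq g hdet
  have hpow : ∀ n : ℕ, ((QuotientGroup.mk x : ProjectiveSpecialLinearGroup (Fin 2) F)) ^ n = QuotientGroup.mk (x ^ n) := 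
    fun n => rfl
  have hxp : ∀ n : ℕ, (x ^ n).1 = g ^ n := fun n => SpecialLinearGroup.coe_pow x n
  have h3 : g ^ 3 = (t ^ 2 - 1) • g - t • 1 := by
    have : g ^ 3 = g * g * g := by noncomm_ring
    rw [this, h1, sub_mul, smul_mul_assoc, h1, one_mul]
    ext i j
    simp [Matrix.smul_apply, Matrix.sub_apply]
    ring
  have h4 : g ^ 4 = (t ^ 3 - 2 * t) • g - (t ^ 2 - 1) • 1 := by
    rw [pow_succ, h3, sub_mul, smul_mul_assoc, h1, smul_mul_assoc, one_mul]
    ext i j
    simp [Matrix.smul_apply, Matrix.sub_apply]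
    ring
  have htt : t = 0 ∨ t ^ 2 = 1 ∨ t ^ 2 = 2 ∨ t ^ 2 = 4 := by
    have := FiniteField.pow_card t
    rw [hF] at this
    have h5 : t * (t ^ 2 - 1) * (t ^ 2 - 2) * (t ^ 2 - 4) = 0 := by
      linear_combination this + (-t ^ 5 + 2 * t ^ 3 - t) * h7
    rcases mul_eq_zero.mp h5 with h5 | h5
    · rcases mul_eq_zero.mp h5 with h5 | h5
      · rcases mul_eq_zero.mp h5 with h5 | h5
        · exact Or.inl h5
        · exact Or.inr (Or.inl (sub_eq_zero.mp h5))
      · exact Or.inr (Or.inr (Or.inl (sub_eq_zero.mp h5)))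
    · exact Or.inr (Or.inr (Or.inr (sub_eq_zero.mp h5)))
  rcases htt with h0 | h0 | h0 | h0
  · left
    rw [hpow]
    apply hcen
    left
    rw [hxp, h4, h0]
    ext i j
    simp [Matrix.smul_apply]
  · right; left
    have hcube : (QuotientGroup.mk x : ProjectiveSpecialLinearGroup (Fin 2) F) ^ 3 = 1 := by
      rw [hpow]
      apply hcen
      have ht1 : t = 1 ∨ t = -1 := by
        have : (t - 1) * (t + 1) = 0 := by linear_combination h0
        rcases mul_eq_zero.mp this with h | h
        · exact Or.inl (sub_eq_zero.mp h)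
        · exact Or.inr (eq_neg_of_add_eq_zero_left h)
      rw [hxp, h3, h0, sub_self, zero_smul, zero_sub]
      rcases ht1 with h | h
      · right; rw [h, one_smul]
      · left; rw [h, neg_smul, one_smul, neg_neg]
    have : (9 : ℕ) = 3 * 3 := rfl
    rw [this, pow_mul, hcube, one_pow]
  · left
    rw [hpow]
    apply hcen
    right
    rw [hxp, h4]
    have : t ^ 3 - 2 * t = 0 := by linear_combination t * h0
    rw [this, h0, zero_smul, zero_sub]
    norm_num
  · right; right
    rw [hpow]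
    apply hcen
    have ht1 : t = 2 ∨ t = -2 := by
      have : (t - 2) * (t + 2) = 0 := by linear_combination h0
      rcases mul_eq_zero.mp this with h | h
      · exact Or.inl (sub_eq_zero.mp h)
      · exact Or.inr (eq_neg_of_add_eq_zero_left h)
    have h77 : g ^ 7 = (t ^ 6 - 5 * t ^ 4 + 6 * t ^ 2 - 1) • g - (t ^ 5 - 4 * t ^ 3 + 3 * t) • 1 := by
      have : g ^ 7 = g ^ 4 * g ^ 3 := by noncomm_ring
      rw [this, h4, h3]
      have e : ((t ^ 3 - 2 * t) • g - (t ^ 2 - 1) • (1 : Matrix (Fin 2) (Fin 2) F)) * ((t ^ 2 - 1) • g - t • 1)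
        = ((t ^ 3 - 2 * t) * (t ^ 2 - 1)) • (g * g) - ((t ^ 3 - 2 * t) * t + (t ^ 2 - 1) * (t ^ 2 - 1)) • g + ((t ^ 2 - 1) * t) • 1 := by
        simp only [mul_sub, sub_mul, mul_one, one_mul, smul_mul_assoc, mul_smul_comm, smul_smul, smul_sub, add_smul]
        ext i j
        simp [Matrix.smul_apply, Matrix.add_apply, Matrix.sub_apply]
        ring
      rw [e, h1]
      ext i j
      simp [Matrix.smul_apply, Matrix.add_apply, Matrix.sub_apply]
      ring
    rw [hxp, h77]
    rcases ht1 with h | h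
    · left
      have e1 : t ^ 6 - 5 * t ^ 4 + 6 * t ^ 2 - 1 = 0 := by rw [h]; linear_combination h7
      have e2 : t ^ 5 - 4 * t ^ 3 + 3 * t = -1 := by rw [h]; linear_combination h7
      rw [e1, e2]; simp
    · right
      have e1 : t ^ 6 - 5 * t ^ 4 + 6 * t ^ 2 - 1 = 0 := by rw [h]; linear_combination h7
      have e2 : t ^ 5 - 4 * t ^ 3 + 3 * t = 1 := by rw [h]; linear_combination -h7
      rw [e1, e2]; simp

lemma psl2_seven_card {F : Type*} [Field F] [Fintype F] (hF : Fintype.card F = 7) :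
    2 ∣ Nat.card (ProjectiveSpecialLinearGroup (Fin 2) F) ∧ 3 ∣ Nat.card (ProjectiveSpecialLinearGroup (Fin 2) F) ∧
      7 ∣ Nat.card (ProjectiveSpecialLinearGroup (Fin 2) F) := by
  classical
  have h7 : (7 : F) = 0 := by
    have := FiniteField.cast_card_eq_zero F
    rw [hF] at this
    exact_mod_cast this
  have h10 : (1 : F) ≠ 0 := one_ne_zero
  -- nontriviality test: nonzero (0,1) entry
  have hne : ∀ z : SpecialLinearGroup (Fin 2) F, z.1 0 1 ≠ 0 →
      (QuotientGroup.mk z : ProjectiveSpecialLinearGroup (Fin 2) F) ≠ 1 := by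
    intro z hz h
    rw [QuotientGroup.eq_one_iff, SpecialLinearGroup.mem_center_iff] at h
    obtain ⟨r, _, hr⟩ := h
    apply hz
    rw [← hr]; simp
  have hcen : ∀ z : SpecialLinearGroup (Fin 2) F, (z.1 = 1 ∨ z.1 = -1) →
      (QuotientGroup.mk z : ProjectiveSpecialLinearGroup (Fin 2) F) = 1 := by
    intro z hz
    rw [QuotientGroup.eq_one_iff, SpecialLinearGroup.mem_center_iff]
    rcases hz with h | h
    · exact ⟨1, by simp, by rw [h]; simp⟩
    · refine ⟨-1, by simp, ?_⟩
      rw [h]
      ext i j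
      by_cases hij : i = j
      · subst hij; simp
      · simp [hij]
  have gen : ∀ (p : ℕ), p.Prime → ∀ z : SpecialLinearGroup (Fin 2) F, z.1 0 1 ≠ 0 → (z.1 ^ p = 1 ∨ z.1 ^ p = -1) →
      p ∣ Nat.card (ProjectiveSpecialLinearGroup (Fin 2) F) := by
    intro p hp z hz hzp
    have hfp : Fact p.Prime := ⟨hp⟩
    have h1 : (QuotientGroup.mk z : ProjectiveSpecialLinearGroup (Fin 2) F) ^ p = 1 := by
      have : (QuotientGroup.mk z : ProjectiveSpecialLinearGroup (Fin 2) F) ^ p = QuotientGroup.mk (z ^ p) := rfl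
      rw [this]
      apply hcen
      rw [SpecialLinearGroup.coe_pow]
      exact hzp
    have h3 := orderOf_dvd_natCard (QuotientGroup.mk z : ProjectiveSpecialLinearGroup (Fin 2) F)
    rwa [orderOf_eq_prime h1 (hne z hz)] at h3
  refine ⟨gen 2 Nat.prime_two ⟨!![0, 1; -1, 0], by simp [Matrix.det_fin_two]⟩ ?_ ?_,
    gen 3 Nat.prime_three ⟨!![0, 1; -1, -1], by simp [Matrix.det_fin_two]⟩ ?_ ?_,
    gen 7 (by norm_num) ⟨!![1, 1; 0, 1], by simp [Matrix.det_fin_two]⟩ ?_ ?_⟩
  · exact h10
  · right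
    show !![(0 : F), 1; -1, 0] ^ 2 = -1
    rw [pow_two]
    ext i j
    fin_cases i <;> fin_cases j <;> simp [Matrix.mul_apply, Fin.sum_univ_succ]
  · exact h10
  · left
    show !![(0 : F), 1; -1, -1] ^ 3 = 1
    rw [pow_succ, pow_two]
    ext i j
    fin_cases i <;> fin_cases j <;> simp [Matrix.mul_apply, Fin.sum_univ_succ]
  · exact h10
  · left
    show !![(1 : F), 1; 0, 1] ^ 7 = 1
    have : ∀ n : ℕ, !![(1 : F), 1; 0, 1] ^ n = !![(1 : F), n; 0, 1] := by
      intro n
      induction n with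
      | zero =>
        ext i j
        fin_cases i <;> fin_cases j <;> simp
      | succ n ih =>
        rw [pow_succ, ih]
        ext i j
        fin_cases i <;> fin_cases j <;> simp [Matrix.mul_apply, Fin.sum_univ_succ]
        ring
    rw [this]
    ext i j
    fin_cases i <;> fin_cases j <;> simp [h7]

/-- The prime graph of a finite group has the prime divisors of its order as vertices, two distinct primes p, q being joined when the group has an element of order pq; two groups have the same prime graph when they have the same prime divisors and the same joined pairs. Let F be the field with 7 elements. There are finite groups of arbitrarily large order with the same prime graph as PSL(2,F) (the graph on {2, 3, 7} with no edges, which is also the prime graph of PSL(2,8)). -/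
theorem result {F : Type*} [Field F] [Fintype F] (hF : Fintype.card F = 7) (N : ℕ) :
    ∃ (H : Type) (_ : Group H) (_ : Finite H), N < Nat.card H ∧
      ((∀ p : ℕ, p.Prime → (p ∣ Nat.card (Matrix.ProjectiveSpecialLinearGroup (Fin 2) F) ↔ p ∣ Nat.card H)) ∧
      (∀ p q : ℕ, p.Prime → q.Prime → p ≠ q → ((∃ g : (Matrix.ProjectiveSpecialLinearGroup (Fin 2) F), orderOf g = p * q) ↔ (∃ g : H, orderOf g = p * q)))) := by
  classical
  let E := GaloisField 2 3
  let _ : Fintype E := Fintype.ofFinite E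
  have hE : Fintype.card E = 8 := by
    have := GaloisField.card 2 3 (by norm_num)
    rw [← Nat.card_eq_fintype_card]
    rw [this]; norm_num
  obtain ⟨H, iH, fH, hN, hs⟩ := unbounded_sl2 (F := E) N
  refine ⟨H, iH, fH, hN, ?_⟩
  exact (sameGraph_of_orders (psl2_seven hF) (sl2_eight hE) (psl2_seven_card hF) (sl2_eight_card hE)).trans hs

end Cfsg.Agent.S3678
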