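import Cfsg.Statements.S3680
import Mathlib
import Cfsg.Agent.Lib.CharSimple
import Cfsg.Agent.Lib.PrimNormal

set_option autoImplicit false
open Cfsg

namespace Cfsg.Agent.S3680

/-- The socle of a finite primitive permutation group. Let a finite group G act faithfully and primitively on a set Ω, and let N be the subgroup generated by the minimal normal subgroups of G. Then either N is an elementary abelian p-group for some prime p and acts regularly on Ω (transitively with trivial point stabilizers), or N is isomorphic to a direct product of m ≥ 1 copies of a non-abelian simple group. -/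
theorem result {G Ω : Type*} [Group G] [Finite G] [MulAction G Ω] [FaithfulSMul G Ω] [Finite Ω]
    (hprim : MulAction.IsPreprimitive G Ω) (N : Subgroup G)
    (hN : N = sSup {V : Subgroup G | V.Normal ∧ V ≠ ⊥ ∧ ∀ M : Subgroup G, M.Normal → M ≤ V → M = ⊥ ∨ M = V}) :
    (∃ p : ℕ, p.Prime ∧ IsMulCommutative N ∧ (∀ x : N, x ^ p = 1) ∧
      MulAction.IsPretransitive N Ω ∧ ∀ ω : Ω, MulAction.stabilizer N ω = ⊥) ∨
    (∃ (T : Type) (_ : Group T) (m : ℕ), 1 ≤ m ∧ IsSimpleGroup T ∧ ¬ IsMulCommutative T ∧ Nonempty (N ≃* (Fin m → T))) := by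
  classical
  set 𝒮 := {V : Subgroup G | V.Normal ∧ V ≠ ⊥ ∧ ∀ M : Subgroup G, M.Normal → M ≤ V → M = ⊥ ∨ M = V} with h𝒮
  have htrG : MulAction.IsPretransitive G Ω := inferInstance
  rcases subsingleton_or_nontrivial G with hG | hG
  · left
    refine ⟨2, Nat.prime_two, ⟨⟨fun x y => Subsingleton.elim _ _⟩⟩, fun x => Subsingleton.elim _ _, ?_, ?_⟩
    · refine ⟨fun x y => ?_⟩
      obtain ⟨g, hg⟩ := MulAction.exists_smul_eq G x y
      refine ⟨1, ?_⟩
      rw [Subsingleton.elim g 1] at hg
      rw [← hg]
      rfl
    · intro ω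
      exact Subsingleton.elim _ _
  obtain ⟨V, -, hV⟩ := Lib.MinNormal.exists_minBy (⊤ : Subgroup G) ⊤ top_ne_bot
    (Lib.MinNormal.InvBy.self ⊤)
  have hVn : V.Normal := hV.normal
  have hVb : V ≠ ⊥ := hV.ne_bot
  have hVmin : ∀ M : Subgroup G, M.Normal → M ≤ V → M = ⊥ ∨ M = V := fun M hM h =>
    hV.min M (Lib.MinNormal.invBy_top_iff.mpr hM) h
  have hV𝒮 : V ∈ 𝒮 := ⟨hVn, hVb, hVmin⟩
  have hVtr : MulAction.IsPretransitive V Ω := Lib.PrimNormal.transitive_of_normal hprim V hVb
  have hΩ : Nonempty Ω := by
    by_contra hcon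
    rw [not_nonempty_iff] at hcon
    obtain ⟨x, y, hxy⟩ := hG
    exact hxy (eq_of_smul_eq_smul (α := Ω) fun ω => (hcon.false ω).elim)
  obtain ⟨ω⟩ := hΩ
  set C : Subgroup G := Subgroup.centralizer (V : Set G) with hC
  have hCn : C.Normal := inferInstance
  have hcomm : ∀ c ∈ C, ∀ v ∈ V, c * v = v * c := fun c hc v hv =>
    ((Subgroup.mem_centralizer_iff.mp hc) v hv).symm
  have hother : ∀ W ∈ 𝒮, W = V ∨ W ≤ C := by
    rintro W ⟨hWn, hWb, hWmin⟩
    by_cases hWV : W = V
    · exact Or.inl hWV
    · right
      have hd : W ⊓ V = ⊥ := by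
        rcases hVmin (W ⊓ V) inferInstance inf_le_right with h | h
        · exact h
        · exfalso
          have h1 : V ≤ W := by rw [← h]; exact inf_le_left
          rcases hWmin V hVn h1 with h2 | h2
          · exact hVb h2
          · exact hWV h2.symm
      intro w hw
      rw [Subgroup.mem_centralizer_iff]
      intro v hv
      exact (Subgroup.commute_of_normal_of_disjoint V W hVn hWn
        (disjoint_iff.mpr (by rw [inf_comm]; exact hd)) v w hv hw)
  by_cases hCb : C = ⊥
  · -- `N = V` nonabelian
    right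
    have hNV : N = V := by
      rw [hN]
      apply le_antisymm
      · refine sSup_le fun W hW => ?_
        rcases hother W hW with h | h
        · exact h.le
        · rw [hCb] at h
          exact absurd (le_bot_iff.mp h) hW.2.1
      · exact le_sSup hV𝒮
    obtain ⟨T, hT, m, hTs, hm, ⟨e⟩⟩ := Lib.CharSimple.minimal_normal V hVn hVb hVmin
    refine ⟨T, hT, m, hm, hTs, ?_, ?_⟩
    · intro hab
      apply hVb
      rw [eq_bot_iff, ← hCb]
      intro x hx
      rw [hC, Subgroup.mem_centralizer_iff]
      intro y hy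
      have h1 : (⟨y, hy⟩ : V) * ⟨x, hx⟩ = ⟨x, hx⟩ * ⟨y, hy⟩ := by
        apply e.injective
        rw [map_mul, map_mul]
        funext i
        exact hab.is_comm.comm _ _
      exact congrArg Subtype.val h1
    · rw [hNV]; exact ⟨e⟩
  have hCtr : MulAction.IsPretransitive C Ω := Lib.PrimNormal.transitive_of_normal hprim C hCb
  have hVsr : ∀ v ∈ V, v • ω = ω → v = 1 := fun v hv h =>
    Lib.PrimNormal.semiregular_of_centralizes C V hcomm ω v hv h
  have hCsr : ∀ (ω : Ω), ∀ v ∈ C, v • ω = ω → v = 1 := fun ω v hv h =>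
    Lib.PrimNormal.semiregular_of_centralizes V C (fun c hc n hn => (hcomm n hn c hc).symm) ω v hv h
  by_cases hab : V ≤ C
  · left
    have hCV : C = V := by
      apply le_antisymm _ hab
      intro c hc
      obtain ⟨v, hv⟩ := MulAction.exists_smul_eq V ω (c • ω)
      have hv' : (v : G) • ω = c • ω := hv
      have h1 := hCsr ω ((v : G)⁻¹ * c) (C.mul_mem (C.inv_mem (hab v.2)) hc)
        (by rw [mul_smul, ← hv', inv_smul_smul])
      rw [inv_mul_eq_one] at h1
      rw [← h1]; exact v.2
    have hNV : N = V := by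
      rw [hN]
      apply le_antisymm
      · refine sSup_le fun W hW => ?_
        rcases hother W hW with h | h
        · exact h.le
        · rw [hCV] at h; exact h
      · exact le_sSup hV𝒮
    have hVab : ∀ x ∈ V, ∀ y ∈ V, x * y = y * x := fun x hx y hy => hcomm x (hab hx) y hy
    obtain ⟨r, hr, hr1⟩ := hV.elementary hVab
    rw [hNV]
    refine ⟨r, hr, ⟨⟨fun x y => Subtype.ext (hVab x x.2 y y.2)⟩⟩, fun x => Subtype.ext (hr1 x x.2), hVtr,
      fun ω' => ?_⟩
    rw [eq_bot_iff]
    intro x hx
    rw [Subgroup.mem_bot]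
    exact Subtype.ext (hCsr ω' x (hab x.2) hx)
  · right
    have hVC : V ⊓ C = ⊥ := by
      rcases hVmin (V ⊓ C) inferInstance inf_le_left with h | h
      · exact h
      · exact absurd (inf_eq_left.mp h) hab
    have hCmin : ∀ M : Subgroup G, M.Normal → M ≤ C → M = ⊥ ∨ M = C := by
      intro M hM hMC
      by_cases hMb : M = ⊥
      · exact Or.inl hMb
      · right
        apply le_antisymm hMC
        have hMtr : MulAction.IsPretransitive M Ω := Lib.PrimNormal.transitive_of_normal hprim M hMb
        intro c hc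
        obtain ⟨v, hv⟩ := MulAction.exists_smul_eq M ω (c • ω)
        have hv' : (v : G) • ω = c • ω := hv
        have h1 := hCsr ω ((v : G)⁻¹ * c) (C.mul_mem (C.inv_mem (hMC v.2)) hc)
          (by rw [mul_smul, ← hv', inv_smul_smul])
        rw [inv_mul_eq_one] at h1
        rw [← h1]; exact v.2
    have hNV : N = V ⊔ C := by
      rw [hN]
      apply le_antisymm
      · refine sSup_le fun W hW => ?_
        rcases hother W hW with h | h
        · exact h.le.trans le_sup_left
        · exact h.trans le_sup_right
      · exact sup_le (le_sSup hV𝒮) (le_sSup ⟨hCn, hCb, hCmin⟩)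
    obtain ⟨T, hT, m, hTs, hm, ⟨e⟩⟩ := Lib.CharSimple.minimal_normal V hVn hVb hVmin
    refine ⟨T, hT, m + m, by omega, hTs, ?_, ?_⟩
    · intro hTab
      apply hab
      intro x hx
      rw [hC, Subgroup.mem_centralizer_iff]
      intro y hy
      have h1 : (⟨y, hy⟩ : V) * ⟨x, hx⟩ = ⟨x, hx⟩ * ⟨y, hy⟩ := by
        apply e.injective
        rw [map_mul, map_mul]
        funext i
        exact hTab.is_comm.comm _ _
      exact congrArg Subtype.val h1
    · obtain ⟨e1⟩ := Lib.CharSimple.sup_equiv_prod hVn hCn (disjoint_iff.mpr hVC)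
      -- `V ≃* C`
      have hex : ∀ v : V, ∃ c : C, (c : G) • ω = (v : G)⁻¹ • ω := fun v =>
        MulAction.exists_smul_eq C ω ((v : G)⁻¹ • ω)
      choose f hf using hex
      have hfm : ∀ v w : V, f (v * w) = f v * f w := by
        intro v w
        have h1 : ((f v * f w : C) : G) • ω = ((v * w : V) : G)⁻¹ • ω := by
          rw [Subgroup.coe_mul, mul_smul, hf w, ← mul_smul, hcomm _ (f v).2 _ (V.inv_mem w.2), mul_smul, hf v,
            ← mul_smul]
          congr 1
          simp
        have h2 := hCsr ω ((f v * f w : C)⁻¹ * f (v * w) : C) (SetLike.coe_mem _) (by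
          rw [Subgroup.coe_mul, mul_smul, hf (v * w), ← h1, ← mul_smul, ← Subgroup.coe_mul,
            inv_mul_cancel]
          simp)
        have h3 : (f v * f w)⁻¹ * f (v * w) = 1 := Subtype.ext h2
        rw [inv_mul_eq_one] at h3
        exact h3.symm
      let F : V →* C := MonoidHom.mk' f hfm
      have hF : Function.Bijective F := by
        constructor
        · rw [injective_iff_map_eq_one]
          intro v hv
          have h1 : f v = 1 := hv
          have h2 := hf v
          rw [h1, Subgroup.coe_one, one_smul] at h2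
          have h3 := hVsr (v : G)⁻¹ (V.inv_mem v.2) h2.symm
          exact Subtype.ext (inv_eq_one.mp h3)
        · intro c
          obtain ⟨v, hv⟩ := MulAction.exists_smul_eq V ω ((c : G) • ω)
          refine ⟨v⁻¹, ?_⟩
          have hv' : (v : G) • ω = (c : G) • ω := hv
          have h1 := hf v⁻¹
          rw [Subgroup.coe_inv, inv_inv, hv'] at h1
          have h2 := hCsr ω ((f v⁻¹)⁻¹ * c : C) (SetLike.coe_mem _) (by
            rw [Subgroup.coe_mul, mul_smul, ← h1, ← mul_smul, ← Subgroup.coe_mul, inv_mul_cancel]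
            simp)
          have h3 : (f v⁻¹)⁻¹ * c = 1 := Subtype.ext h2
          rw [inv_mul_eq_one] at h3
          exact h3
      let e2 : V ≃* C := MulEquiv.ofBijective F hF
      rw [hNV]
      let e3 : (Fin m → T) × (Fin m → T) ≃* (Fin (m + m) → T) :=
        { toFun := fun x i => Sum.elim x.1 x.2 (finSumFinEquiv.symm i)
          invFun := fun y => (fun i => y (finSumFinEquiv (Sum.inl i)), fun i => y (finSumFinEquiv (Sum.inr i)))
          left_inv := fun x => by
            apply Prod.ext
            · funext i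
              simp only [Equiv.symm_apply_apply, Sum.elim_inl]
            · funext i
              simp only [Equiv.symm_apply_apply, Sum.elim_inr]
          right_inv := fun y => by
            funext i
            obtain ⟨j, rfl⟩ := finSumFinEquiv.surjective i
            cases j <;> simp only [Equiv.symm_apply_apply, Sum.elim_inl, Sum.elim_inr]
          map_mul' := fun x y => by
            funext i
            obtain ⟨j, rfl⟩ := finSumFinEquiv.surjective i
            cases j <;> simp only [Equiv.symm_apply_apply, Sum.elim_inl, Sum.elim_inr, Pi.mul_apply,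
              Prod.fst_mul, Prod.snd_mul] }
      exact ⟨(e1.trans (MulEquiv.prodCongr e (e2.symm.trans e))).trans e3⟩

end Cfsg.Agent.S3680
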