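import Cfsg.Statements.S3681
import Mathlib.GroupTheory.GroupAction.Jordan
import Mathlib.GroupTheory.Index
import Mathlib.Tactic

set_option autoImplicit false
open Cfsg

namespace Cfsg.Agent.S3681

open Equiv.Perm

lemma pai {Ω : Type*} (x : Equiv.Perm Ω) (z : Ω) : x (x⁻¹ z) = z := Equiv.apply_symm_apply x z
lemma pia {Ω : Type*} (x : Equiv.Perm Ω) (z : Ω) : x⁻¹ (x z) = z := Equiv.symm_apply_apply x z

lemma comm_threeCycle {Ω : Type*} [Fintype Ω] [DecidableEq Ω] (x y : Equiv.Perm Ω) (a : Ω)
    (hxa : x a ≠ a) (hya : y a ≠ a) (h : ∀ z, x z ≠ z → y z ≠ z → z = a) :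
    (x * y * x⁻¹ * y⁻¹).IsThreeCycle := by
  have h1 : ∀ z, z ≠ a → y z ≠ z → x z = z := by
    intro z hz hyz
    by_contra hxz
    exact hz (h z hxz hyz)
  have h2 : ∀ z, z ≠ a → x z ≠ z → y z = z := by
    intro z hz hxz
    by_contra hyz
    exact hz (h z hxz hyz)
  -- moved points are preserved
  have hx' : ∀ z, x z ≠ z → x (x z) ≠ x z := fun z hz hc => hz (x.injective hc)
  have hy' : ∀ z, y z ≠ z → y (y z) ≠ y z := fun z hz hc => hz (y.injective hc)
  have hxi : ∀ z, x z ≠ z → x (x⁻¹ z) ≠ x⁻¹ z := by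
    intro z hz hc
    apply hz
    rw [pai] at hc
    have h3 := congrArg x hc
    rw [pai] at h3
    exact h3
  have hyi : ∀ z, y z ≠ z → y (y⁻¹ z) ≠ y⁻¹ z := by
    intro z hz hc
    apply hz
    rw [pai] at hc
    have h3 := congrArg y hc
    rw [pai] at h3
    exact h3
  have e1 : y (x a) = x a := h2 (x a) hxa (hx' a hxa)
  have e2 : x (y a) = y a := h1 (y a) hya (hy' a hya)
  have e1' : y⁻¹ (x a) = x a := by rw [Equiv.Perm.inv_eq_iff_eq]; exact e1.symm
  have e2' : x⁻¹ (y a) = y a := by rw [Equiv.Perm.inv_eq_iff_eq]; exact e2.symm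
  have hxa' : x⁻¹ a ≠ a := by
    intro hc; rw [Equiv.Perm.inv_eq_iff_eq] at hc; exact hxa hc.symm
  have hya' : y⁻¹ a ≠ a := by
    intro hc; rw [Equiv.Perm.inv_eq_iff_eq] at hc; exact hya hc.symm
  have e3 : y (x⁻¹ a) = x⁻¹ a := h2 _ hxa' (hxi a hxa)
  have e4 : x (y⁻¹ a) = y⁻¹ a := h1 _ hya' (hyi a hya)
  have e4' : x⁻¹ (y⁻¹ a) = y⁻¹ a := by rw [Equiv.Perm.inv_eq_iff_eq]; exact e4.symm
  have c1 : (x * y * x⁻¹ * y⁻¹) a = x a := by
    simp only [Equiv.Perm.mul_apply]
    rw [e4', pai]
  have c2 : (x * y * x⁻¹ * y⁻¹) (x a) = y a := by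
    simp only [Equiv.Perm.mul_apply]
    rw [e1', pia, e2]
  have c3 : (x * y * x⁻¹ * y⁻¹) (y a) = a := by
    simp only [Equiv.Perm.mul_apply]
    rw [pia, e3, pai]
  have hxy : x a ≠ y a := by
    intro hc
    rw [← hc] at e2
    exact hx' a hxa e2
  have hsupp : (x * y * x⁻¹ * y⁻¹).support = {a, x a, y a} := by
    ext z
    simp only [Equiv.Perm.mem_support, Finset.mem_insert, Finset.mem_singleton]
    constructor
    · intro hz
      by_contra hcon
      push Not at hcon
      obtain ⟨hz1, hz2, hz3⟩ := hcon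
      apply hz
      simp only [Equiv.Perm.mul_apply]
      have hw : y⁻¹ z ≠ a := by
        intro hc
        rw [Equiv.Perm.inv_eq_iff_eq] at hc
        exact hz3 hc
      have hu : x⁻¹ z ≠ a := by
        intro hc
        rw [Equiv.Perm.inv_eq_iff_eq] at hc
        exact hz2 hc
      by_cases hyz : y z = z
      · have : y⁻¹ z = z := by rw [Equiv.Perm.inv_eq_iff_eq]; exact hyz.symm
        rw [this]
        by_cases hxz : x z = z
        · have : x⁻¹ z = z := by rw [Equiv.Perm.inv_eq_iff_eq]; exact hxz.symm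
          rw [this, hyz, hxz]
        · rw [h2 _ hu (hxi z hxz), pai]
      · have h5 : x (y⁻¹ z) = y⁻¹ z := h1 _ hw (hyi z hyz)
        have h6 : x⁻¹ (y⁻¹ z) = y⁻¹ z := by rw [Equiv.Perm.inv_eq_iff_eq]; exact h5.symm
        rw [h6, pai]
        exact h1 z hz1 hyz
    · rintro (rfl | rfl | rfl)
      · rw [c1]; exact hxa
      · rw [c2]; exact hxy.symm
      · rw [c3]; exact hya.symm
  rw [← card_support_eq_three_iff, hsupp]
  rw [Finset.card_eq_three]
  exact ⟨a, x a, y a, hxa.symm, hya.symm, hxy, rfl⟩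

theorem bochert {Ω : Type*} [Fintype Ω] [DecidableEq Ω] (H : Subgroup (Equiv.Perm Ω))
    (hprim : MulAction.IsPreprimitive H Ω) (hA : ¬ alternatingGroup Ω ≤ H) :
    Nat.card H * Nat.factorial ((Fintype.card Ω + 1) / 2) ≤ Nat.factorial (Fintype.card Ω) := by
  classical
  -- base of minimal size
  let P : Finset Ω → Prop := fun D => ∀ g ∈ H, (∀ z ∈ D, g z = z) → g = 1
  have hex : ∃ n, ∃ D : Finset Ω, P D ∧ D.card = n := by
    refine ⟨_, Finset.univ, ?_, rfl⟩
    intro g _ hg
    ext z
    simpa using hg z (Finset.mem_univ z)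
  obtain ⟨D, hD, hDcard⟩ := Nat.find_spec hex
  have hmin : ∀ D' : Finset Ω, D'.card < D.card → ¬ P D' := by
    intro D' hlt hP
    have := Nat.find_min' hex ⟨D', hP, rfl⟩
    omega
  have hkey : 2 * D.card ≤ Fintype.card Ω := by
    by_contra hcon
    push Not at hcon
    have hc1 : (Dᶜ).card < D.card := by
      rw [Finset.card_compl]; omega
    have hn1 := hmin _ hc1
    simp only [P, not_forall] at hn1
    obtain ⟨x, hxH, hxfix, hx1⟩ := hn1
    have : ∃ a, x a ≠ a := by
      by_contra hcon2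
      push Not at hcon2
      exact hx1 (by ext z; simpa using hcon2 z)
    obtain ⟨a, ha⟩ := this
    have haD : a ∈ D := by
      by_contra haD
      exact ha (hxfix a (by simpa using haD))
    have hc2 : (D.erase a).card < D.card := Finset.card_erase_lt_of_mem haD
    have hn2 := hmin _ hc2
    simp only [P, not_forall] at hn2
    obtain ⟨y, hyH, hyfix, hy1⟩ := hn2
    have hya : y a ≠ a := by
      intro hc
      apply hy1
      apply hD y hyH
      intro z hz
      by_cases hza : z = a
      · rw [hza, hc]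
      · exact hyfix z (Finset.mem_erase.mpr ⟨hza, hz⟩)
    have h3 : (x * y * x⁻¹ * y⁻¹).IsThreeCycle := by
      apply comm_threeCycle x y a ha hya
      intro z hxz hyz
      by_contra hza
      by_cases hzD : z ∈ D
      · exact hyz (hyfix z (Finset.mem_erase.mpr ⟨hza, hzD⟩))
      · exact hxz (hxfix z (by simpa using hzD))
    apply hA
    apply alternatingGroup_le_of_isPreprimitive_of_isThreeCycle_mem hprim h3
    exact H.mul_mem (H.mul_mem (H.mul_mem hxH hyH) (H.inv_mem hxH)) (H.inv_mem hyH)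
  -- the pointwise stabiliser of D in Sym meets H trivially
  let f : H × Equiv.Perm {z // z ∉ D} → Equiv.Perm Ω := fun q => (q.1 : Equiv.Perm Ω) * Equiv.Perm.ofSubtype q.2
  have hf : Function.Injective f := by
    rintro ⟨g, s⟩ ⟨g', s'⟩ hq
    simp only [f] at hq
    have h1 : (g'⁻¹ * g : H) = (1 : H) := by
      have h2 : ((g'⁻¹ * g : H) : Equiv.Perm Ω) = Equiv.Perm.ofSubtype s' * (Equiv.Perm.ofSubtype s)⁻¹ := by
        push_cast
        rw [eq_mul_inv_iff_mul_eq, mul_assoc, hq, inv_mul_cancel_left]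
      have h3 : ((g'⁻¹ * g : H) : Equiv.Perm Ω) = 1 := by
        apply hD _ (g'⁻¹ * g : H).2
        intro z hz
        rw [h2, ← map_inv, ← map_mul]
        apply Equiv.Perm.ofSubtype_apply_of_not_mem
        simpa using hz
      exact Subtype.ext h3
    have h4 : g = g' := by
      rw [inv_mul_eq_one] at h1
      exact h1.symm
    subst h4
    have h5 : s = s' := by
      have := mul_left_cancel hq
      exact Equiv.Perm.ofSubtype_injective this
    rw [h5]
  have hcard := Nat.card_le_card_of_injective f hf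
  rw [Nat.card_prod, Nat.card_eq_fintype_card (α := Equiv.Perm {z // z ∉ D}), Fintype.card_perm,
    Nat.card_eq_fintype_card (α := Equiv.Perm Ω), Fintype.card_perm] at hcard
  have hcc : Fintype.card {z // z ∉ D} = Fintype.card Ω - D.card := by
    rw [Fintype.card_subtype_compl]
    simp
  rw [hcc] at hcard
  refine le_trans (Nat.mul_le_mul_left _ (Nat.factorial_le ?_)) hcard
  omega

/-- Bochert's bound for primitive groups. Let a finite group G act faithfully and primitively on a finite set Ω with n elements, and suppose the image of G in the symmetric group of Ω does not contain the alternating group of Ω. Then |G| · ⌊(n + 1)/2⌋! ≤ n!, that is, the index of G in the symmetric group is at least ⌊(n + 1)/2⌋!. -/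
theorem result {G Ω : Type*} [Group G] [Finite G] [MulAction G Ω] [FaithfulSMul G Ω] [Fintype Ω] [DecidableEq Ω]
    (hprim : MulAction.IsPreprimitive G Ω) (hA : ¬ alternatingGroup Ω ≤ (MulAction.toPermHom G Ω).range) :
    Nat.card G * Nat.factorial ((Fintype.card Ω + 1) / 2) ≤ Nat.factorial (Fintype.card Ω) := by
  have hinj : Function.Injective (MulAction.toPermHom G Ω) := MulAction.toPerm_injective
  have hc : Nat.card (MulAction.toPermHom G Ω).range = Nat.card G :=
    (Nat.card_congr (MonoidHom.ofInjective hinj).toEquiv).symm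
  rw [← hc]
  refine bochert _ ?_ hA
  let φ : G → (MulAction.toPermHom G Ω).range := fun g => ⟨MulAction.toPermHom G Ω g, ⟨g, rfl⟩⟩
  let ψ : Ω →ₑ[φ] Ω := { toFun := id, map_smul' := fun g x => rfl }
  exact MulAction.IsPreprimitive.of_surjective (f := ψ) Function.surjective_id

end Cfsg.Agent.S3681
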