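import Cfsg.Statements.S3683
import Mathlib.GroupTheory.GroupAction.Primitive
import Mathlib.GroupTheory.Index
import Mathlib.GroupTheory.Perm.Cycle.Type
import Mathlib.Tactic

set_option autoImplicit false
open Cfsg

namespace Cfsg.Agent.S3683

/-- Let a finite group G act faithfully and primitively on a set Ω, and suppose the stabilizer of a point a fixes a second point b ≠ a (a suborbit of length 1 other than {a}). Then the stabilizer of a is trivial and G is cyclic of prime order. -/
theorem result {G Ω : Type*} [Group G] [Finite G] [MulAction G Ω] [FaithfulSMul G Ω] [Finite Ω]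
    (hprim : MulAction.IsPreprimitive G Ω) (a b : Ω) (hab : a ≠ b) (hfix : ∀ g : G, g • a = a → g • b = b) :
    MulAction.stabilizer G a = ⊥ ∧ IsCyclic G ∧ (Nat.card G).Prime := by
  classical
  have : Nontrivial Ω := ⟨a, b, hab⟩
  have htr : MulAction.IsPretransitive G Ω := hprim.toIsPretransitive
  have hco : IsCoatom (MulAction.stabilizer G a) := MulAction.IsPreprimitive.isCoatom_stabilizer_of_isPreprimitive G a
  have hle : MulAction.stabilizer G a ≤ MulAction.stabilizer G b := fun g hg => hfix g hg
  have heq : MulAction.stabilizer G a = MulAction.stabilizer G b := by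
    apply Subgroup.eq_of_le_of_card_ge hle
    have h1 : (MulAction.stabilizer G a).index = (MulAction.stabilizer G b).index := by
      rw [MulAction.index_stabilizer_of_transitive, MulAction.index_stabilizer_of_transitive]
    have h2 := Subgroup.card_mul_index (MulAction.stabilizer G a)
    have h3 := Subgroup.card_mul_index (MulAction.stabilizer G b)
    rw [h1] at h2
    have hpos : 0 < (MulAction.stabilizer G b).index := Nat.pos_of_ne_zero Subgroup.index_ne_zero_of_finite
    exact le_of_eq (Nat.eq_of_mul_eq_mul_right hpos (h3.trans h2.symm))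
  obtain ⟨g, hg⟩ := MulAction.exists_smul_eq G a b
  have hgN : g ∈ Subgroup.normalizer (MulAction.stabilizer G a : Set G) := by
    rw [Subgroup.mem_normalizer_iff]
    intro h
    constructor
    · intro hh
      show g * h * g⁻¹ ∈ MulAction.stabilizer G a
      rw [heq, MulAction.mem_stabilizer_iff, ← hg, mul_smul, mul_smul, inv_smul_smul,
        MulAction.mem_stabilizer_iff.mp hh]
    · intro hh
      have hh' : g * h * g⁻¹ ∈ MulAction.stabilizer G a := hh
      rw [heq, MulAction.mem_stabilizer_iff, ← hg, mul_smul, mul_smul, inv_smul_smul] at hh'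
      exact smul_left_cancel g hh'
  have hgn : g ∉ MulAction.stabilizer G a := by
    intro h
    rw [MulAction.mem_stabilizer_iff, hg] at h
    exact hab h.symm
  have hlt : MulAction.stabilizer G a < Subgroup.normalizer (MulAction.stabilizer G a : Set G) := by
    refine lt_of_le_of_ne Subgroup.le_normalizer ?_
    intro h
    exact hgn (h ▸ hgN)
  have htop := hco.2 _ hlt
  have hnorm : (MulAction.stabilizer G a).Normal := Subgroup.normalizer_eq_top_iff.mp htop
  have hbot : MulAction.stabilizer G a = ⊥ := by
    rw [eq_bot_iff]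
    intro h hh
    rw [Subgroup.mem_bot]
    apply FaithfulSMul.eq_of_smul_eq_smul (α := Ω)
    intro ω
    obtain ⟨k, rfl⟩ := MulAction.exists_smul_eq G a ω
    have := hnorm.conj_mem h hh k⁻¹
    rw [inv_inv, MulAction.mem_stabilizer_iff, mul_smul, mul_smul, inv_smul_eq_iff] at this
    rw [this, one_smul]
  refine ⟨hbot, ?_⟩
  rw [hbot] at hco
  have hnt : Nontrivial G := by
    refine ⟨g, 1, ?_⟩
    rintro rfl
    rw [one_smul] at hg
    exact hab hg
  have hcard1 : 1 < Nat.card G := Finite.one_lt_card
  obtain ⟨p, hp, hpd⟩ := Nat.exists_prime_and_dvd (ne_of_gt hcard1)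
  have := Fact.mk hp
  obtain ⟨x, hx⟩ := exists_prime_orderOf_dvd_card' p hpd
  have hxne : Subgroup.zpowers x ≠ ⊥ := by
    intro h
    rw [Subgroup.zpowers_eq_bot] at h
    rw [h, orderOf_one] at hx
    exact hp.one_lt.ne hx
  have hxt : Subgroup.zpowers x = ⊤ := hco.2 _ (bot_lt_iff_ne_bot.mpr hxne)
  have hcardG : Nat.card G = p := by
    rw [← Subgroup.card_top (G := G), ← hxt, Nat.card_zpowers, hx]
  exact ⟨isCyclic_of_prime_card hcardG, hcardG ▸ hp⟩

end Cfsg.Agent.S3683
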