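import Cfsg.Statements.S3684
import Cfsg.Agent.Lib.DihedralHom
import Mathlib.GroupTheory.GroupAction.Primitive
import Mathlib.GroupTheory.Index
import Mathlib.GroupTheory.Perm.Cycle.Type
import Mathlib.Tactic

set_option autoImplicit false
open Cfsg

namespace Cfsg.Agent.S3684

/-- a subgroup of index two (as relative index) is normalised -/
lemma conj_mem_of_relIndex_two {G : Type*} [Group G] {K L : Subgroup G} (hKL : K ≤ L) (h2 : K.relIndex L = 2)
    {g k : G} (hg : g ∈ L) (hk : k ∈ K) : g * k * g⁻¹ ∈ K := by
  have hn : (K.subgroupOf L).Normal := Subgroup.normal_of_index_eq_two h2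
  have := hn.conj_mem ⟨k, hKL hk⟩ (by rw [Subgroup.mem_subgroupOf]; exact hk) ⟨g, hg⟩
  rw [Subgroup.mem_subgroupOf] at this
  exact this

lemma card_mul_relIndex {G : Type*} [Group G] {K L : Subgroup G} (h : K ≤ L) :
    Nat.card K * K.relIndex L = Nat.card L := by
  rw [← Subgroup.relIndex_bot_left, ← Subgroup.relIndex_bot_left]
  exact Subgroup.relIndex_mul_relIndex _ _ _ bot_le h

/-- Let a finite group G act faithfully and primitively on a set Ω, and suppose the stabilizer of a point a has an orbit of length 2. Then the stabilizer of a has order 2 and G is isomorphic to the dihedral group of order 2p for some prime p. -/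
theorem result {G Ω : Type*} [Group G] [Finite G] [MulAction G Ω] [FaithfulSMul G Ω] [Finite Ω]
    (hprim : MulAction.IsPreprimitive G Ω) (a b : Ω) (h2 : Nat.card (MulAction.orbit (MulAction.stabilizer G a) b) = 2) :
    Nat.card (MulAction.stabilizer G a) = 2 ∧ ∃ p : ℕ, p.Prime ∧ Nonempty (G ≃* DihedralGroup p) := by
  classical
  have htr : MulAction.IsPretransitive G Ω := hprim.toIsPretransitive
  have hab : a ≠ b := by
    rintro rfl
    have : MulAction.orbit (MulAction.stabilizer G a) a = {a} := by
      ext x
      simp only [MulAction.mem_orbit_iff, Set.mem_singleton_iff]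
      constructor
      · rintro ⟨g, rfl⟩; exact g.2
      · rintro rfl; exact ⟨1, one_smul _ _⟩
    rw [this] at h2
    simp at h2
  have : Nontrivial Ω := ⟨a, b, hab⟩
  have hcoa : IsCoatom (MulAction.stabilizer G a) := MulAction.IsPreprimitive.isCoatom_stabilizer_of_isPreprimitive G a
  set A := MulAction.stabilizer G a with hA
  set B := MulAction.stabilizer G b with hB
  have hcardAB : Nat.card A = Nat.card B := by
    have h1 : A.index = B.index := by
      rw [hA, hB, MulAction.index_stabilizer_of_transitive, MulAction.index_stabilizer_of_transitive]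
    have h2 := Subgroup.card_mul_index A
    have h3 := Subgroup.card_mul_index B
    rw [h1] at h2
    have hpos : 0 < B.index := Nat.pos_of_ne_zero Subgroup.index_ne_zero_of_finite
    exact Nat.eq_of_mul_eq_mul_right hpos (h2.trans h3.symm)
  -- relative index of A ⊓ B in A
  have hst : MulAction.stabilizer A b = (A ⊓ B).subgroupOf A := by
    ext x
    simp only [MulAction.mem_stabilizer_iff, Subgroup.mem_subgroupOf, Subgroup.mem_inf]
    constructor
    · intro h; exact ⟨x.2, h⟩
    · intro h; exact h.2
  have hrA : (A ⊓ B).relIndex A = 2 := by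
    have := MulAction.index_stabilizer A b
    rw [hst] at this
    rw [Subgroup.relIndex, this]
    exact h2
  have hrB : (A ⊓ B).relIndex B = 2 := by
    have h3 : Nat.card (A ⊓ B : Subgroup G) * (A ⊓ B).relIndex A = Nat.card A := card_mul_relIndex inf_le_left
    have h4 : Nat.card (A ⊓ B : Subgroup G) * (A ⊓ B).relIndex B = Nat.card B := card_mul_relIndex inf_le_right
    rw [← hcardAB, ← h3, hrA] at h4
    exact Nat.eq_of_mul_eq_mul_left Nat.card_pos h4
  have hBA : ¬ B ≤ A := by
    intro h
    rw [inf_eq_right.mpr h, Subgroup.relIndex_self] at hrB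
    omega
  have hsup : A ⊔ B = ⊤ := by
    apply hcoa.2
    exact left_lt_sup.mpr hBA
  have hKn : (A ⊓ B).Normal := by
    rw [← Subgroup.normalizer_eq_top_iff, eq_top_iff, ← hsup, sup_le_iff]
    have key : ∀ L : Subgroup G, (A ⊓ B) ≤ L → (A ⊓ B).relIndex L = 2 → L ≤ Subgroup.normalizer ((A ⊓ B : Subgroup G) : Set G) := by
      intro L hL hr g hg
      rw [Subgroup.mem_normalizer_iff]
      intro h
      constructor
      · intro hh
        exact conj_mem_of_relIndex_two hL hr hg hh
      · intro hh
        have := conj_mem_of_relIndex_two hL hr (L.inv_mem hg) hh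
        simpa [mul_assoc] using this
    exact ⟨key A inf_le_left hrA, key B inf_le_right hrB⟩
  have hfaith : ∀ N : Subgroup G, N.Normal → N ≤ A → N = ⊥ := by
    intro N hN hNA
    rw [eq_bot_iff]
    intro h hh
    rw [Subgroup.mem_bot]
    apply FaithfulSMul.eq_of_smul_eq_smul (α := Ω)
    intro ω
    obtain ⟨k, rfl⟩ := MulAction.exists_smul_eq G a ω
    have := hNA (hN.conj_mem h hh k⁻¹)
    rw [inv_inv, hA, MulAction.mem_stabilizer_iff, mul_smul, mul_smul, inv_smul_eq_iff] at this
    rw [this, one_smul]
  have hK1 : A ⊓ B = ⊥ := hfaith _ hKn inf_le_left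
  have hA2 : Nat.card A = 2 := by
    rw [hK1, Subgroup.relIndex_bot_left] at hrA
    exact hrA
  have hB2 : Nat.card B = 2 := hcardAB ▸ hA2
  refine ⟨hA2, ?_⟩
  -- involutions
  have hinv : ∀ L : Subgroup G, Nat.card L = 2 → ∃ s : G, s ≠ 1 ∧ s * s = 1 ∧ L = Subgroup.zpowers s := by
    intro L hL
    have : Fact (Nat.Prime 2) := ⟨Nat.prime_two⟩
    obtain ⟨x, hx⟩ := exists_prime_orderOf_dvd_card' (G := L) 2 (by rw [hL])
    refine ⟨x, ?_, ?_, ?_⟩
    · intro h
      have : x = 1 := Subtype.ext h
      rw [this, orderOf_one] at hx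
      omega
    · have := pow_orderOf_eq_one x
      rw [hx, pow_two] at this
      exact_mod_cast congrArg Subtype.val this
    · symm
      apply Subgroup.eq_of_le_of_card_ge
      · rw [Subgroup.zpowers_le]; exact x.2
      · rw [hL, Nat.card_zpowers, Subgroup.orderOf_coe, hx]
  obtain ⟨s, hs1, hss, hAs⟩ := hinv A hA2
  obtain ⟨t, ht1, htt, hBt⟩ := hinv B hB2
  have hsi : s⁻¹ = s := by rw [inv_eq_iff_mul_eq_one]; exact hss
  have hti : t⁻¹ = t := by rw [inv_eq_iff_mul_eq_one]; exact htt
  -- the rotation
  have hr1 : s * t ≠ 1 := by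
    intro h
    have : t = s := by
      have := eq_inv_of_mul_eq_one_right h
      rw [this, hsi]
    apply hBA
    rw [hAs, hBt, this]
  have hcard1 : 1 < orderOf (s * t) := by
    have := orderOf_pos (s * t)
    rcases Nat.lt_or_ge 1 (orderOf (s*t)) with h | h
    · exact h
    · exfalso; apply hr1; rw [← orderOf_eq_one_iff]; omega
  obtain ⟨p, hp, hpd⟩ := Nat.exists_prime_and_dvd (ne_of_gt hcard1)
  obtain ⟨m, hm⟩ := hpd
  have hm0 : m ≠ 0 := by rintro rfl; omega
  set ρ := (s * t) ^ m with hρ
  have hordρ : orderOf ρ = p := by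
    rw [hρ, orderOf_pow_of_dvd hm0 ⟨p, by rw [hm]; ring⟩, hm]
    exact Nat.mul_div_cancel _ (Nat.pos_of_ne_zero hm0)
  have hst' : s * (s * t) * s = (s * t)⁻¹ := by
    rw [mul_inv_rev, hsi, hti, ← mul_assoc, hss, one_mul]
  have hsρ : s * ρ * s = ρ⁻¹ := by
    have h3 := conj_pow (i := m) (a := s) (b := s * t)
    rw [hsi, hst'] at h3
    rw [hρ, ← h3, inv_pow]
  have hsmem : s ∉ Subgroup.zpowers ρ := by
    intro hmem
    -- then s is central
    have hcs : s * (s * t) = (s * t) * s := by
      have : s ∈ Subgroup.zpowers (s * t) := by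
        refine (Subgroup.zpowers_le.mpr ?_) hmem
        exact Subgroup.pow_mem _ (Subgroup.mem_zpowers _) _
      obtain ⟨k, hk⟩ := Subgroup.mem_zpowers_iff.mp this
      have h5 : Commute s (s * t) := by
        conv_lhs => rw [← hk]
        exact (Commute.refl (s*t)).zpow_left k
      exact h5
    have hcst : s * t = t * s := by
      have h6 : t = s * t * s := by
        have h6' : s * (s * t) = t := by rw [← mul_assoc, hss, one_mul]
        rw [← hcs, h6']
      calc s * t = s * t * (s * s) := by rw [hss, mul_one]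
        _ = (s * t * s) * s := by group
        _ = t * s := by rw [← h6]
    have hAn : A.Normal := by
      rw [← Subgroup.normalizer_eq_top_iff, eq_top_iff, ← hsup, sup_le_iff]
      refine ⟨Subgroup.le_normalizer, ?_⟩
      rw [hBt, Subgroup.zpowers_le, Subgroup.mem_normalizer_iff, hAs]
      intro h
      have hcomm : ∀ h : G, h ∈ Subgroup.zpowers s → t * h * t⁻¹ = h := by
        intro h hh
        obtain ⟨k, rfl⟩ := Subgroup.mem_zpowers_iff.mp hh
        have h7 : Commute t s := hcst.symm
        rw [(h7.zpow_right k).eq, mul_inv_cancel_right]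
      constructor
      · intro hh
        show t * h * t⁻¹ ∈ Subgroup.zpowers s
        rw [hcomm h hh]; exact hh
      · intro hh
        have hh' : t * h * t⁻¹ ∈ Subgroup.zpowers s := hh
        have h8 := hcomm _ hh'
        have h9 : h = t * h * t⁻¹ := by
          have h10 : t * (t * h * t⁻¹) * t⁻¹ = h := by
            rw [hti]
            calc t * (t * h * t) * t = (t * t) * h * (t * t) := by group
              _ = h := by rw [htt]; group
          rw [h10] at h8
          exact h8
        show h ∈ Subgroup.zpowers s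
        rw [h9]; exact hh'
    have := hfaith A hAn le_rfl
    rw [this] at hA2
    simp at hA2
  have hρA : ρ ∉ A := by
    intro hmem
    rw [hAs] at hmem
    have : Subgroup.zpowers ρ = Subgroup.zpowers s := by
      apply Subgroup.eq_of_le_of_card_ge
      · exact Subgroup.zpowers_le.mpr hmem
      · rw [← hAs, hA2, Nat.card_zpowers, hordρ]; exact hp.two_le
    exact hsmem (this ▸ Subgroup.mem_zpowers s)
  have htop : Subgroup.closure {ρ, s} = ⊤ := by
    apply hcoa.2
    refine lt_of_le_of_ne ?_ ?_
    · rw [hAs, Subgroup.zpowers_le]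
      exact Subgroup.subset_closure (by simp)
    · intro h
      apply hρA
      rw [h]
      exact Subgroup.subset_closure (by simp)
  exact ⟨p, hp, Cfsg.Agent.Lib.DihedralHom.nonempty_mulEquiv hp.ne_zero ρ s hordρ hss hsρ hsmem htop⟩

end Cfsg.Agent.S3684
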