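import Cfsg.Statements.S3696
import Mathlib

set_option autoImplicit false
open Cfsg

namespace Cfsg.Agent.S3696

open Finset

theorem two_pow_ge (r : ℕ) (hr : 1 ≤ r) : r ≤ 2 ^ (r - 1) := by
  obtain ⟨s, rfl⟩ := Nat.exists_eq_add_of_le' hr
  have : s < 2 ^ s := Nat.lt_two_pow_self
  simpa using this

theorem mul_pow_le {m r : ℕ} (hr : 1 ≤ r) (hm : 2 ^ r ≤ m) : m * r ^ r ≤ m ^ r := by
  obtain ⟨s, rfl⟩ := Nat.exists_eq_add_of_le' hr
  have h1 := two_pow_ge (s + 1) hr
  rw [Nat.add_sub_cancel] at h1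
  have h2 : (s + 1) ^ (s + 1) ≤ m ^ s := by
    calc (s + 1) ^ (s + 1) ≤ (2 ^ s) ^ (s + 1) := Nat.pow_le_pow_left h1 _
      _ = (2 ^ (s + 1)) ^ s := by rw [← pow_mul, ← pow_mul, mul_comm]
      _ ≤ m ^ s := Nat.pow_le_pow_left hm _
  calc m * (s + 1) ^ (s + 1) ≤ m * m ^ s := Nat.mul_le_mul_left _ h2
    _ = m ^ (s + 1) := by rw [pow_succ, mul_comm]

theorem amgm (x y r s : ℕ) (hr : 0 < r) : x ^ r * y ^ s * (r + s) ^ (r + s) ≤ (x + y) ^ (r + s) * (r ^ r * s ^ s) := by
  rcases Nat.eq_zero_or_pos s with rfl | hs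
  · simp only [pow_zero, mul_one, add_zero]
    exact Nat.mul_le_mul_right _ (Nat.pow_le_pow_left (Nat.le_add_right _ _) _)
  have hrR : (0 : ℝ) < r := by exact_mod_cast hr
  have hsR : (0 : ℝ) < s := by exact_mod_cast hs
  have hK : (0 : ℝ) < (r : ℝ) + s := by positivity
  have h1 := Real.geom_mean_le_arith_mean2_weighted (w₁ := r / (r + s)) (w₂ := s / (r + s)) (p₁ := x / r) (p₂ := y / s)
    (by positivity) (by positivity) (by positivity) (by positivity) (by field_simp)
  have h2 : (r : ℝ) / (r + s) * (x / r) + s / (r + s) * (y / s) = (x + y) / (r + s) := by field_simp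
  rw [h2] at h1
  have h3 := pow_le_pow_left₀ (by positivity) h1 (r + s)
  have h4 : (((x : ℝ) / r) ^ ((r : ℝ) / (r + s)) * ((y : ℝ) / s) ^ ((s : ℝ) / (r + s))) ^ (r + s) = ((x : ℝ) / r) ^ r * ((y : ℝ) / s) ^ s := by
    rw [mul_pow, ← Real.rpow_natCast, ← Real.rpow_natCast (((y : ℝ) / s) ^ ((s : ℝ) / (r + s))), ← Real.rpow_mul (by positivity),
      ← Real.rpow_mul (by positivity)]
    have e1 : (r : ℝ) / (r + s) * ((r + s : ℕ) : ℝ) = (r : ℕ) := by push_cast; field_simp
    have e2 : (s : ℝ) / (r + s) * ((r + s : ℕ) : ℝ) = (s : ℕ) := by push_cast; field_simp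
    rw [e1, e2, Real.rpow_natCast, Real.rpow_natCast]
  rw [h4, div_pow, div_pow, div_pow, div_mul_div_comm, div_le_div_iff₀ (by positivity) (by positivity)] at h3
  exact_mod_cast h3

theorem key {Ω : Type*} [Fintype Ω] [DecidableEq Ω] (p : ℕ) (hp : p.Prime) (A : Subgroup (Equiv.Perm Ω)) (hA : IsPGroup p A)
    (hab : ∀ a ∈ A, ∀ b ∈ A, a * b = b * a) :
    ∀ (n : ℕ) (S : Finset Ω) (_ : S.card = n) (_ : ∀ a ∈ A, ∀ s ∈ S, a s ∈ S) (B : Subgroup (Equiv.Perm Ω)) (_ : B ≤ A)
      (_ : ∀ b ∈ B, (∀ s ∈ S, b s = s) → b = 1) (k : ℕ) (_ : Nat.card {x : Equiv.Perm Ω // x ∈ B ∧ x ^ p = 1} = p ^ k),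
      Nat.card B * k ^ k ≤ S.card ^ k := by
  classical
  intro n
  induction n using Nat.strong_induction_on with
  | _ n ih =>
  intro S hS hSA B hBA hBf k hk
  let V (H : Subgroup (Equiv.Perm Ω)) (hH : H ≤ A) : Subgroup (Equiv.Perm Ω) :=
    { carrier := {x | x ∈ H ∧ x ^ p = 1}
      one_mem' := ⟨H.one_mem, one_pow _⟩
      mul_mem' := fun {a b} ha hb => ⟨H.mul_mem ha.1 hb.1, by
        rw [(show Commute a b from hab a (hH ha.1) b (hH hb.1)).mul_pow, ha.2, hb.2, one_mul]⟩
      inv_mem' := fun {a} ha => ⟨H.inv_mem ha.1, by rw [inv_pow, ha.2, inv_one]⟩ }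
  have hVk : Nat.card (V B hBA) = p ^ k := hk
  rcases Nat.eq_zero_or_pos k with rfl | hkpos
  · have h1 : B = ⊥ := by
      by_contra hB
      rw [pow_zero] at hVk
      have hBp : IsPGroup p B := hA.to_le hBA
      have hnt : Nontrivial B := (Subgroup.nontrivial_iff_ne_bot B).mpr hB
      have hfp : Fact p.Prime := ⟨hp⟩
      have hpd : p ∣ Nat.card B := by
        obtain ⟨m, hm, hm2⟩ := (IsPGroup.nontrivial_iff_card hBp).mp hnt
        rw [hm2]; exact dvd_pow_self p hm.ne'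
      obtain ⟨x, hx⟩ := exists_prime_orderOf_dvd_card' p hpd
      have h2 : (x : Equiv.Perm Ω) ∈ V B hBA := by
        refine ⟨x.2, ?_⟩
        have := pow_orderOf_eq_one x
        rw [hx] at this
        exact congrArg Subtype.val this
      rw [Subgroup.card_eq_one] at hVk
      rw [hVk, Subgroup.mem_bot] at h2
      have h3 : x = 1 := Subtype.ext h2
      rw [h3, orderOf_one] at hx
      exact hp.one_lt.ne hx
    rw [h1, Subgroup.card_bot]
    simp
  · -- choose a point moved by `V B`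
    have hV1 : V B hBA ≠ ⊥ := by
      intro h
      rw [h, Subgroup.card_bot] at hVk
      exact (Nat.one_lt_pow hkpos.ne' hp.one_lt).ne hVk
    obtain ⟨v, hv, hv1⟩ : ∃ v, v ∈ V B hBA ∧ v ≠ 1 := by
      obtain ⟨a, ha⟩ := Subgroup.ne_bot_iff_exists_ne_one.mp hV1
      exact ⟨a.1, a.2, fun h => ha (Subtype.ext h)⟩
    obtain ⟨w, hwS, hw⟩ : ∃ w ∈ S, v w ≠ w := by
      by_contra hcon
      push Not at hcon
      exact hv1 (hBf v hv.1 hcon)
    -- the orbit
    let O : Finset Ω := S.filter (fun x => ∃ a ∈ A, a w = x)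
    have hOS : O ⊆ S := Finset.filter_subset _ _
    have hwO : w ∈ O := Finset.mem_filter.mpr ⟨hwS, 1, A.one_mem, rfl⟩
    let C : Subgroup (Equiv.Perm Ω) := B ⊓ MulAction.stabilizer (Equiv.Perm Ω) w
    have hCB : C ≤ B := inf_le_left
    have hCfix : ∀ c ∈ C, ∀ x ∈ O, c x = x := by
      intro c hc x hx
      obtain ⟨_, a, ha, rfl⟩ := Finset.mem_filter.mp hx
      have h1 : c w = w := hc.2
      have h2 := congrArg (fun f : Equiv.Perm Ω => f w) (hab c (hBA hc.1) a ha)
      simp only [Equiv.Perm.mul_apply] at h2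
      rw [h2, h1]
    have horb : ∀ H : Subgroup (Equiv.Perm Ω), H ≤ A → Nat.card H = Nat.card (MulAction.orbit H w) * Nat.card (H ⊓ MulAction.stabilizer (Equiv.Perm Ω) w : Subgroup (Equiv.Perm Ω)) ∧
        Nat.card (MulAction.orbit H w) ≤ O.card := by
      intro H hH
      constructor
      · have h1 := MulAction.card_orbit_mul_card_stabilizer_eq_card_group H w
        rw [← Nat.card_eq_fintype_card, ← Nat.card_eq_fintype_card, ← Nat.card_eq_fintype_card] at h1
        rw [← h1]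
        congr 1
        have e : (MulAction.stabilizer H w).map H.subtype = H ⊓ MulAction.stabilizer (Equiv.Perm Ω) w := by
          ext x
          constructor
          · rintro ⟨y, hy, rfl⟩
            exact ⟨y.2, hy⟩
          · rintro ⟨hx1, hx2⟩
            exact ⟨⟨x, hx1⟩, hx2, rfl⟩
        rw [← e]
        exact (Subgroup.card_map_of_injective H.subtype_injective).symm
      · have h1 : MulAction.orbit H w ⊆ (O : Set Ω) := by
          rintro _ ⟨h, rfl⟩
          exact Finset.mem_coe.mpr (Finset.mem_filter.mpr ⟨hSA h (hH h.2) w hwS, h, hH h.2, rfl⟩)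
        have h2 := Nat.card_mono (Finset.finite_toSet O) h1
        simpa using h2
    obtain ⟨hB1, hB2⟩ := horb B hBA
    obtain ⟨hv1', hv2'⟩ := horb (V B hBA) (fun x hx => hBA hx.1)
    have hVC : (V B hBA ⊓ MulAction.stabilizer (Equiv.Perm Ω) w : Subgroup (Equiv.Perm Ω)) = V C (hCB.trans hBA) := by
      ext x
      constructor
      · rintro ⟨⟨h1, h2⟩, h3⟩; exact ⟨⟨h1, h3⟩, h2⟩
      · rintro ⟨⟨h1, h3⟩, h2⟩; exact ⟨⟨h1, h2⟩, h3⟩
    rw [hVC, hVk] at hv1'
    obtain ⟨s, hs, hs2⟩ := (Nat.dvd_prime_pow hp).mp (Dvd.intro_left _ hv1'.symm)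
    obtain ⟨r, hr⟩ := Nat.exists_eq_add_of_le hs
    have horbr : Nat.card (MulAction.orbit (V B hBA) w) = p ^ r := by
      rw [hs2, hr, pow_add, mul_comm] at hv1'
      exact (Nat.eq_of_mul_eq_mul_right (pow_pos hp.pos _) hv1').symm
    have hrpos : 1 ≤ r := by
      rcases Nat.eq_zero_or_pos r with h0 | h0
      · exfalso
        rw [h0, pow_zero] at horbr
        have h1 : (⟨v w, ⟨⟨v, hv⟩, rfl⟩⟩ : MulAction.orbit (V B hBA) w) = ⟨w, MulAction.mem_orbit_self w⟩ := by
          have : Subsingleton (MulAction.orbit (V B hBA) w) := (Nat.card_eq_one_iff_unique.mp horbr).1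
          exact Subsingleton.elim _ _
        exact hw (congrArg Subtype.val h1)
      · exact h0
    have hO2 : 2 ^ r ≤ O.card := (Nat.pow_le_pow_left hp.two_le r).trans (horbr ▸ hv2')
    have hT : (S \ O).card < n := by
      rw [← hS]
      apply Finset.card_lt_card
      rw [Finset.ssubset_iff_of_subset Finset.sdiff_subset]
      exact ⟨w, hwS, fun h => (Finset.mem_sdiff.mp h).2 hwO⟩
    have hTA : ∀ a ∈ A, ∀ x ∈ S \ O, a x ∈ S \ O := by
      intro a ha x hx
      rw [Finset.mem_sdiff] at hx ⊢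
      refine ⟨hSA a ha x hx.1, fun h => hx.2 ?_⟩
      obtain ⟨_, b, hb, hbx⟩ := Finset.mem_filter.mp h
      refine Finset.mem_filter.mpr ⟨hx.1, a⁻¹ * b, A.mul_mem (A.inv_mem ha) hb, ?_⟩
      rw [Equiv.Perm.mul_apply, hbx]
      exact Equiv.symm_apply_apply a x
    have hCf : ∀ b ∈ C, (∀ x ∈ S \ O, b x = x) → b = 1 := by
      intro b hb h
      apply hBf b hb.1
      intro x hx
      by_cases hxO : x ∈ O
      · exact hCfix b hb x hxO
      · exact h x (Finset.mem_sdiff.mpr ⟨hx, hxO⟩)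
    have hI := ih _ hT (S \ O) rfl hTA C (hCB.trans hBA) hCf s hs2
    have hcard : (S \ O).card + O.card = S.card := Finset.card_sdiff_add_card_eq_card hOS
    have hBC : Nat.card B ≤ O.card * Nat.card C := by
      rw [hB1]; exact Nat.mul_le_mul_right _ hB2
    -- arithmetic
    have hk2 : k = r + s := by omega
    have hpos : 0 < r ^ r * s ^ s := by
      apply Nat.mul_pos (pow_pos hrpos _)
      rcases Nat.eq_zero_or_pos s with h | h
      · rw [h]; simp
      · exact pow_pos h _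
    apply Nat.le_of_mul_le_mul_right _ hpos
    calc Nat.card B * k ^ k * (r ^ r * s ^ s) ≤ O.card * Nat.card C * k ^ k * (r ^ r * s ^ s) := by gcongr
      _ = (O.card * r ^ r) * (Nat.card C * s ^ s) * k ^ k := by ring
      _ ≤ (O.card ^ r) * ((S \ O).card ^ s) * k ^ k := by
        gcongr
        exact mul_pow_le hrpos hO2
      _ ≤ (O.card + (S \ O).card) ^ (r + s) * (r ^ r * s ^ s) := by rw [hk2]; exact amgm _ _ _ _ hrpos
      _ = S.card ^ k * (r ^ r * s ^ s) := by rw [add_comm O.card, hcard, ← hk2]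


/-- Let p be a prime, Ω a finite set with n ≥ p elements, and A an abelian p-subgroup of the symmetric group on Ω whose elements of order dividing p number p^k (so k is the rank of A). Then |A| · k^k ≤ n^k, that is, |A| ≤ (n/k)^k. -/
theorem result {Ω : Type*} [Fintype Ω] [DecidableEq Ω]
    (p : ℕ) (hp : p.Prime) (hn : p ≤ Fintype.card Ω) (A : Subgroup (Equiv.Perm Ω)) (hA : IsPGroup p A) (hab : IsMulCommutative A)
    (k : ℕ) (hk : Nat.card {x : A // x ^ p = 1} = p ^ k) :
    Nat.card A * k ^ k ≤ Fintype.card Ω ^ k := by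
  classical
  have h1 := key p hp A hA (fun a ha b hb => by
    have := hab.is_comm.comm (⟨a, ha⟩ : A) ⟨b, hb⟩
    exact congrArg Subtype.val this) _ (Finset.univ : Finset Ω) rfl (fun _ _ _ _ => Finset.mem_univ _) A le_rfl
    (fun b _ h => Equiv.ext fun x => h x (Finset.mem_univ _)) k (by
      rw [← hk]
      refine Nat.card_congr ⟨fun x => ⟨⟨x.1, x.2.1⟩, Subtype.ext x.2.2⟩, fun x => ⟨x.1.1, x.1.2, congrArg Subtype.val x.2⟩, fun _ => rfl, fun _ => rfl⟩)
  rwa [Finset.card_univ] at h1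


end Cfsg.Agent.S3696
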