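import Cfsg.Statements.S3703
import Mathlib
import Cfsg.Agent.Lib.CoprimeAction

set_option autoImplicit false
open Cfsg

namespace Cfsg.Agent.S3703

open Subgroup Pointwise Cfsg.Agent.Lib.SubgroupTools Cfsg.Agent.Lib.CoprimeAction

/-- In a finite p-group the derived subgroup consists of non-generators. -/
theorem eq_top_of_sup_commutator {P : Type*} [Group P] [Finite P] {p : ℕ} [Fact p.Prime]
    (hP : IsPGroup p P) (C : Subgroup P) (h : C ⊔ commutator P = ⊤) : C = ⊤ := by
  by_contra hne
  obtain h0 | ⟨M, hM, hCM⟩ := eq_top_or_exists_le_coatom C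
  · exact hne h0
  have hnil : Group.IsNilpotent P := hP.isNilpotent
  have hMn : M.Normal := NormalizerCondition.normal_of_coatom M Group.normalizerCondition_of_isNilpotent hM
  have hq : IsPGroup p (P ⧸ M) := hP.to_quotient M
  have hnt : Nontrivial (P ⧸ M) := by
    rw [QuotientGroup.nontrivial_iff]
    exact hM.1
  have hZ := hq.bot_lt_center
  have hlt : M < (center (P ⧸ M)).comap (QuotientGroup.mk' M) := by
    refine lt_of_le_of_ne ?_ ?_
    · intro x hx
      rw [mem_comap, QuotientGroup.mk'_apply, (QuotientGroup.eq_one_iff x).2 hx]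
      exact one_mem _
    · intro heq
      apply hZ.ne'
      rw [Subgroup.eq_bot_iff_forall]
      intro z hz
      obtain ⟨x, rfl⟩ := QuotientGroup.mk'_surjective M z
      have hx : x ∈ (center (P ⧸ M)).comap (QuotientGroup.mk' M) := hz
      rw [← heq] at hx
      exact (QuotientGroup.eq_one_iff x).2 hx
  have htop := hM.2 _ hlt
  have hZtop : center (P ⧸ M) = ⊤ := by
    have h1 : (center (P ⧸ M)) = ((center (P ⧸ M)).comap (QuotientGroup.mk' M)).map (QuotientGroup.mk' M) :=
      (map_comap_eq_self_of_surjective (QuotientGroup.mk'_surjective M) _).symm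
    rw [h1, htop]
    exact Subgroup.map_top_of_surjective _ (QuotientGroup.mk'_surjective M)
  have hcomm : commutator P ≤ M := by
    rw [← Subgroup.Normal.quotient_commutative_iff_commutator_le]
    refine ⟨⟨fun a b => ?_⟩⟩
    have : b ∈ center (P ⧸ M) := by rw [hZtop]; trivial
    exact (mem_center_iff.mp this a)
  apply hM.1
  rw [eq_top_iff, ← h]
  exact sup_le hCM hcomm

/-- Subgroup form. -/
theorem eq_of_sup_commutator {G : Type*} [Group G] [Finite G] {p : ℕ} [Fact p.Prime]
    {P : Subgroup G} (hP : IsPGroup p P) {C : Subgroup G} (hC : C ≤ P) (h : P ≤ C ⊔ ⁅P, P⁆) : P ≤ C := by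
  have h1 : (C.subgroupOf P) ⊔ commutator P = ⊤ := by
    have h2 : ((C.subgroupOf P) ⊔ commutator P).map P.subtype = P := by
      rw [Subgroup.map_sup, subgroupOf_map_subtype, inf_eq_left.mpr hC, commutator_def, map_commutator,
        ← MonoidHom.range_eq_map, range_subtype]
      exact le_antisymm (sup_le hC (commutator_le.mpr fun a ha b hb => by
        rw [commutatorElement_def]
        exact P.mul_mem (P.mul_mem (P.mul_mem ha hb) (P.inv_mem ha)) (P.inv_mem hb))) h
    have h3 : ((C.subgroupOf P) ⊔ commutator P).map P.subtype = (⊤ : Subgroup P).map P.subtype := by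
      rw [h2, ← MonoidHom.range_eq_map, range_subtype]
    exact map_injective P.subtype_injective h3
  have h4 := eq_top_of_sup_commutator hP _ h1
  exact subgroupOf_eq_top.mp h4

/-- coprime action on a p-group, trivial modulo the derived subgroup, is trivial. -/
theorem centralizes_of_commutator_le {G : Type*} [Group G] [Finite G] {p : ℕ} [Fact p.Prime]
    {P S : Subgroup G} (hP : IsPGroup p P) (hSP : S ≤ normalizer (P : Set G))
    (hcop : (Nat.card S).Coprime (Nat.card P))
    (h : ∀ s ∈ S, ∀ v ∈ P, s * v * s⁻¹ * v⁻¹ ∈ ⁅P, P⁆) : S ≤ centralizer (P : Set G) := by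
  have hle : ⁅P, P⁆ ≤ P := commutator_le.mpr fun a ha b hb => by
        rw [commutatorElement_def]
        exact P.mul_mem (P.mul_mem (P.mul_mem ha hb) (P.inv_mem ha)) (P.inv_mem hb)
  have hSP' : S ≤ normalizer ((⁅P, P⁆ : Subgroup G) : Set G) := by
    rw [le_normalizer_iff]
    intro s hs x hx
    have h1 : (⁅P, P⁆ : Subgroup G) ≤ (⁅P, P⁆ : Subgroup G).comap (MulAut.conj s).toMonoidHom := by
      rw [commutator_le]
      intro a ha b hb
      rw [mem_comap, map_commutatorElement]
      refine commutator_mem_commutator ?_ ?_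
      · exact (hSP hs a).1 ha
      · exact (hSP hs b).1 hb
    exact h1 hx
  have hcop' : (Nat.card S).Coprime (Nat.card (⁅P, P⁆ : Subgroup G)) :=
    Nat.Coprime.coprime_dvd_right (card_dvd_of_le hle) hcop
  have hsol : Group.IsSolvable (⁅P, P⁆ : Subgroup G) := by
    have : Group.IsNilpotent (⁅P, P⁆ : Subgroup G) := (hP.to_le hle).isNilpotent
    infer_instance
  have h2 : P ≤ (P ⊓ centralizer (S : Set G)) ⊔ ⁅P, P⁆ := by
    intro v hv
    obtain ⟨c, hc, hc'⟩ := exists_mem_centralizer_of_quotient hSP' hcop' (Or.inr hsol) v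
      (normalizer_commutator_ge_left P P hv) (fun a ha => h a ha v hv)
    have hcP : c ∈ P := by
      have : c = v * (v⁻¹ * c) := by group
      rw [this]
      exact P.mul_mem hv (hle hc')
    have : v = c * (v⁻¹ * c)⁻¹ := by group
    rw [this]
    exact mul_mem (mem_sup_left ⟨hcP, hc⟩) (mem_sup_right (inv_mem hc'))
  have h3 := eq_of_sup_commutator hP inf_le_left h2
  intro s hs
  rw [mem_centralizer_iff]
  intro v hv
  exact ((mem_centralizer_iff.mp (h3 hv).2) s hs).symm

/-- The action on the abelianization. -/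
noncomputable def rho {G : Type*} [Group G] (P : Subgroup G) :
    ↥(normalizer (P : Set G)) →* AddMonoid.End (Additive (Abelianization P)) where
  toFun x := MonoidHom.toAdditive (Abelianization.map (P.normalizerMonoidHom x).toMonoidHom)
  map_one' := by
    ext a
    obtain ⟨v, hv⟩ := QuotientGroup.mk_surjective a.toMul
    have : a = Additive.ofMul (Abelianization.of v) := by rw [← ofMul_toMul a, ← hv]; rfl
    rw [this]
    change Abelianization.of (P.normalizerMonoidHom 1 v) = Abelianization.of v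
    rw [map_one]
    rfl
  map_mul' x y := by
    ext a
    obtain ⟨v, hv⟩ := QuotientGroup.mk_surjective a.toMul
    have : a = Additive.ofMul (Abelianization.of v) := by rw [← ofMul_toMul a, ← hv]; rfl
    rw [this]
    change Abelianization.of (P.normalizerMonoidHom (x * y) v) =
      Abelianization.of (P.normalizerMonoidHom x (P.normalizerMonoidHom y v))
    rw [map_mul]
    rfl

theorem rho_of {G : Type*} [Group G] (P : Subgroup G) (x : ↥(normalizer (P : Set G))) (v : P) :
    rho P x (Additive.ofMul (Abelianization.of v)) =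
      Additive.ofMul (Abelianization.of (P.normalizerMonoidHom x v)) := rfl

theorem exists_of {G : Type*} [Group G] (P : Subgroup G) (a : Additive (Abelianization P)) :
    ∃ v : P, a = Additive.ofMul (Abelianization.of v) := by
  obtain ⟨v, hv⟩ := QuotientGroup.mk_surjective a.toMul
  exact ⟨v, by rw [← ofMul_toMul a, ← hv]; rfl⟩

theorem pow_formula {G : Type*} [Group G] (P : Subgroup G) (k : ↥(normalizer (P : Set G))) (v : P) (n : ℕ) :
    ∃ w : P, ((v : G) * (k : G)) ^ n = (w : G) * (k : G) ^ n ∧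
      Additive.ofMul (Abelianization.of w) = (∑ i ∈ Finset.range n, (rho P k) ^ i) (Additive.ofMul (Abelianization.of v)) := by
  induction n with
  | zero => exact ⟨1, by simp, by simp⟩
  | succ n ih =>
    obtain ⟨w, hw1, hw2⟩ := ih
    refine ⟨v * P.normalizerMonoidHom k w, ?_, ?_⟩
    · rw [pow_succ', hw1, pow_succ']
      simp [mul_assoc]
    · have hs : (∑ i ∈ Finset.range n, (rho P k) ^ (i + 1)) = rho P k * ∑ i ∈ Finset.range n, (rho P k) ^ i := by
        rw [Finset.mul_sum]
        simp only [pow_succ']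
      rw [map_mul, ofMul_mul, ← rho_of, hw2, Finset.sum_range_succ', hs, pow_zero, add_comm]
      rfl

/-- The norm argument. -/
theorem norm_trick {G : Type*} [Group G] [Finite G] {p : ℕ} [Fact p.Prime]
    {P S : Subgroup G} (hSP : S ≤ normalizer (P : Set G))
    (hcop : (Nat.card S).Coprime (Nat.card P)) (k : G) (hk : k ∈ normalizer (P : Set G))
    (hkS : k ∈ normalizer (S : Set G)) (m : ℕ) (hm : 0 < m) (hpow : ∀ v ∈ P, (v * k) ^ m = 1)
    (hfpf : ∀ i, 0 < i → i < m → ∀ s ∈ S, k ^ i * s = s * k ^ i → s = 1) :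
    ∀ s ∈ S, ∀ v ∈ P, s * v * s⁻¹ * v⁻¹ ∈ ⁅P, P⁆ := by
  classical
  let _ : Fintype S := Fintype.ofFinite S
  let K : ↥(normalizer (P : Set G)) := ⟨k, hk⟩
  let e : S → ↥(normalizer (P : Set G)) := fun s => ⟨s, hSP s.2⟩
  have hT : (∑ i ∈ Finset.range m, (rho P K) ^ i) = 0 := by
    ext a
    obtain ⟨v, rfl⟩ := exists_of P a
    obtain ⟨w, hw1, hw2⟩ := pow_formula P K v m
    rw [← hw2]
    have h1 : k ^ m = 1 := by simpa using hpow 1 P.one_mem
    have h2 : (w : G) = 1 := by
      have := hpow v v.2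
      change ((v:G) * (K : G)) ^ m = 1 at this
      rw [hw1] at this
      change (w : G) * k ^ m = 1 at this
      rwa [h1, mul_one] at this
    have h3 : w = 1 := Subtype.ext h2
    rw [h3]
    simp
  have hkn : ∀ i, k ^ i ∈ normalizer (S : Set G) := fun i => pow_mem hkS i
  -- the bijection
  have hreindex : ∀ i, 0 < i → i < m → (∑ s : S, rho P ((e s)⁻¹ * K ^ i * e s)) = rho P (K ^ i) * ∑ s : S, rho P (e s) := by
    intro i hi him
    let b : S → S := fun s => ⟨(k ^ i)⁻¹ * (s : G)⁻¹ * k ^ i * s, by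
      refine S.mul_mem ?_ s.2
      have := ((inv_mem (hkn i)) (s:G)⁻¹).1 (S.inv_mem s.2)
      simpa using this⟩
    have hb : Function.Injective b := by
      intro s t hst
      have h1 : (k ^ i)⁻¹ * (s : G)⁻¹ * k ^ i * s = (k ^ i)⁻¹ * (t : G)⁻¹ * k ^ i * t := congrArg Subtype.val hst
      have h2 : k ^ i * ((s:G) * (t:G)⁻¹) = ((s:G) * (t:G)⁻¹) * k ^ i := by
        have h3 : (s : G)⁻¹ * k ^ i * s = (t : G)⁻¹ * k ^ i * t := by
          have := congrArg (fun z => k ^ i * z) h1
          simpa [mul_assoc] using this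
        have h4 := congrArg (fun z => (s:G) * z * (t:G)⁻¹) h3
        simpa [mul_assoc] using h4
      have h5 := hfpf i hi him _ (S.mul_mem s.2 (S.inv_mem t.2)) h2
      exact Subtype.ext (mul_inv_eq_one.mp h5)
    have hbb : Function.Bijective b := Finite.injective_iff_bijective.mp hb
    rw [Finset.mul_sum]
    rw [← Equiv.sum_comp (Equiv.ofBijective b hbb) (fun s => rho P (K ^ i) * rho P (e s))]
    refine Finset.sum_congr rfl (fun s _ => ?_)
    rw [← map_mul]
    congr 1
    ext
    simp [e, b, K, mul_assoc]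
  have hsum : (Nat.card S) • (1 : AddMonoid.End (Additive (Abelianization P))) +
      (∑ i ∈ Finset.range (m - 1), rho P (K ^ (i + 1))) * ∑ s : S, rho P (e s) = 0 := by
    have h0 : ∑ s : S, rho P (e s)⁻¹ * (∑ i ∈ Finset.range m, (rho P K) ^ i) * rho P (e s) = 0 := by
      rw [hT]; simp
    have h1 : ∑ s : S, rho P (e s)⁻¹ * (∑ i ∈ Finset.range m, (rho P K) ^ i) * rho P (e s)
        = ∑ i ∈ Finset.range m, ∑ s : S, rho P ((e s)⁻¹ * K ^ i * e s) := by
      rw [Finset.sum_comm]
      refine Finset.sum_congr rfl (fun s _ => ?_)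
      rw [Finset.mul_sum, Finset.sum_mul]
      refine Finset.sum_congr rfl (fun i _ => ?_)
      rw [map_mul, map_mul, map_pow]
    rw [h1] at h0
    obtain ⟨m', rfl⟩ : ∃ m', m = m' + 1 := ⟨m - 1, by omega⟩
    rw [Finset.sum_range_succ'] at h0
    rw [← h0, Nat.add_sub_cancel, add_comm, Finset.sum_mul]
    congr 1
    · refine Finset.sum_congr rfl (fun i hi => ?_)
      rw [Finset.mem_range] at hi
      exact (hreindex (i+1) (by omega) (by omega)).symm
    · rw [Nat.card_eq_fintype_card]
      simp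
  intro s hs v hv
  set t : S := ⟨s, hs⟩ with ht
  have hEt : (∑ s : S, rho P (e s)) * (rho P (e t) - 1) = 0 := by
    rw [mul_sub, mul_one, Finset.sum_mul, sub_eq_zero]
    rw [← Equiv.sum_comp (Equiv.mulRight t) (fun s : S => rho P (e s))]
    refine Finset.sum_congr rfl (fun x _ => ?_)
    rw [← map_mul]
    rfl
  have h1 : (Nat.card S) • (rho P (e t) - 1) = 0 := by
    have := congrArg (fun z => z * (rho P (e t) - 1)) hsum
    simp only [add_mul, mul_assoc, hEt, mul_zero, add_zero, zero_mul] at this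
    simpa using this
  let V : P := ⟨v, hv⟩
  have h2 : (Nat.card S) • ((rho P (e t)) (Additive.ofMul (Abelianization.of V)) - (Additive.ofMul (Abelianization.of V))) = 0 := by
    exact congrArg (fun f : AddMonoid.End (Additive (Abelianization P)) => f (Additive.ofMul (Abelianization.of V))) h1
  rw [rho_of, ← ofMul_div, ← map_div, ← ofMul_pow, ← map_pow] at h2
  set W : P := P.normalizerMonoidHom (e t) V / V with hW
  have h3 : Abelianization.of W ^ (Nat.card S) = 1 := by
    rw [← map_pow]
    exact h2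
  have h4 : Abelianization.of W ^ (Nat.card P) = 1 := by
    rw [← map_pow, pow_card_eq_one', map_one]
  have h5 : Abelianization.of W = 1 := by
    rw [← orderOf_eq_one_iff]
    exact Nat.eq_one_of_dvd_coprimes hcop (orderOf_dvd_of_pow_eq_one h3) (orderOf_dvd_of_pow_eq_one h4)
  have h6 : W ∈ commutator P := by
    rw [← Abelianization.ker_of]
    exact h5
  have h7 : (W : G) ∈ (commutator P).map P.subtype := ⟨W, h6, rfl⟩
  rw [_root_.commutator_def, map_commutator, ← MonoidHom.range_eq_map, range_subtype] at h7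
  have h8 : (W : G) = s * v * s⁻¹ * v⁻¹ := by
    simp [hW, e, V, ht, div_eq_mul_inv]
  rwa [h8] at h7

/-- Let N be a normal subgroup of the finite group G such that G/N is a Frobenius group with kernel F and cyclic complement H, where the order of F is coprime to that of N and F is not contained in the image of C_G(N) in G/N. Then G has an element of order p·#H for some prime p dividing the order of N. (A standard tool in recognising groups by their element orders.) -/
theorem result {G : Type*} [Group G] [Finite G] (N : Subgroup G) [N.Normal]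
    (Fb Hb : Subgroup (G ⧸ N)) [Fb.Normal] (hHb : Cfsg.IsFrobeniusComplement Hb) (hker : Cfsg.frobeniusKernel Hb = (Fb : Set (G ⧸ N)))
    (hcyc : IsCyclic Hb) (hcop : (Nat.card Fb).Coprime (Nat.card N))
    (hnot : ¬ Fb ≤ (Subgroup.centralizer (N : Set G)).map (QuotientGroup.mk' N)) :
    ∃ p : ℕ, p.Prime ∧ p ∣ Nat.card N ∧ ∃ g : G, orderOf g = p * Nat.card Hb := by
  by_contra hcon
  push Not at hcon
  set m := Nat.card Hb with hmdef
  have hm : 0 < m := Nat.card_pos
  have hm1 : m ≠ 1 := fun h => hHb.1 (Subgroup.card_eq_one.mp h)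
  -- every lift of an element of order m has order m
  have claim0 : ∀ x : G, orderOf (QuotientGroup.mk' N x) = m → x ^ m = 1 := by
    intro x hx
    by_contra hne
    have hxN : x ^ m ∈ N := by
      rw [← QuotientGroup.eq_one_iff]
      change QuotientGroup.mk' N (x ^ m) = 1
      rw [map_pow, ← hx, pow_orderOf_eq_one]
    have hdvd : m ∣ orderOf x := hx ▸ orderOf_map_dvd (QuotientGroup.mk' N) x
    have hord : orderOf (x ^ m) = orderOf x / m := orderOf_pow_of_dvd hm.ne' hdvd
    obtain ⟨r, hr, hrd⟩ := Nat.exists_prime_and_dvd (n := orderOf (x ^ m)) (by rwa [ne_eq, orderOf_eq_one_iff])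
    have hrN : r ∣ Nat.card N := hrd.trans (Subgroup.orderOf_dvd_natCard N hxN)
    obtain ⟨c, hc⟩ := hrd
    have hox : orderOf x = m * (r * c) := by
      rw [← hc, hord, Nat.mul_div_cancel' hdvd]
    have hcpos : c ≠ 0 := by
      rintro rfl
      have := orderOf_pos x
      rw [hox] at this
      simp at this
    refine hcon r hr hrN (x ^ c) ?_
    rw [orderOf_pow_of_dvd hcpos ⟨m * r, by rw [hox]; ring⟩, hox]
    have : m * (r * c) = (r * m) * c := by ring
    rw [this, Nat.mul_div_cancel _ (Nat.pos_of_ne_zero hcpos)]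
  have hHF : ∀ x ∈ Hb, x ∈ Fb → x = 1 := by
    intro x hx hxF
    have h1 : x ∈ Cfsg.frobeniusKernel Hb := by rw [hker]; exact hxF
    rcases h1 with h1 | h1
    · exact h1
    · exfalso
      apply h1 1
      rw [map_one, one_smul]; exact hx
  have hout : ∀ x : G ⧸ N, x ∉ Fb → ∃ g : G ⧸ N, x ∈ MulAut.conj g • Hb := by
    intro x hx
    by_contra hne
    push Not at hne
    apply hx
    have h1 : x ∈ Cfsg.frobeniusKernel Hb := Or.inr hne
    rw [hker] at h1
    exact h1
  obtain ⟨h0, hh0⟩ := hcyc.exists_generator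
  have hord0 : orderOf h0 = m := orderOf_eq_card_of_forall_mem_zpowers hh0
  set f := QuotientGroup.mk' N with hf
  have hfs : Function.Surjective f := QuotientGroup.mk'_surjective N
  set M : Subgroup G := Fb.comap f with hM
  have hNM : N ≤ M := by
    intro x hx
    rw [hM, mem_comap]
    have : f x = 1 := (QuotientGroup.eq_one_iff x).2 hx
    rw [this]; exact one_mem _
  have hMf : M.map f = Fb := map_comap_eq_self_of_surjective hfs Fb
  have hkerf : f.ker = N := QuotientGroup.ker_mk' N
  -- Step A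
  have stepA : ∃ (q : ℕ) (S : Subgroup G), q.Prime ∧ q ∣ Nat.card Fb ∧ S ≤ M ∧ IsPGroup q S ∧ ¬ q ∣ S.relIndex M ∧
      ¬ S ≤ centralizer (N : Set G) := by
    by_contra hA
    push Not at hA
    apply hnot
    rw [← relIndex_eq_one]
    by_contra hne
    obtain ⟨q, hq, hqd⟩ := Nat.exists_prime_and_dvd hne
    have hqF : q ∣ Nat.card Fb := hqd.trans (relIndex_dvd_card _ _)
    have : Fact q.Prime := ⟨hq⟩
    obtain ⟨S0⟩ : Nonempty (Sylow q M) := inferInstance
    obtain ⟨s1, s2, s3⟩ := sylow_map_subtype_props S0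
    set S := (S0 : Subgroup M).map M.subtype
    have s4 := hA q S hq hqF s1 s2 s3
    apply s3
    refine hqd.trans ?_
    have e1 : (map f (centralizer (N : Set G))).relIndex Fb ∣ (S.map f).relIndex Fb :=
      relIndex_dvd_of_le_left _ (map_mono s4)
    refine e1.trans ?_
    rw [← hMf, relIndex_map_map, hkerf, sup_eq_left.mpr hNM]
    exact relIndex_dvd_of_le_left _ le_sup_left
  obtain ⟨q, S, hq, hqF, hSM, hSq, hSi, hSN⟩ := stepA
  have : Fact q.Prime := ⟨hq⟩
  have hqN : ¬ q ∣ Nat.card N := by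
    intro h
    exact hq.one_lt.ne' (Nat.eq_one_of_dvd_coprimes hcop hqF h)
  obtain ⟨a, ha⟩ := IsPGroup.iff_card.mp hSq
  have hcopSN : (Nat.card S).Coprime (Nat.card N) := by
    rw [ha]
    exact Nat.Coprime.pow_left _ ((Nat.Prime.coprime_iff_not_dvd hq).2 hqN)
  have hSsol : Group.IsSolvable S := by
    have : Group.IsNilpotent S := hSq.isNilpotent
    infer_instance
  have hSnN : S ≤ normalizer (N : Set G) := le_normalizer_of_normal
  -- Step B
  have stepB : ∃ (p : ℕ) (P : Subgroup G), p.Prime ∧ P ≤ N ∧ IsPGroup p P ∧ ¬ p ∣ P.relIndex N ∧ S ≤ normalizer (P : Set G) ∧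
      ¬ S ≤ centralizer (P : Set G) := by
    by_contra hB
    push Not at hB
    apply hSN
    rw [le_centralizer_iff, ← relIndex_eq_one]
    by_contra hne
    obtain ⟨p, hp, hpd⟩ := Nat.exists_prime_and_dvd hne
    have : Fact p.Prime := ⟨hp⟩
    obtain ⟨P, p1, p2, p3, p4⟩ := exists_invariant_sylow hSnN hcopSN (Or.inl hSsol) p
    have p5 := hB p P hp p1 p2 p3 p4
    apply p3
    refine hpd.trans ?_
    exact relIndex_dvd_of_le_left _ (le_centralizer_iff.mp p5)
  obtain ⟨p, P, hp, hPN, hPp, hPi, hSP, hSPn⟩ := stepB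
  have : Fact p.Prime := ⟨hp⟩
  have hcopSP : (Nat.card S).Coprime (Nat.card P) := Nat.Coprime.coprime_dvd_right (card_dvd_of_le hPN) hcopSN
  -- Step C
  obtain ⟨g0, hg0⟩ := hfs (h0 : G ⧸ N)
  have hMn : M.Normal := by rw [hM]; infer_instance
  have relIndex_conj : ∀ (g : G) (A B : Subgroup G), (MulAut.conj g • A).relIndex (MulAut.conj g • B) = A.relIndex B := by
    intro g A B
    rw [conj_smul_eq_map, conj_smul_eq_map]
    exact relIndex_map_map_of_injective _ _ (MulAut.conj g).injective
  obtain ⟨n, hn, hn'⟩ := sylow_conj_rel (M := N) (Q := MulAut.conj g0 • P) (R := P) (p := p)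
    (by have := conj_smul_mono g0 hPN; rwa [conj_smul_normal g0 N] at this) hPN
    (hPp.map (MulAut.conj g0).toMonoidHom) hPp
    (by have := relIndex_conj g0 P N; rw [conj_smul_normal g0 N] at this; rwa [this]) hPi
  have hg1 : n * g0 ∈ normalizer (P : Set G) := by
    rw [mem_normalizer_iff_conj_smul, conj_smul_mul]; exact hn'
  set M1 := M ⊓ normalizer (P : Set G) with hM1
  have hSM1 : S ≤ M1 := le_inf hSM hSP
  have hSi1 : ¬ q ∣ S.relIndex M1 := by
    intro h
    apply hSi
    rw [← relIndex_mul_relIndex S M1 M hSM1 inf_le_left]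
    exact h.mul_right _
  have hM1c : MulAut.conj (n * g0) • M1 = M1 := by
    rw [hM1, conj_smul_inf, conj_smul_normal _ M, conj_smul_self_of_mem hg1]
  obtain ⟨m1, hm1', hm1''⟩ := sylow_conj_rel (M := M1) (Q := MulAut.conj (n * g0) • S) (R := S) (p := q)
    (by have := conj_smul_mono (n * g0) hSM1; rwa [hM1c] at this) hSM1
    (hSq.map (MulAut.conj (n * g0)).toMonoidHom) hSq
    (by have := relIndex_conj (n * g0) S M1; rw [hM1c] at this; rwa [this]) hSi1
  set k := m1 * (n * g0) with hk
  have hkP : k ∈ normalizer (P : Set G) := mul_mem hm1'.2 hg1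
  have hkS : k ∈ normalizer (S : Set G) := by
    rw [mem_normalizer_iff_conj_smul, hk, conj_smul_mul]; exact hm1''
  have hfk : f k = f m1 * h0 := by
    have : f n = 1 := (QuotientGroup.eq_one_iff n).2 hn
    rw [hk, map_mul, map_mul, this, one_mul, hg0]
  have hfm1 : f m1 ∈ Fb := hm1'.1
  -- Step D
  have hpowF : ∀ i : ℕ, (f k) ^ i ∈ Fb → m ∣ i := by
    intro i hi
    have h1 : (QuotientGroup.mk' Fb) ((f k) ^ i) = 1 := (QuotientGroup.eq_one_iff _).2 hi
    rw [map_pow, hfk, map_mul] at h1
    have h2 : (QuotientGroup.mk' Fb) (f m1) = 1 := (QuotientGroup.eq_one_iff _).2 hfm1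
    rw [h2, one_mul, ← map_pow] at h1
    have h3 : (h0 : G ⧸ N) ^ i ∈ Fb := (QuotientGroup.eq_one_iff _).1 h1
    have h4 := hHF _ (pow_mem h0.2 i) h3
    have h5 : h0 ^ i = 1 := Subtype.ext h4
    rw [← hord0]
    exact orderOf_dvd_of_pow_eq_one h5
  have hkF : f k ∉ Fb := by
    intro h
    have := hpowF 1 (by rwa [pow_one])
    exact hm1 (Nat.dvd_one.mp this)
  obtain ⟨g, hg⟩ := hout _ hkF
  have hordk : orderOf (f k) = m := by
    apply Nat.dvd_antisymm
    · have h1 : Nat.card (MulAut.conj g • Hb : Subgroup (G ⧸ N)) = m := card_conj_smul g Hb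
      rw [← h1]
      exact Subgroup.orderOf_dvd_natCard _ hg
    · apply hpowF
      rw [pow_orderOf_eq_one]
      exact one_mem _
  have hfpf : ∀ i, 0 < i → i < m → ∀ s ∈ S, k ^ i * s = s * k ^ i → s = 1 := by
    intro i hi him s hs hcomm
    have hyH : g⁻¹ * (f k) ^ i * g ∈ Hb := by
      rw [← mem_conj_smul]
      exact pow_mem hg i
    have hyne : g⁻¹ * (f k) ^ i * g ≠ 1 := by
      intro h
      have h1 : (f k) ^ i = 1 := by
        have := congrArg (fun z => g * z * g⁻¹) h
        simpa [mul_assoc] using this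
      have h2 := Nat.le_of_dvd hi (orderOf_dvd_of_pow_eq_one h1)
      rw [hordk] at h2
      omega
    have hsF : g⁻¹ * f s * g ∈ Fb := by
      have := (inferInstance : Fb.Normal).conj_mem (f s) (hSM hs) g⁻¹
      simpa using this
    have hcomm' : (g⁻¹ * f s * g) * (g⁻¹ * (f k) ^ i * g) = (g⁻¹ * (f k) ^ i * g) * (g⁻¹ * f s * g) := by
      have h1 : (f k) ^ i * f s = f s * (f k) ^ i := by
        rw [← map_pow, ← map_mul, ← map_mul, hcomm]
      have h2 : (g⁻¹ * f s * g) * (g⁻¹ * (f k) ^ i * g) = g⁻¹ * (f s * (f k) ^ i) * g := by group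
      rw [h2, ← h1]; group
    have hfH : g⁻¹ * f s * g ∈ Hb := by
      by_contra hnH
      have h1 := hHb.2.2 _ hnH
      have h2 : g⁻¹ * (f k) ^ i * g ∈ Hb ⊓ MulAut.conj (g⁻¹ * f s * g) • Hb := by
        refine mem_inf.mpr ⟨hyH, ?_⟩
        rw [mem_conj_smul, mul_assoc _ _ (g⁻¹ * f s * g), ← hcomm', inv_mul_cancel_left]
        exact hyH
      rw [h1, mem_bot] at h2
      exact hyne h2
    have h3 := hHF _ hfH hsF
    have h4 : f s = 1 := by
      have := congrArg (fun z => g * z * g⁻¹) h3
      simpa [mul_assoc] using this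
    have h5 : s ∈ N := (QuotientGroup.eq_one_iff s).1 h4
    have h6 : s ∈ S ⊓ N := ⟨hs, h5⟩
    rw [inf_eq_bot_of_coprime' hcopSN, mem_bot] at h6
    exact h6
  have hpow : ∀ v ∈ P, (v * k) ^ m = 1 := by
    intro v hv
    apply claim0
    have : f v = 1 := (QuotientGroup.eq_one_iff v).2 (hPN hv)
    rw [map_mul, this, one_mul, hordk]
  have h1 := norm_trick (p := p) hSP hcopSP k hkP hkS m hm hpow hfpf
  exact hSPn (centralizes_of_commutator_le hPp hSP hcopSP h1)

end Cfsg.Agent.S3703
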