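import Cfsg.Statements.S3710
import Cfsg.Agent.Lib.PhanS

set_option autoImplicit false
open Cfsg

namespace Cfsg.Agent.S3710

/-- Recognition of unitary groups over the field with 9 elements from a weak Phan system. Let F be a field with 9 elements and n ≥ 4. Let G be a group with subgroups U_0, …, U_{n−1}, each isomorphic to SU(2, 9), and, for consecutive indices, subgroups V_{i,i+1} in which U_i and U_{i+1} form a standard pair (via an isomorphism from SU(3, 9) or PSU(3, 9) carrying the block-diagonal subgroups, or their images, onto U_i and U_{i+1}); suppose U_i and U_j commute elementwise whenever the indices differ by at least 2, that G is generated by the U_i and the V_{i,i+1}, and moreover that for each i the subgroup generated by V_{i,i+1} and V_{i+1,i+2} is a homomorphic image of SU(4, 9). Then G is a homomorphic image of SU(n+1, 9). (G is not assumed finite.) -/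
theorem result {G : Type*} [Group G] (n : ℕ) (hn : 4 ≤ n)
    (F : Type*) [Field F] [Fintype F] (hF : Fintype.card F = 9)
    (U : Fin n → Subgroup G) (e : ∀ i, ↥(Cfsg.SU 2 F 3) ≃* ↥(U i))
    (V : Fin n → Fin n → Subgroup G)
    (h1 : ∀ i j : Fin n, (i : ℕ) + 2 ≤ j → ∀ x ∈ U i, ∀ y ∈ U j, x * y = y * x)
    (h2 : ∀ i j : Fin n, (i : ℕ) + 1 = j → Cfsg.IsStandardUnitaryPair (V i j) (U i) (U j) F 3)
    (hgen : (⨆ i, U i) ⊔ (⨆ (i : Fin n) (j : Fin n) (_ : (i : ℕ) + 1 = j), V i j) = ⊤)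
    (h4 : ∀ i j k : Fin n, (i : ℕ) + 1 = j → (j : ℕ) + 1 = k →
      ∃ g : ↥(Cfsg.SU 4 F 3) →* ↥(V i j ⊔ V j k), Function.Surjective g) :
    ∃ f : ↥(Cfsg.SU (n + 1) F 3) →* G, Function.Surjective f := by
  obtain ⟨N, rfl⟩ : ∃ N, n = N + 2 := ⟨n - 2, by omega⟩
  have hF' : Fintype.card F = 3 ^ 2 := by rw [hF]; norm_num
  let U' : ℕ → Subgroup G := fun i => if h : i < N + 2 then U ⟨i, h⟩ else ⊥
  let V' : ℕ → Subgroup G := fun i => if h : i + 1 < N + 2 then V ⟨i, by omega⟩ ⟨i + 1, h⟩ else ⊥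
  have hU : ∀ i (h : i < N + 2), U' i = U ⟨i, h⟩ := fun i h => dif_pos h
  have hV : ∀ i (h : i + 1 < N + 2), V' i = V ⟨i, by omega⟩ ⟨i + 1, h⟩ := fun i h => dif_pos h
  have hstd : ∀ i, i + 2 ≤ N + 2 → ∃ ψ : SU 3 F 3 →* G, Lib.Phan.Std ψ (U' i) (U' (i + 1)) (V' i) := by
    intro i hi
    rw [hU i (by omega), hU (i + 1) (by omega), hV i (by omega)]
    exact Lib.Phan.exists_std hF' (h2 ⟨i, by omega⟩ ⟨i + 1, by omega⟩ rfl)
  have hcomm : ∀ i j, i + 2 ≤ j → j < N + 2 → ∀ x ∈ U' i, ∀ y ∈ U' j, x * y = y * x := by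
    intro i j hij hj
    rw [hU i (by omega), hU j hj]
    exact h1 ⟨i, by omega⟩ ⟨j, hj⟩ hij
  obtain ⟨ψ0, S0⟩ := hstd 0 (by omega)
  obtain ⟨ψ1, S1⟩ := hstd 1 (by omega)
  obtain ⟨g, hg⟩ := h4 ⟨0, by omega⟩ ⟨1, by omega⟩ ⟨2, by omega⟩ rfl rfl
  have hr : ((V ⟨0, by omega⟩ ⟨1, by omega⟩ ⊔ V ⟨1, by omega⟩ ⟨2, by omega⟩).subtype.comp g).range = V' 0 ⊔ V' 1 := by
    rw [MonoidHom.range_comp, MonoidHom.range_eq_top.2 hg, ← MonoidHom.range_eq_map, Subgroup.range_subtype,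
      hV 0 (by omega), hV 1 (by omega)]
  have hbase := Lib.Phan.base3_std hF' U' V' _ hr S0 S1 (hcomm 0 2 (by omega) (by omega))
  obtain ⟨Φ, hΦ⟩ := Lib.Phan.phan_ind hF' le_rfl U' V' (N + 2) hstd hcomm 2 (by norm_num) (by intro h; norm_num at h)
    hbase (N + 1) (by omega) (by omega)
  refine ⟨Φ, ?_⟩
  rw [← MonoidHom.range_eq_top, eq_top_iff, ← hgen, sup_le_iff, iSup_le_iff]
  have key : ∀ i (hi : i + 1 < N + 2), U ⟨i, by omega⟩ ≤ Φ.range ∧ U ⟨i + 1, hi⟩ ≤ Φ.range ∧ V ⟨i, by omega⟩ ⟨i + 1, hi⟩ ≤ Φ.range := by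
    intro i hi
    have S := hΦ i (by omega)
    rw [← hU i (by omega), ← hU (i + 1) hi, ← hV i hi]
    refine ⟨?_, ?_, ?_⟩
    · rw [← S.hA]; rintro _ ⟨s, rfl⟩; exact ⟨_, rfl⟩
    · rw [← S.hB]; rintro _ ⟨s, rfl⟩; exact ⟨_, rfl⟩
    · rw [← S.hV]; rintro _ ⟨s, rfl⟩; exact ⟨_, rfl⟩
  constructor
  · intro i
    by_cases h : i.1 + 1 < N + 2
    · exact (key i.1 h).1
    · obtain ⟨j, hj⟩ : ∃ j, i.1 = j + 1 := ⟨i.1 - 1, by omega⟩
      have h5 : i = ⟨j + 1, by omega⟩ := Fin.ext hj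
      rw [h5]; exact (key j (by omega)).2.1
  · rw [iSup_le_iff]; intro i
    rw [iSup_le_iff]; intro j
    rw [iSup_le_iff]; intro hij
    have hj : j = ⟨i.1 + 1, by omega⟩ := Fin.ext hij.symm
    rw [hj]
    exact (key i.1 (by omega)).2.2

end Cfsg.Agent.S3710
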