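import Cfsg.Statements.S3713
import Cfsg.Agent.Lib.SpSlim2

set_option autoImplicit false
open Cfsg

namespace Cfsg.Agent.S3713

open Equiv Matrix Cfsg.Agent.Lib.PresBC Cfsg.Agent.Lib.PresWr Cfsg.Agent.Lib.ClIso Cfsg.Agent.Lib.ClSymp Cfsg.Agent.Lib.ClSymp2
  Cfsg.Agent.Lib.PresSpMod Cfsg.Agent.Lib.PresSec Cfsg.Agent.Lib.PresSpCore Cfsg.Agent.Lib.SpPair Cfsg.Agent.Lib.SpTri
  Cfsg.Agent.Lib.SpInf Cfsg.Agent.Lib.SpSlim

section
variable {F : Type*} [Field F] {n : ℕ}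

theorem mem_S {i : Fin n} {S : Subgroup ↥(Matrix.symplecticGroup (Fin n) F)}
    (hS : S = Subgroup.closure {A : ↥(Matrix.symplecticGroup (Fin n) F) | ∀ k : Fin n, k ≠ i →
      ((A : ↥(Matrix.symplecticGroup (Fin n) F)) : Matrix (Fin n ⊕ Fin n) (Fin n ⊕ Fin n) F).mulVec (Pi.single (Sum.inl k) (1 : F)) = (Pi.single (Sum.inl k) (1 : F)) ∧ ((A : ↥(Matrix.symplecticGroup (Fin n) F)) : Matrix (Fin n ⊕ Fin n) (Fin n ⊕ Fin n) F).mulVec (Pi.single (Sum.inr k) (1 : F)) = (Pi.single (Sum.inr k) (1 : F))})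
    (A : ↥(Matrix.symplecticGroup (Fin n) F)) : A ∈ S ↔ ∃ g : S2 F, sympEquiv (Fin n) F A = hat F n (co i g) := by
  subst hS
  constructor
  · intro h
    have hle : Subgroup.closure {A : ↥(Matrix.symplecticGroup (Fin n) F) | ∀ k : Fin n, k ≠ i →
      ((A : ↥(Matrix.symplecticGroup (Fin n) F)) : Matrix (Fin n ⊕ Fin n) (Fin n ⊕ Fin n) F).mulVec (Pi.single (Sum.inl k) (1 : F)) = (Pi.single (Sum.inl k) (1 : F)) ∧ ((A : ↥(Matrix.symplecticGroup (Fin n) F)) : Matrix (Fin n ⊕ Fin n) (Fin n ⊕ Fin n) F).mulVec (Pi.single (Sum.inr k) (1 : F)) = (Pi.single (Sum.inr k) (1 : F))} ≤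
        (((hat F n).comp (co i)).range).comap (sympEquiv (Fin n) F).toMonoidHom := by
      rw [Subgroup.closure_le]
      intro B hB
      obtain ⟨a, ha⟩ := exists_co (F := F) (i := i) (g := sympEquiv (Fin n) F B) hB
      exact ⟨a, ha.symm⟩
    obtain ⟨a, ha⟩ := hle h
    exact ⟨a, ha.symm⟩
  · rintro ⟨g, hg⟩
    apply Subgroup.subset_closure
    intro k hk
    have h1 : (sympEquiv (Fin n) F A : VV F n ≃ₗ[F] VV F n) (ev (Sum.inl k)) = ev (Sum.inl k) := by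
      rw [hg]; exact Cfsg.Agent.Lib.PresSp.hat_co_fix (a := Sum.inl k) hk g
    have h2 : (sympEquiv (Fin n) F A : VV F n ≃ₗ[F] VV F n) (ev (Sum.inr k)) = ev (Sum.inr k) := by
      rw [hg]; exact Cfsg.Agent.Lib.PresSp.hat_co_fix (a := Sum.inr k) hk g
    exact ⟨h1, h2⟩

theorem mem_M {i j : Fin n} (hij : (i : ℕ) + 1 = j) {M : Subgroup ↥(Matrix.symplecticGroup (Fin n) F)}
    (hM : M = Subgroup.closure {A : ↥(Matrix.symplecticGroup (Fin n) F) |
      (∀ k : Fin n, ((A : ↥(Matrix.symplecticGroup (Fin n) F)) : Matrix (Fin n ⊕ Fin n) (Fin n ⊕ Fin n) F).mulVec (Pi.single (Sum.inl k) (1 : F)) = (Pi.single (Sum.inl k) (1 : F))) ∧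
        ∀ k : Fin n, (k : ℕ) ≠ i → (k : ℕ) ≠ (i : ℕ) + 1 → ((A : ↥(Matrix.symplecticGroup (Fin n) F)) : Matrix (Fin n ⊕ Fin n) (Fin n ⊕ Fin n) F).mulVec (Pi.single (Sum.inr k) (1 : F)) = (Pi.single (Sum.inr k) (1 : F))})
    (A : ↥(Matrix.symplecticGroup (Fin n) F)) : A ∈ M ↔ sympEquiv (Fin n) F A ∈ E0 F i j := by
  subst hM
  have key : ∀ B : ↥(Matrix.symplecticGroup (Fin n) F), B ∈ {A : ↥(Matrix.symplecticGroup (Fin n) F) |
      (∀ k : Fin n, ((A : ↥(Matrix.symplecticGroup (Fin n) F)) : Matrix (Fin n ⊕ Fin n) (Fin n ⊕ Fin n) F).mulVec (Pi.single (Sum.inl k) (1 : F)) = (Pi.single (Sum.inl k) (1 : F))) ∧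
        ∀ k : Fin n, (k : ℕ) ≠ i → (k : ℕ) ≠ (i : ℕ) + 1 → ((A : ↥(Matrix.symplecticGroup (Fin n) F)) : Matrix (Fin n ⊕ Fin n) (Fin n ⊕ Fin n) F).mulVec (Pi.single (Sum.inr k) (1 : F)) = (Pi.single (Sum.inr k) (1 : F))} ↔
          sympEquiv (Fin n) F B ∈ E0 F i j := by
    intro B
    constructor
    · rintro ⟨h1, h2⟩
      refine ⟨h1, fun k hk hk' => h2 k (fun h => hk (Fin.ext h)) (fun h => hk' (Fin.ext (h.trans hij)))⟩
    · rintro ⟨h1, h2⟩
      refine ⟨h1, fun k hk hk' => h2 k (fun h => hk (by rw [h])) (fun h => hk' (by rw [h, hij]))⟩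
  constructor
  · intro h
    have hle := (Subgroup.closure_le ((E0 F i j).comap (sympEquiv (Fin n) F).toMonoidHom)).2 (fun B hB => (key B).1 hB)
    exact hle h
  · intro h
    exact Subgroup.subset_closure ((key A).2 h)

end


/-- A presentation of the symplectic group as the universal completion of an amalgam of small subgroups. Let F be a field with more than two elements, n ≥ 2, and Sp the group of 2n × 2n matrices over F preserving the standard alternating form, acting on column vectors; write e_k, f_k for the standard basis vectors of the two halves (a hyperbolic basis). For each k let S_k be the subgroup of Sp fixing e_l and f_l for all l ≠ k (a copy of SL(2, F) on the plane of e_k, f_k), and for each i with i + 1 < n let M_i be the subgroup fixing every e_l and fixing f_l for all l other than i, i+1 (an abelian group isomorphic to the additive group of F³). Then Sp is the universal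 completion of the amalgam formed by the S_k, the M_i and the subgroups generated by two of them: for every group H and homomorphisms σ_k : S_k → H, μ_i : M_i → H such that for each pair of these subgroups some homomorphism on the subgroup they generate restricts to the given ones, there is exactly one homomorphism Sp → H restricting to every σ_k and μ_i. -/
theorem result
    (F : Type*) [Field F] (hF : ∃ a : F, a ≠ 0 ∧ a ≠ 1) (n : ℕ) (hn : 2 ≤ n)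
    (S M : Fin n → Subgroup ↥(Matrix.symplecticGroup (Fin n) F))
    (hS : ∀ j : Fin n, S j = Subgroup.closure {A : ↥(Matrix.symplecticGroup (Fin n) F) | ∀ k : Fin n, k ≠ j →
      ((A : ↥(Matrix.symplecticGroup (Fin n) F)) : Matrix (Fin n ⊕ Fin n) (Fin n ⊕ Fin n) F).mulVec (Pi.single (Sum.inl k) (1 : F)) = (Pi.single (Sum.inl k) (1 : F)) ∧ ((A : ↥(Matrix.symplecticGroup (Fin n) F)) : Matrix (Fin n ⊕ Fin n) (Fin n ⊕ Fin n) F).mulVec (Pi.single (Sum.inr k) (1 : F)) = (Pi.single (Sum.inr k) (1 : F))})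
    (hM : ∀ i : Fin n, (i : ℕ) + 1 < n → M i = Subgroup.closure {A : ↥(Matrix.symplecticGroup (Fin n) F) |
      (∀ k : Fin n, ((A : ↥(Matrix.symplecticGroup (Fin n) F)) : Matrix (Fin n ⊕ Fin n) (Fin n ⊕ Fin n) F).mulVec (Pi.single (Sum.inl k) (1 : F)) = (Pi.single (Sum.inl k) (1 : F))) ∧
        ∀ k : Fin n, (k : ℕ) ≠ i → (k : ℕ) ≠ (i : ℕ) + 1 → ((A : ↥(Matrix.symplecticGroup (Fin n) F)) : Matrix (Fin n ⊕ Fin n) (Fin n ⊕ Fin n) F).mulVec (Pi.single (Sum.inr k) (1 : F)) = (Pi.single (Sum.inr k) (1 : F))})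
    {H : Type*} [Group H] (σ : ∀ j : Fin n, ↥(S j) →* H) (μ : ∀ i : Fin n, ↥(M i) →* H)
    (hSS : ∀ j l : Fin n, j ≠ l → ∃ Ψ : ↥(S j ⊔ S l) →* H,
      (∀ (g : ↥(Matrix.symplecticGroup (Fin n) F)) (hg : g ∈ S j), Ψ ⟨g, Subgroup.mem_sup_left hg⟩ = σ j ⟨g, hg⟩) ∧
        (∀ (g : ↥(Matrix.symplecticGroup (Fin n) F)) (hg : g ∈ S l), Ψ ⟨g, Subgroup.mem_sup_right hg⟩ = σ l ⟨g, hg⟩))
    (hMM : ∀ i i' : Fin n, i ≠ i' → (i : ℕ) + 1 < n → (i' : ℕ) + 1 < n → ∃ Ψ : ↥(M i ⊔ M i') →* H,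
      (∀ (g : ↥(Matrix.symplecticGroup (Fin n) F)) (hg : g ∈ M i), Ψ ⟨g, Subgroup.mem_sup_left hg⟩ = μ i ⟨g, hg⟩) ∧
        (∀ (g : ↥(Matrix.symplecticGroup (Fin n) F)) (hg : g ∈ M i'), Ψ ⟨g, Subgroup.mem_sup_right hg⟩ = μ i' ⟨g, hg⟩))
    (hMS : ∀ i j : Fin n, (i : ℕ) + 1 < n → ∃ Ψ : ↥(M i ⊔ S j) →* H,
      (∀ (g : ↥(Matrix.symplecticGroup (Fin n) F)) (hg : g ∈ M i), Ψ ⟨g, Subgroup.mem_sup_left hg⟩ = μ i ⟨g, hg⟩) ∧
        (∀ (g : ↥(Matrix.symplecticGroup (Fin n) F)) (hg : g ∈ S j), Ψ ⟨g, Subgroup.mem_sup_right hg⟩ = σ j ⟨g, hg⟩)) :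
    ∃! Φ : ↥(Matrix.symplecticGroup (Fin n) F) →* H,
      (∀ (j : Fin n) (g : ↥(Matrix.symplecticGroup (Fin n) F)) (hg : g ∈ S j), Φ g = σ j ⟨g, hg⟩) ∧
        (∀ (i : Fin n), (i : ℕ) + 1 < n → ∀ (g : ↥(Matrix.symplecticGroup (Fin n) F)) (hg : g ∈ M i), Φ g = μ i ⟨g, hg⟩) := by
  classical
  obtain ⟨m, rfl⟩ : ∃ m, n = m + 1 := ⟨n - 1, by omega⟩
  let E := sympEquiv (Fin (m + 1)) F
  have mS : ∀ j A, A ∈ S j ↔ ∃ g : S2 F, E A = hat F (m + 1) (co j g) := fun j A => mem_S (hS j) A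
  have mM : ∀ (i j : Fin (m + 1)) (hij : (i : ℕ) + 1 = j) A, A ∈ M i ↔ E A ∈ E0 F i j :=
    fun i j hij A => mem_M hij (hM i (by rw [hij]; exact j.2)) A
  -- the homomorphisms
  have hψm : ∀ (j : Fin (m + 1)) (g : S2 F), E.symm (hat F (m + 1) (co j g)) ∈ S j := fun j g => (mS j _).2 ⟨g, by simp [E]⟩
  let s1 : ∀ j : Fin (m + 1), S2 F →* S j := fun j => (E.symm.toMonoidHom.comp ((hat F (m + 1)).comp (co j))).codRestrict (S j) (hψm j)
  let ψ : ∀ j : Fin (m + 1), S2 F →* (↥(Matrix.symplecticGroup (Fin (m + 1)) F) × H) := fun j => ((S j).subtype.prod (σ j)).comp (s1 j)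
  have hψ1 : ∀ j g, (ψ j g).1 = E.symm (hat F (m + 1) (co j g)) := fun j g => rfl
  have hψ2 : ∀ j g, ψ j g = (E.symm (hat F (m + 1) (co j g)), σ j ⟨_, hψm j g⟩) := fun j g => rfl
  have hUm : ∀ (i j : Fin (m + 1)) (hij : (i : ℕ) + 1 = j) (t : F), E.symm (shh t (ev (Sum.inl i)) (ev (Sum.inl j))) ∈ M i := by
    intro i j hij t
    rw [mM i j hij, E.apply_symm_apply]
    exact sh_mem_E0 (by intro h; rw [h] at hij; omega) t
  let U : Fin (m + 1) → F → (↥(Matrix.symplecticGroup (Fin (m + 1)) F) × H) := fun i t =>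
    if h : (i : ℕ) + 1 < m + 1 then (E.symm (shh t (ev (Sum.inl i)) (ev (Sum.inl ⟨i + 1, h⟩))), μ i ⟨_, hUm i ⟨i + 1, h⟩ rfl t⟩) else 1
  have hU1 : ∀ (i j : Fin (m + 1)) (hij : (i : ℕ) + 1 = j) (t : F), U i t = (E.symm (shh t (ev (Sum.inl i)) (ev (Sum.inl j))), μ i ⟨_, hUm i j hij t⟩) := by
    intro i j hij t
    have h : (i : ℕ) + 1 < m + 1 := by rw [hij]; exact j.2
    have hj : j = ⟨i + 1, h⟩ := Fin.ext hij.symm
    subst hj
    simp only [U, dif_pos h]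
  let π : (↥(Matrix.symplecticGroup (Fin (m + 1)) F) × H) →* Sg F (m + 1) := E.toMonoidHom.comp (MonoidHom.fst _ _)
  have hπ : ∀ x, π x = E x.1 := fun x => rfl
  -- consistency on root subgroups
  have cons : ∀ (i j k : Fin (m + 1)) (hij : (i : ℕ) + 1 = j) (hk : k = i ∨ k = j) (t : F), ∃ h : E.symm (tvv t (ev (Sum.inl k))) ∈ M i,
      ψ k (up (-t)) = (E.symm (tvv t (ev (Sum.inl k))), μ i ⟨_, h⟩) := by
    intro i j k hij hk t
    have h1 : hat F (m + 1) (co k (up (-t))) = tvv t (ev (Sum.inl k)) := hat_ell (Sum.inl k) t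
    have hm : E.symm (tvv t (ev (Sum.inl k))) ∈ M i := by
      rw [mM i j hij, E.apply_symm_apply]
      rcases hk with rfl | rfl
      · exact (tv_mem_E0 t).1
      · exact (tv_mem_E0 t).2
    refine ⟨hm, ?_⟩
    obtain ⟨Ψ, p1, p2⟩ := hMS i k (by rw [hij]; exact j.2)
    have hs : E.symm (tvv t (ev (Sum.inl k))) ∈ S k := by rw [← h1]; exact hψm k _
    have h2 := p1 _ hm
    have h3 := p2 _ hs
    rw [hψ2]
    have h4 : σ k ⟨_, hψm k (up (-t))⟩ = σ k ⟨_, hs⟩ := by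
      congr 1; exact Subtype.ext (congrArg E.symm h1)
    rw [h4, h1, ← h3, ← h2]
  have inS : ∀ (i : Fin (m + 1)) (K : Subgroup ↥(Matrix.symplecticGroup (Fin (m + 1)) F)) (Ψ : K →* H) (hle : S i ≤ K),
      (∀ (g : ↥(Matrix.symplecticGroup (Fin (m + 1)) F)) (hg : g ∈ S i), Ψ ⟨g, hle hg⟩ = σ i ⟨g, hg⟩) → ∀ a, ψ i a ∈ gr Ψ := by
    intro i K Ψ hle h a
    rw [hψ2, ← h]; exact gr_mem Ψ _
  have inM : ∀ (i j : Fin (m + 1)) (hij : (i : ℕ) + 1 = j) (K : Subgroup ↥(Matrix.symplecticGroup (Fin (m + 1)) F)) (Ψ : K →* H) (hle : M i ≤ K),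
      (∀ (g : ↥(Matrix.symplecticGroup (Fin (m + 1)) F)) (hg : g ∈ M i), Ψ ⟨g, hle hg⟩ = μ i ⟨g, hg⟩) →
        (∀ t, U i t ∈ gr Ψ) ∧ ∀ k, (k = i ∨ k = j) → ∀ t, ψ k (up t) ∈ gr Ψ := by
    intro i j hij K Ψ hle h
    constructor
    · intro t
      rw [hU1 i j hij, ← h]; exact gr_mem Ψ _
    · intro k hk t
      obtain ⟨h1, h2⟩ := cons i j k hij hk (-t)
      rw [neg_neg] at h2
      rw [h2, ← h]; exact gr_mem Ψ _
  have hslim : Slim π ψ U := by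
    refine ⟨?_, ?_, ?_⟩
    · intro i j hij
      have hne : i ≠ j := by intro h; rw [h] at hij; omega
      have hi : (i : ℕ) + 1 < m + 1 := by rw [hij]; exact j.2
      refine ⟨hne, ?_, ?_, ?_, ?_, ?_⟩
      · intro i g; rw [hπ, hψ1]; exact E.apply_symm_apply _
      · intro i j hij a b
        obtain ⟨Ψ, p1, p2⟩ := hSS i j hij
        refine gr_comm (inS i _ Ψ le_sup_left p1 a) (inS j _ Ψ le_sup_right p2 b) ?_
        rw [hψ1, hψ1]
        exact ((co_comm hij a b).map (hat F (m + 1))).map E.symm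
      · intro t; rw [hπ, hU1 i j hij]; exact E.apply_symm_apply _
      · obtain ⟨Ψ, p1, p2⟩ := hMS i i hi
        obtain ⟨q1, q2⟩ := inM i j hij _ Ψ le_sup_left p1
        have hle : Kf ψ i j (U i) ≤ gr Ψ := by
          unfold Kf
          rw [Subgroup.closure_le]
          rintro _ ((⟨t, rfl⟩ | ⟨t, rfl⟩) | ⟨t, rfl⟩)
          · exact inS i _ Ψ le_sup_right p2 t
          · exact q2 j (Or.inr rfl) t
          · exact q1 t
        intro g hg h1
        exact gr_inj (hle hg) (one_mem _) (E.injective (by rw [← hπ, h1, Prod.fst_one, map_one]))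
      · obtain ⟨Ψ, p1, p2⟩ := hMS i j hi
        obtain ⟨q1, q2⟩ := inM i j hij _ Ψ le_sup_left p1
        have hle : Kf ψ j i (U i) ≤ gr Ψ := by
          unfold Kf
          rw [Subgroup.closure_le]
          rintro _ ((⟨t, rfl⟩ | ⟨t, rfl⟩) | ⟨t, rfl⟩)
          · exact inS j _ Ψ le_sup_right p2 t
          · exact q2 i (Or.inl rfl) t
          · exact q1 t
        intro g hg h1
        exact gr_inj (hle hg) (one_mem _) (E.injective (by rw [← hπ, h1, Prod.fst_one, map_one]))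
    · intro i j k hij hki hkj g t
      have hi : (i : ℕ) + 1 < m + 1 := by rw [hij]; exact j.2
      obtain ⟨Ψ, p1, p2⟩ := hMS i k hi
      obtain ⟨q1, q2⟩ := inM i j hij _ Ψ le_sup_left p1
      refine gr_comm (inS k _ Ψ le_sup_right p2 g) (q1 t) ?_
      rw [hψ1, hU1 i j hij]
      exact (comm_co_sh hki hkj g t).map E.symm
    · intro i k hi hk hik s t
      obtain ⟨Ψ, p1, p2⟩ := hMM i k hik hi hk
      obtain ⟨q1, -⟩ := inM i ⟨i + 1, hi⟩ rfl _ Ψ le_sup_left p1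
      obtain ⟨r1, -⟩ := inM k ⟨k + 1, hk⟩ rfl _ Ψ le_sup_right p2
      refine gr_comm (q1 s) (r1 t) ?_
      rw [hU1 i ⟨i + 1, hi⟩ rfl, hU1 k ⟨k + 1, hk⟩ rfl]
      exact (comm_sh_sh' (by intro h; have := congrArg Fin.val h; simp at this) s t).map E.symm
  -- the group generated
  let Γ : Subgroup (↥(Matrix.symplecticGroup (Fin (m + 1)) F) × H) := Subgroup.closure ((⋃ i, Set.range (ψ i)) ∪ {x | ∃ i t, i.1 + 1 < m + 1 ∧ x = U i t})
  have gψ : ∀ i a, ψ i a ∈ Γ := fun i a => Subgroup.subset_closure (Or.inl (Set.mem_iUnion.2 ⟨i, a, rfl⟩))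
  have gU : ∀ i t, U i t ∈ Γ := by
    intro i t
    by_cases h : (i : ℕ) + 1 < m + 1
    · exact Subgroup.subset_closure (Or.inr ⟨i, t, h, rfl⟩)
    · simp only [U, dif_neg h]; exact one_mem _
  have hslim' := hslim.restrict Γ gψ gU
  have hbij := hslim'.bijective hF (by omega) (by
    rw [eq_top_iff]
    rintro ⟨x, hx⟩ -
    have hle : Γ ≤ (Subgroup.closure ((⋃ i, Set.range (rψ Γ gψ i)) ∪ {x | ∃ i t, i.1 + 1 < m + 1 ∧ x = rU Γ gU i t})).map Γ.subtype := by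
      apply (Subgroup.closure_le _).2
      rintro y (hy | ⟨i, t, hi, rfl⟩)
      · obtain ⟨i, a, rfl⟩ := Set.mem_iUnion.1 hy
        exact ⟨rψ Γ gψ i a, Subgroup.subset_closure (Or.inl (Set.mem_iUnion.2 ⟨i, a, rfl⟩)), rfl⟩
      · exact ⟨rU Γ gU i t, Subgroup.subset_closure (Or.inr ⟨i, t, hi, rfl⟩), rfl⟩
    obtain ⟨z, hz, hz2⟩ := hle hx
    have : z = ⟨x, hx⟩ := Subtype.ext hz2
    rw [← this]; exact hz)
  let e := MulEquiv.ofBijective _ hbij
  let Φ : ↥(Matrix.symplecticGroup (Fin (m + 1)) F) →* H := (MonoidHom.snd _ _).comp (Γ.subtype.comp (e.symm.toMonoidHom.comp E.toMonoidHom))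
  have hΦ : ∀ x : Γ, Φ x.1.1 = x.1.2 := by
    intro x
    have h1 : e x = E x.1.1 := rfl
    show (e.symm (E x.1.1)).1.2 = _
    rw [← h1, MulEquiv.symm_apply_apply]
  have gS : ∀ (j : Fin (m + 1)) (g : ↥(Matrix.symplecticGroup (Fin (m + 1)) F)) (hg : g ∈ S j), ((g, σ j ⟨g, hg⟩) : _ × H) ∈ Γ := by
    intro j g hg
    obtain ⟨a, ha⟩ := (mS j g).1 hg
    have h1 : g = E.symm (hat F (m + 1) (co j a)) := by rw [← ha, E.symm_apply_apply]
    have h2 : ((g, σ j ⟨g, hg⟩) : _ × H) = ψ j a := by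
      rw [hψ2]
      have : σ j ⟨g, hg⟩ = σ j ⟨_, hψm j a⟩ := by congr 1; exact Subtype.ext h1
      exact Prod.ext h1 this
    rw [h2]; exact gψ j a
  have gM : ∀ (i : Fin (m + 1)) (hi : (i : ℕ) + 1 < m + 1) (g : ↥(Matrix.symplecticGroup (Fin (m + 1)) F)) (hg : g ∈ M i), ((g, μ i ⟨g, hg⟩) : _ × H) ∈ Γ := by
    intro i hi g hg
    have hij : (i : ℕ) + 1 = ((⟨i + 1, hi⟩ : Fin (m + 1)) : ℕ) := rfl
    have hne : i ≠ ⟨i + 1, hi⟩ := by intro h; have := congrArg Fin.val h; simp at this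
    obtain ⟨a, b, c, habc⟩ := E0_dec hne ((mM i _ hij g).1 hg)
    obtain ⟨h1, h2⟩ := cons i _ i hij (Or.inl rfl) a
    obtain ⟨h3, h4⟩ := cons i _ _ hij (Or.inr rfl) b
    have h5 := hU1 i _ hij c
    have h6 : ((g, μ i ⟨g, hg⟩) : _ × H) = ψ i (up (-a)) * ψ ⟨i + 1, hi⟩ (up (-b)) * U i c := by
      rw [h2, h4, h5, Prod.mk_mul_mk, Prod.mk_mul_mk, ← map_mul, ← map_mul, ← map_mul, ← map_mul]
      have h7 : g = E.symm (tvv a (ev (Sum.inl i)) * tvv b (ev (Sum.inl ⟨i + 1, hi⟩)) * shh c (ev (Sum.inl i)) (ev (Sum.inl ⟨i + 1, hi⟩))) := by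
        rw [← habc, E.symm_apply_apply]
      refine Prod.ext h7 ?_
      show μ i ⟨g, hg⟩ = μ i _
      congr 1
      apply Subtype.ext
      refine h7.trans ?_
      rw [map_mul, map_mul]
      rfl
    rw [h6]
    exact mul_mem (mul_mem (gψ _ _) (gψ _ _)) (gU _ _)
  refine ⟨Φ, ⟨fun j g hg => hΦ ⟨_, gS j g hg⟩, fun i hi g hg => hΦ ⟨_, gM i hi g hg⟩⟩, ?_⟩
  rintro Φ' ⟨k1, k2⟩
  -- uniqueness
  ext g
  obtain ⟨x, hx⟩ := hbij.2 (E g)
  have hx1 : x.1.1 = g := E.injective hx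
  have hle : Γ ≤ (MonoidHom.eqLocus Φ' Φ).comap (MonoidHom.fst _ _) := by
    apply (Subgroup.closure_le _).2
    rintro y (hy | ⟨i, t, hi, rfl⟩)
    · obtain ⟨i, a, rfl⟩ := Set.mem_iUnion.1 hy
      show Φ' (ψ i a).1 = Φ (ψ i a).1
      rw [hψ1, k1 i _ (hψm i a)]
      exact (hΦ ⟨_, gS i _ (hψm i a)⟩).symm
    · show Φ' (U i t).1 = Φ (U i t).1
      rw [hU1 i ⟨i + 1, hi⟩ rfl, k2 i hi _ (hUm i ⟨i + 1, hi⟩ rfl t)]
      exact (hΦ ⟨_, gM i hi _ (hUm i ⟨i + 1, hi⟩ rfl t)⟩).symm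
  have := hle x.2
  rw [← hx1]
  exact this

end Cfsg.Agent.S3713
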