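import Cfsg.Statements.S3770
import Cfsg.Agent.Lib.BG03j
import Cfsg.Agent.Lib.ProdCard
import Cfsg.Agent.Lib.FrobThm
import Cfsg.Agent.Lib.CoprimeAction2
import Cfsg.Agent.S0042

set_option autoImplicit false
open Cfsg
open scoped commutatorElement

namespace Cfsg.Agent.S3770

/-- Let G and V be subgroups of a finite group with G a Frobenius group with complement R of prime order and kernel K, G normalizing V, and V an elementary abelian ℓ-group for a prime ℓ not dividing the order of G. If C_V(R) has order ℓ, then the derived subgroup of K centralizes V. -/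
theorem result {X : Type*} [Group X] [Finite X] (G : Subgroup X) (V : Subgroup X) {ℓ : ℕ} (hℓ : ℓ.Prime) (hV : Cfsg.IsElementaryAbelian ℓ V) (hℓG : ¬ ℓ ∣ Nat.card G) (hGV : G ≤ Subgroup.normalizer (V : Set X)) (R : Subgroup ↥G) (hR : Cfsg.IsFrobeniusComplement R) (hRp : (Nat.card R).Prime) (hCV : Nat.card ↥(V ⊓ Subgroup.centralizer ((R.map G.subtype : Subgroup X) : Set X)) = ℓ) : ⁅Subgroup.closure (Subtype.val '' Cfsg.frobeniusKernel R), Subgroup.closure (Subtype.val '' Cfsg.frobeniusKernel R)⁆ ≤ Subgroup.centralizer (V : Set X) := by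
  classical
  have hℓf : Fact ℓ.Prime := ⟨hℓ⟩
  obtain ⟨N, hN, hNn, hNc⟩ := Cfsg.Agent.Lib.FrobThm.exists_kernel hR
  have hNnil : Group.IsNilpotent N := by
    obtain ⟨N', hN', _, h⟩ := Cfsg.Agent.S0042.result R hR
    have : N' = N := SetLike.coe_injective (hN'.trans hN.symm)
    rw [← this]; exact h
  have hN1 : N ≠ ⊥ := by
    intro h
    obtain ⟨x, hx, hx1⟩ := Cfsg.Agent.Lib.FrobGroup.exists_kernel_ne_one hR
    rw [← hN, h] at hx
    exact hx1 (Subgroup.mem_bot.1 hx)
  have hfpf := (Cfsg.Agent.Lib.FrobGroup.isFrobeniusComplement_iff hNc hN1 hR.1).1 hR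
  set K : Subgroup X := N.map G.subtype with hK
  set R' : Subgroup X := R.map G.subtype with hR'
  have hcl : Subgroup.closure (Subtype.val '' Cfsg.frobeniusKernel R) = K := by
    rw [← hN]
    have : (Subtype.val '' (N : Set G) : Set X) = (K : Set X) := by
      rw [hK, Subgroup.coe_map]; rfl
    rw [this, Subgroup.closure_eq]
  rw [hcl]
  have hKG : K ≤ G := Subgroup.map_subtype_le _
  have hRG : R' ≤ G := Subgroup.map_subtype_le _
  have hKV : K ≤ Subgroup.normalizer (V : Set X) := hKG.trans hGV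
  have hRV : R' ≤ Subgroup.normalizer (V : Set X) := hRG.trans hGV
  have hcR : Nat.card R' = Nat.card R := (Nat.card_congr (R.equivMapOfInjective _ G.subtype_injective).toEquiv).symm
  have hVp : IsPGroup ℓ V := fun x => ⟨1, by rw [pow_one]; exact Subtype.ext (hV.2 x x.2)⟩
  have hcopV : ∀ A : Subgroup X, A ≤ G → (Nat.card A).Coprime (Nat.card V) := by
    intro A hA
    obtain ⟨n, hn⟩ := IsPGroup.iff_card.mp hVp
    rw [hn]
    apply Nat.Coprime.pow_right
    rw [Nat.coprime_comm, Nat.Prime.coprime_iff_not_dvd hℓ]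
    exact fun h => hℓG (h.trans (Subgroup.card_dvd_of_le hA))
  have hVc : IsMulCommutative V := hV.1
  set M : Subgroup X := ⁅V, K⁆ with hM
  have hMV : M ≤ V := Subgroup.le_normalizer_iff_commutator_le_left.mp hKV
  have hGK : G ≤ Subgroup.normalizer (K : Set X) := by
    intro g hg
    rw [Subgroup.mem_normalizer_iff]
    have key : ∀ g ∈ G, ∀ x ∈ K, g * x * g⁻¹ ∈ K := by
      rintro g hg _ ⟨x, hx, rfl⟩
      exact ⟨⟨g, hg⟩ * x * ⟨g, hg⟩⁻¹, hNn.conj_mem x hx _, rfl⟩
    intro x
    constructor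
    · exact key g hg x
    · intro h
      have := key g⁻¹ (inv_mem hg) _ h
      have h2 : g⁻¹ * (g * x * g⁻¹) * g⁻¹⁻¹ = x := by group
      rwa [h2] at this
  have hGM : G ≤ Subgroup.normalizer (M : Set X) := Cfsg.Agent.Lib.BG03j.le_normalizer_commutator hGV hGK
  have hsup : (V ⊓ Subgroup.centralizer (K : Set X)) ⊔ M = V :=
    Cfsg.Agent.Lib.CoprimeAction2.sup_commutator_eq_of_abelian hKV (hcopV K hKG)
  have hinf : (V ⊓ Subgroup.centralizer (K : Set X)) ⊓ M = ⊥ :=
    Cfsg.Agent.Lib.CoprimeAction2.inf_commutator_eq_bot_of_abelian hKV (hcopV K hKG)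
  have h1 : ⁅K, K⁆ ≤ Subgroup.centralizer (M : Set X) := by
    apply Cfsg.Agent.Lib.BG03j.commutator_le_centralizer K R' M (by rw [hcR]; exact hRp) (hRG.trans hGK)
    · rw [eq_bot_iff]
      intro x hx
      obtain ⟨h1, h2⟩ := Subgroup.mem_inf.mp hx
      obtain ⟨y, hy, rfl⟩ := h1
      obtain ⟨r, hr, hr1⟩ := Cfsg.Agent.Lib.FrobGroup.exists_ne_one hR
      have h3 : y ∈ N ⊓ Subgroup.centralizer ({r} : Set G) := by
        refine Subgroup.mem_inf.mpr ⟨hy, Subgroup.mem_centralizer_singleton_iff.mpr ?_⟩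
        apply Subtype.ext
        exact (Subgroup.mem_centralizer_iff.mp h2 r ⟨r, hr, rfl⟩).symm
      rw [hfpf r hr hr1, Subgroup.mem_bot] at h3
      rw [Subgroup.mem_bot, h3]; rfl
    · exact Group.nilpotent_of_mulEquiv (N.equivMapOfInjective _ G.subtype_injective)
    · have : IsPGroup ℓ M := hVp.to_le hMV
      exact this.isNilpotent
    · exact hKG.trans hGM
    · exact hRG.trans hGM
    · exact (hcopV _ (sup_le hKG hRG)).coprime_dvd_right (Subgroup.card_dvd_of_le hMV)
    · rw [eq_bot_iff, ← hinf]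
      exact le_inf (inf_le_inf_right _ hMV) inf_le_left
    · have h2 : IsCyclic ↥(V ⊓ Subgroup.centralizer (R' : Set X)) := isCyclic_of_prime_card hCV
      have h3 : M ⊓ Subgroup.centralizer (R' : Set X) ≤ V ⊓ Subgroup.centralizer (R' : Set X) :=
        inf_le_inf_right _ hMV
      exact isCyclic_of_injective (Subgroup.inclusion h3) (Subgroup.inclusion_injective h3)
  intro x hx
  rw [Subgroup.mem_centralizer_iff]
  intro v hv
  have hv' : v ∈ (V ⊓ Subgroup.centralizer (K : Set X)) ⊔ M := by rw [hsup]; exact hv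
  have hle : (V ⊓ Subgroup.centralizer (K : Set X)) ⊔ M ≤ Subgroup.centralizer ((Subgroup.zpowers x : Subgroup X) : Set X) := by
    rw [sup_le_iff]
    constructor
    · intro w hw
      rw [Subgroup.mem_centralizer_iff]
      intro y hy
      have h2 : y ∈ K := by
        obtain ⟨k, rfl⟩ := Subgroup.mem_zpowers_iff.mp hy
        exact zpow_mem (Subgroup.commutator_le_self K hx) k
      exact Subgroup.mem_centralizer_iff.mp (Subgroup.mem_inf.mp hw).2 y h2
    · intro w hw
      rw [Subgroup.mem_centralizer_iff]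
      intro y hy
      have h2 : y ∈ ⁅K, K⁆ := by
        obtain ⟨k, rfl⟩ := Subgroup.mem_zpowers_iff.mp hy
        exact zpow_mem hx k
      exact (Subgroup.mem_centralizer_iff.mp (h1 h2) w hw).symm
  exact (Subgroup.mem_centralizer_iff.mp (hle hv') x (Subgroup.mem_zpowers x)).symm

end Cfsg.Agent.S3770
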