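import Cfsg.Statements.S3776
import Cfsg.Agent.Lib.H81SuzF
import Cfsg.Agent.Lib.H81SuzL
import Cfsg.Agent.Lib.H81SuzN
import Cfsg.Agent.Lib.H81SuzD
import Cfsg.Agent.Lib.H81SuzP
import Cfsg.Agent.Lib.H81SuzQ
import Cfsg.Agent.Lib.H81SuzR
import Cfsg.Agent.Lib.H81SuzS
import Cfsg.Agent.Lib.H81SuzT
import Cfsg.Agent.Lib.H81SuzU3
import Cfsg.Agent.Lib.H81SuzZ

set_option autoImplicit false
open Cfsg

namespace Cfsg.Agent.Lib.H81Suz

theorem exists_A {G : Type*} [Group G] [Finite G] {Y : Subgroup (MulAut G)} {F : Type} [Field F] [Fintype F] [CharP F 2]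
    [Fintype (F ≃+* F)] {e : G → F} {K : Subgroup Fˣ} {H : Subgroup G} (C : Ctx Y e K) (M : MinCE Y H) :
    ∃ A, HasA Y H A := by
  obtain ⟨N, h1, h2, h3, h4, h5, h6⟩ := exists_N C M
  by_cases hnc : ∃ n ∈ N, ∃ x ∈ H, n * x ≠ x * n
  · exact noncentral_case C M h1 h2 h3 h4 h5 h6 hnc
  · push Not at hnc
    obtain ⟨n, hn, hn2⟩ := h3
    obtain ⟨N', h1', h2', h3', h4', h5', h6', hnc'⟩ := central_case C M ⟨n, h2 hn, hn2, hnc n hn⟩
    exact noncentral_case C M h1' h2' h3' h4' h5' h6' hnc'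

theorem no_minCE {G : Type*} [Group G] [Finite G] {Y : Subgroup (MulAut G)} {F : Type} [Field F] [Fintype F] [CharP F 2]
    [Fintype (F ≃+* F)] {e : G → F} {K : Subgroup Fˣ} {H : Subgroup G} (C : Ctx Y e K) (M : MinCE Y H) : False := by
  obtain ⟨A, hA⟩ := exists_A C M
  by_cases h4 : ∀ a ∈ A, a ^ 4 = 1
  · exact exp_four C M hA h4
  · push Not at h4
    by_cases hcen : ∀ a ∈ A, a ^ 4 = 1 → ∀ x ∈ H, a * x = x * a
    · exact big_central C M hA h4 hcen
    · push Not at hcen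
      exact big_noncentral C M hA h4 hcen

theorem main_dich {G : Type*} [Group G] [Finite G] {Y : Subgroup (MulAut G)} {F : Type} [Field F] [Fintype F] [CharP F 2]
    [Fintype (F ≃+* F)] {e : G → F} {K : Subgroup Fˣ} (C : Ctx Y e K) : ∀ (n : ℕ) (H : Subgroup G), Nat.card H = n → Yinv Y H →
    (∀ x ∈ H, ∀ y ∈ H, x * y = y * x) ∨ ∀ x ∈ H, x ^ 4 = 1 := by
  intro n
  induction n using Nat.strong_induction_on with
  | _ n ih =>
    intro H hH hinv
    by_contra hcon
    push Not at hcon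
    obtain ⟨hna, hbig⟩ := hcon
    refine no_minCE C (H := H) ⟨hinv, hna, hbig, ?_⟩
    intro X hXH hX hne
    refine ih (Nat.card X) ?_ X rfl hX
    rw [← hH]
    refine lt_of_le_of_ne (Nat.card_le_card_of_injective _ (Subgroup.inclusion_injective hXH)) ?_
    intro h
    exact hne (Subgroup.eq_of_le_of_card_ge hXH h.ge)

end Cfsg.Agent.Lib.H81Suz

namespace Cfsg.Agent.S3776

open Cfsg.Agent.Lib.H81Suz in
/-- Let G be a finite non-abelian 2-group with more than one involution admitting a solvable group of automorphisms that permutes its involutions transitively. Then the derived subgroup, the Frattini subgroup and the centre of G coincide and consist exactly of the elements x with x² = 1. -/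
theorem result {G : Type*} [Group G] [Finite G] (hG : IsPGroup 2 G) (hna : ¬ IsMulCommutative G) (htwo : ∃ x y : G, x ≠ y ∧ x ≠ 1 ∧ x ^ 2 = 1 ∧ y ≠ 1 ∧ y ^ 2 = 1) (hY : ∃ Y : Subgroup (MulAut G), Group.IsSolvable Y ∧ ∀ x y : G, x ≠ 1 → x ^ 2 = 1 → y ≠ 1 → y ^ 2 = 1 → ∃ a ∈ Y, a x = y) : commutator G = frattini G ∧ frattini G = Subgroup.center G ∧ ∀ x : G, x ∈ Subgroup.center G ↔ x ^ 2 = 1 := by
  classical
  obtain ⟨Y, hsol, htrans⟩ := hY
  haveI : Fact (Nat.Prime 2) := ⟨Nat.prime_two⟩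
  haveI : Nontrivial G := by
    obtain ⟨x, y, hxy, -⟩ := htwo
    exact ⟨x, y, hxy⟩
  -- a central involution
  have hcz : ∃ z : G, z ≠ 1 ∧ z ^ 2 = 1 ∧ ∀ y, z * y = y * z := by
    haveI := hG.center_nontrivial
    obtain ⟨c, hc⟩ := exists_ne (1 : Subgroup.center G)
    have hc1 : (c : G) ≠ 1 := fun h => hc (Subtype.ext h)
    obtain ⟨k, hk⟩ := hG (c : G)
    have hex : ∃ k : ℕ, (c : G) ^ (2 ^ k) = 1 := ⟨k, hk⟩
    set m := Nat.find hex with hm
    have h1 : (c : G) ^ (2 ^ m) = 1 := Nat.find_spec hex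
    have hm0 : m ≠ 0 := by
      intro h0
      rw [h0] at h1
      apply hc1
      simpa using h1
    obtain ⟨j, hj⟩ := Nat.exists_eq_succ_of_ne_zero hm0
    refine ⟨(c : G) ^ (2 ^ j), ?_, ?_, ?_⟩
    · exact Nat.find_min hex (m := j) (by omega)
    · rw [← pow_mul, ← pow_succ, ← Nat.succ_eq_add_one, ← hj]; exact h1
    · intro y
      have h2 : (c : G) ^ (2 ^ j) ∈ Subgroup.center G := Subgroup.pow_mem _ c.2 _
      exact ((Subgroup.mem_center_iff.mp h2) y).symm
  obtain ⟨z, hz1, hz2, hzc⟩ := hcz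
  have hset : Setup Y :=
    { two := hG
      cen := by
        intro x hx y
        by_cases hx1 : x = 1
        · rw [hx1, one_mul, mul_one]
        obtain ⟨a, ha, rfl⟩ := htrans z x hz1 hz2 hx1 hx
        obtain ⟨w, rfl⟩ := a.surjective y
        rw [← map_mul, ← map_mul, hzc]
      trans := htrans }
  obtain ⟨F, iF, iFt, iC, e, K, n, d, hco, hcard, hn, hK, hd, hact⟩ := exists_coord hset hsol htwo
  haveI : Finite (F ≃+* F) := Finite.of_injective (fun σ : F ≃+* F => (σ : F → F)) DFunLike.coe_injective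
  letI : Fintype (F ≃+* F) := Fintype.ofFinite _
  have C : Ctx Y e K :=
    { toSetup := hset
      toCoord := hco
      K_act := hact
      alt := fun B h1 h2 h3 h4 => alt_zero K (fld_n2 hcard hn K hK hd) B h1 h2 h3 h4
      mono := fun S hS b hb => mono_K K (fld_u1 hcard hn K hK hd) S hS b hb
      n3 := fun σ τ hne h => fld_n3 hcard hn K hK hd σ τ hne h }
  have h4 : ∀ x : G, x ^ 4 = 1 := by
    rcases main_dich C _ (⊤ : Subgroup G) rfl (fun a _ x _ => Subgroup.mem_top _) with h | h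
    · exfalso
      apply hna
      exact ⟨⟨fun x y => h x (Subgroup.mem_top _) y (Subgroup.mem_top _)⟩⟩
    · exact fun x => h x (Subgroup.mem_top _)
  exact final_step hG hna Y hset h4

end Cfsg.Agent.S3776
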