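import Cfsg.Statements.S3779
import Cfsg.Agent.Lib.H72GrAut
import Cfsg.Agent.Lib.H31FPFNilp2
-- import your own Cfsg.Agent.* helpers here

set_option autoImplicit false
open Cfsg

namespace Cfsg.Agent.S3779

/-- Let G be a finite group with an automorphism of prime order p fixing only the identity. Then G is nilpotent; if p = 2 then G is abelian, if p = 3 then G has class at most 2, and in general the class of G is at most ξ = 1 + (p−1) + (p−1)² + ⋯ + (p−1)^(n−1) with n = 2^(p−1) − 1 (the Higman–Kreknin–Kostrikin bound). -/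
theorem result {G : Type*} [Group G] [Finite G] {p : ℕ} (hp : p.Prime) (α : MulAut G) (hα : orderOf α = p) (hfpf : ∀ g : G, α g = g → g = 1) : (p = 2 → (⊤ : Subgroup G).lowerCentralSeries 1 = ⊥) ∧ (p = 3 → (⊤ : Subgroup G).lowerCentralSeries 2 = ⊥) ∧ (⊤ : Subgroup G).lowerCentralSeries (Finset.sum (Finset.range (2 ^ (p - 1) - 1)) (fun i => (p - 1) ^ i)) = ⊥ := by
  haveI : Fact p.Prime := ⟨hp⟩
  have hpow : α ^ p = 1 := by rw [← hα]; exact pow_orderOf_eq_one α
  haveI hnil : Group.IsNilpotent G := Cfsg.Agent.Lib.H31FPFNilp2.isNilpotent hp α (fun g h => hfpf g h) hpow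
  have hit : ∀ (k : ℕ) (g : G), (α.toMonoidHom : G →* G)^[k] g = (α ^ k) g := by
    intro k
    induction k with
    | zero => intro g; rfl
    | succ k ih =>
      intro g
      rw [Function.iterate_succ_apply, ih, pow_succ]
      rfl
  have hfp : ∀ g, (α.toMonoidHom : G →* G)^[p] g = g := by
    intro g
    rw [hit, hpow]; rfl
  have hco : (Nat.card G).Coprime p := by
    have hPG : IsPGroup p (Subgroup.zpowers α) := by
      apply IsPGroup.of_card (n := 1)
      rw [Nat.card_zpowers, hα, pow_one]
    have h1 := hPG.card_modEq_card_fixedPoints G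
    have h2 : MulAction.fixedPoints (Subgroup.zpowers α) G = {1} := by
      ext g
      rw [Set.mem_singleton_iff]
      constructor
      · intro h
        exact hfpf g (h ⟨α, Subgroup.mem_zpowers α⟩)
      · rintro rfl a
        exact map_one (a : MulAut G)
    rw [h2, Nat.card_unique (α := ({1} : Set G))] at h1
    rw [Nat.coprime_comm, Nat.Prime.coprime_iff_not_dvd hp]
    intro hd
    have h3 : 0 ≡ 1 [MOD p] := ((Nat.modEq_zero_iff_dvd.2 hd).symm).trans h1
    have h4 := (Nat.modEq_zero_iff_dvd.1 h3.symm)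
    exact hp.one_lt.ne' (Nat.dvd_one.1 h4)
  have h := Cfsg.Agent.Lib.H72GrLie.main (p := p) α.toMonoidHom (fun g h => hfpf g h) hfp hco
  refine ⟨?_, h.2, h.1⟩
  rintro rfl
  exact h.1


end Cfsg.Agent.S3779
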