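import Cfsg.Statements.S3782
import Cfsg.Agent.Lib.AlperinMain

set_option autoImplicit false
open Cfsg

namespace Cfsg.Agent.S3782

/-- Alperin's Theorem: for each prime p and each n ≥ 0 there is an integer l such that every finite solvable group admitting an automorphism of order p with exactly p^n fixed points has derived length at most l. -/
theorem result (p : ℕ) (hp : p.Prime) (n : ℕ) : ∃ l : ℕ, ∀ (G : Type) [Group G] [Finite G], Group.IsSolvable G → ∀ α : MulAut G, orderOf α = p → Nat.card {g : G // α g = g} = p ^ n → derivedSeries G l = ⊥ := by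
  haveI : Fact p.Prime := ⟨hp⟩
  refine ⟨(((p ^ n) ^ p) ^ ((p ^ n) ^ p) + (n * p * ((n + 1) * (Cfsg.Agent.Lib.HigmanAlmost.hh p + 1)) +
    (Cfsg.Agent.Lib.HigmanAlmost.hh p + 1))) + Cfsg.Agent.Lib.HigmanAlmost.hh p, fun G _ _ hs α hα hfix => ?_⟩
  have hit : ∀ (k : ℕ) (g : G), (α.toMonoidHom : G →* G)^[k] g = (α ^ k) g := by
    intro k
    induction k with
    | zero => intro g; rfl
    | succ k ih =>
      intro g
      rw [Function.iterate_succ_apply, ih, pow_succ]
      rfl
  haveI := hs
  exact Cfsg.Agent.Lib.AlperinMain.main (p := p) (n := n) G α.toMonoidHom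
    (fun g => by rw [hit, ← hα, pow_orderOf_eq_one]; rfl) hfix

end Cfsg.Agent.S3782
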