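import Cfsg.Statements.S3802
import Cfsg.Agent.Lib.Subnormal

set_option autoImplicit false
open Cfsg

namespace Cfsg.Agent.S3802

open Cfsg.Agent.Lib.Subnormal

universe u

theorem core_free {G : Type u} [Group G] [Finite G] (M N : Subgroup G) (hM : IsCoatom M) (hN : N.IsSubnormal) (hNM : N ≤ M)
    (hcore : Subgroup.normalCore M = ⊥) : N ≤ Subgroup.normalCore M := by
  haveI : Nontrivial G := by
    by_contra h
    rw [not_nontrivial_iff_subsingleton] at h
    exact hM.1 (Subsingleton.elim _ _)
  obtain ⟨K, hK⟩ := exists_isMinNormal (G := G)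
  have hKn : K.Normal := hK.1
  have hKM : ¬ K ≤ M := by
    intro h
    have := (Subgroup.normal_le_normalCore (H := M) (N := K)).mpr h
    rw [hcore, le_bot_iff] at this
    exact hK.2.1 this
  have hsup : M ⊔ K = ⊤ := by
    apply hM.2
    exact left_lt_sup.mpr hKM
  have hKN := hK.le_normalizer hN
  intro n hn g
  have hg : g ∈ M ⊔ K := by rw [hsup]; trivial
  obtain ⟨m, hm, k, hk, rfl⟩ := Subgroup.mem_sup_of_normal_right.mp hg
  have h1 : k * n * k⁻¹ ∈ N := (Subgroup.mem_normalizer_iff.mp (hKN hk) n).mp hn
  have h2 : m * k * n * (m * k)⁻¹ = m * (k * n * k⁻¹) * m⁻¹ := by group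
  rw [h2]
  exact mul_mem (mul_mem hm (hNM h1)) (inv_mem hm)

/-- Let G be a finite group, M a maximal subgroup of G and N a subnormal subgroup of G contained in M. Then N is contained in every conjugate of M, that is, N lies in the core of M in G. -/
theorem result {G : Type*} [Group G] [Finite G] (M N : Subgroup G) (hM : IsCoatom M) (hN : N.IsSubnormal) (hNM : N ≤ M) :
    N ≤ Subgroup.normalCore M := by
  set C := Subgroup.normalCore M with hC
  have hCM : C ≤ M := Subgroup.normalCore_le M
  let f := QuotientGroup.mk' C
  have hf : Function.Surjective f := QuotientGroup.mk'_surjective C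
  have hker : f.ker = C := QuotientGroup.ker_mk' C
  have hcm : (M.map f).comap f = M := by
    rw [Subgroup.comap_map_eq, hker, sup_eq_left]; exact hCM
  have h1 : IsCoatom (M.map f) := by
    constructor
    · intro h
      apply hM.1
      rw [← hcm, h, Subgroup.comap_top]
    · intro L hL
      have h2 : M < L.comap f := by
        have h5 := (Subgroup.comap_lt_comap_of_surjective hf).mpr hL
        rwa [hcm] at h5
      have h3 := hM.2 _ h2
      rw [← Subgroup.map_comap_eq_self_of_surjective hf L, h3, Subgroup.map_top_of_surjective f hf]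
  have h2 : Subgroup.normalCore (M.map f) = ⊥ := by
    rw [eq_bot_iff]
    intro x hx
    obtain ⟨g, rfl⟩ := hf x
    have h3 : ((M.map f).normalCore).comap f ≤ M := by
      calc ((M.map f).normalCore).comap f ≤ (M.map f).comap f := Subgroup.comap_mono (Subgroup.normalCore_le _)
        _ = M := hcm
    have h4 : ((M.map f).normalCore).comap f ≤ C :=
      (Subgroup.normal_le_normalCore).mpr h3
    have h5 : g ∈ C := h4 hx
    rw [Subgroup.mem_bot]
    exact (QuotientGroup.eq_one_iff g).mpr h5
  have h3 := core_free (M.map f) (N.map f) h1 (hN.map hf) (Subgroup.map_mono hNM) h2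
  rw [h2, le_bot_iff, Subgroup.map_eq_bot_iff, hker] at h3
  exact h3

end Cfsg.Agent.S3802
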