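import Cfsg.Statements.S3803
import Cfsg.Agent.Lib.HBBasic
import Cfsg.Agent.Lib.CoprimeAction2
import Cfsg.Agent.Lib.PCoreTools
import Cfsg.Agent.Lib.Subnormal

set_option autoImplicit false
open Cfsg
open scoped commutatorElement

namespace Cfsg.Agent.S3803

open Subgroup Cfsg.Agent.Lib.HBBasic Cfsg.Agent.Lib.CoprimeAction2

/-- a subgroup of index two of `K` fixed by `a`: commutators of `a` with `K` lie in it. -/
theorem comm_mem_of_index_two {X : Type*} [Group X] {K H : Subgroup X} (hHK : H ≤ K)
    (hidx : (H.subgroupOf K).index = 2) {a : X} (haK : a ∈ normalizer (K : Set X))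
    (haH : a ∈ normalizer (H : Set X)) {k : X} (hk : k ∈ K) : a * k * a⁻¹ * k⁻¹ ∈ H := by
  have h1 : a * k * a⁻¹ ∈ K := (mem_normalizer_iff.mp haK k).mp hk
  have h2 : (⟨a * k * a⁻¹, h1⟩ : K) * (⟨k⁻¹, inv_mem hk⟩ : K) ∈ H.subgroupOf K := by
    rw [mul_mem_iff_of_index_two hidx, mem_subgroupOf, mem_subgroupOf]
    simp only [inv_mem_iff]
    exact (mem_normalizer_iff.mp haH k).symm
  exact h2

/-- Let P be a 2-subgroup and A a subgroup of odd order of a finite group, with A normalizing P. Let D ≤ P with 1 < |D| < |P|. If every subgroup of P of order |D|, and also every subgroup of P of order 4 in case |D| = 2, is normalized by A, then A centralizes P. -/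
theorem result {X : Type*} [Group X] [Finite X] (P A D : Subgroup X) (hP : IsPGroup 2 P) (hA : Odd (Nat.card A))
    (hAP : A ≤ Subgroup.normalizer (P : Set X)) (hDP : D ≤ P) (hD1 : 1 < Nat.card D) (hD2 : Nat.card D < Nat.card P)
    (hinv : ∀ E : Subgroup X, E ≤ P → (Nat.card E = Nat.card D ∨ (Nat.card D = 2 ∧ Nat.card E = 4)) → A ≤ Subgroup.normalizer (E : Set X)) :
    A ≤ Subgroup.centralizer (P : Set X) := by
  classical
  haveI : Fact (Nat.Prime 2) := ⟨Nat.prime_two⟩
  by_contra hcon
  -- minimal A-invariant subgroup on which A acts non-trivially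
  have hne : ({U : Subgroup X | U ≤ P ∧ A ≤ normalizer (U : Set X) ∧ ¬ A ≤ centralizer (U : Set X)}).Nonempty :=
    ⟨P, le_rfl, hAP, hcon⟩
  obtain ⟨U, hU⟩ := Set.Finite.exists_minimal (Set.toFinite _) hne
  obtain ⟨hUP, hAU, hAUc⟩ := hU.prop
  have hmin : ∀ V : Subgroup X, V ≤ U → V ≠ U → A ≤ normalizer (V : Set X) → A ≤ centralizer (V : Set X) := by
    intro V hVU hVne hAV
    by_contra h
    exact hVne (le_antisymm hVU (hU.le_of_le ⟨hVU.trans hUP, hAV, h⟩ hVU))
  have h2grp : ∀ V : Subgroup X, V ≤ P → IsPGroup 2 V := fun V hV => hP.to_le hV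
  have hcop : ∀ V : Subgroup X, V ≤ P → (Nat.card A).Coprime (Nat.card V) := by
    intro V hV
    obtain ⟨n, hn⟩ := IsPGroup.iff_card.mp (h2grp V hV)
    rw [hn]
    exact Nat.Coprime.pow_right n (Nat.coprime_two_right.mpr hA)
  have hsolv : ∀ V : Subgroup X, V ≤ P → Group.IsSolvable V := by
    intro V hV
    haveI := (h2grp V hV).isNilpotent
    infer_instance
  have hcomm_bot : ∀ V : Subgroup X, ⁅V, A⁆ = ⊥ ↔ A ≤ centralizer (V : Set X) := by
    intro V
    rw [commutator_comm, commutator_eq_bot_iff_le_centralizer]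
  -- [U,A] = U
  have hUA : ⁅U, A⁆ = U := by
    have hle : ⁅U, A⁆ ≤ U := le_normalizer_iff_commutator_le_left.mp hAU
    by_contra hne'
    have h1 := hmin _ hle hne' (normalizer_commutator_ge_right U A)
    rw [← hcomm_bot] at h1
    have h2 := commutator_eq_bot_of_commutator_commutator hAU (hcop U hUP) (Or.inr (hsolv U hUP)) h1
    exact hAUc ((hcomm_bot U).mp h2)
  have hUbot : U ≠ ⊥ := by
    intro h
    apply hAUc
    rw [← hcomm_bot, h, commutator_bot_left]
  haveI hUnt : Nontrivial U := (Subgroup.nontrivial_iff_ne_bot U).mpr hUbot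
  set F : Subgroup X := (frattini U).map U.subtype with hF
  have hFU : F ≤ U := map_subtype_le _
  have hFne : F ≠ U := by
    intro h
    have h1 : frattini U = ⊤ := by
      apply Subgroup.map_injective U.subtype_injective
      rw [← hF, h, ← MonoidHom.range_eq_map, Subgroup.range_subtype]
    have h2 : (⊥ : Subgroup U) = ⊤ := frattini_nongenerating (by rw [h1, sup_top_eq])
    exact bot_ne_top h2
  have hAF : A ≤ normalizer (F : Set X) :=
    hAU.trans (Cfsg.Agent.Lib.PCoreTools.normalizer_le_of_characteristic frattini_characteristic)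
  have hFc : A ≤ centralizer (F : Set X) := hmin F hFU hFne hAF
  have hUF : U ≤ normalizer (F : Set X) := by
    have h1 : ((⊤ : Subgroup U).map U.subtype) = U := by
      rw [← MonoidHom.range_eq_map, Subgroup.range_subtype]
    exact (le_normalizer (H := U)).trans (Cfsg.Agent.Lib.PCoreTools.normalizer_le_of_characteristic frattini_characteristic)
  -- U centralizes F
  have hUcF : ⁅U, F⁆ = ⊥ := by
    have h1 : ⁅⁅F, A⁆, U⁆ = ⊥ := by
      rw [(hcomm_bot F).mpr hFc, commutator_bot_left]
    have h2 : ⁅⁅U, F⁆, A⁆ = ⊥ := by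
      have h3 : ⁅U, F⁆ ≤ F := le_normalizer_iff_commutator_le_right.mp hUF
      rw [eq_bot_iff]
      calc ⁅⁅U, F⁆, A⁆ ≤ ⁅F, A⁆ := commutator_mono h3 le_rfl
        _ = ⊥ := (hcomm_bot F).mpr hFc
    have h3 : ⁅⁅A, U⁆, F⁆ = ⊥ := commutator_commutator_eq_bot_of_rotate h2 h1
    rw [commutator_comm A U, hUA] at h3
    exact h3
  have hFcen : ∀ f ∈ F, ∀ u ∈ U, u * f = f * u := by
    intro f hf u hu
    rw [commutator_eq_bot_iff_le_centralizer] at hUcF
    exact (mem_centralizer_iff.mp (hUcF hu) f hf).symm
  have hsqF : ∀ u ∈ U, u ^ 2 ∈ F := by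
    intro u hu
    exact ⟨_, pow_mem_frattini (h2grp U hUP) (⟨u, hu⟩ : U), rfl⟩
  have hcommF : ∀ u ∈ U, ∀ v ∈ U, u * v * u⁻¹ * v⁻¹ ∈ F := by
    intro u hu v hv
    refine ⟨⁅(⟨u, hu⟩ : U), (⟨v, hv⟩ : U)⁆, ?_, rfl⟩
    exact commutator_le_frattini (h2grp U hUP) (commutator_mem_commutator (mem_top _) (mem_top _))
  -- exponent four
  have hc2 : ∀ x ∈ U, ∀ y ∈ U, (y * x * y⁻¹ * x⁻¹) ^ 2 = 1 := by
    intro x hx y hy
    have hc := hFcen _ (hcommF y hy x hx) x hx
    have h1 : y * x ^ 2 * y⁻¹ = x ^ 2 := by
      rw [hFcen _ (hsqF x hx) y hy]; group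
    have h2 : y * x ^ 2 * y⁻¹ = (y * x * y⁻¹ * x⁻¹) ^ 2 * x ^ 2 := by
      have h3 : Commute (y * x * y⁻¹ * x⁻¹) x := hc.symm
      rw [← h3.mul_pow, ← conj_pow]
      congr 1
      group
    rw [h1] at h2
    exact (mul_eq_right.mp h2.symm)
  have hpow4mul : ∀ x ∈ U, ∀ y ∈ U, (x * y) ^ 4 = x ^ 4 * y ^ 4 := by
    intro x hx y hy
    have hcF := hcommF y hy x hx
    have hc := hFcen _ hcF x hx
    have h4 : (x * y) ^ 2 = (y * x * y⁻¹ * x⁻¹) * (x ^ 2 * y ^ 2) := by
      calc (x * y) ^ 2 = x * ((y * x * y⁻¹ * x⁻¹) * x * y) * y := by rw [pow_two]; group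
        _ = (x * (y * x * y⁻¹ * x⁻¹)) * (x * y ^ 2) := by rw [pow_two y]; group
        _ = ((y * x * y⁻¹ * x⁻¹) * x) * (x * y ^ 2) := by rw [hc]
        _ = (y * x * y⁻¹ * x⁻¹) * (x ^ 2 * y ^ 2) := by rw [pow_two x]; group
    have h5 : Commute (x ^ 2) (y ^ 2) := (hFcen _ (hsqF x hx) _ (pow_mem hy 2)).symm
    have h6 : Commute (y * x * y⁻¹ * x⁻¹) (x ^ 2 * y ^ 2) :=
      (hFcen _ hcF _ (mul_mem (pow_mem hx 2) (pow_mem hy 2))).symm
    have e4 : ∀ z : X, z ^ 4 = (z ^ 2) ^ 2 := fun z => by rw [← pow_mul]
    rw [e4, h4, h6.mul_pow, hc2 x hx y hy, one_mul, h5.mul_pow, ← e4, ← e4]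
  have hpow4 : ∀ u ∈ U, u ^ 4 = 1 := by
    let K : Subgroup X :=
      { carrier := {u | u ∈ U ∧ u ^ 4 = 1}
        one_mem' := ⟨one_mem _, one_pow _⟩
        mul_mem' := by
          rintro a b ⟨ha, ha4⟩ ⟨hb, hb4⟩
          exact ⟨mul_mem ha hb, by rw [hpow4mul a ha b hb, ha4, hb4, one_mul]⟩
        inv_mem' := by
          rintro a ⟨ha, ha4⟩
          exact ⟨inv_mem ha, by rw [inv_pow, ha4, inv_one]⟩ }
    have hUK : U ≤ K := by
      rw [← hUA, commutator_le]
      intro u hu a ha
      have h1 : a * u⁻¹ * a⁻¹ ∈ U := (mem_normalizer_iff.mp (hAU ha) _).mp (inv_mem hu)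
      have h2 : ⁅u, a⁆ = u * (a * u⁻¹ * a⁻¹) := by rw [commutatorElement_def]; group
      rw [h2]
      refine ⟨mul_mem hu h1, ?_⟩
      rw [hpow4mul u hu _ h1, conj_pow]
      have h3 : (u⁻¹) ^ 4 ∈ F := by
        have : (u⁻¹) ^ 4 = ((u⁻¹) ^ 2) ^ 2 := by rw [← pow_mul]
        rw [this]
        exact pow_mem (hsqF _ (inv_mem hu)) 2
      have h4 : a * (u⁻¹) ^ 4 = (u⁻¹) ^ 4 * a := (mem_centralizer_iff.mp (hFc ha) _ h3).symm
      rw [h4]; group
    intro u hu
    exact (hUK hu).2
  by_cases hDU : Nat.card D < Nat.card U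
  · -- every element of U \ F is centralized
    have helem : ∀ x ∈ U, x ∉ F → A ≤ centralizer ({x} : Set X) := by
      intro x hx hxF
      have hx4 := hpow4 x hx
      have hord : orderOf x ∣ 4 := orderOf_dvd_of_pow_eq_one hx4
      have hzU : zpowers x ≤ U := by rw [zpowers_le]; exact hx
      -- closing lemma
      have hclose : ∀ E : Subgroup X, E ≤ U → x ∈ E → A ≤ centralizer (E : Set X) → A ≤ centralizer ({x} : Set X) := by
        intro E _ hxE hE
        exact hE.trans (centralizer_le (Set.singleton_subset_iff.mpr hxE))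
      by_cases hle : orderOf x ≤ Nat.card D
      · -- extend ⟨x⟩ to a subgroup of U of order |D|
        obtain ⟨d, hd⟩ := IsPGroup.iff_card.mp (h2grp D hDP)
        obtain ⟨k, _, hk⟩ := (Nat.dvd_prime_pow Nat.prime_two).mp (show orderOf x ∣ 2 ^ 2 from hord)
        obtain ⟨u, hu⟩ := IsPGroup.iff_card.mp (h2grp U hUP)
        have hkd : k ≤ d := by
          rw [hk, hd] at hle
          exact (Nat.pow_le_pow_iff_right (by norm_num)).mp hle
        have hdu : d ≤ u := by
          rw [hd, hu] at hDU
          exact ((Nat.pow_lt_pow_iff_right (by norm_num)).mp hDU).le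
        obtain ⟨E, hE, hzE⟩ := Sylow.exists_subgroup_card_pow_prime_le (G := U) 2 (m := d) (n := k)
          (by rw [hu]; exact pow_dvd_pow 2 hdu) (zpowers (⟨x, hx⟩ : U))
          (by rw [Nat.card_zpowers, ← hk]; exact orderOf_mk x hx) hkd
        have hEU : E.map U.subtype ≤ U := map_subtype_le _
        have hEcard : Nat.card (E.map U.subtype) = Nat.card D := by
          rw [Subgroup.card_map_of_injective U.subtype_injective, hE, hd]
        have hxE : x ∈ E.map U.subtype := ⟨⟨x, hx⟩, hzE (mem_zpowers _), rfl⟩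
        have hAE := hinv _ (hEU.trans hUP) (Or.inl hEcard)
        refine hclose _ hEU hxE (hmin _ hEU ?_ hAE)
        intro h
        rw [h] at hEcard
        omega
      · push Not at hle
        have hD2' : Nat.card D = 2 := by
          have : orderOf x ≤ 4 := Nat.le_of_dvd (by norm_num) hord
          obtain ⟨d, hd⟩ := IsPGroup.iff_card.mp (h2grp D hDP)
          have : d ≠ 0 := by rintro rfl; rw [pow_zero] at hd; omega
          have : d < 2 := by
            by_contra hcon2
            push Not at hcon2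
            have : 2 ^ 2 ≤ 2 ^ d := Nat.pow_le_pow_right (by norm_num) hcon2
            omega
          have : d = 1 := by omega
          rw [hd, this, pow_one]
        have hx4' : orderOf x = 4 := by
          obtain ⟨k, hk2, hk⟩ := (Nat.dvd_prime_pow Nat.prime_two).mp (show orderOf x ∣ 2 ^ 2 from hord)
          interval_cases k <;> simp_all
        have hzcard : Nat.card (zpowers x) = 4 := by rw [Nat.card_zpowers, hx4']
        have hAz := hinv (zpowers x) (hzU.trans hUP) (Or.inr ⟨hD2', hzcard⟩)
        -- A centralizes ⟨x²⟩ and ⟨x⟩/⟨x²⟩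
        have hN : zpowers (x ^ 2) ≤ zpowers x := by
          rw [zpowers_le]; exact pow_mem (mem_zpowers x) 2
        have hNF : zpowers (x ^ 2) ≤ F := by rw [zpowers_le]; exact hsqF x hx
        have hNcard : Nat.card (zpowers (x ^ 2)) = 2 := by
          rw [Nat.card_zpowers, orderOf_pow, hx4']
          norm_num
        have hidx : ((zpowers (x ^ 2)).subgroupOf (zpowers x)).index = 2 := by
          have h1 := Subgroup.relIndex_mul_relIndex ⊥ (zpowers (x ^ 2)) (zpowers x) bot_le hN
          rw [relIndex_bot_left, relIndex_bot_left, hNcard, hzcard] at h1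
          have h2 : (zpowers (x ^ 2)).relIndex (zpowers x) = ((zpowers (x ^ 2)).subgroupOf (zpowers x)).index := rfl
          omega
        have hNc : A ≤ centralizer (zpowers (x ^ 2) : Set X) :=
          hFc.trans (centralizer_le (SetLike.coe_subset_coe.mpr hNF))
        have hNn : A ≤ normalizer (zpowers (x ^ 2) : Set X) := hNc.trans (centralizer_le_normalizer _)
        have h1 : zpowers x ≤ centralizer (A : Set X) := by
          apply le_centralizer_of_series hAz (hcop _ (hzU.trans hUP)) (Or.inr (hsolv _ (hzU.trans hUP))) (N := zpowers (x ^ 2))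
          · rw [commutator_comm, commutator_le]
            intro a ha k hk
            exact comm_mem_of_index_two hN hidx (hAz ha) (hNn ha) hk
          · rw [← commutator_eq_bot_iff_le_centralizer, commutator_comm, commutator_eq_bot_iff_le_centralizer]
            exact hNc
        refine hclose (zpowers x) hzU (mem_zpowers x) ?_
        rw [← commutator_eq_bot_iff_le_centralizer, commutator_comm, commutator_eq_bot_iff_le_centralizer]
        exact h1
    apply hAUc
    intro a ha
    rw [mem_centralizer_iff]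
    intro x hx
    by_cases hxF : x ∈ F
    · exact mem_centralizer_iff.mp (hFc ha) x hxF
    · exact mem_centralizer_iff.mp (helem x hx hxF ha) x rfl
  · -- |U| ≤ |D| < |P|
    push Not at hDU
    obtain ⟨d, hd⟩ := IsPGroup.iff_card.mp (h2grp D hDP)
    obtain ⟨u, hu⟩ := IsPGroup.iff_card.mp (h2grp U hUP)
    obtain ⟨n, hn⟩ := IsPGroup.iff_card.mp hP
    have hud : u ≤ d := by
      rw [hd, hu] at hDU
      exact (Nat.pow_le_pow_iff_right (by norm_num)).mp hDU
    have hdn : d < n := by
      rw [hd, hn] at hD2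
      exact (Nat.pow_lt_pow_iff_right (by norm_num)).mp hD2
    obtain ⟨M₀, hM₀, hUM₀⟩ := Sylow.exists_subgroup_card_pow_prime_le (G := P) 2 (m := d + 1) (n := u)
      (by rw [hn]; exact pow_dvd_pow 2 hdn) (U.subgroupOf P)
      (by rw [← hu]; exact Nat.card_congr (subgroupOfEquivOfLe hUP).toEquiv) (by omega)
    set M := M₀.map P.subtype with hM
    have hMP : M ≤ P := map_subtype_le _
    have hUM : U ≤ M := by
      intro x hx
      exact ⟨⟨x, hUP hx⟩, hUM₀ hx, rfl⟩
    have hMcard : Nat.card M = 2 ^ (d + 1) := by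
      rw [hM, Subgroup.card_map_of_injective P.subtype_injective, hM₀]
    -- coatoms of M are A-invariant
    have hcoat : ∀ H : Subgroup M, IsCoatom H → A ≤ normalizer (H.map M.subtype : Set X) := by
      intro H hH
      have h1 := index_of_isCoatom (h2grp M hMP) hH
      apply hinv _ ((map_subtype_le _).trans hMP)
      left
      rw [Subgroup.card_map_of_injective M.subtype_injective, hd]
      have h2 := H.card_mul_index
      rw [h1, hMcard, pow_succ] at h2
      omega
    haveI hMnt : Nontrivial M := by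
      rw [Subgroup.nontrivial_iff_ne_bot]
      intro h
      rw [h, le_bot_iff] at hUM
      exact hUbot hUM
    obtain ⟨H₁, hH₁, _⟩ := (eq_top_or_exists_le_coatom (⊥ : Subgroup M)).resolve_left bot_ne_top
    by_cases huniq : ∀ H : Subgroup M, IsCoatom H → H = H₁
    · -- M is cyclic
      have hfr : frattini M = H₁ := by
        apply le_antisymm (frattini_le_coatom hH₁)
        unfold frattini Order.radical
        refine le_iInf fun H => le_iInf fun hH => ?_
        rw [huniq H hH]
      obtain ⟨S, hS, hScard⟩ := exists_generating_finset (h2grp M hMP)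
      rw [hfr, index_of_isCoatom (h2grp M hMP) hH₁] at hScard
      have hS1 : S.card ≤ 1 := by
        by_contra hlt
        push Not at hlt
        have : 2 ^ 2 ≤ 2 ^ S.card := Nat.pow_le_pow_right (by norm_num) hlt
        omega
      have hMcyc : IsCyclic M := by
        rw [Finset.card_le_one_iff_subset_singleton] at hS1
        obtain ⟨g, hg⟩ := hS1
        rw [isCyclic_iff_exists_zpowers_eq_top]
        refine ⟨g, ?_⟩
        rw [eq_top_iff, ← hS, closure_le]
        intro y hy
        have := hg hy
        rw [Finset.mem_singleton] at this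
        rw [this]; exact mem_zpowers g
      have hUcyc : IsCyclic U := by
        exact isCyclic_of_injective (inclusion hUM) (inclusion_injective hUM)
      -- index of the Frattini subgroup of U is 2
      obtain ⟨g, hg⟩ := hUcyc.exists_generator
      have hidx : (frattini U).index = 2 := by
        obtain ⟨H₂, hH₂, _⟩ := (eq_top_or_exists_le_coatom (⊥ : Subgroup U)).resolve_left bot_ne_top
        have h1 : H₂ = zpowers (g ^ 2) := by
          have hle : zpowers (g ^ 2) ≤ H₂ := by
            rw [zpowers_le]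
            exact frattini_le_coatom hH₂ (pow_mem_frattini (h2grp U hUP) g)
          have hidx2 := index_of_isCoatom (h2grp U hUP) hH₂
          have hgN : g ∉ H₂ := by
            intro h
            apply hH₂.1
            rw [eq_top_iff]
            intro y _
            obtain ⟨k, hk⟩ := hg y
            rw [← hk]; exact zpow_mem h k
          apply le_antisymm _ hle
          intro y hy
          obtain ⟨k, hk⟩ := mem_zpowers_iff.mp (hg y)
          rcases Int.even_or_odd k with ⟨m, hm⟩ | ⟨m, hm⟩
          · rw [← hk, hm, ← two_mul, zpow_mul, zpow_ofNat]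
            exact zpow_mem (mem_zpowers _) m
          · exfalso
            apply hgN
            have h3 : g = (g ^ 2) ^ (-m) * y := by
              rw [← hk, hm, ← zpow_ofNat, ← zpow_mul, ← zpow_add]
              have : (2:ℤ) * -m + (2 * m + 1) = 1 := by ring
              rw [this, zpow_one]
            rw [h3]
            exact mul_mem (hle (zpow_mem (mem_zpowers _) _)) hy
        have h2 : frattini U = H₂ := by
          apply le_antisymm (frattini_le_coatom hH₂)
          rw [h1, zpowers_le]
          exact pow_mem_frattini (h2grp U hUP) g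
        rw [h2]; exact index_of_isCoatom (h2grp U hUP) hH₂
      have hsubF : F.subgroupOf U = frattini U := by
        rw [hF, subgroupOf, comap_map_eq_self_of_injective U.subtype_injective]
      -- so [U,A] ≤ F
      have : U ≤ F := by
        conv_lhs => rw [← hUA]
        rw [commutator_comm, commutator_le]
        intro a ha k hk
        exact comm_mem_of_index_two hFU (by rw [hsubF]; exact hidx) (hAU ha) (hAF ha) hk
      exact hFne (le_antisymm hFU this)
    · push Not at huniq
      obtain ⟨H₂, hH₂, hne12⟩ := huniq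
      have hsup : H₁ ⊔ H₂ = ⊤ := by
        apply hH₁.2
        refine lt_of_le_of_ne le_sup_left ?_
        intro h
        have h1 : H₂ ≤ H₁ := by rw [h]; exact le_sup_right
        rcases hH₂.le_iff.mp h1 with h2 | h2
        · exact hH₁.1 h2
        · exact hne12 h2.symm
      have hAM : A ≤ normalizer (M : Set X) := by
        have h1 : M = H₁.map M.subtype ⊔ H₂.map M.subtype := by
          rw [← Subgroup.map_sup, hsup, ← MonoidHom.range_eq_map, Subgroup.range_subtype]
        have h2 := hcoat H₁ hH₁
        have h3 := hcoat H₂ hH₂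
        rw [h1]
        exact (le_inf h2 h3).trans (Cfsg.Agent.Lib.Subnormal.normalizer_inf_le_normalizer_sup _ _)
      apply hAUc
      have h4 : A ≤ centralizer (M : Set X) := by
        apply le_centralizer_of_frattini hAM
        · exact Nat.Coprime.coprime_dvd_right (Subgroup.card_subgroup_dvd_card _) (hcop M hMP)
        · intro a ha k hk
          have h5 : a * k * a⁻¹ ∈ M := (mem_normalizer_iff.mp (hAM ha) k).mp hk
          refine ⟨⟨a * k * a⁻¹ * k⁻¹, mul_mem h5 (inv_mem hk)⟩, ?_, rfl⟩
          unfold frattini Order.radical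
          rw [SetLike.mem_coe, Subgroup.mem_iInf]
          intro H
          rw [Subgroup.mem_iInf]
          intro hH
          have h6 := comm_mem_of_index_two (K := M) (H := H.map M.subtype) (map_subtype_le _)
            (by
              rw [subgroupOf, comap_map_eq_self_of_injective M.subtype_injective]
              exact index_of_isCoatom (h2grp M hMP) hH) (hAM ha) (hcoat H hH ha) hk
          obtain ⟨y, hy, hyk⟩ := h6
          have h7 : y = ⟨a * k * a⁻¹ * k⁻¹, mul_mem h5 (inv_mem hk)⟩ := Subtype.ext hyk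
          rw [← h7]; exact hy
      exact h4.trans (centralizer_le (SetLike.coe_subset_coe.mpr hUM))

end Cfsg.Agent.S3803
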