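import Cfsg.Statements.S3815

set_option autoImplicit false
open Cfsg

namespace Cfsg.Agent.S3815

/-- Let G be a finite group, p a prime and d ∈ G an element of order prime to p. If dg has order prime to p for every element g ∈ G of order prime to p, then d ∈ O_{p'}(G). -/
theorem result {G : Type*} [Group G] [Finite G] {p : ℕ} [Fact p.Prime]
    (d : G) (hd : (orderOf d).Coprime p)
    (h : ∀ g : G, (orderOf g).Coprime p → (orderOf (d * g)).Coprime p) :
    d ∈ Cfsg.pPrimeCore p G := by
  let M : Submonoid G :=
    { carrier := {x | ∀ g : G, (orderOf g).Coprime p → (orderOf (x * g)).Coprime p}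
      one_mem' := by intro g hg; simpa using hg
      mul_mem' := by
        intro a b ha hb g hg
        rw [mul_assoc]
        exact ha _ (hb g hg) }
  let D : Subgroup G :=
    { M with
      inv_mem' := by
        intro x hx
        have hx' : x ∈ M := hx
        have : x⁻¹ = x ^ (orderOf x - 1) := by
          have h1 := orderOf_pos x
          rw [inv_eq_iff_mul_eq_one, ← pow_succ']
          rw [Nat.sub_add_cancel h1, pow_orderOf_eq_one]
        change x⁻¹ ∈ M
        rw [this]
        exact M.pow_mem hx' _ }
  have hDn : D.Normal := by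
    constructor
    intro x hx y g hg
    have hx' : ∀ g : G, (orderOf g).Coprime p → (orderOf (x * g)).Coprime p := hx
    have h1 : (orderOf (y⁻¹ * g * y)).Coprime p := by
      have : orderOf (y⁻¹ * g * y) = orderOf g := by
        have := MulEquiv.orderOf_eq (MulAut.conj y⁻¹) g
        simpa [MulAut.conj_apply] using this
      rw [this]; exact hg
    have h2 := hx' _ h1
    have : orderOf (y * x * y⁻¹ * g) = orderOf (x * (y⁻¹ * g * y)) := by
      have := MulEquiv.orderOf_eq (MulAut.conj y) (x * (y⁻¹ * g * y))
      rw [← this]
      simp [MulAut.conj_apply, mul_assoc]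
    rw [this]; exact h2
  have hDord : ∀ x ∈ D, (orderOf x).Coprime p := by
    intro x hx
    have hx' : ∀ g : G, (orderOf g).Coprime p → (orderOf (x * g)).Coprime p := hx
    simpa using hx' 1 (by simp)
  have hDcard : (Nat.card D).Coprime p := by
    rw [Nat.coprime_comm, (Fact.out : p.Prime).coprime_iff_not_dvd]
    intro hdvd
    obtain ⟨x, hx⟩ := exists_prime_orderOf_dvd_card' p hdvd
    have h1 := hDord x x.2
    rw [Subgroup.orderOf_coe, hx, Nat.coprime_self] at h1
    exact (Fact.out : p.Prime).one_lt.ne' h1
  have hdD : d ∈ D := h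
  exact (le_sSup (show D ∈ {N : Subgroup G | N.Normal ∧ (Nat.card N).Coprime p} from ⟨hDn, hDcard⟩)) hdD

end Cfsg.Agent.S3815
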