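import Cfsg.Statements.S3816
import Mathlib
import Cfsg.Agent.Lib.GlaubCyc2
import Cfsg.Agent.Lib.Codegree
import Cfsg.Agent.Lib.StructConst
import Cfsg.Agent.Lib.CoprimeAction2

set_option autoImplicit false
open Cfsg

namespace Cfsg.Agent.S3816

open Subgroup Cfsg.Agent.Lib.GlaubCyc Cfsg.Agent.Lib.CharBasic
open scoped commutatorElement Pointwise

universe u

variable {Γ : Type u} [Group Γ] [Finite Γ]

theorem sub_conj {L : Subgroup Γ} {s t : Γ} (hs : zpowers s ≤ normalizer (L : Set Γ))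
    (hcop : (Nat.card L).Coprime (Nat.card (zpowers s))) (ht : zpowers t = zpowers s) {y : Γ} (hy : y ∈ L) :
    ∃ g ∈ L, ∃ c ∈ L, Commute c t ∧ y * t = g * (c * t) * g⁻¹ := by
  set A : Subgroup Γ := L ⊔ zpowers s with hA
  have hLA : L ≤ A := le_sup_left
  have hSA : zpowers s ≤ A := le_sup_right
  have htA : t ∈ A := hSA (ht ▸ mem_zpowers t)
  have hcyc : Cyc (L.subgroupOf A) ((zpowers s).subgroupOf A)
      (L.subgroupOf A ⊓ centralizer (((zpowers s).subgroupOf A : Subgroup A) : Set A)) := by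
    refine ⟨?_, ?_, ?_, rfl⟩
    · exact (normal_subgroupOf_iff_le_normalizer hLA).2 (sup_le le_normalizer hs)
    · rw [Nat.card_congr (subgroupOfEquivOfLe hLA).toEquiv, Nat.card_congr (subgroupOfEquivOfLe hSA).toEquiv]
      exact hcop
    · rw [← subgroupOf_sup hLA hSA, ← hA, subgroupOf_self]
  have htz : zpowers (⟨t, htA⟩ : A) = (zpowers s).subgroupOf A := by
    rw [← ht]
    ext ⟨z, hz⟩
    rw [mem_subgroupOf, mem_zpowers_iff, mem_zpowers_iff]
    constructor
    · rintro ⟨k, hk⟩; exact ⟨k, congrArg Subtype.val hk⟩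
    · rintro ⟨k, hk⟩; exact ⟨k, Subtype.ext hk⟩
  obtain ⟨g, hg, c, hc, he⟩ := hcyc.exists_conj htz (x := ⟨y * t, A.mul_mem (hLA hy) htA⟩) (by
    rw [mem_subgroupOf]
    show y * t * t⁻¹ ∈ L
    rw [mul_inv_cancel_right]; exact hy)
  have hc' := (hcyc.mem_C htz).1 hc
  exact ⟨g, hg, c, hc'.1, congrArg Subtype.val hc'.2, congrArg Subtype.val he⟩

theorem main {K D : Subgroup Γ} {s : Γ} (hK : K.Normal) {p : ℕ} [Fact p.Prime] (hp2 : p ≠ 2)
    (hos : orderOf s = p) (hcop : (Nat.card K).Coprime p) (htop : K ⊔ zpowers s = ⊤)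
    (hKs : K ≤ ⁅K, zpowers s⁆)
    (hDC : D ≤ K ⊓ centralizer (zpowers s : Set Γ))
    (hDn : ∀ c ∈ K ⊓ centralizer (zpowers s : Set Γ), ∀ d ∈ D, c * d * c⁻¹ ∈ D)
    (hD : ∀ h ∈ K, ∃ L : Subgroup Γ, L ≤ K ∧ zpowers s ≤ normalizer (L : Set Γ) ∧
      h⁻¹ * (s * h * s⁻¹) ∈ L ∧ ∀ c ∈ L, Commute c s → c ∈ D) :
    K ⊓ centralizer (zpowers s : Set Γ) ≤ D := by
  classical
  have := Fintype.ofFinite Γ
  intro c₀ hc₀
  by_contra hc₀D
  set S : Subgroup Γ := zpowers s with hS
  set C : Subgroup Γ := K ⊓ centralizer (S : Set Γ) with hC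
  have hcardS : Nat.card S = p := by rw [hS, Nat.card_zpowers, hos]
  have hcyc : Cyc K S C := ⟨hK, by rw [hcardS]; exact hcop, htop, rfl⟩
  have hcycS : IsCyclic S := inferInstance
  -- the normal subgroup `D` of `C`
  have hDn' : (D.subgroupOf C).Normal := by
    constructor
    intro d hd c
    rw [mem_subgroupOf] at hd ⊢
    exact hDn c c.2 d hd
  obtain ⟨ψ, hψ⟩ : ∃ ψ : IrrCharacter (C ⧸ D.subgroupOf C),
      (ψ : (C ⧸ D.subgroupOf C) → ℂ) ((⟨c₀, hc₀⟩ : C) : C ⧸ D.subgroupOf C) ≠ (ψ : (C ⧸ D.subgroupOf C) → ℂ) 1 := by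
    by_contra hcon
    push Not at hcon
    have h1 := (isConj_iff_forall_irr ((⟨c₀, hc₀⟩ : C) : C ⧸ D.subgroupOf C) 1).2 hcon
    rw [isConj_one_left, QuotientGroup.eq_one_iff, mem_subgroupOf] at h1
    exact hc₀D h1
  have hlam := ψ.2.comp_surjective (QuotientGroup.mk' (D.subgroupOf C)) (QuotientGroup.mk'_surjective _)
  set lam : C → ℂ := fun c => (ψ : (C ⧸ D.subgroupOf C) → ℂ) (QuotientGroup.mk' (D.subgroupOf C) c) with hlamdef
  have hlamD : ∀ c : C, (c : Γ) ∈ D → lam c = lam 1 := by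
    intro c hc
    have h1 : QuotientGroup.mk' (D.subgroupOf C) c = QuotientGroup.mk' (D.subgroupOf C) 1 := by
      rw [map_one, QuotientGroup.mk'_apply, QuotientGroup.eq_one_iff, mem_subgroupOf]
      exact hc
    rw [hlamdef]
    show (ψ : (C ⧸ D.subgroupOf C) → ℂ) _ = (ψ : (C ⧸ D.subgroupOf C) → ℂ) _
    rw [h1]
  have hlamne : lam ⟨c₀, hc₀⟩ ≠ lam 1 := by
    rw [hlamdef]
    show (ψ : (C ⧸ D.subgroupOf C) → ℂ) _ ≠ (ψ : (C ⧸ D.subgroupOf C) → ℂ) _
    rw [map_one]
    exact hψ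
  obtain ⟨χ, χh, ε, -, hcan, hε, hval⟩ := hcyc.surj hcycS hS.symm (⟨lam, hlam⟩ : IrrCharacter C)
  have hval' : ∀ c : C, ∀ t : Γ, zpowers t = S → χh (c * t) = (ε : ℂ) * lam c := hval
  have hs2 : zpowers (s ^ 2) = S := by
    rw [hS]
    apply le_antisymm
    · rw [zpowers_le]; exact pow_mem (mem_zpowers s) 2
    · rw [zpowers_le]
      have hodd : Odd p := (Fact.out : p.Prime).odd_of_ne_two hp2
      obtain ⟨k, hk⟩ := hodd
      rw [mem_zpowers_iff]
      refine ⟨((k + 1 : ℕ) : ℤ), ?_⟩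
      rw [zpow_natCast, ← pow_mul, show 2 * (k + 1) = p + 1 by omega, pow_succ, ← hos, pow_orderOf_eq_one, one_mul]
  have hconst : ∀ b : Γ, χh (s * (b * s * b⁻¹)) = (ε : ℂ) * lam 1 := by
    intro b
    obtain ⟨g, hg, t, ht, rfl⟩ := hcyc.decomp b
    have hts : t * s * t⁻¹ = s := by
      rw [hS] at ht
      obtain ⟨k, rfl⟩ := mem_zpowers_iff.1 ht
      group
    have h1 : g * t * s * (g * t)⁻¹ = g * s * g⁻¹ := by
      calc g * t * s * (g * t)⁻¹ = g * (t * s * t⁻¹) * g⁻¹ := by group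
        _ = _ := by rw [hts]
    rw [h1]
    obtain ⟨L, hLK, hLn, hl, hLD⟩ := hD g⁻¹ (K.inv_mem hg)
    rw [inv_inv] at hl
    have hl2 : s * (g * (s * g⁻¹ * s⁻¹)) * s⁻¹ ∈ L :=
      (mem_normalizer_iff.1 (hLn (mem_zpowers s)) _).1 hl
    have hcopL : (Nat.card L).Coprime (Nat.card (zpowers s)) := by
      rw [Nat.card_zpowers, hos]
      exact hcop.coprime_dvd_left (card_dvd_of_le hLK)
    obtain ⟨a, ha, c, hc, hcomm, he⟩ := sub_conj hLn hcopL (t := s ^ 2) hs2 hl2
    have h2 : s * (g * s * g⁻¹) = s * (g * (s * g⁻¹ * s⁻¹)) * s⁻¹ * s ^ 2 := by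
      simp only [pow_two]; group
    rw [h2, he, hcan.irr'.isClassFunction]
    have hcs : Commute c s := by
      have h3 : s ∈ zpowers (s ^ 2) := by rw [hs2, hS]; exact mem_zpowers s
      obtain ⟨k, hk⟩ := mem_zpowers_iff.1 h3
      rw [← hk]
      exact hcomm.zpow_right k
    have hcD := hLD c hc hcs
    rw [hval' ⟨c, hDC hcD⟩ (s ^ 2) hs2, hlamD ⟨c, hDC hcD⟩ hcD]
  have hχs : χh s = (ε : ℂ) * lam 1 := by
    have := hval' 1 s hS.symm
    rwa [OneMemClass.coe_one, one_mul] at this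
  have hsum := Cfsg.Agent.Lib.StructConst.sum_conj_mul hcan.irr' s s
  rw [Finset.sum_congr rfl fun b _ => hconst b, Finset.sum_const, Finset.card_univ, nsmul_eq_mul,
    ← Nat.card_eq_fintype_card, hχs] at hsum
  have hcard : (Nat.card Γ : ℂ) ≠ 0 := Nat.cast_ne_zero.2 Nat.card_pos.ne'
  have hχ1 := hcan.irr'.one_ne_zero
  have hε2 : (ε : ℂ) ≠ 0 := by rcases hε with rfl | rfl <;> norm_num
  have hlam1 : lam 1 ≠ 0 := hlam.one_ne_zero
  have hkey : χh 1 = (ε : ℂ) * lam 1 := by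
    rw [eq_div_iff hχ1] at hsum
    have h3 : (Nat.card Γ : ℂ) * ((ε : ℂ) * lam 1) * (χh 1 - (ε : ℂ) * lam 1) = 0 := by
      linear_combination hsum
    rcases mul_eq_zero.1 h3 with h4 | h4
    · exact absurd h4 (mul_ne_zero hcard (mul_ne_zero hε2 hlam1))
    · exact sub_eq_zero.1 h4
  -- so `s` is in the kernel
  have hch := hcan.irr'.isCharacter
  have hN := Cfsg.Agent.Lib.Codegree.kerS_normal hch
  set N := Cfsg.Agent.Lib.Codegree.kerS hch with hNdef
  have hsN : s ∈ N := by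
    rw [hNdef, Cfsg.Agent.Lib.Codegree.mem_kerS, hχs, hkey]
  have hSN : S ≤ N := by rw [hS, zpowers_le]; exact hsN
  have hKN : K ≤ N := hKs.trans ((commutator_mono le_rfl hSN).trans (commutator_le_right _ _))
  have hall : ∀ g : Γ, χh g = χh 1 := by
    intro g
    have : g ∈ N := by
      have h1 : (⊤ : Subgroup Γ) ≤ N := by rw [← htop]; exact sup_le hKN hSN
      exact h1 (mem_top g)
    exact this
  have h5 := hval' ⟨c₀, hc₀⟩ s hS.symm
  rw [hall, hkey] at h5
  exact hlamne (mul_left_cancel₀ hε2 h5).symm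

/-- The version inside a bigger group. -/
theorem main' {K D : Subgroup Γ} {s : Γ} {p : ℕ} [Fact p.Prime] (hp2 : p ≠ 2)
    (hos : orderOf s = p) (hcop : (Nat.card K).Coprime p) (hn : zpowers s ≤ normalizer (K : Set Γ))
    (hKs : K ≤ ⁅K, zpowers s⁆)
    (hDC : D ≤ K ⊓ centralizer (zpowers s : Set Γ))
    (hDn : ∀ c ∈ K ⊓ centralizer (zpowers s : Set Γ), ∀ d ∈ D, c * d * c⁻¹ ∈ D)
    (hD : ∀ h ∈ K, ∃ L : Subgroup Γ, L ≤ K ∧ zpowers s ≤ normalizer (L : Set Γ) ∧
      h⁻¹ * (s * h * s⁻¹) ∈ L ∧ ∀ c ∈ L, Commute c s → c ∈ D) :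
    K ⊓ centralizer (zpowers s : Set Γ) ≤ D := by
  set A : Subgroup Γ := K ⊔ zpowers s with hA
  have hKA : K ≤ A := le_sup_left
  have hSA : zpowers s ≤ A := le_sup_right
  have hsA : s ∈ A := hSA (mem_zpowers s)
  have htz : zpowers (⟨s, hsA⟩ : A) = (zpowers s).subgroupOf A := by
    ext ⟨z, hz⟩
    rw [mem_subgroupOf, mem_zpowers_iff, mem_zpowers_iff]
    constructor
    · rintro ⟨k, hk⟩; exact ⟨k, congrArg Subtype.val hk⟩
    · rintro ⟨k, hk⟩; exact ⟨k, Subtype.ext hk⟩
  have hcent : ∀ x : A, x ∈ K.subgroupOf A ⊓ centralizer (zpowers (⟨s, hsA⟩ : A) : Set A) ↔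
      (x : Γ) ∈ K ⊓ centralizer (zpowers s : Set Γ) := by
    intro x
    rw [mem_inf, mem_inf, mem_subgroupOf]
    refine and_congr_right fun _ => ?_
    rw [mem_centralizer_iff, mem_centralizer_iff]
    constructor
    · intro h y hy
      have h1 : (⟨y, hSA hy⟩ : A) ∈ zpowers (⟨s, hsA⟩ : A) := by rw [htz, mem_subgroupOf]; exact hy
      exact congrArg Subtype.val (h _ h1)
    · intro h y hy
      have h1 : (y : Γ) ∈ zpowers s := by
        have h2 : y ∈ (zpowers s).subgroupOf A := by rw [← htz]; exact hy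
        exact h2
      exact Subtype.ext (h _ h1)
  have hmain := main (Γ := A) (K := K.subgroupOf A) (D := D.subgroupOf A) (s := ⟨s, hsA⟩)
    ((normal_subgroupOf_iff_le_normalizer hKA).2 (sup_le le_normalizer hn)) hp2
    (by rw [orderOf_mk]; exact hos)
    (by rw [Nat.card_congr (subgroupOfEquivOfLe hKA).toEquiv]; exact hcop)
    (by rw [htz, ← subgroupOf_sup hKA hSA, ← hA, subgroupOf_self])
    (by
      rw [htz]
      have h1 : Function.Injective A.subtype := A.subtype_injective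
      rw [← map_le_map_iff_of_injective h1, map_commutator, map_subgroupOf_eq_of_le hKA, map_subgroupOf_eq_of_le hSA]
      exact hKs)
    (by
      intro x hx
      rw [hcent]
      exact hDC hx)
    (by
      intro c hc d hd
      rw [hcent] at hc
      exact hDn c hc d hd)
    (by
      intro h hh
      obtain ⟨L, h1, h2, h3, h4⟩ := hD h hh
      refine ⟨L.subgroupOf A, fun x hx => h1 hx, ?_, h3, ?_⟩
      · rw [zpowers_le, mem_normalizer_iff]
        intro x
        exact mem_normalizer_iff.1 (h2 (mem_zpowers s)) x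
      · intro c hc hcs
        exact h4 c hc (congrArg Subtype.val hcs))
  intro c hc
  have := hmain ((hcent ⟨c, hKA hc.1⟩).2 hc)
  exact this

theorem inl_conj {H : Type u} [Group H] (x : MulAut H) (i : ℤ) (h : H) :
    (SemidirectProduct.inr (⟨x, mem_zpowers x⟩ : zpowers x) : H ⋊[(zpowers x).subtype] (zpowers x)) ^ i *
      SemidirectProduct.inl h * ((SemidirectProduct.inr (⟨x, mem_zpowers x⟩ : zpowers x)) ^ i)⁻¹ =
      SemidirectProduct.inl ((x ^ i) h) := by
  rw [← map_zpow, ← map_inv, ← SemidirectProduct.inl_aut]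
  congr 1

/-- Let p be an odd prime, H a finite solvable group of order prime to p, and x an automorphism of H of order p (so P = ⟨x⟩ has prime order p > 2 and acts coprimely on H). For h ∈ H let [h, P] be the subgroup generated by the commutators h⁻¹·xⁱ(h), and let [H, P] be the subgroup generated by all of these. Then the fixed points of x in [H, P] are generated by the fixed points of x in the subgroups [h, P], h ∈ H. -/
theorem result {H : Type*} [Group H] [Finite H]
    [Group.IsSolvable H] {p : ℕ} [Fact p.Prime] (hp : p ≠ 2) (hcop : (Nat.card H).Coprime p)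
    (x : MulAut H) (hx : orderOf x = p) :
    Subgroup.closure {c : H | ∃ h : H, ∃ i : ℕ, c = h⁻¹ * (x ^ i) h} ⊓ (x : H →* H).eqLocus (MonoidHom.id H) =
      ⨆ h : H, Subgroup.closure {c : H | ∃ i : ℕ, c = h⁻¹ * (x ^ i) h} ⊓ (x : H →* H).eqLocus (MonoidHom.id H) := by
  classical
  set E : Subgroup H := (x : H →* H).eqLocus (MonoidHom.id H) with hE
  have hmemE : ∀ y : H, y ∈ E ↔ x y = y := fun y => Iff.rfl
  set KH : Subgroup H := closure {c : H | ∃ h : H, ∃ i : ℕ, c = h⁻¹ * (x ^ i) h} with hKH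
  let Lh : H → Subgroup H := fun h => closure {c : H | ∃ i : ℕ, c = h⁻¹ * (x ^ i) h}
  have hLK : ∀ h, Lh h ≤ KH := by
    intro h
    apply Subgroup.closure_mono
    rintro c ⟨i, rfl⟩
    exact ⟨h, i, rfl⟩
  set DH : Subgroup H := ⨆ h : H, Lh h ⊓ E with hDH
  have hDle : DH ≤ KH ⊓ E := iSup_le fun h => inf_le_inf_right _ (hLK h)
  refine le_antisymm ?_ hDle
  -- the semidirect product
  let s : H ⋊[(zpowers x).subtype] (zpowers x) := SemidirectProduct.inr (⟨x, mem_zpowers x⟩ : zpowers x)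
  let ι : H →* H ⋊[(zpowers x).subtype] (zpowers x) := SemidirectProduct.inl
  have hι : Function.Injective ι := SemidirectProduct.inl_injective
  have hfin : Finite (H ⋊[(zpowers x).subtype] (zpowers x)) :=
    Finite.of_injective (fun a => (a.1, a.2)) (by
      intro a b hab
      exact SemidirectProduct.ext (congrArg Prod.fst hab) (congrArg Prod.snd hab))
  have hcz : ∀ (i : ℤ) (h : H), s ^ i * ι h * (s ^ i)⁻¹ = ι ((x ^ i) h) := inl_conj x
  have hcj : ∀ h : H, s * ι h * s⁻¹ = ι (x h) := by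
    intro h
    have := hcz 1 h
    rwa [zpow_one, zpow_one] at this
  have hos : orderOf s = p := by
    have h1 : orderOf s = orderOf (⟨x, mem_zpowers x⟩ : zpowers x) :=
      orderOf_injective _ SemidirectProduct.inr_injective _
    rw [h1, orderOf_mk, hx]
  have hpowz : ∀ k : ℤ, ∃ i : ℕ, x ^ k = x ^ i := by
    intro k
    have h1 : x ^ k ∈ zpowers x := zpow_mem_zpowers x k
    rw [← mem_powers_iff_mem_zpowers] at h1
    obtain ⟨i, hi⟩ := h1
    exact ⟨i, hi.symm⟩
  -- the commutator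
  have hKeq : ⁅ι.range, zpowers s⁆ = KH.map ι := by
    apply le_antisymm
    · rw [commutator_le]
      rintro _ ⟨h, rfl⟩ t ht
      obtain ⟨k, rfl⟩ := mem_zpowers_iff.1 ht
      obtain ⟨i, hi⟩ := hpowz k
      have h1 : ⁅ι h, s ^ k⁆ = ι ((h⁻¹)⁻¹ * (x ^ i) h⁻¹) := by
        rw [commutatorElement_def, map_mul, inv_inv, ← hi, ← hcz, map_inv]
        group
      rw [h1]
      exact mem_map_of_mem _ (subset_closure ⟨h⁻¹, i, rfl⟩)
    · rw [hKH, MonoidHom.map_closure, closure_le]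
      rintro _ ⟨_, ⟨h, i, rfl⟩, rfl⟩
      have h1 : ι (h⁻¹ * (x ^ i) h) = ⁅ι h⁻¹, s ^ (i : ℤ)⁆ := by
        rw [commutatorElement_def, map_mul]
        have h2 := hcz (i : ℤ) h
        rw [zpow_natCast x] at h2
        rw [← h2, map_inv]
        group
      rw [h1]
      exact commutator_mem_commutator ⟨h⁻¹, rfl⟩ (zpow_mem_zpowers s _)
  have hSn : zpowers s ≤ normalizer (ι.range : Set (H ⋊[(zpowers x).subtype] (zpowers x))) := by
    rw [zpowers_le]
    have hr : ι.range.Normal := by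
      show (SemidirectProduct.inl : H →* H ⋊[(zpowers x).subtype] (zpowers x)).range.Normal
      rw [SemidirectProduct.range_inl_eq_ker_rightHom]
      infer_instance
    rw [normalizer_eq_top]
    exact mem_top s
  have hcardι : Nat.card ι.range = Nat.card H := Nat.card_congr (MonoidHom.ofInjective hι).toEquiv.symm
  have hcardS : Nat.card (zpowers s) = p := by rw [Nat.card_zpowers, hos]
  have hcopA : (Nat.card (zpowers s)).Coprime (Nat.card ι.range) := by
    rw [hcardS, hcardι]; exact hcop.symm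
  have hsolvS : Group.IsSolvable (zpowers s) := inferInstance
  have hcomm2 := Cfsg.Agent.Lib.CoprimeAction2.commutator_commutator hSn hcopA (Or.inl hsolvS)
  rw [hKeq] at hcomm2
  have hKn : zpowers s ≤ normalizer ((KH.map ι : Subgroup _) : Set (H ⋊[(zpowers x).subtype] (zpowers x))) := by
    rw [← hKeq]
    exact normalizer_commutator_ge_right _ _
  have hcent : ∀ y : H, ι y ∈ centralizer ((zpowers s : Subgroup _) : Set (H ⋊[(zpowers x).subtype] (zpowers x))) ↔ y ∈ E := by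
    intro y
    rw [hmemE, mem_centralizer_iff]
    constructor
    · intro h
      have h1 := h s (mem_zpowers s)
      apply hι
      rw [← hcj, h1, mul_inv_cancel_right]
    · intro h t ht
      obtain ⟨k, rfl⟩ := mem_zpowers_iff.1 ht
      have h1 : Commute s (ι y) := by
        show s * ι y = ι y * s
        have h2 := hcj y
        rw [h] at h2
        rw [← h2, inv_mul_cancel_right, h2]
      exact (h1.zpow_left k).eq
  have hxpow : ∀ y : H, y ∈ E → ∀ i : ℕ, (x ^ i) y = y := by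
    intro y hy i
    induction i with
    | zero => rfl
    | succ i ih => rw [pow_succ, MulAut.mul_apply, (hmemE y).1 hy, ih]
  have hmain := main' (Γ := H ⋊[(zpowers x).subtype] (zpowers x)) (K := KH.map ι) (D := DH.map ι) (s := s) hp hos
    (hcop.coprime_dvd_left (by
      rw [card_map_of_injective hι]
      exact card_subgroup_dvd_card KH)) hKn hcomm2.ge
    (by
      rintro _ ⟨y, hy, rfl⟩
      exact ⟨mem_map_of_mem _ (hDle hy).1, (hcent y).2 (hDle hy).2⟩)
    (by
      rintro _ ⟨⟨c, hc, rfl⟩, hc2⟩ _ ⟨d, hd, rfl⟩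
      have hcE : c ∈ E := (hcent c).1 hc2
      rw [← map_mul, ← map_inv, ← map_mul]
      refine mem_map_of_mem _ ?_
      have h1 : DH ≤ DH.comap (MulAut.conj c).toMonoidHom := by
        conv_lhs => rw [hDH]
        refine iSup_le fun h => ?_
        intro y hy
        have h2 : Lh h ≤ (Lh (h * c⁻¹)).comap (MulAut.conj c).toMonoidHom := by
          refine (closure_le _).2 ?_
          rintro _ ⟨i, rfl⟩
          show c * (h⁻¹ * (x ^ i) h) * c⁻¹ ∈ Lh (h * c⁻¹)
          refine subset_closure ⟨i, ?_⟩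
          rw [map_mul, map_inv, hxpow c hcE]
          group
        have h3 : c * y * c⁻¹ ∈ Lh (h * c⁻¹) ⊓ E := by
          refine ⟨h2 hy.1, ?_⟩
          exact E.mul_mem (E.mul_mem hcE hy.2) (E.inv_mem hcE)
        exact (le_iSup (fun h => Lh h ⊓ E) (h * c⁻¹)) h3
      exact h1 hd)
    (by
      rintro _ ⟨h, hh, rfl⟩
      refine ⟨(Lh h).map ι, map_mono (hLK h), ?_, ?_, ?_⟩
      · rw [zpowers_le]
        have h1 : Lh h ≤ (Lh h).comap (x : H →* H) := by
          refine (closure_le _).2 ?_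
          rintro _ ⟨i, rfl⟩
          show x (h⁻¹ * (x ^ i) h) ∈ Lh h
          have h2 : x (h⁻¹ * (x ^ i) h) = (h⁻¹ * (x ^ 1) h)⁻¹ * (h⁻¹ * (x ^ (i + 1)) h) := by
            rw [map_mul, map_inv, pow_one, pow_succ', MulAut.mul_apply]
            group
          rw [h2]
          exact (Lh h).mul_mem ((Lh h).inv_mem (subset_closure ⟨1, rfl⟩)) (subset_closure ⟨i + 1, rfl⟩)
        have := Fintype.ofFinite ((Lh h).map ι)
        apply mem_normalizer_fintype
        rintro _ ⟨y, hy, rfl⟩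
        rw [hcj]
        exact mem_map_of_mem _ (h1 hy)
      · rw [hcj, ← map_inv, ← map_mul]
        exact mem_map_of_mem _ (subset_closure ⟨1, by rw [pow_one]⟩)
      · rintro _ ⟨y, hy, rfl⟩ hcs
        refine mem_map_of_mem _ ?_
        have h1 : y ∈ E := by
          rw [hmemE]
          apply hι
          rw [← hcj, ← hcs.eq, mul_inv_cancel_right]
        exact (le_iSup (fun h => Lh h ⊓ E) h) ⟨hy, h1⟩)
  rintro y ⟨hy1, hy2⟩
  have h1 := hmain ⟨mem_map_of_mem ι hy1, (hcent y).2 hy2⟩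
  obtain ⟨z, hz, hzy⟩ := h1
  rw [← hι hzy]
  exact hz

end Cfsg.Agent.S3816
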