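import Cfsg.Statements.S3818
import Cfsg.Agent.Lib.H12FixA

set_option autoImplicit false
open Cfsg

namespace Cfsg.Agent.S3818

/-- Let G be a finite solvable group and P a subgroup of G of prime order p > 3 whose conjugates generate G. Let V be a faithful irreducible representation of G over a field of positive characteristic, finite-dimensional. Then the subspace of V fixed by P has dimension less than half the dimension of V. -/
theorem result {G : Type*} [Group G] [Finite G] [Group.IsSolvable G]
    {p : ℕ} [Fact p.Prime] (hp : 3 < p) (P : Subgroup G) (hP : Nat.card P = p) (hgen : Subgroup.normalClosure (P : Set G) = ⊤)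
    {k : Type*} [Field k] (ℓ : ℕ) [Fact ℓ.Prime] [CharP k ℓ]
    {V : Type*} [AddCommGroup V] [Module k V] [FiniteDimensional k V]
    (ρ : Representation k G V) [ρ.IsIrreducible] (hfaith : Function.Injective ρ) :
    2 * Module.finrank k ↥(⨅ g : ↥P, LinearMap.ker (ρ (g : G) - LinearMap.id)) < Module.finrank k V := by
  classical
  have hPnt : Nontrivial P := by
    have : 1 < Nat.card P := by omega
    exact Finite.one_lt_card_iff_nontrivial.1 this
  obtain ⟨x, hx⟩ := exists_ne (1 : P)
  have hxP : Subgroup.zpowers (x : G) = P := by
    have h1 : Subgroup.zpowers x = ⊤ := by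
      rw [eq_top_iff]
      intro y _
      exact mem_zpowers_of_prime_card hP hx
    have h2 := congrArg (Subgroup.map P.subtype) h1
    rw [MonoidHom.map_zpowers, ← MonoidHom.range_eq_map, P.range_subtype] at h2
    exact h2
  have hxp : (x : G) ^ p = 1 := by
    have : x ^ p = 1 := by rw [← hP]; exact pow_card_eq_one'
    exact congrArg Subtype.val this
  have hx1 : (x : G) ≠ 1 := fun h => hx (Subtype.ext h)
  have hgen' : Subgroup.normalClosure ({(x : G)} : Set G) = ⊤ := by
    rw [eq_top_iff, ← hgen]
    apply Subgroup.normalClosure_le_normal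
    intro y hy
    have hy' : y ∈ Subgroup.zpowers (x : G) := by rw [hxP]; exact hy
    have h3 : Subgroup.zpowers (x : G) ≤ Subgroup.normalClosure ({(x : G)} : Set G) := by
      rw [Subgroup.zpowers_le]
      exact Subgroup.subset_normalClosure rfl
    exact h3 hy'
  have hnt : Nontrivial V := by
    by_contra hcon
    rw [not_nontrivial_iff_subsingleton] at hcon
    have h1 : (⊥ : Subrepresentation ρ) ≠ ⊤ := bot_ne_top
    apply h1
    apply Subrepresentation.toSubmodule_injective
    exact Subsingleton.elim _ _
  have hirr : ∀ W : Submodule k V, (∀ g, ∀ w ∈ W, ρ g w ∈ W) → W = ⊥ ∨ W = ⊤ := by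
    intro W hW
    rcases eq_bot_or_eq_top (⟨W, hW⟩ : Subrepresentation ρ) with h | h
    · left
      exact congrArg Subrepresentation.toSubmodule h
    · right
      exact congrArg Subrepresentation.toSubmodule h
  apply Lib.H12Fix.field_case (ℓ := ℓ) hp ρ hfaith hirr hxp hx1 hgen'
  intro v
  rw [Submodule.mem_iInf]
  constructor
  · intro h
    have h1 := h x
    rw [LinearMap.mem_ker, LinearMap.sub_apply, LinearMap.id_apply, sub_eq_zero] at h1
    exact h1
  · rintro h ⟨y, hy⟩
    rw [LinearMap.mem_ker, LinearMap.sub_apply, LinearMap.id_apply, sub_eq_zero]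
    have hy' : y ∈ Submonoid.powers (x : G) := by
      rw [mem_powers_iff_mem_zpowers, hxP]; exact hy
    obtain ⟨m, rfl⟩ := hy'
    show ρ ((x : G) ^ m) v = v
    clear hy
    induction m with
    | zero => rw [pow_zero, map_one]; rfl
    | succ m ih => rw [pow_succ, map_mul, Module.End.mul_apply, h, ih]

end Cfsg.Agent.S3818
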