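import Cfsg.Statements.S3819
import Cfsg.Agent.Lib.CoprimeAction2
import Cfsg.Agent.Lib.PConstrained
import Cfsg.Agent.Lib.Balance
import Cfsg.Agent.Lib.PCoreTools
import Cfsg.Agent.Lib.Cores2
import Cfsg.Agent.Lib.GroupUtil

set_option autoImplicit false
open Cfsg

namespace Cfsg.Agent.S3819

section aux
open Subgroup Cfsg.Agent.Lib Cfsg.Agent.Lib.SubgroupTools
open scoped commutatorElement

variable {G : Type*} [Group G] [Finite G]

/-- the `q'`-core of a subgroup is normalized by its normalizer. -/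
theorem norm_core (q : ℕ) (K : Subgroup G) :
    normalizer (K : Set G) ≤ normalizer (((Cfsg.pPrimeCore q ↥K).map K.subtype : Subgroup G) : Set G) :=
  PCoreTools.normalizer_le_of_characteristic (Cores.pPrimeCore_characteristic q K)

theorem norm_pcore (q : ℕ) (K : Subgroup G) :
    normalizer (K : Set G) ≤ normalizer (((Cfsg.pCore q ↥K).map K.subtype : Subgroup G) : Set G) :=
  PCoreTools.normalizer_le_of_characteristic (Cores.pCore_characteristic q K)

/-- the data: -/
structure Data (q : ℕ) (H P D : Subgroup G) (z : G) : Prop where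
  hH : H.Normal
  hcop : (Nat.card P).Coprime (Nat.card H)
  hPs : Group.IsSolvable P
  hsol : Group.IsSolvable ↥⁅H, P⁆
  hzH : z ∈ H
  hzP : z ∈ centralizer (P : Set G)
  hzq : IsPGroup q (zpowers z)
  hDle : D ≤ H ⊓ centralizer ({z} : Set G)
  hDq : ¬ q ∣ Nat.card D
  hDn : H ⊓ centralizer ({z} : Set G) ≤ normalizer (D : Set G)
  hDP : P ≤ normalizer (D : Set G)

variable {q : ℕ} [hq : Fact q.Prime] {H P D : Subgroup G} {z : G}

theorem HK (H P : Subgroup G) : H ≤ normalizer ((⁅H, P⁆ : Subgroup G) : Set G) := by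
  exact normalizer_commutator_ge_left H P

theorem PK (H P : Subgroup G) : P ≤ normalizer ((⁅H, P⁆ : Subgroup G) : Set G) := by
  exact normalizer_commutator_ge_right H P

theorem partA (d : Data q H P D z) :
    ⁅D, P⁆ ≤ (Cfsg.pPrimeCore q ↥H).map H.subtype := by
  have hH := d.hH
  obtain ⟨K, hK⟩ : ∃ K, K = ⁅H, P⁆ := ⟨_, rfl⟩
  have hHK : H ≤ normalizer (K : Set G) := by rw [hK]; exact HK H P
  have hKH : K ≤ H := by
    rw [hK]; exact commutator_le_left H P
  have hDH : D ≤ H := d.hDle.trans inf_le_left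
  have h1 : ⁅D, P⁆ ≤ D ⊓ K := by
    refine le_inf ?_ ?_
    · exact le_normalizer_iff_commutator_le_left.mp d.hDP
    · rw [hK]; exact commutator_mono hDH le_rfl
  refine h1.trans ?_
  -- the solvable group Y = K <z>
  obtain ⟨Y, hY⟩ : ∃ Y, Y = K ⊔ zpowers z := ⟨_, rfl⟩
  have hzK : zpowers z ≤ normalizer (K : Set G) := by
    rw [zpowers_le]; exact hHK d.hzH
  have hKs : Group.IsSolvable K := by rw [hK]; exact d.hsol
  have hKY : K ≤ Y := by rw [hY]; exact le_sup_left
  have hzY : zpowers z ≤ Y := by rw [hY]; exact le_sup_right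
  have hYs : Group.IsSolvable Y := by
    have hKn : (K.subgroupOf Y).Normal := by
      apply normal_subgroupOf_iff_le_normalizer'
      rw [hY]
      exact sup_le le_normalizer hzK
    have h1 : Group.IsSolvable (K.subgroupOf Y) := isSolvable_subgroupOf Y hKs
    have h2 : Group.IsSolvable (↥Y ⧸ K.subgroupOf Y) := by
      have key : ∀ a : ↥Y ⧸ K.subgroupOf Y, ∃ n : ℤ, a = QuotientGroup.mk' (K.subgroupOf Y) (⟨z, hzY (mem_zpowers z)⟩ ^ n) := by
        intro a
        obtain ⟨y, rfl⟩ := QuotientGroup.mk'_surjective _ a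
        have hy : (y : G) ∈ K ⊔ zpowers z := hY ▸ y.2
        obtain ⟨k, hk, w, hw, hkw⟩ := (mem_sup_of_le_normalizer hzK).1 hy
        obtain ⟨n, rfl⟩ := mem_zpowers_iff.1 hw
        refine ⟨n, ?_⟩
        have e : y = ⟨k, hKY hk⟩ * (⟨z, hzY (mem_zpowers z)⟩ : Y) ^ n := by
          apply Subtype.ext
          rw [← hkw]
          rfl
        conv_lhs => rw [e, map_mul]
        have e2 : QuotientGroup.mk' (K.subgroupOf Y) ⟨k, hKY hk⟩ = 1 := by
          rw [QuotientGroup.mk'_apply, QuotientGroup.eq_one_iff]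
          exact hk
        rw [e2, one_mul]
      apply Group.isSolvable_of_comm
      intro a b
      obtain ⟨m, rfl⟩ := key a
      obtain ⟨n, rfl⟩ := key b
      rw [← map_mul, ← map_mul, ← zpow_add, ← zpow_add, add_comm]
    exact (Group.isSolvable_iff_subgroup_quotient (K.subgroupOf Y)).2 ⟨h1, h2⟩
  have hYH : Y ≤ H := by
    rw [hY]; exact sup_le hKH (by rw [zpowers_le]; exact d.hzH)
  have h2 : (D ⊓ K).subgroupOf Y ≤ Cfsg.pPrimeCore q ↥Y := by
    refine PConstrained.le_pPrimeCore_of_pLayer_eq_bot (Balance.pLayer_eq_bot_of_isSolvable hYs)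
      (P := (zpowers z).subgroupOf Y)
      (d.hzq.of_equiv (Subgroup.subgroupOfEquivOfLe hzY).symm) ?_ ?_ ?_
    · intro x hx
      rw [mem_centralizer_iff]
      intro y hy
      apply Subtype.ext
      have h3 : (x : G) ∈ centralizer ({z} : Set G) := (d.hDle hx.1).2
      rw [mem_centralizer_singleton_iff] at h3
      obtain ⟨k, hk⟩ := mem_zpowers_iff.1 (show (y : G) ∈ zpowers z from hy)
      change (y : G) * x = x * y
      rw [← hk]
      exact ((show Commute (z : G) (x : G) from h3.symm).zpow_left k)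
    · intro x hx
      apply Subgroup.le_normalizer_comap Y.subtype
      have h3 : (x : G) ∈ centralizer ({z} : Set G) := by
        rw [mem_centralizer_iff] at hx
        rw [mem_centralizer_singleton_iff]
        exact (congrArg Subtype.val (hx ⟨z, hzY (mem_zpowers z)⟩ (mem_zpowers z))).symm
      have h4 : (x : G) ∈ H := hYH x.2
      exact inf_normalizer_le_normalizer_inf ⟨d.hDn ⟨h4, h3⟩, hHK h4⟩
    · rw [Nat.card_congr (Subgroup.subgroupOfEquivOfLe (inf_le_right.trans hKY)).toEquiv]
      refine (hq.out.coprime_iff_not_dvd.mpr ?_).symm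
      exact fun h => d.hDq (h.trans (Subgroup.card_dvd_of_le inf_le_left))
  have h3 : D ⊓ K ≤ (Cfsg.pPrimeCore q ↥Y).map Y.subtype := by
    rw [← Subgroup.map_subgroupOf_eq_of_le (inf_le_right.trans hKY : D ⊓ K ≤ Y)]
    exact Subgroup.map_mono h2
  have h4 : (Cfsg.pPrimeCore q ↥Y).map Y.subtype ⊓ K ≤ (Cfsg.pPrimeCore q ↥K).map K.subtype := by
    apply Balance.le_map_pPrimeCore inf_le_right
    · exact fun h => Balance.not_dvd_card_map_pPrimeCore (p := q) Y (h.trans (Subgroup.card_dvd_of_le inf_le_left))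
    · refine le_trans ?_ inf_normalizer_le_normalizer_inf
      refine le_inf ?_ le_normalizer
      exact hKY.trans (le_normalizer.trans (norm_core q Y))
  have h5 : (Cfsg.pPrimeCore q ↥K).map K.subtype ≤ (Cfsg.pPrimeCore q ↥H).map H.subtype := by
    apply Balance.le_map_pPrimeCore ((Subgroup.map_subtype_le _).trans hKH)
    · exact Balance.not_dvd_card_map_pPrimeCore (p := q) K
    · exact hHK.trans (norm_core q K)
  exact (le_inf h3 inf_le_right).trans (h4.trans h5)

/-- the argument when `O_{q'}(H) = 1` -/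
theorem partB (d : Data q H P D z)
    (hcore : ∀ N : Subgroup G, N ≤ H → H ≤ normalizer (N : Set G) → ¬ q ∣ Nat.card N → N = ⊥)
    (F : Subgroup G) (hFle : F ≤ H ⊓ centralizer (P : Set G)) (hFq : ¬ q ∣ Nat.card F)
    (hFn : H ⊓ centralizer (P : Set G) ≤ normalizer (F : Set G)) : D ⊓ F = ⊥ := by
  have hH := d.hH
  obtain ⟨K, hK⟩ : ∃ K, K = ⁅H, P⁆ := ⟨_, rfl⟩
  have hHK : H ≤ normalizer (K : Set G) := by rw [hK]; exact HK H P
  have hPK : P ≤ normalizer (K : Set G) := by rw [hK]; exact PK H P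
  have hKH : K ≤ H := by
    rw [hK]; exact commutator_le_left H P
  have hKs : Group.IsSolvable K := by rw [hK]; exact d.hsol
  have hDH : D ≤ H := d.hDle.trans inf_le_left
  obtain ⟨R, hR⟩ : ∃ R, R = (Cfsg.pCore q ↥K).map K.subtype := ⟨_, rfl⟩
  have hRK : R ≤ K := by rw [hR]; exact Subgroup.map_subtype_le _
  have hHR : H ≤ normalizer (R : Set G) := by rw [hR]; exact hHK.trans (norm_pcore q K)
  have hPR : P ≤ normalizer (R : Set G) := by rw [hR]; exact hPK.trans (norm_pcore q K)
  have hRq : IsPGroup q R := by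
    rw [hR]; exact (Cores.isPGroup_pCore q K).map _
  -- K has no `q'`-core
  have hKcore : Cfsg.pPrimeCore q ↥K = ⊥ := by
    have h1 : (Cfsg.pPrimeCore q ↥K).map K.subtype = ⊥ := by
      apply hcore _ ((Subgroup.map_subtype_le _).trans hKH) (hHK.trans (norm_core q K))
      exact Balance.not_dvd_card_map_pPrimeCore (p := q) K
    exact (Subgroup.map_eq_bot_iff_of_injective _ K.subtype_injective).1 h1
  have hCKR : K ⊓ centralizer (R : Set G) ≤ R := by
    intro x hx
    have h1 : (⟨x, hx.1⟩ : K) ∈ centralizer (Cfsg.pCore q K : Set K) := by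
      rw [mem_centralizer_iff]
      intro y hy
      apply Subtype.ext
      have h2 := (mem_inf.1 hx).2
      rw [mem_centralizer_iff] at h2
      exact h2 (y : G) (by rw [hR]; exact ⟨y, hy, rfl⟩)
    have h2 := Cores.centralizer_pCore_le (G := K) hKcore h1
    rw [hR]
    exact ⟨_, h2, rfl⟩
  -- D centralizes R
  have hDR : D ≤ centralizer (R : Set G) := by
    refine CoprimeAction2.thompson_PxQ (p := q) (P := zpowers z) (Q := D) d.hzq
      ((hq.out.coprime_iff_not_dvd.mpr d.hDq).symm) ?_ (Nat.card R) R rfl hRq ?_ ?_ ?_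
    · rw [zpowers_le, mem_centralizer_iff]
      intro y hy
      have := (mem_inf.1 (d.hDle hy)).2
      rw [mem_centralizer_singleton_iff] at this
      exact this
    · rw [zpowers_le]; exact hHR d.hzH
    · exact hDH.trans hHR
    · intro x hx
      rw [mem_centralizer_iff]
      intro y hy
      have hxz : x ∈ H ⊓ centralizer ({z} : Set G) := by
        refine ⟨hKH (hRK hx.1), ?_⟩
        have := (mem_inf.1 hx).2
        rw [mem_centralizer_iff] at this
        exact mem_centralizer_singleton_iff.2 (this z (mem_zpowers z)).symm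
      -- the commutator lies in D ⊓ R
      have h1 : y * x * y⁻¹ * x⁻¹ ∈ D := by
        have h2 := (mem_normalizer_iff.1 (d.hDn hxz) y⁻¹).1 (inv_mem hy)
        have := mul_mem hy h2
        have e : y * (x * y⁻¹ * x⁻¹) = y * x * y⁻¹ * x⁻¹ := by group
        rwa [e] at this
      have h2 : y * x * y⁻¹ * x⁻¹ ∈ R := by
        have h3 := (mem_normalizer_iff.1 (hHR (hDH hy)) x).1 hx.1
        exact mul_mem h3 (inv_mem hx.1)
      have h3 : D ⊓ R = ⊥ := by
        apply inf_eq_bot_of_coprime'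
        exact (PConstrained.coprime_card_of_isPGroup hRq d.hDq).symm
      have h4 : y * x * y⁻¹ * x⁻¹ ∈ D ⊓ R := ⟨h1, h2⟩
      rw [h3, mem_bot, mul_inv_eq_one, mul_inv_eq_iff_eq_mul] at h4
      exact h4
  obtain ⟨L, hL⟩ : ∃ L, L = H ⊓ centralizer (R : Set G) := ⟨_, rfl⟩
  have hLH : L ≤ H := by rw [hL]; exact inf_le_left
  have hcR : normalizer (R : Set G) ≤ normalizer ((centralizer (R : Set G) : Subgroup G) : Set G) := by
    exact GroupUtil.normalizer_le_normalizer_centralizer R
  have hHL : H ≤ normalizer (L : Set G) := by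
    rw [hL]
    exact le_trans (le_inf le_normalizer (hHR.trans hcR)) inf_normalizer_le_normalizer_inf
  have hPL : P ≤ normalizer (L : Set G) := by
    rw [hL]
    refine le_trans (le_inf ?_ (hPR.trans hcR)) inf_normalizer_le_normalizer_inf
    rw [normalizer_eq_top_iff.2 hH]
    exact le_top
  have hDL : D ≤ L := by rw [hL]; exact le_inf hDH hDR
  have hLdec : ⁅L, P⁆ ⊔ (L ⊓ centralizer (P : Set G)) = L := by
    apply CoprimeAction2.commutator_sup_centralizer hPL
    · exact Nat.Coprime.coprime_dvd_right (Subgroup.card_dvd_of_le hLH) d.hcop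
    · exact Or.inl d.hPs
  have hLPR : ⁅L, P⁆ ≤ R := by
    refine le_trans (le_inf ?_ ?_) hCKR
    · rw [hK]; exact commutator_mono hLH le_rfl
    · have : ⁅L, P⁆ ≤ L := le_normalizer_iff_commutator_le_left.mp hPL
      refine this.trans ?_
      rw [hL]; exact inf_le_right
  -- T = F ⊓ L
  have hTn : L ≤ normalizer ((F ⊓ L : Subgroup G) : Set G) := by
    rw [← hLdec]
    refine sup_le ?_ ?_
    · intro x hx
      have hxR := hLPR hx
      rw [hLdec]
      apply centralizer_le_normalizer
      rw [mem_centralizer_iff]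
      intro y hy
      have h1 : y ∈ centralizer (R : Set G) := by
        have := hy.2
        rw [hL] at this
        exact this.2
      rw [mem_centralizer_iff] at h1
      exact (h1 x hxR).symm
    · rw [hLdec]
      refine le_trans ?_ inf_normalizer_le_normalizer_inf
      refine le_inf ?_ (inf_le_left.trans le_normalizer)
      exact le_trans (inf_le_inf_right _ hLH) hFn
  have hT : F ⊓ L = ⊥ := by
    have h1 : F ⊓ L ≤ (Cfsg.pPrimeCore q ↥L).map L.subtype := by
      apply Balance.le_map_pPrimeCore inf_le_right _ hTn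
      exact fun h => hFq (h.trans (Subgroup.card_dvd_of_le inf_le_left))
    have h2 : (Cfsg.pPrimeCore q ↥L).map L.subtype = ⊥ := by
      apply hcore _ ((Subgroup.map_subtype_le _).trans hLH) (hHL.trans (norm_core q L))
      exact Balance.not_dvd_card_map_pPrimeCore (p := q) L
    rw [h2] at h1
    exact le_bot_iff.1 h1
  rw [eq_bot_iff, ← hT]
  exact le_inf inf_le_right (inf_le_left.trans hDL)

/-- centralizers in `H` of the quotient -/
theorem inf_cent_map {M : Subgroup G} [M.Normal] (hMH : M ≤ H) {C : Subgroup G} {C' : Subgroup (G ⧸ M)}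
    (hC : C.map (QuotientGroup.mk' M) = C') :
    H.map (QuotientGroup.mk' M) ⊓ C' ≤ (H ⊓ C).map (QuotientGroup.mk' M) := by
  rintro y ⟨⟨h, hh, rfl⟩, hy2⟩
  rw [← hC] at hy2
  obtain ⟨c, hc, hcy⟩ := hy2
  refine ⟨c, ⟨?_, hc⟩, hcy⟩
  have h1 : h⁻¹ * c ∈ M := QuotientGroup.eq.1 hcy.symm
  have := H.mul_mem hh (hMH h1)
  simpa using this

theorem main {p : ℕ} [hp : Fact p.Prime] (d : Data q H P D z) (hPp : IsPGroup p P) (hpH : ¬ p ∣ Nat.card H)
    (F : Subgroup G) (hFle : F ≤ H ⊓ centralizer (P : Set G)) (hFq : ¬ q ∣ Nat.card F)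
    (hFn : H ⊓ centralizer (P : Set G) ≤ normalizer (F : Set G)) :
    D ⊓ F ≤ (Cfsg.pPrimeCore q ↥H).map H.subtype := by
  have hH := d.hH
  obtain ⟨M, hM⟩ : ∃ M, M = (Cfsg.pPrimeCore q ↥H).map H.subtype := ⟨_, rfl⟩
  have hMn : M.Normal := by
    rw [hM]
    exact Cores.normal_map_subtype_of_characteristic _
  have hMH : M ≤ H := by rw [hM]; exact Subgroup.map_subtype_le _
  have hMq : ¬ q ∣ Nat.card M := by rw [hM]; exact Balance.not_dvd_card_map_pPrimeCore (p := q) H
  have hMp : ¬ p ∣ Nat.card M := fun h => hpH (h.trans (Subgroup.card_dvd_of_le hMH))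
  obtain ⟨π, hπ⟩ : ∃ π, π = QuotientGroup.mk' M := ⟨_, rfl⟩
  have hπs : Function.Surjective π := by rw [hπ]; exact QuotientGroup.mk'_surjective M
  have hπk : π.ker = M := by rw [hπ]; exact QuotientGroup.ker_mk' M
  have hcz : (centralizer ({z} : Set G)).map π = centralizer ({π z} : Set (G ⧸ M)) := by
    rw [hπ]; exact PConstrained.map_centralizer_singleton hMq d.hzq
  have hcP : (centralizer (P : Set G)).map π = centralizer ((P.map π : Subgroup (G ⧸ M)) : Set (G ⧸ M)) := by
    rw [hπ]; exact PConstrained.map_centralizer_of_pgroup hMp hPp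
  have d' : Data q (H.map π) (P.map π) (D.map π) (π z) := by
    refine ⟨hH.map π hπs, ?_, isSolvable_map π d.hPs, ?_, ⟨z, d.hzH, rfl⟩, ?_, ?_, ?_, ?_, ?_, ?_⟩
    · exact Nat.Coprime.coprime_dvd_left (PConstrained.card_map_dvd π P)
        (Nat.Coprime.coprime_dvd_right (PConstrained.card_map_dvd π H) d.hcop)
    · rw [← Subgroup.map_commutator]
      exact isSolvable_map π d.hsol
    · rw [← hcP]
      exact ⟨z, d.hzP, rfl⟩
    · have := d.hzq.map π
      rwa [MonoidHom.map_zpowers] at this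
    · refine le_inf (Subgroup.map_mono (d.hDle.trans inf_le_left)) ?_
      rw [← hcz]
      exact Subgroup.map_mono (d.hDle.trans inf_le_right)
    · exact fun h => d.hDq (h.trans (PConstrained.card_map_dvd π D))
    · have h1 : H.map π ⊓ centralizer ({π z} : Set (G ⧸ M)) ≤ (H ⊓ centralizer ({z} : Set G)).map π := by
        subst hπ
        exact inf_cent_map hMH hcz
      exact h1.trans ((Subgroup.map_mono d.hDn).trans (Subgroup.le_normalizer_map π))
    · exact (Subgroup.map_mono d.hDP).trans (Subgroup.le_normalizer_map π)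
  have hcore : ∀ N : Subgroup (G ⧸ M), N ≤ H.map π → H.map π ≤ normalizer (N : Set (G ⧸ M)) → ¬ q ∣ Nat.card N → N = ⊥ := by
    intro N hN1 hN2 hN3
    have h1 : N.comap π ≤ M := by
      refine le_trans ?_ hM.ge
      apply Balance.le_map_pPrimeCore
      · refine (Subgroup.comap_mono hN1).trans ?_
        rw [Subgroup.comap_map_eq, hπk]
        exact sup_le le_rfl hMH
      · intro h
        have h2 : Nat.card (N.comap π) = Nat.card N * Nat.card M := by
          subst hπ
          rw [Cores.card_comap_mk]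
          ring
        rw [h2] at h
        rcases (hq.out.dvd_mul).1 h with h | h
        · exact hN3 h
        · exact hMq h
      · intro x hx
        apply Subgroup.le_normalizer_comap π
        exact hN2 ⟨x, hx, rfl⟩
    rw [eq_bot_iff]
    intro y hy
    obtain ⟨x, rfl⟩ := hπs y
    have h2 : x ∈ M := h1 hy
    rw [← hπk] at h2
    exact h2
  have hF' : H.map π ⊓ centralizer ((P.map π : Subgroup (G ⧸ M)) : Set (G ⧸ M)) ≤ (H ⊓ centralizer (P : Set G)).map π := by
    subst hπ
    exact inf_cent_map hMH hcP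
  have h1 := partB d' hcore (F.map π) (by
      refine le_inf (Subgroup.map_mono (hFle.trans inf_le_left)) ?_
      rw [← hcP]
      exact Subgroup.map_mono (hFle.trans inf_le_right))
    (fun h => hFq (h.trans (PConstrained.card_map_dvd π F)))
    (hF'.trans ((Subgroup.map_mono hFn).trans (Subgroup.le_normalizer_map π)))
  rw [← hM]
  intro x hx
  have h2 : π x ∈ D.map π ⊓ F.map π := ⟨⟨x, hx.1, rfl⟩, ⟨x, hx.2, rfl⟩⟩
  rw [h1] at h2
  rw [← hπk]
  exact h2

theorem final {p : ℕ} [Fact p.Prime]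
    (P : Sylow p G) 
    (hsol : Group.IsSolvable ↥⁅Cfsg.pPrimeCore p G, (P : Subgroup G)⁆)
    (z : G) (hzH : z ∈ Cfsg.pPrimeCore p G) (hzP : z ∈ Subgroup.centralizer ((P : Subgroup G) : Set G))
    (hz : ∃ k : ℕ, orderOf z = q ^ k) :
    ((Cfsg.pPrimeCore q ↥(Cfsg.pPrimeCore p G ⊓ Subgroup.centralizer ({z} : Set G))).map
        (Cfsg.pPrimeCore p G ⊓ Subgroup.centralizer ({z} : Set G)).subtype ⊓
      (Cfsg.pPrimeCore q ↥(Cfsg.pPrimeCore p G ⊓ Subgroup.centralizer ((P : Subgroup G) : Set G))).map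
        (Cfsg.pPrimeCore p G ⊓ Subgroup.centralizer ((P : Subgroup G) : Set G)).subtype) ⊔
    ⁅(Cfsg.pPrimeCore q ↥(Cfsg.pPrimeCore p G ⊓ Subgroup.centralizer ({z} : Set G))).map
        (Cfsg.pPrimeCore p G ⊓ Subgroup.centralizer ({z} : Set G)).subtype, (P : Subgroup G)⁆ ≤
    (Cfsg.pPrimeCore q ↥(Cfsg.pPrimeCore p G)).map (Cfsg.pPrimeCore p G).subtype := by
  obtain ⟨H, hHdef⟩ : ∃ H, H = Cfsg.pPrimeCore p G := ⟨_, rfl⟩
  rw [← hHdef] at hsol hzH ⊢
  have hHn : H.Normal := by rw [hHdef]; infer_instance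
  have hpH : ¬ p ∣ Nat.card H := by
    rw [hHdef]; exact PConstrained.not_dvd_card_pPrimeCore
  have hPp : IsPGroup p (P : Subgroup G) := P.isPGroup'
  have d : Data q H (P : Subgroup G) ((Cfsg.pPrimeCore q ↥(H ⊓ Subgroup.centralizer ({z} : Set G))).map
        (H ⊓ Subgroup.centralizer ({z} : Set G)).subtype) z := by
    refine ⟨hHn, PConstrained.coprime_card_of_isPGroup hPp hpH, PConstrained.isSolvable_of_isPGroup hPp, hsol, hzH, hzP, ?_,
      Subgroup.map_subtype_le _, Balance.not_dvd_card_map_pPrimeCore _, Cores.le_normalizer_map_subtype _, ?_⟩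
    · obtain ⟨k, hk⟩ := hz
      exact IsPGroup.of_card (by rw [Nat.card_zpowers, hk])
    · refine le_trans ?_ (norm_core q _)
      refine le_trans (le_inf ?_ ?_) inf_normalizer_le_normalizer_inf
      · rw [normalizer_eq_top_iff.2 hHn]; exact le_top
      · refine le_trans ?_ le_normalizer
        intro x hx
        rw [mem_centralizer_singleton_iff]
        rw [mem_centralizer_iff] at hzP
        exact hzP x hx
  refine sup_le ?_ (partA d)
  exact main d hPp hpH _ (Subgroup.map_subtype_le _) (Balance.not_dvd_card_map_pPrimeCore _)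
    (Cores.le_normalizer_map_subtype _)

end aux


/-- Let G be a finite group with Sylow p-subgroup P and H = O_{p'}(G), and suppose G = PH and the commutator subgroup [H, P] is solvable. Let q be a prime and z an element of q-power order of C_H(P). Then (O_{q'}(C_H(z)) ∩ O_{q'}(C_H(P))) · [O_{q'}(C_H(z)), P] ≤ O_{q'}(H). -/
theorem result {G : Type*} [Group G] [Finite G] {p : ℕ} [Fact p.Prime]
    (P : Sylow p G) (hPH : Cfsg.pPrimeCore p G ⊔ (P : Subgroup G) = ⊤)
    (hsol : Group.IsSolvable ↥⁅Cfsg.pPrimeCore p G, (P : Subgroup G)⁆)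
    {q : ℕ} [Fact q.Prime] (z : G) (hzH : z ∈ Cfsg.pPrimeCore p G) (hzP : z ∈ Subgroup.centralizer ((P : Subgroup G) : Set G))
    (hz : ∃ k : ℕ, orderOf z = q ^ k) :
    ((Cfsg.pPrimeCore q ↥(Cfsg.pPrimeCore p G ⊓ Subgroup.centralizer ({z} : Set G))).map
        (Cfsg.pPrimeCore p G ⊓ Subgroup.centralizer ({z} : Set G)).subtype ⊓
      (Cfsg.pPrimeCore q ↥(Cfsg.pPrimeCore p G ⊓ Subgroup.centralizer ((P : Subgroup G) : Set G))).map
        (Cfsg.pPrimeCore p G ⊓ Subgroup.centralizer ((P : Subgroup G) : Set G)).subtype) ⊔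
    ⁅(Cfsg.pPrimeCore q ↥(Cfsg.pPrimeCore p G ⊓ Subgroup.centralizer ({z} : Set G))).map
        (Cfsg.pPrimeCore p G ⊓ Subgroup.centralizer ({z} : Set G)).subtype, (P : Subgroup G)⁆ ≤
    (Cfsg.pPrimeCore q ↥(Cfsg.pPrimeCore p G)).map (Cfsg.pPrimeCore p G).subtype := by
  exact final P hsol z hzH hzP hz

end Cfsg.Agent.S3819
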