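import Cfsg.Statements.S3821
-- import your own Cfsg.Agent.* helpers here

set_option autoImplicit false
open Cfsg

namespace Cfsg.Agent.S3821

/-- Let A be a normal subgroup of the finite group G and H a subgroup of A. Then H is pronormal in G (H and gHg⁻¹ conjugate inside ⟨H, gHg⁻¹⟩ for every g ∈ G) if and only if H is pronormal in A and G = A · N_G(H). -/
theorem result {G : Type*} [Group G] [Finite G] (A H : Subgroup G) [A.Normal] (hHA : H ≤ A) :
    Cfsg.IsPronormal H ↔ (Cfsg.IsPronormal (H.subgroupOf A) ∧ A ⊔ Subgroup.normalizer (H : Set G) = ⊤) := by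
  have hmm : ∀ (K : Subgroup G) (a b : G), (K.map (MulAut.conj b).toMonoidHom).map (MulAut.conj a).toMonoidHom
      = K.map (MulAut.conj (a * b)).toMonoidHom := by
    intro K a b
    rw [Subgroup.map_map]
    congr 1
    ext x
    simp [mul_assoc]
  have hsub : ∀ a : A, ((H.subgroupOf A).map (MulAut.conj a).toMonoidHom).map A.subtype = H.map (MulAut.conj (a : G)).toMonoidHom := by
    intro a
    ext y
    constructor
    · rintro ⟨z, ⟨u, hu, rfl⟩, rfl⟩
      exact ⟨u, hu, by simp⟩
    · rintro ⟨u, hu, rfl⟩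
      exact ⟨a * ⟨u, hHA hu⟩ * a⁻¹, ⟨⟨u, hHA hu⟩, hu, by simp⟩, by simp⟩
  have hsubH : (H.subgroupOf A).map A.subtype = H := by
    rw [Subgroup.subgroupOf_map_subtype]; exact inf_eq_left.mpr hHA
  have hnorm : ∀ y : G, H.map (MulAut.conj y).toMonoidHom = H → y ∈ Subgroup.normalizer (H : Set G) := by
    intro y h1
    rw [Subgroup.mem_normalizer_iff]
    intro z
    have h2 : y * z * y⁻¹ ∈ H.map (MulAut.conj y).toMonoidHom ↔ z ∈ H := by
      constructor
      · rintro ⟨u, hu, hue⟩
        have : u = z := by simpa using hue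
        rw [← this]; exact hu
      · intro hy
        exact ⟨z, hy, by simp⟩
    rw [h1] at h2
    exact h2.symm
  have hnorm' : ∀ y : G, y ∈ Subgroup.normalizer (H : Set G) → H.map (MulAut.conj y).toMonoidHom = H := by
    intro y hy
    ext z
    rw [Subgroup.mem_normalizer_iff] at hy
    constructor
    · rintro ⟨u, hu, rfl⟩
      exact (hy u).1 hu
    · intro hz
      refine ⟨y⁻¹ * z * y, (hy _).2 (by simpa [mul_assoc] using hz), by simp [mul_assoc]⟩
  constructor
  · intro h
    constructor
    · intro a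
      obtain ⟨x, hx, hxe⟩ := h a
      have hsup : H ⊔ H.map (MulAut.conj (a : G)).toMonoidHom
          = ((H.subgroupOf A) ⊔ (H.subgroupOf A).map (MulAut.conj a).toMonoidHom).map A.subtype := by
        rw [Subgroup.map_sup, hsub, hsubH]
      rw [hsup] at hx
      obtain ⟨x', hx', rfl⟩ := hx
      refine ⟨x', hx', ?_⟩
      apply Subgroup.map_injective (Subgroup.subtype_injective A)
      rw [hsub, hsub]
      exact hxe
    · rw [eq_top_iff]
      intro g _
      obtain ⟨x, hx, hxe⟩ := h g
      have hxA : x ∈ A := by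
        refine (sup_le hHA ?_ : H ⊔ H.map (MulAut.conj g).toMonoidHom ≤ A) hx
        rintro _ ⟨u, hu, rfl⟩
        exact (inferInstance : A.Normal).conj_mem _ (hHA hu) g
      have hn : x⁻¹ * g ∈ Subgroup.normalizer (H : Set G) := by
        apply hnorm
        rw [← hmm, hxe, hmm]
        ext y
        simp
      have : g = x * (x⁻¹ * g) := by simp
      rw [this]
      exact Subgroup.mul_mem_sup hxA hn
  · rintro ⟨h1, h2⟩ g
    have hg : g ∈ A ⊔ Subgroup.normalizer (H : Set G) := by rw [h2]; trivial
    rw [Subgroup.mem_sup_of_normal_left] at hg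
    obtain ⟨a, ha, n, hn, rfl⟩ := hg
    have hH : H.map (MulAut.conj (a * n)).toMonoidHom = H.map (MulAut.conj a).toMonoidHom := by
      rw [← hmm, hnorm' n hn]
    rw [hH]
    obtain ⟨x, hx, hxe⟩ := h1 ⟨a, ha⟩
    refine ⟨x, ?_, ?_⟩
    · have : (x : G) ∈ ((H.subgroupOf A) ⊔ (H.subgroupOf A).map (MulAut.conj ⟨a, ha⟩).toMonoidHom).map A.subtype :=
        ⟨x, hx, rfl⟩
      rw [Subgroup.map_sup, hsub, hsubH] at this
      exact this
    · have := congrArg (Subgroup.map A.subtype) hxe
      rw [hsub, hsub] at this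
      exact this

end Cfsg.Agent.S3821
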