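import Cfsg.Statements.S3825
import Mathlib

set_option autoImplicit false
open Cfsg

namespace Cfsg.Agent.S3825

/-- Let U be a subgroup of a finite group H and w an involution of H normalizing U and commuting with exactly two elements of U, the identity and y. If V is a non-cyclic elementary abelian 2-subgroup of U containing y which is normal in U and invariant under w, then V is a Sylow 2-subgroup of U, V has order 4, and U/V is abelian. -/
theorem result {H : Type*} [Group H] [Finite H] (U : Subgroup H) (w : H) (hw : orderOf w = 2)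
    (hwU : w ∈ Subgroup.normalizer (U : Set H)) (y : H) (hy : y ≠ 1) (hyU : y ∈ U)
    (hfix : ∀ u ∈ U, w * u * w⁻¹ = u ↔ (u = 1 ∨ u = y))
    (V : Subgroup H) (hVU : V ≤ U) (hVn : (V.subgroupOf U).Normal) (hVw : ∀ v ∈ V, w * v * w⁻¹ ∈ V)
    (hVe : Cfsg.IsElementaryAbelian 2 V) (hVc : ¬ IsCyclic ↥V) (hyV : y ∈ V) :
    ¬ 2 ∣ V.relIndex U ∧ Nat.card ↥V = 4 ∧ ⁅U, U⁆ ≤ V := by
  have hw2 : w * w = 1 := by
    have := pow_orderOf_eq_one w
    rwa [hw, pow_two] at this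
  have hwi : w⁻¹ = w := by
    rw [inv_eq_iff_mul_eq_one]; exact hw2
  have hsq : ∀ v ∈ V, v⁻¹ = v := by
    intro v hv
    have := hVe.2 v hv
    rw [pow_two] at this
    rw [inv_eq_iff_mul_eq_one]; exact this
  have hconjU : ∀ u ∈ U, w * u * w⁻¹ ∈ U := fun u hu => (Subgroup.mem_normalizer_iff.1 hwU u).1 hu
  have hwy : w * y * w⁻¹ = y := (hfix y hyU).2 (Or.inr rfl)
  -- f(u) = u⁻¹ (w u w⁻¹) lies in {1, y} when it lies in V
  have hf : ∀ u ∈ U, u⁻¹ * (w * u * w⁻¹) ∈ V → u⁻¹ * (w * u * w⁻¹) = 1 ∨ u⁻¹ * (w * u * w⁻¹) = y := by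
    intro u hu hv
    apply (hfix _ (hVU hv)).1
    have h1 := hsq _ hv
    nth_rewrite 2 [← h1]
    calc w * (u⁻¹ * (w * u * w⁻¹)) * w⁻¹ = w * u⁻¹ * (w * u) * (w * w)⁻¹ := by group
      _ = w * u⁻¹ * w * u := by rw [hw2]; group
      _ = (u⁻¹ * (w * u * w⁻¹))⁻¹ := by
        rw [mul_inv_rev, mul_inv_rev, mul_inv_rev, inv_inv, inv_inv, hwi]; group
  have hfeq : ∀ u ∈ U, ∀ v ∈ U, u⁻¹ * (w * u * w⁻¹) = v⁻¹ * (w * v * w⁻¹) → v * u⁻¹ = 1 ∨ v * u⁻¹ = y := by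
    intro u hu v hv h
    apply (hfix _ (mul_mem hv (inv_mem hu))).1
    calc w * (v * u⁻¹) * w⁻¹ = (w * v * w⁻¹) * (w * u * w⁻¹)⁻¹ := by group
      _ = v * (v⁻¹ * (w * v * w⁻¹)) * (w * u * w⁻¹)⁻¹ := by group
      _ = v * (u⁻¹ * (w * u * w⁻¹)) * (w * u * w⁻¹)⁻¹ := by rw [h]
      _ = v * u⁻¹ := by group
  have hf1 : ∀ u ∈ U, u⁻¹ * (w * u * w⁻¹) = 1 → u = 1 ∨ u = y := by
    intro u hu h
    apply (hfix u hu).1
    rw [inv_mul_eq_one] at h
    exact h.symm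
  have hv0 : ∃ v₀ ∈ V, v₀ ≠ 1 ∧ v₀ ≠ y := by
    by_contra hcon
    push Not at hcon
    apply hVc
    refine ⟨⟨⟨y, hyV⟩, ?_⟩⟩
    rintro ⟨v, hv⟩
    by_cases h1 : v = 1
    · exact ⟨0, by apply Subtype.ext; simp [h1]⟩
    · exact ⟨1, by simp [hcon v hv h1]⟩
  obtain ⟨v₀, hv₀, hv₀1, hv₀y⟩ := hv0
  have hV4' : ∀ v ∈ V, v⁻¹ * (w * v * w⁻¹) ∈ V := fun v hv => mul_mem (inv_mem hv) (hVw v hv)
  have hfv₀ : v₀⁻¹ * (w * v₀ * w⁻¹) = y := by
    rcases hf v₀ (hVU hv₀) (hV4' v₀ hv₀) with h | h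
    · rcases hf1 v₀ (hVU hv₀) h with h | h
      · exact absurd h hv₀1
      · exact absurd h hv₀y
    · exact h
  have hS : ∀ u ∈ U, u⁻¹ * (w * u * w⁻¹) ∈ V → u = 1 ∨ u = y ∨ u = v₀ ∨ u = y * v₀ := by
    intro u hu hv
    rcases hf u hu hv with h | h
    · rcases hf1 u hu h with h | h
      · exact Or.inl h
      · exact Or.inr (Or.inl h)
    · rcases hfeq v₀ (hVU hv₀) u hu (by rw [h, hfv₀]) with h | h
      · right; right; left
        rwa [mul_inv_eq_one] at h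
      · right; right; right
        rwa [mul_inv_eq_iff_eq_mul] at h
  have hSV : ∀ u ∈ U, u⁻¹ * (w * u * w⁻¹) ∈ V → u ∈ V := by
    intro u hu hv
    rcases hS u hu hv with h | h | h | h
    · rw [h]; exact one_mem V
    · rw [h]; exact hyV
    · rw [h]; exact hv₀
    · rw [h]; exact mul_mem hyV hv₀
  have hcard : Nat.card ↥V = 4 := by
    have hset : (V : Set H) = {1, y, v₀, y * v₀} := by
      ext v
      simp only [SetLike.mem_coe, Set.mem_insert_iff, Set.mem_singleton_iff]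
      constructor
      · intro hv
        exact hS v (hVU hv) (hV4' v hv)
      · rintro (h | h | h | h)
        · rw [h]; exact one_mem V
        · rw [h]; exact hyV
        · rw [h]; exact hv₀
        · rw [h]; exact mul_mem hyV hv₀
    have h1 : Nat.card ↥V = (V : Set H).ncard := rfl
    rw [h1, hset]
    have e1 : (1 : H) ∉ ({y, v₀, y * v₀} : Set H) := by
      simp only [Set.mem_insert_iff, Set.mem_singleton_iff, not_or]
      refine ⟨hy.symm, hv₀1.symm, ?_⟩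
      intro h
      apply hv₀y
      have : v₀ = y⁻¹ := by rw [eq_inv_iff_mul_eq_one, ← hsq v₀ hv₀, ← hsq y hyV, ← mul_inv_rev, ← h, inv_one]
      rw [this, hsq y hyV]
    have e2 : y ∉ ({v₀, y * v₀} : Set H) := by
      simp only [Set.mem_insert_iff, Set.mem_singleton_iff, not_or]
      refine ⟨fun h => hv₀y h.symm, ?_⟩
      intro h
      exact hv₀1 (by simpa using h.symm)
    have e3 : v₀ ∉ ({y * v₀} : Set H) := by
      simp only [Set.mem_singleton_iff]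
      intro h
      exact hy (by simpa using h.symm)
    rw [Set.ncard_insert_of_notMem e1, Set.ncard_insert_of_notMem e2, Set.ncard_insert_of_notMem e3, Set.ncard_singleton]
  -- the induced automorphism of U / V
  have := hVn
  let c : ↥U →* ↥U :=
    { toFun := fun u => ⟨w * u * w⁻¹, hconjU u u.2⟩
      map_one' := by simp
      map_mul' := by intro a b; apply Subtype.ext; simp }
  let φ : (↥U ⧸ V.subgroupOf U) →* (↥U ⧸ V.subgroupOf U) := QuotientGroup.map _ _ c (by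
    intro v hv
    rw [Subgroup.mem_subgroupOf] at hv
    rw [Subgroup.mem_comap, Subgroup.mem_subgroupOf]
    exact hVw _ hv)
  have hfree : MonoidHom.FixedPointFree φ := by
    intro g hg
    obtain ⟨u, rfl⟩ := QuotientGroup.mk_surjective g
    have h1 : (QuotientGroup.mk (c u) : ↥U ⧸ V.subgroupOf U) = QuotientGroup.mk u := hg
    rw [eq_comm, QuotientGroup.eq, Subgroup.mem_subgroupOf] at h1
    rw [QuotientGroup.eq_one_iff, Subgroup.mem_subgroupOf]
    exact hSV u u.2 h1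
  have hinv : Function.Involutive φ := by
    intro g
    obtain ⟨u, rfl⟩ := QuotientGroup.mk_surjective g
    show (QuotientGroup.mk (c (c u)) : ↥U ⧸ V.subgroupOf U) = QuotientGroup.mk u
    congr 1
    apply Subtype.ext
    show w * (w * u * w⁻¹) * w⁻¹ = u
    calc w * (w * u * w⁻¹) * w⁻¹ = (w * w) * u * (w * w)⁻¹ := by group
      _ = u := by rw [hw2]; group
  refine ⟨?_, hcard, ?_⟩
  · have := hfree.odd_card_of_involutive hinv
    exact this.not_two_dvd_nat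
  · rw [Subgroup.commutator_le]
    intro a ha b hb
    have h1 := hfree.commute_all_of_involutive hinv (QuotientGroup.mk ⟨a, ha⟩) (QuotientGroup.mk ⟨b, hb⟩)
    have h2 : (QuotientGroup.mk ((⟨a, ha⟩ : ↥U) * ⟨b, hb⟩ * (⟨a, ha⟩ : ↥U)⁻¹ * (⟨b, hb⟩ : ↥U)⁻¹) : ↥U ⧸ V.subgroupOf U) = 1 := by
      have h1' : (QuotientGroup.mk ((⟨a, ha⟩ : ↥U) * ⟨b, hb⟩) : ↥U ⧸ V.subgroupOf U) = QuotientGroup.mk ((⟨b, hb⟩ : ↥U) * ⟨a, ha⟩) := h1
      rw [QuotientGroup.eq] at h1'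
      rw [QuotientGroup.eq_one_iff]
      have h4 := (hVn.conj_mem _ (inv_mem h1') ((⟨b, hb⟩ : ↥U) * ⟨a, ha⟩))
      have : (⟨b, hb⟩ : ↥U) * ⟨a, ha⟩ * (((⟨a, ha⟩ : ↥U) * ⟨b, hb⟩)⁻¹ * (⟨b, hb⟩ * ⟨a, ha⟩))⁻¹ * (⟨b, hb⟩ * ⟨a, ha⟩)⁻¹
          = (⟨a, ha⟩ : ↥U) * ⟨b, hb⟩ * (⟨a, ha⟩ : ↥U)⁻¹ * (⟨b, hb⟩ : ↥U)⁻¹ := by group
      rwa [this] at h4
    rw [QuotientGroup.eq_one_iff, Subgroup.mem_subgroupOf] at h2
    exact h2

end Cfsg.Agent.S3825
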