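import Mathlib
import Cfsg.Statements.S3835
import Cfsg.Agent.Lib.H32Qd
import Cfsg.Agent.Lib.H70AltPrime
import Cfsg.Agent.Lib.QdLocal

set_option autoImplicit false
open Cfsg

namespace Cfsg.Agent.S3835

open Cfsg.Agent.Lib.QdFree Cfsg.Agent.Lib.H32Qd Equiv

variable {p : ℕ} [hp : Fact p.Prime]

/-- the affine action -/
def act (x : ↥(Cfsg.qd p)) (v : ZMod p × ZMod p) : ZMod p × ZMod p :=
  (x.1.1 0 0 * v.1 + x.1.1 0 1 * v.2 + x.1.1 0 2, x.1.1 1 0 * v.1 + x.1.1 1 1 * v.2 + x.1.1 1 2)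

theorem act_mk (a b c d e f : ZMod p) (h : a * d - b * c = 1) (v : ZMod p × ZMod p) :
    act (qdMk a b c d e f h) v = (a * v.1 + b * v.2 + e, c * v.1 + d * v.2 + f) := by
  simp [act, qdMk]

theorem act_one (v : ZMod p × ZMod p) : act (1 : ↥(Cfsg.qd p)) v = v := by
  rw [← qdMk_one, act_mk]; simp

theorem act_mul (x y : ↥(Cfsg.qd p)) (v : ZMod p × ZMod p) : act (x * y) v = act x (act y v) := by
  obtain ⟨a, b, c, d, e, f, h, rfl⟩ := exists_qdMk x
  obtain ⟨a', b', c', d', e', f', h', rfl⟩ := exists_qdMk y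
  rw [qdMk_mul, act_mk, act_mk, act_mk]
  ext <;> simp <;> ring

def actHom (p : ℕ) [Fact p.Prime] : ↥(Cfsg.qd p) →* Perm (ZMod p × ZMod p) where
  toFun x := ⟨act x, act x⁻¹, fun v => by rw [← act_mul, inv_mul_cancel, act_one],
    fun v => by rw [← act_mul, mul_inv_cancel, act_one]⟩
  map_one' := by ext1 v; exact act_one v
  map_mul' x y := by ext1 v; exact act_mul x y v

theorem actHom_injective : Function.Injective (actHom p) := by
  rw [injective_iff_map_eq_one]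
  intro x hx
  obtain ⟨a, b, c, d, e, f, h, rfl⟩ := exists_qdMk x
  have h1 : ∀ v : ZMod p × ZMod p, act (qdMk a b c d e f h) v = v := fun v =>
    congrArg (fun g : Perm (ZMod p × ZMod p) => g v) hx
  have h2 := h1 (0, 0)
  have h3 := h1 (1, 0)
  have h4 := h1 (0, 1)
  rw [act_mk] at h2 h3 h4
  simp only [mul_zero, add_zero, zero_add, mul_one, Prod.mk.injEq] at h2 h3 h4
  obtain ⟨rfl, rfl⟩ := h2
  simp only [add_zero] at h3 h4
  obtain ⟨rfl, rfl⟩ := h3
  obtain ⟨rfl, rfl⟩ := h4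
  exact qdMk_one

theorem pow_upper (x : ZMod p) (n : ℕ) :
    (qdMk 1 x 0 1 0 0 (by ring) : ↥(Cfsg.qd p)) ^ n = qdMk 1 ((n : ZMod p) * x) 0 1 0 0 (by ring) := by
  induction n with
  | zero => rw [pow_zero, ← qdMk_one, qdMk_inj]; simp
  | succ n ih => rw [pow_succ, ih, qdMk_mul, qdMk_inj]; push_cast; refine ⟨by ring, by ring, by ring, by ring, by ring, by ring⟩

theorem pow_lower (x : ZMod p) (n : ℕ) :
    (qdMk 1 0 x 1 0 0 (by ring) : ↥(Cfsg.qd p)) ^ n = qdMk 1 0 ((n : ZMod p) * x) 1 0 0 (by ring) := by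
  induction n with
  | zero => rw [pow_zero, ← qdMk_one, qdMk_inj]; simp
  | succ n ih => rw [pow_succ, ih, qdMk_mul, qdMk_inj]; push_cast; refine ⟨by ring, by ring, by ring, by ring, by ring, by ring⟩

theorem hom_eq_one_of_pow (hp2 : p ≠ 2) (χ : ↥(Cfsg.qd p) →* ℤˣ) {x : ↥(Cfsg.qd p)} (hx : x ^ p = 1) :
    χ x = 1 := by
  have h1 : (χ x) ^ p = 1 := by rw [← map_pow, hx, map_one]
  rcases Int.units_eq_one_or (χ x) with h | h
  · exact h
  · rw [h] at h1
    have hodd : Odd p := hp.out.odd_of_ne_two hp2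
    rw [hodd.neg_one_pow] at h1
    exact absurd h1 (by decide)

theorem hom_trivial (hp2 : p ≠ 2) (χ : ↥(Cfsg.qd p) →* ℤˣ) (x : ↥(Cfsg.qd p)) : χ x = 1 := by
  have hU : ∀ t : ZMod p, χ (qdMk 1 t 0 1 0 0 (by ring)) = 1 := by
    intro t
    apply hom_eq_one_of_pow hp2
    rw [pow_upper, ← qdMk_one, qdMk_inj]; simp
  have hL : ∀ t : ZMod p, χ (qdMk 1 0 t 1 0 0 (by ring)) = 1 := by
    intro t
    apply hom_eq_one_of_pow hp2
    rw [pow_lower, ← qdMk_one, qdMk_inj]; simp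
  have hT : ∀ e f : ZMod p, χ (tr e f) = 1 := by
    intro e f
    apply hom_eq_one_of_pow hp2
    rw [tr_pow, ← tr_zero, tr_inj]; simp
  have key : ∀ (a b c d e f : ZMod p) (h : a * d - b * c = 1), c ≠ 0 → χ (qdMk a b c d e f h) = 1 := by
    intro a b c d e f h hc
    have h1 : (qdMk a b c d e f h : ↥(Cfsg.qd p)) = tr e f * qdMk 1 ((a - 1) / c) 0 1 0 0 (by ring) *
        qdMk 1 0 c 1 0 0 (by ring) * qdMk 1 ((d - 1) / c) 0 1 0 0 (by ring) := by
      unfold tr
      rw [qdMk_mul, qdMk_mul, qdMk_mul, qdMk_inj]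
      refine ⟨?_, ?_, ?_, ?_, ?_, ?_⟩
      · field_simp; ring
      · field_simp; linear_combination (-1 : ZMod p) * h
      · ring
      · field_simp; ring
      · ring
      · ring
    rw [h1, map_mul, map_mul, map_mul, hT, hU, hL, hU]; simp
  obtain ⟨a, b, c, d, e, f, h, rfl⟩ := exists_qdMk x
  by_cases hc : c = 0
  · have ha : a ≠ 0 := by
      rintro rfl
      rw [hc] at h
      simp at h
    have h2 : χ (qdMk 1 0 1 1 0 0 (by ring) * qdMk a b c d e f h) = 1 := by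
      rw [qdMk_mul]
      apply key
      rw [hc]; simpa using ha
    rwa [map_mul, hL, one_mul] at h2
  · exact key a b c d e f h hc

theorem exists_nonab_p : ∃ P : Subgroup ↥(Cfsg.qd p), IsPGroup p P ∧ ¬ IsMulCommutative P := by
  have hu : IsPGroup p (Subgroup.zpowers (qdMk 1 1 0 1 0 0 (by ring) : ↥(Cfsg.qd p))) := by
    apply IsPGroup.of_card (n := 1)
    rw [Nat.card_zpowers, pow_one]
    apply orderOf_eq_prime
    · rw [pow_upper, ← qdMk_one, qdMk_inj]; simp
    · rw [← qdMk_one]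
      intro h
      have := (qdMk_inj.mp h).2.1
      exact one_ne_zero this
  have hV : IsPGroup p (V p) := by
    intro x
    refine ⟨1, ?_⟩
    apply Subtype.ext
    rw [pow_one]
    exact V_pow x.1 x.2
  obtain ⟨P, hP⟩ := hu.exists_le_sylow
  have hVn : (V p).Normal := MonoidHom.normal_ker _
  have hVP : V p ≤ (P : Subgroup _) := by
    have h1 : IsPGroup p ((P : Subgroup ↥(Cfsg.qd p)) ⊔ V p : Subgroup _) :=
      IsPGroup.to_sup_of_normal_right P.2 hV
    have h2 := P.3 h1 le_sup_left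
    rw [← h2]; exact le_sup_right
  refine ⟨P, P.2, ?_⟩
  intro hcomm
  have h1 := hP (Subgroup.mem_zpowers _)
  have h2 := hVP (tr_mem 0 1)
  have h3 := hcomm.is_comm.comm ⟨_, h1⟩ ⟨_, h2⟩
  have h4 := congrArg Subtype.val h3
  have h5 : (qdMk 1 1 0 1 0 0 (by ring) : ↥(Cfsg.qd p)) * tr 0 1 = tr 0 1 * qdMk 1 1 0 1 0 0 (by ring) := h4
  unfold tr at h5
  rw [qdMk_mul, qdMk_mul, qdMk_inj] at h5
  simp at h5

theorem not_involves {n : ℕ} (hn : n < p ^ 2) : ¬ Cfsg.Involves ↥(Cfsg.qd p) ↥(alternatingGroup (Fin n)) := by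
  rintro ⟨K, R, hR, ⟨e⟩⟩
  obtain ⟨P, hP, hPc⟩ := exists_nonab_p (p := p)
  let π : K →* ↥(Cfsg.qd p) := e.toMonoidHom.comp (QuotientGroup.mk' (R.subgroupOf K))
  have hπ : Function.Surjective π := e.surjective.comp (QuotientGroup.mk'_surjective _)
  obtain ⟨P', hP', hmap⟩ := exists_lift_pGroup π hπ P hP
  apply hPc
  let j : K →* Perm (Fin n) := (alternatingGroup (Fin n)).subtype.comp K.subtype
  have hj : Function.Injective j := fun x y h => Subtype.ext (Subtype.ext h)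
  have hc := Lib.H70AltPrime.comm_of_small (α := Fin n) (q := p) (by simpa using hn) (P'.map j) (hP'.map j)
  constructor
  constructor
  rintro ⟨x, hx⟩ ⟨y, hy⟩
  rw [← hmap] at hx hy
  obtain ⟨x', hx', rfl⟩ := hx
  obtain ⟨y', hy', rfl⟩ := hy
  apply Subtype.ext
  show π x' * π y' = π y' * π x'
  rw [← map_mul, ← map_mul]
  congr 1
  apply hj
  have h3 := hc.is_comm.comm ⟨j x', ⟨x', hx', rfl⟩⟩ ⟨j y', ⟨y', hy', rfl⟩⟩
  have h4 := congrArg Subtype.val h3
  simpa using h4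

theorem exists_sub (hp2 : p ≠ 2) {n : ℕ} (hn : p ^ 2 ≤ n) :
    ∃ H : Subgroup (alternatingGroup (Fin n)), Nonempty (↥H ≃* ↥(Cfsg.qd p)) := by
  have hcard : Fintype.card (ZMod p × ZMod p) ≤ Fintype.card (Fin n) := by
    rw [Fintype.card_prod, ZMod.card, Fintype.card_fin, ← sq]; exact hn
  obtain ⟨ι⟩ := Function.Embedding.nonempty_of_card_le hcard
  let ρ : ↥(Cfsg.qd p) →* Perm (Fin n) := (Equiv.Perm.viaEmbeddingHom ι).comp (actHom p)
  have hρ : Function.Injective ρ := (Equiv.Perm.viaEmbeddingHom_injective ι).comp actHom_injective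
  have hmem : ∀ x, ρ x ∈ alternatingGroup (Fin n) := by
    intro x
    rw [Equiv.Perm.mem_alternatingGroup]
    exact hom_trivial hp2 ((Equiv.Perm.sign).comp ρ) x
  let ρ' : ↥(Cfsg.qd p) →* alternatingGroup (Fin n) := ρ.codRestrict _ hmem
  have hρ' : Function.Injective ρ' := fun x y h => hρ (congrArg Subtype.val h)
  exact ⟨ρ'.range, ⟨(MonoidHom.ofInjective hρ').symm⟩⟩


/-- Let p be an odd prime and n a natural number. The alternating group of degree n has a subgroup isomorphic to Qd(p) (the natural semidirect product of an elementary abelian group of order p² by SL₂(p)) if and only if n ≥ p²; and if n < p² then Qd(p) is not even involved in it. -/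
theorem result {p : ℕ} [Fact p.Prime] (hp : p ≠ 2) (n : ℕ) : ((∃ H : Subgroup (alternatingGroup (Fin n)), Nonempty (↥H ≃* ↥(Cfsg.qd p))) ↔ p ^ 2 ≤ n) ∧ (n < p ^ 2 → ¬ Cfsg.Involves ↥(Cfsg.qd p) ↥(alternatingGroup (Fin n))) := by
  refine ⟨⟨?_, exists_sub hp⟩, not_involves⟩
  rintro ⟨H, ⟨e⟩⟩
  by_contra hn
  push Not at hn
  refine not_involves hn ?_
  exact Lib.QdLocal.involves_of_injective (H.subtype.comp e.symm.toMonoidHom)
    (H.subtype_injective.comp e.symm.injective)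

end Cfsg.Agent.S3835
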