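import Cfsg.Statements.S3836
import Mathlib

set_option autoImplicit false
open Cfsg

namespace Cfsg.Agent.S3836

/-- Let G be a finite group that is p-stable in the normalizer form: for every p-subgroup Q and every x ∈ N_G(Q) with [Q, x, x] = 1, the image of x in N_G(Q)/C_G(Q) lies in O_p(N_G(Q)/C_G(Q)). Then every subgroup of G is p-stable in the same sense. -/
theorem result {G : Type*} [Group G] [Finite G] {p : ℕ} [Fact p.Prime] (hst : Cfsg.IsNormalizerPStable p G) (H : Subgroup G) : Cfsg.IsNormalizerPStable p ↥H := by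
  intro P hP g hg hcomm
  have hpc : ∀ (X : Type _) [Group X], IsPGroup p ↥(Cfsg.pCore p X) := fun X _ =>
    Sylow.sSup_of_normal _ (fun _ h => h.2) (fun _ h => h.1)
  -- embedding of normalizers
  have hN : ∀ n : H, n ∈ Subgroup.normalizer (P : Set H) → (n : G) ∈ Subgroup.normalizer ((P.map H.subtype : Subgroup G) : Set G) := by
    intro n hn
    rw [Subgroup.mem_normalizer_iff] at hn ⊢
    intro y
    constructor
    · rintro ⟨z, hz, rfl⟩
      exact ⟨n * z * n⁻¹, (hn z).1 hz, by simp⟩
    · rintro ⟨z, hz, hze⟩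
      refine ⟨n⁻¹ * z * n, ?_, ?_⟩
      · apply (hn _).2
        have : n * (n⁻¹ * z * n) * n⁻¹ = z := by group
        rw [this]; exact hz
      · have hze' : (z : G) = n * y * (n : G)⁻¹ := hze
        simp only [Subgroup.coe_subtype, Subgroup.coe_mul, Subgroup.coe_inv, hze']
        group
  have hcomm' : ⁅⁅P.map H.subtype, Subgroup.zpowers (g : G)⁆, Subgroup.zpowers (g : G)⁆ = ⊥ := by
    have h1 : Subgroup.zpowers (g : G) = (Subgroup.zpowers g).map H.subtype := by
      rw [MonoidHom.map_zpowers]; rfl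
    rw [h1, ← Subgroup.map_commutator, ← Subgroup.map_commutator, hcomm, Subgroup.map_bot]
  have key := hst (P.map H.subtype) (hP.map _) (g : G) (hN g hg) hcomm'
  set N := Subgroup.normalizer (P : Set H)
  set N' := Subgroup.normalizer ((P.map H.subtype : Subgroup G) : Set G)
  let ι : ↥N →* ↥N' :=
    { toFun := fun n => ⟨((n : H) : G), hN n n.2⟩
      map_one' := rfl
      map_mul' := fun _ _ => rfl }
  let φ : ↥N →* ↥N' ⧸ (Subgroup.centralizer ((P.map H.subtype : Subgroup G) : Set G)).subgroupOf N' :=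
    (QuotientGroup.mk' _).comp ι
  have hker : ∀ n : ↥N, φ n = 1 → n ∈ (Subgroup.centralizer (P : Set H)).subgroupOf N := by
    intro n hn
    have h1 : ι n ∈ (Subgroup.centralizer ((P.map H.subtype : Subgroup G) : Set G)).subgroupOf N' := by
      rw [← QuotientGroup.ker_mk' ((Subgroup.centralizer ((P.map H.subtype : Subgroup G) : Set G)).subgroupOf N')]
      exact hn
    rw [Subgroup.mem_subgroupOf, Subgroup.mem_centralizer_iff] at h1 ⊢
    intro y hy
    have := h1 (y : G) ⟨y, hy, rfl⟩
    exact Subtype.ext this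
  let K := (Cfsg.pCore p (↥N' ⧸ (Subgroup.centralizer ((P.map H.subtype : Subgroup G) : Set G)).subgroupOf N')).comap φ
  have hpn : (Cfsg.pCore p (↥N' ⧸ (Subgroup.centralizer ((P.map H.subtype : Subgroup G) : Set G)).subgroupOf N')).Normal :=
    Subgroup.sSup_normal _ (fun _ h => h.1)
  have hKn : K.Normal := Subgroup.normal_comap φ
  have hLn : (K.map (QuotientGroup.mk' ((Subgroup.centralizer (P : Set H)).subgroupOf N))).Normal :=
    Subgroup.Normal.map hKn _ (QuotientGroup.mk'_surjective _)
  have hLp : IsPGroup p ↥(K.map (QuotientGroup.mk' ((Subgroup.centralizer (P : Set H)).subgroupOf N))) := by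
    rintro ⟨_, ⟨n, hn, rfl⟩⟩
    obtain ⟨k, hk⟩ := hpc _ ⟨φ n, hn⟩
    have hk' : (φ n) ^ p ^ k = 1 := congrArg Subtype.val hk
    rw [← map_pow] at hk'
    refine ⟨k, ?_⟩
    apply Subtype.ext
    have := hker _ hk'
    simp only [Subgroup.coe_pow, Subgroup.coe_one]
    rw [← map_pow]
    rw [← QuotientGroup.ker_mk' ((Subgroup.centralizer (P : Set H)).subgroupOf N)] at this
    exact this
  have hle : (K.map (QuotientGroup.mk' ((Subgroup.centralizer (P : Set H)).subgroupOf N))) ≤
      Cfsg.pCore p (↥N ⧸ (Subgroup.centralizer (P : Set H)).subgroupOf N) := le_sSup ⟨hLn, hLp⟩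
  exact hle ⟨⟨g, hg⟩, key, rfl⟩

end Cfsg.Agent.S3836
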