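import Cfsg.Statements.S3838
import Mathlib
import Cfsg.Agent.Lib.PCompTools

set_option autoImplicit false
open Cfsg

namespace Cfsg.Agent.S3838

/-- Let G be a finite group with Sylow p-subgroup P such that N_G(P) has a normal p-complement. Then N_G(Q) has a normal p-complement for every subgroup Q with [P, P] ≤ Q ≤ Φ(P). -/
theorem result {G : Type*} [Group G] [Finite G] {p : ℕ} [Fact p.Prime] (P : Sylow p G) (hN : Cfsg.HasNormalPComplement p ↥(Subgroup.normalizer ((P : Subgroup G) : Set G))) (Q : Subgroup G) (h1 : (commutator ↥(P : Subgroup G)).map (P : Subgroup G).subtype ≤ Q) (h2 : Q ≤ (frattini ↥(P : Subgroup G)).map (P : Subgroup G).subtype) : Cfsg.HasNormalPComplement p ↥(Subgroup.normalizer (Q : Set G)) := by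
  have hcomm : ∀ a ∈ (P : Subgroup G), ∀ b ∈ (P : Subgroup G), a * b * a⁻¹ * b⁻¹ ∈ Q := by
    intro a ha b hb
    apply h1
    exact ⟨(⟨a, ha⟩ : (P : Subgroup G)) * ⟨b, hb⟩ * (⟨a, ha⟩ : (P : Subgroup G))⁻¹ * (⟨b, hb⟩ : (P : Subgroup G))⁻¹,
      Subgroup.commutator_mem_commutator (Subgroup.mem_top _) (Subgroup.mem_top _), rfl⟩
  have hQP : Q ≤ (P : Subgroup G) := h2.trans (Subgroup.map_subtype_le _)
  set H := Subgroup.normalizer (Q : Set G) with hH
  have hPH : (P : Subgroup G) ≤ H := by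
    intro x hx
    apply Cfsg.Agent.Lib.LocBase.mem_normalizer_of_map_conj_le
    rintro _ ⟨q, hq, rfl⟩
    change x * q * x⁻¹ ∈ Q
    have := Q.mul_mem (hcomm x hx q (hQP hq)) hq
    simpa [mul_assoc] using this
  have hQH : Q ≤ H := Subgroup.le_normalizer
  have hQn : (Q.subgroupOf H).Normal := Subgroup.normal_in_normalizer
  let P' : Sylow p H := P.subtype hPH
  have hP' : ∀ x : H, x ∈ (P' : Subgroup H) ↔ (x : G) ∈ (P : Subgroup G) := fun x => Iff.rfl
  refine Cfsg.Agent.Lib.PCompTools.hasNormalPComplement_of_frattini P' (Q.subgroupOf H) ?_ ?_ ?_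
  · -- `N_H(P)` embeds in `N_G(P)`
    have hmem : ∀ x : ↥(Subgroup.normalizer ((P' : Subgroup H) : Set H)),
        ((x : H) : G) ∈ Subgroup.normalizer ((P : Subgroup G) : Set G) := by
      intro x
      apply Cfsg.Agent.Lib.LocBase.mem_normalizer_of_map_conj_le
      rintro _ ⟨y, hy, rfl⟩
      change ((x : H) : G) * y * ((x : H) : G)⁻¹ ∈ (P : Subgroup G)
      exact (hP' _).mp ((Subgroup.mem_normalizer_iff.mp x.2 (⟨y, hPH hy⟩ : H)).mp ((hP' _).mpr hy))
    let f : ↥(Subgroup.normalizer ((P' : Subgroup H) : Set H)) →*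
        ↥(Subgroup.normalizer ((P : Subgroup G) : Set G)) :=
      { toFun := fun x => ⟨((x : H) : G), hmem x⟩
        map_one' := rfl
        map_mul' := fun _ _ => rfl }
    refine Cfsg.Agent.Lib.PNilp.HasNormalPComplement.of_injective hN f ?_
    intro a b hab
    have hab' : ((a : H) : G) = ((b : H) : G) :=
      congrArg (fun z : ↥(Subgroup.normalizer ((P : Subgroup G) : Set G)) => (z : G)) hab
    exact Subtype.ext (Subtype.ext hab')
  · intro a ha b hb
    exact hcomm a ((hP' a).mp ha) b ((hP' b).mp hb)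
  · intro x hx
    obtain ⟨y, hy, hyx⟩ := h2 (show (x : G) ∈ Q from hx)
    let e : ↥(P : Subgroup G) →* ↥(P' : Subgroup H) :=
      { toFun := fun z => ⟨⟨(z : G), hPH z.2⟩, (hP' _).mpr z.2⟩
        map_one' := rfl
        map_mul' := fun _ _ => rfl }
    have he : Function.Surjective e := fun z => ⟨⟨((z : H) : G), (hP' _).mp z.2⟩, rfl⟩
    have hle := frattini_le_comap_frattini_of_surjective he
    refine ⟨e y, hle hy, ?_⟩
    exact Subtype.ext hyx

end Cfsg.Agent.S3838
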