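import Cfsg.Statements.S3839
import Mathlib
import Cfsg.Agent.Lib.Transfer
import Cfsg.Agent.Lib.RelSylow
import Cfsg.Agent.Lib.LocBase
import Cfsg.Agent.Lib.H64Basic

set_option autoImplicit false
open Cfsg

namespace Cfsg.Agent.S3839

section aux
open Subgroup
open Cfsg.Agent.Lib.RelSylow Cfsg.Agent.Lib.PNilp

variable {G : Type*} [Group G] [Finite G] {p : ℕ} [hp : Fact p.Prime]

theorem mem_centralizer_rel {X : Subgroup G} (hX : IsPGroup p X)
    (h : Cfsg.HasNormalPComplement p ↥(normalizer (X : Set G))) {g : G}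
    (hg : g ∈ normalizer (X : Set G)) (hgo : (orderOf g).Coprime p) : g ∈ centralizer (X : Set G) := by
  have hD' : IsPGroup p (X.subgroupOf (normalizer (X : Set G))) := hX.comap_subtype
  have h2 := Cfsg.Agent.Lib.Transfer.mem_centralizer_of_hasNormalPComplement h _ hD' ⟨g, hg⟩ ?_ ?_
  · rw [Subgroup.mem_centralizer_iff] at h2 ⊢
    intro x hx
    have := h2 ⟨x, Subgroup.le_normalizer hx⟩ (by simpa [Subgroup.mem_subgroupOf] using hx)
    simpa using congrArg Subtype.val this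
  · apply Subgroup.le_normalizer_of_normal (K := ⊤) (Subgroup.mem_top _)
  · rw [← Subgroup.orderOf_coe]; exact hgo

/-- If every `p'`-element of `H` normalizing a `p`-subgroup of `H` centralizes it, `H` has a normal
`p`-complement. -/
theorem npc_of_forall {H : Subgroup G} (h : ∀ Q : Subgroup G, Q ≤ H → IsPGroup p Q → ∀ g ∈ H,
    g ∈ normalizer (Q : Set G) → (orderOf g).Coprime p → g ∈ centralizer (Q : Set G)) :
    Cfsg.HasNormalPComplement p H := by
  rw [Cfsg.Agent.Lib.Transfer.hasNormalPComplement_iff_forall_centralizer]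
  intro Q hQ g hg hgo
  have h1 := h (Q.map H.subtype) (map_subtype_le _) (hQ.map _) g g.2 ?_ ?_
  · rw [mem_centralizer_iff] at h1 ⊢
    intro x hx
    exact Subtype.ext (h1 x ⟨x, hx, rfl⟩)
  · apply Cfsg.Agent.Lib.LocBase.mem_normalizer_of_map_conj_le
    rintro _ ⟨_, ⟨x, hx, rfl⟩, rfl⟩
    exact ⟨g * x * g⁻¹, (mem_normalizer_iff.mp hg x).mp hx, rfl⟩
  · rwa [Subgroup.orderOf_coe]

theorem le_of_isPGroup_prod {A : Subgroup G} {a : G} (hA : IsPGroup p A) (ha : a ∈ A)
    (hao : (orderOf a).Coprime p) : a = 1 := by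
  obtain ⟨k, hk⟩ := hA ⟨a, ha⟩
  have hk' : a ^ p ^ k = 1 := congrArg Subtype.val hk
  exact orderOf_eq_one_iff.mp
    (Nat.eq_one_of_dvd_coprimes (hao.pow_right k) dvd_rfl (orderOf_dvd_of_pow_eq_one hk'))

theorem main_step {S D W : Subgroup G} (hS : IsSyl p S ⊤) (hD : Cfsg.IsStronglyClosed D S)
    (hcen : ∀ U : Subgroup G, U ≤ D → D ⊓ centralizer (U : Set G) ≤ U →
      Cfsg.HasNormalPComplement p ↥(normalizer (U : Set G)))
    (hWS : W ≤ S) (hT : IsSyl p (S ⊓ normalizer (W : Set G)) (normalizer (W : Set G)))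
    (hbig : ∀ X : Subgroup G, IsPGroup p X → Nat.card W < Nat.card X →
      Cfsg.HasNormalPComplement p ↥(normalizer (X : Set G))) :
    Cfsg.HasNormalPComplement p ↥(normalizer (W : Set G)) := by
  set H := normalizer (W : Set G) with hHdef
  have hSp : IsPGroup p S := hS.2.1
  have hWp : IsPGroup p W := hSp.to_le hWS
  have hDS : D ≤ S := hD.1
  have hWH : W ≤ H := le_normalizer
  -- elements conjugating elements of `D` into `S`
  have hSD : S ≤ normalizer (D : Set G) := by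
    intro s hs
    apply Cfsg.Agent.Lib.LocBase.mem_normalizer_of_map_conj_le
    rintro _ ⟨d, hd, rfl⟩
    exact hD.2 d hd s (S.mul_mem (S.mul_mem hs (hDS hd)) (S.inv_mem hs))
  set U := W ⊓ D with hUdef
  have hHU : H ≤ normalizer (U : Set G) := by
    intro h hh
    apply Cfsg.Agent.Lib.LocBase.mem_normalizer_of_map_conj_le
    rintro _ ⟨u, hu, rfl⟩
    have h1 : h * u * h⁻¹ ∈ W := (mem_normalizer_iff.mp hh u).mp hu.1
    exact ⟨h1, hD.2 u hu.2 h (hWS h1)⟩
  have hUD : U ≤ D := inf_le_right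
  have hUW : U ≤ W := inf_le_left
  by_cases hC : D ⊓ centralizer (U : Set G) ≤ U
  · exact HasNormalPComplement.mono hHU (hcen U hUD hC)
  set F := D ⊓ centralizer (U : Set G) with hFdef
  have hFW : ¬ F ≤ W := fun h => hC (le_inf h inf_le_left)
  have hWF : W ≤ normalizer (F : Set G) :=
    Cfsg.Agent.Lib.LocBase.le_normalizer_inf (hWS.trans hSD)
      (Cfsg.Agent.Lib.LocBase.le_normalizer_centralizer (hWH.trans hHU))
  -- an element of `N_F(W)` outside `W`
  obtain ⟨f, hfF, hfH, hfW⟩ : ∃ f ∈ F, f ∈ H ∧ f ∉ W := by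
    have hFS : F ≤ S := inf_le_left.trans hDS
    have hlt : W < F ⊔ W := lt_of_le_of_ne le_sup_right (fun h => hFW (by rw [h]; exact le_sup_left))
    have hlt2 := Cfsg.Agent.Lib.H64Basic.lt_inf_normalizer (hSp.to_le (sup_le hFS hWS)) hlt
    obtain ⟨y, hy, hyW⟩ := SetLike.exists_of_lt hlt2
    obtain ⟨f, hf, w, hw, rfl⟩ := Cfsg.Agent.Lib.LocBase.exists_mul_of_mem_sup_of_le hWF hy.1
    refine ⟨f, hf, ?_, fun hfW => hyW (W.mul_mem hfW hw)⟩
    have := H.mul_mem hy.2 (H.inv_mem (hWH hw))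
    rwa [mul_inv_cancel_right] at this
  -- the stabilizer of the chain `1 ≤ U ≤ W`
  let N : Subgroup G :=
    { carrier := {h | h ∈ H ∧ (∀ w ∈ W, h * w * h⁻¹ * w⁻¹ ∈ U) ∧ ∀ u ∈ U, h * u * h⁻¹ = u}
      one_mem' := ⟨one_mem _, fun w _ => by simp, fun u _ => by simp⟩
      mul_mem' := by
        rintro a b ⟨ha, ha1, ha2⟩ ⟨hb, hb1, hb2⟩
        refine ⟨H.mul_mem ha hb, fun w hw => ?_, fun u hu => ?_⟩
        · have hbw : b * w * b⁻¹ ∈ W := (mem_normalizer_iff.mp hb w).mp hw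
          have e : a * b * w * (a * b)⁻¹ * w⁻¹ =
              (a * (b * w * b⁻¹) * a⁻¹ * (b * w * b⁻¹)⁻¹) * (b * w * b⁻¹ * w⁻¹) := by group
          rw [e]
          exact U.mul_mem (ha1 _ hbw) (hb1 w hw)
        · have e : a * b * u * (a * b)⁻¹ = a * (b * u * b⁻¹) * a⁻¹ := by group
          rw [e, hb2 u hu, ha2 u hu]
      inv_mem' := by
        rintro a ⟨ha, ha1, ha2⟩
        refine ⟨H.inv_mem ha, fun w hw => ?_, fun u hu => ?_⟩
        · have haw : a⁻¹ * w * a ∈ W := by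
            have := (mem_normalizer_iff.mp (H.inv_mem ha) w).mp hw
            rwa [inv_inv] at this
          have e : a⁻¹ * w * a⁻¹⁻¹ * w⁻¹ = (a * (a⁻¹ * w * a) * a⁻¹ * (a⁻¹ * w * a)⁻¹)⁻¹ := by group
          rw [e]
          exact U.inv_mem (ha1 _ haw)
        · have := ha2 u hu
          calc a⁻¹ * u * a⁻¹⁻¹ = a⁻¹ * (a * u * a⁻¹) * a := by rw [this, inv_inv]
            _ = u := by group }
  have hNmem : ∀ h : G, h ∈ N ↔ h ∈ H ∧ (∀ w ∈ W, h * w * h⁻¹ * w⁻¹ ∈ U) ∧ ∀ u ∈ U, h * u * h⁻¹ = u :=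
    fun h => Iff.rfl
  have hNH : N ≤ H := fun h hh => ((hNmem h).mp hh).1
  have hHN : H ≤ normalizer (N : Set G) := by
    intro g hg
    apply Cfsg.Agent.Lib.LocBase.mem_normalizer_of_map_conj_le
    rintro _ ⟨h, hh, rfl⟩
    change g * h * g⁻¹ ∈ N
    obtain ⟨h1, h2, h3⟩ := (hNmem h).mp hh
    have hgw : ∀ w ∈ W, g⁻¹ * w * g ∈ W := by
      intro w hw
      have := (mem_normalizer_iff.mp (H.inv_mem hg) w).mp hw
      rwa [inv_inv] at this
    have hgu : ∀ u ∈ U, g⁻¹ * u * g ∈ U := by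
      intro u hu
      have := (mem_normalizer_iff.mp (inv_mem (hHU hg)) u).mp hu
      rwa [inv_inv] at this
    rw [hNmem]
    refine ⟨H.mul_mem (H.mul_mem hg h1) (H.inv_mem hg), fun w hw => ?_, fun u hu => ?_⟩
    · have e : g * h * g⁻¹ * w * (g * h * g⁻¹)⁻¹ * w⁻¹ =
          g * (h * (g⁻¹ * w * g) * h⁻¹ * (g⁻¹ * w * g)⁻¹) * g⁻¹ := by group
      rw [e]
      exact (mem_normalizer_iff.mp (hHU hg) _).mp (h2 _ (hgw w hw))
    · have e : g * h * g⁻¹ * u * (g * h * g⁻¹)⁻¹ = g * (h * (g⁻¹ * u * g) * h⁻¹) * g⁻¹ := by group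
      rw [e, h3 _ (hgu u hu)]; group
  set V := D ⊓ N with hVdef
  -- `f ∈ V`
  have hfV : f ∈ V := by
    refine ⟨hfF.1, (hNmem f).mpr ⟨hfH, fun w hw => ?_, fun u hu => ?_⟩⟩
    · refine ⟨W.mul_mem ((mem_normalizer_iff.mp hfH w).mp hw) (W.inv_mem hw), ?_⟩
      have h1 : w * f⁻¹ * w⁻¹ ∈ D := (mem_normalizer_iff.mp (hSD (hWS hw)) _).mp (D.inv_mem hfF.1)
      have e : f * w * f⁻¹ * w⁻¹ = f * (w * f⁻¹ * w⁻¹) := by group
      rw [e]
      exact D.mul_mem hfF.1 h1
    · have := mem_centralizer_iff.mp hfF.2 u hu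
      rw [← this]; group
  have hVS : V ≤ S := inf_le_left.trans hDS
  have hVH : V ≤ H := inf_le_right.trans hNH
  have hWV : W ≤ normalizer (V : Set G) :=
    Cfsg.Agent.Lib.LocBase.le_normalizer_inf (hWS.trans hSD) (hWH.trans hHN)
  -- `X = V W`
  set X := V ⊔ W with hXdef
  have hXp : IsPGroup p X := hSp.to_le (sup_le hVS hWS)
  have hWX : W < X := lt_of_le_of_ne le_sup_right
    (fun h => hfW (by rw [h]; exact mem_sup_left hfV))
  have hXcard : Nat.card W < Nat.card X :=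
    lt_of_le_of_ne (card_le_of_le hWX.le) (fun e => hWX.ne (eq_of_le_of_card_ge hWX.le e.ge))
  have hNX := hbig X hXp hXcard
  -- Frattini
  have hTN : IsSyl p (S ⊓ H ⊓ N) N := hT.inf hNH hHN
  have hfr : ∀ h ∈ H, ∃ n ∈ N, ∃ m ∈ H, m ∈ normalizer (V : Set G) ∧ h = n * m := by
    intro h hh
    obtain ⟨n, hn, m, hm, rfl⟩ := hTN.frattini hHN hh
    have hmH : m ∈ H := by
      have := H.mul_mem (H.inv_mem (hNH hn)) hh
      rwa [inv_mul_cancel_left] at this
    refine ⟨n, hn, m, hmH, ?_, rfl⟩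
    apply Cfsg.Agent.Lib.LocBase.mem_normalizer_of_map_conj_le
    rintro _ ⟨v, hv, rfl⟩
    have h1 : m * v * m⁻¹ ∈ S ⊓ H ⊓ N :=
      (mem_normalizer_iff.mp hm v).mp ⟨⟨hVS hv, hVH hv⟩, hv.2⟩
    exact ⟨hD.2 v hv.1 m h1.1.1, h1.2⟩
  -- the action on `W`
  let φ : H →* MulAut W := normalizerMonoidHom W
  have hφ : ∀ (h : H) (w : W), ((φ h w : W) : G) = h * w * (h : G)⁻¹ := fun _ _ => rfl
  have hφone : ∀ h : H, φ h = 1 → (h : G) ∈ centralizer (W : Set G) := by
    intro h hh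
    rw [mem_centralizer_iff]
    intro w hw
    have h1 := hφ h ⟨w, hw⟩
    rw [hh] at h1
    have h2 : w = h * w * (h : G)⁻¹ := h1
    exact eq_mul_inv_iff_mul_eq.mp h2
  -- `φ(N)` is a `p`-group
  have hφN : IsPGroup p ((N.subgroupOf H).map φ) := by
    rintro ⟨_, ⟨n, hn, rfl⟩⟩
    obtain ⟨h1, h2, h3⟩ := (hNmem n).mp (mem_subgroupOf.mp hn)
    obtain ⟨k, hk⟩ := IsPGroup.iff_card.mp (hWp.to_le hUW)
    refine ⟨k, Subtype.ext ?_⟩
    change (φ n) ^ p ^ k = 1
    rw [← map_pow]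
    ext w
    change (((n : G) ^ p ^ k) * w * ((n : G) ^ p ^ k)⁻¹) = w
    have hz := h2 w w.2
    set z := (n : G) * w * (n : G)⁻¹ * (w : G)⁻¹ with hzdef
    have h4 : ∀ j : ℕ, (n : G) ^ j * w * ((n : G) ^ j)⁻¹ = z ^ j * w := by
      intro j
      induction j with
      | zero => simp
      | succ j ih' =>
        have e1 : (n : G) ^ (j + 1) * w * ((n : G) ^ (j + 1))⁻¹ =
            n * ((n : G) ^ j * w * ((n : G) ^ j)⁻¹) * (n : G)⁻¹ := by
          rw [pow_succ']; group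
        have e2 : (n : G) * (z ^ j * w) * (n : G)⁻¹ = ((n : G) * z * (n : G)⁻¹) ^ j * (n * w * (n : G)⁻¹) := by
          rw [conj_pow]; group
        have e4 : (n : G) * w * (n : G)⁻¹ = z * w := by rw [hzdef]; group
        rw [e1, ih', e2, h3 z hz, e4, pow_succ]; group
    rw [h4, ← hk]
    have h5 : z ^ Nat.card U = 1 := by
      have := pow_card_eq_one' (x := (⟨z, hz⟩ : U))
      exact congrArg Subtype.val this
    rw [h5, one_mul]
  have hNn : (N.subgroupOf H).Normal := normal_subgroupOf_iff_le_normalizer hNH |>.mpr hHN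
  -- `p'`-elements of `H` centralize `W`
  have hcentW : ∀ h ∈ H, (orderOf h).Coprime p → h ∈ centralizer (W : Set G) := by
    intro h hh hho
    obtain ⟨n, hn, m, hmH, hmV, rfl⟩ := hfr h hh
    apply hφone ⟨n * m, hh⟩
    have hmX : m ∈ normalizer (X : Set G) :=
      Cfsg.Agent.Lib.LocBase.le_normalizer_sup (K := zpowers m) (by rwa [zpowers_le])
        (by rwa [zpowers_le]) (mem_zpowers m)
    have hmp : IsPGroup p (zpowers (φ ⟨m, hmH⟩)) := by
      obtain ⟨k, hk⟩ := exists_pow_coprime p m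
      have h1 : m ^ p ^ k ∈ centralizer (X : Set G) :=
        mem_centralizer_rel hXp hNX (pow_mem hmX _) hk
      have h2 : (φ ⟨m, hmH⟩) ^ p ^ k = 1 := by
        rw [← map_pow]
        ext w
        change (m ^ p ^ k) * w * (m ^ p ^ k)⁻¹ = w
        rw [← mem_centralizer_iff.mp h1 w (hWX.le w.2)]; group
      rintro ⟨_, ⟨j, rfl⟩⟩
      refine ⟨k, Subtype.ext ?_⟩
      change ((φ ⟨m, hmH⟩) ^ j) ^ p ^ k = 1
      rw [← zpow_natCast, ← zpow_mul, mul_comm, zpow_mul, zpow_natCast, h2, one_zpow]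
    have hle : zpowers (φ ⟨m, hmH⟩) ≤ normalizer (((N.subgroupOf H).map φ : Subgroup (MulAut W)) : Set (MulAut W)) := by
      rw [zpowers_le]
      apply Cfsg.Agent.Lib.LocBase.mem_normalizer_of_map_conj_le
      rintro _ ⟨_, ⟨y, hy, rfl⟩, rfl⟩
      exact ⟨⟨m, hmH⟩ * y * (⟨m, hmH⟩ : H)⁻¹, hNn.conj_mem y hy _, by simp⟩
    have hsup := hφN.to_sup_of_normal_left' hmp hle
    apply le_of_isPGroup_prod hsup
    · have : φ ⟨n * m, hh⟩ = φ ⟨n, hNH hn⟩ * φ ⟨m, hmH⟩ := by rw [← map_mul]; rfl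
      rw [this]
      exact mul_mem (mem_sup_left ⟨⟨n, hNH hn⟩, mem_subgroupOf.mpr hn, rfl⟩) (mem_sup_right (mem_zpowers _))
    · refine Nat.Coprime.coprime_dvd_left ?_ hho
      have h1 := orderOf_map_dvd φ (⟨n * m, hh⟩ : H)
      rwa [← Subgroup.orderOf_coe] at h1
  -- conclusion
  apply npc_of_forall
  intro Q hQH hQ g hg hgQ hgo
  have hQW : IsPGroup p (W ⊔ Q : Subgroup G) := hWp.to_sup_of_normal_left' hQ hQH
  by_cases hle : Q ≤ W
  · exact (centralizer_le hle) (hcentW g hg hgo)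
  · have hlt : W < W ⊔ Q := lt_of_le_of_ne le_sup_left (fun h => hle (by rw [h]; exact le_sup_right))
    have hcard : Nat.card W < Nat.card (W ⊔ Q : Subgroup G) :=
      lt_of_le_of_ne (card_le_of_le hlt.le) (fun e => hlt.ne (eq_of_le_of_card_ge hlt.le e.ge))
    have hgn : g ∈ normalizer ((W ⊔ Q : Subgroup G) : Set G) :=
      Cfsg.Agent.Lib.LocBase.le_normalizer_sup (K := zpowers g) (by rwa [zpowers_le])
        (by rwa [zpowers_le]) (mem_zpowers g)
    have hsub : ((Q : Subgroup G) : Set G) ⊆ ((W ⊔ Q : Subgroup G) : Set G) := fun x hx => mem_sup_right hx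
    exact (centralizer_le hsub) (mem_centralizer_rel hQW (hbig _ hQW hcard) hgn hgo)

theorem npc_of_conj {W : Subgroup G} (g : G)
    (h : Cfsg.HasNormalPComplement p ↥(normalizer ((W.map (MulAut.conj g).toMonoidHom : Subgroup G) : Set G))) :
    Cfsg.HasNormalPComplement p ↥(normalizer (W : Set G)) := by
  apply npc_of_forall
  intro Q hQ hQp y hy hyQ hyo
  rw [← normalizer_conj] at h
  have h1 := Cfsg.Agent.Lib.Transfer.mem_centralizer_of_hasNormalPComplement
    (G := ↥((normalizer (W : Set G)).map (MulAut.conj g).toMonoidHom)) h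
    ((Q.map (MulAut.conj g).toMonoidHom).subgroupOf _) ((hQp.map _).comap_subtype)
    ⟨g * y * g⁻¹, ⟨y, hy, rfl⟩⟩ ?_ ?_
  · rw [mem_centralizer_iff] at h1 ⊢
    intro x hx
    have h2 := h1 ⟨g * x * g⁻¹, ⟨x, hQ hx, rfl⟩⟩ (mem_subgroupOf.mpr ⟨x, hx, rfl⟩)
    have h3 : g * x * g⁻¹ * (g * y * g⁻¹) = g * y * g⁻¹ * (g * x * g⁻¹) := congrArg Subtype.val h2
    have h4 : g * (x * y) * g⁻¹ = g * (y * x) * g⁻¹ := by
      calc g * (x * y) * g⁻¹ = g * x * g⁻¹ * (g * y * g⁻¹) := by group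
        _ = g * y * g⁻¹ * (g * x * g⁻¹) := h3
        _ = g * (y * x) * g⁻¹ := by group
    exact mul_left_cancel (mul_right_cancel h4)
  · apply Cfsg.Agent.Lib.LocBase.mem_normalizer_of_map_conj_le
    rintro _ ⟨⟨_, hz⟩, ⟨x, hx, rfl⟩, rfl⟩
    refine ⟨y * x * y⁻¹, (mem_normalizer_iff.mp hyQ x).mp hx, ?_⟩
    change g * (y * x * y⁻¹) * g⁻¹ = (g * y * g⁻¹) * (g * x * g⁻¹) * (g * y * g⁻¹)⁻¹
    group
  · rw [← Subgroup.orderOf_coe]
    change (orderOf (MulAut.conj g y)).Coprime p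
    rwa [MulEquiv.orderOf_eq (MulAut.conj g) y]

end aux

/-- A Frobenius normal p-complement criterion relative to a strongly closed subgroup. Let G be a finite group, S a Sylow p-subgroup and D a subgroup of S strongly closed in S with respect to G. Then G has a normal p-complement if and only if N_G(U) has a normal p-complement for every subgroup U of D with C_D(U) ≤ U. -/
theorem result {G : Type*} [Group G] [Finite G] {p : ℕ} [Fact p.Prime] (S : Sylow p G) (D : Subgroup G) (hD : Cfsg.IsStronglyClosed D (S : Subgroup G)) : Cfsg.HasNormalPComplement p G ↔ ∀ U : Subgroup G, U ≤ D → D ⊓ Subgroup.centralizer (U : Set G) ≤ U → Cfsg.HasNormalPComplement p ↥(Subgroup.normalizer (U : Set G)) := by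
  constructor
  · intro h U _ _
    exact Cfsg.Agent.Lib.PNilp.HasNormalPComplement.subgroup h _
  · intro hcen
    have key : ∀ n : ℕ, ∀ W : Subgroup G, IsPGroup p W → Nat.card G - Nat.card W = n →
        Cfsg.HasNormalPComplement p ↥(Subgroup.normalizer (W : Set G)) := by
      intro n
      induction n using Nat.strong_induction_on with
      | _ n ih =>
      intro W hW hn
      have hbig : ∀ X : Subgroup G, IsPGroup p X → Nat.card W < Nat.card X →
          Cfsg.HasNormalPComplement p ↥(Subgroup.normalizer (X : Set G)) := by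
        intro X hX hlt
        refine ih (Nat.card G - Nat.card X) ?_ X hX rfl
        have h1 : Nat.card X ≤ Nat.card G := Subgroup.card_le_card_group X
        omega
      obtain ⟨T, hWT, hT⟩ := Cfsg.Agent.Lib.RelSylow.exists_isSyl_ge hW
        (Subgroup.le_normalizer (H := W))
      have hS := Cfsg.Agent.Lib.RelSylow.isSyl_top_iff S
      obtain ⟨g, _, hg⟩ := hS.exists_conj_le hT.2.1 le_top
      have hTS : T.map (MulAut.conj g⁻¹).toMonoidHom ≤ (S : Subgroup G) := by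
        rw [Cfsg.Agent.Lib.LocBase.map_conj_le_iff, inv_inv]; exact hg
      apply npc_of_conj g⁻¹
      refine main_step hS hD hcen ((Subgroup.map_mono hWT).trans hTS) ?_ ?_
      · have h1 := hT.conj_isSyl g⁻¹
        rw [Cfsg.Agent.Lib.RelSylow.normalizer_conj] at h1
        have h2 : T.map (MulAut.conj g⁻¹).toMonoidHom = (S : Subgroup G) ⊓
            Subgroup.normalizer ((W.map (MulAut.conj g⁻¹).toMonoidHom : Subgroup G) : Set G) := by
          apply h1.eq_of_le (S.2.to_le inf_le_left) inf_le_right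
          exact le_inf hTS h1.1
        rw [← h2]
        exact h1
      · intro X hX hlt
        apply hbig X hX
        rwa [Cfsg.Agent.Lib.RelSylow.card_conj] at hlt
    have h1 := key _ ⊥ (IsPGroup.of_bot) rfl
    rw [show Subgroup.normalizer ((⊥ : Subgroup G) : Set G) = ⊤ from Subgroup.normalizer_eq_top _] at h1
    exact Cfsg.Agent.Lib.PNilp.HasNormalPComplement.of_mulEquiv h1 Subgroup.topEquiv

end Cfsg.Agent.S3839
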