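import Cfsg.Statements.S3857
import Cfsg.Agent.Lib.H64TwoFrob

set_option autoImplicit false
open Cfsg

namespace Cfsg.Agent.S3857


/-- A finite solvable group whose prime graph (prime divisors of the order, two distinct primes joined when there is an element of order their product) is disconnected is a Frobenius group or a 2-Frobenius group (it has normal subgroups H < K with K a Frobenius group with kernel H and G/H a Frobenius group with kernel K/H). -/
theorem result {G : Type*} [Group G] [Finite G] (hsol : Group.IsSolvable G)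
    (hdisc : (∃ A : Set ℕ, (∃ a ∈ A, a.Prime ∧ a ∣ Nat.card G) ∧ (∃ b ∉ A, b.Prime ∧ b ∣ Nat.card G) ∧
      ∀ a ∈ A, ∀ b ∉ A, a.Prime → b.Prime → a ∣ Nat.card G → b ∣ Nat.card G → ¬ ∃ g : G, orderOf g = a * b)) :
    (∃ C : Subgroup G, Cfsg.IsFrobeniusComplement C) ∨
    (∃ (H K : Subgroup G) (_ : H.Normal), K.Normal ∧ H < K ∧
      (∃ C : Subgroup ↥K, Cfsg.IsFrobeniusComplement C ∧ Cfsg.frobeniusKernel C = (H.subgroupOf K : Set ↥K)) ∧
      (∃ C : Subgroup (G ⧸ H), Cfsg.IsFrobeniusComplement C ∧ Cfsg.frobeniusKernel C = (K.map (QuotientGroup.mk' H) : Set (G ⧸ H)))) := by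
  classical
  obtain ⟨A, ⟨a, haA, hap, haG⟩, ⟨b, hbA, hbp, hbG⟩, hAB⟩ := hdisc
  have hsep : Lib.H64TwoFrob.Sep A G := by
    intro g
    by_contra hcon
    rw [not_or] at hcon
    obtain ⟨h1, h2⟩ := hcon
    unfold Lib.HallPi.PiNum at h1 h2
    push Not at h1 h2
    obtain ⟨y, hy, hyg, hyA⟩ := h1
    obtain ⟨x, hx, hxg, hxA⟩ := h2
    replace hxA : x ∈ A := by simpa using hxA
    have hxy : x ≠ y := by rintro rfl; exact hyA hxA
    have hdvd : x * y ∣ orderOf g :=
      Nat.Coprime.mul_dvd_of_dvd_of_dvd ((Nat.coprime_primes hx hy).2 hxy) hxg hyg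
    refine hAB x hxA y hyA hx hy (hxg.trans (orderOf_dvd_natCard g))
      (hyg.trans (orderOf_dvd_natCard g)) ⟨g ^ (orderOf g / (x * y)), ?_⟩
    exact orderOf_pow_orderOf_div (orderOf_pos g).ne' hdvd
  have hnt : Nontrivial G := by
    rw [← Finite.one_lt_card_iff_nontrivial]
    exact lt_of_lt_of_le hap.one_lt (Nat.le_of_dvd Nat.card_pos haG)
  obtain ⟨p, hp, hpc⟩ : ∃ p : ℕ, p.Prime ∧ pCore p G ≠ ⊥ := by
    by_contra hcon
    push Not at hcon
    apply Lib.Fitting.fittingSubgroup_ne_bot (G := G)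
    rw [Lib.Fitting.fittingSubgroup_eq_iSup_pCore, iSup_eq_bot]
    rintro ⟨p, hp⟩
    exact hcon p hp
  have := Fact.mk hp
  have hpn : (pCore p G).Normal := Lib.Fitting.normal_pCore p
  obtain ⟨n, hn⟩ := IsPGroup.iff_card.1 (Lib.Fitting.isPGroup_pCore (p := p) (G := G))
  have hcore : ∀ σ : Set ℕ, p ∈ σ → piCore σ G ≠ ⊥ := by
    intro σ hσ h
    apply hpc
    rw [eq_bot_iff, ← h]
    refine Lib.H32Cores.le_piCore hpn ?_
    rw [hn]
    exact Lib.HallPi.piNum_prime_pow hp hσ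
  by_cases hpA : p ∈ A
  · exact Lib.H64TwoFrob.main hsep (hcore A hpA) ⟨b, hbp, hbA, hbG⟩
  · exact Lib.H64TwoFrob.main hsep.compl (hcore Aᶜ hpA) ⟨a, hap, fun h => h haA, haG⟩

end Cfsg.Agent.S3857
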