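import Cfsg.Statements.S3858
import Mathlib
import Cfsg.Agent.Lib.RelSylow

set_option autoImplicit false
open Cfsg Cfsg.Agent.Lib.RelSylow

namespace Cfsg.Agent.S3858

open Subgroup Cfsg.Agent.Lib.RelSylow in
theorem normalizer_inf_ne_top {G : Type*} [Group G] [Finite G] (T : Subgroup G) [T.Normal] (hT : IsSimpleGroup T)
    (hna : ¬ IsMulCommutative T) {r : ℕ} [Fact r.Prime] (R : Subgroup G) (hR : IsPGroup r R) (hR0 : R ⊓ T ≠ ⊥) :
    Subgroup.normalizer ((R ⊓ T : Subgroup G) : Set G) ≠ ⊤ := by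
  intro htop
  have hn : (R ⊓ T).Normal := Subgroup.normalizer_eq_top_iff.mp htop
  have hn' : ((R ⊓ T).subgroupOf T).Normal := inferInstance
  rcases hn'.eq_bot_or_eq_top with h | h
  · apply hR0
    rw [Subgroup.subgroupOf_eq_bot] at h
    exact le_bot_iff.mp (h.le_bot.trans' (le_inf le_rfl inf_le_right))
  · rw [Subgroup.subgroupOf_eq_top] at h
    have hTR : T ≤ R := h.trans inf_le_left
    have hTp : IsPGroup r T := hR.to_le hTR
    apply hna
    have hnt : Nontrivial T := inferInstance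
    have hc : Nontrivial (Subgroup.center T) := hTp.center_nontrivial
    rcases (inferInstance : (Subgroup.center T).Normal).eq_bot_or_eq_top with h1 | h1
    · exact absurd h1 ((Subgroup.nontrivial_iff_ne_bot _).1 hc)
    · refine ⟨⟨fun a b => ?_⟩⟩
      have : a ∈ Subgroup.center T := by rw [h1]; trivial
      exact (Subgroup.mem_center_iff.1 this b).symm

/-- Let G be a finite group with a normal non-abelian simple subgroup T whose centralizer is trivial (G almost simple with socle T), r a prime and R a Sylow r-subgroup of G meeting T nontrivially. Then R lies in exactly one maximal subgroup of G if and only if G has exactly one conjugacy class of maximal subgroups whose index is prime to r. -/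
theorem result {G : Type*} [Group G] [Finite G] (T : Subgroup G) [T.Normal] (hT : IsSimpleGroup T) (hna : ¬ IsMulCommutative T)
    (hC : Subgroup.centralizer (T : Set G) = ⊥) {r : ℕ} [Fact r.Prime] (R : Sylow r G) (hR0 : (R : Subgroup G) ⊓ T ≠ ⊥) :
    (∃! M : Subgroup G, IsCoatom M ∧ (R : Subgroup G) ≤ M) ↔
      ((∃ M : Subgroup G, IsCoatom M ∧ ¬ r ∣ M.index) ∧
        ∀ M₁ M₂ : Subgroup G, IsCoatom M₁ → ¬ r ∣ M₁.index → IsCoatom M₂ → ¬ r ∣ M₂.index → ∃ g : G, M₂ = M₁.map (MulAut.conj g).toMonoidHom) := by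
  have hco : ∀ (M : Subgroup G) (g : G), IsCoatom M → IsCoatom (M.map (MulAut.conj g).toMonoidHom) := by
    intro M g hM
    exact ((MulAut.conj g).mapSubgroup.isCoatom_iff M).2 hM
  have hA : ∀ M : Subgroup G, ¬ r ∣ M.index → ∃ g : G, (R : Subgroup G) ≤ M.map (MulAut.conj g).toMonoidHom := by
    intro M hM
    obtain ⟨Q, hQ⟩ := exists_syl r M
    have hQ' : IsSyl r Q (⊤ : Subgroup G) := by
      refine ⟨le_top, hQ.2.1, ?_⟩
      rw [Subgroup.relIndex_top_right, ← Subgroup.relIndex_mul_index hQ.1]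
      exact fun h => ((Fact.out : r.Prime).dvd_mul.1 h).elim hQ.2.2 hM
    obtain ⟨h, -, hh⟩ := hQ'.conj (isSyl_top_iff R)
    exact ⟨h, by rw [← hh]; exact Subgroup.map_mono hQ.1⟩
  have hB : ∀ M : Subgroup G, (R : Subgroup G) ≤ M → ¬ r ∣ M.index := by
    intro M hM h
    exact R.not_dvd_index (h.trans (Subgroup.index_dvd_of_le hM))
  constructor
  · rintro ⟨M, ⟨hM, hRM⟩, hMu⟩
    refine ⟨⟨M, hM, hB M hRM⟩, ?_⟩
    intro M₁ M₂ h1 h1' h2 h2'
    obtain ⟨g₁, hg₁⟩ := hA M₁ h1'
    obtain ⟨g₂, hg₂⟩ := hA M₂ h2'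
    have e1 := hMu _ ⟨hco M₁ g₁ h1, hg₁⟩
    have e2 := hMu _ ⟨hco M₂ g₂ h2, hg₂⟩
    refine ⟨g₂⁻¹ * g₁, ?_⟩
    rw [← conj_conj, e1, ← e2, conj_conj]
    simp
    ext y; simp
  · rintro ⟨⟨M₁, hM₁, hM₁'⟩, hconj⟩
    have hne : Subgroup.normalizer ((R : Subgroup G) : Set G) ≠ ⊤ := by
      intro htop
      have hn : (R : Subgroup G).Normal := Subgroup.normalizer_eq_top_iff.mp htop
      apply normalizer_inf_ne_top T hT hna (R : Subgroup G) R.2 hR0
      rw [Subgroup.normalizer_eq_top_iff]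
      infer_instance
    obtain ⟨M₃, hM₃, hN⟩ := (eq_top_or_exists_le_coatom (Subgroup.normalizer ((R : Subgroup G) : Set G))).resolve_left hne
    have hRM₃ : (R : Subgroup G) ≤ M₃ := Subgroup.le_normalizer.trans hN
    refine ⟨M₃, ⟨hM₃, hRM₃⟩, ?_⟩
    rintro M ⟨hM, hRM⟩
    obtain ⟨g, hg⟩ := hconj M M₃ hM (hB M hRM) hM₃ (hB M₃ hRM₃)
    -- M₃ = M^g
    have hs1 : IsSyl r (R : Subgroup G) M := (isSyl_top_iff R).of_le hRM le_top
    have hle : (R : Subgroup G).map (MulAut.conj g⁻¹).toMonoidHom ≤ M := by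
      have := Subgroup.map_mono (f := (MulAut.conj g⁻¹).toMonoidHom) hRM₃
      rw [hg, conj_conj] at this
      simpa using this.trans (by rw [inv_mul_cancel, conj_one])
    have hs2 : IsSyl r ((R : Subgroup G).map (MulAut.conj g⁻¹).toMonoidHom) M := by
      apply isSyl_of_card_ge hs1 (R.2.map _) hle
      rw [card_conj]
    obtain ⟨m, hm, hme⟩ := hs1.conj hs2
    have h1 : g * m ∈ Subgroup.normalizer ((R : Subgroup G) : Set G) := by
      rw [mem_normalizer_iff_map, ← conj_conj, hme, conj_conj, mul_inv_cancel, conj_one]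
    have h2 := hN h1
    rw [hg, mem_conj_iff] at h2
    have h3 : g ∈ M := by
      have : g⁻¹ * (g * m) * g = m * g := by group
      rw [this] at h2
      exact (Subgroup.mul_mem_cancel_left M hm).1 h2
    rw [hg, conj_eq_of_mem h3]

end Cfsg.Agent.S3858
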