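import Cfsg.Statements.S3859
import Mathlib
import Cfsg.Agent.Lib.RelSylow

set_option autoImplicit false
open Cfsg Cfsg.Agent.Lib.RelSylow

namespace Cfsg.Agent.S3859

open Subgroup Cfsg.Agent.Lib.RelSylow in
theorem normalizer_inf_ne_top {G : Type*} [Group G] [Finite G] (T : Subgroup G) [T.Normal] (hT : IsSimpleGroup T)
    (hna : ¬ IsMulCommutative T) {r : ℕ} [Fact r.Prime] (R : Subgroup G) (hR : IsPGroup r R) (hR0 : R ⊓ T ≠ ⊥) :
    Subgroup.normalizer ((R ⊓ T : Subgroup G) : Set G) ≠ ⊤ := by
  intro htop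
  have hn : (R ⊓ T).Normal := Subgroup.normalizer_eq_top_iff.mp htop
  have hn' : ((R ⊓ T).subgroupOf T).Normal := inferInstance
  rcases hn'.eq_bot_or_eq_top with h | h
  · apply hR0
    rw [Subgroup.subgroupOf_eq_bot] at h
    exact le_bot_iff.mp (h.le_bot.trans' (le_inf le_rfl inf_le_right))
  · rw [Subgroup.subgroupOf_eq_top] at h
    have hTR : T ≤ R := h.trans inf_le_left
    have hTp : IsPGroup r T := hR.to_le hTR
    apply hna
    have hnt : Nontrivial T := inferInstance
    have hc : Nontrivial (Subgroup.center T) := hTp.center_nontrivial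
    rcases (inferInstance : (Subgroup.center T).Normal).eq_bot_or_eq_top with h1 | h1
    · exact absurd h1 ((Subgroup.nontrivial_iff_ne_bot _).1 hc)
    · refine ⟨⟨fun a b => ?_⟩⟩
      have : a ∈ Subgroup.center T := by rw [h1]; trivial
      exact (Subgroup.mem_center_iff.1 this b).symm

/-- Let G be a finite group with a normal non-abelian simple subgroup T whose centralizer is trivial (G almost simple with socle T), r a prime and R a Sylow r-subgroup of G meeting T nontrivially. If R lies in exactly one maximal subgroup of G, then G/T is an r-group. -/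
theorem result {G : Type*} [Group G] [Finite G] (T : Subgroup G) [T.Normal] (hT : IsSimpleGroup T) (hna : ¬ IsMulCommutative T)
    (hC : Subgroup.centralizer (T : Set G) = ⊥) {r : ℕ} [Fact r.Prime] (R : Sylow r G) (hR0 : (R : Subgroup G) ⊓ T ≠ ⊥)
    (huniq : ∃! M : Subgroup G, IsCoatom M ∧ (R : Subgroup G) ≤ M) : IsPGroup r (G ⧸ T) := by
  obtain ⟨M, ⟨hM, hRM⟩, hMu⟩ := huniq
  have hsyl : IsSyl r ((R : Subgroup G) ⊓ T) T := (isSyl_top_iff R).inf le_top (by rw [Subgroup.normalizer_eq_top])
  have hfr := hsyl.frattini_sup (H := ⊤) le_top (by rw [Subgroup.normalizer_eq_top])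
  rw [top_inf_eq] at hfr
  have hne := normalizer_inf_ne_top T hT hna (R : Subgroup G) R.2 hR0
  obtain ⟨M', hM', hNM'⟩ := (eq_top_or_exists_le_coatom (Subgroup.normalizer (((R : Subgroup G) ⊓ T : Subgroup G) : Set G))).resolve_left hne
  have hRM' : (R : Subgroup G) ≤ M' := by
    refine le_trans ?_ hNM'
    refine le_trans (le_inf Subgroup.le_normalizer ?_) (Subgroup.inf_normalizer_le_normalizer_inf)
    rw [Subgroup.normalizer_eq_top]; exact le_top
  have hMM' := hMu M' ⟨hM', hRM'⟩
  have hsup : (R : Subgroup G) ⊔ T = ⊤ := by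
    by_contra hcon
    obtain ⟨M'', hM'', hle⟩ := (eq_top_or_exists_le_coatom ((R : Subgroup G) ⊔ T)).resolve_left hcon
    have h2 := hMu M'' ⟨hM'', le_sup_left.trans hle⟩
    apply hM'.1
    rw [eq_top_iff, ← hfr]
    refine sup_le ?_ hNM'
    rw [hMM', ← h2]
    exact le_sup_right.trans hle
  have hmap : (R : Subgroup G).map (QuotientGroup.mk' T) = ⊤ := by
    have := congrArg (Subgroup.map (QuotientGroup.mk' T)) hsup
    rw [Subgroup.map_sup, Subgroup.map_top_of_surjective _ (QuotientGroup.mk'_surjective T)] at this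
    rw [← this]
    have hTbot : T.map (QuotientGroup.mk' T) = ⊥ := by
      rw [Subgroup.map_eq_bot_iff, QuotientGroup.ker_mk']
    rw [hTbot, sup_bot_eq]
  have hp : IsPGroup r ((R : Subgroup G).map (QuotientGroup.mk' T)) := R.2.map _
  rw [hmap] at hp
  exact hp.of_equiv Subgroup.topEquiv

end Cfsg.Agent.S3859
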