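import Cfsg.Statements.S3861
import Mathlib
import Cfsg.Agent.Lib.TwoClosed

set_option autoImplicit false
open Cfsg

namespace Cfsg.Agent.S3861

theorem eq_one_of_real_odd {H : Type*} [Group H] [Finite H] (hodd : Odd (Nat.card H)) {x : H}
    (h : IsConj x x⁻¹) : x = 1 := by
  obtain ⟨g, hg⟩ := isConj_iff.mp h
  have h1 : g ^ 2 * x = x * g ^ 2 := by
    have h2 : g ^ 2 * x * (g ^ 2)⁻¹ = x := by
      have e : g ^ 2 * x * (g ^ 2)⁻¹ = g * (g * x * g⁻¹) * g⁻¹ := by rw [pow_two]; group
      have e2 : g * x⁻¹ * g⁻¹ = (g * x * g⁻¹)⁻¹ := by group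
      rw [e, hg, e2, hg, inv_inv]
    rwa [mul_inv_eq_iff_eq_mul] at h2
  have hgo : Odd (orderOf g) := Odd.of_dvd_nat hodd (orderOf_dvd_natCard g)
  obtain ⟨k, hk⟩ := hgo
  have h3 : g = (g ^ 2) ^ (k + 1) := by
    rw [← pow_mul]
    have : 2 * (k + 1) = orderOf g + 1 := by omega
    rw [this, pow_succ, pow_orderOf_eq_one, one_mul]
  have h4 : Commute g x := by
    rw [h3]
    exact Commute.pow_left h1 _
  have h5 : g * x * g⁻¹ = x := by rw [h4.eq]; group
  rw [h5] at hg
  have h6 : x ^ 2 = 1 := by rw [pow_two]; nth_rw 2 [hg]; exact mul_inv_cancel x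
  have h7 : orderOf x ∣ 2 := orderOf_dvd_of_pow_eq_one h6
  have h8 : Odd (orderOf x) := Odd.of_dvd_nat hodd (orderOf_dvd_natCard x)
  rcases (Nat.dvd_prime Nat.prime_two).mp h7 with h9 | h9
  · exact orderOf_eq_one_iff.mp h9
  · rw [h9] at h8; exact absurd h8 (by decide)

/-- A finite group G has no non-identity element of odd order that is conjugate to its inverse if and only if the Sylow 2-subgroups of G are normal. -/
theorem result {G : Type*} [Group G] [Finite G] (P : Sylow 2 G) : (∀ x : G, x ≠ 1 → Odd (orderOf x) → ¬ IsConj x x⁻¹) ↔ (P : Subgroup G).Normal := by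
  constructor
  · intro h
    refine Cfsg.Agent.Lib.TwoClosed.sylow_two_normal (Nat.card G) G le_rfl ?_ P
    intro x hx hc
    by_contra hne
    exact h x hne hx hc
  · intro hP x hx1 hodd hc
    apply hx1
    have h1 : Odd (Nat.card (G ⧸ (P : Subgroup G))) := by
      rw [← Subgroup.index_eq_card, ← Nat.not_even_iff_odd, even_iff_two_dvd]
      exact P.not_dvd_index
    have h2 : IsConj (QuotientGroup.mk' (P : Subgroup G) x) (QuotientGroup.mk' (P : Subgroup G) x)⁻¹ := by
      rw [← map_inv]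
      exact MonoidHom.map_isConj _ hc
    have h3 := eq_one_of_real_odd h1 h2
    have h4 : x ∈ (P : Subgroup G) := (QuotientGroup.eq_one_iff x).mp h3
    obtain ⟨k, hk⟩ := P.2 ⟨x, h4⟩
    have hk' : x ^ 2 ^ k = 1 := congrArg Subtype.val hk
    obtain ⟨j, _, hj⟩ := (Nat.dvd_prime_pow Nat.prime_two).mp (orderOf_dvd_of_pow_eq_one hk')
    rw [hj] at hodd
    rcases Nat.eq_zero_or_pos j with h0 | h0
    · rw [h0, pow_zero] at hj
      exact orderOf_eq_one_iff.mp hj
    · exfalso
      rw [← Nat.not_even_iff_odd] at hodd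
      exact hodd (even_iff_two_dvd.mpr (dvd_pow_self 2 h0.ne'))

end Cfsg.Agent.S3861
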