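import Cfsg.Statements.S3862
import Mathlib
import Cfsg.Agent.Lib.Transfer
import Cfsg.Agent.Lib.LocBase
import Cfsg.Agent.Lib.HBBasic
import Cfsg.Agent.Lib.PCoreTools
import Cfsg.Agent.Lib.CoprimeAction2

set_option autoImplicit false
open Cfsg

namespace Cfsg.Agent.S3862

open Subgroup in
theorem key {G : Type*} [Group G] [Finite G]
    (h : ∀ x : G, (∃ j : ℕ, orderOf x = 2 ^ j) → IsConj x x⁻¹ → x ∈ Subgroup.center G) (n : ℕ) :
    ∀ Q : Subgroup G, Nat.card Q = n → IsPGroup 2 Q → ∀ g ∈ normalizer (Q : Set G),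
      Nat.Coprime (orderOf g) 2 → g ∈ centralizer (Q : Set G) := by
  induction n using Nat.strong_induction_on with
  | _ n ih =>
  intro Q hQn hQ g hg hgo
  by_contra hcon
  -- proper invariant subgroups are centralized
  have hprop : ∀ D : Subgroup G, D ≤ Q → D ≠ Q → g ∈ normalizer (D : Set G) →
      g ∈ centralizer (D : Set G) := by
    intro D hD hne hgD
    refine ih (Nat.card D) ?_ D rfl (hQ.to_le hD) g hgD hgo
    rw [← hQn]
    exact lt_of_le_of_ne (card_le_of_le hD) (fun e => hne (eq_of_le_of_card_ge hD e.ge))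
  have hgQ : ∀ y ∈ Q, g * y * g⁻¹ ∈ Q := fun y hy => (mem_normalizer_iff.mp hg y).mp hy
  obtain ⟨y, hy, hyg⟩ : ∃ y ∈ Q, y * g ≠ g * y := by
    by_contra hc
    push Not at hc
    exact hcon (mem_centralizer_iff.mpr hc)
  set x := g * y * g⁻¹ * y⁻¹ with hx
  have hxQ : x ∈ Q := Q.mul_mem (hgQ y hy) (Q.inv_mem hy)
  have hx1 : x ≠ 1 := by
    intro h1
    apply hyg
    rw [hx, mul_inv_eq_one, mul_inv_eq_iff_eq_mul] at h1
    exact h1.symm
  have hxg : x * g ≠ g * x := by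
    intro hxg
    have h1 : ∀ k : ℕ, g ^ k * y * (g ^ k)⁻¹ = x ^ k * y := by
      intro k
      induction k with
      | zero => simp
      | succ k ih' =>
        have e1 : g ^ (k + 1) * y * (g ^ (k + 1))⁻¹ = g * (g ^ k * y * (g ^ k)⁻¹) * g⁻¹ := by
          rw [pow_succ']; group
        have e2 : g * (x ^ k * y) * g⁻¹ = (g * x * g⁻¹) ^ k * (g * y * g⁻¹) := by
          rw [conj_pow]; group
        have e3 : g * x * g⁻¹ = x := by rw [← hxg]; group
        have e4 : g * y * g⁻¹ = x * y := by rw [hx]; group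
        rw [e1, ih', e2, e3, e4, pow_succ]; group
    have h2 := h1 (orderOf g)
    rw [pow_orderOf_eq_one] at h2
    have h3 : x ^ orderOf g = 1 := by
      have : y = x ^ orderOf g * y := by simpa using h2
      exact (mul_eq_right.mp this.symm)
    have h4 : orderOf x ∣ orderOf g := orderOf_dvd_of_pow_eq_one h3
    obtain ⟨k, hk⟩ := hQ ⟨x, hxQ⟩
    have hk' : x ^ 2 ^ k = 1 := congrArg Subtype.val hk
    have h5 : orderOf x ∣ 2 ^ k := orderOf_dvd_of_pow_eq_one hk'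
    have h6 : orderOf x = 1 := Nat.eq_one_of_dvd_coprimes (hgo.pow_right k) h4 h5
    exact hx1 (orderOf_eq_one_iff.mp h6)
  have hmin : ∀ D : Subgroup G, D ≤ Q → x ∈ D → g ∈ normalizer (D : Set G) → D = Q := by
    intro D hD hxD hgD
    by_contra hne
    exact hxg (mem_centralizer_iff.mp (hprop D hD hne hgD) x hxD)
  have hQ1 : Q ≠ ⊥ := by
    rintro rfl
    exact hx1 (mem_bot.mp hxQ)
  have hnt : Nontrivial Q := (nontrivial_iff_ne_bot Q).mpr hQ1
  -- the Frattini subgroup of `Q` is centralized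
  set F := (frattini Q).map Q.subtype with hF
  have hFQ : F ≤ Q := map_subtype_le _
  have hFne : F ≠ Q := by
    intro h1
    have h2 : frattini Q = ⊤ := by
      rw [eq_top_iff]
      intro z _
      have : (z : G) ∈ F := by rw [h1]; exact z.2
      obtain ⟨w, hw, hwz⟩ := this
      have : w = z := Subtype.ext hwz
      rwa [← this]
    have h3 : (⊥ : Subgroup Q) = ⊤ := frattini_nongenerating (by rw [h2, bot_sup_eq])
    exact bot_ne_top h3
  have hgF : g ∈ centralizer (F : Set G) := by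
    apply hprop F hFQ hFne
    exact Cfsg.Agent.Lib.PCoreTools.normalizer_le_of_characteristic (inferInstance) hg
  have hsq : ∀ z ∈ Q, z ^ 2 ∈ F := by
    intro z hz
    exact ⟨⟨z, hz⟩ ^ 2, Cfsg.Agent.Lib.HBBasic.pow_mem_frattini hQ ⟨z, hz⟩, rfl⟩
  -- `Q'` is centralized
  set Q' := ⁅Q, Q⁆ with hQ'
  have hQ'Q : Q' ≤ Q := commutator_le_self Q
  have hnil : Group.IsNilpotent Q := hQ.isNilpotent
  have hQ'ne : Q' ≠ Q := by
    intro h1
    have h2 := Cfsg.Agent.Lib.CoprimeAction2.commutator_lt_of_pgroup hQ hQ le_normalizer hQ1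
    rw [← hQ', h1] at h2
    exact lt_irrefl _ h2
  have hgQ' : g ∈ normalizer (Q' : Set G) :=
    Cfsg.Agent.Lib.LocBase.le_normalizer_commutator (K := zpowers g) (by rwa [zpowers_le])
      (by rwa [zpowers_le]) (mem_zpowers g)
  have hgcQ' : g ∈ centralizer (Q' : Set G) := hprop Q' hQ'Q hQ'ne hgQ'
  have hgc : ∀ z ∈ Q', g * z * g⁻¹ = z := by
    intro z hz
    rw [← mem_centralizer_iff.mp hgcQ' z hz]; group
  have hgc' : ∀ z ∈ Q', g⁻¹ * z * g = z := by
    intro z hz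
    have := mem_centralizer_iff.mp hgcQ' z hz
    rw [mul_assoc, this]; group
  have hconjQ' : ∀ u ∈ Q, ∀ z ∈ Q', u * z * u⁻¹ ∈ Q' := by
    intro u hu z hz
    exact (mem_normalizer_iff.mp (Cfsg.Agent.Lib.LocBase.le_normalizer_commutator (K := Q)
      (A := Q) (B := Q) le_normalizer le_normalizer hu) z).mp hz
  -- `Q'` is central in `Q`
  have hcent : ∀ u ∈ Q, ∀ z ∈ Q', u * z = z * u := by
    have h1 : Q ⊓ centralizer (Q' : Set G) = Q := by
      apply hmin _ inf_le_left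
      · refine ⟨hxQ, ?_⟩
        change x ∈ centralizer (Q' : Set G)
        rw [mem_centralizer_iff]
        intro z hz
        have e1 : y⁻¹ * z * y ∈ Q' := by
          have := hconjQ' y⁻¹ (Q.inv_mem hy) z hz
          rwa [inv_inv] at this
        have e2 : x * z * x⁻¹ = z := by
          have : x * z * x⁻¹ = g * (y * (g⁻¹ * (y⁻¹ * z * y) * g) * y⁻¹) * g⁻¹ := by
            rw [hx]; group
          rw [this, hgc' _ e1]
          have : y * (y⁻¹ * z * y) * y⁻¹ = z := by group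
          rw [this, hgc z hz]
        rw [mul_inv_eq_iff_eq_mul] at e2
        exact e2.symm
      · refine Cfsg.Agent.Lib.LocBase.le_normalizer_inf (K := zpowers g) ?_ ?_ (mem_zpowers g)
        · rwa [zpowers_le]
        · exact Cfsg.Agent.Lib.LocBase.le_normalizer_centralizer (by rwa [zpowers_le])
    intro u hu z hz
    have : u ∈ Q ⊓ centralizer (Q' : Set G) := by rw [h1]; exact hu
    exact (mem_centralizer_iff.mp this.2 z hz).symm
  have hcomm : ∀ a ∈ Q, ∀ b ∈ Q, a * b * a⁻¹ * b⁻¹ ∈ Q' := fun a ha b hb =>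
    commutator_mem_commutator ha hb
  -- `x ^ 2 ∈ Q'`
  have hx2 : x ^ 2 ∈ Q' := by
    have h1 : y ^ 2 * g = g * y ^ 2 := mem_centralizer_iff.mp hgF _ (hsq y hy)
    have h2 : x ^ 2 = (g * y * g⁻¹) * (y⁻¹ * (g * y * g⁻¹) * y⁻¹⁻¹ * (g * y * g⁻¹)⁻¹) * (g * y * g⁻¹)⁻¹ *
        ((g * y ^ 2 * g⁻¹) * (y ^ 2)⁻¹) := by
      rw [pow_two x, hx]; group
    rw [h2, ← h1]
    have h3 : y ^ 2 * g * g⁻¹ * (y ^ 2)⁻¹ = 1 := by group
    rw [h3, mul_one]
    exact hconjQ' _ (hgQ y hy) _ (hcomm _ (Q.inv_mem hy) _ (hgQ y hy))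
  -- the subgroup `N = [x, Q]`
  let N : Subgroup G :=
    { carrier := {z | ∃ u ∈ Q, z = x * u * x⁻¹ * u⁻¹}
      one_mem' := ⟨1, Q.one_mem, by group⟩
      mul_mem' := by
        rintro _ _ ⟨u, hu, rfl⟩ ⟨v, hv, rfl⟩
        refine ⟨u * v, Q.mul_mem hu hv, ?_⟩
        have h1 := hcent u hu _ (hcomm x hxQ v hv)
        have h2 : x * (u * v) * x⁻¹ * (u * v)⁻¹ =
            x * u * x⁻¹ * u⁻¹ * (u * (x * v * x⁻¹ * v⁻¹) * u⁻¹) := by group
        rw [h2, h1]; group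
      inv_mem' := by
        rintro _ ⟨u, hu, rfl⟩
        refine ⟨u⁻¹, Q.inv_mem hu, ?_⟩
        have h1 := hcent u hu _ (hcomm x hxQ u⁻¹ (Q.inv_mem hu))
        have h2 : (x * u * x⁻¹ * u⁻¹)⁻¹ = u * (x * u⁻¹ * x⁻¹ * u⁻¹⁻¹) * u⁻¹ := by group
        rw [h2, h1]; group }
  have hNmem : ∀ z : G, z ∈ N ↔ ∃ u ∈ Q, z = x * u * x⁻¹ * u⁻¹ := fun z => Iff.rfl
  let D : Subgroup G :=
    { carrier := {d | d ∈ Q ∧ ∀ u ∈ Q, d * u * d⁻¹ * u⁻¹ ∈ N}
      one_mem' := ⟨Q.one_mem, fun u _ => by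
        have : (1 : G) * u * 1⁻¹ * u⁻¹ = 1 := by group
        rw [this]; exact N.one_mem⟩
      mul_mem' := by
        rintro a b ⟨ha, ha'⟩ ⟨hb, hb'⟩
        refine ⟨Q.mul_mem ha hb, fun u hu => ?_⟩
        have h1 := hcent a ha _ (hcomm b hb u hu)
        have h2 : a * b * u * (a * b)⁻¹ * u⁻¹ =
            a * (b * u * b⁻¹ * u⁻¹) * a⁻¹ * (a * u * a⁻¹ * u⁻¹) := by group
        rw [h2, h1]
        have h3 : b * u * b⁻¹ * u⁻¹ * a * a⁻¹ * (a * u * a⁻¹ * u⁻¹) =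
            (b * u * b⁻¹ * u⁻¹) * (a * u * a⁻¹ * u⁻¹) := by group
        rw [h3]
        exact N.mul_mem (hb' u hu) (ha' u hu)
      inv_mem' := by
        rintro a ⟨ha, ha'⟩
        refine ⟨Q.inv_mem ha, fun u hu => ?_⟩
        have h1 := hcent a⁻¹ (Q.inv_mem ha) _ (Q'.inv_mem (hcomm a ha u hu))
        have h2 : a⁻¹ * u * a⁻¹⁻¹ * u⁻¹ = a⁻¹ * (a * u * a⁻¹ * u⁻¹)⁻¹ * a := by group
        rw [h2, h1]
        have h3 : (a * u * a⁻¹ * u⁻¹)⁻¹ * a⁻¹ * a = (a * u * a⁻¹ * u⁻¹)⁻¹ := by group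
        rw [h3]
        exact N.inv_mem (ha' u hu) }
  have hDmem : ∀ d : G, d ∈ D ↔ d ∈ Q ∧ ∀ u ∈ Q, d * u * d⁻¹ * u⁻¹ ∈ N := fun d => Iff.rfl
  have hDQ : D = Q := by
    apply hmin D (fun d hd => ((hDmem d).mp hd).1)
    · exact (hDmem x).mpr ⟨hxQ, fun u hu => (hNmem _).mpr ⟨u, hu, rfl⟩⟩
    · apply Cfsg.Agent.Lib.LocBase.mem_normalizer_of_map_conj_le
      rintro _ ⟨d, hd, rfl⟩
      change g * d * g⁻¹ ∈ D
      rw [hDmem] at *
      obtain ⟨hd1, hd2⟩ := (hDmem d).mp hd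
      refine ⟨hgQ d hd1, fun u hu => ?_⟩
      have hu' : g⁻¹ * u * g ∈ Q := by
        have := (mem_normalizer_iff.mp (inv_mem hg) u).mp hu
        rwa [inv_inv] at this
      have h1 : g * d * g⁻¹ * u * (g * d * g⁻¹)⁻¹ * u⁻¹ =
          g * (d * (g⁻¹ * u * g) * d⁻¹ * (g⁻¹ * u * g)⁻¹) * g⁻¹ := by group
      rw [h1, hgc _ (hcomm d hd1 _ hu')]
      exact hd2 _ hu'
  have hQ'N : Q' ≤ N := by
    rw [hQ', commutator_le]
    intro a ha b hb
    have : a ∈ D := by rw [hDQ]; exact ha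
    exact ((hDmem a).mp this).2 b hb
  obtain ⟨u, hu, hxu⟩ := (hNmem _).mp (hQ'N hx2)
  -- `x` is conjugate to its inverse
  have hconj : IsConj x x⁻¹ := by
    rw [isConj_comm, isConj_iff]
    refine ⟨u, ?_⟩
    have h1 : x * (u * x⁻¹ * u⁻¹) = x * x := by
      rw [← pow_two, hxu]; group
    exact mul_left_cancel h1
  have hx2pow : ∃ j : ℕ, orderOf x = 2 ^ j := by
    obtain ⟨k, hk⟩ := hQ ⟨x, hxQ⟩
    have hk' : x ^ 2 ^ k = 1 := congrArg Subtype.val hk
    obtain ⟨j, _, hj⟩ := (Nat.dvd_prime_pow Nat.prime_two).mp (orderOf_dvd_of_pow_eq_one hk')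
    exact ⟨j, hj⟩
  exact hxg (mem_center_iff.mp (h x hx2pow hconj) g).symm

/-- If every 2-element of the finite group G that is conjugate to its inverse lies in the centre of G, then G has a normal 2-complement. -/
theorem result {G : Type*} [Group G] [Finite G] (h : ∀ x : G, (∃ j : ℕ, orderOf x = 2 ^ j) → IsConj x x⁻¹ → x ∈ Subgroup.center G) : Cfsg.HasNormalPComplement 2 G := by
  have : Fact (Nat.Prime 2) := ⟨Nat.prime_two⟩
  rw [Cfsg.Agent.Lib.Transfer.hasNormalPComplement_iff_forall_centralizer]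
  intro Q hQ g hg hgo
  exact key h (Nat.card Q) Q rfl hQ g hg hgo

end Cfsg.Agent.S3862
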