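import Cfsg.Statements.S3863
import Mathlib

set_option autoImplicit false
open Cfsg

namespace Cfsg.Agent.S3863

/-- Let x be an element of the finite group G that is conjugate to its inverse. Then some 2-element conjugates x to its inverse; if the conjugacy class of x has odd size then x ^ 2 = 1; and x lies in, and is conjugate to its inverse inside, every normal subgroup of odd index. -/
theorem result {G : Type*} [Group G] [Finite G] (x : G) (hx : IsConj x x⁻¹) : (∃ t : G, (∃ j : ℕ, orderOf t = 2 ^ j) ∧ t * x * t⁻¹ = x⁻¹) ∧ (Odd (Subgroup.centralizer ({x} : Set G)).index → x ^ 2 = 1) ∧ ∀ (N : Subgroup G) [N.Normal], Odd N.index → ∃ hxN : x ∈ N, IsConj (⟨x, hxN⟩ : N) (⟨x, hxN⟩ : N)⁻¹ := by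
  obtain ⟨c, hc⟩ := isConj_iff.1 hx
  -- a 2-element inverting x
  have hpow : ∀ n : ℕ, Odd n → c ^ n * x * (c ^ n)⁻¹ = x⁻¹ := by
    have h2 : ∀ n : ℕ, c ^ (2 * n) * x * (c ^ (2 * n))⁻¹ = x := by
      intro n
      induction n with
      | zero => simp
      | succ n ih =>
        have : c ^ (2 * (n + 1)) * x * (c ^ (2 * (n + 1)))⁻¹ = c ^ (2 * n) * (c * (c * x * c⁻¹) * c⁻¹) * (c ^ (2 * n))⁻¹ := by
          have e : c ^ (2 * (n + 1)) = c ^ (2 * n) * (c * c) := by rw [Nat.mul_succ, pow_add, pow_two]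
          rw [e]; group
        rw [this, hc]
        have : c * x⁻¹ * c⁻¹ = x := by
          have := congrArg (·⁻¹) hc
          simpa [mul_assoc] using this
        rw [this, ih]
    intro n hn
    obtain ⟨k, rfl⟩ := hn
    have : c ^ (2 * k + 1) * x * (c ^ (2 * k + 1))⁻¹ = c * (c ^ (2 * k) * x * (c ^ (2 * k))⁻¹) * c⁻¹ := by
      rw [pow_succ']; group
    rw [this, h2, hc]
  have ht : ∃ t : G, (∃ j : ℕ, orderOf t = 2 ^ j) ∧ t * x * t⁻¹ = x⁻¹ := by
    have hpos : orderOf c ≠ 0 := (orderOf_pos c).ne'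
    obtain ⟨k, m, hm, hkm⟩ := Nat.exists_eq_two_pow_mul_odd hpos
    refine ⟨c ^ m, ⟨k, ?_⟩, hpow m hm⟩
    rw [orderOf_pow, hkm]
    have hmpos : 0 < m := hm.pos
    rw [Nat.gcd_eq_right (Dvd.intro_left _ rfl), Nat.mul_div_cancel _ hmpos]
  refine ⟨ht, ?_, ?_⟩
  · intro hodd
    have hidx : (Subgroup.centralizer ({x} : Set G)).index = (MulAction.orbit (ConjAct G) x).ncard := by
      have h1 : (MulAction.stabilizer (ConjAct G) x).index = (MulAction.orbit (ConjAct G) x).ncard :=
        MulAction.index_stabilizer (ConjAct G) x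
      rw [← h1]
      have h2 := Subgroup.centralizer_eq_comap_stabilizer x
      rw [h2]
      exact Subgroup.index_comap_of_surjective (MulAction.stabilizer (ConjAct G) x) (f := ConjAct.toConjAct.toMonoidHom)
        ConjAct.toConjAct.surjective
    rw [hidx] at hodd
    classical
    haveI : Fintype (MulAction.orbit (ConjAct G) x) := Fintype.ofFinite _
    have hmem : ∀ y : G, y ∈ MulAction.orbit (ConjAct G) x → y⁻¹ ∈ MulAction.orbit (ConjAct G) x := by
      intro y hy
      rw [ConjAct.mem_orbit_conjAct] at hy ⊢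
      have h1 : IsConj y⁻¹ x⁻¹ := by
        obtain ⟨d, hd⟩ := isConj_iff.1 hy
        exact isConj_iff.2 ⟨d, by rw [← hd]; group⟩
      exact h1.trans hx.symm
    let σ : Equiv.Perm (MulAction.orbit (ConjAct G) x) :=
      { toFun := fun y => ⟨(y : G)⁻¹, hmem _ y.2⟩
        invFun := fun y => ⟨(y : G)⁻¹, hmem _ y.2⟩
        left_inv := fun y => by simp
        right_inv := fun y => by simp }
    have hσ : σ ^ 2 ^ 1 = 1 := by
      ext y
      simp [σ, pow_two]
    have hcard : ¬ 2 ∣ Fintype.card (MulAction.orbit (ConjAct G) x) := by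
      rw [Set.ncard_eq_toFinset_card', Set.toFinset_card] at hodd
      exact hodd.not_two_dvd_nat
    have : Fact (Nat.Prime 2) := ⟨Nat.prime_two⟩
    obtain ⟨y, hy⟩ := Equiv.Perm.exists_fixed_point_of_prime hcard hσ
    have hy1 : (y : G)⁻¹ = y := congrArg Subtype.val hy
    have hy2 : IsConj (y : G) x := (ConjAct.mem_orbit_conjAct).1 y.2
    obtain ⟨d, hd⟩ := isConj_iff.1 hy2
    have hy3 : (y : G) ^ 2 = 1 := by
      rw [pow_two]; nth_rewrite 1 [← hy1]; simp
    rw [← hd, conj_pow, hy3]; simp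
  · intro N hNn hodd
    obtain ⟨t, ⟨j, hj⟩, htx⟩ := ht
    have hodd' : ∀ z : G ⧸ N, Odd (orderOf z) := by
      intro z
      have : orderOf z ∣ N.index := by
        rw [Subgroup.index]; exact orderOf_dvd_natCard z
      exact Odd.of_dvd_nat hodd this
    have htN : t ∈ N := by
      have h1 : orderOf (QuotientGroup.mk' N t) ∣ 2 ^ j := by
        rw [← hj]; exact orderOf_map_dvd _ _
      have h2 := hodd' (QuotientGroup.mk' N t)
      have h3 : (orderOf (QuotientGroup.mk' N t)).Coprime (2 ^ j) := by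
        apply Nat.Coprime.pow_right
        exact h2.coprime_two_right
      have h4 : orderOf (QuotientGroup.mk' N t) = 1 := h3.eq_one_of_dvd h1
      rw [orderOf_eq_one_iff, ← MonoidHom.mem_ker, QuotientGroup.ker_mk'] at h4
      exact h4
    have hxN : x ∈ N := by
      have h1 : (QuotientGroup.mk' N x) ^ 2 = 1 := by
        have := congrArg (QuotientGroup.mk' N) htx
        rw [map_mul, map_mul, map_inv, map_inv] at this
        have h0 : QuotientGroup.mk' N t = 1 := by
          rw [← MonoidHom.mem_ker, QuotientGroup.ker_mk']; exact htN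
        rw [h0] at this
        rw [pow_two]
        nth_rewrite 1 [show QuotientGroup.mk' N x = (QuotientGroup.mk' N x)⁻¹ by simpa using this]
        simp
      have h2 := hodd' (QuotientGroup.mk' N x)
      have h3 : orderOf (QuotientGroup.mk' N x) ∣ 2 := orderOf_dvd_of_pow_eq_one h1
      have h4 : orderOf (QuotientGroup.mk' N x) = 1 :=
        h2.coprime_two_right.eq_one_of_dvd h3
      rw [orderOf_eq_one_iff, ← MonoidHom.mem_ker, QuotientGroup.ker_mk'] at h4
      exact h4
    refine ⟨hxN, isConj_iff.2 ⟨⟨t, htN⟩, ?_⟩⟩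
    apply Subtype.ext
    simpa using htx

end Cfsg.Agent.S3863
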