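import Cfsg.Statements.S3864
import Cfsg.Agent.Lib.DihClasses

set_option autoImplicit false
open Cfsg

namespace Cfsg.Agent.S3864

/-- Let G be a finite group whose Sylow 2-subgroups are dihedral of order 2 ^ n with n ≥ 3, and count the conjugacy classes of involutions of G. Then exactly one of the following holds: there is one class of involutions and no normal subgroup of index 2; there are two classes of involutions, a normal subgroup of index 2 and none of index 4; there are three classes of involutions and G has a normal 2-complement. -/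
theorem result {G : Type*} [Group G] [Finite G] (P : Sylow 2 G) (n : ℕ) (hn : 3 ≤ n) (hdih : Nonempty (↥(P : Subgroup G) ≃* DihedralGroup (2 ^ (n - 1)))) : (Nat.card {C : ConjClasses G // ∃ g : G, ConjClasses.mk g = C ∧ orderOf g = 2} = 1 ∧ ∀ N : Subgroup G, N.Normal → N.index ≠ 2) ∨ (Nat.card {C : ConjClasses G // ∃ g : G, ConjClasses.mk g = C ∧ orderOf g = 2} = 2 ∧ (∃ N : Subgroup G, N.Normal ∧ N.index = 2) ∧ ∀ N : Subgroup G, N.Normal → N.index ≠ 4) ∨ (Nat.card {C : ConjClasses G // ∃ g : G, ConjClasses.mk g = C ∧ orderOf g = 2} = 3 ∧ Cfsg.HasNormalPComplement 2 G) := by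
  haveI : Fact (Nat.Prime 2) := ⟨Nat.prime_two⟩
  obtain ⟨e⟩ := hdih
  have h2 : 2 ≤ 2 ^ (n - 1) := by
    calc 2 = 2 ^ 1 := by norm_num
      _ ≤ 2 ^ (n - 1) := Nat.pow_le_pow_right (by norm_num) (by omega)
  obtain ⟨x, y, q, k, h, hq⟩ := Cfsg.Agent.Lib.DihSylow.exists_dh (p := 2) P.2 h2 e
  refine Cfsg.Agent.Lib.DihClasses.trichotomy h ?_
  obtain ⟨m, rfl⟩ : ∃ m, n = m + 3 := ⟨n - 3, by omega⟩
  have h3 : 2 ^ (m + 3 - 1) = 2 * (2 * 2 ^ m) := by
    rw [show m + 3 - 1 = m + 2 by omega, pow_add]; ring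
  rw [h3] at hq
  exact ⟨2 ^ m, by omega⟩

end Cfsg.Agent.S3864
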