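import Cfsg.Statements.S3865
import Cfsg.Agent.Lib.BlackburnQS

set_option autoImplicit false
open Cfsg

namespace Cfsg.Agent.S3865

open Subgroup Cfsg.Agent.Lib.BlackburnQS Cfsg.Agent.Lib.BlackburnMain Cfsg.Agent.Lib.BlackburnEss
open Cfsg.Agent.Lib.BlackburnCons Cfsg.Agent.Lib.BlackburnChain

theorem result {G : Type*} [Group G] [Finite G] (p : ℕ) [Fact p.Prime] (P : Sylow p G) (n : ℕ) (hP : Nat.card P = p ^ n) (hn : 2 ≤ n) (hmax : Group.nilpotencyClass ↥(P : Subgroup G) = n - 1) (hcore : Cfsg.pPrimeCore p G = ⊥) (hres : ∀ N : Subgroup G, N.Normal → (N.index).Coprime p → N = ⊤) : (∃ x ∈ (P : Subgroup G), (Nat.card (Subgroup.centralizer ({x} : Set G))).factorization p = 2) ∨ (Cfsg.IsQuasisimple G ∧ Nat.card (Subgroup.center G) ≤ p) := by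
  classical
  have hp : p.Prime := Fact.out
  rcases Nat.lt_or_ge n 3 with h3 | hn3
  · have hn2 : n = 2 := by omega
    subst hn2
    left
    refine ⟨1, one_mem _, ?_⟩
    have h1 : centralizer ({(1:G)} : Set G) = ⊤ := by
      rw [eq_top_iff]; intro y _; exact mem_centralizer_singleton_iff.2 (by simp)
    rw [h1, Subgroup.card_top]
    have h2 := Sylow.card_eq_multiplicity P
    have h3 : Nat.card P = p ^ 2 := hP
    rw [h3] at h2
    exact (Nat.pow_right_injective hp.two_le h2).symm
  · by_cases hstar : ∃ x ∈ (P : Subgroup G), (Nat.card (centralizer ({x} : Set G))).factorization p = 2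
    · exact Or.inl hstar
    · right
      push Not at hstar
      have key := fun (M : Subgroup G) (hM : M.Normal) (h1 : M ≠ ⊤) (h2 : M ≠ ⊥) =>
        normal_central P hn3 hP hmax hcore hres hstar M h1 h2
      obtain ⟨H, h, h2, hH⟩ := exists_chain (X := (P : Subgroup G)) hn3 hP hmax
      have hcopP : ((P : Subgroup G).index).Coprime p :=
        ((Nat.Prime.coprime_iff_not_dvd hp).2 P.not_dvd_index).symm
      -- `P ≠ ⊤`
      have hPt : (P : Subgroup G) ≠ ⊤ := by
        intro hPt
        obtain ⟨s, -, hs1, hs⟩ := exists_unif_avoiding h hn3 h2 ⊥ (fun hbt => by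
          have h4 : Nat.card (⊤ : Subgroup (P : Subgroup G)) = 1 := by rw [← hbt]; exact Subgroup.card_bot
          rw [Subgroup.card_top] at h4
          have h5 : Nat.card (P : Subgroup G) = p ^ n := hP
          rw [h4] at h5
          exact absurd h5.symm (ne_of_gt (Nat.one_lt_pow (by omega) hp.one_lt)))
        have h4 := card_centralizer h (by omega) hs1 hs
        rw [card_centralizer_subtype] at h4
        have h6 : (P : Subgroup G) ⊓ centralizer ({(s : G)} : Set G) = centralizer ({(s : G)} : Set G) :=
          inf_eq_right.2 (le_top.trans hPt.ge)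
        rw [h6] at h4
        apply hstar s s.2
        rw [h4, Nat.factorization_pow]
        simp [hp.factorization_self]
      have hZt : center G ≠ ⊤ := by
        intro hZ
        apply hPt
        apply hres _ _ hcopP
        constructor
        intro x hx g
        have : g * x * g⁻¹ = x := by
          have h1 : x ∈ center G := by rw [hZ]; exact mem_top _
          rw [Subgroup.mem_center_iff.1 h1 g]; group
        rw [this]; exact hx
      have hperf : commutator G = ⊤ := by
        by_contra hne
        have h1 : commutator G ≤ center G := by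
          by_cases hb : commutator G = ⊥
          · rw [hb]; exact bot_le
          · exact (key (commutator G) inferInstance hne hb).1
        -- `G` is nilpotent
        have hnil : Group.IsNilpotent G := by
          rw [Subgroup.nilpotent_iff_lowerCentralSeries]
          refine ⟨2, ?_⟩
          rw [Subgroup.lowerCentralSeries_succ, Subgroup.lowerCentralSeries_succ, Subgroup.lowerCentralSeries_zero, eq_bot_iff,
            Subgroup.commutator_le]
          intro x hx y _
          have h2 := Subgroup.mem_center_iff.1 (h1 hx) y
          rw [mem_bot, commutatorElement_def, ← h2]; group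
        have hPn : (P : Subgroup G).Normal := by
          have := ((Group.isNilpotent_of_finite_tfae (G := G)).out 0 3).1 hnil
          exact this p ⟨hp⟩ P
        exact hPt (hres _ hPn hcopP)
      refine ⟨⟨⟨hperf⟩, ?_⟩, ?_⟩
      · have : Nontrivial (G ⧸ center G) := QuotientGroup.nontrivial_iff.2 hZt
        refine ⟨fun N hN => ?_⟩
        have hcm : N = (N.comap (QuotientGroup.mk' (center G))).map (QuotientGroup.mk' (center G)) :=
          (Subgroup.map_comap_eq_self_of_surjective (QuotientGroup.mk'_surjective _) N).symm
        by_cases hb : N.comap (QuotientGroup.mk' (center G)) = ⊤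
        · right
          rw [hcm, hb, ← MonoidHom.range_eq_map, MonoidHom.range_eq_top]
          exact QuotientGroup.mk'_surjective _
        · left
          have h4 : N.comap (QuotientGroup.mk' (center G)) ≤ center G := by
            by_cases hbb : N.comap (QuotientGroup.mk' (center G)) = ⊥
            · rw [hbb]; exact bot_le
            · exact (key _ inferInstance hb hbb).1
          rw [hcm, eq_bot_iff, Subgroup.map_le_iff_le_comap]
          intro x hx
          rw [mem_comap, mem_bot, QuotientGroup.mk'_apply, QuotientGroup.eq_one_iff]
          exact h4 hx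
      · by_cases hb : center G = ⊥
        · rw [hb, Subgroup.card_bot]; exact hp.one_lt.le
        · exact (key _ inferInstance hZt hb).2.le

end Cfsg.Agent.S3865
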