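import Cfsg.Statements.S3866
import Mathlib

set_option autoImplicit false
open Cfsg

namespace Cfsg.Agent.S3866

/-- Let A be a commutative normal subgroup of the finite group G with G generated by A and an element x. Then a ↦ x a x⁻¹ a⁻¹ is a surjective homomorphism from A onto the commutator subgroup of G whose kernel is the centralizer of x in A; in particular the commutator subgroup has order equal to the index in A of that centralizer. -/
theorem result {G : Type*} [Group G] [Finite G] (A : Subgroup G) [A.Normal] (hA : IsMulCommutative A) (x : G) (hgen : A ⊔ Subgroup.zpowers x = ⊤) : (∀ a ∈ A, x * a * x⁻¹ * a⁻¹ ∈ commutator G) ∧ (∀ c ∈ commutator G, ∃ a ∈ A, x * a * x⁻¹ * a⁻¹ = c) ∧ (∀ a ∈ A, ∀ b ∈ A, x * (a * b) * x⁻¹ * (a * b)⁻¹ = (x * a * x⁻¹ * a⁻¹) * (x * b * x⁻¹ * b⁻¹)) ∧ Nat.card (commutator G) * Nat.card ↥(A ⊓ Subgroup.centralizer ({x} : Set G)) = Nat.card A := by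
  have hcomm : ∀ a ∈ A, ∀ b ∈ A, a * b = b * a := by
    intro a ha b hb
    have := hA.is_comm.comm (⟨a, ha⟩ : A) ⟨b, hb⟩
    exact congrArg Subtype.val this
  have hAn : A.Normal := inferInstance
  have hxa : ∀ a ∈ A, x * a * x⁻¹ * a⁻¹ ∈ A := fun a ha => mul_mem (hAn.conj_mem a ha x) (inv_mem ha)
  have h3 : ∀ a ∈ A, ∀ b ∈ A, x * (a * b) * x⁻¹ * (a * b)⁻¹ = (x * a * x⁻¹ * a⁻¹) * (x * b * x⁻¹ * b⁻¹) := by
    intro a ha b hb
    have := hcomm a⁻¹ (inv_mem ha) _ (hxa b hb)
    calc x * (a * b) * x⁻¹ * (a * b)⁻¹ = (x * a * x⁻¹) * ((x * b * x⁻¹ * b⁻¹) * a⁻¹) := by group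
      _ = (x * a * x⁻¹) * (a⁻¹ * (x * b * x⁻¹ * b⁻¹)) := by rw [this]
      _ = _ := by group
  let φ : A →* G :=
    { toFun := fun a => x * a * x⁻¹ * (a : G)⁻¹
      map_one' := by simp
      map_mul' := by
        intro a b
        exact h3 a a.2 b b.2 }
  have h1 : ∀ a ∈ A, x * a * x⁻¹ * a⁻¹ ∈ commutator G := fun a _ =>
    Subgroup.commutator_mem_commutator (Subgroup.mem_top x) (Subgroup.mem_top a)
  have hKA : φ.range ≤ A := by
    rintro _ ⟨a, rfl⟩
    exact hxa a a.2
  have htop : ∀ S : Subgroup G, A ≤ S → x ∈ S → S = ⊤ := by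
    intro S hS hx
    rw [eq_top_iff, ← hgen]
    exact sup_le hS (by simpa using hx)
  have hKn : φ.range.Normal := by
    have : Subgroup.normalizer (φ.range : Set G) = ⊤ := by
      apply htop
      · intro a ha
        rw [Subgroup.mem_normalizer_iff]
        intro h
        constructor
        · intro hh
          have : a * h * a⁻¹ = h := by
            rw [hcomm a ha h (hKA hh)]; group
          rw [this]; exact hh
        · intro hh
          have h' : a * h * a⁻¹ ∈ A := hKA hh
          have : a⁻¹ * (a * h * a⁻¹) * a = a * h * a⁻¹ := by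
            rw [hcomm a⁻¹ (inv_mem ha) _ h']; group
          have h2 : h = a * h * a⁻¹ := by
            rw [← this]; group
          rw [h2]; exact hh
      · have hle : φ.range.map (MulAut.conj x).toMonoidHom ≤ φ.range := by
          rintro _ ⟨_, ⟨a, rfl⟩, rfl⟩
          refine ⟨⟨x * a * x⁻¹, hAn.conj_mem a a.2 x⟩, ?_⟩
          simp only [φ, MonoidHom.coe_mk, OneHom.coe_mk, MulEquiv.coe_toMonoidHom, MulAut.conj_apply]
          group
        have heq : φ.range.map (MulAut.conj x).toMonoidHom = φ.range := by
          apply Subgroup.eq_of_le_of_card_ge hle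
          rw [Subgroup.card_map_of_injective (MulAut.conj x).injective]
        rw [Subgroup.mem_normalizer_iff]
        intro h
        constructor
        · intro hh
          exact hle ⟨h, hh, rfl⟩
        · intro hh
          rw [← heq] at hh
          obtain ⟨h', hh', he⟩ := hh
          have : h' = h := (MulAut.conj x).injective he
          exact this ▸ hh'
    exact Subgroup.normalizer_eq_top_iff.mp this
  have h2 : commutator G ≤ φ.range := by
    have hx' : ∀ a ∈ A, (QuotientGroup.mk' φ.range x) * (QuotientGroup.mk' φ.range a) = (QuotientGroup.mk' φ.range a) * (QuotientGroup.mk' φ.range x) := by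
      intro a ha
      rw [← map_mul, ← map_mul]
      have : x * a = (x * a * x⁻¹ * a⁻¹) * (a * x) := by group
      rw [this, map_mul]
      have h0 : QuotientGroup.mk' φ.range (x * a * x⁻¹ * a⁻¹) = 1 := by
        rw [← MonoidHom.mem_ker, QuotientGroup.ker_mk']
        exact ⟨⟨a, ha⟩, rfl⟩
      rw [h0, one_mul]
    have hcx : ∀ g : G, (QuotientGroup.mk' φ.range x) * (QuotientGroup.mk' φ.range g) = (QuotientGroup.mk' φ.range g) * (QuotientGroup.mk' φ.range x) := by
      have := htop ((Subgroup.centralizer {QuotientGroup.mk' φ.range x}).comap (QuotientGroup.mk' φ.range))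
        (by
          intro a ha
          rw [Subgroup.mem_comap, Subgroup.mem_centralizer_singleton_iff]
          exact (hx' a ha).symm)
        (by rw [Subgroup.mem_comap, Subgroup.mem_centralizer_singleton_iff])
      intro g
      have hg : g ∈ ((Subgroup.centralizer {QuotientGroup.mk' φ.range x}).comap (QuotientGroup.mk' φ.range)) := by
        rw [this]; trivial
      rw [Subgroup.mem_comap, Subgroup.mem_centralizer_singleton_iff] at hg
      exact hg.symm
    have hca : ∀ a ∈ A, ∀ g : G, (QuotientGroup.mk' φ.range a) * (QuotientGroup.mk' φ.range g) = (QuotientGroup.mk' φ.range g) * (QuotientGroup.mk' φ.range a) := by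
      intro a ha
      have := htop ((Subgroup.centralizer {QuotientGroup.mk' φ.range a}).comap (QuotientGroup.mk' φ.range))
        (by
          intro b hb
          rw [Subgroup.mem_comap, Subgroup.mem_centralizer_singleton_iff, ← map_mul, ← map_mul, hcomm a ha b hb])
        (by
          rw [Subgroup.mem_comap, Subgroup.mem_centralizer_singleton_iff]
          exact hx' a ha)
      intro g
      have hg : g ∈ ((Subgroup.centralizer {QuotientGroup.mk' φ.range a}).comap (QuotientGroup.mk' φ.range)) := by
        rw [this]; trivial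
      rw [Subgroup.mem_comap, Subgroup.mem_centralizer_singleton_iff] at hg
      exact hg.symm
    have hall : ∀ g h : G, (QuotientGroup.mk' φ.range g) * (QuotientGroup.mk' φ.range h) = (QuotientGroup.mk' φ.range h) * (QuotientGroup.mk' φ.range g) := by
      intro g h
      have := htop ((Subgroup.centralizer {QuotientGroup.mk' φ.range h}).comap (QuotientGroup.mk' φ.range))
        (by
          intro b hb
          rw [Subgroup.mem_comap, Subgroup.mem_centralizer_singleton_iff]
          exact (hca b hb h))
        (by
          rw [Subgroup.mem_comap, Subgroup.mem_centralizer_singleton_iff]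
          exact hcx h)
      have hg : g ∈ ((Subgroup.centralizer {QuotientGroup.mk' φ.range h}).comap (QuotientGroup.mk' φ.range)) := by
        rw [this]; trivial
      rw [Subgroup.mem_comap, Subgroup.mem_centralizer_singleton_iff] at hg
      exact hg
    rw [commutator_def, Subgroup.commutator_le]
    intro g _ h _
    rw [← QuotientGroup.ker_mk' φ.range, MonoidHom.mem_ker, map_commutatorElement, commutatorElement_eq_one_iff_mul_comm]
    exact hall g h
  have hrange : φ.range = commutator G := by
    apply le_antisymm _ h2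
    rintro _ ⟨a, rfl⟩
    exact h1 a a.2
  refine ⟨h1, ?_, h3, ?_⟩
  · intro c hc
    obtain ⟨a, ha⟩ := h2 hc
    exact ⟨a, a.2, ha⟩
  · rw [← hrange]
    have hk : Nat.card φ.ker = Nat.card ↥(A ⊓ Subgroup.centralizer ({x} : Set G)) := by
      have : φ.ker.map A.subtype = A ⊓ Subgroup.centralizer ({x} : Set G) := by
        ext y
        constructor
        · rintro ⟨a, ha, rfl⟩
          refine Subgroup.mem_inf.mpr ⟨a.2, ?_⟩
          rw [Subgroup.mem_centralizer_singleton_iff]
          have : x * a * x⁻¹ * (a : G)⁻¹ = 1 := ha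
          rw [mul_inv_eq_one, mul_inv_eq_iff_eq_mul] at this
          exact this.symm
        · intro hyc
          obtain ⟨hy, hc⟩ := Subgroup.mem_inf.mp hyc
          refine ⟨⟨y, hy⟩, ?_, rfl⟩
          rw [Subgroup.mem_centralizer_singleton_iff] at hc
          show x * y * x⁻¹ * y⁻¹ = 1
          rw [mul_inv_eq_one, mul_inv_eq_iff_eq_mul]
          exact hc.symm
      rw [← this]
      exact (Subgroup.card_map_of_injective (Subgroup.subtype_injective A)).symm
    rw [← hk, Subgroup.card_eq_card_quotient_mul_card_subgroup φ.ker]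
    congr 1
    exact Nat.card_congr (QuotientGroup.quotientKerEquivRange φ).symm.toEquiv

end Cfsg.Agent.S3866
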