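import Cfsg.Statements.S3867
import Mathlib
import Cfsg.Agent.Lib.SylowNumbers

set_option autoImplicit false
open Cfsg Cfsg.Agent.Lib.SylowNumbers

namespace Cfsg.Agent.S3867

theorem card_sylow_le {G H : Type*} [Group G] [Group H] [Finite G] [Finite H] (p : ℕ) [Fact p.Prime] (e : G ≃* H) :
    Nat.card (Sylow p H) ≤ Nat.card (Sylow p G) :=
  Nat.card_le_card_of_surjective _ (Sylow.mapSurjective_surjective (f := e.toMonoidHom) e.surjective p)

theorem card_sylow_congr {G H : Type*} [Group G] [Group H] [Finite G] [Finite H] (p : ℕ) [Fact p.Prime] (e : G ≃* H) :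
    Nat.card (Sylow p G) = Nat.card (Sylow p H) :=
  le_antisymm (card_sylow_le p e.symm) (card_sylow_le p e)

/-- Let M and N be nontrivial normal subgroups of the finite group G with M ⊓ N trivial, and let p be a prime. Writing n(X) for the number of Sylow p-subgroups of a group X, one has n(G) · n(G/MN) = n(G/M) · n(G/N). -/
theorem result {G : Type*} [Group G] [Finite G] (p : ℕ) [Fact p.Prime] (M N : Subgroup G) [M.Normal] [N.Normal] (hM : M ≠ ⊥) (hN : N ≠ ⊥) (hMN : M ⊓ N = ⊥) : Nat.card (Sylow p G) * Nat.card (Sylow p (G ⧸ (M ⊔ N))) = Nat.card (Sylow p (G ⧸ M)) * Nat.card (Sylow p (G ⧸ N)) := by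
  obtain ⟨P⟩ : Nonempty (Sylow p G) := inferInstance
  have hsurj := QuotientGroup.mk'_surjective N
  have h1 := card_sylow_eq_quot_mul M P
  have hKn : ((M ⊔ N).map (QuotientGroup.mk' N)).Normal := Subgroup.Normal.map inferInstance _ hsurj
  have h2 := card_sylow_eq_quot_mul ((M ⊔ N).map (QuotientGroup.mk' N)) (P.mapSurjective hsurj)
  have h3 : Nat.card (Sylow p ((G ⧸ N) ⧸ (M ⊔ N).map (QuotientGroup.mk' N))) = Nat.card (Sylow p (G ⧸ (M ⊔ N))) :=
    card_sylow_congr p (QuotientGroup.quotientQuotientEquivQuotient N (M ⊔ N) le_sup_right)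
  have h4 : ((P.mapSurjective hsurj : Sylow p (G ⧸ N)) : Subgroup (G ⧸ N)) ⊔ (M ⊔ N).map (QuotientGroup.mk' N)
      = ((P : Subgroup G) ⊔ M).map (QuotientGroup.mk' N) := by
    rw [Sylow.coe_mapSurjective, Subgroup.map_sup, Subgroup.map_sup]
    have : N.map (QuotientGroup.mk' N) = ⊥ := by
      rw [Subgroup.map_eq_bot_iff, QuotientGroup.ker_mk']
    rw [this, sup_bot_eq]
  rw [h3, h4] at h2
  -- kernel of X → G/N
  set X : Subgroup G := (P : Subgroup G) ⊔ M with hX
  have hD : IsPGroup p ↥(N.subgroupOf X) := by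
    -- injects into X / M
    intro x
    have hxX : (x : G) ∈ (M : Subgroup G) ⊔ (P : Subgroup G) := by
      rw [sup_comm]; exact (x : X).2
    rw [Subgroup.mem_sup_of_normal_left] at hxX
    obtain ⟨m, hm, y, hy, hmy⟩ := hxX
    obtain ⟨k, hk⟩ := P.2 ⟨y, hy⟩
    have hk' : y ^ p ^ k = 1 := by simpa using congrArg Subtype.val hk
    refine ⟨k, ?_⟩
    apply Subtype.ext; apply Subtype.ext
    have hxN : (x : G) ∈ N := by
      have := x.2; rwa [Subgroup.mem_subgroupOf] at this
    have h5 : ((x : X) : G) ^ p ^ k ∈ M ⊓ N := by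
      refine ⟨?_, pow_mem hxN _⟩
      have : (QuotientGroup.mk' M) (((x : X) : G) ^ p ^ k) = 1 := by
        rw [← hmy, map_pow, map_mul]
        have hm1 : QuotientGroup.mk' M m = 1 := by rw [← MonoidHom.mem_ker, QuotientGroup.ker_mk']; exact hm
        rw [hm1, one_mul, ← map_pow, hk', map_one]
      rwa [← MonoidHom.mem_ker, QuotientGroup.ker_mk'] at this
    rw [hMN, Subgroup.mem_bot] at h5
    simpa using h5
  have h6 := card_sylow_quot_of_isPGroup (N.subgroupOf X) hD
  have h7 : Nat.card (Sylow p (X ⧸ N.subgroupOf X)) = Nat.card (Sylow p (X.map (QuotientGroup.mk' N))) := by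
    have hker : ((QuotientGroup.mk' N).domRestrict X).ker = N.subgroupOf X := by
      ext y
      rw [MonoidHom.mem_ker, MonoidHom.domRestrict_apply, ← MonoidHom.mem_ker, QuotientGroup.ker_mk', Subgroup.mem_subgroupOf]
    have hrange : ((QuotientGroup.mk' N).domRestrict X).range = X.map (QuotientGroup.mk' N) := by
      rw [MonoidHom.domRestrict_range]
    have e1 : X ⧸ N.subgroupOf X ≃* X ⧸ ((QuotientGroup.mk' N).domRestrict X).ker := QuotientGroup.quotientMulEquivOfEq hker.symm
    have e2 := QuotientGroup.quotientKerEquivRange ((QuotientGroup.mk' N).domRestrict X)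
    have e3 := MulEquiv.subgroupCongr hrange
    exact card_sylow_congr p ((e1.trans e2).trans e3)
  rw [h1, h2, ← h7, h6]
  ring

end Cfsg.Agent.S3867
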