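import Cfsg.Statements.S3878
import Mathlib
import Cfsg.Agent.Lib.H64HallPi

set_option autoImplicit false
open Cfsg

namespace Cfsg.Agent.S3878

/-- For a set of primes π the following are equivalent: every finite group has a Hall π-subgroup; in every finite group the maximal π-subgroups are pairwise conjugate; π contains at most one prime or contains every prime. -/
theorem result (π : Set ℕ) :
    ((∀ (G : Type) [Group G] [Finite G], Cfsg.IsEPiGroup π G) ↔
      ((∀ p q : ℕ, p.Prime → q.Prime → p ∈ π → q ∈ π → p = q) ∨ ∀ p : ℕ, p.Prime → p ∈ π)) ∧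
    ((∀ (G : Type) [Group G] [Finite G], Cfsg.IsDPiGroup π G) ↔
      ((∀ p q : ℕ, p.Prime → q.Prime → p ∈ π → q ∈ π → p = q) ∨ ∀ p : ℕ, p.Prime → p ∈ π)) := by
  have key : (∀ (G : Type) [Group G] [Finite G], Cfsg.IsEPiGroup π G) →
      ((∀ p q : ℕ, p.Prime → q.Prime → p ∈ π → q ∈ π → p = q) ∨ ∀ p : ℕ, p.Prime → p ∈ π) := by
    intro hE
    by_cases h : ∀ p q : ℕ, p.Prime → q.Prime → p ∈ π → q ∈ π → p = q
    · exact Or.inl h
    · right
      push Not at h
      obtain ⟨p, q, hp, hq, hpπ, hqπ, hne⟩ := h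
      rcases lt_or_gt_of_ne hne with hlt | hlt
      · exact Cfsg.Agent.Lib.H64HallPi.all_primes hE hp hq hpπ hqπ hlt
      · exact Cfsg.Agent.Lib.H64HallPi.all_primes hE hq hp hqπ hpπ hlt
  refine ⟨⟨key, ?_⟩, ⟨?_, ?_⟩⟩
  · intro h G _ _
    exact Cfsg.Agent.Lib.H64HallPi.isEPiGroup_of_isDPiGroup (Cfsg.Agent.Lib.H64HallPi.isDPiGroup_of_cond h)
  · intro h
    exact key fun G _ _ => Cfsg.Agent.Lib.H64HallPi.isEPiGroup_of_isDPiGroup (h G)
  · intro h G _ _
    exact Cfsg.Agent.Lib.H64HallPi.isDPiGroup_of_cond h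

end Cfsg.Agent.S3878
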