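import Cfsg.Statements.S3881
import Cfsg.Agent.Lib.MetaOdd3

set_option autoImplicit false
open Cfsg

namespace Cfsg.Agent.S3881

open Subgroup

theorem result {G : Type*} [Group G] [Finite G] {p : ℕ} [Fact p.Prime] (hp : p ≠ 2) (hG : IsPGroup p G) (hmc : Cfsg.IsMetacyclic G) (n : ℕ) (hn : n ≠ 0) (hGn : Nat.card ↥(commutator G) = p ^ n) (i : ℕ) (hi : 1 ≤ i) (hin : i ≤ n) :
    Nat.card {g : G // (Subgroup.centralizer ({g} : Set G)).index = p ^ i} =
      Nat.card ↥(Subgroup.center G) * (p ^ (2 * i) - p ^ (2 * i - 2)) := by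
  have hpp : p.Prime := Fact.out
  obtain ⟨a, b, k, h⟩ := Cfsg.Agent.Lib.MetaOdd.exists_data_n hp hG hmc hGn
  have h1 := h.card_small hp hin
  have h2 := h.card_small hp (s := i - 1) (by omega)
  have hset : {g : G | (Subgroup.centralizer ({g} : Set G)).index = p ^ i} =
      (h.small i : Set G) \ (h.small (i - 1) : Set G) := by
    ext g
    rw [Set.mem_ofPred_eq, Set.mem_sdiff, SetLike.mem_coe, SetLike.mem_coe, h.mem_small hp, h.mem_small hp]
    obtain ⟨m, hm⟩ : ∃ m, (centralizer ({g} : Set G)).index = p ^ m := by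
      obtain ⟨N, hN⟩ := hG.exists_card_eq
      obtain ⟨m, -, hm⟩ := (Nat.dvd_prime_pow hpp).1 (hN ▸ (centralizer ({g} : Set G)).index_dvd_card)
      exact ⟨m, hm⟩
    rw [hm, (Nat.pow_right_injective hpp.two_le).eq_iff, Nat.pow_le_pow_iff_right hpp.one_lt,
      Nat.pow_le_pow_iff_right hpp.one_lt]
    omega
  have hsub : (h.small (i - 1) : Set G) ⊆ (h.small i : Set G) := by
    intro g hg
    rw [SetLike.mem_coe, h.mem_small hp] at hg ⊢
    exact hg.trans (Nat.pow_le_pow_right hpp.pos (by omega))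
  have h3 : Nat.card {g : G // (Subgroup.centralizer ({g} : Set G)).index = p ^ i} =
      ({g : G | (Subgroup.centralizer ({g} : Set G)).index = p ^ i} : Set G).ncard := rfl
  rw [h3, hset, Set.ncard_sdiff hsub]
  have h4 : (h.small i : Set G).ncard = Nat.card (h.small i) := rfl
  have h5 : (h.small (i - 1) : Set G).ncard = Nat.card (h.small (i - 1)) := rfl
  rw [h4, h5, h1, h2, ← Nat.mul_sub, show 2 * (i - 1) = 2 * i - 2 by omega]

end Cfsg.Agent.S3881
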