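import Cfsg.Statements.S3883
import Cfsg.Agent.Lib.MetaOdd3

set_option autoImplicit false
open Cfsg

namespace Cfsg.Agent.S3883

open Subgroup
open scoped commutatorElement

theorem result {G : Type*} [Group G] [Finite G] {p : ℕ} [Fact p.Prime] (hp : p ≠ 2) (hG : IsPGroup p G) (hmc : Cfsg.IsMetacyclic G) (hna : ¬ IsMulCommutative G) (g : G) :
    g ∉ frattini G ↔ IsMulCommutative ↥(Subgroup.centralizer ({g} : Set G)) := by
  have hpp : p.Prime := Fact.out
  obtain ⟨n, a, b, k, hn, h⟩ := Cfsg.Agent.Lib.MetaOdd.exists_data' hp hG hmc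
  have hn1 : 1 ≤ n := by
    by_contra hlt
    have : n = 0 := by omega
    subst this
    apply hna
    rw [pow_zero, Subgroup.card_eq_one] at hn
    have h1 : ∀ x y : G, x * y = y * x := by
      intro x y
      have h2 : ⁅x, y⁆ ∈ commutator G := commutator_mem_commutator (mem_top x) (mem_top y)
      rw [hn, mem_bot, commutatorElement_eq_one_iff_mul_comm] at h2
      exact h2
    exact ⟨⟨h1⟩⟩
  rw [h.frattini_eq hp hG hn1, h.mem_small hp, (Cfsg.Agent.S3880.result hp hG hmc _).1]
  have h1 := Subgroup.card_mul_index (commutator G)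
  have h2 := Subgroup.card_mul_index (centralizer ({g} : Set G))
  obtain ⟨m, hm⟩ : ∃ m, (centralizer ({g} : Set G)).index = p ^ m := by
    obtain ⟨N, hN⟩ := hG.exists_card_eq
    obtain ⟨m, -, hm⟩ := (Nat.dvd_prime_pow hpp).1 (hN ▸ (centralizer ({g} : Set G)).index_dvd_card)
    exact ⟨m, hm⟩
  rw [hm, Nat.pow_le_pow_iff_right hpp.one_lt]
  rw [hn] at h1
  rw [hm] at h2
  have hpos : 0 < Nat.card (centralizer ({g} : Set G)) := Nat.card_pos
  constructor
  · intro h3
    have h4 : p ^ n ≤ p ^ m := Nat.pow_le_pow_right hpp.pos (by omega)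
    by_contra hlt
    push Not at hlt
    have h5 : p ^ n * (commutator G).index < p ^ m * Nat.card (centralizer ({g} : Set G)) :=
      Nat.mul_lt_mul_of_le_of_lt h4 hlt (pow_pos hpp.pos m)
    rw [h1, mul_comm, h2] at h5
    exact lt_irrefl _ h5
  · intro h3 h4
    have h4 : p ^ m < p ^ n := Nat.pow_lt_pow_right hpp.one_lt (by omega)
    have h5 : p ^ m * Nat.card (centralizer ({g} : Set G)) < p ^ n * (commutator G).index :=
      Nat.mul_lt_mul_of_lt_of_le h4 h3 (lt_of_lt_of_le hpos h3)
    rw [h1, mul_comm, h2] at h5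
    exact lt_irrefl _ h5

end Cfsg.Agent.S3883
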