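import Cfsg.Statements.S3884
import Cfsg.Agent.Lib.MetaOdd3

set_option autoImplicit false
open Cfsg

namespace Cfsg.Agent.S3884

open Subgroup Cfsg.Agent.Lib.MetaOdd

theorem solve {p m u w : ℕ} (hp : p.Prime) (hu : ¬ p ∣ u) : ∃ i : ℕ, p ^ m ∣ i * u + w := by
  have : NeZero (p ^ m) := ⟨pow_ne_zero _ hp.ne_zero⟩
  have hunit : IsUnit (u : ZMod (p ^ m)) := by
    rw [ZMod.isUnit_iff_coprime]
    exact ((Nat.Coprime.pow_left m ((hp.coprime_iff_not_dvd).2 hu))).symm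
  obtain ⟨x, hx⟩ := hunit
  refine ⟨(-(w : ZMod (p ^ m)) * ↑x⁻¹).val, ?_⟩
  rw [← ZMod.natCast_eq_zero_iff]
  push_cast
  rw [ZMod.natCast_zmod_val, ← hx, mul_assoc, Units.inv_mul]
  ring

theorem exists_phi {p K l : ℕ} [hp : Fact p.Prime] (hp2 : p ≠ 2) (hK : 1 ≤ K) (hKp : p ∣ K - 1) :
    ∃ u, phi K (p ^ l) = p ^ l * u ∧ ¬ p ∣ u := by
  obtain ⟨u, hu⟩ := (dvd_phi_iff (n := l) hp2 hK hKp).2 dvd_rfl
  refine ⟨u, hu, ?_⟩
  rintro ⟨v, rfl⟩
  have h1 : p ^ (l + 1) ∣ phi K (p ^ l) := ⟨v, by rw [hu]; ring⟩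
  rw [dvd_phi_iff hp2 hK hKp, Nat.pow_dvd_pow_iff_le_right hp.out.one_lt] at h1
  omega

theorem result {G : Type*} [Group G] [Finite G] {p : ℕ} [Fact p.Prime] (hp : p ≠ 2) (hG : IsPGroup p G) (hmc : Cfsg.IsMetacyclic G) : ∃ A B : Subgroup G, IsCyclic ↥A ∧ IsCyclic ↥B ∧ A ⊓ B = ⊥ ∧ Nat.card ↥A * Nat.card ↥B = Nat.card G := by
  have hpp : p.Prime := Fact.out
  obtain ⟨n, a, b, k, hn, h⟩ := Cfsg.Agent.Lib.MetaOdd.exists_data' hp hG hmc
  obtain ⟨m, hm⟩ := (IsPGroup.iff_orderOf.1 hG) a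
  -- normality of `⟨a⟩`
  have hN : (zpowers a).Normal := by
    constructor
    intro x hx g
    obtain ⟨s, hs⟩ := mem_powers_iff_mem_zpowers.2 hx
    have hs : a ^ s = x := hs
    obtain ⟨i, j, rfl⟩ := h.gen g
    have h1 := h.pow_conj s j
    have h2 : b ^ j * a ^ s * (b ^ j)⁻¹ = a ^ (s * k ^ j) := by rw [h1]; group
    have h3 : a ^ i * b ^ j * x * (a ^ i * b ^ j)⁻¹ = a ^ i * (b ^ j * a ^ s * (b ^ j)⁻¹) * (a ^ i)⁻¹ := by
      rw [hs]; group
    rw [h3, h2]
    exact mul_mem (mul_mem (npow_mem_zpowers _ _) (npow_mem_zpowers _ _)) (inv_mem (npow_mem_zpowers _ _))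
  -- order of `b` modulo `⟨a⟩`
  set q := QuotientGroup.mk' (zpowers a) with hq
  have hqb : ∀ x, x ∈ zpowers (q b) := by
    intro x
    obtain ⟨g, rfl⟩ := QuotientGroup.mk'_surjective _ x
    obtain ⟨i, j, rfl⟩ := h.gen g
    have h1 : q (a ^ i) = 1 := (QuotientGroup.eq_one_iff _).2 (npow_mem_zpowers a i)
    show q (a ^ i * b ^ j) ∈ _
    rw [map_mul, h1, one_mul, map_pow]
    exact npow_mem_zpowers _ _
  obtain ⟨κ, hκ⟩ := (IsPGroup.iff_orderOf.1 (hG.to_quotient (zpowers a))) (q b)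
  have hidx : (zpowers a).index = p ^ κ := by
    rw [← hκ]
    exact (orderOf_eq_card_of_forall_mem_zpowers hqb).symm
  have hcardG : Nat.card G = p ^ m * p ^ κ := by
    rw [← Subgroup.card_mul_index (zpowers a), hidx, Nat.card_zpowers, hm]
  have hbt : ∀ t : ℕ, b ^ t ∈ zpowers a ↔ p ^ κ ∣ t := by
    intro t
    rw [← hκ, orderOf_dvd_iff_pow_eq_one, ← map_pow]
    exact (QuotientGroup.eq_one_iff _).symm
  -- `b ^ p ^ κ = a ^ w`
  obtain ⟨w, hw, hwm⟩ : ∃ w : ℕ, b ^ p ^ κ = a ^ w ∧ w < p ^ m := by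
    obtain ⟨w, hw⟩ := mem_powers_iff_mem_zpowers.2 ((hbt (p ^ κ)).2 dvd_rfl)
    have hw : a ^ w = b ^ p ^ κ := hw
    refine ⟨w % orderOf a, ?_, ?_⟩
    · rw [pow_mod_orderOf, hw]
    · rw [← hm]; exact Nat.mod_lt _ (orderOf_pos a)
  by_cases hwκ : p ^ κ ∣ w
  · -- split case
    obtain ⟨w', rfl⟩ := hwκ
    obtain ⟨u, hu, hup⟩ := exists_phi (l := κ) hp h.hk h.hkp
    obtain ⟨i, hi⟩ := solve (m := m) (w := w') hpp hup
    set x := a ^ i * b with hx
    have hxt : ∀ t, x ^ t = a ^ (i * phi k t) * b ^ t := by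
      intro t
      have := h.pow_rule i 1 t
      rwa [pow_one, pow_one, one_mul] at this
    have hxp : x ^ p ^ κ = 1 := by
      rw [hxt, hw, ← pow_add, hu, ← orderOf_dvd_iff_pow_eq_one, hm]
      have : i * (p ^ κ * u) + p ^ κ * w' = p ^ κ * (i * u + w') := by ring
      rw [this]
      exact Dvd.dvd.mul_left hi _
    have hxa : ∀ t : ℕ, x ^ t ∈ zpowers a → p ^ κ ∣ t := by
      intro t ht
      rw [hxt] at ht
      rw [← hbt]
      exact (Subgroup.mul_mem_cancel_left _ (npow_mem_zpowers _ _)).1 ht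
    refine ⟨zpowers a, zpowers x, inferInstance, inferInstance, ?_, ?_⟩
    · rw [eq_bot_iff]
      rintro y ⟨hy1, hy2⟩
      obtain ⟨t, ht⟩ := mem_powers_iff_mem_zpowers.2 hy2
      have ht : x ^ t = y := ht
      rw [← ht] at hy1
      obtain ⟨c, rfl⟩ := hxa t hy1
      rw [mem_bot, ← ht, pow_mul, hxp, one_pow]
    · have hox : orderOf x = p ^ κ := by
        apply Nat.dvd_antisymm
        · exact orderOf_dvd_of_pow_eq_one hxp
        · apply hxa
          rw [pow_orderOf_eq_one]; exact one_mem _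
      rw [Nat.card_zpowers, Nat.card_zpowers, hox, hm, hcardG]
  · -- nonsplit case
    have hw0 : w ≠ 0 := by rintro rfl; exact hwκ (dvd_zero _)
    obtain ⟨l, w', hw'p, rfl⟩ := Nat.exists_eq_pow_mul_and_not_dvd hw0 p hpp.ne_one
    have hlκ : l < κ := by
      by_contra hle
      push Not at hle
      exact hwκ (Dvd.dvd.mul_right (pow_dvd_pow p hle) _)
    have hlm : l < m := by
      by_contra hle
      push Not at hle
      have h1 : p ^ m ≤ p ^ l * w' := by
        calc p ^ m ≤ p ^ l := Nat.pow_le_pow_right hpp.pos hle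
          _ ≤ p ^ l * w' := Nat.le_mul_of_pos_right _ (Nat.pos_of_ne_zero (by rintro rfl; simp at hw0))
      omega
    set j := p ^ (κ - l) with hj
    have hjl : j * p ^ l = p ^ κ := by rw [hj, ← pow_add]; congr 1; omega
    have hK1 : 1 ≤ k ^ j := Nat.one_le_pow _ _ h.hk
    have hKp : p ∣ k ^ j - 1 := by
      rw [← phi_pow h.hk, Nat.add_sub_cancel]
      exact Dvd.dvd.mul_right h.hkp _
    obtain ⟨u, hu, hup⟩ := exists_phi (l := l) hp hK1 hKp
    obtain ⟨i, hi⟩ := solve (m := m) (w := w') hpp hup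
    have hip : ¬ p ∣ i := by
      intro hdi
      have h1 : p ∣ i * u + w' := (dvd_pow_self p (by omega)).trans hi
      exact hw'p ((Nat.dvd_add_right (Dvd.dvd.mul_right hdi u)).1 h1)
    set x := a ^ i * b ^ j with hx
    have hxt : ∀ t, x ^ t = a ^ (i * phi (k ^ j) t) * b ^ (j * t) := fun t => h.pow_rule i j t
    have hxp : x ^ p ^ l = 1 := by
      rw [hxt, hjl, hw, ← pow_add, hu, ← orderOf_dvd_iff_pow_eq_one, hm]
      have : i * (p ^ l * u) + p ^ l * w' = p ^ l * (i * u + w') := by ring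
      rw [this]
      exact Dvd.dvd.mul_left hi _
    have hxb : ∀ t : ℕ, x ^ t ∈ zpowers b → p ^ l ∣ t := by
      intro t ht
      rw [hxt] at ht
      have h1 : a ^ (i * phi (k ^ j) t) ∈ zpowers b :=
        (Subgroup.mul_mem_cancel_right _ (npow_mem_zpowers _ _)).1 ht
      obtain ⟨s, hs⟩ := mem_powers_iff_mem_zpowers.2 h1
      have hs : b ^ s = a ^ (i * phi (k ^ j) t) := hs
      obtain ⟨s', rfl⟩ := (hbt s).1 (by rw [hs]; exact npow_mem_zpowers _ _)
      rw [pow_mul, hw, ← pow_mul, pow_inj_mod, hm] at hs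
      have h2 : p ^ l * w' * s' ≡ i * phi (k ^ j) t [MOD p ^ l] :=
        Nat.ModEq.of_dvd (pow_dvd_pow p hlm.le) hs
      have h3 : p ^ l ∣ i * phi (k ^ j) t := (h2.dvd_iff dvd_rfl).1 ⟨w' * s', by ring⟩
      have h4 : Nat.Coprime (p ^ l) i := Nat.Coprime.pow_left l ((hpp.coprime_iff_not_dvd).2 hip)
      have h5 := h4.dvd_of_dvd_mul_left h3
      exact (dvd_phi_iff hp hK1 hKp).1 h5
    refine ⟨zpowers x, zpowers b, inferInstance, inferInstance, ?_, ?_⟩
    · rw [eq_bot_iff]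
      rintro y ⟨hy1, hy2⟩
      obtain ⟨t, ht⟩ := mem_powers_iff_mem_zpowers.2 hy1
      have ht : x ^ t = y := ht
      rw [← ht] at hy2
      obtain ⟨c, rfl⟩ := hxb t hy2
      rw [mem_bot, ← ht, pow_mul, hxp, one_pow]
    · have hox : orderOf x = p ^ l := by
        apply Nat.dvd_antisymm
        · exact orderOf_dvd_of_pow_eq_one hxp
        · apply hxb
          rw [pow_orderOf_eq_one]; exact one_mem _
      have hob : orderOf b = p ^ κ * p ^ (m - l) := by
        have h1 : p ^ κ ∣ orderOf b := by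
          rw [← hbt, pow_orderOf_eq_one]; exact one_mem _
        have h2 := orderOf_pow_of_dvd (x := b) (pow_ne_zero κ hpp.ne_zero) h1
        have h3 : orderOf (a ^ (p ^ l * w')) = p ^ (m - l) := by
          rw [pow_mul]
          have h4 : orderOf (a ^ p ^ l) = p ^ (m - l) := by
            rw [orderOf_pow_of_dvd (pow_ne_zero l hpp.ne_zero) (by rw [hm]; exact pow_dvd_pow p hlm.le), hm,
              Nat.pow_div hlm.le hpp.pos]
          rw [Nat.Coprime.orderOf_pow, h4]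
          rw [h4]
          exact Nat.Coprime.pow_left _ ((hpp.coprime_iff_not_dvd).2 hw'p)
        rw [hw, h3] at h2
        rw [h2, Nat.mul_div_cancel' h1]
      rw [Nat.card_zpowers, Nat.card_zpowers, hox, hob, hcardG]
      have : p ^ m = p ^ l * p ^ (m - l) := by rw [← pow_add]; congr 1; omega
      rw [this]; ring

end Cfsg.Agent.S3884
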