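import Cfsg.Statements.S3885
import Cfsg.Agent.Lib.MetaOdd3

set_option autoImplicit false
open Cfsg

namespace Cfsg.Agent.S3885

open Subgroup

theorem result {G : Type*} [Group G] [Finite G] {p : ℕ} [Fact p.Prime] (hp : p ≠ 2) (hG : IsPGroup p G) (hmc : Cfsg.IsMetacyclic G) (K : Subgroup G) (hK : IsMulCommutative ↥K) (hZ : Subgroup.center G ≤ K) :
    K = Subgroup.centralizer (K : Set G) ⊓ Subgroup.centralizer (Subgroup.centralizer (K : Set G) : Set G) := by
  obtain ⟨n, a, b, k, hn, h⟩ := Cfsg.Agent.Lib.MetaOdd.exists_data' hp hG hmc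
  have h1 := h.card_mul_card_centralizer hp hZ
  have h2 := h.card_mul_card_centralizer hp (R := centralizer (K : Set G)) (center_le_centralizer _)
  have hKC : K ≤ centralizer (K : Set G) := le_centralizer_iff_isMulCommutative.2 hK
  have hKCC : K ≤ centralizer (centralizer (K : Set G) : Set G) := by
    intro x hx
    rw [mem_centralizer_iff]
    intro y hy
    exact (mem_centralizer_iff.1 hy x hx).symm
  have h3 : Nat.card (centralizer (centralizer (K : Set G) : Set G)) = Nat.card K := by
    rw [← h2, mul_comm] at h1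
    exact (Nat.eq_of_mul_eq_mul_left Nat.card_pos h1).symm
  have h4 : K = centralizer (centralizer (K : Set G) : Set G) :=
    Subgroup.eq_of_le_of_card_ge hKCC h3.le
  apply le_antisymm
  · exact le_inf hKC hKCC
  · rw [← h4]
    exact inf_le_right

end Cfsg.Agent.S3885
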