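import Cfsg.Statements.S3886
import Cfsg.Agent.Lib.MetaOdd3

set_option autoImplicit false
open Cfsg

namespace Cfsg.Agent.S3886

open Subgroup Cfsg.Agent.Lib.H64Metacyclic

theorem met_sub {G : Type*} [Group G] (hmc : Cfsg.IsMetacyclic G) (R : Subgroup G) : Cfsg.IsMetacyclic ↥R := by
  obtain ⟨N, hN, h1, h2⟩ := hmc
  let f : R →* G ⧸ N := (QuotientGroup.mk' N).comp R.subtype
  refine ⟨f.ker, inferInstance, ?_, isCyclic_of_injective (QuotientGroup.kerLift f) (QuotientGroup.kerLift_injective f)⟩
  let g : f.ker →* N := (R.subtype.comp f.ker.subtype).codRestrict N (by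
    intro x
    have hx : f x = 1 := x.2
    exact (QuotientGroup.eq_one_iff _).1 hx)
  refine isCyclic_of_injective g ?_
  intro x y hxy
  have h3 : ((g x : N) : G) = ((g y : N) : G) := by rw [hxy]
  exact Subtype.ext (Subtype.ext h3)

theorem result {G : Type*} [Group G] [Finite G] {p : ℕ} [Fact p.Prime] (hp : p ≠ 2) (hG : IsPGroup p G) (hmc : Cfsg.IsMetacyclic G) : Cfsg.maxCentralProduct G = (commutator G).index ^ 2 ∧
    ∀ R : Subgroup G, Cfsg.IsCentrallyLarge R ↔ (¬ IsMulCommutative ↥R ∨ Maximal (fun K : Subgroup G => IsMulCommutative ↥K) R) := by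
  set I := (commutator G).index with hI
  have hIpos : 0 < I := Nat.pos_of_ne_zero Subgroup.index_ne_zero_of_finite
  have hcard : I * Nat.card (commutator G) = Nat.card G := (commutator G).index_mul_card
  have hmet : Met (⊤ : Subgroup G) := by
    obtain ⟨N, hN, h1, h2⟩ := hmc
    obtain ⟨a, x, hx, htop, hNa⟩ := met_top h1 h2
    exact ⟨a, x, hx, htop⟩
  -- nonabelian subgroups
  have hna : ∀ R : Subgroup G, ¬ IsMulCommutative ↥R → Nat.card R * Nat.card (center R) = I ^ 2 := by
    intro R hR
    have hR' : ⁅R, R⁆ ≠ ⊥ := fun h => hR ((isMulComm_iff_commutator R).2 h)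
    have h1 := nonabelian_subgroup hp hG R hR' _ ⊤ rfl hmet le_top
    have h2 := Cfsg.Agent.S3879.result hp (hG.to_subgroup R) (met_sub hmc R)
    have h3 : Nat.card (commutator R) = Nat.card ↥⁅R, R⁆ := by
      have : (commutator R).map R.subtype = ⁅R, R⁆ := by
        rw [commutator_def, map_commutator, ← MonoidHom.range_eq_map, range_subtype]
      rw [← this]
      exact (Nat.card_congr ((commutator R).equivMapOfInjective R.subtype R.subtype_injective).toEquiv)
    have h4 : Nat.card ↥⁅(⊤ : Subgroup G), (⊤ : Subgroup G)⁆ = Nat.card (commutator G) := rfl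
    rw [h4, Subgroup.card_top, ← hcard] at h1
    have hpos : 0 < Nat.card (commutator G) := Nat.card_pos
    have h5 : Nat.card R = I * Nat.card ↥⁅R, R⁆ := by
      apply Nat.eq_of_mul_eq_mul_right hpos
      rw [h1]; ring
    have h6 := Subgroup.card_mul_index (center R)
    rw [h2, h3] at h6
    have hpos' : 0 < Nat.card ↥⁅R, R⁆ := Nat.card_pos
    have h7 : Nat.card (center R) * Nat.card ↥⁅R, R⁆ = I := by
      apply Nat.eq_of_mul_eq_mul_right hpos'
      rw [← h5, ← h6]; ring
    calc Nat.card R * Nat.card (center R) = I * (Nat.card (center R) * Nat.card ↥⁅R, R⁆) := by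
          rw [h5]; ring
      _ = I ^ 2 := by rw [h7]; ring
  have hab : ∀ R : Subgroup G, IsMulCommutative ↥R → Nat.card R * Nat.card (center R) = Nat.card R ^ 2 := by
    intro R hR
    have : center R = ⊤ := Subgroup.center_eq_top_iff.2 hR
    rw [this, Subgroup.card_top]; ring
  have hle : ∀ R : Subgroup G, Nat.card R * Nat.card (center R) ≤ I ^ 2 := by
    intro R
    by_cases hR : IsMulCommutative ↥R
    · rw [hab R hR]
      exact Nat.pow_le_pow_left ((Cfsg.Agent.S3880.result hp hG hmc R).1.1 hR) 2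
    · exact (hna R hR).le
  obtain ⟨A, hA⟩ : ∃ A : Subgroup G, Maximal (fun K : Subgroup G => IsMulCommutative ↥K) A := by
    obtain ⟨A, -, hA⟩ := (Set.toFinite {K : Subgroup G | IsMulCommutative ↥K}).exists_le_maximal
      (a := (⊥ : Subgroup G)) (by
        show IsMulCommutative ↥(⊥ : Subgroup G)
        exact ⟨⟨fun a b => Subsingleton.elim _ _⟩⟩)
    exact ⟨A, hA⟩
  have hmax : Cfsg.maxCentralProduct G = I ^ 2 := by
    unfold Cfsg.maxCentralProduct
    apply le_antisymm
    · apply csSup_le
      · exact ⟨_, ⊤, rfl⟩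
      · rintro _ ⟨R, rfl⟩
        exact hle R
    · apply le_csSup
      · refine ⟨I ^ 2, ?_⟩
        rintro _ ⟨R, rfl⟩
        exact hle R
      · refine ⟨A, ?_⟩
        rw [hab A hA.1, (Cfsg.Agent.S3880.result hp hG hmc A).2.1 hA]
  refine ⟨hmax, ?_⟩
  intro R
  unfold Cfsg.IsCentrallyLarge
  rw [hmax]
  constructor
  · intro h
    by_cases hR : IsMulCommutative ↥R
    · right
      rw [hab R hR] at h
      exact (Cfsg.Agent.S3880.result hp hG hmc R).2.2 (Nat.pow_left_injective (by norm_num : 2 ≠ 0) h)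
    · left; exact hR
  · rintro (hR | hR)
    · exact hna R hR
    · rw [hab R hR.1, (Cfsg.Agent.S3880.result hp hG hmc R).2.1 hR]

end Cfsg.Agent.S3886
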