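import Cfsg.Statements.S3887
import Cfsg.Agent.Lib.MetaOdd3

set_option autoImplicit false
open Cfsg

namespace Cfsg.Agent.S3887

open Subgroup

theorem result {G : Type*} [Group G] [Finite G] {p : ℕ} [Fact p.Prime] (hp : p ≠ 2) (hG : IsPGroup p G) (hmc : Cfsg.IsMetacyclic G) (R : Subgroup G) : Cfsg.IsCentralizerLarge R ↔ Subgroup.center G ≤ R := by
  obtain ⟨n, a, b, k, hn, h⟩ := Cfsg.Agent.Lib.MetaOdd.exists_data' hp hG hmc
  set M := Nat.card G * Nat.card (center G) with hM
  have hcen : ∀ R : Subgroup G, centralizer ((R ⊔ center G : Subgroup G) : Set G) = centralizer (R : Set G) := by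
    intro R
    apply le_antisymm
    · exact centralizer_le (SetLike.coe_subset_coe.2 le_sup_left)
    · intro x hx
      have h1 : R ⊔ center G ≤ centralizer ({x} : Set G) := by
        refine sup_le ?_ ?_
        · intro y hy
          rw [mem_centralizer_singleton_iff]
          exact (mem_centralizer_iff.1 hx y hy)
        · intro y hy
          rw [mem_centralizer_singleton_iff]
          exact ((mem_center_iff.1 hy) x).symm
      rw [mem_centralizer_iff]
      intro y hy
      exact mem_centralizer_singleton_iff.1 (h1 hy)
  have hle : ∀ R : Subgroup G, Nat.card R * Nat.card (centralizer (R : Set G)) ≤ M := by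
    intro R
    have h1 := h.card_mul_card_centralizer hp (R := R ⊔ center G) le_sup_right
    rw [hcen] at h1
    rw [hM, ← h1]
    exact Nat.mul_le_mul_right _ (Subgroup.card_le_of_le le_sup_left)
  have hmax : Cfsg.maxCentralizerProduct G = M := by
    unfold Cfsg.maxCentralizerProduct
    apply le_antisymm
    · apply csSup_le
      · exact ⟨_, ⊤, rfl⟩
      · rintro _ ⟨R, rfl⟩
        exact hle R
    · apply le_csSup
      · refine ⟨M, ?_⟩
        rintro _ ⟨R, rfl⟩
        exact hle R
      · exact ⟨⊤, h.card_mul_card_centralizer hp (R := ⊤) le_top⟩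
  unfold Cfsg.IsCentralizerLarge
  rw [hmax]
  constructor
  · intro h1
    have h2 := h.card_mul_card_centralizer hp (R := R ⊔ center G) le_sup_right
    rw [hcen, ← hM, ← h1] at h2
    have h3 := Nat.eq_of_mul_eq_mul_right Nat.card_pos h2
    have h4 : R = R ⊔ center G := Subgroup.eq_of_le_of_card_ge le_sup_left h3.le
    rw [h4]
    exact le_sup_right
  · intro h1
    exact h.card_mul_card_centralizer hp h1

end Cfsg.Agent.S3887
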