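import Cfsg.Statements.S3895
import Cfsg.Agent.Lib.PiClasses4

set_option autoImplicit false
open Cfsg

namespace Cfsg.Agent.S3895

open Cfsg.Agent.Lib.PiClasses Cfsg.Agent.Lib.PiClasses4 Subgroup

theorem result {G : Type*} [Group G] [Finite G] (P : Sylow 2 G) :
    Nat.card ↥(P : Subgroup G) < 2 * Nat.card {c : ConjClasses G // ∀ x ∈ c.carrier, ∃ k : ℕ, orderOf x = 2 ^ k} ↔
      Cfsg.HasNormalPComplement 2 G ∧ Nat.card ↥(P : Subgroup G) < 2 * Nat.card (ConjClasses ↥(P : Subgroup G)) := by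
  have hp : Fact (Nat.Prime 2) := ⟨Nat.prime_two⟩
  constructor
  · intro h
    refine ⟨?_, ?_⟩
    · apply hasNormalPComplement_two
      rw [← P.card_eq_multiplicity]
      exact h
    · exact lt_of_lt_of_le h (Nat.mul_le_mul_left 2 (card_PClass_le_conjClasses P))
  · rintro ⟨h1, h2⟩
    exact lt_of_lt_of_le h2 (Nat.mul_le_mul_left 2 (card_conjClasses_le_PClass P h1))

end Cfsg.Agent.S3895
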