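import Cfsg.Statements.S3897
import Cfsg.Agent.Lib.PiClasses

set_option autoImplicit false
open Cfsg

namespace Cfsg.Agent.S3897

open Cfsg.Agent.Lib.PiClasses Subgroup

/-- With a normal complement and abelian Sylow subgroup, distinct elements of `P` are not conjugate. -/
theorem card_eq {G : Type*} [Group G] [Finite G] {p : ℕ} [Fact p.Prime] (P : Sylow p G)
    (hN : Cfsg.HasNormalPComplement p G) (hab : IsMulCommutative ↥(P : Subgroup G)) :
    Nat.card (PClass p G) = Nat.card ↥(P : Subgroup G) := by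
  obtain ⟨P', N, hNn, hc⟩ := hN
  symm
  apply Nat.card_eq_of_bijective (toPClass P)
  refine ⟨?_, toPClass_surjective P⟩
  intro x y hxy
  rw [toPClass_eq_iff] at hxy
  obtain ⟨g, hg⟩ := hxy
  -- the quotient map is injective on P
  have hidx : N.index = Nat.card ↥(P' : Subgroup G) := hc.symm.index_eq_card
  have hcard : Nat.card N = (P' : Subgroup G).index := hc.index_eq_card.symm
  have hPP : Nat.card ↥(P' : Subgroup G) = Nat.card ↥(P : Subgroup G) :=
    Nat.card_congr (Sylow.equiv P' P).toEquiv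
  have hcop : (Nat.card N).Coprime (Nat.card ↥(P : Subgroup G)) := by
    obtain ⟨n, hn⟩ := P.2.exists_card_eq
    rw [hn]
    apply Nat.Coprime.pow_right
    rw [Nat.coprime_comm, Nat.Prime.coprime_iff_not_dvd (Fact.out), hcard]
    exact P'.not_dvd_index
  have hdisj : Disjoint N (P : Subgroup G) := by
    exact Subgroup.disjoint_of_coprime_natCard hcop
  let φ : ↥(P : Subgroup G) →* G ⧸ N := (QuotientGroup.mk' N).comp (P : Subgroup G).subtype
  have hφ : Function.Injective φ := by
    rw [← MonoidHom.ker_eq_bot_iff, eq_bot_iff]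
    intro z hz
    rw [MonoidHom.mem_ker] at hz
    have : (z : G) ∈ N := by
      rwa [← QuotientGroup.eq_one_iff]
    have h1 : (z : G) ∈ (⊥ : Subgroup G) := by
      rw [← disjoint_iff.1 hdisj]; exact ⟨this, z.2⟩
    rw [mem_bot] at h1 ⊢
    exact Subtype.ext h1
  have hφs : Function.Surjective φ := by
    have : Function.Bijective φ := by
      rw [Nat.bijective_iff_injective_and_card]
      refine ⟨hφ, ?_⟩
      rw [← hPP, ← hidx]; rfl
    exact this.2
  apply hφ
  obtain ⟨u, hu⟩ := hφs (g : G ⧸ N)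
  have h1 : φ y = (g : G ⧸ N) * φ x * (g : G ⧸ N)⁻¹ := by
    change ((y : G) : G ⧸ N) = _
    rw [← hg]; rfl
  rw [h1, ← hu, ← map_mul, ← map_inv, ← map_mul]
  congr 1
  have := hab.is_comm.comm u x
  rw [this, mul_inv_cancel_right]

theorem result {G : Type*} [Group G] [Finite G] {p : ℕ} [Fact p.Prime] (hp : p ≠ 2) (P : Sylow p G) :
    (p + 1) * Nat.card ↥(P : Subgroup G) < 2 * p * Nat.card {c : ConjClasses G // ∀ x ∈ c.carrier, ∃ k : ℕ, orderOf x = p ^ k} ↔
      Cfsg.HasNormalPComplement p G ∧ IsMulCommutative ↥(P : Subgroup G) := by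
  have hpp : p.Prime := Fact.out
  have hPpos : 0 < Nat.card ↥(P : Subgroup G) := Nat.card_pos
  constructor
  · intro h
    have h2 := two_mul_card_PClass_le P
    have h3 : Nat.card ↥(P : Subgroup G) < p * Nat.card ↥(isoSubgroup P) := by
      have h4 : p * (2 * Nat.card (PClass p G)) ≤
          p * (Nat.card ↥(P : Subgroup G) + Nat.card ↥(isoSubgroup P)) :=
        Nat.mul_le_mul_left p h2
      change _ < 2 * p * Nat.card (PClass p G) at h
      nlinarith
    have h5 := eq_of_card_lt P.2 (isoSubgroup_le P) h3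
    have h6 := normalizer_le_centralizer_of_iso P h5
    refine ⟨⟨P, _, inferInstance, MonoidHom.ker_transferSylow_isComplement' P h6⟩, ?_⟩
    exact ⟨⟨fun a b => Subtype.ext (h6 (le_normalizer b.2) a a.2)⟩⟩
  · rintro ⟨hN, hab⟩
    have h1 := card_eq P hN hab
    change _ < 2 * p * Nat.card (PClass p G)
    rw [h1]
    apply Nat.mul_lt_mul_of_pos_right _ hPpos
    have := hpp.two_le
    omega

end Cfsg.Agent.S3897
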