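import Cfsg.Statements.S3898
import Cfsg.Agent.Lib.PiOddB

set_option autoImplicit false
open Cfsg

namespace Cfsg.Agent.S3898

open Cfsg.Agent.Lib.PiClasses Cfsg.Agent.Lib.PiClasses2 Cfsg.Agent.Lib.PiClasses3
  Cfsg.Agent.Lib.PiClasses4 Cfsg.Agent.Lib.PiOddB Subgroup

/-- A normal subgroup containing all `q`-elements has at least as many classes of `q`-elements. -/
theorem card_PClass_le_of_normal {G : Type*} [Group G] [Finite G] (q : ℕ) (K : Subgroup G)
    (h : ∀ x : G, (∃ k : ℕ, orderOf x = q ^ k) → x ∈ K) :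
    Nat.card (PClass q G) ≤ Nat.card (PClass q K) := by
  classical
  have hrep : ∀ c : PClass q G, ∃ x : K, ConjClasses.mk (x : G) = c.1 ∧ ∃ k : ℕ, orderOf x = q ^ k := by
    intro c
    obtain ⟨x, hx⟩ := ConjClasses.mk_surjective c.1
    have h1 : x ∈ c.1.carrier := by rw [← hx]; exact ConjClasses.mem_carrier_mk
    obtain ⟨k, hk⟩ := c.2 x h1
    refine ⟨⟨x, h x ⟨k, hk⟩⟩, hx, k, ?_⟩
    rw [← hk, ← Subgroup.orderOf_coe]
  choose r hr k hk using hrep
  let f : PClass q G → PClass q K := fun c => ⟨ConjClasses.mk (r c), by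
    intro y hy
    refine ⟨k c, ?_⟩
    rw [ConjClasses.mem_carrier_iff_mk_eq, ConjClasses.mk_eq_mk_iff_isConj] at hy
    rw [orderOf_eq_of_isConj hy, hk]⟩
  apply Nat.card_le_card_of_injective f
  intro c d hcd
  have h1 : ConjClasses.mk (r c) = ConjClasses.mk (r d) := congrArg Subtype.val hcd
  rw [ConjClasses.mk_eq_mk_iff_isConj, isConj_iff] at h1
  obtain ⟨g, hg⟩ := h1
  apply Subtype.ext
  rw [← hr c, ← hr d, ConjClasses.mk_eq_mk_iff_isConj, isConj_iff]
  exact ⟨g, by rw [← hg]; rfl⟩


/-- Let π be a finite set of primes containing 2 and G a finite group. Write k_π(G) for the number of conjugacy classes of G consisting of π-elements (elements all of whose order's prime divisors lie in π) and |G|_π for the π-part of the order of G. If k_π(G) > |G|_π/2, then G has a normal π-complement (a normal subgroup of order prime to π whose index is a π-number) and an abelian Hall subgroup for the set of odd primes in π. -/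
theorem result {G : Type*} [Group G] [Finite G] (π : Finset ℕ) (hπ : ∀ r ∈ π, r.Prime) (h2 : 2 ∈ π)
    (hk : π.prod (fun r => r ^ (Nat.card G).factorization r) < 2 * Nat.card {c : ConjClasses G // ∀ x ∈ c.carrier, ∀ r : ℕ, r.Prime → r ∣ orderOf x → r ∈ π}) :
    (∃ N : Subgroup G, N.Normal ∧ (∀ r : ℕ, r.Prime → r ∣ Nat.card ↥N → r ∉ π) ∧ ∀ r : ℕ, r.Prime → r ∣ N.index → r ∈ π) ∧ ∃ H : Subgroup G, Cfsg.IsPiHall ((↑π : Set ℕ) \ {2}) H ∧ IsMulCommutative ↥H := by
  classical
  have hPC : ∀ q ∈ π, q ^ (Nat.card G).factorization q < 2 * Nat.card (PClass q G) := by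
    intro q hq
    have hqp := hπ q hq
    have h3 := card_SClass_le_of_subset (G := G) (fun r => r ∈ π) (fun r => r = q) (π.erase q)
      (fun r hr => hπ r (Finset.mem_of_mem_erase hr)) (by
        intro r hr
        by_cases h : r = q
        · exact Or.inl h
        · exact Or.inr (Finset.mem_erase.2 ⟨h, hr⟩))
    rw [card_SClass_singleton q hqp] at h3
    rw [← Finset.mul_prod_erase π _ hq] at hk
    set M := (π.erase q).prod (fun r => r ^ (Nat.card G).factorization r) with hM
    have hMpos : 0 < M := by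
      apply Finset.prod_pos
      intro r hr
      exact pow_pos (hπ r (Finset.mem_of_mem_erase hr)).pos _
    have h4 : q ^ (Nat.card G).factorization q * M < 2 * (Nat.card (PClass q G) * M) :=
      lt_of_lt_of_le hk (Nat.mul_le_mul_left _ h3)
    have h5 : q ^ (Nat.card G).factorization q * M < (2 * Nat.card (PClass q G)) * M := by
      rw [mul_assoc]; exact h4
    exact lt_of_mul_lt_mul_right h5 (Nat.zero_le _)
  have hp2 : Fact (Nat.Prime 2) := ⟨Nat.prime_two⟩
  obtain ⟨K, hKn, hKc, k, hKi⟩ := exists_complement Nat.prime_two (hasNormalPComplement_two (hPC 2 h2))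
  have hKodd : Odd (Nat.card K) := by
    rw [← Nat.not_even_iff_odd, even_iff_two_dvd]
    intro h
    have := Nat.dvd_gcd h (dvd_refl 2)
    rw [hKc] at this
    norm_num at this
  have hmemK : ∀ x : G, Odd (orderOf x) → x ∈ K := by
    intro x hx
    have h1 : orderOf (QuotientGroup.mk' K x) ∣ orderOf x := orderOf_map_dvd _ _
    have h2 : orderOf (QuotientGroup.mk' K x) ∣ Nat.card (G ⧸ K) := orderOf_dvd_natCard _
    have h3 : Nat.card (G ⧸ K) = 2 ^ k := hKi
    rw [h3] at h2
    have h4 : Nat.Coprime (orderOf x) (2 ^ k) := (Nat.Coprime.pow_right k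
      (Nat.coprime_two_right.2 hx))
    have h5 : orderOf (QuotientGroup.mk' K x) = 1 := Nat.eq_one_of_dvd_coprimes h4 h1 h2
    rw [orderOf_eq_one_iff] at h5
    exact (QuotientGroup.eq_one_iff x).1 h5
  have hKG : Nat.card G = Nat.card K * 2 ^ k := by rw [← hKi, Subgroup.card_mul_index]
  have hfac : ∀ q : ℕ, q.Prime → q ≠ 2 → (Nat.card K).factorization q = (Nat.card G).factorization q := by
    intro q hq hq2
    rw [hKG, Nat.factorization_mul Nat.card_pos.ne' (by positivity), Nat.factorization_pow]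
    simp [Nat.prime_two.factorization, Finsupp.single_apply, hq2, Ne.symm hq2]
  set σ : Set ℕ := (↑π : Set ℕ) \ {2} with hσ
  have hσp : ∀ r ∈ σ, r.Prime := fun r hr => hπ r hr.1
  have key : ∀ q ∈ σ, Cfsg.HasNormalPComplement q K ∧
      ∀ P : Sylow q K, IsMulCommutative ↥(P : Subgroup K) := by
    intro q hq
    have hqπ : q ∈ π := hq.1
    have hq2 : q ≠ 2 := hq.2
    have hqp := hπ q hqπ
    have := Fact.mk hqp
    have hiso : ∀ P : Sylow q K, isoSubgroup P = P := by
      intro P
      apply iso_eq_odd hKodd hq2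
      rw [P.card_eq_multiplicity, hfac q hqp hq2]
      refine lt_of_lt_of_le (hPC q hqπ) (Nat.mul_le_mul_left _ ?_)
      apply card_PClass_le_of_normal
      rintro x ⟨j, hj⟩
      apply hmemK
      rw [hj]
      exact (hqp.odd_of_ne_two hq2).pow
    obtain ⟨P⟩ : Nonempty (Sylow q K) := inferInstance
    exact ⟨(complement_of_iso P (hiso P)).1, fun P => (complement_of_iso P (hiso P)).2⟩
  have h2K : ∀ r : ℕ, r.Prime → r ∣ Nat.card K → r ≠ 2 := by
    rintro r hr hrK rfl
    have := Nat.dvd_gcd hrK (dvd_refl 2)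
    rw [hKc] at this
    norm_num at this
  constructor
  · obtain ⟨N, hN, h1, h3, -⟩ := exists_pi_complement (G := K) σ hσp
      (fun q hq => exists_complement (hσp q hq) (key q hq).1)
    have hcop : (Nat.card N).Coprime N.index := by
      apply Nat.coprime_of_dvd
      intro r hr hrN hri
      exact h1 r hr hrN (h3 r hr hri)
    have hmemN : ∀ y : K, orderOf y ∣ Nat.card N → y ∈ N := by
      intro y hy
      have h4 : orderOf (QuotientGroup.mk' N y) ∣ orderOf y := orderOf_map_dvd _ _
      have h5 : orderOf (QuotientGroup.mk' N y) ∣ Nat.card (K ⧸ N) := orderOf_dvd_natCard _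
      have h6 : orderOf (QuotientGroup.mk' N y) = 1 := Nat.eq_one_of_dvd_coprimes hcop (h4.trans hy) h5
      rw [orderOf_eq_one_iff] at h6
      exact (QuotientGroup.eq_one_iff y).1 h6
    have hcardN : Nat.card (N.map K.subtype) = Nat.card N :=
      Nat.card_congr (N.equivMapOfInjective _ K.subtype_injective).symm.toEquiv
    refine ⟨N.map K.subtype, ⟨?_⟩, ?_, ?_⟩
    · rintro _ ⟨n, hn, rfl⟩ g
      have h4 : g * (n : G) * g⁻¹ ∈ K := hKn.conj_mem _ n.2 g
      refine ⟨⟨g * (n : G) * g⁻¹, h4⟩, hmemN _ ?_, rfl⟩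
      rw [← Subgroup.orderOf_coe]
      show orderOf (g * (n : G) * g⁻¹) ∣ _
      rw [Cfsg.Agent.Lib.PiClasses2.orderOf_conj, Subgroup.orderOf_coe]
      have := orderOf_dvd_natCard (⟨n, hn⟩ : N)
      rwa [← Subgroup.orderOf_coe] at this
    · intro r hr hrN hrπ
      rw [hcardN] at hrN
      exact h1 r hr hrN ⟨hrπ, h2K r hr (hrN.trans (Subgroup.card_subgroup_dvd_card N))⟩
    · intro r hr hri
      have hidx : (N.map K.subtype).index = N.index * K.index := by
        rw [Subgroup.index_map_subtype]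
      rw [hidx] at hri
      rcases (Nat.Prime.dvd_mul hr).1 hri with h4 | h4
      · exact (h3 r hr h4).1
      · rw [hKi] at h4
        have := (Nat.prime_dvd_prime_iff_eq hr Nat.prime_two).1 (hr.dvd_of_dvd_pow h4)
        rw [this]; exact h2
  · obtain ⟨H, hH, hHc⟩ := exists_abelian_hall (G := K) σ hσp (fun q hq => key q hq)
    have hcardH : Nat.card (H.map K.subtype) = Nat.card H :=
      Nat.card_congr (H.equivMapOfInjective _ K.subtype_injective).symm.toEquiv
    refine ⟨H.map K.subtype, ⟨?_, ?_⟩, ?_⟩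
    · intro r hr hrH
      rw [hcardH] at hrH
      exact hH.1 r hr hrH
    · intro r hr hrσ hri
      have hidx : (H.map K.subtype).index = H.index * K.index := by
        rw [Subgroup.index_map_subtype]
      rw [hidx] at hri
      rcases (Nat.Prime.dvd_mul hr).1 hri with h4 | h4
      · exact hH.2 r hr hrσ h4
      · rw [hKi] at h4
        have := (Nat.prime_dvd_prime_iff_eq hr Nat.prime_two).1 (hr.dvd_of_dvd_pow h4)
        exact hrσ.2 this
    · constructor
      constructor
      rintro ⟨_, a, ha, rfl⟩ ⟨_, b, hb, rfl⟩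
      have h4 : (⟨a, ha⟩ : H) * ⟨b, hb⟩ = ⟨b, hb⟩ * ⟨a, ha⟩ := hHc.is_comm.comm _ _
      apply Subtype.ext
      have h5 := congrArg (fun t : H => ((t : K) : G)) h4
      exact h5

end Cfsg.Agent.S3898
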