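import Cfsg.Statements.S3899
import Cfsg.Agent.Lib.PiClasses3

set_option autoImplicit false
open Cfsg

namespace Cfsg.Agent.S3899

open Cfsg.Agent.Lib.PiClasses Cfsg.Agent.Lib.PiClasses2 Cfsg.Agent.Lib.PiClasses3 Subgroup

theorem result {G : Type*} [Group G] [Finite G] (π : Finset ℕ) (hπ : ∀ r ∈ π, r.Prime) (h2 : 2 ∉ π) (p : ℕ) (hp : p ∈ π)
    (hmin : ∀ r ∈ π, p ≤ r) (hk : (p + 1) * π.prod (fun r => r ^ (Nat.card G).factorization r) < 2 * p * Nat.card {c : ConjClasses G // ∀ x ∈ c.carrier, ∀ r : ℕ, r.Prime → r ∣ orderOf x → r ∈ π}) :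
    (∃ N : Subgroup G, N.Normal ∧ (∀ r : ℕ, r.Prime → r ∣ Nat.card ↥N → r ∉ π) ∧ ∀ r : ℕ, r.Prime → r ∣ N.index → r ∈ π) ∧ ∃ H : Subgroup G, Cfsg.IsPiHall (↑π : Set ℕ) H ∧ IsMulCommutative ↥H := by
  classical
  have key : ∀ q ∈ π, Cfsg.HasNormalPComplement q G ∧
      ∀ P : Sylow q G, IsMulCommutative ↥(P : Subgroup G) := by
    intro q hq
    have hqp := hπ q hq
    have := Fact.mk hqp
    have hiso : ∀ P : Sylow q G, isoSubgroup P = P := by
      intro P
      apply iso_eq_of_many_classes
      rw [P.card_eq_multiplicity]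
      have h3 := card_SClass_le_of_subset (G := G) (fun r => r ∈ π) (fun r => r = q) (π.erase q)
        (fun r hr => hπ r (Finset.mem_of_mem_erase hr)) (by
          intro r hr
          by_cases h : r = q
          · exact Or.inl h
          · exact Or.inr (Finset.mem_erase.2 ⟨h, hr⟩))
      rw [card_SClass_singleton q hqp] at h3
      rw [← Finset.mul_prod_erase π _ hq] at hk
      set M := (π.erase q).prod (fun r => r ^ (Nat.card G).factorization r) with hM
      have hMpos : 0 < M := by
        apply Finset.prod_pos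
        intro r hr
        exact pow_pos (hπ r (Finset.mem_of_mem_erase hr)).pos _
      set Q := q ^ (Nat.card G).factorization q with hQ
      set K := Nat.card (PClass q G) with hK
      have h4 : (p + 1) * (Q * M) < 2 * p * (K * M) :=
        lt_of_lt_of_le hk (Nat.mul_le_mul_left _ h3)
      have h5 : (p + 1) * Q < 2 * p * K := by
        have : ((p + 1) * Q) * M < (2 * p * K) * M := by nlinarith
        exact lt_of_mul_lt_mul_right this (Nat.zero_le _)
      have hpq : p ≤ q := hmin q hq
      have hppos : 0 < p := (hπ p hp).pos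
      have h6 : p * ((q + 1) * Q) < p * (2 * q * K) := by
        calc p * ((q + 1) * Q) = (q * p + p) * Q := by ring
          _ ≤ (q * p + q) * Q := by
              apply Nat.mul_le_mul_right
              omega
          _ = q * ((p + 1) * Q) := by ring
          _ < q * (2 * p * K) := Nat.mul_lt_mul_of_pos_left h5 hqp.pos
          _ = p * (2 * q * K) := by ring
      exact lt_of_mul_lt_mul_left h6 (Nat.zero_le _)
    obtain ⟨P⟩ : Nonempty (Sylow q G) := inferInstance
    exact ⟨(complement_of_iso P (hiso P)).1, fun P => (complement_of_iso P (hiso P)).2⟩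
  constructor
  · obtain ⟨N, hN, h1, h2, -⟩ := exists_pi_complement (G := G) (↑π : Set ℕ)
      (fun r hr => hπ r hr) (fun q hq => exists_complement (hπ q hq) (key q hq).1)
    exact ⟨N, hN, fun r hr h => h1 r hr h, fun r hr h => h2 r hr h⟩
  · exact exists_abelian_hall (↑π : Set ℕ) (fun r hr => hπ r hr) (fun q hq => key q hq)

end Cfsg.Agent.S3899
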