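import Cfsg.Statements.S3904
import Cfsg.Agent.Lib.CentMaximal

set_option autoImplicit false
open Cfsg

namespace Cfsg.Agent.S3904

open Subgroup Cfsg.Agent.Lib.CentMaximal
open scoped commutatorElement

variable {G : Type*} [Group G]

theorem conj_C (x g : G) (y : G) : y ∈ C (g * x * g⁻¹) ↔ g⁻¹ * y * g ∈ C x := by
  rw [mem_C, mem_C]
  constructor
  · intro h
    have : g⁻¹ * (y * (g * x * g⁻¹)) * g = g⁻¹ * (g * x * g⁻¹ * y) * g := by rw [h]
    calc g⁻¹ * y * g * x = g⁻¹ * (y * (g * x * g⁻¹)) * g := by group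
      _ = g⁻¹ * (g * x * g⁻¹ * y) * g := this
      _ = _ := by group
  · intro h
    have : g * (g⁻¹ * y * g * x) * g⁻¹ = g * (x * (g⁻¹ * y * g)) * g⁻¹ := by rw [h]
    calc y * (g * x * g⁻¹) = g * (g⁻¹ * y * g * x) * g⁻¹ := by group
      _ = g * (x * (g⁻¹ * y * g)) * g⁻¹ := this
      _ = _ := by group

theorem caseC [Finite G] (h : Hyp G) {x : G} (hx : x ∉ center G) (hM : ¬ IsMulCommutative (C x)) :
    ∃ p : ℕ, p.Prime ∧ IsPGroup p (G ⧸ center G) := by
  by_contra hcon
  push Not at hcon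
  obtain ⟨p, hp, ⟨a, ha, haZ, hap⟩, hpr⟩ := nonabelian_prime h hx hM
  have hfp : Fact p.Prime := ⟨hp⟩
  have hnp := hcon p hp
  have hCa : C x = C a := eq_of_mem_zpowers h ha haZ
  have hpow : ∀ m ∈ C x, ∃ k : ℕ, m ^ p ^ k ∈ center G := by
    intro m hm
    obtain ⟨u, v, hu, hv, huv, hup, hvp, -, -⟩ := split p m
    have hv' : v ∈ C x := (zpowers_le.2 hm) hv
    have hvZ := hpr v hv' hvp
    obtain ⟨k, hk⟩ := hup.pow
    refine ⟨k, ?_⟩
    have hcomm : Commute u v := (mem_center_iff.1 hvZ u)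
    rw [← huv, hcomm.mul_pow, ← hk, pow_orderOf_eq_one, one_mul]
    exact pow_mem hvZ _
  obtain ⟨hMp, hMn⟩ := nilp_of_pow hpow
  -- Sylow property
  set π := QuotientGroup.mk' (center G) with hπ
  have hcoat := coatom_map_mk (C x) (h x hx) (center_le_C x)
  have hsyl : ∀ d : G, PEl p d → ∃ t : G, t * d * t⁻¹ ∈ C x := by
    intro d hd
    obtain ⟨P, hP⟩ := hMp.exists_le_sylow
    have hPM : (C x).map π = P := by
      rcases hcoat.le_iff.1 hP with h1 | h1
      · exfalso
        apply hnp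
        have := P.2
        rw [h1] at this
        exact this.of_surjective (topEquiv (G := G ⧸ center G)).toMonoidHom topEquiv.surjective
      · exact h1.symm
    obtain ⟨k, hk⟩ := hd.pow
    have hdp : IsPGroup p (zpowers (π d)) := by
      have h1 : orderOf (π d) ∣ p ^ k := by rw [← hk]; exact orderOf_map_dvd π d
      obtain ⟨j, -, hj⟩ := (Nat.dvd_prime_pow hp).1 h1
      exact IsPGroup.of_card (n := j) (by rw [Nat.card_zpowers]; exact hj)
    obtain ⟨P', hP'⟩ := hdp.exists_le_sylow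
    obtain ⟨t', ht'⟩ := MulAction.exists_smul_eq (G ⧸ center G) P' P
    obtain ⟨t, rfl⟩ := QuotientGroup.mk'_surjective _ t'
    refine ⟨t, ?_⟩
    rw [← mem_map_mk (center_le_C x)]
    have h1 : π d ∈ (P' : Subgroup (G ⧸ center G)) := hP' (mem_zpowers _)
    have h2 : π t * π d * (π t)⁻¹ ∈ (P : Subgroup (G ⧸ center G)) := by
      rw [← ht']
      exact Subgroup.smul_mem_pointwise_smul (π d) (MulAut.conj (π t)) _ h1
    rw [← hPM] at h2
    show π (t * d * t⁻¹) ∈ _
    rw [map_mul, map_mul, map_inv]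
    exact h2
  -- the element `y`
  obtain ⟨y, hyM, hyn, hyc⟩ : ∃ y ∈ C x, (¬ C x ≤ C y) ∧ ∀ m ∈ C x, C x ≤ C (⁅y, m⁆) := by
    have hnt : Nontrivial ((C x) ⧸ center (C x)) := by
      rw [QuotientGroup.nontrivial_iff]
      intro htop
      exact hM (Subgroup.center_eq_top_iff.1 htop)
    have hQp : IsPGroup p ((C x) ⧸ center (C x)) := by
      intro q
      obtain ⟨m, rfl⟩ := QuotientGroup.mk_surjective q
      obtain ⟨k, hk⟩ := hpow m m.2
      refine ⟨k, ?_⟩
      rw [← QuotientGroup.mk_pow]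
      apply (QuotientGroup.eq_one_iff _).2
      rw [mem_center_iff]
      intro w
      exact Subtype.ext ((mem_center_iff.1 hk) w)
    have := hQp.center_nontrivial
    obtain ⟨⟨q, hq⟩, hq1⟩ := exists_ne (1 : center ((C x) ⧸ center (C x)))
    obtain ⟨y, rfl⟩ := QuotientGroup.mk_surjective q
    refine ⟨y, y.2, ?_, ?_⟩
    · intro hle
      apply hq1
      apply Subtype.ext
      apply (QuotientGroup.eq_one_iff _).2
      rw [mem_center_iff]
      intro w
      exact Subtype.ext (mem_C.1 (hle w.2))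
    · intro m hm
      have h1 : (QuotientGroup.mk ⁅y, ⟨m, hm⟩⁆ : (C x) ⧸ center (C x)) = 1 := by
        show QuotientGroup.mk' (center (C x)) ⁅y, ⟨m, hm⟩⁆ = 1
        rw [map_commutatorElement, commutatorElement_eq_one_iff_mul_comm]
        exact ((mem_center_iff.1 hq) (QuotientGroup.mk ⟨m, hm⟩)).symm
      have h2 := (QuotientGroup.eq_one_iff _).1 h1
      rw [mem_center_iff] at h2
      intro w hw
      rw [mem_C]
      exact congrArg Subtype.val (h2 ⟨w, hw⟩)
  have hyZ : y ∉ center G := by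
    intro hy
    apply hyn
    rw [C_eq_top_iff.2 hy]; exact le_top
  have hxy : x ∈ C y := mem_C_comm.1 hyM
  -- `C y` is nonabelian
  have hE : ¬ IsMulCommutative (C y) := by
    intro hab
    rw [comm_iff_le] at hab
    have : C y ≤ C x := by
      intro w hw
      rw [mem_C]
      exact hab w hw x hxy
    exact hyn (eq_of_le h hyZ hx this).ge
  obtain ⟨r, hr, -, hrr⟩ := nonabelian_prime h hyZ hE
  have hay : a ∈ C y := (zpowers_le.2 hxy) ha
  have hrp : r = p := by
    by_contra hne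
    apply haZ
    apply hrr a hay
    intro s hs hsa hsr
    exact hne (hsr.symm.trans (hap s hs hsa))
  subst hrp
  have hpowE : ∀ m ∈ C y, ∃ k : ℕ, m ^ r ^ k ∈ center G := by
    intro m hm
    obtain ⟨u, v, hu, hv, huv, hup, hvp, -, -⟩ := split r m
    have hv' : v ∈ C y := (zpowers_le.2 hm) hv
    have hvZ := hrr v hv' hvp
    obtain ⟨k, hk⟩ := hup.pow
    refine ⟨k, ?_⟩
    have hcomm : Commute u v := (mem_center_iff.1 hvZ u)
    rw [← huv, hcomm.mul_pow, ← hk, pow_orderOf_eq_one, one_mul]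
    exact pow_mem hvZ _
  obtain ⟨hEp, hEn⟩ := nilp_of_pow hpowE
  -- `D = C x ∩ C y`
  set D := C x ⊓ C y with hD
  have hDE : D < C y := by
    refine lt_of_le_of_ne inf_le_right ?_
    intro heq
    have : C y ≤ C x := by rw [← heq]; exact inf_le_left
    exact hyn (eq_of_le h hyZ hx this).ge
  have hDM : C x ≤ normalizer (D : Set G) := by
    have hcl : ∀ m ∈ C x, ∀ d ∈ D, m * d * m⁻¹ ∈ D := by
      intro m hm d hd
      refine mem_inf.2 ⟨mul_mem (mul_mem hm hd.1) (inv_mem hm), ?_⟩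
      rw [mem_C]
      -- `m⁻¹ y m = [m⁻¹, y] y`
      have h1 : C x ≤ C (⁅y, m⁻¹⁆) := hyc m⁻¹ (inv_mem hm)
      have h2 : d * ⁅y, m⁻¹⁆ = ⁅y, m⁻¹⁆ * d := mem_C.1 (h1 hd.1)
      have h3 : d * y = y * d := mem_C.1 hd.2
      have h4 : m⁻¹ * y * m = ⁅y, m⁻¹⁆⁻¹ * y := by rw [commutatorElement_def]; group
      have h5 : Commute d (m⁻¹ * y * m) := by
        rw [h4]
        exact (Commute.inv_right (show Commute d ⁅y, m⁻¹⁆ from h2)).mul_right h3
      calc m * d * m⁻¹ * y = m * (d * (m⁻¹ * y * m)) * m⁻¹ := by group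
        _ = m * ((m⁻¹ * y * m) * d) * m⁻¹ := by rw [h5.eq]
        _ = _ := by group
    intro m hm
    rw [mem_normalizer_iff]
    intro d
    constructor
    · exact hcl m hm d
    · intro hd
      have := hcl m⁻¹ (inv_mem hm) _ hd
      simpa [mul_assoc] using this
  have hDn : normalizer (D : Set G) = ⊤ := by
    have h1 := Cfsg.Agent.Lib.H64Basic.lt_inf_normalizer_of_nilpotent hEn hDE
    obtain ⟨n, hn, hnD⟩ := SetLike.exists_of_lt h1
    have h2 : C x < normalizer (D : Set G) := by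
      refine lt_of_le_of_ne hDM ?_
      intro heq
      apply hnD
      refine ⟨?_, hn.1⟩
      rw [heq]; exact hn.2
    exact (h x hx).2 _ h2
  have hDnorm : D.Normal := normalizer_eq_top_iff.1 hDn
  have haD : a ∈ D := ⟨by rw [hCa]; exact self_mem_C a, hay⟩
  -- a noncentral `p'`-element
  obtain ⟨g, hgZ, hgp⟩ : ∃ g : G, g ∉ center G ∧ PEl' r g := by
    by_contra hall
    push Not at hall
    apply hnp
    intro q
    obtain ⟨m, rfl⟩ := QuotientGroup.mk_surjective q
    obtain ⟨u, v, hu, hv, huv, hup, hvp, -, -⟩ := split r m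
    have hvZ : v ∈ center G := by
      by_contra hvZ
      exact hall v hvZ hvp
    obtain ⟨k, hk⟩ := hup.pow
    refine ⟨k, ?_⟩
    rw [← QuotientGroup.mk_pow]
    apply (QuotientGroup.eq_one_iff _).2
    have hcomm : Commute u v := (mem_center_iff.1 hvZ u)
    rw [← huv, hcomm.mul_pow, ← hk, pow_orderOf_eq_one, one_mul]
    exact pow_mem hvZ _
  have hgM : ∀ t : G, t * g * t⁻¹ ∉ C x := by
    intro t ht
    apply hgZ
    have h1 := hpr _ ht (hgp.conj t)
    have h2 := (center G).mul_mem ((center G).mul_mem (center G).one_mem h1) (center G).one_mem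
    have h3 : g = t⁻¹ * (t * g * t⁻¹) * t⁻¹⁻¹ := by group
    rw [h3]
    exact (inferInstance : (center G).Normal).conj_mem _ h1 t⁻¹
  -- `p`-elements of `C g` are central
  have hCg : ∀ d ∈ C g, PEl r d → d ∈ center G := by
    intro d hd hdp
    by_contra hdZ
    have h1 : C d = C g := eq_of_coprime h hdZ hgZ (mem_C.1 hd) (hdp.coprime hgp)
    obtain ⟨t, ht⟩ := hsyl d hdp
    -- `t d t⁻¹ ∈ C x`
    have h2 : t⁻¹ * x * t⁻¹⁻¹ ∈ C d := by
      rw [mem_C_comm, conj_C]
      simpa using ht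
    rw [h1, mem_C_comm, conj_C] at h2
    apply hgM t
    simpa using h2
  have hDg : ¬ D ≤ C g := by
    intro hle
    exact haZ (hCg a (hle haD) hap)
  have hsup : D ⊔ C g = ⊤ := by
    rcases (h g hgZ).le_iff.1 (le_sup_right : C g ≤ D ⊔ C g) with h1 | h1
    · exact h1
    · exact absurd (h1 ▸ le_sup_left) hDg
  -- hence `C x ≤ D`
  have hfin : C x ≤ D := by
    intro m hm
    have h1 : m ∈ D ⊔ C g := by rw [hsup]; trivial
    rw [mem_sup_of_normal_left] at h1
    obtain ⟨d, hd, c, hc, hdc⟩ := h1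
    have hcM : c ∈ C x := by
      have : c = d⁻¹ * m := by rw [← hdc]; group
      rw [this]
      exact mul_mem (inv_mem hd.1) hm
    obtain ⟨u, v, hu, hv, huv, hup, hvp, -, -⟩ := split r c
    have huZ : u ∈ center G := hCg u ((zpowers_le.2 hc) hu) hup
    have hvZ : v ∈ center G := hpr v ((zpowers_le.2 hcM) hv) hvp
    have hcZ : c ∈ center G := huv ▸ mul_mem huZ hvZ
    rw [← hdc]
    exact mul_mem hd ⟨hcM, center_le_C y hcZ⟩
  exact hyn (hfin.trans inf_le_right)

/-- the partition property in the abelian case -/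
theorem eq_of_mem (h : Hyp G) (hab : ∀ x : G, x ∉ center G → IsMulCommutative (C x)) {x y w : G}
    (hx : x ∉ center G) (hy : y ∉ center G) (hw : w ∉ center G) (hwx : w ∈ C x) (hwy : w ∈ C y) : C x = C y := by
  have key : ∀ z : G, z ∉ center G → w ∈ C z → C z = C w := by
    intro z hz hwz
    apply eq_of_le h hz hw
    intro g hg
    rw [mem_C]
    exact (comm_iff_le.1 (hab z hz)) g hg w hwz
  rw [key x hx hwx, key y hy hwy]

theorem exists_normal [Finite G] (h : Hyp G) (hab : ∀ x : G, x ∉ center G → IsMulCommutative (C x))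
    (hna : ∃ x : G, x ∉ center G) : ∃ x : G, x ∉ center G ∧ (C x).Normal := by
  classical
  by_contra hcon
  push Not at hcon
  have hnorm : ∀ x : G, x ∉ center G → ∀ r : G, (∃ w ∈ C x, w ∉ center G ∧ r * w * r⁻¹ ∈ C x) → r ∈ C x := by
    rintro x hx r ⟨w, hw, hwZ, hrw⟩
    have h1 : normalizer (C x : Set G) = C x := by
      rcases (h x hx).le_iff.1 (le_normalizer : C x ≤ normalizer (C x : Set G)) with h2 | h2
      · exact absurd (normalizer_eq_top_iff.1 h2) (hcon x hx)
      · exact h2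
    have hrZ : r * w * r⁻¹ ∉ center G := by
      intro h2
      apply hwZ
      have h3 := (inferInstance : (center G).Normal).conj_mem _ h2 r⁻¹
      have h4 : w = r⁻¹ * (r * w * r⁻¹) * r⁻¹⁻¹ := by group
      rw [h4]; exact h3
    have hrx : r * x * r⁻¹ ∉ center G := by
      intro h2
      apply hx
      have h3 := (inferInstance : (center G).Normal).conj_mem _ h2 r⁻¹
      have h4 : x = r⁻¹ * (r * x * r⁻¹) * r⁻¹⁻¹ := by group
      rw [h4]; exact h3
    have h2 : C x = C (r * x * r⁻¹) := by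
      apply eq_of_mem h hab hx hrx hrZ hrw
      rw [conj_C]
      have : r⁻¹ * (r * w * r⁻¹) * r = w := by group
      rw [this]; exact hw
    rw [← h1, mem_normalizer_iff]
    intro y
    constructor
    · intro hy
      rw [h2, conj_C]
      have : r⁻¹ * (r * y * r⁻¹) * r = y := by group
      rw [this]; exact hy
    · intro hy
      rw [h2, conj_C] at hy
      have : r⁻¹ * (r * y * r⁻¹) * r = y := by group
      rwa [this] at hy
  -- the map covering the conjugates of `C x`
  let A : G → Type _ := fun x => (G ⧸ C x) × {m : G // m ∈ C x ∧ m ∉ center G}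
  let f : ∀ x : G, A x → {g : G // g ∉ center G} := fun x q => ⟨q.1.out * q.2.1 * q.1.out⁻¹, by
    intro h2
    apply q.2.2.2
    have h3 := (inferInstance : (center G).Normal).conj_mem _ h2 q.1.out⁻¹
    have h4 : q.2.1 = q.1.out⁻¹ * (q.1.out * q.2.1 * q.1.out⁻¹) * q.1.out⁻¹⁻¹ := by group
    rw [h4]; exact h3⟩
  have hfv : ∀ x q, ((f x q : {g : G // g ∉ center G}) : G) = q.1.out * q.2.1 * q.1.out⁻¹ := fun _ _ => rfl
  have hinj : ∀ x, x ∉ center G → Function.Injective (f x) := by
    rintro x hx ⟨q, m⟩ ⟨q', m'⟩ he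
    have he' : q.out * m.1 * q.out⁻¹ = q'.out * m'.1 * q'.out⁻¹ := congrArg Subtype.val he
    have h1 : (q'.out)⁻¹ * q.out ∈ C x := by
      apply hnorm x hx _ ⟨m.1, m.2.1, m.2.2, ?_⟩
      have : q'.out⁻¹ * q.out * m.1 * (q'.out⁻¹ * q.out)⁻¹ = m'.1 := by
        calc _ = q'.out⁻¹ * (q.out * m.1 * q.out⁻¹) * q'.out := by group
          _ = q'.out⁻¹ * (q'.out * m'.1 * q'.out⁻¹) * q'.out := by rw [he']
          _ = _ := by group
      rw [this]; exact m'.2.1
    have h2 : q' = q := by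
      rw [← QuotientGroup.out_eq' q', ← QuotientGroup.out_eq' q]
      exact QuotientGroup.eq.2 h1
    subst h2
    have h3 : m.1 = m'.1 := by
      have := mul_right_cancel he'
      exact mul_left_cancel this
    rw [Prod.mk.injEq]
    exact ⟨rfl, Subtype.ext h3⟩
  have hcard : ∀ x, x ∉ center G → Nat.card (A x) + (C x).index * Nat.card (center G) = Nat.card G ∧
      (C x).index * Nat.card (center G) * 2 ≤ Nat.card G := by
    intro x hx
    have h1 : Nat.card {m : G // m ∈ C x ∧ m ∉ center G} + Nat.card (center G) = Nat.card (C x) := by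
      have h2 : Nat.card {m : G // m ∈ C x ∧ m ∉ center G} = ((C x : Set G) \ (center G : Set G)).ncard := rfl
      have h3 : Nat.card (center G) = (center G : Set G).ncard := rfl
      have h4 : Nat.card (C x) = (C x : Set G).ncard := rfl
      rw [h2, h3, h4]
      exact Set.ncard_sdiff_add_ncard_of_subset (SetLike.coe_subset_coe.2 (center_le_C x)) (Set.toFinite _)
    have h5 := Subgroup.card_mul_index (C x)
    have h6 : Nat.card (A x) = (C x).index * Nat.card {m : G // m ∈ C x ∧ m ∉ center G} := Nat.card_prod _ _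
    have h7 : 2 * Nat.card (center G) ≤ Nat.card (C x) := by
      obtain ⟨c, hc⟩ := Subgroup.card_dvd_of_le (center_le_C x)
      have hc2 : 2 ≤ c := by
        by_contra hlt
        push Not at hlt
        interval_cases c
        · have := Nat.card_pos (α := C x)
          omega
        · have h8 : center G = C x := Subgroup.eq_of_le_of_card_ge (center_le_C x) (by rw [hc]; simp)
          exact hx (h8 ▸ self_mem_C x)
      rw [hc, mul_comm]
      exact Nat.mul_le_mul_left _ hc2
    constructor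
    · rw [h6, ← mul_add, h1, mul_comm, h5]
    · calc (C x).index * Nat.card (center G) * 2 = (C x).index * (2 * Nat.card (center G)) := by ring
        _ ≤ (C x).index * Nat.card (C x) := Nat.mul_le_mul_left _ h7
        _ = _ := by rw [mul_comm, h5]
  have htot : Nat.card {g : G // g ∉ center G} + Nat.card (center G) = Nat.card G := by
    have h2 : Nat.card {g : G // g ∉ center G} = ((Set.univ : Set G) \ (center G : Set G)).ncard := by
      rw [← Set.compl_eq_univ_sdiff]; rfl
    have h3 : Nat.card (center G) = (center G : Set G).ncard := rfl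
    rw [h2, h3, Set.ncard_sdiff_add_ncard_of_subset (Set.subset_univ _) (Set.toFinite _), Set.ncard_univ]
  obtain ⟨x, hx⟩ := hna
  -- surjectivity of `f x` fails
  have hns : ¬ Function.Surjective (f x) := by
    intro hs
    have h1 : Nat.card (A x) = Nat.card {g : G // g ∉ center G} :=
      Nat.card_congr (Equiv.ofBijective (f x) ⟨hinj x hx, hs⟩)
    have h2 := (hcard x hx).1
    have h3 : (C x).index * Nat.card (center G) = 1 * Nat.card (center G) := by omega
    have h4 := Nat.eq_of_mul_eq_mul_right Nat.card_pos h3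
    exact (h x hx).1 (Subgroup.index_eq_one.1 h4)
  rw [Function.Surjective] at hns
  push Not at hns
  obtain ⟨⟨y, hy⟩, hyf⟩ := hns
  have hconj : ∀ r m : G, m ∈ C x → m ∉ center G → ∃ q : A x, (f x q : G) = r * m * r⁻¹ := by
    intro r m hm hmZ
    have h1 : ((QuotientGroup.mk r : G ⧸ C x).out)⁻¹ * r ∈ C x := by
      rw [← QuotientGroup.eq, QuotientGroup.out_eq']
    set o := (QuotientGroup.mk r : G ⧸ C x).out with ho
    refine ⟨(QuotientGroup.mk r, ⟨(o⁻¹ * r) * m * (o⁻¹ * r)⁻¹, mul_mem (mul_mem h1 hm) (inv_mem h1), ?_⟩), ?_⟩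
    · intro h2
      apply hmZ
      have h3 := (inferInstance : (center G).Normal).conj_mem _ h2 (o⁻¹ * r)⁻¹
      have h4 : m = (o⁻¹ * r)⁻¹ * ((o⁻¹ * r) * m * (o⁻¹ * r)⁻¹) * (o⁻¹ * r)⁻¹⁻¹ := by group
      rw [h4]; exact h3
    · rw [hfv]
      show o * ((o⁻¹ * r) * m * (o⁻¹ * r)⁻¹) * o⁻¹ = _
      group
  -- the combined map
  let F : A x ⊕ A y → {g : G // g ∉ center G} := Sum.elim (f x) (f y)
  have hF : Function.Injective F := by
    apply Function.Injective.sumElim (hinj x hx) (hinj y hy)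
    rintro ⟨q, m⟩ ⟨q', m'⟩ he
    have he' : q.out * m.1 * q.out⁻¹ = q'.out * m'.1 * q'.out⁻¹ := congrArg Subtype.val he
    set r := q'.out⁻¹ * q.out with hr
    have hm' : m'.1 = r * m.1 * r⁻¹ := by
      calc m'.1 = q'.out⁻¹ * (q'.out * m'.1 * q'.out⁻¹) * q'.out := by group
        _ = q'.out⁻¹ * (q.out * m.1 * q.out⁻¹) * q'.out := by rw [he']
        _ = _ := by rw [hr]; group
    have hrx : r * x * r⁻¹ ∉ center G := by
      intro h2
      apply hx
      have h3 := (inferInstance : (center G).Normal).conj_mem _ h2 r⁻¹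
      have h4 : x = r⁻¹ * (r * x * r⁻¹) * r⁻¹⁻¹ := by group
      rw [h4]; exact h3
    have h1 : C y = C (r * x * r⁻¹) := by
      apply eq_of_mem h hab hy hrx m'.2.2 m'.2.1
      rw [conj_C, hm']
      have : r⁻¹ * (r * m.1 * r⁻¹) * r = m.1 := by group
      rw [this]; exact m.2.1
    have h2 : y ∈ C (r * x * r⁻¹) := h1 ▸ self_mem_C y
    rw [conj_C] at h2
    have h3 : r⁻¹ * y * r ∉ center G := by
      intro h2
      apply hy
      have h3 := (inferInstance : (center G).Normal).conj_mem _ h2 r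
      have h4 : y = r * (r⁻¹ * y * r) * r⁻¹ := by group
      rw [h4]; exact h3
    obtain ⟨Q, hQ⟩ := hconj r _ h2 h3
    apply hyf Q
    apply Subtype.ext
    rw [hQ]; group
  have h1 := Nat.card_le_card_of_injective F hF
  rw [Nat.card_sum] at h1
  have h2 := hcard x hx
  have h3 := hcard y hy
  have h4 : 0 < Nat.card (center G) := Nat.card_pos
  omega

/-- final structure analysis in a finite group `B` (the central quotient) -/
theorem final {B : Type*} [Group B] [Finite B] (K Q : Subgroup B) (hKn : K.Normal) (hK : IsCoatom K)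
    (hQ : IsCoatom Q) (hKQ : K ⊓ Q = ⊥) (hKab : ∀ a ∈ K, ∀ b ∈ K, a * b = b * a) (hK1 : K ≠ ⊥) (hQ1 : Q ≠ ⊥) :
    ∃ p q a : ℕ, p.Prime ∧ q.Prime ∧ (∀ k ∈ K, k ^ p = 1) ∧ Nat.card K = p ^ a ∧ Nat.card Q = q ∧
      Nat.card B = p ^ a * q := by
  have hsup : K ⊔ Q = ⊤ := by
    rcases hK.le_iff.1 (le_sup_left : K ≤ K ⊔ Q) with h | h
    · exact h
    · exfalso
      have h1 : Q ≤ K := h ▸ le_sup_right
      rw [inf_eq_right.2 h1] at hKQ
      exact hQ1 hKQ
  have hidx : K.index = Nat.card Q := by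
    rw [← relIndex_top_right, ← hsup, sup_comm, Subgroup.relIndex_sup_right, ← Subgroup.inf_relIndex_right, hKQ,
      Subgroup.relIndex_bot_left]
  -- `|Q|` is prime
  obtain ⟨q, hq, hqQ⟩ : ∃ q : ℕ, q.Prime ∧ Nat.card Q = q := by
    have h1 : Nat.card Q ≠ 1 := by rwa [Ne, Subgroup.card_eq_one]
    obtain ⟨q, hq, hqd⟩ := Nat.exists_prime_and_dvd h1
    have : Fact q.Prime := ⟨hq⟩
    obtain ⟨z, hz⟩ := exists_prime_orderOf_dvd_card' (G := Q) q hqd
    refine ⟨q, hq, ?_⟩
    have hzQ : zpowers (z : B) ≤ Q := zpowers_le.2 z.2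
    have hoz : orderOf (z : B) = q := by rw [Subgroup.orderOf_coe, hz]
    have h2 : K ⊔ zpowers (z : B) = ⊤ := by
      rcases hK.le_iff.1 (le_sup_left : K ≤ K ⊔ zpowers (z : B)) with h | h
      · exact h
      · exfalso
        have h3 : (z : B) ∈ K ⊓ Q := ⟨h ▸ (le_sup_right (a := K) (mem_zpowers (z : B))), z.2⟩
        rw [hKQ, mem_bot] at h3
        rw [h3, orderOf_one] at hoz
        exact hq.one_lt.ne hoz
    have h4 : Q = zpowers (z : B) := by
      apply le_antisymm _ hzQ
      intro w hw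
      have h5 : w ∈ K ⊔ zpowers (z : B) := by rw [h2]; trivial
      rw [mem_sup_of_normal_left] at h5
      obtain ⟨k, hk, r, hr, rfl⟩ := h5
      have h6 : k ∈ K ⊓ Q := ⟨hk, by
        have := mul_mem hw (inv_mem (hzQ hr))
        rwa [mul_inv_cancel_right] at this⟩
      rw [hKQ, mem_bot] at h6
      rw [h6, one_mul]; exact hr
    rw [h4, Nat.card_zpowers, hoz]
  -- `K` is elementary abelian
  have h1 : Nat.card K ≠ 1 := by rwa [Ne, Subgroup.card_eq_one]
  obtain ⟨p, hp, hpd⟩ := Nat.exists_prime_and_dvd h1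
  have hfp : Fact p.Prime := ⟨hp⟩
  let L : Subgroup B :=
    { carrier := {k | k ∈ K ∧ k ^ p = 1}
      one_mem' := ⟨K.one_mem, one_pow p⟩
      mul_mem' := by
        rintro a b ⟨ha, ha'⟩ ⟨hb, hb'⟩
        refine ⟨mul_mem ha hb, ?_⟩
        have : Commute a b := hKab a ha b hb
        rw [this.mul_pow, ha', hb', one_mul]
      inv_mem' := by
        rintro a ⟨ha, ha'⟩
        exact ⟨inv_mem ha, by rw [inv_pow, ha', inv_one]⟩ }
  have hLmem : ∀ k, k ∈ L ↔ k ∈ K ∧ k ^ p = 1 := fun _ => Iff.rfl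
  have hLK : L ≤ K := fun k hk => hk.1
  have hLn : L.Normal := by
    constructor
    rintro k ⟨hk, hk'⟩ g
    exact ⟨hKn.conj_mem k hk g, by rw [conj_pow, hk']; group⟩
  obtain ⟨z, hz⟩ := exists_prime_orderOf_dvd_card' (G := K) p hpd
  have hoz : orderOf (z : B) = p := by rw [Subgroup.orderOf_coe, hz]
  have hzL : (z : B) ∈ L := ⟨z.2, by rw [← hoz]; exact pow_orderOf_eq_one _⟩
  have h2 : L ⊔ Q = ⊤ := by
    rcases hQ.le_iff.1 (le_sup_right : Q ≤ L ⊔ Q) with h | h
    · exact h
    · exfalso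
      have h3 : (z : B) ∈ K ⊓ Q := ⟨z.2, h ▸ (le_sup_left (a := L) hzL)⟩
      rw [hKQ, mem_bot] at h3
      rw [h3, orderOf_one] at hoz
      exact hp.one_lt.ne hoz
  have hKL : ∀ k ∈ K, k ^ p = 1 := by
    intro w hw
    have h5 : w ∈ L ⊔ Q := by rw [h2]; trivial
    rw [mem_sup_of_normal_left] at h5
    obtain ⟨k, hk, r, hr, rfl⟩ := h5
    have h6 : r ∈ K ⊓ Q := ⟨by
      have := mul_mem (inv_mem (hLK hk)) hw
      rwa [inv_mul_cancel_left] at this, hr⟩
    rw [hKQ, mem_bot] at h6
    rw [h6, mul_one]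
    exact hk.2
  have hKp : IsPGroup p K := by
    intro k
    exact ⟨1, Subtype.ext (by rw [pow_one]; exact hKL k k.2)⟩
  obtain ⟨a, ha⟩ := hKp.exists_card_eq
  refine ⟨p, q, a, hp, hq, hKL, ha, hqQ, ?_⟩
  rw [← Subgroup.card_mul_index K, hidx, hqQ, ha]

theorem result {G : Type*} [Group G] [Finite G] (hna : ¬ IsMulCommutative G)
    (h : ∀ x : G, x ∉ Subgroup.center G → IsCoatom (Subgroup.centralizer ({x} : Set G))) :
    (∃ p : ℕ, p.Prime ∧ Cfsg.IsElementaryAbelian p (⊤ : Subgroup (G ⧸ Subgroup.center G))) ∨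
    (¬ IsMulCommutative (G ⧸ Subgroup.center G) ∧ (∀ H : Subgroup (G ⧸ Subgroup.center G), H ≠ ⊤ → IsMulCommutative ↥H) ∧
      ∃ p q a : ℕ, p.Prime ∧ q.Prime ∧ p ≠ q ∧ Nat.card (G ⧸ Subgroup.center G) = p ^ a * q ∧
        ∀ P : Subgroup (G ⧸ Subgroup.center G), Nat.card ↥P = p ^ a → P.Normal) := by
  by_cases hp : ∃ p : ℕ, p.Prime ∧ IsPGroup p (G ⧸ center G)
  · obtain ⟨p, hp, hpg⟩ := hp
    have : Fact p.Prime := ⟨hp⟩
    exact Or.inl ⟨p, hp, elementary_of_isPGroup h hpg⟩
  right
  have hab : ∀ x : G, x ∉ center G → IsMulCommutative (C x) := by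
    intro x hx
    by_contra hM
    exact hp (caseC h hx hM)
  obtain ⟨x, hx, hxn⟩ := exists_normal h hab (by
    by_contra hcon
    push Not at hcon
    exact hna ⟨⟨fun a b => ((mem_center_iff.1 (hcon a)) b).symm⟩⟩)
  obtain ⟨y, hy⟩ : ∃ y : G, y ∉ C x := by
    by_contra hcon
    push Not at hcon
    exact (h x hx).1 (eq_top_iff.2 (fun g _ => hcon g))
  have hyZ : y ∉ center G := fun h1 => hy (center_le_C x h1)
  have hne : C x ≠ C y := by
    intro heq
    exact hy (heq ▸ self_mem_C y)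
  have hinf : ∀ w, w ∈ C x → w ∈ C y → w ∈ center G := by
    intro w h1 h2
    by_contra hw
    exact hne (eq_of_mem h hab hx hyZ hw h1 h2)
  set π := QuotientGroup.mk' (center G) with hπ
  have hπ1 : ∀ g, π g = 1 ↔ g ∈ center G := fun g => QuotientGroup.eq_one_iff g
  set K := (C x).map π with hK
  set Q := (C y).map π with hQ
  have hKn : K.Normal := hxn.map π (QuotientGroup.mk'_surjective _)
  have hKc : IsCoatom K := coatom_map_mk (C x) (h x hx) (center_le_C x)
  have hQc : IsCoatom Q := coatom_map_mk (C y) (h y hyZ) (center_le_C y)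
  have hKQ : K ⊓ Q = ⊥ := by
    rw [eq_bot_iff]
    rintro _ ⟨⟨w, hw, rfl⟩, hw2⟩
    have hw2' : w ∈ C y := (mem_map_mk (center_le_C y)).1 hw2
    rw [mem_bot, hπ1]
    exact hinf w hw hw2'
  have hKab : ∀ a ∈ K, ∀ b ∈ K, a * b = b * a := by
    rintro _ ⟨a, ha, rfl⟩ _ ⟨b, hb, rfl⟩
    rw [← map_mul, ← map_mul, comm_iff_le.1 (hab x hx) a ha b hb]
  have hxK : π x ∈ K := ⟨x, self_mem_C x, rfl⟩
  have hyQ : π y ∈ Q := ⟨y, self_mem_C y, rfl⟩
  have hK1 : K ≠ ⊥ := by
    intro h1
    rw [h1, mem_bot, hπ1] at hxK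
    exact hx hxK
  have hQ1 : Q ≠ ⊥ := by
    intro h1
    rw [h1, mem_bot, hπ1] at hyQ
    exact hyZ hyQ
  obtain ⟨p, q, a, hpp, hqp, hKp, hKcard, hQcard, hcard⟩ := final K Q hKn hKc hQc hKQ hKab hK1 hQ1
  have hfp : Fact p.Prime := ⟨hpp⟩
  have hfq : Fact q.Prime := ⟨hqp⟩
  have hpq : p ≠ q := by
    rintro rfl
    apply hp
    exact ⟨p, hpp, IsPGroup.of_card (n := a + 1) (by rw [hcard, pow_succ])⟩
  have hfacq : (Nat.card (G ⧸ center G)).factorization q = 1 := by
    rw [hcard, Nat.factorization_mul (pow_ne_zero _ hpp.ne_zero) hqp.ne_zero, hpp.factorization_pow,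
      Finsupp.add_apply, Finsupp.single_apply, if_neg hpq, hqp.factorization_self]
  have hfacp : (Nat.card (G ⧸ center G)).factorization p = a := by
    rw [hcard, Nat.factorization_mul (pow_ne_zero _ hpp.ne_zero) hqp.ne_zero, hpp.factorization_pow,
      Finsupp.add_apply, Finsupp.single_eq_same, hqp.factorization, Finsupp.single_apply, if_neg hpq.symm]
    rfl
  refine ⟨?_, ?_, p, q, a, hpp, hqp, hpq, hcard, ?_⟩
  · intro hcomm
    have hnil : Group.IsNilpotent G := by
      apply Group.of_quotient_center_nilpotent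
      let _ : CommGroup (G ⧸ center G) := { (inferInstance : Group (G ⧸ center G)) with mul_comm := hcomm.is_comm.comm }
      exact CommGroup.isNilpotent
    obtain ⟨s, hs, u, hu, huZ, hus⟩ := exists_primary (center G) _ x le_rfl hx
    obtain ⟨s', hs', v, hv, hvZ, hvs⟩ := exists_primary (center G) _ y le_rfl hyZ
    have hsp : p = s := by
      apply hus p hpp
      have h1 : π u ∈ K := ⟨u, (zpowers_le.2 (self_mem_C x)) hu, rfl⟩
      have h2 := hKp _ h1
      have h3 : orderOf (π u) = p := orderOf_eq_prime h2 (fun h4 => huZ ((hπ1 u).1 h4))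
      rw [← h3]; exact orderOf_map_dvd π u
    have hsq : q = s' := by
      apply hvs q hqp
      have h1 : π v ∈ Q := ⟨v, (zpowers_le.2 (self_mem_C y)) hv, rfl⟩
      have h2 := Cfsg.Agent.Lib.H23Nilp.pow_card_eq_one_of_mem h1
      rw [hQcard] at h2
      have h3 : orderOf (π v) = q := orderOf_eq_prime h2 (fun h4 => hvZ ((hπ1 v).1 h4))
      rw [← h3]; exact orderOf_map_dvd π v
    subst hsp
    subst hsq
    have hco : (orderOf u).Coprime (orderOf v) := by
      apply hus.coprime
      intro r hr hrv hrp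
      exact hpq (hrp.symm.trans (hvs r hr hrv))
    have hcm : Commute u v := Cfsg.Agent.Lib.H23Nilp.commute_of_coprime_orderOf G u v hco
    have h1 := eq_of_coprime h huZ hvZ hcm hco
    apply hne
    rw [eq_of_mem_zpowers h hu huZ, eq_of_mem_zpowers h hv hvZ, h1]
  · intro H hH
    by_cases hHK : H ≤ K
    · exact comm_iff_le.2 (fun a ha b hb => hKab a (hHK ha) b (hHK hb))
    · have hsup : K ⊔ H = ⊤ := by
        rcases hKc.le_iff.1 (le_sup_left : K ≤ K ⊔ H) with h1 | h1
        · exact h1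
        · exact absurd (h1 ▸ le_sup_right) hHK
      have hqH : q ∣ Nat.card H := by
        have h1 : K.index = q := by
          have := Subgroup.card_mul_index K
          rw [hKcard, hcard] at this
          exact Nat.eq_of_mul_eq_mul_left (pow_pos hpp.pos a) this
        have h2 : K.relIndex H = q := by
          rw [← h1, ← relIndex_top_right, ← hsup, sup_comm, Subgroup.relIndex_sup_right]
        rw [← h2, ← Subgroup.inf_relIndex_right]
        exact Subgroup.relIndex_dvd_card _ _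
      obtain ⟨z, hz⟩ := exists_prime_orderOf_dvd_card' (G := H) q hqH
      have hoz : orderOf (z : G ⧸ center G) = q := by rw [Subgroup.orderOf_coe, hz]
      let R : Sylow q (G ⧸ center G) := Sylow.ofCard (zpowers (z : G ⧸ center G)) (by
        rw [Nat.card_zpowers, hoz, hfacq, pow_one])
      let Q' : Sylow q (G ⧸ center G) := Sylow.ofCard Q (by rw [hQcard, hfacq, pow_one])
      obtain ⟨t, ht⟩ := MulAction.exists_smul_eq (G ⧸ center G) Q' R
      have hRc : IsCoatom (zpowers (z : G ⧸ center G)) := by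
        have h1 : Q.map (MulAut.conj t).toMonoidHom = zpowers (z : G ⧸ center G) :=
          congrArg (fun P : Sylow q (G ⧸ center G) => (P : Subgroup (G ⧸ center G))) ht
        rw [← h1]
        exact (OrderIso.isCoatom_iff ((MulAut.conj t : (G ⧸ center G) ≃* (G ⧸ center G)).mapSubgroup) Q).2 hQc
      have h3 : H = zpowers (z : G ⧸ center G) := by
        rcases hRc.le_iff.1 (zpowers_le.2 z.2) with h4 | h4
        · exact absurd h4 hH
        · exact h4
      rw [h3]
      exact ⟨⟨fun a b => (IsCyclic.commGroup (α := zpowers (z : G ⧸ center G))).mul_comm a b⟩⟩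
  · intro P hP
    let P' : Sylow p (G ⧸ center G) := Sylow.ofCard P (by rw [hP, hfacp])
    let K' : Sylow p (G ⧸ center G) := Sylow.ofCard K (by rw [hKcard, hfacp])
    have hK'n : (K' : Subgroup (G ⧸ center G)).Normal := hKn
    have h1 := Sylow.unique_of_normal K' hK'n
    have h2 : P' = K' := Subsingleton.elim _ _
    have h3 : P = K := congrArg (fun P : Sylow p (G ⧸ center G) => (P : Subgroup (G ⧸ center G))) h2
    rw [h3]; exact hKn

end Cfsg.Agent.S3904
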