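import Cfsg.Statements.S3908
import Cfsg.Agent.Lib.PGroupElem

set_option autoImplicit false
open Cfsg

namespace Cfsg.Agent.S3908

open Subgroup

/-- Structure of the Sylow subgroups. -/
theorem struct {G : Type*} [Group G] [Finite G] (hB : ∀ A B : Subgroup G, IsMulCommutative ↥A → IsMulCommutative ↥B → Nat.card ↥A = Nat.card ↥B → ∃ g : G, B = A.map (MulAut.conj g).toMonoidHom)
    {p : ℕ} [hp : Fact p.Prime] (P : Sylow p G) :
    (∀ x ∈ (P : Subgroup G), x ^ p = 1) ∨ IsCyclic ↥(P : Subgroup G) ∨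
      (p = 2 ∧ ∃ n : ℕ, 1 ≤ n ∧ Nonempty (↥(P : Subgroup G) ≃* QuaternionGroup (2 ^ n))) := by
  rcases Cfsg.Agent.Lib.PGroupElem.exists_elem_or P.2 with h | h | ⟨E, hEc, hEp, hEcomm, -⟩
  · exact Or.inr (Or.inl h)
  · exact Or.inr (Or.inr h)
  left
  intro x hx
  obtain ⟨k, hk⟩ := (IsPGroup.iff_orderOf.1 P.2) ⟨x, hx⟩
  rw [Subgroup.orderOf_mk] at hk
  rcases Nat.lt_or_ge k 2 with hk2 | hk2
  · apply orderOf_dvd_iff_pow_eq_one.1
    rw [hk]
    calc p ^ k ∣ p ^ 1 := pow_dvd_pow p (by omega)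
      _ = p := pow_one p
  · exfalso
    have hyo : orderOf (x ^ p ^ (k - 2)) = p ^ 2 := by
      rw [orderOf_pow_of_dvd (pow_ne_zero _ hp.out.ne_zero) (by
        rw [hk]; exact pow_dvd_pow p (by omega)), hk, Nat.pow_div (by omega) hp.out.pos]
      congr 1; omega
    obtain ⟨g, hg⟩ := hB (E.map (P : Subgroup G).subtype) (zpowers (x ^ p ^ (k - 2))) (by
      constructor; constructor
      rintro ⟨_, a, ha, rfl⟩ ⟨_, b, hb, rfl⟩
      apply Subtype.ext
      change (a : G) * (b : G) = (b : G) * (a : G)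
      exact congrArg Subtype.val (hEcomm a ha b hb)) inferInstance (by
      rw [Subgroup.card_map_of_injective (P : Subgroup G).subtype_injective, hEc,
        Nat.card_zpowers, hyo])
    have h1 : x ^ p ^ (k - 2) ∈ zpowers (x ^ p ^ (k - 2)) := mem_zpowers _
    rw [hg] at h1
    obtain ⟨w, ⟨v, hv, rfl⟩, hvx⟩ := h1
    have h2 : (x ^ p ^ (k - 2)) ^ p = 1 := by
      rw [← hvx, ← map_pow]
      change (MulAut.conj g) ((v : G) ^ p) = 1
      have h3 : (v : G) ^ p = 1 := congrArg Subtype.val (hEp v hv)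
      rw [h3, map_one]
    have h3 := orderOf_dvd_of_pow_eq_one h2
    rw [hyo] at h3
    have h4 := Nat.le_of_dvd hp.out.pos h3
    have h5 := hp.out.two_le
    nlinarith

theorem result {G : Type*} [Group G] [Finite G] (hB : ∀ A B : Subgroup G, IsMulCommutative ↥A → IsMulCommutative ↥B → Nat.card ↥A = Nat.card ↥B → ∃ g : G, B = A.map (MulAut.conj g).toMonoidHom) :
    (∀ P : Sylow 2 G, IsCyclic ↥(P : Subgroup G) ∨ Cfsg.IsElementaryAbelian 2 (P : Subgroup G) ∨ ∃ k : ℕ, Nonempty (↥(P : Subgroup G) ≃* QuaternionGroup (2 ^ k))) ∧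
    ∀ (p : ℕ) [Fact p.Prime], p ≠ 2 → ∀ P : Sylow p G, IsCyclic ↥(P : Subgroup G) ∨ ∀ x ∈ (P : Subgroup G), x ^ p = 1 := by
  constructor
  · intro P
    have : Fact (Nat.Prime 2) := ⟨Nat.prime_two⟩
    rcases struct hB P with h | h | ⟨-, n, -, h⟩
    · right; left
      refine ⟨⟨⟨fun a b => ?_⟩⟩, h⟩
      have ha : a * a = 1 := by rw [← sq]; exact Subtype.ext (h a a.2)
      have hb : b * b = 1 := by rw [← sq]; exact Subtype.ext (h b b.2)
      have hab : (a * b) * (a * b) = 1 := by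
        rw [← sq]; exact Subtype.ext (h _ (a * b).2)
      calc a * b = a * (a * b * (a * b)) * b := by rw [hab, mul_one]
        _ = (a * a) * (b * a) * (b * b) := by group
        _ = b * a := by rw [ha, hb, one_mul, mul_one]
    · exact Or.inl h
    · exact Or.inr (Or.inr ⟨n, h⟩)
  · intro p hp hp2 P
    rcases struct hB P with h | h | ⟨h, -⟩
    · exact Or.inr h
    · exact Or.inl h
    · exact absurd h hp2

end Cfsg.Agent.S3908
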