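import Cfsg.Statements.S3909

set_option autoImplicit false
open Cfsg

namespace Cfsg.Agent.S3909

open Subgroup

/-- conjugacy of cyclic subgroups -/
theorem mem_of_orderOf_eq {G : Type*} [Group G] [Finite G] (hB : ∀ A B : Subgroup G, IsMulCommutative ↥A → IsMulCommutative ↥B → Nat.card ↥A = Nat.card ↥B → ∃ g : G, B = A.map (MulAut.conj g).toMonoidHom)
    (M : Subgroup G) [M.Normal] (a m : G) (hm : m ∈ M) (h : orderOf m = orderOf a) : a ∈ M := by
  obtain ⟨g, hg⟩ := hB (zpowers m) (zpowers a) inferInstance inferInstance (by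
    rw [Nat.card_zpowers, Nat.card_zpowers, h])
  have ha : a ∈ zpowers a := mem_zpowers a
  rw [hg] at ha
  obtain ⟨y, hy, rfl⟩ := ha
  have hyM : y ∈ M := (zpowers_le.2 hm) hy
  simpa [MulAut.conj_apply] using Normal.conj_mem inferInstance y hyM g

theorem result {G : Type*} [Group G] [Finite G] (hB : ∀ A B : Subgroup G, IsMulCommutative ↥A → IsMulCommutative ↥B → Nat.card ↥A = Nat.card ↥B → ∃ g : G, B = A.map (MulAut.conj g).toMonoidHom) (M : Subgroup G) [M.Normal] :
    (∀ a : G, (∃ m ∈ M, orderOf m = orderOf a) → a ∈ M) ∧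
    ∀ (p t : ℕ) [Fact p.Prime], 2 ≤ t → Nat.card ↥M = p ^ t → Cfsg.IsElementaryAbelian p M → ∀ P : Sylow p G, (P : Subgroup G) = M := by
  constructor
  · rintro a ⟨m, hm, h⟩
    exact mem_of_orderOf_eq hB M a m hm h
  · intro p t hp ht hcard hel P
    have hMp : IsPGroup p M := IsPGroup.of_card hcard
    have hMP : M ≤ (P : Subgroup G) := hMp.le_sylow_of_normal P
    refine le_antisymm ?_ hMP
    intro x hx
    -- x has order 1 or p
    obtain ⟨k, hk⟩ := (IsPGroup.iff_orderOf.1 P.2) ⟨x, hx⟩
    rw [Subgroup.orderOf_mk] at hk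
    rcases Nat.lt_or_ge k 2 with hk2 | hk2
    · interval_cases k
      · rw [pow_zero, orderOf_eq_one_iff] at hk
        rw [hk]; exact M.one_mem
      · rw [pow_one] at hk
        obtain ⟨m, hm⟩ := exists_prime_orderOf_dvd_card' (G := M) p (by
          rw [hcard]; exact dvd_pow_self p (by omega))
        exact mem_of_orderOf_eq hB M x m m.2 (by rw [Subgroup.orderOf_coe, hm, hk])
    · exfalso
      -- a cyclic subgroup of order p^2 is conjugate to an elementary abelian one
      obtain ⟨E, hE⟩ := Sylow.exists_subgroup_card_pow_prime p (G := M) (n := 2) (by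
        rw [hcard]; exact pow_dvd_pow p ht)
      have hEc : Nat.card (E.map M.subtype) = p ^ 2 := by
        rw [Subgroup.card_map_of_injective M.subtype_injective, hE]
      have hy : orderOf (x ^ p ^ (k - 2)) = p ^ 2 := by
        rw [orderOf_pow_of_dvd (pow_ne_zero _ hp.out.ne_zero) (by
          rw [hk]; exact pow_dvd_pow p (by omega)), hk, Nat.pow_div (by omega) hp.out.pos]
        congr 1; omega
      obtain ⟨g, hg⟩ := hB (E.map M.subtype) (zpowers (x ^ p ^ (k - 2))) (by
        constructor; constructor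
        rintro ⟨_, a, ha, rfl⟩ ⟨_, b, hb, rfl⟩
        apply Subtype.ext
        change (a : G) * (b : G) = (b : G) * (a : G)
        exact congrArg Subtype.val (hel.1.is_comm.comm a b)) inferInstance (by
        rw [hEc, Nat.card_zpowers, hy])
      have h1 : x ^ p ^ (k - 2) ∈ zpowers (x ^ p ^ (k - 2)) := mem_zpowers _
      rw [hg] at h1
      obtain ⟨y, ⟨z, hz, rfl⟩, hzx⟩ := h1
      have h2 : (x ^ p ^ (k - 2)) ^ p = 1 := by
        rw [← hzx, ← map_pow]
        change (MulAut.conj g) ((z : G) ^ p) = 1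
        rw [hel.2 z z.2, map_one]
      have h3 := orderOf_dvd_of_pow_eq_one h2
      rw [hy] at h3
      have h4 := Nat.le_of_dvd hp.out.pos h3
      have h5 := hp.out.two_le
      nlinarith

end Cfsg.Agent.S3909
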