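import Cfsg.Statements.S3910
import Cfsg.Agent.Lib.UniqueInvolution
import Cfsg.Agent.Lib.H23Nilp
import Cfsg.Agent.Lib.PiClasses2

set_option autoImplicit false
open Cfsg

namespace Cfsg.Agent.S3910

open Subgroup

/-- the cyclic subgroup of index two of the quaternion group -/
def rot (m : ℕ) : Subgroup (QuaternionGroup m) where
  carrier := Set.range QuaternionGroup.a
  one_mem' := ⟨0, rfl⟩
  mul_mem' := by
    rintro _ _ ⟨i, rfl⟩ ⟨j, rfl⟩
    exact ⟨i + j, (QuaternionGroup.a_mul_a i j).symm⟩
  inv_mem' := by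
    rintro _ ⟨i, rfl⟩
    exact ⟨-i, rfl⟩

theorem rot_normal (m : ℕ) : (rot m).Normal := by
  constructor
  rintro _ ⟨j, rfl⟩ b
  rcases b with i | i
  · refine ⟨j, ?_⟩
    rw [eq_mul_inv_iff_mul_eq, QuaternionGroup.a_mul_a, QuaternionGroup.a_mul_a, add_comm]
  · refine ⟨-j, ?_⟩
    rw [eq_mul_inv_iff_mul_eq, QuaternionGroup.a_mul_xa, QuaternionGroup.xa_mul_a]
    congr 1
    ring

theorem result {G : Type*} [Group G] [Finite G] (hB : ∀ A B : Subgroup G, IsMulCommutative ↥A → IsMulCommutative ↥B → Nat.card ↥A = Nat.card ↥B → ∃ g : G, B = A.map (MulAut.conj g).toMonoidHom) (hnil : Group.IsNilpotent G) : IsCyclic G := by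
  have hZ : IsZGroup G := by
    constructor
    intro p hp P
    have := Fact.mk hp
    by_cases htriv : Subsingleton ↥(P : Subgroup G)
    · infer_instance
    rw [not_subsingleton_iff_nontrivial] at htriv
    have hPn : (P : Subgroup G).Normal := inferInstance
    -- a central element of order p
    obtain ⟨z, hzP, hzc, hz⟩ : ∃ z : G, z ∈ (P : Subgroup G) ∧ z ∈ center G ∧ orderOf z = p := by
      have hPne : (P : Subgroup G) ≠ ⊥ := (Subgroup.nontrivial_iff_ne_bot _).1 htriv
      -- P meets the centre: take an element of the centre of P and use coprimality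
      have : Group.IsNilpotent ↥(P : Subgroup G) := inferInstance
      have hcP : center ↥(P : Subgroup G) ≠ ⊥ := Group.IsNilpotent.center_ne_bot _
      have hcPp : IsPGroup p ↥(center ↥(P : Subgroup G)) := P.2.to_subgroup _
      obtain ⟨k, hk⟩ := hcPp.exists_card_eq
      obtain ⟨w, hw⟩ := exists_prime_orderOf_dvd_card' (G := ↥(center ↥(P : Subgroup G))) p (by
        rw [hk]
        apply dvd_pow_self
        rintro rfl
        apply hcP
        rw [pow_zero] at hk
        exact (Subgroup.card_eq_one).1 hk)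
      refine ⟨((w : ↥(P : Subgroup G)) : G), (w : ↥(P : Subgroup G)).2, ?_, ?_⟩
      · rw [mem_center_iff]
        intro g
        obtain ⟨b, c, -, -, hbc, hb, hc, -, -⟩ :=
          Cfsg.Agent.Lib.PiClasses2.exists_split_elem (fun r => r = p) g
        have hbP : b ∈ (P : Subgroup G) := by
          have hbp : IsPGroup p ↥(zpowers b) := by
            apply IsPGroup.of_card (n := (orderOf b).primeFactorsList.length)
            rw [Nat.card_zpowers]
            exact Nat.eq_prime_pow_of_unique_prime_dvd (orderOf_pos b).ne'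
              (fun {d} hd hdb => hb d hd hdb)
          have hsup : IsPGroup p ↥((P : Subgroup G) ⊔ (zpowers b : Subgroup G)) :=
            IsPGroup.to_sup_of_normal_left P.2 hbp
          have := P.is_maximal' hsup le_sup_left
          exact this ▸ (le_sup_right (b := zpowers b) (mem_zpowers b))
        have h1 : b * ((w : ↥(P : Subgroup G)) : G) = ((w : ↥(P : Subgroup G)) : G) * b := by
          have := (mem_center_iff.1 w.2) ⟨b, hbP⟩
          exact congrArg Subtype.val this
        have h2 : c * ((w : ↥(P : Subgroup G)) : G) = ((w : ↥(P : Subgroup G)) : G) * c := by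
          apply Cfsg.Agent.Lib.H23Nilp.commute_of_coprime_orderOf G
          rw [Subgroup.orderOf_coe, Subgroup.orderOf_coe, hw, Nat.coprime_comm,
            Nat.Prime.coprime_iff_not_dvd hp]
          intro h
          exact hc p hp h rfl
        rw [← hbc, mul_assoc, h2, ← mul_assoc, h1, mul_assoc]
      · rw [Subgroup.orderOf_coe, Subgroup.orderOf_coe, hw]
    have hall : ∀ x : G, orderOf x = p → x ∈ zpowers z := by
      intro x hx
      obtain ⟨g, hg⟩ := hB (zpowers z) (zpowers x) inferInstance inferInstance (by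
        rw [Nat.card_zpowers, Nat.card_zpowers, hz, hx])
      have h1 : x ∈ zpowers x := mem_zpowers x
      rw [hg] at h1
      obtain ⟨y, hy, rfl⟩ := h1
      have hyc : y ∈ center G := (zpowers_le.2 hzc) hy
      have : (MulAut.conj g).toMonoidHom y = y := by
        simp only [MulEquiv.toMonoidHom_eq_coe, MonoidHom.coe_coe, MulAut.conj_apply]
        rw [mem_center_iff.1 hyc g, mul_inv_cancel_right]
      rw [this]; exact hy
    rcases Cfsg.Agent.Lib.UniqueInvolution.isCyclic_or_quaternion (P := ↥(P : Subgroup G)) P.2 (by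
      intro x y hx hy
      have hx' : orderOf (x : G) = p := by rw [Subgroup.orderOf_coe, hx]
      have hy' : orderOf (y : G) = p := by rw [Subgroup.orderOf_coe, hy]
      have e1 : zpowers (x : G) = zpowers z := by
        apply Subgroup.eq_of_le_of_card_ge (zpowers_le.2 (hall _ hx'))
        rw [Nat.card_zpowers, Nat.card_zpowers, hz, hx']
      have e2 := hall _ hy'
      rw [← e1] at e2
      obtain ⟨k, hk⟩ := mem_zpowers_iff.1 e2
      exact mem_zpowers_iff.2 ⟨k, Subtype.ext (by simpa using hk)⟩) with h | ⟨rfl, n, hn, ⟨e⟩⟩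
    · exact h
    · exfalso
      have : NeZero (2 ^ n) := ⟨by positivity⟩
      -- two elements of order four
      set u := e.symm (QuaternionGroup.a ((2 ^ (n - 1) : ℕ) : ZMod (2 * 2 ^ n))) with hu
      set w := e.symm (QuaternionGroup.xa 0) with hw
      have hwo : orderOf (w : G) = 4 := by
        rw [Subgroup.orderOf_coe, hw, e.symm.orderOf_eq, QuaternionGroup.orderOf_xa]
      have huo : orderOf (u : G) = 4 := by
        rw [Subgroup.orderOf_coe, hu, e.symm.orderOf_eq, QuaternionGroup.orderOf_a]
        have h1 : ((2 ^ (n - 1) : ℕ) : ZMod (2 * 2 ^ n)).val = 2 ^ (n - 1) := by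
          apply ZMod.val_natCast_of_lt
          calc 2 ^ (n - 1) ≤ 2 ^ n := Nat.pow_le_pow_right (by norm_num) (by omega)
            _ < 2 * 2 ^ n := by have := Nat.one_le_two_pow (n := n); omega
        rw [h1]
        have h2 : 2 * 2 ^ n = 2 ^ (n - 1) * 4 := by
          obtain ⟨m, rfl⟩ : ∃ m, n = m + 1 := ⟨n - 1, by omega⟩
          rw [Nat.add_sub_cancel, pow_succ]; ring
        rw [h2, Nat.gcd_mul_right_left, Nat.mul_div_cancel_left _ (by positivity)]
      obtain ⟨g, hg⟩ := hB (zpowers (u : G)) (zpowers (w : G)) inferInstance inferInstance (by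
        rw [Nat.card_zpowers, Nat.card_zpowers, huo, hwo])
      have h1 : (w : G) ∈ zpowers (w : G) := mem_zpowers _
      rw [hg] at h1
      obtain ⟨y, hy, hyw⟩ := h1
      have hyP : y ∈ (P : Subgroup G) := (zpowers_le.2 u.2) hy
      have hyw' : g * y * g⁻¹ = (w : G) := by rw [← hyw]; simp [MulAut.conj_apply]
      obtain ⟨b, c, -, -, hbc, hb, hc, -, -⟩ :=
        Cfsg.Agent.Lib.PiClasses2.exists_split_elem (fun r => r = 2) g
      have hbP : b ∈ (P : Subgroup G) := by
        have hbp : IsPGroup 2 ↥(zpowers b) := by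
          apply IsPGroup.of_card (n := (orderOf b).primeFactorsList.length)
          rw [Nat.card_zpowers]
          exact Nat.eq_prime_pow_of_unique_prime_dvd (orderOf_pos b).ne'
            (fun {d} hd hdb => hb d hd hdb)
        have hsup : IsPGroup 2 ↥((P : Subgroup G) ⊔ (zpowers b : Subgroup G)) :=
          IsPGroup.to_sup_of_normal_left P.2 hbp
        have := P.is_maximal' hsup le_sup_left
        exact this ▸ (le_sup_right (b := zpowers b) (mem_zpowers b))
      have hcy : c * y = y * c := by
        apply Cfsg.Agent.Lib.H23Nilp.commute_of_coprime_orderOf G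
        obtain ⟨k, hk⟩ := (IsPGroup.iff_orderOf.1 P.2) ⟨y, hyP⟩
        rw [Subgroup.orderOf_mk] at hk
        rw [hk]
        apply Nat.Coprime.pow_right
        rw [Nat.coprime_comm, Nat.Prime.coprime_iff_not_dvd Nat.prime_two]
        intro h
        exact hc 2 Nat.prime_two h rfl
      have h3 : b * y * b⁻¹ = (w : G) := by
        rw [← hyw', ← hbc]
        calc b * y * b⁻¹ = b * (y * c) * c⁻¹ * b⁻¹ := by group
          _ = b * (c * y) * c⁻¹ * b⁻¹ := by rw [hcy]
          _ = b * c * y * (b * c)⁻¹ := by group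
      have h4 : (⟨b, hbP⟩ : ↥(P : Subgroup G)) * ⟨y, hyP⟩ * ⟨b, hbP⟩⁻¹ = w := Subtype.ext h3
      have h5 := congrArg e h4
      rw [map_mul, map_mul, map_inv, hw, MulEquiv.apply_symm_apply] at h5
      have h6 : e ⟨y, hyP⟩ ∈ rot (2 ^ n) := by
        obtain ⟨k, hk⟩ := mem_zpowers_iff.1 hy
        have h7 : (⟨y, hyP⟩ : ↥(P : Subgroup G)) = u ^ k := Subtype.ext hk.symm
        rw [h7, map_zpow, hu, MulEquiv.apply_symm_apply]
        exact (rot (2 ^ n)).zpow_mem ⟨_, rfl⟩ k
      have h7 := (rot_normal (2 ^ n)).conj_mem _ h6 (e ⟨b, hbP⟩)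
      rw [h5] at h7
      obtain ⟨j, hj⟩ := h7
      exact absurd hj (by simp)
  infer_instance

end Cfsg.Agent.S3910
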