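import Cfsg.Statements.S3917
import Cfsg.Agent.Lib.UniqueInvolution

set_option autoImplicit false
open Cfsg

namespace Cfsg.Agent.S3917

open Subgroup

/-- two elements of order `p`, one not a power of the other, in an abelian group -/
theorem card_range {G : Type*} [CommGroup G] [Finite G] {p : ℕ} (hp : p.Prime) (x y : G)
    (hx : orderOf x = p) (hy : orderOf y = p) (hxy : y ∉ zpowers x) :
    ∃ R : Subgroup G, Nat.card R = p ^ 2 ∧ ¬ IsCyclic R ∧ x ∈ R ∧ y ∈ R := by
  let f : zpowers x × zpowers y →* G := ((zpowers x).subtype).coprod ((zpowers y).subtype)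
  have hf : Function.Injective f := by
    rw [← MonoidHom.ker_eq_bot_iff, eq_bot_iff]
    rintro ⟨a, b⟩ hab
    rw [MonoidHom.mem_ker] at hab
    have h1 : (a : G) * (b : G) = 1 := hab
    -- b is in both
    have hb : (b : G) ∈ zpowers x := by
      have : (b : G) = (a : G)⁻¹ := eq_inv_of_mul_eq_one_right h1
      rw [this]; exact inv_mem a.2
    have hb1 : (b : G) = 1 := by
      by_contra hne
      have h2 : orderOf (b : G) = p := by
        have h3 : orderOf (b : G) ∣ p := by
          rw [← hy]; exact orderOf_dvd_of_mem_zpowers b.2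
        rcases (Nat.dvd_prime hp).1 h3 with h4 | h4
        · exact absurd (orderOf_eq_one_iff.1 h4) hne
        · exact h4
      have h3 : zpowers (b : G) = zpowers y := by
        apply Subgroup.eq_of_le_of_card_ge (zpowers_le.2 b.2)
        rw [Nat.card_zpowers, Nat.card_zpowers, h2, hy]
      apply hxy
      have : y ∈ zpowers (b : G) := by rw [h3]; exact mem_zpowers y
      exact (zpowers_le.2 hb) this
    have ha1 : (a : G) = 1 := by rw [hb1, mul_one] at h1; exact h1
    rw [mem_bot]
    exact Prod.ext (Subtype.ext ha1) (Subtype.ext hb1)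
  have hcard : Nat.card f.range = p ^ 2 := by
    rw [← Nat.card_congr (MonoidHom.ofInjective hf).toEquiv, Nat.card_prod, Nat.card_zpowers,
      Nat.card_zpowers, hx, hy, sq]
  refine ⟨f.range, hcard, ?_, ⟨(⟨x, mem_zpowers x⟩, 1), by simp [f]⟩,
    ⟨(1, ⟨y, mem_zpowers y⟩), by simp [f]⟩⟩
  intro hc
  obtain ⟨g, hg⟩ := hc.exists_generator
  have h1 : orderOf g = p ^ 2 := by
    rw [orderOf_eq_card_of_forall_mem_zpowers hg, hcard]
  obtain ⟨⟨a, b⟩, hab⟩ := g.2
  have h2 : (g : G) ^ p = 1 := by
    rw [← hab, ← map_pow]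
    have : (a, b) ^ p = 1 := by
      apply Prod.ext
      · apply Subtype.ext
        have h3 : orderOf (a : G) ∣ p := by
          rw [← hx]; exact orderOf_dvd_of_mem_zpowers a.2
        exact orderOf_dvd_iff_pow_eq_one.1 h3
      · apply Subtype.ext
        have h3 : orderOf (b : G) ∣ p := by
          rw [← hy]; exact orderOf_dvd_of_mem_zpowers b.2
        exact orderOf_dvd_iff_pow_eq_one.1 h3
    rw [this, map_one]
  have h3 : orderOf (g : G) ∣ p := orderOf_dvd_of_pow_eq_one h2
  rw [Subgroup.orderOf_coe, h1] at h3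
  have h4 := Nat.le_of_dvd hp.pos h3
  have h5 := hp.two_le
  nlinarith

theorem result {G : Type*} [CommGroup G] [Finite G] (hX : (∀ H : Subgroup G, ¬ IsCyclic ↥H → Subgroup.centralizer (H : Set G) ≤ H)) :
    IsCyclic G ∨ ∃ p : ℕ, p.Prime ∧ Nat.card G = p ^ 2 ∧ Monoid.exponent G = p := by
  by_cases hc : IsCyclic G
  · exact Or.inl hc
  right
  -- every proper subgroup is cyclic
  have hprop : ∀ H : Subgroup G, ¬ IsCyclic ↥H → H = ⊤ := by
    intro H hH
    have := hX H hH
    rw [eq_top_iff]
    intro x _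
    apply this
    rw [mem_centralizer_iff]
    intro y _
    exact mul_comm y x
  -- G is a p-group
  obtain ⟨p, hp, hP⟩ : ∃ p : ℕ, p.Prime ∧ IsPGroup p G := by
    by_contra hcon
    push Not at hcon
    apply hc
    have hZ : IsZGroup G := by
      constructor
      intro p hp P
      by_contra hPc
      have h1 := hprop P hPc
      apply hcon p hp
      have h2 := P.2
      rw [h1] at h2
      exact h2.of_equiv Subgroup.topEquiv
    infer_instance
  have := Fact.mk hp
  obtain ⟨x, y, hx, hy, hxy⟩ : ∃ x y : G, orderOf x = p ∧ orderOf y = p ∧ y ∉ zpowers x := by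
    by_contra hcon
    push Not at hcon
    apply hc
    obtain ⟨g, hg⟩ := Cfsg.Agent.Lib.UniqueInvolution.cyclic_of_comm hP
      (fun x y => mul_comm x y) (fun x y hx hy => hcon x y hx hy)
    exact ⟨⟨g, hg⟩⟩
  obtain ⟨R, hR1, hR2, -, -⟩ := card_range hp x y hx hy hxy
  have hRt := hprop R hR2
  have hcard : Nat.card G = p ^ 2 := by
    rw [← hR1, hRt, Subgroup.card_top]
  exact ⟨p, hp, hcard, (_root_.not_isCyclic_iff_exponent_eq_prime hp hcard).1 hc⟩

end Cfsg.Agent.S3917
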