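import Cfsg.Statements.S3918
import Cfsg.Agent.Lib.NormalRankTwo
import Cfsg.Agent.Lib.H32Invol
import Cfsg.Agent.Lib.PGroupElem

set_option autoImplicit false
open Cfsg

namespace Cfsg.Agent.S3918

open Subgroup

theorem card_of_selfCentralizing {G : Type*} [Group G] [Finite G] {p : ℕ} [hpf : Fact p.Prime] (hp : p ≠ 2) (hG : IsPGroup p G) (hna : ¬ IsMulCommutative G)
    (h : ∀ H : Subgroup G, ¬ IsCyclic ↥H → Subgroup.centralizer (H : Set G) ≤ H) : Nat.card G = p ^ 3 := by
  have hpp := hpf.out
  have hcyc : ¬ IsCyclic G := by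
    intro hc
    exact hna ⟨⟨fun a b => (IsCyclic.commGroup (α := G)).mul_comm a b⟩⟩
  obtain ⟨z, hzc, hz, N, hN, hzN, hNc, hNp, hconj⟩ :=
    Cfsg.Agent.Lib.NormalRankTwo.exists_normal_rank_two hp (Nat.card G) G rfl hG hcyc
  have hNcyc : ¬ IsCyclic ↥N := by
    intro hc
    obtain ⟨g, hg⟩ := hc.exists_generator
    have h1 : orderOf g = p ^ 2 := by
      rw [orderOf_eq_card_of_forall_mem_zpowers hg, hNc]
    have h2 : orderOf (g : G) ∣ p := orderOf_dvd_of_pow_eq_one (hNp g g.2)
    rw [Subgroup.orderOf_coe, h1] at h2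
    have h4 := Nat.le_of_dvd hpp.pos h2
    have h5 := hpp.two_le
    nlinarith
  have hCN := h N hNcyc
  -- an element outside ⟨z⟩
  obtain ⟨w, hwN, hwz⟩ : ∃ w ∈ N, w ∉ zpowers z := by
    by_contra hcon
    push Not at hcon
    have h1 : Nat.card N ≤ Nat.card (zpowers z) :=
      Nat.card_le_card_of_injective _ (inclusion_injective (fun x hx => hcon x hx))
    rw [hNc, Nat.card_zpowers, hz] at h1
    have h5 := hpp.two_le
    nlinarith
  have hw1 : w ≠ 1 := by rintro rfl; exact hwz (one_mem _)
  -- N is generated by z and w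
  have hCw : centralizer ({w} : Set G) ≤ centralizer (N : Set G) := by
    intro c hc
    rw [mem_centralizer_singleton_iff] at hc
    let K : Subgroup G := centralizer ({c} : Set G)
    have hzK : z ∈ K := by
      rw [mem_centralizer_singleton_iff]; exact ((mem_center_iff.1 hzc) c).symm
    have hwK : w ∈ K := by
      rw [mem_centralizer_singleton_iff]; exact hc.symm
    have hwo : orderOf w = p := by
      have : orderOf w ∣ p := orderOf_dvd_of_pow_eq_one (hNp w hwN)
      rcases (Nat.dvd_prime hpp).1 this with h4 | h4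
      · exact absurd (orderOf_eq_one_iff.1 h4) hw1
      · exact h4
    have hzNK : z ∈ N ⊓ K := ⟨hzN, hzK⟩
    have hwNK : w ∈ N ⊓ K := ⟨hwN, hwK⟩
    obtain ⟨E, hE1, -, -, hE4, hE5⟩ := Cfsg.Agent.Lib.PGroupElem.exists_card_sq (H := ↥(N ⊓ K)) hpp
      (z := ⟨z, hzNK⟩) (y := ⟨w, hwNK⟩) (by rw [Subgroup.orderOf_mk, hz])
      (by rw [Subgroup.orderOf_mk, hwo]) (by
        intro hmem
        obtain ⟨k, hk⟩ := mem_zpowers_iff.1 hmem
        exact hwz (mem_zpowers_iff.2 ⟨k, by simpa using congrArg Subtype.val hk⟩)) (by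
        apply Subtype.ext
        exact ((mem_center_iff.1 hzc) w).symm)
    have h6 : N ≤ K := by
      have h7 : N ⊓ K = N := by
        apply Subgroup.eq_of_le_of_card_ge inf_le_left
        rw [hNc, ← hE1]
        exact Nat.card_le_card_of_injective _ E.subtype_injective
      rw [← h7]; exact inf_le_right
    rw [mem_centralizer_iff]
    intro n hn
    have := h6 hn
    rw [mem_centralizer_singleton_iff] at this
    exact this
  have hidx : (centralizer ({w} : Set G)).index ≤ p := by
    rw [← Cfsg.Agent.Lib.H32Invol.card_conj_eq_index w, ← hz, ← Nat.card_zpowers]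
    apply Nat.card_le_card_of_injective (fun y : {y : G // IsConj w y} =>
      (⟨y.1 * w⁻¹, by
        obtain ⟨g, hg⟩ := isConj_iff.1 y.2
        rw [← hg]
        exact hconj w hwN g⟩ : zpowers z))
    intro a b hab
    have h1 := congrArg Subtype.val hab
    exact Subtype.ext (mul_right_cancel h1)
  have hCc : Nat.card ↥(centralizer ({w} : Set G)) ≤ p ^ 2 := by
    rw [← hNc]
    exact Nat.card_le_card_of_injective _ (inclusion_injective (hCw.trans hCN))
  have htot := (centralizer ({w} : Set G)).card_mul_index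
  have hle : Nat.card G ≤ p ^ 3 := by
    rw [← htot]
    calc _ ≤ p ^ 2 * p := Nat.mul_le_mul hCc hidx
      _ = p ^ 3 := by ring
  obtain ⟨k, hk⟩ := hG.exists_card_eq
  rw [hk] at hle
  have hk3 : k ≤ 3 := (Nat.pow_le_pow_iff_right hpp.one_lt).1 hle
  rcases Nat.lt_or_ge k 3 with hlt | hge
  · exfalso
    apply hna
    interval_cases k
    · rw [pow_zero] at hk
      have := (Nat.card_eq_one_iff_unique.1 hk).1
      exact ⟨⟨fun a b => Subsingleton.elim _ _⟩⟩
    · rw [pow_one] at hk
      have := isCyclic_of_prime_card hk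
      exact ⟨⟨fun a b => (IsCyclic.commGroup (α := G)).mul_comm a b⟩⟩
    · exact IsPGroup.isMulCommutative_of_card_eq_prime_sq hk
  · rw [hk]; congr 1; omega

theorem selfCentralizing_of_card {G : Type*} [Group G] [Finite G] {p : ℕ} [hpf : Fact p.Prime] (hna : ¬ IsMulCommutative G)
    (hcard : Nat.card G = p ^ 3)
    (H : Subgroup G) (hH : ¬ IsCyclic ↥H) : Subgroup.centralizer (H : Set G) ≤ H := by
  have hpp := hpf.out
  have h1 : Nat.card H ∣ p ^ 3 := hcard ▸ card_subgroup_dvd_card H
  obtain ⟨k, hk3, hk⟩ := (Nat.dvd_prime_pow hpp).1 h1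
  have hk2 : 2 ≤ k := by
    by_contra hlt
    apply hH
    have : k < 2 := by omega
    interval_cases k
    · rw [pow_zero] at hk
      have := (Nat.card_eq_one_iff_unique.1 hk).1
      infer_instance
    · rw [pow_one] at hk
      exact isCyclic_of_prime_card hk
  rcases Nat.lt_or_ge k 3 with hlt | hge
  · have hk' : k = 2 := by omega
    subst hk'
    have hab := IsPGroup.isMulCommutative_of_card_eq_prime_sq hk
    have hHC : H ≤ centralizer (H : Set G) := by
      intro x hx
      rw [mem_centralizer_iff]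
      intro y hy
      exact congrArg Subtype.val (hab.is_comm.comm ⟨y, hy⟩ ⟨x, hx⟩)
    by_contra hnle
    -- then the centraliser is everything
    have hlt : H < centralizer (H : Set G) := lt_of_le_of_ne hHC (fun h => hnle h.ge)
    have hcc : Nat.card ↥(centralizer (H : Set G)) ∣ p ^ 3 := hcard ▸ card_subgroup_dvd_card _
    obtain ⟨j, hj3, hj⟩ := (Nat.dvd_prime_pow hpp).1 hcc
    have hj2 : 2 < j := by
      have h2 : Nat.card H < Nat.card ↥(centralizer (H : Set G)) := by
        by_contra hge
        push Not at hge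
        exact hlt.ne (Subgroup.eq_of_le_of_card_ge hlt.le hge)
      rw [hk, hj] at h2
      exact (Nat.pow_lt_pow_iff_right hpp.one_lt).1 h2
    have hj' : j = 3 := by omega
    have htop : centralizer (H : Set G) = ⊤ := by
      apply Subgroup.eq_top_of_card_eq
      rw [hj, hj', hcard]
    have hHZ : H ≤ center G := by
      intro x hx
      rw [mem_center_iff]
      intro g
      have : g ∈ centralizer (H : Set G) := by rw [htop]; trivial
      exact (this x hx).symm
    apply hna
    have hidx : (center G).index ∣ p := by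
      have h3 : (center G).index ∣ H.index := index_dvd_of_le hHZ
      have h4 := H.card_mul_index
      rw [hk, hcard] at h4
      have h5 : H.index = p := by
        have : p ^ 2 * H.index = p ^ 2 * p := by rw [h4]; ring
        exact Nat.eq_of_mul_eq_mul_left (pow_pos hpp.pos 2) this
      rwa [h5] at h3
    have hqc : IsCyclic (G ⧸ center G) := by
      apply isCyclic_of_card_dvd_prime (p := p)
      rw [← Subgroup.index_eq_card]; exact hidx
    exact (MonoidHom.isMulCommutative_of_isCyclic_of_ker_le_center (QuotientGroup.mk' (center G))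
      (by rw [QuotientGroup.ker_mk']))
  · have hk' : k = 3 := by omega
    have : H = ⊤ := Subgroup.eq_top_of_card_eq H (by rw [hk, hk', hcard])
    rw [this]; exact le_top

theorem result {G : Type*} [Group G] [Finite G] {p : ℕ} [Fact p.Prime] (hp : p ≠ 2) (hG : IsPGroup p G) (hna : ¬ IsMulCommutative G) :
    (∀ H : Subgroup G, ¬ IsCyclic ↥H → Subgroup.centralizer (H : Set G) ≤ H) ↔ Nat.card G = p ^ 3 :=
  ⟨card_of_selfCentralizing hp hG hna, fun h H hH => selfCentralizing_of_card hna h H hH⟩

end Cfsg.Agent.S3918
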