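import Cfsg.Statements.S3919
import Cfsg.Agent.Lib.MaxClassTwo
import Cfsg.Agent.Lib.MaxClassCrit
import Cfsg.Agent.Lib.UniqueInvolution

set_option autoImplicit false
open Cfsg

namespace Cfsg.Agent.S3919

open Subgroup

theorem lcs_iff {G : Type*} [Group G] [Finite G] {n : ℕ} (hG : Nat.card G = 2 ^ n) (hn : 3 ≤ n) :
    (⊤ : Subgroup G).lowerCentralSeries (n - 2) ≠ ⊥ ↔ n - 1 ≤ Group.nilpotencyClass G := by
  have : Fact (Nat.Prime 2) := ⟨Nat.prime_two⟩
  have hpG : IsPGroup 2 G := IsPGroup.of_card hG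
  have hnil : Group.IsNilpotent G := hpG.isNilpotent
  rw [Ne, Subgroup.lowerCentralSeries_eq_bot_iff_nilpotencyClass_le]
  omega

theorem three_le {G : Type*} [Group G] [Finite G] (hna : ¬ IsMulCommutative G) {n : ℕ}
    (hG : Nat.card G = 2 ^ n) : 3 ≤ n := by
  have : Fact (Nat.Prime 2) := ⟨Nat.prime_two⟩
  by_contra hlt
  push Not at hlt
  apply hna
  rcases Nat.lt_or_ge n 2 with h | h
  · have hcyc : IsCyclic G := by
      interval_cases n
      · have : Subsingleton G := (Nat.card_eq_one_iff_unique.1 hG).1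
        infer_instance
      · exact isCyclic_of_prime_card (p := 2) (by rw [hG, pow_one])
    exact ⟨⟨fun a b => (IsCyclic.commGroup (α := G)).mul_comm a b⟩⟩
  · have : n = 2 := by omega
    subst this
    exact IsPGroup.isMulCommutative_of_card_eq_prime_sq hG

theorem quat_centralizer {k : ℕ} (c : QuaternionGroup (2 ^ k))
    (hc : c * QuaternionGroup.xa 0 = QuaternionGroup.xa 0 * c) :
    c ∈ zpowers (QuaternionGroup.xa 0 : QuaternionGroup (2 ^ k)) := by
  have : NeZero (2 * 2 ^ k) := ⟨by positivity⟩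
  have key : ∀ i : ZMod (2 * 2 ^ k), 2 * i = 0 → i = 0 ∨ i = ((2 ^ k : ℕ) : ZMod (2 * 2 ^ k)) := by
    intro i hi
    have h1 : ((2 * i.val : ℕ) : ZMod (2 * 2 ^ k)) = 0 := by
      push_cast
      rw [ZMod.natCast_val, ZMod.cast_id', id]
      exact hi
    rw [ZMod.natCast_eq_zero_iff] at h1
    have h2 : 2 ^ k ∣ i.val := Nat.dvd_of_mul_dvd_mul_left (by norm_num) h1
    obtain ⟨t, ht⟩ := h2
    have h3 := ZMod.val_lt i
    have ht2 : t < 2 := by
      by_contra h
      push Not at h
      have : 2 ^ k * 2 ≤ 2 ^ k * t := Nat.mul_le_mul_left _ h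
      omega
    interval_cases t
    · left
      rw [mul_zero, ZMod.val_eq_zero] at ht
      exact ht
    · right
      rw [mul_one] at ht
      calc i = ((i.val : ℕ) : ZMod (2 * 2 ^ k)) := (ZMod.natCast_zmod_val i).symm
        _ = _ := by rw [ht]
  have hsq : QuaternionGroup.a ((2 ^ k : ℕ) : ZMod (2 * 2 ^ k)) ∈
      zpowers (QuaternionGroup.xa 0 : QuaternionGroup (2 ^ k)) := by
    rw [← QuaternionGroup.xa_sq 0]
    exact npow_mem_zpowers _ 2
  have hx : QuaternionGroup.xa 0 ∈ zpowers (QuaternionGroup.xa 0 : QuaternionGroup (2 ^ k)) := mem_zpowers _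
  cases c with
  | a i =>
    rw [QuaternionGroup.a_mul_xa, QuaternionGroup.xa_mul_a] at hc
    have h1 : (0 : ZMod (2 * 2 ^ k)) - i = 0 + i := by injection hc
    have h2 : 2 * i = 0 := by linear_combination -h1
    rcases key i h2 with rfl | rfl
    · rw [QuaternionGroup.a_zero]; exact one_mem _
    · exact hsq
  | xa i =>
    rw [QuaternionGroup.xa_mul_xa, QuaternionGroup.xa_mul_xa] at hc
    have h1 : ((2 ^ k : ℕ) : ZMod (2 * 2 ^ k)) + 0 - i = ((2 ^ k : ℕ) : ZMod (2 * 2 ^ k)) + i - 0 := by
      injection hc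
    have h2 : 2 * i = 0 := by linear_combination -h1
    rcases key i h2 with rfl | rfl
    · exact hx
    · have h3 : (QuaternionGroup.xa ((2 ^ k : ℕ) : ZMod (2 * 2 ^ k)) : QuaternionGroup (2 ^ k)) =
          QuaternionGroup.xa 0 * QuaternionGroup.a ((2 ^ k : ℕ) : ZMod (2 * 2 ^ k)) := by
        rw [QuaternionGroup.xa_mul_a, zero_add]
      rw [h3]
      exact mul_mem hx hsq

theorem forward {G : Type*} [Group G] [Finite G] (hna : ¬ IsMulCommutative G) (n : ℕ) (hG : Nat.card G = 2 ^ n)
    (h : ∀ H : Subgroup G, ¬ IsCyclic ↥H → Subgroup.centralizer (H : Set G) ≤ H) :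
    Group.nilpotencyClass G = n - 1 := by
  have : Fact (Nat.Prime 2) := ⟨Nat.prime_two⟩
  have hpG : IsPGroup 2 G := IsPGroup.of_card hG
  have hn := three_le hna hG
  by_cases hinv : ∀ x y : G, orderOf x = 2 → orderOf y = 2 → y ∈ Subgroup.zpowers x
  · rcases Cfsg.Agent.Lib.UniqueInvolution.isCyclic_or_quaternion hpG hinv with hc | ⟨-, k, hk, ⟨e⟩⟩
    · exact absurd ⟨⟨fun a b => (IsCyclic.commGroup (α := G)).mul_comm a b⟩⟩ hna
    · have : NeZero (2 ^ k) := ⟨by positivity⟩
      refine Cfsg.Agent.Lib.MaxClassCrit.nilpotencyClass_of_self_centralizing (p := 2) n hG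
        (zpowers (e.symm (QuaternionGroup.xa 0))) ?_ ?_
      · rw [Nat.card_zpowers, MulEquiv.orderOf_eq, QuaternionGroup.orderOf_xa]
        norm_num
      · intro c hc
        rw [mem_centralizer_iff] at hc
        have h1 := hc _ (mem_zpowers _)
        have h2 := congrArg e h1
        rw [map_mul, map_mul, MulEquiv.apply_symm_apply] at h2
        have h3 := quat_centralizer (e c) h2.symm
        obtain ⟨j, hj⟩ := mem_zpowers_iff.1 h3
        rw [mem_zpowers_iff]
        refine ⟨j, ?_⟩
        rw [← map_zpow, hj, MulEquiv.symm_apply_apply]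
  · -- a Klein four subgroup
    have hnt : Nontrivial G := by
      rw [← Finite.one_lt_card_iff_nontrivial, hG]
      exact Nat.one_lt_pow (by omega) (by norm_num)
    obtain ⟨z, hz, hz2⟩ := Cfsg.Agent.Lib.MaxClassTwo.exists_involution hG (hpG.bot_lt_center).ne'
    obtain ⟨t, ht2, htz⟩ : ∃ t : G, orderOf t = 2 ∧ t ∉ zpowers z := by
      by_contra hcon
      push Not at hcon
      apply hinv
      intro x y hx hy
      have hzx : ∀ w : G, orderOf w = 2 → w = z := by
        intro w hw
        exact Cfsg.Agent.Lib.MaxClassTwo.eq_of_order_two (hcon w hw) (mem_zpowers z) hw hz2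
      rw [hzx x hx, hzx y hy]
      exact mem_zpowers z
    set V := zpowers t ⊔ zpowers z with hV
    have hzt : Commute z t := (mem_center_iff.1 hz t).symm
    have hzn : (zpowers z).Normal := by
      constructor
      intro a ha g
      obtain ⟨k, rfl⟩ := mem_zpowers_iff.1 ha
      have : z ^ k ∈ center G := zpow_mem hz k
      rw [mem_center_iff] at this
      rw [this g, mul_assoc, mul_inv_cancel, mul_one]
      exact ha
    have hinf : zpowers t ⊓ zpowers z = ⊥ := by
      rw [eq_bot_iff]
      intro w hw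
      rw [mem_bot]
      by_contra hw1
      have ho : orderOf w = 2 := by
        have h1 : orderOf w ∣ 2 := by
          rw [← ht2, ← Nat.card_zpowers t]
          have := orderOf_dvd_natCard (⟨w, hw.1⟩ : zpowers t)
          rwa [Subgroup.orderOf_mk] at this
        rcases (Nat.dvd_prime Nat.prime_two).1 h1 with h2 | h2
        · exact absurd (orderOf_eq_one_iff.1 h2) hw1
        · exact h2
      have h3 := Cfsg.Agent.Lib.MaxClassTwo.eq_of_order_two hw.1 (mem_zpowers t) ho ht2
      exact htz (h3 ▸ hw.2)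
    have hVcard : Nat.card V = 2 ^ 2 := by
      have h1 : (zpowers z).relIndex V = 2 := by
        rw [hV, Subgroup.relIndex_sup_right, ← Subgroup.inf_relIndex_right, inf_comm, hinf,
          Subgroup.relIndex_bot_left, Nat.card_zpowers, ht2]
      have h2 := Subgroup.relIndex_mul_relIndex ⊥ (zpowers z) V bot_le le_sup_right
      rw [Subgroup.relIndex_bot_left, Subgroup.relIndex_bot_left, h1, Nat.card_zpowers, hz2] at h2
      rw [← h2]; norm_num
    have hVnc : ¬ IsCyclic V := by
      intro hc
      have htV : t ∈ V := le_sup_left (a := zpowers t) (mem_zpowers t)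
      have hzV : z ∈ V := le_sup_right (a := zpowers t) (mem_zpowers z)
      have h1 : (⟨t, htV⟩ : V) ∈ zpowers (⟨z, hzV⟩ : V) := by
        apply Cfsg.Agent.Lib.H23Nilp.mem_zpowers_of_orderOf_dvd
        rw [Subgroup.orderOf_mk, Subgroup.orderOf_mk, ht2, hz2]
      obtain ⟨j, hj⟩ := mem_zpowers_iff.1 h1
      apply htz
      rw [mem_zpowers_iff]
      exact ⟨j, congrArg Subtype.val hj⟩
    exact Cfsg.Agent.Lib.MaxClassCrit.nilpotencyClass_of_self_centralizing (p := 2) n hG V hVcard (h V hVnc)

theorem backward {G : Type*} [Group G] [Finite G] (hna : ¬ IsMulCommutative G) (n : ℕ) (hG : Nat.card G = 2 ^ n)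
    (h : n - 1 ≤ Group.nilpotencyClass G) (H : Subgroup G) (hH : ¬ IsCyclic H) :
    centralizer (H : Set G) ≤ H := by
  have : Fact (Nat.Prime 2) := ⟨Nat.prime_two⟩
  have hpG : IsPGroup 2 G := IsPGroup.of_card hG
  have hn := three_le hna hG
  obtain ⟨x, hx⟩ := Cfsg.Agent.Lib.MaxClassTwo.exists_cyclic_index_two n hG hn h
  obtain ⟨hZ, -, -⟩ := Cfsg.Agent.Lib.MaxClassTwo.card_center_of_class hG hn h
  have hxn : (zpowers x).Normal := Subgroup.normal_of_index_eq_two hx
  obtain ⟨y, hyH, hyx⟩ : ∃ y ∈ H, y ∉ zpowers x := by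
    by_contra hcon
    push Not at hcon
    exact hH (isCyclic_of_injective (inclusion hcon) (inclusion_injective hcon))
  have hint : H ⊓ zpowers x ≠ ⊥ := by
    intro hbot
    apply hH
    have h1 : Nat.card H ≤ 2 := by
      have h2 : (H ⊓ zpowers x).relIndex H ≤ 2 := by
        rw [inf_comm, Subgroup.inf_relIndex_right]
        rw [← hx]
        exact Nat.le_of_dvd (by rw [hx]; norm_num) (Subgroup.relIndex_dvd_index_of_normal _ _)
      rwa [hbot, Subgroup.relIndex_bot_left] at h2
    have h3 := Nat.card_pos (α := H)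
    have h4 : Nat.card H = 1 ∨ Nat.card H = 2 := by omega
    rcases h4 with h4 | h4
    · have : Subsingleton H := (Nat.card_eq_one_iff_unique.1 h4).1
      infer_instance
    · exact isCyclic_of_prime_card h4
  obtain ⟨t, ht, ht2⟩ := Cfsg.Agent.Lib.MaxClassTwo.exists_involution hG hint
  have htc := Cfsg.Agent.Lib.MaxClassTwo.involution_central hxn ht.2 ht2
  have hZt : center G = zpowers t := by
    symm
    apply Subgroup.eq_of_le_of_card_ge
    · rwa [zpowers_le]
    · rw [hZ, Nat.card_zpowers, ht2]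
  have hZH : center G ≤ H := by rw [hZt, zpowers_le]; exact ht.1
  -- an element of `⟨x⟩` commuting with `y` is central
  have key : ∀ c ∈ zpowers x, c * y = y * c → c ∈ center G := by
    intro c hc hcy
    have h1 : zpowers x < centralizer ({c} : Set G) := by
      refine lt_of_le_of_ne ?_ ?_
      · intro w hw
        rw [mem_centralizer_singleton_iff]
        obtain ⟨i, rfl⟩ := mem_zpowers_iff.1 hc
        obtain ⟨j, rfl⟩ := mem_zpowers_iff.1 hw
        rw [← zpow_add, ← zpow_add, add_comm]
      · intro heq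
        apply hyx
        rw [heq, mem_centralizer_singleton_iff]
        exact hcy.symm
    have h2 : centralizer ({c} : Set G) = ⊤ := by
      have h3 := Subgroup.relIndex_mul_index h1.le
      rw [hx] at h3
      have h4 : (zpowers x).relIndex (centralizer ({c} : Set G)) ≠ 1 := by
        rw [Ne, Subgroup.relIndex_eq_one]
        exact h1.not_ge
      have h5 : (centralizer ({c} : Set G)).index ∣ 2 := Dvd.intro_left _ h3
      rcases (Nat.dvd_prime Nat.prime_two).1 h5 with h6 | h6
      · exact Subgroup.index_eq_one.1 h6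
      · rw [h6] at h3
        omega
    rw [mem_center_iff]
    intro g
    have h3 : g ∈ centralizer ({c} : Set G) := by rw [h2]; trivial
    exact mem_centralizer_singleton_iff.1 h3
  intro c hc
  rw [mem_centralizer_iff] at hc
  have hcy := hc y hyH
  by_cases hcx : c ∈ zpowers x
  · exact hZH (key c hcx hcy.symm)
  · have h1 : c * y⁻¹ ∈ zpowers x := by
      rw [Subgroup.mul_mem_iff_of_index_two hx]
      rw [inv_mem_iff]
      exact ⟨fun h => absurd h hcx, fun h => absurd h hyx⟩
    have h2 := key _ h1 (by rw [inv_mul_cancel_right, ← mul_assoc, hcy, mul_inv_cancel_right])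
    have h3 := mul_mem (hZH h2) hyH
    rwa [inv_mul_cancel_right] at h3

theorem result {G : Type*} [Group G] [Finite G] (hna : ¬ IsMulCommutative G) (n : ℕ) (hG : Nat.card G = 2 ^ n) :
    (∀ H : Subgroup G, ¬ IsCyclic ↥H → Subgroup.centralizer (H : Set G) ≤ H) ↔ (⊤ : Subgroup G).lowerCentralSeries (n - 2) ≠ ⊥ := by
  have hn := three_le hna hG
  rw [lcs_iff hG hn]
  constructor
  · intro h
    exact (forward hna n hG h).ge
  · intro h H hH
    exact backward hna n hG h H hH

end Cfsg.Agent.S3919
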