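import Cfsg.Statements.S3920

set_option autoImplicit false
open Cfsg

namespace Cfsg.Agent.S3920

open Subgroup DihedralGroup

theorem two_mul_val {n : ℕ} [NeZero n] {a : ZMod n} (ha : 2 * a = 0) (ha0 : a ≠ 0) : 2 * a.val = n := by
  have h1 : ((2 * a.val : ℕ) : ZMod n) = 0 := by
    push_cast
    rw [ZMod.natCast_val, ZMod.cast_id', id]
    exact ha
  rw [ZMod.natCast_eq_zero_iff] at h1
  have h2 : a.val ≠ 0 := by rwa [Ne, ZMod.val_eq_zero]
  have h3 := ZMod.val_lt a
  obtain ⟨c, hc⟩ := h1
  have : c < 2 := by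
    by_contra h
    push Not at h
    have : n * 2 ≤ n * c := Nat.mul_le_mul_left n h
    omega
  interval_cases c
  · omega
  · omega

theorem eq_of_two {n : ℕ} [NeZero n] {a b : ZMod n} (ha : 2 * a = 0) (ha0 : a ≠ 0) (hb : 2 * b = 0)
    (hb0 : b ≠ 0) : a = b := by
  apply ZMod.val_injective
  have h1 := two_mul_val ha ha0
  have h2 := two_mul_val hb hb0
  omega

theorem exists_of_noncyclic {n : ℕ} (H : Subgroup (DihedralGroup n)) (hH : ¬ IsCyclic H) :
    ∃ i j : ZMod n, sr i ∈ H ∧ r j ∈ H ∧ j ≠ 0 := by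
  obtain ⟨i, hi⟩ : ∃ i : ZMod n, sr i ∈ H := by
    by_contra hcon
    push Not at hcon
    apply hH
    have hle : H ≤ zpowers (r 1 : DihedralGroup n) := by
      intro x hx
      cases x with
      | r a =>
        rw [mem_zpowers_iff]
        obtain ⟨k, hk⟩ := ZMod.intCast_surjective a
        exact ⟨k, by rw [r_one_zpow, hk]⟩
      | sr a => exact absurd hx (hcon a)
    exact isCyclic_of_injective (inclusion hle) (inclusion_injective hle)
  have h2 : ¬ H ≤ zpowers (sr i) := by
    intro hle
    exact hH (isCyclic_of_injective (inclusion hle) (inclusion_injective hle))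
  obtain ⟨x, hx, hx2⟩ := SetLike.not_le_iff_exists.1 h2
  cases x with
  | r a =>
    refine ⟨i, a, hi, hx, ?_⟩
    rintro rfl
    apply hx2
    rw [r_zero]
    exact one_mem _
  | sr a =>
    refine ⟨i, a - i, hi, ?_, ?_⟩
    · rw [← sr_mul_sr]
      exact mul_mem hi hx
    · intro h
      apply hx2
      rw [sub_eq_zero.1 h]
      exact mem_zpowers _

theorem backward (n : ℕ) (hn : 3 ≤ n) (h : Odd n ∨ ∃ k : ℕ, n = 2 ^ k) (H : Subgroup (DihedralGroup n))
    (hH : ¬ IsCyclic H) : centralizer (H : Set (DihedralGroup n)) ≤ H := by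
  have : NeZero n := ⟨by omega⟩
  obtain ⟨i, j, hi, hj, hj0⟩ := exists_of_noncyclic H hH
  intro c hc
  rw [mem_centralizer_iff] at hc
  have hci := hc _ hi
  have hcj := hc _ hj
  -- an element `r j'` of order two if `n` is a power of two
  cases c with
  | r m =>
    rw [sr_mul_r, r_mul_sr] at hci
    have hm : 2 * m = 0 := by
      have : i + m = i - m := by injection hci
      linear_combination this
    by_cases hm0 : m = 0
    · subst hm0; rw [r_zero]; exact one_mem _
    · have hval := two_mul_val hm hm0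
      rcases h with h | ⟨k, hk⟩
      · exfalso
        obtain ⟨t, ht⟩ := h
        omega
      · -- some power of `r j` is an involution
        have hpow : ∃ b, orderOf (r j : DihedralGroup n) = 2 ^ b := by
          have hd : orderOf (r j : DihedralGroup n) ∣ 2 ^ k := by
            rw [← hk]
            apply orderOf_dvd_of_pow_eq_one
            rw [r_pow, CharP.cast_eq_zero, mul_zero, r_zero]
          obtain ⟨b, -, hb⟩ := (Nat.dvd_prime_pow Nat.prime_two).1 hd
          exact ⟨b, hb⟩
        obtain ⟨b, hb⟩ := hpow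
        cases b with
        | zero =>
          rw [pow_zero, orderOf_eq_one_iff, ← r_zero] at hb
          exact absurd (by injection hb) hj0
        | succ b =>
          have h1 : (r j : DihedralGroup n) ^ 2 ^ b ∈ H := pow_mem hj _
          rw [r_pow] at h1
          have h2 : 2 * (j * ((2 ^ b : ℕ) : ZMod n)) = 0 := by
            have h3 := pow_orderOf_eq_one (r j : DihedralGroup n)
            rw [hb, r_pow, ← r_zero] at h3
            have h4 : j * ((2 ^ (b + 1) : ℕ) : ZMod n) = 0 := by injection h3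
            rw [← h4]; push_cast; ring
          have h5 : j * ((2 ^ b : ℕ) : ZMod n) ≠ 0 := by
            intro h6
            have h7 : (r j : DihedralGroup n) ^ 2 ^ b = 1 := by rw [r_pow, h6, r_zero]
            have h8 := orderOf_dvd_of_pow_eq_one h7
            rw [hb] at h8
            have h9 := Nat.le_of_dvd (by positivity) h8
            rw [pow_succ] at h9
            have : 0 < 2 ^ b := by positivity
            omega
          rw [eq_of_two hm hm0 h2 h5]
          exact h1
  | sr m =>
    rw [sr_mul_sr, sr_mul_sr] at hci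
    rw [r_mul_sr, sr_mul_r] at hcj
    have hmi : 2 * (m - i) = 0 := by
      have : m - i = i - m := by injection hci
      linear_combination this
    have hj2 : 2 * j = 0 := by
      have : m - j = m + j := by injection hcj
      linear_combination -this
    by_cases hmi0 : m - i = 0
    · rw [sub_eq_zero.1 hmi0]; exact hi
    · have := eq_of_two hmi hmi0 hj2 hj0
      have h1 : sr m = sr i * r j := by
        rw [sr_mul_r, ← this]; congr 1; ring
      rw [h1]
      exact mul_mem hi hj

theorem forward (n : ℕ) (hn : 3 ≤ n) (h : ∀ H : Subgroup (DihedralGroup n), ¬ IsCyclic ↥H →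
    Subgroup.centralizer (H : Set (DihedralGroup n)) ≤ H) : Odd n ∨ ∃ k : ℕ, n = 2 ^ k := by
  by_contra hcon
  push Not at hcon
  obtain ⟨ho, hk⟩ := hcon
  rw [Nat.not_odd_iff_even] at ho
  have : NeZero n := ⟨by omega⟩
  obtain ⟨q, hq, hqn, hq2⟩ : ∃ q : ℕ, q.Prime ∧ q ∣ n ∧ q ≠ 2 := by
    by_contra hc
    push Not at hc
    exact hk _ (Nat.eq_prime_pow_of_unique_prime_dvd (by omega) (fun {d} hd hdn => hc d hd hdn))
  obtain ⟨m, hm⟩ := hqn
  obtain ⟨t, ht⟩ := ho
  have hqodd : Odd q := hq.odd_of_ne_two hq2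
  obtain ⟨w, hw⟩ := hqodd
  -- the subgroup
  let H : Subgroup (DihedralGroup n) := closure {r (m : ZMod n), sr 0}
  have hr : r (m : ZMod n) ∈ H := subset_closure (by simp)
  have hs : (sr 0 : DihedralGroup n) ∈ H := subset_closure (by simp)
  have hmpos : 0 < m := by
    rcases Nat.eq_zero_or_pos m with h0 | h0
    · subst h0; omega
    · exact h0
  have hprop : ∀ x ∈ H, (∃ i : ZMod n, x = r i ∧ (q : ZMod n) * i = 0) ∨
      ∃ i : ZMod n, x = sr i ∧ (q : ZMod n) * i = 0 := by
    intro x hx
    induction hx using closure_induction with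
    | mem x hx =>
      rcases hx with rfl | hx
      · left
        refine ⟨m, rfl, ?_⟩
        have : ((q * m : ℕ) : ZMod n) = 0 := by rw [← hm]; simp
        rw [← this]; push_cast; rfl
      · rw [Set.mem_singleton_iff] at hx
        right
        exact ⟨0, hx, by simp⟩
    | one => left; exact ⟨0, rfl, by simp⟩
    | mul x y _ _ hx hy =>
      rcases hx with ⟨i, rfl, hi⟩ | ⟨i, rfl, hi⟩ <;> rcases hy with ⟨j, rfl, hj⟩ | ⟨j, rfl, hj⟩
      · left; exact ⟨i + j, r_mul_r _ _, by rw [mul_add, hi, hj, add_zero]⟩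
      · right; exact ⟨j - i, r_mul_sr _ _, by rw [mul_sub, hi, hj, sub_zero]⟩
      · right; exact ⟨i + j, sr_mul_r _ _, by rw [mul_add, hi, hj, add_zero]⟩
      · left; exact ⟨j - i, sr_mul_sr _ _, by rw [mul_sub, hi, hj, sub_zero]⟩
    | inv x _ hx =>
      rcases hx with ⟨i, rfl, hi⟩ | ⟨i, rfl, hi⟩
      · left; exact ⟨-i, inv_r _, by rw [mul_neg, hi, neg_zero]⟩
      · right; exact ⟨i, inv_sr _, hi⟩
  have hnc : ¬ IsCyclic H := by
    intro hc
    have hcomm : (⟨_, hr⟩ : H) * ⟨_, hs⟩ = ⟨_, hs⟩ * ⟨_, hr⟩ :=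
      (IsCyclic.commGroup (α := H)).mul_comm _ _
    have h1 : (r (m : ZMod n) * sr 0 : DihedralGroup n) = sr 0 * r (m : ZMod n) := congrArg Subtype.val hcomm
    rw [r_mul_sr, sr_mul_r] at h1
    have h2 : (0 : ZMod n) - m = 0 + m := by injection h1
    have h3 : ((2 * m : ℕ) : ZMod n) = 0 := by push_cast; linear_combination -h2
    rw [ZMod.natCast_eq_zero_iff, hm] at h3
    have h4 : q ∣ 2 := Nat.dvd_of_mul_dvd_mul_right hmpos h3
    have h5 := (Nat.prime_dvd_prime_iff_eq hq Nat.prime_two).1 h4
    exact hq2 h5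
  have h2t : (2 : ZMod n) * t = 0 := by
    have : ((2 * t : ℕ) : ZMod n) = 0 := by rw [two_mul, ← ht]; simp
    rw [← this]; push_cast; rfl
  have hzc : (r (t : ZMod n) : DihedralGroup n) ∈ centralizer (H : Set (DihedralGroup n)) := by
    rw [mem_centralizer_iff]
    intro x hx
    cases x with
    | r a => rw [r_mul_r, r_mul_r, add_comm]
    | sr a =>
      rw [sr_mul_r, r_mul_sr]
      congr 1
      linear_combination h2t
  have hzH := h H hnc hzc
  rcases hprop _ hzH with ⟨i, hi, hqi⟩ | ⟨i, hi, -⟩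
  · have h1 : (t : ZMod n) = i := by injection hi
    rw [← h1, hw] at hqi
    have h2 : (t : ZMod n) = 0 := by
      push_cast at hqi
      linear_combination hqi - (w : ZMod n) * h2t
    rw [ZMod.natCast_eq_zero_iff] at h2
    have h3 := Nat.le_of_dvd (by omega) h2
    omega
  · exact absurd hi (by simp)

theorem result (n : ℕ) (hn : 3 ≤ n) : (∀ H : Subgroup (DihedralGroup n), ¬ IsCyclic ↥H → Subgroup.centralizer (H : Set (DihedralGroup n)) ≤ H) ↔ (Odd n ∨ ∃ k : ℕ, n = 2 ^ k) :=
  ⟨forward n hn, fun h H hH => backward n hn h H hH⟩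

end Cfsg.Agent.S3920
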