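import Cfsg.Statements.S3937
import Cfsg.Agent.Lib.ZipperH72
import Cfsg.Agent.Lib.Cores

set_option autoImplicit false
open Cfsg

namespace Cfsg.Agent.S3937

open Subgroup
open scoped commutatorElement Pointwise

universe u

theorem foldl_succ {G : Type*} [Group G] (g x : G) (n : ℕ) :
    (List.replicate (n + 1) g).foldl (fun a b => a * b * a⁻¹ * b⁻¹) x =
      ⁅(List.replicate n g).foldl (fun a b => a * b * a⁻¹ * b⁻¹) x, g⁆ := by
  rw [List.replicate_succ', List.foldl_append]
  rfl

theorem map_foldl {G H : Type*} [Group G] [Group H] (f : G →* H) (g x : G) (n : ℕ) :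
    f ((List.replicate n g).foldl (fun a b => a * b * a⁻¹ * b⁻¹) x) =
      (List.replicate n (f g)).foldl (fun a b => a * b * a⁻¹ * b⁻¹) (f x) := by
  induction n with
  | zero => rfl
  | succ n ih => rw [foldl_succ, foldl_succ, map_commutatorElement, ih]

theorem engel_of_mem {G : Type*} [Group G] [Finite G] {g : G} (hg : g ∈ Cfsg.fittingSubgroup G) (x : G) :
    ∃ n : ℕ, (List.replicate n g).foldl (fun a b => a * b * a⁻¹ * b⁻¹) x = 1 := by
  have hn := Cfsg.Agent.Lib.Cores.isNilpotent_fittingSubgroup G
  obtain ⟨n, hn⟩ := (isNilpotent_iff_lowerCentralSeries _).1 hn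
  have key : ∀ k : ℕ, (List.replicate (k + 1) g).foldl (fun a b => a * b * a⁻¹ * b⁻¹) x ∈
      (Cfsg.fittingSubgroup G).lowerCentralSeries k := by
    intro k
    induction k with
    | zero =>
      have hN : (Cfsg.fittingSubgroup G).Normal := Cfsg.Agent.Lib.Cores.fittingSubgroup_normal G
      show x * g * x⁻¹ * g⁻¹ ∈ Cfsg.fittingSubgroup G
      exact mul_mem (hN.conj_mem g hg x) (inv_mem hg)
    | succ k ih =>
      rw [foldl_succ, Subgroup.lowerCentralSeries_succ]
      exact commutator_mem_commutator ih hg
  refine ⟨n + 1, ?_⟩
  have := key n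
  rw [hn] at this
  exact this

theorem subnormal_of_engel (N : ℕ) : ∀ (G : Type u) [Group G] [Finite G], Nat.card G ≤ N → ∀ g : G,
    (∀ x : G, ∃ n : ℕ, (List.replicate n g).foldl (fun a b => a * b * a⁻¹ * b⁻¹) x = 1) →
    (zpowers g).IsSubnormal := by
  induction N with
  | zero =>
    intro G _ _ h
    exact absurd (Nat.card_pos (α := G)) (by omega)
  | succ N ih =>
    intro G _ _ hN g hg
    by_contra hS
    have hsub : ∀ X : Subgroup G, zpowers g ≤ X → X ≠ ⊤ → ((zpowers g).subgroupOf X).IsSubnormal := by
      intro X hX hXtop
      have hgX : g ∈ X := hX (mem_zpowers g)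
      have hcard : Nat.card X ≤ N := by
        have h1 : Nat.card X < Nat.card G := by
          refine lt_of_le_of_ne (card_le_card_group X) ?_
          intro h; exact hXtop ((card_eq_iff_eq_top X).1 h)
        omega
      have h2 := ih X hcard ⟨g, hgX⟩ (by
        intro x
        obtain ⟨n, hn⟩ := hg x
        refine ⟨n, ?_⟩
        apply Subtype.ext
        have h3 := map_foldl X.subtype ⟨g, hgX⟩ x n
        exact h3.trans hn)
      convert h2 using 1
      ext y
      rw [mem_subgroupOf, mem_zpowers_iff, mem_zpowers_iff]
      constructor
      · rintro ⟨k, hk⟩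
        exact ⟨k, Subtype.ext (by simpa using hk)⟩
      · rintro ⟨k, hk⟩
        exact ⟨k, by rw [← hk]; simp⟩
    obtain ⟨M, hM, hSM, huniq⟩ := Cfsg.Agent.Lib.ZipperH72.zipper (zpowers g) hS hsub
    have hgM : g ∈ M := hSM (mem_zpowers g)
    -- all conjugates of `g` lie in `M`
    have hconj : ∀ x : G, x * g * x⁻¹ ∈ M → x ∈ Subgroup.normalizer (M : Set G) := by
      intro x hx
      have h1 : g ∈ MulAut.conj x⁻¹ • M := by
        rw [mem_pointwise_smul_iff_inv_smul_mem]
        simpa using hx
      have h2 : IsCoatom (MulAut.conj x⁻¹ • M) := by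
        constructor
        · intro h
          apply hM.1
          have := congrArg (fun L => MulAut.conj x • L) h
          simp only [← mul_smul, ← map_mul, mul_inv_cancel, map_one, one_smul] at this
          rw [this, eq_top_iff]
          intro y _
          rw [mem_pointwise_smul_iff_inv_smul_mem]
          trivial
        · intro L hL
          have h3 : M < MulAut.conj x • L := by
            have := (pointwise_smul_le_pointwise_smul_iff (a := MulAut.conj x)).2 hL.le
            rw [← mul_smul, ← map_mul, mul_inv_cancel, map_one, one_smul] at this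
            refine lt_of_le_of_ne this ?_
            intro h
            apply hL.ne
            rw [h, ← mul_smul, ← map_mul, inv_mul_cancel, map_one, one_smul]
          have h4 := hM.2 _ h3
          have := congrArg (fun L => MulAut.conj x⁻¹ • L) h4
          simp only [← mul_smul, ← map_mul, inv_mul_cancel, map_one, one_smul] at this
          rw [this, eq_top_iff]
          intro y _
          rw [mem_pointwise_smul_iff_inv_smul_mem]
          trivial
      have h3 := huniq _ h2 (by rwa [zpowers_le])
      have h4 : x⁻¹ ∈ Subgroup.normalizer (M : Set G) := by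
        rw [mem_normalizer_iff]
        intro y
        constructor
        · intro hy
          rw [← h3]
          exact smul_mem_pointwise_smul y _ M hy
        · intro hy
          have h5 : x⁻¹ * y * x⁻¹⁻¹ ∈ MulAut.conj x⁻¹ • M := by rw [h3]; exact hy
          rw [mem_pointwise_smul_iff_inv_smul_mem] at h5
          simpa [mul_assoc] using h5
      simpa using inv_mem h4
    have hall : ∀ x : G, x * g * x⁻¹ ∈ M := by
      by_contra hcon
      push Not at hcon
      obtain ⟨x, hx⟩ := hcon
      have hnn : ¬ Subgroup.normalizer (M : Set G) = ⊤ := by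
        intro h
        have := Subgroup.normalizer_eq_top_iff.1 h
        exact hx (this.conj_mem g hgM x)
      have hNM : Subgroup.normalizer (M : Set G) = M := by
        rcases hM.le_iff.1 Subgroup.le_normalizer with h | h
        · exact absurd h hnn
        · exact h
      obtain ⟨n, hn⟩ := hg x
      have hx0 : x ∉ M := by
        intro hxM
        exact hx (mul_mem (mul_mem hxM hgM) (inv_mem hxM))
      have key : ∀ k : ℕ, (List.replicate k g).foldl (fun a b => a * b * a⁻¹ * b⁻¹) x ∉ M := by
        intro k
        induction k with
        | zero => exact hx0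
        | succ k ihk =>
          rw [foldl_succ]
          intro hmem
          apply ihk
          rw [← hNM]
          apply hconj
          rw [commutatorElement_def] at hmem
          have := mul_mem hmem hgM
          simpa using this
      exact key n (hn ▸ M.one_mem)
    -- so the normal closure of `g` is proper
    have hnc : normalClosure ({g} : Set G) ≤ M := by
      rw [normalClosure, closure_le]
      intro y hy
      rw [Group.mem_conjugatesOfSet_iff] at hy
      obtain ⟨a, ha, hy⟩ := hy
      rw [Set.mem_singleton_iff] at ha
      subst ha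
      obtain ⟨c, hc⟩ := isConj_iff.1 hy
      rw [← hc]
      exact hall c
    have hne : normalClosure ({g} : Set G) ≠ ⊤ := by
      intro h
      rw [h] at hnc
      exact hM.1 (top_le_iff.1 hnc)
    have hle : zpowers g ≤ normalClosure ({g} : Set G) := by
      rw [zpowers_le]
      exact subset_normalClosure rfl
    apply hS
    exact (hsub _ hle hne).trans hle (normalClosure_normal.isSubnormal)

theorem result {G : Type*} [Group G] [Finite G] (g : G) :
    g ∈ Cfsg.fittingSubgroup G ↔ ∀ x : G, ∃ n : ℕ, (List.replicate n g).foldl (fun a b => a * b * a⁻¹ * b⁻¹) x = 1 := by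
  constructor
  · intro hg x
    exact engel_of_mem hg x
  · intro h
    have h1 := subnormal_of_engel _ G le_rfl g h
    have h2 : Group.IsNilpotent ↥(zpowers g) := by
      let _ : CommGroup ↥(zpowers g) := IsCyclic.commGroup
      exact CommGroup.isNilpotent
    exact Cfsg.Agent.Lib.Cores.le_fittingSubgroup_of_isSubnormal h1 h2 (mem_zpowers g)

end Cfsg.Agent.S3937
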