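import Cfsg.Statements.S3939
import Cfsg.Agent.S3937
import Cfsg.Agent.Lib.PiClasses2
import Cfsg.Agent.Lib.PNilp
import Cfsg.Agent.Lib.H23Nilp

set_option autoImplicit false
open Cfsg

namespace Cfsg.Agent.S3939

open Subgroup
open scoped commutatorElement Pointwise

theorem mem_hyper {G : Type*} [Group G] {g : G} :
    g ∈ (⨆ n : ℕ, Subgroup.upperCentralSeries G n) ↔ ∃ n, g ∈ Subgroup.upperCentralSeries G n :=
  mem_iSup_of_directed (Subgroup.upperCentralSeries_mono G).directed_le

theorem sub_upper {G : Type*} [Group G] (H : Subgroup G) (n : ℕ) :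
    ∀ z : H, (z : G) ∈ Subgroup.upperCentralSeries G n → z ∈ Subgroup.upperCentralSeries H n := by
  induction n with
  | zero =>
    intro z hz
    rw [Subgroup.upperCentralSeries_zero, mem_bot] at hz ⊢
    exact Subtype.ext hz
  | succ n ih =>
    intro z hz
    rw [Subgroup.mem_upperCentralSeries_succ_iff] at hz ⊢
    intro y
    exact ih _ (hz y)

theorem nilp_of_hyper {G : Type*} [Group G] {g : G} {n : ℕ} (hg : g ∈ Subgroup.upperCentralSeries G n) (x : G) :
    Group.IsNilpotent ↥(closure ({x, g} : Set G)) := by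
  set H := closure ({x, g} : Set G) with hH
  have hxH : x ∈ H := subset_closure (by simp)
  have hgH : g ∈ H := subset_closure (by simp)
  have hgZ : (⟨g, hgH⟩ : H) ∈ Subgroup.upperCentralSeries H n := sub_upper H n _ hg
  refine ⟨n + 1, ?_⟩
  -- the quotient by `Z_n(H)` is cyclic
  let q := QuotientGroup.mk' (Subgroup.upperCentralSeries H n)
  have hcyc : ∀ y : H, q y ∈ zpowers (q ⟨x, hxH⟩) := by
    intro y
    have h1 : H ≤ ((zpowers (q ⟨x, hxH⟩)).comap q).map H.subtype := by
      refine (closure_le _).2 ?_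
      rintro z hz
      rcases hz with rfl | hz
      · exact ⟨⟨z, hxH⟩, mem_zpowers _, rfl⟩
      · rw [Set.mem_singleton_iff] at hz
        subst hz
        refine ⟨⟨z, hgH⟩, ?_, rfl⟩
        show q ⟨z, hgH⟩ ∈ zpowers _
        have : q ⟨z, hgH⟩ = 1 := (QuotientGroup.eq_one_iff _).2 hgZ
        rw [this]
        exact one_mem _
    obtain ⟨w, hw, hwy⟩ := h1 y.2
    have : w = y := Subtype.ext hwy
    rw [← this]
    exact hw
  rw [eq_top_iff]
  intro a _
  rw [Subgroup.mem_upperCentralSeries_succ_iff]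
  intro b
  rw [← QuotientGroup.eq_one_iff]
  show q ⁅a, b⁆ = 1
  rw [map_commutatorElement, commutatorElement_eq_one_iff_mul_comm]
  obtain ⟨i, hi⟩ := mem_zpowers_iff.1 (hcyc a)
  obtain ⟨j, hj⟩ := mem_zpowers_iff.1 (hcyc b)
  rw [← hi, ← hj, ← zpow_add, ← zpow_add, add_comm]

theorem engel_of_nilp {G : Type*} [Group G] {g x : G}
    (h : Group.IsNilpotent ↥(closure ({x, g} : Set G))) :
    ∃ n : ℕ, (List.replicate n g).foldl (fun a b => a * b * a⁻¹ * b⁻¹) x = 1 := by
  have hxH : x ∈ closure ({x, g} : Set G) := subset_closure (by simp)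
  have hgH : g ∈ closure ({x, g} : Set G) := subset_closure (by simp)
  obtain ⟨n, hn⟩ := (isNilpotent_iff_lowerCentralSeries _).1 h
  refine ⟨n, ?_⟩
  have key : ∀ k : ℕ, (List.replicate k g).foldl (fun a b => a * b * a⁻¹ * b⁻¹) x ∈
      (closure ({x, g} : Set G)).lowerCentralSeries k := by
    intro k
    induction k with
    | zero => exact hxH
    | succ k ih =>
      rw [S3937.foldl_succ, Subgroup.lowerCentralSeries_succ]
      exact commutator_mem_commutator ih hgH
  have := key n
  rw [hn] at this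
  exact this

/-- the key step: a `p`-element. -/
theorem p_elem {G : Type*} [Group G] [Finite G] {p : ℕ} [hp : Fact p.Prime] {g : G}
    (hg : ∀ r : ℕ, r.Prime → r ∣ orderOf g → r = p)
    (h : ∀ x : G, Group.IsNilpotent ↥(closure ({x, g} : Set G))) :
    g ∈ (⨆ n : ℕ, Subgroup.upperCentralSeries G n) := by
  obtain ⟨k, hk⟩ : ∃ k, orderOf g = p ^ k :=
    ⟨_, Nat.eq_prime_pow_of_unique_prime_dvd (orderOf_pos g).ne' (fun {r} hr hrg => hg r hr hrg)⟩
  -- `g` lies in `O_p(G)`
  have hgF : zpowers g ≤ pCore p G := by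
    have h1 := S3937.subnormal_of_engel _ G le_rfl g (fun x => engel_of_nilp (h x))
    apply Cfsg.Agent.Lib.Cores.le_pCore_of_isSubnormal h1
    exact IsPGroup.of_card (n := k) (by rw [Nat.card_zpowers, hk])
  have hgO : g ∈ pCore p G := hgF (mem_zpowers g)
  -- `g` centralizes the `p`-residual
  have hgC : g ∈ centralizer (pResidual p G : Set G) := by
    have h1 : pResidual p G ≤ centralizer ({g} : Set G) := by
      unfold pResidual
      rw [closure_le]
      intro y hy
      have hy' : Nat.Coprime (orderOf y) p := hy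
      rw [SetLike.mem_coe, mem_centralizer_singleton_iff]
      have hn := h y
      have hyH : y ∈ closure ({y, g} : Set G) := subset_closure (by simp)
      have hgH : g ∈ closure ({y, g} : Set G) := subset_closure (by simp)
      exact Cfsg.Agent.Lib.H23Nilp.commute_of_coprime_of_mem hn hyH hgH (by
        rw [hk]; exact Nat.Coprime.pow_right k hy')
    rw [mem_centralizer_iff]
    intro y hy
    exact (mem_centralizer_singleton_iff.1 (h1 hy))
  obtain ⟨P⟩ : Nonempty (Sylow p G) := inferInstance
  set Q : Subgroup G := pCore p G ⊓ centralizer (pResidual p G : Set G) with hQ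
  have hQn : Q.Normal := inferInstance
  have hQP : Q ≤ P := inf_le_left.trans (by
    have : IsPGroup p (pCore p G) := Cfsg.Agent.Lib.Cores.isPGroup_pCore p G
    have h2 := IsPGroup.to_sup_of_normal_right P.2 this
    have h3 := P.is_maximal' h2 le_sup_left
    exact h3 ▸ le_sup_right)
  have hgQ : g ∈ Q := ⟨hgO, hgC⟩
  have key : ∀ n : ℕ, ∀ z : (P : Subgroup G), z ∈ Subgroup.upperCentralSeries (P : Subgroup G) n → (z : G) ∈ Q →
      (z : G) ∈ Subgroup.upperCentralSeries G n := by
    intro n
    induction n with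
    | zero =>
      intro z hz _
      rw [Subgroup.upperCentralSeries_zero, mem_bot] at hz ⊢
      rw [hz]; rfl
    | succ n ih =>
      intro z hz hzQ
      rw [Subgroup.mem_upperCentralSeries_succ_iff] at hz ⊢
      intro y
      have hy : y ∈ (P : Subgroup G) ⊔ pResidual p G := by
        rw [Cfsg.Agent.Lib.PNilp.sylow_sup_pResidual P]; trivial
      rw [mem_sup_of_normal_right] at hy
      obtain ⟨r, hr, s, hs, rfl⟩ := hy
      have hzs : (z : G) * s = s * z := ((mem_centralizer_iff.1 hzQ.2) s hs).symm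
      have h1 : ⁅(z : G), r * s⁆ = ⁅(z : G), r⁆ := by
        have h2 : s * (z : G)⁻¹ = (z : G)⁻¹ * s := by
          rw [eq_inv_mul_iff_mul_eq, ← mul_assoc, hzs, mul_assoc, mul_inv_cancel, mul_one]
        rw [commutatorElement_def, commutatorElement_def, mul_inv_rev]
        calc (z : G) * (r * s) * (z : G)⁻¹ * (s⁻¹ * r⁻¹) = z * r * (s * (z : G)⁻¹) * s⁻¹ * r⁻¹ := by group
          _ = _ := by rw [h2]; group
      rw [h1]
      have h3 := ih ⁅z, ⟨r, hr⟩⁆ (hz ⟨r, hr⟩) (by
        show ⁅(z : G), r⁆ ∈ Q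
        rw [commutatorElement_def, mul_assoc, mul_assoc, ← mul_assoc r]
        exact mul_mem hzQ (hQn.conj_mem _ (inv_mem hzQ) r))
      exact h3
  have hPn : Group.IsNilpotent (P : Subgroup G) := P.2.isNilpotent
  obtain ⟨n, hn⟩ := hPn.nilpotent'
  rw [mem_hyper]
  exact ⟨n, key n ⟨g, hQP hgQ⟩ (by rw [hn]; trivial) hgQ⟩

theorem nilp_mono {G : Type*} [Group G] {g a x : G} (ha : a ∈ zpowers g)
    (h : Group.IsNilpotent ↥(closure ({x, g} : Set G))) :
    Group.IsNilpotent ↥(closure ({x, a} : Set G)) := by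
  apply Cfsg.Agent.Lib.H23Nilp.isNilpotent_of_le _ h
  rw [closure_le]
  rintro y hy
  rcases hy with rfl | hy
  · exact subset_closure (by simp)
  · rw [Set.mem_singleton_iff] at hy
    subst hy
    have : zpowers g ≤ closure ({x, g} : Set G) := by
      rw [zpowers_le]; exact subset_closure (by simp)
    exact this ha

theorem hyper_of_nilp {G : Type*} [Group G] [Finite G] (N : ℕ) : ∀ g : G, orderOf g ≤ N →
    (∀ x : G, Group.IsNilpotent ↥(closure ({x, g} : Set G))) →
    g ∈ (⨆ n : ℕ, Subgroup.upperCentralSeries G n) := by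
  induction N with
  | zero =>
    intro g hg _
    have := orderOf_pos g
    omega
  | succ N ih =>
    intro g hg h
    by_cases h1 : orderOf g = 1
    · rw [orderOf_eq_one_iff] at h1
      rw [h1]; exact one_mem _
    · obtain ⟨p, hp, hpg⟩ := Nat.exists_prime_and_dvd h1
      have := Fact.mk hp
      obtain ⟨a, b, ha, hb, hab, hap, hbp, had, hbd⟩ :=
        Cfsg.Agent.Lib.PiClasses2.exists_split_elem (fun r => r = p) g
      rw [← hab]
      refine mul_mem ?_ ?_
      · exact p_elem (p := p) hap (fun x => nilp_mono ha (h x))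
      · apply ih b
        · have h2 : orderOf b ≠ orderOf g := by
            intro heq
            exact hbp p hp (heq ▸ hpg) rfl
          have h3 := Nat.le_of_dvd (orderOf_pos g) hbd
          omega
        · exact fun x => nilp_mono hb (h x)

theorem result {G : Type*} [Group G] [Finite G] (g : G) :
    (∀ x : G, Group.IsNilpotent ↥(Subgroup.closure ({x, g} : Set G))) ↔ g ∈ ⨆ n : ℕ, Subgroup.upperCentralSeries G n := by
  constructor
  · intro h
    exact hyper_of_nilp _ g le_rfl h
  · intro h x
    obtain ⟨n, hn⟩ := mem_hyper.1 h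
    exact nilp_of_hyper hn x

end Cfsg.Agent.S3939
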