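import Cfsg.Statements.S3941

set_option autoImplicit false
open Cfsg

namespace Cfsg.Agent.S3941

open Subgroup

theorem comm_of_not_sq_dvd {G : Type*} [Group G] [Finite G] {p : ℕ} [hp : Fact p.Prime]
    (h : ¬ p ^ 2 ∣ Nat.card G) (P : Sylow p G) : IsMulCommutative ↥(P : Subgroup G) := by
  obtain ⟨k, hk⟩ := P.2.exists_card_eq
  have hk1 : k ≤ 1 := by
    by_contra hlt
    push Not at hlt
    apply h
    exact (pow_dvd_pow p hlt).trans (hk ▸ card_subgroup_dvd_card _)
  have hcyc : IsCyclic ↥(P : Subgroup G) := by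
    interval_cases k
    · have : Subsingleton ↥(P : Subgroup G) := by
        rw [pow_zero] at hk
        exact (Nat.card_eq_one_iff_unique.1 hk).1
      infer_instance
    · rw [pow_one] at hk
      exact isCyclic_of_prime_card hk
  exact ⟨⟨fun a b => (IsCyclic.commGroup (α := ↥(P : Subgroup G))).mul_comm a b⟩⟩

theorem not_sq_dvd_factorial {n p : ℕ} (hp : p.Prime) (h2 : n < 2 * p) (hp2 : 2 < p) :
    ¬ p ^ 2 ∣ n.factorial := by
  rw [hp.pow_dvd_factorial_iff (b := 2) (by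
    apply Nat.log_lt_of_lt_pow' (by norm_num)
    nlinarith)]
  simp only [not_le]
  rw [show Finset.Ico 1 2 = {1} from rfl, Finset.sum_singleton, pow_one]
  rw [Nat.div_lt_iff_lt_mul hp.pos]
  omega

/-- two non-commuting elements of order `p` in the alternating group of degree `n`, `p ≤ n < 2p`. -/
theorem exists_noncomm {n p : ℕ} (hp : p.Prime) (hp5 : 5 ≤ p) (hpn : p ≤ n) (h2p : n < 2 * p) :
    ∃ x y : Equiv.Perm (Fin n), x ∈ alternatingGroup (Fin n) ∧ y ∈ alternatingGroup (Fin n) ∧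
      orderOf x = p ∧ orderOf y = p ∧ x * y ≠ y * x := by
  have := Fact.mk hp
  have hcardn : Nat.card (Equiv.Perm (Fin n)) = n.factorial := by
    rw [Nat.card_eq_fintype_card, Fintype.card_perm, Fintype.card_fin]
  have hnt : Nontrivial (Fin n) := Fin.nontrivial_iff_two_le.2 (by omega)
  have hpA : p ∣ Nat.card (alternatingGroup (Fin n)) := by
    have h1 : 2 * Nat.card (alternatingGroup (Fin n)) = Nat.card (Equiv.Perm (Fin n)) :=
      two_mul_nat_card_alternatingGroup
    have h2 : p ∣ 2 * Nat.card (alternatingGroup (Fin n)) := by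
      rw [h1, hcardn]; exact (hp.dvd_factorial).2 hpn
    rcases (Nat.Prime.dvd_mul hp).1 h2 with h | h
    · have := Nat.le_of_dvd (by norm_num) h
      omega
    · exact h
  obtain ⟨x0, hx0⟩ := exists_prime_orderOf_dvd_card' p hpA
  set σ : Equiv.Perm (Fin n) := (x0 : Equiv.Perm (Fin n)) with hσ
  have hσo : orderOf σ = p := by rw [hσ, Subgroup.orderOf_coe, hx0]
  have hcyc : σ.IsCycle := by
    apply Equiv.Perm.isCycle_of_prime_order' (by rw [hσo]; exact hp)
    rw [Fintype.card_fin, hσo]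
    omega
  obtain ⟨a, ha, -⟩ := id hcyc
  have hpow : ∀ k : ℕ, 0 < k → k < p → (σ ^ k) a ≠ a := by
    intro k hk0 hkp h
    have h1 : σ ^ k = 1 := hcyc.pow_eq_one_iff.2 ⟨a, ha, h⟩
    have h2 := Nat.le_of_dvd hk0 (orderOf_dvd_of_pow_eq_one h1)
    omega
  have h01 : σ a ≠ a := ha
  have h02 : σ (σ a) ≠ a := hpow 2 (by norm_num) (by omega)
  have h03 : σ (σ (σ a)) ≠ a := hpow 3 (by norm_num) (by omega)
  have h12 : σ (σ a) ≠ σ a := fun h => h01 (σ.injective h)
  set t : Equiv.Perm (Fin n) := Equiv.swap a (σ a) * Equiv.swap (σ a) (σ (σ a)) with ht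
  have t0 : t a = σ a := by
    rw [ht, Equiv.Perm.mul_apply, Equiv.swap_apply_of_ne_of_ne h01.symm h02.symm,
      Equiv.swap_apply_left]
  have t1 : t (σ a) = σ (σ a) := by
    rw [ht, Equiv.Perm.mul_apply, Equiv.swap_apply_left,
      Equiv.swap_apply_of_ne_of_ne h02 h12]
  have t2 : t (σ (σ a)) = a := by
    rw [ht, Equiv.Perm.mul_apply, Equiv.swap_apply_right, Equiv.swap_apply_right]
  have htA : t ∈ alternatingGroup (Fin n) := by
    rw [Equiv.Perm.mem_alternatingGroup, ht, Equiv.Perm.sign_mul, Equiv.Perm.sign_swap h01.symm,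
      Equiv.Perm.sign_swap h12.symm]
    rfl
  refine ⟨σ, t * σ * t⁻¹, x0.2, mul_mem (mul_mem htA x0.2) (inv_mem htA), hσo, ?_, ?_⟩
  · have := (MulAut.conj t).orderOf_eq σ
    rw [MulAut.conj_apply] at this
    rw [this, hσo]
  · intro h2
    have h3 := congrArg (fun f : Equiv.Perm (Fin n) => f (σ a)) h2
    simp only [Equiv.Perm.mul_apply] at h3
    have i1 : t⁻¹ (σ a) = a := by rw [Equiv.Perm.inv_eq_iff_eq, t0]
    have i2 : t⁻¹ (σ (σ a)) = σ a := by rw [Equiv.Perm.inv_eq_iff_eq, t1]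
    rw [i1, i2, t1, t2] at h3
    exact h03 h3

theorem exists_noncomm3 : ∃ x y : Equiv.Perm (Fin 4), x ∈ alternatingGroup (Fin 4) ∧ y ∈ alternatingGroup (Fin 4) ∧
      orderOf x = 3 ∧ orderOf y = 3 ∧ x * y ≠ y * x := by
  refine ⟨Equiv.swap 0 1 * Equiv.swap 1 2, Equiv.swap 0 1 * Equiv.swap 1 3, ?_, ?_, ?_, ?_, ?_⟩
  · rw [Equiv.Perm.mem_alternatingGroup]; decide
  · rw [Equiv.Perm.mem_alternatingGroup]; decide
  · exact orderOf_eq_prime (by decide) (by decide)
  · exact orderOf_eq_prime (by decide) (by decide)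
  · decide

/-- the main step: `m < n`, `p ≤ m < 2p` -/
theorem main {n p m : ℕ} (hp : Fact p.Prime) (hp2 : 2 < p) (hm : m < n) (hm2 : m < 2 * p)
    (h3 : 3 ≤ n) {x y : Equiv.Perm (Fin m)} (hx : x ∈ alternatingGroup (Fin m))
    (hy : y ∈ alternatingGroup (Fin m)) (hxo : orderOf x = p) (hyo : orderOf y = p)
    (hxy : x * y ≠ y * x)
    (h : ∀ H : Subgroup ↥(alternatingGroup (Fin n)), H ≠ ⊤ → p ∣ Nat.card ↥H → Cfsg.IsPClosed p ↥H) :
    False := by
  classical
  let ι : Fin m ↪ Fin n := (Fin.castLEEmb hm.le)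
  let φ : Equiv.Perm (Fin m) →* Equiv.Perm (Fin n) := Equiv.Perm.viaEmbeddingHom ι
  have hφ : Function.Injective φ := Equiv.Perm.viaEmbeddingHom_injective ι
  have hsign : ∀ g : Equiv.Perm (Fin m), Equiv.Perm.sign (φ g) = Equiv.Perm.sign g := by
    intro g
    have h0 := Equiv.Perm.sign_extendDomain (α := Fin m) (β := Fin n)
      (p := (· ∈ Set.range ι)) g (Equiv.ofInjective ι.1 ι.2)
    rw [← h0]
    congr 1
    ext i
    simp only [φ, Equiv.Perm.viaEmbeddingHom_apply]
    unfold Equiv.Perm.viaEmbedding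
    congr!
  let ψ : ↥(alternatingGroup (Fin m)) →* ↥(alternatingGroup (Fin n)) :=
    (φ.comp (alternatingGroup (Fin m)).subtype).codRestrict _ (by
      intro g
      rw [Equiv.Perm.mem_alternatingGroup]
      exact (hsign g).trans g.2)
  have hψ : Function.Injective ψ := by
    intro a b hab
    exact Subtype.ext (hφ (congrArg Subtype.val hab))
  have hfix : ∀ g, (φ g) ⟨n - 1, by omega⟩ = ⟨n - 1, by omega⟩ := by
    intro g
    apply Equiv.Perm.viaEmbedding_apply_of_notMem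
    rintro ⟨i, hi⟩
    have := congrArg Fin.val hi
    simp [ι] at this
    omega
  have hne : ψ.range ≠ ⊤ := by
    intro htop
    let c : Equiv.Perm (Fin n) := Equiv.swap ⟨0, by omega⟩ ⟨1, by omega⟩ *
      Equiv.swap ⟨1, by omega⟩ ⟨n - 1, by omega⟩
    have hc : c ∈ alternatingGroup (Fin n) := by
      rw [Equiv.Perm.mem_alternatingGroup, Equiv.Perm.sign_mul, Equiv.Perm.sign_swap (by simp),
        Equiv.Perm.sign_swap (by simp; omega)]
      rfl
    have h1 : (⟨c, hc⟩ : ↥(alternatingGroup (Fin n))) ∈ ψ.range := by rw [htop]; trivial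
    obtain ⟨g, hg⟩ := h1
    have h2 : φ (g : Equiv.Perm (Fin m)) = c := congrArg Subtype.val hg
    have h3' := hfix (g : Equiv.Perm (Fin m))
    rw [h2] at h3'
    simp only [c, Equiv.Perm.mul_apply, Equiv.swap_apply_right] at h3'
    have := congrArg Fin.val h3'
    simp at this
    omega
  have hcard : Nat.card ψ.range = Nat.card ↥(alternatingGroup (Fin m)) :=
    (Nat.card_congr (MonoidHom.ofInjective hψ).toEquiv).symm
  have hdvd : p ∣ Nat.card ψ.range := by
    rw [hcard, ← hxo, ← Subgroup.orderOf_mk x hx]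
    exact orderOf_dvd_natCard _
  have hsq : ¬ p ^ 2 ∣ Nat.card ψ.range := by
    rw [hcard]
    intro h2
    apply not_sq_dvd_factorial hp.out hm2 hp2
    have hcardn : Nat.card (Equiv.Perm (Fin m)) = m.factorial := by
      rw [Nat.card_eq_fintype_card, Fintype.card_perm, Fintype.card_fin]
    rw [← hcardn]
    exact h2.trans (card_subgroup_dvd_card _)
  have hcl := h ψ.range hne hdvd
  obtain ⟨P⟩ : Nonempty (Sylow p ψ.range) := inferInstance
  have hPn := hcl P
  have hab := comm_of_not_sq_dvd hsq P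
  have hmem : ∀ w : ψ.range, orderOf w = p → w ∈ (P : Subgroup ψ.range) := by
    intro w hw
    have hwp : IsPGroup p ↥(zpowers w) := IsPGroup.of_card (n := 1) (by
      rw [Nat.card_zpowers, hw, pow_one])
    have hsup : IsPGroup p ↥((P : Subgroup ψ.range) ⊔ (zpowers w : Subgroup ψ.range)) :=
      IsPGroup.to_sup_of_normal_left P.2 hwp
    have := P.is_maximal' hsup le_sup_left
    exact this ▸ (le_sup_right (b := zpowers w) (mem_zpowers w))
  have hxr : ψ ⟨x, hx⟩ ∈ ψ.range := ⟨_, rfl⟩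
  have hyr : ψ ⟨y, hy⟩ ∈ ψ.range := ⟨_, rfl⟩
  have hx' := hmem ⟨ψ ⟨x, hx⟩, hxr⟩ (by
    rw [Subgroup.orderOf_mk, orderOf_injective ψ hψ, Subgroup.orderOf_mk, hxo])
  have hy' := hmem ⟨ψ ⟨y, hy⟩, hyr⟩ (by
    rw [Subgroup.orderOf_mk, orderOf_injective ψ hψ, Subgroup.orderOf_mk, hyo])
  have h4 := congrArg Subtype.val (hab.is_comm.comm ⟨_, hx'⟩ ⟨_, hy'⟩)
  have h5 : ψ ⟨x, hx⟩ * ψ ⟨y, hy⟩ = ψ ⟨y, hy⟩ * ψ ⟨x, hx⟩ := congrArg Subtype.val h4
  rw [← map_mul, ← map_mul] at h5
  exact hxy (congrArg Subtype.val (hψ h5))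

theorem result (n p : ℕ) (hn : 5 ≤ n) [Fact p.Prime] (hp : p ≠ 2) (hpn : p ≤ n)
    (h : ∀ H : Subgroup ↥(alternatingGroup (Fin n)), H ≠ ⊤ → p ∣ Nat.card ↥H → Cfsg.IsPClosed p ↥H) : n = p := by
  rename_i hpp
  by_contra hne
  have hlt : p < n := by omega
  have h2 := hpp.out.two_le
  rcases Nat.lt_or_ge p 5 with h5 | h5
  · have hp3 : p = 3 := by
      interval_cases p
      · exact absurd rfl hp
      · rfl
      · exact absurd hpp.out (by norm_num)
    subst hp3
    obtain ⟨x, y, hx, hy, hxo, hyo, hxy⟩ := exists_noncomm3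
    exact main hpp (by norm_num) (by omega) (by norm_num) (by omega) hx hy hxo hyo hxy h
  · obtain ⟨x, y, hx, hy, hxo, hyo, hxy⟩ := exists_noncomm hpp.out h5 le_rfl (by omega)
    exact main hpp (by omega) hlt (by omega) (by omega) hx hy hxo hyo hxy h

end Cfsg.Agent.S3941
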