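import Cfsg.Statements.S3949
import Mathlib

set_option autoImplicit false
open Cfsg

namespace Cfsg.Agent.S3949

theorem result {G : Type*} [Group G] [Finite G] (α : MulAut G) (hα : orderOf α = 2) (hG : Subgroup.closure (Set.range (fun c : G => c * (α c)⁻¹)) = ⊤)
    (j : ℕ) (hj : ∀ g : G, α g = g⁻¹ → ¬ 2 ^ j ∣ orderOf g) :
    Set.range ((fun c : G => c * (α c)⁻¹)^[j]) = {g : G | Odd (orderOf g) ∧ α g = g⁻¹} := by
  have hα2 : ∀ g, α (α g) = g := by
    intro g
    have h : α ^ 2 = 1 := by rw [← hα]; exact pow_orderOf_eq_one α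
    have : (α ^ 2) g = g := by rw [h]; rfl
    simpa [pow_two] using this
  set t : G → G := fun c : G => c * (α c)⁻¹ with ht
  have hinv : ∀ c, α (t c) = (t c)⁻¹ := by
    intro c
    simp [ht, map_mul, map_inv, hα2]
  have hsq : ∀ g, α g = g⁻¹ → t g = g ^ 2 := by
    intro g hg
    simp [ht, hg, pow_two]
  have hpow : ∀ k : ℕ, ∀ g, α g = g⁻¹ → t^[k] g = g ^ (2 ^ k) := by
    intro k
    induction k with
    | zero => intro g hg; simp
    | succ k ih =>
      intro g hg
      rw [Function.iterate_succ_apply', ih g hg, hsq]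
      · rw [← pow_mul, pow_succ]
      · rw [map_pow, hg, inv_pow]
  cases j with
  | zero =>
    exact absurd (by simp : 2 ^ 0 ∣ orderOf (1 : G)) (hj 1 (by simp))
  | succ j =>
    ext g
    constructor
    · rintro ⟨c, rfl⟩
      rw [Function.iterate_succ_apply]
      have h1 := hinv c
      rw [hpow j _ h1]
      refine ⟨?_, by rw [map_pow, h1, inv_pow]⟩
      by_contra hodd
      rw [Nat.not_odd_iff_even] at hodd
      apply hj (t c) h1
      have h2 : 2 ∣ orderOf ((t c) ^ 2 ^ j) := hodd.two_dvd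
      rw [orderOf_pow] at h2
      have hg : Nat.gcd (orderOf (t c)) (2 ^ j) ∣ 2 ^ j := Nat.gcd_dvd_right _ _
      obtain ⟨i, hi, hi'⟩ := (Nat.dvd_prime_pow Nat.prime_two).1 hg
      have hpos : 0 < orderOf (t c) := orderOf_pos _
      have h3 : 2 ^ i * 2 ∣ orderOf (t c) := by
        have h4 : orderOf (t c) = 2 ^ i * (orderOf (t c) / 2 ^ i) := by
          rw [← hi']
          exact (Nat.mul_div_cancel' (Nat.gcd_dvd_left _ _)).symm
        rw [h4]
        rw [hi'] at h2
        exact Nat.mul_dvd_mul_left _ h2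
      -- i = j else contradiction
      rcases Nat.lt_or_ge i j with hlt | hge
      · exfalso
        have h5 : 2 ^ (i+1) ∣ Nat.gcd (orderOf (t c)) (2 ^ j) :=
          Nat.dvd_gcd (by rw [pow_succ]; exact h3) (pow_dvd_pow 2 hlt)
        rw [hi'] at h5
        have := (Nat.pow_dvd_pow_iff_le_right (by norm_num : 1 < 2)).1 h5
        omega
      · have : i = j := le_antisymm hi hge
        subst this
        rw [pow_succ]; exact h3
    · rintro ⟨hodd, hg⟩
      have hc : Nat.Coprime (orderOf g) (2 ^ (j+1)) := (Nat.Coprime.pow_right _ (Nat.coprime_two_right.2 hodd))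
      obtain ⟨m, hm⟩ := exists_pow_eq_self_of_coprime (n := 2 ^ (j+1)) (x := g) hc.symm
      refine ⟨g ^ m, ?_⟩
      rw [hpow]
      · rw [← pow_mul, mul_comm, pow_mul]; exact hm
      · rw [map_pow, hg, inv_pow]

end Cfsg.Agent.S3949
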