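import Cfsg.Statements.S4003
import Cfsg.Agent.Lib.Kulakoff
import Cfsg.Agent.Lib.CycNorm

set_option autoImplicit false
open Cfsg

namespace Cfsg.Agent.S4003

open Cfsg.Agent.Lib Cfsg.Agent.Lib.Kulakoff

universe u

/-- Number of elements of order `p ^ s` of the centralizer. -/
noncomputable def cnt (p s : ℕ) {G : Type u} [Group G] (w : G) : ℕ :=
  Nat.card {u : Subgroup.centralizer ({w} : Set G) // orderOf u = p ^ s}

theorem cnt_conj (p s : ℕ) {G : Type u} [Group G] (g w : G) : cnt p s (g * w * g⁻¹) = cnt p s w := by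
  unfold cnt
  have hmem : ∀ (h v x : G), x ∈ Subgroup.centralizer ({v} : Set G) →
      h * x * h⁻¹ ∈ Subgroup.centralizer ({h * v * h⁻¹} : Set G) := by
    intro h v x hx
    rw [CycNorm.mem_centralizer_singleton] at hx ⊢
    calc h * x * h⁻¹ * (h * v * h⁻¹) * (h * x * h⁻¹)⁻¹ = h * (x * v * x⁻¹) * h⁻¹ := by group
      _ = h * v * h⁻¹ := by rw [hx]
  have hord : ∀ (h x : G), orderOf (h * x * h⁻¹) = orderOf x := fun h x =>
    orderOf_injective (MulAut.conj h).toMonoidHom (MulAut.conj h).injective x
  symm
  apply Nat.card_congr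
  exact {
    toFun := fun u => ⟨⟨g * u.1.1 * g⁻¹, hmem g w _ u.1.2⟩, by
      rw [Subgroup.orderOf_mk, hord, Subgroup.orderOf_coe]; exact u.2⟩
    invFun := fun u => ⟨⟨g⁻¹ * u.1.1 * g, by
      have h1 := hmem g⁻¹ _ _ u.1.2
      have h2 : g⁻¹ * (g * w * g⁻¹) * g⁻¹⁻¹ = w := by group
      rw [h2, inv_inv] at h1
      exact h1⟩, by
      have h1 := hord g⁻¹ u.1.1
      rw [inv_inv] at h1
      rw [Subgroup.orderOf_mk, h1, Subgroup.orderOf_coe]; exact u.2⟩
    left_inv := fun u => by
      apply Subtype.ext; apply Subtype.ext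
      show g⁻¹ * (g * u.1.1 * g⁻¹) * g = u.1.1
      group
    right_inv := fun u => by
      apply Subtype.ext; apply Subtype.ext
      show g * (g⁻¹ * u.1.1 * g) * g⁻¹ = u.1.1
      group }

/-- Let G be a finite group, p an odd prime dividing the order of G whose Sylow p-subgroups are not cyclic, and n = p^s·m with s > 1 and m coprime to p. Then the number of elements of G of order n is a multiple of p^s. -/
theorem result {G : Type*} [Group G] [Finite G] (p : ℕ) [Fact p.Prime] (hodd : p ≠ 2) (hpG : p ∣ Nat.card G)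
    (P : Sylow p G) (hP : ¬ IsCyclic ↥(P : Subgroup G)) (s m : ℕ) (hs : 1 < s) (hm : Nat.Coprime p m) :
    p ^ s ∣ Nat.card {g : G // orderOf g = p ^ s * m} := by
  classical
  have := Fintype.ofFinite G
  have hp : p.Prime := Fact.out
  have hcop : Nat.Coprime (p ^ s) m := Nat.Coprime.pow_left s hm
  have hmpos : 0 < m := by
    rcases Nat.eq_zero_or_pos m with h | h
    · rw [h, Nat.coprime_zero_right] at hm
      exact absurd hm hp.one_lt.ne'
    · exact h
  have hpspos : 0 < p ^ s := pow_pos hp.pos s
  let V : Type _ := {v : G // orderOf v = m}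
  let f : {g : G // orderOf g = p ^ s * m} → V := fun g => ⟨g.1 ^ (p ^ s), by
    rw [orderOf_pow_of_dvd hpspos.ne' (by rw [g.2]; exact Dvd.intro _ rfl), g.2]
    exact Nat.mul_div_cancel_left _ hpspos⟩
  have hfib : ∀ w : V, Nat.card {g // f g = w} = cnt p s (w : G) := by
    rintro ⟨w, hw⟩
    obtain ⟨k, hk⟩ := exists_pow_eq_self_of_coprime (x := w) (n := p ^ s) (by rw [hw]; exact hcop)
    set v := w ^ k with hv
    have hvw : v ^ (p ^ s) = w := by rw [hv, ← pow_mul, mul_comm, pow_mul]; exact hk
    have hvord : orderOf v = m := by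
      apply Nat.dvd_antisymm
      · rw [← hw]; exact orderOf_pow_dvd k
      · have := orderOf_pow_dvd (x := v) (p ^ s)
        rw [hvw, hw] at this
        exact this
    unfold cnt
    have hcent : ∀ u : G, u ∈ Subgroup.centralizer ({w} : Set G) → Commute u v := by
      intro u hu
      rw [Subgroup.mem_centralizer_singleton_iff] at hu
      exact (show Commute u w from hu).pow_right k
    apply Nat.card_congr
    exact {
      toFun := fun g => by
        have hgw : g.1.1 ^ (p ^ s) = w := congrArg Subtype.val g.2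
        have hc1 : g.1.1 ∈ Subgroup.centralizer ({w} : Set G) := by
          rw [Subgroup.mem_centralizer_singleton_iff]
          have h0 : g.1.1 * g.1.1 ^ (p ^ s) = g.1.1 ^ (p ^ s) * g.1.1 := by rw [← pow_succ, ← pow_succ']
          calc g.1.1 * w = g.1.1 * g.1.1 ^ (p ^ s) := by rw [hgw]
            _ = g.1.1 ^ (p ^ s) * g.1.1 := h0
            _ = w * g.1.1 := by rw [hgw]
        have hvc : v ∈ Subgroup.centralizer ({w} : Set G) := by
          rw [Subgroup.mem_centralizer_singleton_iff, hv, ← pow_succ, ← pow_succ']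
        refine ⟨⟨g.1.1 * v⁻¹, mul_mem hc1 (inv_mem hvc)⟩, ?_⟩
        rw [Subgroup.orderOf_mk]
        have hcm : Commute g.1.1 v := hcent _ hc1
        have h1 : (g.1.1 * v⁻¹) ^ (p ^ s) = 1 := by
          rw [hcm.inv_right.mul_pow, hgw, inv_pow, hvw, mul_inv_cancel]
        have h2 : orderOf (g.1.1 * v⁻¹) ∣ p ^ s := orderOf_dvd_of_pow_eq_one h1
        have h3 : Commute (g.1.1 * v⁻¹) v := hcm.mul_left (Commute.refl v).inv_left
        have h4 := h3.orderOf_mul_eq_mul_orderOf_of_coprime (by
          rw [hvord]; exact Nat.Coprime.coprime_dvd_left h2 hcop)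
        rw [inv_mul_cancel_right, g.1.2, hvord] at h4
        exact (Nat.eq_of_mul_eq_mul_right hmpos h4).symm
      invFun := fun u => by
        have hcm : Commute u.1.1 v := hcent _ u.1.2
        have ho : orderOf u.1.1 = p ^ s := by rw [Subgroup.orderOf_coe]; exact u.2
        refine ⟨⟨u.1.1 * v, ?_⟩, ?_⟩
        · rw [hcm.orderOf_mul_eq_mul_orderOf_of_coprime (by rw [ho, hvord]; exact hcop), ho, hvord]
        · apply Subtype.ext
          show (u.1.1 * v) ^ (p ^ s) = w
          have h0 : u.1.1 ^ (p ^ s) = 1 := orderOf_dvd_iff_pow_eq_one.1 (by rw [ho])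
          rw [hcm.mul_pow, hvw, h0, one_mul]
      left_inv := fun g => by
        apply Subtype.ext; apply Subtype.ext
        show g.1.1 * v⁻¹ * v = g.1.1
        group
      right_inv := fun u => by
        apply Subtype.ext; apply Subtype.ext
        show u.1.1 * v * v⁻¹ = u.1.1
        group }
  have hVf : Fintype V := Fintype.ofFinite V
  have htotal : Nat.card {g : G // orderOf g = p ^ s * m} = ∑ w : V, cnt p s (w : G) := by
    rw [Nat.card_congr (Equiv.sigmaFiberEquiv f).symm, Nat.card_sigma]
    exact Finset.sum_congr rfl (fun w _ => hfib w)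
  rw [htotal]
  have hordconj : ∀ (h x : G), orderOf (h * x * h⁻¹) = orderOf x := fun h x =>
    orderOf_injective (MulAut.conj h).toMonoidHom (MulAut.conj h).injective x
  let act : MulAction G V :=
    { smul := fun g w => ⟨g * w.1 * g⁻¹, by rw [hordconj]; exact w.2⟩
      one_smul := fun w => Subtype.ext (by
        show (1 : G) * w.1 * (1 : G)⁻¹ = w.1
        group)
      mul_smul := fun g h w => Subtype.ext (by
        show (g * h) * w.1 * (g * h)⁻¹ = g * (h * w.1 * h⁻¹) * g⁻¹
        group) }
  have hsmul : ∀ (g : G) (w : V), ((g • w : V) : G) = g * (w : G) * g⁻¹ := fun g w => rfl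
  have hstab : ∀ w : V, MulAction.stabilizer G w = Subgroup.centralizer ({(w : G)} : Set G) := by
    intro w
    ext g
    rw [MulAction.mem_stabilizer_iff, CycNorm.mem_centralizer_singleton, ← hsmul]
    exact Subtype.ext_iff
  have hmain : ((p ^ s : ℕ) : ℤ) ∣ ∑ w : V, ((cnt p s (w : G) : ℕ) : ℤ) := by
    apply Cfsg.Agent.S4058.dvd_sum_of_orbits (H := G)
    · intro g w
      rw [hsmul, cnt_conj]
    · intro w
      rw [hstab, ← Nat.cast_mul]
      apply Int.natCast_dvd_natCast.2
      obtain ⟨Q⟩ : Nonempty (Sylow p (Subgroup.centralizer ({(w : G)} : Set G))) := inferInstance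
      by_cases hQ : IsCyclic Q
      · have h1 : p ^ (s - 1) ∣ cnt p s (w : G) := dvd_card_weak _ s (by omega)
        have h2 : p ∣ (Subgroup.centralizer ({(w : G)} : Set G)).index := by
          by_contra hnot
          apply hP
          -- the image of Q is a Sylow subgroup of G
          have h3 : ¬ p ∣ ((Q : Subgroup _).map (Subgroup.centralizer ({(w : G)} : Set G)).subtype).index := by
            rw [Subgroup.index_map_subtype]
            intro h4
            rcases (Nat.Prime.dvd_mul hp).1 h4 with h5 | h5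
            · exact Q.not_dvd_index h5
            · exact hnot h5
          let Q' : Sylow p G := (Q.isPGroup'.map (Subgroup.centralizer ({(w : G)} : Set G)).subtype).toSylow h3
          have e : (Q : Subgroup (Subgroup.centralizer ({(w : G)} : Set G))) ≃* (Q' : Subgroup G) :=
            (Q : Subgroup (Subgroup.centralizer ({(w : G)} : Set G))).equivMapOfInjective _
              (Subgroup.subtype_injective _)
          have h4 : IsCyclic Q' := by
            have := hQ
            exact isCyclic_of_surjective e e.surjective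
          exact isCyclic_of_surjective (Sylow.equiv Q' P) (Sylow.equiv Q' P).surjective
        have h3 : p ^ s = p ^ (s - 1) * p := by
          rw [← pow_succ]; congr 1; omega
        rw [h3]
        exact mul_dvd_mul h1 h2
      · exact Dvd.dvd.mul_right (dvd_card hodd _ Q hQ s hs) _
  have h2 : ((p ^ s : ℕ) : ℤ) ∣ ((∑ w : V, cnt p s (w : G) : ℕ) : ℤ) := by
    rw [Nat.cast_sum]; exact hmain
  exact Int.natCast_dvd_natCast.1 h2

end Cfsg.Agent.S4003
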