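import Cfsg.Statements.S4010
import Cfsg.Agent.Lib.GLDer67

set_option autoImplicit false
open Cfsg

namespace Cfsg.Agent.S4010

open Cfsg.Agent.Lib

/-- Let F be a field, n ≥ 1, and P a finite p-group (p a prime) admitting an injective homomorphism into the general linear group of degree n over F. Then the derived length of P is at most ⌊log₂ n⌋ + 1: that term of the derived series of P is trivial. -/
theorem result {P : Type*} [Group P] [Finite P] (p : ℕ) [Fact p.Prime] (hP : IsPGroup p P) (F : Type*) [Field F] (n : ℕ) (hn : 1 ≤ n) (ρ : P →* Matrix.GeneralLinearGroup (Fin n) F) (hρ : Function.Injective ρ) : derivedSeries P (Nat.log 2 n + 1) = ⊥ := by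
  rw [eq_bot_iff]
  intro g hg
  rw [Subgroup.mem_bot]
  apply hρ
  rw [map_one]
  by_cases hpF : (p : F) = 0
  · exact GLDer67.ker_of_char hP hpF ρ (Nat.lt_pow_succ_log_self (by norm_num) n).le hg
  · refine GLDer67.ker_of_coprime hP hpF ρ (derivedSeries_antitone P ?_ hg)
    have hp2 : 2 ≤ p := (Fact.out : p.Prime).two_le
    exact Nat.add_le_add_right (Nat.log_anti_left (by norm_num) hp2) 1

end Cfsg.Agent.S4010
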