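import Cfsg.Statements.S4013
import Mathlib.GroupTheory.GroupAction.ConjAct
import Mathlib.GroupTheory.PGroup
import Mathlib.Tactic

set_option autoImplicit false
open Cfsg

namespace Cfsg.Agent.S4013

theorem card_conj_dvd {G : Type*} [Group G] [Finite G] (g : G) :
    Nat.card {h : G | IsConj g h} ∣ Nat.card G := by
  classical
  have h0 : {h : G | IsConj g h} = MulAction.orbit (ConjAct G) g := by
    ext h
    rw [ConjAct.orbit_eq_carrier_conjClasses, Set.mem_ofPred_eq, ConjClasses.mem_carrier_iff_mk_eq,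
      ConjClasses.mk_eq_mk_iff_isConj]
    exact ⟨fun h => h.symm, fun h => h.symm⟩
  rw [h0]
  have h1 : Nat.card G = Nat.card (ConjAct G) := Nat.card_congr (ConjAct.toConjAct (G := G)).toEquiv
  rw [h1, Nat.card_congr (MulAction.orbitEquivQuotientStabilizer (ConjAct G) g)]
  exact Subgroup.card_quotient_dvd_card _

/-- Let G be a finite p-group (p prime) and N < M normal subgroups of G such that for some g ∈ M ∖ N the conjugacy class of g is exactly M ∖ N. Then p = 2 and N has index 2 in M. -/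
theorem result {G : Type*} [Group G] [Finite G] (p : ℕ) [Fact p.Prime] (hG : IsPGroup p G) (N M : Subgroup G) [N.Normal] [M.Normal] (hNM : N < M) (g : G) (hgM : g ∈ M) (hgN : g ∉ N) (hcl : {h : G | IsConj g h} = (M : Set G) \ (N : Set G)) : p = 2 ∧ N.relIndex M = 2 := by
  classical
  have hp : p.Prime := Fact.out
  obtain ⟨n, hn⟩ := IsPGroup.iff_card.mp hG
  have h1 := card_conj_dvd g
  rw [hcl, hn] at h1
  obtain ⟨k, -, hk⟩ := (Nat.dvd_prime_pow hp).1 h1
  have h2 : Nat.card ((M : Set G) \ (N : Set G) : Set G) + Nat.card N = Nat.card M := by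
    have := Set.ncard_sdiff_add_ncard_of_subset (s := (N : Set G)) (t := (M : Set G)) (by exact hNM.le) (Set.toFinite _)
    exact this
  have h3 : Nat.card N * N.relIndex M = Nat.card M := by
    have := Subgroup.relIndex_mul_relIndex (⊥ : Subgroup G) N M bot_le hNM.le
    simpa using this
  have h4 : N.relIndex M ∣ Nat.card G := by
    have : N.relIndex M ∣ Nat.card M := ⟨Nat.card N, by rw [← h3, mul_comm]⟩
    exact this.trans (Subgroup.card_subgroup_dvd_card M)
  rw [hn] at h4
  obtain ⟨j, -, hj⟩ := (Nat.dvd_prime_pow hp).1 h4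
  have hNpos : 0 < Nat.card N := Nat.card_pos
  have h5 : Nat.card N * (p ^ j - 1) = p ^ k := by
    rw [← hk, ← hj]
    rw [Nat.mul_sub, h3]
    omega
  have hj0 : j ≠ 0 := by
    rintro rfl
    rw [pow_zero] at hj
    exact absurd (Subgroup.relIndex_eq_one.1 hj) (not_le_of_gt hNM)
  have h6 : p ^ j - 1 ∣ p ^ k := ⟨Nat.card N, by rw [← h5, mul_comm]⟩
  obtain ⟨i, -, hi⟩ := (Nat.dvd_prime_pow hp).1 h6
  have hpj : 2 ≤ p ^ j := by
    calc 2 ≤ p := hp.two_le
      _ = p ^ 1 := (pow_one p).symm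
      _ ≤ p ^ j := Nat.pow_le_pow_right hp.pos (Nat.one_le_iff_ne_zero.2 hj0)
  have hi0 : i = 0 := by
    by_contra hi0
    have ha : p ∣ p ^ i := dvd_pow_self p hi0
    have hb : p ∣ p ^ j := dvd_pow_self p hj0
    rw [← hi] at ha
    have : p ∣ 1 := by
      have := (Nat.dvd_sub hb ha)
      rwa [Nat.sub_sub_self (by omega)] at this
    exact hp.one_lt.ne' (Nat.dvd_one.1 this)
  rw [hi0, pow_zero] at hi
  have h7 : p ^ j = 2 := by omega
  refine ⟨?_, by rw [hj, h7]⟩
  have : p ∣ 2 := by rw [← h7]; exact dvd_pow_self p hj0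
  exact (Nat.prime_dvd_prime_iff_eq hp Nat.prime_two).1 this

end Cfsg.Agent.S4013
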