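import Cfsg.Statements.S4014
import Cfsg.Agent.Lib.WreathDer67

set_option autoImplicit false
open Cfsg

namespace Cfsg.Agent.S4014

open Cfsg.Agent.Lib

/-- Let p be a prime, n ≥ 1, and P a Sylow p-subgroup of the symmetric group on n letters. Then the derived length of P is exactly k = ⌊log_p n⌋ (the largest k with p^k ≤ n): the k-th derived subgroup of P is trivial and, when k ≥ 1, the (k−1)-st is not. -/
theorem result (p : ℕ) [Fact p.Prime] (n : ℕ) (hn : 1 ≤ n) (P : Sylow p (Equiv.Perm (Fin n))) : derivedSeries ↥(P : Subgroup (Equiv.Perm (Fin n))) (Nat.log p n) = ⊥ ∧ (1 ≤ Nat.log p n → derivedSeries ↥(P : Subgroup (Equiv.Perm (Fin n))) (Nat.log p n - 1) ≠ ⊥) := by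
  classical
  have hp : p.Prime := Fact.out
  refine ⟨?_, ?_⟩
  · rw [eq_bot_iff]
    intro g hg
    rw [Subgroup.mem_bot]
    apply Subtype.ext
    apply Equiv.ext
    intro x
    -- the stabilizer of `x`
    set H : Subgroup (P : Subgroup (Equiv.Perm (Fin n))) := MulAction.stabilizer (P : Subgroup (Equiv.Perm (Fin n))) x with hH
    have hidx : H.index = Nat.card (MulAction.orbit (P : Subgroup (Equiv.Perm (Fin n))) x) := by
      rw [hH, MulAction.index_stabilizer]; rfl
    obtain ⟨i, hi⟩ : ∃ i, H.index = p ^ i := by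
      obtain ⟨m, hm⟩ := IsPGroup.iff_card.1 P.isPGroup'
      obtain ⟨i, -, hi⟩ := (Nat.dvd_prime_pow hp).1 (hm ▸ H.index_dvd_card)
      exact ⟨i, hi⟩
    have hle : p ^ i ≤ n := by
      rw [← hi, hidx]
      have h1 : Nat.card (MulAction.orbit (P : Subgroup (Equiv.Perm (Fin n))) x) ≤ Nat.card (Fin n) :=
        Finite.card_subtype_le _
      simpa using h1
    have hilog : i ≤ Nat.log p n := Nat.le_log_of_pow_le hp.one_lt hle
    have h1 : derivedSeries (P : Subgroup (Equiv.Perm (Fin n))) (Nat.log p n) ≤ H :=
      (derivedSeries_antitone _ hilog).trans (WreathDer67.derivedSeries_le_of_index i P.isPGroup' H hi)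
    exact h1 hg
  · intro hk
    obtain ⟨k, hk'⟩ : ∃ k, Nat.log p n = k + 1 := ⟨Nat.log p n - 1, by omega⟩
    rw [hk', Nat.add_sub_cancel]
    -- the iterated wreath product embeds
    let C := Multiplicative (ZMod p)
    have hC : Nat.card C = p := by
      show Nat.card (ZMod p) = p
      exact Nat.card_zmod p
    have hCfin : Finite C := Nat.finite_of_card_ne_zero (by rw [hC]; exact hp.ne_zero)
    have hCnt : Nontrivial C := Finite.one_lt_card_iff_nontrivial.1 (by rw [hC]; exact hp.one_lt)
    let W := IteratedWreathProduct C (k + 1)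
    have hW : derivedSeries W k ≠ ⊥ := WreathDer67.derivedSeries_iterated_ne_bot C k
    have hcardle : Nat.card (Fin (k + 1) → C) ≤ Nat.card (Fin n) := by
      rw [Nat.card_fun, hC, Nat.card_fin, Nat.card_fin, ← hk']
      exact Nat.pow_log_le_self p (by omega)
    have : Fintype (Fin (k + 1) → C) := Fintype.ofFinite _
    obtain ⟨ι⟩ : Nonempty ((Fin (k + 1) → C) ↪ Fin n) := by
      apply Function.Embedding.nonempty_of_card_le
      rw [← Nat.card_eq_fintype_card, ← Nat.card_eq_fintype_card]
      exact hcardle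
    let f : W →* Equiv.Perm (Fin n) := (Equiv.Perm.viaEmbeddingHom ι).comp (iteratedWreathToPermHom C (k + 1))
    have hf : Function.Injective f :=
      (Equiv.Perm.viaEmbeddingHom_injective ι).comp (iteratedWreathToPermHomInj C (k + 1))
    have hWp : IsPGroup p W := by
      apply IsPGroup.of_card (n := ∑ i ∈ Finset.range (k + 1), Nat.card C ^ i)
      show Nat.card (IteratedWreathProduct C (k + 1)) = _
      rw [IteratedWreathProduct.card, hC]
    have hrange : IsPGroup p f.range := hWp.of_surjective f.rangeRestrict f.rangeRestrict_surjective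
    obtain ⟨Q, hQ⟩ := hrange.exists_le_sylow
    let e : Q ≃* P := Q.equiv P
    let f' : W →* P := e.toMonoidHom.comp ((Subgroup.inclusion hQ).comp f.rangeRestrict)
    have hf' : Function.Injective f' := by
      refine e.injective.comp ((Subgroup.inclusion_injective hQ).comp ?_)
      exact (MonoidHom.rangeRestrict_injective_iff).2 hf
    intro hbot
    apply hW
    have h1 := map_derivedSeries_le_derivedSeries f' k
    have h2 : derivedSeries (P : Subgroup (Equiv.Perm (Fin n))) k = ⊥ := hbot
    have h3 : (derivedSeries W k).map f' ≤ ⊥ := h2 ▸ h1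
    rw [le_bot_iff, Subgroup.map_eq_bot_iff_of_injective _ hf'] at h3
    exact h3

end Cfsg.Agent.S4014
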