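import Cfsg.Statements.S4015
import Cfsg.Agent.Lib.GLCross67

set_option autoImplicit false
open Cfsg

namespace Cfsg.Agent.S4015

open Cfsg.Agent.Lib

/-- Let p be an odd prime, F a finite field with q elements where p does not divide q, and e the multiplicative order of q modulo p. Let n ≥ e and write w = ⌊n/e⌋ and k = ⌊log_p w⌋. Then a Sylow p-subgroup of GL(n, F) has derived length exactly k + 1: its (k+1)-st derived subgroup is trivial and its k-th is not. -/
theorem result (p : ℕ) [Fact p.Prime] (hp : p ≠ 2) (F : Type*) [Field F] [Fintype F] (q : ℕ) (hq : Fintype.card F = q) (hpq : ¬ p ∣ q) (n : ℕ) (hn : orderOf (q : ZMod p) ≤ n) (P : Sylow p (Matrix.GeneralLinearGroup (Fin n) F)) : derivedSeries ↥(P : Subgroup (Matrix.GeneralLinearGroup (Fin n) F)) (Nat.log p (n / orderOf (q : ZMod p)) + 1) = ⊥ ∧ derivedSeries ↥(P : Subgroup (Matrix.GeneralLinearGroup (Fin n) F)) (Nat.log p (n / orderOf (q : ZMod p))) ≠ ⊥ := by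
  have hprime : p.Prime := Fact.out
  rw [← Nat.card_eq_fintype_card] at hq
  subst hq
  have he0 : 0 < orderOf (Nat.card F : ZMod p) := GLCross67.orderOf_card_pos hpq
  constructor
  · rw [eq_bot_iff]
    intro g hg
    rw [Subgroup.mem_bot]
    have h1 := GLCross67.trivial_cross p hpq n (P := P) P.2 (V := Fin n → F)
      (GLDer67.glRep (P : Subgroup (Matrix.GeneralLinearGroup (Fin n) F)).subtype) (by simp) g hg
    exact Subtype.ext (GLDer67.glRep_eq_one h1)
  · set k := Nat.log p (n / orderOf (Nat.card F : ZMod p)) with hk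
    have hle : orderOf (Nat.card F : ZMod p) * p ^ k ≤ n := by
      have h1 : p ^ k ≤ n / orderOf (Nat.card F : ZMod p) :=
        Nat.pow_log_le_self p (Nat.div_pos hn he0).ne'
      calc orderOf (Nat.card F : ZMod p) * p ^ k ≤ orderOf (Nat.card F : ZMod p) * (n / orderOf (Nat.card F : ZMod p)) :=
            Nat.mul_le_mul_left _ h1
        _ ≤ n := Nat.mul_div_le _ _
    obtain ⟨D, _, _, hD, hDk, f, hf⟩ := GLCross67.exists_hom p hpq k n hle
    have hDr : IsPGroup p f.range := hD.of_surjective f.rangeRestrict f.rangeRestrict_surjective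
    obtain ⟨Q, hQ⟩ := hDr.exists_le_sylow
    have h1 : derivedSeries f.range k ≠ ⊥ :=
      GLCross67.derivedSeries_ne_bot_of_injective (f := f.rangeRestrict) (by
        intro a b hab
        exact hf (congrArg Subtype.val hab)) hDk
    have h2 : derivedSeries Q k ≠ ⊥ :=
      GLCross67.derivedSeries_ne_bot_of_injective (f := Subgroup.inclusion hQ) (Subgroup.inclusion_injective hQ) h1
    exact GLCross67.derivedSeries_ne_bot_of_injective (f := (Sylow.equiv Q P).toMonoidHom) (Sylow.equiv Q P).injective h2

end Cfsg.Agent.S4015
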