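import Cfsg.Statements.S4027
import Cfsg.Agent.Lib.TwoClosed

set_option autoImplicit false
open Cfsg

namespace Cfsg.Agent.S4027

open Cfsg.Agent.Lib.CycNorm Cfsg.Agent.Lib.RealElems

/-- Let G be a finite group in which every element x of odd order satisfies N_G(⟨x⟩) = C_G(x). Then the Sylow 2-subgroups of G are normal. -/
theorem result {G : Type*} [Group G] [Finite G]
    (hirr : ∀ x : G, (∀ r : ℕ, r.Prime → r ∣ orderOf x → r ≠ 2) →
      Subgroup.normalizer ((Subgroup.zpowers x : Subgroup G) : Set G) ≤ Subgroup.centralizer {x}) (P : Sylow 2 G) :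
    (P : Subgroup G).Normal := by
  refine Cfsg.Agent.Lib.TwoClosed.sylow_two_normal (Nat.card G) G le_rfl (fun x hodd hreal => ?_) P
  obtain ⟨c, hc⟩ := isConj_iff.1 hreal
  have h1 : c ∈ Subgroup.normalizer ((Subgroup.zpowers x : Subgroup G) : Set G) := by
    rw [mem_normalizer_zpowers_iff, hc]
    exact inv_mem (Subgroup.mem_zpowers x)
  have h2 := hirr x (fun r hr hrd h2 => by
    subst h2
    exact (Nat.not_even_iff_odd.2 hodd) (even_iff_two_dvd.2 hrd)) h1
  rw [mem_centralizer_singleton, hc] at h2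
  apply eq_one_of_sq_of_odd _ hodd
  rw [pow_two]
  nth_rewrite 1 [← h2]
  exact inv_mul_cancel x

end Cfsg.Agent.S4027
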