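import Cfsg.Statements.S4028
import Cfsg.Agent.Lib.H32Basic
import Cfsg.Agent.Lib.CycNorm

set_option autoImplicit false
open Cfsg

namespace Cfsg.Agent.S4028

open Cfsg.Agent.Lib.H32Basic Cfsg.Agent.Lib.CycNorm

theorem exists_orderOf_eq_two_pow {G : Type*} [Group G] [Finite G] {x : G}
    (hx : ∀ r : ℕ, r.Prime → r ∣ orderOf x → r = 2) : ∃ k, orderOf x = 2 ^ k := by
  refine ⟨_, Nat.eq_prime_pow_of_unique_prime_dvd (orderOf_pos x).ne' (fun {r} hr hrd => hx r hr hrd)⟩

/-- Let G be a finite group with Sylow 2-subgroup P. Then N_G(⟨x⟩) = C_G(x) holds for every 2-element x of G if and only if N_P(⟨y⟩) = C_P(y) holds for every y ∈ P (computed inside P). -/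
theorem result {G : Type*} [Group G] [Finite G] (P : Sylow 2 G) :
    (∀ x : G, (∀ r : ℕ, r.Prime → r ∣ orderOf x → r = 2) →
      Subgroup.normalizer ((Subgroup.zpowers x : Subgroup G) : Set G) ≤ Subgroup.centralizer {x}) ↔
    (∀ y : ↥(P : Subgroup G), Subgroup.normalizer ((Subgroup.zpowers y : Subgroup ↥(P : Subgroup G)) : Set ↥(P : Subgroup G)) ≤
        Subgroup.centralizer {y}) := by
  constructor
  · intro h y g hg
    rw [mem_normalizer_zpowers_iff, Subgroup.mem_zpowers_iff] at hg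
    obtain ⟨k, hk⟩ := hg
    have h1 : (g : G) ∈ Subgroup.normalizer ((Subgroup.zpowers (y : G) : Subgroup G) : Set G) := by
      rw [mem_normalizer_zpowers_iff, Subgroup.mem_zpowers_iff]
      exact ⟨k, by rw [← Subgroup.coe_zpow, hk]; rfl⟩
    have h2 := h (y : G) (fun r hr hrd => ?_) h1
    · rw [mem_centralizer_singleton] at h2 ⊢
      exact Subtype.ext h2
    · obtain ⟨j, hj⟩ := (IsPGroup.iff_orderOf.1 P.2) y
      rw [Subgroup.orderOf_coe, hj] at hrd
      exact (Nat.prime_dvd_prime_iff_eq hr Nat.prime_two).1 (hr.dvd_of_dvd_pow hrd)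
  · intro h x hx g hg
    obtain ⟨k, hk⟩ := exists_orderOf_eq_two_pow hx
    -- 2-elements normalizing centralize
    have key : ∀ t : G, (∃ j, orderOf t = 2 ^ j) → t * x * t⁻¹ ∈ Subgroup.zpowers x → t * x * t⁻¹ = x := by
      rintro t ⟨j, hj⟩ ht
      have h1 : IsPGroup 2 (Subgroup.zpowers t) := by
        apply IsPGroup.of_card (n := j); rw [Nat.card_zpowers, hj]
      have h2 : IsPGroup 2 (Subgroup.zpowers x) := by
        apply IsPGroup.of_card (n := k); rw [Nat.card_zpowers, hk]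
      have h3 : Subgroup.zpowers t ≤ Subgroup.normalizer ((Subgroup.zpowers x : Subgroup G) : Set G) := by
        rw [Subgroup.zpowers_le, mem_normalizer_zpowers_iff]; exact ht
      have h4 := h1.to_sup_of_normal_right' h2 h3
      obtain ⟨c, -, hc⟩ := exists_conj_le_sylow_of_le P ⊤ le_top _ le_top h4
      have hxP := hc x (Subgroup.mem_sup_right (Subgroup.mem_zpowers x))
      have htP := hc t (Subgroup.mem_sup_left (Subgroup.mem_zpowers t))
      obtain ⟨m, hm⟩ := Subgroup.mem_zpowers_iff.1 ht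
      have h5 : (⟨_, htP⟩ : (P : Subgroup G)) ∈ Subgroup.normalizer ((Subgroup.zpowers (⟨_, hxP⟩ : (P : Subgroup G)) : Subgroup ↥(P : Subgroup G)) : Set ↥(P : Subgroup G)) := by
        rw [mem_normalizer_zpowers_iff, Subgroup.mem_zpowers_iff]
        refine ⟨m, Subtype.ext ?_⟩
        show (c * x * c⁻¹) ^ m = (c * t * c⁻¹) * (c * x * c⁻¹) * (c * t * c⁻¹)⁻¹
        rw [conj_zpow, hm]; group
      have h6 := h _ h5
      rw [mem_centralizer_singleton] at h6
      have h7 : (c * t * c⁻¹) * (c * x * c⁻¹) * (c * t * c⁻¹)⁻¹ = c * x * c⁻¹ := congrArg Subtype.val h6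
      have h8 : c * (t * x * t⁻¹) * c⁻¹ = c * x * c⁻¹ := by rw [← h7]; group
      exact mul_left_cancel (mul_right_cancel h8)
    obtain ⟨a, b, ⟨j, hj⟩, hb, hgab⟩ := exists_parts 2 Nat.prime_two g
    have hga : g ^ a ∈ Subgroup.normalizer ((Subgroup.zpowers x : Subgroup G) : Set G) := pow_mem hg a
    have hgb : g ^ b ∈ Subgroup.normalizer ((Subgroup.zpowers x : Subgroup G) : Set G) := pow_mem hg b
    rw [hgab]
    refine mul_mem ?_ ?_
    · rw [mem_centralizer_singleton]
      exact key _ ⟨j, hj⟩ (mem_normalizer_zpowers_iff.1 hga)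
    · rw [mem_centralizer_singleton]
      exact odd_centralizes hk (Nat.coprime_two_right.1 hb) (mem_normalizer_zpowers_iff.1 hgb)

end Cfsg.Agent.S4028
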