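import Cfsg.Statements.S4029
import Cfsg.Agent.Lib.CycNorm
import Cfsg.Agent.Lib.RealElems
import Cfsg.Agent.Lib.H70Frattini

set_option autoImplicit false
open Cfsg

namespace Cfsg.Agent.S4029

open Cfsg.Agent.Lib.CycNorm Cfsg.Agent.Lib.RealElems

theorem class_sum {P : Type*} [Group P] [Fintype P] [DecidableEq P] [DecidableEq (ConjClasses P)]
    (c : ConjClasses P) :
    ∑ x ∈ Finset.univ.filter (fun x : P => ConjClasses.mk x = c),
      (Finset.univ.filter (fun g : P => g * x * g⁻¹ = x)).card = Fintype.card P := by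
  classical
  obtain ⟨x0, rfl⟩ := ConjClasses.exists_rep c
  set K := Finset.univ.filter (fun x : P => ConjClasses.mk x = ConjClasses.mk x0) with hK
  have hKpos : 0 < K.card := Finset.card_pos.2 ⟨x0, by simp [hK]⟩
  have h1 : ∀ x ∈ K, (Finset.univ.filter (fun g : P => g * x * g⁻¹ = x)).card * K.card = Fintype.card P := by
    intro x hx
    simp only [hK, Finset.mem_filter, Finset.mem_univ, true_and] at hx
    have h2 : K.card = Nat.card {h : P // IsConj x h} := by
      rw [Nat.card_eq_fintype_card, Fintype.card_subtype]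
      congr 1
      ext y
      simp only [hK, Finset.mem_filter, Finset.mem_univ, true_and]
      rw [← hx, ConjClasses.mk_eq_mk_iff_isConj]
      exact ⟨fun h => h.symm, fun h => h.symm⟩
    have h3 : (Finset.univ.filter (fun g : P => g * x * g⁻¹ = x)).card = Nat.card (Subgroup.centralizer ({x} : Set P)) := by
      rw [Nat.card_eq_fintype_card, Fintype.card_of_subtype]
      intro g
      rw [mem_centralizer_singleton]
      simp
    rw [h2, h3, card_class, Subgroup.card_mul_index, Nat.card_eq_fintype_card]
  apply Nat.eq_of_mul_eq_mul_right hKpos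
  rw [Finset.sum_mul, Finset.sum_congr rfl h1, Finset.sum_const, smul_eq_mul, mul_comm]

/-- The number of classes of involutions is at least `|P / Φ(P)| - 1`. -/
theorem main_card {P : Type*} [Group P] [Finite P] (hP : IsPGroup 2 P)
    (hirr : ∀ y : P, Subgroup.normalizer ((Subgroup.zpowers y : Subgroup P) : Set P) ≤ Subgroup.centralizer {y}) :
    Nat.card (P ⧸ frattini P) ≤ Nat.card {c : ConjClasses P // ∃ y : P, ConjClasses.mk y = c ∧ orderOf y = 2} + 1 := by
  classical
  have := Fintype.ofFinite P
  have : Fintype (ConjClasses P) := Fintype.ofFinite _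
  -- the pairs
  let A : Finset (P × P) := Finset.univ.filter fun p => p.2 * p.1 * p.2⁻¹ = p.1⁻¹
  let B : Finset (P × P) := Finset.univ.filter fun p => p.1 ^ 2 = p.2 ^ 2
  have hAB : A.card = B.card := by
    refine Finset.card_bij' (fun p _ => (p.2, p.2 * p.1)) (fun q _ => (q.1⁻¹ * q.2, q.1)) ?_ ?_ ?_ ?_
    · rintro ⟨x, g⟩ h
      simp only [A, B, Finset.mem_filter, Finset.mem_univ, true_and] at h ⊢
      have h1 : g * x = x⁻¹ * g := by rw [← h]; group
      have h2 : g * x⁻¹ = x * g := by
        have h3 : g * x⁻¹ * g⁻¹ = x := by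
          calc g * x⁻¹ * g⁻¹ = (g * x * g⁻¹)⁻¹ := by group
            _ = x := by rw [h, inv_inv]
        nth_rewrite 2 [← h3]; group
      symm
      calc (g * x) ^ 2 = (g * x) * (g * x) := pow_two _
        _ = (x⁻¹ * g) * (x⁻¹ * g) := by rw [h1]
        _ = x⁻¹ * (g * x⁻¹) * g := by group
        _ = x⁻¹ * (x * g) * g := by rw [h2]
        _ = g ^ 2 := by rw [pow_two]; group
    · rintro ⟨g, u⟩ h
      simp only [A, B, Finset.mem_filter, Finset.mem_univ, true_and] at h ⊢
      calc g * (g⁻¹ * u) * g⁻¹ = u⁻¹ * (u ^ 2) * g⁻¹ := by group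
        _ = u⁻¹ * (g ^ 2) * g⁻¹ := by rw [h]
        _ = (g⁻¹ * u)⁻¹ := by group
    · rintro ⟨x, g⟩ h
      simp
    · rintro ⟨g, u⟩ h
      simp
  let r : P → ℕ := fun h => (Finset.univ.filter fun g : P => g ^ 2 = h).card
  let F : Finset P := Finset.univ.filter fun h => h ∈ frattini P
  have hFcard : F.card = Nat.card (frattini P) := by
    rw [Nat.card_eq_fintype_card, Fintype.card_of_subtype]
    intro g; simp [F]
  have hsq : ∀ g : P, g ^ 2 ∈ F := by
    intro g
    simp only [F, Finset.mem_filter, Finset.mem_univ, true_and]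
    exact Cfsg.Agent.Lib.H70Frattini.pow_mem_frattini hP g
  have hr1 : ∑ h ∈ F, r h = Fintype.card P := by
    rw [← Finset.card_univ]
    exact (Finset.card_eq_sum_card_fiberwise (s := Finset.univ) (t := F) (f := fun g : P => g ^ 2) (fun g _ => hsq g)).symm
  have hr2 : ∑ h ∈ F, r h ^ 2 = B.card := by
    rw [Finset.card_eq_sum_card_fiberwise (s := B) (t := F) (f := fun p : P × P => p.1 ^ 2) (fun p _ => hsq p.1)]
    refine Finset.sum_congr rfl (fun h _ => ?_)
    rw [pow_two, ← Finset.card_product]
    congr 1
    ext ⟨g, u⟩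
    simp only [B, Finset.mem_product, Finset.mem_filter, Finset.mem_univ, true_and]
    constructor
    · rintro ⟨h1, h2⟩; exact ⟨h1.trans h2.symm, h1⟩
    · rintro ⟨h1, h2⟩; exact ⟨h2, h1 ▸ h2⟩
  have hCS : (∑ h ∈ F, r h) ^ 2 ≤ F.card * ∑ h ∈ F, r h ^ 2 := sq_sum_le_card_mul_sum_sq
  rw [hr1, hr2, ← hAB, hFcard] at hCS
  -- upper bound for A
  set T : Finset (ConjClasses P) := Finset.univ.filter (fun c => ∃ y : P, ConjClasses.mk y = c ∧ y ^ 2 = 1) with hT
  have hA1 : ∀ p ∈ A, (p.1) ^ 2 = 1 := by
    rintro ⟨x, g⟩ h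
    simp only [A, Finset.mem_filter, Finset.mem_univ, true_and] at h
    have h1 : g ∈ Subgroup.normalizer ((Subgroup.zpowers x : Subgroup P) : Set P) := by
      rw [mem_normalizer_zpowers_iff, h]
      exact inv_mem (Subgroup.mem_zpowers x)
    have h2 := hirr x h1
    rw [mem_centralizer_singleton, h] at h2
    show x ^ 2 = 1
    rw [pow_two]
    nth_rewrite 1 [← h2]
    exact inv_mul_cancel x
  have hA2 : A.card ≤ T.card * Fintype.card P := by
    rw [Finset.card_eq_sum_card_fiberwise (s := A) (t := T) (f := fun p : P × P => ConjClasses.mk p.1)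
      (fun p hp => by
        simp only [hT, Finset.coe_filter, Finset.mem_univ, true_and, Set.mem_ofPred_eq]
        exact ⟨p.1, rfl, hA1 p hp⟩)]
    rw [← smul_eq_mul, ← Finset.sum_const]
    refine Finset.sum_le_sum (fun c _ => ?_)
    rw [← class_sum c, Finset.card_eq_sum_card_fiberwise (t := Finset.univ.filter (fun x : P => ConjClasses.mk x = c))
      (f := fun p : P × P => p.1) (fun p hp => by
        simp only [Finset.coe_filter, Finset.mem_univ, true_and, Set.mem_ofPred_eq] at hp ⊢
        exact hp.2)]
    refine Finset.sum_le_sum (fun x _ => ?_)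
    refine Finset.card_le_card_of_injOn (fun p => p.2) ?_ ?_
    · rintro ⟨y, g⟩ hp
      simp only [Finset.coe_filter, Finset.mem_filter, Finset.mem_univ, true_and, Set.mem_ofPred_eq] at hp ⊢
      obtain ⟨⟨h1, h2⟩, rfl⟩ := hp
      have h3 := hA1 _ h1
      simp only [A, Finset.mem_filter, Finset.mem_univ, true_and] at h1
      rw [h1]
      exact inv_eq_iff_mul_eq_one.2 (by rw [← pow_two]; exact h3)
    · rintro ⟨y, g⟩ hp ⟨y', g'⟩ hp' h
      simp only [Finset.coe_filter, Finset.mem_filter, Set.mem_ofPred_eq] at hp hp' h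
      rw [hp.2, hp'.2, h]
  have hT2 : T.card ≤ Nat.card {c : ConjClasses P // ∃ y : P, ConjClasses.mk y = c ∧ orderOf y = 2} + 1 := by
    rw [Nat.card_eq_fintype_card, Fintype.card_subtype]
    have hsub : T ⊆ insert (ConjClasses.mk 1) (Finset.univ.filter (fun c : ConjClasses P => ∃ y : P, ConjClasses.mk y = c ∧ orderOf y = 2)) := by
      intro c hc
      simp only [hT, Finset.mem_filter, Finset.mem_univ, true_and] at hc
      obtain ⟨y, rfl, hy⟩ := hc
      rw [Finset.mem_insert]
      by_cases h1 : y = 1
      · left; rw [h1]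
      · right
        simp only [Finset.mem_filter, Finset.mem_univ, true_and]
        exact ⟨y, rfl, orderOf_eq_prime hy h1⟩
    exact (Finset.card_le_card hsub).trans (Finset.card_insert_le _ _)
  have hidx : Nat.card (P ⧸ frattini P) * Nat.card (frattini P) = Fintype.card P := by
    rw [← Nat.card_eq_fintype_card]
    exact (Subgroup.card_eq_card_quotient_mul_card_subgroup _).symm
  have hPpos : 0 < Fintype.card P := Fintype.card_pos
  have hΦpos : 0 < Nat.card (frattini P) := Nat.card_pos
  refine le_trans ?_ hT2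
  have h5 : Fintype.card P * Fintype.card P ≤ (Nat.card (frattini P) * T.card) * Fintype.card P := by
    calc Fintype.card P * Fintype.card P = Fintype.card P ^ 2 := (pow_two _).symm
      _ ≤ Nat.card (frattini P) * A.card := hCS
      _ ≤ Nat.card (frattini P) * (T.card * Fintype.card P) := Nat.mul_le_mul_left _ hA2
      _ = _ := by ring
  have h6 := Nat.le_of_mul_le_mul_right h5 hPpos
  rw [← hidx, mul_comm] at h6
  exact Nat.le_of_mul_le_mul_left h6 hΦpos

/-- Let P be a finite 2-group in which N_P(⟨y⟩) = C_P(y) for every y ∈ P. If s is the number of conjugacy classes of involutions of P, then #(P/Φ(P)) ≤ s + 1; in particular the subgroup generated by the involutions of P has order at least #(P/Φ(P)). -/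
theorem result {P : Type*} [Group P] [Finite P] (hP : IsPGroup 2 P)
    (hirr : ∀ y : P, Subgroup.normalizer ((Subgroup.zpowers y : Subgroup P) : Set P) ≤ Subgroup.centralizer {y}) :
    Nat.card (P ⧸ frattini P) ≤ Nat.card {c : ConjClasses P // ∃ y : P, ConjClasses.mk y = c ∧ orderOf y = 2} + 1 ∧
    Nat.card (P ⧸ frattini P) ≤ Nat.card (Subgroup.closure {y : P | orderOf y = 2}) := by
  classical
  refine ⟨main_card hP hirr, (main_card hP hirr).trans ?_⟩
  -- s + 1 ≤ number of elements of the subgroup
  let f : Option {c : ConjClasses P // ∃ y : P, ConjClasses.mk y = c ∧ orderOf y = 2} →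
      Subgroup.closure {y : P | orderOf y = 2} := fun o =>
    match o with
    | none => 1
    | some c => ⟨c.2.choose, Subgroup.subset_closure c.2.choose_spec.2⟩
  have hf : Function.Injective f := by
    intro a b hab
    rcases a with _ | a <;> rcases b with _ | b
    · rfl
    · exfalso
      have h1 : (1 : P) = b.2.choose := congrArg Subtype.val hab
      have h2 := b.2.choose_spec.2
      rw [← h1, orderOf_one] at h2
      omega
    · exfalso
      have h1 : a.2.choose = (1 : P) := congrArg Subtype.val hab
      have h2 := a.2.choose_spec.2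
      rw [h1, orderOf_one] at h2
      omega
    · have h1 : a.2.choose = b.2.choose := congrArg Subtype.val hab
      congr 1
      apply Subtype.ext
      rw [← a.2.choose_spec.1, ← b.2.choose_spec.1, h1]
  have := Nat.card_le_card_of_injective f hf
  rwa [Finite.card_option] at this

end Cfsg.Agent.S4029
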