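import Cfsg.Statements.S4032
import Cfsg.Agent.Lib.CycNorm
import Cfsg.Agent.Lib.SylowCyc

set_option autoImplicit false
open Cfsg

namespace Cfsg.Agent.S4032

open Cfsg.Agent.Lib.CycNorm Cfsg.Agent.Lib.SylowCyc

theorem prime_part {G : Type*} [Group G] [Finite G] (π : Set ℕ)
    (hirr : ∀ x : G, (∀ r : ℕ, r.Prime → r ∣ orderOf x → r ∈ π) →
      Subgroup.normalizer ((Subgroup.zpowers x : Subgroup G) : Set G) ≤ Subgroup.centralizer {x})
    (N : Subgroup G) [N.Normal] (hN : ∀ r : ℕ, r.Prime → r ∣ Nat.card N → r ∉ π)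
    (p : ℕ) (hp : p.Prime) (hpπ : p ∈ π) (y g : G ⧸ N) (k : ℕ) (hy : orderOf y = p ^ k)
    (hg : g * y * g⁻¹ ∈ Subgroup.zpowers y) : g * y * g⁻¹ = y := by
  have hpN : ¬ p ∣ Nat.card N := fun h => hN p hp h hpπ
  obtain ⟨x, rfl, j, hj⟩ := exists_lift_pElement N p hp y hy
  obtain ⟨g, rfl⟩ := QuotientGroup.mk_surjective g
  obtain ⟨h, hh, hh'⟩ := exists_mul_mem_normalizer N p hp hpN hj (g := g) (by simpa using hg)
  have h1 := hirr x (fun r hr hrd => by
    rw [hj] at hrd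
    rwa [(Nat.prime_dvd_prime_iff_eq hr hp).1 (hr.dvd_of_dvd_pow hrd)])
    (mem_normalizer_zpowers_iff.2 hh')
  rw [mem_centralizer_singleton] at h1
  have h2 : ((h : G ⧸ N) * g) * x * ((h : G ⧸ N) * g)⁻¹ = x := by
    have := congrArg (QuotientGroup.mk : G → G ⧸ N) h1
    simpa using this
  obtain ⟨m, hm⟩ := Subgroup.mem_zpowers_iff.1 hh
  have h3 : (g : G ⧸ N) * x * (g : G ⧸ N)⁻¹ = (h : G ⧸ N)⁻¹ * x * h := by
    calc (g : G ⧸ N) * x * (g : G ⧸ N)⁻¹ = (h : G ⧸ N)⁻¹ * (((h : G ⧸ N) * g) * x * ((h : G ⧸ N) * g)⁻¹) * h := by group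
      _ = _ := by rw [h2]
  rw [h3, ← hm]
  group

/-- Let π be a set of primes and G a finite group in which N_G(⟨x⟩) = C_G(x) for every π-element x. If N is a normal subgroup of G whose order is divisible by no prime of π, then G/N has the same property: N_{G/N}(⟨y⟩) = C_{G/N}(y) for every π-element y of G/N. -/
theorem result {G : Type*} [Group G] [Finite G] (π : Set ℕ)
    (hirr : ∀ x : G, (∀ r : ℕ, r.Prime → r ∣ orderOf x → r ∈ π) →
      Subgroup.normalizer ((Subgroup.zpowers x : Subgroup G) : Set G) ≤ Subgroup.centralizer {x})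
    (N : Subgroup G) [N.Normal] (hN : ∀ r : ℕ, r.Prime → r ∣ Nat.card N → r ∉ π) :
    ∀ y : G ⧸ N, (∀ r : ℕ, r.Prime → r ∣ orderOf y → r ∈ π) →
      Subgroup.normalizer ((Subgroup.zpowers y : Subgroup (G ⧸ N)) : Set (G ⧸ N)) ≤ Subgroup.centralizer {y} := by
  intro y hy g hg
  rw [mem_centralizer_singleton]
  rw [mem_normalizer_zpowers_iff] at hg
  obtain ⟨n, hn⟩ : ∃ n, orderOf y = n := ⟨_, rfl⟩
  induction n using Nat.strong_induction_on generalizing y with
  | _ n ih =>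
    by_cases h1 : orderOf y = 1
    · rw [orderOf_eq_one_iff] at h1
      rw [h1]; group
    · set p := Nat.minFac (orderOf y) with hp
      have hpp : p.Prime := Nat.minFac_prime h1
      have hpd : p ∣ orderOf y := Nat.minFac_dvd _
      obtain ⟨a, b, ⟨k, hk⟩, hb, hab⟩ := exists_parts p hpp y
      obtain ⟨m, hm⟩ := Subgroup.mem_zpowers_iff.1 hg
      have hconj : ∀ c : ℕ, g * y ^ c * g⁻¹ ∈ Subgroup.zpowers (y ^ c) := by
        intro c
        refine Subgroup.mem_zpowers_iff.2 ⟨m, ?_⟩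
        rw [← conj_pow, ← hm, ← zpow_natCast, ← zpow_natCast, ← zpow_mul, ← zpow_mul, mul_comm]
      have h2 := prime_part π hirr N hN p hpp (hy p hpp hpd) (y ^ a) g k hk (hconj a)
      have h3 : orderOf (y ^ b) < orderOf y := by
        refine lt_of_le_of_ne (Nat.le_of_dvd (orderOf_pos y) (orderOf_pow_dvd b)) ?_
        intro h4
        rw [h4] at hb
        exact hpp.one_lt.ne' (Nat.eq_one_of_dvd_coprimes hb hpd dvd_rfl)
      have h4 := ih _ (hn ▸ h3) (y ^ b) (fun r hr hrd => hy r hr (hrd.trans (orderOf_pow_dvd b)))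
        (hconj b) rfl
      calc g * y * g⁻¹ = (g * y ^ a * g⁻¹) * (g * y ^ b * g⁻¹) := by
            nth_rewrite 1 [hab]; group
        _ = y := by rw [h2, h4, ← hab]

end Cfsg.Agent.S4032
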