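import Cfsg.Statements.S4034
import Cfsg.Agent.Lib.ClassPow
import Cfsg.Agent.Lib.RealElems

set_option autoImplicit false
open Cfsg

namespace Cfsg.Agent.S4034

open Cfsg.Agent.Lib.ClassPow

theorem card_carrier {G : Type*} [Group G] [Finite G] (x : G) :
    (ConjClasses.mk x).carrier.ncard = (Subgroup.centralizer ({x} : Set G)).index := by
  rw [← Cfsg.Agent.Lib.RealElems.card_class]
  rw [← Nat.card_coe_set_eq]
  refine Nat.card_congr (Equiv.subtypeEquivRight fun h => ?_)
  rw [ConjClasses.mem_carrier_iff_mk_eq, ConjClasses.mk_eq_mk_iff_isConj]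
  exact ⟨fun h => h.symm, fun h => h.symm⟩

/-- Let G be a finite group and p a prime. Every conjugacy class of p-regular elements of G (elements of order prime to p) has p-power size if and only if G has an abelian p-complement, i.e. an abelian subgroup of order prime to p and p-power index. -/
theorem result {G : Type*} [Group G] [Finite G] {p : ℕ} (hp : p.Prime) :
    (∀ x : G, (orderOf x).Coprime p → ∃ k : ℕ, (ConjClasses.mk x).carrier.ncard = p ^ k) ↔
    (∃ H : Subgroup G, IsMulCommutative H ∧ ¬ p ∣ Nat.card H ∧ ∃ k : ℕ, H.index = p ^ k) := by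
  constructor
  · intro h
    exact RegPow.abCompl hp (Nat.card G) G rfl (fun x hx => by
      obtain ⟨k, hk⟩ := h x hx
      exact ⟨k, by rw [← hk, card_carrier]⟩)
  · intro h x hx
    obtain ⟨k, hk⟩ := RegPow.of_abCompl hp G h x hx
    exact ⟨k, by rw [card_carrier, hk]⟩

end Cfsg.Agent.S4034
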