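import Cfsg.Statements.S4036
import Mathlib.GroupTheory.PGroup
import Mathlib.GroupTheory.Perm.Cycle.Type
import Mathlib.Tactic

set_option autoImplicit false
open Cfsg

namespace Cfsg.Agent.S4036

/-- Let P be a finite abelian p-group and K a group of automorphisms of P (a subgroup of Aut P) whose order is divisible by p. If all non-identity elements of K have the same fixed-point subgroup on P, then K has no non-trivial normal subgroup of order prime to p. -/
theorem result {P : Type*} [CommGroup P] [Finite P] {p : ℕ}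
    [Fact p.Prime] (hP : IsPGroup p P) (K : Subgroup (MulAut P)) (hK : p ∣ Nat.card K)
    (hfix : ∀ x y : MulAut P, x ∈ K → y ∈ K → x ≠ 1 → y ≠ 1 → ∀ v : P, x v = v ↔ y v = v) :
    ∀ N : Subgroup ↥K, N.Normal → ¬ p ∣ Nat.card N → N = ⊥ := by
  classical
  intro N hN hpN
  by_contra hne
  have : Finite (MulAut P) := Finite.of_injective (fun f : MulAut P => (f : P → P)) DFunLike.coe_injective
  have := Fintype.ofFinite N
  have hp : p.Prime := Fact.out
  obtain ⟨⟨n0, hn0⟩, hn01⟩ := (Subgroup.ne_bot_iff_exists_ne_one).1 hne 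
  have hn01' : (n0 : MulAut P) ≠ 1 := by
    intro h
    apply hn01
    apply Subtype.ext
    exact Subtype.ext h
  let act : N → P →* P := fun n => (((n : K) : MulAut P) : P ≃* P).toMonoidHom
  let ν : P →* P := ∏ n : N, act n
  have hν : ∀ v, ν v = ∏ n : N, ((n : K) : MulAut P) v := fun v => by
    simp only [ν, MonoidHom.finsetProd_apply]
    rfl
  -- x of order p
  obtain ⟨x, hx⟩ := exists_prime_orderOf_dvd_card' p hK
  have hx1 : (x : MulAut P) ≠ 1 := by
    intro h
    have : x = 1 := Subtype.ext h
    rw [this, orderOf_one] at hx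
    exact hp.one_lt.ne hx
  -- equivariance
  have heq : ∀ (k : K) (v : P), ν ((k : MulAut P) v) = (k : MulAut P) (ν v) := by
    intro k v
    rw [hν, hν, map_prod]
    refine Fintype.prod_equiv (MulAut.conjNormal (k⁻¹) : MulAut N).toEquiv _ _ (fun n => ?_)
    have : (((MulAut.conjNormal k⁻¹ : MulAut N) n : N) : K) = k⁻¹ * n * k := by
      rw [MulAut.conjNormal_apply]; simp
    show ((n : K) : MulAut P) ((k : MulAut P) v) = (k : MulAut P) (((((MulAut.conjNormal k⁻¹ : MulAut N) n : N) : K) : MulAut P) v)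
    rw [this]
    simp [MulAut.mul_apply]
  have hcop : ∀ v : P, v ^ Nat.card N = 1 → v = 1 := by
    intro v hv
    obtain ⟨k, hk⟩ := hP v
    have h1 : orderOf v ∣ Nat.card N := orderOf_dvd_of_pow_eq_one hv
    have h2 : orderOf v ∣ p ^ k := orderOf_dvd_of_pow_eq_one hk
    have h3 : Nat.Coprime (Nat.card N) (p ^ k) := 
      Nat.Coprime.pow_right k ((Nat.Prime.coprime_iff_not_dvd hp).2 hpN).symm
    exact orderOf_eq_one_iff.1 (Nat.eq_one_of_dvd_coprimes h3 h1 h2)
  -- v fixed by n0 and in the kernel is trivial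
  have hker : ∀ v : P, (n0 : MulAut P) v = v → ν v = 1 → v = 1 := by
    intro v hv hv1
    apply hcop
    rw [← hv1, hν]
    rw [Finset.prod_congr rfl (g := fun _ => v)]
    · simp [Nat.card_eq_fintype_card]
    · intro n _
      by_cases hn : ((n : K) : MulAut P) = 1
      · rw [hn]; rfl
      · exact (hfix n0 n n0.2 (n : K).2 hn01' hn v).1 hv
  have hW : ν.ker = ⊥ := by
    by_contra hWne
    have hpW : p ∣ Nat.card ν.ker := by
      have h1 : IsPGroup p ν.ker := hP.to_subgroup _
      obtain ⟨n, hn⟩ := IsPGroup.iff_card.mp h1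
      rw [hn]
      apply dvd_pow_self
      rintro rfl
      rw [pow_zero] at hn
      exact hWne (Subgroup.card_eq_one.1 hn)
    have hmemW : ∀ (g : Subgroup.zpowers x) (w : ν.ker), ((g : K) : MulAut P) (w : P) ∈ ν.ker := by
      intro g w
      rw [MonoidHom.mem_ker, heq, (MonoidHom.mem_ker).1 w.2, map_one]
    letI : MulAction (Subgroup.zpowers x) ν.ker :=
      { smul := fun g w => ⟨((g : K) : MulAut P) (w : P), hmemW g w⟩
        one_smul := fun w => Subtype.ext rfl
        mul_smul := fun g h w => Subtype.ext rfl }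
    have hxp : IsPGroup p (Subgroup.zpowers x) := by
      apply IsPGroup.of_card (n := 1)
      rw [Nat.card_zpowers, hx, pow_one]
    have hone : (1 : ν.ker) ∈ MulAction.fixedPoints (Subgroup.zpowers x) ν.ker := by
      intro g
      apply Subtype.ext
      exact map_one ((g : K) : MulAut P)
    obtain ⟨b, hb, hb1⟩ := hxp.exists_fixed_point_of_prime_dvd_card_of_fixed_point ν.ker hpW hone
    apply hb1
    have h2 := hb ⟨x, Subgroup.mem_zpowers x⟩
    have h3 : (x : MulAut P) (b : P) = b := congrArg Subtype.val h2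
    have h4 := (hfix x n0 x.2 n0.2 hx1 hn01' b).1 h3
    have h5 := hker b h4 ((MonoidHom.mem_ker).1 b.2)
    exact Subtype.ext h5.symm
  have hinj : Function.Injective ν := (MonoidHom.ker_eq_bot_iff ν).1 hW
  have hsurj : Function.Surjective ν := Finite.surjective_of_injective hinj
  apply hn01'
  ext v
  obtain ⟨w, rfl⟩ := hsurj v
  rw [MulAut.one_apply, hν, map_prod]
  refine Fintype.prod_equiv (Equiv.mulLeft (⟨n0, hn0⟩ : N)) _ _ (fun n => ?_)
  rfl

end Cfsg.Agent.S4036
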