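import Cfsg.Statements.S4043
import Cfsg.Agent.Lib.SchurZassenhaus
import Cfsg.Agent.Lib.PNilp
import Cfsg.Agent.Lib.Cores
import Cfsg.Agent.Lib.UniqueInvolution

set_option autoImplicit false
open Cfsg

namespace Cfsg.Agent.S4043

open Cfsg.Agent.Lib
open scoped Pointwise

universe u

variable {G : Type u} [Group G] [Finite G] {p : ℕ} [Fact p.Prime]

/-- p'-elements lie in `N K`. -/
theorem mem_sup (N : Subgroup G) [N.Normal] (A : Subgroup G) (hA : A.IsComplement' N)
    (P : Sylow p A) (K : Subgroup A) (hK : K.Normal) (hKP : K.IsComplement' (P : Subgroup A)) (g : G)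
    (hg : (orderOf g).Coprime p) : g ∈ N ⊔ K.map A.subtype := by
  have hAnorm : A ≤ Subgroup.normalizer ((K.map A.subtype : Subgroup G) : Set G) :=
    Cores.le_normalizer_map_subtype K
  set H := N ⊔ K.map A.subtype with hH
  have hNH : N ≤ H := le_sup_left
  have hKH : K.map A.subtype ≤ H := le_sup_right
  have hdec : ∀ x : G, ∃ a ∈ A, ∃ n ∈ N, x = a * n := by
    intro x
    have h1 := hA.mul_eq
    have h2 : x ∈ ((A : Set G) * (N : Set G)) := by rw [h1]; exact Set.mem_univ x
    obtain ⟨a, ha, n, hn, rfl⟩ := h2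
    exact ⟨a, ha, n, hn, rfl⟩
  have hHn : H.Normal := by
    constructor
    intro h hh x
    obtain ⟨a, ha, n, hn, rfl⟩ := hdec x
    have h1 : n * h * n⁻¹ ∈ H := H.mul_mem (H.mul_mem (hNH hn) hh) (H.inv_mem (hNH hn))
    have h2 : a ∈ Subgroup.normalizer (H : Set G) := by
      rw [SubgroupTools.mem_normalizer_iff_conj_smul, hH, SubgroupTools.conj_smul_sup,
        SubgroupTools.conj_smul_normal, SubgroupTools.conj_smul_of_mem_normalizer (hAnorm ha)]
    have h3 := (Subgroup.mem_normalizer_iff.1 h2 _).1 h1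
    have : a * n * h * (a * n)⁻¹ = a * (n * h * n⁻¹) * a⁻¹ := by group
    rw [this]; exact h3
  have hpg : IsPGroup p (G ⧸ H) := by
    intro q
    obtain ⟨x, rfl⟩ := QuotientGroup.mk_surjective q
    obtain ⟨a, ha, n, hn, rfl⟩ := hdec x
    have h1 : (⟨a, ha⟩ : A) ∈ ((K : Set A) * ((P : Subgroup A) : Set A)) := by
      rw [hKP.mul_eq]; exact Set.mem_univ _
    obtain ⟨k, hk, y, hy, hky⟩ := h1
    obtain ⟨j, hj⟩ := P.isPGroup' ⟨y, hy⟩
    refine ⟨j, ?_⟩
    have h2 : ((a * n : G) : G ⧸ H) = ((y : G) : G ⧸ H) := by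
      have h3 : a = (k : G) * y := (congrArg Subtype.val hky).symm
      rw [h3, QuotientGroup.mk_mul, QuotientGroup.mk_mul, (QuotientGroup.eq_one_iff n).2 (hNH hn), mul_one,
        (QuotientGroup.eq_one_iff (k : G)).2 (hKH ⟨k, hk, rfl⟩), one_mul]
    rw [h2, ← QuotientGroup.mk_pow]
    have h4 : (y : G) ^ p ^ j = 1 := by
      have h5 : y ^ p ^ j = 1 := congrArg Subtype.val hj
      have h6 := congrArg Subtype.val h5
      simpa using h6
    rw [h4]; rfl
  have h1 := PNilp.eq_one_of_isPGroup_of_coprime hpg (QuotientGroup.mk' H) hg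
  exact (QuotientGroup.eq_one_iff g).1 h1

/-- Let G be a finite group that is the semidirect product of a normal p-subgroup N by a subgroup A, and also of N by a subgroup A₁, where p is a prime and A and A₁ both have normal p-complements. If C_N(A) = C_N(A₁) = 1, then A₁ is conjugate to A by an element of N. -/
theorem result {G : Type*} [Group G] [Finite G] {p : ℕ}
    [Fact p.Prime] (N : Subgroup G) [N.Normal] (hN : IsPGroup p N) (A A₁ : Subgroup G)
    (hA : A.IsComplement' N) (hA₁ : A₁.IsComplement' N)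
    (hAp : Cfsg.HasNormalPComplement p A) (hA₁p : Cfsg.HasNormalPComplement p A₁)
    (hC : ∀ n : G, n ∈ N → (∀ a : G, a ∈ A → a * n * a⁻¹ = n) → n = 1)
    (hC₁ : ∀ n : G, n ∈ N → (∀ a : G, a ∈ A₁ → a * n * a⁻¹ = n) → n = 1) :
    ∃ n : G, n ∈ N ∧ A₁ = A.map (MulAut.conj n).toMonoidHom := by
  classical
  obtain ⟨P, K, hK, hKP⟩ := hAp
  obtain ⟨P₁, K₁, hK₁, hKP₁⟩ := hA₁p
  have hp : p.Prime := Fact.out
  have hcop : ∀ (B : Subgroup G) (Q : Sylow p B) (L : Subgroup B), L.IsComplement' (Q : Subgroup B) →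
      (Nat.card (L.map B.subtype)).Coprime p := by
    intro B Q L hLQ
    rw [Cores.card_map_subtype, ← hLQ.index_eq_card, Nat.coprime_comm, Nat.Prime.coprime_iff_not_dvd hp]
    exact Q.not_dvd_index
  have hcK := hcop A P K hKP
  have hcK₁ := hcop A₁ P₁ K₁ hKP₁
  obtain ⟨m, hm⟩ := IsPGroup.iff_card.1 hN
  have hle : ∀ (B B₁ : Subgroup G) (hB : B.IsComplement' N) (Q : Sylow p B) (L : Subgroup B) (hL : L.Normal)
      (hLQ : L.IsComplement' (Q : Subgroup B)) (L₁ : Subgroup B₁) (hL₁ : (Nat.card (L₁.map B₁.subtype)).Coprime p),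
      L₁.map B₁.subtype ≤ N ⊔ L.map B.subtype := by
    intro B B₁ hB Q L hL hLQ L₁ hL₁ x hx
    apply mem_sup N B hB Q L hL hLQ
    exact Nat.Coprime.coprime_dvd_left (Subgroup.orderOf_dvd_natCard _ hx) hL₁
  have hsup : N ⊔ K.map A.subtype = N ⊔ K₁.map A₁.subtype := by
    apply le_antisymm
    · exact sup_le le_sup_left (hle A₁ A hA₁ P₁ K₁ hK₁ hKP₁ K hcK)
    · exact sup_le le_sup_left (hle A A₁ hA P K hK hKP K₁ hcK₁)
  have hsolv : Group.IsSolvable N := by
    have := hN.isNilpotent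
    infer_instance
  obtain ⟨n, hn, hconj⟩ := SchurZassenhaus.conj_of_solvable_left (N := N) (H := K.map A.subtype)
    (K := K₁.map A₁.subtype) Subgroup.le_normalizer_of_normal Subgroup.le_normalizer_of_normal hsup
    (by rw [hm]; exact Nat.Coprime.pow_left m hcK.symm) (by rw [hm]; exact Nat.Coprime.pow_left m hcK₁.symm) hsolv
  refine ⟨n, hn, ?_⟩
  -- the centralizer of K₁ in N is trivial
  have hcent : ∀ x ∈ N, (∀ k ∈ K₁.map A₁.subtype, x * k = k * x) → x = 1 := by
    set X : Subgroup G := N ⊓ Subgroup.centralizer ((K₁.map A₁.subtype : Subgroup G) : Set G) with hX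
    set P' : Subgroup G := (P₁ : Subgroup A₁).map A₁.subtype with hP'
    have hP'p : IsPGroup p P' := P₁.isPGroup'.map _
    have hXp : IsPGroup p X := hN.to_le inf_le_left
    have hA₁norm : A₁ ≤ Subgroup.normalizer ((K₁.map A₁.subtype : Subgroup G) : Set G) :=
      Cores.le_normalizer_map_subtype K₁
    have hP'A : P' ≤ A₁ := Subgroup.map_subtype_le _
    have hP'X : P' ≤ Subgroup.normalizer (X : Set G) := by
      intro y hy
      apply Subgroup.mem_normalizer_fintype
      intro x hx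
      refine ⟨(inferInstance : N.Normal).conj_mem x hx.1 y, ?_⟩
      show y * x * y⁻¹ ∈ Subgroup.centralizer ((K₁.map A₁.subtype : Subgroup G) : Set G)
      rw [Subgroup.mem_centralizer_iff]
      intro k hk
      have h1 : y⁻¹ * k * y ∈ K₁.map A₁.subtype := by
        have := (Subgroup.mem_normalizer_iff.1 (inv_mem (hA₁norm (hP'A hy))) k).1 hk
        rwa [inv_inv] at this
      have h2 := (Subgroup.mem_centralizer_iff.1 hx.2) _ h1
      calc k * (y * x * y⁻¹) = y * ((y⁻¹ * k * y) * x) * y⁻¹ := by group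
        _ = y * (x * (y⁻¹ * k * y)) * y⁻¹ := by rw [h2]
        _ = y * x * y⁻¹ * k := by group
    have hsupp : IsPGroup p ↥(P' ⊔ X) := hP'p.to_sup_of_normal_right' hXp hP'X
    have hXbot : X = ⊥ := by
      by_contra hXne
      have hXn : (X.subgroupOf (P' ⊔ X)).Normal :=
        SubgroupTools.normal_subgroupOf_iff_le_normalizer' (sup_le hP'X Subgroup.le_normalizer)
      obtain ⟨z, hz, hz1, hzc⟩ := UniqueInvolution.exists_central_of_normal hsupp (X.subgroupOf (P' ⊔ X))
        (by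
          intro h
          apply hXne
          rw [eq_bot_iff]
          intro x hx
          have h1 : (⟨x, Subgroup.mem_sup_right hx⟩ : ↥(P' ⊔ X)) ∈ X.subgroupOf (P' ⊔ X) := hx
          rw [h, Subgroup.mem_bot] at h1
          exact congrArg Subtype.val h1)
      have hzX : (z : G) ∈ X := hz
      apply hz1
      apply Subtype.ext
      apply hC₁ (z : G) hzX.1
      intro a ha
      have h1 : (⟨a, ha⟩ : A₁) ∈ ((K₁ : Set A₁) * ((P₁ : Subgroup A₁) : Set A₁)) := by
        rw [hKP₁.mul_eq]; exact Set.mem_univ _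
      obtain ⟨k, hk, y, hy, hky⟩ := h1
      have h3 : a = (k : G) * y := (congrArg Subtype.val hky).symm
      have h4 : (y : G) * z = z * y := by
        have hyP : (y : G) ∈ P' := ⟨y, hy, rfl⟩
        exact congrArg Subtype.val (hzc ⟨y, Subgroup.mem_sup_left hyP⟩)
      have h5 : (k : G) * z = z * k := (Subgroup.mem_centralizer_iff.1 hzX.2) k ⟨k, hk, rfl⟩
      rw [mul_inv_eq_iff_eq_mul, h3, mul_assoc, h4, ← mul_assoc, h5, mul_assoc]
    intro x hx hxk
    have h1 : x ∈ X := ⟨hx, by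
      show x ∈ Subgroup.centralizer ((K₁.map A₁.subtype : Subgroup G) : Set G)
      rw [Subgroup.mem_centralizer_iff]
      intro k hk
      exact (hxk k hk).symm⟩
    rw [hXbot] at h1
    exact Subgroup.mem_bot.1 h1
  -- A^n ≤ A₁
  have hle2 : A.map (MulAut.conj n).toMonoidHom ≤ A₁ := by
    rintro _ ⟨a, ha, rfl⟩
    have hA₁dec : n * a * n⁻¹ ∈ ((A₁ : Set G) * (N : Set G)) := by rw [hA₁.mul_eq]; exact Set.mem_univ _
    obtain ⟨b, hb, x, hx, hbx⟩ := hA₁dec
    have hbx' : b * x = n * a * n⁻¹ := hbx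
    show n * a * n⁻¹ ∈ A₁
    have hKnorm : n * a * n⁻¹ ∈ Subgroup.normalizer ((K₁.map A₁.subtype : Subgroup G) : Set G) := by
      have h1 := SubgroupTools.conj_smul_of_mem_normalizer (Cores.le_normalizer_map_subtype K ha)
      rw [SubgroupTools.mem_normalizer_iff_conj_smul, ← hconj, ← SubgroupTools.conj_smul_mul,
        show n * a * n⁻¹ * n = n * a by group, SubgroupTools.conj_smul_mul, h1]
    have hbnorm := Cores.le_normalizer_map_subtype K₁ hb
    have hxnorm : x ∈ Subgroup.normalizer ((K₁.map A₁.subtype : Subgroup G) : Set G) := by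
      have : x = b⁻¹ * (n * a * n⁻¹) := by rw [← hbx']; group
      rw [this]
      exact mul_mem (inv_mem hbnorm) hKnorm
    have hx1 : x = 1 := by
      apply hcent x hx
      intro k hk
      have h1 : x * k * x⁻¹ * k⁻¹ ∈ K₁.map A₁.subtype :=
        mul_mem ((Subgroup.mem_normalizer_iff.1 hxnorm k).1 hk) (inv_mem hk)
      have h2 : x * k * x⁻¹ * k⁻¹ ∈ N := by
        have : x * k * x⁻¹ * k⁻¹ = x * (k * x⁻¹ * k⁻¹) := by group
        rw [this]
        exact mul_mem hx ((inferInstance : N.Normal).conj_mem _ (inv_mem hx) k)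
      have h3 : (K₁.map A₁.subtype) ⊓ N = ⊥ := by
        apply SubgroupTools.inf_eq_bot_of_coprime'
        rw [hm]; exact Nat.Coprime.pow_right m hcK₁
      have h4 : x * k * x⁻¹ * k⁻¹ = 1 := by
        have : x * k * x⁻¹ * k⁻¹ ∈ (K₁.map A₁.subtype) ⊓ N := ⟨h1, h2⟩
        rw [h3] at this
        exact Subgroup.mem_bot.1 this
      exact mul_inv_eq_iff_eq_mul.1 (mul_inv_eq_one.1 h4)
    rw [← hbx', hx1, mul_one]
    exact hb
  symm
  apply Subgroup.eq_of_le_of_card_ge hle2
  rw [Subgroup.card_map_of_injective (MulAut.conj n).injective, ← hA₁.index_eq_card, ← hA.index_eq_card]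

end Cfsg.Agent.S4043
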