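import Cfsg.Statements.S4049
import Cfsg.Agent.Lib.TwoClosed

set_option autoImplicit false
open Cfsg

namespace Cfsg.Agent.S4049

open Cfsg.Agent.Lib.CycNorm Cfsg.Agent.Lib.RealElems

/-- Let G be a finite group such that N_G(H)/C_G(H) has odd order for every nontrivial subgroup H of odd order. Then the Sylow 2-subgroups of G are normal. -/
theorem result {G : Type*} [Group G] [Finite G]
    (hhom : ∀ H : Subgroup G, H ≠ ⊥ → ¬ 2 ∣ Nat.card ↥H →
        ¬ 2 ∣ (Subgroup.centralizer (H : Set G)).relIndex (Subgroup.normalizer (H : Set G))) (P : Sylow 2 G) :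
    (P : Subgroup G).Normal := by
  refine Cfsg.Agent.Lib.TwoClosed.sylow_two_normal (Nat.card G) G le_rfl (fun x hodd hreal => ?_) P
  by_contra hx
  obtain ⟨c, hc⟩ := isConj_iff.1 hreal
  have h1 : c ∈ Subgroup.normalizer ((Subgroup.zpowers x : Subgroup G) : Set G) := by
    rw [mem_normalizer_zpowers_iff, hc]
    exact inv_mem (Subgroup.mem_zpowers x)
  have h2 := hhom (Subgroup.zpowers x) (by rwa [Ne, Subgroup.zpowers_eq_bot]) (by
    rw [Nat.card_zpowers]
    intro h
    exact (Nat.not_even_iff_odd.2 hodd) (even_iff_two_dvd.2 h))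
  have hcen : ∀ g : G, g ∈ Subgroup.centralizer ((Subgroup.zpowers x : Subgroup G) : Set G) ↔ g * x * g⁻¹ = x := by
    intro g
    rw [← mem_centralizer_singleton]
    constructor
    · intro h
      rw [Subgroup.mem_centralizer_singleton_iff]
      exact (Subgroup.mem_centralizer_iff.1 h x (Subgroup.mem_zpowers x)).symm
    · intro h
      rw [Subgroup.mem_centralizer_iff]
      rintro y hy
      obtain ⟨m, rfl⟩ := Subgroup.mem_zpowers_iff.1 hy
      have h3 : Commute g x := (Subgroup.mem_centralizer_singleton_iff.1 h)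
      exact ((h3.zpow_right m).eq).symm
  -- the subgroup of N generated by c over C has index 2
  set N := Subgroup.normalizer ((Subgroup.zpowers x : Subgroup G) : Set G) with hN
  set C := Subgroup.centralizer ((Subgroup.zpowers x : Subgroup G) : Set G) with hC
  have hnorm : (C.subgroupOf N).Normal := by
    refine ⟨fun a ha g => ?_⟩
    rw [Subgroup.mem_subgroupOf, hcen] at ha ⊢
    have hg := mem_normalizer_zpowers_iff.1 (inv_mem g.2 : (g : G)⁻¹ ∈ N)
    obtain ⟨m, hm⟩ := Subgroup.mem_zpowers_iff.1 hg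
    have h3 : (a : G) * x ^ m * (a : G)⁻¹ = x ^ m := by
      rw [← conj_zpow, ha]
    rw [hm] at h3
    push_cast
    calc (g : G) * a * (g : G)⁻¹ * x * ((g : G) * a * (g : G)⁻¹)⁻¹
        = g * (a * ((g : G)⁻¹ * x * ((g : G)⁻¹)⁻¹) * (a : G)⁻¹) * (g : G)⁻¹ := by group
      _ = x := by rw [h3]; group
  apply h2
  have h4 : orderOf ((⟨c, h1⟩ : N) : N ⧸ C.subgroupOf N) = 2 := by
    apply orderOf_eq_prime
    · rw [← QuotientGroup.mk_pow, QuotientGroup.eq_one_iff, Subgroup.mem_subgroupOf, hcen]
      push_cast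
      rw [pow_two]
      calc c * c * x * (c * c)⁻¹ = c * (c * x * c⁻¹) * c⁻¹ := by group
        _ = c * x⁻¹ * c⁻¹ := by rw [hc]
        _ = (c * x * c⁻¹)⁻¹ := by group
        _ = x := by rw [hc, inv_inv]
    · intro h5
      rw [QuotientGroup.eq_one_iff, Subgroup.mem_subgroupOf, hcen] at h5
      have h6 : c * x * c⁻¹ = x := h5
      rw [hc] at h6
      apply hx
      apply eq_one_of_sq_of_odd _ hodd
      rw [pow_two]
      nth_rewrite 1 [← h6]
      exact inv_mul_cancel x
  have h5 : Nat.card (N ⧸ C.subgroupOf N) = C.relIndex N := rfl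
  rw [← h5, ← h4]
  exact orderOf_dvd_natCard _

end Cfsg.Agent.S4049
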