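import Cfsg.Statements.S4050
import Cfsg.Agent.Lib.PiClosed67

set_option autoImplicit false
open Cfsg

namespace Cfsg.Agent.S4050

open Cfsg.Agent.Lib.PiClosed67

/-- Let π be a set of primes and G a finite group. The π-elements of G (elements whose order is divisible only by primes of π) form a subgroup if and only if G is π-separable (it has a chain of normal subgroups from 1 to G with each successive index divisible only by primes in π or only by primes outside π) and N_G(H)/C_G(H) is a π'-group for every nontrivial π'-subgroup H of G. -/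
theorem result {G : Type*} [Group G] [Finite G] (π : Set ℕ)
    (hπ : ∀ p ∈ π, p.Prime) :
    (∃ K : Subgroup G, ∀ x : G, x ∈ K ↔ ∀ p : ℕ, p.Prime → p ∣ orderOf x → p ∈ π) ↔
    ((∃ (n : ℕ) (H : Fin (n + 1) → Subgroup G), H 0 = ⊥ ∧ H (Fin.last n) = ⊤ ∧ Monotone H ∧ (∀ i, (H i).Normal) ∧
      ∀ i : Fin n, (∀ q : ℕ, q.Prime → q ∣ (H i.castSucc).relIndex (H i.succ) → q ∈ π) ∨
        (∀ q : ℕ, q.Prime → q ∣ (H i.castSucc).relIndex (H i.succ) → q ∉ π)) ∧
     (∀ H : Subgroup G, H ≠ ⊥ → (∀ p : ℕ, p.Prime → p ∣ Nat.card ↥H → p ∉ π) →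
        ∀ p : ℕ, p.Prime → p ∣ (Subgroup.centralizer (H : Set G)).relIndex (Subgroup.normalizer (H : Set G)) → p ∉ π)) := by
  constructor
  · rintro ⟨K, hK⟩
    have hKn : K.Normal := by
      constructor
      intro x hx g
      refine (hK _).2 ?_
      have h3 := piEl_map (π := π) (MulAut.conj g).toMonoidHom ((hK x).1 hx)
      intro p hp hpx
      refine h3 p hp ?_
      simpa using hpx
    -- Sylow `p`-subgroups lie in `K`
    have hsyl : ∀ p : ℕ, p.Prime → p ∈ π → ∀ Q : Subgroup G, IsPGroup p Q → Q ≤ K := by
      intro p hp hpπ Q hQ x hx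
      have : Fact p.Prime := ⟨hp⟩
      obtain ⟨k, hk⟩ := (IsPGroup.iff_orderOf.1 hQ) ⟨x, hx⟩
      rw [Subgroup.orderOf_mk] at hk
      exact (hK x).2 (piEl_of_orderOf hp hpπ hk)
    refine ⟨⟨2, ![⊥, K, ⊤], rfl, rfl, ?_, ?_, ?_⟩, ?_⟩
    · rw [Fin.monotone_iff_le_succ]
      intro i
      fin_cases i
      · exact bot_le
      · exact le_top
    · intro i
      fin_cases i
      · exact (inferInstance : (⊥ : Subgroup G).Normal)
      · exact hKn
      · exact (inferInstance : (⊤ : Subgroup G).Normal)
    · intro i
      fin_cases i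
      · left
        intro q hq hqd
        have h1 : q ∣ (⊥ : Subgroup G).relIndex K := hqd
        rw [Subgroup.relIndex_bot_left] at h1
        exact card_of_le_closed hK le_rfl hq h1
      · right
        intro q hq hqd hqπ
        have h1 : q ∣ K.relIndex (⊤ : Subgroup G) := hqd
        rw [Subgroup.relIndex_top_right] at h1
        have : Fact q.Prime := ⟨hq⟩
        obtain ⟨Q⟩ := (inferInstance : Nonempty (Sylow q G))
        have h2 : K.index ∣ (Q : Subgroup G).index := Subgroup.index_dvd_of_le (hsyl q hq hqπ Q Q.isPGroup')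
        exact Q.not_dvd_index (h1.trans h2)
    · intro H hH hH' p hp hpd hpπ
      have : Fact p.Prime := ⟨hp⟩
      set N := Subgroup.normalizer (H : Set G) with hN
      obtain ⟨Q⟩ := (inferInstance : Nonempty (Sylow p N))
      have h1 : (Q : Subgroup N) ≤ (Subgroup.centralizer (H : Set G)).subgroupOf N := by
        intro x hx
        have hxK : (x : G) ∈ K := hsyl p hp hpπ ((Q : Subgroup N).map N.subtype) (Q.isPGroup'.map _) ⟨x, hx, rfl⟩
        rw [Subgroup.mem_subgroupOf]
        intro h hh
        have h2 : (x : G) * h * (x : G)⁻¹ * h⁻¹ ∈ H :=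
          H.mul_mem ((Subgroup.mem_normalizer_iff.1 x.2 h).1 hh) (H.inv_mem hh)
        have h3 : (x : G) * h * (x : G)⁻¹ * h⁻¹ ∈ K := by
          have : (x : G) * h * (x : G)⁻¹ * h⁻¹ = x * (h * (x : G)⁻¹ * h⁻¹) := by group
          rw [this]
          exact K.mul_mem hxK (hKn.conj_mem _ (K.inv_mem hxK) h)
        have h4 : (x : G) * h * (x : G)⁻¹ * h⁻¹ = 1 := by
          rw [← orderOf_eq_one_iff]
          by_contra h5
          obtain ⟨q, hq, hqd⟩ := Nat.exists_prime_and_dvd h5
          have h6 := (hK _).1 h3 q hq hqd
          refine hH' q hq ?_ h6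
          refine hqd.trans ?_
          have := orderOf_dvd_natCard (⟨_, h2⟩ : H)
          rwa [Subgroup.orderOf_mk] at this
        have h5 : (x : G) * h = h * x := by
          have := mul_inv_eq_one.1 h4
          rwa [mul_inv_eq_iff_eq_mul] at this
        exact h5.symm
      have h2 := Subgroup.index_dvd_of_le h1
      exact Q.not_dvd_index (hpd.trans h2)
  · rintro ⟨⟨n, H, h0, hl, hmono, hnorm, hidx⟩, hhom⟩
    have hH : Homog π G := homog_of_index hhom
    have key : ∀ i : Fin (n + 1), PiClosed π (H i) := by
      intro i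
      induction i using Fin.induction with
      | zero =>
        rw [h0]
        apply closed_of_mul
        intro x y _ _
        rw [Subsingleton.elim (x * y) 1]
        exact piEl_one
      | succ i ih =>
        have hle : H i.castSucc ≤ H i.succ := hmono (Fin.castSucc_lt_succ).le
        have h1 : ((H i.castSucc).subgroupOf (H i.succ)).Normal := (hnorm i.castSucc).subgroupOf _
        apply closed_extension (homog_subgroup hH _) (K := (H i.castSucc).subgroupOf (H i.succ))
        · exact closed_of_equiv (Subgroup.subgroupOfEquivOfLe hle).symm ih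
        · rcases hidx i with h2 | h2
          · apply closed_of_mul
            intro x y _ _ p hp hpd
            refine h2 p hp (hpd.trans ?_)
            exact orderOf_dvd_natCard _
          · have h3 : ∀ x : (H i.succ) ⧸ (H i.castSucc).subgroupOf (H i.succ), PiEl π x → x = 1 := by
              intro x hx
              rw [← orderOf_eq_one_iff]
              by_contra h5
              obtain ⟨q, hq, hqd⟩ := Nat.exists_prime_and_dvd h5
              exact h2 q hq (hqd.trans (orderOf_dvd_natCard _)) (hx q hq hqd)
            apply closed_of_mul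
            intro x y hx hy
            rw [h3 x hx, h3 y hy, one_mul]
            exact piEl_one
    have h1 := key (Fin.last n)
    rw [hl] at h1
    exact closed_of_equiv Subgroup.topEquiv h1

end Cfsg.Agent.S4050
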