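import Cfsg.Statements.S4056
import Cfsg.Agent.Lib.ExpFour

set_option autoImplicit false
open Cfsg

namespace Cfsg.Agent.S4056

open Cfsg.Agent.Lib.ExpFour Cfsg.Agent.Lib.ClassTwo67

/-- In a finite 2-group of nilpotency class at most 2 and exponent dividing 4, the Frattini subgroup lies in the centre and is elementary abelian. -/
theorem result {P : Type*} [Group P] [Finite P] (hP : IsPGroup 2 P)
    (hcl : Group.nilpotencyClass P ≤ 2) (hexp : Monoid.exponent P ∣ 4) :
    frattini P ≤ Subgroup.center P ∧ Cfsg.IsElementaryAbelian 2 (frattini P) := by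
  have := hP.isNilpotent
  have he : ∀ a : P, a ^ 4 = 1 := fun a => by
    obtain ⟨k, hk⟩ := hexp
    rw [hk, pow_mul, Monoid.pow_exponent_eq_one, one_pow]
  have h1 := frattini_le_omegaCenter (comm_mem_center hcl) he
  refine ⟨fun x hx => (h1 hx).1, ⟨⟨fun a b => ?_⟩⟩, fun a ha => (h1 ha).2⟩
  apply Subtype.ext
  exact (Subgroup.mem_center_iff.1 (h1 b.2).1 a)

end Cfsg.Agent.S4056
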