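import Cfsg.Statements.S4057
import Cfsg.Agent.Lib.PatGen4

set_option autoImplicit false
open Cfsg

namespace Cfsg.Agent.S4057

/-- Let p be an odd prime and P a finite p-group in which every normal abelian subgroup can be generated by k elements. Then every subgroup of P can be generated by at most ⌊k(k+4)/4⌋ elements. -/
theorem result {P : Type*} [Group P] [Finite P] {p : ℕ} [Fact p.Prime]
    (hp : p ≠ 2) (hP : IsPGroup p P) (k : ℕ)
    (hab : ∀ A : Subgroup P, A.Normal → IsMulCommutative A → ∃ S : Finset P, S.card ≤ k ∧ Subgroup.closure (S : Set P) = A) :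
    ∀ H : Subgroup P, ∃ S : Finset P, S.card ≤ k * (k + 4) / 4 ∧ Subgroup.closure (S : Set P) = H := by
  classical
  intro H
  apply Cfsg.Agent.Lib.PatGen.gen_bound hp hP k ?_ H
  intro A hA1 hA2 hA3
  obtain ⟨S, hS, hS'⟩ := hab A hA1 hA2
  rw [← hS']
  refine (Cfsg.Agent.Lib.PatGen.card_closure_le S ?_ ?_).trans (Nat.pow_le_pow_right (Fact.out : p.Prime).pos hS)
  · intro x hx y hy
    have hxA : x ∈ A := by rw [← hS']; exact Subgroup.subset_closure hx
    have hyA : y ∈ A := by rw [← hS']; exact Subgroup.subset_closure hy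
    exact congrArg Subtype.val (hA2.is_comm.comm (⟨x, hxA⟩ : A) ⟨y, hyA⟩)
  · intro x hx
    exact hA3 x (by rw [← hS']; exact Subgroup.subset_closure hx)

end Cfsg.Agent.S4057
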