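import Cfsg.Statements.S4066
import Mathlib
-- import your own Cfsg.Agent.* helpers here

set_option autoImplicit false
open Cfsg

namespace Cfsg.Agent.S4066

theorem mem_of_pElement {G : Type*} [Group G] [Finite G] {p : ℕ} [Fact p.Prime] (P : Sylow p G)
    (C : Subgroup G) (hPC : (P : Subgroup G) ≤ C) {y : G} (hy : y ∈ Subgroup.normalizer (C : Set G))
    {k : ℕ} (hyk : y ^ p ^ k = 1) : y ∈ C := by
  have hC : C ≤ Subgroup.normalizer (C : Set G) := Subgroup.le_normalizer
  have hn : (C.subgroupOf (Subgroup.normalizer (C : Set G))).Normal := inferInstance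
  have h1 := Subgroup.pow_index_mem (C.subgroupOf (Subgroup.normalizer (C : Set G))) ⟨y, hy⟩
  have h2 : ¬ p ∣ (C.subgroupOf (Subgroup.normalizer (C : Set G))).index := by
    intro hd
    have h3 : (C.subgroupOf (Subgroup.normalizer (C : Set G))).index ∣ C.index :=
      ⟨_, (Subgroup.relIndex_mul_index hC).symm⟩
    exact P.not_dvd_index ((hd.trans h3).trans (Subgroup.index_dvd_of_le hPC))
  rw [Subgroup.mem_subgroupOf] at h1
  simp only [SubmonoidClass.coe_pow] at h1
  have hcop : Nat.Coprime (p ^ k) ((C.subgroupOf (Subgroup.normalizer (C : Set G))).index) :=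
    Nat.Coprime.pow_left k ((Fact.out : p.Prime).coprime_iff_not_dvd.mpr h2)
  have := Int.gcd_eq_gcd_ab (p ^ k : ℕ) ((C.subgroupOf (Subgroup.normalizer (C : Set G))).index : ℕ)
  rw [Int.gcd_natCast_natCast, hcop] at this
  have e : y = y ^ (1 : ℤ) := by simp
  rw [e, show (1 : ℤ) = ((1 : ℕ) : ℤ) by simp, this, zpow_add, zpow_mul, zpow_mul, zpow_natCast, zpow_natCast, hyk,
    one_zpow, one_mul]
  exact C.zpow_mem h1 _

theorem centralizer_le {G : Type*} [Group G]
    (hTI : ∀ x : G, Cfsg.IsTISubset (Subgroup.centralizer ({x} : Set G) : Set G)) {a b : G} (hb : b ≠ 1)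
    (hab : b * a = a * b) :
    Subgroup.centralizer ({b} : Set G) ≤ Subgroup.normalizer (Subgroup.centralizer ({a} : Set G) : Set G) := by
  intro c hc
  by_contra hn
  apply hb
  refine hTI a c hn b ?_ ?_
  · exact Subgroup.mem_centralizer_singleton_iff.mpr hab
  · have : c * b * c⁻¹ = b := by
      rw [Subgroup.mem_centralizer_singleton_iff] at hc
      rw [hc]; group
    rw [this]
    exact Subgroup.mem_centralizer_singleton_iff.mpr hab

/-- Let G be a finite group in which the centralizer of every element meets each of its conjugates by elements outside its normalizer trivially. Then any two distinct Sylow p-subgroups of G, for any prime p, intersect trivially. -/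
theorem result {G : Type*} [Group G] [Finite G] (hTI : ∀ x : G, Cfsg.IsTISubset (Subgroup.centralizer ({x} : Set G) : Set G))
    {p : ℕ} [Fact p.Prime] (P Q : Sylow p G) (hPQ : P ≠ Q) : (P : Subgroup G) ⊓ (Q : Subgroup G) = ⊥ := by
  classical
  by_contra hne
  obtain ⟨⟨x, hxP, hxQ⟩, hx⟩ : ∃ x : ((P : Subgroup G) ⊓ (Q : Subgroup G) : Subgroup G), x ≠ 1 := by
    by_contra hall
    push Not at hall
    apply hne
    rw [eq_bot_iff]
    intro x hx
    have := hall ⟨x, hx⟩
    simpa using this
  replace hx : x ≠ 1 := fun h => hx (Subtype.ext h)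
  replace hxP : x ∈ P := hxP
  replace hxQ : x ∈ Q := hxQ
  have cen : ∀ R : Sylow p G, x ∈ R → ∃ z ∈ R, z ≠ 1 ∧ ∀ y ∈ R, y * z = z * y := by
    intro R hR
    have : Nontrivial R := ⟨⟨x, hR⟩, 1, by simpa using hx⟩
    have := R.isPGroup'.center_nontrivial
    obtain ⟨⟨z, hz⟩, hz1⟩ := exists_ne (1 : Subgroup.center R)
    refine ⟨z, z.2, by simpa using hz1, ?_⟩
    intro y hy
    have := Subgroup.mem_center_iff.mp hz ⟨y, hy⟩
    exact congrArg Subtype.val this
  obtain ⟨z, hzP, hz1, hz⟩ := cen P hxP
  obtain ⟨w, hwQ, hw1, hw⟩ := cen Q hxQ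
  have pel : ∀ R : Sylow p G, ∀ y ∈ R, ∃ k, y ^ p ^ k = 1 := by
    intro R y hy
    obtain ⟨k, hk⟩ := R.isPGroup' ⟨y, hy⟩
    exact ⟨k, by simpa using congrArg Subtype.val hk⟩
  have hPC : (P : Subgroup G) ≤ Subgroup.centralizer ({z} : Set G) := fun y hy =>
    Subgroup.mem_centralizer_singleton_iff.mpr (hz y hy)
  have hwC : w ∈ Subgroup.centralizer ({z} : Set G) := by
    obtain ⟨k, hk⟩ := pel Q w hwQ
    refine mem_of_pElement P _ hPC ?_ hk
    refine centralizer_le hTI hx (hz x hxP) ?_
    exact Subgroup.mem_centralizer_singleton_iff.mpr (hw x hxQ).symm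
  have hQC : (Q : Subgroup G) ≤ Subgroup.centralizer ({z} : Set G) := by
    intro y hy
    obtain ⟨k, hk⟩ := pel Q y hy
    refine mem_of_pElement P _ hPC ?_ hk
    refine centralizer_le hTI hw1 (Subgroup.mem_centralizer_singleton_iff.mp hwC) ?_
    exact Subgroup.mem_centralizer_singleton_iff.mpr (hw y hy)
  have hcomm : ∀ y ∈ Subgroup.centralizer ({z} : Set G), ∀ g ∈ Subgroup.centralizer ({z} : Set G),
      g * y * g⁻¹ * y = y * (g * y * g⁻¹) := by
    intro y hy g hg
    have h1 := centralizer_le hTI hz1 (Subgroup.mem_centralizer_singleton_iff.mp hy).symm hg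
    have h2 := (Subgroup.mem_normalizer_iff.mp h1 y).mp
      (Subgroup.mem_centralizer_singleton_iff.mpr rfl)
    exact Subgroup.mem_centralizer_singleton_iff.mp h2
  apply hPQ
  have hle : (P : Subgroup G) ≤ Q := by
    intro y hyP
    obtain ⟨k, hk⟩ := pel P y hyP
    have hyC := hPC hyP
    set S : Set G := {t | ∃ g ∈ Subgroup.centralizer ({z} : Set G), t = g * y * g⁻¹} with hS
    have hSc : ∀ s ∈ S, ∀ t ∈ S, s * t = t * s := by
      rintro s ⟨g, hg, rfl⟩ t ⟨h, hh, rfl⟩
      have h1 := hcomm y hyC (h⁻¹ * g) (mul_mem (inv_mem hh) hg)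
      have h2 := congrArg (fun u => h * u * h⁻¹) h1
      simpa [mul_assoc] using h2
    have hcl : ∀ a ∈ Subgroup.closure S, ∀ b ∈ Subgroup.closure S, a * b = b * a := by
      intro a ha b hb
      have := Subgroup.isMulCommutative_closure (k := S) hSc
      exact congrArg Subtype.val (this.is_comm.comm (⟨a, ha⟩ : Subgroup.closure S) ⟨b, hb⟩)
    have hpS : IsPGroup p (Subgroup.closure S) := by
      rintro ⟨a, ha⟩
      have : ∃ k, a ^ p ^ k = 1 := by
        induction ha using Subgroup.closure_induction with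
        | mem a ha =>
          obtain ⟨g, hg, rfl⟩ := ha
          exact ⟨k, by rw [conj_pow, hk]; group⟩
        | one => exact ⟨0, by simp⟩
        | mul a b ha hb iha ihb =>
          obtain ⟨i, hi⟩ := iha
          obtain ⟨j, hj⟩ := ihb
          refine ⟨i + j, ?_⟩
          rw [(show Commute a b from hcl a ha b hb).mul_pow]
          rw [show a ^ p ^ (i + j) = 1 by rw [pow_add, pow_mul, hi, one_pow],
            show b ^ p ^ (i + j) = 1 by rw [add_comm, pow_add, pow_mul, hj, one_pow], one_mul]
        | inv a ha iha =>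
          obtain ⟨i, hi⟩ := iha
          exact ⟨i, by rw [inv_pow, hi, inv_one]⟩
      obtain ⟨k, hk⟩ := this
      exact ⟨k, Subtype.ext (by simpa using hk)⟩
    have hnorm : (Q : Subgroup G) ≤ Subgroup.normalizer (Subgroup.closure S : Set G) := by
      have hq1 : ∀ q ∈ (Q : Subgroup G), ∀ a ∈ Subgroup.closure S, q * a * q⁻¹ ∈ Subgroup.closure S := by
       intro q hq a ha
       induction ha using Subgroup.closure_induction with
       | mem a ha =>
         obtain ⟨g, hg, rfl⟩ := ha
         refine Subgroup.subset_closure ⟨q * g, mul_mem (hQC hq) hg, by group⟩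
       | one => simpa using one_mem _
       | mul a b ha hb iha ihb =>
         have := mul_mem iha ihb
         simpa [mul_assoc] using this
       | inv a ha iha =>
         have := inv_mem iha
         simpa [mul_assoc] using this
      intro q hq
      rw [Subgroup.mem_normalizer_iff]
      intro a
      refine ⟨hq1 q hq a, fun h => ?_⟩
      have := hq1 q⁻¹ (inv_mem hq) _ h
      simpa [mul_assoc] using this
    have hsup : IsPGroup p ((Q : Subgroup G) ⊔ Subgroup.closure S : Subgroup G) :=
      Q.isPGroup'.to_sup_of_normal_right' hpS hnorm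
    have heq := Q.is_maximal' hsup le_sup_left
    have hyS : y ∈ Subgroup.closure S := Subgroup.subset_closure ⟨1, one_mem _, by simp⟩
    have : y ∈ ((Q : Subgroup G) ⊔ Subgroup.closure S : Subgroup G) := le_sup_right (a := (Q : Subgroup G)) hyS
    rw [heq] at this
    exact this
  exact Sylow.ext (P.is_maximal' Q.isPGroup' hle).symm

end Cfsg.Agent.S4066
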