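import Cfsg.Statements.S4067
import Mathlib
import Cfsg.Agent.Lib.H10AutOrb

set_option autoImplicit false
open Cfsg

namespace Cfsg.Agent.S4067

/-- Let G be a finite non-abelian group and p the least prime dividing its order. Then the automorphism group of G has at most #G/p orbits on G. -/
theorem result {G : Type*} [Group G] [Finite G] (hna : ¬ IsMulCommutative G) :
    Nat.card (MulAction.orbitRel.Quotient (MulAut G) G) ≤ Nat.card G / (Nat.card G).minFac := by
  have h1 : (Nat.card G).minFac.Prime ∧
      ∀ d : ℕ, d ∣ Nat.card G → d ≠ 1 → (Nat.card G).minFac ≤ d := by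
    constructor
    · refine Nat.minFac_prime fun hc => hna ⟨⟨fun a b => ?_⟩⟩
      have := (Nat.card_eq_one_iff_unique.mp hc).1
      exact Subsingleton.elim _ _
    · intro d hd hd1
      rcases Nat.eq_zero_or_pos d with rfl | hpos
      · exact absurd (Nat.eq_zero_of_zero_dvd hd) Nat.card_pos.ne'
      · exact Nat.minFac_le_of_dvd (by omega) hd
  have hne : commutator G ≠ ⊥ := by
    intro hc
    apply hna
    refine ⟨⟨fun a b => ?_⟩⟩
    open scoped commutatorElement in
    have h2 : ⁅a, b⁆ ∈ commutator G :=
      Subgroup.commutator_mem_commutator (Subgroup.mem_top _) (Subgroup.mem_top _)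
    rw [hc, Subgroup.mem_bot] at h2
    exact commutatorElement_eq_one_iff_mul_comm.mp h2
  have h2 := Cfsg.Agent.Lib.H10AutOrb.main h1.1 h1.2 hne
  rw [Nat.le_div_iff_mul_le h1.1.pos]
  rw [le_div_iff₀ (by exact_mod_cast h1.1.pos)] at h2
  exact_mod_cast h2

end Cfsg.Agent.S4067
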