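import Cfsg.Statements.S4068
import Cfsg.Agent.Lib.SL2EvenMisc
import Cfsg.Agent.Lib.ClSmall
import Cfsg.Agent.S1230
import Cfsg.Agent.S0183

set_option autoImplicit false
open Cfsg

namespace Cfsg.Agent.S4068

open Cfsg.Agent.Lib Subgroup

theorem orders {G : Type*} [Group G] [Finite G] (hns : ¬ Group.IsSolvable G)
    (h4 : Nat.card (MulAction.orbitRel.Quotient (MulAut G) G) = 4) :
    ∃ p q r : ℕ, p.Prime ∧ q.Prime ∧ r.Prime ∧ p ≠ q ∧ p ≠ r ∧ q ≠ r ∧
      ∀ y : G, y ≠ 1 → orderOf y = p ∨ orderOf y = q ∨ orderOf y = r := by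
  classical
  obtain ⟨p, q, r, hp, hq, hr, hpq, hpr, hqr, hpn, hqn, hrn⟩ := SL2EvenMisc.exists_three_primes hns
  have := Fact.mk hp
  have := Fact.mk hq
  have := Fact.mk hr
  obtain ⟨x, hx⟩ := exists_prime_orderOf_dvd_card' p hpn
  obtain ⟨y, hy⟩ := exists_prime_orderOf_dvd_card' q hqn
  obtain ⟨z, hz⟩ := exists_prime_orderOf_dvd_card' r hrn
  refine ⟨p, q, r, hp, hq, hr, hpq, hpr, hqr, ?_⟩
  let X := MulAction.orbitRel.Quotient (MulAut G) G
  let o : X → ℕ := Quotient.lift (fun g : G => orderOf g) (by
    rintro a b ⟨f, rfl⟩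
    exact MulEquiv.orderOf_eq f b)
  have ho : ∀ g : G, o (Quotient.mk'' g) = orderOf g := fun g => rfl
  let f : Fin 4 → X := ![Quotient.mk'' 1, Quotient.mk'' x, Quotient.mk'' y, Quotient.mk'' z]
  have hof : o ∘ f = ![1, p, q, r] := by
    funext i
    fin_cases i
    · show o (Quotient.mk'' 1) = 1
      rw [ho, orderOf_one]
    · show o (Quotient.mk'' x) = p
      rw [ho, hx]
    · show o (Quotient.mk'' y) = q
      rw [ho, hy]
    · show o (Quotient.mk'' z) = r
      rw [ho, hz]
  have hinj : Function.Injective f := by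
    apply Function.Injective.of_comp (f := o)
    rw [hof]
    have h1p := hp.one_lt
    have h1q := hq.one_lt
    have h1r := hr.one_lt
    intro i j hij
    fin_cases i <;> fin_cases j <;> simp at hij ⊢ <;> omega
  have : Finite X := Nat.finite_of_card_ne_zero (by rw [h4]; norm_num)
  have hsurj : Function.Surjective f := by
    have := (Nat.bijective_iff_injective_and_card f).mpr ⟨hinj, by rw [h4]; simp⟩
    exact this.2
  intro w hw
  obtain ⟨i, hi⟩ := hsurj (Quotient.mk'' w)
  have h1 : orderOf w = (![1, p, q, r] : Fin 4 → ℕ) i := by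
    rw [← ho w, ← hi, ← hof]; rfl
  fin_cases i
  · exfalso
    exact hw (orderOf_eq_one_iff.mp h1)
  · left; exact h1
  · right; left; exact h1
  · right; right; exact h1

theorem exists_pow_mul_pow {n q r : ℕ} (hn : n ≠ 0) (hq : q.Prime) (hr : r.Prime) (hqr : q ≠ r)
    (h : ∀ l : ℕ, l.Prime → l ∣ n → l = q ∨ l = r) : ∃ a b, n = q ^ a * r ^ b := by
  classical
  refine ⟨n.factorization q, n.factorization r, ?_⟩
  have h1 := Nat.prod_factorization_pow_eq_self hn
  have h2 : n.factorization.support ⊆ {q, r} := by
    intro l hl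
    rw [Nat.support_factorization, Nat.mem_primeFactors] at hl
    rcases h l hl.1 hl.2.1 with h3 | h3 <;> simp [h3]
  rw [Finsupp.prod_of_support_subset _ h2 _ (by intro i _; exact pow_zero i), Finset.prod_pair hqr] at h1
  exact h1.symm

theorem solvable_of_odd {q r : ℕ} (hq : q.Prime) (hr : r.Prime) (hqr : q ≠ r) {H : Type*} [Group H] [Finite H]
    (h : ∀ l : ℕ, l.Prime → l ∣ Nat.card H → l = q ∨ l = r) : Group.IsSolvable H := by
  obtain ⟨a, b, hab⟩ := exists_pow_mul_pow Nat.card_pos.ne' hq hr hqr h
  exact Cfsg.Agent.S0144.result q r a b hq hr hab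

theorem result {G : Type*} [Group G] [Finite G] (hns : ¬ Group.IsSolvable G)
    (h4 : Nat.card (MulAction.orbitRel.Quotient (MulAut G) G) = 4) : Nonempty (G ≃* alternatingGroup (Fin 5)) := by
  classical
  obtain ⟨p, q, r, hp, hq, hr, hpq, hpr, hqr, hord⟩ := orders hns h4
  have hprime : ∀ y : G, y ≠ 1 → (orderOf y).Prime := by
    intro y hy
    rcases hord y hy with h | h | h <;> rw [h] <;> assumption
  have hcent : ∀ x c : G, x ≠ 1 → c ≠ 1 → Commute x c → orderOf c = orderOf x := by
    intro x c hx hc hxc
    by_contra hne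
    have hcop : (orderOf x).Coprime (orderOf c) :=
      (Nat.coprime_primes (hprime x hx) (hprime c hc)).mpr (fun h => hne h.symm)
    have h1 := hxc.orderOf_mul_eq_mul_orderOf_of_coprime hcop
    have h2 : x * c ≠ 1 := by
      intro h
      rw [h, orderOf_one] at h1
      have := (hprime x hx).one_lt
      have := (hprime c hc).one_lt
      nlinarith
    have h3 := hprime _ h2
    rw [h1] at h3
    exact Nat.not_prime_mul (hprime x hx).ne_one (hprime c hc).ne_one h3
  have heven : ¬ Odd (Nat.card G) := by
    intro hodd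
    apply hns
    apply Cfsg.Agent.S0183.result hodd
    intro g hg
    have := Fact.mk (hprime g hg)
    have hpg : IsPGroup (orderOf g) (Subgroup.centralizer ({g} : Set G)) := by
      rw [IsPGroup.iff_orderOf]
      intro c
      by_cases hc : c = 1
      · exact ⟨0, by rw [hc, orderOf_one, pow_zero]⟩
      · refine ⟨1, ?_⟩
        rw [pow_one, ← Subgroup.orderOf_coe]
        apply hcent g c hg (fun h => hc (Subtype.ext h))
        exact (Subgroup.mem_centralizer_singleton_iff.mp c.2).symm
    exact hpg.isNilpotent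
  have h2n : 2 ∣ Nat.card G := by
    rcases Nat.even_or_odd (Nat.card G) with h | h
    · exact h.two_dvd
    · exact absurd h heven
  obtain ⟨t, ht⟩ := exists_prime_orderOf_dvd_card' 2 h2n
  have ht1 : t ≠ 1 := by
    intro h
    rw [h, orderOf_one] at ht
    omega
  -- rename the primes so that one of them is two
  obtain ⟨q', r', hq', hr', hqr', hord'⟩ : ∃ q' r' : ℕ, q'.Prime ∧ r'.Prime ∧ q' ≠ r' ∧
      ∀ y : G, y ≠ 1 → orderOf y = 2 ∨ orderOf y = q' ∨ orderOf y = r' := by
    rcases hord t ht1 with h | h | h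
    · rw [ht] at h
      refine ⟨q, r, hq, hr, hqr, ?_⟩
      intro y hy
      have := hord y hy
      omega
    · rw [ht] at h
      refine ⟨p, r, hp, hr, hpr, ?_⟩
      intro y hy
      have := hord y hy
      omega
    · rw [ht] at h
      refine ⟨p, q, hp, hq, hpq, ?_⟩
      intro y hy
      have := hord y hy
      omega
  have hl : ∀ l : ℕ, l.Prime → l ∣ Nat.card G → l ≠ 2 → l = q' ∨ l = r' := by
    intro l hl hln hl2
    have := Fact.mk hl
    obtain ⟨y, hy⟩ := exists_prime_orderOf_dvd_card' l hln
    have hy1 : y ≠ 1 := by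
      intro h
      rw [h, orderOf_one] at hy
      exact hl.ne_one hy.symm
    have := hord' y hy1
    omega
  have hC : ∀ t : G, orderOf t = 2 → IsMulCommutative (Subgroup.centralizer ({t} : Set G)) ∧
      ∀ c ∈ Subgroup.centralizer ({t} : Set G), c ^ 2 = 1 := by
    intro t ht
    have ht1 : t ≠ 1 := by
      intro h
      rw [h, orderOf_one] at ht
      omega
    have h2 : ∀ c ∈ Subgroup.centralizer ({t} : Set G), c ^ 2 = 1 := by
      intro c hc
      by_cases hc1 : c = 1
      · rw [hc1, one_pow]
      · have := hcent t c ht1 hc1 (Subgroup.mem_centralizer_singleton_iff.mp hc).symm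
        rw [ht] at this
        rw [← this]
        exact pow_orderOf_eq_one c
    refine ⟨⟨⟨fun a b => ?_⟩⟩, h2⟩
    have ha : a * a = 1 := Subtype.ext (by have := h2 a a.2; rw [pow_two] at this; exact this)
    have hb : b * b = 1 := Subtype.ext (by have := h2 b b.2; rw [pow_two] at this; exact this)
    have hab : (a * b) * (a * b) = 1 := Subtype.ext (by
      have := h2 ((a * b : Subgroup.centralizer ({t} : Set G)) : G) (a * b).2
      rw [pow_two] at this; exact this)
    have h1 : a * b = b⁻¹ * a⁻¹ := by
      have := eq_inv_of_mul_eq_one_left hab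
      rw [this, mul_inv_rev]
    rw [h1, inv_eq_of_mul_eq_one_left ha, inv_eq_of_mul_eq_one_left hb]
  let T : Sylow 2 G := default
  have hoddidx : ¬ 2 ∣ (T : Subgroup G).index := T.not_dvd_index
  have hnc : ¬ IsCyclic (T : Subgroup G) := by
    intro hcyc
    apply hns
    obtain ⟨N, hN, hNT⟩ := SL2EvenMisc.exists_two_complement T hcyc
    have hcard : Nat.card N = (T : Subgroup G).index := by
      have h1 := hNT.card_mul_card
      have h2 := (T : Subgroup G).card_mul_index
      have h3 : 0 < Nat.card (T : Subgroup G) := Nat.card_pos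
      apply Nat.eq_of_mul_eq_mul_right h3
      rw [h1, mul_comm, h2]
    have hNs : Group.IsSolvable N := by
      apply solvable_of_odd hq' hr' hqr'
      intro l hl1 hl2
      apply hl l hl1 (hl2.trans (Subgroup.card_subgroup_dvd_card N))
      rintro rfl
      rw [hcard] at hl2
      exact hoddidx hl2
    have hTs : Group.IsSolvable (T : Subgroup G) := by
      have := T.2.isNilpotent
      infer_instance
    have hQs : Group.IsSolvable (G ⧸ N) := by
      have e := hNT.symm.QuotientMulEquiv
      exact solvable_of_surjective (f := e.symm.toMonoidHom) e.symm.surjective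
    exact solvable_of_ker_le_range N.subtype (QuotientGroup.mk' N) (by simp)
  have hnn : ¬ (T : Subgroup G).Normal := by
    intro hnor
    apply hns
    have hTs : Group.IsSolvable (T : Subgroup G) := by
      have := T.2.isNilpotent
      infer_instance
    have hQs : Group.IsSolvable (G ⧸ (T : Subgroup G)) := by
      apply solvable_of_odd hq' hr' hqr'
      intro l hl1 hl2
      apply hl l hl1 (hl2.trans (Subgroup.card_quotient_dvd_card _))
      rintro rfl
      exact hoddidx hl2
    exact solvable_of_ker_le_range (T : Subgroup G).subtype (QuotientGroup.mk' (T : Subgroup G)) (by simp)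
  obtain ⟨F, hF, hFf, hcard, ⟨e⟩⟩ := Cfsg.Agent.S1230.result T hnc hnn hC
  -- the order of F
  obtain ⟨k, hk⟩ := T.2.exists_card_eq
  have hk2 : 2 ≤ k := by
    by_contra hlt
    apply hnc
    interval_cases k
    · have : Subsingleton (T : Subgroup G) := (Nat.card_eq_one_iff_unique.mp (by rw [hk]; norm_num)).1
      infer_instance
    · exact isCyclic_of_prime_card (p := 2) (by rw [hk]; norm_num)
  have hq4 : Fintype.card F = 4 := by
    have hchar : CharP F 2 := by
      obtain ⟨c, hc⟩ := CharP.exists F
      have hcp : c.Prime := CharP.char_is_prime F c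
      obtain ⟨m, hm⟩ := FiniteField.card F c
      have : c ∣ 2 ^ k := by
        rw [← hk, ← hcard, hm.2]
        exact dvd_pow_self c m.2.ne'
      have h2 : c = 2 := (Nat.prime_dvd_prime_iff_eq hcp Nat.prime_two).mp (hcp.dvd_of_dvd_pow this)
      rw [← h2]; exact hc
    obtain ⟨e'⟩ := SL2EvenMisc.exists_psl_equiv (F := F)
    have hcardF : Fintype.card F = 2 ^ k := by rw [hcard]; exact hk
    have h4le : 4 ≤ Fintype.card F := by
      rw [hcardF]
      calc 4 = 2 ^ 2 := by norm_num
        _ ≤ 2 ^ k := Nat.pow_le_pow_right (by norm_num) hk2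
    have hprimeS : ∀ y : Matrix.SpecialLinearGroup (Fin 2) F, y ≠ 1 → (orderOf y).Prime := by
      intro y hy
      have h1 := hprime (e.symm (e' y)) (by
        intro h
        apply hy
        have := congrArg e h
        rw [MulEquiv.apply_symm_apply, map_one] at this
        exact e'.map_eq_one_iff.mp this)
      rw [MulEquiv.orderOf_eq, MulEquiv.orderOf_eq] at h1
      exact h1
    have hcyc : ∀ C : Subgroup (Matrix.SpecialLinearGroup (Fin 2) F), IsCyclic C → Nat.card C ≠ 1 → (Nat.card C).Prime := by
      intro C hC hC1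
      obtain ⟨g, hg⟩ := hC.exists_generator
      have h1 : orderOf g = Nat.card C := orderOf_eq_card_of_forall_mem_zpowers hg
      have h2 : g ≠ 1 := by
        rintro rfl
        rw [orderOf_one] at h1
        exact hC1 h1.symm
      rw [← h1, ← Subgroup.orderOf_coe]
      exact hprimeS _ (fun h => h2 (Subtype.ext h))
    have hm1 : (Fintype.card F - 1).Prime := by
      have h1 := hcyc _ (SchurSL2.torus_isCyclic (F := F)) (by rw [SchurSL2.card_torus]; omega)
      rwa [SchurSL2.card_torus] at h1
    have hp1 : (Fintype.card F + 1).Prime := by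
      obtain ⟨n, hn⟩ := SchurSL2.exists_irr (F := F)
      obtain ⟨m, hm, hm2⟩ := SchurSL2.card_nsTorus hn
      obtain ⟨u, hu⟩ := hm
      have hsq : Fintype.card F ^ 2 - 1 = (Fintype.card F + 1) * (Fintype.card F - 1) := by
        have := Nat.sq_sub_sq (Fintype.card F) 1
        simpa using this
      have hm0 : 0 < m := by
        rcases Nat.eq_zero_or_pos m with h | h
        · rw [h, zero_mul] at hu
          omega
        · exact h
      have h3 : Nat.card (SchurSL2.nsTorus 1 n) = (Fintype.card F + 1) * u := by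
        apply Nat.eq_of_mul_eq_mul_right hm0
        rw [hm2, hsq, hu]
        ring
      have h4 : (Nat.card (SchurSL2.nsTorus 1 n)).Prime := by
        apply hcyc _ (SchurSL2.nsTorus_isCyclic hn)
        rw [h3]
        intro h
        have := Nat.eq_one_of_mul_eq_one_right h
        omega
      rw [h3] at h4
      rcases Nat.prime_mul_iff.mp h4 with ⟨h5, _⟩ | ⟨_, h5⟩
      · exact h5
      · omega
    have h3 : Fintype.card F % 3 ≠ 0 := by
      intro h
      have h3 : 3 ∣ 2 ^ k := by rw [← hcardF]; exact Nat.dvd_of_mod_eq_zero h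
      have := (Nat.Prime.dvd_of_dvd_pow Nat.prime_three h3)
      omega
    rcases (by omega : (Fintype.card F - 1) % 3 = 0 ∨ (Fintype.card F + 1) % 3 = 0) with h | h
    · have := (Nat.prime_dvd_prime_iff_eq Nat.prime_three hm1).mp (Nat.dvd_of_mod_eq_zero h)
      omega
    · have := (Nat.prime_dvd_prime_iff_eq Nat.prime_three hp1).mp (Nat.dvd_of_mod_eq_zero h)
      omega
  obtain ⟨e5⟩ := ClSmall.psl2_four hq4
  exact ⟨e.trans e5⟩

end Cfsg.Agent.S4068
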