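import Cfsg.Statements.S4071
import Mathlib
import Cfsg.Agent.Lib.BGTools
import Cfsg.Agent.Lib.CoprimeAction2
import Cfsg.Agent.Lib.HallPi
import Cfsg.Agent.Lib.H31PGroup
-- import your own Cfsg.Agent.* helpers here

set_option autoImplicit false
open Cfsg

namespace Cfsg.Agent.S4071

open Subgroup
open scoped commutatorElement
open Cfsg.Agent.Lib.RelSylow Cfsg.Agent.Lib.SubgroupTools

variable {G : Type*} [Group G] [Finite G]

theorem abelian_of_normal (hS : ∀ H : Subgroup G, ¬ IsMulCommutative H → Subgroup.normalizer (H : Set G) = H)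
    {N : Subgroup G} (hN : N.Normal) (hNt : N ≠ ⊤) : IsMulCommutative N := by
  by_contra h
  apply hNt
  rw [← hS N h, normalizer_eq_top_iff]
  exact hN

theorem exists_normal_index_prime [Nontrivial G] [hs : Group.IsSolvable G] :
    ∃ M : Subgroup G, M.Normal ∧ M.index.Prime ∧ commutator G ≤ M := by
  have h1 : commutator G ≠ ⊤ := (Group.IsSolvable.commutator_lt_top_of_nontrivial G).ne
  obtain ⟨M, hM, hGM⟩ := Cfsg.Agent.Lib.MinSimpleOdd.exists_isCoatom_ge h1
  have hn : M.Normal := by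
    constructor
    intro n hn g
    have h2 : g * n * g⁻¹ = (g * n * g⁻¹ * n⁻¹) * n := by group
    rw [h2]
    refine mul_mem (hGM ?_) hn
    exact Subgroup.commutator_mem_commutator (mem_top g) (mem_top n)
  refine ⟨M, hn, ?_, hGM⟩
  have hcomm : IsMulCommutative (G ⧸ M) := by
    refine ⟨⟨?_⟩⟩
    intro a b
    obtain ⟨a, rfl⟩ := QuotientGroup.mk'_surjective M a
    obtain ⟨b, rfl⟩ := QuotientGroup.mk'_surjective M b
    rw [← map_mul, ← map_mul]
    apply QuotientGroup.eq.mpr
    have h2 : (a * b)⁻¹ * (b * a) = ⁅b⁻¹, a⁻¹⁆ := by rw [commutatorElement_def]; group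
    rw [h2]
    exact hGM (Subgroup.commutator_mem_commutator (mem_top _) (mem_top _))
  have hsimp : IsSimpleGroup (G ⧸ M) := by
    have hnt : Nontrivial (G ⧸ M) := by
      rw [← Finite.one_lt_card_iff_nontrivial, ← Subgroup.index_eq_card]
      rcases Nat.lt_or_ge 1 M.index with h | h
      · exact h
      · have : M.index = 1 := le_antisymm h (Nat.pos_of_ne_zero FiniteIndex.index_ne_zero)
        exact absurd (Subgroup.index_eq_one.mp this) hM.1
    have h' : ∀ H : Subgroup (G ⧸ M), H.Normal → H = ⊥ ∨ H = ⊤ := by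
      intro L _
      by_cases hLt : L = ⊤
      · exact Or.inr hLt
      · left
        have h1 : L.comap (QuotientGroup.mk' M) ≠ ⊤ := by
          intro h
          apply hLt
          apply Subgroup.comap_injective (QuotientGroup.mk'_surjective M)
          rw [h, comap_top]
        have h2 : M ≤ L.comap (QuotientGroup.mk' M) := by
          intro n hn
          change QuotientGroup.mk' M n ∈ L
          rw [show QuotientGroup.mk' M n = 1 from (QuotientGroup.eq_one_iff n).mpr hn]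
          exact one_mem _
        have h3 := Cfsg.Agent.Lib.MinSimpleOdd.eq_of_le_of_isCoatom hM h1 h2
        rw [eq_bot_iff]
        intro x hx
        obtain ⟨x, rfl⟩ := QuotientGroup.mk'_surjective M x
        refine mem_bot.mpr ((QuotientGroup.eq_one_iff x).mpr ?_)
        rw [← h3]
        exact hx
    exact ⟨h'⟩
  rw [Subgroup.index_eq_card]
  exact Group.is_simple_iff_prime_card.mp hsimp

theorem fpf_mem {y : G} {A H : Subgroup G} (hAn : A.Normal) (hAc : IsMulCommutative A) (hy : y ∈ H)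
    (hfix : ∀ a : G, a ∈ A → a ≠ 1 → y * a * y⁻¹ ≠ a) {a : G} (ha : a ∈ A) (haN : a ∈ normalizer (H : Set G)) :
    a ∈ H := by
  have hcomm : ∀ a ∈ A, ∀ b ∈ A, a * b = b * a := fun a ha b hb =>
    isMulCommutative_iff_of_setLike.mp hAc a ha b hb
  set B : Subgroup G := H ⊓ A with hB
  have hmaps : ∀ b : B, y * (b : G) * y⁻¹ * (b : G)⁻¹ ∈ B := by
    intro b
    refine mem_inf.mpr ⟨mul_mem (mul_mem (mul_mem hy b.2.1) (inv_mem hy)) (inv_mem b.2.1),
      mul_mem (hAn.conj_mem _ b.2.2 y) (inv_mem b.2.2)⟩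
  have hinj' : ∀ b ∈ A, ∀ c ∈ A, y * b * y⁻¹ * b⁻¹ = y * c * y⁻¹ * c⁻¹ → b = c := by
    intro b hb c hc h
    by_contra hne
    have h1 : c⁻¹ * b ≠ 1 := by
      intro h1
      exact hne (inv_mul_eq_one.mp h1).symm
    apply hfix (c⁻¹ * b) (mul_mem (inv_mem hc) hb) h1
    have hyb : y * b * y⁻¹ ∈ A := hAn.conj_mem b hb y
    have hyc : y * c * y⁻¹ ∈ A := hAn.conj_mem c hc y
    have e1 : y * (c⁻¹ * b) * y⁻¹ = (y * c * y⁻¹)⁻¹ * (y * b * y⁻¹) := by group
    have e2 : y * b * y⁻¹ = (y * c * y⁻¹ * c⁻¹) * b := by rw [← h]; group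
    rw [e1, e2]
    group
  have hinj : Function.Injective (fun b : B => (⟨y * (b : G) * y⁻¹ * (b : G)⁻¹, hmaps b⟩ : B)) := by
    intro b c h
    apply Subtype.ext
    exact hinj' b b.2.2 c c.2.2 (congrArg Subtype.val h)
  have hsurj := Finite.surjective_of_injective hinj
  have hya : y * a * y⁻¹ * a⁻¹ ∈ B := by
    refine mem_inf.mpr ⟨?_, mul_mem (hAn.conj_mem _ ha y) (inv_mem ha)⟩
    have h1 : a * y⁻¹ * a⁻¹ ∈ H := (mem_normalizer_iff.mp haN _).mp (inv_mem hy)
    have h2 : y * a * y⁻¹ * a⁻¹ = y * (a * y⁻¹ * a⁻¹) := by group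
    rw [h2]; exact mul_mem hy h1
  obtain ⟨b, hb⟩ := hsurj ⟨_, hya⟩
  have h3 := hinj' b b.2.2 a ha (congrArg Subtype.val hb)
  rw [← h3]; exact b.2.1

/-- direction ⇐ -/
theorem back {x : G} {A : Subgroup G} {p : ℕ} (hp : p.Prime) (hAn : A.Normal) (hAc : IsMulCommutative A)
    (hx : ∃ k : ℕ, orderOf x = p ^ k) (hpA : ¬ p ∣ Nat.card A) (hc : (Subgroup.zpowers x).IsComplement' A)
    (hxp : x ^ p ∈ Subgroup.center G) (hfix : ∀ a : G, a ∈ A → a ≠ 1 → x * a * x⁻¹ ≠ a)
    {H : Subgroup G} (hH : ¬ IsMulCommutative H) : Subgroup.normalizer (H : Set G) = H := by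
  have hpf : Fact p.Prime := ⟨hp⟩
  obtain ⟨k, hk⟩ := hx
  have hcomm : ∀ a ∈ A, ∀ b ∈ A, a * b = b * a := fun a ha b hb =>
    isMulCommutative_iff_of_setLike.mp hAc a ha b hb
  have hdec : ∀ g : G, ∃ i : ℤ, ∃ a ∈ A, g = x ^ i * a := by
    intro g
    obtain ⟨⟨⟨z, i, rfl⟩, ⟨a, ha⟩⟩, h⟩ := hc.2 g
    exact ⟨i, a, ha, h.symm⟩
  have hcen : ∀ i : ℤ, (p : ℤ) ∣ i → x ^ i ∈ center G := by
    rintro i ⟨j, rfl⟩
    rw [zpow_mul, zpow_natCast]
    exact zpow_mem hxp j
  set W : Subgroup G := A ⊔ zpowers (x ^ p) with hW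
  -- `W` is abelian
  have hWc : ∀ u ∈ W, ∀ v ∈ W, u * v = v * u := by
    have hn : zpowers (x ^ p) ≤ normalizer (A : Set G) := by rw [normalizer_eq_top]; exact le_top
    have hcz : ∀ w ∈ zpowers (x ^ p), w ∈ center G := by
      rintro w ⟨i, rfl⟩
      exact zpow_mem hxp i
    intro u hu v hv
    obtain ⟨a, ha, z, hz, rfl⟩ := (mem_sup_of_le_normalizer hn).mp hu
    obtain ⟨b, hb, w, hw, rfl⟩ := (mem_sup_of_le_normalizer hn).mp hv
    have h1 := mem_center_iff.mp (hcz z hz)
    have h2 := mem_center_iff.mp (hcz w hw)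
    calc a * z * (b * w) = a * (z * b) * w := by group
      _ = a * (b * z) * w := by rw [h1 b]
      _ = (a * b) * (z * w) := by group
      _ = (b * a) * (z * w) := by rw [hcomm a ha b hb]
      _ = b * (a * (z * w)) := by group
      _ = b * (a * (w * z)) := by rw [h2 z]
      _ = b * ((a * w) * z) := by group
      _ = b * ((w * a) * z) := by rw [h2 a]
      _ = b * w * (a * z) := by group
  obtain ⟨h, hhH, hhW⟩ : ∃ h ∈ H, h ∉ W := by
    by_contra hno
    push Not at hno
    exact hH ⟨⟨fun a b => Subtype.ext (hWc a (hno a a.2) b (hno b b.2))⟩⟩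
  -- a `p`-element of `H` outside `W`
  have hAW : A ≤ W := le_sup_left
  have hpow : ∀ g : G, g ^ p ∈ W := by
    intro g
    obtain ⟨i, a, ha, rfl⟩ := hdec g
    have h1 : ∀ n : ℕ, ∃ b ∈ A, (x ^ i * a) ^ n = x ^ (i * n) * b := by
      intro n
      induction n with
      | zero => exact ⟨1, one_mem _, by simp⟩
      | succ n ih =>
        obtain ⟨b, hb, hbe⟩ := ih
        refine ⟨(x ^ i)⁻¹ * b * x ^ i * a, mul_mem ?_ ha, ?_⟩
        · have := hAn.conj_mem b hb (x ^ i)⁻¹
          simpa using this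
        · rw [pow_succ, hbe, show (i * ((n + 1 : ℕ) : ℤ)) = i * n + i by push_cast; ring, zpow_add]
          group
    obtain ⟨b, hb, hbe⟩ := h1 p
    rw [hbe]
    refine mul_mem ?_ (hAW hb)
    rw [mul_comm, zpow_mul, zpow_natCast]
    exact mem_sup_right (zpow_mem (mem_zpowers _) i)
  obtain ⟨t, s, hts, hpt⟩ : ∃ t s : ℕ, orderOf h = p ^ s * t ∧ ¬ p ∣ t :=
    ⟨orderOf h / p ^ (orderOf h).factorization p, (orderOf h).factorization p,
      (Nat.ordProj_mul_ordCompl_eq_self _ _).symm, Nat.not_dvd_ordCompl hp (orderOf_pos h).ne'⟩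
  have hh' : h ^ t ∉ W := by
    intro h1
    apply hhW
    have hcop : Nat.gcd t p = 1 := Nat.coprime_comm.mp ((hp.coprime_iff_not_dvd).mpr hpt)
    have hb := Nat.gcd_eq_gcd_ab t p
    rw [hcop] at hb
    have e : h = h ^ (((1 : ℕ) : ℤ)) := by simp
    rw [e, hb, zpow_add, zpow_mul, zpow_mul, zpow_natCast, zpow_natCast]
    exact mul_mem (zpow_mem h1 _) (zpow_mem (hpow h) _)
  have hZs : IsSyl p (zpowers x) ⊤ := by
    refine ⟨le_top, IsPGroup.of_card (n := k) (by rw [Nat.card_zpowers, hk]), ?_⟩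
    rw [relIndex_top_right, hc.symm.index_eq_card]
    exact hpA
  have hhp : IsPGroup p (zpowers (h ^ t)) := by
    apply IsPGroup.of_card (n := s)
    have ht0 : t ≠ 0 := by rintro rfl; exact hpt (dvd_zero p)
    rw [Nat.card_zpowers, orderOf_pow_of_dvd ht0 ⟨p ^ s, by rw [hts, mul_comm]⟩, hts,
      Nat.mul_div_cancel _ (Nat.pos_of_ne_zero ht0)]
  obtain ⟨g, -, hg⟩ := hZs.exists_conj_le hhp le_top
  obtain ⟨_, ⟨j, rfl⟩, hj⟩ := hg (mem_zpowers _)
  have hj' : g * x ^ j * g⁻¹ = h ^ t := hj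
  have hpj : ¬ (p : ℤ) ∣ j := by
    intro hd
    apply hh'
    have h1 := mem_center_iff.mp (hcen j hd) g
    rw [← hj', h1, mul_inv_cancel_right]
    obtain ⟨i, rfl⟩ := hd
    rw [zpow_mul, zpow_natCast]
    exact mem_sup_right (zpow_mem (mem_zpowers _) i)
  -- `y = g x g⁻¹ ∈ H`
  have hyH : g * x * g⁻¹ ∈ H := by
    have hcop : IsCoprime j ((p : ℤ) ^ k) := by
      apply IsCoprime.pow_right
      rw [isCoprime_comm]
      exact (Prime.coprime_iff_not_dvd (Nat.prime_iff_prime_int.mp hp)).mpr hpj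
    obtain ⟨a, b, hab⟩ := hcop
    have h1 : x = (x ^ j) ^ a := by
      have h2 : x ^ ((p : ℤ) ^ k) = 1 := by
        rw [← Nat.cast_pow, zpow_natCast, ← hk, pow_orderOf_eq_one]
      calc x = x ^ (a * j + b * (p : ℤ) ^ k) := by rw [hab, zpow_one]
        _ = (x ^ j) ^ a * (x ^ ((p : ℤ) ^ k)) ^ b := by
            rw [zpow_add, mul_comm a, mul_comm b, zpow_mul, zpow_mul]
        _ = (x ^ j) ^ a := by rw [h2, one_zpow, mul_one]
    rw [h1, ← conj_zpow, hj']
    exact zpow_mem (pow_mem hhH t) a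
  apply le_antisymm _ le_normalizer
  intro n hn
  obtain ⟨i, a, ha, hia⟩ := hdec (g⁻¹ * n * g)
  have h1 : n = (g * x * g⁻¹) ^ i * (g * a * g⁻¹) := by
    rw [conj_zpow]
    have : n = g * (g⁻¹ * n * g) * g⁻¹ := by group
    rw [this, hia]; group
  have h2 : g * a * g⁻¹ ∈ A := hAn.conj_mem a ha g
  have h3 : g * a * g⁻¹ ∈ normalizer (H : Set G) := by
    have : g * a * g⁻¹ = ((g * x * g⁻¹) ^ i)⁻¹ * n := by rw [h1]; group
    rw [this]
    exact mul_mem (inv_mem (le_normalizer (zpow_mem hyH i))) hn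
  have h4 := fpf_mem hAn hAc hyH (by
    intro b hb hb1 hbe
    apply hfix (g⁻¹ * b * g) (by simpa using hAn.conj_mem b hb g⁻¹)
    · intro h5
      apply hb1
      have : b = g * (g⁻¹ * b * g) * g⁻¹ := by group
      rw [this, h5]; group
    · calc x * (g⁻¹ * b * g) * x⁻¹ = g⁻¹ * (g * x * g⁻¹ * b * (g * x * g⁻¹)⁻¹) * g := by group
        _ = g⁻¹ * b * g := by rw [hbe]) h2 h3
  rw [h1]
  exact mul_mem (zpow_mem hyH i) h4

theorem forward [Group.IsSolvable G] (hnn : ¬ Group.IsNilpotent G)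
    (hS : ∀ H : Subgroup G, ¬ IsMulCommutative H → Subgroup.normalizer (H : Set G) = H) :
    ∃ (x : G) (A : Subgroup G) (p : ℕ), p.Prime ∧ A.Normal ∧ IsMulCommutative A ∧ (∃ k : ℕ, orderOf x = p ^ k) ∧
      ¬ p ∣ Nat.card A ∧ (Subgroup.zpowers x).IsComplement' A ∧ x ^ p ∈ Subgroup.center G ∧
      ∀ a : G, a ∈ A → a ≠ 1 → x * a * x⁻¹ ≠ a := by
  have hnt : Nontrivial G := by
    by_contra h
    rw [not_nontrivial_iff_subsingleton] at h
    exact hnn inferInstance
  obtain ⟨M, hM, hMp, hGM⟩ := exists_normal_index_prime (G := G)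
  obtain ⟨p, hpe⟩ : ∃ p, p = M.index := ⟨_, rfl⟩
  have hp : p.Prime := hpe ▸ hMp
  have hpf : Fact p.Prime := ⟨hp⟩
  have hMt : M ≠ ⊤ := by
    rintro rfl
    rw [index_top] at hMp
    exact Nat.not_prime_one hMp
  have hMa := abelian_of_normal hS hM hMt
  have hMM : M ≤ centralizer (M : Set G) := le_centralizer_iff_isMulCommutative.mpr hMa
  have hMs : Group.IsSolvable M := Group.isSolvable_of_comm fun a b => hMa.is_comm.comm a b
  obtain ⟨A, hA⟩ := Cfsg.Agent.Lib.HallPi.exists_isPiHallOf hMs {q | q ≠ p}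
  have hAM := hA.1
  have hAn : A.Normal := by
    rw [← normalizer_eq_top_iff, eq_top_iff]
    intro g _
    rw [mem_normalizer_iff_map]
    have h1 : Cfsg.IsPiHallOf {q | q ≠ p} (A.map (MulAut.conj g).toMonoidHom) M := by
      have hMg : M.map (MulAut.conj g).toMonoidHom = M :=
        conj_eq_of_mem_normalizer (by rw [normalizer_eq_top]; trivial)
      refine ⟨?_, ?_, ?_⟩
      · rw [← hMg]; exact map_mono hAM
      · intro q hq hqd
        rw [card_conj] at hqd
        exact hA.2.1 q hq hqd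
      · intro q hq hqp hqd
        apply hA.2.2 q hq hqp
        have := Subgroup.relIndex_map_map_of_injective A M (f := (MulAut.conj g).toMonoidHom) (MulAut.conj g).injective
        rw [hMg] at this
        rwa [this] at hqd
    obtain ⟨m, hm, hme⟩ := Cfsg.Agent.Lib.HallPi.exists_conj_eq_rel hMs hA h1
    rw [conj_smul_eq_map] at hme
    rw [← hme]
    apply conj_eq_of_mem_normalizer
    exact centralizer_le_normalizer _ ((centralizer_le hAM) (hMM hm))
  have hpA : ¬ p ∣ Nat.card A := fun hd => hA.2.1 p hp hd rfl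
  have hAc : IsMulCommutative A := by
    rw [← le_centralizer_iff_isMulCommutative]
    exact (hAM.trans hMM).trans (centralizer_le hAM)
  have hAx : A.index ≠ 0 := FiniteIndex.index_ne_zero
  obtain ⟨k, hk⟩ : ∃ k, A.index = p ^ k := by
    refine ⟨_, Nat.eq_prime_pow_of_unique_prime_dvd hAx (fun {q} hq hqd => ?_)⟩
    rw [← relIndex_mul_index hAM] at hqd
    rcases hq.dvd_mul.mp hqd with h | h
    · by_contra hqp
      exact hA.2.2 q hq hqp h
    · rw [← hpe] at h
      exact (Nat.prime_dvd_prime_iff_eq hq hp).mp h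
  obtain ⟨P⟩ : Nonempty (Sylow p G) := inferInstance
  have hPM : ¬ (P : Subgroup G) ≤ M := by
    intro h
    have h1 : M.index ∣ (P : Subgroup G).index := Subgroup.index_dvd_of_le h
    exact P.not_dvd_index (hpe ▸ h1)
  obtain ⟨x, hxP, hxM⟩ := SetLike.not_le_iff_exists.mp hPM
  have hMx : M ⊔ zpowers x = ⊤ := by
    by_contra hne
    have h1 : (M ⊔ zpowers x).index ∣ M.index := Subgroup.index_dvd_of_le le_sup_left
    rcases (Nat.dvd_prime hMp).mp h1 with h2 | h2
    · exact hne (Subgroup.index_eq_one.mp h2)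
    · have h3 : M = M ⊔ zpowers x := by
        apply Subgroup.eq_of_le_of_card_ge le_sup_left
        have e1 := M.card_mul_index
        have e2 := (M ⊔ zpowers x).card_mul_index
        rw [h2] at e2
        exact (Nat.eq_of_mul_eq_mul_right hMp.pos (e2.trans e1.symm)).le
      apply hxM
      rw [h3]
      exact mem_sup_right (mem_zpowers x)
  have hgen : ∀ H : Subgroup G, M ≤ H → x ∈ H → H = ⊤ := by
    intro H h1 h2
    rw [eq_top_iff, ← hMx]
    exact sup_le h1 (zpowers_le.mpr h2)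
  have hAP : A ⊓ (P : Subgroup G) = ⊥ := by
    apply inf_eq_bot_of_coprime'
    obtain ⟨n, hn⟩ := IsPGroup.iff_card.mp P.2
    rw [hn]
    exact (Nat.Coprime.pow_left n ((hp.coprime_iff_not_dvd).mpr hpA)).symm
  have hAPc : Nat.card A * Nat.card (P : Subgroup G) = Nat.card G := by
    obtain ⟨n, hn⟩ := IsPGroup.iff_card.mp P.2
    have e1 := A.card_mul_index
    have e2 := (P : Subgroup G).card_mul_index
    rw [hk] at e1
    rw [hn] at e2 ⊢
    have h1 : p ^ n ∣ p ^ k := by
      apply Nat.Coprime.dvd_of_dvd_mul_left (m := Nat.card A)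
      · exact Nat.Coprime.pow_left n ((hp.coprime_iff_not_dvd).mpr hpA)
      · rw [e1, ← e2]; exact dvd_mul_right _ _
    have h2 : p ^ k ∣ p ^ n := by
      apply Nat.Coprime.dvd_of_dvd_mul_right (n := (P : Subgroup G).index)
      · exact Nat.Coprime.pow_left k ((hp.coprime_iff_not_dvd).mpr P.not_dvd_index)
      · rw [e2, ← e1]; exact dvd_mul_left _ _
    rw [Nat.dvd_antisymm h1 h2]; exact e1
  -- `x` does not centralize `A`
  have hxA : ¬ x ∈ centralizer (A : Set G) := by
    intro h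
    have h1 : centralizer (A : Set G) = ⊤ := hgen _ (hMM.trans (centralizer_le hAM)) h
    have h2 : A ≤ center G := by
      intro a ha
      rw [mem_center_iff]
      intro g
      have h3 : g ∈ centralizer (A : Set G) := by rw [h1]; trivial
      exact (mem_centralizer_iff.mp h3 a ha).symm
    apply hnn
    apply Group.of_quotient_center_nilpotent
    have h3 : (center G).index ∣ p ^ k := hk ▸ Subgroup.index_dvd_of_le h2
    obtain ⟨n, _, hn⟩ := (Nat.dvd_prime_pow hp).mp h3
    have h4 : IsPGroup p (G ⧸ center G) := IsPGroup.of_card (n := n) (by rw [← Subgroup.index_eq_card, hn])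
    exact h4.isNilpotent
  have hAtop : ∀ K : Subgroup G, K ≤ normalizer (A : Set G) := fun K => by
    rw [normalizer_eq_top]; exact le_top
  set H : Subgroup G := A ⊔ zpowers x with hH
  have hHn : ¬ IsMulCommutative H := by
    intro h0
    apply hxA
    have h1 : A ≤ H := le_sup_left
    exact (centralizer_le h1) (le_centralizer_iff_isMulCommutative.mpr h0 (mem_sup_right (mem_zpowers x)))
  have hNH := hS H hHn
  have hxPle : zpowers x ≤ (P : Subgroup G) := zpowers_le.mpr hxP
  have hHP : H ⊓ (P : Subgroup G) ≤ zpowers x := by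
    rintro g ⟨hg, hgP⟩
    obtain ⟨a, ha, z, hz, rfl⟩ := (mem_sup_of_le_normalizer (hAtop _)).mp hg
    have h0 : a ∈ (P : Subgroup G) := by
      have h2 : a * z ∈ (P : Subgroup G) := hgP
      have := mul_mem h2 (inv_mem (hxPle hz))
      simpa using this
    have h1 : a ∈ A ⊓ (P : Subgroup G) := ⟨ha, h0⟩
    rw [hAP, mem_bot] at h1
    rw [h1, one_mul]; exact hz
  have hPx : (P : Subgroup G) = zpowers x := by
    by_contra hne
    have hlt : zpowers x < (P : Subgroup G) := lt_of_le_of_ne hxPle (Ne.symm hne)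
    obtain ⟨g, hgP, hgx, hgn⟩ := Cfsg.Agent.Lib.H31PGroup.exists_mem_normalizer P.2 hlt
    apply hgx
    apply hHP
    refine ⟨?_, hgP⟩
    rw [← hNH]
    have : g ∈ normalizer (A : Set G) ⊓ normalizer (zpowers x : Set G) :=
      ⟨hAtop ⊤ (mem_top g), hgn⟩
    have h2 : normalizer (A : Set G) ⊓ normalizer (zpowers x : Set G) ≤ normalizer (H : Set G) :=
      Cfsg.Agent.Lib.LocBase.le_normalizer_sup inf_le_left inf_le_right
    exact h2 this
  obtain ⟨n, hn⟩ := IsPGroup.iff_card.mp P.2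
  have hxo : orderOf x = p ^ n := by rw [← Nat.card_zpowers, ← hPx, hn]
  have hxpM : x ^ p ∈ M := by
    have := Subgroup.pow_index_mem M x
    rwa [← hpe] at this
  have hxpc : x ^ p ∈ center G := by
    have h1 : centralizer ({x ^ p} : Set G) = ⊤ := by
      apply hgen
      · intro m hm
        rw [mem_centralizer_singleton_iff]
        exact mem_centralizer_iff.mp (hMM hxpM) m hm
      · rw [mem_centralizer_singleton_iff]
        exact ((Commute.refl x).pow_right p).eq
    rw [mem_center_iff]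
    intro g
    have h3 : g ∈ centralizer ({x ^ p} : Set G) := by rw [h1]; trivial
    exact mem_centralizer_singleton_iff.mp h3
  refine ⟨x, A, p, hp, hAn, hAc, ⟨n, hxo⟩, hpA, ?_, hxpc, ?_⟩
  · rw [← hPx]
    apply Subgroup.isComplement'_of_card_mul_and_disjoint
    · rw [mul_comm]; exact hAPc
    · rw [disjoint_iff, inf_comm]; exact hAP
  · intro a ha ha1 hae
    have hcop : (Nat.card (zpowers x)).Coprime (Nat.card A) := by
      rw [Nat.card_zpowers, hxo]
      exact Nat.Coprime.pow_left n ((hp.coprime_iff_not_dvd).mpr hpA)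
    have hsolv : Group.IsSolvable (zpowers x) ∨ Group.IsSolvable A := by
      left
      exact Group.isSolvable_of_comm fun a b => (IsCyclic.commGroup (α := zpowers x)).mul_comm a b
    have h1 := Cfsg.Agent.Lib.CoprimeAction2.inf_commutator_eq_bot_of_abelian (A := zpowers x) (V := A)
      (hAtop _) hcop
    have hac : a ∈ centralizer (zpowers x : Set G) := by
      rw [Cfsg.Agent.Lib.BGTools.centralizer_zpowers, mem_centralizer_singleton_iff]
      exact (mul_inv_eq_iff_eq_mul.mp hae).symm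
    have hRA : ⁅A, zpowers x⁆ ≤ A := Cfsg.Agent.Lib.LocBase.commutator_le_left_of_le (hAtop _)
    have hRx : zpowers x ≤ normalizer ((⁅A, zpowers x⁆ : Subgroup G) : Set G) := normalizer_commutator_ge_right _ _
    -- `[A,x]⟨x⟩` is nonabelian
    have hK : ¬ IsMulCommutative ↥(⁅A, zpowers x⁆ ⊔ zpowers x) := by
      intro h0
      apply hxA
      have h2 : ⁅A, zpowers x⁆ ≤ ⁅A, zpowers x⁆ ⊔ zpowers x := le_sup_left
      have h3 : zpowers x ≤ ⁅A, zpowers x⁆ ⊔ zpowers x := le_sup_right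
      have h4 : ⁅⁅A, zpowers x⁆, zpowers x⁆ = ⊥ := by
        rw [commutator_eq_bot_iff_le_centralizer]
        exact (h2.trans (le_centralizer_iff_isMulCommutative.mpr h0)).trans (centralizer_le h3)
      have h5 := Cfsg.Agent.Lib.CoprimeAction2.commutator_eq_bot_of_commutator_commutator (hAtop _) hcop hsolv h4
      exact (le_centralizer_iff.mp (commutator_eq_bot_iff_le_centralizer.mp h5)) (mem_zpowers x)
    have hNK := hS _ hK
    have haK : a ∈ ⁅A, zpowers x⁆ ⊔ zpowers x := by
      rw [← hNK]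
      refine Cfsg.Agent.Lib.LocBase.le_normalizer_sup (K := zpowers a) ?_ ?_ (mem_zpowers a)
      · rw [zpowers_le]
        exact normalizer_commutator_ge_left A (zpowers x) ha
      · rw [zpowers_le]
        exact centralizer_le_normalizer _ hac
    obtain ⟨b, hb, z, hz, hbz⟩ := (mem_sup_of_le_normalizer hRx).mp haK
    have hz1 : z ∈ A ⊓ (P : Subgroup G) := by
      refine mem_inf.mpr ⟨?_, hxPle hz⟩
      have : z = b⁻¹ * a := by rw [← hbz]; group
      rw [this]
      exact mul_mem (inv_mem (hRA hb)) ha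
    rw [hAP, mem_bot] at hz1
    rw [hz1, mul_one] at hbz
    have h6 : a ∈ A ⊓ centralizer (zpowers x : Set G) ⊓ ⁅A, zpowers x⁆ := ⟨⟨ha, hac⟩, hbz ▸ hb⟩
    rw [h1, mem_bot] at h6
    exact ha1 h6

/-- Let G be a finite solvable non-nilpotent group. Every non-abelian subgroup of G is self-normalizing if and only if G is a semidirect product ⟨x⟩ ⋉ A in which ⟨x⟩ is a p-group for some prime p, A is a normal abelian subgroup of order prime to p, x^p is central in G, and x acts fixed-point-freely on A (no non-identity element of A commutes with x). -/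
theorem result {G : Type*} [Group G] [Finite G]
    [Group.IsSolvable G] (hnn : ¬ Group.IsNilpotent G) :
    (∀ H : Subgroup G, ¬ IsMulCommutative H → Subgroup.normalizer (H : Set G) = H) ↔
    ∃ (x : G) (A : Subgroup G) (p : ℕ), p.Prime ∧ A.Normal ∧ IsMulCommutative A ∧ (∃ k : ℕ, orderOf x = p ^ k) ∧
      ¬ p ∣ Nat.card A ∧ (Subgroup.zpowers x).IsComplement' A ∧ x ^ p ∈ Subgroup.center G ∧
      ∀ a : G, a ∈ A → a ≠ 1 → x * a * x⁻¹ ≠ a := by
  refine ⟨forward hnn, ?_⟩
  rintro ⟨x, A, p, hp, hAn, hAc, hx, hpA, hc, hxp, hfix⟩ H hH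
  exact back hp hAn hAc hx hpA hc hxp hfix hH

end Cfsg.Agent.S4071
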