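import Cfsg.Statements.S4072
import Mathlib
import Cfsg.Agent.Lib.Transfer
import Cfsg.Agent.Lib.BGTools
import Cfsg.Agent.Lib.CoprimeAction2
-- import your own Cfsg.Agent.* helpers here

set_option autoImplicit false
open Cfsg

namespace Cfsg.Agent.S4072

open Subgroup
open Cfsg.Agent.Lib.RelSylow Cfsg.Agent.Lib.SubgroupTools

variable {G : Type*} [Group G] [Finite G]

theorem abelian_of_normal (hS : ∀ H : Subgroup G, ¬ IsMulCommutative H → Subgroup.normalizer (H : Set G) = H)
    {N : Subgroup G} (hN : N.Normal) (hNt : N ≠ ⊤) : IsMulCommutative N := by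
  by_contra h
  apply hNt
  rw [← hS N h, normalizer_eq_top_iff]
  exact hN

theorem isSolvable_of_isMulCommutative {N : Subgroup G} (hN : IsMulCommutative N) : Group.IsSolvable N :=
  Group.isSolvable_of_comm fun a b => hN.is_comm.comm a b

/-- `G` is solvable if `N` and `G/N` are. -/
theorem solvable_of_normalPComplement {p : ℕ} [hp : Fact p.Prime]
    (hS : ∀ H : Subgroup G, ¬ IsMulCommutative H → Subgroup.normalizer (H : Set G) = H)
    (hpG : p ∣ Nat.card G) (h : Cfsg.HasNormalPComplement p G) : Group.IsSolvable G := by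
  obtain ⟨P, K, hK, hc⟩ := h
  have hcard : Nat.card K = (P : Subgroup G).index := hc.index_eq_card.symm
  have hidx : K.index = Nat.card (P : Subgroup G) := hc.symm.index_eq_card
  have hKt : K ≠ ⊤ := by
    rintro rfl
    rw [card_top] at hcard
    exact P.not_dvd_index (hcard ▸ hpG)
  have h1 : Group.IsSolvable K := isSolvable_of_isMulCommutative (abelian_of_normal hS hK hKt)
  obtain ⟨n, hn⟩ := IsPGroup.iff_card.mp P.2
  have h2 : IsPGroup p (G ⧸ K) := by
    apply IsPGroup.of_card (n := n)
    rw [← Subgroup.index_eq_card, hidx, hn]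
  have h3 : Group.IsNilpotent (G ⧸ K) := h2.isNilpotent
  have h4 : Group.IsSolvable (G ⧸ K) := inferInstance
  exact Group.isSolvable_of_ker_le_range K.subtype (QuotientGroup.mk' K) (by simp)

theorem mem_of_mem_sup {p : ℕ} [hp : Fact p.Prime] {R A : Subgroup G} (hR : IsPGroup p R)
    (hA : (Nat.card A).Coprime p) (hAR : A ≤ normalizer (R : Set G)) {n : G} (hn : n ∈ R ⊔ A)
    (hnp : IsPGroup p (zpowers n)) : n ∈ R := by
  have hs : IsSyl p R (R ⊔ A) := by
    refine ⟨le_sup_left, hR, ?_⟩
    intro hd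
    have h1 := card_sup_mul_card_inf hAR
    have h2 := card_mul_relIndex_of_le (le_sup_left : R ≤ R ⊔ A)
    have h3 : R.relIndex (R ⊔ A) * Nat.card (R ⊓ A : Subgroup G) = Nat.card A := by
      apply Nat.eq_of_mul_eq_mul_left (Nat.card_pos (α := R))
      rw [← mul_assoc, h2, h1]
    have h4 : p ∣ Nat.card A := h3 ▸ hd.mul_right _
    exact (hp.out.coprime_iff_not_dvd.mp hA.symm) h4
  obtain ⟨h, hh, hle⟩ := hs.exists_conj_le hnp (zpowers_le.mpr hn)
  have hn' : R ⊔ A ≤ normalizer (R : Set G) := sup_le le_normalizer hAR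
  rw [conj_eq_of_mem_normalizer (hn' hh)] at hle
  exact hle (mem_zpowers n)

theorem central_case {p : ℕ} [hp : Fact p.Prime]
    (hS : ∀ H : Subgroup G, ¬ IsMulCommutative H → Subgroup.normalizer (H : Set G) = H)
    {n : G} (hn : n ∈ center G) (hno : orderOf n = p) : Cfsg.HasNormalPComplement p G := by
  apply Cfsg.Agent.Lib.Transfer.hasNormalPComplement_of_local
  intro D hD hD1 g hg hgo
  by_contra hgc
  have hgo' : (Nat.card (zpowers g)).Coprime p := by rwa [Nat.card_zpowers]
  have hgD : zpowers g ≤ normalizer (D : Set G) := zpowers_le.mpr hg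
  have hcop : (Nat.card (zpowers g)).Coprime (Nat.card D) := by
    obtain ⟨k, hk⟩ := IsPGroup.iff_card.mp hD
    rw [hk]; exact Nat.Coprime.pow_right k hgo'
  have hsolv : Group.IsSolvable (zpowers g) ∨ Group.IsSolvable D := by
    left
    exact Group.isSolvable_of_comm fun a b => (IsCyclic.commGroup (α := zpowers g)).mul_comm a b
  set R : Subgroup G := ⁅D, zpowers g⁆ with hR
  have hRD : R ≤ D := Cfsg.Agent.Lib.LocBase.commutator_le_left_of_le hgD
  have hRp : IsPGroup p R := hD.to_le hRD
  have hRg : zpowers g ≤ normalizer (R : Set G) := normalizer_commutator_ge_right D (zpowers g)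
  have hRR : ⁅R, zpowers g⁆ = R := Cfsg.Agent.Lib.CoprimeAction2.commutator_commutator hgD hcop hsolv
  have hR1 : R ≠ ⊥ := by
    intro h0
    apply hgc
    have h1 := commutator_eq_bot_iff_le_centralizer.mp h0
    exact (le_centralizer_iff.mp h1) (mem_zpowers g)
  have hnp : IsPGroup p (zpowers n) := IsPGroup.of_card (n := 1) (by rw [Nat.card_zpowers, hno, pow_one])
  -- `R⟨g⟩` is nonabelian
  have hH : ¬ IsMulCommutative ↥(R ⊔ zpowers g) := by
    intro h0
    apply hR1
    rw [← hRR, commutator_eq_bot_iff_le_centralizer]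
    have h1 : zpowers g ≤ R ⊔ zpowers g := le_sup_right
    exact (le_sup_left.trans (le_centralizer_iff_isMulCommutative.mpr h0)).trans (centralizer_le h1)
  have hnH : n ∈ R ⊔ zpowers g := by
    rw [← hS _ hH, mem_normalizer_iff]
    intro x
    rw [← mem_center_iff.mp hn x, mul_inv_cancel_right]
  have hnR : n ∈ R := mem_of_mem_sup hRp hgo' hRg hnH hnp
  by_cases hRa : IsMulCommutative R
  · have h1 := Cfsg.Agent.Lib.CoprimeAction2.inf_commutator_eq_bot_of_abelian (A := zpowers g) (V := R) hRg
      (Nat.Coprime.coprime_dvd_right (card_dvd_of_le hRD) hcop)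
    rw [hRR] at h1
    have h2 : n ∈ (R ⊓ centralizer (zpowers g : Set G)) ⊓ R := by
      refine ⟨⟨hnR, ?_⟩, hnR⟩
      exact center_le_centralizer _ hn
    rw [h1, mem_bot] at h2
    rw [h2, orderOf_one] at hno
    exact hp.out.one_lt.ne hno
  · have h1 := hS R hRa
    have h2 : g ∈ R := by rw [← h1]; exact hRg (mem_zpowers g)
    have h3 : g = 1 := by
      obtain ⟨k, hk⟩ := hRp ⟨g, h2⟩
      have hk' : g ^ p ^ k = 1 := congrArg Subtype.val hk
      have h4 : orderOf g ∣ p ^ k := orderOf_dvd_of_pow_eq_one hk'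
      have h5 : orderOf g = 1 := Nat.Coprime.eq_one_of_dvd (Nat.Coprime.pow_right k hgo) h4
      exact orderOf_eq_one_iff.mp h5
    apply hgc
    rw [h3]; exact one_mem _

theorem quotient_case {N : Subgroup G} [hN : N.Normal] (hNt : N ≠ ⊤)
    (hmax : ∀ L : Subgroup G, L.Normal → L ≠ ⊤ → N ≤ L → L ≤ N)
    (hself : ∀ x : G, x ∉ N → normalizer ((N ⊔ zpowers x : Subgroup G) : Set G) = N ⊔ zpowers x) :
    Group.IsSolvable (G ⧸ N) := by
  have hcard : Nat.card (G ⧸ N) ≠ 1 := by
    rw [← Subgroup.index_eq_card]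
    intro h
    exact hNt (Subgroup.index_eq_one.mp h)
  obtain ⟨p, hp, hpd⟩ := Nat.exists_prime_and_dvd hcard
  have hpf : Fact p.Prime := ⟨hp⟩
  have hself' : ∀ x : G ⧸ N, x ≠ 1 → normalizer (zpowers x : Set (G ⧸ N)) = zpowers x := by
    intro x hx1
    obtain ⟨x, rfl⟩ := QuotientGroup.mk'_surjective N x
    have hxN : x ∉ N := by
      intro h
      exact hx1 ((QuotientGroup.eq_one_iff x).mpr h)
    have h1 := hself x hxN
    have h2 : (zpowers (QuotientGroup.mk' N x)).comap (QuotientGroup.mk' N) = N ⊔ zpowers x := by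
      rw [← MonoidHom.map_zpowers, comap_map_eq, QuotientGroup.ker_mk', sup_comm]
    apply Subgroup.comap_injective (QuotientGroup.mk'_surjective N)
    rw [comap_normalizer_eq_of_surjective _ (QuotientGroup.mk'_surjective N), h2, h1]
  have hsimple : ∀ L : Subgroup (G ⧸ N), L.Normal → L = ⊥ ∨ L = ⊤ := by
    intro L hL
    by_cases hLt : L = ⊤
    · exact Or.inr hLt
    · left
      have h1 : L.comap (QuotientGroup.mk' N) ≠ ⊤ := by
        intro h
        apply hLt
        apply Subgroup.comap_injective (QuotientGroup.mk'_surjective N)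
        rw [h, comap_top]
      have h2 := hmax (L.comap (QuotientGroup.mk' N)) (hL.comap _) h1 (by
        intro n hn
        change QuotientGroup.mk' N n ∈ L
        rw [show QuotientGroup.mk' N n = 1 from (QuotientGroup.eq_one_iff n).mpr hn]
        exact one_mem _)
      rw [eq_bot_iff]
      intro x hx
      obtain ⟨x, rfl⟩ := QuotientGroup.mk'_surjective N x
      exact mem_bot.mpr ((QuotientGroup.eq_one_iff x).mpr (h2 hx))
  have hnpc : Cfsg.HasNormalPComplement p (G ⧸ N) := by
    apply Cfsg.Agent.Lib.Transfer.hasNormalPComplement_of_local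
    intro D hD hD1 g hg hgo
    have hnt : Nontrivial D := (Subgroup.nontrivial_iff_ne_bot D).mpr hD1
    have h1 : Nontrivial (center D) := hD.center_nontrivial
    obtain ⟨z, hz1⟩ := exists_ne (1 : center D)
    have hz1' : (((z : D) : G ⧸ N)) ≠ 1 := by
      intro h
      exact hz1 (Subtype.ext (Subtype.ext h))
    have h2 : D ≤ zpowers (((z : D) : G ⧸ N)) := by
      rw [← hself' _ hz1']
      refine le_trans ?_ (centralizer_le_normalizer _)
      intro d hd
      rw [mem_centralizer_iff]
      rintro _ ⟨k, rfl⟩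
      have h3 := mem_center_iff.mp z.2 ⟨d, hd⟩
      have h4 : Commute d (((z : D) : G ⧸ N)) := congrArg Subtype.val h3
      exact (h4.zpow_right k).symm
    have h3 : D = zpowers (((z : D) : G ⧸ N)) := le_antisymm h2 (zpowers_le.mpr (z : D).2)
    have h4 : g ∈ D := by
      rw [h3, hself' _ hz1', ← h3] at hg
      exact hg
    have h5 : g = 1 := by
      obtain ⟨k, hk⟩ := hD ⟨g, h4⟩
      have hk' : g ^ p ^ k = 1 := congrArg Subtype.val hk
      have h4 : orderOf g ∣ p ^ k := orderOf_dvd_of_pow_eq_one hk'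
      have h5 : orderOf g = 1 := Nat.Coprime.eq_one_of_dvd (Nat.Coprime.pow_right k hgo) h4
      exact orderOf_eq_one_iff.mp h5
    rw [h5]; exact one_mem _
  obtain ⟨P, K, hK, hc⟩ := hnpc
  have hcard' : Nat.card K = (P : Subgroup (G ⧸ N)).index := hc.index_eq_card.symm
  have hidx : K.index = Nat.card (P : Subgroup (G ⧸ N)) := hc.symm.index_eq_card
  rcases hsimple K hK with h | h
  · rw [h, index_bot] at hidx
    obtain ⟨n, hn⟩ := IsPGroup.iff_card.mp P.2
    have h2 : IsPGroup p (G ⧸ N) := IsPGroup.of_card (n := n) (by rw [hidx, hn])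
    have h3 : Group.IsNilpotent (G ⧸ N) := h2.isNilpotent
    infer_instance
  · rw [h, card_top] at hcard'
    exact absurd (hcard' ▸ hpd) P.not_dvd_index

/-- A finite group in which every non-abelian subgroup is self-normalizing is solvable or simple. -/
theorem result {G : Type*} [Group G] [Finite G] (hS : ∀ H : Subgroup G, ¬ IsMulCommutative H → Subgroup.normalizer (H : Set G) = H) :
    Group.IsSolvable G ∨ IsSimpleGroup G := by
  by_contra hcon
  push Not at hcon
  obtain ⟨hns, hnsimp⟩ := hcon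
  have hnt : Nontrivial G := by
    by_contra h
    rw [not_nontrivial_iff_subsingleton] at h
    exact hns inferInstance
  obtain ⟨N₀, hN₀, hN₀b, hN₀t⟩ : ∃ N : Subgroup G, N.Normal ∧ N ≠ ⊥ ∧ N ≠ ⊤ := by
    by_contra h
    push Not at h
    have h' : ∀ H : Subgroup G, H.Normal → H = ⊥ ∨ H = ⊤ := by
      intro H hH
      by_cases hb : H = ⊥
      · exact Or.inl hb
      · exact Or.inr (h H hH hb)
    exact hnsimp ⟨h'⟩
  obtain ⟨N, hN₀N, hNmax⟩ := Finite.exists_le_maximal (a := N₀)
    (p := fun N : Subgroup G => N.Normal ∧ N ≠ ⊤) ⟨hN₀, hN₀t⟩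
  have hN := hNmax.prop.1
  have hNt := hNmax.prop.2
  have hNb : N ≠ ⊥ := fun h => hN₀b (le_bot_iff.mp (h ▸ hN₀N))
  have hNa := abelian_of_normal hS hN hNt
  have hNC : N ≤ centralizer (N : Set G) := le_centralizer_iff_isMulCommutative.mpr hNa
  have hmax : ∀ L : Subgroup G, L.Normal → L ≠ ⊤ → N ≤ L → L ≤ N := fun L hL hLt hNL =>
    hNmax.le_of_ge ⟨hL, hLt⟩ hNL
  by_cases hC : centralizer (N : Set G) = ⊤
  · have hcard : Nat.card N ≠ 1 := fun h => hNb (Subgroup.card_eq_one.mp h)
    obtain ⟨p, hp, hpd⟩ := Nat.exists_prime_and_dvd hcard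
    have hpf : Fact p.Prime := ⟨hp⟩
    obtain ⟨n, hn⟩ := exists_prime_orderOf_dvd_card' p hpd
    have hnc : (n : G) ∈ center G := by
      rw [mem_center_iff]
      intro g
      have h1 : g ∈ centralizer (N : Set G) := by rw [hC]; trivial
      exact (mem_centralizer_iff.mp h1 n n.2).symm
    exact hns (solvable_of_normalPComplement hS (hpd.trans (card_subgroup_dvd_card N))
      (central_case hS hnc (by rw [Subgroup.orderOf_coe, hn])))
  · have hCN : centralizer (N : Set G) ≤ N := hmax _ inferInstance hC hNC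
    have h1 : Group.IsSolvable (G ⧸ N) := quotient_case hNt hmax (by
      intro x hx
      apply hS
      intro h2
      apply hx
      apply hCN
      have h3 : N ≤ N ⊔ zpowers x := le_sup_left
      exact (centralizer_le h3) (le_centralizer_iff_isMulCommutative.mpr h2 (mem_sup_right (mem_zpowers x))))
    have h2 : Group.IsSolvable N := isSolvable_of_isMulCommutative hNa
    exact hns (Group.isSolvable_of_ker_le_range N.subtype (QuotientGroup.mk' N) (by simp))

end Cfsg.Agent.S4072
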