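import Cfsg.Statements.S4074
import Mathlib
-- import your own Cfsg.Agent.* helpers here

set_option autoImplicit false
open Cfsg

namespace Cfsg.Agent.S4074

open DihedralGroup in
/-- parity subgroup -/
theorem even_case (n : ℕ) (hn : 2 < n) (he : Even n) (h4 : n ≠ 4) :
    ∃ H : Subgroup (DihedralGroup n), H.Normal ∧ H ≠ ⊤ ∧ ¬ IsMulCommutative H := by
  classical
  have h2n : 2 ∣ n := he.two_dvd
  let c := ZMod.castHom h2n (ZMod 2)
  let f : DihedralGroup n → ZMod 2 := fun x => match x with
    | r i => c i
    | sr i => c i
  have hf : ∀ x y, f (x * y) = f x + f y := by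
    have hsub : ∀ a b : ZMod 2, b - a = a + b := by decide
    rintro (i | i) (j | j)
    · simp [f]
    · show c (j - i) = c i + c j
      rw [map_sub]; exact hsub _ _
    · simp [f]
    · show c (j - i) = c i + c j
      rw [map_sub]; exact hsub _ _
  let φ : DihedralGroup n →* Multiplicative (ZMod 2) :=
    MonoidHom.mk' (fun x => Multiplicative.ofAdd (f x)) (fun x y => by rw [hf]; rfl)
  have hφ : ∀ x, x ∈ φ.ker ↔ f x = 0 := by
    intro x
    rw [MonoidHom.mem_ker]
    rfl
  refine ⟨φ.ker, inferInstance, ?_, ?_⟩
  · intro h
    have h1 : (r 1 : DihedralGroup n) ∈ φ.ker := by rw [h]; trivial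
    rw [hφ] at h1
    simp [f] at h1
  · intro hc
    have h1 : (r 2 : DihedralGroup n) ∈ φ.ker := by
      rw [hφ]
      have : f (r 2) = (2 : ZMod 2) := by
        exact map_ofNat c 2
      rw [this]; rfl
    have h2 : (sr 0 : DihedralGroup n) ∈ φ.ker := by
      rw [hφ]
      show c 0 = 0
      simp
    have h3 := congrArg Subtype.val (hc.is_comm.comm (⟨_, h1⟩ : φ.ker) ⟨_, h2⟩)
    simp only [Subgroup.coe_mul, r_mul_sr, sr_mul_r] at h3
    have h4' : (4 : ZMod n) = 0 := by
      have h5 : (0 - 2 : ZMod n) = 0 + 2 := by simpa using h3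
      linear_combination -h5
    have h6 : ((4 : ℕ) : ZMod n) = 0 := by exact_mod_cast h4'
    rw [ZMod.natCast_eq_zero_iff] at h6
    have h7 := Nat.le_of_dvd (by norm_num) h6
    interval_cases n
    · omega
    · exact h4 rfl

open DihedralGroup in
theorem exists_refl {n : ℕ} {H : Subgroup (DihedralGroup n)} (hH : ¬ IsMulCommutative H) : ∃ a, sr a ∈ H := by
  by_contra hno
  push Not at hno
  apply hH
  refine ⟨⟨?_⟩⟩
  rintro ⟨x, hx⟩ ⟨y, hy⟩
  apply Subtype.ext
  rcases x with (i | i)
  · rcases y with (j | j)
    · show r i * r j = r j * r i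
      rw [r_mul_r, r_mul_r, add_comm]
    · exact absurd hy (hno j)
  · exact absurd hx (hno i)

/-- For n > 2, every non-abelian subgroup of the dihedral group of order 2n is self-normalizing if and only if n = 4 or n is odd. -/
theorem result (n : ℕ) (hn : 2 < n) :
    (∀ H : Subgroup (DihedralGroup n), ¬ IsMulCommutative H → Subgroup.normalizer (H : Set (DihedralGroup n)) = H) ↔
    (n = 4 ∨ Odd n) := by
  classical
  constructor
  · intro h
    rcases Nat.even_or_odd n with he | ho
    · left
      by_contra h4
      obtain ⟨H, hn1, hn2, hn3⟩ := even_case n hn he h4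
      have := h H hn3
      rw [Subgroup.normalizer_eq_top_iff.mpr hn1] at this
      exact hn2 this.symm
    · exact Or.inr ho
  · rintro (rfl | ho) H hH
    · have hHt : H = ⊤ := by
        by_contra hne
        apply hH
        have h1 : Nat.card H ∣ 2 ^ 3 := by
          have := H.card_subgroup_dvd_card
          rw [DihedralGroup.nat_card] at this
          simpa using this
        obtain ⟨k, hk, hk2⟩ := (Nat.dvd_prime_pow Nat.prime_two).mp h1
        have := Fact.mk Nat.prime_two
        interval_cases k
        · have : Subsingleton H := by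
            have h3 : Nat.card H = 1 := by simpa using hk2
            exact (Nat.card_eq_one_iff_unique.mp h3).1
          exact ⟨⟨fun a b => Subsingleton.elim _ _⟩⟩
        · have : IsCyclic H := isCyclic_of_prime_card (p := 2) (by simpa using hk2)
          exact ⟨⟨fun a b => (IsCyclic.commGroup (α := H)).mul_comm a b⟩⟩
        · exact IsPGroup.isMulCommutative_of_card_eq_prime_sq (p := 2) hk2
        · exfalso
          apply hne
          apply Subgroup.eq_top_of_card_eq
          rw [hk2, DihedralGroup.nat_card]
          norm_num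
      rw [hHt]
      exact Subgroup.normalizer_eq_top_iff.mpr (inferInstance : (⊤ : Subgroup _).Normal)
    · obtain ⟨a, ha⟩ := exists_refl hH
      have hrot : ∀ k : ZMod n, DihedralGroup.r k ∈ Subgroup.normalizer (H : Set (DihedralGroup n)) →
          DihedralGroup.r k ∈ H := by
        intro k hk
        rw [Subgroup.mem_normalizer_iff] at hk
        have h1 := (hk (DihedralGroup.sr a)).mp ha
        have h2 := H.mul_mem ha h1
        rw [DihedralGroup.inv_r, DihedralGroup.r_mul_sr, DihedralGroup.sr_mul_r, DihedralGroup.sr_mul_sr] at h2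
        obtain ⟨m, hm⟩ := ho
        have h3 := H.inv_mem (H.pow_mem h2 (m + 1))
        rw [DihedralGroup.r_pow, DihedralGroup.inv_r] at h3
        have h4 : -((a - k + -k - a) * ((m + 1 : ℕ) : ZMod n)) = k := by
          have h5 : ((2 * m + 1 : ℕ) : ZMod n) = 0 := by
            rw [ZMod.natCast_eq_zero_iff]
            exact ⟨1, by omega⟩
          push_cast at h5 ⊢
          linear_combination k * h5
        rwa [h4] at h3
      apply le_antisymm _ Subgroup.le_normalizer
      rintro (k | b) hg
      · exact hrot k hg
      · have h1 : DihedralGroup.sr b * DihedralGroup.sr a ∈ Subgroup.normalizer (H : Set (DihedralGroup n)) :=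
          Subgroup.mul_mem _ hg (Subgroup.le_normalizer ha)
        rw [DihedralGroup.sr_mul_sr] at h1
        have h2 := hrot _ h1
        have h3 := H.mul_mem h2 ha
        have h3' := H.mul_mem ha h2
        rw [DihedralGroup.r_mul_sr] at h3
        have h4 := H.mul_mem ha (H.inv_mem h2)
        rw [DihedralGroup.inv_r, DihedralGroup.sr_mul_r] at h4
        have h5 : a + -(a - b) = b := by ring
        rwa [h5] at h4

end Cfsg.Agent.S4074
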