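import Cfsg.Statements.S4075
import Mathlib
-- import your own Cfsg.Agent.* helpers here

set_option autoImplicit false
open Cfsg

namespace Cfsg.Agent.S4075

/-- Let G be a finite nilpotent group. Every non-abelian subgroup of G is self-normalizing if and only if G is abelian or G is a minimal non-abelian p-group for some prime p (non-abelian of prime-power order with every proper subgroup abelian). -/
theorem result {G : Type*} [Group G] [Finite G]
    [Group.IsNilpotent G] :
    (∀ H : Subgroup G, ¬ IsMulCommutative H → Subgroup.normalizer (H : Set G) = H) ↔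
    (IsMulCommutative G ∨ (IsPrimePow (Nat.card G) ∧ ¬ IsMulCommutative G ∧ ∀ H : Subgroup G, H ≠ ⊤ → IsMulCommutative H)) := by
  classical
  constructor
  · intro h
    by_cases hab : IsMulCommutative G
    · exact Or.inl hab
    right
    have hprop : ∀ H : Subgroup G, H ≠ ⊤ → IsMulCommutative H := by
      intro H hH
      by_contra hn
      have h1 := h H hn
      have h2 := (Group.normalizerCondition_of_isNilpotent (G := G)) H (lt_top_iff_ne_top.mpr hH)
      rw [h1] at h2
      exact lt_irrefl _ h2
    refine ⟨?_, hab, hprop⟩
    by_contra hnp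
    apply hab
    obtain ⟨e⟩ := ((Group.isNilpotent_of_finite_tfae (G := G)).out 0 4).mp ‹Group.IsNilpotent G›
    have hS : ∀ (p : (Nat.card G).primeFactors) (P : Sylow p G), IsMulCommutative P := by
      intro p P
      apply hprop
      intro ht
      apply hnp
      have hp : (p : ℕ).Prime := Nat.prime_of_mem_primeFactors p.2
      have := Fact.mk hp
      obtain ⟨k, hk⟩ := IsPGroup.iff_card.mp P.isPGroup'
      rw [ht, Subgroup.card_top] at hk
      rw [hk]
      refine hp.isPrimePow.pow ?_
      rintro rfl
      have h1 := Nat.dvd_of_mem_primeFactors p.2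
      have h2 : (p : ℕ) ∣ 1 := by simpa using (hk ▸ h1 : (p : ℕ) ∣ (p : ℕ) ^ 0)
      exact hp.one_lt.ne' (Nat.dvd_one.mp h2)
    refine ⟨⟨fun x y => ?_⟩⟩
    apply e.symm.injective
    rw [map_mul, map_mul]
    funext p P
    exact (hS p P).is_comm.comm _ _
  · rintro (h | ⟨_, _, h⟩) H hH
    · exfalso
      apply hH
      exact ⟨⟨fun x y => Subtype.ext (h.is_comm.comm _ _)⟩⟩
    · have : H = ⊤ := by
        by_contra hn
        exact hH (h H hn)
      rw [this]
      exact Subgroup.normalizer_eq_top_iff.mpr (inferInstance : (⊤ : Subgroup G).Normal)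

end Cfsg.Agent.S4075
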