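import Cfsg.Statements.S4080
import Mathlib
-- import your own Cfsg.Agent.* helpers here

set_option autoImplicit false
open Cfsg

namespace Cfsg.Agent.S4080

theorem pow_ap' {M : Type*} [AddCommGroup M] (N : AddMonoid.End M) (i : ℕ) (v : M) :
    (N ^ (i + 1)) v = N ((N ^ i) v) := by rw [pow_succ']; rfl

theorem pow_ap {M : Type*} [AddCommGroup M] (N : AddMonoid.End M) (i : ℕ) (v : M) :
    (N ^ (i + 1)) v = (N ^ i) (N v) := by rw [pow_succ]; rfl

theorem pow_aadd {M : Type*} [AddCommGroup M] (N : AddMonoid.End M) (i j : ℕ) (v : M) :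
    (N ^ (i + j)) v = (N ^ i) ((N ^ j) v) := by rw [pow_add]; rfl

theorem mpow_ap {M : Type*} [Group M] (N : MulAut M) (i : ℕ) (v : M) :
    (N ^ (i + 1)) v = N ((N ^ i) v) := by rw [pow_succ']; rfl

theorem add_one_pow_ap {M : Type*} [AddCommGroup M] (N : AddMonoid.End M) (p : ℕ) (v : M) :
    ((N + 1) ^ p) v = ∑ m ∈ Finset.range (p + 1), (p.choose m) • ((N ^ m) v) := by
  rw [(Commute.one_right N).add_pow p]
  simp only [one_pow, mul_one]
  have h : ∀ (s : Finset ℕ) (f : ℕ → AddMonoid.End M), (∑ m ∈ s, f m) v = ∑ m ∈ s, (f m) v := by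
    intro s f
    classical
    induction s using Finset.induction_on with
    | empty => simp only [Finset.sum_empty]; rfl
    | insert a s ha ih => rw [Finset.sum_insert ha, Finset.sum_insert ha, ← ih]; rfl
  rw [h]
  refine Finset.sum_congr rfl fun m _ => ?_
  rw [← nsmul_eq_mul']
  rfl

theorem sumA {M : Type*} [AddCommGroup M] (f : ℕ → M) {p : ℕ} (hp : 2 ≤ p) :
    ∑ m ∈ Finset.range (p + 1), f m = f 0 + (∑ m ∈ Finset.Ico 1 p, f m) + f p := by
  rw [Finset.sum_range_succ, Finset.range_eq_Ico, Finset.sum_eq_sum_Ico_succ_bot (by omega)]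

theorem sumB {M : Type*} [AddCommGroup M] (f : ℕ → M) {p : ℕ} (hp : 2 ≤ p) :
    ∑ m ∈ Finset.range (p + 1), f m = f 0 + (f 1 + ∑ m ∈ Finset.Ico 2 (p + 1), f m) := by
  rw [Finset.range_eq_Ico, Finset.sum_eq_sum_Ico_succ_bot (by omega), Finset.sum_eq_sum_Ico_succ_bot (by omega)]

section

variable {p : ℕ} [Fact p.Prime]

local notation "LL" => ZMod (p ^ 2) × ZMod (p ^ 2)

theorem cast_zero {x : ZMod (p ^ 2)} (hx : ZMod.castHom (dvd_pow_self p two_ne_zero) (ZMod p) x = 0) :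
    ∃ y, x = (p : ZMod (p ^ 2)) * y := by
  have hp : p.Prime := Fact.out
  have hne : NeZero (p ^ 2) := ⟨pow_ne_zero 2 hp.ne_zero⟩
  obtain ⟨n, rfl⟩ := ZMod.natCast_zmod_surjective x
  rw [map_natCast, ZMod.natCast_eq_zero_iff] at hx
  obtain ⟨m, rfl⟩ := hx
  exact ⟨m, by push_cast; rfl⟩

theorem mul_zero' {x : ZMod (p ^ 2)} (hx : (p : ZMod (p ^ 2)) * x = 0) :
    ∃ y, x = (p : ZMod (p ^ 2)) * y := by
  have hp : p.Prime := Fact.out
  have hne : NeZero (p ^ 2) := ⟨pow_ne_zero 2 hp.ne_zero⟩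
  obtain ⟨n, rfl⟩ := ZMod.natCast_zmod_surjective x
  have h1 : ((p * n : ℕ) : ZMod (p ^ 2)) = 0 := by push_cast; exact hx
  rw [ZMod.natCast_eq_zero_iff, pow_two] at h1
  obtain ⟨m, hm⟩ := Nat.dvd_of_mul_dvd_mul_left hp.pos h1
  exact ⟨m, by rw [hm]; push_cast; rfl⟩

theorem pp_zero (v : LL) : p • p • v = 0 := by
  have h : ((p : ZMod (p ^ 2)) * p) = 0 := by
    have := ZMod.natCast_self (p ^ 2)
    rw [← this]; push_cast; ring
  ext <;> simp [← mul_assoc, h]

/-- reduction mod `p` -/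
def redu : LL →+ ZMod p × ZMod p :=
  AddMonoidHom.prodMap (ZMod.castHom (dvd_pow_self p two_ne_zero) (ZMod p)).toAddMonoidHom
    (ZMod.castHom (dvd_pow_self p two_ne_zero) (ZMod p)).toAddMonoidHom

theorem mem_redu (v : LL) : v ∈ (redu (p := p)).ker ↔ ∃ w : LL, v = p • w := by
  constructor
  · intro h
    rw [AddMonoidHom.mem_ker] at h
    have h1 := congrArg Prod.fst h
    have h2 := congrArg Prod.snd h
    obtain ⟨y, hy⟩ := cast_zero h1
    obtain ⟨z, hz⟩ := cast_zero h2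
    refine ⟨(y, z), Prod.ext ?_ ?_⟩
    · have : v.1 = (p : ZMod (p ^ 2)) * y := hy
      rw [this]; simp
    · have : v.2 = (p : ZMod (p ^ 2)) * z := hz
      rw [this]; simp
  · rintro ⟨w, rfl⟩
    rw [AddMonoidHom.mem_ker, map_nsmul]
    have : ∀ u : ZMod p × ZMod p, p • u = 0 := by intro u; ext <;> simp
    exact this _

theorem index_redu : (redu (p := p)).ker.index = p ^ 2 := by
  have hp : p.Prime := Fact.out
  rw [AddSubgroup.index_ker]
  have hs : Function.Surjective (redu (p := p)) := by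
    rintro ⟨a, b⟩
    obtain ⟨x, hx⟩ := ZMod.castHom_surjective (dvd_pow_self p two_ne_zero) a
    obtain ⟨y, hy⟩ := ZMod.castHom_surjective (dvd_pow_self p two_ne_zero) b
    exact ⟨(x, y), Prod.ext hx hy⟩
  rw [AddMonoidHom.range_eq_top_of_surjective _ hs, AddSubgroup.card_top, Nat.card_prod, Nat.card_zmod, pow_two]

/-- nilpotent mod `p` endomorphisms square to zero mod `p`. -/
theorem sq_mem (N : AddMonoid.End LL) {k : ℕ} (hN : ∀ v, (N ^ k) v ∈ (redu (p := p)).ker) (v : LL) :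
    (N ^ 2) v ∈ (redu (p := p)).ker := by
  classical
  have hp : p.Prime := Fact.out
  set B := (redu (p := p)).ker with hB
  have hBN : ∀ v ∈ B, N v ∈ B := by
    intro v hv
    rw [mem_redu] at hv ⊢
    obtain ⟨w, rfl⟩ := hv
    exact ⟨N w, by rw [map_nsmul]⟩
  let A : ℕ → AddSubgroup LL := fun i => B ⊔ AddMonoidHom.range (N ^ i : AddMonoid.End LL)
  have hA : ∀ i v, v ∈ A i ↔ ∃ b ∈ B, ∃ w, v = b + (N ^ i) w := by
    intro i v
    constructor
    · intro h
      obtain ⟨b, hb, _, ⟨w, rfl⟩, rfl⟩ := AddSubgroup.mem_sup.mp h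
      exact ⟨b, hb, w, rfl⟩
    · rintro ⟨b, hb, w, rfl⟩
      exact AddSubgroup.mem_sup.mpr ⟨b, hb, _, ⟨w, rfl⟩, rfl⟩
  have hanti : ∀ i, A (i + 1) ≤ A i := by
    intro i v hv
    rw [hA] at hv ⊢
    obtain ⟨b, hb, w, rfl⟩ := hv
    exact ⟨b, hb, N w, by rw [pow_ap]⟩
  have hstep : ∀ i, A i ≤ A (i + 1) → A (i + 1) ≤ A (i + 2) := by
    intro i h v hv
    rw [hA] at hv
    obtain ⟨b, hb, w, rfl⟩ := hv
    have h1 : (N ^ i) w ∈ A i := (hA i _).mpr ⟨0, zero_mem _, w, by simp⟩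
    obtain ⟨c, hc, u, hu⟩ := (hA (i + 1) _).mp (h h1)
    rw [hA]
    refine ⟨b + N c, add_mem hb (hBN c hc), u, ?_⟩
    have h2 : (N ^ (i + 1)) w = N ((N ^ i) w) := pow_ap' N i w
    have h3 : (N ^ (i + 2)) u = N ((N ^ (i + 1)) u) := pow_ap' N (i + 1) u
    rw [h2, hu, map_add, h3, add_assoc]
  have hstab : ∀ i, A i ≤ A (i + 1) → A i ≤ B := by
    intro i h
    have h1 : ∀ j, A (i + j) ≤ A (i + j + 1) := by
      intro j
      induction j with
      | zero => exact h
      | succ j ih => exact hstep _ ih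
    have h2 : ∀ j, A i ≤ A (i + j) := by
      intro j
      induction j with
      | zero => exact le_rfl
      | succ j ih => exact ih.trans (h1 j)
    refine (h2 k).trans ?_
    intro v hv
    obtain ⟨b, hb, w, rfl⟩ := (hA _ _).mp hv
    refine add_mem hb ?_
    rw [add_comm i k, pow_aadd]
    exact hN _
  have hBA : ∀ i, B ≤ A i := fun i => le_sup_left
  by_contra hv
  have h2 : B < A 2 := by
    refine lt_of_le_of_ne (hBA 2) fun h => hv ?_
    rw [h]
    exact (hA _ _).mpr ⟨0, zero_mem _, v, by simp⟩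
  have h1 : A 2 < A 1 := by
    refine lt_of_le_of_ne (hanti 1) fun h => ?_
    exact absurd ((hanti 1).trans (hstab 1 h.ge)) (not_le_of_gt h2)
  have h0 : A 1 < A 0 := by
    refine lt_of_le_of_ne (hanti 0) fun h => ?_
    exact absurd ((hanti 0).trans (hstab 0 h.ge)) (not_le_of_gt (h2.trans h1))
  have hidx : B.index = p ^ 2 := index_redu
  have e1 := AddSubgroup.relIndex_mul_index h2.le
  have e2 := AddSubgroup.relIndex_mul_index h1.le
  have e3 := AddSubgroup.relIndex_mul_index h0.le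
  have key : ∀ S T : AddSubgroup LL, S < T → S.relIndex T ∣ p ^ 2 → ∃ m, S.relIndex T = p * m := by
    intro S T hST hd
    obtain ⟨j, _, hj⟩ := (Nat.dvd_prime_pow hp).mp hd
    rcases Nat.eq_zero_or_pos j with rfl | h
    · rw [pow_zero, AddSubgroup.relIndex_eq_one] at hj
      exact absurd hj (not_le_of_gt hST)
    · exact ⟨p ^ (j - 1), by rw [hj, ← pow_succ']; congr 1; omega⟩
  rw [hidx] at e1
  have d1 : (A 2).index ∣ p ^ 2 := ⟨_, by rw [mul_comm]; exact e1.symm⟩
  have d2 : (A 1).index ∣ p ^ 2 := (Dvd.intro_left _ e2).trans d1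
  obtain ⟨m1, hm1⟩ := key _ _ h2 ⟨_, e1.symm⟩
  obtain ⟨m2, hm2⟩ := key _ _ h1 ((Dvd.intro _ e2).trans d1)
  obtain ⟨m3, hm3⟩ := key _ _ h0 ((Dvd.intro _ e3).trans d2)
  rw [← e2, ← e3, hm1, hm2, hm3] at e1
  have h5 : p * (m1 * m2 * m3 * (A 0).index) = 1 := by
    have h6 : p ^ 2 * (p * (m1 * m2 * m3 * (A 0).index)) = p ^ 2 * 1 := by
      rw [mul_one]; refine Eq.trans ?_ e1; ring
    exact Nat.eq_of_mul_eq_mul_left (pow_pos hp.pos 2) h6
  exact hp.one_lt.ne' (Nat.eq_one_of_mul_eq_one_right h5)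

end

/-- Let p > 3 be a prime and L the direct product of two cyclic groups of order p². Every automorphism of L of order p fixes every element of order p of L. -/
theorem result {p : ℕ} [Fact p.Prime] (hp : 3 < p)
    (a : MulAut (Multiplicative (ZMod (p ^ 2) × ZMod (p ^ 2)))) (ha : orderOf a = p)
    (x : Multiplicative (ZMod (p ^ 2) × ZMod (p ^ 2))) (hx : orderOf x = p) : a x = x := by
  classical
  have hpp : p.Prime := Fact.out
  let α : AddMonoid.End (ZMod (p ^ 2) × ZMod (p ^ 2)) := MonoidHom.toAdditive (a.toMonoidHom)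
  have hα : ∀ v, α v = Multiplicative.toAdd (a (Multiplicative.ofAdd v)) := fun v => rfl
  have hαk : ∀ (k : ℕ) v, (α ^ k) v = Multiplicative.toAdd ((a ^ k) (Multiplicative.ofAdd v)) := by
    intro k
    induction k with
    | zero => intro v; rfl
    | succ k ih =>
      intro v
      rw [pow_ap', ih, hα, mpow_ap]
      rfl
  have hαp : α ^ p = 1 := by
    refine AddMonoidHom.ext fun v => ?_
    refine (hαk p v).trans ?_
    have : a ^ p = 1 := orderOf_dvd_iff_pow_eq_one.mp (by rw [ha])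
    rw [this]
    rfl
  set N : AddMonoid.End (ZMod (p ^ 2) × ZMod (p ^ 2)) := α - 1 with hNdef
  have hNα : α = N + 1 := by rw [hNdef]; abel
  have hexp : ∀ v, v = ∑ m ∈ Finset.range (p + 1), (p.choose m) • ((N ^ m) v) := by
    intro v
    rw [← add_one_pow_ap, ← hNα, hαp]
    rfl
  have hchoose : ∀ m, 0 < m → m < p → ∀ v : ZMod (p ^ 2) × ZMod (p ^ 2), ∃ w, (p.choose m) • v = p • w := by
    intro m h1 h2 v
    obtain ⟨c, hc⟩ := hpp.dvd_choose_self h1.ne' h2
    exact ⟨c • v, by rw [hc, mul_nsmul']⟩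
  have hNp : ∀ v, (N ^ p) v ∈ (redu (p := p)).ker := by
    intro v
    have h1 := hexp v
    rw [sumA _ (by omega), Nat.choose_zero_right, one_nsmul, Nat.choose_self, one_nsmul] at h1
    have h2 : (N ^ 0) v = v := rfl
    rw [h2] at h1
    have h3 : (∑ m ∈ Finset.Ico 1 p, p.choose m • (N ^ m) v) ∈ (redu (p := p)).ker := by
      refine sum_mem fun m hm => ?_
      rw [Finset.mem_Ico] at hm
      exact (mem_redu _).mpr (hchoose m hm.1 hm.2 _)
    have h4 : (N ^ p) v = -(∑ m ∈ Finset.Ico 1 p, p.choose m • (N ^ m) v) := by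
      rw [add_assoc] at h1
      have h5 := left_eq_add.mp h1
      rw [add_comm] at h5
      exact eq_neg_of_add_eq_zero_left h5
    rw [h4]
    exact neg_mem h3
  have hN2 := sq_mem N hNp
  have hN2' : ∀ m, 2 ≤ m → ∀ v, (N ^ m) v ∈ (redu (p := p)).ker := by
    intro m hm v
    obtain ⟨k, rfl⟩ := Nat.exists_eq_add_of_le hm
    rw [pow_aadd]
    exact hN2 _
  have hN4 : ∀ v, (N ^ p) v = 0 := by
    intro v
    obtain ⟨k, hk⟩ := Nat.exists_eq_add_of_le (show 4 ≤ p from hp)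
    have h1 : (N ^ p) v = (N ^ 2) ((N ^ 2) ((N ^ k) v)) := by
      rw [← pow_aadd, ← pow_aadd]
      congr 2
    obtain ⟨w, hw⟩ := (mem_redu _).mp (hN2 ((N ^ k) v))
    obtain ⟨u, hu⟩ := (mem_redu _).mp (hN2 w)
    rw [h1, hw, map_nsmul, hu]
    exact pp_zero u
  have hpN : ∀ v, p • N v = 0 := by
    intro v
    have h1 := hexp v
    rw [sumB _ (by omega), Nat.choose_zero_right, one_nsmul, Nat.choose_one_right] at h1
    have h2 : (N ^ 0) v = v := rfl
    have h2' : (N ^ 1) v = N v := by rw [pow_one]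
    have h3 : (∑ m ∈ Finset.Ico 2 (p + 1), p.choose m • (N ^ m) v) = 0 := by
      refine Finset.sum_eq_zero fun m hm => ?_
      rw [Finset.mem_Ico] at hm
      by_cases hmp : m = p
      · rw [hmp, hN4, smul_zero]
      · obtain ⟨w, hw⟩ := (mem_redu _).mp (hN2' m hm.1 v)
        obtain ⟨u, hu⟩ := hchoose m (by omega) (by omega) w
        rw [hw, smul_comm, hu]
        exact pp_zero u
    rw [h2, h3, h2', add_zero] at h1
    exact left_eq_add.mp h1
  have hx1 : ∃ w : ZMod (p ^ 2) × ZMod (p ^ 2), Multiplicative.toAdd x = p • w := by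
    have h1 : x ^ p = 1 := orderOf_dvd_iff_pow_eq_one.mp (by rw [hx])
    have h2 : p • Multiplicative.toAdd x = 0 := congrArg Multiplicative.toAdd h1
    have h3 := congrArg Prod.fst h2
    have h4 := congrArg Prod.snd h2
    obtain ⟨y, hy⟩ := mul_zero' (x := (Multiplicative.toAdd x).1) (by simpa using h3)
    obtain ⟨z, hz⟩ := mul_zero' (x := (Multiplicative.toAdd x).2) (by simpa using h4)
    refine ⟨(y, z), Prod.ext ?_ ?_⟩
    · rw [hy]; simp
    · rw [hz]; simp
  obtain ⟨w, hw⟩ := hx1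
  have h1 := hpN w
  rw [← map_nsmul, ← hw] at h1
  have h2 : α (Multiplicative.toAdd x) = Multiplicative.toAdd x := by
    rw [hNα]
    show N _ + _ = _
    rw [h1, zero_add]
    rfl
  exact h2

end Cfsg.Agent.S4080
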