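import Cfsg.Statements.S4081
import Cfsg.Agent.Lib.ThreeOrbits
import Cfsg.Agent.Lib.Burnside
-- import your own Cfsg.Agent.* helpers here

set_option autoImplicit false
open Cfsg

namespace Cfsg.Agent.S4081

open Cfsg.Agent.Lib.ThreeOrbits
open scoped IsMulCommutative

theorem orderOf_aut {G : Type*} [Group G] (σ : MulAut G) (g : G) : orderOf (σ g) = orderOf g :=
  orderOf_injective σ.toMonoidHom σ.injective g

/-- fixed-point-freeness in operator form -/
theorem fix_zero {G : Type*} [Group G] (D : Subgroup G) [D.Normal] [IsMulCommutative D] {p : ℕ} [Fact p.Prime]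
    [Module (ZMod p) (Additive D)] (hDp : ∀ g ∈ D, g ^ p = 1) (z : G)
    (hz : ∀ y : G, orderOf y = p → z * y * z⁻¹ ≠ y) (v : Additive D) (hv : rho D p z v = v) : v = 0 := by
  by_contra hv0
  have h1 : ((v.toMul : D) : G) ≠ 1 := fun h => hv0 (toMul_inj D h)
  have h2 : orderOf ((v.toMul : D) : G) = p := orderOf_eq_prime (hDp _ v.toMul.2) h1
  apply hz _ h2
  have h3 := rho_apply D p z v
  rw [hv] at h3
  exact h3.symm

theorem fwd {G : Type*} [Group G] [Finite G] (p q : ℕ) [hpf : Fact p.Prime] [hqf : Fact q.Prime] (hpq : p ≠ q)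
    (hord : ∀ g : G, g ≠ 1 → orderOf g = p ∨ orderOf g = q)
    (htr : ∀ g h : G, g ≠ 1 → h ≠ 1 → orderOf g = orderOf h → ∃ σ : MulAut G, σ g = h)
    (hqG : q ∣ Nat.card G)
    (D : Subgroup G) [hDc : D.Characteristic] [hDm : IsMulCommutative D] [Module (ZMod p) (Additive D)]
    (d : G) (hd : d ∈ D) (hdp : orderOf d = p) :
    ∃ (n : ℕ), p ≠ q ∧ 1 ≤ n ∧ Nat.card G = p ^ n * q ∧
      (∀ P : Sylow p G, (P : Subgroup G).Normal ∧ Cfsg.IsElementaryAbelian p (P : Subgroup G)) ∧
      orderOf (p : ZMod q) = q - 1 ∧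
      ∀ x y : G, orderOf x = q → orderOf y = p → x * y * x⁻¹ ≠ y := by
  classical
  have hp : p.Prime := hpf.out
  have hq : q.Prime := hqf.out
  have hcop : p.Coprime q := (Nat.coprime_primes hp hq).mpr hpq
  have hd1 : d ≠ 1 := by rintro rfl; rw [orderOf_one] at hdp; exact hp.one_lt.ne hdp
  -- no commuting elements of orders p and q
  have hnc : ∀ x y : G, orderOf x = q → orderOf y = p → x * y ≠ y * x := by
    intro x y hx hy hxy
    have h1 : orderOf (x * y) = q * p := by
      rw [← hx, ← hy]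
      apply Commute.orderOf_mul_eq_mul_orderOf_of_coprime hxy
      rw [hx, hy]; exact hcop.symm
    have h2 : x * y ≠ 1 := by
      intro h
      rw [h, orderOf_one] at h1
      have := Nat.eq_one_of_mul_eq_one_right h1.symm
      exact hq.one_lt.ne' this
    rcases hord _ h2 with h3 | h3
    · rw [h3] at h1
      have h4 : q * p = 1 * p := by rw [← h1, one_mul]
      have := Nat.eq_of_mul_eq_mul_right hp.pos h4
      exact hq.one_lt.ne' this
    · rw [h3] at h1
      have h4 : q * p = q * 1 := by rw [← h1, mul_one]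
      have := Nat.eq_of_mul_eq_mul_left hq.pos h4
      exact hp.one_lt.ne' this
  have hnc' : ∀ x y : G, orderOf x = q → orderOf y = p → x * y * x⁻¹ ≠ y := by
    intro x y hx hy h
    apply hnc x y hx hy
    calc x * y = (x * y * x⁻¹) * x := by group
      _ = y * x := by rw [h]
  have hDmem : ∀ g : G, orderOf g = p → g ∈ D := by
    intro g hg
    have hg1 : g ≠ 1 := by rintro rfl; rw [orderOf_one] at hg; exact hp.one_lt.ne hg
    obtain ⟨σ, hσ⟩ := htr d g hd1 hg1 (hdp.trans hg.symm)
    have h1 : D.map σ.toMonoidHom = D := Subgroup.characteristic_iff_map_eq.mp hDc σ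
    rw [← h1, ← hσ]
    exact ⟨d, hd, rfl⟩
  have hDord : ∀ g ∈ D, g ≠ 1 → orderOf g = p := by
    intro g hg hg1
    rcases hord g hg1 with h | h
    · exact h
    · exfalso
      apply hnc g d h hdp
      have : (⟨g, hg⟩ : D) * ⟨d, hd⟩ = ⟨d, hd⟩ * ⟨g, hg⟩ := mul_comm' _ _
      exact congrArg Subtype.val this
  have hDp : ∀ g ∈ D, g ^ p = 1 := by
    intro g hg
    by_cases hg1 : g = 1
    · rw [hg1, one_pow]
    · rw [← hDord g hg hg1, pow_orderOf_eq_one]
  have hDpg : IsPGroup p D := by
    rintro ⟨g, hg⟩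
    exact ⟨1, Subtype.ext (by rw [pow_one]; exact hDp g hg)⟩
  -- the Sylow p-subgroup is D
  have hPD : ∀ P : Sylow p G, (P : Subgroup G) = D := by
    intro P
    apply le_antisymm
    · intro g hg
      by_cases hg1 : g = 1
      · rw [hg1]; exact D.one_mem
      · apply hDmem
        rcases hord g hg1 with h | h
        · exact h
        · exfalso
          obtain ⟨k, hk⟩ := (IsPGroup.iff_orderOf.mp P.2) ⟨g, hg⟩
          rw [Subgroup.orderOf_mk, h] at hk
          have : q ∣ p := hq.dvd_of_dvd_pow (dvd_of_eq hk)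
          exact hpq ((Nat.prime_dvd_prime_iff_eq hq hp).mp this).symm
    · exact hDpg.le_sylow_of_normal P
  obtain ⟨P₀⟩ : Nonempty (Sylow p G) := inferInstance
  obtain ⟨Q⟩ : Nonempty (Sylow q G) := inferInstance
  have hQcard := Sylow.card_eq_multiplicity Q
  have hPcard := Sylow.card_eq_multiplicity P₀
  have hG0 : Nat.card G ≠ 0 := Nat.card_pos.ne'
  have hpG : p ∣ Nat.card G := hdp ▸ orderOf_dvd_natCard d
  have hfac : Nat.card G = p ^ (Nat.card G).factorization p * q ^ (Nat.card G).factorization q := by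
    conv_lhs => rw [← Nat.factorization_prod_pow_eq_self hG0]
    rw [Finsupp.prod_of_support_subset _ (s := {p, q}) _ _ (fun q _ => pow_zero q)]
    · rw [Finset.prod_pair hpq]
    · intro r hr
      rw [Nat.support_factorization, Nat.mem_primeFactors] at hr
      have : Fact r.Prime := ⟨hr.1⟩
      obtain ⟨g, hg⟩ := exists_prime_orderOf_dvd_card' r hr.2.1
      have hg1 : g ≠ 1 := by rintro rfl; rw [orderOf_one] at hg; exact hr.1.one_lt.ne hg
      rw [Finset.mem_insert, Finset.mem_singleton, ← hg]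
      exact hord g hg1
  -- elements of Q
  have hQord : ∀ g ∈ (Q : Subgroup G), g ≠ 1 → orderOf g = q := by
    intro g hg hg1
    rcases hord g hg1 with h | h
    · exfalso
      obtain ⟨k, hk⟩ := (IsPGroup.iff_orderOf.mp Q.2) ⟨g, hg⟩
      rw [Subgroup.orderOf_mk, h] at hk
      have : p ∣ q := hp.dvd_of_dvd_pow (dvd_of_eq hk)
      exact hpq ((Nat.prime_dvd_prime_iff_eq hp hq).mp this)
    · exact h
  have hQnt : Nontrivial (Q : Subgroup G) := by
    rw [← Finite.one_lt_card_iff_nontrivial, hQcard]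
    apply Nat.one_lt_pow _ hq.one_lt
    exact (hq.factorization_pos_of_dvd hG0 hqG).ne'
  have hcen : Nontrivial (Subgroup.center (Q : Subgroup G)) := Q.2.center_nontrivial
  obtain ⟨⟨⟨x, hxQ⟩, hxc⟩, hx1⟩ := exists_ne (1 : Subgroup.center (Q : Subgroup G))
  have hx1' : x ≠ 1 := by
    rintro rfl
    exact hx1 rfl
  have hxo : orderOf x = q := hQord x hxQ hx1'
  have hxcomm : ∀ y ∈ (Q : Subgroup G), y * x = x * y := by
    intro y hy
    have := Subgroup.mem_center_iff.mp hxc ⟨y, hy⟩
    exact congrArg Subtype.val this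
  have hD : D ≠ ⊥ := by
    rintro rfl
    exact hd1 (Subgroup.mem_bot.mp hd)
  have hfix := fun (z : G) (hz : orderOf z = q) (v : Additive D) (hv : rho D p z v = v) =>
    fix_zero D hDp z (fun y hy => hnc' z y hz hy) v hv
  have hnorm : ∀ z : G, orderOf z = q → ∑ i ∈ Finset.range q, (rho D p z) ^ i = 0 := by
    intro z hz
    apply norm_eq_zero q (rho D p z) _ (hfix z hz)
    rw [← map_pow, ← hz, pow_orderOf_eq_one, map_one]
  have hnt : Nontrivial (Additive D) := ⟨⟨Additive.ofMul ⟨d, hd⟩, 0, fun h => hd1 (congrArg Subtype.val h)⟩⟩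
  have hQx : (Q : Subgroup G) = Subgroup.zpowers x := by
    apply le_antisymm _ (by rw [Subgroup.zpowers_le]; exact hxQ)
    intro y hy
    by_contra hyx
    have h1 := norm_argument q hq.pos (rho D p x) (rho D p y)
      (by rw [← map_mul, ← map_mul, hxcomm y hy])
      (by
        intro j hj0 hjq
        rw [← map_pow]
        apply hnorm
        apply hQord _ ((Q : Subgroup G).pow_mem hxQ j)
        intro h
        have := Nat.le_of_dvd hj0 (orderOf_dvd_of_pow_eq_one h)
        omega)
      (by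
        intro i hi
        rw [← map_pow, ← map_mul]
        apply hnorm
        apply hQord _ ((Q : Subgroup G).mul_mem hy ((Q : Subgroup G).pow_mem hxQ i))
        intro h
        apply hyx
        rw [mul_eq_one_iff_eq_inv] at h
        rw [h]
        exact (Subgroup.zpowers x).inv_mem ((Subgroup.zpowers x).pow_mem (Subgroup.mem_zpowers x) i))
    obtain ⟨v, hv⟩ := exists_ne (0 : Additive D)
    have h2 : (q : Module.End (ZMod p) (Additive D)) v = 0 := by rw [h1]; rfl
    have h3 : q • v = 0 := by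
      rw [← h2]
      simp
    have h4 : p • v = 0 := by
      apply toMul_inj D
      exact hDp _ v.toMul.2
    apply hv
    have h5 : addOrderOf v ∣ Nat.gcd p q := Nat.dvd_gcd (addOrderOf_dvd_of_nsmul_eq_zero h4) (addOrderOf_dvd_of_nsmul_eq_zero h3)
    rw [hcop.gcd_eq_one, Nat.dvd_one, AddMonoid.addOrderOf_eq_one_iff] at h5
    exact h5
  have hQq : Nat.card (Q : Subgroup G) = q := by
    rw [hQx, Nat.card_zpowers, hxo]
  have hcard : Nat.card G = p ^ (Nat.card G).factorization p * q := by
    conv_lhs => rw [hfac]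
    rw [← hQcard]
    congr 1
  have hDcard : Nat.card D = p ^ (Nat.card G).factorization p := by
    rw [← hPD P₀]; exact hPcard
  have hgen : D ⊔ Subgroup.zpowers x = ⊤ := by
    apply Subgroup.eq_top_of_card_eq
    apply Nat.dvd_antisymm (Subgroup.card_subgroup_dvd_card _)
    rw [hcard]
    apply Nat.Coprime.mul_dvd_of_dvd_of_dvd (hcop.pow_left _)
    · rw [← hDcard]
      exact Subgroup.card_dvd_of_le le_sup_left
    · rw [← hxo, ← Nat.card_zpowers]
      exact Subgroup.card_dvd_of_le le_sup_right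
  have hxq : x ^ q = 1 := by rw [← hxo, pow_orderOf_eq_one]
  have hfinD : Finite (Additive D) := inferInstanceAs (Finite D)
  refine ⟨(Nat.card G).factorization p, hpq, hp.factorization_pos_of_dvd hG0 hpG, hcard, ?_, ?_, hnc'⟩
  · intro P
    rw [hPD P]
    exact ⟨inferInstance, hDm, hDp⟩
  · have hirr : Irreducible (minpoly (ZMod p) (rho D p x)) := by
      apply irreducible_minpoly D hpq hD hxq hgen
      intro u hu v hv hu1 hv1
      exact htr u v hu1 hv1 ((hDord u hu hu1).trans (hDord v hv hv1).symm)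
    apply orderOf_eq hpq (rho D p x) (by rw [← map_pow, hxq, map_one]) (hfix x hxo) hirr
    intro k hk0 hkq
    have hxk1 : x ^ k ≠ 1 := by
      intro h
      have := Nat.le_of_dvd hk0 (orderOf_dvd_of_pow_eq_one h)
      omega
    have hxk : orderOf (x ^ k) = q := hQord _ ((Q : Subgroup G).pow_mem hxQ k) hxk1
    obtain ⟨σ, hσ⟩ := htr x (x ^ k) hx1' hxk1 (hxo.trans hxk.symm)
    have hσD : ∀ g : G, g ∈ D → σ g ∈ D := by
      intro g hg
      have h1 : D.map σ.toMonoidHom = D := Subgroup.characteristic_iff_map_eq.mp hDc σ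
      have h2 : σ g ∈ D.map σ.toMonoidHom := ⟨g, hg, rfl⟩
      rwa [h1] at h2
    let S : Additive D →+ Additive D := MonoidHom.toAdditive
      ((σ.toMonoidHom.comp D.subtype).codRestrict D (fun g => hσD g g.2))
    have hS : ∀ v, (((S v).toMul : D) : G) = σ ((v.toMul : D) : G) := fun v => rfl
    refine ⟨S, ?_, ?_⟩
    · apply Finite.surjective_of_injective
      intro u v huv
      apply toMul_inj D
      apply σ.injective
      rw [← hS, ← hS, huv]
    · intro v
      apply toMul_inj D
      rw [hS, rho_apply, ← map_pow, rho_apply, hS, map_mul, map_mul, map_inv, hσ]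

theorem exists_module {G : Type*} [Group G] (D : Subgroup G) [IsMulCommutative D] (p : ℕ)
    (h : ∀ g ∈ D, g ^ p = 1) : Nonempty (Module (ZMod p) (Additive D)) := by
  refine ⟨AddCommGroup.zmodModule (n := p) ?_⟩
  intro v
  exact Additive.toMul.injective (Subtype.ext (h _ v.toMul.2))

theorem bwd {G : Type*} [Group G] [Finite G] (p q n : ℕ) [hpf : Fact p.Prime] [hqf : Fact q.Prime] (hpq : p ≠ q)
    (hn : 1 ≤ n) (hcard : Nat.card G = p ^ n * q)
    (D : Subgroup G) [hDn : D.Normal] [hDm : IsMulCommutative D] [Module (ZMod p) (Additive D)]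
    (hDp : ∀ g ∈ D, g ^ p = 1) (hDcard : Nat.card D = p ^ n)
    (hord : orderOf (p : ZMod q) = q - 1)
    (hnc : ∀ x y : G, orderOf x = q → orderOf y = p → x * y * x⁻¹ ≠ y) :
    Nat.card (MulAction.orbitRel.Quotient (MulAut G) G) = 3 := by
  classical
  have hp : p.Prime := hpf.out
  have hq : q.Prime := hqf.out
  have hcop : p.Coprime q := (Nat.coprime_primes hp hq).mpr hpq
  have hG0 : Nat.card G ≠ 0 := Nat.card_pos.ne'
  -- elements
  obtain ⟨x, hx⟩ := exists_prime_orderOf_dvd_card' (G := G) q (by rw [hcard]; exact dvd_mul_left _ _)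
  have hx1 : x ≠ 1 := by rintro rfl; rw [orderOf_one] at hx; exact hq.one_lt.ne hx
  have hDnt : D ≠ ⊥ := by
    intro h
    rw [h, Subgroup.card_bot] at hDcard
    have := Nat.one_lt_pow (by omega : n ≠ 0) hp.one_lt
    omega
  obtain ⟨⟨y₀, hy₀⟩, hy₀1⟩ := Subgroup.ne_bot_iff_exists_ne_one.mp hDnt
  have hy₀1' : y₀ ≠ 1 := fun h => hy₀1 (Subtype.ext h)
  have hDo : ∀ g ∈ D, g ≠ 1 → orderOf g = p := fun g hg hg1 => orderOf_eq_prime (hDp g hg) hg1
  have hfinD : Finite (Additive D) := inferInstanceAs (Finite D)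
  have hfix := fun (z : G) (hz : orderOf z = q) (v : Additive D) (hv : rho D p z v = v) =>
    fix_zero D hDp z (fun y hy => hnc z y hz hy) v hv
  have hxq : x ^ q = 1 := by rw [← hx, pow_orderOf_eq_one]
  have hnorm : ∑ i ∈ Finset.range q, (rho D p x) ^ i = 0 := by
    apply norm_eq_zero q (rho D p x) _ (hfix x hx)
    rw [← map_pow, hxq, map_one]
  have hpq' : ¬ p ∣ q := fun h => hpq ((Nat.prime_dvd_prime_iff_eq hp hq).mp h)
  have hirr : Irreducible (Polynomial.cyclotomic q (ZMod p)) := by
    apply ZMod.irreducible_of_dvd_cyclotomic_of_natDegree hpq' dvd_rfl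
    rw [Polynomial.natDegree_cyclotomic, Nat.totient_prime hq, ← hord, ← orderOf_units, ZMod.coe_unitOfCoprime]
  have hkill : Polynomial.aeval (rho D p x) (Polynomial.cyclotomic q (ZMod p)) = 0 := by
    rw [Polynomial.cyclotomic_prime, map_sum]
    simpa using hnorm
  have hcomp : D.IsComplement' (Subgroup.zpowers x) := by
    apply Subgroup.isComplement'_of_coprime
    · rw [hDcard, Nat.card_zpowers, hx, hcard]
    · rw [hDcard, Nat.card_zpowers, hx]; exact hcop.pow_left _
  -- (1)
  have h1 : ∀ u ∈ D, ∀ v ∈ D, u ≠ 1 → v ≠ 1 → ∃ Φ : MulAut G, Φ u = v := by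
    intro u hu v hv hu1 hv1
    obtain ⟨S, hSu, hSX⟩ := exists_commuting (p := p) (q := q) (rho D p x) _ hirr hkill
      (Additive.ofMul ⟨u, hu⟩) (Additive.ofMul ⟨v, hv⟩) (fun h => hu1 (congrArg (fun w : Additive D => ((w.toMul : D) : G)) h))
      (fun h => hv1 (congrArg (fun w : Additive D => ((w.toMul : D) : G)) h))
    obtain ⟨Φ, hΦ, -⟩ := exists_extension D x hcomp 1 (Nat.coprime_one_right _) (MulEquiv.toAdditive.symm S) (by
      intro y
      rw [pow_one]
      have h2 := hSX (Additive.ofMul y)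
      exact h2)
    refine ⟨Φ, ?_⟩
    have h3 := hΦ ⟨u, hu⟩
    rw [h3]
    exact congrArg (fun w : Additive D => ((w.toMul : D) : G)) hSu
  -- (2)
  have h2 : ∀ k : ℕ, k.Coprime q → ∃ Φ : MulAut G, Φ x = x ^ k := by
    intro k hk
    obtain ⟨S, hSX⟩ := exists_semilinear hpq (rho D p x) hirr hkill k hk
    obtain ⟨Φ, -, hΦ⟩ := exists_extension D x hcomp k (by rw [hx]; exact hk.symm) (MulEquiv.toAdditive.symm S) (by
      intro y
      have h2 := hSX (Additive.ofMul y)
      rw [← map_pow] at h2
      exact h2)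
    exact ⟨Φ, hΦ⟩
  -- elements outside D
  have hidx : D.index = q := by
    have := D.card_mul_index
    rw [hDcard, hcard] at this
    exact Nat.eq_of_mul_eq_mul_left (pow_pos hp.pos n) this
  have h3 : ∀ g : G, g ∉ D → orderOf g = q := by
    intro g hg
    have hgq : g ^ q ∈ D := by rw [← hidx]; exact Subgroup.pow_index_mem D g
    have hg1 : g ≠ 1 := fun h => hg (h ▸ D.one_mem)
    by_contra hgo
    have hgq1 : g ^ q ≠ 1 := fun h => hgo (orderOf_eq_prime h hg1)
    have h4 : g ^ p ≠ 1 := by
      intro h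
      apply hg
      have hb : (p : ℤ) * Nat.gcdA p q + (q : ℤ) * Nat.gcdB p q = 1 := by
        rw [← Nat.gcd_eq_gcd_ab, hcop.gcd_eq_one]; rfl
      have : g = (g ^ p) ^ (Nat.gcdA p q) * (g ^ q) ^ (Nat.gcdB p q) := by
        rw [← zpow_natCast, ← zpow_mul, ← zpow_natCast g q, ← zpow_mul, ← zpow_add, hb, zpow_one]
      rw [this, h, one_zpow, one_mul]
      exact D.zpow_mem hgq _
    have h5 : orderOf (g ^ p) = q := by
      apply orderOf_eq_prime _ h4
      rw [← pow_mul, mul_comm, pow_mul]
      exact hDp _ hgq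
    apply hnc _ _ h5 (hDo _ hgq hgq1)
    rw [← pow_add, add_comm, pow_add]; group
  have hfq : (Nat.card G).factorization q = 1 := by
    rw [hcard, Nat.factorization_mul (pow_pos hp.pos n).ne' hq.ne_zero, Finsupp.add_apply, hp.factorization_pow,
      hq.factorization, Finsupp.single_apply, if_neg hpq, Finsupp.single_eq_same]
  have h4 : ∀ g : G, g ∉ D → ∃ Φ : MulAut G, Φ x = g := by
    intro g hg
    have hgo := h3 g hg
    let P1 : Sylow q G := Sylow.ofCard (Subgroup.zpowers x) (by rw [Nat.card_zpowers, hx, hfq, pow_one])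
    let P2 : Sylow q G := Sylow.ofCard (Subgroup.zpowers g) (by rw [Nat.card_zpowers, hgo, hfq, pow_one])
    obtain ⟨c, hc⟩ := MulAction.exists_smul_eq G P1 P2
    have h5 : g ∈ (P2 : Subgroup G) := Subgroup.mem_zpowers g
    rw [← hc, Sylow.coe_subgroup_smul, Subgroup.mem_pointwise_smul_iff_inv_smul_mem, ← map_inv,
      MulAut.smul_def, MulAut.conj_apply, inv_inv] at h5
    have h6 : c⁻¹ * g * c ∈ Subgroup.zpowers x := h5
    rw [← mem_powers_iff_mem_zpowers] at h6
    obtain ⟨k, hk⟩ := h6
    have hk' : x ^ k = c⁻¹ * g * c := hk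
    have hkc : k.Coprime q := by
      apply Nat.Coprime.symm
      rw [hq.coprime_iff_not_dvd]
      rintro ⟨l, rfl⟩
      rw [pow_mul, hxq, one_pow] at hk'
      apply hg
      have : g = c * (c⁻¹ * g * c) * c⁻¹ := by group
      rw [this, ← hk']
      simp
    obtain ⟨Φ, hΦ⟩ := h2 k hkc
    refine ⟨MulAut.conj c * Φ, ?_⟩
    rw [MulAut.mul_apply, hΦ, hk', MulAut.conj_apply]
    group
  -- count the orbits
  let Ω := MulAction.orbitRel.Quotient (MulAut G) G
  let c : G → Ω := fun g => Quotient.mk _ g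
  have hc : ∀ g h : G, c g = c h ↔ ∃ Φ : MulAut G, Φ h = g := by
    intro g h
    rw [Quotient.eq]
    exact MulAction.orbitRel_apply.trans (by rw [MulAction.mem_orbit_iff]; rfl)
  have hfinΩ : Fintype Ω := Fintype.ofFinite Ω
  have huniv : (Finset.univ : Finset Ω) = {c 1, c y₀, c x} := by
    symm
    rw [Finset.eq_univ_iff_forall]
    intro ω
    obtain ⟨g, rfl⟩ := Quotient.exists_rep ω
    simp only [Finset.mem_insert, Finset.mem_singleton]
    by_cases hg : g ∈ D
    · by_cases hg1 : g = 1
      · left; rw [hg1]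
      · right; left
        exact (hc g y₀).mpr (h1 y₀ hy₀ g hg hy₀1' hg1)
    · right; right
      exact (hc g x).mpr (h4 g hg)
  have hxo := hx
  have hy₀o := hDo y₀ hy₀ hy₀1'
  have hne1 : c 1 ≠ c y₀ := by
    intro h
    obtain ⟨Φ, hΦ⟩ := (hc _ _).mp h
    have := orderOf_aut Φ y₀
    rw [hΦ, orderOf_one, hy₀o] at this
    exact hp.one_lt.ne this
  have hne2 : c 1 ≠ c x := by
    intro h
    obtain ⟨Φ, hΦ⟩ := (hc _ _).mp h
    have := orderOf_aut Φ x
    rw [hΦ, orderOf_one, hx] at this
    exact hq.one_lt.ne this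
  have hne3 : c y₀ ≠ c x := by
    intro h
    obtain ⟨Φ, hΦ⟩ := (hc _ _).mp h
    have := orderOf_aut Φ x
    rw [hΦ, hy₀o, hx] at this
    exact hpq this
  show Nat.card Ω = 3
  rw [Nat.card_eq_fintype_card, ← Finset.card_univ, huniv, Finset.card_insert_of_notMem, Finset.card_pair hne3]
  rw [Finset.mem_insert, Finset.mem_singleton]
  push Not
  exact ⟨hne1, hne2⟩

/-- Let G be a finite group whose order is not a prime power. Then the automorphism group of G has exactly three orbits on G if and only if there are distinct primes p, q with #G = pⁿ·q (n ≥ 1) such that G has a normal elementary abelian Sylow p-subgroup P, p is a primitive root modulo q (the multiplicative order of p mod q is q − 1), and every element of order q of G acts on P without non-identity fixed points. -/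
theorem result {G : Type*} [Group G] [Finite G] (hnpp : ¬ IsPrimePow (Nat.card G)) (hnt : Nat.card G ≠ 1) :
    Nat.card (MulAction.orbitRel.Quotient (MulAut G) G) = 3 ↔
    ∃ (p q n : ℕ) (_ : Fact p.Prime) (_ : Fact q.Prime), p ≠ q ∧ 1 ≤ n ∧ Nat.card G = p ^ n * q ∧
      (∀ P : Sylow p G, (P : Subgroup G).Normal ∧ Cfsg.IsElementaryAbelian p (P : Subgroup G)) ∧
      orderOf (p : ZMod q) = q - 1 ∧
      ∀ x y : G, orderOf x = q → orderOf y = p → x * y * x⁻¹ ≠ y := by
  classical
  constructor
  · intro h3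
    have hG0 : Nat.card G ≠ 0 := Nat.card_pos.ne'
    -- two primes
    obtain ⟨p, hp, hpG⟩ := Nat.exists_prime_and_dvd hnt
    have hpf : Fact p.Prime := ⟨hp⟩
    obtain ⟨a, m, hpm, ham⟩ := Nat.exists_eq_pow_mul_and_not_dvd hG0 p hp.ne_one
    have ha0 : a ≠ 0 := by
      rintro rfl
      rw [pow_zero, one_mul] at ham
      exact hpm (ham ▸ hpG)
    have hm1 : m ≠ 1 := by
      rintro rfl
      apply hnpp
      rw [ham, mul_one]
      exact hp.isPrimePow.pow ha0
    obtain ⟨q, hq, hqm⟩ := Nat.exists_prime_and_dvd hm1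
    have hqf : Fact q.Prime := ⟨hq⟩
    have hqG : q ∣ Nat.card G := ham ▸ hqm.trans (dvd_mul_left _ _)
    have hpq : p ≠ q := by rintro rfl; exact hpm hqm
    obtain ⟨a₀, ha₀⟩ := exists_prime_orderOf_dvd_card' (G := G) p hpG
    obtain ⟨b₀, hb₀⟩ := exists_prime_orderOf_dvd_card' (G := G) q hqG
    -- orbits
    let Ω := MulAction.orbitRel.Quotient (MulAut G) G
    let c : G → Ω := fun g => Quotient.mk _ g
    have hc : ∀ g h : G, c g = c h ↔ ∃ Φ : MulAut G, Φ h = g := by
      intro g h
      rw [Quotient.eq]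
      exact MulAction.orbitRel_apply.trans (by rw [MulAction.mem_orbit_iff]; rfl)
    have hfinΩ : Fintype Ω := Fintype.ofFinite Ω
    have hne1 : c 1 ≠ c a₀ := by
      intro h
      obtain ⟨Φ, hΦ⟩ := (hc _ _).mp h
      have := orderOf_aut Φ a₀
      rw [hΦ, orderOf_one, ha₀] at this
      exact hp.one_lt.ne this
    have hne2 : c 1 ≠ c b₀ := by
      intro h
      obtain ⟨Φ, hΦ⟩ := (hc _ _).mp h
      have := orderOf_aut Φ b₀
      rw [hΦ, orderOf_one, hb₀] at this
      exact hq.one_lt.ne this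
    have hne3 : c a₀ ≠ c b₀ := by
      intro h
      obtain ⟨Φ, hΦ⟩ := (hc _ _).mp h
      have := orderOf_aut Φ b₀
      rw [hΦ, ha₀, hb₀] at this
      exact hpq this
    have hcard3 : ({c 1, c a₀, c b₀} : Finset Ω).card = 3 := by
      rw [Finset.card_insert_of_notMem, Finset.card_pair hne3]
      rw [Finset.mem_insert, Finset.mem_singleton]
      push Not
      exact ⟨hne1, hne2⟩
    have huniv : ({c 1, c a₀, c b₀} : Finset Ω) = Finset.univ := by
      apply Finset.eq_univ_of_card
      rw [hcard3, ← Nat.card_eq_fintype_card]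
      exact h3.symm
    have hall : ∀ g : G, g = 1 ∨ (∃ Φ : MulAut G, Φ a₀ = g) ∨ (∃ Φ : MulAut G, Φ b₀ = g) := by
      intro g
      have : c g ∈ ({c 1, c a₀, c b₀} : Finset Ω) := by rw [huniv]; exact Finset.mem_univ _
      rw [Finset.mem_insert, Finset.mem_insert, Finset.mem_singleton] at this
      rcases this with h | h | h
      · left
        obtain ⟨Φ, hΦ⟩ := (hc _ _).mp h
        rw [← hΦ, map_one]
      · right; left; exact (hc _ _).mp h
      · right; right; exact (hc _ _).mp h
    have hord : ∀ g : G, g ≠ 1 → orderOf g = p ∨ orderOf g = q := by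
      intro g hg
      rcases hall g with h | ⟨Φ, h⟩ | ⟨Φ, h⟩
      · exact absurd h hg
      · left; rw [← h, orderOf_aut, ha₀]
      · right; rw [← h, orderOf_aut, hb₀]
    have htr : ∀ g h : G, g ≠ 1 → h ≠ 1 → orderOf g = orderOf h → ∃ σ : MulAut G, σ g = h := by
      intro g h hg hh hgh
      rcases hall g with h1 | ⟨Φ, h1⟩ | ⟨Φ, h1⟩
      · exact absurd h1 hg
      · rcases hall h with h2 | ⟨Ψ, h2⟩ | ⟨Ψ, h2⟩
        · exact absurd h2 hh
        · refine ⟨Ψ * Φ⁻¹, ?_⟩
          rw [MulAut.mul_apply, ← h1, MulAut.inv_apply_self, h2]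
        · exfalso
          rw [← h1, ← h2, orderOf_aut, orderOf_aut, ha₀, hb₀] at hgh
          exact hpq hgh
      · rcases hall h with h2 | ⟨Ψ, h2⟩ | ⟨Ψ, h2⟩
        · exact absurd h2 hh
        · exfalso
          rw [← h1, ← h2, orderOf_aut, orderOf_aut, ha₀, hb₀] at hgh
          exact hpq hgh.symm
        · refine ⟨Ψ * Φ⁻¹, ?_⟩
          rw [MulAut.mul_apply, ← h1, MulAut.inv_apply_self, h2]
    -- solvability
    have hfac : Nat.card G = p ^ (Nat.card G).factorization p * q ^ (Nat.card G).factorization q := by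
      conv_lhs => rw [← Nat.factorization_prod_pow_eq_self hG0]
      rw [Finsupp.prod_of_support_subset _ (s := {p, q}) _ _ (fun q _ => pow_zero q)]
      · rw [Finset.prod_pair hpq]
      · intro r hr
        rw [Nat.support_factorization, Nat.mem_primeFactors] at hr
        have : Fact r.Prime := ⟨hr.1⟩
        obtain ⟨g, hg⟩ := exists_prime_orderOf_dvd_card' r hr.2.1
        have hg1 : g ≠ 1 := by rintro rfl; rw [orderOf_one] at hg; exact hr.1.one_lt.ne hg
        rw [Finset.mem_insert, Finset.mem_singleton, ← hg]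
        exact hord g hg1
    have hsol : Group.IsSolvable G := Cfsg.Agent.Lib.Burnside.isSolvable_of_card_eq _ p q _ _ hp hq hfac rfl
    -- last nontrivial derived subgroup
    have hGnt : Nontrivial G := by
      rw [← Finite.one_lt_card_iff_nontrivial]
      omega
    have hex : ∃ n, derivedSeries G n = ⊥ := hsol.solvable
    have hfind := Nat.find_spec hex
    have hn0 : Nat.find hex ≠ 0 := by
      intro h
      rw [h, derivedSeries_zero] at hfind
      exact (bot_ne_top (α := Subgroup G)) hfind.symm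
    obtain ⟨k, hk⟩ := Nat.exists_eq_succ_of_ne_zero hn0
    have hD1 : derivedSeries G k ≠ ⊥ := Nat.find_min hex (by omega)
    have hD2 : derivedSeries G (k + 1) = ⊥ := by
      have := Nat.find_spec hex
      rwa [hk] at this
    set D := derivedSeries G k with hDdef
    have hDm : IsMulCommutative D := by
      have h4 : ⁅D, D⁆ = ⊥ := hD2
      rw [Subgroup.commutator_eq_bot_iff_le_centralizer] at h4
      constructor
      constructor
      intro a b
      apply Subtype.ext
      have := h4 a.2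
      rw [Subgroup.mem_centralizer_iff] at this
      exact (this b b.2).symm
    obtain ⟨⟨d, hd⟩, hd1⟩ := Subgroup.ne_bot_iff_exists_ne_one.mp hD1
    have hd1' : d ≠ 1 := fun h => hd1 (Subtype.ext h)
    have hexp : ∀ (r : ℕ) (d : G), r.Prime → d ∈ D → d ≠ 1 → orderOf d = r → (∀ g : G, g ≠ 1 → orderOf g = p ∨ orderOf g = q) →
        (r = p ∨ r = q) → ∀ g ∈ D, g ^ r = 1 := by
      intro r d hr hd hd1 hdr _ hrpq g hg
      by_contra hgr
      have hg1 : g ≠ 1 := by rintro rfl; exact hgr (one_pow _)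
      have hgo : orderOf g ≠ r := fun h => hgr (h ▸ pow_orderOf_eq_one g)
      have hcomm : Commute g d := by
        have : (⟨g, hg⟩ : D) * ⟨d, hd⟩ = ⟨d, hd⟩ * ⟨g, hg⟩ := mul_comm' _ _
        exact congrArg Subtype.val this
      have hcop : (orderOf g).Coprime (orderOf d) := by
        rw [hdr]
        have hgp : (orderOf g).Prime := by
          rcases hord g hg1 with h | h
          · rw [h]; exact hp
          · rw [h]; exact hq
        exact (Nat.coprime_primes hgp hr).mpr hgo
      have h5 := hcomm.orderOf_mul_eq_mul_orderOf_of_coprime hcop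
      have h6 : g * d ≠ 1 := by
        intro h
        rw [h, orderOf_one] at h5
        have := Nat.eq_one_of_mul_eq_one_right h5.symm
        exact hg1 (orderOf_eq_one_iff.mp this)
      have h7 : (orderOf (g * d)).Prime := by
        rcases hord _ h6 with h | h
        · rw [h]; exact hp
        · rw [h]; exact hq
      rw [h5] at h7
      refine Nat.not_prime_mul ?_ ?_ h7
      · exact fun h => hg1 (orderOf_eq_one_iff.mp h)
      · exact fun h => hd1 (orderOf_eq_one_iff.mp h)
    have hDc : D.Characteristic := derivedSeries_characteristic G k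
    rcases hord d hd1' with hdo | hdo
    · obtain ⟨hmod⟩ := exists_module D p (hexp p d hp hd hd1' hdo hord (Or.inl rfl))
      obtain ⟨n, h⟩ := fwd p q hpq hord htr hqG D d hd hdo
      exact ⟨p, q, n, hpf, hqf, h⟩
    · obtain ⟨hmod⟩ := exists_module D q (hexp q d hq hd hd1' hdo hord (Or.inr rfl))
      obtain ⟨n, h⟩ := fwd q p hpq.symm (fun g hg => (hord g hg).symm) htr hpG D d hd hdo
      exact ⟨q, p, n, hqf, hpf, h⟩
  · rintro ⟨p, q, n, hpf, hqf, hpq, hn, hcard, hP, hord, hnc⟩
    have hp : p.Prime := hpf.out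
    have hq : q.Prime := hqf.out
    obtain ⟨P⟩ : Nonempty (Sylow p G) := inferInstance
    obtain ⟨hPn, hPm, hPe⟩ := hP P
    have hPcard : Nat.card (P : Subgroup G) = p ^ n := by
      rw [Sylow.card_eq_multiplicity P, hcard, Nat.factorization_mul (pow_pos hp.pos n).ne' hq.ne_zero, Finsupp.add_apply,
        hp.factorization_pow, hq.factorization, Finsupp.single_eq_same, Finsupp.single_apply, if_neg (Ne.symm hpq), add_zero]
    obtain ⟨hmod⟩ := exists_module (P : Subgroup G) p hPe
    exact bwd p q n hpq hn hcard (P : Subgroup G) hPe hPcard hord hnc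

end Cfsg.Agent.S4081
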