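import Cfsg.Statements.S4084
import Mathlib
-- import your own Cfsg.Agent.* helpers here

set_option autoImplicit false
open Cfsg

namespace Cfsg.Agent.S4084

theorem crit {G : Type*} [Group G] [Finite G] {p q : ℕ} (hp : p.Prime) (hq : q.Prime) (hpq : p ≠ q) :
    (∃ g : G, orderOf g = p * q) ↔
      ∃ x : G, p ∣ Nat.card (Subgroup.centralizer (Subgroup.centralizer ({x} : Set G) : Set G)) ∧
        q ∣ Nat.card (Subgroup.centralizer ({x} : Set G)) := by
  constructor
  · rintro ⟨g, hg⟩
    refine ⟨g ^ q, ?_, ?_⟩
    · have h1 : orderOf (g ^ q) = p := by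
        rw [orderOf_pow_of_dvd hq.pos.ne' (hg ▸ dvd_mul_left _ _), hg, Nat.mul_div_cancel _ hq.pos]
      have h2 : g ^ q ∈ Subgroup.centralizer (Subgroup.centralizer ({g ^ q} : Set G) : Set G) := by
        rw [Subgroup.mem_centralizer_iff]
        intro h hh
        exact (Subgroup.mem_centralizer_singleton_iff.mp hh)
      have := orderOf_dvd_natCard (⟨g ^ q, h2⟩ : Subgroup.centralizer (Subgroup.centralizer ({g ^ q} : Set G) : Set G))
      rwa [Subgroup.orderOf_mk, h1] at this
    · have h2 : g ∈ Subgroup.centralizer ({g ^ q} : Set G) := by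
        rw [Subgroup.mem_centralizer_singleton_iff]
        rw [← pow_succ, ← pow_succ']
      have := orderOf_dvd_natCard (⟨g, h2⟩ : Subgroup.centralizer ({g ^ q} : Set G))
      rw [Subgroup.orderOf_mk, hg] at this
      exact (dvd_mul_left _ _).trans this
  · rintro ⟨x, h1, h2⟩
    have := Fact.mk hp
    have := Fact.mk hq
    obtain ⟨⟨z, hz⟩, hzo⟩ := exists_prime_orderOf_dvd_card' p h1
    obtain ⟨⟨y, hy⟩, hyo⟩ := exists_prime_orderOf_dvd_card' q h2
    rw [Subgroup.orderOf_mk] at hzo hyo
    refine ⟨z * y, ?_⟩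
    have hc : Commute z y := ((Subgroup.mem_centralizer_iff.mp hz) y hy).symm
    rw [hc.orderOf_mul_eq_mul_orderOf_of_coprime, hzo, hyo]
    rw [hzo, hyo]
    exact (Nat.coprime_primes hp hq).mpr hpq

/-- Let G and H be finite groups whose commuting graphs are isomorphic: there is a bijection e : G → H with x, y commuting exactly when e(x), e(y) commute. Then G and H have the same prime graph: for distinct primes p, q, G has an element of order pq if and only if H does (and #G = #H, so the prime divisors agree). -/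
theorem result {G H : Type*} [Group G] [Finite G] [Group H] [Finite H] (e : G ≃ H)
    (he : ∀ x y : G, Commute x y ↔ Commute (e x) (e y))
    {p q : ℕ} (hp : p.Prime) (hq : q.Prime) (hpq : p ≠ q) :
    (∃ g : G, orderOf g = p * q) ↔ (∃ h : H, orderOf h = p * q) := by
  rw [crit hp hq hpq, crit hp hq hpq]
  have hc : ∀ x z, z ∈ Subgroup.centralizer ({x} : Set G) ↔ e z ∈ Subgroup.centralizer ({e x} : Set H) := by
    intro x z
    rw [Subgroup.mem_centralizer_singleton_iff, Subgroup.mem_centralizer_singleton_iff]
    exact he z x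
  have hcc : ∀ x z, z ∈ Subgroup.centralizer (Subgroup.centralizer ({x} : Set G) : Set G) ↔
      e z ∈ Subgroup.centralizer (Subgroup.centralizer ({e x} : Set H) : Set H) := by
    intro x z
    rw [Subgroup.mem_centralizer_iff, Subgroup.mem_centralizer_iff]
    constructor
    · intro h y hy
      obtain ⟨y, rfl⟩ := e.surjective y
      exact (he y z).mp (h y ((hc x y).mpr hy))
    · intro h y hy
      exact (he y z).mpr (h (e y) ((hc x y).mp hy))
  have h1 : ∀ x, Nat.card (Subgroup.centralizer ({x} : Set G)) = Nat.card (Subgroup.centralizer ({e x} : Set H)) :=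
    fun x => Nat.card_congr (e.subtypeEquiv (fun z => hc x z))
  have h2 : ∀ x, Nat.card (Subgroup.centralizer (Subgroup.centralizer ({x} : Set G) : Set G)) =
      Nat.card (Subgroup.centralizer (Subgroup.centralizer ({e x} : Set H) : Set H)) :=
    fun x => Nat.card_congr (e.subtypeEquiv (fun z => hcc x z))
  constructor
  · rintro ⟨x, hx1, hx2⟩
    exact ⟨e x, by rwa [← h2], by rwa [← h1]⟩
  · rintro ⟨y, hy1, hy2⟩
    obtain ⟨x, rfl⟩ := e.surjective y
    exact ⟨x, by rwa [h2], by rwa [h1]⟩

end Cfsg.Agent.S4084
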