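import Cfsg.Statements.S4085
import Mathlib
import Cfsg.Agent.Lib.PowerGraph
-- import your own Cfsg.Agent.* helpers here

set_option autoImplicit false
open Cfsg

namespace Cfsg.Agent.S4085

theorem one_dir {G H : Type*} [Group G] [Finite G] [Group H] [Finite H] (e : G ≃ H)
    (he : ∀ x y : G, (x ∈ Subgroup.zpowers y ∨ y ∈ Subgroup.zpowers x) ↔
      (e x ∈ Subgroup.zpowers (e y) ∨ e y ∈ Subgroup.zpowers (e x)))
    {p q : ℕ} (hp : p.Prime) (hq : q.Prime) (hpq : p ≠ q) (h : ∃ g : G, orderOf g = p * q) :
    ∃ h : H, orderOf h = p * q := by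
  obtain ⟨g, hg⟩ := h
  rcases lt_or_gt_of_ne hpq with h1 | h1
  · exact Cfsg.Agent.Lib.PowerGraph.main e he hp hq h1 hg
  · rw [mul_comm]
    exact Cfsg.Agent.Lib.PowerGraph.main e he hq hp h1 (hg.trans (mul_comm p q))

/-- Let G and H be finite groups whose power graphs are isomorphic: there is a bijection e : G → H such that, for all x, y, one of x, y is a power of the other exactly when one of e(x), e(y) is a power of the other. Then G and H have the same prime graph: for distinct primes p, q, G has an element of order pq if and only if H does. -/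
theorem result {G H : Type*} [Group G] [Finite G] [Group H] [Finite H] (e : G ≃ H)
    (he : ∀ x y : G, (x ∈ Subgroup.zpowers y ∨ y ∈ Subgroup.zpowers x) ↔
      (e x ∈ Subgroup.zpowers (e y) ∨ e y ∈ Subgroup.zpowers (e x)))
    {p q : ℕ} (hp : p.Prime) (hq : q.Prime) (hpq : p ≠ q) :
    (∃ g : G, orderOf g = p * q) ↔ (∃ h : H, orderOf h = p * q) := by
  refine ⟨one_dir e he hp hq hpq, one_dir e.symm ?_ hp hq hpq⟩
  intro x y
  have := he (e.symm x) (e.symm y)
  simp only [Equiv.apply_symm_apply] at this
  exact this.symm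

end Cfsg.Agent.S4085
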