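import Cfsg.Statements.S4086
import Mathlib
-- import your own Cfsg.Agent.* helpers here

set_option autoImplicit false
open Cfsg

namespace Cfsg.Agent.S4086

theorem mem_zpow_of_card {C : Type*} [Group C] [Finite C] [IsCyclic C] (x y : C)
    (h : orderOf x ∣ orderOf y) : x ∈ Subgroup.zpowers y := by
  classical
  have := Fintype.ofFinite C
  have h1 : (Finset.univ.filter fun a : C => a ^ orderOf y = 1).card ≤ orderOf y :=
    IsCyclic.card_pow_eq_one_le (orderOf_pos y)
  have h2 : (Finset.univ.filter fun a : C => a ∈ Subgroup.zpowers y) ⊆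
      (Finset.univ.filter fun a : C => a ^ orderOf y = 1) := by
    intro a ha
    simp only [Finset.mem_filter, Finset.mem_univ, true_and] at ha ⊢
    exact orderOf_dvd_iff_pow_eq_one.mp (orderOf_dvd_of_mem_zpowers ha)
  have h3 : (Finset.univ.filter fun a : C => a ∈ Subgroup.zpowers y).card = orderOf y := by
    rw [← Nat.card_zpowers, Nat.card_eq_fintype_card, Fintype.card_subtype]
  have h4 := Finset.eq_of_subset_of_card_le h2 (by rw [h3]; exact h1)
  have h5 : x ∈ (Finset.univ.filter fun a : C => a ^ orderOf y = 1) := by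
    simp only [Finset.mem_filter, Finset.mem_univ, true_and]
    exact orderOf_dvd_iff_pow_eq_one.mp h
  rw [← h4] at h5
  simpa using h5

/-- For a finite group G the following are equivalent: every non-identity element has prime-power order; whenever two elements generate a cyclic subgroup, one of them is a power of the other (the enhanced power graph of G coincides with its power graph). -/
theorem result {G : Type*} [Group G] [Finite G] :
    (∀ g : G, g ≠ 1 → IsPrimePow (orderOf g)) ↔
    (∀ x y : G, IsCyclic ↥(Subgroup.closure ({x, y} : Set G)) → (x ∈ Subgroup.zpowers y ∨ y ∈ Subgroup.zpowers x)) := by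
  constructor
  · intro h x y hc
    obtain ⟨g, hg⟩ := hc.exists_generator
    have hxC : x ∈ Subgroup.closure ({x, y} : Set G) := Subgroup.subset_closure (by simp)
    have hyC : y ∈ Subgroup.closure ({x, y} : Set G) := Subgroup.subset_closure (by simp)
    have key : ∃ p k : ℕ, p.Prime ∧ orderOf g = p ^ k := by
      by_cases hg1 : g = 1
      · exact ⟨2, 0, Nat.prime_two, by simp [hg1]⟩
      · obtain ⟨p, k, hp, hk, hpk⟩ := h (g : G) (by simpa using hg1)
        exact ⟨p, k, hp.nat_prime, by rw [hpk]; simp⟩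
    obtain ⟨p, k, hp, hk⟩ := key
    have hx : orderOf (⟨x, hxC⟩ : Subgroup.closure ({x, y} : Set G)) ∣ p ^ k :=
      hk ▸ orderOf_dvd_of_mem_zpowers (hg _)
    have hy : orderOf (⟨y, hyC⟩ : Subgroup.closure ({x, y} : Set G)) ∣ p ^ k :=
      hk ▸ orderOf_dvd_of_mem_zpowers (hg _)
    obtain ⟨i, _, hi⟩ := (Nat.dvd_prime_pow hp).mp hx
    obtain ⟨j, _, hj⟩ := (Nat.dvd_prime_pow hp).mp hy
    have tr : ∀ a b : Subgroup.closure ({x, y} : Set G), a ∈ Subgroup.zpowers b →
        (a : G) ∈ Subgroup.zpowers (b : G) := by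
      rintro a b ⟨n, rfl⟩
      exact ⟨n, by simp⟩
    rcases le_total i j with hij | hij
    · left
      exact tr _ _ (mem_zpow_of_card ⟨x, hxC⟩ ⟨y, hyC⟩ (by rw [hi, hj]; exact pow_dvd_pow p hij))
    · right
      exact tr _ _ (mem_zpow_of_card ⟨y, hyC⟩ ⟨x, hxC⟩ (by rw [hi, hj]; exact pow_dvd_pow p hij))
  · intro h g hg
    by_contra hnp
    have hn0 : orderOf g ≠ 0 := (orderOf_pos g).ne'
    have hn1 : orderOf g ≠ 1 := by simpa [orderOf_eq_one_iff] using hg
    obtain ⟨p, hp, hpd⟩ := Nat.exists_prime_and_dvd hn1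
    obtain ⟨m, b, hb, hgb⟩ := Nat.exists_eq_pow_mul_and_not_dvd hn0 p hp.ne_one
    have hcop : Nat.Coprime (p ^ m) b := Nat.Coprime.pow_left m ((hp.coprime_iff_not_dvd).mpr hb)
    have hm : m ≠ 0 := by
      rintro rfl
      simp at hgb
      exact hb (hgb ▸ hpd)
    have hb1 : b ≠ 1 := by
      rintro rfl
      exact hnp (by rw [hgb, mul_one]; exact hp.isPrimePow.pow hm)
    have hb0 : 0 < b := Nat.pos_of_ne_zero (by rintro rfl; exact hn0 (by rw [hgb, mul_zero]))
    have hpm0 : 0 < p ^ m := pow_pos hp.pos m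
    have ho1 : orderOf (g ^ (p ^ m)) = b := by
      rw [orderOf_pow_of_dvd hpm0.ne' (hgb ▸ dvd_mul_right _ _), hgb, Nat.mul_div_cancel_left _ hpm0]
    have ho2 : orderOf (g ^ b) = p ^ m := by
      rw [orderOf_pow_of_dvd hb0.ne' (hgb ▸ dvd_mul_left _ _), hgb, Nat.mul_div_cancel _ hb0]
    have hcyc : IsCyclic ↥(Subgroup.closure ({g ^ (p ^ m), g ^ b} : Set G)) := by
      have hle : Subgroup.closure ({g ^ (p ^ m), g ^ b} : Set G) ≤ Subgroup.zpowers g := by
        rw [Subgroup.closure_le]
        rintro z (rfl | rfl)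
        · exact Subgroup.npow_mem_zpowers g _
        · exact Subgroup.npow_mem_zpowers g _
      exact isCyclic_of_injective (Subgroup.inclusion hle) (Subgroup.inclusion_injective hle)
    rcases h _ _ hcyc with h1 | h1
    · have := orderOf_dvd_of_mem_zpowers h1
      rw [ho1, ho2] at this
      exact hb1 (Nat.Coprime.eq_one_of_dvd hcop.symm this)
    · have := orderOf_dvd_of_mem_zpowers h1
      rw [ho1, ho2] at this
      have := Nat.Coprime.eq_one_of_dvd hcop this
      exact absurd this (by simpa [hm] using hp.ne_one)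

end Cfsg.Agent.S4086
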