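import Cfsg.Statements.S4088
import Cfsg.Agent.Lib.SubnormalizerCount
-- import your own Cfsg.Agent.* helpers here

set_option autoImplicit false
open Cfsg

namespace Cfsg.Agent.S4088

open Cfsg.Agent.Lib.SubnormalizerP Cfsg.Agent.Lib.SubnormalizerCount

theorem card_fiber {G X : Type*} [Group G] (f : G → X) (S : Subgroup G)
    (hf : ∀ g g' : G, f g = f g' ↔ g⁻¹ * g' ∈ S) (Y : Set X) :
    Nat.card {g : G // f g ∈ Y} = Nat.card {y : X // y ∈ Y ∧ ∃ g : G, f g = y} * Nat.card S := by
  classical
  rw [← Nat.card_prod]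
  have hch : ∀ y : {y : X // y ∈ Y ∧ ∃ g : G, f g = y}, ∃ g : G, f g = y.1 := fun y => y.2.2
  choose c hc using hch
  symm
  refine Nat.card_congr (Equiv.ofBijective
    (fun q : {y : X // y ∈ Y ∧ ∃ g : G, f g = y} × S => (⟨c q.1 * q.2, ?_⟩ : {g : G // f g ∈ Y})) ⟨?_, ?_⟩)
  · have : f (c q.1 * q.2) = f (c q.1) := by
      symm
      rw [hf, inv_mul_cancel_left]
      exact q.2.2
    show f _ ∈ Y
    rw [this, hc]
    exact q.1.2.1
  · rintro ⟨y, s⟩ ⟨y', s'⟩ h
    have h1 : c y * s = c y' * s' := congrArg Subtype.val h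
    have h2 : f (c y * s) = f (c y) := by
      symm
      rw [hf, inv_mul_cancel_left]
      exact s.2
    have h3 : f (c y' * s') = f (c y') := by
      symm
      rw [hf, inv_mul_cancel_left]
      exact s'.2
    have h4 : y = y' := by
      apply Subtype.ext
      rw [← hc y, ← hc y', ← h2, ← h3, h1]
    subst h4
    have h5 : (s : G) = s' := mul_left_cancel h1
    rw [Subtype.ext h5]
  · rintro ⟨g, hg⟩
    refine ⟨(⟨f g, hg, g, rfl⟩, ⟨(c ⟨f g, hg, g, rfl⟩)⁻¹ * g, ?_⟩), ?_⟩
    · rw [← hf, hc]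
    · apply Subtype.ext
      simp

/-- Let G be a finite group, p a prime dividing the order of G, H a p-subgroup of G and P a Sylow p-subgroup of G. Call the subnormalizer of H the set of elements g of G such that H is subnormal in the subgroup generated by H and g. Then the number of elements of the subnormalizer of H equals the number of Sylow p-subgroups of G containing H times the order of N_G(P), and also equals the number of conjugates of H contained in P times the order of N_G(H). -/
theorem result {G : Type*} [Group G] [Finite G] (p : ℕ) [Fact p.Prime]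
    (hp : p ∣ Nat.card G) (H : Subgroup G) (hH : IsPGroup p H) (P : Sylow p G) :
    Nat.card {g : G // ((H).subgroupOf (H ⊔ Subgroup.zpowers g)).IsSubnormal} =
        Nat.card {Q : Sylow p G // H ≤ (Q : Subgroup G)} * Nat.card (Subgroup.normalizer ((P : Subgroup G) : Set G)) ∧
    Nat.card {g : G // ((H).subgroupOf (H ⊔ Subgroup.zpowers g)).IsSubnormal} =
        Nat.card {K : Subgroup G // K ≤ (P : Subgroup G) ∧ ∃ g : G, K = H.map (MulAut.conj g).toMonoidHom} *
          Nat.card (Subgroup.normalizer (H : Set G)) := by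
  have h1 := card_subnormalizer hH P
  refine ⟨h1, ?_⟩
  rw [h1]
  have hmem : ∀ g x : G, x ∈ H.map (MulAut.conj g).toMonoidHom ↔ g⁻¹ * x * g ∈ H := by
    intro g x
    constructor
    · rintro ⟨y, hy, rfl⟩
      have : g⁻¹ * ((MulAut.conj g).toMonoidHom y) * g = y := by
        show g⁻¹ * (g * y * g⁻¹) * g = y
        group
      rw [this]; exact hy
    · intro h
      refine ⟨_, h, ?_⟩
      show g * (g⁻¹ * x * g) * g⁻¹ = x
      group
  have hmemP : ∀ g x : G, x ∈ ((g • P : Sylow p G) : Subgroup G) ↔ g⁻¹ * x * g ∈ (P : Subgroup G) := by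
    intro g x
    rw [Sylow.coe_subgroup_smul, Subgroup.mem_pointwise_smul_iff_inv_smul_mem, ← map_inv,
        MulAut.smul_def, MulAut.conj_apply, inv_inv]
  -- first count
  have h2 := card_fiber (fun g : G => H.map (MulAut.conj g).toMonoidHom) (Subgroup.normalizer (H : Set G)) (by
    intro g g'
    constructor
    · intro h
      apply mem_normalizer_of
      · intro x hx
        have h3 : g' * x * g'⁻¹ ∈ H.map (MulAut.conj g').toMonoidHom := ⟨x, hx, rfl⟩
        have h4 : g' * x * g'⁻¹ ∈ H.map (MulAut.conj g).toMonoidHom := by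
          have : H.map (MulAut.conj g).toMonoidHom = H.map (MulAut.conj g').toMonoidHom := h
          rw [this]; exact h3
        rw [hmem] at h4
        have e : g⁻¹ * g' * x * (g⁻¹ * g')⁻¹ = g⁻¹ * (g' * x * g'⁻¹) * g := by group
        rw [e]; exact h4
      · intro x hx
        have h3 : g * x * g⁻¹ ∈ H.map (MulAut.conj g).toMonoidHom := ⟨x, hx, rfl⟩
        have h4 : g * x * g⁻¹ ∈ H.map (MulAut.conj g').toMonoidHom := by
          have : H.map (MulAut.conj g).toMonoidHom = H.map (MulAut.conj g').toMonoidHom := h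
          rw [← this]; exact h3
        rw [hmem] at h4
        have e : (g⁻¹ * g')⁻¹ * x * (g⁻¹ * g') = g'⁻¹ * (g * x * g⁻¹) * g' := by group
        rw [e]; exact h4
    · intro h
      show H.map (MulAut.conj g).toMonoidHom = H.map (MulAut.conj g').toMonoidHom
      ext x
      rw [hmem, hmem]
      have h3 := h (g'⁻¹ * x * g')
      have e : g⁻¹ * g' * (g'⁻¹ * x * g') * (g⁻¹ * g')⁻¹ = g⁻¹ * x * g := by group
      rw [e] at h3
      exact h3.symm) {K : Subgroup G | K ≤ (P : Subgroup G)}
  have h3 := card_fiber (fun g : G => (g • P : Sylow p G)) (Subgroup.normalizer ((P : Subgroup G) : Set G)) (by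
    intro g g'
    constructor
    · intro h
      have h' : (g • P : Sylow p G) = g' • P := h
      apply mem_normalizer_of
      · intro x hx
        have h3 : g' * x * g'⁻¹ ∈ ((g' • P : Sylow p G) : Subgroup G) := by
          rw [hmemP]
          have e : g'⁻¹ * (g' * x * g'⁻¹) * g' = x := by group
          rw [e]; exact hx
        rw [← h', hmemP] at h3
        have e : g⁻¹ * g' * x * (g⁻¹ * g')⁻¹ = g⁻¹ * (g' * x * g'⁻¹) * g := by group
        rw [e]; exact h3
      · intro x hx
        have h3 : g * x * g⁻¹ ∈ ((g • P : Sylow p G) : Subgroup G) := by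
          rw [hmemP]
          have e : g⁻¹ * (g * x * g⁻¹) * g = x := by group
          rw [e]; exact hx
        rw [h', hmemP] at h3
        have e : (g⁻¹ * g')⁻¹ * x * (g⁻¹ * g') = g'⁻¹ * (g * x * g⁻¹) * g' := by group
        rw [e]; exact h3
    · intro h
      show (g • P : Sylow p G) = g' • P
      apply Sylow.ext
      ext x
      rw [hmemP, hmemP]
      have h3 := h (g'⁻¹ * x * g')
      have e : g⁻¹ * g' * (g'⁻¹ * x * g') * (g⁻¹ * g')⁻¹ = g⁻¹ * x * g := by group
      rw [e] at h3
      exact h3.symm) {Q : Sylow p G | H ≤ (Q : Subgroup G)}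
  have h4 : Nat.card {K : Subgroup G // K ≤ (P : Subgroup G) ∧ ∃ g : G, K = H.map (MulAut.conj g).toMonoidHom} =
      Nat.card {y : Subgroup G // y ∈ {K : Subgroup G | K ≤ (P : Subgroup G)} ∧ ∃ g : G, H.map (MulAut.conj g).toMonoidHom = y} := by
    apply Nat.card_congr
    apply Equiv.subtypeEquivRight
    intro K
    constructor
    · rintro ⟨h5, g, h6⟩; exact ⟨h5, g, h6.symm⟩
    · rintro ⟨h5, g, h6⟩; exact ⟨h5, g, h6.symm⟩
  have h5 : Nat.card {Q : Sylow p G // H ≤ (Q : Subgroup G)} =
      Nat.card {y : Sylow p G // y ∈ {Q : Sylow p G | H ≤ (Q : Subgroup G)} ∧ ∃ g : G, (g • P : Sylow p G) = y} := by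
    apply Nat.card_congr
    apply Equiv.subtypeEquivRight
    intro Q
    constructor
    · intro h5; exact ⟨h5, MulAction.exists_smul_eq G P Q⟩
    · rintro ⟨h5, -⟩; exact h5
  rw [h4, h5, ← h2, ← h3]
  apply Nat.card_congr
  refine ⟨fun g => ⟨g.1⁻¹, ?_⟩, fun g => ⟨g.1⁻¹, ?_⟩, fun g => Subtype.ext (inv_inv _), fun g => Subtype.ext (inv_inv _)⟩
  · have hg : H ≤ ((g.1 • P : Sylow p G) : Subgroup G) := g.2
    show H.map (MulAut.conj g.1⁻¹).toMonoidHom ≤ (P : Subgroup G)
    rintro _ ⟨x, hx, rfl⟩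
    have := (hmemP _ _).mp (hg hx)
    show g.1⁻¹ * x * (g.1⁻¹)⁻¹ ∈ (P : Subgroup G)
    rwa [inv_inv]
  · have hg : H.map (MulAut.conj g.1).toMonoidHom ≤ (P : Subgroup G) := g.2
    show H ≤ ((g.1⁻¹ • P : Sylow p G) : Subgroup G)
    intro x hx
    rw [hmemP, inv_inv]
    exact hg ⟨x, hx, rfl⟩

end Cfsg.Agent.S4088
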