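import Cfsg.Statements.S4089
import Cfsg.Agent.Lib.SubnormalizerP
-- import your own Cfsg.Agent.* helpers here

set_option autoImplicit false
open Cfsg

namespace Cfsg.Agent.S4089

open Cfsg.Agent.Lib.SubnormalizerP

/-- Let G be a finite group, p a prime and H a p-subgroup of G. Then the set of elements g of G such that H is subnormal in the subgroup generated by H and g is the union of the normalizers N_G(R) over the subgroups R of G containing H with R = O_p(N_G(R)); and this set does not change when H is replaced by the intersection of all Sylow p-subgroups of G containing H. -/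
theorem result {G : Type*} [Group G] [Finite G] (p : ℕ) [Fact p.Prime]
    (H : Subgroup G) (hH : IsPGroup p H) :
    {g : G | ((H).subgroupOf (H ⊔ Subgroup.zpowers g)).IsSubnormal} =
      {g : G | ∃ R : Subgroup G, H ≤ R ∧ (Cfsg.pCore p (Subgroup.normalizer (R : Set G))).map (Subgroup.normalizer (R : Set G)).subtype = R ∧ g ∈ Subgroup.normalizer (R : Set G)} ∧
    ∀ g : G, (((H).subgroupOf (H ⊔ Subgroup.zpowers g)).IsSubnormal ↔
      (((sInf {K : Subgroup G | ∃ Q : Sylow p G, H ≤ (Q : Subgroup G) ∧ K = (Q : Subgroup G)})).subgroupOf ((sInf {K : Subgroup G | ∃ Q : Sylow p G, H ≤ (Q : Subgroup G) ∧ K = (Q : Subgroup G)}) ⊔ Subgroup.zpowers g)).IsSubnormal) := by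
  constructor
  · ext g
    show (H.subgroupOf (H ⊔ Subgroup.zpowers g)).IsSubnormal ↔ ∃ R : Subgroup G, H ≤ R ∧
      (Cfsg.pCore p (Subgroup.normalizer (R : Set G))).map (Subgroup.normalizer (R : Set G)).subtype = R ∧
      g ∈ Subgroup.normalizer (R : Set G)
    rw [subn_iff hH]
    constructor
    · rintro ⟨R, h1, h2, h3⟩
      obtain ⟨R', h4, h5, h6⟩ := exists_radical h2
      exact ⟨R', h1.trans h4, by rw [map_pCore]; exact h5, h6 h3⟩
    · rintro ⟨R, h1, h2, h3⟩
      rw [map_pCore] at h2
      refine ⟨R, h1, ?_, h3⟩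
      rw [← h2]
      exact OO_isPGroup _
  · intro g
    show (H.subgroupOf (H ⊔ Subgroup.zpowers g)).IsSubnormal ↔
      ((sylInf p H).subgroupOf ((sylInf p H) ⊔ Subgroup.zpowers g)).IsSubnormal
    rw [subn_iff hH, subn_iff (sylInf_isPGroup hH)]
    constructor
    · rintro ⟨R, h1, h2, h3⟩
      exact ⟨sylInf p R, sylInf_mono h1, sylInf_isPGroup h2, normalizer_le_normalizer_sylInf p R h3⟩
    · rintro ⟨R, h1, h2, h3⟩
      exact ⟨R, (le_sylInf p H).trans h1, h2, h3⟩

end Cfsg.Agent.S4089
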