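import Cfsg.Statements.S4091
import Mathlib
import Cfsg.Agent.Lib.H10PElts

set_option autoImplicit false
open Cfsg

namespace Cfsg.Agent.S4091

/-- Let G be a finite p-solvable group, P a Sylow p-subgroup of G, u the number of p-elements of G (elements of p-power order, the identity included) and n the number of Sylow p-subgroups of G. Then u/#P ≥ n^((p−1)/p), stated as u^p ≥ #P^p · n^(p−1). -/
theorem result {G : Type*} [Group G] [Finite G] (p : ℕ) [Fact p.Prime]
    (hG : Cfsg.IsPSolvable p G) (P : Sylow p G) :
    Nat.card (P : Subgroup G) ^ p * Nat.card (Sylow p G) ^ (p - 1) ≤ Nat.card {g : G // ∃ k : ℕ, orderOf g = p ^ k} ^ p := by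
  exact Cfsg.Agent.Lib.H10PElts.final hG P

end Cfsg.Agent.S4091
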