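import Cfsg.Statements.S4092
import Mathlib
-- import your own Cfsg.Agent.* helpers here

set_option autoImplicit false
open Cfsg

namespace Cfsg.Agent.S4092

/-- Let G be a finite group, p a prime and P a Sylow p-subgroup of G that is not normal in G. Then G has at least p·#P elements of p-power order (the identity included). -/
theorem result {G : Type*} [Group G] [Finite G] (p : ℕ) [Fact p.Prime]
    (P : Sylow p G) (hP : ¬ (P : Subgroup G).Normal) :
    p * Nat.card (P : Subgroup G) ≤ Nat.card {g : G // ∃ k : ℕ, orderOf g = p ^ k} := by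
  classical
  have := Fintype.ofFinite G
  have hp : p.Prime := Fact.out
  -- two distinct Sylow subgroups
  have hex : ∃ n : ℕ, ∃ P₁ P₂ : Sylow p G, P₁ ≠ P₂ ∧ Nat.card G - Nat.card ((P₁ : Subgroup G) ⊓ (P₂ : Subgroup G) : Subgroup G) = n := by
    by_contra hno
    apply hP
    have hsub : Subsingleton (Sylow p G) := by
      refine ⟨fun a b => ?_⟩
      by_contra hab
      exact hno ⟨_, a, b, hab, rfl⟩
    exact Sylow.normal_of_subsingleton P
  obtain ⟨P₁, P₂, h12, hc⟩ := Nat.find_spec hex
  set D : Subgroup G := (P₁ : Subgroup G) ⊓ (P₂ : Subgroup G) with hD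
  have hmax : ∀ Q₁ Q₂ : Sylow p G, Q₁ ≠ Q₂ →
      Nat.card ((Q₁ : Subgroup G) ⊓ (Q₂ : Subgroup G) : Subgroup G) ≤ Nat.card D := by
    intro Q₁ Q₂ hne
    have h1 := Nat.find_min' hex ⟨Q₁, Q₂, hne, rfl⟩
    rw [← hc] at h1
    have h2 := Subgroup.card_le_card_group ((Q₁ : Subgroup G) ⊓ (Q₂ : Subgroup G) : Subgroup G)
    have h3 := Subgroup.card_le_card_group D
    omega
  have hmax' : ∀ Q₁ Q₂ : Sylow p G, D < (Q₁ : Subgroup G) ⊓ (Q₂ : Subgroup G) → Q₁ = Q₂ := by
    intro Q₁ Q₂ hlt
    by_contra hne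
    have h1 := hmax Q₁ Q₂ hne
    exact absurd (Subgroup.eq_of_le_of_card_ge hlt.le h1) hlt.ne
  have hcardP : ∀ Q : Sylow p G, Nat.card (Q : Subgroup G) = Nat.card (P : Subgroup G) := fun Q => by
    rw [Q.card_eq_multiplicity, P.card_eq_multiplicity]
  have hDlt : ∀ Q R : Sylow p G, Q ≠ R → (Q : Subgroup G) ⊓ (R : Subgroup G) < (Q : Subgroup G) := by
    intro Q R hQR
    refine lt_of_le_of_ne inf_le_left fun h => hQR ?_
    have h2 : (Q : Subgroup G) ≤ R := inf_eq_left.mp h
    exact Sylow.ext (Subgroup.eq_of_le_of_card_ge h2 (by rw [hcardP Q, hcardP R]))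
  have hgrow : ∀ Q : Sylow p G, D < (Q : Subgroup G) → D < (Q : Subgroup G) ⊓ Subgroup.normalizer (D : Set G) := by
    intro Q hlt
    refine lt_of_le_of_ne (le_inf hlt.le Subgroup.le_normalizer) fun h => ?_
    have : Group.IsNilpotent (Q : Subgroup G) := Q.isPGroup'.isNilpotent
    have h1 := Group.normalizerCondition_of_isNilpotent (G := (Q : Subgroup G)) (D.subgroupOf Q) (by
      rw [lt_top_iff_ne_top]
      intro h2
      exact absurd (Subgroup.subgroupOf_eq_top.mp h2) (not_le_of_gt hlt))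
    obtain ⟨x, hx1, hx2⟩ := SetLike.exists_of_lt h1
    apply hx2
    rw [Subgroup.mem_subgroupOf, h]
    refine ⟨x.2, ?_⟩
    show (x : G) ∈ Subgroup.normalizer (D : Set G)
    rw [Subgroup.mem_normalizer_iff] at hx1 ⊢
    intro y
    constructor
    · intro hy
      exact (hx1 ⟨y, hlt.le hy⟩).mp hy
    · intro hy
      have h3 : y ∈ (Q : Subgroup G) := by
        have := (Q : Subgroup G).mul_mem ((Q : Subgroup G).mul_mem ((Q : Subgroup G).inv_mem x.2) (hlt.le hy)) x.2
        simpa [mul_assoc] using this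
      exact (hx1 ⟨y, h3⟩).mpr hy
  have hD1 : D < (P₁ : Subgroup G) := hDlt P₁ P₂ h12
  have hD2 : D < (P₂ : Subgroup G) := by
    have := hDlt P₂ P₁ h12.symm
    rwa [inf_comm] at this
  set N := Subgroup.normalizer (D : Set G) with hN
  have hDN : D ≤ N := Subgroup.le_normalizer
  -- extension of Sylows of N
  have hext : ∀ T : Sylow p N, ∃ Q : Sylow p G, (T : Subgroup N).map N.subtype ≤ Q := fun T =>
    (T.isPGroup'.map N.subtype).exists_le_sylow
  choose q hq using hext
  have hqT : ∀ T : Sylow p N, (T : Subgroup N).map N.subtype = (q T : Subgroup G) ⊓ N := by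
    intro T
    have h1 : IsPGroup p ((q T : Subgroup G).subgroupOf N) := (q T).isPGroup'.comap_subtype
    have h2 : (T : Subgroup N) ≤ (q T : Subgroup G).subgroupOf N := by
      intro x hx
      exact hq T ⟨x, hx, rfl⟩
    have h3 := T.is_maximal' h1 h2
    rw [← h3, Subgroup.subgroupOf_map_subtype]
  have hinj : Function.Injective q := by
    intro T T' h
    apply Sylow.ext
    apply Subgroup.map_injective N.subtype_injective
    rw [hqT, hqT, h]
  -- D < every T
  have hsy : ∀ Q : Sylow p G, ∃ T : Sylow p N, (Q : Subgroup G).subgroupOf N ≤ T := fun Q =>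
    (Q.isPGroup'.comap_subtype (K := N)).exists_le_sylow
  have hDn : (D.subgroupOf N).Normal := by rw [hN]; infer_instance
  have hDp : IsPGroup p (D.subgroupOf N) := (P₁.isPGroup'.to_le hD1.le).comap_subtype
  have hDT : ∀ T : Sylow p N, D.subgroupOf N ≤ (T : Subgroup N) := by
    intro T
    have h1 := T.is_maximal' (T.isPGroup'.to_sup_of_normal_right hDp) le_sup_left
    exact sup_eq_left.mp h1
  have hDq : ∀ T : Sylow p N, D ≤ (q T : Subgroup G) := by
    intro T x hx
    have := hDT T (show (⟨x, hDN hx⟩ : N) ∈ D.subgroupOf N from hx)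
    exact hq T ⟨_, this, rfl⟩
  have hnot1 : Nat.card (Sylow p N) ≠ 1 := by
    intro h1
    have hs : Subsingleton (Sylow p N) := (Nat.card_eq_one_iff_unique.mp h1).1
    obtain ⟨T, hT⟩ := hsy P₁
    obtain ⟨T', hT'⟩ := hsy P₂
    rw [Subsingleton.elim T' T] at hT'
    apply h12
    have k1 : D < (q T : Subgroup G) ⊓ (P₁ : Subgroup G) := by
      refine lt_of_lt_of_le (hgrow P₁ hD1) (le_inf ?_ inf_le_left)
      intro x hx
      exact hq T ⟨⟨x, hx.2⟩, hT hx.1, rfl⟩
    have k2 : D < (q T : Subgroup G) ⊓ (P₂ : Subgroup G) := by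
      refine lt_of_lt_of_le (hgrow P₂ hD2) (le_inf ?_ inf_le_left)
      intro x hx
      exact hq T ⟨⟨x, hx.2⟩, hT' hx.1, rfl⟩
    rw [← hmax' _ _ k1, ← hmax' _ _ k2]
  have hge : p + 1 ≤ Nat.card (Sylow p N) := by
    have h1 := card_sylow_modEq_one p N
    have h2 : 0 < Nat.card (Sylow p N) := Nat.card_pos
    have h3 : p ∣ Nat.card (Sylow p N) - 1 := (Nat.modEq_iff_dvd' h2).mp h1.symm
    have h4 := Nat.le_of_dvd (by omega) h3
    omega
  -- pairwise intersections
  have hint : ∀ T T' : Sylow p N, T ≠ T' → ∀ x, x ∈ (q T : Subgroup G) → x ∈ (q T' : Subgroup G) → x ∈ D := by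
    intro T T' hTT x hx hx'
    have h1 : D ≤ (q T : Subgroup G) ⊓ (q T' : Subgroup G) := le_inf (hDq T) (hDq T')
    by_contra hxD
    have h2 : D < (q T : Subgroup G) ⊓ (q T' : Subgroup G) :=
      lt_of_le_of_ne h1 fun h => hxD (h ▸ (⟨hx, hx'⟩ : x ∈ (q T : Subgroup G) ⊓ (q T' : Subgroup G)))
    exact hTT (hinj (hmax' _ _ h2))
  have := Fintype.ofFinite (Sylow p N)
  set F : Sylow p N → Finset G := fun T => Finset.univ.filter (fun g => g ∈ (q T : Subgroup G) ∧ g ∉ D) with hF
  have hFcard : ∀ T, (F T).card + Nat.card D = Nat.card (P : Subgroup G) := by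
    intro T
    have h1 : Nat.card D = (Finset.univ.filter fun g : G => g ∈ D).card := by
      rw [Nat.card_eq_fintype_card, Fintype.card_subtype]
    have h2 : Nat.card (q T : Subgroup G) = (Finset.univ.filter fun g : G => g ∈ (q T : Subgroup G)).card := by
      rw [Nat.card_eq_fintype_card]
      exact Fintype.card_subtype _
    rw [← hcardP (q T), h1, h2, ← Finset.card_union_of_disjoint]
    · congr 1
      ext g
      simp only [hF, Finset.mem_union, Finset.mem_filter, Finset.mem_univ, true_and]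
      constructor
      · rintro (h | h)
        · exact h.1
        · exact hDq T h
      · intro h
        by_cases hg : g ∈ D
        · exact Or.inr hg
        · exact Or.inl ⟨h, hg⟩
    · rw [Finset.disjoint_left]
      intro g hg1 hg2
      simp only [hF, Finset.mem_filter, Finset.mem_univ, true_and] at hg1 hg2
      exact hg1.2 hg2
  have hU : ((Finset.univ.biUnion F) ∪ (Finset.univ.filter fun g : G => g ∈ D)) ⊆
      (Finset.univ.filter fun g : G => ∃ k : ℕ, orderOf g = p ^ k) := by
    intro g hg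
    simp only [hF, Finset.mem_union, Finset.mem_biUnion, Finset.mem_filter, Finset.mem_univ, true_and] at hg ⊢
    have hg' : ∃ Q : Sylow p G, g ∈ (Q : Subgroup G) := by
      rcases hg with ⟨T, hT, _⟩ | h
      · exact ⟨q T, hT⟩
      · exact ⟨P₁, hD1.le h⟩
    obtain ⟨Q, hQ⟩ := hg'
    obtain ⟨k, hk⟩ := (IsPGroup.iff_orderOf.mp Q.isPGroup') ⟨g, hQ⟩
    exact ⟨k, by rwa [Subgroup.orderOf_mk] at hk⟩
  have hcount := Finset.card_le_card hU
  rw [Finset.card_union_of_disjoint, Finset.card_biUnion] at hcount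
  · have h1 : Nat.card {g : G // ∃ k : ℕ, orderOf g = p ^ k} =
        (Finset.univ.filter fun g : G => ∃ k : ℕ, orderOf g = p ^ k).card := by
      rw [Nat.card_eq_fintype_card, Fintype.card_subtype]
    rw [h1]
    refine le_trans ?_ hcount
    have h2 : Nat.card D = (Finset.univ.filter fun g : G => g ∈ D).card := by
      rw [Nat.card_eq_fintype_card, Fintype.card_subtype]
    rw [← h2]
    have h3 : ∀ T ∈ (Finset.univ : Finset (Sylow p N)), (F T).card = Nat.card (P : Subgroup G) - Nat.card D := by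
      intro T _
      have := hFcard T
      omega
    rw [Finset.sum_congr rfl h3, Finset.sum_const, smul_eq_mul, Finset.card_univ, ← Nat.card_eq_fintype_card]
    have h4 : p * Nat.card D ≤ Nat.card (P : Subgroup G) := by
      obtain ⟨a, ha⟩ := IsPGroup.iff_card.mp (P₁.isPGroup'.to_le hD1.le)
      obtain ⟨b, hb⟩ := IsPGroup.iff_card.mp P.isPGroup'
      have hlt : Nat.card D < Nat.card (P : Subgroup G) := by
        rw [← hcardP P₁]
        refine lt_of_le_of_ne (Subgroup.card_le_of_le hD1.le) fun h => hD1.ne ?_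
        exact Subgroup.eq_of_le_of_card_ge hD1.le h.ge
      rw [ha, hb] at hlt ⊢
      have hab : a < b := (Nat.pow_lt_pow_iff_right hp.one_lt).mp hlt
      rw [← pow_succ']
      exact Nat.pow_le_pow_right hp.pos hab
    obtain ⟨m, hm⟩ := Nat.exists_eq_add_of_le hge
    obtain ⟨e, he⟩ := Nat.exists_eq_add_of_le h4
    have hpD : Nat.card D ≤ p * Nat.card D := Nat.le_mul_of_pos_left _ hp.pos
    obtain ⟨f, hf⟩ := Nat.exists_eq_add_of_le hpD
    rw [hm, he, hf]
    have h6 : Nat.card D + f + e - Nat.card D = f + e := by omega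
    rw [h6]
    nlinarith [Nat.zero_le (m * (f + e)), Nat.zero_le (p * e), Nat.zero_le f]
  · intro T _ T' _ hTT
    rw [Function.onFun, Finset.disjoint_left]
    intro g hg1 hg2
    simp only [hF, Finset.mem_filter, Finset.mem_univ, true_and] at hg1 hg2
    exact hg1.2 (hint T T' hTT g hg1.1 hg2.1)
  · rw [Finset.disjoint_left]
    intro g hg1 hg2
    simp only [hF, Finset.mem_biUnion, Finset.mem_filter, Finset.mem_univ, true_and] at hg1 hg2
    obtain ⟨T, _, h⟩ := hg1
    exact h hg2

end Cfsg.Agent.S4092
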