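import Cfsg.Statements.S4093
import Mathlib
-- import your own Cfsg.Agent.* helpers here

set_option autoImplicit false
open scoped BigOperators
open Cfsg

namespace Cfsg.Agent.S4093

theorem card_conj {G : Type*} [Group G] [Finite G] (N : Subgroup G) (x : G) :
    Nat.card (Set.range (fun n : N => (n : G) * x * (n : G)⁻¹)) =
      Nat.card N / Nat.card (N ⊓ Subgroup.centralizer ({x} : Set G) : Subgroup G) := by
  classical
  set C := Subgroup.centralizer ({x} : Set G) with hC
  have h1 : Nat.card (Set.range (fun n : N => (n : G) * x * (n : G)⁻¹)) = (C.subgroupOf N).index := by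
    rw [Subgroup.index]
    symm
    have key : ∀ a b : N, (a : G) * x * (a : G)⁻¹ = (b : G) * x * (b : G)⁻¹ ↔ a⁻¹ * b ∈ C.subgroupOf N := by
      intro a b
      rw [Subgroup.mem_subgroupOf, hC, Subgroup.mem_centralizer_singleton_iff]
      push_cast
      constructor
      · intro h
        have := congrArg (fun t => (a : G)⁻¹ * t * b) h
        simp only [mul_assoc] at this ⊢
        simpa using this.symm
      · intro h
        have := congrArg (fun t => (a : G) * t * (b : G)⁻¹) h
        simp only [mul_assoc] at this ⊢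
        simpa using this.symm
    refine Nat.card_congr (Equiv.ofBijective
      (Quotient.lift (fun n : N => (⟨(n : G) * x * (n : G)⁻¹, n, rfl⟩ : Set.range (fun n : N => (n : G) * x * (n : G)⁻¹)))
        ?_) ⟨?_, ?_⟩)
    · intro a b hab
      rw [← Quotient.eq_iff_equiv] at hab
      have := QuotientGroup.eq.mp hab
      exact Subtype.ext ((key a b).mpr this)
    · intro a b
      induction a using Quotient.inductionOn
      induction b using Quotient.inductionOn
      rename_i a b
      intro h
      exact QuotientGroup.eq.mpr ((key a b).mp (congrArg Subtype.val h))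
    · rintro ⟨_, n, rfl⟩
      exact ⟨Quotient.mk _ n, rfl⟩
  rw [h1]
  have h2 : Nat.card (C.subgroupOf N) = Nat.card (N ⊓ C : Subgroup G) := by
    rw [inf_comm, ← Subgroup.subgroupOf_map_subtype, Subgroup.card_subtype]
  rw [← h2]
  refine (Nat.div_eq_of_eq_mul_right Nat.card_pos ?_).symm
  exact (Subgroup.card_mul_index _).symm

/-- Let G be a finite group with a normal subgroup N complementing a Sylow p-subgroup P (a normal p-complement). Then the number of elements of G of p-power order equals the sum over x ∈ P of the index of C_N(x) in N. -/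
theorem result {G : Type*} [Group G] [Finite G] (p : ℕ) [Fact p.Prime]
    (P : Sylow p G) (N : Subgroup G) [N.Normal] (hNP : N.IsComplement' (P : Subgroup G)) :
    Nat.card {g : G // ∃ k : ℕ, orderOf g = p ^ k} =
      ∑ᶠ x : (P : Subgroup G), Nat.card N / Nat.card ↥(N ⊓ Subgroup.centralizer ({(x : G)} : Set G)) := by
  classical
  have := Fintype.ofFinite G
  have hp : p.Prime := Fact.out
  rw [finsum_eq_sum_of_fintype]
  have hdis : ∀ x : G, x ∈ N → x ∈ (P : Subgroup G) → x = 1 := fun x h1 h2 => by
    have : x ∈ N ⊓ (P : Subgroup G) := ⟨h1, h2⟩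
    rw [hNP.disjoint.eq_bot] at this
    exact this
  have hconjN : ∀ n ∈ N, ∀ x : G, n * x * n⁻¹ * x⁻¹ ∈ N := by
    intro n hn x
    have := N.mul_mem hn ((inferInstance : N.Normal).conj_mem _ (N.inv_mem hn) x)
    simpa [mul_assoc] using this
  have hA : (Finset.univ.filter fun g : G => ∃ k : ℕ, orderOf g = p ^ k) =
      Finset.univ.biUnion (fun x : (P : Subgroup G) =>
        Finset.univ.filter (fun g : G => g ∈ Set.range (fun n : N => (n : G) * x * (n : G)⁻¹))) := by
    ext g
    simp only [Finset.mem_filter, Finset.mem_univ, true_and, Finset.mem_biUnion, Set.mem_range]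
    constructor
    · rintro ⟨k, hk⟩
      have hz : IsPGroup p (Subgroup.zpowers g) := IsPGroup.of_card (n := k) (by rw [Nat.card_zpowers, hk])
      obtain ⟨Q, hQ⟩ := hz.exists_le_sylow
      obtain ⟨t, ht⟩ := MulAction.exists_smul_eq G Q P
      have htN : t ∈ (N ⊔ (P : Subgroup G) : Subgroup G) := by rw [hNP.sup_eq_top]; trivial
      rw [sup_comm] at htN
      obtain ⟨u, hu, n, hn, rfl⟩ := Subgroup.mem_sup_of_normal_right.mp htN
      have h1 : u * n * g * (u * n)⁻¹ ∈ (P : Subgroup G) := by
        rw [← ht]
        exact ⟨g, hQ (Subgroup.mem_zpowers g), rfl⟩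
      have h2 : n * g * n⁻¹ ∈ (P : Subgroup G) := by
        have := (P : Subgroup G).mul_mem ((P : Subgroup G).mul_mem ((P : Subgroup G).inv_mem hu) h1) hu
        simpa [mul_assoc] using this
      exact ⟨⟨_, h2⟩, ⟨n⁻¹, N.inv_mem hn⟩, by simp [mul_assoc]⟩
    · rintro ⟨x, n, rfl⟩
      obtain ⟨k, hk⟩ := (IsPGroup.iff_orderOf.mp P.isPGroup') x
      refine ⟨k, ?_⟩
      rw [← hk, ← Subgroup.orderOf_coe x, ← MulAut.conj_apply]
      exact orderOf_injective (MulAut.conj (n : G)).toMonoidHom (MulAut.conj (n : G)).injective (x : G)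
  have h1 : Nat.card {g : G // ∃ k : ℕ, orderOf g = p ^ k} =
      (Finset.univ.filter fun g : G => ∃ k : ℕ, orderOf g = p ^ k).card := by
    rw [Nat.card_eq_fintype_card, Fintype.card_subtype]
  rw [h1, hA, Finset.card_biUnion]
  · refine Finset.sum_congr rfl fun x _ => ?_
    rw [← card_conj N (x : G), Nat.card_eq_fintype_card]
    exact (Fintype.card_subtype _).symm
  · intro x _ y _ hxy
    rw [Function.onFun, Finset.disjoint_left]
    intro g hgx hgy
    simp only [Finset.mem_filter, Finset.mem_univ, true_and, Set.mem_range] at hgx hgy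
    obtain ⟨n, rfl⟩ := hgx
    obtain ⟨m, hm⟩ := hgy
    apply hxy
    apply Subtype.ext
    have h2 := hconjN n n.2 (x : G)
    have h3 := hconjN m m.2 (y : G)
    rw [hm] at h3
    have h4 := N.mul_mem (N.inv_mem h2) h3
    have h5 : (x : G) * (y : G)⁻¹ ∈ N := by simpa [mul_assoc] using h4
    have h6 := hdis _ h5 ((P : Subgroup G).mul_mem x.2 ((P : Subgroup G).inv_mem y.2))
    exact mul_inv_eq_one.mp h6

end Cfsg.Agent.S4093
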