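import Cfsg.Statements.S4097
import Cfsg.Agent.Lib.FPF
import Cfsg.Agent.Lib.FrobThm

set_option autoImplicit false
open Cfsg
open scoped Pointwise

namespace Cfsg.Agent.S4097

universe u

open Subgroup in
theorem mem_sup_norm {G : Type*} [Group G] {K A : Subgroup G} (hn : A ≤ normalizer (K : Set G))
    {z : G} (hz : z ∈ K ⊔ A) : ∃ k ∈ K, ∃ a ∈ A, k * a = z := by
  rw [Subgroup.sup_eq_closure] at hz
  induction hz using Subgroup.closure_induction with
  | mem x hx =>
    rcases hx with hx | hx
    · exact ⟨x, hx, 1, A.one_mem, mul_one _⟩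
    · exact ⟨1, K.one_mem, x, hx, one_mul _⟩
  | one => exact ⟨1, K.one_mem, 1, A.one_mem, one_mul _⟩
  | mul x y _ _ hx hy =>
    obtain ⟨k, hk, a, ha, rfl⟩ := hx
    obtain ⟨l, hl, b, hb, rfl⟩ := hy
    have h1 : a * l * a⁻¹ ∈ K := (mem_normalizer_iff.mp (hn ha) l).mp hl
    exact ⟨k * (a * l * a⁻¹), K.mul_mem hk h1, a * b, A.mul_mem ha hb, by group⟩
  | inv x _ hx =>
    obtain ⟨k, hk, a, ha, rfl⟩ := hx
    have h1 : a⁻¹ * k⁻¹ * a⁻¹⁻¹ ∈ K := (mem_normalizer_iff.mp (hn (A.inv_mem ha)) k⁻¹).mp (K.inv_mem hk)
    exact ⟨_, h1, a⁻¹, A.inv_mem ha, by group⟩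

open Subgroup in
theorem solv_sup {G : Type*} [Group G] (X Y : Subgroup G) (h1 : Group.IsSolvable X)
    (h2 : Group.IsSolvable Y) (hn : Y ≤ Subgroup.normalizer (X : Set G)) :
    Group.IsSolvable ↥(X ⊔ Y) := by
  have hXn : (X.subgroupOf (X ⊔ Y)).Normal := by
    apply normal_subgroupOf_of_le_normalizer
    exact sup_le le_normalizer hn
  have h3 : Group.IsSolvable ↥(X.subgroupOf (X ⊔ Y)) :=
    Group.isSolvable_of_isSolvable_injective
      (f := (Subgroup.subgroupOfEquivOfLe (le_sup_left : X ≤ X ⊔ Y)).toMonoidHom)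
      (Subgroup.subgroupOfEquivOfLe (le_sup_left : X ≤ X ⊔ Y)).injective
  have h4 : Group.IsSolvable (↥(X ⊔ Y) ⧸ X.subgroupOf (X ⊔ Y)) := by
    have hsurj : Function.Surjective
        ((QuotientGroup.mk' (X.subgroupOf (X ⊔ Y))).comp
          (Subgroup.inclusion (le_sup_right : Y ≤ X ⊔ Y))) := by
      intro q
      obtain ⟨z, rfl⟩ := QuotientGroup.mk'_surjective _ q
      obtain ⟨x, hx, y, hy, hxy⟩ := mem_sup_norm hn z.2
      refine ⟨⟨y, hy⟩, ?_⟩
      simp only [MonoidHom.comp_apply, QuotientGroup.mk'_apply]
      rw [QuotientGroup.eq, mem_subgroupOf]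
      have h5 : ((((Subgroup.inclusion (le_sup_right : Y ≤ X ⊔ Y)) ⟨y, hy⟩)⁻¹ * z :
          ↥(X ⊔ Y)) : G) = y⁻¹ * x * y := by
        rw [Subgroup.coe_mul, ← hxy]
        simp [mul_assoc]
      rw [h5]
      have h6 := (mem_normalizer_iff.mp (inv_mem (hn hy)) x).mp hx
      simpa using h6
    exact Group.isSolvable_of_surjective hsurj
  exact Group.isSolvable_of_ker_le_range (X.subgroupOf (X ⊔ Y)).subtype
    (QuotientGroup.mk' (X.subgroupOf (X ⊔ Y))) (by
      rw [QuotientGroup.ker_mk', range_subtype])

section Main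

variable {G : Type u} [Group G] [Finite G] (A : Subgroup G)

/-- working hypotheses for a minimal counterexample -/
structure Hyp : Prop where
  solv : Group.IsSolvable A
  comm : ∀ S : Subgroup G, A ≤ S → Group.IsSolvable S → ∀ a ∈ A, ∀ s ∈ S, a * s = s * a
  sub : ∀ H : Subgroup G, A ≤ H → H ≠ ⊤ → ∀ a ∈ A, ∀ h ∈ H, a * h = h * a
  center : Subgroup.center G = ⊥
  ne : A ≠ ⊥

namespace Hyp

variable {A} (h : Hyp A)
set_option linter.unusedSectionVars false

include h

theorem le_C (H : Subgroup G) (h1 : A ≤ H) (h2 : H ≠ ⊤) : H ≤ Subgroup.centralizer (A : Set G) := by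
  intro x hx
  rw [Subgroup.mem_centralizer_iff]
  intro a ha
  exact h.sub H h1 h2 a ha x hx

theorem le_C' (S : Subgroup G) (h1 : A ≤ S) (h2 : Group.IsSolvable S) :
    S ≤ Subgroup.centralizer (A : Set G) := by
  intro x hx
  rw [Subgroup.mem_centralizer_iff]
  intro a ha
  exact h.comm S h1 h2 a ha x hx

theorem A_le_C : A ≤ Subgroup.centralizer (A : Set G) := h.le_C' A le_rfl h.solv

theorem C_ne_top : Subgroup.centralizer (A : Set G) ≠ ⊤ := by
  intro h1
  apply h.ne
  rw [eq_bot_iff, ← h.center]
  intro a ha
  rw [Subgroup.mem_center_iff]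
  intro g
  have : g ∈ Subgroup.centralizer (A : Set G) := by rw [h1]; trivial
  rw [Subgroup.mem_centralizer_iff] at this
  exact (this a ha).symm

theorem cent_ne_top {x : G} (hx : x ≠ 1) : Subgroup.centralizer ({x} : Set G) ≠ ⊤ := by
  intro h1
  apply hx
  rw [← Subgroup.mem_bot, ← h.center, Subgroup.mem_center_iff]
  intro g
  have : g ∈ Subgroup.centralizer ({x} : Set G) := by rw [h1]; trivial
  rw [Subgroup.mem_centralizer_iff] at this
  exact (this x rfl).symm

/-- if a nontrivial `x` commutes with `A`, everything commuting with `x` is in `C` -/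
theorem cent_le {x : G} (hx : x ≠ 1) (hxC : x ∈ Subgroup.centralizer (A : Set G)) :
    Subgroup.centralizer ({x} : Set G) ≤ Subgroup.centralizer (A : Set G) := by
  apply h.le_C _ _ (h.cent_ne_top hx)
  intro a ha
  rw [Subgroup.mem_centralizer_iff]
  intro y hy
  rw [Set.mem_singleton_iff] at hy
  subst hy
  rw [Subgroup.mem_centralizer_iff] at hxC
  exact (hxC a ha).symm

theorem cent_eq {a : G} (ha : a ∈ A) (ha1 : a ≠ 1) :
    Subgroup.centralizer ({a} : Set G) = Subgroup.centralizer (A : Set G) := by
  apply le_antisymm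
  · exact h.cent_le ha1 (h.A_le_C ha)
  · exact Subgroup.centralizer_le (by simpa using ha)

theorem pgroup_le {p : ℕ} [Fact p.Prime] {a : G} (ha : a ∈ A) (ha1 : a ≠ 1) (S : Subgroup G)
    (hS : IsPGroup p S) (haS : a ∈ S) : S ≤ Subgroup.centralizer (A : Set G) := by
  have : Nontrivial S := ⟨⟨⟨a, haS⟩, 1, fun e => ha1 (congrArg Subtype.val e)⟩⟩
  have h1 := hS.center_nontrivial
  obtain ⟨z, hz⟩ := exists_ne (1 : Subgroup.center S)
  have hzc := z.2
  rw [Subgroup.mem_center_iff] at hzc
  have hz1 : ((z : S) : G) ≠ 1 := by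
    intro e
    apply hz
    ext
    simpa using e
  have hzs : ∀ s ∈ S, s * ((z : S) : G) = ((z : S) : G) * s := by
    intro s hs
    have := hzc ⟨s, hs⟩
    exact congrArg Subtype.val this
  have hzC : ((z : S) : G) ∈ Subgroup.centralizer (A : Set G) := by
    rw [← h.cent_eq ha ha1, Subgroup.mem_centralizer_iff]
    intro y hy
    rw [Set.mem_singleton_iff] at hy
    subst hy
    exact hzs _ haS
  refine le_trans ?_ (h.cent_le hz1 hzC)
  intro s hs
  rw [Subgroup.mem_centralizer_iff]
  intro y hy
  rw [Set.mem_singleton_iff] at hy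
  subst hy
  exact (hzs s hs).symm

theorem norm_le {p : ℕ} [Fact p.Prime] {a : G} (ha : a ∈ A) (ha1 : a ≠ 1) (P : Sylow p G)
    (haP : a ∈ P) : Subgroup.normalizer ((P : Subgroup G) : Set G) ≤ Subgroup.centralizer (A : Set G) := by
  have hPC : (P : Subgroup G) ≤ Subgroup.centralizer (A : Set G) := h.pgroup_le ha ha1 _ P.2 haP
  have hAP : A ≤ Subgroup.centralizer ((P : Subgroup G) : Set G) := by
    intro b hb
    rw [Subgroup.mem_centralizer_iff]
    intro x hx
    have := hPC hx
    rw [Subgroup.mem_centralizer_iff] at this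
    exact (this b hb).symm
  by_cases hT : Subgroup.normalizer ((P : Subgroup G) : Set G) = ⊤
  · exfalso
    have hPn : (P : Subgroup G).Normal := Subgroup.normalizer_eq_top_iff.mp hT
    have hCn : (Subgroup.centralizer ((P : Subgroup G) : Set G)).Normal := inferInstance
    have hne : Subgroup.centralizer ((P : Subgroup G) : Set G) ≠ ⊤ := by
      intro e
      apply ha1
      rw [← Subgroup.mem_bot, ← h.center, Subgroup.mem_center_iff]
      intro g
      have : g ∈ Subgroup.centralizer ((P : Subgroup G) : Set G) := by rw [e]; trivial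
      rw [Subgroup.mem_centralizer_iff] at this
      exact (this a haP).symm
    have hCC := h.le_C _ hAP hne
    set Z : Subgroup G := Subgroup.centralizer ((P : Subgroup G) : Set G) ⊓
      Subgroup.centralizer ((Subgroup.centralizer ((P : Subgroup G) : Set G) : Subgroup G) : Set G) with hZ
    have hZn : Z.Normal := by
      rw [hZ]; infer_instance
    have hAZ : A ≤ Z := by
      intro b hb
      refine ⟨hAP hb, ?_⟩
      change b ∈ Subgroup.centralizer ((Subgroup.centralizer ((P : Subgroup G) : Set G) : Subgroup G) : Set G)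
      rw [Subgroup.mem_centralizer_iff]
      intro x hx
      have := hCC hx
      rw [Subgroup.mem_centralizer_iff] at this
      exact (this b hb).symm
    have hZs : Group.IsSolvable Z := by
      apply Group.isSolvable_of_comm
      rintro ⟨x, hx⟩ ⟨y, hy⟩
      apply Subtype.ext
      have h1 : x ∈ Subgroup.centralizer ((P : Subgroup G) : Set G) := (Subgroup.mem_inf.mp hx).1
      have h2 := (Subgroup.mem_inf.mp hy).2
      rw [Subgroup.mem_centralizer_iff] at h2
      exact h2 x h1
    apply h.ne
    rw [eq_bot_iff, ← h.center]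
    intro b hb
    rw [Subgroup.mem_center_iff]
    intro g
    have hs : Group.IsSolvable ↥(Z ⊔ Subgroup.zpowers g) := by
      apply solv_sup _ _ hZs
      · infer_instance
      · rw [Subgroup.normalizer_eq_top_iff.mpr hZn]; exact le_top
    exact (h.comm _ (hAZ.trans le_sup_left) hs b hb g
      (Subgroup.mem_sup_right (Subgroup.mem_zpowers g))).symm
  · exact h.le_C _ (hAP.trans (Subgroup.centralizer_le_normalizer _)) hT

theorem conj_eq {p : ℕ} [Fact p.Prime] {a : G} (ha : a ∈ A) (hap : orderOf a = p) {g : G}
    (hcomm : Commute a (g * a * g⁻¹)) : g * a * g⁻¹ = a := by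
  have ha1 : a ≠ 1 := by
    intro e
    rw [e, orderOf_one] at hap
    exact (Fact.out : p.Prime).one_lt.ne hap
  have hp1 : IsPGroup p (Subgroup.zpowers a) := by
    rw [IsPGroup.iff_card]
    exact ⟨1, by rw [Nat.card_zpowers, hap, pow_one]⟩
  have hp2 : IsPGroup p (Subgroup.zpowers (g * a * g⁻¹)) := by
    rw [IsPGroup.iff_card]
    refine ⟨1, ?_⟩
    rw [Nat.card_zpowers, pow_one]
    have : orderOf (g * a * g⁻¹) = orderOf a := by
      have := (MulAut.conj g).orderOf_eq a
      simpa using this
    rw [this, hap]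
  have hn : Subgroup.zpowers a ≤ Subgroup.normalizer ((Subgroup.zpowers (g * a * g⁻¹) : Subgroup G) : Set G) := by
    rw [Subgroup.zpowers_le, Subgroup.mem_normalizer_iff]
    have key : ∀ x ∈ Subgroup.zpowers (g * a * g⁻¹), Commute a x := by
      intro x hx
      obtain ⟨k, rfl⟩ := Subgroup.mem_zpowers_iff.mp hx
      exact hcomm.zpow_right k
    intro x
    constructor
    · intro hx
      rw [(key x hx).eq, mul_inv_cancel_right]; exact hx
    · intro hx
      have := key _ hx
      have h3 : a * x * a⁻¹ = x := by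
        have h4 : a * (a * x * a⁻¹) * a⁻¹ = a * x * a⁻¹ := by
          rw [this.eq]; group
        have h5 : a * x * a⁻¹ = a⁻¹ * (a * (a * x * a⁻¹) * a⁻¹) * a := by group
        rw [h5, h4]; group
      rwa [h3] at hx
  have hp3 : IsPGroup p ↥(Subgroup.zpowers a ⊔ Subgroup.zpowers (g * a * g⁻¹)) :=
    IsPGroup.to_sup_of_normal_right' hp1 hp2 hn
  obtain ⟨P, hP⟩ := hp3.exists_le_sylow
  have haP : a ∈ (P : Subgroup G) := hP (Subgroup.mem_sup_left (Subgroup.mem_zpowers a))
  have hgP : g * a * g⁻¹ ∈ (P : Subgroup G) := hP (Subgroup.mem_sup_right (Subgroup.mem_zpowers _))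
  -- the conjugate Sylow `g⁻¹ P g` contains `a`
  have hPC : (P : Subgroup G) ≤ Subgroup.centralizer (A : Set G) := h.pgroup_le ha ha1 _ P.2 haP
  have haQ : a ∈ ((g⁻¹ • P : Sylow p G) : Subgroup G) := by
    rw [Sylow.coe_subgroup_smul, Subgroup.mem_pointwise_smul_iff_inv_smul_mem]
    simpa [MulAut.smul_def] using hgP
  have hQC : ((g⁻¹ • P : Sylow p G) : Subgroup G) ≤ Subgroup.centralizer (A : Set G) :=
    h.pgroup_le ha ha1 _ (g⁻¹ • P).2 haQ
  obtain ⟨c, hc⟩ := MulAction.exists_smul_eq (Subgroup.centralizer (A : Set G))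
    ((g⁻¹ • P).subtype hQC) (P.subtype hPC)
  have hc2 : ((c : G) * g⁻¹) • P = P := by
    rw [mul_smul]
    ext x
    have h1 := congrArg (fun Q : Sylow p (Subgroup.centralizer (A : Set G)) =>
      (Q : Subgroup (Subgroup.centralizer (A : Set G))).map (Subgroup.centralizer (A : Set G)).subtype) hc
    rw [Sylow.coe_subgroup_smul] at h1
    have h2 : ((P.subtype hPC : Sylow p _) : Subgroup _).map (Subgroup.centralizer (A : Set G)).subtype = (P : Subgroup G) := by
      rw [Sylow.coe_subtype, Subgroup.map_subgroupOf_eq_of_le hPC]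
    have h3 : (((g⁻¹ • P).subtype hQC : Sylow p _) : Subgroup _).map (Subgroup.centralizer (A : Set G)).subtype = ((g⁻¹ • P : Sylow p G) : Subgroup G) := by
      rw [Sylow.coe_subtype, Subgroup.map_subgroupOf_eq_of_le hQC]
    have h4 : (MulAut.conj c • (((g⁻¹ • P).subtype hQC : Sylow p _) : Subgroup _)).map (Subgroup.centralizer (A : Set G)).subtype
        = MulAut.conj (c : G) • ((g⁻¹ • P : Sylow p G) : Subgroup G) := by
      rw [← h3]
      ext y
      constructor
      · rintro ⟨z, hz, rfl⟩
        obtain ⟨w, hw, rfl⟩ := hz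
        exact ⟨(w : G), ⟨w, hw, rfl⟩, by simp⟩
      · rintro ⟨z, ⟨w, hw, rfl⟩, rfl⟩
        exact ⟨MulAut.conj c w, ⟨w, hw, rfl⟩, by simp⟩
    rw [h4, h2] at h1
    change x ∈ (((c : G) • (g⁻¹ • P) : Sylow p G) : Subgroup G) ↔ x ∈ (P : Subgroup G)
    rw [Sylow.coe_subgroup_smul, h1]
  have hcg : (c : G) * g⁻¹ ∈ Subgroup.normalizer ((P : Subgroup G) : Set G) := by
    rwa [Sylow.smul_eq_iff_mem_normalizer] at hc2
  have hcg2 := h.norm_le ha ha1 P haP hcg
  have hg : g ∈ Subgroup.centralizer (A : Set G) := by
    have h1 := Subgroup.mul_mem _ (Subgroup.inv_mem _ hcg2) c.2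
    have h2 : ((c : G) * g⁻¹)⁻¹ * c = g := by group
    rwa [h2] at h1
  rw [Subgroup.mem_centralizer_iff] at hg
  rw [← hg a ha]; group

theorem sup_eq_top {g : G} (hg : g ∉ Subgroup.centralizer (A : Set G)) (H : Subgroup G)
    (hAH : A ≤ H) (hgH : ∀ a ∈ A, g * a * g⁻¹ ∈ H) : H = ⊤ := by
  by_contra hH
  have hHC := h.le_C H hAH hH
  -- an element of prime order
  have hnt : Nontrivial A := (Subgroup.nontrivial_iff_ne_bot A).mpr h.ne
  obtain ⟨p, hp, hpd⟩ := Nat.exists_prime_and_dvd (Finite.one_lt_card (α := A)).ne'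
  have := Fact.mk hp
  obtain ⟨⟨a, ha⟩, hao⟩ := exists_prime_orderOf_dvd_card' (G := A) p hpd
  have hao' : orderOf a = p := by rw [← hao]; exact (Subgroup.orderOf_mk a ha).symm
  have h1 := hHC (hgH a ha)
  rw [Subgroup.mem_centralizer_iff] at h1
  have h2 : Commute a (g * a * g⁻¹) := h1 a ha
  have h3 := h.conj_eq ha hao' h2
  have ha1 : a ≠ 1 := by
    intro e
    rw [e, orderOf_one] at hao'
    exact hp.one_lt.ne hao'
  apply hg
  rw [← h.cent_eq ha ha1, Subgroup.mem_centralizer_iff]
  intro y hy
  rw [Set.mem_singleton_iff] at hy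
  subst hy
  rw [mul_inv_eq_iff_eq_mul] at h3
  exact h3.symm

theorem frob : IsFrobeniusComplement (Subgroup.centralizer (A : Set G)) := by
  refine ⟨?_, h.C_ne_top, ?_⟩
  · intro e
    apply h.ne
    rw [eq_bot_iff, ← e]
    exact h.A_le_C
  · intro g hg
    rw [eq_bot_iff, ← h.center]
    intro x hx
    obtain ⟨hx1, hx2⟩ := Subgroup.mem_inf.mp hx
    rw [Subgroup.mem_pointwise_smul_iff_inv_smul_mem] at hx2
    rw [Subgroup.mem_centralizer_iff] at hx1
    have hx3 : g⁻¹ * x * g ∈ Subgroup.centralizer (A : Set G) := by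
      simpa [MulAut.smul_def] using hx2
    rw [Subgroup.mem_centralizer_iff] at hx3
    have h1 : Subgroup.centralizer ({x} : Set G) = ⊤ := by
      apply h.sup_eq_top hg
      · intro a ha
        rw [Subgroup.mem_centralizer_iff]
        intro y hy
        rw [Set.mem_singleton_iff] at hy
        subst hy
        exact (hx1 a ha).symm
      · intro a ha
        rw [Subgroup.mem_centralizer_iff]
        intro y hy
        rw [Set.mem_singleton_iff] at hy
        subst hy
        have h2 := hx3 a ha
        calc y * (g * a * g⁻¹) = g * ((g⁻¹ * y * g) * a) * g⁻¹ := by group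
          _ = g * (a * (g⁻¹ * y * g)) * g⁻¹ := by rw [← h2]
          _ = g * a * g⁻¹ * y := by group
    rw [Subgroup.mem_center_iff]
    intro z
    have : z ∈ Subgroup.centralizer ({x} : Set G) := by rw [h1]; trivial
    rw [Subgroup.mem_centralizer_iff] at this
    exact (this x rfl).symm

theorem false : False := by
  obtain ⟨N, hNk, hNn, hNc⟩ := Lib.FrobThm.exists_kernel h.frob
  obtain ⟨⟨a, ha⟩, ha1'⟩ := Subgroup.ne_bot_iff_exists_ne_one.mp h.ne
  have ha1 : a ≠ 1 := fun e => ha1' (Subtype.ext e)
  -- the automorphism of `N`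
  let φ : N ≃* N := MulAut.conjNormal a
  have hφ : MonoidHom.FixedPointFree (φ : N →* N) := by
    intro n hn
    have h1 : a * (n : G) * a⁻¹ = n := by
      have := congrArg Subtype.val hn
      simpa [φ, MulAut.conjNormal_apply] using this
    have h2 : (n : G) ∈ Subgroup.centralizer (A : Set G) := by
      rw [← h.cent_eq ha ha1, Subgroup.mem_centralizer_iff]
      intro y hy
      rw [Set.mem_singleton_iff] at hy
      subst hy
      exact mul_inv_eq_iff_eq_mul.mp h1
    have h3 : (n : G) ∈ N ⊓ Subgroup.centralizer (A : Set G) := ⟨n.2, h2⟩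
    rw [hNc.disjoint.eq_bot, Subgroup.mem_bot] at h3
    exact Subtype.ext h3
  have hNne : N ≠ ⊥ := by
    intro e
    apply h.C_ne_top
    have := hNc.sup_eq_top
    rwa [e, bot_sup_eq] at this
  have hnt : Nontrivial N := (Subgroup.nontrivial_iff_ne_bot N).mpr hNne
  obtain ⟨r, hr, hrd⟩ := Nat.exists_prime_and_dvd (Finite.one_lt_card (α := N)).ne'
  have := Fact.mk hr
  obtain ⟨P, hP⟩ := Lib.FPF.exists_invariant_sylow hφ r
  set R : Subgroup G := (P : Subgroup N).map N.subtype with hR
  have hAR : A ≤ Subgroup.normalizer (R : Set G) := by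
    intro b hb
    let ψ : N ≃* N := MulAut.conjNormal b
    have hcomm : ∀ n : N, φ (ψ n) = ψ (φ n) := by
      intro n
      apply Subtype.ext
      have hab : a * b = b * a := h.comm A le_rfl h.solv a ha b hb
      simp only [φ, ψ, MulAut.conjNormal_apply]
      calc a * (b * (n : G) * b⁻¹) * a⁻¹ = (a * b) * n * (a * b)⁻¹ := by group
        _ = (b * a) * n * (b * a)⁻¹ := by rw [hab]
        _ = b * (a * (n : G) * a⁻¹) * b⁻¹ := by group
    -- ψ P is another invariant Sylow
    have hcard : Nat.card ((P : Subgroup N).map (ψ : N →* N)) = r ^ (Nat.card N).factorization r := by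
      rw [← P.card_eq_multiplicity]
      exact Nat.card_congr ((P : Subgroup N).equivMapOfInjective (ψ : N →* N) ψ.injective).toEquiv.symm
    let Q : Sylow r N := Sylow.ofCard _ hcard
    have hQ : (Q : Subgroup N) = (P : Subgroup N).map (ψ : N →* N) := rfl
    have hQi : (Q : Subgroup N).map (φ : N →* N) = Q := by
      rw [hQ, Subgroup.map_map]
      have e1 : ((φ : N →* N).comp (ψ : N →* N)) = ((ψ : N →* N).comp (φ : N →* N)) := by
        ext n
        exact congrArg Subtype.val (hcomm n)
      rw [e1, ← Subgroup.map_map, hP]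
    have hPQ := Lib.FPF.invariant_sylow_unique hφ hP hQi
    have hPψ : (P : Subgroup N).map (ψ : N →* N) = P := by
      rw [← hQ, ← hPQ]
    have hfor : ∀ x ∈ R, b * x * b⁻¹ ∈ R := by
      rintro x ⟨n, hn, rfl⟩
      refine ⟨ψ n, ?_, ?_⟩
      · have : ψ n ∈ (P : Subgroup N).map (ψ : N →* N) := ⟨n, hn, rfl⟩
        rw [hPψ] at this
        exact this
      · simp [ψ, MulAut.conjNormal_apply]
    have hle : R.map (MulAut.conj b).toMonoidHom ≤ R := by
      rintro _ ⟨x, hx, rfl⟩
      exact hfor x hx
    have heq : R.map (MulAut.conj b).toMonoidHom = R := by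
      apply Subgroup.eq_of_le_of_card_ge hle
      exact (Nat.card_congr (R.equivMapOfInjective (MulAut.conj b).toMonoidHom (MulAut.conj b).injective).toEquiv).le
    rw [Subgroup.mem_normalizer_iff]
    intro x
    constructor
    · exact hfor x
    · intro hx
      rw [← heq] at hx
      obtain ⟨y, hy, hyx⟩ := hx
      have : y = x := by
        have h5 : b * y * b⁻¹ = b * x * b⁻¹ := hyx
        simpa using h5
      exact this ▸ hy
  have hRp : IsPGroup r R := P.2.map N.subtype
  have hRs : Group.IsSolvable R := by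
    have := hRp.isNilpotent
    infer_instance
  have hS := solv_sup R A hRs h.solv hAR
  have hRC : R ≤ Subgroup.centralizer (A : Set G) :=
    le_trans le_sup_left (h.le_C' (R ⊔ A) le_sup_right hS)
  have hRN : R ≤ N := by
    rintro _ ⟨n, _, rfl⟩
    exact n.2
  have hRb : R = ⊥ := by
    rw [eq_bot_iff, ← hNc.disjoint.eq_bot]
    exact le_inf hRN hRC
  have hPb : (P : Subgroup N) = ⊥ := by
    rw [hR, Subgroup.map_eq_bot_iff_of_injective _ N.subtype_injective] at hRb
    exact hRb
  have : r ∣ Nat.card (P : Subgroup N) := P.dvd_card_of_dvd_card hrd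
  rw [hPb, Subgroup.card_bot] at this
  exact hr.one_lt.ne' (Nat.dvd_one.mp this)

end Hyp

end Main

theorem main (n : ℕ) : ∀ (G : Type u) [Group G] [Finite G], Nat.card G = n →
    ∀ (A : Subgroup G) (_ : Group.IsSolvable A)
    (_ : ∀ S : Subgroup G, A ≤ S → Group.IsSolvable S → ∀ a ∈ A, ∀ s ∈ S, a * s = s * a),
    A ≤ Subgroup.center G := by
  induction n using Nat.strong_induction_on with
  | _ n ih =>
    intro G _ _ hn A hA hc
    have hsub : ∀ H : Subgroup G, A ≤ H → H ≠ ⊤ → ∀ a ∈ A, ∀ h ∈ H, a * h = h * a := by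
      intro H hAH hH a ha x hx
      have hlt : Nat.card H < n := by
        rw [← hn]
        exact lt_of_le_of_ne (Subgroup.card_le_card_group H) (fun e => hH (Subgroup.eq_top_of_card_eq H e))
      have h1 := ih (Nat.card H) hlt H rfl (A.subgroupOf H)
        (Group.isSolvable_of_isSolvable_injective
          (f := (Subgroup.subgroupOfEquivOfLe hAH).toMonoidHom)
          (Subgroup.subgroupOfEquivOfLe hAH).injective)
        (by
          intro S hS hSs b hb s hs
          have hs' : Group.IsSolvable (S.map H.subtype) :=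
            Group.isSolvable_of_surjective (f := (S.equivMapOfInjective H.subtype H.subtype_injective).toMonoidHom)
              (S.equivMapOfInjective H.subtype H.subtype_injective).surjective
          have hle : A ≤ S.map H.subtype := by
            intro y hy
            exact ⟨⟨y, hAH hy⟩, hS (by rw [Subgroup.mem_subgroupOf]; exact hy), rfl⟩
          have := hc _ hle hs' b (by rw [Subgroup.mem_subgroupOf] at hb; exact hb) s ⟨s, hs, rfl⟩
          exact Subtype.ext this)
      have h2 : (⟨a, hAH ha⟩ : H) ∈ Subgroup.center H := h1 (by rw [Subgroup.mem_subgroupOf]; exact ha)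
      rw [Subgroup.mem_center_iff] at h2
      exact (congrArg Subtype.val (h2 ⟨x, hx⟩)).symm
    by_cases hA1 : A = ⊥
    · rw [hA1]; exact bot_le
    by_cases hZ : Subgroup.center G = ⊥
    · exact (Hyp.false (A := A) ⟨hA, hc, hsub, hZ, hA1⟩).elim
    · -- pass to the quotient by the centre
      have hlt : Nat.card (G ⧸ Subgroup.center G) < n := by
        rw [← hn]
        have h1 := Subgroup.card_eq_card_quotient_mul_card_subgroup (Subgroup.center G)
        have h2 : 1 < Nat.card (Subgroup.center G) := by
          rw [Subgroup.one_lt_card_iff_ne_bot]; exact hZ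
        rw [h1]
        have h3 : 0 < Nat.card (G ⧸ Subgroup.center G) := Nat.card_pos
        nlinarith
      have h1 := ih _ hlt (G ⧸ Subgroup.center G) rfl (A.map (QuotientGroup.mk' (Subgroup.center G)))
        (Group.isSolvable_of_surjective (f := (QuotientGroup.mk' (Subgroup.center G)).subgroupMap A)
          ((QuotientGroup.mk' (Subgroup.center G)).subgroupMap_surjective A))
        (by
          rintro S hS hSs _ ⟨a, ha, rfl⟩ s hs
          obtain ⟨s, rfl⟩ := QuotientGroup.mk'_surjective _ s
          have hle : A ≤ S.comap (QuotientGroup.mk' (Subgroup.center G)) := by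
            intro y hy
            exact hS ⟨y, hy, rfl⟩
          have hs' : Group.IsSolvable (S.comap (QuotientGroup.mk' (Subgroup.center G))) := by
            let f : ↥(S.comap (QuotientGroup.mk' (Subgroup.center G))) →* S :=
              (QuotientGroup.mk' (Subgroup.center G)).subgroupComap S
            have hk : f.ker ≤ (Subgroup.inclusion (show Subgroup.center G ≤ S.comap (QuotientGroup.mk' (Subgroup.center G)) from by
                intro z hz
                rw [Subgroup.mem_comap]
                have : QuotientGroup.mk' (Subgroup.center G) z = 1 := by simpa using hz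
                rw [this]; exact S.one_mem)).range := by
              intro x hx
              have hx1 : QuotientGroup.mk' (Subgroup.center G) (x : G) = 1 := by
                have := congrArg Subtype.val (MonoidHom.mem_ker.mp hx)
                exact this
              have hx2 : (x : G) ∈ Subgroup.center G := by simpa using hx1
              exact ⟨⟨x, hx2⟩, rfl⟩
            have hzs : Group.IsSolvable (Subgroup.center G) := Group.isSolvable_of_comm (fun a b => Subtype.ext ((Subgroup.mem_center_iff.mp b.2 a)))
            exact Group.isSolvable_of_ker_le_range _ f hk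
          have := hc _ hle hs' a ha s hs
          rw [← map_mul, ← map_mul, this])
      -- so `[A, G] ≤ Z(G)` and `⟨A, g⟩` is solvable
      intro a ha
      rw [Subgroup.mem_center_iff]
      intro g
      set T : Subgroup (G ⧸ Subgroup.center G) :=
        (A.map (QuotientGroup.mk' (Subgroup.center G))) ⊔ Subgroup.zpowers (QuotientGroup.mk' (Subgroup.center G) g) with hT
      have hTs : Group.IsSolvable T := by
        apply solv_sup
        · exact (Group.isSolvable_of_surjective (f := (QuotientGroup.mk' (Subgroup.center G)).subgroupMap A)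
            ((QuotientGroup.mk' (Subgroup.center G)).subgroupMap_surjective A))
        · infer_instance
        · intro y _
          rw [Subgroup.mem_normalizer_iff]
          intro x
          constructor
          · intro hx
            have := h1 hx
            rw [Subgroup.mem_center_iff] at this
            rw [this y, mul_inv_cancel_right]; exact hx
          · intro hx
            have h4 := h1 hx
            rw [Subgroup.mem_center_iff] at h4
            have h5 : y * x * y⁻¹ = x := by
              have h6 := h4 y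
              have h7 : y * (y * x * y⁻¹) = (y * x * y⁻¹) * y := h6
              have h8 : y * x = x * y := by
                have : y * (y * x * y⁻¹) = y * x := by rw [h7]; group
                have h9 := mul_left_cancel this
                rw [mul_inv_eq_iff_eq_mul] at h9
                exact h9
              rw [h8, mul_inv_cancel_right]
            rwa [h5] at hx
      have hle : A ≤ T.comap (QuotientGroup.mk' (Subgroup.center G)) := by
        intro y hy
        exact Subgroup.mem_sup_left ⟨y, hy, rfl⟩
      have hs' : Group.IsSolvable (T.comap (QuotientGroup.mk' (Subgroup.center G))) := by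
        let f : ↥(T.comap (QuotientGroup.mk' (Subgroup.center G))) →* T :=
          (QuotientGroup.mk' (Subgroup.center G)).subgroupComap T
        have hk : f.ker ≤ (Subgroup.inclusion (show Subgroup.center G ≤ T.comap (QuotientGroup.mk' (Subgroup.center G)) from by
            intro z hz
            rw [Subgroup.mem_comap]
            have : QuotientGroup.mk' (Subgroup.center G) z = 1 := by simpa using hz
            rw [this]; exact T.one_mem)).range := by
          intro x hx
          have hx1 : QuotientGroup.mk' (Subgroup.center G) (x : G) = 1 := by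
            have := congrArg Subtype.val (MonoidHom.mem_ker.mp hx)
            exact this
          have hx2 : (x : G) ∈ Subgroup.center G := by simpa using hx1
          exact ⟨⟨x, hx2⟩, rfl⟩
        have hzs : Group.IsSolvable (Subgroup.center G) := Group.isSolvable_of_comm (fun a b => Subtype.ext ((Subgroup.mem_center_iff.mp b.2 a)))
        exact Group.isSolvable_of_ker_le_range _ f hk
      exact (hc _ hle hs' a ha g (Subgroup.mem_sup_right (Subgroup.mem_zpowers _))).symm

/-- Let A be a solvable subgroup of a finite group G such that A lies in the centre of every solvable subgroup of G containing A. Then A lies in the centre of G. -/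
theorem result {G : Type*} [Group G] [Finite G]
    (A : Subgroup G) (hA : Group.IsSolvable A)
    (hc : ∀ S : Subgroup G, A ≤ S → Group.IsSolvable S → ∀ a ∈ A, ∀ s ∈ S, a * s = s * a) : A ≤ Subgroup.center G := 
  main _ G rfl A hA hc

end Cfsg.Agent.S4097
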