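import Cfsg.Statements.S4104
import Cfsg.Agent.Lib.HPcG
-- import your own Cfsg.Agent.* helpers here

set_option autoImplicit false
open Cfsg

namespace Cfsg.Agent.S4104

/-- Let G be a finite group, π a set of primes with least member p, m the π-part of the order of G and k the number of conjugacy classes of G consisting of π-elements (elements whose order is divisible only by primes in π). If k > m/p, then G has a nilpotent Hall π-subgroup (a nilpotent subgroup of order m) whose derived subgroup has order at most p. -/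
theorem result {G : Type*} [Group G] [Finite G]
    (π : Set ℕ) (hπ : ∀ q ∈ π, q.Prime) (p : ℕ) (hp : p ∈ π) (hmin : ∀ q ∈ π, p ≤ q)
    (m : ℕ) (hm : m ∣ Nat.card G) (hmπ : ∀ q : ℕ, q.Prime → q ∣ m → q ∈ π)
    (hm' : ∀ q ∈ π, ¬ q ∣ Nat.card G / m)
    (k : ℕ) (hk : k = Nat.card {C : ConjClasses G // ∀ q : ℕ, q.Prime → (∃ g : G, ConjClasses.mk g = C ∧ q ∣ orderOf g) → q ∈ π})
    (hmany : m < p * k) :
    ∃ H : Subgroup G, Nat.card H = m ∧ Group.IsNilpotent H ∧ Nat.card (commutator H) ≤ p := by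
  classical
  obtain ⟨σ, hσ, hmσ, hkσ⟩ := Lib.HPc.data π hπ m hm hmπ hm' k hk
  have hσp : ∀ q ∈ σ, q.Prime := fun q hq => hπ q (hσ q hq)
  obtain ⟨H, hH, hnil⟩ := Lib.HPc.main σ.card σ rfl hσp p (fun q hq => hmin q (hσ q hq)) G (by rw [← hmσ, ← hkσ]; exact hmany)
  refine ⟨H, by rw [hH, hmσ], hnil, ?_⟩
  have h1 := Lib.HPc.kk_le_classes hσp hnil hH
  have hp2 := (hπ p hp).two_le
  have h2 := Lib.HPc.char_bound (H := H) (p := p) (by omega) (by
    intro q hq hd
    rw [hH] at hd
    exact hmin q (hσ q (Lib.HPc.mem_of_dvd_pp hσp hq hd)))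
  set c := Nat.card (commutator H) with hc
  have hHm : Nat.card H = m := by rw [hH, hmσ]
  have h3 : Nat.card H < p * Nat.card (ConjClasses H) := by
    rw [hHm]
    exact hmany.trans_le (Nat.mul_le_mul_left _ (by rw [hkσ]; exact h1))
  have hc0 : 0 < c := Nat.card_pos
  have hH0 : 0 < Nat.card H := Nat.card_pos
  set N := Nat.card H with hN
  set K := Nat.card (ConjClasses H) with hK
  by_contra hcon
  push Not at hcon
  obtain ⟨t, rfl⟩ : ∃ t, p = t + 2 := ⟨p - 2, by omega⟩
  have h4 : (t + 2) ^ 2 - 1 = t ^ 2 + 4 * t + 3 := by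
    have : (t + 2) ^ 2 = t ^ 2 + 4 * t + 3 + 1 := by ring
    omega
  rw [h4] at h2
  have h5 : (c * (t + 2)) * N < (c * (t + 2)) * ((t + 2) * K) := Nat.mul_lt_mul_of_pos_left h3 (Nat.mul_pos hc0 (by omega))
  have h6 : (c * (t + 2)) * N < (c + (t ^ 2 + 4 * t + 3)) * N := by
    calc _ < _ := h5
      _ = c * ((t + 2) ^ 2 * K) := by ring
      _ ≤ _ := h2
  have h7 := Nat.lt_of_mul_lt_mul_right h6
  have h8 : (t + 1) * (t + 3) ≤ (t + 1) * c := Nat.mul_le_mul_left _ (by omega)
  nlinarith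


end Cfsg.Agent.S4104
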