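import Cfsg.Statements.S4105
import Cfsg.Agent.Lib.HPcG
-- import your own Cfsg.Agent.* helpers here

set_option autoImplicit false
open Cfsg

namespace Cfsg.Agent.S4105

/-- Let G be a finite group, π a set of primes with least member p, m the π-part of the order of G and k the number of conjugacy classes of G consisting of π-elements. If k > m·(p² + p − 1)/p³, then G has an abelian Hall π-subgroup (an abelian subgroup of order m). -/
theorem result {G : Type*} [Group G] [Finite G]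
    (π : Set ℕ) (hπ : ∀ q ∈ π, q.Prime) (p : ℕ) (hp : p ∈ π) (hmin : ∀ q ∈ π, p ≤ q)
    (m : ℕ) (hm : m ∣ Nat.card G) (hmπ : ∀ q : ℕ, q.Prime → q ∣ m → q ∈ π)
    (hm' : ∀ q ∈ π, ¬ q ∣ Nat.card G / m)
    (k : ℕ) (hk : k = Nat.card {C : ConjClasses G // ∀ q : ℕ, q.Prime → (∃ g : G, ConjClasses.mk g = C ∧ q ∣ orderOf g) → q ∈ π})
    (hmany : m * (p ^ 2 + p - 1) < p ^ 3 * k) :
    ∃ H : Subgroup G, Nat.card H = m ∧ IsMulCommutative H := by
  classical
  obtain ⟨σ, hσ, hmσ, hkσ⟩ := Lib.HPc.data π hπ m hm hmπ hm' k hk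
  have hσp : ∀ q ∈ σ, q.Prime := fun q hq => hπ q (hσ q hq)
  have hp2 := (hπ p hp).two_le
  obtain ⟨t, rfl⟩ : ∃ t, p = t + 2 := ⟨p - 2, by omega⟩
  have e1 : (t + 2) ^ 2 + (t + 2) - 1 = t ^ 2 + 5 * t + 5 := by
    have : (t + 2) ^ 2 + (t + 2) = t ^ 2 + 5 * t + 5 + 1 := by ring
    omega
  rw [e1] at hmany
  have hmany' : m < (t + 2) * k := by
    by_contra hcon
    push Not at hcon
    have h1 : (t + 2) ^ 2 * ((t + 2) * k) ≤ (t + 2) ^ 2 * m := Nat.mul_le_mul_left _ hcon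
    nlinarith
  obtain ⟨H, hH, hnil⟩ := Lib.HPc.main σ.card σ rfl hσp (t + 2) (fun q hq => hmin q (hσ q hq)) G (by rw [← hmσ, ← hkσ]; exact hmany')
  have hHm : Nat.card H = m := by rw [hH, hmσ]
  refine ⟨H, hHm, ?_⟩
  have h1 := Lib.HPc.kk_le_classes hσp hnil hH
  have hprime : ∀ q : ℕ, q.Prime → q ∣ Nat.card H → t + 2 ≤ q := by
    intro q hq hd
    rw [hH] at hd
    exact hmin q (hσ q (Lib.HPc.mem_of_dvd_pp hσp hq hd))
  have h2 := Lib.HPc.char_bound (H := H) (p := t + 2) (by omega) hprime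
  have hc1 : Nat.card (commutator H) = 1 := by
    by_contra hne
    obtain ⟨q, hq, hqd⟩ := Nat.exists_prime_and_dvd hne
    have h5 := hprime q hq (hqd.trans (Subgroup.card_subgroup_dvd_card _))
    have h6 := Nat.le_of_dvd Nat.card_pos hqd
    set c := Nat.card (commutator H) with hc
    have hH0 : 0 < Nat.card H := Nat.card_pos
    have h3 : Nat.card H * (t ^ 2 + 5 * t + 5) < (t + 2) ^ 3 * Nat.card (ConjClasses H) := by
      rw [hHm]
      exact hmany.trans_le (Nat.mul_le_mul_left _ (by rw [hkσ]; exact h1))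
    set N := Nat.card H with hN
    set K := Nat.card (ConjClasses H) with hK
    have h4 : (t + 2) ^ 2 - 1 = t ^ 2 + 4 * t + 3 := by
      have : (t + 2) ^ 2 = t ^ 2 + 4 * t + 3 + 1 := by ring
      omega
    rw [h4] at h2
    have hc0 : 0 < c := by omega
    have h7 : c * (N * (t ^ 2 + 5 * t + 5)) < c * ((t + 2) ^ 3 * K) := Nat.mul_lt_mul_of_pos_left h3 hc0
    have h8 : (c * (t ^ 2 + 5 * t + 5)) * N < ((t + 2) * (c + (t ^ 2 + 4 * t + 3))) * N := by
      calc _ = c * (N * (t ^ 2 + 5 * t + 5)) := by ring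
        _ < _ := h7
        _ = (t + 2) * (c * ((t + 2) ^ 2 * K)) := by ring
        _ ≤ (t + 2) * ((c + (t ^ 2 + 4 * t + 3)) * N) := Nat.mul_le_mul_left _ h2
        _ = _ := by ring
    have h9 := Nat.lt_of_mul_lt_mul_right h8
    have h10 : t + 2 ≤ c := h5.trans h6
    have h11 : (t ^ 2 + 4 * t + 3) * (t + 2) ≤ (t ^ 2 + 4 * t + 3) * c := Nat.mul_le_mul_left _ h10
    nlinarith
  have hbot : commutator H = ⊥ := Subgroup.eq_bot_of_card_eq _ hc1
  refine ⟨⟨fun a b => ?_⟩⟩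
  have h3 := Subgroup.commutator_mem_commutator (Subgroup.mem_top a) (Subgroup.mem_top b)
  rw [← commutator_def, hbot, Subgroup.mem_bot, commutatorElement_eq_one_iff_mul_comm] at h3
  exact h3


end Cfsg.Agent.S4105
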