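import Cfsg.Statements.S4106
-- import your own Cfsg.Agent.* helpers here

set_option autoImplicit false
open Cfsg

namespace Cfsg.Agent.S4106

/-- conjugacy classes all of whose elements only involve primes in `s` -/
abbrev Cl (s : Set ℕ) (G : Type*) [Group G] : Type _ :=
  {C : ConjClasses G // ∀ q : ℕ, q.Prime → (∃ g : G, ConjClasses.mk g = C ∧ q ∣ orderOf g) → q ∈ s}

theorem orderOf_of_isConj {G : Type*} [Group G] {a b : G} (h : IsConj a b) : orderOf a = orderOf b := by
  obtain ⟨c, rfl⟩ := isConj_iff.mp h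
  exact (orderOf_injective (MulAut.conj c).toMonoidHom (MulAut.conj c).injective a).symm

theorem main (s : Finset ℕ) (hs : ∀ q ∈ s, q.Prime) :
    ∀ (G : Type*) [Group G] [Finite G], Nat.card (Cl (s : Set ℕ) G) ≤ ∏ q ∈ s, q ^ (Nat.card G).factorization q := by
  classical
  induction s using Finset.induction_on with
  | empty =>
    intro G _ _
    rw [Finset.prod_empty]
    have : Subsingleton (Cl ((∅ : Finset ℕ) : Set ℕ) G) := by
      have key : ∀ C : Cl ((∅ : Finset ℕ) : Set ℕ) G, C.1 = ConjClasses.mk 1 := by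
        rintro ⟨C, hC⟩
        obtain ⟨g, rfl⟩ := ConjClasses.mk_surjective C
        have hg : orderOf g = 1 := by
          by_contra hne
          obtain ⟨q, hq, hqd⟩ := Nat.exists_prime_and_dvd hne
          simpa using hC q hq ⟨g, rfl, hqd⟩
        rw [orderOf_eq_one_iff] at hg
        exact congrArg ConjClasses.mk hg
      exact ⟨fun A B => Subtype.ext ((key A).trans (key B).symm)⟩
    exact Finite.card_le_one_iff_subsingleton.mpr this
  | insert p s hps ih =>
    intro G _ _
    have ih' := ih (fun q hq => hs q (Finset.mem_insert_of_mem hq))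
    have hp : p.Prime := hs p (Finset.mem_insert_self _ _)
    have : Fact p.Prime := ⟨hp⟩
    rw [Finset.prod_insert hps]
    obtain ⟨P⟩ : Nonempty (Sylow p G) := inferInstance
    rw [← Sylow.card_eq_multiplicity P]
    have : Fintype P := Fintype.ofFinite P
    let ψ : (Σ x : P, Cl (s : Set ℕ) (Subgroup.centralizer ({(x : G)} : Set G))) → ConjClasses G :=
      fun c => ConjClasses.mk ((c.1 : G) * ((Quotient.out c.2.1 : Subgroup.centralizer ({(c.1 : G)} : Set G)) : G))
    have hsub : ∀ D : Cl ((insert p s : Finset ℕ) : Set ℕ) G, D.1 ∈ Set.range ψ := by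
      rintro ⟨D, hD⟩
      obtain ⟨g₀, rfl⟩ := ConjClasses.mk_surjective D
      have hpos : 0 < orderOf g₀ := orderOf_pos g₀
      obtain ⟨a, b, hpb, hab⟩ := Nat.exists_eq_pow_mul_and_not_dvd hpos.ne' p hp.ne_one
      have hcop : Nat.Coprime (p ^ a) b := Nat.Coprime.pow_left _ ((Nat.Prime.coprime_iff_not_dvd hp).mpr hpb)
      -- the decomposition
      set u := Nat.gcdA (p ^ a) b with hu
      set v := Nat.gcdB (p ^ a) b with hv
      have hb : ((p ^ a : ℕ) : ℤ) * u + (b : ℤ) * v = 1 := by
        rw [hu, hv, ← Nat.gcd_eq_gcd_ab, hcop.gcd_eq_one]; rfl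
      -- p-part of g₀ is g₀^(b v)
      have hx₀ : IsPGroup p (Subgroup.zpowers (g₀ ^ ((b : ℤ) * v))) := by
        rw [IsPGroup.iff_card]
        have : orderOf (g₀ ^ ((b : ℤ) * v)) ∣ p ^ a := by
          rw [orderOf_dvd_iff_pow_eq_one, ← zpow_natCast, ← zpow_mul]
          have e : (b : ℤ) * v * ((p ^ a : ℕ) : ℤ) = ((orderOf g₀ : ℕ) : ℤ) * v := by
            rw [hab]; push_cast; ring
          rw [e, zpow_mul, zpow_natCast, pow_orderOf_eq_one, one_zpow]
        obtain ⟨k, -, hk⟩ := (Nat.dvd_prime_pow hp).mp this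
        exact ⟨k, by rw [Nat.card_zpowers, hk]⟩
      obtain ⟨R, hR⟩ := hx₀.exists_le_sylow
      obtain ⟨c, hc⟩ := MulAction.exists_smul_eq G P R
      have hxR : g₀ ^ ((b : ℤ) * v) ∈ (R : Subgroup G) := hR (Subgroup.mem_zpowers _)
      rw [← hc, Sylow.coe_subgroup_smul, Subgroup.mem_pointwise_smul_iff_inv_smul_mem, ← map_inv,
        MulAut.smul_def] at hxR
      -- replace g₀ by its conjugate
      set g := MulAut.conj c⁻¹ g₀ with hg
      have hgg : IsConj g₀ g := by
        rw [isConj_iff]
        exact ⟨c⁻¹, rfl⟩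
      have hog : orderOf g = orderOf g₀ := (orderOf_of_isConj hgg).symm
      rw [map_zpow, ← hg] at hxR
      set x := g ^ ((b : ℤ) * v) with hx
      set y := g ^ (((p ^ a : ℕ) : ℤ) * u) with hy
      have hxy : x * y = g := by
        rw [hx, hy, ← zpow_add, add_comm, hb, zpow_one]
      have hyc : y ∈ Subgroup.centralizer ({x} : Set G) := by
        rw [Subgroup.mem_centralizer_singleton_iff, hx, hy, ← zpow_add, ← zpow_add, add_comm]
      have hyo : orderOf y ∣ b := by
        rw [orderOf_dvd_iff_pow_eq_one, hy, ← zpow_natCast, ← zpow_mul]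
        have e : ((p ^ a : ℕ) : ℤ) * u * (b : ℤ) = ((orderOf g : ℕ) : ℤ) * u := by
          rw [hog, hab]; push_cast; ring
        rw [e, zpow_mul, zpow_natCast, pow_orderOf_eq_one, one_zpow]
      have hyb : b ∣ orderOf g := by rw [hog, hab]; exact dvd_mul_left _ _
      have hys : ∀ q : ℕ, q.Prime → q ∣ orderOf y → q ∈ s := by
        intro q hq hqy
        have h1 : q ∣ orderOf g₀ := by
          rw [← hog]; exact (hqy.trans hyo).trans hyb
        have h2 := hD q hq ⟨g₀, rfl, h1⟩
        rw [Finset.mem_coe, Finset.mem_insert] at h2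
        rcases h2 with h2 | h2
        · exfalso
          apply hpb
          rw [← h2]; exact hqy.trans hyo
        · exact h2
      refine ⟨⟨⟨x, hxR⟩, ⟨ConjClasses.mk (⟨y, hyc⟩ : Subgroup.centralizer ({x} : Set G)), ?_⟩⟩, ?_⟩
      · intro q hq
        rintro ⟨z, hz, hqz⟩
        rw [ConjClasses.mk_eq_mk_iff_isConj] at hz
        rw [orderOf_of_isConj hz, Subgroup.orderOf_mk] at hqz
        exact hys q hq hqz
      · show ConjClasses.mk (x * ((Quotient.out (ConjClasses.mk (⟨y, hyc⟩ : Subgroup.centralizer ({x} : Set G))) : Subgroup.centralizer ({x} : Set G)) : G)) = ConjClasses.mk g₀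
        set w := (Quotient.out (ConjClasses.mk (⟨y, hyc⟩ : Subgroup.centralizer ({x} : Set G))) : Subgroup.centralizer ({x} : Set G)) with hw
        have hwc : ConjClasses.mk w = ConjClasses.mk (⟨y, hyc⟩ : Subgroup.centralizer ({x} : Set G)) := Quotient.out_eq _
        rw [ConjClasses.mk_eq_mk_iff_isConj] at hwc ⊢
        obtain ⟨d, hd⟩ := isConj_iff.mp hwc
        have hd' : (d : G) * w * (d : G)⁻¹ = y := congrArg Subtype.val hd
        have hdx : (d : G) * x * (d : G)⁻¹ = x := by
          have := Subgroup.mem_centralizer_singleton_iff.mp d.2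
          rw [this]; group
        refine IsConj.trans ?_ hgg.symm
        rw [isConj_iff]
        refine ⟨(d : G), ?_⟩
        calc (d : G) * (x * w) * (d : G)⁻¹ = ((d : G) * x * (d : G)⁻¹) * ((d : G) * w * (d : G)⁻¹) := by group
          _ = g := by rw [hdx, hd', hxy]
    have h1 : Nat.card (Cl ((insert p s : Finset ℕ) : Set ℕ) G) ≤ Nat.card (Set.range ψ) := by
      apply Nat.card_le_card_of_injective (fun D : Cl ((insert p s : Finset ℕ) : Set ℕ) G => (⟨D.1, hsub D⟩ : Set.range ψ))
      intro A B hAB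
      apply Subtype.ext
      exact congrArg (fun z : Set.range ψ => z.1) hAB
    have h2 : Nat.card (Set.range ψ) ≤ Nat.card (Σ x : P, Cl (s : Set ℕ) (Subgroup.centralizer ({(x : G)} : Set G))) :=
      Nat.card_le_card_of_surjective (Set.rangeFactorization ψ) Set.rangeFactorization_surjective
    refine h1.trans (h2.trans ?_)
    rw [Nat.card_sigma]
    calc ∑ x : P, Nat.card (Cl (s : Set ℕ) (Subgroup.centralizer ({(x : G)} : Set G)))
        ≤ ∑ x : P, ∏ q ∈ s, q ^ (Nat.card G).factorization q := by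
          apply Finset.sum_le_sum
          intro x _
          refine (ih' _).trans ?_
          apply Finset.prod_le_prod'
          intro q hq
          apply Nat.pow_le_pow_right (hs q (Finset.mem_insert_of_mem hq)).pos
          exact (Nat.factorization_le_iff_dvd Nat.card_pos.ne' Nat.card_pos.ne').mpr (Subgroup.card_subgroup_dvd_card _) q
      _ = Nat.card P * ∏ q ∈ s, q ^ (Nat.card G).factorization q := by
          rw [Finset.sum_const, Finset.card_univ, smul_eq_mul, ← Nat.card_eq_fintype_card (α := P)]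

/-- Let G be a finite group, π a set of primes and m the π-part of the order of G. Then the number of conjugacy classes of G consisting of π-elements (elements whose order is divisible only by primes in π) is at most m. -/
theorem result {G : Type*} [Group G] [Finite G]
    (π : Set ℕ) (hπ : ∀ q ∈ π, q.Prime)
    (m : ℕ) (hm : m ∣ Nat.card G) (hmπ : ∀ q : ℕ, q.Prime → q ∣ m → q ∈ π)
    (hm' : ∀ q ∈ π, ¬ q ∣ Nat.card G / m) :
    Nat.card {C : ConjClasses G // ∀ q : ℕ, q.Prime → (∃ g : G, ConjClasses.mk g = C ∧ q ∣ orderOf g) → q ∈ π} ≤ m := by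
  classical
  set s : Finset ℕ := (Nat.card G).primeFactors.filter (fun q => q ∈ π) with hs
  have h1 := main s (fun q hq => Nat.prime_of_mem_primeFactors (Finset.mem_filter.mp hq).1) G
  have h0 : Nat.card G ≠ 0 := Nat.card_pos.ne'
  have h2 : Nat.card {C : ConjClasses G // ∀ q : ℕ, q.Prime → (∃ g : G, ConjClasses.mk g = C ∧ q ∣ orderOf g) → q ∈ π} ≤
      Nat.card (Cl (s : Set ℕ) G) := by
    apply Nat.card_le_card_of_injective
      (fun D => (⟨D.1, fun q hq hqD => by
        rw [Finset.mem_coe, hs, Finset.mem_filter]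
        refine ⟨?_, D.2 q hq hqD⟩
        obtain ⟨g, -, hg⟩ := hqD
        rw [Nat.mem_primeFactors]
        exact ⟨hq, hg.trans (orderOf_dvd_natCard g), h0⟩⟩ : Cl (s : Set ℕ) G))
    intro A B hAB
    apply Subtype.ext
    exact congrArg (fun C : Cl (s : Set ℕ) G => C.1) hAB
  refine h2.trans (h1.trans ?_)
  have hm0 : m ≠ 0 := by
    rintro rfl
    exact h0 (Nat.eq_zero_of_zero_dvd hm)
  have hfac : ∀ q ∈ s, (Nat.card G).factorization q = m.factorization q := by
    intro q hq
    have hqπ := (Finset.mem_filter.mp hq).2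
    obtain ⟨c, hc⟩ := hm
    have hc0 : c ≠ 0 := by rintro rfl; rw [mul_zero] at hc; exact h0 hc
    have h3 := hm' q hqπ
    rw [hc, Nat.mul_div_cancel_left _ (Nat.pos_of_ne_zero hm0)] at h3
    rw [hc, Nat.factorization_mul hm0 hc0, Finsupp.add_apply, Nat.factorization_eq_zero_of_not_dvd h3, add_zero]
  rw [Finset.prod_congr rfl (fun q hq => by rw [hfac q hq])]
  apply le_of_eq
  conv_rhs => rw [← Nat.factorization_prod_pow_eq_self hm0]
  rw [Finsupp.prod_of_support_subset _ _ _ (fun q _ => pow_zero q)]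
  intro q hq
  rw [Nat.support_factorization, Nat.mem_primeFactors] at hq
  rw [hs, Finset.mem_filter, Nat.mem_primeFactors]
  exact ⟨⟨hq.1, hq.2.1.trans hm, h0⟩, hmπ q hq.1 hq.2.1⟩

end Cfsg.Agent.S4106
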