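import Cfsg.Statements.S4107
-- import your own Cfsg.Agent.* helpers here

set_option autoImplicit false
open Cfsg

namespace Cfsg.Agent.S4107

/-- In a normal nilpotent subgroup, an element of `q`-power order outside `N` forces `N` to be a `q`-group. -/
theorem aux {G : Type*} [Group G] [Finite G] (N : Subgroup G) [N.Normal]
    (heq : ∀ x : G, x ∉ N → ∀ n ∈ N, orderOf (x * n) = orderOf x)
    (M : Subgroup G) (hM : M.Normal) (hMn : Group.IsNilpotent M) (q : ℕ) (hq : q.Prime) (y : G) (hy : y ∈ M)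
    (k : ℕ) (hk : orderOf y = q ^ k) (hyN : y ∉ N) : IsPGroup q N := by
  have : Fact q.Prime := ⟨hq⟩
  obtain ⟨P⟩ : Nonempty (Sylow q M) := inferInstance
  have hPn : (P : Subgroup M).Normal := by
    have h := (Group.isNilpotent_of_finite_tfae (G := M)).out 0 3
    exact h.mp hMn q ⟨hq⟩ P
  have hPc : (P : Subgroup M).Characteristic := Sylow.characteristic_of_normal P hPn
  have hRn : ((P : Subgroup M).map M.subtype).Normal := ConjAct.normal_of_characteristic_of_normal
  have hRp : IsPGroup q ((P : Subgroup M).map M.subtype) := P.2.map _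
  have hyP : y ∈ (P : Subgroup M).map M.subtype := by
    refine ⟨⟨y, hy⟩, ?_, rfl⟩
    have hz : IsPGroup q (Subgroup.zpowers (⟨y, hy⟩ : M)) := by
      rw [IsPGroup.iff_card]
      refine ⟨k, ?_⟩
      rw [Nat.card_zpowers, ← hk]
      exact (Subgroup.orderOf_coe (⟨y, hy⟩ : M)).symm
    obtain ⟨Q, hQ⟩ := hz.exists_le_sylow
    have := Sylow.unique_of_normal P hPn
    have : Q = P := Subsingleton.elim _ _
    rw [← this]
    exact hQ (Subgroup.mem_zpowers _)
  set R := (P : Subgroup M).map M.subtype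
  rintro ⟨n, hn⟩
  have h1 : (y * n) ^ (q ^ k) = 1 := by
    rw [← hk, ← heq y hyN n hn]
    exact pow_orderOf_eq_one _
  have h2 : n ^ (q ^ k) ∈ R := by
    rw [← QuotientGroup.eq_one_iff]
    have h3 : ((y * n : G) : G ⧸ R) = (n : G ⧸ R) := by
      rw [QuotientGroup.mk_mul, (QuotientGroup.eq_one_iff y).mpr hyP, one_mul]
    rw [QuotientGroup.mk_pow, ← h3, ← QuotientGroup.mk_pow, h1]
    rfl
  obtain ⟨j, hj⟩ := hRp ⟨_, h2⟩
  refine ⟨k + j, ?_⟩
  apply Subtype.ext
  have := congrArg Subtype.val hj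
  simpa [pow_add, pow_mul] using this

/-- Let G be a finite group and N a proper non-trivial normal subgroup such that for every x outside N all elements of the coset xN have the same order as x. Then N ≤ F(G) or F(G) ≤ N, where F(G) is the Fitting subgroup; and if N is properly contained in F(G) then F(G) has prime-power order. -/
theorem result {G : Type*} [Group G] [Finite G] (N : Subgroup G) [N.Normal] (hN1 : N ≠ ⊥) (hN2 : N ≠ ⊤)
    (heq : ∀ x : G, x ∉ N → ∀ n ∈ N, orderOf (x * n) = orderOf x) :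
    (N ≤ Cfsg.fittingSubgroup G ∨ Cfsg.fittingSubgroup G ≤ N) ∧
    (N < Cfsg.fittingSubgroup G → IsPrimePow (Nat.card (Cfsg.fittingSubgroup G))) := by
  have key : ∀ M : Subgroup G, M.Normal → Group.IsNilpotent M → ¬ M ≤ N →
      ∃ p : ℕ, p.Prime ∧ IsPGroup p N := by
    intro M hM hMn hMN
    classical
    -- choose x in M \ N of minimal order
    obtain ⟨x₀, hx₀, hx₀N⟩ := Set.not_subset.mp hMN
    have hex : ∃ n : ℕ, ∃ x : G, x ∈ M ∧ x ∉ N ∧ orderOf x = n := ⟨_, x₀, hx₀, hx₀N, rfl⟩
    obtain ⟨x, hxM, hxN, hxo⟩ := Nat.find_spec hex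
    have hmin : ∀ z : G, z ∈ M → orderOf z < orderOf x → z ∈ N := by
      intro z hz hlt
      by_contra hzN
      rw [hxo] at hlt
      exact Nat.find_min hex hlt ⟨z, hz, hzN, rfl⟩
    have hx1 : orderOf x ≠ 1 := by
      intro h
      rw [orderOf_eq_one_iff] at h
      exact hxN (h ▸ N.one_mem)
    obtain ⟨p, hp, hpd⟩ := Nat.exists_prime_and_dvd hx1
    have hpos : 0 < orderOf x := orderOf_pos x
    -- the p-part
    obtain ⟨k, m, hpm, hkm⟩ := Nat.exists_eq_pow_mul_and_not_dvd hpos.ne' p hp.ne_one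
    have hk0 : k ≠ 0 := by
      rintro rfl
      rw [pow_zero, one_mul] at hkm
      exact hpm (hkm ▸ hpd)
    by_cases hm : m = 1
    · exact ⟨p, hp, aux N heq M hM hMn p hp x hxM k (by rw [hkm, hm, mul_one]) hxN⟩
    · exfalso
      have hm0 : m ≠ 0 := by rintro rfl; simp at hpm
      have hpk : 1 < p ^ k := Nat.one_lt_pow hk0 hp.one_lt
      have hm1 : 1 < m := by omega
      have hA : x ^ (p ^ k) ∈ N := by
        apply hmin _ (M.pow_mem hxM _)
        rw [orderOf_pow_of_dvd (by positivity) (hkm ▸ dvd_mul_right _ _), hkm,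
          Nat.mul_div_cancel_left _ (by omega)]
        nlinarith
      have hB : x ^ m ∈ N := by
        apply hmin _ (M.pow_mem hxM _)
        rw [orderOf_pow_of_dvd hm0 (hkm ▸ dvd_mul_left _ _), hkm,
          Nat.mul_div_cancel _ (by omega)]
        nlinarith
      have hcop : Nat.Coprime (p ^ k) m := Nat.Coprime.pow_left _ ((Nat.Prime.coprime_iff_not_dvd hp).mpr hpm)
      apply hxN
      have hb : ((p ^ k : ℕ) : ℤ) * Nat.gcdA (p ^ k) m + (m : ℤ) * Nat.gcdB (p ^ k) m = 1 := by
        rw [← Nat.gcd_eq_gcd_ab, hcop.gcd_eq_one]; rfl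
      have : x = (x ^ (p ^ k)) ^ (Nat.gcdA (p ^ k) m) * (x ^ m) ^ (Nat.gcdB (p ^ k) m) := by
        rw [← zpow_natCast, ← zpow_mul, ← zpow_natCast x m, ← zpow_mul, ← zpow_add, hb, zpow_one]
      rw [this]
      exact N.mul_mem (N.zpow_mem hA _) (N.zpow_mem hB _)
  have key2 : ¬ Cfsg.fittingSubgroup G ≤ N → ∃ p : ℕ, p.Prime ∧ IsPGroup p N := by
    intro hF
    by_contra hcon
    apply hF
    apply sSup_le
    rintro M ⟨hM, hMn⟩
    by_contra hMN
    exact hcon (key M hM hMn hMN)
  constructor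
  · by_cases hF : Cfsg.fittingSubgroup G ≤ N
    · exact Or.inr hF
    · left
      obtain ⟨p, hp, hNp⟩ := key2 hF
      have : Fact p.Prime := ⟨hp⟩
      apply le_sSup
      exact ⟨inferInstance, hNp.isNilpotent⟩
  · intro hlt
    obtain ⟨p, hp, hNp⟩ := key2 (not_le_of_gt hlt)
    have : Fact p.Prime := ⟨hp⟩
    -- every normal nilpotent subgroup is a p-group
    have hall : ∀ M : Subgroup G, M.Normal → Group.IsNilpotent M → IsPGroup p M := by
      intro M hM hMn
      rintro ⟨z, hz⟩
      have hz' : ∀ q : ℕ, q.Prime → q ∣ orderOf z → q = p := by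
        intro q hq hqz
        by_contra hqp
        have hpos : 0 < orderOf z := orderOf_pos z
        obtain ⟨c, hc⟩ := hqz
        have hc0 : c ≠ 0 := by rintro rfl; rw [mul_zero] at hc; omega
        have hoy : orderOf (z ^ c) = q := by
          rw [orderOf_pow_of_dvd hc0 (hc ▸ dvd_mul_left _ _), hc, Nat.mul_div_cancel _ (by omega)]
        have hyN : z ^ c ∉ N := by
          intro hyN
          obtain ⟨k, hk⟩ := (IsPGroup.iff_orderOf.mp hNp) ⟨_, hyN⟩
          rw [Subgroup.orderOf_mk, hoy] at hk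
          have : q ∣ p := hq.dvd_of_dvd_pow (dvd_of_eq hk)
          exact hqp ((Nat.prime_dvd_prime_iff_eq hq hp).mp this)
        have hNq := aux N heq M hM hMn q hq (z ^ c) (M.pow_mem hz _) 1 (by simpa using hoy) hyN
        apply hN1
        have : Fact q.Prime := ⟨hq⟩
        have hd := IsPGroup.disjoint_of_ne p q (Ne.symm hqp) N N hNp hNq
        exact disjoint_self.mp hd
      have : orderOf z = p ^ (orderOf z).primeFactorsList.length :=
        Nat.eq_prime_pow_of_unique_prime_dvd (orderOf_pos z).ne' (fun {d} hd hdz => hz' d hd hdz)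
      refine ⟨(orderOf z).primeFactorsList.length, ?_⟩
      apply Subtype.ext
      show z ^ _ = 1
      rw [← this]
      exact pow_orderOf_eq_one z
    obtain ⟨Q⟩ : Nonempty (Sylow p G) := inferInstance
    have hFQ : Cfsg.fittingSubgroup G ≤ Q := by
      apply sSup_le
      rintro M ⟨hM, hMn⟩
      have h1 : IsPGroup p ((M ⊔ (Q : Subgroup G) : Subgroup G)) :=
        (hall M hM hMn).to_sup_of_normal_left Q.2
      have h2 := Q.3 h1 le_sup_right
      rw [← h2]
      exact le_sup_left
    have hFp : IsPGroup p (Cfsg.fittingSubgroup G) := Q.2.to_le hFQ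
    obtain ⟨n, hn⟩ := IsPGroup.iff_card.mp hFp
    rw [hn]
    have hn0 : n ≠ 0 := by
      rintro rfl
      rw [pow_zero] at hn
      rw [Subgroup.card_eq_one] at hn
      rw [hn] at hlt
      exact not_lt_bot hlt
    exact hp.isPrimePow.pow hn0

end Cfsg.Agent.S4107
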