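import Cfsg.Statements.S4108
import Mathlib
import Cfsg.Agent.Lib.FrobGroup
-- import your own Cfsg.Agent.* helpers here

set_option autoImplicit false
open Cfsg

namespace Cfsg.Agent.S4108

/-- Let G be a finite group, p a prime and N a proper non-trivial normal p-subgroup such that for every x outside N all elements of the coset xN have the same order as x. Then every non-trivial subgroup H of G of order prime to p acts fixed-point-freely on N: NH is a Frobenius group with complement H and kernel N. -/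
theorem result {G : Type*} [Group G] [Finite G] (N : Subgroup G) [N.Normal] (hN1 : N ≠ ⊥) (hN2 : N ≠ ⊤)
    (heq : ∀ x : G, x ∉ N → ∀ n ∈ N, orderOf (x * n) = orderOf x)
    (p : ℕ) [Fact p.Prime] (hNp : IsPGroup p N) :
    ∀ H : Subgroup G, H ≠ ⊥ → (Nat.card H).Coprime p →
      Cfsg.IsFrobeniusComplement (H.subgroupOf (N ⊔ H)) ∧ Cfsg.frobeniusKernel (H.subgroupOf (N ⊔ H)) = (N.subgroupOf (N ⊔ H) : Set ↥(N ⊔ H)) := by
  intro H hH hcop
  have hp : p.Prime := Fact.out
  -- fixed-point-freeness
  have hfix : ∀ h ∈ H, h ≠ 1 → ∀ n ∈ N, n * h = h * n → n = 1 := by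
    intro h hh hh1 n hn hc
    have hordh : (orderOf h).Coprime p := by
      refine Nat.Coprime.coprime_dvd_left ?_ hcop
      have := orderOf_dvd_natCard (⟨h, hh⟩ : H)
      rwa [Subgroup.orderOf_mk] at this
    have hhN : h ∉ N := by
      intro hN
      obtain ⟨k, hk⟩ := (IsPGroup.iff_orderOf.mp hNp) ⟨h, hN⟩
      rw [Subgroup.orderOf_mk] at hk
      rw [hk] at hordh
      apply hh1
      rw [← orderOf_eq_one_iff, hk]
      rcases Nat.eq_zero_or_pos k with rfl | hk0
      · simp
      · have := (Nat.coprime_pow_left_iff hk0 p p).mp hordh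
        exact absurd ((Nat.coprime_self p).mp this) hp.one_lt.ne'
    obtain ⟨k, hk⟩ := (IsPGroup.iff_orderOf.mp hNp) ⟨n, hn⟩
    rw [Subgroup.orderOf_mk] at hk
    have h1 := heq h hhN n hn
    have h2 : (orderOf h).Coprime (orderOf n) := by
      rw [hk]; exact Nat.Coprime.pow_right k hordh
    have h3 := (show Commute h n from hc.symm).orderOf_mul_eq_mul_orderOf_of_coprime h2
    rw [h1] at h3
    have h4 : orderOf n = 1 := by
      have := orderOf_pos h
      nlinarith
    exact orderOf_eq_one_iff.mp h4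
  set K := N ⊔ H with hK
  have hdis : N ⊓ H = ⊥ := by
    rw [eq_bot_iff]
    rintro x ⟨hxN, hxH⟩
    by_contra hx1
    exact hx1 (hfix x hxH hx1 x hxN rfl)
  have hNK : N ≤ K := le_sup_left
  have hHK : H ≤ K := le_sup_right
  have hnor : (N.subgroupOf K).Normal := inferInstance
  have hcompl : Subgroup.IsComplement' (N.subgroupOf K) (H.subgroupOf K) := by
    refine Subgroup.isComplement'_of_disjoint_and_mul_eq_univ ?_ ?_
    · rw [disjoint_iff, eq_bot_iff]
      rintro x ⟨hx1, hx2⟩
      have : (x : G) ∈ N ⊓ H := ⟨hx1, hx2⟩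
      rw [hdis] at this
      exact Subtype.ext this
    · rw [← Subgroup.normal_mul, ← Subgroup.subgroupOf_sup hNK hHK, ← hK, Subgroup.subgroupOf_self]
      rfl
  have hNb : N.subgroupOf K ≠ ⊥ := by
    intro h
    rw [Subgroup.subgroupOf_eq_bot, disjoint_iff, inf_eq_left.mpr hNK] at h
    exact hN1 h
  have hHb : H.subgroupOf K ≠ ⊥ := by
    intro h
    rw [Subgroup.subgroupOf_eq_bot, disjoint_iff, inf_eq_left.mpr hHK] at h
    exact hH h
  have hF : Cfsg.IsFrobeniusComplement (H.subgroupOf K) := by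
    rw [Cfsg.Agent.Lib.FrobGroup.isFrobeniusComplement_iff hcompl hNb hHb]
    intro h hh hh1
    rw [eq_bot_iff]
    rintro x ⟨hxN, hxC⟩
    rw [Subgroup.mem_bot]
    apply Subtype.ext
    refine hfix h hh (fun e => hh1 (Subtype.ext e)) x hxN ?_
    have := Subgroup.mem_centralizer_singleton_iff.mp hxC
    exact congrArg Subtype.val this
  exact ⟨hF, Cfsg.Agent.Lib.FrobGroup.kernel_eq_of_complement hcompl hF⟩

end Cfsg.Agent.S4108
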