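import Cfsg.Statements.S4112
import Mathlib
import Cfsg.Agent.Lib.Cores3
-- import your own Cfsg.Agent.* helpers here

set_option autoImplicit false
open Cfsg

namespace Cfsg.Agent.S4112

theorem mem_of_coprime {G : Type*} [Group G] (N : Subgroup G) [N.Normal] {y : G} {a : ℕ} (ha : y ^ a ∈ N)
    (hc : Nat.Coprime a N.index) : y ∈ N := by
  have h1 := Subgroup.pow_index_mem N y
  have := Int.gcd_eq_gcd_ab a (N.index : ℕ)
  rw [Int.gcd_natCast_natCast, hc] at this
  have e : y = y ^ (1 : ℤ) := by simp
  rw [e, show (1 : ℤ) = ((1 : ℕ) : ℤ) by simp, this, zpow_add, zpow_mul, zpow_mul, zpow_natCast, zpow_natCast]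
  exact N.mul_mem (N.zpow_mem ha _) (N.zpow_mem h1 _)

/-- if `(2)` holds every supplement minimal w.r.t. order meets `M` trivially. -/
theorem supplement {G : Type*} [Group G] [Finite G] (N M : Subgroup G) [N.Normal] [M.Normal] (hMN : M ≤ N)
    (hcop : N.index.Coprime (Nat.card M)) : ∃ H : Subgroup G, H ⊔ N = ⊤ ∧ H ⊓ M = ⊥ := by
  classical
  have hex : ∃ n : ℕ, ∃ K : Subgroup G, K ⊔ N = ⊤ ∧ Nat.card K = n := ⟨_, ⊤, by simp, rfl⟩
  obtain ⟨K, hKN, hKc⟩ := Nat.find_spec hex
  have hmin : ∀ L : Subgroup G, L ⊔ N = ⊤ → Nat.card K ≤ Nat.card L := fun L hL => by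
    rw [hKc]; exact Nat.find_min' hex ⟨L, hL, rfl⟩
  refine ⟨K, hKN, ?_⟩
  have hminK : ∀ L : Subgroup K, L ⊔ N.subgroupOf K = ⊤ → L = ⊤ := by
    intro L hL
    have h1 : K ≤ L.map K.subtype ⊔ N := by
      have h2 := congrArg (Subgroup.map K.subtype) hL
      rw [Subgroup.map_sup, Subgroup.subgroupOf_map_subtype, ← MonoidHom.range_eq_map, Subgroup.range_subtype] at h2
      exact h2.symm.le.trans (sup_le_sup_left inf_le_left _)
    have h3 : L.map K.subtype ⊔ N = ⊤ := by
      rw [eq_top_iff, ← hKN]
      exact sup_le h1 le_sup_right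
    have h4 := hmin _ h3
    rw [Subgroup.card_subtype] at h4
    exact Subgroup.eq_top_of_le_card L h4
  by_contra hne
  obtain ⟨p, hp, hpd⟩ := Nat.exists_prime_and_dvd (n := Nat.card (K ⊓ M : Subgroup G))
    (fun h => hne (Subgroup.card_eq_one.mp h))
  have := Fact.mk hp
  have hpM : p ∣ Nat.card M := hpd.trans (Subgroup.card_dvd_of_le inf_le_right)
  have hidx : (N.subgroupOf K).index = N.index := by
    have := Subgroup.relIndex_sup_right (H := K) (K := N)
    rw [hKN, Subgroup.relIndex_top_right] at this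
    exact this.symm
  have hpidx : ¬ p ∣ (N.subgroupOf K).index := by
    rw [hidx]
    intro h
    exact hp.one_lt.ne' (Nat.dvd_one.mp (hcop ▸ Nat.dvd_gcd h hpM))
  let P : Sylow p K := default
  have hPN : (P : Subgroup K) ≤ N.subgroupOf K := by
    intro x hx
    obtain ⟨k, hk⟩ := P.isPGroup' ⟨x, hx⟩
    have hk' : x ^ p ^ k = 1 := by simpa using congrArg Subtype.val hk
    refine mem_of_coprime _ (a := p ^ k) (by rw [hk']; exact one_mem _) ?_
    exact Nat.Coprime.pow_left k ((hp.coprime_iff_not_dvd).mpr hpidx)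
  have hPn : (P : Subgroup K).Normal :=
    Subgroup.normalizer_eq_top_iff.mp (hminK _ (P.normalizer_sup_eq_top' hPN))
  obtain ⟨C, hC⟩ := Subgroup.exists_right_complement'_of_coprime (N := (P : Subgroup K)) P.card_coprime_index
  have hCt : C = ⊤ := by
    apply hminK
    rw [eq_top_iff, ← hC.sup_eq_top]
    exact sup_le (hPN.trans le_sup_right) le_sup_left
  have hPb : (P : Subgroup K) = ⊥ := by
    have := hC.disjoint.eq_bot
    rwa [hCt, inf_top_eq] at this
  have h5 : p ∣ Nat.card K := hpd.trans (Subgroup.card_dvd_of_le inf_le_left)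
  have h6 : p ∣ Nat.card (P : Subgroup K) := by
    have := P.card_eq_multiplicity
    rw [this]
    refine dvd_pow_self p ?_
    exact (Nat.Prime.factorization_pos_of_dvd hp Nat.card_pos.ne' h5).ne'
  rw [hPb, Subgroup.card_bot] at h6
  exact hp.one_lt.ne' (Nat.dvd_one.mp h6)

/-- Let G be a finite group and M ≤ N non-trivial proper normal subgroups such that for every g outside N the conjugacy class of g is a union of cosets of M (equivalently gm is conjugate to g for every m ∈ M). Then (1) and (2) below are equivalent, and they imply (3): (1) every g outside N acts fixed-point-freely on M, that is C_G(x) ≤ N for every x ∈ M, x ≠ 1; (2) the index of N in G is coprime to the order of M; (3) there is a subgroup H of G with HN = G and H ∩ M = 1. -/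
theorem result {G : Type*} [Group G] [Finite G] (N M : Subgroup G) [N.Normal] [M.Normal] (hMN : M ≤ N) (hM1 : M ≠ ⊥) (hN2 : N ≠ ⊤)
    (hcam : ∀ g : G, g ∉ N → ∀ m ∈ M, ∃ x : G, x * g * x⁻¹ = g * m) :
    ((∀ x ∈ M, x ≠ 1 → Subgroup.centralizer ({x} : Set G) ≤ N) ↔ N.index.Coprime (Nat.card M)) ∧
    ((∀ x ∈ M, x ≠ 1 → Subgroup.centralizer ({x} : Set G) ≤ N) → ∃ H : Subgroup G, H ⊔ N = ⊤ ∧ H ⊓ M = ⊥) := by
  classical
  have h12 : (∀ x ∈ M, x ≠ 1 → Subgroup.centralizer ({x} : Set G) ≤ N) → N.index.Coprime (Nat.card M) := by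
    intro h1
    rw [Nat.coprime_iff_isRelPrime, ← Nat.coprime_iff_isRelPrime]
    refine Nat.Coprime.symm (Nat.coprime_of_dvd ?_)
    intro p hp hpM hpi
    have := Fact.mk hp
    obtain ⟨m, hm⟩ := exists_prime_orderOf_dvd_card' p hpM
    have hm' : orderOf (m : G) = p := by rw [← hm]; exact Subgroup.orderOf_coe m
    have hz : IsPGroup p (Subgroup.zpowers (m : G)) :=
      IsPGroup.of_card (n := 1) (by rw [Nat.card_zpowers, hm', pow_one])
    obtain ⟨P, hP⟩ := hz.exists_le_sylow
    have hmP : (m : G) ∈ P := hP (Subgroup.mem_zpowers _)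
    have : Group.IsNilpotent (P : Subgroup G) := P.isPGroup'.isNilpotent
    have hnb : M.subgroupOf (P : Subgroup G) ≠ ⊥ := by
      intro h
      have h2 : (⟨m, hmP⟩ : (P : Subgroup G)) ∈ M.subgroupOf (P : Subgroup G) := m.2
      rw [h, Subgroup.mem_bot] at h2
      have h3 : (m : G) = 1 := congrArg Subtype.val h2
      rw [h3, orderOf_one] at hm'
      exact hp.one_lt.ne hm'
    obtain ⟨z, hz1, hz2, hz3⟩ := Cfsg.Agent.Lib.Cores.exists_mem_center_of_normal (K := M.subgroupOf (P : Subgroup G))
      inferInstance hnb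
    have h3 : (P : Subgroup G) ≤ Subgroup.centralizer ({(z : G)} : Set G) := by
      intro y hy
      rw [Subgroup.mem_centralizer_singleton_iff]
      exact congrArg Subtype.val (Subgroup.mem_center_iff.mp hz2 ⟨y, hy⟩)
    have h4 : (P : Subgroup G) ≤ N := h3.trans (h1 z hz1 (fun e => hz3 (Subtype.ext e)))
    exact P.not_dvd_index (hpi.trans (Subgroup.index_dvd_of_le h4))
  have h21 : N.index.Coprime (Nat.card M) → (∀ x ∈ M, x ≠ 1 → Subgroup.centralizer ({x} : Set G) ≤ N) := by
    intro h2 x hxM hx1
    have key : ∀ n : ℕ, ∀ g : G, orderOf g = n → g * x = x * g → g ∈ N := by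
      intro n
      induction n using Nat.strong_induction_on with
      | _ n ih =>
        intro g hg hgx
        by_cases hc : Nat.Coprime (orderOf g) (Nat.card M)
        · by_contra hgN
          obtain ⟨y, hy⟩ := hcam g hgN x hxM
          have h3 : orderOf (g * x) = orderOf g := by
            rw [← hy, ← MulAut.conj_apply]
            exact orderOf_injective (MulAut.conj y).toMonoidHom (MulAut.conj y).injective g
          have h4 : (orderOf g).Coprime (orderOf x) := by
            refine Nat.Coprime.coprime_dvd_right ?_ hc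
            have := orderOf_dvd_natCard (⟨x, hxM⟩ : M)
            rwa [Subgroup.orderOf_mk] at this
          rw [(show Commute g x from hgx).orderOf_mul_eq_mul_orderOf_of_coprime h4] at h3
          have h5 := orderOf_pos g
          have h6 : orderOf x = 1 := by nlinarith
          exact hx1 (orderOf_eq_one_iff.mp h6)
        · obtain ⟨p, hp, hp1, hp2⟩ := Nat.Prime.not_coprime_iff_dvd.mp hc
          have h3 : orderOf (g ^ p) = n / p := by
            rw [orderOf_pow_of_dvd hp.pos.ne' hp1, hg]
          have h4 : g ^ p ∈ N := by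
            refine ih (n / p) ?_ (g ^ p) h3 ?_
            · exact Nat.div_lt_self (hg ▸ orderOf_pos g) hp.one_lt
            · exact ((show Commute g x from hgx).pow_left p)
          refine mem_of_coprime N h4 ?_
          exact (Nat.Coprime.coprime_dvd_right hp2 h2).symm
    intro g hg
    exact key _ g rfl (Subgroup.mem_centralizer_singleton_iff.mp hg)
  exact ⟨⟨h12, h21⟩, fun h => supplement N M hMN (h12 h)⟩

end Cfsg.Agent.S4112
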