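import Cfsg.Statements.S4115
import Cfsg.Agent.Lib.H3TIHall

set_option autoImplicit false
universe u
open Cfsg

namespace Cfsg.Agent.S4115

/-- Let G be a finite group and H a subgroup that meets each of its conjugates by elements outside N_G(H) trivially and whose order is coprime to its index in N_G(H). Then H has a normal complement in N_G(H) if and only if H has a normal complement in G. Moreover, if H is not normal in G and has a normal complement in N_G(H), then H is isomorphic to a Frobenius complement of some finite Frobenius group. -/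
theorem result {G : Type u} [Group G] [Finite G] (H : Subgroup G)
    (hTI : Cfsg.IsTISubset (H : Set G)) (hHall : (Nat.card H).Coprime (H.subgroupOf (Subgroup.normalizer (H : Set G))).index) :
    ((∃ K : Subgroup (Subgroup.normalizer (H : Set G)), K.Normal ∧ K.IsComplement' (H.subgroupOf (Subgroup.normalizer (H : Set G)))) ↔
      (∃ N : Subgroup G, N.Normal ∧ N.IsComplement' H)) ∧
    (¬ H.Normal → (∃ K : Subgroup (Subgroup.normalizer (H : Set G)), K.Normal ∧ K.IsComplement' (H.subgroupOf (Subgroup.normalizer (H : Set G)))) →
      ∃ (F : Type u) (_ : Group F) (_ : Finite F) (C : Subgroup F), Cfsg.IsFrobeniusComplement C ∧ Nonempty (H ≃* C)) := by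
  obtain ⟨h1, h2⟩ := Cfsg.Agent.Lib.H3TIHall.main H hTI hHall
  refine ⟨h1, fun hn hK => ?_⟩
  obtain ⟨L, _, _, C, hC, ⟨e⟩⟩ := h2 hn hK
  refine ⟨ULift.{u} L, inferInstance, inferInstance, C.map (MulEquiv.ulift.{0, u} (α := L)).symm.toMonoidHom,
    Cfsg.Agent.Lib.FrobExist.map_equiv MulEquiv.ulift.symm C hC,
    ⟨e.trans (C.equivMapOfInjective _ (MulEquiv.ulift.{0, u} (α := L)).symm.injective)⟩⟩

end Cfsg.Agent.S4115
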