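import Cfsg.Statements.S4116
-- import your own Cfsg.Agent.* helpers here

set_option autoImplicit false
open Cfsg

namespace Cfsg.Agent.S4116

variable {G : Type*} [Group G]

/-- The set of `K`-conjugates of nonidentity elements of `L`. -/
def S (K L : Subgroup G) : Set G := {x : G | ∃ k ∈ K, k⁻¹ * x * k ∈ L ∧ x ≠ 1}

theorem card_S [Finite G] (K L : Subgroup G) (hLK : L ≤ K)
    (hTI : ∀ k ∈ K, ∀ l ∈ L, l ≠ 1 → k * l * k⁻¹ ∈ L → k ∈ L) :
    Nat.card (S K L) * Nat.card L = Nat.card K * (Nat.card L - 1) := by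
  classical
  -- choose a conjugator
  have hch : ∀ x : S K L, ∃ k : G, k ∈ K ∧ k⁻¹ * (x : G) * k ∈ L := by
    rintro ⟨x, k, hk, h1, h2⟩
    exact ⟨k, hk, h1⟩
  choose c hcK hcL using hch
  let A := {l : L // l ≠ 1}
  have hA : Nat.card A = Nat.card L - 1 := by
    have := Fintype.ofFinite L
    rw [Nat.card_eq_fintype_card, Nat.card_eq_fintype_card, Fintype.card_subtype_compl,
      Fintype.card_subtype_eq]
  rw [← hA, ← Nat.card_prod, ← Nat.card_prod]
  have hx1 : ∀ x : S K L, (x : G) ≠ 1 := by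
    rintro ⟨x, k, hk, h1, h2⟩
    exact h2
  let f : S K L × L → K × A := fun p =>
    (⟨c p.1 * p.2, K.mul_mem (hcK p.1) (hLK p.2.2)⟩,
      ⟨⟨(p.2 : G)⁻¹ * ((c p.1)⁻¹ * (p.1 : G) * c p.1) * p.2,
        L.mul_mem (L.mul_mem (L.inv_mem p.2.2) (hcL p.1)) p.2.2⟩, by
          intro h
          have h' : (p.2 : G)⁻¹ * ((c p.1)⁻¹ * (p.1 : G) * c p.1) * p.2 = 1 := congrArg Subtype.val h
          apply hx1 p.1
          have h3 : (p.1 : G) = (c p.1 * p.2) * ((p.2 : G)⁻¹ * ((c p.1)⁻¹ * (p.1 : G) * c p.1) * p.2) * (c p.1 * p.2)⁻¹ := by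
            group
          rw [h3, h']; group⟩)
  refine Nat.card_congr (Equiv.ofBijective f ⟨?_, ?_⟩)
  · rintro ⟨x, m⟩ ⟨x', m'⟩ h
    have h1 : c x * m = c x' * m' := congrArg (fun q : K × A => (q.1 : G)) h
    have h2 : (m : G)⁻¹ * ((c x)⁻¹ * (x : G) * c x) * m = (m' : G)⁻¹ * ((c x')⁻¹ * (x' : G) * c x') * m' :=
      congrArg (fun q : K × A => ((q.2 : L) : G)) h
    have e1 : (x : G) = (c x * m) * ((m : G)⁻¹ * ((c x)⁻¹ * (x : G) * c x) * m) * (c x * m)⁻¹ := by group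
    have e2 : (x' : G) = (c x' * m') * ((m' : G)⁻¹ * ((c x')⁻¹ * (x' : G) * c x') * m') * (c x' * m')⁻¹ := by group
    have hxx : (x : G) = x' := by rw [e1, e2, h1, h2]
    have hxx' : x = x' := Subtype.ext hxx
    subst hxx'
    have : (m : G) = m' := mul_left_cancel h1
    rw [Subtype.ext this]
  · rintro ⟨k, ⟨l, hl⟩⟩
    have hl' : (l : G) ≠ 1 := fun h => hl (Subtype.ext h)
    have hmem : (k : G) * l * (k : G)⁻¹ ∈ S K L := by
      refine ⟨k, k.2, ?_, ?_⟩
      · have : (k : G)⁻¹ * ((k : G) * l * (k : G)⁻¹) * k = l := by group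
        rw [this]; exact l.2
      · intro h
        apply hl'
        have : (l : G) = (k : G)⁻¹ * ((k : G) * l * (k : G)⁻¹) * k := by group
        rw [this, h]; group
    set x : S K L := ⟨_, hmem⟩ with hxdef
    have hm : (c x)⁻¹ * (k : G) ∈ L := by
      apply hTI _ (K.mul_mem (K.inv_mem (hcK x)) k.2) l l.2 hl'
      have := hcL x
      have e : (c x)⁻¹ * (k : G) * l * ((c x)⁻¹ * (k : G))⁻¹ = (c x)⁻¹ * (x : G) * c x := by
        simp only [hxdef]; group
      rw [e]; exact this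
    refine ⟨(x, ⟨_, hm⟩), ?_⟩
    apply Prod.ext
    · apply Subtype.ext
      show c x * ((c x)⁻¹ * (k : G)) = k
      group
    · apply Subtype.ext
      apply Subtype.ext
      show ((c x)⁻¹ * (k : G))⁻¹ * ((c x)⁻¹ * (x : G) * c x) * ((c x)⁻¹ * (k : G)) = l
      simp only [hxdef]
      group

/-- Let G be a finite group with a subgroup H whose order is coprime to its index (a Hall subgroup) and which meets each of its conjugates by elements outside N_G(H) trivially. Then every subgroup of G whose order is divisible only by primes dividing the order of H lies in a conjugate of H. -/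
theorem result {G : Type*} [Group G] [Finite G] (H : Subgroup G)
    (hHall : (Nat.card H).Coprime H.index) (hTI : Cfsg.IsTISubset (H : Set G))
    (K : Subgroup G) (hK : ∀ q : ℕ, q.Prime → q ∣ Nat.card K → q ∣ Nat.card H) :
    ∃ g : G, K ≤ H.map (MulAut.conj g).toMonoidHom := by
  classical
  have hmem : ∀ g x : G, x ∈ H.map (MulAut.conj g).toMonoidHom ↔ g⁻¹ * x * g ∈ H := by
    intro g x
    constructor
    · rintro ⟨y, hy, rfl⟩
      have : g⁻¹ * ((MulAut.conj g).toMonoidHom y) * g = y := by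
        show g⁻¹ * (g * y * g⁻¹) * g = y
        group
      rw [this]; exact hy
    · intro h
      refine ⟨_, h, ?_⟩
      show g * (g⁻¹ * x * g) * g⁻¹ = x
      group
  -- TI for conjugates
  have hTI' : ∀ g x : G, x ≠ 1 → x ∈ H → g * x * g⁻¹ ∈ H → g ∈ Subgroup.normalizer (H : Set G) := by
    intro g x hx hxH hgx
    by_contra hg
    exact hx (hTI g hg x hxH hgx)
  -- F3
  have F3 : ∀ k : G, (∀ q : ℕ, q.Prime → q ∣ orderOf k → q ∣ Nat.card H) →
      k ∈ Subgroup.normalizer (H : Set G) → k ∈ H := by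
    intro k hk hkN
    set N := Subgroup.normalizer (H : Set G) with hN
    have hHN : H ≤ N := Subgroup.le_normalizer
    have : (H.subgroupOf N).Normal := Subgroup.normal_in_normalizer
    have h1 : (⟨k, hkN⟩ : N) ^ (H.subgroupOf N).index ∈ H.subgroupOf N := Subgroup.pow_index_mem _ _
    have h2 : k ^ (H.subgroupOf N).index ∈ H := h1
    have h3 : k ^ orderOf k ∈ H := by rw [pow_orderOf_eq_one]; exact H.one_mem
    have hdvd : (H.subgroupOf N).index ∣ H.index := Subgroup.relIndex_dvd_index_of_le hHN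
    have hcop : Nat.Coprime (H.subgroupOf N).index (orderOf k) := by
      apply Nat.Coprime.symm
      rw [Nat.coprime_iff_gcd_eq_one]
      by_contra hne
      obtain ⟨q, hq, hqd⟩ := Nat.exists_prime_and_dvd hne
      have hq1 := (Nat.dvd_gcd_iff.mp hqd).1
      have hq2 := (Nat.dvd_gcd_iff.mp hqd).2
      have hq3 := hk q hq hq1
      have := Nat.dvd_gcd hq3 (hq2.trans hdvd)
      rw [hHall.gcd_eq_one] at this
      exact hq.one_lt.ne' (Nat.dvd_one.mp this)
    set a := (H.subgroupOf N).index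
    set b := orderOf k
    have hb : (a : ℤ) * Nat.gcdA a b + (b : ℤ) * Nat.gcdB a b = 1 := by
      rw [← Nat.gcd_eq_gcd_ab, hcop.gcd_eq_one]; rfl
    have : k = (k ^ a) ^ (Nat.gcdA a b) * (k ^ b) ^ (Nat.gcdB a b) := by
      rw [← zpow_natCast, ← zpow_mul, ← zpow_natCast k b, ← zpow_mul, ← zpow_add, hb, zpow_one]
    rw [this]
    exact H.mul_mem (H.zpow_mem h2 _) (H.zpow_mem h3 _)
  have hordK : ∀ x ∈ K, ∀ q : ℕ, q.Prime → q ∣ orderOf x → q ∣ Nat.card H := by
    intro x hx q hq hqx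
    exact hK q hq (hqx.trans (Subgroup.orderOf_dvd_natCard K hx))
  have hordK' : ∀ g, ∀ x ∈ K, ∀ q : ℕ, q.Prime → q ∣ orderOf (g⁻¹ * x * g) → q ∣ Nat.card H := by
    intro g x hx q hq hqx
    apply hordK x hx q hq
    have : orderOf (g⁻¹ * x * g) = orderOf x := by
      have h := orderOf_injective (MulAut.conj g⁻¹).toMonoidHom (MulAut.conj g⁻¹).injective x
      have h2 : (MulAut.conj g⁻¹).toMonoidHom x = g⁻¹ * x * g := by
        show g⁻¹ * x * (g⁻¹)⁻¹ = _
        rw [inv_inv]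
      rwa [h2] at h
    rwa [this] at hqx
  -- F1
  have F1 : ∀ x ∈ K, x ≠ 1 → ∃ g : G, g⁻¹ * x * g ∈ H := by
    intro x hx hx1
    have hox : orderOf x ≠ 1 := fun h => hx1 (orderOf_eq_one_iff.mp h)
    obtain ⟨p, hp, hpd⟩ := Nat.exists_prime_and_dvd hox
    have : Fact p.Prime := ⟨hp⟩
    have hpos : 0 < orderOf x := orderOf_pos x
    obtain ⟨c, hc⟩ := hpd
    have hc0 : c ≠ 0 := by rintro rfl; rw [mul_zero] at hc; omega
    have hoy : orderOf (x ^ c) = p := by
      rw [orderOf_pow_of_dvd hc0 (hc ▸ dvd_mul_left _ _), hc, Nat.mul_div_cancel _ (by omega)]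
    have hpH : p ∣ Nat.card H := hordK x hx p hp (hc ▸ dvd_mul_right _ _)
    have hpi : ¬ p ∣ H.index := by
      intro h
      have := Nat.dvd_gcd hpH h
      rw [hHall.gcd_eq_one] at this
      exact hp.one_lt.ne' (Nat.dvd_one.mp this)
    obtain ⟨P⟩ : Nonempty (Sylow p H) := inferInstance
    have hPp : IsPGroup p ((P : Subgroup H).map H.subtype) := P.2.map _
    have hPi : ¬ p ∣ ((P : Subgroup H).map H.subtype).index := by
      rw [Subgroup.index_map_subtype]
      intro h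
      rcases hp.dvd_mul.mp h with h | h
      · exact P.not_dvd_index h
      · exact hpi h
    let Q : Sylow p G := hPp.toSylow hPi
    have hy : IsPGroup p (Subgroup.zpowers (x ^ c)) := by
      rw [IsPGroup.iff_card]
      exact ⟨1, by rw [Nat.card_zpowers, hoy, pow_one]⟩
    obtain ⟨R, hR⟩ := hy.exists_le_sylow
    obtain ⟨g, hg⟩ := MulAction.exists_smul_eq G Q R
    have hyR : x ^ c ∈ R := hR (Subgroup.mem_zpowers _)
    rw [← hg] at hyR
    have hyQ : g⁻¹ * x ^ c * g ∈ (Q : Subgroup G) := by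
      have h : x ^ c ∈ ((g • Q : Sylow p G) : Subgroup G) := hyR
      rw [Sylow.coe_subgroup_smul, Subgroup.mem_pointwise_smul_iff_inv_smul_mem, ← map_inv,
        MulAut.smul_def, MulAut.conj_apply, inv_inv] at h
      exact h
    have hyH : g⁻¹ * x ^ c * g ∈ H := by
      have h : g⁻¹ * x ^ c * g ∈ (P : Subgroup H).map H.subtype := hyQ
      exact Subgroup.map_subtype_le _ h
    refine ⟨g, ?_⟩
    apply F3 _ (hordK' g x hx)
    have hne : g⁻¹ * x ^ c * g ≠ 1 := by
      intro h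
      have : x ^ c = g * (g⁻¹ * x ^ c * g) * g⁻¹ := by group
      rw [h] at this
      have h2 : x ^ c = 1 := by rw [this]; group
      rw [h2, orderOf_one] at hoy
      exact hp.one_lt.ne hoy
    apply hTI' _ _ hne hyH
    have : g⁻¹ * x * g * (g⁻¹ * x ^ c * g) * (g⁻¹ * x * g)⁻¹ = g⁻¹ * x ^ c * g := by
      have : x * x ^ c * x⁻¹ = x ^ c := by
        rw [← pow_succ', pow_succ]; group
      calc g⁻¹ * x * g * (g⁻¹ * x ^ c * g) * (g⁻¹ * x * g)⁻¹ = g⁻¹ * (x * x ^ c * x⁻¹) * g := by group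
        _ = _ := by rw [this]
    rw [this]; exact hyH
  -- F2: two conjugates of `H` sharing a nonidentity element are equal
  have F2 : ∀ g g' z : G, z ≠ 1 → g⁻¹ * z * g ∈ H → g'⁻¹ * z * g' ∈ H → g'⁻¹ * g ∈ Subgroup.normalizer (H : Set G) := by
    intro g g' z hz h1 h2
    apply hTI' (g'⁻¹ * g) (g⁻¹ * z * g)
    · intro h
      apply hz
      have : z = g * (g⁻¹ * z * g) * g⁻¹ := by group
      rw [this, h]; group
    · exact h1
    · have : g'⁻¹ * g * (g⁻¹ * z * g) * (g'⁻¹ * g)⁻¹ = g'⁻¹ * z * g' := by group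
      rw [this]; exact h2
  have F2' : ∀ g g' z y : G, z ≠ 1 → g⁻¹ * z * g ∈ H → g'⁻¹ * z * g' ∈ H → g⁻¹ * y * g ∈ H → g'⁻¹ * y * g' ∈ H := by
    intro g g' z y hz h1 h2 h3
    have h4 := F2 g g' z hz h1 h2
    have h5 := (h4 (g⁻¹ * y * g)).mp h3
    have : g'⁻¹ * g * (g⁻¹ * y * g) * (g'⁻¹ * g)⁻¹ = g'⁻¹ * y * g' := by group
    rw [this] at h5; exact h5
  by_contra hcon
  -- the intersections
  let L : G → Subgroup G := fun g => K ⊓ H.map (MulAut.conj g).toMonoidHom
  have hL : ∀ g x : G, x ∈ L g ↔ x ∈ K ∧ g⁻¹ * x * g ∈ H := by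
    intro g x
    rw [Subgroup.mem_inf, hmem]
  have hLK : ∀ g, L g ≤ K := fun g => inf_le_left
  have hLne : ∀ g, L g ≠ K := by
    intro g h
    apply hcon
    exact ⟨g, inf_eq_left.mp h⟩
  have hLlt : ∀ g, Nat.card (L g) < Nat.card K := by
    intro g
    by_contra hge
    push Not at hge
    exact hLne g (Subgroup.eq_of_le_of_card_ge (hLK g) hge)
  have hLTI : ∀ g, ∀ k ∈ K, ∀ l ∈ L g, l ≠ 1 → k * l * k⁻¹ ∈ L g → k ∈ L g := by
    intro g k hk l hl hl1 hkl
    rw [hL] at hl hkl ⊢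
    refine ⟨hk, ?_⟩
    apply F3 _ (hordK' g k hk)
    apply hTI' _ (g⁻¹ * l * g) _ hl.2
    · have : g⁻¹ * k * g * (g⁻¹ * l * g) * (g⁻¹ * k * g)⁻¹ = g⁻¹ * (k * l * k⁻¹) * g := by group
      rw [this]; exact hkl.2
    · intro h
      apply hl1
      have : l = g * (g⁻¹ * l * g) * g⁻¹ := by group
      rw [this, h]; group
  have hcard := fun g => card_S K (L g) (hLK g) (hLTI g)
  have hfin : (K : Set G).Finite := Set.toFinite _
  have hKcard : Nat.card K = (K : Set G).ncard := rfl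
  -- every intersection containing a nonidentity element covers at least half
  have hhalf : ∀ g x, x ∈ L g → x ≠ 1 → Nat.card K ≤ 2 * Nat.card (S K (L g)) := by
    intro g x hx hx1
    have h2 : 2 ≤ Nat.card (L g) := by
      have : Nontrivial (L g) := ⟨⟨⟨x, hx⟩, 1, fun h => hx1 (congrArg Subtype.val h)⟩⟩
      exact Finite.one_lt_card
    have h := hcard g
    obtain ⟨m, hm⟩ : ∃ m, Nat.card (L g) = m + 2 := ⟨_, (Nat.sub_add_cancel h2).symm⟩
    rw [hm] at h
    have : m + 2 - 1 = m + 1 := by omega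
    rw [this] at h
    nlinarith [Nat.zero_le (Nat.card (S K (L g)) * m)]
  have hSsub : ∀ g, S K (L g) ⊆ (K : Set G) \ {1} := by
    rintro g x ⟨k, hk, h1, h2⟩
    refine ⟨?_, h2⟩
    have h3 := hLK g h1
    have : x = k * (k⁻¹ * x * k) * k⁻¹ := by group
    rw [this]
    exact K.mul_mem (K.mul_mem hk h3) (K.inv_mem hk)
  have hK1 : ((K : Set G) \ {1}).ncard = Nat.card K - 1 := by
    rw [Set.ncard_diff_singleton_of_mem (show (1 : G) ∈ (K : Set G) from K.one_mem)]
    rfl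
  have hKne : K ≠ ⊥ := by
    rintro rfl
    exact hcon ⟨1, bot_le⟩
  obtain ⟨x, hxK, hx1⟩ : ∃ x, x ∈ K ∧ x ≠ 1 := by
    obtain ⟨a, ha⟩ := Subgroup.ne_bot_iff_exists_ne_one.mp hKne
    exact ⟨a, a.2, fun h => ha (Subtype.ext h)⟩
  obtain ⟨g, hg⟩ := F1 x hxK hx1
  have hxL : x ∈ L g := (hL g x).mpr ⟨hxK, hg⟩
  -- there is an element not covered
  obtain ⟨y, hyK, hy1, hyS⟩ : ∃ y, y ∈ K ∧ y ≠ 1 ∧ y ∉ S K (L g) := by
    by_contra hno
    push Not at hno
    have hEq : S K (L g) = (K : Set G) \ {1} := by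
      apply Set.Subset.antisymm (hSsub g)
      rintro y ⟨hy, hy1⟩
      exact hno y hy hy1
    have h := hcard g
    have h1 : Nat.card (S K (L g)) = Nat.card K - 1 := by
      rw [← hK1, ← hEq]; rfl
    rw [h1] at h
    have h2 := hLlt g
    have h3 : 0 < Nat.card (L g) := Nat.card_pos
    obtain ⟨a, ha⟩ : ∃ a, Nat.card (L g) = a + 1 := ⟨_, (Nat.sub_add_cancel h3).symm⟩
    obtain ⟨b, hb⟩ : ∃ b, Nat.card K = b + 1 := ⟨_, (Nat.sub_add_cancel (by omega : 1 ≤ Nat.card K)).symm⟩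
    rw [ha, hb] at h
    rw [ha, hb] at h2
    simp only [Nat.add_sub_cancel] at h
    nlinarith
  obtain ⟨g', hg'⟩ := F1 y hyK hy1
  have hyL : y ∈ L g' := (hL g' y).mpr ⟨hyK, hg'⟩
  have hdisj : Disjoint (S K (L g)) (S K (L g')) := by
    rw [Set.disjoint_left]
    rintro z ⟨k, hk, h1, h2⟩ ⟨k', hk', h1', -⟩
    apply hyS
    rw [hL] at h1 h1'
    refine ⟨k'⁻¹ * k, K.mul_mem (K.inv_mem hk') hk, ?_, hy1⟩
    rw [hL]
    refine ⟨K.mul_mem (K.mul_mem (K.inv_mem (K.mul_mem (K.inv_mem hk') hk)) hyK) (K.mul_mem (K.inv_mem hk') hk), ?_⟩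
    -- z' = k'⁻¹ z k' is in H^{g'} and in H^{k'⁻¹ k g}
    have h3 := F2' g' (k'⁻¹ * k * g) (k'⁻¹ * z * k') y ?_ h1'.2 ?_ hg'
    · have : g⁻¹ * ((k'⁻¹ * k)⁻¹ * y * (k'⁻¹ * k)) * g = (k'⁻¹ * k * g)⁻¹ * y * (k'⁻¹ * k * g) := by group
      rw [this]; exact h3
    · intro h
      apply h2
      have : z = k' * (k'⁻¹ * z * k') * k'⁻¹ := by group
      rw [this, h]; group
    · have : (k'⁻¹ * k * g)⁻¹ * (k'⁻¹ * z * k') * (k'⁻¹ * k * g) = g⁻¹ * (k⁻¹ * z * k) * g := by group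
      rw [this]; exact h1.2
  have hun : (S K (L g) ∪ S K (L g')).ncard ≤ Nat.card K - 1 := by
    rw [← hK1]
    exact Set.ncard_le_ncard (Set.union_subset (hSsub g) (hSsub g')) (Set.toFinite _)
  rw [Set.ncard_union_eq hdisj (Set.toFinite _) (Set.toFinite _)] at hun
  have e1 : (S K (L g)).ncard = Nat.card (S K (L g)) := rfl
  have e2 : (S K (L g')).ncard = Nat.card (S K (L g')) := rfl
  rw [e1, e2] at hun
  have h1 := hhalf g x hxL hx1
  have h2 := hhalf g' y hyL hy1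
  have h3 : 0 < Nat.card K := Nat.card_pos
  omega

end Cfsg.Agent.S4116
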