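import Cfsg.Statements.S4117
import Mathlib
import Cfsg.Agent.Lib.ZCoprime
-- import your own Cfsg.Agent.* helpers here

set_option autoImplicit false
open Cfsg

namespace Cfsg.Agent.S4117

open Subgroup Cfsg.Agent.Lib.ActSemi
open scoped commutatorElement

section
variable {G A : Type*} [Group G] [Group A] [MulDistribMulAction A G]

/-- the action as a homomorphism -/
abbrev phi : A →* MulAut G := MulDistribMulAction.toMulAut A G

theorem up_comm : up (phi (G := G) (A := A)) (Subgroup.closure {y : G | ∃ (a : A) (g : G), y = g⁻¹ * a • g}) =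
    ⁅KG (phi (G := G) (A := A)), KA (phi (G := G) (A := A))⁆ := by
  rw [up, MonoidHom.map_closure, Subgroup.commutator_def]
  congr 1
  ext z
  constructor
  · rintro ⟨_, ⟨a, g, rfl⟩, rfl⟩
    refine ⟨SemidirectProduct.inl g⁻¹, ⟨g⁻¹, rfl⟩, SemidirectProduct.inr a, ⟨a, rfl⟩, ?_⟩
    rw [commutatorElement_def, map_mul]
    have := conj_inl (phi (G := G) (A := A)) a g
    rw [show (phi (G := G) (A := A)) a g = a • g from rfl] at this
    rw [← this, map_inv, inv_inv]
    group
  · rintro ⟨_, ⟨g, rfl⟩, _, ⟨a, rfl⟩, rfl⟩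
    refine ⟨g * a • g⁻¹, ⟨a, g⁻¹, by rw [inv_inv]⟩, ?_⟩
    rw [commutatorElement_def, map_mul]
    have := conj_inl (phi (G := G) (A := A)) a g⁻¹
    rw [show (phi (G := G) (A := A)) a g⁻¹ = a • g⁻¹ from rfl] at this
    rw [← this, map_inv]
    group

theorem up_fix : up (phi (G := G) (A := A)) (FixedPoints.subgroup A G) =
    KG (phi (G := G) (A := A)) ⊓ centralizer (KA (phi (G := G) (A := A)) : Set (G ⋊[phi (G := G) (A := A)] A)) := by
  ext z
  constructor
  · rintro ⟨g, hg, rfl⟩
    refine mem_inf.mpr ⟨⟨g, rfl⟩, ?_⟩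
    rw [mem_centralizer_iff]
    rintro _ ⟨a, rfl⟩
    have := conj_inl (phi (G := G) (A := A)) a g
    rw [show (phi (G := G) (A := A)) a g = a • g from rfl, show a • g = g from hg a] at this
    exact mul_inv_eq_iff_eq_mul.mp this
  · rintro ⟨⟨g, rfl⟩, hz⟩
    refine ⟨g, ?_, rfl⟩
    intro a
    have h1 := mem_centralizer_iff.mp hz (SemidirectProduct.inr a) ⟨a, rfl⟩
    have := conj_inl (phi (G := G) (A := A)) a g
    rw [h1] at this
    rw [show (phi (G := G) (A := A)) a g = a • g from rfl] at this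
    have h2 : (SemidirectProduct.inl g : G ⋊[phi (G := G) (A := A)] A) = SemidirectProduct.inl (a • g) := by
      rw [← this]; group
    exact (SemidirectProduct.inl_injective h2).symm

end

/-- Let A be a finite group acting on the finite group G by automorphisms with the orders of A and G coprime, and suppose every Sylow subgroup of G is cyclic. Then the fixed-point subgroup C_G(A) is a Hall subgroup of G (its order is coprime to its index), the subgroup [G, A] generated by the elements g⁻¹·a(g) is cyclic and normal with [G, A] ∩ C_G(A) = 1 and [G, A]·C_G(A) = G. -/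
theorem result {G A : Type*} [Group G] [Finite G] [Group A] [Finite A]
    [MulDistribMulAction A G] (hcop : (Nat.card A).Coprime (Nat.card G))
    (hcyc : ∀ (p : ℕ) [Fact p.Prime] (P : Sylow p G), IsCyclic (P : Subgroup G)) :
    (Nat.card (MulAction.fixedPoints A G : Set G)).Coprime (Nat.card G / Nat.card (MulAction.fixedPoints A G : Set G)) ∧
    IsCyclic (Subgroup.closure {y : G | ∃ (a : A) (g : G), y = g⁻¹ * a • g}) ∧
    (Subgroup.closure {y : G | ∃ (a : A) (g : G), y = g⁻¹ * a • g}).Normal ∧
    (Subgroup.closure {y : G | ∃ (a : A) (g : G), y = g⁻¹ * a • g} : Set G) ∩ MulAction.fixedPoints A G = {1} ∧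
    Subgroup.closure {y : G | ∃ (a : A) (g : G), y = g⁻¹ * a • g} ⊔ Subgroup.closure (MulAction.fixedPoints A G) = ⊤ := by
  classical
  set φ : A →* MulAut G := phi with hφ
  have hn := KG_normal φ
  have hZG : IsZGroup G := by
    rw [isZGroup_iff]
    intro p hp P
    have : Fact p.Prime := ⟨hp⟩
    exact hcyc p P
  have hZ : IsZGroup (KG φ) := by
    have e : G ≃* KG φ := MonoidHom.ofInjective SemidirectProduct.inl_injective
    exact IsZGroup.of_injective (f := e.symm.toMonoidHom) e.symm.injective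
  have hAK : KA φ ≤ normalizer (KG φ : Set (G ⋊[φ] A)) := by rw [normalizer_eq_top]; exact le_top
  have hcop' : (Nat.card (KA φ)).Coprime (Nat.card (KG φ)) := by
    rw [card_KA, card_KG]; exact hcop
  set N : Subgroup G := Subgroup.closure {y : G | ∃ (a : A) (g : G), y = g⁻¹ * a • g} with hN
  set F : Subgroup G := FixedPoints.subgroup A G with hF
  have hupN : up φ N = ⁅KG φ, KA φ⁆ := up_comm
  have hupF : up φ F = KG φ ⊓ centralizer (KA φ : Set (G ⋊[φ] A)) := up_fix
  have h1 := Cfsg.Agent.Lib.ZCoprime.commutator_isCyclic hAK hcop'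
  have h2 := Cfsg.Agent.Lib.ZCoprime.inf_commutator_eq_bot hAK hcop'
  have h3 := Cfsg.Agent.Lib.ZCoprime.coprime_card hAK hcop'
  have h4 := Cfsg.Agent.Lib.CoprimeAction2.commutator_sup_centralizer hAK hcop' (Or.inr inferInstance)
  have hinj : Function.Injective (SemidirectProduct.inl : G →* G ⋊[φ] A) := SemidirectProduct.inl_injective
  have hNF : N ⊓ F = ⊥ := by
    apply Subgroup.map_injective hinj
    rw [Subgroup.map_inf _ _ _ hinj, Subgroup.map_bot]
    change up φ N ⊓ up φ F = ⊥
    rw [hupN, hupF, eq_bot_iff, ← h2]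
    exact le_inf inf_le_left (inf_le_right.trans inf_le_right)
  have hNs : N ⊔ F = ⊤ := by
    apply Subgroup.map_injective hinj
    rw [Subgroup.map_sup]
    change up φ N ⊔ up φ F = up φ ⊤
    rw [hupN, hupF, up_top, h4]
  have hNn : N.Normal := by
    rw [← down_up φ N, hupN]
    have : (⁅KG φ, KA φ⁆.subgroupOf (KG φ)).Normal :=
      Cfsg.Agent.Lib.SubgroupTools.normal_subgroupOf_iff_le_normalizer' (normalizer_commutator_ge_left _ _)
    constructor
    intro x hx g
    have h5 := normalizer_commutator_ge_left (KG φ) (KA φ) (⟨g, rfl⟩ : (SemidirectProduct.inl g : G ⋊[φ] A) ∈ KG φ)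
    have h6 := (mem_normalizer_iff.mp h5 _).mp hx
    change (SemidirectProduct.inl (g * x * g⁻¹) : G ⋊[φ] A) ∈ (⁅KG φ, KA φ⁆ : Subgroup (G ⋊[φ] A))
    rw [map_mul, map_mul, map_inv]
    exact h6
  have hNcyc : IsCyclic N := by
    have e : N ≃* up φ N := N.equivMapOfInjective _ hinj
    rw [hupN] at e
    exact e.isCyclic.mpr h1
  have hcard : Nat.card N * Nat.card F = Nat.card G := by
    have h5 := Cfsg.Agent.Lib.SubgroupTools.card_sup_of_disjoint (N := N) (H := F)
      (by rw [normalizer_eq_top]; exact le_top) (disjoint_iff.mpr hNF)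
    rw [hNs, card_top] at h5
    exact h5.symm
  have hFc : Nat.card (MulAction.fixedPoints A G : Set G) = Nat.card F := rfl
  refine ⟨?_, hNcyc, hNn, ?_, ?_⟩
  · rw [hFc, ← hcard, Nat.mul_div_cancel _ Nat.card_pos]
    have e1 : Nat.card F = Nat.card (KG φ ⊓ centralizer (KA φ : Set (G ⋊[φ] A)) : Subgroup _) := by
      rw [← hupF, card_up]
    have e2 : Nat.card N = Nat.card ↥⁅KG φ, KA φ⁆ := by rw [← hupN, card_up]
    rw [e1, e2]; exact h3
  · have h5 : ((N ⊓ F : Subgroup G) : Set G) = {1} := by rw [hNF]; rfl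
    exact h5
  · have h5 : Subgroup.closure (MulAction.fixedPoints A G) = F := Subgroup.closure_eq F
    rw [h5]; exact hNs

end Cfsg.Agent.S4117
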