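import Cfsg.Statements.S4127
import Cfsg.Agent.Lib.DirectSylow
import Cfsg.Agent.Lib.CoprimeOrbitLin
import Cfsg.Agent.Lib.CoprimeAction2
import Cfsg.Agent.Lib.Cores

set_option autoImplicit false
open Cfsg

namespace Cfsg.Agent.S4127

open Subgroup in
/-- a `p`-element with `p`-power class size lies in `O_p(G)` -/
theorem mem_pCore_of_index {G : Type*} [Group G] [Finite G] (p : ℕ) [Fact p.Prime] (x : G) (k a : ℕ)
    (hk : orderOf x = p ^ k) (ha : (centralizer ({x} : Set G)).index = p ^ a) : x ∈ Cfsg.pCore p G := by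
  have hp : p.Prime := Fact.out
  have hx : IsPGroup p (zpowers x) := IsPGroup.of_card (n := k) (by rw [Nat.card_zpowers]; exact hk)
  obtain ⟨P, hP⟩ := hx.exists_le_sylow
  have hxP : x ∈ (P : Subgroup G) := hP (mem_zpowers x)
  have hcop : ((centralizer ({x} : Set G)).index).Coprime (P : Subgroup G).index := by
    rw [ha]
    exact ((Nat.Prime.coprime_iff_not_dvd hp).2 P.not_dvd_index).pow_left a
  have h1 : Subgroup.normalClosure {x} ≤ (P : Subgroup G) := by
    unfold Subgroup.normalClosure
    rw [Subgroup.closure_le]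
    intro y hy
    rw [Group.mem_conjugatesOfSet_iff] at hy
    obtain ⟨z, hz, hzy⟩ := hy
    rw [Set.mem_singleton_iff] at hz
    subst hz
    obtain ⟨g, rfl⟩ := isConj_iff.1 hzy
    obtain ⟨b, hb, c, hc, rfl⟩ := Cfsg.Agent.Lib.CoprimeOrbitLin.exists_mul_eq_of_coprime_index _ _ hcop g
    have h2 : c * z = z * c := mem_centralizer_singleton_iff.1 hc
    have h3 : b * c * z * (b * c)⁻¹ = b * z * b⁻¹ := by
      calc b * c * z * (b * c)⁻¹ = b * (c * z) * c⁻¹ * b⁻¹ := by group
        _ = b * (z * c) * c⁻¹ * b⁻¹ := by rw [h2]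
        _ = b * z * b⁻¹ := by group
    rw [h3]
    exact mul_mem (mul_mem hb hxP) (inv_mem hb)
  have h2 : IsPGroup p (Subgroup.normalClosure {x}) := P.2.to_le h1
  have h3 : Subgroup.normalClosure {x} ≤ Cfsg.pCore p G := le_sSup ⟨Subgroup.normalClosure_normal, h2⟩
  exact h3 (Subgroup.subset_normalClosure (Set.mem_singleton x))

open Subgroup in
/-- Let G be a finite group, p a prime and p^a the largest power of p dividing the size of any conjugacy class of G. If some element of p-power order has a conjugacy class of size exactly p^a, then G has a normal p-complement. -/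
theorem result {G : Type*} [Group G] [Finite G] (p : ℕ) [Fact p.Prime]
    (a : ℕ) (hmax : ∀ y : G, ¬ p ^ (a + 1) ∣ (Subgroup.centralizer ({y} : Set G)).index)
    (hx : ∃ x : G, (∃ k : ℕ, orderOf x = p ^ k) ∧ (Subgroup.centralizer ({x} : Set G)).index = p ^ a) :
    Cfsg.HasNormalPComplement p G := by
  have hp : p.Prime := Fact.out
  obtain ⟨x, ⟨k, hk⟩, hxa⟩ := hx
  set C := centralizer ({x} : Set G) with hC
  have hCreg : ∀ y : C, ¬ p ∣ orderOf y → ¬ p ∣ (centralizer ({y} : Set C)).index := by
    intro y hy hd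
    have hcop : (orderOf x).Coprime (orderOf (y : G)) := by
      rw [hk, Subgroup.orderOf_coe]
      exact ((Nat.Prime.coprime_iff_not_dvd hp).2 hy).pow_left k
    have hcomm : Commute x (y : G) := (mem_centralizer_singleton_iff.1 y.2).symm
    have h1 := Cfsg.Agent.Lib.H70Basic.centralizer_mul_of_coprime hcomm hcop
    apply hmax (x * y)
    rw [h1, ← hC, inf_comm]
    have h2 : (centralizer ({(y : G)} : Set G) ⊓ C).index = (centralizer ({(y : G)} : Set G)).relIndex C * C.index := by
      rw [← Subgroup.inf_relIndex_right]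
      exact (Subgroup.relIndex_mul_index inf_le_right).symm
    have h3 : (centralizer ({(y : G)} : Set G)).subgroupOf C = centralizer ({y} : Set C) := by
      ext z
      rw [mem_subgroupOf, mem_centralizer_singleton_iff, mem_centralizer_singleton_iff]
      exact ⟨fun h => Subtype.ext h, fun h => congrArg Subtype.val h⟩
    have h4 : (centralizer ({(y : G)} : Set G)).relIndex C = (centralizer ({y} : Set C)).index := by
      rw [← h3]; rfl
    rw [h2, h4, hxa, pow_succ, mul_comm]
    exact Nat.mul_dvd_mul hd dvd_rfl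
  obtain ⟨P0⟩ : Nonempty (Sylow p C) := inferInstance
  obtain ⟨hP0n, N0, hN0n, hN0c, hN0P, hN0mem⟩ := Cfsg.Agent.Lib.DirectSylow.direct_factor hCreg P0
  set K : Subgroup G := N0.map C.subtype with hK
  have hKC : K ≤ C := Subgroup.map_subtype_le _
  have hKmem : ∀ y ∈ C, (orderOf y).Coprime p → y ∈ K := by
    intro y hy hord
    refine ⟨⟨y, hy⟩, (hN0mem _).2 ?_, rfl⟩
    rwa [Subgroup.orderOf_mk]
  have hKord : ∀ y ∈ K, (orderOf y).Coprime p := by
    rintro _ ⟨y, hy, rfl⟩
    have := (hN0mem y).1 hy
    rwa [← Subgroup.orderOf_coe] at this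
  have hKcard : (Nat.card K).Coprime p := by
    rw [hK, Subgroup.card_map_of_injective C.subtype_injective, ← hN0c.index_eq_card]
    exact ((Nat.Prime.coprime_iff_not_dvd hp).2 P0.not_dvd_index).symm
  set U := Cfsg.pCore p G with hU
  have hUn : U.Normal := inferInstance
  have hUp : IsPGroup p U := Cfsg.Agent.Lib.Cores.isPGroup_pCore p G
  have hxU : x ∈ U := mem_pCore_of_index p x k a hk hxa
  have hKU : K ≤ centralizer (U : Set G) := by
    refine Cfsg.Agent.Lib.CoprimeAction2.thompson_PxQ (P := zpowers x) (Q := K)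
      (IsPGroup.of_card (n := k) (by rw [Nat.card_zpowers]; exact hk)) hKcard ?_ _ U rfl hUp ?_ ?_ ?_
    · rw [zpowers_le, mem_centralizer_iff]
      intro y hy
      exact mem_centralizer_singleton_iff.1 (hKC hy)
    · rw [Subgroup.normalizer_eq_top]; exact le_top
    · rw [Subgroup.normalizer_eq_top]; exact le_top
    · rintro y ⟨hyU, hyC⟩
      have hyC' : y ∈ C := by
        rw [hC, mem_centralizer_singleton_iff]
        exact ((mem_centralizer_iff.1 hyC) x (mem_zpowers x)).symm
      -- y is a p-element of C, so in P0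
      have hyP : (⟨y, hyC'⟩ : C) ∈ (P0 : Subgroup C) := by
        obtain ⟨j, hj⟩ := (IsPGroup.iff_orderOf.1 hUp) ⟨y, hyU⟩
        rw [Subgroup.orderOf_mk] at hj
        have h1 : IsPGroup p (zpowers (⟨y, hyC'⟩ : C)) :=
          IsPGroup.of_card (n := j) (by rw [Nat.card_zpowers, Subgroup.orderOf_mk, hj])
        obtain ⟨R, hR⟩ := h1.exists_le_sylow
        have hRP : R = P0 := by
          obtain ⟨z, hz⟩ := MulAction.exists_smul_eq C P0 R
          rw [← hz, Sylow.smul_eq_of_normal]
        rw [← hRP]
        exact hR (mem_zpowers _)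
      rw [mem_centralizer_iff]
      rintro _ ⟨z, hz, rfl⟩
      have := mem_centralizer_iff.1 (hN0P hz) _ hyP
      exact (congrArg Subtype.val this).symm
  have hWC : centralizer (U : Set G) ≤ C := by
    intro y hy
    rw [hC, mem_centralizer_singleton_iff]
    exact (mem_centralizer_iff.1 hy x hxU).symm
  have hKn : K.Normal := by
    constructor
    intro y hy g
    refine hKmem _ (hWC ((inferInstance : (centralizer (U : Set G)).Normal).conj_mem y (hKU hy) g)) ?_
    have h1 : orderOf (g * y * g⁻¹) = orderOf y := by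
      have := orderOf_injective (MulAut.conj g).toMonoidHom (MulAut.conj g).injective y
      exact this
    rw [h1]
    exact hKord y hy
  rw [Cfsg.Agent.Lib.PNilp.hasNormalPComplement_iff]
  refine ⟨K, hKn, (Nat.Prime.coprime_iff_not_dvd hp).1 hKcard.symm, ?_⟩
  obtain ⟨j, hj⟩ := IsPGroup.iff_card.1 P0.2
  refine ⟨j + a, ?_⟩
  have h1 : K.relIndex C = p ^ j := by
    have h2 : K.relIndex C = N0.index := by
      rw [hK]
      show ((Subgroup.map C.subtype N0).comap C.subtype).index = _
      rw [Subgroup.comap_map_eq_self_of_injective C.subtype_injective]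
    rw [h2, ← hj]
    exact hN0c.symm.index_eq_card
  rw [← Subgroup.relIndex_mul_index hKC, h1, hxa, pow_add]

end Cfsg.Agent.S4127
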