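import Cfsg.Statements.S4126
import Cfsg.Agent.Lib.OmegaCent
import Cfsg.Agent.Lib.Transfer
import Cfsg.Agent.Lib.PNilp
import Cfsg.Agent.Lib.Cores
import Cfsg.Agent.S4127

set_option autoImplicit false
open Cfsg

namespace Cfsg.Agent.S4126

open Subgroup in
/-- Let G be a finite group and p a prime. Suppose every element of order p, and when p = 2 also every element of order 4, has a conjugacy class of p-power size. Then G has a normal p-complement. -/
theorem result {G : Type*} [Group G] [Finite G] (p : ℕ) [Fact p.Prime]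
    (h : ∀ x : G, (orderOf x = p ∨ (p = 2 ∧ orderOf x = 4)) → ∃ a : ℕ, (Subgroup.centralizer ({x} : Set G)).index = p ^ a) :
    Cfsg.HasNormalPComplement p G := by
  have hp : p.Prime := Fact.out
  have hmem : ∀ x : G, (orderOf x = p ∨ (p = 2 ∧ orderOf x = 4)) → x ∈ Cfsg.pCore p G := by
    intro x hx
    obtain ⟨a, ha⟩ := h x hx
    rcases hx with h1 | ⟨h1, h2⟩
    · exact Cfsg.Agent.S4127.mem_pCore_of_index p x 1 a (by rw [h1, pow_one]) ha
    · exact Cfsg.Agent.S4127.mem_pCore_of_index p x 2 a (by rw [h2, h1]; rfl) ha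
  have hN : Cfsg.pResidual p G ≤ centralizer ((Cfsg.pCore p G : Subgroup G) : Set G) := by
    have := Cfsg.Agent.Lib.PNilp.pResidual_characteristic (G := G) p
    have hnorm : (Cfsg.pCore p G).Normal := inferInstance
    refine Cfsg.Agent.Lib.OmegaCent.le_centralizer_of_omega (p := p) _ ?_ _ ?_ ?_ ?_
    · intro H hH
      show Subgroup.closure {g : G | Nat.Coprime (orderOf g) p} ≤ H
      rw [Subgroup.closure_le]
      intro g hg
      exact hH g (Cfsg.Agent.Lib.PNilp.mem_pResidual_of_coprime hg) hg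
    · exact Cfsg.Agent.Lib.Cores.isPGroup_pCore p G
    · rw [Subgroup.normalizer_eq_top]; exact le_top
    · intro u hu hu'
      obtain ⟨a, ha⟩ := h u hu'
      have hd : (centralizer ({u} : Set G)).relIndex (Cfsg.pResidual p G) ∣ p ^ a := by
        rw [← ha]
        exact Cfsg.Agent.Lib.OmegaCent.relIndex_dvd_index_normal _ _
      obtain ⟨k, -, hk⟩ := (Nat.dvd_prime_pow hp).1 hd
      exact ⟨k, hk⟩
  rw [Cfsg.Agent.Lib.Transfer.hasNormalPComplement_iff_forall_centralizer]
  intro Q hQ g hg hgo
  have hkey : zpowers g ≤ centralizer (Q : Set G) := by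
    refine Cfsg.Agent.Lib.OmegaCent.le_centralizer_of_omega (p := p) _ ?_ _ hQ ?_ ?_
    · intro H hH
      rw [zpowers_le]
      exact hH g (mem_zpowers g) hgo
    · rw [zpowers_le]; exact hg
    · intro u hu hu'
      refine ⟨0, ?_⟩
      rw [pow_zero, Subgroup.relIndex_eq_one, zpowers_le]
      have h1 : g ∈ Cfsg.pResidual p G := Cfsg.Agent.Lib.PNilp.mem_pResidual_of_coprime hgo
      rw [mem_centralizer_singleton_iff]
      exact (Subgroup.mem_centralizer_iff.1 (hN h1) u (hmem u hu')).symm
  exact hkey (mem_zpowers g)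

end Cfsg.Agent.S4126
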