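import Cfsg.Statements.S4135
import Cfsg.Agent.Lib.SizeAct
import Cfsg.Agent.Lib.RelSylow
import Cfsg.Agent.Lib.ConjCover
import Cfsg.Agent.Lib.H31PGroup
-- import your own Cfsg.Agent.* helpers here

set_option autoImplicit false
open Cfsg

namespace Cfsg.Agent.S4135

open Subgroup Cfsg.Agent.Lib.RelSylow

variable {G : Type*} [Group G] [Finite G]

theorem cent_ne_top {x : G} (hx : x ∉ center G) : (centralizer ({x} : Set G)).index ≠ 1 := by
  rw [Ne, index_eq_one]
  intro h
  apply hx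
  rw [mem_center_iff]
  intro g
  have : g ∈ centralizer ({x} : Set G) := by rw [h]; exact mem_top g
  exact mem_centralizer_singleton_iff.1 this

theorem ppart {p : ℕ} (hp : p.Prime) (x : G) : ∃ u v : G, u ∈ zpowers x ∧ v ∈ zpowers x ∧ x = u * v ∧
    (∃ k, u ^ p ^ k = 1) ∧ p.Coprime (orderOf v) := by
  obtain ⟨k, m', hm', hk⟩ := Nat.exists_eq_pow_mul_and_not_dvd (orderOf_pos x).ne' p hp.one_lt.ne'
  have hcop : Nat.Coprime (p ^ k) m' := Nat.Coprime.pow_left k ((Nat.Prime.coprime_iff_not_dvd hp).2 hm')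
  have hb := Nat.gcd_eq_gcd_ab (p ^ k) m'
  rw [hcop.gcd_eq_one] at hb
  have hm0 : 0 < m' := Nat.pos_of_ne_zero (by rintro rfl; exact hm' (dvd_zero _))
  refine ⟨x ^ ((m' : ℤ) * Nat.gcdB (p ^ k) m'), x ^ (((p ^ k : ℕ) : ℤ) * Nat.gcdA (p ^ k) m'),
    zpow_mem (mem_zpowers x) _, zpow_mem (mem_zpowers x) _, ?_, ⟨k, ?_⟩, ?_⟩
  · rw [← zpow_add, add_comm, ← hb]; simp
  · rw [← zpow_natCast, ← zpow_mul, mul_right_comm, zpow_mul]
    have : x ^ ((m' : ℤ) * ((p ^ k : ℕ) : ℤ)) = 1 := by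
      rw [mul_comm, ← Nat.cast_mul, zpow_natCast, ← hk, pow_orderOf_eq_one]
    rw [this, one_zpow]
  · have h1 : orderOf (x ^ (((p ^ k : ℕ) : ℤ) * Nat.gcdA (p ^ k) m')) ∣ m' := by
      rw [orderOf_dvd_iff_pow_eq_one, ← zpow_natCast, ← zpow_mul, mul_right_comm, zpow_mul]
      have : x ^ (((p ^ k : ℕ) : ℤ) * (m' : ℤ)) = 1 := by
        rw [← Nat.cast_mul, zpow_natCast, ← hk, pow_orderOf_eq_one]
      rw [this, one_zpow]
    exact ((Nat.Prime.coprime_iff_not_dvd hp).2 hm').coprime_dvd_right h1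

/-- commuting elements of coprime orders -/
theorem cent_le {N : Subgroup G} {m : ℕ}
    (h : ∀ x ∈ N, (Subgroup.centralizer ({x} : Set G)).index = 1 ∨ (Subgroup.centralizer ({x} : Set G)).index = m)
    {x y : G} (hx : x ∈ N) (hy : y ∈ N) (hxy : x * y = y * x) (hcop : (orderOf x).Coprime (orderOf y))
    (hxc : x ∉ center G) : centralizer ({x} : Set G) ≤ centralizer ({y} : Set G) := by
  have hc : Commute x y := hxy
  have hx1 : x ∈ zpowers (x * y) := by
    obtain ⟨c, hc1⟩ := exists_pow_eq_self_of_coprime (x := x) (n := orderOf y) hcop.symm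
    rw [mem_zpowers_iff]
    refine ⟨((orderOf y * c : ℕ) : ℤ), ?_⟩
    rw [zpow_natCast, pow_mul, hc.mul_pow, pow_orderOf_eq_one, mul_one, hc1]
  have hy1 : y ∈ zpowers (x * y) := by
    obtain ⟨c, hc1⟩ := exists_pow_eq_self_of_coprime (x := y) (n := orderOf x) hcop
    rw [mem_zpowers_iff]
    refine ⟨((orderOf x * c : ℕ) : ℤ), ?_⟩
    rw [zpow_natCast, pow_mul, hc.mul_pow, pow_orderOf_eq_one, one_mul, hc1]
  have hle : ∀ z ∈ zpowers (x * y), centralizer ({x * y} : Set G) ≤ centralizer ({z} : Set G) := by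
    intro z hz g hg
    obtain ⟨k, rfl⟩ := mem_zpowers_iff.1 hz
    rw [mem_centralizer_singleton_iff] at hg ⊢
    exact (Commute.zpow_right (show Commute g (x * y) from hg) k)
  have hxyc : x * y ∉ center G := fun h => hxc ((zpowers_le.2 h) hx1)
  have h1 := (h _ (N.mul_mem hx hy)).resolve_left (cent_ne_top hxyc)
  have h2 := (h _ hx).resolve_left (cent_ne_top hxc)
  have h3 : centralizer ({x * y} : Set G) = centralizer ({x} : Set G) := by
    apply Subgroup.eq_of_le_of_card_ge (hle x hx1)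
    have e1 := Subgroup.card_mul_index (centralizer ({x * y} : Set G))
    have e2 := Subgroup.card_mul_index (centralizer ({x} : Set G))
    rw [h1] at e1
    rw [h2] at e2
    have hm : 0 < m := by
      rw [← h2]; exact Nat.pos_of_ne_zero Subgroup.index_ne_zero_of_finite
    exact le_of_eq (Nat.eq_of_mul_eq_mul_right hm (e2.trans e1.symm))
  rw [← h3]
  exact hle y hy1

theorem dvd_index_of_mem {H : Type*} [Group H] [Finite H] {K : Subgroup H} [K.Normal] {r : ℕ} (hr : r.Prime)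
    {x : H} (hx : x ∉ K) (hxr : ∃ k, x ^ r ^ k = 1) : r ∣ K.index := by
  obtain ⟨k, hk⟩ := hxr
  have h1 : ((x : H ⧸ K)) ^ r ^ k = 1 := by rw [← QuotientGroup.mk_pow, hk]; rfl
  obtain ⟨j, -, hj⟩ := (Nat.dvd_prime_pow hr).1 (orderOf_dvd_of_pow_eq_one h1)
  have hj0 : j ≠ 0 := by
    rintro rfl
    rw [pow_zero, orderOf_eq_one_iff] at hj
    exact hx ((QuotientGroup.eq_one_iff x).1 hj)
  have h2 : orderOf (x : H ⧸ K) ∣ K.index := by
    rw [Subgroup.index_eq_card]; exact orderOf_dvd_natCard _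
  rw [hj] at h2
  exact (dvd_pow_self r hj0).trans h2

theorem mem_of_dvd_index {H : Type*} [Group H] [Finite H] {K : Subgroup H} [K.Normal] {r : ℕ} [hr : Fact r.Prime]
    (h : r ∣ K.index) : ∃ x : H, x ∉ K ∧ ∃ k, x ^ r ^ k = 1 := by
  rw [Subgroup.index_eq_card] at h
  obtain ⟨v', hv'⟩ := exists_prime_orderOf_dvd_card' (G := H ⧸ K) r h
  obtain ⟨v, rfl⟩ := QuotientGroup.mk_surjective v'
  obtain ⟨u, w, -, -, hv, hu, hw⟩ := ppart hr.out v
  refine ⟨u, fun huK => ?_, hu⟩
  have h1 : (u : H ⧸ K) = 1 := (QuotientGroup.eq_one_iff u).2 huK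
  rw [hv, QuotientGroup.mk_mul, h1, one_mul] at hv'
  have h2 : orderOf (w : H ⧸ K) ∣ orderOf w := orderOf_map_dvd (QuotientGroup.mk' K) w
  rw [hv'] at h2
  exact hr.out.one_lt.ne' (Nat.dvd_one.1 (hw.gcd_eq_one ▸ Nat.dvd_gcd dvd_rfl h2))

theorem center_le_cent (x : G) : center G ≤ centralizer ({x} : Set G) := center_le_centralizer _

instance cn (C : Subgroup G) : ((center G).subgroupOf C).Normal := inferInstance

theorem exists_comm {r : ℕ} [hr : Fact r.Prime] {y x0 : G} (hx0 : x0 ∉ center G) (hx0r : ∃ k, x0 ^ r ^ k = 1)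
    (hcard : (centralizer ({y} : Set G)).index = (centralizer ({x0} : Set G)).index) :
    ∃ x, x ∉ center G ∧ (∃ k, x ^ r ^ k = 1) ∧ x * y = y * x := by
  have h1 := relIndex_mul_index (center_le_cent x0)
  have h2 := relIndex_mul_index (center_le_cent y)
  rw [hcard, ← h1] at h2
  have h3 := Nat.eq_of_mul_eq_mul_right (Nat.pos_of_ne_zero Subgroup.index_ne_zero_of_finite) h2
  have h4 : r ∣ ((center G).subgroupOf (centralizer ({x0} : Set G))).index := by
    apply dvd_index_of_mem hr.out (x := (⟨x0, mem_centralizer_singleton_iff.2 rfl⟩ : centralizer ({x0} : Set G)))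
    · intro h; exact hx0 (mem_subgroupOf.1 h)
    · obtain ⟨k, hk⟩ := hx0r
      exact ⟨k, Subtype.ext hk⟩
  have h5 : r ∣ ((center G).subgroupOf (centralizer ({y} : Set G))).index := by
    change r ∣ (center G).relIndex _
    rw [h3]; exact h4
  obtain ⟨⟨x, hx⟩, hxZ, k, hk⟩ := mem_of_dvd_index h5
  refine ⟨x, fun h => hxZ (mem_subgroupOf.2 h), ⟨k, congrArg Subtype.val hk⟩, mem_centralizer_singleton_iff.1 hx⟩

/-- if `t` does not divide `m`, then `t`-elements of `N` are centralized by `N` -/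
theorem cent_of_not_dvd {N : Subgroup G} [hN : N.Normal] {m : ℕ}
    (h : ∀ x ∈ N, (Subgroup.centralizer ({x} : Set G)).index = 1 ∨ (Subgroup.centralizer ({x} : Set G)).index = m)
    {t : ℕ} [ht : Fact t.Prime] (htm : ¬ t ∣ m) {w : G} (hw : w ∈ N) (hwt : ∃ k, w ^ t ^ k = 1) :
    N ≤ centralizer ({w} : Set G) := by
  have key : (centralizer ({w} : Set G)).subgroupOf N = ⊤ := by
    apply Cfsg.Agent.Lib.ConjCover.eq_top_of_forall_conj
    rintro ⟨x, hx⟩
    obtain ⟨T, hT⟩ := exists_syl t (centralizer ({x} : Set G))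
    have hidx : ¬ t ∣ (centralizer ({x} : Set G)).index := by
      rcases h x hx with h1 | h1
      · rw [h1]; exact ht.out.one_lt.ne' ∘ Nat.dvd_one.1
      · rwa [h1]
    have hTtop : IsSyl t T ⊤ := by
      refine ⟨le_top, hT.2.1, ?_⟩
      rw [relIndex_top_right, ← relIndex_mul_index hT.1]
      intro h2
      rcases ht.out.dvd_mul.1 h2 with h2 | h2
      · exact hT.2.2 h2
      · exact hidx h2
    have hTN : IsSyl t (T ⊓ N) N := hTtop.inf le_top (by rw [normalizer_eq_top])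
    have hwp : IsPGroup t (zpowers w) := by
      rw [IsPGroup.iff_card]
      obtain ⟨k, hk⟩ := hwt
      obtain ⟨j, -, hj⟩ := (Nat.dvd_prime_pow ht.out).1 (orderOf_dvd_of_pow_eq_one hk)
      exact ⟨j, by rw [Nat.card_zpowers, hj]⟩
    obtain ⟨n, hn, hle⟩ := hTN.exists_conj_le hwp (zpowers_le.2 hw)
    have h3 := hle (mem_zpowers w)
    rw [mem_conj_iff] at h3
    refine ⟨⟨n⁻¹, N.inv_mem hn⟩, ?_⟩
    rw [mem_subgroupOf]
    show (n⁻¹)⁻¹ * x * n⁻¹ ∈ _
    rw [inv_inv, mem_centralizer_singleton_iff]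
    have h4 := mem_centralizer_singleton_iff.1 (hT.1 h3.1)
    -- h4 : (n⁻¹ w n) x = x (n⁻¹ w n)
    calc n * x * n⁻¹ * w = n * (x * (n⁻¹ * w * n)) * n⁻¹ := by group
      _ = n * ((n⁻¹ * w * n) * x) * n⁻¹ := by rw [h4]
      _ = w * (n * x * n⁻¹) := by group
  intro x hx
  have : (⟨x, hx⟩ : N) ∈ (centralizer ({w} : Set G)).subgroupOf N := by rw [key]; exact mem_top _
  exact mem_subgroupOf.1 this


theorem exists_norm {N : Subgroup G} [hN : N.Normal] {t : ℕ} [ht : Fact t.Prime] {a : G} (ha : a ∈ N)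
    (hac : a ∉ center G) (hat : ∃ k, a ^ t ^ k = 1) {C : Subgroup G} (hC : centralizer ({a} : Set G) = C)
    (htC : t ∣ C.index) (hA : ∀ b ∈ C ⊓ N, b ∉ center G → centralizer ({b} : Set G) = C) :
    ∃ g ∈ normalizer ((C ⊓ N : Subgroup G) : Set G), g ∉ C ∧ ∃ k, g ^ t ^ k = 1 := by
  have haC : a ∈ C := by rw [← hC]; exact mem_centralizer_singleton_iff.2 rfl
  have hap : IsPGroup t (zpowers a) := by
    rw [IsPGroup.iff_card]
    obtain ⟨k, hk⟩ := hat
    obtain ⟨j, -, hj⟩ := (Nat.dvd_prime_pow ht.out).1 (orderOf_dvd_of_pow_eq_one hk)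
    exact ⟨j, by rw [Nat.card_zpowers, hj]⟩
  obtain ⟨P, haP, hP⟩ := exists_isSyl_ge hap (zpowers_le.2 haC)
  obtain ⟨T, hPT, hT⟩ := exists_isSyl_ge hP.2.1 (le_top : P ≤ ⊤)
  have hPTC : P = T ⊓ C := hP.eq_of_le (hT.2.1.to_le inf_le_left) inf_le_right (le_inf hPT hP.1)
  have hne : P ≠ T := by
    intro h
    have hTC : T ≤ C := h ▸ hP.1
    apply hT.2.2
    rw [relIndex_top_right, ← relIndex_mul_index hTC]
    exact dvd_mul_of_dvd_right htC _
  obtain ⟨g, hgT, hgP, hg⟩ := Cfsg.Agent.Lib.H31PGroup.exists_mem_normalizer hT.2.1 (lt_of_le_of_ne hPT hne)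
  have hgC : g ∉ C := by
    intro h
    apply hgP
    rw [hPTC]; exact ⟨hgT, h⟩
  have h1 : g * a * g⁻¹ ∈ P := (mem_normalizer_iff.1 hg a).1 (haP (mem_zpowers a))
  have h2 : g * a * g⁻¹ ∈ C ⊓ N := ⟨hP.1 h1, hN.conj_mem a ha g⟩
  have h3 : g * a * g⁻¹ ∉ center G := by
    intro h
    apply hac
    have := (inferInstance : (center G).Normal).conj_mem _ h g⁻¹
    convert this using 1
    group
  have h4 := hA _ h2 h3
  have hgN : g ∈ normalizer (C : Set G) := by
    rw [mem_normalizer_iff]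
    intro x
    have h5 : x ∈ C ↔ x * a = a * x := by rw [← hC, mem_centralizer_singleton_iff]
    have h6 : g * x * g⁻¹ ∈ C ↔ (g * x * g⁻¹) * (g * a * g⁻¹) = (g * a * g⁻¹) * (g * x * g⁻¹) := by
      rw [← h4, mem_centralizer_singleton_iff]
    rw [h5, h6]
    constructor
    · intro h
      calc (g * x * g⁻¹) * (g * a * g⁻¹) = g * (x * a) * g⁻¹ := by group
        _ = g * (a * x) * g⁻¹ := by rw [h]
        _ = _ := by group
    · intro h
      calc x * a = g⁻¹ * ((g * x * g⁻¹) * (g * a * g⁻¹)) * g := by group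
        _ = g⁻¹ * ((g * a * g⁻¹) * (g * x * g⁻¹)) * g := by rw [h]
        _ = _ := by group
  refine ⟨g, ?_, hgC, ?_⟩
  · rw [mem_normalizer_iff]
    intro x
    rw [mem_inf, mem_inf]
    have h7 := mem_normalizer_iff.1 hgN x
    have h8 : x ∈ N ↔ g * x * g⁻¹ ∈ N := by
      constructor
      · intro h; exact hN.conj_mem x h g
      · intro h
        have := hN.conj_mem _ h g⁻¹
        convert this using 1
        group
    rw [h7, h8]
  · obtain ⟨k, hk⟩ := hT.2.1 ⟨g, hgT⟩
    exact ⟨k, congrArg Subtype.val hk⟩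

theorem prime_dvd_card_of_elem {W : Type*} [Group W] [Finite W] {t : ℕ} (ht : t.Prime) {w : W} (hw : w ≠ 1)
    (hwt : ∃ k, w ^ t ^ k = 1) : t ∣ Nat.card W := by
  obtain ⟨k, hk⟩ := hwt
  obtain ⟨j, -, hj⟩ := (Nat.dvd_prime_pow ht).1 (orderOf_dvd_of_pow_eq_one hk)
  have hj0 : j ≠ 0 := by
    rintro rfl
    rw [pow_zero, orderOf_eq_one_iff] at hj
    exact hw hj
  have h2 : orderOf w ∣ Nat.card W := orderOf_dvd_natCard _
  rw [hj] at h2
  exact (dvd_pow_self t hj0).trans h2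

theorem final {N C : Subgroup G} [hN : N.Normal] (hAC : ∀ a ∈ C ⊓ N, ∀ c ∈ C, a * c = c * a)
    (hA : ∀ b ∈ C ⊓ N, b ∉ center G → centralizer ({b} : Set G) = C)
    {t s : ℕ} (ht : t.Prime) (hs : s.Prime) (hts : t ≠ s)
    (hta : ∃ a ∈ C ⊓ N, a ∉ center G ∧ ∃ k, a ^ t ^ k = 1)
    (hsa : ∃ a ∈ C ⊓ N, a ∉ center G ∧ ∃ k, a ^ s ^ k = 1)
    (htg : ∃ g ∈ normalizer ((C ⊓ N : Subgroup G) : Set G), g ∉ C ∧ ∃ k, g ^ t ^ k = 1)
    (hsg : ∃ g ∈ normalizer ((C ⊓ N : Subgroup G) : Set G), g ∉ C ∧ ∃ k, g ^ s ^ k = 1) : False := by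
  let A : Subgroup G := C ⊓ N
  letI : CommGroup A := { (inferInstance : Group A) with
    mul_comm := fun a b => Subtype.ext (hAC a a.2 b b.2.1) }
  let W : Subgroup (MulAut A) := (normalizerMonoidHom A).range
  have hdv : ∀ {u : ℕ}, u.Prime → (∃ a ∈ C ⊓ N, a ∉ center G ∧ ∃ k, a ^ u ^ k = 1) →
      (∃ g ∈ normalizer ((C ⊓ N : Subgroup G) : Set G), g ∉ C ∧ ∃ k, g ^ u ^ k = 1) → u ∣ Nat.card W := by
    intro u hu hau hgu
    obtain ⟨a, ha, hac, -⟩ := hau
    obtain ⟨g, hg, hgC, k, hk⟩ := hgu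
    let w : W := ⟨normalizerMonoidHom A ⟨g, hg⟩, ⟨⟨g, hg⟩, rfl⟩⟩
    apply prime_dvd_card_of_elem hu (w := w)
    · intro h
      apply hgC
      have h1 : normalizerMonoidHom A ⟨g, hg⟩ = 1 := congrArg Subtype.val h
      have h2 : normalizerMonoidHom A ⟨g, hg⟩ ⟨a, ha⟩ = ⟨a, ha⟩ := by rw [h1]; rfl
      have h3 : g * a * g⁻¹ = a := congrArg Subtype.val h2
      rw [← hA a ha hac, mem_centralizer_singleton_iff]
      rw [mul_inv_eq_iff_eq_mul] at h3
      exact h3
    · refine ⟨k, ?_⟩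
      apply Subtype.ext
      show (normalizerMonoidHom A ⟨g, hg⟩) ^ u ^ k = 1
      rw [← map_pow]
      have : (⟨g, hg⟩ : normalizer (A : Set G)) ^ u ^ k = 1 := Subtype.ext hk
      rw [this, map_one]
  refine Cfsg.Agent.Lib.SizeAct.no_action (W := W) (A := A) (A0 := (center G).subgroupOf A) ?_ ?_ ht hs hts
    (hdv ht hta htg) (hdv hs hsa hsg) ?_ ?_
  · rintro ⟨w, ⟨g, rfl⟩⟩ a ha
    apply Subtype.ext
    show (g : G) * a * (g : G)⁻¹ = a
    have := mem_center_iff.1 (mem_subgroupOf.1 ha) g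
    rw [this]; group
  · rintro ⟨w, ⟨g, rfl⟩⟩ hw a ha
    by_contra hac
    apply hw
    have h3 : (g : G) * a * (g : G)⁻¹ = a := congrArg Subtype.val ha
    rw [mul_inv_eq_iff_eq_mul] at h3
    have hgC : (g : G) ∈ C := by
      rw [← hA a a.2 (fun h => hac (mem_subgroupOf.2 h)), mem_centralizer_singleton_iff]
      exact h3
    apply Subtype.ext
    ext b
    show (g : G) * b * (g : G)⁻¹ = b
    rw [← hAC b b.2 g hgC]; group
  · obtain ⟨a, ha, hac, k, hk⟩ := hta
    exact ⟨⟨a, ha⟩, fun h => hac (mem_subgroupOf.1 h), k, Subtype.ext hk⟩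
  · obtain ⟨a, ha, hac, k, hk⟩ := hsa
    exact ⟨⟨a, ha⟩, fun h => hac (mem_subgroupOf.1 h), k, Subtype.ext hk⟩

theorem main (r : ℕ) [hr : Fact r.Prime] {R : Subgroup G} (hRs : IsSyl r R ⊤) (hR : ¬ R ≤ center G)
    (N : Subgroup G) [hN : N.Normal] (hRN : R ≤ N) {m : ℕ}
    (h : ∀ x ∈ N, (Subgroup.centralizer ({x} : Set G)).index = 1 ∨ (Subgroup.centralizer ({x} : Set G)).index = m) :
    Group.IsNilpotent N := by
  by_cases hc : ∀ y ∈ N, r.Coprime (orderOf y) → y ∈ center G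
  · have hp : IsPGroup r (N ⧸ center N) := by
      intro x
      obtain ⟨x, rfl⟩ := QuotientGroup.mk_surjective x
      obtain ⟨u, v, hu, hv, hx, ⟨k, hk⟩, hvc⟩ := ppart hr.out x
      refine ⟨k, ?_⟩
      have hvZ : v ∈ center N := by
        have h1 := hc v v.2 (by rwa [Subgroup.orderOf_coe])
        rw [mem_center_iff]
        intro g
        exact Subtype.ext (mem_center_iff.1 h1 g)
      have h2 : (x : N ⧸ center N) = (u : N ⧸ center N) := by
        rw [hx, QuotientGroup.mk_mul, (QuotientGroup.eq_one_iff v).2 hvZ, mul_one]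
      rw [h2, ← QuotientGroup.mk_pow, hk]; rfl
    have h3 : Group.IsNilpotent (N ⧸ center N) := hp.isNilpotent
    exact Group.of_quotient_center_nilpotent h3
  · push Not at hc
    obtain ⟨y0, hy0, hy0r, hy0c⟩ := hc
    obtain ⟨y, hyz, hyc, s, hs, hys⟩ := Cfsg.Agent.Lib.SizeAct.exists_prim (center G) hy0c
    have hyN : y ∈ N := (zpowers_le.2 hy0) hyz
    have : Fact s.Prime := ⟨hs⟩
    have hordy : ∃ j, orderOf y = s ^ j := by
      obtain ⟨k, hk⟩ := hys
      obtain ⟨j, -, hj⟩ := (Nat.dvd_prime_pow hs).1 (orderOf_dvd_of_pow_eq_one hk)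
      exact ⟨j, hj⟩
    have hrs : r ≠ s := by
      rintro rfl
      obtain ⟨j, hj⟩ := hordy
      have h1 : orderOf y ∣ orderOf y0 := orderOf_dvd_of_mem_zpowers hyz
      have h2 : r.Coprime (orderOf y) := hy0r.coprime_dvd_right h1
      rw [hj] at h2
      rcases Nat.eq_zero_or_pos j with h3 | h3
      · subst h3
        rw [pow_zero, orderOf_eq_one_iff] at hj
        rw [hj] at hyc
        exact hyc (one_mem _)
      · rw [Nat.coprime_pow_right_iff h3, Nat.coprime_self] at h2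
        exact hr.out.one_lt.ne' h2
    obtain ⟨x0, hx0, hx0c⟩ := SetLike.not_le_iff_exists.1 hR
    have hx0r : ∃ k, x0 ^ r ^ k = 1 := by
      obtain ⟨k, hk⟩ := hRs.2.1 ⟨x0, hx0⟩
      exact ⟨k, congrArg Subtype.val hk⟩
    have hidx : ∀ x ∈ N, x ∉ center G → (centralizer ({x} : Set G)).index = m := fun x hx hxc =>
      (h x hx).resolve_left (cent_ne_top hxc)
    obtain ⟨x, hxc, hxr, hxy⟩ := exists_comm (y := y) hx0c hx0r
      ((hidx y hyN hyc).trans (hidx x0 (hRN hx0) hx0c).symm)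
    have hordx : ∃ j, orderOf x = r ^ j := by
      obtain ⟨k, hk⟩ := hxr
      obtain ⟨j, -, hj⟩ := (Nat.dvd_prime_pow hr.out).1 (orderOf_dvd_of_pow_eq_one hk)
      exact ⟨j, hj⟩
    have hxN : x ∈ N := by
      have hp : IsPGroup r (zpowers x) := by
        rw [IsPGroup.iff_card]
        obtain ⟨j, hj⟩ := hordx
        exact ⟨j, by rw [Nat.card_zpowers, hj]⟩
      obtain ⟨g, -, hle⟩ := hRs.exists_conj_le hp le_top
      have h1 := mem_conj_iff.1 (hle (mem_zpowers x))
      have h2 := hN.conj_mem _ (hRN h1) g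
      convert h2 using 1
      group
    have hcoprs : Nat.Coprime r s := (Nat.coprime_primes hr.out hs).2 hrs
    have hcop : (orderOf x).Coprime (orderOf y) := by
      obtain ⟨j, hj⟩ := hordx
      obtain ⟨i, hi⟩ := hordy
      rw [hj, hi]
      exact Nat.Coprime.pow _ _ hcoprs
    have hCle1 := cent_le h hxN hyN hxy hcop hxc
    have hCle2 := cent_le h hyN hxN hxy.symm hcop.symm hyc
    have hCC := le_antisymm hCle1 hCle2
    set C := centralizer ({x} : Set G) with hC
    have hxC : x ∈ C := mem_centralizer_singleton_iff.2 rfl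
    have hyC : y ∈ C := mem_centralizer_singleton_iff.2 hxy.symm
    have hAC : ∀ a ∈ C ⊓ N, ∀ c ∈ C, a * c = c * a := by
      rintro a ⟨haC, haN⟩ c hc
      obtain ⟨u, v, hu, hv, hauv, ⟨k, hk⟩, hvc⟩ := ppart hr.out a
      have huC : u ∈ C := (zpowers_le.2 haC) hu
      have hvC : v ∈ C := (zpowers_le.2 haC) hv
      have huN : u ∈ N := (zpowers_le.2 haN) hu
      have hvN : v ∈ N := (zpowers_le.2 haN) hv
      -- u commutes with y
      have h1 : centralizer ({y} : Set G) ≤ centralizer ({u} : Set G) := by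
        apply cent_le h hyN huN _ _ hyc
        · rw [hCC] at huC
          exact (mem_centralizer_singleton_iff.1 huC).symm
        · obtain ⟨j, -, hj⟩ := (Nat.dvd_prime_pow hr.out).1 (orderOf_dvd_of_pow_eq_one hk)
          obtain ⟨i, hi⟩ := hordy
          rw [hj, hi]
          exact Nat.Coprime.pow _ _ hcoprs.symm
      have h2 : centralizer ({x} : Set G) ≤ centralizer ({v} : Set G) := by
        apply cent_le h hxN hvN _ _ hxc
        · exact (mem_centralizer_singleton_iff.1 hvC).symm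
        · obtain ⟨j, hj⟩ := hordx
          rw [hj]
          exact Nat.Coprime.pow_left _ hvc
      have h3 := mem_centralizer_singleton_iff.1 (h1 (hCC ▸ hc))
      have h4 := mem_centralizer_singleton_iff.1 (h2 hc)
      rw [hauv]
      have h5 : Commute c (u * v) := (show Commute c u from h3).mul_right (show Commute c v from h4)
      exact h5.symm
    have habel : N ≤ C → Group.IsNilpotent N := by
      intro hNC
      letI : CommGroup N := { (inferInstance : Group N) with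
        mul_comm := fun a b => Subtype.ext (hAC a ⟨hNC a.2, a.2⟩ b (hNC b.2)) }
      exact CommGroup.isNilpotent
    by_cases hrm : r ∣ m
    swap
    · exact habel (cent_of_not_dvd h hrm hxN hxr)
    by_cases hsm : s ∣ m
    swap
    · apply habel
      rw [hCC]
      exact cent_of_not_dvd h hsm hyN hys
    exfalso
    have hCidx : C.index = m := hidx x hxN hxc
    have hA : ∀ b ∈ C ⊓ N, b ∉ center G → centralizer ({b} : Set G) = C := by
      intro b hb hbc
      symm
      apply Subgroup.eq_of_le_of_card_ge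
      · intro c hc
        rw [mem_centralizer_singleton_iff]
        exact (hAC b hb c hc).symm
      · have e1 := Subgroup.card_mul_index C
        have e2 := Subgroup.card_mul_index (centralizer ({b} : Set G))
        rw [hCidx] at e1
        rw [hidx b hb.2 hbc] at e2
        have hm : 0 < m := by
          rw [← hCidx]; exact Nat.pos_of_ne_zero Subgroup.index_ne_zero_of_finite
        exact le_of_eq (Nat.eq_of_mul_eq_mul_right hm (e2.trans e1.symm))
    exact final hAC hA hr.out hs hrs ⟨x, ⟨hxC, hxN⟩, hxc, hxr⟩ ⟨y, ⟨hyC, hyN⟩, hyc, hys⟩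
      (exists_norm hxN hxc hxr rfl (by rw [hCidx]; exact hrm) hA)
      (exists_norm hyN hyc hys hCC.symm (by rw [hCidx]; exact hsm) hA)

/-- Let G be a finite group, r a prime and R a Sylow r-subgroup of G that is not central, N a normal subgroup of G containing R, and m a natural number such that every element of N has a conjugacy class in G of size 1 or m. Then N is nilpotent. -/
theorem result {G : Type*} [Group G] [Finite G] (r : ℕ) [Fact r.Prime]
    (R : Sylow r G) (hR : ¬ (R : Subgroup G) ≤ Subgroup.center G) (N : Subgroup G) [N.Normal] (hRN : (R : Subgroup G) ≤ N)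
    (m : ℕ) (h : ∀ x ∈ N, (Subgroup.centralizer ({x} : Set G)).index = 1 ∨ (Subgroup.centralizer ({x} : Set G)).index = m) : Group.IsNilpotent N := by
  exact main r (isSyl_top_iff R) hR N hRN h

end Cfsg.Agent.S4135
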