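import Cfsg.Statements.S4142
import Cfsg.Agent.Lib.MinimalClass

set_option autoImplicit false
open Cfsg

namespace Cfsg.Agent.S4142

/-- Let G be a finite group and N a normal subgroup. Then the conjugacy class of every element g outside N is a union of cosets of N (gn is conjugate to g for all n ∈ N) if and only if for every g outside N the centralizer of g in G has the same order as the centralizer of gN in G/N. -/
theorem result {G : Type*} [Group G] [Finite G] (N : Subgroup G) [N.Normal] :
    (∀ g : G, g ∉ N → ∀ n ∈ N, ∃ x : G, x * g * x⁻¹ = g * n) ↔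
      ∀ g : G, g ∉ N → Nat.card (Subgroup.centralizer ({g} : Set G)) =
        Nat.card (Subgroup.centralizer ({(QuotientGroup.mk g : G ⧸ N)} : Set (G ⧸ N))) := by
  refine forall_congr' fun g => forall_congr' fun _ => ?_
  let π : G →* G ⧸ N := QuotientGroup.mk' N
  have hπ : Function.Surjective π := QuotientGroup.mk'_surjective N
  have hker : π.ker = N := QuotientGroup.ker_mk' N
  set C := Subgroup.centralizer ({g} : Set G) with hC
  set Cb := Subgroup.centralizer ({π g} : Set (G ⧸ N)) with hCb
  show _ ↔ Nat.card C = Nat.card Cb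
  set D := Cb.comap π with hD
  have hmemD : ∀ x, x ∈ D ↔ g⁻¹ * (x * g * x⁻¹) ∈ N := by
    intro x
    have hmemN : ∀ y : G, y ∈ N ↔ π y = 1 := fun y => (QuotientGroup.eq_one_iff y).symm
    rw [hD, Subgroup.mem_comap, hCb, Subgroup.mem_centralizer_singleton_iff, hmemN]
    rw [map_mul, map_mul, map_mul, map_inv, map_inv, inv_mul_eq_one]
    constructor
    · intro h; rw [h]; group
    · intro h
      calc π x * π g = (π x * π g * (π x)⁻¹) * π x := by group
        _ = π g * π x := by rw [← h]
  have hCD : C ≤ D := by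
    intro x hx
    rw [hmemD]
    have h1 : x * g = g * x := Subgroup.mem_centralizer_singleton_iff.1 hx
    rw [h1]
    have : g⁻¹ * (g * x * x⁻¹) = 1 := by group
    rw [this]; exact one_mem _
  have hND : N ≤ D := hker.symm.le.trans (Subgroup.ker_le_comap _ _)
  have hcardD : Nat.card D = Nat.card N * Nat.card Cb := by
    have h4 := Subgroup.relIndex_ker (K := D) π
    rw [hD, Subgroup.map_comap_eq_self_of_surjective hπ, hker] at h4
    have := Subgroup.card_mul_index (N.subgroupOf D)
    rw [Nat.card_congr (Subgroup.subgroupOfEquivOfLe hND).toEquiv] at this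
    rw [← this, ← h4]; rfl
  have hcardD' : Nat.card D = Nat.card C * C.relIndex D := by
    have := Subgroup.card_mul_index (C.subgroupOf D)
    rw [Nat.card_congr (Subgroup.subgroupOfEquivOfLe hCD).toEquiv] at this
    exact this.symm
  -- the D-class of g
  let S : Set G := {y | ∃ s ∈ D, s * g * s⁻¹ = y}
  let X : Set G := (fun n => g * n) '' (N : Set G)
  have hSX : S ⊆ X := by
    rintro y ⟨s, hs, rfl⟩
    exact ⟨g⁻¹ * (s * g * s⁻¹), (hmemD s).1 hs, by simp⟩
  have hXcard : X.ncard = Nat.card N := Set.ncard_image_of_injective _ (mul_right_injective g)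
  have hScard : C.relIndex D = S.ncard := Cfsg.Agent.Lib.MinimalClass.relIndex_centralizer_singleton D g
  have hkey : (∀ n ∈ N, ∃ x : G, x * g * x⁻¹ = g * n) ↔ X ⊆ S := by
    constructor
    · rintro h _ ⟨n, hn, rfl⟩
      obtain ⟨x, hx⟩ := h n hn
      refine ⟨x, ?_, hx⟩
      rw [hmemD, hx]; simpa using hn
    · intro h n hn
      obtain ⟨s, _, hs⟩ := h ⟨n, hn, rfl⟩
      exact ⟨s, hs⟩
  rw [hkey]
  have hN : 0 < Nat.card N := Nat.card_pos
  have hCpos : 0 < Nat.card C := Nat.card_pos
  constructor
  · intro h
    have h1 : S = X := Set.Subset.antisymm hSX h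
    rw [h1, hXcard] at hScard
    rw [hcardD', hScard, mul_comm] at hcardD
    exact Nat.eq_of_mul_eq_mul_left hN hcardD
  · intro h
    rw [← h, hcardD', mul_comm (Nat.card N)] at hcardD
    have h1 : C.relIndex D = Nat.card N := Nat.eq_of_mul_eq_mul_left hCpos hcardD
    rw [hScard, ← hXcard] at h1
    exact (Set.eq_of_subset_of_ncard_le hSX h1.ge (Set.toFinite _)).ge

end Cfsg.Agent.S4142
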