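import Cfsg.Statements.S4145
import Cfsg.Agent.Lib.CyclicSylow

set_option autoImplicit false
open Cfsg

namespace Cfsg.Agent.S4145

open Subgroup in
/-- a three-step chain -/
theorem isPSolvable_of_chain {G : Type*} [Group G] (p : ℕ) (K C : Subgroup G)
    (hK : K.Normal) (hC : C.Normal) (hKC : K ≤ C) (h1 : (Nat.card K).Coprime p)
    (h2 : ∃ m : ℕ, K.relIndex C = p ^ m) (h3 : C.index.Coprime p) : Cfsg.IsPSolvable p G := by
  refine ⟨3, ![⊥, K, C, ⊤], rfl, rfl, ?_, ?_, ?_⟩
  · refine Fin.monotone_iff_le_succ.2 ?_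
    intro i
    fin_cases i
    · exact bot_le
    · exact hKC
    · exact le_top
  · intro i
    fin_cases i
    · exact (inferInstance : (⊥ : Subgroup G).Normal)
    · exact hK
    · exact hC
    · exact (inferInstance : (⊤ : Subgroup G).Normal)
  · intro i
    fin_cases i
    · right
      show ((⊥ : Subgroup G).relIndex K).Coprime p
      rw [relIndex_bot_left]; exact h1
    · left; exact h2
    · right
      show (C.relIndex ⊤).Coprime p
      rw [relIndex_top_right]; exact h3

/-- Let G be a finite group with a cyclic Sylow p-subgroup and H a normal subgroup such that p divides both the order of H and the index of H. Then H has a normal p-complement and G is p-solvable. -/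
theorem result {G : Type*} [Group G] [Finite G] (p : ℕ) [Fact p.Prime]
    (P : Sylow p G) (hP : IsCyclic (P : Subgroup G)) (H : Subgroup G) [H.Normal] (h1 : p ∣ Nat.card H) (h2 : p ∣ H.index) :
    Cfsg.HasNormalPComplement p H ∧ Cfsg.IsPSolvable p G := by
  have hp : p.Prime := Fact.out
  have hH := Cfsg.Agent.Lib.CyclicSylow.normal_of_cyclic P H h2
  refine ⟨hH, ?_⟩
  -- L = O_{p'}(H)
  set L : Subgroup G := (Cfsg.pResidual p H).map H.subtype with hL
  have hchar := Cfsg.Agent.Lib.PNilp.pResidual_characteristic (G := H) p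
  have hLn : L.Normal := ConjAct.normal_of_characteristic_of_normal
  have hLH : L ≤ H := Subgroup.map_subtype_le _
  have hLcard : ¬ p ∣ Nat.card L := by
    rw [hL, Subgroup.card_map_of_injective H.subtype_injective]
    exact Cfsg.Agent.Lib.PNilp.hasNormalPComplement_iff_pResidual.1 hH
  have hLidx : ∃ k, L.relIndex H = p ^ k := by
    obtain ⟨k, hk⟩ := Cfsg.Agent.Lib.PNilp.pResidual_index (G := H) p
    refine ⟨k, ?_⟩
    rw [← hk, hL]
    show ((Subgroup.map H.subtype (Cfsg.pResidual p H)).comap H.subtype).index = _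
    rw [Subgroup.comap_map_eq_self_of_injective H.subtype_injective]
  -- quotient
  let Q := G ⧸ L
  let π : G →* Q := QuotientGroup.mk' L
  have hπ : Function.Surjective π := QuotientGroup.mk'_surjective L
  let Pb : Sylow p Q := P.mapSurjective hπ
  have hPb : (Pb : Subgroup Q) = (P : Subgroup G).map π := rfl
  have hcyc : IsCyclic Pb :=
    isCyclic_of_surjective _ (π.subgroupMap_surjective (P : Subgroup G))
  set Hb : Subgroup Q := H.map π with hHb
  have hHbn : Hb.Normal := Subgroup.Normal.map inferInstance _ hπ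
  have hker : π.ker = L := QuotientGroup.ker_mk' L
  have hHbcard : Nat.card Hb = L.relIndex H := by
    have := Subgroup.relIndex_ker (K := H) π
    rw [hker] at this
    exact this.symm
  have hHbp : IsPGroup p Hb := by
    obtain ⟨k, hk⟩ := hLidx
    exact IsPGroup.of_card (n := k) (hHbcard.trans hk)
  have hHb1 : Hb ≠ ⊥ := by
    intro h
    rw [← Subgroup.card_eq_one, hHbcard] at h
    have h3 : Nat.card L * L.relIndex H = Nat.card H := by
      have := Subgroup.card_mul_index (L.subgroupOf H)
      rwa [Nat.card_congr (Subgroup.subgroupOfEquivOfLe hLH).toEquiv] at this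
    rw [h, mul_one] at h3
    exact hLcard (h3 ▸ h1)
  have hHbP : Hb ≤ (Pb : Subgroup Q) := by
    obtain ⟨R, hR⟩ := hHbp.exists_le_sylow
    obtain ⟨g, hg⟩ := MulAction.exists_smul_eq Q R Pb
    rw [← hg, Sylow.coe_subgroup_smul]
    intro x hx
    rw [Subgroup.mem_pointwise_smul_iff_inv_smul_mem]
    apply hR
    have h5 : (MulAut.conj g)⁻¹ • x = g⁻¹ * x * g⁻¹⁻¹ := by
      rw [← map_inv, MulAut.smul_def, MulAut.conj_apply]
    rw [h5]
    exact hHbn.conj_mem x hx g⁻¹
  -- the centraliser of Hb
  set C : Subgroup Q := Subgroup.centralizer (Hb : Set Q) with hC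
  have hCn : C.Normal := inferInstance
  have hPC : (Pb : Subgroup Q) ≤ C := by
    intro x hx
    rw [hC, Subgroup.mem_centralizer_iff]
    intro y hy
    have := (inferInstance : IsMulCommutative Pb).is_comm.comm (⟨y, hHbP hy⟩ : Pb) ⟨x, hx⟩
    exact congrArg Subtype.val this
  let PC : Sylow p C := Pb.subtype hPC
  have hcycC : IsCyclic PC :=
    isCyclic_of_surjective _ (Subgroup.subgroupOfEquivOfLe hPC).symm.surjective
  obtain ⟨z, hz1⟩ := Subgroup.ne_bot_iff_exists_ne_one.1 hHb1
  have hCnil : Cfsg.HasNormalPComplement p C := by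
    refine Cfsg.Agent.Lib.CyclicSylow.hasNormalPComplement_of_central PC ⟨(z : Q), hPC (hHbP z.2)⟩ ?_ ?_ ?_
    · rw [Subgroup.mem_center_iff]
      intro g
      apply Subtype.ext
      exact ((Subgroup.mem_centralizer_iff.1 g.2) z z.2).symm
    · show (z : Q) ∈ (Pb : Subgroup Q)
      exact hHbP z.2
    · intro h
      exact hz1 (Subtype.ext (congrArg (fun w : C => (w : Q)) h))
  set Kb : Subgroup Q := (Cfsg.pResidual p C).map C.subtype with hKb
  have hcharC := Cfsg.Agent.Lib.PNilp.pResidual_characteristic (G := C) p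
  have hKbn : Kb.Normal := ConjAct.normal_of_characteristic_of_normal
  have hKbC : Kb ≤ C := Subgroup.map_subtype_le _
  have hKbcard : ¬ p ∣ Nat.card Kb := by
    rw [hKb, Subgroup.card_map_of_injective C.subtype_injective]
    exact Cfsg.Agent.Lib.PNilp.hasNormalPComplement_iff_pResidual.1 hCnil
  have hKbidx : ∃ k, Kb.relIndex C = p ^ k := by
    obtain ⟨k, hk⟩ := Cfsg.Agent.Lib.PNilp.pResidual_index (G := C) p
    refine ⟨k, ?_⟩
    rw [← hk, hKb]
    show ((Subgroup.map C.subtype (Cfsg.pResidual p C)).comap C.subtype).index = _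
    rw [Subgroup.comap_map_eq_self_of_injective C.subtype_injective]
  refine isPSolvable_of_chain p (Kb.comap π) (C.comap π) inferInstance inferInstance
    (Subgroup.comap_mono hKbC) ?_ ?_ ?_
  · -- |K| = |Kb| * |L|
    have h3 : Nat.card (Kb.comap π) = Nat.card Kb * Nat.card L := by
      have h4 := Subgroup.relIndex_ker (K := Kb.comap π) π
      rw [Subgroup.map_comap_eq_self_of_surjective hπ, hker] at h4
      have hle : L ≤ Kb.comap π := hker.symm.le.trans (Subgroup.ker_le_comap _ _)
      have h5 : Nat.card L * L.relIndex (Kb.comap π) = Nat.card (Kb.comap π) := by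
        have := Subgroup.card_mul_index (L.subgroupOf (Kb.comap π))
        rwa [Nat.card_congr (Subgroup.subgroupOfEquivOfLe hle).toEquiv] at this
      rw [← h5, h4, mul_comm]
    rw [h3]
    exact Nat.Coprime.mul_left ((Nat.Prime.coprime_iff_not_dvd hp).2 hKbcard).symm
      ((Nat.Prime.coprime_iff_not_dvd hp).2 hLcard).symm
  · obtain ⟨k, hk⟩ := hKbidx
    refine ⟨k, ?_⟩
    rw [Subgroup.relIndex_comap, Subgroup.map_comap_eq_self_of_surjective hπ, hk]
  · rw [Subgroup.index_comap_of_surjective _ hπ]
    refine ((Nat.Prime.coprime_iff_not_dvd hp).2 fun h => ?_).symm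
    exact Pb.not_dvd_index (h.trans (Subgroup.index_dvd_of_le hPC))

end Cfsg.Agent.S4145
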