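import Cfsg.Statements.S4149
import Cfsg.Agent.Lib.ClassSizeCounting

set_option autoImplicit false
open Cfsg

namespace Cfsg.Agent.S4149

open Finset in
/-- Let G be a finite group that has a normal p-complement for at most one prime p dividing its order, and let σ be a natural number such that every conjugacy class size of G has at most σ distinct prime divisors. Then the number of primes dividing at least one conjugacy class size of G is at most 2σ. -/
theorem result {G : Type*} [Group G] [Finite G] (σ : ℕ)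
    (hσ : ∀ x : G, ((Subgroup.centralizer ({x} : Set G)).index).primeFactors.card ≤ σ)
    (hnil : ∀ p q : ℕ, p.Prime → q.Prime → p ∣ Nat.card G → q ∣ Nat.card G →
      Cfsg.HasNormalPComplement p G → Cfsg.HasNormalPComplement q G → p = q) :
    Nat.card {p : ℕ | p.Prime ∧ ∃ x : G, p ∣ (Subgroup.centralizer ({x} : Set G)).index} ≤ 2 * σ := by
  classical
  have : Fintype G := Fintype.ofFinite G
  set idx : G → ℕ := fun x => (Subgroup.centralizer ({x} : Set G)).index with hidx
  have hidx0 : ∀ x, idx x ≠ 0 := fun x => Subgroup.index_ne_zero_of_finite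
  have hdvd : ∀ x, idx x ∣ Nat.card G := fun x => Subgroup.index_dvd_card _
  -- the finite set of primes
  set R : Finset ℕ := (Nat.card G).primeFactors.filter (fun p => ∃ x : G, p ∣ idx x) with hR
  have hcardR : Nat.card {p : ℕ | p.Prime ∧ ∃ x : G, p ∣ idx x} = R.card := by
    have : {p : ℕ | p.Prime ∧ ∃ x : G, p ∣ idx x} = (R : Set ℕ) := by
      ext p
      simp only [hR, Set.mem_setOf_eq, coe_filter, Nat.mem_primeFactors]
      constructor
      · rintro ⟨hp, x, hx⟩
        exact ⟨⟨hp, hx.trans (hdvd x), Nat.card_pos.ne'⟩, x, hx⟩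
      · rintro ⟨⟨hp, _, _⟩, x, hx⟩
        exact ⟨hp, x, hx⟩
    rw [this]; simp
  show Nat.card {p : ℕ | p.Prime ∧ ∃ x : G, p ∣ idx x} ≤ 2 * σ
  rw [hcardR]
  have hRprime : ∀ p ∈ R, p.Prime := fun p hp => by
    have := (Finset.mem_filter.1 hp).1
    exact Nat.prime_of_mem_primeFactors this
  have hRdvd : ∀ p ∈ R, p ∣ Nat.card G := fun p hp =>
    Nat.dvd_of_mem_primeFactors (Finset.mem_filter.1 hp).1
  have hRex : ∀ p ∈ R, ∃ x : G, p ∣ idx x := fun p hp => (Finset.mem_filter.1 hp).2
  -- double counting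
  set U : ℕ → Finset G := fun p => univ.filter (fun x => p ∣ idx x) with hU
  have hdc : ∑ p ∈ R, (U p).card = ∑ x : G, (R.filter (fun p => p ∣ idx x)).card := by
    simp only [hU, Finset.card_filter]
    rw [Finset.sum_comm]
  have hle : ∑ p ∈ R, (U p).card ≤ Nat.card G * σ := by
    rw [hdc]
    calc ∑ x : G, (R.filter (fun p => p ∣ idx x)).card ≤ ∑ _x : G, σ := by
          refine Finset.sum_le_sum fun x _ => le_trans (Finset.card_le_card ?_) (hσ x)
          intro p hp
          rw [Finset.mem_filter] at hp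
          exact Nat.mem_primeFactors.2 ⟨hRprime p hp.1, hp.2, hidx0 x⟩
      _ = Nat.card G * σ := by simp
  -- lower bounds
  have hlow : ∀ p ∈ R, ¬ Cfsg.HasNormalPComplement p G → Nat.card G ≤ 2 * (U p).card := by
    intro p hp hn
    have : Fact p.Prime := ⟨hRprime p hp⟩
    have h1 := Cfsg.Agent.Lib.ClassSizeCounting.two_mul_card_not_dvd_le (G := G) p hn
    have h2 : Nat.card {x : G // ¬ p ∣ (Subgroup.centralizer ({x} : Set G)).index} =
        (univ.filter (fun x => ¬ p ∣ idx x)).card := by
      rw [Nat.card_eq_fintype_card, Fintype.card_subtype]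
    rw [h2] at h1
    have h3 : (U p).card + (univ.filter (fun x => ¬ p ∣ idx x)).card = Nat.card G := by
      rw [Nat.card_eq_fintype_card, ← Finset.card_univ]
      exact Finset.card_filter_add_card_filter_not (s := (Finset.univ : Finset G)) (fun x => p ∣ idx x)
    omega
  have hpos : ∀ p ∈ R, 1 ≤ (U p).card := by
    intro p hp
    obtain ⟨x, hx⟩ := hRex p hp
    exact Finset.card_pos.2 ⟨x, by simp [hU, hx]⟩
  have hG : 0 < Nat.card G := Nat.card_pos
  by_cases hex : ∃ p0 ∈ R, Cfsg.HasNormalPComplement p0 G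
  · obtain ⟨p0, hp0, hn0⟩ := hex
    have hoth : ∀ p ∈ R.erase p0, Nat.card G ≤ 2 * (U p).card := by
      intro p hp
      rw [Finset.mem_erase] at hp
      refine hlow p hp.2 fun hn => hp.1 ?_
      exact hnil p p0 (hRprime p hp.2) (hRprime p0 hp0) (hRdvd p hp.2) (hRdvd p0 hp0) hn hn0
    have hsum : ∑ p ∈ R, (U p).card = (∑ p ∈ R.erase p0, (U p).card) + (U p0).card :=
      (Finset.sum_erase_add R _ hp0).symm
    have h1 : (R.card - 1) * Nat.card G ≤ 2 * ∑ p ∈ R.erase p0, (U p).card := by
      rw [← Finset.card_erase_of_mem hp0, Finset.mul_sum, ← smul_eq_mul, ← Finset.sum_const]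
      exact Finset.sum_le_sum hoth
    have h2 := hpos p0 hp0
    have h3 : 1 ≤ R.card := Finset.card_pos.2 ⟨p0, hp0⟩
    by_contra hcon
    push Not at hcon
    have h4 : 2 * σ ≤ R.card - 1 := by omega
    have h5 : 2 * σ * Nat.card G ≤ (R.card - 1) * Nat.card G := Nat.mul_le_mul_right _ h4
    have h6 : 2 * ∑ p ∈ R, (U p).card ≤ 2 * σ * Nat.card G := by
      calc 2 * ∑ p ∈ R, (U p).card ≤ 2 * (Nat.card G * σ) := Nat.mul_le_mul_left _ hle
        _ = 2 * σ * Nat.card G := by ring
    omega
  · push Not at hex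
    have h1 : R.card * Nat.card G ≤ 2 * ∑ p ∈ R, (U p).card := by
      rw [Finset.mul_sum, ← smul_eq_mul, ← Finset.sum_const]
      exact Finset.sum_le_sum fun p hp => hlow p hp (hex p hp)
    have h6 : R.card * Nat.card G ≤ (2 * σ) * Nat.card G := by
      calc R.card * Nat.card G ≤ 2 * ∑ p ∈ R, (U p).card := h1
        _ ≤ 2 * (Nat.card G * σ) := Nat.mul_le_mul_left _ hle
        _ = 2 * σ * Nat.card G := by ring
    exact Nat.le_of_mul_le_mul_right h6 hG

end Cfsg.Agent.S4149
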