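import Cfsg.Statements.S4151
import Cfsg.Agent.Lib.CyclicHallSplit
import Cfsg.Agent.Lib.CoprimeGen
import Cfsg.Agent.Lib.CoprimeAction2
import Cfsg.Agent.Lib.UniqueInvolution
import Cfsg.Agent.Lib.OmegaCent

set_option autoImplicit false
open Cfsg

namespace Cfsg.Agent.S4151

open Subgroup

section

variable {G : Type*} [Group G] [Finite G]

theorem exists_step (H : Subgroup G)
    (hsep : ∃ (n : ℕ) (M : Fin (n + 1) → Subgroup G), M 0 = ⊥ ∧ M (Fin.last n) = ⊤ ∧ Monotone M ∧ (∀ i, (M i).Normal) ∧
      ∀ i : Fin n, (∀ q : ℕ, q.Prime → q ∣ (M i.castSucc).relIndex (M i.succ) → q ∣ Nat.card H) ∨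
        ((M i.castSucc).relIndex (M i.succ)).Coprime (Nat.card H)) (N : Subgroup G) [hN : N.Normal]
    (hne : N ≠ ⊤) : ∃ M : Subgroup G, M.Normal ∧ N < M ∧
      ((∀ q : ℕ, q.Prime → q ∣ N.relIndex M → q ∣ Nat.card H) ∨ (N.relIndex M).Coprime (Nat.card H)) := by
  obtain ⟨n, M, h0, hlast, hmono, hnorm, hstep⟩ := hsep
  obtain ⟨i, hi1, hi2⟩ : ∃ i : Fin n, M i.castSucc ≤ N ∧ ¬ M i.succ ≤ N := by
    by_contra hcon
    push Not at hcon
    have hall : ∀ i : Fin (n + 1), M i ≤ N := by
      intro i
      induction i using Fin.induction with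
      | zero => rw [h0]; exact bot_le
      | succ i ih => exact hcon i ih
    apply hne
    rw [eq_top_iff, ← hlast]
    exact hall _
  have := hnorm i.succ
  refine ⟨N ⊔ M i.succ, inferInstance, lt_of_le_of_ne le_sup_left ?_, ?_⟩
  · intro he
    apply hi2
    rw [he]; exact le_sup_right
  · have h1 : N.relIndex (N ⊔ M i.succ) ∣ (M i.castSucc).relIndex (M i.succ) := by
      rw [Subgroup.relIndex_sup_left]
      exact Subgroup.relIndex_dvd_of_le_left _ hi1
    rcases hstep i with hc | hc
    · left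
      exact fun q hq hd => hc q hq (hd.trans h1)
    · right
      exact Nat.Coprime.coprime_dvd_left h1 hc

/-- a TI subgroup which is a Hall subgroup of its normaliser is a Hall subgroup -/
theorem hall_of_TI (H : Subgroup G)
    (hTI : ∀ g : G, ∀ x ∈ H, x ≠ 1 → g * x * g⁻¹ ∈ H → g ∈ normalizer (H : Set G))
    (hHall : (Nat.card H).Coprime (H.relIndex (normalizer (H : Set G)))) :
    (Nat.card H).Coprime H.index := by
  apply Nat.coprime_of_dvd
  intro p hp hpH hpi
  have := Fact.mk hp
  obtain ⟨P⟩ : Nonempty (Sylow p H) := inferInstance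
  set P' : Subgroup G := (P : Subgroup H).map H.subtype with hP'
  obtain ⟨hPH, hPp, hPi⟩ := Cfsg.Agent.Lib.CoprimeAction.sylow_map_subtype_props P
  rw [← hP'] at hPH hPp hPi
  have hne : ∃ x ∈ P', x ≠ 1 := by
    by_contra hcon
    push Not at hcon
    have h1 : P' = ⊥ := by
      rw [eq_bot_iff]; intro x hx; exact Subgroup.mem_bot.2 (hcon x hx)
    apply hPi
    rw [h1, Subgroup.relIndex_bot_left]
    exact hpH
  obtain ⟨x, hxP, hx1⟩ := hne
  have hNP : normalizer (P' : Set G) ≤ normalizer (H : Set G) := by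
    intro g hg
    exact hTI g x (hPH hxP) hx1 (hPH ((Subgroup.mem_normalizer_iff.1 hg x).1 hxP))
  obtain ⟨S, hS⟩ := hPp.exists_le_sylow
  have hPS : P' = (S : Subgroup G) := by
    by_contra hne
    have hlt : P' < (S : Subgroup G) := lt_of_le_of_ne hS hne
    have h1 := Cfsg.Agent.Lib.GroupUtil.lt_inf_normalizer_of_isPGroup S.2 hlt
    set T := (S : Subgroup G) ⊓ normalizer (P' : Set G) with hT
    have hTp : IsPGroup p T := S.2.to_le inf_le_left
    have hTN : T ≤ normalizer (H : Set G) := inf_le_right.trans hNP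
    have h2 : P'.relIndex T * T.relIndex (normalizer (H : Set G)) = P'.relIndex (normalizer (H : Set G)) :=
      Subgroup.relIndex_mul_relIndex _ _ _ h1.le hTN
    have h3 : P'.relIndex H * H.relIndex (normalizer (H : Set G)) = P'.relIndex (normalizer (H : Set G)) :=
      Subgroup.relIndex_mul_relIndex _ _ _ hPH Subgroup.le_normalizer
    have h4 : p ∣ P'.relIndex T := by
      obtain ⟨k, hk⟩ := hTp.index (P'.subgroupOf T)
      have hk' : P'.relIndex T = p ^ k := hk
      rw [hk']
      rcases Nat.eq_zero_or_pos k with rfl | hpos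
      · exfalso
        rw [pow_zero, Subgroup.relIndex_eq_one] at hk'
        exact absurd hk' (not_le_of_gt h1)
      · exact dvd_pow_self p hpos.ne'
    have h5 : p ∣ P'.relIndex H * H.relIndex (normalizer (H : Set G)) := by
      rw [h3, ← h2]; exact Dvd.dvd.mul_right h4 _
    rcases hp.dvd_mul.1 h5 with h6 | h6
    · exact hPi h6
    · exact hp.one_lt.ne' (Nat.dvd_one.1 (hHall ▸ Nat.dvd_gcd hpH h6))
  apply S.not_dvd_index
  rw [← hPS, ← Subgroup.relIndex_mul_index hPH]
  exact Dvd.dvd.mul_left hpi _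

end

/-- Let G be a finite group and H a non-normal subgroup meeting each of its conjugates by elements outside N_G(H) trivially, with the order of H coprime to its index in N_G(H), such that G is π-separable for π the set of primes dividing the order of H (G has a chain of normal subgroups from 1 to G each of whose factors has order divisible only by primes dividing the order of H or coprime to it). Suppose a Sylow 2-subgroup of H is abelian and Q is a complement of H in N_G(H). Then C_H(Q), the subgroup of elements of H commuting with Q, has order coprime to its index in G and has a normal complement in G. -/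
theorem result {G : Type*} [Group G] [Finite G] (H : Subgroup G)
    (hTI : Cfsg.IsTISubset (H : Set G)) (hnn : ¬ H.Normal)
    (hHall : (Nat.card H).Coprime (H.subgroupOf (Subgroup.normalizer (H : Set G))).index)
    (hsep : ∃ (n : ℕ) (M : Fin (n + 1) → Subgroup G), M 0 = ⊥ ∧ M (Fin.last n) = ⊤ ∧ Monotone M ∧ (∀ i, (M i).Normal) ∧
      ∀ i : Fin n, (∀ q : ℕ, q.Prime → q ∣ (M i.castSucc).relIndex (M i.succ) → q ∣ Nat.card H) ∨
        ((M i.castSucc).relIndex (M i.succ)).Coprime (Nat.card H))
    (h2 : ∀ P : Sylow 2 H, IsMulCommutative (P : Subgroup H))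
    (Q : Subgroup G) (hQ : Q ≤ Subgroup.normalizer (H : Set G)) (hQH : Q ⊓ H = ⊥) (hQH' : Q ⊔ H = Subgroup.normalizer (H : Set G)) :
    (Nat.card ↥(H ⊓ Subgroup.centralizer (Q : Set G))).Coprime (H ⊓ Subgroup.centralizer (Q : Set G)).index ∧
    ∃ N : Subgroup G, N.Normal ∧ N.IsComplement' (H ⊓ Subgroup.centralizer (Q : Set G)) := by
  classical
  have hti : ∀ g : G, ∀ x ∈ H, x ≠ 1 → g * x * g⁻¹ ∈ H → g ∈ normalizer (H : Set G) := by
    intro g x hx hx1 hgx
    by_contra hg
    exact hx1 (hTI g hg x hx hgx)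
  have hHall' : (Nat.card H).Coprime (H.relIndex (normalizer (H : Set G))) := hHall
  have hHG : (Nat.card H).Coprime H.index := hall_of_TI H hti hHall'
  -- maximal normal subgroup of order prime to |H|
  obtain ⟨K, ⟨hKn, hKc⟩, hKmax⟩ := Set.Finite.exists_maximalFor (fun X : Subgroup G => Nat.card X)
    {X : Subgroup G | X.Normal ∧ (Nat.card X).Coprime (Nat.card H)}
    (Set.toFinite _) ⟨⊥, inferInstance, by rw [Subgroup.card_bot]; exact Nat.coprime_one_left _⟩
  have hKH : K ⊓ H = ⊥ := by
    exact (Subgroup.disjoint_of_coprime_natCard hKc).eq_bot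
  -- K is not centralised by H
  have hKC : ¬ K ≤ centralizer (H : Set G) := by
    intro hcen
    apply hnn
    by_cases hH1 : H = ⊥
    · rw [hH1]; infer_instance
    have hKtop : K ≠ ⊤ := by
      intro h
      apply hH1
      rw [h, top_inf_eq] at hKH
      exact hKH
    obtain ⟨M, hM, hKM, hM'⟩ := exists_step H hsep K hKtop
    have hMcard : Nat.card M = Nat.card K * K.relIndex M := (Cfsg.Agent.Lib.SubgroupTools.card_mul_relIndex_of_le hKM.le).symm
    have hMpi : ∀ q : ℕ, q.Prime → q ∣ K.relIndex M → q ∣ Nat.card H := by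
      rcases hM' with h | h
      · exact h
      · exfalso
        have h1 := hKmax (j := M) ⟨hM, by rw [hMcard]; exact hKc.mul_left h⟩
        have h3 : Nat.card K < Nat.card M := Set.Finite.card_lt_card (Set.toFinite _) hKM
        exact absurd (h1 h3.le) (not_le_of_gt h3)
    -- M = K (M ∩ H)
    have h3 : (H.relIndex M).Coprime (Nat.card H) :=
      (Nat.Coprime.coprime_dvd_right (Cfsg.Agent.Lib.OmegaCent.relIndex_dvd_index_normal H M) hHG).symm
    have h4 : Nat.card (M ⊓ H : Subgroup G) * H.relIndex M = Nat.card K * K.relIndex M := by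
      rw [← hMcard, ← Subgroup.inf_relIndex_left]
      exact Cfsg.Agent.Lib.SubgroupTools.card_mul_relIndex_of_le inf_le_left
    have h5 : (K.relIndex M).Coprime (H.relIndex M) := by
      apply Nat.coprime_of_dvd
      intro q hq h6 h7
      have h8 := hMpi q hq h6
      exact hq.one_lt.ne' (Nat.dvd_one.1 (h3 ▸ Nat.dvd_gcd h7 h8))
    have h6 : K.relIndex M ∣ Nat.card (M ⊓ H : Subgroup G) := by
      apply h5.dvd_of_dvd_mul_right
      rw [h4]; exact dvd_mul_left _ _
    have hle : K ⊔ (M ⊓ H) ≤ M := sup_le hKM.le inf_le_left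
    have hcardsup : Nat.card (K ⊔ (M ⊓ H) : Subgroup G) = Nat.card K * Nat.card (M ⊓ H : Subgroup G) := by
      have h7 := Cfsg.Agent.Lib.SubgroupTools.card_sup_mul_card_inf (N := K) (H := M ⊓ H)
        Subgroup.le_normalizer_of_normal
      have h8 : K ⊓ (M ⊓ H) = ⊥ := by
        rw [eq_bot_iff, ← hKH]
        exact inf_le_inf le_rfl inf_le_right
      rwa [h8, Subgroup.card_bot, mul_one] at h7
    have hKMH : K ⊔ (M ⊓ H) = M := by
      apply Subgroup.eq_of_le_of_card_ge hle
      rw [hcardsup, hMcard]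
      exact Nat.mul_le_mul_left _ (Nat.le_of_dvd Nat.card_pos h6)
    have hne : M ⊓ H ≠ ⊥ := by
      intro h
      rw [h, sup_bot_eq] at hKMH
      exact absurd hKMH hKM.ne
    obtain ⟨⟨x, hxMH⟩, hx1⟩ := Subgroup.ne_bot_iff_exists_ne_one.1 hne
    have hx1' : x ≠ 1 := by
      intro h; apply hx1; exact Subtype.ext h
    rw [← Subgroup.normalizer_eq_top_iff, eq_top_iff]
    intro g _
    apply hti g x hxMH.2 hx1'
    have h7 : g * x * g⁻¹ ∈ K ⊔ (M ⊓ H) := by
      rw [hKMH]; exact hM.conj_mem x hxMH.1 g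
    obtain ⟨k, hk, y, hy, hky⟩ := (Cfsg.Agent.Lib.SubgroupTools.mem_sup_of_le_normalizer
      Subgroup.le_normalizer_of_normal).1 h7
    have hcomm : Commute k y := (Subgroup.mem_centralizer_iff.1 (hcen hk) y hy.2).symm
    have h8 : (g * x * g⁻¹) ^ Nat.card H = 1 := by
      have : x ^ Nat.card H = 1 := by
        have := pow_card_eq_one' (x := (⟨x, hxMH.2⟩ : H))
        exact congrArg Subtype.val this
      rw [conj_pow, this]; group
    have h9 : y ^ Nat.card H = 1 := by
      have := pow_card_eq_one' (x := (⟨y, hy.2⟩ : H))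
      exact congrArg Subtype.val this
    have h10 : k ^ Nat.card H = 1 := by
      rw [← hky, hcomm.mul_pow, h9, mul_one] at h8
      exact h8
    have h11 : k ^ Nat.card K = 1 := by
      have := pow_card_eq_one' (x := (⟨k, hk⟩ : K))
      exact congrArg Subtype.val this
    have h12 : k = 1 := by
      have h13 : orderOf k ∣ 1 := by
        rw [← hKc.gcd_eq_one]
        exact Nat.dvd_gcd (orderOf_dvd_of_pow_eq_one h11) (orderOf_dvd_of_pow_eq_one h10)
      exact orderOf_eq_one_iff.1 (Nat.dvd_one.1 h13)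
    rw [← hky, h12, one_mul]
    exact hy.2
  -- fixed points
  have hfix : ∀ h ∈ H, h ≠ 1 → K ⊓ centralizer ({h} : Set G) ≤ centralizer (H : Set G) := by
    intro h hh hh1 k hk
    have h1 : k * h = h * k := mem_centralizer_singleton_iff.1 hk.2
    have h2 : k * h * k⁻¹ = h := by rw [h1]; group
    have h3 : k ∈ normalizer (H : Set G) := hti k h hh hh1 (by rw [h2]; exact hh)
    rw [Subgroup.mem_centralizer_iff]
    intro y hy
    have h4 : k * y * k⁻¹ * y⁻¹ ∈ H := mul_mem ((Subgroup.mem_normalizer_iff.1 h3 y).1 hy) (inv_mem hy)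
    have h5 : k * y * k⁻¹ * y⁻¹ ∈ K := by
      have : k * y * k⁻¹ * y⁻¹ = k * (y * k⁻¹ * y⁻¹) := by group
      rw [this]
      exact mul_mem hk.1 (hKn.conj_mem _ (inv_mem hk.1) y)
    have h6 : k * y * k⁻¹ * y⁻¹ = 1 := by
      have : k * y * k⁻¹ * y⁻¹ ∈ K ⊓ H := ⟨h5, h4⟩
      rwa [hKH, Subgroup.mem_bot] at this
    have h7 : k * y * k⁻¹ = y := mul_inv_eq_one.1 h6
    calc y * k = (k * y * k⁻¹) * k := by rw [h7]
      _ = k * y := by group
  -- abelian subgroups are cyclic
  have hab : ∀ A : Subgroup G, A ≤ H → IsMulCommutative A → IsCyclic A := by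
    intro A hA hcomm
    by_contra hnc
    have h1 := Cfsg.Agent.Lib.CoprimeGen.iSup_centralizer_eq (K := K) hcomm hnc
      Subgroup.le_normalizer_of_normal (Nat.Coprime.coprime_dvd_left (Subgroup.card_dvd_of_le hA) hKc.symm)
    apply hKC
    rw [← h1]
    refine iSup₂_le fun a ha => ?_
    exact hfix a (hA ha.1) ha.2
  have huniq : ∀ p : ℕ, p.Prime → ∀ x ∈ H, ∀ z ∈ H, orderOf x = p → orderOf z = p → x * z = z * x →
      zpowers x = zpowers z := by
    intro p hp x hx z hz hxo hzo hxz
    set A : Subgroup G := closure {x, z} with hA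
    have hxA : x ∈ A := Subgroup.subset_closure (by simp)
    have hzA : z ∈ A := Subgroup.subset_closure (by simp)
    have hcomm : IsMulCommutative A := by
      apply Subgroup.isMulCommutative_closure
      rintro a (rfl | rfl) b (rfl | rfl)
      · rfl
      · exact hxz
      · exact hxz.symm
      · rfl
    have hcyc := hab A (by rw [hA, closure_le]; rintro a (rfl | rfl); exacts [hx, hz]) hcomm
    have h1 : (zpowers x).subgroupOf A = (zpowers z).subgroupOf A := by
      apply Cfsg.Agent.Lib.TransferApps.cyclic_subgroup_eq_of_card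
      rw [Nat.card_congr (Subgroup.subgroupOfEquivOfLe (zpowers_le.2 hxA)).toEquiv,
        Nat.card_congr (Subgroup.subgroupOfEquivOfLe (zpowers_le.2 hzA)).toEquiv, Nat.card_zpowers, Nat.card_zpowers, hxo, hzo]
    have h2 := congrArg (Subgroup.map A.subtype) h1
    rwa [Subgroup.subgroupOf_map_subtype, Subgroup.subgroupOf_map_subtype, inf_eq_left.2 (zpowers_le.2 hxA),
      inf_eq_left.2 (zpowers_le.2 hzA)] at h2
  -- Sylow subgroups of H are cyclic
  have hZ : IsZGroup H := by
    refine ⟨fun p hp P => ?_⟩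
    have := Fact.mk hp
    by_cases hsub : Subsingleton P
    · exact isCyclic_of_subsingleton
    rw [not_subsingleton_iff_nontrivial] at hsub
    have hdvd : p ∣ Nat.card (Subgroup.center P) := by
      have := P.2.center_nontrivial
      rcases (P.2.to_subgroup (Subgroup.center P)).card_eq_or_dvd with h | h
      · exact absurd h (Nat.ne_of_gt Finite.one_lt_card)
      · exact h
    obtain ⟨⟨z, hzc⟩, hz⟩ := exists_prime_orderOf_dvd_card' p hdvd
    have hz' : orderOf z = p := (Subgroup.orderOf_mk z hzc).symm.trans hz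
    have hcent : ∀ x : P, Commute x z := fun x => (Subgroup.mem_center_iff.1 hzc x)
    have hord : ∀ x : P, orderOf x = orderOf ((x : H) : G) := by
      intro x
      rw [Subgroup.orderOf_coe, Subgroup.orderOf_coe]
    have hall : ∀ x : P, orderOf x = p → zpowers (((x : H)) : G) = zpowers (((z : H)) : G) := by
      intro x hx
      refine huniq p hp _ x.1.2 _ z.1.2 (by rw [← hord, hx]) (by rw [← hord, hz']) ?_
      exact congrArg (fun y : P => ((y : H) : G)) (hcent x).eq
    have hyx : ∀ x y : P, orderOf x = p → orderOf y = p → y ∈ Subgroup.zpowers x := by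
      intro x y hx hy
      have h1 : (((y : H)) : G) ∈ zpowers (((x : H)) : G) := by
        rw [hall x hx, ← hall y hy]; exact mem_zpowers _
      obtain ⟨k, hk⟩ := Subgroup.mem_zpowers_iff.1 h1
      refine Subgroup.mem_zpowers_iff.2 ⟨k, ?_⟩
      apply Subtype.ext
      apply Subtype.ext
      simpa using hk
    rcases eq_or_ne p 2 with hp2 | hp2
    · subst hp2
      have hc := h2 P
      obtain ⟨a, ha⟩ := Cfsg.Agent.Lib.UniqueInvolution.cyclic_of_comm (A := P) P.2
        (fun x y => hc.is_comm.comm x y) hyx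
      exact ⟨a, ha⟩
    · rcases Cfsg.Agent.Lib.UniqueInvolution.isCyclic_or_quaternion P.2 hyx with h | ⟨h, -⟩
      · exact h
      · exact absurd h hp2
  have hsolvH : Group.IsSolvable H := inferInstance
  -- Q acts coprimely on H
  have hQc : (Nat.card Q).Coprime (Nat.card H) := by
    have h1 := Cfsg.Agent.Lib.SubgroupTools.card_sup_mul_card_inf (N := H) (H := Q) hQ
    rw [sup_comm, hQH', inf_comm, hQH, Subgroup.card_bot, mul_one] at h1
    have h3 : Nat.card H * H.relIndex (normalizer (H : Set G)) = Nat.card (normalizer (H : Set G)) :=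
      Cfsg.Agent.Lib.SubgroupTools.card_mul_relIndex_of_le Subgroup.le_normalizer
    rw [h1] at h3
    have h4 := Nat.eq_of_mul_eq_mul_left Nat.card_pos h3
    rw [h4] at hHall'
    exact hHall'.symm
  apply Cfsg.Agent.Lib.CyclicHallSplit.exists_normal_complement
  · intro p hp hpD
    have := Fact.mk hp
    obtain ⟨⟨x, hxD⟩, hxo⟩ := exists_prime_orderOf_dvd_card' p hpD
    have hxo' : orderOf x = p := by rw [← hxo]; exact (Subgroup.orderOf_mk x hxD).symm
    have hQx : Q ≤ normalizer (zpowers x : Set G) := by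
      have h1 : Q ≤ centralizer (zpowers x : Set G) := by
        rw [Subgroup.le_centralizer_iff, zpowers_le]; exact hxD.2
      exact h1.trans (Cfsg.Agent.Lib.GroupUtil.centralizer_le_normalizer _)
    obtain ⟨P, hxP, hPH, hPp, hPi, hQP⟩ := Cfsg.Agent.Lib.CoprimeAction.exists_invariant_sylow_ge (A := Q) (K := H)
      (p := p) (U := zpowers x) hQ hQc (Or.inr hsolvH) (zpowers_le.2 hxD.1)
      (IsPGroup.of_card (n := 1) (by rw [Nat.card_zpowers, hxo', pow_one])) hQx
    have hxP' : x ∈ P := hxP (mem_zpowers x)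
    obtain ⟨S, hS⟩ := Cfsg.Agent.Lib.CoprimeAction.exists_sylow_map_subtype_eq hPH hPp hPi
    have hcS : IsCyclic (S : Subgroup H) := hZ.isZGroup p hp S
    have hcP : IsCyclic P := by
      rw [← hS]
      exact isCyclic_of_surjective _ (Subgroup.equivMapOfInjective (S : Subgroup H) H.subtype H.subtype_injective).surjective
    have hcommP : IsMulCommutative P := inferInstance
    have hPQ : P ≤ centralizer (Q : Set G) := by
      rw [← commutator_eq_bot_iff_le_centralizer]
      by_contra hne
      have h1 := Cfsg.Agent.Lib.CoprimeAction2.inf_commutator_eq_bot_of_abelian (A := Q) (V := P) hQP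
        (Nat.Coprime.coprime_dvd_right (Subgroup.card_dvd_of_le hPH) hQc)
      have hle : ⁅P, Q⁆ ≤ P := le_normalizer_iff_commutator_le_left.mp hQP
      have h3 : IsPGroup p (⁅P, Q⁆ : Subgroup G) := hPp.to_le hle
      have hne' : Nontrivial (⁅P, Q⁆ : Subgroup G) := by
        rw [Subgroup.nontrivial_iff_ne_bot]; exact hne
      have h4 : p ∣ Nat.card (⁅P, Q⁆ : Subgroup G) := by
        rcases h3.card_eq_or_dvd with h | h
        · exact absurd h (Nat.ne_of_gt Finite.one_lt_card)
        · exact h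
      obtain ⟨⟨y, hy⟩, hyo⟩ := exists_prime_orderOf_dvd_card' p h4
      have hyo' : orderOf y = p := by rw [← hyo]; exact (Subgroup.orderOf_mk y hy).symm
      have h5 : zpowers y = zpowers x := by
        refine huniq p hp y (hPH (hle hy)) x hxD.1 hyo' hxo' ?_
        exact congrArg Subtype.val (hcommP.is_comm.comm (⟨y, hle hy⟩ : P) ⟨x, hxP'⟩)
      have h6 : x ∈ ⁅P, Q⁆ := by
        have : x ∈ zpowers y := by rw [h5]; exact mem_zpowers x
        exact (zpowers_le.2 hy) this
      have h7 : x ∈ (P ⊓ centralizer (Q : Set G)) ⊓ ⁅P, Q⁆ := ⟨⟨hxP', hxD.2⟩, h6⟩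
      rw [h1, Subgroup.mem_bot] at h7
      rw [h7, orderOf_one] at hxo'
      exact hp.one_lt.ne hxo'
    refine ⟨P, le_inf hPH hPQ, hPp, hcP, ?_⟩
    rw [← Subgroup.relIndex_mul_index hPH]
    intro hd
    rcases hp.dvd_mul.1 hd with h | h
    · exact hPi h
    · have hpH : p ∣ Nat.card H := hpD.trans (Subgroup.card_dvd_of_le inf_le_left)
      exact hp.one_lt.ne' (Nat.dvd_one.1 (hHG ▸ Nat.dvd_gcd hpH h))
  · intro x hx g hgx
    by_cases hx1 : x = 1
    · refine ⟨1, one_mem _, ?_⟩
      rw [hx1]; group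
    have hg : g ∈ normalizer (H : Set G) := hti g x hx.1 hx1 hgx.1
    rw [← hQH', sup_comm] at hg
    obtain ⟨h, hh, q, hq, rfl⟩ := (Cfsg.Agent.Lib.SubgroupTools.mem_sup_of_le_normalizer hQ).1 hg
    have hqx : q * x * q⁻¹ = x := by
      have := Subgroup.mem_centralizer_iff.1 hx.2 q hq
      rw [this]; group
    have hhx : h * q * x * (h * q)⁻¹ = h * x * h⁻¹ := by
      calc h * q * x * (h * q)⁻¹ = h * (q * x * q⁻¹) * h⁻¹ := by group
        _ = h * x * h⁻¹ := by rw [hqx]
    rw [hhx] at hgx ⊢
    let act : MulAction G G := MulAction.compHom G (MulAut.conj : G →* MulAut G)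
    have hact : ∀ a b : G, act.toSMul.smul a b = a * b * a⁻¹ := fun a b => rfl
    obtain ⟨c, hc, hcx⟩ := @Cfsg.Agent.Lib.CoprimeAction.exists_smul_eq_of_fixed G _ _ G act Q H hQ hQc (Or.inr hsolvH)
      x (h * x * h⁻¹) (by
        intro a ha
        show a * x * a⁻¹ = x
        rw [Subgroup.mem_centralizer_iff.1 hx.2 a ha]; group) (by
        intro a ha
        show a * (h * x * h⁻¹) * a⁻¹ = h * x * h⁻¹
        rw [Subgroup.mem_centralizer_iff.1 hgx.2 a ha]; group) ⟨h, hh, rfl⟩
    exact ⟨c, hc, hcx⟩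

end Cfsg.Agent.S4151
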