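import Cfsg.Statements.S4152
import Cfsg.Agent.Lib.ClassCount

set_option autoImplicit false
open Cfsg

namespace Cfsg.Agent.S4152

/-- split a natural number into its `π`-part and its `π'`-part -/
theorem exists_split (π : Set ℕ) (n : ℕ) (hn : n ≠ 0) :
    ∃ a b : ℕ, a * b = n ∧ (∀ q : ℕ, q.Prime → q ∣ a → q ∈ π) ∧ (∀ q : ℕ, q.Prime → q ∣ b → q ∉ π) := by
  classical
  induction n using induction_on_primes with
  | zero => exact absurd rfl hn
  | one => exact ⟨1, 1, rfl, fun q hq h => absurd (Nat.dvd_one.1 h) hq.ne_one,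
      fun q hq h => absurd (Nat.dvd_one.1 h) hq.ne_one⟩
  | prime_mul p m hp ih =>
    have hm : m ≠ 0 := by rintro rfl; exact hn (by simp)
    obtain ⟨a, b, hab, ha, hb⟩ := ih hm
    by_cases hpπ : p ∈ π
    · refine ⟨p * a, b, by rw [mul_assoc, hab], ?_, hb⟩
      intro q hq h
      rcases (Nat.Prime.dvd_mul hq).1 h with h | h
      · rw [(Nat.prime_dvd_prime_iff_eq hq hp).1 h]; exact hpπ
      · exact ha q hq h
    · refine ⟨a, p * b, by rw [mul_left_comm, hab], ha, ?_⟩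
      intro q hq h
      rcases (Nat.Prime.dvd_mul hq).1 h with h | h
      · rw [(Nat.prime_dvd_prime_iff_eq hq hp).1 h]; exact hpπ
      · exact hb q hq h

theorem pi_iff (π : Set ℕ) (a b : ℕ) (hab : a * b ≠ 0) (ha : ∀ q : ℕ, q.Prime → q ∣ a → q ∈ π)
    (hb : ∀ q : ℕ, q.Prime → q ∣ b → q ∉ π) {K : Type*} [Group K] [Finite K]
    (hK : Nat.card K ∣ a * b) (x : K) :
    (∀ q : ℕ, q.Prime → q ∣ orderOf x → q ∈ π) ↔ x ^ a = 1 := by
  constructor
  · intro h
    rw [← orderOf_dvd_iff_pow_eq_one]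
    have h1 : orderOf x ∣ a * b := (orderOf_dvd_natCard x).trans hK
    have h2 : Nat.Coprime (orderOf x) b := by
      rw [Nat.coprime_iff_gcd_eq_one]
      by_contra hne
      obtain ⟨q, hq, hqd⟩ := Nat.exists_prime_and_dvd hne
      exact hb q hq (hqd.trans (Nat.gcd_dvd_right _ _)) (h q hq (hqd.trans (Nat.gcd_dvd_left _ _)))
    exact h2.dvd_of_dvd_mul_right h1
  · intro h q hq hqd
    exact ha q hq (hqd.trans (orderOf_dvd_of_pow_eq_one h))

theorem card_classes (π : Set ℕ) (a b : ℕ) (hab : a * b ≠ 0) (ha : ∀ q : ℕ, q.Prime → q ∣ a → q ∈ π)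
    (hb : ∀ q : ℕ, q.Prime → q ∣ b → q ∉ π) {K : Type*} [Group K] [Finite K]
    (hK : Nat.card K ∣ a * b) :
    Nat.card {C : ConjClasses K // ∀ q : ℕ, q.Prime → (∃ g : K, ConjClasses.mk g = C ∧ q ∣ orderOf g) → q ∈ π} * Nat.card K
      = Nat.card {p : K × K // p.1 ^ a = 1 ∧ Commute p.1 p.2} := by
  rw [Cfsg.Agent.Lib.ClassCount.card_pairs (K := K) (fun x => x ^ a = 1) (by
    intro g x hx
    show (g * x * g⁻¹) ^ a = 1
    rw [conj_pow, hx]; group)]
  congr 1
  refine Nat.card_congr (Equiv.subtypeEquivRight ?_)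
  intro C
  constructor
  · intro h x hx
    exact (pi_iff π a b hab ha hb hK x).1 (fun q hq hqd => h q hq ⟨x, hx, hqd⟩)
  · intro h q hq hg
    obtain ⟨g, hg, hqd⟩ := hg
    exact (pi_iff π a b hab ha hb hK g).2 (h g hg) q hq hqd

/-- Let G be a finite group, N a normal subgroup and π a set of primes. Then the number of conjugacy classes of π-elements of G (elements whose order is divisible only by primes in π) is at most the number of conjugacy classes of π-elements of N (under conjugation by N) times the number of conjugacy classes of π-elements of G/N. -/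
theorem result {G : Type*} [Group G] [Finite G] (N : Subgroup G) [N.Normal] (π : Set ℕ) :
    Nat.card {C : ConjClasses G // ∀ q : ℕ, q.Prime → (∃ g : G, ConjClasses.mk g = C ∧ q ∣ orderOf g) → q ∈ π} ≤ Nat.card {C : ConjClasses N // ∀ q : ℕ, q.Prime → (∃ g : N, ConjClasses.mk g = C ∧ q ∣ orderOf g) → q ∈ π} * Nat.card {C : ConjClasses (G ⧸ N) // ∀ q : ℕ, q.Prime → (∃ g : (G ⧸ N), ConjClasses.mk g = C ∧ q ∣ orderOf g) → q ∈ π} := by
  classical
  obtain ⟨a, b, hab, ha, hb⟩ := exists_split π (Nat.card G) Nat.card_pos.ne'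
  have hab0 : a * b ≠ 0 := by rw [hab]; exact Nat.card_pos.ne'
  have hcop : Nat.Coprime a b := by
    rw [Nat.coprime_iff_gcd_eq_one]
    by_contra hne
    obtain ⟨q, hq, hqd⟩ := Nat.exists_prime_and_dvd hne
    exact hb q hq (hqd.trans (Nat.gcd_dvd_right _ _)) (ha q hq (hqd.trans (Nat.gcd_dvd_left _ _)))
  have hG := card_classes π a b hab0 ha hb (K := G) (by rw [hab])
  have hN := card_classes π a b hab0 ha hb (K := N) (by rw [hab]; exact Subgroup.card_subgroup_dvd_card N)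
  have hQ := card_classes π a b hab0 ha hb (K := G ⧸ N) (by
    rw [hab]; exact Subgroup.card_quotient_dvd_card N)
  have hcard : Nat.card G = Nat.card (G ⧸ N) * Nat.card N := Subgroup.card_eq_card_quotient_mul_card_subgroup N
  -- exponents
  obtain ⟨e, he1, he2⟩ := Nat.chineseRemainder hcop 1 0
  obtain ⟨f, hf1, hf2⟩ := Nat.chineseRemainder hcop 0 1
  have hord : ∀ x : G, orderOf x ∣ a * b := fun x => by rw [hab]; exact orderOf_dvd_natCard x
  have hpow : ∀ (x : G) (i j : ℕ), i ≡ j [MOD a] → i ≡ j [MOD b] → x ^ i = x ^ j := by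
    intro x i j h1 h2
    rw [pow_eq_pow_iff_modEq]
    have h3 : i ≡ j [MOD a * b] := (Nat.modEq_and_modEq_iff_modEq_mul hcop).1 ⟨h1, h2⟩
    exact h3.of_dvd (hord x)
  have hpowa : ∀ (x : G), x ^ a = 1 → ∀ (i j : ℕ), i ≡ j [MOD a] → x ^ i = x ^ j := by
    intro x hx i j h1
    rw [pow_eq_pow_iff_modEq]
    exact h1.of_dvd (orderOf_dvd_of_pow_eq_one hx)
  -- choice functions
  let mk : G → G ⧸ N := QuotientGroup.mk
  let g0 : G → G ⧸ N → G := fun y Z =>
    if h : ∃ g : G, mk g = Z ∧ Commute y g then h.choose else 1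
  have hg0 : ∀ y g : G, Commute y g → mk (g0 y (mk g)) = mk g ∧ Commute y (g0 y (mk g)) := by
    intro y g hyg
    have h : ∃ g' : G, mk g' = mk g ∧ Commute y g' := ⟨g, rfl, hyg⟩
    have h1 : g0 y (mk g) = h.choose := dif_pos h
    rw [h1]; exact h.choose_spec
  -- m
  let mm : G × G → G := fun p => (g0 p.1 (mk p.2))⁻¹ * p.2
  have hmmN : ∀ p : G × G, Commute p.1 p.2 → mm p ∈ N := by
    intro p hp
    have h1 := (hg0 p.1 p.2 hp).1
    exact QuotientGroup.eq.1 h1
  have hmmc : ∀ p : G × G, Commute p.1 p.2 → Commute p.1 (mm p) := by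
    intro p hp
    exact ((hg0 p.1 p.2 hp).2.inv_right).mul_right hp
  let ww : G × G → G := fun p => p.1 * (mm p) ^ f
  let uu : G × G → G := fun p => (mm p) ^ e
  have hwu : ∀ p : G × G, Commute p.1 p.2 → Commute (uu p) (ww p) := by
    intro p hp
    have h1 := hmmc p hp
    exact ((h1.pow_right e).symm).mul_right ((Commute.refl (mm p)).pow_pow e f)
  have huN : ∀ p : G × G, Commute p.1 p.2 → uu p ∈ N := fun p hp => pow_mem (hmmN p hp) e
  have hua : ∀ p : G × G, (uu p) ^ a = 1 := by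
    intro p
    show ((mm p) ^ e) ^ a = 1
    rw [← pow_mul, ← pow_zero (mm p)]
    refine hpow _ _ _ ?_ ?_
    · exact (Nat.modEq_zero_iff_dvd.2 (dvd_mul_left a e))
    · exact (Nat.modEq_zero_iff_dvd.2 (((Nat.modEq_zero_iff_dvd.1 he2)).mul_right a))
  have hwmk : ∀ p : G × G, Commute p.1 p.2 → mk (ww p) = mk p.1 := by
    intro p hp
    refine (QuotientGroup.eq.2 ?_).symm
    show p.1⁻¹ * (p.1 * (mm p) ^ f) ∈ N
    rw [inv_mul_cancel_left]
    exact pow_mem (hmmN p hp) f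
  let vv : G × G → G := fun p => (g0 (uu p) (mk (ww p)))⁻¹ * ww p
  have hvN : ∀ p : G × G, Commute p.1 p.2 → vv p ∈ N := by
    intro p hp
    exact QuotientGroup.eq.1 (hg0 (uu p) (ww p) (hwu p hp)).1
  have hvc : ∀ p : G × G, Commute p.1 p.2 → Commute (uu p) (vv p) := by
    intro p hp
    exact ((hg0 (uu p) (ww p) (hwu p hp)).2.inv_right).mul_right (hwu p hp)
  -- recover
  have hrec1 : ∀ p : G × G, p.1 ^ a = 1 → Commute p.1 p.2 → p.1 = (ww p) ^ e := by
    intro p hpa hp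
    show p.1 = (p.1 * (mm p) ^ f) ^ e
    rw [((hmmc p hp).pow_right f).mul_pow e, ← pow_mul]
    have h1 : p.1 ^ e = p.1 := by
      conv_rhs => rw [← pow_one p.1]
      exact hpowa _ hpa _ _ he1
    have h2 : (mm p) ^ (f * e) = 1 := by
      rw [← pow_zero (mm p)]
      refine hpow _ _ _ ?_ ?_
      · exact (Nat.modEq_zero_iff_dvd.2 ((Nat.modEq_zero_iff_dvd.1 hf1).mul_right e))
      · exact (Nat.modEq_zero_iff_dvd.2 ((Nat.modEq_zero_iff_dvd.1 he2).mul_left f))
    rw [h1, h2, mul_one]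
  have hrec2 : ∀ p : G × G, p.1 ^ a = 1 → Commute p.1 p.2 → mm p = uu p * (ww p) ^ f := by
    intro p hpa hp
    show mm p = (mm p) ^ e * (p.1 * (mm p) ^ f) ^ f
    rw [((hmmc p hp).pow_right f).mul_pow f, ← pow_mul]
    have h1 : p.1 ^ f = 1 := by
      rw [← pow_zero p.1]
      exact hpowa _ hpa _ _ hf1
    rw [h1, one_mul, ← pow_add]
    conv_lhs => rw [← pow_one (mm p)]
    refine hpow _ _ _ ?_ ?_
    · have h2 : f * f ≡ 0 * 0 [MOD a] := hf1.mul hf1
      exact ((he1.add h2)).symm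
    · have h2 : f * f ≡ 1 * 1 [MOD b] := hf2.mul hf2
      exact ((he2.add h2)).symm
  -- the injection
  let Φ : {p : G × G // p.1 ^ a = 1 ∧ Commute p.1 p.2} →
      {p : N × N // p.1 ^ a = 1 ∧ Commute p.1 p.2} × {p : (G ⧸ N) × (G ⧸ N) // p.1 ^ a = 1 ∧ Commute p.1 p.2} :=
    fun p => (⟨(⟨uu p.1, huN _ p.2.2⟩, ⟨vv p.1, hvN _ p.2.2⟩), Subtype.ext (hua p.1), Subtype.ext (hvc _ p.2.2)⟩,
      ⟨(mk p.1.1, mk p.1.2), by
        show (QuotientGroup.mk p.1.1 : G ⧸ N) ^ a = 1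
        rw [← QuotientGroup.mk_pow, p.2.1, QuotientGroup.mk_one], by
        show (QuotientGroup.mk p.1.1 : G ⧸ N) * QuotientGroup.mk p.1.2 = QuotientGroup.mk p.1.2 * QuotientGroup.mk p.1.1
        rw [← QuotientGroup.mk_mul, ← QuotientGroup.mk_mul, p.2.2.eq]⟩)
  have hΦ : Function.Injective Φ := by
    rintro ⟨p, hpa, hpc⟩ ⟨q, hqa, hqc⟩ h
    have h1 : uu p = uu q := congrArg (fun z => ((z.1.1.1 : N) : G)) h
    have h2 : vv p = vv q := congrArg (fun z => ((z.1.1.2 : N) : G)) h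
    have h3 : mk p.1 = mk q.1 := congrArg (fun z => z.2.1.1) h
    have h4 : mk p.2 = mk q.2 := congrArg (fun z => z.2.1.2) h
    have h5 : ww p = ww q := by
      have e1 : ww p = g0 (uu p) (mk (ww p)) * vv p := by
        show ww p = g0 (uu p) (mk (ww p)) * ((g0 (uu p) (mk (ww p)))⁻¹ * ww p)
        rw [mul_inv_cancel_left]
      have e2 : ww q = g0 (uu q) (mk (ww q)) * vv q := by
        show ww q = g0 (uu q) (mk (ww q)) * ((g0 (uu q) (mk (ww q)))⁻¹ * ww q)
        rw [mul_inv_cancel_left]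
      rw [e1, e2, h2, h1, hwmk p hpc, hwmk q hqc, h3]
    have h6 : p.1 = q.1 := by rw [hrec1 p hpa hpc, hrec1 q hqa hqc, h5]
    have h7 : mm p = mm q := by rw [hrec2 p hpa hpc, hrec2 q hqa hqc, h1, h5]
    have h8 : p.2 = q.2 := by
      have e1 : p.2 = g0 p.1 (mk p.2) * mm p := by
        show p.2 = g0 p.1 (mk p.2) * ((g0 p.1 (mk p.2))⁻¹ * p.2)
        rw [mul_inv_cancel_left]
      have e2 : q.2 = g0 q.1 (mk q.2) * mm q := by
        show q.2 = g0 q.1 (mk q.2) * ((g0 q.1 (mk q.2))⁻¹ * q.2)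
        rw [mul_inv_cancel_left]
      rw [e1, e2, h6, h7, h4]
    exact Subtype.ext (Prod.ext h6 h8)
  have hle := Nat.card_le_card_of_injective Φ hΦ
  rw [Nat.card_prod, ← hG, ← hN, ← hQ] at hle
  refine Nat.le_of_mul_le_mul_right (c := Nat.card G) ?_ Nat.card_pos
  calc _ ≤ _ := hle
    _ = _ := by rw [hcard]; ring

end Cfsg.Agent.S4152
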