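import Cfsg.Statements.S4153

set_option autoImplicit false
open Cfsg

namespace Cfsg.Agent.S4153

/-- Let G be a finite group, p a prime, N a normal subgroup, P a Sylow p-subgroup of G and P̄ a Sylow p-subgroup of G/N. Count the elements of p-power order, the identity included. Then (number of such elements of G/N)/#P̄ ≤ (number of such elements of G)/#P, stated as a cross-multiplied inequality, with equality when N is central. -/
theorem result {G : Type*} [Group G] [Finite G] (p : ℕ) [Fact p.Prime] (N : Subgroup G) [N.Normal]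
    (P : Sylow p G) (Pbar : Sylow p (G ⧸ N)) :
    Nat.card {g : (G ⧸ N) // ∃ k : ℕ, orderOf g = p ^ k} * Nat.card (P : Subgroup G) ≤ Nat.card {g : G // ∃ k : ℕ, orderOf g = p ^ k} * Nat.card (Pbar : Subgroup (G ⧸ N)) ∧
    (N ≤ Subgroup.center G → Nat.card {g : (G ⧸ N) // ∃ k : ℕ, orderOf g = p ^ k} * Nat.card (P : Subgroup G) = Nat.card {g : G // ∃ k : ℕ, orderOf g = p ^ k} * Nat.card (Pbar : Subgroup (G ⧸ N))) := by
  classical
  have hp : p.Prime := Fact.out
  let π : G →* G ⧸ N := QuotientGroup.mk' N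
  have hπ : Function.Surjective π := QuotientGroup.mk'_surjective N
  have hker : π.ker = N := QuotientGroup.ker_mk' N
  -- characterization of p-elements
  have hpel : ∀ {K : Type _} [Group K] (x : K), (∃ k : ℕ, orderOf x = p ^ k) ↔ ∃ k : ℕ, x ^ p ^ k = 1 := by
    intro K _ x
    constructor
    · rintro ⟨k, hk⟩; exact ⟨k, by rw [← hk]; exact pow_orderOf_eq_one x⟩
    · rintro ⟨k, hk⟩
      obtain ⟨j, _, hj⟩ := (Nat.dvd_prime_pow hp).1 (orderOf_dvd_of_pow_eq_one hk)
      exact ⟨j, hj⟩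
  -- |P| = |P ⊓ N| * |Pbar|
  have hcardP : Nat.card (P : Subgroup G) = Nat.card ↥((P : Subgroup G) ⊓ N) * Nat.card (Pbar : Subgroup (G ⧸ N)) := by
    have h1 : Nat.card (Pbar : Subgroup (G ⧸ N)) = Nat.card ((P.mapSurjective hπ : Sylow p (G ⧸ N)) : Subgroup (G ⧸ N)) := by
      rw [Pbar.card_eq_multiplicity, (P.mapSurjective hπ).card_eq_multiplicity]
    rw [h1]
    have h2 : ((P.mapSurjective hπ : Sylow p (G ⧸ N)) : Subgroup (G ⧸ N)) = (P : Subgroup G).map π := rfl
    rw [h2]
    have h3 := Subgroup.relIndex_ker (K := (P : Subgroup G)) π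
    rw [hker] at h3
    rw [← h3, ← Subgroup.inf_relIndex_left]
    have h4 := Subgroup.card_mul_index ((((P : Subgroup G)) ⊓ N).subgroupOf (P : Subgroup G))
    rw [Nat.card_congr (Subgroup.subgroupOfEquivOfLe (inf_le_left : (P : Subgroup G) ⊓ N ≤ P)).toEquiv] at h4
    exact h4.symm
  -- every Sylow meets N in the same order
  have hinf : ∀ S : Sylow p G, Nat.card ↥((S : Subgroup G) ⊓ N) = Nat.card ↥((P : Subgroup G) ⊓ N) := by
    intro S
    obtain ⟨g, rfl⟩ := MulAction.exists_smul_eq G P S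
    symm
    refine Nat.card_congr (Equiv.subtypeEquiv (MulAut.conj g).toEquiv ?_)
    intro a
    simp only [Subgroup.mem_inf]
    have h1 : (MulAut.conj g).toEquiv a = g * a * g⁻¹ := rfl
    rw [h1]
    constructor
    · rintro ⟨h2, h3⟩
      refine ⟨?_, (inferInstance : N.Normal).conj_mem a h3 g⟩
      rw [Sylow.coe_subgroup_smul, Subgroup.mem_pointwise_smul_iff_inv_smul_mem]
      have : (MulAut.conj g)⁻¹ • (g * a * g⁻¹) = a := by
        rw [← map_inv, MulAut.smul_def, MulAut.conj_apply]; group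
      rw [this]; exact h2
    · rintro ⟨h2, h3⟩
      refine ⟨?_, ?_⟩
      · rw [Sylow.coe_subgroup_smul, Subgroup.mem_pointwise_smul_iff_inv_smul_mem] at h2
        have : (MulAut.conj g)⁻¹ • (g * a * g⁻¹) = a := by
          rw [← map_inv, MulAut.smul_def, MulAut.conj_apply]; group
        rwa [this] at h2
      · have := (inferInstance : N.Normal).conj_mem _ h3 g⁻¹
        have h4 : g⁻¹ * (g * a * g⁻¹) * g⁻¹⁻¹ = a := by group
        rwa [h4] at this
  -- for each p-element of G ⧸ N choose a Sylow and a p-element in the coset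
  have hchoose : ∀ q : {g : (G ⧸ N) // ∃ k : ℕ, orderOf g = p ^ k}, ∃ S : Sylow p G, ∃ x ∈ S, π x = q.1 := by
    rintro ⟨q, k, hk⟩
    have h1 : IsPGroup p (Subgroup.zpowers q) := IsPGroup.of_card (n := k) (by rw [Nat.card_zpowers, hk])
    obtain ⟨R, hR⟩ := h1.exists_le_sylow
    obtain ⟨S, rfl⟩ := Sylow.mapSurjective_surjective hπ p R
    obtain ⟨x, hx, hxq⟩ := hR (Subgroup.mem_zpowers q)
    exact ⟨S, x, hx, hxq⟩
  choose S x hxS hxq using hchoose
  -- the injection
  have hmap : ∀ y : G, (∃ k : ℕ, orderOf y = p ^ k) → ∃ k : ℕ, orderOf (π y) = p ^ k := by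
    intro y hy
    rw [hpel] at hy ⊢
    obtain ⟨k, hk⟩ := hy
    exact ⟨k, by rw [← map_pow, hk, map_one]⟩
  have hSel : ∀ (T : Sylow p G) (y : G), y ∈ T → ∃ k : ℕ, orderOf y = p ^ k := by
    intro T y hy
    obtain ⟨k, hk⟩ := (IsPGroup.iff_orderOf.1 T.2) ⟨y, hy⟩
    exact ⟨k, by rwa [Subgroup.orderOf_mk] at hk⟩
  have hle : Nat.card {g : (G ⧸ N) // ∃ k : ℕ, orderOf g = p ^ k} * Nat.card ↥((P : Subgroup G) ⊓ N) ≤
      Nat.card {g : G // ∃ k : ℕ, orderOf g = p ^ k} := by
    have h1 : Nat.card (Σ q : {g : (G ⧸ N) // ∃ k : ℕ, orderOf g = p ^ k}, ↥((S q : Subgroup G) ⊓ N)) =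
        Nat.card {g : (G ⧸ N) // ∃ k : ℕ, orderOf g = p ^ k} * Nat.card ↥((P : Subgroup G) ⊓ N) := by
      have : Fintype {g : (G ⧸ N) // ∃ k : ℕ, orderOf g = p ^ k} := Fintype.ofFinite _
      rw [Nat.card_sigma]
      simp only [hinf]
      rw [Finset.sum_const, Finset.card_univ, smul_eq_mul, ← Nat.card_eq_fintype_card]
    rw [← h1]
    refine Nat.card_le_card_of_injective (fun z => (⟨x z.1 * z.2.1, hSel (S z.1) _ (mul_mem (hxS z.1) z.2.2.1)⟩ :
      {g : G // ∃ k : ℕ, orderOf g = p ^ k})) ?_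
    rintro ⟨q, n, hn⟩ ⟨q', n', hn'⟩ h
    have h2 : x q * n = x q' * n' := congrArg Subtype.val h
    have h3 : q = q' := by
      apply Subtype.ext
      have h4 := congrArg π h2
      rw [map_mul, map_mul, hxq, hxq] at h4
      have h5 : π n = 1 := (QuotientGroup.eq_one_iff n).2 hn.2
      have h6 : π n' = 1 := (QuotientGroup.eq_one_iff n').2 hn'.2
      rwa [h5, h6, mul_one, mul_one] at h4
    subst h3
    have h4 : n = n' := mul_left_cancel h2
    subst h4
    rfl
  refine ⟨?_, ?_⟩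
  · rw [hcardP, ← mul_assoc]
    exact Nat.mul_le_mul_right _ hle
  · intro hNZ
    rw [hcardP, ← mul_assoc]
    congr 1
    refine le_antisymm hle ?_
    rw [← Nat.card_prod]
    -- central p-elements are in every Sylow
    have hcen : ∀ n ∈ N, (∃ k : ℕ, orderOf n = p ^ k) → n ∈ (P : Subgroup G) := by
      intro n hn hk
      have h1 : IsPGroup p (Subgroup.zpowers n) := by
        obtain ⟨k, hk⟩ := hk
        exact IsPGroup.of_card (n := k) (by rw [Nat.card_zpowers, hk])
      obtain ⟨R, hR⟩ := h1.exists_le_sylow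
      have h2 : n ∈ (R : Subgroup G) := hR (Subgroup.mem_zpowers n)
      obtain ⟨g, rfl⟩ := MulAction.exists_smul_eq G P R
      rw [Sylow.coe_subgroup_smul, Subgroup.mem_pointwise_smul_iff_inv_smul_mem] at h2
      have h3 : (MulAut.conj g)⁻¹ • n = n := by
        rw [← map_inv, MulAut.smul_def, MulAut.conj_apply]
        have := Subgroup.mem_center_iff.1 (hNZ hn) g⁻¹
        rw [this]; group
      rwa [h3] at h2
    let f : {g : G // ∃ k : ℕ, orderOf g = p ^ k} → {g : (G ⧸ N) // ∃ k : ℕ, orderOf g = p ^ k} :=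
      fun y => ⟨π y.1, hmap y.1 y.2⟩
    refine Nat.card_le_card_of_injective (fun y => (f y, (⟨(x (f y))⁻¹ * y.1, ?_⟩ : ↥((P : Subgroup G) ⊓ N)))) ?_
    · have hN : (x (f y))⁻¹ * y.1 ∈ N := by
        rw [← QuotientGroup.eq_one_iff, ← QuotientGroup.mk'_apply]
        show π ((x (f y))⁻¹ * y.1) = 1
        rw [map_mul, map_inv, hxq]
        show (π y.1)⁻¹ * π y.1 = 1
        rw [inv_mul_cancel]
      refine ⟨hcen _ hN ?_, hN⟩
      -- y = x n with n central
      rw [hpel]
      obtain ⟨k, hk⟩ := (hpel _).1 y.2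
      obtain ⟨j, hj⟩ := (hpel _).1 (hSel _ _ (hxS (f y)))
      refine ⟨k + j, ?_⟩
      set n := (x (f y))⁻¹ * y.1 with hn
      have h1 : y.1 = x (f y) * n := by rw [hn, mul_inv_cancel_left]
      have hcomm : Commute (x (f y)) n := Subgroup.mem_center_iff.1 (hNZ hN) _
      have h2 : y.1 ^ p ^ (k + j) = 1 := by rw [pow_add, pow_mul, hk, one_pow]
      have h3 : (x (f y)) ^ p ^ (k + j) = 1 := by rw [add_comm, pow_add, pow_mul, hj, one_pow]
      rw [h1, hcomm.mul_pow, h3, one_mul] at h2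
      exact h2
    · intro y y' h
      have h1 : f y = f y' := congrArg Prod.fst h
      have h2 : (x (f y))⁻¹ * y.1 = (x (f y'))⁻¹ * y'.1 := congrArg (fun w => ((w.2 : ↥((P : Subgroup G) ⊓ N)) : G)) h
      rw [h1] at h2
      exact Subtype.ext (mul_left_cancel h2)

end Cfsg.Agent.S4153
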