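import Cfsg.Statements.S4154

set_option autoImplicit false
open Cfsg

namespace Cfsg.Agent.S4154

/-- Let G be a finite group and α an automorphism of G such that every element of G is the product of an element fixed by α and an element of the form g⁻¹α(g). If N is a normal α-invariant subgroup, then the automorphism ᾱ induced on G/N has the same property, and every coset fixed by ᾱ contains an element fixed by α (so the fixed points of ᾱ are the images of the fixed points of α). -/
theorem result {G : Type*} [Group G] [Finite G] (α : MulAut G)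
    (hccp : ∀ x : G, ∃ c g : G, α c = c ∧ x = c * (g⁻¹ * α g))
    (N : Subgroup G) [N.Normal] (hN : ∀ n ∈ N, α n ∈ N) :
    (∀ x : G, ∃ c g : G, c⁻¹ * α c ∈ N ∧ x⁻¹ * (c * (g⁻¹ * α g)) ∈ N) ∧
    (∀ x : G, x⁻¹ * α x ∈ N → ∃ c : G, α c = c ∧ c⁻¹ * x ∈ N) := by
  classical
  constructor
  · intro x
    obtain ⟨c, g, hc, hx⟩ := hccp x
    refine ⟨c, g, ?_, ?_⟩
    · rw [hc, inv_mul_cancel]; exact one_mem _
    · rw [← hx, inv_mul_cancel]; exact one_mem _
  · -- T = preimage of the fixed points, F = fixed points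
    let F : Subgroup G :=
      { carrier := {c | α c = c}
        mul_mem' := by
          intro a b ha hb
          show α (a * b) = a * b
          rw [map_mul, ha, hb]
        one_mem' := map_one α
        inv_mem' := by
          intro a ha
          show α a⁻¹ = a⁻¹
          rw [map_inv, ha] }
    have hconj : ∀ n ∈ N, ∀ g : G, g * n * g⁻¹ ∈ N := fun n hn g => (inferInstance : N.Normal).conj_mem n hn g
    let T : Subgroup G :=
      { carrier := {x | x⁻¹ * α x ∈ N}
        mul_mem' := by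
          intro x y hx hy
          show (x * y)⁻¹ * α (x * y) ∈ N
          have h1 : (x * y)⁻¹ * α (x * y) = (y⁻¹ * (x⁻¹ * α x) * y⁻¹⁻¹) * (y⁻¹ * α y) := by
            rw [map_mul]; group
          rw [h1]
          exact mul_mem (hconj _ hx _) hy
        one_mem' := by show (1 : G)⁻¹ * α 1 ∈ N; simp
        inv_mem' := by
          intro x hx
          show x⁻¹⁻¹ * α x⁻¹ ∈ N
          have h1 : x⁻¹⁻¹ * α x⁻¹ = x * (x⁻¹ * α x)⁻¹ * x⁻¹ := by rw [map_inv]; group
          rw [h1]
          exact hconj _ (inv_mem hx) _ }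
    let π : G →* G ⧸ N := QuotientGroup.mk' N
    have hπ : Function.Surjective π := QuotientGroup.mk'_surjective N
    have hker : π.ker = N := QuotientGroup.ker_mk' N
    have hNT : N ≤ T := by
      intro n hn
      show n⁻¹ * α n ∈ N
      exact mul_mem (inv_mem hn) (hN n hn)
    have hFT : F ≤ T := by
      intro c hc
      have hc' : α c = c := hc
      show c⁻¹ * α c ∈ N
      rw [hc', inv_mul_cancel]; exact one_mem _
    -- κ(g) = g⁻¹ α g mod N, as a function on G ⧸ T
    let κ : G ⧸ T → G ⧸ N := fun q => Quotient.liftOn' q (fun g => π ((g⁻¹)⁻¹ * α (g⁻¹))) (by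
      intro g h hgh
      rw [QuotientGroup.leftRel_apply] at hgh
      show π ((g⁻¹)⁻¹ * α (g⁻¹)) = π ((h⁻¹)⁻¹ * α (h⁻¹))
      have h1 : (g⁻¹ * h)⁻¹ * α (g⁻¹ * h) ∈ N := hgh
      have h2 : π ((g⁻¹ * h)⁻¹ * α (g⁻¹ * h)) = 1 := by
        rw [← MonoidHom.mem_ker, hker]; exact h1
      have h3 : (g⁻¹ * h)⁻¹ * α (g⁻¹ * h) = h⁻¹ * (g * α g⁻¹) * α h := by rw [map_mul]; group
      rw [h3, map_mul, map_mul] at h2
      have h4 : π (g * α g⁻¹) = π h * (π (α h))⁻¹ := by
        have h5 : π h⁻¹ * π (g * α g⁻¹) = (π (α h))⁻¹ := by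
          rw [eq_inv_iff_mul_eq_one]; exact h2
        calc π (g * α g⁻¹) = π h * (π h⁻¹ * π (g * α g⁻¹)) := by rw [map_inv π h, mul_inv_cancel_left]
          _ = π h * (π (α h))⁻¹ := by rw [h5]
      rw [inv_inv, inv_inv, h4, map_mul, map_inv, map_inv])
    have hκ : ∀ g : G, κ (QuotientGroup.mk g⁻¹) = π (g⁻¹ * α g) := by
      intro g
      show π ((g⁻¹⁻¹)⁻¹ * α (g⁻¹⁻¹)) = π (g⁻¹ * α g)
      simp only [inv_inv]
    -- surjection F.map π × G ⧸ T → G ⧸ N
    have hsurj : Function.Surjective (fun p : (F.map π) × (G ⧸ T) => (p.1 : G ⧸ N) * κ p.2) := by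
      intro q
      obtain ⟨x, rfl⟩ := hπ q
      obtain ⟨c, g, hc, hx⟩ := hccp x
      refine ⟨(⟨π c, ⟨c, hc, rfl⟩⟩, QuotientGroup.mk g⁻¹), ?_⟩
      show π c * κ (QuotientGroup.mk g⁻¹) = π x
      rw [hκ, ← map_mul, ← hx]
    have h1 : Nat.card (G ⧸ N) ≤ Nat.card (F.map π) * T.index := by
      have := Nat.card_le_card_of_surjective _ hsurj
      rwa [Nat.card_prod] at this
    have h2 : Nat.card (G ⧸ N) = Nat.card (T.map π) * T.index := by
      have h3 := Subgroup.relIndex_ker (K := T) π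
      rw [hker] at h3
      rw [← h3]
      exact (Subgroup.relIndex_mul_index hNT).symm
    have h3 : Nat.card (T.map π) ≤ Nat.card (F.map π) := by
      rw [h2] at h1
      exact Nat.le_of_mul_le_mul_right h1 (Nat.pos_of_ne_zero Subgroup.index_ne_zero_of_finite)
    have h4 : F.map π = T.map π := Subgroup.eq_of_le_of_card_ge (Subgroup.map_mono hFT) h3
    intro x hx
    have h5 : π x ∈ F.map π := by rw [h4]; exact ⟨x, hx, rfl⟩
    obtain ⟨c, hc, hcx⟩ := h5
    exact ⟨c, hc, QuotientGroup.eq.1 hcx⟩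

end Cfsg.Agent.S4154
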