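import Cfsg.Statements.S4155
import Cfsg.Agent.Lib.FrobAction
import Cfsg.Agent.Lib.Fitting
import Cfsg.Agent.Lib.MinNonNilp
import Cfsg.Agent.Lib.MinimalClass
import Cfsg.Agent.Lib.H23Nilp

set_option autoImplicit false
open Cfsg

namespace Cfsg.Agent.S4155

open Subgroup

/-- Let G be a finite group and N a proper non-trivial normal nilpotent subgroup whose order is not a prime power, such that for every x outside N all elements of the coset xN have the same order as x. Then N is the Fitting subgroup of G, and for every prime q every Sylow q-subgroup of G/N is cyclic or generalized quaternion. -/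
theorem result {G : Type*} [Group G] [Finite G] (N : Subgroup G) [N.Normal] (hN1 : N ≠ ⊥) (hN2 : N ≠ ⊤)
    (heq : ∀ x : G, x ∉ N → ∀ n ∈ N, orderOf (x * n) = orderOf x)
    (hnil : Group.IsNilpotent N) (hnpp : ¬ IsPrimePow (Nat.card N)) :
    N = Cfsg.fittingSubgroup G ∧
    ∀ (q : ℕ) [Fact q.Prime] (Q : Sylow q (G ⧸ N)), IsCyclic (Q : Subgroup (G ⧸ N)) ∨ ∃ n : ℕ, Nonempty ((Q : Subgroup (G ⧸ N)) ≃* QuaternionGroup (2 ^ n)) := by
  classical
  have hNn : N.Normal := inferInstance
  -- the key fact
  have key : ∀ x : G, x ∉ N → ∀ z ∈ N, (orderOf x).Coprime (orderOf z) → Commute x z → z = 1 := by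
    intro x hx z hz hcop hcomm
    have h1 := heq x hx z hz
    rw [hcomm.orderOf_mul_eq_mul_orderOf_of_coprime hcop] at h1
    have h2 : orderOf z = 1 := by
      have h3 : orderOf x * orderOf z = orderOf x * 1 := by rw [h1, mul_one]
      exact Nat.eq_of_mul_eq_mul_left (orderOf_pos x) h3
    exact orderOf_eq_one_iff.1 h2
  -- there is another prime dividing |N|
  have hprime : ∀ q : ℕ, q.Prime → ∃ r : ℕ, r.Prime ∧ r ≠ q ∧ r ∣ Nat.card N := by
    intro q hq
    by_contra hcon
    push Not at hcon
    apply hnpp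
    have h1 : Nat.card N ≠ 1 := by
      intro h; exact hN1 (Subgroup.card_eq_one.1 h)
    have h2 : ∀ r : ℕ, r.Prime → r ∣ Nat.card N → r = q := by
      intro r hr hrN
      by_contra hne
      exact hcon r hr hne hrN
    have h3 := Nat.eq_prime_pow_of_unique_prime_dvd (p := q) (n := Nat.card N) Nat.card_pos.ne'
      (fun {r} hr hrN => h2 r hr hrN)
    rw [h3]
    apply hq.isPrimePow.pow
    intro h0
    rw [h0, pow_zero] at h3
    exact h1 h3
  constructor
  · -- N = F(G)
    apply le_antisymm
    · exact Cfsg.Agent.Lib.Fitting.le_fittingSubgroup hNn hnil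
    · intro y hyF
      by_contra hyN
      obtain ⟨q, k, m, hq, hord, hmN⟩ := Cfsg.Agent.Lib.MinNonNilp.exists_prime_power_order N hyN
      obtain ⟨r, hr, hrq, hrN⟩ := hprime q hq
      have := Fact.mk hr
      obtain ⟨⟨z, hzN⟩, hz⟩ := exists_prime_orderOf_dvd_card' r hrN
      have hz' : orderOf z = r := (Subgroup.orderOf_mk z hzN).symm.trans hz
      have hF : Group.IsNilpotent (Cfsg.fittingSubgroup G) := Cfsg.Agent.Lib.Fitting.isNilpotent_fittingSubgroup
      have hzF : z ∈ Cfsg.fittingSubgroup G := Cfsg.Agent.Lib.Fitting.le_fittingSubgroup hNn hnil hzN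
      have hyF' : y ^ m ∈ Cfsg.fittingSubgroup G := pow_mem hyF m
      have hcop : (orderOf (y ^ m)).Coprime (orderOf z) := by
        rw [hord, hz']
        exact ((Nat.coprime_primes hq hr).2 hrq.symm).pow_left k
      have hcomm : Commute (y ^ m) z := by
        have := Cfsg.Agent.Lib.H23Nilp.commute_of_coprime_orderOf (Cfsg.fittingSubgroup G) ⟨_, hyF'⟩ ⟨z, hzF⟩ (by
          rw [Subgroup.orderOf_mk, Subgroup.orderOf_mk]; exact hcop)
        exact congrArg Subtype.val this
      have h1 := key _ hmN z hzN hcop hcomm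
      rw [h1, orderOf_one] at hz'
      exact hr.one_lt.ne hz'
  · intro q hqf Q
    have hq : q.Prime := Fact.out
    obtain ⟨r, hr, hrq, hrN⟩ := hprime q hq
    have := Fact.mk hr
    -- V = elements of Z(N) killed by r
    let V : Subgroup G :=
      { carrier := {z | z ∈ N ∧ (∀ n ∈ N, n * z = z * n) ∧ z ^ r = 1}
        mul_mem' := by
          rintro a b ⟨ha, ha', ha''⟩ ⟨hb, hb', hb''⟩
          refine ⟨mul_mem ha hb, ?_, ?_⟩
          · intro n hn
            rw [← mul_assoc, ha' n hn, mul_assoc, hb' n hn, mul_assoc]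
          · have : Commute a b := hb' a ha
            rw [this.mul_pow, ha'', hb'', one_mul]
        one_mem' := ⟨one_mem _, fun n _ => by simp, one_pow _⟩
        inv_mem' := by
          rintro a ⟨ha, ha', ha''⟩
          refine ⟨inv_mem ha, ?_, by rw [inv_pow, ha'', inv_one]⟩
          intro n hn
          have : Commute n a := ha' n hn
          exact this.inv_right.eq }
    have hVn : V.Normal := by
      refine ⟨?_⟩
      rintro z ⟨hz, hz', hz''⟩ g
      refine ⟨hNn.conj_mem z hz g, ?_, by rw [conj_pow, hz'']; group⟩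
      intro n hn
      have h1 := hz' (g⁻¹ * n * g) (by simpa using hNn.conj_mem n hn g⁻¹)
      calc n * (g * z * g⁻¹) = g * ((g⁻¹ * n * g) * z) * g⁻¹ := by group
        _ = g * (z * (g⁻¹ * n * g)) * g⁻¹ := by rw [h1]
        _ = g * z * g⁻¹ * n := by group
    have hVcomm : ∀ a b : V, a * b = b * a := fun a b => Subtype.ext (b.2.2.1 a a.2.1)
    have hVnt : Nontrivial V := by
      obtain ⟨R⟩ : Nonempty (Sylow r N) := inferInstance
      have hRn : (R : Subgroup N).Normal := by
        have h2 := (Group.isNilpotent_of_finite_tfae (G := N)).out 0 3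
        exact (h2.1 hnil) r (Fact.mk hr) R
      have hR1 : (R : Subgroup N) ≠ ⊥ := by
        intro h
        have h2 := R.card_eq_multiplicity
        rw [h, Subgroup.card_bot] at h2
        have h3 : (Nat.card N).factorization r ≠ 0 := by
          have := hr.factorization_pos_of_dvd Nat.card_pos.ne' hrN
          omega
        exact absurd h2.symm (Nat.one_lt_pow h3 hr.one_lt).ne'
      obtain ⟨z, hzR, hzc, hz1⟩ := Cfsg.Agent.Lib.MinimalClass.exists_mem_center_of_normal (R : Subgroup N) hR1
      -- a power of z of order r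
      obtain ⟨j, hj⟩ := R.2 ⟨z, hzR⟩
      have hj' : z ^ r ^ j = 1 := congrArg Subtype.val hj
      have hoz : orderOf z ∣ r ^ j := orderOf_dvd_of_pow_eq_one hj'
      obtain ⟨i, -, hi⟩ := (Nat.dvd_prime_pow hr).1 hoz
      have hi0 : i ≠ 0 := by
        intro h0
        rw [h0, pow_zero, orderOf_eq_one_iff] at hi
        exact hz1 hi
      obtain ⟨i', rfl⟩ := Nat.exists_eq_succ_of_ne_zero hi0
      have hzr : orderOf (z ^ r ^ i') = r := by
        have hdvd : r ^ i' ∣ orderOf z := by rw [hi]; exact pow_dvd_pow r (Nat.le_succ i')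
        rw [orderOf_pow_of_dvd (pow_ne_zero _ hr.ne_zero) hdvd, hi, Nat.succ_eq_add_one, pow_succ,
          Nat.mul_div_cancel_left _ (pow_pos hr.pos i')]
      refine ⟨⟨⟨((z ^ r ^ i' : N) : G), ?_⟩, 1, ?_⟩⟩
      · refine ⟨(z ^ r ^ i').2, ?_, ?_⟩
        · intro n hn
          have h1 : z ^ r ^ i' ∈ center N := pow_mem hzc _
          have h2 := Subgroup.mem_center_iff.1 h1 ⟨n, hn⟩
          exact congrArg Subtype.val h2
        · have h1 : (z ^ r ^ i') ^ r = 1 := by
            have := pow_orderOf_eq_one (z ^ r ^ i')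
            rwa [hzr] at this
          exact congrArg Subtype.val h1
      · intro h
        have h1 : ((z ^ r ^ i' : N) : G) = 1 := congrArg Subtype.val h
        have h2 : z ^ r ^ i' = 1 := Subtype.ext h1
        rw [h2, orderOf_one] at hzr
        exact hr.one_lt.ne hzr
    -- the action
    have hker : N ≤ (MulAut.conjNormal : G →* MulAut V).ker := by
      intro n hn
      rw [MonoidHom.mem_ker]
      ext v
      show n * (v : G) * n⁻¹ = v
      rw [v.2.2.1 n hn]; group
    let actG : G ⧸ N →* MulAut V := QuotientGroup.lift N MulAut.conjNormal hker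
    let act : (Q : Subgroup (G ⧸ N)) →* MulAut V := actG.comp (Q : Subgroup (G ⧸ N)).subtype
    let _ : CommGroup V := { (inferInstance : Group V) with mul_comm := hVcomm }
    have hfpf : Cfsg.Agent.Lib.FrobAction.IsFPF act := by
      intro a ha v hv
      obtain ⟨x, hx⟩ := QuotientGroup.mk_surjective (a : G ⧸ N)
      obtain ⟨j, hj⟩ := Q.2 a
      have hj' : (a : G ⧸ N) ^ q ^ j = 1 := congrArg Subtype.val hj
      -- q-part of x
      obtain ⟨m, k, hkm, hxm⟩ : ∃ m k : ℕ, q.Coprime m ∧ orderOf x = q ^ k * m := by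
        have h1 := Nat.exists_eq_pow_mul_and_not_dvd (n := orderOf x) (orderOf_pos x).ne' q hq.one_lt.ne'
        obtain ⟨k, m, hm, h2⟩ := h1
        exact ⟨m, k, (Nat.Prime.coprime_iff_not_dvd hq).2 hm, h2⟩
      obtain ⟨t, ht⟩ : ∃ t : ℕ, m * t ≡ 1 [MOD q ^ j] := by
        rcases Nat.eq_zero_or_pos j with rfl | hj0
        · exact ⟨0, by rw [pow_zero]; exact Nat.modEq_one⟩
        · have hcop : m.Coprime (q ^ j) := (hkm.pow_left j).symm
          obtain ⟨t, ht⟩ := Nat.exists_mul_mod_eq_one_of_coprime hcop (Nat.one_lt_pow hj0.ne' hq.one_lt)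
          exact ⟨t, by rw [Nat.ModEq, ht.2, Nat.mod_eq_of_lt (Nat.one_lt_pow hj0.ne' hq.one_lt)]⟩
      set x' := x ^ (m * t) with hx'
      have himg : (QuotientGroup.mk x' : G ⧸ N) = a := by
        rw [hx', QuotientGroup.mk_pow, hx]
        have h1 : orderOf (a : G ⧸ N) ∣ q ^ j := orderOf_dvd_of_pow_eq_one hj'
        have h2 : m * t ≡ 1 [MOD orderOf (a : G ⧸ N)] := ht.of_dvd h1
        have h3 := (pow_eq_pow_iff_modEq (x := (a : G ⧸ N))).2 h2
        rw [h3, pow_one]
      have hx'N : x' ∉ N := by
        intro h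
        have h1 := (QuotientGroup.eq_one_iff x').2 h
        rw [himg] at h1
        exact ha (Subtype.ext h1)
      have hx'o : orderOf x' ∣ q ^ k := by
        apply orderOf_dvd_of_pow_eq_one
        rw [hx', ← pow_mul]
        have : m * t * q ^ k = orderOf x * t := by rw [hxm]; ring
        rw [this, pow_mul, pow_orderOf_eq_one, one_pow]
      have hcomm : Commute x' (v : G) := by
        have h1 : actG (QuotientGroup.mk x') v = v := by
          rw [himg]; exact hv
        have h2 : actG (QuotientGroup.mk x') v = MulAut.conjNormal x' v := rfl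
        rw [h2] at h1
        have h3 : x' * (v : G) * x'⁻¹ = v := congrArg Subtype.val h1
        show x' * v = v * x'
        calc x' * (v : G) = x' * v * x'⁻¹ * x' := by group
          _ = v * x' := by rw [h3]
      have hcop : (orderOf x').Coprime (orderOf (v : G)) := by
        have h1 : orderOf (v : G) ∣ r := orderOf_dvd_of_pow_eq_one v.2.2.2
        exact Nat.Coprime.coprime_dvd_left hx'o (Nat.Coprime.coprime_dvd_right h1
          (((Nat.coprime_primes hq hr).2 hrq.symm).pow_left k))
      exact Subtype.ext (key x' hx'N v v.2.1 hcop hcomm)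
    rcases Cfsg.Agent.Lib.FrobAction.pgroup_cyclic_or_quaternion hfpf Q.2 with h | ⟨-, n, -, h⟩
    · exact Or.inl h
    · exact Or.inr ⟨n, h⟩

end Cfsg.Agent.S4155
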