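import Cfsg.Statements.S4156

set_option autoImplicit false
open Cfsg

namespace Cfsg.Agent.S4156

open Matrix

/-- indicator vector (zero for the last point) -/
def vec (n : ℕ) (F : Type*) [Field F] (x : Fin (n + 1)) : Fin n → F :=
  fun j => if x = Fin.castSucc j then 1 else 0

theorem vec_last (n : ℕ) (F : Type*) [Field F] : vec n F (Fin.last n) = 0 := by
  funext j
  have : Fin.last n ≠ Fin.castSucc j := (Fin.castSucc_lt_last j).ne'
  simp [vec, this]

theorem vec_castSucc (n : ℕ) (F : Type*) [Field F] (k : Fin n) :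
    vec n F (Fin.castSucc k) = Pi.single k 1 := by
  funext j
  simp only [vec, Pi.single_apply]
  by_cases h : j = k
  · subst h; simp
  · have : Fin.castSucc k ≠ Fin.castSucc j := fun h' => h (Fin.castSucc_injective n h').symm
    simp [this, h]

/-- the matrix of a permutation on the deleted permutation module -/
def mat (n : ℕ) (F : Type*) [Field F] (σ : Equiv.Perm (Fin (n + 1))) : Matrix (Fin n) (Fin n) F :=
  fun i j => vec n F (σ (Fin.castSucc j)) i - vec n F (σ (Fin.last n)) i

theorem mat_mulVec_vec (n : ℕ) (F : Type*) [Field F] (σ : Equiv.Perm (Fin (n + 1))) (x : Fin (n + 1)) :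
    mat n F σ *ᵥ vec n F x = vec n F (σ x) - vec n F (σ (Fin.last n)) := by
  refine Fin.lastCases ?_ ?_ x
  · rw [vec_last, mulVec_zero, sub_self]
  · intro k
    rw [vec_castSucc, mulVec_single_one]
    rfl

theorem mat_one (n : ℕ) (F : Type*) [Field F] : mat n F 1 = 1 := by
  ext i j
  simp only [mat, Equiv.Perm.coe_one, id_eq]
  rw [vec_last, vec_castSucc, Pi.zero_apply, sub_zero, Matrix.one_apply, Pi.single_apply]

theorem mat_mul (n : ℕ) (F : Type*) [Field F] (σ τ : Equiv.Perm (Fin (n + 1))) :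
    mat n F (σ * τ) = mat n F σ * mat n F τ := by
  ext i k
  have h1 : (mat n F σ * mat n F τ) i k = (mat n F σ *ᵥ (vec n F (τ (Fin.castSucc k)) - vec n F (τ (Fin.last n)))) i := rfl
  rw [h1, mulVec_sub, mat_mulVec_vec, mat_mulVec_vec]
  simp only [mat, Pi.sub_apply, Equiv.Perm.mul_apply]
  ring

/-- the representation -/
def rep (n : ℕ) (F : Type*) [Field F] : Equiv.Perm (Fin (n + 1)) →* Matrix (Fin n) (Fin n) F where
  toFun := mat n F
  map_one' := mat_one n F
  map_mul' := mat_mul n F

theorem det_eq_one (n : ℕ) (hn : 5 ≤ n) (F : Type*) [Field F] (σ : alternatingGroup (Fin (n + 1))) :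
    (mat n F (σ : Equiv.Perm (Fin (n + 1)))).det = 1 := by
  let f : alternatingGroup (Fin (n + 1)) →* Fˣ :=
    MonoidHom.toHomUnits ((Matrix.detMonoidHom.comp (rep n F)).comp (alternatingGroup (Fin (n + 1))).subtype)
  have h1 : σ ∈ f.ker := by
    have h2 := Abelianization.commutator_subset_ker f
    rw [commutator_alternatingGroup_eq_top (by rw [Nat.card_eq_fintype_card, Fintype.card_fin]; omega)] at h2
    exact h2 (Subgroup.mem_top σ)
  rw [MonoidHom.mem_ker] at h1
  exact congrArg Units.val h1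

/-- the map to `SL_n(F)` -/
def toSL (n : ℕ) (hn : 5 ≤ n) (F : Type*) [Field F] :
    alternatingGroup (Fin (n + 1)) →* Matrix.SpecialLinearGroup (Fin n) F where
  toFun σ := ⟨mat n F σ, det_eq_one n hn F σ⟩
  map_one' := Subtype.ext (mat_one n F)
  map_mul' σ τ := Subtype.ext (mat_mul n F σ τ)

/-- Let n ≥ 5 and F a finite field. Then the projective special linear group PSL_n(F) contains a subgroup isomorphic to the alternating group of degree n + 1. -/
theorem result (n : ℕ) (hn : 5 ≤ n) (F : Type*) [Field F] [Finite F] :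
    ∃ f : alternatingGroup (Fin (n + 1)) →* Matrix.ProjectiveSpecialLinearGroup (Fin n) F, Function.Injective f := by
  let f : alternatingGroup (Fin (n + 1)) →* Matrix.ProjectiveSpecialLinearGroup (Fin n) F :=
    (QuotientGroup.mk' (Subgroup.center (Matrix.SpecialLinearGroup (Fin n) F))).comp (toSL n hn F)
  refine ⟨f, ?_⟩
  rw [← MonoidHom.ker_eq_bot_iff]
  have hsimple : IsSimpleGroup (alternatingGroup (Fin (n + 1))) :=
    alternatingGroup.isSimpleGroup (by rw [Nat.card_eq_fintype_card, Fintype.card_fin]; omega)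
  refine (hsimple.eq_bot_or_eq_top_of_normal f.ker inferInstance).resolve_right fun htop => ?_
  -- a 3-cycle
  let a0 : Fin (n + 1) := ⟨0, by omega⟩
  let a1 : Fin (n + 1) := ⟨1, by omega⟩
  let a2 : Fin (n + 1) := ⟨2, by omega⟩
  have h01 : a0 ≠ a1 := by simp [a0, a1]
  have h12 : a1 ≠ a2 := by simp [a1, a2]
  have h02 : a0 ≠ a2 := by simp [a0, a2]
  let c : Equiv.Perm (Fin (n + 1)) := Equiv.swap a0 a1 * Equiv.swap a1 a2
  have hc : c ∈ alternatingGroup (Fin (n + 1)) := by
    rw [Equiv.Perm.mem_alternatingGroup]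
    simp only [c, Equiv.Perm.sign_mul, Equiv.Perm.sign_swap h01, Equiv.Perm.sign_swap h12]
    norm_num
  have h1 : (⟨c, hc⟩ : alternatingGroup (Fin (n + 1))) ∈ f.ker := htop ▸ Subgroup.mem_top _
  rw [MonoidHom.mem_ker] at h1
  have h2 : toSL n hn F ⟨c, hc⟩ ∈ Subgroup.center (Matrix.SpecialLinearGroup (Fin n) F) := by
    rw [← QuotientGroup.eq_one_iff]; exact h1
  rw [Matrix.SpecialLinearGroup.mem_center_iff] at h2
  obtain ⟨r, _, hr⟩ := h2
  let i0 : Fin n := ⟨0, by omega⟩
  let i1 : Fin n := ⟨1, by omega⟩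
  have hi : i1 ≠ i0 := by simp [i0, i1]
  have h3 : (Matrix.scalar (Fin n) r) i1 i0 = mat n F c i1 i0 := by rw [hr]; rfl
  have hc0 : c a0 = a1 := by
    simp only [c, Equiv.Perm.mul_apply]
    rw [Equiv.swap_apply_of_ne_of_ne h01 h02, Equiv.swap_apply_left]
  have hcl : c (Fin.last n) = Fin.last n := by
    have e0 : Fin.last n ≠ a0 := by intro h; have := congrArg Fin.val h; simp [a0] at this; omega
    have e1 : Fin.last n ≠ a1 := by intro h; have := congrArg Fin.val h; simp [a1] at this; omega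
    have e2 : Fin.last n ≠ a2 := by intro h; have := congrArg Fin.val h; simp [a2] at this; omega
    simp only [c, Equiv.Perm.mul_apply]
    rw [Equiv.swap_apply_of_ne_of_ne e1 e2, Equiv.swap_apply_of_ne_of_ne e0 e1]
  have h4 : mat n F c i1 i0 = 1 := by
    have e0 : Fin.castSucc i0 = a0 := rfl
    have e1 : Fin.castSucc i1 = a1 := rfl
    simp only [mat]
    rw [e0, hc0, hcl, vec_last, ← e1, vec_castSucc, Pi.single_eq_same, Pi.zero_apply, sub_zero]
  rw [h4, Matrix.scalar_apply, Matrix.diagonal_apply_ne _ hi] at h3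
  exact zero_ne_one h3

end Cfsg.Agent.S4156
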