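import Cfsg.Statements.S4160
import Cfsg.Agent.Lib.ClassSizeCounting

set_option autoImplicit false
open Cfsg

namespace Cfsg.Agent.S4160

/-- Let G be a finite group and p ≠ q primes each dividing the size of some conjugacy class of G, such that no conjugacy class size is divisible by pq. Then G has a normal p-complement or a normal q-complement. -/
theorem result {G : Type*} [Group G] [Finite G] (p q : ℕ) (hp : p.Prime) (hq : q.Prime) (hpq : p ≠ q)
    (hp' : ∃ x : G, p ∣ (Subgroup.centralizer ({x} : Set G)).index) (hq' : ∃ x : G, q ∣ (Subgroup.centralizer ({x} : Set G)).index) (h : ∀ x : G, ¬ p * q ∣ (Subgroup.centralizer ({x} : Set G)).index) :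
    Cfsg.HasNormalPComplement p G ∨ Cfsg.HasNormalPComplement q G := by
  by_contra hcon
  push Not at hcon
  obtain ⟨hnp, hnq⟩ := hcon
  haveI : Fact p.Prime := ⟨hp⟩
  haveI : Fact q.Prime := ⟨hq⟩
  have h1 := Cfsg.Agent.Lib.ClassSizeCounting.two_mul_card_not_dvd_le (G := G) p hnp
  have h2 := Cfsg.Agent.Lib.ClassSizeCounting.two_mul_card_not_dvd_le (G := G) q hnq
  set A : Set G := {x : G | ¬ p ∣ (Subgroup.centralizer ({x} : Set G)).index} with hA
  set B : Set G := {x : G | ¬ q ∣ (Subgroup.centralizer ({x} : Set G)).index} with hB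
  have h1' : 2 * A.ncard ≤ Nat.card G := h1
  have h2' : 2 * B.ncard ≤ Nat.card G := h2
  have hone : (1 : G) ∈ A ∩ B := by
    have : Subgroup.centralizer ({1} : Set G) = ⊤ := by
      rw [eq_top_iff]; intro g _
      rw [Subgroup.mem_centralizer_singleton_iff]; simp
    constructor
    · simp only [hA, Set.mem_setOf_eq, this, Subgroup.index_top]
      exact fun h => hp.one_lt.ne' (Nat.dvd_one.1 h)
    · simp only [hB, Set.mem_setOf_eq, this, Subgroup.index_top]
      exact fun h => hq.one_lt.ne' (Nat.dvd_one.1 h)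
  have hun : A ∪ B = Set.univ := by
    rw [Set.eq_univ_iff_forall]
    intro x
    by_contra hx
    simp only [Set.mem_union, hA, hB, Set.mem_setOf_eq, not_or, not_not] at hx
    exact h x (Nat.Coprime.mul_dvd_of_dvd_of_dvd ((Nat.coprime_primes hp hq).2 hpq) hx.1 hx.2)
  have h3 := Set.ncard_union_add_ncard_inter A B
  rw [hun, Set.ncard_univ] at h3
  have h4 : 0 < (A ∩ B).ncard := (Set.ncard_pos (Set.toFinite _)).2 ⟨1, hone⟩
  omega

end Cfsg.Agent.S4160
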