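import Cfsg.Statements.S4168

set_option autoImplicit false
open Cfsg

namespace Cfsg.Agent.S4168

/-- Let L be a finite quasisimple group (perfect with L/Z(L) simple). Then every prime dividing the order of the centre Z(L) also divides the order of L/Z(L). -/
theorem result {L : Type*} [Group L] [Finite L] (hL : Cfsg.IsQuasisimple L)
    (p : ℕ) (hp : p.Prime) (hdiv : p ∣ Nat.card (Subgroup.center L)) : p ∣ (Subgroup.center L).index := by
  have : Fact p.Prime := ⟨hp⟩
  obtain ⟨z, hz⟩ := exists_prime_orderOf_dvd_card' (G := Subgroup.center L) p hdiv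
  have hperf : commutator L = ⊤ := hL.1.commutator_eq_top
  have h1 : (z : L) ∈ (MonoidHom.transferCenterPow L).ker := by
    have h2 : commutator L ≤ (MonoidHom.transferCenterPow L).ker := by
      rw [commutator_def, Subgroup.commutator_le]
      intro a _ b _
      rw [MonoidHom.mem_ker, map_commutatorElement, commutatorElement_eq_one_iff_mul_comm]
      exact Subtype.ext ((Subgroup.mem_center_iff.1 (MonoidHom.transferCenterPow L b).2) _)
    rw [hperf] at h2
    exact h2 (Subgroup.mem_top _)
  rw [MonoidHom.mem_ker] at h1
  have h3 : (z : L) ^ (Subgroup.center L).index = 1 := by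
    rw [← MonoidHom.transferCenterPow_apply, h1]; rfl
  have h4 := orderOf_dvd_of_pow_eq_one h3
  rw [Subgroup.orderOf_coe, hz] at h4
  exact h4

end Cfsg.Agent.S4168
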