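import Cfsg.Statements.S4169
import Cfsg.Agent.Lib.MinimalClass

set_option autoImplicit false
open Cfsg

namespace Cfsg.Agent.S4169

/-- Let P be a finite p-group whose conjugacy classes have exactly two sizes (1 and one other value). Then P has nilpotency class at most 3. -/
theorem result {P : Type*} [Group P] [Finite P] {p : ℕ} [Fact p.Prime] (hP : IsPGroup p P)
    (m : ℕ) (hm : 1 < m) (h : ∀ x : P, (Subgroup.centralizer ({x} : Set P)).index = 1 ∨ (Subgroup.centralizer ({x} : Set P)).index = m) :
    upperCentralSeries P 3 = ⊤ := by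
  have hnil : Group.IsNilpotent P := hP.isNilpotent
  obtain ⟨A, hAn, hAc, hCA⟩ :=
    Cfsg.Agent.Lib.MinimalClass.exists_self_centralizing_normal_abelian (G := P)
  have h1 := Cfsg.Agent.Lib.MinimalClass.lowerCentralSeries_three A hAc hCA m (by
    intro x hx
    rcases h x with h | h
    · omega
    · exact h.ge)
  have h2 : {x : P | (Subgroup.centralizer ({x} : Set P)).index = 1 ∨
      (Subgroup.centralizer ({x} : Set P)).index = m} = Set.univ :=
    Set.eq_univ_of_forall h
  rw [h2, Subgroup.closure_univ] at h1
  exact Subgroup.lowerCentralSeries_eq_bot_iff_upperCentralSeries_eq_top.1 h1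

end Cfsg.Agent.S4169
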