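import Cfsg.Statements.S4170
import Cfsg.Agent.Lib.H64SylFix2

set_option autoImplicit false
open scoped Pointwise
open Cfsg

namespace Cfsg.Agent.S4170

open MulAction in
/-- points of a small invariant set are fixed by a p-group -/
theorem fixed_of_small {H Ω : Type*} [Group H] [MulAction H Ω] [Finite Ω] {p : ℕ} [Fact p.Prime]
    (hH : IsPGroup p H) {S : Set Ω} (hS : ∀ h : H, ∀ w ∈ S, h • w ∈ S) (hc : S.ncard < p) (w : Ω)
    (hw : w ∈ S) (h : H) : h • w = w := by
  have hp : p.Prime := Fact.out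
  obtain ⟨n, hn⟩ := hH.card_orbit w
  have h1 : orbit H w ⊆ S := by
    rintro _ ⟨k, rfl⟩
    exact hS k w hw
  have h2 : Nat.card (orbit H w) ≤ S.ncard := Set.ncard_le_ncard h1 (Set.toFinite _)
  rw [hn] at h2
  have h3 : n = 0 := by
    by_contra h0
    have : p ^ 1 ≤ p ^ n := Nat.pow_le_pow_right hp.pos (Nat.one_le_iff_ne_zero.2 h0)
    rw [pow_one] at this
    omega
  rw [h3, pow_zero] at hn
  have h4 : (orbit H w).Subsingleton := by
    have := (Nat.card_eq_one_iff_unique.1 hn).1
    exact Set.subsingleton_coe _ |>.1 this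
  exact h4 (mem_orbit w h) (mem_orbit_self w)

open MulAction in
/-- Let p be an odd prime and G a nontrivial group of permutations of a finite set Ω that is generated by its elements of p-power order. Then Ω has two disjoint nonempty subsets Δ₁ and Δ₂ such that the index in G of the subgroup of elements mapping Δ₁ onto Δ₁ and Δ₂ onto Δ₂ (and hence also the complement of their union onto itself) is divisible by p. -/
theorem aux {Ω : Type*} [Finite Ω] (p : ℕ) [Fact p.Prime] (G : Subgroup (Equiv.Perm Ω)) (hG : G ≠ ⊥) (hgen : Subgroup.closure {g : G | ∃ k : ℕ, orderOf g = p ^ k} = ⊤) :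
    ∃ Δ₁ Δ₂ : Set Ω, Δ₁.Nonempty ∧ Δ₂.Nonempty ∧ Disjoint Δ₁ Δ₂ ∧ p ∣ (MulAction.stabilizer G Δ₁ ⊓ MulAction.stabilizer G Δ₂).index := by
  classical
  have hp : p.Prime := Fact.out
  -- a p-element which moves a point
  obtain ⟨g, k, hgk, y, hy⟩ : ∃ g : G, ∃ k : ℕ, orderOf g = p ^ k ∧ ∃ y : Ω, g • y ≠ y := by
    by_contra hcon
    push Not at hcon
    apply hG
    have h1 : Subgroup.closure {g : G | ∃ k : ℕ, orderOf g = p ^ k} ≤ ⊥ := by
      rw [Subgroup.closure_le]
      rintro g ⟨k, hk⟩
      rw [SetLike.mem_coe, Subgroup.mem_bot]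
      apply Subtype.ext
      apply Equiv.ext
      intro y
      exact hcon g k hk y
    rw [hgen, top_le_iff] at h1
    rw [eq_bot_iff]
    intro x hx
    have h2 : (⟨x, hx⟩ : G) ∈ (⊥ : Subgroup G) := by rw [h1]; exact Subgroup.mem_top _
    rw [Subgroup.mem_bot] at h2
    exact (Subgroup.mem_bot).2 (congrArg Subtype.val h2)
  -- pass to a power with a cycle of length p
  have hex : ∃ j : ℕ, (g ^ p ^ j) • y = y := ⟨k, by rw [← hgk, pow_orderOf_eq_one, one_smul]⟩
  obtain ⟨j, hj⟩ : ∃ j, Nat.find hex = j + 1 := by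
    refine Nat.exists_eq_succ_of_ne_zero ?_
    intro h0
    have := Nat.find_spec hex
    rw [h0, pow_zero, pow_one] at this
    exact hy this
  set z : G := g ^ p ^ j with hz
  have hzy : z • y ≠ y := Nat.find_min hex (by omega)
  have hzp : z ^ p • y = y := by
    have := Nat.find_spec hex
    rw [hj, pow_succ, pow_mul] at this
    exact this
  have hzpg : IsPGroup p (Subgroup.zpowers z) := by
    have h1 : IsPGroup p (Subgroup.zpowers g) := by
      rw [IsPGroup.iff_card]
      exact ⟨k, by rw [Nat.card_zpowers, hgk]⟩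
    exact h1.to_le (by
      rw [Subgroup.zpowers_le]
      exact Subgroup.npow_mem_zpowers g _)
  set B : Set Ω := orbit (Subgroup.zpowers z) y with hB
  have hBcard : B.ncard ≤ p := by
    have h1 : Function.minimalPeriod (z • ·) y = Nat.card B := by
      haveI : Fintype B := Fintype.ofFinite _
      rw [Nat.card_eq_fintype_card, MulAction.minimalPeriod_eq_card]
    have h2 : Function.minimalPeriod (z • ·) y ∣ p := by
      apply Function.IsPeriodicPt.minimalPeriod_dvd
      rw [Function.IsPeriodicPt, Function.IsFixedPt, smul_iterate]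
      exact hzp
    have h3 : B.ncard = Nat.card B := rfl
    rw [h3, ← h1]
    exact Nat.le_of_dvd hp.pos h2
  have hyB : y ∈ B := mem_orbit_self y
  have hzyB : z • y ∈ B := ⟨⟨z, Subgroup.mem_zpowers z⟩, rfl⟩
  refine ⟨{y}, B \ {y}, Set.singleton_nonempty y, ⟨z • y, hzyB, hzy⟩,
    Set.disjoint_sdiff_right, ?_⟩
  by_contra hnd
  obtain ⟨R, hR⟩ := Lib.H64SylFix.exists_sylow_le _ hnd
  have hsmall : (B \ {y}).ncard < p := by
    have h1 := Set.ncard_sdiff_singleton_lt_of_mem hyB (Set.toFinite _)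
    omega
  have hRfix : ∀ r ∈ (R : Subgroup G), ∀ w ∈ B, r • w = w := by
    intro r hr w hw
    have hr1 := (hR hr).1
    have hr2 := (hR hr).2
    by_cases hwy : w = y
    · rw [hwy]
      have h1 : r • ({y} : Set Ω) = {y} := hr1
      rw [Set.smul_set_singleton] at h1
      exact Set.singleton_eq_singleton_iff.1 h1
    · have h1 := fixed_of_small (S := B \ {y}) R.2 (fun h w hw => by
        have h2 : (h : G) • (B \ {y}) = B \ {y} := (hR h.2).2
        have h3 : (h : G) • w ∈ (h : G) • (B \ {y}) := Set.smul_mem_smul_set hw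
        rw [h2] at h3
        exact h3) hsmall w ⟨hw, hwy⟩ ⟨r, hr⟩
      exact h1
  have hle : Subgroup.zpowers z ≤ fixingSubgroup G B := by
    apply Lib.H64SylFix.le_of_normalizes (p := p) _ _ ⟨R, ?_⟩ hzpg
    · intro x hx h hh
      rw [mem_fixingSubgroup_iff] at hh ⊢
      intro w hw
      have h1 : x⁻¹ • w ∈ B := by
        obtain ⟨q, rfl⟩ := hw
        exact ⟨⟨x⁻¹, inv_mem hx⟩ * q, mul_smul (⟨x⁻¹, inv_mem hx⟩ : Subgroup.zpowers z) q y⟩
      rw [mul_smul, mul_smul, hh _ h1, smul_inv_smul]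
    · intro r hr
      rw [mem_fixingSubgroup_iff]
      exact fun w hw => hRfix r hr w hw
  have h1 := hle (Subgroup.mem_zpowers z)
  rw [mem_fixingSubgroup_iff] at h1
  exact hzy (h1 y hyB)

/-- Let p be an odd prime and G a nontrivial group of permutations of a finite set Ω that is generated by its elements of p-power order. Then Ω has two disjoint nonempty subsets Δ₁ and Δ₂ such that the index in G of the subgroup of elements mapping Δ₁ onto Δ₁ and Δ₂ onto Δ₂ (and hence also the complement of their union onto itself) is divisible by p. -/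
theorem result {Ω : Type*} [Fintype Ω] (p : ℕ) [Fact p.Prime] (hp : p ≠ 2) (G : Subgroup (Equiv.Perm Ω)) (hG : G ≠ ⊥) (hgen : Subgroup.closure {g : G | ∃ k : ℕ, orderOf g = p ^ k} = ⊤) :
    ∃ Δ₁ Δ₂ : Set Ω, Δ₁.Nonempty ∧ Δ₂.Nonempty ∧ Disjoint Δ₁ Δ₂ ∧ p ∣ (MulAction.stabilizer G Δ₁ ⊓ MulAction.stabilizer G Δ₂).index :=
  aux p G hG hgen

end Cfsg.Agent.S4170
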