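import Cfsg.Statements.S4172
import Cfsg.Agent.Lib.FrCore
import Cfsg.Agent.Lib.AmbFStar

set_option autoImplicit false
open Cfsg

namespace Cfsg.Agent.S4172

open Subgroup Cfsg.Agent.Lib Cfsg.Agent.Lib.FrCore Cfsg.Agent.Lib.MinNormal

section

set_option linter.unusedSectionVars false

variable {G : Type*} [Group G] [Finite G] {p : ℕ} [hp : Fact p.Prime]

/-- the setting -/
structure Setup (P : Sylow p G) : Prop where
  hna : ¬ IsMulCommutative (P : Subgroup G)
  hgen : (frattini ↥(P : Subgroup G)).index = p ^ 2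
  hcore : Cfsg.pPrimeCore p G = ⊥
  hfrat : ((frattini ↥(P : Subgroup G)).map (P : Subgroup G).subtype).normalCore = ⊥

variable {P : Sylow p G}

theorem Setup.comm_ne (h : Setup P) : ⁅(P : Subgroup G), (P : Subgroup G)⁆ ≠ ⊥ := by
  intro h1
  apply h.hna
  rw [Subgroup.commutator_eq_bot_iff_le_centralizer] at h1
  exact ⟨⟨fun a b => Subtype.ext (mem_centralizer_iff.mp (h1 b.2) a a.2)⟩⟩

theorem Setup.normal (h : Setup P) (N : Subgroup G) [N.Normal] (hne : N ≠ ⊥) :
    ⁅(P : Subgroup G), (P : Subgroup G)⁆ ≤ N ∧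
      ∃ g ∈ (P : Subgroup G), (P : Subgroup G) = (N ⊓ (P : Subgroup G)) ⊔ zpowers g :=
  main_dichotomy P h.hgen N (by rw [normalizer_eq_top]; exact le_top)
    (not_le_frattini_of_normal P h.hcore h.hfrat N hne)

theorem Setup.unique_min (h : Setup P) :
    ∃ N : Subgroup G, N.Normal ∧ N ≠ ⊥ ∧ ∀ K : Subgroup G, K.Normal → K ≠ ⊥ → N ≤ K := by
  have hnt : (⊤ : Subgroup G) ≠ ⊥ := by
    intro htop
    apply h.comm_ne
    rw [eq_bot_iff]
    calc ⁅(P : Subgroup G), (P : Subgroup G)⁆ ≤ (⊤ : Subgroup G) := le_top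
      _ = ⊥ := htop
  obtain ⟨N, -, hN⟩ := exists_minBy (⊤ : Subgroup G) ⊤ hnt (InvBy.self ⊤)
  have hNn := hN.normal
  refine ⟨N, hNn, hN.ne_bot, fun K hK hKne => ?_⟩
  have h1 := (h.normal N hN.ne_bot).1
  have h2 := (h.normal K hKne).1
  have h3 : N ⊓ K ≠ ⊥ := by
    intro h4
    apply h.comm_ne
    rw [eq_bot_iff, ← h4]
    exact le_inf h1 h2
  have h4 : (N ⊓ K).Normal := inferInstance
  rcases hN.min (N ⊓ K) (invBy_top_iff.mpr h4) inf_le_left with h5 | h5
  · exact absurd h5 h3
  · exact inf_eq_left.mp h5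

/-- Case `F(G) = 1`. -/
theorem Setup.fstar_of_fitting_bot (h : Setup P) (hF : fittingSubgroup G = ⊥) (N : Subgroup G) (hN : N.Normal)
    (hne : N ≠ ⊥) (hmin : ∀ K : Subgroup G, K.Normal → K ≠ ⊥ → N ≤ K) : generalizedFittingSubgroup G = N := by
  have hFs : (generalizedFittingSubgroup G).Normal := by
    have := Layer.generalizedFittingSubgroup_characteristic G
    infer_instance
  have hE : generalizedFittingSubgroup G = layer G := by
    rw [generalizedFittingSubgroup, hF, sup_bot_eq]
  have hFne : generalizedFittingSubgroup G ≠ ⊥ := by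
    intro h0
    have h1 := Layer.centralizer_genFitting_le (G := G)
    rw [h0] at h1
    have h2 : (centralizer ((⊥ : Subgroup G) : Set G)) = ⊤ := by
      rw [eq_top_iff]
      intro x _
      rw [mem_centralizer_iff]
      intro y hy
      have : y = 1 := by simpa using hy
      rw [this, one_mul, mul_one]
    rw [h2] at h1
    apply hne
    rw [eq_bot_iff]
    exact le_top.trans h1
  apply le_antisymm
  · rw [hE]
    apply sSup_le
    intro K hK
    rcases Components.component_le_or_le_centralizer hK hN.isSubnormal with h1 | h1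
    · exact h1
    · exfalso
      have hC : (centralizer (N : Set G)).Normal := inferInstance
      have hCne : centralizer (N : Set G) ≠ ⊥ := by
        intro h2
        rw [h2, le_bot_iff] at h1
        exact Components.component_ne_bot hK h1
      have h2 := hmin _ hC hCne
      have h3 : N ≤ fittingSubgroup G := le_sSup ⟨hN, Layer.isNilpotent_of_le_centralizer h2⟩
      rw [hF, le_bot_iff] at h3
      exact hne h3
  · exact hmin _ hFs hFne

theorem Setup.fitting_pgroup (h : Setup P) : IsPGroup p ↥(fittingSubgroup G) := by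
  have hn : (fittingSubgroup G).Normal := by
    have := Layer.fittingSubgroup_characteristic G
    infer_instance
  have h1 := Layer.isNilpotent_fittingSubgroup G
  exact isPGroup_of_normal_npc h.hcore _ (HallComplement.hasNormalPComplement_of_isNilpotent p)

/-- `F(G)` is elementary abelian. -/
theorem Setup.fitting_elementary (h : Setup P) :
    (∀ x ∈ fittingSubgroup G, ∀ y ∈ fittingSubgroup G, x * y = y * x) ∧ ∀ x ∈ fittingSubgroup G, x ^ p = 1 := by
  have hn : (fittingSubgroup G).Normal := by
    have := Layer.fittingSubgroup_characteristic G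
    infer_instance
  set F := fittingSubgroup G with hF
  have hpF : IsPGroup p ↥F := h.fitting_pgroup
  have hFP : F ≤ (P : Subgroup G) := hpF.le_sylow_of_normal P
  -- `Φ(F) ≤ Φ(P)`
  have h1 : (frattini ↥F).map F.subtype ≤ (frattini ↥(P : Subgroup G)).map (P : Subgroup G).subtype := by
    set F' : Subgroup ↥(P : Subgroup G) := F.subgroupOf (P : Subgroup G) with hF'
    have hF'n : F'.Normal := inferInstance
    have h2 := FratFit.frattini_map_le F'
    let e : ↥F ≃* ↥F' := (subgroupOfEquivOfLe hFP).symm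
    have hfr : (frattini ↥F).map e.toMonoidHom = frattini ↥F' := e.mapSubgroup.map_radical
    rintro _ ⟨y, hy, rfl⟩
    refine ⟨⟨y, hFP y.2⟩, h2 ⟨e y, ?_, rfl⟩, rfl⟩
    rw [← hfr]
    exact ⟨y, hy, rfl⟩
  have h2 : (frattini ↥F).map F.subtype = ⊥ := by
    have h3 : ((frattini ↥F).map F.subtype).Normal := inferInstance
    rw [eq_bot_iff, ← h.hfrat, Subgroup.normal_le_normalCore]
    exact h1
  rw [map_eq_bot_iff_of_injective _ F.subtype_injective] at h2
  have h4 : commutator ↥F ≤ frattini ↥F := H70Frattini.commutator_le_frattini hpF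
  have h5 : ∀ x : ↥F, x ^ p ∈ frattini ↥F := fun x => H70Frattini.pow_mem_frattini hpF x
  rw [h2] at h4 h5
  constructor
  · intro x hx y hy
    rw [le_bot_iff, commutator_def, Subgroup.commutator_eq_bot_iff_le_centralizer] at h4
    have h6 := mem_centralizer_iff.mp (h4 (mem_top (⟨x, hx⟩ : ↥F))) ⟨y, hy⟩ (mem_top _)
    exact (congrArg Subtype.val h6).symm
  · intro x hx
    have := h5 ⟨x, hx⟩
    rw [mem_bot] at this
    simpa using congrArg Subtype.val this

/-- Case `F(G) ≠ 1`. -/
theorem Setup.fitting_eq (h : Setup P) (hF : fittingSubgroup G ≠ ⊥) (N : Subgroup G) (hN : N.Normal)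
    (hne : N ≠ ⊥) (hmin : ∀ K : Subgroup G, K.Normal → K ≠ ⊥ → N ≤ K) : fittingSubgroup G = N := by
  have hn : (fittingSubgroup G).Normal := by
    have := Layer.fittingSubgroup_characteristic G
    infer_instance
  obtain ⟨hcomm, hexp⟩ := h.fitting_elementary
  set F := fittingSubgroup G with hFdef
  have hNF : N ≤ F := hmin F hn hF
  have hpF : IsPGroup p ↥F := h.fitting_pgroup
  have hFP : F ≤ (P : Subgroup G) := hpF.le_sylow_of_normal P
  obtain ⟨-, g, hgP, hg⟩ := h.normal N hne
  have hNP : N ⊓ (P : Subgroup G) = N := inf_eq_left.mpr (hNF.trans hFP)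
  rw [hNP] at hg
  by_contra hcon
  set Z := F ⊓ zpowers g with hZ
  have hFNZ : F ≤ N ⊔ Z := by
    intro x hx
    have h1 := hFP hx
    rw [hg] at h1
    obtain ⟨n, hn', z, hz, rfl⟩ := mem_sup_of_normal_left.mp h1
    refine mul_mem (mem_sup_left hn') (mem_sup_right ⟨?_, hz⟩)
    have : z = n⁻¹ * (n * z) := by group
    rw [this]
    exact F.mul_mem (F.inv_mem (hNF hn')) hx
  -- `Z` has order dividing `p`
  have hZle : Nat.card Z ∣ p := by
    have hcyc : IsCyclic ↥Z := isCyclic_of_le (inf_le_right : Z ≤ zpowers g)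
    rw [← IsCyclic.exponent_eq_card]
    apply Monoid.exponent_dvd_of_forall_pow_eq_one
    intro x
    exact Subtype.ext (by simpa using hexp x x.2.1)
  have hNZ : N ⊓ Z = ⊥ := by
    have h1 : Nat.card (N ⊓ Z : Subgroup G) ∣ p := (card_dvd_of_le inf_le_right).trans hZle
    rcases (Nat.dvd_prime hp.out).mp h1 with h2 | h2
    · exact card_eq_one.mp h2
    · exfalso
      apply hcon
      have h3 : Nat.card Z ≤ Nat.card (N ⊓ Z : Subgroup G) := by
        rw [h2]
        exact Nat.le_of_dvd hp.out.pos hZle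
      have h4 : N ⊓ Z = Z := eq_of_le_of_card_ge inf_le_right h3
      apply le_antisymm _ hNF
      refine hFNZ.trans (sup_le le_rfl ?_)
      exact inf_eq_right.mp h4
  have hSZ : ∀ s ∈ (P : Subgroup G), ∀ z ∈ Z, s⁻¹ * z * s ∈ Z := by
    intro s hs z hz
    have h1 : s * z = z * s := by
      rw [hg] at hs
      obtain ⟨n, hn', y, hy, rfl⟩ := mem_sup_of_normal_left.mp hs
      have h2 : n * z = z * n := hcomm n (hNF hn') z hz.1
      have h3 : y * z = z * y := by
        obtain ⟨i, rfl⟩ := hy
        obtain ⟨j, hj⟩ := hz.2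
        simp only at hj
        rw [← hj]
        show g ^ i * g ^ j = g ^ j * g ^ i
        rw [← zpow_add, ← zpow_add, add_comm]
      rw [mul_assoc, h3, ← mul_assoc, h2, mul_assoc]
    have h2 : s⁻¹ * z * s = z := by
      rw [mul_assoc, ← h1]
      group
    rw [h2]
    exact hz
  obtain ⟨C, hCF, hCn, hCN, hC⟩ := exists_normal_compl hp.out F hcomm hexp N Z (P : Subgroup G) hNF inf_le_left
    hNZ hFNZ P.not_dvd_index hSZ
  by_cases hCb : C = ⊥
  · apply hcon
    rw [hCb, bot_sup_eq] at hC
    exact le_antisymm hC hNF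
  · have h1 := hmin C hCn hCb
    rw [inf_eq_right.mpr h1] at hCN
    exact hne hCN

/-- Case `F(G) ≠ 1`: no components. -/
theorem Setup.layer_eq_bot (h : Setup P) (hF : fittingSubgroup G ≠ ⊥) (N : Subgroup G) (hN : N.Normal)
    (hne : N ≠ ⊥) (hmin : ∀ K : Subgroup G, K.Normal → K ≠ ⊥ → N ≤ K) : layer G = ⊥ := by
  by_contra hE
  have hFN := h.fitting_eq hF N hN hne hmin
  set E := layer G with hEdef
  have hEn : E.Normal := by
    have := Layer.layer_characteristic G
    infer_instance
  have hNE : N ≤ E := hmin E hEn hE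
  have hEN : E ≤ centralizer (N : Set G) := by
    have := Layer.layer_le_centralizer_fitting (G := G)
    rwa [hFN] at this
  have hpN : IsPGroup p ↥N := by
    have := h.fitting_pgroup
    rwa [hFN] at this
  have hNP : N ≤ (P : Subgroup G) := hpN.le_sylow_of_normal P
  obtain ⟨-, g, hgP, hg⟩ := h.normal N hne
  rw [inf_eq_left.mpr hNP] at hg
  -- the Sylow subgroup of `E`
  let Q : Sylow p ↥E := Transfer.sylowOfNormal P E
  have hQ : ∀ x : ↥E, x ∈ (Q : Subgroup ↥E) ↔ (x : G) ∈ (P : Subgroup G) := by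
    intro x
    rw [Transfer.coe_sylowOfNormal, mem_subgroupOf]
  have hcen : ∀ a ∈ E, ∀ b ∈ N, b * a = a * b := fun a ha b hb => mem_centralizer_iff.mp (hEN ha) b hb
  have hdec : ∀ x : ↥E, x ∈ (Q : Subgroup ↥E) → ∃ n ∈ N, ∃ i : ℤ, (x : G) = n * g ^ i ∧ g ^ i ∈ E := by
    intro x hx
    have h1 := (hQ x).mp hx
    rw [hg] at h1
    obtain ⟨n, hn', z, ⟨i, hi⟩, h2⟩ := mem_sup_of_normal_left.mp h1
    simp only at hi
    refine ⟨n, hn', i, ?_, ?_⟩
    · rw [hi, h2]
    · have : g ^ i = n⁻¹ * (x : G) := by rw [hi, ← h2]; group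
      rw [this]
      exact E.mul_mem (E.inv_mem (hNE hn')) x.2
  have hQc : IsMulCommutative ↥(Q : Subgroup ↥E) := by
    refine ⟨⟨fun a b => Subtype.ext (Subtype.ext ?_)⟩⟩
    obtain ⟨n, hn1, i, hi, hiE⟩ := hdec a a.2
    obtain ⟨m, hm1, j, hj, hjE⟩ := hdec b b.2
    show ((a : ↥E) : G) * ((b : ↥E) : G) = ((b : ↥E) : G) * ((a : ↥E) : G)
    rw [hi, hj]
    have e1 : m * g ^ i = g ^ i * m := hcen _ hiE _ hm1
    have e2 : n * g ^ j = g ^ j * n := hcen _ hjE _ hn1
    have e3 : m * n = n * m := hcen _ (hNE hn1) _ hm1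
    have e4 : g ^ i * g ^ j = g ^ j * g ^ i := by rw [← zpow_add, ← zpow_add, add_comm]
    calc n * g ^ i * (m * g ^ j) = n * (g ^ i * m) * g ^ j := by group
      _ = n * m * (g ^ i * g ^ j) := by rw [← e1]; group
      _ = m * n * (g ^ j * g ^ i) := by rw [e3, e4]
      _ = m * (n * g ^ j) * g ^ i := by group
      _ = m * g ^ j * (n * g ^ i) := by rw [e2]; group
  have h1 := TransferApps.abelian_hall_inf_commutator_inf_center (Q : Subgroup ↥E) hQc Q.card_coprime_index
  apply hne
  rw [eq_bot_iff]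
  intro x hx
  have h2 : (⟨x, hNE hx⟩ : ↥E) ∈ (Q : Subgroup ↥E) ⊓ commutator ↥E ⊓ center ↥E := by
    refine ⟨⟨(hQ _).mpr (hNP hx), ?_⟩, ?_⟩
    · have h3 : ⁅E, E⁆ = E := Layer.layer_perfect G
      have h4 : commutator ↥E = ⊤ := by
        rw [← map_subtype_commutator] at h3
        have h5 := (map_injective E.subtype_injective) (h3.trans (by rw [← MonoidHom.range_eq_map, range_subtype] : E = (⊤ : Subgroup ↥E).map E.subtype))
        exact h5
      rw [h4]; trivial
    · refine mem_center_iff.mpr ?_
      intro y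
      exact Subtype.ext (mem_centralizer_iff.mp (hEN y.2) x hx).symm
  rw [h1, mem_bot] at h2
  simpa using congrArg Subtype.val h2

/-- A `P`-invariant join of components contains the derived group of `P`. -/
theorem Setup.join_components (h : Setup P) (S : Set (Subgroup G)) (hS : ∀ K ∈ S, IsComponent K) (hSne : S.Nonempty)
    (hinv : ∀ K ∈ S, ∀ x ∈ (P : Subgroup G), K.map (MulAut.conj x).toMonoidHom ∈ S) :
    ⁅(P : Subgroup G), (P : Subgroup G)⁆ ≤ sSup S := by
  set X : Subgroup G := sSup S with hX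
  have hle : ∀ x ∈ (P : Subgroup G), X.map (MulAut.conj x).toMonoidHom ≤ X := by
    intro x hx
    rw [hX, sSup_eq_iSup, Subgroup.map_iSup]
    refine iSup_le fun K => ?_
    rw [Subgroup.map_iSup]
    refine iSup_le fun hK => ?_
    rw [← sSup_eq_iSup]
    exact le_sSup (hinv K hK x hx)
  have hnorm : (P : Subgroup G) ≤ normalizer (X : Set G) := by
    intro x hx
    rw [mem_normalizer_iff]
    intro y
    constructor
    · intro hy
      exact hle x hx ⟨y, hy, rfl⟩
    · intro hy
      have h1 := hle x⁻¹ (inv_mem hx) ⟨_, hy, rfl⟩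
      simpa [mul_assoc] using h1
  refine (main_dichotomy P h.hgen X hnorm (fun hcon => ?_)).1
  have h1 : HasNormalPComplement p ↥X := tate_norm P X hnorm hcon
  have hperf : ⁅X, X⁆ = X := Components.sSup_perfect fun K hK => Components.component_perfect (hS K hK)
  have h2 : pResidual p ↥X = ⊤ := AmbFStar.pResidual_of_perfect (Components.isPerfect_iff'.mpr hperf)
  rw [PNilp.hasNormalPComplement_iff_pResidual, h2, card_top] at h1
  obtain ⟨K, hK⟩ := hSne
  have h3 : ¬ p ∣ Nat.card K := fun hd => h1 (hd.trans (card_dvd_of_le (le_sSup hK)))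
  have h4 : K ≤ pPrimeCore p G := Layer.subnormal_coprime_le_pPrimeCore (hS K hK).1
    (Nat.Coprime.symm ((Nat.Prime.coprime_iff_not_dvd hp.out).mpr h3))
  rw [h.hcore, le_bot_iff] at h4
  exact Components.component_ne_bot (hS K hK) h4

/-- The transitivity on components. -/
theorem Setup.transitive (h : Setup P) (hF : fittingSubgroup G = ⊥) (K L : Subgroup G) (hK : IsComponent K)
    (hL : IsComponent L) : ∃ x ∈ (P : Subgroup G), L = K.map (MulAut.conj x).toMonoidHom := by
  by_contra hcon
  set S1 : Set (Subgroup G) := {M | ∃ x ∈ (P : Subgroup G), M = K.map (MulAut.conj x).toMonoidHom} with hS1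
  set S2 : Set (Subgroup G) := {M | IsComponent M ∧ M ∉ S1} with hS2
  have hmap : ∀ (x y : G) (M : Subgroup G), (M.map (MulAut.conj x).toMonoidHom).map (MulAut.conj y).toMonoidHom =
      M.map (MulAut.conj (y * x)).toMonoidHom := by
    intro x y M
    rw [map_map, map_mul]
    rfl
  have hmap1 : ∀ M : Subgroup G, M.map (MulAut.conj (1 : G)).toMonoidHom = M := by
    intro M
    rw [map_one]
    exact map_id M
  have h1 := h.join_components S1 (by
      rintro M ⟨x, hx, rfl⟩
      exact Components.isComponent_conj x hK) ⟨K, 1, one_mem _, (hmap1 K).symm⟩ (by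
      rintro M ⟨x, hx, rfl⟩ y hy
      exact ⟨y * x, mul_mem hy hx, hmap x y K⟩)
  have h2 := h.join_components S2 (fun M hM => hM.1) ⟨L, hL, hcon⟩ (by
      rintro M ⟨hM1, hM2⟩ y hy
      refine ⟨Components.isComponent_conj y hM1, ?_⟩
      rintro ⟨x, hx, hxe⟩
      apply hM2
      refine ⟨y⁻¹ * x, mul_mem (inv_mem hy) hx, ?_⟩
      rw [← hmap, ← hxe, hmap, inv_mul_cancel, hmap1])
  -- the two joins commute
  have hS1c : ∀ M ∈ S1, IsComponent M := by
    rintro M ⟨x, hx, rfl⟩
    exact Components.isComponent_conj x hK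
  have hcomm : sSup S1 ≤ centralizer ((sSup S2 : Subgroup G) : Set G) := by
    apply Components.le_centralizer_sSup
    intro M hM
    apply Components.le_centralizer_comm
    apply Components.le_centralizer_sSup
    intro M' hM'
    exact Components.components_commute hM.1 (hS1c M' hM') (fun he => hM.2 (he ▸ hM'))
  have hE : layer G ≤ sSup S1 ⊔ sSup S2 := by
    apply sSup_le
    intro M hM
    by_cases hM1 : M ∈ S1
    · exact le_sup_of_le_left (le_sSup hM1)
    · exact le_sup_of_le_right (le_sSup ⟨hM, hM1⟩)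
  have hS1E : sSup S1 ≤ layer G := sSup_le fun M hM => Layer.component_le_layer (hS1c M hM)
  apply h.comm_ne
  rw [eq_bot_iff, ← hF]
  have h3 : ⁅(P : Subgroup G), (P : Subgroup G)⁆ ≤ layer G ⊓ centralizer (layer G : Set G) := by
    intro x hx
    refine ⟨hS1E (h1 hx), ?_⟩
    have h4 : zpowers x ≤ centralizer ((sSup S1 ⊔ sSup S2 : Subgroup G) : Set G) := by
      apply Components.le_centralizer_sup
      · rw [zpowers_le]
        exact (Components.le_centralizer_comm hcomm) (h2 hx)
      · rw [zpowers_le]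
        exact hcomm (h1 hx)
    exact (h4.trans (centralizer_le hE)) (mem_zpowers x)
  refine h3.trans (le_sSup ⟨?_, ?_⟩)
  · have : (layer G).Normal := by
      have := Layer.layer_characteristic G
      infer_instance
    infer_instance
  · exact Layer.isNilpotent_of_le_centralizer (inf_le_right.trans (centralizer_le inf_le_left))

end

/-- Let p be a prime and G a finite group with a non-commutative Sylow p-subgroup P whose Frattini subgroup has index p² in P (P is generated by two elements). Suppose G has no nontrivial normal subgroup of order prime to p and the Frattini subgroup of P contains no nontrivial normal subgroup of G. Then the generalized Fitting subgroup F*(G) is the unique minimal normal subgroup of G, the image of P in G/F*(G) is cyclic, and if F*(G) is not commutative then P permutes the components of G transitively by conjugation. -/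
theorem result {G : Type*} [Group G] [Finite G] (p : ℕ) [Fact p.Prime] (P : Sylow p G) (hna : ¬ IsMulCommutative (P : Subgroup G)) (hgen : (frattini ↥(P : Subgroup G)).index = p ^ 2) (hcore : Cfsg.pPrimeCore p G = ⊥) (hfrat : ((frattini ↥(P : Subgroup G)).map (P : Subgroup G).subtype).normalCore = ⊥) [hFn : (Cfsg.generalizedFittingSubgroup G).Normal] :
    (Cfsg.generalizedFittingSubgroup G ≠ ⊥ ∧ ∀ K : Subgroup G, K.Normal → K ≠ ⊥ → Cfsg.generalizedFittingSubgroup G ≤ K) ∧
      IsCyclic ↥((P : Subgroup G).map (QuotientGroup.mk' (Cfsg.generalizedFittingSubgroup G))) ∧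
      (¬ IsMulCommutative (Cfsg.generalizedFittingSubgroup G) → ∀ K L : Subgroup G, Cfsg.IsComponent K → Cfsg.IsComponent L → ∃ x ∈ (P : Subgroup G), L = K.map (MulAut.conj x).toMonoidHom) := by
  have h : Setup P := ⟨hna, hgen, hcore, hfrat⟩
  obtain ⟨N, hN, hne, hmin⟩ := h.unique_min
  have hFs : generalizedFittingSubgroup G = N := by
    by_cases hF : fittingSubgroup G = ⊥
    · exact h.fstar_of_fitting_bot hF N hN hne hmin
    · rw [generalizedFittingSubgroup, h.layer_eq_bot hF N hN hne hmin, bot_sup_eq,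
        h.fitting_eq hF N hN hne hmin]
  refine ⟨⟨?_, ?_⟩, ?_, ?_⟩
  · rw [hFs]; exact hne
  · rw [hFs]; exact hmin
  · obtain ⟨-, g, hgP, hg⟩ := h.normal (generalizedFittingSubgroup G) (by rw [hFs]; exact hne)
    set π := QuotientGroup.mk' (generalizedFittingSubgroup G) with hπ
    refine isCyclic_of_le (H' := zpowers (π g)) ?_
    rw [hg, Subgroup.map_sup, MonoidHom.map_zpowers]
    refine sup_le ?_ le_rfl
    rintro _ ⟨x, hx, rfl⟩
    have h1 : π x = 1 := (QuotientGroup.eq_one_iff x).mpr hx.1
    rw [h1]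
    exact one_mem _
  · intro hnc K L hK hL
    have hF : fittingSubgroup G = ⊥ := by
      by_contra hF
      apply hnc
      obtain ⟨hcomm, -⟩ := h.fitting_elementary
      have h1 : generalizedFittingSubgroup G = fittingSubgroup G := by
        rw [hFs, h.fitting_eq hF N hN hne hmin]
      rw [h1]
      exact ⟨⟨fun a b => Subtype.ext (hcomm a a.2 b b.2)⟩⟩
    exact h.transitive hF K L hK hL

end Cfsg.Agent.S4172
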