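import Cfsg.Statements.S4176
import Cfsg.Agent.Lib.PSolvTools
import Cfsg.Agent.Lib.CoprimeOrbitLin

set_option autoImplicit false
open Cfsg

namespace Cfsg.Agent.S4176

open Subgroup Cfsg.Agent.Lib.CoprimeOrbitLin

section

variable {k V H : Type*} [Field k] [AddCommGroup V] [Module k V] [Group H] [Finite H]

/-- restriction of a representation -/
def res (ρ : Representation k H V) (Q : Subgroup H) : Representation k Q V := ρ.comp Q.subtype

theorem res_apply (ρ : Representation k H V) (Q : Subgroup H) (q : Q) (v : V) : res ρ Q q v = ρ (q : H) v := rfl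

theorem orbit_eq (ρ : Representation k H V) (Q : Subgroup H) (a : V)
    (h : ∀ h : H, ∃ q ∈ Q, ∃ s ∈ stab ρ a, q * s = h) :
    {u : V | ∃ h : H, ρ h a = u} = {u : V | ∃ q : Q, res ρ Q q a = u} := by
  ext u
  constructor
  · rintro ⟨g, rfl⟩
    obtain ⟨q, hq, s, hs, rfl⟩ := h g
    refine ⟨⟨q, hq⟩, ?_⟩
    rw [res_apply, rho_mul, (mem_stab ρ a s).1 hs]
  · rintro ⟨q, rfl⟩
    exact ⟨q, rfl⟩

/-- the sum over the `Q`-orbit is fixed by `H` -/
theorem avg_fixed (ρ : Representation k H V) (Q : Subgroup H) (a : V) (hQ : (Nat.card Q : k) ≠ 0)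
    (h : ∀ h : H, ∃ q ∈ Q, ∃ s ∈ stab ρ a, q * s = h) (g : H) :
    ρ g (avg (res ρ Q) ⊤ a) = avg (res ρ Q) ⊤ a := by
  classical
  have hfin : {u : V | ∃ h : H, ρ h a = u}.Finite := Set.finite_range (fun h : H => ρ h a)
  set w : V := ∑ u ∈ hfin.toFinset, u with hw
  have hwfix : ∀ g : H, ρ g w = w := by
    intro g
    rw [hw, map_sum]
    refine Finset.sum_nbij' (fun u => ρ g u) (fun u => ρ g⁻¹ u) ?_ ?_ ?_ ?_ ?_
    · intro u hu
      rw [Set.Finite.mem_toFinset] at hu ⊢
      obtain ⟨x, rfl⟩ := hu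
      exact ⟨g * x, rho_mul ρ g x a⟩
    · intro u hu
      rw [Set.Finite.mem_toFinset] at hu ⊢
      obtain ⟨x, rfl⟩ := hu
      exact ⟨g⁻¹ * x, rho_mul ρ g⁻¹ x a⟩
    · intro u _
      show ρ g⁻¹ (ρ g u) = u
      rw [← rho_mul, inv_mul_cancel, map_one]; rfl
    · intro u _
      show ρ g (ρ g⁻¹ u) = u
      rw [← rho_mul, mul_inv_cancel, map_one]; rfl
    · intro u _
      rfl
  have h1 : avg (res ρ Q) ⊤ w = (Nat.card (⊤ : Subgroup Q) : k) • w :=
    avg_of_fixed (res ρ Q) ⊤ w (fun q _ => hwfix q)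
  have h2 : avg (res ρ Q) ⊤ w = (Nat.card {u : V | ∃ h : H, ρ h a = u} : k) • avg (res ρ Q) ⊤ a := by
    have h3 : ∀ u ∈ hfin.toFinset, avg (res ρ Q) ⊤ u = avg (res ρ Q) ⊤ a := by
      intro u hu
      rw [Set.Finite.mem_toFinset, orbit_eq ρ Q a h] at hu
      obtain ⟨q, rfl⟩ := hu
      exact avg_rho (res ρ Q) ⊤ a q (mem_top q)
    rw [hw, map_sum, Finset.sum_congr rfl h3, Finset.sum_const, Nat.cast_smul_eq_nsmul,
      Nat.card_coe_set_eq, Set.ncard_eq_toFinset_card _ hfin]
  have h3 : (Nat.card {u : V | ∃ h : H, ρ h a = u} : k) ≠ 0 := by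
    rw [orbit_eq ρ Q a h, card_orbit]
    intro h0
    apply hQ
    obtain ⟨c, hc⟩ := Subgroup.index_dvd_card (stab (res ρ Q) a)
    rw [hc, Nat.cast_mul, h0, zero_mul]
  have h4 : avg (res ρ Q) ⊤ a = ((Nat.card {u : V | ∃ h : H, ρ h a = u} : k)⁻¹ * (Nat.card (⊤ : Subgroup Q) : k)) • w := by
    rw [mul_smul, ← h1, h2, smul_smul, inv_mul_cancel₀ h3, one_smul]
  rw [h4, map_smul, hwfix]

end

/-- Let k be a field of prime characteristic p, H a finite p-soluble group and ρ a k-linear representation of H on V. Let a be a vector that is fixed by some Sylow p-subgroup of H and whose H-orbit spans V. Then the space of H-fixed vectors has dimension at most 1, and every vector b whose H-orbit has size coprime to the size of the orbit of a is fixed by H. -/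
theorem result {k V H : Type*} [Field k] (p : ℕ) [Fact p.Prime] [CharP k p] [AddCommGroup V] [Module k V]
    [Group H] [Finite H] (hsol : Cfsg.IsPSolvable p H) (ρ : Representation k H V) (a : V)
    (hfix : ∃ P : Sylow p H, ∀ x : H, x ∈ (P : Subgroup H) → ρ x a = a)
    (hspan : Submodule.span k {u : V | ∃ h : H, ρ h a = u} = ⊤) :
    Module.finrank k ρ.invariants ≤ 1 ∧
    ∀ b : V, (Nat.card {u : V | ∃ h : H, ρ h a = u}).Coprime (Nat.card {u : V | ∃ h : H, ρ h b = u}) → ∀ h : H, ρ h b = b := by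
  have hp : p.Prime := Fact.out
  obtain ⟨P, hP⟩ := hfix
  have hPa : (P : Subgroup H) ≤ stab ρ a := hP
  -- for every Hall p'-subgroup Q, H = Q P
  have hfac : ∀ Q : Subgroup H, (∃ k, Q.index = p ^ k) → ∀ h : H, ∃ q ∈ Q, ∃ s ∈ stab ρ a, q * s = h := by
    rintro Q ⟨m, hm⟩ h
    have hcop : (P : Subgroup H).index.Coprime Q.index := by
      rw [hm]
      exact (((Nat.Prime.coprime_iff_not_dvd hp).2 P.not_dvd_index).pow_left m).symm
    obtain ⟨q, hq, s, hs, hqs⟩ := exists_mul_eq_of_coprime_index (P : Subgroup H) Q hcop h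
    exact ⟨q, hq, s, hPa hs, hqs⟩
  have hcast : ∀ Q : Subgroup H, ¬ p ∣ Nat.card Q → (Nat.card Q : k) ≠ 0 := by
    intro Q hQ h0
    exact hQ ((CharP.cast_eq_zero_iff k p _).1 h0)
  constructor
  · obtain ⟨Q, hQ1, hQ2⟩ := Cfsg.Agent.Lib.PSolvTools.exists_hall hp hsol
    have hspan' : Submodule.span k {u : V | ∃ q : Q, res ρ Q q a = u} = ⊤ := by
      rw [← orbit_eq ρ Q a (hfac Q hQ2)]; exact hspan
    have h1 := (main (res ρ Q) (hcast Q hQ1) a hspan').1
    refine finrank_le_one_of_le_span (v := avg (res ρ Q) ⊤ a) (le_trans ?_ h1)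
    intro v hv q
    exact hv (q : H)
  · intro b hcop h
    obtain ⟨Qb, hQb1, j, hQb2⟩ := Cfsg.Agent.Lib.PSolvTools.exists_hall hp
      (Cfsg.Agent.Lib.PSolvTools.isPSolvable_subgroup hp hsol (stab ρ b))
    have hK : ¬ p ∣ Nat.card (Qb.map (stab ρ b).subtype) := by
      rw [Subgroup.card_map_of_injective (Subgroup.subtype_injective _)]; exact hQb1
    obtain ⟨Q, hKQ, hQ1, hQ2⟩ := Cfsg.Agent.Lib.PSolvTools.exists_le_hall hp hsol _ hK
    have hspan' : Submodule.span k {u : V | ∃ q : Q, res ρ Q q a = u} = ⊤ := by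
      rw [← orbit_eq ρ Q a (hfac Q hQ2)]; exact hspan
    have h1 : (stab (res ρ Q) a).index = Nat.card {u : V | ∃ h : H, ρ h a = u} := by
      rw [orbit_eq ρ Q a (hfac Q hQ2), card_orbit]
    have h2 : (stab (res ρ Q) b).index = (stab ρ b).relIndex Q := rfl
    have h3 : (stab ρ b).relIndex Q ∣ (stab ρ b).index := by
      have h4 : (stab ρ b ⊓ Q).index = (stab ρ b).relIndex Q * Q.index := by
        rw [← Subgroup.inf_relIndex_right]
        exact (Subgroup.relIndex_mul_index inf_le_right).symm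
      have h5 : (stab ρ b ⊓ Q).index = Q.relIndex (stab ρ b) * (stab ρ b).index := by
        rw [← Subgroup.inf_relIndex_left]
        exact (Subgroup.relIndex_mul_index inf_le_left).symm
      have h6 : Q.relIndex (stab ρ b) ∣ p ^ j := by
        rw [← hQb2]
        have h7 : Q.relIndex (stab ρ b) ∣ (Qb.map (stab ρ b).subtype).relIndex (stab ρ b) :=
          Subgroup.relIndex_dvd_of_le_left _ hKQ
        have h8 : (Qb.map (stab ρ b).subtype).relIndex (stab ρ b) = Qb.index := by
          show ((Qb.map (stab ρ b).subtype).comap (stab ρ b).subtype).index = _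
          rw [Subgroup.comap_map_eq_self_of_injective (Subgroup.subtype_injective _)]
        rwa [h8] at h7
      have h7 : (stab ρ b).relIndex Q ∣ p ^ j * (stab ρ b).index := by
        have h8 : (stab ρ b).relIndex Q ∣ Q.relIndex (stab ρ b) * (stab ρ b).index := by
          rw [← h5, h4]; exact dvd_mul_right _ _
        exact h8.trans (mul_dvd_mul_right h6 _)
      have h8 : ((stab ρ b).relIndex Q).Coprime (p ^ j) := by
        apply Nat.Coprime.pow_right
        rw [Nat.coprime_comm, Nat.Prime.coprime_iff_not_dvd hp]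
        intro hd
        exact hQ1 (hd.trans (Subgroup.relIndex_dvd_card _ _))
      exact h8.dvd_of_dvd_mul_left h7
    have h4 : (stab (res ρ Q) a).index.Coprime (stab (res ρ Q) b).index := by
      rw [h1, h2]
      refine Nat.Coprime.coprime_dvd_right h3 ?_
      rwa [card_orbit ρ b] at hcop
    have h5 := (main (res ρ Q) (hcast Q hQ1) a hspan').2 b h4
    obtain ⟨c, rfl⟩ := Submodule.mem_span_singleton.1 h5
    rw [map_smul, avg_fixed ρ Q a (hcast Q hQ1) (hfac Q hQ2)]

end Cfsg.Agent.S4176
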