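import Cfsg.Statements.S4177
import Cfsg.Agent.Lib.CoprimeOrbitLin

set_option autoImplicit false
open Cfsg

namespace Cfsg.Agent.S4177

/-- Let k be a field whose characteristic does not divide the order of the finite group H (for instance a field of characteristic zero), and ρ a k-linear representation of H on V. Let a be a vector whose H-orbit spans V. Then the space of H-fixed vectors has dimension at most 1, and every vector b whose H-orbit has size coprime to the size of the orbit of a is fixed by H. -/
theorem result {k V H : Type*} [Field k] [AddCommGroup V] [Module k V] [Group H] [Finite H]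
    (hchar : ¬ ringChar k ∣ Nat.card H) (ρ : Representation k H V) (a : V)
    (hspan : Submodule.span k {u : V | ∃ h : H, ρ h a = u} = ⊤) :
    Module.finrank k ρ.invariants ≤ 1 ∧
    ∀ b : V, (Nat.card {u : V | ∃ h : H, ρ h a = u}).Coprime (Nat.card {u : V | ∃ h : H, ρ h b = u}) → ∀ h : H, ρ h b = b := by
  have hH : (Nat.card H : k) ≠ 0 := by
    intro h0
    exact hchar ((ringChar.spec k _).1 h0)
  obtain ⟨h1, h2⟩ := Cfsg.Agent.Lib.CoprimeOrbitLin.main ρ hH a hspan
  refine ⟨Cfsg.Agent.Lib.CoprimeOrbitLin.finrank_le_one_of_le_span h1, ?_⟩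
  intro b hcop h
  rw [Cfsg.Agent.Lib.CoprimeOrbitLin.card_orbit, Cfsg.Agent.Lib.CoprimeOrbitLin.card_orbit] at hcop
  exact Cfsg.Agent.Lib.CoprimeOrbitLin.fixed_of_mem_span ρ a b (h2 b hcop) h

end Cfsg.Agent.S4177
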