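import Cfsg.Statements.S4178

set_option autoImplicit false
open Cfsg

namespace Cfsg.Agent.S4178

/-- If `f : K → Y` separates the cosets of `R` then `[K:R] ≤ |T|` for every finite `T` containing the image. -/
theorem index_le_ncard {K Y : Type*} [Group K] (R : Subgroup K) (f : K → Y) (T : Set Y) (hT : T.Finite)
    (hf : ∀ k, f k ∈ T) (hR : ∀ k k', f k = f k' → k⁻¹ * k' ∈ R) : R.index ≤ T.ncard := by
  classical
  have : Finite T := hT
  let g : K ⧸ R → T := fun q => ⟨f q.out, hf _⟩
  have hg : Function.Injective g := by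
    intro q q' h
    have h1 : f q.out = f q'.out := congrArg Subtype.val h
    have h2 := hR _ _ h1
    rw [← QuotientGroup.eq] at h2
    rwa [QuotientGroup.out_eq', QuotientGroup.out_eq'] at h2
  exact Nat.card_le_card_of_injective g hg

theorem ncard_compl_zero {F V : Type*} [Field F] [Fintype F] [AddCommGroup V] [Module F V]
    [FiniteDimensional F V] : ({0}ᶜ : Set V).ncard + 1 = Fintype.card F ^ Module.finrank F V := by
  classical
  have : Finite V := Module.finite_of_finite F
  have : Fintype V := Fintype.ofFinite V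
  have h1 := Set.ncard_add_ncard_compl ({0} : Set V)
  rw [Set.ncard_singleton, Nat.card_eq_fintype_card, Module.card_eq_pow_finrank (K := F)] at h1
  omega

theorem fixed_of_quotient {F V : Type*} [Field F] [AddCommGroup V] [Module F V]
    [FiniteDimensional F V] (W : Submodule F V) (h : V ≃ₗ[F] V) (hW : ∀ w ∈ W, h w ∈ W)
    (v : V) (hv : v ∉ W) (hfix : h v - v ∈ W) : ∃ u : V, u ≠ 0 ∧ h u = u := by
  by_contra hcon
  push Not at hcon
  -- the map h - 1 is injective
  let φ : V →ₗ[F] V := (h : V →ₗ[F] V) - LinearMap.id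
  have hφ : ∀ u, φ u = h u - u := fun u => rfl
  have hinj : Function.Injective φ := by
    rw [← LinearMap.ker_eq_bot, LinearMap.ker_eq_bot']
    intro u hu
    by_contra hne
    exact hcon u hne (sub_eq_zero.1 ((hφ u).symm.trans hu))
  -- it maps W into W hence onto W
  have hmapW : W.map φ = W := by
    apply Submodule.eq_of_le_of_finrank_eq
    · rintro _ ⟨w, hw, rfl⟩
      rw [hφ]; exact W.sub_mem (hW w hw) hw
    · exact LinearEquiv.finrank_eq (Submodule.equivMapOfInjective φ hinj W).symm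
  rw [← hmapW] at hfix
  obtain ⟨w, hw, hw'⟩ := hfix
  have : φ w = φ v := by rw [hw', hφ]
  exact hv (hinj this ▸ hw)

/-- Let F be a finite field with q elements, V a non-zero finite-dimensional F-space of dimension d, H a group of invertible linear maps of V, and R the subgroup of H generated by the elements of H that fix some non-zero vector (have eigenvalue 1). Then the index of R in H is at most q^d − 1; and if H leaves invariant some proper non-zero subspace, the index is at most q^(d/2) − 1. -/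
theorem result {F V : Type*} [Field F] [Fintype F] [AddCommGroup V] [Module F V] [FiniteDimensional F V] [Nontrivial V]
    (H : Subgroup (V ≃ₗ[F] V)) :
    (Subgroup.closure {h : ↥H | ∃ v : V, v ≠ 0 ∧ (h : V ≃ₗ[F] V) v = v}).index ≤ Fintype.card F ^ Module.finrank F V - 1 ∧
    ((∃ W : Submodule F V, W ≠ ⊥ ∧ W ≠ ⊤ ∧ ∀ h ∈ H, ∀ w ∈ W, h w ∈ W) →
      ((Subgroup.closure {h : ↥H | ∃ v : V, v ≠ 0 ∧ (h : V ≃ₗ[F] V) v = v}).index : ℝ) ≤ Real.sqrt ((Fintype.card F : ℝ) ^ Module.finrank F V) - 1) := by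
  classical
  have hfinV : Finite V := Module.finite_of_finite F
  set R := Subgroup.closure {h : ↥H | ∃ v : V, v ≠ 0 ∧ (h : V ≃ₗ[F] V) v = v} with hR
  have hmem : ∀ h : ↥H, (∃ v : V, v ≠ 0 ∧ (h : V ≃ₗ[F] V) v = v) → h ∈ R := fun h hh =>
    Subgroup.subset_closure hh
  have hmul : ∀ (h k : ↥H) (v : V), ((h⁻¹ * k : ↥H) : V ≃ₗ[F] V) v = (h : V ≃ₗ[F] V).symm ((k : V ≃ₗ[F] V) v) :=
    fun h k v => rfl
  constructor
  · obtain ⟨v, hv⟩ := exists_ne (0 : V)
    have h1 := index_le_ncard R (fun h : ↥H => (h : V ≃ₗ[F] V) v) ({0}ᶜ : Set V) (Set.toFinite _)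
      (fun h => by
        show (h : V ≃ₗ[F] V) v ≠ 0
        rw [Ne, LinearEquiv.map_eq_zero_iff]; exact hv)
      (fun h k hhk => by
        refine hmem _ ⟨v, hv, ?_⟩
        rw [hmul, LinearEquiv.symm_apply_eq]
        exact hhk.symm)
    have h2 := ncard_compl_zero (F := F) (V := V)
    omega
  · rintro ⟨W, hW0, hW1, hWinv⟩
    -- first bound
    obtain ⟨w, hw, hw0⟩ := W.ne_bot_iff.1 hW0
    have h1 := index_le_ncard R (fun h : ↥H => (⟨(h : V ≃ₗ[F] V) w, hWinv _ h.2 w hw⟩ : W)) ({0}ᶜ : Set W)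
      (Set.toFinite _)
      (fun h => by
        intro h0
        have h0' : (h : V ≃ₗ[F] V) w = 0 := congrArg Subtype.val h0
        rw [LinearEquiv.map_eq_zero_iff] at h0'; exact hw0 h0')
      (fun h k hhk => by
        refine hmem _ ⟨w, hw0, ?_⟩
        rw [hmul, LinearEquiv.symm_apply_eq]
        exact (congrArg Subtype.val hhk).symm)
    have h2 := ncard_compl_zero (F := F) (V := W)
    -- second bound
    obtain ⟨v, hv⟩ : ∃ v, v ∉ W := by
      by_contra hcon
      push Not at hcon
      exact hW1 (Submodule.eq_top_iff'.2 hcon)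
    have hfinQ : Finite (V ⧸ W) := Module.finite_of_finite F
    have h3 := index_le_ncard R (fun h : ↥H => (W.mkQ ((h : V ≃ₗ[F] V) v) : V ⧸ W)) ({0}ᶜ : Set (V ⧸ W))
      (Set.toFinite _)
      (fun h => by
        intro h0
        have h0' : W.mkQ ((h : V ≃ₗ[F] V) v) = 0 := h0
        rw [Submodule.mkQ_apply, Submodule.Quotient.mk_eq_zero] at h0'
        have h4 := hWinv _ (H.inv_mem h.2) _ h0'
        have h5 : ((h : V ≃ₗ[F] V)⁻¹ : V ≃ₗ[F] V) ((h : V ≃ₗ[F] V) v) = v :=
          (h : V ≃ₗ[F] V).symm_apply_apply v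
        rw [h5] at h4
        exact hv h4)
      (fun h k hhk => by
        refine hmem _ (fixed_of_quotient W _ (hWinv _ (h⁻¹ * k).2) v hv ?_)
        have h4 : W.mkQ ((h : V ≃ₗ[F] V) v) = W.mkQ ((k : V ≃ₗ[F] V) v) := hhk
        rw [Submodule.mkQ_apply, Submodule.mkQ_apply, eq_comm, Submodule.Quotient.eq] at h4
        have h5 := hWinv _ (H.inv_mem h.2) _ h4
        rw [map_sub] at h5
        have h6 : ((h : V ≃ₗ[F] V)⁻¹ : V ≃ₗ[F] V) ((h : V ≃ₗ[F] V) v) = v :=
          (h : V ≃ₗ[F] V).symm_apply_apply v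
        rw [h6] at h5
        exact h5)
    have h4 := ncard_compl_zero (F := F) (V := V ⧸ W)
    have h5 : Module.finrank F (V ⧸ W) + Module.finrank F W = Module.finrank F V :=
      Submodule.finrank_quotient_add_finrank W
    have h6 : (R.index + 1) * (R.index + 1) ≤ Fintype.card F ^ Module.finrank F V := by
      rw [← h5, pow_add]
      exact Nat.mul_le_mul (by omega) (by omega)
    have h7 : ((R.index : ℝ) + 1) ≤ Real.sqrt ((Fintype.card F : ℝ) ^ Module.finrank F V) := by
      apply Real.le_sqrt_of_sq_le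
      rw [sq]
      exact_mod_cast h6
    linarith

end Cfsg.Agent.S4178
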