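import Cfsg.Statements.S4181
import Cfsg.Agent.Lib.H64SylFix

set_option autoImplicit false
open Cfsg

namespace Cfsg.Agent.S4181

/-- Let p be a prime and G a finite group generated by its elements of p-power order, and let H be a proper subgroup of G containing a Sylow p-subgroup of G. Then 2p − 1 times the number of Sylow p-subgroups of H is at most p − 1 times the number of Sylow p-subgroups of G. -/
theorem result {G : Type*} [Group G] [Finite G] (p : ℕ) [Fact p.Prime] (hgen : Subgroup.closure {g : G | ∃ k : ℕ, orderOf g = p ^ k} = ⊤)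
    (H : Subgroup G) (hH : H ≠ ⊤) (P : Sylow p G) (hP : (P : Subgroup G) ≤ H) :
    (2 * p - 1) * Nat.card (Sylow p ↥H) ≤ (p - 1) * Nat.card (Sylow p G) := by
  have h1 := Lib.H64SylFix.card_le H ⟨P, hP⟩ (by
    intro hall
    apply hH
    rw [eq_top_iff, ← hgen, Subgroup.closure_le]
    rintro g ⟨k, hk⟩
    have hpg : IsPGroup p (Subgroup.zpowers g) := by
      rw [IsPGroup.iff_card]
      exact ⟨k, by rw [Nat.card_zpowers, hk]⟩
    obtain ⟨Q, hQ⟩ := hpg.exists_le_sylow
    exact hall Q (hQ (Subgroup.mem_zpowers g)))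
  have h2 : Nat.card (Sylow p ↥H) = Nat.card {P : Sylow p G // (P : Subgroup G) ≤ H} := by
    refine (Nat.card_congr (Equiv.ofBijective
      (fun R : {P : Sylow p G // (P : Subgroup G) ≤ H} => R.1.subtype R.2) ⟨?_, ?_⟩)).symm
    · intro R R' h
      exact Subtype.ext (Sylow.subtype_injective h)
    · intro Q
      obtain ⟨h, hh⟩ := MulAction.exists_smul_eq ↥H (P.subtype hP) Q
      refine ⟨⟨h • P, Sylow.smul_le hP h⟩, ?_⟩
      rw [← hh, Sylow.smul_subtype]
  rw [h2]
  exact h1

end Cfsg.Agent.S4181
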