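import Cfsg.Statements.S4182
import Mathlib
import Cfsg.Agent.Lib.H10CoverP

set_option autoImplicit false
open Cfsg

namespace Cfsg.Agent.S4182

/-- Let p be a prime and G a finite group generated by its p-elements. If a finite family of proper subgroups of G covers the set of p-elements of G (every element of p-power order lies in one of them), then the family has at least p + 1 members. -/
theorem result {G : Type*} [Group G] [Finite G] (p : ℕ) [Fact p.Prime] (hgen : Subgroup.closure {g : G | ∃ k : ℕ, orderOf g = p ^ k} = ⊤)
    {ι : Type*} [Fintype ι] (K : ι → Subgroup G) (hK : ∀ i, K i ≠ ⊤)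
    (hcov : ∀ g : G, (∃ k : ℕ, orderOf g = p ^ k) → ∃ i, g ∈ K i) :
    p + 1 ≤ Fintype.card ι := by
  classical
  have h := Cfsg.Agent.Lib.H10CoverP.main p _ rfl hgen (Finset.univ.image K) (by
    intro L hL
    obtain ⟨i, -, rfl⟩ := Finset.mem_image.mp hL
    exact hK i) (by
    intro g hg
    obtain ⟨i, hi⟩ := hcov g hg
    exact ⟨K i, Finset.mem_image_of_mem _ (Finset.mem_univ _), hi⟩)
  exact h.trans (Finset.card_image_le.trans (by rw [Finset.card_univ]))

end Cfsg.Agent.S4182
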