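import Cfsg.Statements.S4184
import Cfsg.Agent.Lib.H70Basic

set_option autoImplicit false
open Cfsg

namespace Cfsg.Agent.S4184

open Cfsg.Agent.Lib.H70Basic

/-- If the prime graph is disconnected through `A`, centralizer orders of nontrivial elements are `A`-numbers or
`A'`-numbers. -/
theorem types {M : Type*} [Group M] [Finite M] (A : Set ℕ)
    (hA : ∀ a ∈ A, ∀ b ∉ A, a.Prime → b.Prime → a ∣ Nat.card M → b ∣ Nat.card M → ¬ ∃ x : M, orderOf x = a * b)
    (m : M) (hm : m ≠ 1) :
    (∀ q : ℕ, q.Prime → q ∣ Nat.card (Subgroup.centralizer ({m} : Set M)) → q ∈ A) ∨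
      (∀ q : ℕ, q.Prime → q ∣ Nat.card (Subgroup.centralizer ({m} : Set M)) → q ∉ A) := by
  classical
  by_contra hcon
  push Not at hcon
  obtain ⟨⟨b, hb, hbd, hbA⟩, ⟨a, ha, had, haA⟩⟩ := hcon
  have key : ∀ r s : ℕ, r.Prime → s.Prime → r ≠ s → r ∣ orderOf m →
      s ∣ Nat.card (Subgroup.centralizer ({m} : Set M)) → ∃ x : M, orderOf x = r * s := by
    intro r s hr hs hrs hrm hsc
    have : Fact s.Prime := ⟨hs⟩
    obtain ⟨c, hc⟩ := exists_prime_orderOf_dvd_card' s hsc
    have hc1 : orderOf (c : M) = s := by rw [← hc, Subgroup.orderOf_coe]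
    have hm' : orderOf (m ^ (orderOf m / r)) = r := orderOf_pow_orderOf_div (orderOf_pos m).ne' hrm
    refine ⟨m ^ (orderOf m / r) * c, ?_⟩
    have hcomm : Commute (m ^ (orderOf m / r)) (c : M) := by
      have : Commute (c : M) m := Subgroup.mem_centralizer_singleton_iff.1 c.2
      exact (this.symm).pow_left _
    rw [hcomm.orderOf_mul_eq_mul_orderOf_of_coprime, hm', hc1]
    rw [hm', hc1]
    exact (Nat.coprime_primes hr hs).2 hrs
  obtain ⟨r, hr, hrm⟩ := Nat.exists_prime_and_dvd (n := orderOf m) (by rwa [Ne, orderOf_eq_one_iff])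
  have hrM : r ∣ Nat.card M := hrm.trans (orderOf_dvd_natCard m)
  have hsub : ∀ s, s ∣ Nat.card (Subgroup.centralizer ({m} : Set M)) → s ∣ Nat.card M := fun s hs =>
    hs.trans (Subgroup.card_subgroup_dvd_card _)
  by_cases hrA : r ∈ A
  · exact hA r hrA b hbA hr hb hrM (hsub b hbd) (key r b hr hb (fun h => hbA (h ▸ hrA)) hrm hbd)
  · refine hA a haA r hrA ha hr (hsub a had) hrM ?_
    rw [mul_comm]
    exact key r a hr ha (fun h => hrA (h ▸ haA)) hrm had

theorem main {G M : Type*}
    [Group G] [Finite G] [Group M] [Finite M] (hZG : Subgroup.center G = ⊥)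
    (h : Set.range (fun g : G => (Subgroup.centralizer ({g} : Set G)).index) = Set.range (fun g : M => (Subgroup.centralizer ({g} : Set M)).index))
    (B : Set ℕ) (k : ℕ) (hk : Nat.card G = k * Nat.card M) (r : ℕ) (hr : r.Prime) (hrk : r ∣ k) (hrB : r ∈ B)
    (b : ℕ) (hb : b.Prime) (hbM : b ∣ Nat.card M) (hbB : b ∉ B)
    (htypes : ∀ m : M, m ≠ 1 → (∀ q : ℕ, q.Prime → q ∣ Nat.card (Subgroup.centralizer ({m} : Set M)) → q ∈ B) ∨
      (∀ q : ℕ, q.Prime → q ∣ Nat.card (Subgroup.centralizer ({m} : Set M)) → q ∉ B)) : False := by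
  classical
  have : Fact r.Prime := ⟨hr⟩
  have : Fact b.Prime := ⟨hb⟩
  have hk0 : 0 < k := by
    rcases Nat.eq_zero_or_pos k with h0 | h0
    · rw [h0, zero_mul] at hk
      exact absurd hk Nat.card_pos.ne'
    · exact h0
  -- the centralizer orders in G
  have hcent : ∀ g : G, g ≠ 1 → ∃ c : ℕ, 1 < c ∧ Nat.card (Subgroup.centralizer ({g} : Set G)) = k * c ∧
      ((Subgroup.centralizer ({g} : Set G)).index * c = Nat.card M) ∧
      ((∀ q : ℕ, q.Prime → q ∣ c → q ∈ B) ∨ (∀ q : ℕ, q.Prime → q ∣ c → q ∉ B)) := by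
    intro g hg
    have : (Subgroup.centralizer ({g} : Set G)).index ∈ Set.range (fun g : M => (Subgroup.centralizer ({g} : Set M)).index) := by
      rw [← h]; exact ⟨g, rfl⟩
    obtain ⟨m, hm⟩ := this
    simp only at hm
    have hm1 : m ≠ 1 := by
      rintro rfl
      have h1 : Subgroup.centralizer ({(1:M)} : Set M) = ⊤ := by
        rw [eq_top_iff]; intro x _
        rw [Subgroup.mem_centralizer_singleton_iff]; simp
      rw [h1, Subgroup.index_top] at hm
      have h2 : Subgroup.centralizer ({g} : Set G) = ⊤ := Subgroup.index_eq_one.1 hm.symm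
      apply hg
      have h3 : g ∈ Subgroup.center G := by
        rw [Subgroup.mem_center_iff]
        intro x
        have : x ∈ Subgroup.centralizer ({g} : Set G) := by rw [h2]; trivial
        exact Subgroup.mem_centralizer_singleton_iff.1 this
      rw [hZG, Subgroup.mem_bot] at h3
      exact h3
    have e1 := (Subgroup.centralizer ({g} : Set G)).card_mul_index
    have e2 := (Subgroup.centralizer ({m} : Set M)).card_mul_index
    refine ⟨Nat.card (Subgroup.centralizer ({m} : Set M)), ?_, ?_, ?_, htypes m hm1⟩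
    · rw [Finite.one_lt_card_iff_nontrivial]
      refine ⟨⟨⟨m, ?_⟩, 1, ?_⟩⟩
      · rw [Subgroup.mem_centralizer_singleton_iff]
      · intro h
        exact hm1 (congrArg Subtype.val h)
    · rw [hm] at e2
      have hi : 0 < (Subgroup.centralizer ({g} : Set G)).index :=
        Nat.pos_of_ne_zero Subgroup.FiniteIndex.index_ne_zero
      apply Nat.eq_of_mul_eq_mul_right hi
      rw [e1, hk, ← e2]
      ring
    · rw [← hm, mul_comm]; exact e2
  -- r divides |M|
  have hrG : r ∣ Nat.card G := by rw [hk]; exact Dvd.dvd.mul_right hrk _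
  have hcop : ∀ {p : ℕ} [Fact p.Prime] (R : Sylow p G) (z : G), (∀ x ∈ (R : Subgroup G), Commute x z) →
      ¬ p ∣ (Subgroup.centralizer ({z} : Set G)).index := by
    intro p _ R z hz hd
    have hle : (R : Subgroup G) ≤ Subgroup.centralizer ({z} : Set G) := by
      intro x hx
      rw [Subgroup.mem_centralizer_singleton_iff]
      exact hz x hx
    exact R.not_dvd_index (hd.trans (Subgroup.index_dvd_of_le hle))
  have hrM : r ∣ Nat.card M := by
    by_contra hrM
    obtain ⟨R⟩ : Nonempty (Sylow r G) := inferInstance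
    have hall : Subgroup.centralizer ((R : Subgroup G) : Set G) = ⊤ := by
      apply eq_top_of_forall_conj_mem
      intro g
      -- class size of g is prime to r
      have hnd : ¬ r ∣ (Subgroup.centralizer ({g} : Set G)).index := by
        by_cases hg : g = 1
        · subst hg
          have h1 : Subgroup.centralizer ({(1:G)} : Set G) = ⊤ := by
            rw [eq_top_iff]; intro x _
            rw [Subgroup.mem_centralizer_singleton_iff]; simp
          rw [h1, Subgroup.index_top]
          exact hr.not_dvd_one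
        · obtain ⟨c, _, _, hc, _⟩ := hcent g hg
          intro hd
          exact hrM (hc ▸ hd.mul_right c)
      -- a Sylow subgroup of the centralizer is Sylow in G
      obtain ⟨T⟩ : Nonempty (Sylow r (Subgroup.centralizer ({g} : Set G))) := inferInstance
      have hTc : Nat.card ((T : Subgroup (Subgroup.centralizer ({g} : Set G))).map (Subgroup.subtype _)) = r ^ (Nat.card G).factorization r := by
        rw [card_sylow_map]
        congr 1
        rw [← (Subgroup.centralizer ({g} : Set G)).card_mul_index, Nat.factorization_mul Nat.card_pos.ne' Subgroup.FiniteIndex.index_ne_zero]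
        simp [Nat.factorization_eq_zero_of_not_dvd hnd]
      have hTop : Nat.card (⊤ : Subgroup G) = Nat.card G := Subgroup.card_top
      obtain ⟨s, _, hs⟩ := sylow_conj_of_card (p := r) (⊤ : Subgroup G)
        ((T : Subgroup (Subgroup.centralizer ({g} : Set G))).map (Subgroup.subtype _)) (R : Subgroup G) le_top le_top
        (by rw [hTop]; exact hTc) (by rw [hTop]; exact R.card_eq_multiplicity)
      refine ⟨s, ?_⟩
      rw [Subgroup.mem_centralizer_iff]
      intro x hx
      have hx' : x ∈ (R : Subgroup G) := hx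
      rw [← hs] at hx'
      obtain ⟨y, hy, hyx⟩ := hx'
      obtain ⟨w, _, hw⟩ := hy
      have hy2 : y ∈ Subgroup.centralizer ({g} : Set G) := hw ▸ w.2
      rw [Subgroup.mem_centralizer_singleton_iff] at hy2
      have hyx' : s * y * s⁻¹ = x := hyx
      rw [← hyx']
      calc s * y * s⁻¹ * (s * g * s⁻¹) = s * (y * g) * s⁻¹ := by group
        _ = s * (g * y) * s⁻¹ := by rw [hy2]
        _ = s * g * s⁻¹ * (s * y * s⁻¹) := by group
    obtain ⟨z, hz, hz1, hzc⟩ := exists_central_of_sylow hrG R
    apply hz1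
    have : z ∈ Subgroup.center G := by
      rw [Subgroup.mem_center_iff]
      intro g
      have : g ∈ Subgroup.centralizer ((R : Subgroup G) : Set G) := by rw [hall]; trivial
      exact (Subgroup.mem_centralizer_iff.1 this z hz).symm
    rw [hZG, Subgroup.mem_bot] at this
    exact this
  -- central elements of Sylow r-subgroups are of type B
  have hzB : ∀ (R : Sylow r G) (z : G), z ≠ 1 → (∀ x ∈ (R : Subgroup G), Commute x z) →
      ∀ c : ℕ, Nat.card (Subgroup.centralizer ({z} : Set G)) = k * c → ∀ q : ℕ, q.Prime → q ∣ c → q ∈ B := by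
    intro R z hz1 hz c hc
    obtain ⟨c', _, hc', hi, ht⟩ := hcent z hz1
    have hcc : c = c' := Nat.eq_of_mul_eq_mul_left hk0 (hc.symm.trans hc')
    subst hcc
    have hrc : r ∣ c := by
      have h1 : r ∣ (Subgroup.centralizer ({z} : Set G)).index * c := by rw [hi]; exact hrM
      exact (hr.dvd_mul.1 h1).resolve_left (hcop R z hz)
    rcases ht with ht | ht
    · exact ht
    · exact absurd hrB (ht r hr hrc)
  -- the element y
  have hbG : b ∣ Nat.card G := by rw [hk]; exact Dvd.dvd.mul_left hbM _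
  obtain ⟨S⟩ : Nonempty (Sylow b G) := inferInstance
  obtain ⟨y, hyS, hy1, hyc⟩ := exists_central_of_sylow hbG S
  obtain ⟨cy, hcy1, hcy, hiy, hty⟩ := hcent y hy1
  have hbcy : b ∣ cy := by
    have h1 : b ∣ (Subgroup.centralizer ({y} : Set G)).index * cy := by rw [hiy]; exact hbM
    exact (hb.dvd_mul.1 h1).resolve_left (hcop S y hyc)
  have hty' : ∀ q : ℕ, q.Prime → q ∣ cy → q ∉ B := by
    rcases hty with ht | ht
    · exact absurd (ht b hb hbcy) hbB
    · exact ht
  obtain ⟨j, hj⟩ := (IsPGroup.iff_orderOf.1 S.isPGroup') ⟨y, hyS⟩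
  rw [Subgroup.orderOf_mk] at hj
  have hrb : r ≠ b := fun h => hbB (h ▸ hrB)
  -- the element z'
  obtain ⟨z', hz'⟩ := exists_prime_orderOf_dvd_card' (G := Subgroup.centralizer ({y} : Set G)) r
    (by rw [hcy]; exact hrk.mul_right _)
  have hz'o : orderOf (z' : G) = r := by rw [← hz', Subgroup.orderOf_coe]
  have hz'1 : (z' : G) ≠ 1 := by
    intro h0; rw [h0, orderOf_one] at hz'o; exact hr.one_lt.ne hz'o
  have hz'y : Commute (z' : G) y := Subgroup.mem_centralizer_singleton_iff.1 z'.2
  have hcopo : ∀ n : ℕ, (r ^ n).Coprime (b ^ j) := fun n =>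
    Nat.Coprime.pow _ _ ((Nat.coprime_primes hr hb).2 hrb)
  have hC : Subgroup.centralizer ({(z' : G) * y} : Set G) = Subgroup.centralizer ({(z' : G)} : Set G) ⊓ Subgroup.centralizer ({y} : Set G) := by
    apply centralizer_mul_of_coprime hz'y
    rw [hz'o, hj]
    simpa using hcopo 1
  have hzy1 : (z' : G) * y ≠ 1 := by
    intro h0
    have h1 : (z' : G) = y⁻¹ := eq_inv_of_mul_eq_one_left h0
    have h2 : orderOf (z' : G) = orderOf y := by rw [h1, orderOf_inv]
    have h3 := hcopo 1
    rw [pow_one, ← hj, ← h2, hz'o] at h3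
    exact hr.one_lt.ne' ((Nat.coprime_self r).1 h3)
  obtain ⟨c1, hc11, hc1, _, ht1⟩ := hcent _ hzy1
  obtain ⟨c2, hc21, hc2, _, ht2⟩ := hcent _ hz'1
  have hdvd1 : c1 ∣ cy := by
    have : Nat.card (Subgroup.centralizer ({(z' : G) * y} : Set G)) ∣ Nat.card (Subgroup.centralizer ({y} : Set G)) := by
      rw [hC]; exact Subgroup.card_dvd_of_le inf_le_right
    rw [hc1, hcy] at this
    exact Nat.dvd_of_mul_dvd_mul_left hk0 this
  have hdvd2 : c1 ∣ c2 := by
    have : Nat.card (Subgroup.centralizer ({(z' : G) * y} : Set G)) ∣ Nat.card (Subgroup.centralizer ({(z' : G)} : Set G)) := by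
      rw [hC]; exact Subgroup.card_dvd_of_le inf_le_left
    rw [hc1, hc2] at this
    exact Nat.dvd_of_mul_dvd_mul_left hk0 this
  have ht2' : ∀ q : ℕ, q.Prime → q ∣ c2 → q ∉ B := by
    rcases ht2 with ht | ht
    · obtain ⟨q, hq, hqc⟩ := Nat.exists_prime_and_dvd hc11.ne'
      exact absurd (ht q hq (hqc.trans hdvd2)) (hty' q hq (hqc.trans hdvd1))
    · exact ht
  have hfac : ∀ c, (∀ q : ℕ, q.Prime → q ∣ c → q ∉ B) → 1 < c → (k * c).factorization r = k.factorization r := by
    intro c hc h1
    rw [Nat.factorization_mul hk0.ne' (by omega)]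
    have : ¬ r ∣ c := fun hd => hc r hr hd hrB
    simp [Nat.factorization_eq_zero_of_not_dvd this]
  -- Sylow r-subgroup of C(z' y)
  obtain ⟨Q⟩ : Nonempty (Sylow r (Subgroup.centralizer ({(z' : G) * y} : Set G))) := inferInstance
  set Q' : Subgroup G := (Q : Subgroup (Subgroup.centralizer ({(z' : G) * y} : Set G))).map (Subgroup.subtype _) with hQ'
  have hQle : Q' ≤ Subgroup.centralizer ({(z' : G) * y} : Set G) := Subgroup.map_subtype_le _
  have hQc : Nat.card Q' = r ^ (Nat.card (Subgroup.centralizer ({(z' : G)} : Set G))).factorization r := by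
    rw [hQ', card_sylow_map, hc1, hc2, hfac c1 (fun q hq hd => ht2' q hq (hd.trans hdvd2)) hc11, hfac c2 ht2' hc21]
  -- Sylow subgroup R containing z'
  have hz'p : IsPGroup r (Subgroup.zpowers (z' : G)) := by
    apply IsPGroup.of_card (n := 1)
    rw [Nat.card_zpowers, hz'o, pow_one]
  obtain ⟨R, hR⟩ := hz'p.exists_le_sylow
  have hz'R : (z' : G) ∈ (R : Subgroup G) := hR (Subgroup.mem_zpowers _)
  obtain ⟨z, hzR, hz1, hzc⟩ := exists_central_of_sylow hrG R
  obtain ⟨i, hi⟩ := (IsPGroup.iff_orderOf.1 R.isPGroup') ⟨z, hzR⟩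
  rw [Subgroup.orderOf_mk] at hi
  have hzp : IsPGroup r (Subgroup.zpowers z) := by
    apply IsPGroup.of_card (n := i)
    rw [Nat.card_zpowers, hi]
  have hzle : Subgroup.zpowers z ≤ Subgroup.centralizer ({(z' : G)} : Set G) := by
    rw [Subgroup.zpowers_le, Subgroup.mem_centralizer_singleton_iff]
    exact (hzc z' hz'R).symm
  obtain ⟨s, hs, hsQ⟩ := pgroup_conj_le_of_card (p := r) (Subgroup.centralizer ({(z' : G)} : Set G)) (Subgroup.zpowers z) Q' hzle
    (hQle.trans (by rw [hC]; exact inf_le_left)) hzp hQc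
  -- s z s⁻¹ commutes with y
  have hcomm : Commute (s * z * s⁻¹) y := by
    have h1 : s * z * s⁻¹ ∈ Q' := hsQ ⟨z, Subgroup.mem_zpowers z, rfl⟩
    have h2 := hQle h1
    rw [hC] at h2
    exact Subgroup.mem_centralizer_singleton_iff.1 (Subgroup.mem_inf.1 h2).2
  -- now w = s z s⁻¹ 
  set w := s * z * s⁻¹ with hw
  have hconj : Nat.card (Subgroup.centralizer ({w} : Set G)) = Nat.card (Subgroup.centralizer ({z} : Set G)) := by
    have : Subgroup.centralizer ({w} : Set G) = (Subgroup.centralizer ({z} : Set G)).map (MulAut.conj s).toMonoidHom := by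
      ext g
      rw [Subgroup.mem_centralizer_singleton_iff]
      constructor
      · intro hg
        refine ⟨s⁻¹ * g * s, ?_, ?_⟩
        · rw [SetLike.mem_coe, Subgroup.mem_centralizer_singleton_iff]
          calc s⁻¹ * g * s * z = s⁻¹ * (g * w) * s := by rw [hw]; group
            _ = s⁻¹ * (w * g) * s := by rw [hg]
            _ = z * (s⁻¹ * g * s) := by rw [hw]; group
        · change s * (s⁻¹ * g * s) * s⁻¹ = g
          group
      · rintro ⟨g', hg', rfl⟩
        rw [SetLike.mem_coe, Subgroup.mem_centralizer_singleton_iff] at hg'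
        change s * g' * s⁻¹ * w = w * (s * g' * s⁻¹)
        calc s * g' * s⁻¹ * w = s * (g' * z) * s⁻¹ := by rw [hw]; group
          _ = s * (z * g') * s⁻¹ := by rw [hg']
          _ = w * (s * g' * s⁻¹) := by rw [hw]; group
    rw [this]
    exact Nat.card_congr ((Subgroup.centralizer ({z} : Set G)).equivMapOfInjective _ (MulAut.conj s).injective).toEquiv.symm
  have hw1 : w ≠ 1 := by
    intro h0
    apply hz1
    have : z = s⁻¹ * w * s := by rw [hw]; group
    rw [this, h0]; group
  have hwo : orderOf w = r ^ i := by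
    rw [← hi]
    exact (orderOf_injective (MulAut.conj s).toMonoidHom (MulAut.conj s).injective z)
  have hC2 : Subgroup.centralizer ({w * y} : Set G) = Subgroup.centralizer ({w} : Set G) ⊓ Subgroup.centralizer ({y} : Set G) := by
    apply centralizer_mul_of_coprime hcomm
    rw [hwo, hj]
    exact hcopo i
  have hwy1 : w * y ≠ 1 := by
    intro h0
    have h1 : w = y⁻¹ := eq_inv_of_mul_eq_one_left h0
    have h2 : orderOf w = orderOf y := by rw [h1, orderOf_inv]
    have h3 := hcopo i
    rw [← hj, ← h2, hwo, Nat.coprime_self] at h3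
    rw [h3, orderOf_eq_one_iff] at hwo
    exact hw1 hwo
  obtain ⟨c3, hc31, hc3, _, _⟩ := hcent _ hwy1
  obtain ⟨c4, hc41, hc4, _, _⟩ := hcent _ hw1
  obtain ⟨q, hq, hqc⟩ := Nat.exists_prime_and_dvd hc31.ne'
  have hd4 : c3 ∣ c4 := by
    have : Nat.card (Subgroup.centralizer ({w * y} : Set G)) ∣ Nat.card (Subgroup.centralizer ({w} : Set G)) := by
      rw [hC2]; exact Subgroup.card_dvd_of_le inf_le_left
    rw [hc3, hc4] at this
    exact Nat.dvd_of_mul_dvd_mul_left hk0 this
  have hdy : c3 ∣ cy := by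
    have : Nat.card (Subgroup.centralizer ({w * y} : Set G)) ∣ Nat.card (Subgroup.centralizer ({y} : Set G)) := by
      rw [hC2]; exact Subgroup.card_dvd_of_le inf_le_right
    rw [hc3, hcy] at this
    exact Nat.dvd_of_mul_dvd_mul_left hk0 this
  rw [hconj] at hc4
  exact hty' q hq (hqc.trans hdy) (hzB R z hz1 hzc c4 hc4 q hq (hqc.trans hd4))

/-- Let G and M be finite groups with trivial centres and the same set of conjugacy class sizes, and suppose the prime graph of M is disconnected: the prime divisors of #M split into two non-empty parts such that M has no element of order pq with p in one part and q in the other. Then #G = #M. -/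
theorem result {G M : Type*}
    [Group G] [Finite G] [Group M] [Finite M] (hZG : Subgroup.center G = ⊥) (hZM : Subgroup.center M = ⊥)
    (h : Set.range (fun g : G => (Subgroup.centralizer ({g} : Set G)).index) = Set.range (fun g : M => (Subgroup.centralizer ({g} : Set M)).index))
    (hdisc : ∃ A : Set ℕ, (∃ a ∈ A, a.Prime ∧ a ∣ Nat.card M) ∧ (∃ b ∉ A, b.Prime ∧ b ∣ Nat.card M) ∧
      ∀ a ∈ A, ∀ b ∉ A, a.Prime → b.Prime → a ∣ Nat.card M → b ∣ Nat.card M → ¬ ∃ x : M, orderOf x = a * b) :
    Nat.card G = Nat.card M := by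
  classical
  obtain ⟨A, ⟨a, haA, ha, haM⟩, ⟨b, hbA, hb, hbM⟩, hA⟩ := hdisc
  have htypes := types A hA
  -- for each prime p there is an element with centralizer of order prime to p
  have hex : ∀ p : ℕ, p.Prime → ∃ x : M, ¬ p ∣ Nat.card (Subgroup.centralizer ({x} : Set M)) := by
    intro p hp
    have aux : ∀ s : ℕ, s.Prime → s ∣ Nat.card M → ∃ x : M, x ≠ 1 ∧ s ∣ Nat.card (Subgroup.centralizer ({x} : Set M)) := by
      intro s hs hsM
      have : Fact s.Prime := ⟨hs⟩
      obtain ⟨x, hx⟩ := exists_prime_orderOf_dvd_card' (G := M) s hsM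
      refine ⟨x, ?_, ?_⟩
      · rintro rfl
        rw [orderOf_one] at hx
        exact hs.one_lt.ne hx
      · have hx' : x ∈ Subgroup.centralizer ({x} : Set M) := by
          rw [Subgroup.mem_centralizer_singleton_iff]
        have := orderOf_dvd_natCard (⟨x, hx'⟩ : Subgroup.centralizer ({x} : Set M))
        rwa [Subgroup.orderOf_mk, hx] at this
    by_cases hpA : p ∈ A
    · obtain ⟨x, hx1, hx⟩ := aux b hb hbM
      refine ⟨x, fun hd => ?_⟩
      rcases htypes x hx1 with ht | ht
      · exact hbA (ht b hb hx)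
      · exact ht p hp hd hpA
    · obtain ⟨x, hx1, hx⟩ := aux a ha haM
      refine ⟨x, fun hd => ?_⟩
      rcases htypes x hx1 with ht | ht
      · exact hpA (ht p hp hd)
      · exact ht a ha hx haA
  have hdvd : Nat.card M ∣ Nat.card G := by
    rw [← Nat.factorization_prime_le_iff_dvd Nat.card_pos.ne' Nat.card_pos.ne']
    intro p hp
    obtain ⟨x, hx⟩ := hex p hp
    have hxr : (Subgroup.centralizer ({x} : Set M)).index ∈ Set.range (fun g : G => (Subgroup.centralizer ({g} : Set G)).index) := by
      rw [h]; exact ⟨x, rfl⟩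
    obtain ⟨g, hg⟩ := hxr
    simp only at hg
    have h1 : (Nat.card M).factorization p = ((Subgroup.centralizer ({x} : Set M)).index).factorization p := by
      rw [← (Subgroup.centralizer ({x} : Set M)).card_mul_index, Nat.factorization_mul Nat.card_pos.ne' Subgroup.FiniteIndex.index_ne_zero]
      simp [Nat.factorization_eq_zero_of_not_dvd hx]
    rw [h1, ← hg]
    exact (Nat.factorization_le_iff_dvd Subgroup.FiniteIndex.index_ne_zero Nat.card_pos.ne').2 (Subgroup.index_dvd_card _) p
  obtain ⟨k, hk⟩ := hdvd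
  rw [mul_comm] at hk
  by_cases hk1 : k = 1
  · rw [hk, hk1, one_mul]
  exfalso
  obtain ⟨r, hr, hrk⟩ := Nat.exists_prime_and_dvd hk1
  by_cases hrA : r ∈ A
  · exact main hZG h A k hk r hr hrk hrA b hb hbM hbA htypes
  · refine main hZG h Aᶜ k hk r hr hrk hrA a ha haM (fun h => h haA) ?_
    intro m hm
    rcases htypes m hm with ht | ht
    · right
      intro q hq hd hq'
      exact hq' (ht q hq hd)
    · left
      exact ht

end Cfsg.Agent.S4184
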