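import Cfsg.Statements.S4186

set_option autoImplicit false
open Cfsg

namespace Cfsg.Agent.S4186

/-- Let T and X be subgroups of a group with T a finite 2-group normalizing X but not centralizing it. Then some element of T inverts some non-identity element of X under conjugation. -/
theorem result {G : Type*} [Group G] (T X : Subgroup G) [Finite ↥T] (hT : IsPGroup 2 ↥T) (hTN : T ≤ Subgroup.normalizer (X : Set G)) (hTC : ¬ T ≤ Subgroup.centralizer (X : Set G)) : ∃ t ∈ T, ∃ x ∈ X, x ≠ 1 ∧ t * x * t⁻¹ = x⁻¹ := by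
  classical
  -- choose t0 in T not centralizing
  obtain ⟨t0, ht0, hnc⟩ : ∃ t ∈ T, t ∉ Subgroup.centralizer (X : Set G) := by
    by_contra hcon
    push Not at hcon
    exact hTC hcon
  obtain ⟨k, hk⟩ := hT ⟨t0, ht0⟩
  have hk' : t0 ^ 2 ^ k = 1 := by
    have := congrArg Subtype.val hk
    simpa using this
  -- the least n with t0^(2^n) in the centralizer
  have hex : ∃ n, t0 ^ 2 ^ n ∈ Subgroup.centralizer (X : Set G) := ⟨k, by rw [hk']; exact one_mem _⟩
  let n := Nat.find hex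
  have hn : t0 ^ 2 ^ n ∈ Subgroup.centralizer (X : Set G) := Nat.find_spec hex
  have hn0 : n ≠ 0 := by
    intro h0
    apply hnc
    have := hn
    rw [h0] at this
    simpa using this
  obtain ⟨m, hm⟩ := Nat.exists_eq_succ_of_ne_zero hn0
  have hmn : t0 ^ 2 ^ m ∉ Subgroup.centralizer (X : Set G) := by
    apply Nat.find_min hex
    omega
  set t := t0 ^ 2 ^ m with ht
  have htT : t ∈ T := pow_mem ht0 _
  have ht2 : t ^ 2 ∈ Subgroup.centralizer (X : Set G) := by
    have : t ^ 2 = t0 ^ 2 ^ n := by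
      rw [ht, ← pow_mul, hm, Nat.pow_succ]
    rw [this]; exact hn
  obtain ⟨x, hx, hxt⟩ : ∃ x ∈ X, t * x * t⁻¹ ≠ x := by
    by_contra hcon
    push Not at hcon
    apply hmn
    rw [Subgroup.mem_centralizer_iff]
    intro x hx
    have := hcon x hx
    rw [mul_inv_eq_iff_eq_mul] at this
    exact this.symm
  have htx : t * x * t⁻¹ ∈ X := (Subgroup.mem_normalizer_iff.1 (hTN htT) x).1 hx
  refine ⟨t, htT, x⁻¹ * (t * x * t⁻¹), X.mul_mem (X.inv_mem hx) htx, ?_, ?_⟩
  · intro h1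
    apply hxt
    rw [inv_mul_eq_one] at h1
    exact h1.symm
  · have h2 : t ^ 2 * x = x * t ^ 2 := (Subgroup.mem_centralizer_iff.1 ht2 x hx).symm
    have h3 : t * t * x * t⁻¹ * t⁻¹ = x := by
      rw [← pow_two, h2]
      group
    calc t * (x⁻¹ * (t * x * t⁻¹)) * t⁻¹ = t * x⁻¹ * t⁻¹ * (t * t * x * t⁻¹ * t⁻¹) := by group
      _ = t * x⁻¹ * t⁻¹ * x := by rw [h3]
      _ = (x⁻¹ * (t * x * t⁻¹))⁻¹ := by group

end Cfsg.Agent.S4186
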