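import Mathlib
import Cfsg.Statements.S4188
import Cfsg.Agent.Lib.H70TwoLin
import Cfsg.Agent.Lib.MinNormSolv

set_option autoImplicit false
open Cfsg

namespace Cfsg.Agent.S4188

/-- Let G be a finite group that is the semidirect product of a normal abelian subgroup N of odd order by a 2-subgroup P, and suppose N is the unique minimal normal subgroup of G. Then the index of the Frattini subgroup of P in P is at most #N − 1. -/
theorem result {G : Type*} [Group G] [Finite G] (N P : Subgroup G) (hN : N.Normal) (hNab : IsMulCommutative ↥N) (hNodd : Odd (Nat.card ↥N)) (hP : IsPGroup 2 ↥P) (hdisj : N ⊓ P = ⊥) (hprod : N ⊔ P = ⊤) (hmin : N ≠ ⊥ ∧ ∀ M : Subgroup G, M.Normal → M ≠ ⊥ → N ≤ M) : (frattini ↥P).index ≤ Nat.card ↥N - 1 := by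
  have hNmin : ∀ K : Subgroup G, K.Normal → K ≤ N → K = ⊥ ∨ K = N := by
    intro K hK hKN
    by_cases h : K = ⊥
    · exact Or.inl h
    · exact Or.inr (le_antisymm hKN (hmin.2 K hK h))
  let _ : CommGroup N := { (inferInstance : Group N) with mul_comm := hNab.is_comm.comm }
  have hsol : Group.IsSolvable N := inferInstance
  obtain ⟨p, hp, -, hNp⟩ := Cfsg.Agent.Lib.MinNormSolv.elementary_of_minimal hmin.1 hNmin
  obtain ⟨d, hd, hcN⟩ := Cfsg.Agent.Lib.MinNormSolv.card_eq_prime_pow hmin.1 hp hNp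
  have hp2 : p ≠ 2 := by
    rintro rfl
    rw [hcN] at hNodd
    exact (Nat.not_odd_iff_even.2 ((Nat.even_pow).2 ⟨even_two, hd.ne'⟩)) hNodd
  have hC : (P ⊓ Subgroup.centralizer (N : Set G)).Normal := by
    constructor
    intro c hc g
    have hg : g ∈ N ⊔ P := by rw [hprod]; exact Subgroup.mem_top g
    obtain ⟨n, hn, q, hq, rfl⟩ := Subgroup.mem_sup_of_normal_left.1 hg
    have hc2 : q * c * q⁻¹ ∈ P ⊓ Subgroup.centralizer (N : Set G) := by
      refine Subgroup.mem_inf.2 ⟨mul_mem (mul_mem hq (Subgroup.mem_inf.1 hc).1) (inv_mem hq), ?_⟩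
      exact (inferInstance : (Subgroup.centralizer (N : Set G)).Normal).conj_mem _ (Subgroup.mem_inf.1 hc).2 q
    have hc3 : n * (q * c * q⁻¹) = (q * c * q⁻¹) * n := Subgroup.mem_centralizer_iff.1 (Subgroup.mem_inf.1 hc2).2 n hn
    have h1 : n * q * c * (n * q)⁻¹ = n * (q * c * q⁻¹) * n⁻¹ := by group
    rw [h1, hc3, mul_inv_cancel_right]
    exact hc2
  have hCbot : P ⊓ Subgroup.centralizer (N : Set G) = ⊥ := by
    by_contra h
    have h1 := hmin.2 _ hC h
    apply hmin.1
    rw [eq_bot_iff, ← hdisj]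
    exact le_inf le_rfl (h1.trans inf_le_left)
  have hφ : Function.Injective ((MulAut.conjNormal (H := N)).comp P.subtype) := by
    rw [injective_iff_map_eq_one]
    intro q hq
    have h1 : (q : G) ∈ P ⊓ Subgroup.centralizer (N : Set G) := by
      refine Subgroup.mem_inf.2 ⟨q.2, ?_⟩
      rw [Subgroup.mem_centralizer_iff]
      intro n hn
      have h2 : (((MulAut.conjNormal (H := N)).comp P.subtype) q ⟨n, hn⟩ : N) = ⟨n, hn⟩ := by rw [hq]; rfl
      have h3 : (q : G) * n * (q : G)⁻¹ = n := congrArg Subtype.val h2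
      rw [mul_inv_eq_iff_eq_mul] at h3
      exact h3.symm
    rw [hCbot, Subgroup.mem_bot] at h1
    exact Subtype.ext h1
  have hmain := Cfsg.Agent.Lib.H70TwoLin.main hp hp2 d N hcN hd (fun v => Subtype.ext (hNp v v.2)) P hP _ hφ
  have hle := Cfsg.Agent.Lib.H70TwoLin.index_frattini_le hP
  refine hle.trans ?_
  rw [hcN]
  apply Nat.le_sub_one_of_lt
  by_cases h3 : p = 3
  · have h4 := hmain.2 h3
    rw [h3]
    by_contra hcon
    push Not at hcon
    have h5 : (3 ^ d) ^ 2 ≤ (Cfsg.Agent.Lib.H70TwoLin.e P) ^ 2 := Nat.pow_le_pow_left hcon 2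
    have h6 : 8 ^ d ≤ 9 ^ d := Nat.pow_le_pow_left (by norm_num) d
    have h7 : (3 ^ d) ^ 2 = 9 ^ d := by rw [← pow_mul, mul_comm, pow_mul]; norm_num
    have h8 : 0 < 9 ^ d := by positivity
    omega
  · have h5 : 4 ≤ p := by
      have := hp.two_le
      omega
    have h4 := hmain.1
    have h6 : 4 ^ d ≤ p ^ d := Nat.pow_le_pow_left h5 d
    have h7 : 0 < 4 ^ d := by positivity
    omega

end Cfsg.Agent.S4188
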