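import Mathlib
import Cfsg.Statements.S4207
import Cfsg.Agent.Lib.H70Frattini
import Cfsg.Agent.S4208

set_option autoImplicit false
open Cfsg

namespace Cfsg.Agent.S4207

open Cfsg.Agent.Lib.H70Frattini

/-- Let `P` be a group of order `p^n` whose Frattini subgroup has index `p^r`. Then any group of automorphisms of `P` each of which induces the identity on the Frattini quotient has order dividing `p^(r(n-r))`; in particular it is a `p`-group. -/
theorem result {P : Type*} [Group P] [Finite P] {p n r : ℕ} [Fact p.Prime] (hP : Nat.card P = p ^ n) (hr : (frattini P).index = p ^ r) (A : Subgroup (MulAut P)) (hA : ∀ α ∈ A, ∀ x : P, α x * x⁻¹ ∈ frattini P) : Nat.card A ∣ p ^ (r * (n - r)) := by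
  classical
  have hPp : IsPGroup p P := IsPGroup.of_card hP
  have hcard : Nat.card (frattini P) = p ^ (n - r) := by
    have h1 := (frattini P).card_mul_index
    rw [hr, hP] at h1
    have hle : r ≤ n := by
      have : p ^ r ∣ p ^ n := Dvd.intro_left _ h1
      exact (Nat.pow_dvd_pow_iff_le_right (Fact.out : p.Prime).one_lt).1 this
    have h2 : p ^ n = p ^ (n - r) * p ^ r := by rw [← pow_add]; congr 1; omega
    rw [h2] at h1
    exact Nat.eq_of_mul_eq_mul_right (pow_pos (Fact.out : p.Prime).pos _) h1
  have hcom : IsMulCommutative (P ⧸ frattini P) :=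
    Subgroup.Normal.quotient_commutative_iff_commutator_le.2 (commutator_le_frattini hPp)
  let _ : CommGroup (P ⧸ frattini P) := { (inferInstance : Group (P ⧸ frattini P)) with mul_comm := fun a b => mul_comm' a b }
  have hexp : ∀ v : P ⧸ frattini P, v ^ p = 1 := by
    intro v
    induction v using QuotientGroup.induction_on with
    | H x =>
      rw [← QuotientGroup.mk_pow, QuotientGroup.eq_one_iff]
      exact pow_mem_frattini hPp x
  have hgen := card_generating_tuples (V := P ⧸ frattini P) (p := p) (r := r) hr hexp
  -- a generating tuple exists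
  have hne : Nonempty {t : Fin r → P ⧸ frattini P // Subgroup.closure (Set.range t) = ⊤} := by
    have hpos : 0 < Nat.card {t : Fin r → P ⧸ frattini P // Subgroup.closure (Set.range t) = ⊤} := by
      rw [hgen]
      apply Finset.prod_pos
      intro i hi
      rw [Finset.mem_range] at hi
      exact Nat.sub_pos_of_lt (Nat.pow_lt_pow_right (Fact.out : p.Prime).one_lt hi)
    exact (Nat.card_pos_iff.1 hpos).1
  obtain ⟨s, hs⟩ := hne
  have hS := card_tuples (frattini P) r {s}
  -- the set of lifts
  let X : Type _ := {t : Fin r → P // (fun i => (QuotientGroup.mk (t i) : P ⧸ frattini P)) ∈ ({s} : Set (Fin r → P ⧸ frattini P))}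
  have hXc : Nat.card X = p ^ (r * (n - r)) := by
    change Nat.card {t : Fin r → P // (fun i => (QuotientGroup.mk (t i) : P ⧸ frattini P)) ∈ ({s} : Set (Fin r → P ⧸ frattini P))} = _
    rw [hS, hcard, ← pow_mul, mul_comm (n - r) r]
    simp
  let _ : MulAction A X :=
    { smul := fun α t => ⟨fun i => (α : MulAut P) (t.1 i), by
        have ht := t.2
        rw [Set.mem_singleton_iff] at ht ⊢
        refine Eq.trans ?_ ht
        funext i
        rw [eq_comm, QuotientGroup.eq]
        have h1 := hA α α.2 (t.1 i)
        have h2 : (t.1 i)⁻¹ * (α : MulAut P) (t.1 i) = (t.1 i)⁻¹ * ((α : MulAut P) (t.1 i) * (t.1 i)⁻¹) * (t.1 i)⁻¹⁻¹ := by group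
        rw [h2]
        exact Subgroup.Normal.conj_mem inferInstance _ h1 _⟩
      one_smul := fun _ => rfl
      mul_smul := fun _ _ _ => rfl }
  rw [← hXc]
  have : Finite X := Subtype.finite
  apply card_dvd_of_free
  intro α t hαt
  apply Subtype.ext
  have hgt : Subgroup.closure (Set.range t.1) = ⊤ := by
    have h1 : Subgroup.closure (Set.range (fun i => (QuotientGroup.mk (t.1 i) : P ⧸ frattini P))) = (Subgroup.closure (Set.range t.1)).map (QuotientGroup.mk' (frattini P)) := by
      rw [MonoidHom.map_closure, ← Set.range_comp]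
      rfl
    have ht := t.2
    rw [Set.mem_singleton_iff] at ht
    rw [ht, hs] at h1
    apply frattini_nongenerating
    rw [eq_top_iff]
    intro x _
    have hx : (QuotientGroup.mk' (frattini P)) x ∈ (Subgroup.closure (Set.range t.1)).map (QuotientGroup.mk' (frattini P)) := by
      rw [← h1]; trivial
    obtain ⟨y, hy, hyx⟩ := hx
    have : x = y * (y⁻¹ * x) := by group
    rw [this]
    apply Subgroup.mul_mem_sup hy
    rw [← QuotientGroup.eq]
    exact hyx
  apply Cfsg.Agent.S4208.free (r := r) (α : MulAut P) ⟨t.1, hgt⟩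
  apply Subtype.ext
  exact (congrArg Subtype.val hαt : (fun i => (α : MulAut P) (t.1 i)) = t.1)

end Cfsg.Agent.S4207
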