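import Mathlib
import Cfsg.Statements.S4189
import Cfsg.Agent.Lib.H70Frattini
import Cfsg.Agent.S4207

set_option autoImplicit false
open Cfsg

namespace Cfsg.Agent.S4189

open Cfsg.Agent.Lib.H70Frattini
open scoped commutatorElement

/-- `γ₃` of a group -/
abbrev g3 (Q : Type*) [Group Q] : Subgroup Q := ⁅commutator Q, (⊤ : Subgroup Q)⁆

/-- The class three computation. -/
theorem classThree {Q : Type*} [Group Q] (hcen : g3 Q ≤ Subgroup.center Q) (σ : Q ≃* Q) (a b t : Q)
    (hgen : Subgroup.closure {a, b} = ⊤) (ha2 : a ^ 2 ∈ commutator Q) (hσa : σ a = b)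
    (ht : t ∈ commutator Q) (hσb : σ b = a * b * t) : g3 Q = ⊥ := by
  set c := ⁅a, b⁆ with hc
  have hcen' : ∀ z ∈ g3 Q, ∀ g : Q, z * g = g * z := by
    intro z hz g
    exact (Subgroup.mem_center_iff.1 (hcen hz) g).symm
  have hcD : c ∈ commutator Q := Subgroup.commutator_mem_commutator (Subgroup.mem_top a) (Subgroup.mem_top b)
  have hDg : ∀ q ∈ commutator Q, ∀ g : Q, ⁅q, g⁆ ∈ g3 Q := fun q hq g =>
    Subgroup.commutator_mem_commutator hq (Subgroup.mem_top g)
  have hmul : ∀ g h : Q, ⁅c, g * h⁆ = ⁅c, g⁆ * ⁅c, h⁆ := by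
    intro g h
    have h1 := hcen' _ (hDg c hcD h)
    have : ⁅c, g * h⁆ = ⁅c, g⁆ * (g * ⁅c, h⁆ * g⁻¹) := by
      simp only [commutatorElement_def]; group
    rw [this, ← h1 g]; group
  -- c² ∈ γ₃
  have hc2 : c ^ 2 ∈ g3 Q := by
    have h1 : ⁅a ^ 2, b⁆ = ⁅a, c⁆ * c ^ 2 := by
      rw [hc]
      simp only [commutatorElement_def, pow_two]; group
    have h2 : ⁅a, c⁆ ∈ g3 Q := by
      rw [← commutatorElement_inv]
      exact Subgroup.inv_mem _ (hDg c hcD a)
    have h3 : c ^ 2 = ⁅a, c⁆⁻¹ * ⁅a ^ 2, b⁆ := by rw [h1]; group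
    rw [h3]
    exact Subgroup.mul_mem _ (Subgroup.inv_mem _ h2) (hDg _ ha2 b)
  -- elements of Q'
  have hD : ∀ q ∈ commutator Q, q ∈ g3 Q ∨ c⁻¹ * q ∈ g3 Q := by
    let S : Subgroup Q :=
      { carrier := {q | q ∈ g3 Q ∨ c⁻¹ * q ∈ g3 Q}
        one_mem' := Or.inl (Subgroup.one_mem _)
        mul_mem' := by
          intro x y hx hy
          rcases hx with hx | hx <;> rcases hy with hy | hy
          · left; exact Subgroup.mul_mem _ hx hy
          · right
            have : c⁻¹ * (x * y) = x * (c⁻¹ * y) := by rw [← mul_assoc, ← hcen' x hx c⁻¹, mul_assoc]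
            rw [this]; exact Subgroup.mul_mem _ hx hy
          · right
            have : c⁻¹ * (x * y) = (c⁻¹ * x) * y := by group
            rw [this]; exact Subgroup.mul_mem _ hx hy
          · left
            have : x * y = (c ^ 2) * ((c⁻¹ * x) * (c⁻¹ * y)) := by
              have h1 := hcen' _ hx c⁻¹
              calc x * y = c * c * (c⁻¹ * (c⁻¹ * x)) * y := by group
                _ = c * c * ((c⁻¹ * x) * c⁻¹) * y := by rw [h1]
                _ = _ := by rw [pow_two]; group
            rw [this]
            exact Subgroup.mul_mem _ hc2 (Subgroup.mul_mem _ hx hy)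
        inv_mem' := by
          intro x hx
          rcases hx with hx | hx
          · left; exact Subgroup.inv_mem _ hx
          · right
            have h1 := hcen' _ (Subgroup.inv_mem _ hx) c⁻¹
            have : c⁻¹ * x⁻¹ = (c ^ 2)⁻¹ * (c⁻¹ * x)⁻¹ := by
              calc c⁻¹ * x⁻¹ = c⁻¹ * ((c⁻¹ * x)⁻¹ * c⁻¹) := by group
                _ = c⁻¹ * (c⁻¹ * (c⁻¹ * x)⁻¹) := by rw [h1]
                _ = _ := by group
            rw [this]
            exact Subgroup.mul_mem _ (Subgroup.inv_mem _ hc2) (Subgroup.inv_mem _ hx) }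
    have hSn : S.Normal := by
      refine ⟨fun x hx g => ?_⟩
      have hxD : x ∈ commutator Q := by
        rcases hx with hx | hx
        · exact Subgroup.commutator_le_left _ _ hx
        · have : x = c * (c⁻¹ * x) := by group
          rw [this]
          exact Subgroup.mul_mem _ hcD (Subgroup.commutator_le_left _ _ hx)
      have h1 : g * x * g⁻¹ = x * ⁅x⁻¹, g⁆ := by
        simp only [commutatorElement_def]; group
      rw [h1]
      exact S.mul_mem hx (Or.inl (hDg _ (Subgroup.inv_mem _ hxD) g))
    have hcS : c ∈ S := Or.inr (by simp)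
    -- quotient by S is commutative
    have hle : commutator Q ≤ S := by
      rw [← Subgroup.Normal.quotient_commutative_iff_commutator_le]
      have hab : Commute (QuotientGroup.mk a : Q ⧸ S) (QuotientGroup.mk b) := by
        have : (QuotientGroup.mk c : Q ⧸ S) = 1 := (QuotientGroup.eq_one_iff c).2 hcS
        rw [← commutatorElement_eq_one_iff_commute]
        exact this
      have hgen' : Subgroup.closure ({QuotientGroup.mk a, QuotientGroup.mk b} : Set (Q ⧸ S)) = ⊤ := by
        have h1 := congrArg (Subgroup.map (QuotientGroup.mk' S)) hgen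
        rw [MonoidHom.map_closure, ← MonoidHom.range_eq_map, MonoidHom.range_eq_top.2 (QuotientGroup.mk'_surjective S)] at h1
        rw [← h1]
        congr 1
        rw [Set.image_pair]; rfl
      have hcomm : ∀ x ∈ ({QuotientGroup.mk a, QuotientGroup.mk b} : Set (Q ⧸ S)), ∀ y ∈ ({QuotientGroup.mk a, QuotientGroup.mk b} : Set (Q ⧸ S)), x * y = y * x := by
        intro x hx y hy
        rcases hx with rfl | rfl <;> rcases hy with rfl | rfl
        · rfl
        · exact hab
        · exact hab.symm
        · rfl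
      refine ⟨⟨fun x y => ?_⟩⟩
      have hx : x ∈ Subgroup.closure ({QuotientGroup.mk a, QuotientGroup.mk b} : Set (Q ⧸ S)) := by rw [hgen']; trivial
      have hy : y ∈ Subgroup.closure ({QuotientGroup.mk a, QuotientGroup.mk b} : Set (Q ⧸ S)) := by rw [hgen']; trivial
      exact Subgroup.closure_induction₂ (p := fun x y _ _ => x * y = y * x)
        (fun x y hx hy => hcomm x hx y hy) (fun x _ => by simp) (fun x _ => by simp)
        (fun x y z _ _ _ h1 h2 => by rw [mul_assoc, h2, ← mul_assoc, h1, mul_assoc])
        (fun x y z _ _ _ h1 h2 => by rw [← mul_assoc, h1, mul_assoc, h2, mul_assoc])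
        (fun x y _ _ h => (Commute.inv_left (h : Commute x y)))
        (fun x y _ _ h => (Commute.inv_right (h : Commute x y))) hx hy
    exact fun q hq => hle hq
  -- reduction: enough that c commutes with a and b
  have hred : ⁅c, a⁆ = 1 → ⁅c, b⁆ = 1 → g3 Q = ⊥ := by
    intro h1 h2
    have hc' : ∀ g : Q, c * g = g * c := by
      intro g
      have hg : g ∈ Subgroup.centralizer ({c} : Set Q) := by
        have : (⊤ : Subgroup Q) ≤ Subgroup.centralizer ({c} : Set Q) := by
          rw [← hgen, Subgroup.closure_le]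
          intro x hx
          rw [SetLike.mem_coe, Subgroup.mem_centralizer_singleton_iff]
          rcases hx with rfl | rfl
          · exact (commutatorElement_eq_one_iff_mul_comm.1 h1).symm
          · exact (commutatorElement_eq_one_iff_mul_comm.1 h2).symm
        exact this trivial
      exact (Subgroup.mem_centralizer_singleton_iff.1 hg).symm
    rw [Subgroup.commutator_top_right_eq_bot_iff_le_center]
    intro q hq
    rw [Subgroup.mem_center_iff]
    intro g
    rcases hD q hq with h3 | h3
    · exact (hcen' q h3 g).symm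
    · have : q = c * (c⁻¹ * q) := by group
      rw [this, ← mul_assoc, ← hc' g, mul_assoc, ← hcen' _ h3 g]
      group
  by_cases hcg : c ∈ g3 Q
  · exact hred (commutatorElement_eq_one_iff_mul_comm.2 (hcen' c hcg a)) (commutatorElement_eq_one_iff_mul_comm.2 (hcen' c hcg b))
  -- σ acts
  have hσD : ∀ q, q ∈ commutator Q → σ q ∈ commutator Q := by
    intro q hq
    have h1 : (commutator Q).map σ.toMonoidHom = commutator Q :=
      (Subgroup.characteristic_iff_map_eq.1 inferInstance) σ
    rw [← h1]
    exact ⟨q, hq, rfl⟩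
  have hσ3 : (g3 Q).map σ.toMonoidHom = g3 Q :=
      (Subgroup.characteristic_iff_map_eq.1 inferInstance) σ
  have hσ3' : ∀ q, σ q ∈ g3 Q → q ∈ g3 Q := by
    intro q hq
    rw [← hσ3] at hq
    obtain ⟨y, hy, hyq⟩ := hq
    have : y = q := σ.injective hyq
    exact this ▸ hy
  have hσc : c⁻¹ * σ c ∈ g3 Q := by
    rcases hD _ (hσD c hcD) with h | h
    · exact absurd (hσ3' c h) hcg
    · exact h
  have hσcg : ∀ g : Q, σ ⁅c, g⁆ = ⁅c, σ g⁆ := by
    intro g
    have h1 : σ c = c * (c⁻¹ * σ c) := by group
    have h2 : ⁅σ c, σ g⁆ = ⁅c, σ g⁆ := by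
      rw [h1]
      have h3 := hcen' _ hσc
      set z := c⁻¹ * σ c
      have h4 : ⁅c * z, σ g⁆ = c * (z * σ g * z⁻¹) * c⁻¹ * (σ g)⁻¹ := by
        simp only [commutatorElement_def]; group
      rw [h4, h3 (σ g)]
      simp only [commutatorElement_def]; group
    rw [map_commutatorElement, h2]
  have hσd : σ ⁅c, a⁆ = ⁅c, b⁆ := by rw [hσcg, hσa]
  have hct : ⁅c, t⁆ = 1 := by
    rw [commutatorElement_eq_one_iff_mul_comm]
    rcases hD t ht with h | h
    · exact (hcen' t h c).symm
    · have : t = c * (c⁻¹ * t) := by group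
      rw [this]
      have h5 := hcen' _ h c
      rw [← mul_assoc, mul_assoc c (c⁻¹ * t) c, h5]
      group
  have hσe : σ ⁅c, b⁆ = ⁅c, a⁆ * ⁅c, b⁆ := by
    rw [hσcg, hσb, hmul, hmul, hct, mul_one]
  rcases hD _ ha2 with h | h
  · -- a² central
    have hb2 : b ^ 2 ∈ g3 Q := by
      rw [← hσa, ← map_pow, ← hσ3]
      exact ⟨_, h, rfl⟩
    have e1 : ⁅a, c⁆ * c ^ 2 = 1 := by
      have h1 : ⁅a ^ 2, b⁆ = ⁅a, c⁆ * c ^ 2 := by
        rw [hc]
        simp only [commutatorElement_def, pow_two]; group
      rw [← h1, commutatorElement_eq_one_iff_mul_comm]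
      exact hcen' _ h b
    have e2 : ⁅b, c⁆ * c ^ 2 = 1 := by
      have h1 : ⁅a, b ^ 2⁆ = c * (⁅b, c⁆ * c) := by
        rw [hc]
        simp only [commutatorElement_def, pow_two]; group
      have h2 : c * (⁅b, c⁆ * c) = 1 := by
        rw [← h1, commutatorElement_eq_one_iff_mul_comm]
        exact (hcen' _ hb2 a).symm
      have h3 : ⁅b, c⁆ ∈ g3 Q := by
        rw [← commutatorElement_inv]
        exact Subgroup.inv_mem _ (hDg c hcD b)
      have h4 := hcen' _ h3 c
      calc ⁅b, c⁆ * c ^ 2 = (⁅b, c⁆ * c) * c := by rw [pow_two]; group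
        _ = (c * ⁅b, c⁆) * c := by rw [h4]
        _ = c * (⁅b, c⁆ * c) := by group
        _ = 1 := h2
    have e3 : ⁅a, c⁆ = ⁅b, c⁆ := mul_right_cancel (e1.trans e2.symm)
    have e4 : ⁅c, a⁆ = ⁅c, b⁆ := by
      rw [← commutatorElement_inv a c, ← commutatorElement_inv b c, e3]
    have e5 : ⁅c, a⁆ = 1 := by
      have h1 := hσe
      rw [← e4, hσd, ← e4] at h1
      have : ⁅c, a⁆ * 1 = ⁅c, a⁆ * ⁅c, a⁆ := by rw [mul_one]; exact h1
      exact (mul_left_cancel this).symm
    exact hred e5 (e4 ▸ e5)
  · -- a commutes with c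
    have e1 : ⁅c, a⁆ = 1 := by
      rw [commutatorElement_eq_one_iff_mul_comm]
      have h1 : c = a ^ 2 * (c⁻¹ * a ^ 2)⁻¹ := by group
      have h2 := hcen' _ (Subgroup.inv_mem _ h) a
      set z := (c⁻¹ * a ^ 2)⁻¹
      rw [h1]
      calc a ^ 2 * z * a = a ^ 2 * (z * a) := by group
        _ = a ^ 2 * (a * z) := by rw [h2]
        _ = a * (a ^ 2 * z) := by group
    have e2 : ⁅c, b⁆ = 1 := by rw [← hσd, e1, map_one]
    exact hred e1 e2

/-- Recognition of the quaternion group of order eight. -/
theorem recognise {P : Type*} [Group P] (hcard : Nat.card P = 8) (x y : P) (hgen : Subgroup.closure {x, y} = ⊤)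
    (hx4 : x ^ 4 = 1) (hy : y ^ 2 = x ^ 2) (hxy : y⁻¹ * x * y = x⁻¹) : Nonempty (P ≃* QuaternionGroup 2) := by
  classical
  have hfin : Finite P := Nat.finite_of_card_ne_zero (by rw [hcard]; norm_num)
  let f : QuaternionGroup 2 → P := fun q => match q with
    | QuaternionGroup.a i => x ^ i.val
    | QuaternionGroup.xa i => y * x ^ i.val
  have hfa : ∀ i, f (QuaternionGroup.a i) = x ^ i.val := fun _ => rfl
  have hfxa : ∀ i, f (QuaternionGroup.xa i) = y * x ^ i.val := fun _ => rfl
  have hpow : ∀ n : ℕ, x ^ n = x ^ (n % 4) := fun n => pow_eq_pow_mod n hx4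
  have hval : ∀ i j : ZMod (2 * 2), (i + j).val = (i.val + j.val) % 4 := fun i j => ZMod.val_add i j
  have hinv : ∀ n : ℕ, x ^ n * y = y * x ^ (3 * n) := by
    intro n
    have h1 : x * y = y * x ^ 3 := by
      have : x⁻¹ = x ^ 3 := by
        rw [inv_eq_iff_mul_eq_one, ← pow_succ', hx4]
      rw [← this, ← hxy]; group
    induction n with
    | zero => simp
    | succ n ih =>
      rw [pow_succ, mul_assoc, h1, ← mul_assoc, ih, mul_assoc, ← pow_add]
      congr 2
  have hsub : ∀ i j : ZMod (2 * 2), (j - i).val = (3 * i.val + j.val) % 4 := by decide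
  have hsub2 : ∀ i j : ZMod (2 * 2), (((2 : ℕ) : ZMod (2 * 2)) + j - i).val = (2 + (3 * i.val + j.val)) % 4 := by decide
  let φ : QuaternionGroup 2 →* P := MonoidHom.mk' f (by
    intro p q
    rcases p with i | i <;> rcases q with j | j
    · rw [QuaternionGroup.a_mul_a, hfa, hfa, hfa, hval, ← hpow, pow_add]
    · rw [QuaternionGroup.a_mul_xa, hfa, hfxa, hfxa, ← mul_assoc, hinv, mul_assoc, ← pow_add, hsub, ← hpow]
    · rw [QuaternionGroup.xa_mul_a, hfa, hfxa, hfxa, hval, ← hpow, pow_add, mul_assoc]
    · rw [QuaternionGroup.xa_mul_xa, hfa, hfxa, hfxa, hsub2, ← hpow]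
      calc x ^ (2 + (3 * i.val + j.val)) = y ^ 2 * (x ^ (3 * i.val) * x ^ j.val) := by rw [hy, ← pow_add, ← pow_add]
        _ = y * (y * x ^ (3 * i.val)) * x ^ j.val := by rw [pow_two]; group
        _ = y * (x ^ i.val * y) * x ^ j.val := by rw [← hinv]
        _ = y * x ^ i.val * (y * x ^ j.val) := by group)
  have hsurj : Function.Surjective φ := by
    rw [← MonoidHom.range_eq_top, eq_top_iff, ← hgen, Subgroup.closure_le]
    intro z hz
    rcases hz with rfl | rfl
    · refine ⟨QuaternionGroup.a 1, ?_⟩
      change f (QuaternionGroup.a 1) = _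
      rw [hfa]
      have : (1 : ZMod (2 * 2)).val = 1 := by decide
      rw [this, pow_one]
    · refine ⟨QuaternionGroup.xa 0, ?_⟩
      change f (QuaternionGroup.xa 0) = _
      rw [hfxa]
      simp
  have hbij : Function.Bijective φ := by
    rw [Nat.bijective_iff_surjective_and_card]
    refine ⟨hsurj, ?_⟩
    rw [hcard, Nat.card_eq_fintype_card, QuaternionGroup.card]
  exact ⟨(MulEquiv.ofBijective φ hbij).symm⟩

/-- A finite `p`-group whose Frattini subgroup has index `p` (or `1`) is cyclic; here only for the prime two. -/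
theorem frattini_index {P : Type*} [Group P] [Finite P] (hP : IsPGroup 2 P) (hna : ¬ IsMulCommutative P)
    (h4 : (commutator P).index = 4) : frattini P = commutator P := by
  classical
  have : Fact (Nat.Prime 2) := ⟨Nat.prime_two⟩
  have hle := commutator_le_frattini hP
  have hmul := Subgroup.relIndex_mul_index hle
  rw [h4] at hmul
  have hne1 : (frattini P).index ≠ 1 := by
    intro h
    rw [Subgroup.index_eq_one] at h
    have h1 : (⊥ : Subgroup P) = ⊤ := frattini_nongenerating (by rw [h, bot_sup_eq])
    apply hna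
    have : Subsingleton P := by
      rw [← Subgroup.subsingleton_iff]
      exact subsingleton_of_bot_eq_top h1
    exact ⟨⟨fun a b => Subsingleton.elim _ _⟩⟩
  have hne2 : (frattini P).index ≠ 2 := by
    intro h
    obtain ⟨x, hx⟩ : ∃ x, x ∉ frattini P := by
      by_contra hcon
      push Not at hcon
      apply hne1
      rw [Subgroup.index_eq_one, eq_top_iff]
      exact fun x _ => hcon x
    have h1 : Subgroup.zpowers x ⊔ frattini P = ⊤ := by
      have h2 := Subgroup.relIndex_mul_index (H := frattini P) (K := Subgroup.zpowers x ⊔ frattini P) le_sup_right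
      rw [h] at h2
      have h3 : (frattini P).relIndex (Subgroup.zpowers x ⊔ frattini P) ≠ 1 := by
        intro h3
        rw [Subgroup.relIndex_eq_one] at h3
        exact hx (h3 (Subgroup.mem_sup_left (Subgroup.mem_zpowers x)))
      rw [← Subgroup.index_eq_one]
      have h4 : (Subgroup.zpowers x ⊔ frattini P).index ∣ 2 := Dvd.intro_left _ h2
      rcases (Nat.dvd_prime Nat.prime_two).1 h4 with h5 | h5
      · exact h5
      · rw [h5] at h2
        omega
    have h2 := frattini_nongenerating h1
    apply hna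
    refine ⟨⟨fun a b => ?_⟩⟩
    have ha : a ∈ Subgroup.zpowers x := by rw [h2]; trivial
    have hb : b ∈ Subgroup.zpowers x := by rw [h2]; trivial
    obtain ⟨i, rfl⟩ := ha
    obtain ⟨j, rfl⟩ := hb
    exact (Commute.refl x).zpow_zpow i j
  have hdvd : (frattini P).index ∣ 2 ^ 2 := by
    refine ⟨(commutator P).relIndex (frattini P), ?_⟩
    rw [mul_comm, hmul]; norm_num
  rcases (Nat.dvd_prime_pow Nat.prime_two).1 hdvd with ⟨k, hk, hk'⟩
  interval_cases k
  · exact absurd hk' hne1
  · exact absurd hk' hne2
  · rw [hk'] at hmul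
    have : (commutator P).relIndex (frattini P) = 1 := by omega
    rw [Subgroup.relIndex_eq_one] at this
    exact le_antisymm this hle

/-- Let P be a finite non-abelian 2-group whose commutator subgroup has index 4 and whose automorphism group is not a 2-group (some automorphism has order that is not a power of 2). Then P is isomorphic to the quaternion group of order 8. -/
theorem result {P : Type*} [Group P] [Finite P] (hP : IsPGroup 2 P) (hna : ¬ IsMulCommutative P) (h4 : (commutator P).index = 4) (haut : ¬ IsPGroup 2 (MulAut P)) : Nonempty (P ≃* QuaternionGroup 2) := by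
  classical
  have : Fact (Nat.Prime 2) := ⟨Nat.prime_two⟩
  have hΦ := frattini_index hP hna h4
  obtain ⟨n, hn⟩ := hP.exists_card_eq
  -- an automorphism of odd order
  obtain ⟨σ, hσo, hσ1⟩ : ∃ σ : MulAut P, Odd (orderOf σ) ∧ σ ≠ 1 := by
    rw [IsPGroup.iff_orderOf] at haut
    push Not at haut
    obtain ⟨α, hα⟩ := haut
    have hpos : orderOf α ≠ 0 := (orderOf_pos α).ne'
    refine ⟨α ^ (2 ^ (orderOf α).factorization 2), ?_, ?_⟩
    · rw [orderOf_pow_of_dvd (by positivity) (Nat.ordProj_dvd _ _)]
      exact Nat.odd_iff.2 (Nat.two_dvd_ne_zero.1 (Nat.not_dvd_ordCompl Nat.prime_two hpos))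
    · intro h
      have h1 := orderOf_dvd_of_pow_eq_one h
      obtain ⟨k, _, hk⟩ := (Nat.dvd_prime_pow Nat.prime_two).1 h1
      exact hα k hk
  -- automorphisms of odd order acting trivially mod Frattini are trivial
  have htriv : ∀ τ : MulAut P, Odd (orderOf τ) → (∀ x : P, τ x * x⁻¹ ∈ commutator P) → τ = 1 := by
    intro τ hτo hτ
    have hr : (frattini P).index = 2 ^ 2 := by rw [hΦ, h4]; norm_num
    have hA : ∀ α ∈ Subgroup.zpowers τ, ∀ x : P, α x * x⁻¹ ∈ frattini P := by
      intro α hα x
      rw [hΦ]
      let S : Subgroup (MulAut P) :=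
        { carrier := {α | ∀ x, α x * x⁻¹ ∈ commutator P}
          one_mem' := by intro x; simp
          mul_mem' := by
            intro α β hα hβ x
            have h1 := hα (β x)
            have h2 := hβ x
            have : (α * β) x * x⁻¹ = (α (β x) * (β x)⁻¹) * (β x * x⁻¹) := by
              rw [MulAut.mul_apply]; group
            rw [this]
            exact Subgroup.mul_mem _ h1 h2
          inv_mem' := by
            intro α hα x
            have h1 := hα (α⁻¹ x)
            have h2 : α (α⁻¹ x) = x := by rw [← MulAut.mul_apply, mul_inv_cancel, MulAut.one_apply]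
            rw [h2] at h1
            have h3 := Subgroup.inv_mem _ h1
            have : (x * (α⁻¹ x)⁻¹)⁻¹ = α⁻¹ x * x⁻¹ := by group
            rwa [this] at h3 }
      have : Subgroup.zpowers τ ≤ S := by
        rw [Subgroup.zpowers_le]; exact hτ
      exact this hα x
    have h1 := Cfsg.Agent.S4207.result (p := 2) hn hr (Subgroup.zpowers τ) hA
    rw [Nat.card_zpowers] at h1
    obtain ⟨k, _, hk⟩ := (Nat.dvd_prime_pow Nat.prime_two).1 h1
    rcases Nat.eq_zero_or_pos k with h0 | h0
    · rw [h0, pow_zero, orderOf_eq_one_iff] at hk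
      exact hk
    · rw [hk] at hτo
      exact absurd hτo (Nat.not_odd_iff_even.2 (Nat.even_pow.2 ⟨even_two, h0.ne'⟩))
  obtain ⟨a, ha⟩ : ∃ a : P, σ a * a⁻¹ ∉ commutator P := by
    by_contra hcon
    push Not at hcon
    exact hσ1 (htriv σ hσo hcon)
  set b := σ a with hb
  have hσD : ∀ q, q ∈ commutator P → σ q ∈ commutator P := by
    intro q hq
    have h1 : (commutator P).map σ.toMonoidHom = commutator P :=
      (Subgroup.characteristic_iff_map_eq.1 inferInstance) σ
    rw [← h1]
    exact ⟨q, hq, rfl⟩
  have hσD' : ∀ q, σ q ∈ commutator P → q ∈ commutator P := by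
    intro q hq
    have h1 : (commutator P).map σ.toMonoidHom = commutator P :=
      (Subgroup.characteristic_iff_map_eq.1 inferInstance) σ
    rw [← h1] at hq
    obtain ⟨y, hy, hyq⟩ := hq
    have : y = q := σ.injective hyq
    exact this ▸ hy
  have haD : a ∉ commutator P := by
    intro h
    exact ha (Subgroup.mul_mem _ (hσD a h) (Subgroup.inv_mem _ h))
  have hbD : b ∉ commutator P := fun h => haD (hσD' a h)
  have hsq : ∀ x : P, x ^ 2 ∈ commutator P := by
    intro x
    rw [← hΦ]
    exact pow_mem_frattini hP x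
  -- the quotient V = P / P'
  let π := QuotientGroup.mk' (commutator P)
  have hπ : ∀ x, π x = 1 ↔ x ∈ commutator P := fun x => QuotientGroup.eq_one_iff x
  have hVc : ∀ u v : P ⧸ commutator P, u * v = v * u := fun u v => mul_comm (G := Abelianization P) u v
  have hV2 : ∀ x : P, π x * π x = 1 := by
    intro x
    rw [← map_mul, hπ, ← pow_two]; exact hsq x
  have hVi : ∀ x : P, (π x)⁻¹ = π x := fun x => inv_eq_of_mul_eq_one_left (hV2 x)
  have hab : π a ≠ π b := by
    intro h
    apply ha
    rw [← hπ, map_mul, map_inv, ← h, mul_inv_cancel]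
  have hall : ∀ v : P ⧸ commutator P, v = 1 ∨ v = π a ∨ v = π b ∨ v = π a * π b := by
    have hfinV : Fintype (P ⧸ commutator P) := Fintype.ofFinite _
    have hcardV : Fintype.card (P ⧸ commutator P) = 4 := by
      rw [← Nat.card_eq_fintype_card]; exact h4
    have n1 : (1 : P ⧸ commutator P) ≠ π a := fun h => haD ((hπ a).1 h.symm)
    have n2 : (1 : P ⧸ commutator P) ≠ π b := fun h => hbD ((hπ b).1 h.symm)
    have n3 : (1 : P ⧸ commutator P) ≠ π a * π b := by
      intro h
      apply hab
      have := eq_inv_of_mul_eq_one_left h.symm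
      rw [this, hVi]
    have n4 : π a ≠ π a * π b := fun h => n2 (left_eq_mul.1 h).symm
    have n5 : π b ≠ π a * π b := fun h => n1 (right_eq_mul.1 h).symm
    have huniv : ({1, π a, π b, π a * π b} : Finset (P ⧸ commutator P)) = Finset.univ := by
      apply Finset.eq_univ_of_card
      rw [hcardV]
      rw [Finset.card_insert_of_notMem (by simp [n1, n2, n3]), Finset.card_insert_of_notMem (by simp [hab, n4]),
        Finset.card_insert_of_notMem (by simp [n5]), Finset.card_singleton]
    intro v
    have : v ∈ ({1, π a, π b, π a * π b} : Finset (P ⧸ commutator P)) := by rw [huniv]; exact Finset.mem_univ _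
    simpa using this
  have hgen : Subgroup.closure {a, b} = ⊤ := by
    apply frattini_nongenerating
    rw [hΦ, eq_top_iff]
    intro x _
    have key : ∀ y ∈ Subgroup.closure {a, b}, π x = π y → x ∈ Subgroup.closure {a, b} ⊔ commutator P := by
      intro y hy h
      have h1 : y⁻¹ * x ∈ commutator P := by
        rw [← hπ, map_mul, map_inv, h, inv_mul_cancel]
      have : x = y * (y⁻¹ * x) := by group
      rw [this]
      exact Subgroup.mul_mem_sup hy h1
    have ha' : a ∈ Subgroup.closure {a, b} := Subgroup.subset_closure (by simp)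
    have hb' : b ∈ Subgroup.closure {a, b} := Subgroup.subset_closure (by simp)
    rcases hall (π x) with h | h | h | h
    · exact key 1 (Subgroup.one_mem _) (by rw [h, map_one])
    · exact key a ha' h
    · exact key b hb' h
    · exact key (a * b) (Subgroup.mul_mem _ ha' hb') (by rw [h, map_mul])
  -- induced map on V
  have hσπ : ∀ x y : P, π x = π y → π (σ x) = π (σ y) := by
    intro x y h
    have h1 : x * y⁻¹ ∈ commutator P := by rw [← hπ, map_mul, map_inv, h, mul_inv_cancel]
    have h2 := hσD _ h1
    rw [map_mul, map_inv, ← hπ, map_mul, map_inv, mul_inv_eq_one] at h2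
    exact h2
  have hσb : ∃ t ∈ commutator P, σ b = a * b * t := by
    have h1 : π (σ b) = π a * π b := by
      rcases hall (π (σ b)) with h | h | h | h
      · exact absurd (hσD' b ((hπ _).1 h)) hbD
      · -- σ² acts trivially
        exfalso
        have hσa : π (σ (σ a)) = π a := h
        have hσb' : π (σ (σ b)) = π b := hσπ _ _ h
        have hall2 : ∀ x : P, (σ * σ) x * x⁻¹ ∈ commutator P := by
          intro x
          rw [← hπ, map_mul, map_inv, mul_inv_eq_one, MulAut.mul_apply]
          rcases hall (π x) with h | h | h | h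
          · have := hσπ x 1 (by rw [h, map_one])
            have := hσπ _ _ this
            rw [this, map_one, map_one, map_one, h]
          · have := hσπ _ _ (hσπ x a h)
            rw [this, h, hσa]
          · have := hσπ _ _ (hσπ x b h)
            rw [this, h, hσb']
          · have := hσπ _ _ (hσπ x (a * b) (by rw [h, map_mul]))
            rw [this, h, map_mul, map_mul, map_mul, hσa, hσb']
        have hodd : Odd (orderOf (σ * σ)) := by
          rw [← pow_two]
          exact Odd.of_dvd_nat hσo (orderOf_pow_dvd 2)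
        have h2 := htriv (σ * σ) hodd hall2
        apply hσ1
        rw [← orderOf_eq_one_iff]
        have h3 : orderOf σ ∣ 2 := orderOf_dvd_of_pow_eq_one (by rw [pow_two]; exact h2)
        rcases (Nat.dvd_prime Nat.prime_two).1 h3 with h4 | h4
        · exact h4
        · rw [h4] at hσo
          exact absurd hσo (by decide)
      · exfalso
        have h2 : σ b * b⁻¹ ∈ commutator P := by rw [← hπ, map_mul, map_inv, h, mul_inv_cancel]
        have h3 : σ (b * a⁻¹) ∈ commutator P := by rw [map_mul, map_inv]; exact h2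
        exact ha (hσD' _ h3)
      · exact h
    refine ⟨(a * b)⁻¹ * σ b, ?_, by group⟩
    rw [← hπ, map_mul, map_inv, h1, map_mul, inv_mul_cancel]
  obtain ⟨t, ht, hσbt⟩ := hσb
  -- γ₃ = 1
  have hnil : Group.IsNilpotent P := hP.isNilpotent
  have hg3 : g3 P = ⊥ := by
    by_contra hne
    let N : Subgroup P := ⁅g3 P, (⊤ : Subgroup P)⁆
    have hNchar : N.Characteristic := inferInstance
    have hσN : N.map σ.toMonoidHom = N := (Subgroup.characteristic_iff_map_eq.1 hNchar) σ
    let σ' : (P ⧸ N) ≃* (P ⧸ N) := QuotientGroup.congr N N σ hσN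
    have hσ' : ∀ x : P, σ' (QuotientGroup.mk x) = QuotientGroup.mk (σ x) := fun x => rfl
    have hmapD : (commutator P).map (QuotientGroup.mk' N) = commutator (P ⧸ N) := by
      rw [map_commutator_eq, MonoidHom.range_eq_top.2 (QuotientGroup.mk'_surjective N)]
      rfl
    have hmap3 : (g3 P).map (QuotientGroup.mk' N) = g3 (P ⧸ N) := by
      unfold g3
      rw [Subgroup.map_commutator, hmapD, ← MonoidHom.range_eq_map, MonoidHom.range_eq_top.2 (QuotientGroup.mk'_surjective N)]
    have h5 : g3 (P ⧸ N) = ⊥ := by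
      apply classThree (Q := P ⧸ N) (a := QuotientGroup.mk a) (b := QuotientGroup.mk b) (t := QuotientGroup.mk t) (σ := σ')
      · rw [← Subgroup.commutator_top_right_eq_bot_iff_le_center, ← hmap3]
        have : (⊤ : Subgroup (P ⧸ N)) = (⊤ : Subgroup P).map (QuotientGroup.mk' N) := by
          rw [← MonoidHom.range_eq_map, MonoidHom.range_eq_top.2 (QuotientGroup.mk'_surjective N)]
        rw [this, ← Subgroup.map_commutator, QuotientGroup.map_mk'_self]
      · have h1 := congrArg (Subgroup.map (QuotientGroup.mk' N)) hgen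
        rw [MonoidHom.map_closure, ← MonoidHom.range_eq_map, MonoidHom.range_eq_top.2 (QuotientGroup.mk'_surjective N)] at h1
        rw [← h1]
        congr 1
        rw [Set.image_pair]; rfl
      · rw [← hmapD]
        exact ⟨a ^ 2, hsq a, rfl⟩
      · rw [hσ', ← hb]
      · rw [← hmapD]
        exact ⟨t, ht, rfl⟩
      · rw [hσ', hσbt]; rfl
    rw [← hmap3, Subgroup.map_eq_bot_iff, QuotientGroup.ker_mk'] at h5
    -- γ₃ ≤ γ₄ contradicts nilpotency
    have h6 : ∀ k, g3 P ≤ (⊤ : Subgroup P).lowerCentralSeries (k + 2) := by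
      intro k
      induction k with
      | zero => exact le_rfl
      | succ k ih => exact h5.trans (Subgroup.commutator_mono ih le_rfl)
    obtain ⟨m, hm⟩ := Subgroup.nilpotent_iff_lowerCentralSeries.1 hnil
    apply hne
    rw [eq_bot_iff]
    exact (h6 m).trans ((Subgroup.lowerCentralSeries_antitone _ (by omega : m ≤ m + 2)).trans hm.le)
  -- now c is central
  set c := ⁅a, b⁆ with hc
  have hcen : ∀ q ∈ commutator P, ∀ g : P, q * g = g * q := by
    have : commutator P ≤ Subgroup.center P := Subgroup.commutator_top_right_eq_bot_iff_le_center.1 hg3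
    intro q hq g
    exact (Subgroup.mem_center_iff.1 (this hq) g).symm
  have hcD : c ∈ commutator P := Subgroup.commutator_mem_commutator (Subgroup.mem_top a) (Subgroup.mem_top b)
  have hcomm_of : c = 1 → False := by
    intro h
    apply hna
    have hab' : Commute a b := commutatorElement_eq_one_iff_commute.1 h
    refine ⟨⟨fun x y => ?_⟩⟩
    have hx : x ∈ Subgroup.closure ({a, b} : Set P) := by rw [hgen]; trivial
    have hy : y ∈ Subgroup.closure ({a, b} : Set P) := by rw [hgen]; trivial
    have hcomm : ∀ x ∈ ({a, b} : Set P), ∀ y ∈ ({a, b} : Set P), x * y = y * x := by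
      intro x hx y hy
      rcases hx with rfl | rfl <;> rcases hy with rfl | rfl
      · rfl
      · exact hab'
      · exact hab'.symm
      · rfl
    exact Subgroup.closure_induction₂ (p := fun x y _ _ => x * y = y * x)
        (fun x y hx hy => hcomm x hx y hy) (fun x _ => by simp) (fun x _ => by simp)
        (fun x y z _ _ _ h1 h2 => by rw [mul_assoc, h2, ← mul_assoc, h1, mul_assoc])
        (fun x y z _ _ _ h1 h2 => by rw [← mul_assoc, h1, mul_assoc, h2, mul_assoc])
        (fun x y _ _ h => (Commute.inv_left (h : Commute x y)))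
        (fun x y _ _ h => (Commute.inv_right (h : Commute x y))) hx hy
  have hc2 : c * c = 1 := by
    -- [a², b] = a c a⁻¹ c = c²
    have h1 : a ^ 2 * b * (a ^ 2)⁻¹ * b⁻¹ = 1 := by
      rw [hcen _ (hsq a) b]; group
    have h2 : a ^ 2 * b * (a ^ 2)⁻¹ * b⁻¹ = a * c * a⁻¹ * c := by
      rw [hc]; simp only [commutatorElement_def, pow_two]; group
    rw [h2, ← hcen c hcD a] at h1
    have : c * a * a⁻¹ * c = c * c := by group
    rw [this] at h1
    exact h1
  -- P' = {1, c}
  have hD : ∀ q ∈ commutator P, q = 1 ∨ q = c := by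
    let S : Subgroup P := Subgroup.zpowers c
    have hS : ∀ q ∈ S, q = 1 ∨ q = c := by
      intro q hq
      obtain ⟨i, rfl⟩ := hq
      rcases Int.even_or_odd' i with ⟨j, hj | hj⟩
      · left
        change c ^ i = 1
        rw [hj, zpow_mul, zpow_ofNat, pow_two, hc2, one_zpow]
      · right
        change c ^ i = c
        rw [hj, zpow_add, zpow_mul, zpow_ofNat, pow_two, hc2, one_zpow, one_mul, zpow_one]
    have hSn : S.Normal := by
      refine ⟨fun x hx g => ?_⟩
      have hxD : x ∈ commutator P := by
        rcases hS x hx with h | h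
        · rw [h]; exact Subgroup.one_mem _
        · rw [h]; exact hcD
      rw [← hcen x hxD g]
      have : x * g * g⁻¹ = x := by group
      rw [this]; exact hx
    have hle : commutator P ≤ S := by
      rw [← Subgroup.Normal.quotient_commutative_iff_commutator_le]
      have hab : Commute (QuotientGroup.mk a : P ⧸ S) (QuotientGroup.mk b) := by
        have : (QuotientGroup.mk c : P ⧸ S) = 1 := (QuotientGroup.eq_one_iff c).2 (Subgroup.mem_zpowers c)
        rw [← commutatorElement_eq_one_iff_commute]
        exact this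
      have hgen' : Subgroup.closure ({QuotientGroup.mk a, QuotientGroup.mk b} : Set (P ⧸ S)) = ⊤ := by
        have h1 := congrArg (Subgroup.map (QuotientGroup.mk' S)) hgen
        rw [MonoidHom.map_closure, ← MonoidHom.range_eq_map, MonoidHom.range_eq_top.2 (QuotientGroup.mk'_surjective S)] at h1
        rw [← h1]
        congr 1
        rw [Set.image_pair]; rfl
      have hcomm : ∀ x ∈ ({QuotientGroup.mk a, QuotientGroup.mk b} : Set (P ⧸ S)), ∀ y ∈ ({QuotientGroup.mk a, QuotientGroup.mk b} : Set (P ⧸ S)), x * y = y * x := by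
        intro x hx y hy
        rcases hx with rfl | rfl <;> rcases hy with rfl | rfl
        · rfl
        · exact hab
        · exact hab.symm
        · rfl
      refine ⟨⟨fun x y => ?_⟩⟩
      have hx : x ∈ Subgroup.closure ({QuotientGroup.mk a, QuotientGroup.mk b} : Set (P ⧸ S)) := by rw [hgen']; trivial
      have hy : y ∈ Subgroup.closure ({QuotientGroup.mk a, QuotientGroup.mk b} : Set (P ⧸ S)) := by rw [hgen']; trivial
      exact Subgroup.closure_induction₂ (p := fun x y _ _ => x * y = y * x)
        (fun x y hx hy => hcomm x hx y hy) (fun x _ => by simp) (fun x _ => by simp)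
        (fun x y z _ _ _ h1 h2 => by rw [mul_assoc, h2, ← mul_assoc, h1, mul_assoc])
        (fun x y z _ _ _ h1 h2 => by rw [← mul_assoc, h1, mul_assoc, h2, mul_assoc])
        (fun x y _ _ h => (Commute.inv_left (h : Commute x y)))
        (fun x y _ _ h => (Commute.inv_right (h : Commute x y))) hx hy
    exact fun q hq => hS q (hle hq)
  have hc1 : c ≠ 1 := hcomm_of
  have hcard : Nat.card P = 8 := by
    have h1 : Nat.card (commutator P) = 2 := by
      rw [Nat.card_eq_two_iff]
      refine ⟨1, ⟨c, hcD⟩, ?_, ?_⟩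
      · intro h
        exact hc1 (congrArg Subtype.val h).symm
      · rw [Set.eq_univ_iff_forall]
        rintro ⟨q, hq⟩
        rcases hD q hq with h | h
        · left; exact Subtype.ext h
        · right; exact Subtype.ext h
    rw [← (commutator P).card_mul_index, h1, h4]
  have hσc : σ c = c := by
    rcases hD _ (hσD c hcD) with h | h
    · exfalso
      apply hc1
      apply σ.injective
      rw [h, map_one]
    · exact h
  -- a² = c
  have ha2 : a ^ 2 = c := by
    rcases hD _ (hsq a) with h | h
    · exfalso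
      have hb2 : b ^ 2 = 1 := by rw [hb, ← map_pow, h, map_one]
      have h3 : (a * b * t) ^ 2 = 1 := by rw [← hσbt, ← map_pow, hb2, map_one]
      have ht2 : t * t = 1 := by
        rcases hD t ht with h | h
        · rw [h, one_mul]
        · rw [h, hc2]
      have h4 : (a * b) ^ 2 = 1 := by
        have h5 := hcen t ht (a * b)
        calc (a * b) ^ 2 = (a * b) * (t * t) * (a * b) := by rw [ht2, pow_two, mul_one]
          _ = (a * b * t) * (t * (a * b)) := by group
          _ = (a * b * t) * ((a * b) * t) := by rw [h5]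
          _ = (a * b * t) ^ 2 := by rw [pow_two]
          _ = 1 := h3
      apply hc1
      have ia : a⁻¹ = a := by rw [inv_eq_iff_mul_eq_one, ← pow_two, h]
      have ib : b⁻¹ = b := by rw [inv_eq_iff_mul_eq_one, ← pow_two, hb2]
      rw [hc, commutatorElement_def, ia, ib]
      rw [pow_two] at h4
      rw [← h4]; group
    · exact h
  have hb2 : b ^ 2 = c := by rw [hb, ← map_pow, ha2, hσc]
  apply recognise hcard a b hgen
  · calc a ^ 4 = a ^ 2 * a ^ 2 := by rw [← pow_add]
      _ = 1 := by rw [ha2, hc2]
  · rw [ha2, hb2]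
  · -- b⁻¹ a b = a⁻¹
    have h1 : a * b = c * (b * a) := by
      rw [hc, commutatorElement_def]; group
    have h2 : c * a = a⁻¹ := by
      rw [eq_inv_iff_mul_eq_one]
      have : c * a * a = c * a ^ 2 := by rw [pow_two]; group
      rw [this, ha2, hc2]
    calc b⁻¹ * a * b = b⁻¹ * (a * b) := by group
      _ = b⁻¹ * (c * (b * a)) := by rw [h1]
      _ = b⁻¹ * (c * b) * a := by group
      _ = b⁻¹ * (b * c) * a := by rw [hcen c hcD b]
      _ = c * a := by group
      _ = a⁻¹ := h2

end Cfsg.Agent.S4189
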