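import Cfsg.Statements.S4194
import Cfsg.Agent.Lib.TwoCentralAb

set_option autoImplicit false
open Cfsg

namespace Cfsg.Agent.S4194

/-- A finite group G has commutative Sylow 2-subgroups if and only if every 2-element of G (element of order a power of 2) is 2-central, that is, its centralizer contains a Sylow 2-subgroup of G. -/
theorem result {G : Type*} [Group G] [Finite G] (P : Sylow 2 G) :
    IsMulCommutative (P : Subgroup G) ↔ ∀ x : G, (∃ k : ℕ, orderOf x = 2 ^ k) → (∃ Q : Sylow 2 G, (Q : Subgroup G) ≤ Subgroup.centralizer ({x} : Set G)) := by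
  constructor
  · intro hP x hx
    obtain ⟨k, hk⟩ := hx
    have hzp : IsPGroup 2 (Subgroup.zpowers x) := by
      apply IsPGroup.of_card (n := k)
      rw [Nat.card_zpowers, hk]
    obtain ⟨Q, hQ⟩ := hzp.exists_le_sylow
    refine ⟨Q, ?_⟩
    have e := Sylow.equiv P Q
    intro y hy
    rw [Subgroup.mem_centralizer_iff]
    intro x' hxx
    have hxx' : x' = x := hxx
    rw [hxx']
    have hx' : (x : G) ∈ Q := hQ (Subgroup.mem_zpowers x)
    have h1 := hP.is_comm.comm (e.symm ⟨x, hx'⟩) (e.symm ⟨y, hy⟩)
    rw [← map_mul, ← map_mul] at h1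
    exact congrArg Subtype.val (e.symm.injective h1)
  · intro h
    exact Cfsg.Agent.Lib.TwoCentralAb.main h P


end Cfsg.Agent.S4194
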