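import Cfsg.Statements.S4195

set_option autoImplicit false
open Cfsg

namespace Cfsg.Agent.S4195

/-- Let x be a non-identity element of a finite group G whose centralizer contains a Sylow 2-subgroup of G. If x is conjugate to its inverse, then x has order 2. -/
theorem result {G : Type*} [Group G] [Finite G] (x : G) (hx : x ≠ 1) (P : Sylow 2 G) (hP : (P : Subgroup G) ≤ Subgroup.centralizer ({x} : Set G)) (hreal : IsConj x x⁻¹) : orderOf x = 2 := by
  classical
  have : Fact (Nat.Prime 2) := ⟨Nat.prime_two⟩
  by_contra hne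
  have hsq : x⁻¹ ≠ x := by
    intro h
    apply hne
    refine orderOf_eq_prime ?_ hx
    rw [pow_two]
    nth_rewrite 1 [← h]
    simp
  -- extended centralizer
  let E : Subgroup G :=
    { carrier := {g | g * x * g⁻¹ = x ∨ g * x * g⁻¹ = x⁻¹}
      one_mem' := by left; simp
      mul_mem' := by
        intro a b ha hb
        rcases ha with ha | ha <;> rcases hb with hb | hb
        · left
          calc a * b * x * (a * b)⁻¹ = a * (b * x * b⁻¹) * a⁻¹ := by group
            _ = x := by rw [hb, ha]
        · right
          calc a * b * x * (a * b)⁻¹ = a * (b * x * b⁻¹) * a⁻¹ := by group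
            _ = (a * x * a⁻¹)⁻¹ := by rw [hb]; group
            _ = x⁻¹ := by rw [ha]
        · right
          calc a * b * x * (a * b)⁻¹ = a * (b * x * b⁻¹) * a⁻¹ := by group
            _ = x⁻¹ := by rw [hb, ha]
        · left
          calc a * b * x * (a * b)⁻¹ = a * (b * x * b⁻¹) * a⁻¹ := by group
            _ = (a * x * a⁻¹)⁻¹ := by rw [hb]; group
            _ = x := by rw [ha, inv_inv]
      inv_mem' := by
        intro a ha
        rcases ha with ha | ha
        · left
          calc a⁻¹ * x * a⁻¹⁻¹ = a⁻¹ * (a * x * a⁻¹) * a := by rw [ha]; group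
            _ = x := by group
        · right
          calc a⁻¹ * x * a⁻¹⁻¹ = (a⁻¹ * (x⁻¹) * a)⁻¹ := by group
            _ = (a⁻¹ * (a * x * a⁻¹) * a)⁻¹ := by rw [ha]
            _ = x⁻¹ := by group }
  have hCE : Subgroup.centralizer ({x} : Set G) ≤ E := by
    intro g hg
    left
    have := Subgroup.mem_centralizer_singleton_iff.1 hg
    rw [mul_inv_eq_iff_eq_mul]
    exact this
  -- relative index is two
  obtain ⟨g, hg⟩ := isConj_iff.1 hreal
  have hgE : g ∈ E := Or.inr hg
  have h2 : (Subgroup.centralizer ({x} : Set G)).relIndex E = 2 := by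
    have key : ∀ c : G, c ∈ Subgroup.centralizer ({x} : Set G) ↔ c * x * c⁻¹ = x := by
      intro c
      rw [Subgroup.mem_centralizer_singleton_iff, mul_inv_eq_iff_eq_mul]
    rw [Subgroup.relIndex_eq_two_iff_exists_notMem_and]
    refine ⟨g, hgE, ?_, ?_⟩
    · rw [key, hg]; exact hsq
    intro b hb
    rcases hb with hb | hb
    · right
      exact (key b).2 hb
    · left
      rw [key]
      calc b * g * x * (b * g)⁻¹ = b * (g * x * g⁻¹) * b⁻¹ := by group
        _ = (b * x * b⁻¹)⁻¹ := by rw [hg]; group
        _ = x := by rw [hb, inv_inv]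
  have h3 : ¬ 2 ∣ (Subgroup.centralizer ({x} : Set G)).index := by
    intro h
    exact P.not_dvd_index (h.trans (Subgroup.index_dvd_of_le hP))
  apply h3
  rw [← Subgroup.relIndex_mul_index hCE, h2]
  exact Dvd.intro _ rfl

end Cfsg.Agent.S4195
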