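import Mathlib
import Cfsg.Statements.S4211

set_option autoImplicit false
open Cfsg

namespace Cfsg.Agent.S4211

variable {G : Type*} [Group G]

/-- `y^k x = x y^k w^k` when `y x = x y w` with `w` commuting with both. -/
theorem pow_swap {x y w : G} (hyx : y * x = x * y * w) (hwy : Commute w y) (k : ℕ) :
    y ^ k * x = x * y ^ k * w ^ k := by
  induction k with
  | zero => simp
  | succ k ih =>
    have h1 : Commute (w ^ k) y := hwy.pow_left k
    calc y ^ (k + 1) * x = y * (y ^ k * x) := by rw [pow_succ']; group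
      _ = y * (x * y ^ k * w ^ k) := by rw [ih]
      _ = (y * x) * y ^ k * w ^ k := by group
      _ = x * y * w * y ^ k * w ^ k := by rw [hyx]
      _ = x * y * (w * y ^ k) * w ^ k := by group
      _ = x * y * (y ^ k * w) * w ^ k := by rw [(hwy.pow_right k).eq]
      _ = x * (y * y ^ k) * (w * w ^ k) := by group
      _ = x * y ^ (k + 1) * w ^ (k + 1) := by rw [← pow_succ', ← pow_succ']

/-- class two power formula -/
theorem mul_pow_class_two {x y w : G} (hyx : y * x = x * y * w) (hwx : Commute w x) (hwy : Commute w y) (k : ℕ) :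
    (x * y) ^ k = x ^ k * y ^ k * w ^ (k.choose 2) := by
  induction k with
  | zero => simp
  | succ k ih =>
    have h1 : Commute (w ^ (k.choose 2)) x := hwx.pow_left _
    have h2 : Commute (w ^ (k.choose 2)) y := hwy.pow_left _
    have h3 : Commute (w ^ k) y := hwy.pow_left _
    have h4 : (k + 1).choose 2 = k + k.choose 2 := by
      rw [Nat.choose_succ_succ' k 1, Nat.choose_one_right]
    calc (x * y) ^ (k + 1) = (x * y) ^ k * (x * y) := pow_succ _ _
      _ = x ^ k * y ^ k * (w ^ (k.choose 2) * x) * y := by rw [ih]; group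
      _ = x ^ k * y ^ k * (x * w ^ (k.choose 2)) * y := by rw [h1.eq]
      _ = x ^ k * (y ^ k * x) * (w ^ (k.choose 2) * y) := by group
      _ = x ^ k * (x * y ^ k * w ^ k) * (y * w ^ (k.choose 2)) := by rw [pow_swap hyx hwy, h2.eq]
      _ = x ^ k * x * y ^ k * (w ^ k * y) * w ^ (k.choose 2) := by group
      _ = x ^ k * x * y ^ k * (y * w ^ k) * w ^ (k.choose 2) := by rw [h3.eq]
      _ = (x ^ k * x) * (y ^ k * y) * (w ^ k * w ^ (k.choose 2)) := by group
      _ = x ^ (k + 1) * y ^ (k + 1) * w ^ ((k + 1).choose 2) := by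
          rw [← pow_succ, ← pow_succ, ← pow_add, h4]

theorem lemmaA [Finite G] (hn : ∀ H : Subgroup G, H.Normal) (hna : ∃ x y : G, ¬ Commute x y) :
    ∃ a b : G, a ^ 4 = 1 ∧ a ^ 2 ≠ 1 ∧ b ^ 2 = a ^ 2 ∧ b⁻¹ * a * b = a⁻¹ := by
  classical
  have hex : ∃ s : ℕ, ∃ a b : G, ¬ Commute a b ∧ orderOf a + orderOf b = s ∧ orderOf b ≤ orderOf a := by
    obtain ⟨x, y, h⟩ := hna
    rcases le_total (orderOf y) (orderOf x) with h1 | h1
    · exact ⟨_, x, y, h, rfl, h1⟩
    · exact ⟨_, y, x, fun h' => h h'.symm, rfl, h1⟩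
  obtain ⟨a, b, hab, hs, hle⟩ := Nat.find_spec hex
  have hmin : ∀ a' b' : G, ¬ Commute a' b' → orderOf a + orderOf b ≤ orderOf a' + orderOf b' := by
    intro a' b' h
    rw [hs]
    apply Nat.find_min' hex
    rcases le_total (orderOf b') (orderOf a') with h1 | h1
    · exact ⟨a', b', h, rfl, h1⟩
    · exact ⟨b', a', fun h' => h h'.symm, add_comm _ _, h1⟩
  set c := a * b * a⁻¹ * b⁻¹ with hc
  have hcb : c ∈ Subgroup.zpowers b := by
    have h1 : a * b * a⁻¹ ∈ Subgroup.zpowers b := (hn (Subgroup.zpowers b)).conj_mem b (Subgroup.mem_zpowers b) a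
    exact Subgroup.mul_mem _ h1 (Subgroup.inv_mem _ (Subgroup.mem_zpowers b))
  have hca : c ∈ Subgroup.zpowers a := by
    have h1 : b * a⁻¹ * b⁻¹ ∈ Subgroup.zpowers a :=
      (hn (Subgroup.zpowers a)).conj_mem a⁻¹ (Subgroup.inv_mem _ (Subgroup.mem_zpowers a)) b
    have h2 := Subgroup.mul_mem _ (Subgroup.mem_zpowers a) h1
    have : a * (b * a⁻¹ * b⁻¹) = c := by rw [hc]; group
    rwa [this] at h2
  have hcca : Commute c a := by
    obtain ⟨i, hi⟩ := hca
    have hi' : a ^ i = c := hi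
    rw [← hi']
    exact (Commute.refl a).zpow_left i
  have hccb : Commute c b := by
    obtain ⟨i, hi⟩ := hcb
    have hi' : b ^ i = c := hi
    rw [← hi']
    exact (Commute.refl b).zpow_left i
  have hc1 : c ≠ 1 := by
    intro h
    apply hab
    rw [hc] at h
    have := mul_inv_eq_one.1 h
    exact mul_inv_eq_iff_eq_mul.1 this
  -- a b = b a c
  have habc : a * b = b * a * c := by
    have h1 : c * (b * a) = a * b := by rw [hc]; group
    rw [← h1, (hccb.mul_right hcca).eq]
  have hpow : ∀ k : ℕ, a ^ k * b = b * a ^ k * c ^ k := fun k => pow_swap habc hcca k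
  have hbac : b⁻¹ * a⁻¹ = a⁻¹ * b⁻¹ * c⁻¹ := by
    have := congrArg (·⁻¹) habc
    simp only [mul_inv_rev] at this
    rw [this]
    have h1 := (hcca.inv_left).inv_right
    have h2 := (hccb.inv_left).inv_right
    calc c⁻¹ * (a⁻¹ * b⁻¹) = (c⁻¹ * a⁻¹) * b⁻¹ := by group
      _ = a⁻¹ * (c⁻¹ * b⁻¹) := by rw [h1.eq]; group
      _ = a⁻¹ * b⁻¹ * c⁻¹ := by rw [h2.eq]; group
  -- b^k a = a b^k (c⁻¹)^k
  have hbac' : b * a = a * b * c⁻¹ := by rw [habc]; group
  have hpow' : ∀ k : ℕ, b ^ k * a = a * b ^ k * c⁻¹ ^ k := fun k => pow_swap hbac' hccb.inv_left k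
  have hcomm_of_pow_a : ∀ k : ℕ, Commute (a ^ k) b → c ^ k = 1 := by
    intro k h
    have h1 := hpow k
    rw [h.eq] at h1
    exact (left_eq_mul.1 h1)
  have hcomm_of_pow_b : ∀ k : ℕ, Commute (b ^ k) a → c ^ k = 1 := by
    intro k h
    have h1 := hpow' k
    rw [h.eq] at h1
    have h2 := left_eq_mul.1 h1
    rw [inv_pow, inv_eq_one] at h2
    exact h2
  have ha1 : a ≠ 1 := fun h => hab (h ▸ Commute.one_left b)
  have hb1 : b ≠ 1 := fun h => hab (h ▸ Commute.one_right a)
  have hlt : ∀ (x : G) (q : ℕ), q.Prime → q ∣ orderOf x → orderOf (x ^ q) < orderOf x := by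
    intro x q hq hd
    rw [orderOf_pow_of_dvd hq.ne_zero hd]
    exact Nat.div_lt_self (orderOf_pos x) hq.one_lt
  have hcqa : ∀ q : ℕ, q.Prime → q ∣ orderOf a → c ^ q = 1 := by
    intro q hq hd
    apply hcomm_of_pow_a
    by_contra h
    have h1 := hmin _ _ h
    have h2 := hlt a q hq hd
    omega
  have hcqb : ∀ q : ℕ, q.Prime → q ∣ orderOf b → c ^ q = 1 := by
    intro q hq hd
    apply hcomm_of_pow_b
    by_contra h
    have h1 := hmin _ _ h
    have h2 := hlt b q hq hd
    omega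
  obtain ⟨p, hp, hpa⟩ := Nat.exists_prime_and_dvd (n := orderOf a) (by rwa [Ne, orderOf_eq_one_iff])
  have hcp : c ^ p = 1 := hcqa p hp hpa
  have hoc : orderOf c = p := by
    have := Fact.mk hp
    exact orderOf_eq_prime hcp hc1
  have huniq : ∀ q : ℕ, q.Prime → c ^ q = 1 → q = p := by
    intro q hq h
    have h1 := orderOf_dvd_of_pow_eq_one h
    rw [hoc] at h1
    exact ((Nat.prime_dvd_prime_iff_eq hp hq).1 h1).symm
  obtain ⟨m, hm⟩ : ∃ m, orderOf a = p ^ m :=
    ⟨_, Nat.eq_prime_pow_of_unique_prime_dvd (orderOf_pos a).ne' (fun {q} hq hd => huniq q hq (hcqa q hq hd))⟩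
  obtain ⟨n, hnb⟩ : ∃ n, orderOf b = p ^ n :=
    ⟨_, Nat.eq_prime_pow_of_unique_prime_dvd (orderOf_pos b).ne' (fun {q} hq hd => huniq q hq (hcqb q hq hd))⟩
  have hm0 : m ≠ 0 := by
    rintro rfl
    rw [pow_zero, orderOf_eq_one_iff] at hm
    exact ha1 hm
  have hn0 : n ≠ 0 := by
    rintro rfl
    rw [pow_zero, orderOf_eq_one_iff] at hnb
    exact hb1 hnb
  have hnm : n ≤ m := by
    rw [hm, hnb] at hle
    exact (Nat.pow_le_pow_iff_right hp.one_lt).1 hle
  -- express c as a power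
  have hexp : ∀ (u : G) (l : ℕ), l ≠ 0 → orderOf u = p ^ l → c ∈ Subgroup.zpowers u → ∃ t : ℕ, ¬ p ∣ t ∧ c = u ^ (t * p ^ (l - 1)) := by
    intro u l hl hu hcu
    rw [← mem_powers_iff_mem_zpowers] at hcu
    obtain ⟨j, hj⟩ := hcu
    have hj' : u ^ j = c := hj
    have h1 : p ^ l ∣ j * p := by
      rw [← hu]
      apply orderOf_dvd_of_pow_eq_one
      rw [pow_mul, hj', hcp]
    obtain ⟨l', rfl⟩ := Nat.exists_eq_succ_of_ne_zero hl
    rw [Nat.succ_eq_add_one, pow_succ] at h1
    have h2 : p ^ l' ∣ j := Nat.dvd_of_mul_dvd_mul_right hp.pos h1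
    obtain ⟨t, ht⟩ := h2
    refine ⟨t, ?_, ?_⟩
    · rintro ⟨t', rfl⟩
      apply hc1
      rw [← hj', ht, ← orderOf_dvd_iff_pow_eq_one, hu, Nat.succ_eq_add_one, pow_succ]
      exact Dvd.intro t' (by ring)
    · rw [← hj', ht, Nat.succ_eq_add_one, Nat.add_sub_cancel, mul_comm]
  obtain ⟨t, ht, hct⟩ := hexp b n hn0 hnb hcb
  obtain ⟨s, hsp, hcs⟩ := hexp a m hm0 hm hca
  have hyb : ∀ g : G, Commute g (b ^ t) → Commute g b := by
    intro g h
    have h1 : t.Coprime (orderOf b) := by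
      rw [hnb]
      exact Nat.Coprime.pow_right _ ((Nat.Prime.coprime_iff_not_dvd hp).2 ht).symm
    obtain ⟨k, hk⟩ := exists_pow_eq_self_of_coprime h1
    rw [← hk]
    exact h.pow_right k
  have hn2 : 2 ≤ n := by
    by_contra hlt2
    have hn1 : n = 1 := by omega
    rw [hn1] at hct
    simp only [Nat.sub_self, pow_zero, mul_one] at hct
    apply hab
    apply hyb
    rw [← hct]
    exact hcca.symm
  set x := a ^ (s * p ^ (m - n)) with hx
  set y := b ^ t with hy
  have hxk : x ^ (p ^ (n - 1)) = c := by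
    rw [hx, ← pow_mul, hcs, mul_assoc, ← pow_add]
    congr 3
    omega
  have hyk : y ^ (p ^ (n - 1)) = c := by rw [hy, ← pow_mul, ← hct]
  -- commutation of y and x⁻¹
  set w := c ^ (t * (s * p ^ (m - n))) with hw
  have hcx : Commute c x := hcca.pow_right _
  have hcy : Commute c y := hccb.pow_right _
  have hxy : x * y = y * x * w := by
    -- a^i b^t = b^t a^i c^{i t}
    have h1 : a * y = y * a * c ^ t := by
      have := hpow' t
      rw [← hy] at this
      rw [this, inv_pow]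
      have h3 : Commute (c ^ t) (a * y) := ((hcca.mul_right hcy)).pow_left t
      calc a * y = a * y * (c ^ t)⁻¹ * c ^ t := by group
        _ = _ := rfl
    have h2 := pow_swap (x := y) (y := a) (w := c ^ t) h1 (hcca.pow_left t) (s * p ^ (m - n))
    rw [← hx, ← pow_mul] at h2
    exact h2
  have hwx : Commute w x := hcx.pow_left _
  have hwy : Commute w y := hcy.pow_left _
  have hyx' : y * x⁻¹ = x⁻¹ * y * w := by
    calc y * x⁻¹ = x⁻¹ * (x * y) * x⁻¹ := by group
      _ = x⁻¹ * (y * x * w) * x⁻¹ := by rw [hxy]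
      _ = x⁻¹ * y * (x * w) * x⁻¹ := by group
      _ = x⁻¹ * y * (w * x) * x⁻¹ := by rw [hwx.eq]
      _ = x⁻¹ * y * w := by group
  have hzpow := mul_pow_class_two hyx' hwx.inv_right hwy (p ^ (n - 1))
  rw [inv_pow, hxk, hyk, inv_mul_cancel, one_mul, hw, ← pow_mul] at hzpow
  have hnz : ¬ Commute a (x⁻¹ * y) := by
    intro h
    apply hab
    apply hyb
    have h1 : Commute a x := (Commute.refl a).pow_right _
    have h2 := h1.mul_right h
    have : x * (x⁻¹ * y) = y := by group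
    rwa [this] at h2
  have hz1 : (x⁻¹ * y) ^ (p ^ (n - 1)) ≠ 1 := by
    intro h
    have h1 := hmin _ _ hnz
    have h2 : orderOf (x⁻¹ * y) ≤ p ^ (n - 1) := orderOf_le_of_pow_eq_one (pow_pos hp.pos _) h
    have h3 : p ^ (n - 1) < p ^ n := Nat.pow_lt_pow_right hp.one_lt (by omega)
    rw [← hnb] at h3
    omega
  rw [hzpow] at hz1
  have hnd : ¬ p ∣ t * (s * p ^ (m - n)) * (p ^ (n - 1)).choose 2 := by
    intro h
    apply hz1
    rw [← orderOf_dvd_iff_pow_eq_one, hoc]
    exact h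
  have hmn : m = n := by
    by_contra hne
    apply hnd
    have : p ∣ p ^ (m - n) := dvd_pow_self p (by omega)
    exact Dvd.dvd.mul_right (Dvd.dvd.mul_left (Dvd.dvd.mul_left this _) _) _
  have hchoose : ¬ p ∣ (p ^ (n - 1)).choose 2 := fun h => hnd (Dvd.dvd.mul_left h _)
  have h2k : 2 * (p ^ (n - 1)).choose 2 = p ^ (n - 1) * (p ^ (n - 1) - 1) := by
    rw [Nat.choose_two_right, mul_comm, Nat.div_mul_cancel (Nat.even_mul_pred_self _).two_dvd]
  have hp2 : p = 2 := by
    by_contra hne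
    apply hchoose
    have h1 : p ∣ 2 * (p ^ (n - 1)).choose 2 := by
      rw [h2k]
      exact Dvd.dvd.mul_right (dvd_pow_self p (by omega)) _
    rcases (hp.dvd_mul).1 h1 with h | h
    · exact absurd ((Nat.prime_dvd_prime_iff_eq hp Nat.prime_two).1 h) hne
    · exact h
  subst hp2
  have hn2' : n = 2 := by
    by_contra hne
    apply hchoose
    obtain ⟨n', rfl⟩ : ∃ n', n = n' + 3 := ⟨n - 3, by omega⟩
    have h1 : 2 ^ (n' + 3 - 1) = 2 * (2 * 2 ^ n') := by
      have : n' + 3 - 1 = n' + 2 := by omega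
      rw [this]; ring
    rw [h1] at h2k
    rw [h1]
    have h3 : (2 * (2 * 2 ^ n')).choose 2 = 2 * (2 ^ n' * (2 * (2 * 2 ^ n') - 1)) := by
      have : 2 * (2 * (2 * 2 ^ n')).choose 2 = 2 * (2 * (2 ^ n' * (2 * (2 * 2 ^ n') - 1))) := by
        rw [h2k]; ring
      omega
    rw [h3]
    exact Dvd.intro _ rfl
  subst hn2'
  subst hmn
  have ha4 : a ^ 4 = 1 := by rw [← orderOf_dvd_iff_pow_eq_one, hm]; norm_num
  have hb4 : b ^ 4 = 1 := by rw [← orderOf_dvd_iff_pow_eq_one, hnb]; norm_num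
  have hodd : ∀ (u : G) (r : ℕ), u ^ 4 = 1 → ¬ 2 ∣ r → u ^ (r * 2 ^ (2 - 1)) = u ^ 2 := by
    intro u r hu hr
    obtain ⟨k, hk⟩ : ∃ k, r = 2 * k + 1 := ⟨r / 2, by omega⟩
    have : r * 2 ^ (2 - 1) = 4 * k + 2 := by rw [hk]; ring
    rw [this, pow_add, pow_mul, hu, one_pow, one_mul]
  have hca2 : c = a ^ 2 := by rw [hcs, hodd a s ha4 hsp]
  have hcb2 : c = b ^ 2 := by rw [hct, hodd b t hb4 ht]
  refine ⟨a, b, ha4, ?_, ?_, ?_⟩
  · rw [← hca2]; exact hc1
  · rw [← hca2, ← hcb2]
  · calc b⁻¹ * a * b = b⁻¹ * (a * b) := by group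
      _ = b⁻¹ * (b * a * c) := by rw [habc]
      _ = a * c := by group
      _ = a⁻¹ := by
        rw [hca2, eq_inv_iff_mul_eq_one]
        have : a * a ^ 2 * a = a ^ 4 := by group
        rw [this, ha4]

/-- The homomorphism from the quaternion group given by two elements satisfying the relations. -/
theorem exists_hom (x y : G) (hx4 : x ^ 4 = 1) (hy : y ^ 2 = x ^ 2) (hxy : y⁻¹ * x * y = x⁻¹) :
    ∃ φ : QuaternionGroup 2 →* G, (∀ i, φ (QuaternionGroup.a i) = x ^ i.val) ∧ (∀ i, φ (QuaternionGroup.xa i) = y * x ^ i.val) := by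
  let f : QuaternionGroup 2 → G := fun q => match q with
    | QuaternionGroup.a i => x ^ i.val
    | QuaternionGroup.xa i => y * x ^ i.val
  have hfa : ∀ i, f (QuaternionGroup.a i) = x ^ i.val := fun _ => rfl
  have hfxa : ∀ i, f (QuaternionGroup.xa i) = y * x ^ i.val := fun _ => rfl
  have hpow : ∀ n : ℕ, x ^ n = x ^ (n % 4) := fun n => pow_eq_pow_mod n hx4
  have hval : ∀ i j : ZMod (2 * 2), (i + j).val = (i.val + j.val) % 4 := fun i j => ZMod.val_add i j
  have hinv : ∀ n : ℕ, x ^ n * y = y * x ^ (3 * n) := by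
    intro n
    have h1 : x * y = y * x ^ 3 := by
      have : x⁻¹ = x ^ 3 := by
        rw [inv_eq_iff_mul_eq_one, ← pow_succ', hx4]
      rw [← this, ← hxy]; group
    induction n with
    | zero => simp
    | succ n ih =>
      rw [pow_succ, mul_assoc, h1, ← mul_assoc, ih, mul_assoc, ← pow_add]
      congr 2
  have hsub : ∀ i j : ZMod (2 * 2), (j - i).val = (3 * i.val + j.val) % 4 := by decide
  have hsub2 : ∀ i j : ZMod (2 * 2), (((2 : ℕ) : ZMod (2 * 2)) + j - i).val = (2 + (3 * i.val + j.val)) % 4 := by decide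
  let φ : QuaternionGroup 2 →* G := MonoidHom.mk' f (by
    intro p q
    rcases p with i | i <;> rcases q with j | j
    · rw [QuaternionGroup.a_mul_a, hfa, hfa, hfa, hval, ← hpow, pow_add]
    · rw [QuaternionGroup.a_mul_xa, hfa, hfxa, hfxa, ← mul_assoc, hinv, mul_assoc, ← pow_add, hsub, ← hpow]
    · rw [QuaternionGroup.xa_mul_a, hfa, hfxa, hfxa, hval, ← hpow, pow_add, mul_assoc]
    · rw [QuaternionGroup.xa_mul_xa, hfa, hfxa, hfxa, hsub2, ← hpow]
      calc x ^ (2 + (3 * i.val + j.val)) = y ^ 2 * (x ^ (3 * i.val) * x ^ j.val) := by rw [hy, ← pow_add, ← pow_add]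
        _ = y * (y * x ^ (3 * i.val)) * x ^ j.val := by rw [pow_two]; group
        _ = y * (x ^ i.val * y) * x ^ j.val := by rw [← hinv]
        _ = y * x ^ i.val * (y * x ^ j.val) := by group)
  exact ⟨φ, fun _ => rfl, fun _ => rfl⟩

/-- A finite non-abelian group in which every subgroup is normal is the internal direct product of a subgroup isomorphic to the quaternion group of order `8`, an elementary abelian `2`-subgroup and an abelian subgroup of odd order. -/
theorem result {G : Type*} [Group G] [Finite G] (hna : ¬ IsMulCommutative G) (hn : ∀ H : Subgroup G, H.Normal) : ∃ Q E A : Subgroup G, Nonempty (Q ≃* QuaternionGroup 2) ∧ Cfsg.IsElementaryAbelian 2 E ∧ IsMulCommutative A ∧ Odd (Nat.card A) ∧ E ⊓ A = ⊥ ∧ Q ⊓ (E ⊔ A) = ⊥ ∧ Q ⊔ (E ⊔ A) = ⊤ := by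
  classical
  have hex : ∃ x y : G, ¬ Commute x y := by
    by_contra hcon
    push Not at hcon
    exact hna ⟨⟨fun a b => hcon a b⟩⟩
  obtain ⟨a, b, ha4, ha2, hb2, hba⟩ := lemmaA hn hex
  obtain ⟨φ, hφa, hφx⟩ := exists_hom a b ha4 hb2 hba
  set c := a ^ 2 with hc
  have hcc : c * c = 1 := by
    have : c * c = a ^ 4 := by rw [hc]; group
    rw [this, ha4]
  have hab : a * b = b * a⁻¹ := by rw [← hba]; group
  have hnab : ¬ Commute a b := by
    intro h
    apply ha2
    have h1 : b * a = b * a⁻¹ := by rw [← hab, h.eq]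
    have h2 := mul_left_cancel h1
    rw [hc, pow_two]
    nth_rewrite 1 [h2]
    exact inv_mul_cancel a
  -- powers of a
  have hpowers : ∀ i : ℕ, a ^ i = 1 ∨ a ^ i = a ∨ a ^ i = c ∨ a ^ i = a⁻¹ := by
    intro i
    rw [pow_eq_pow_mod i ha4]
    have h : i % 4 < 4 := Nat.mod_lt _ (by norm_num)
    have h3 : a ^ 3 = a⁻¹ := by
      rw [eq_inv_iff_mul_eq_one, ← pow_succ, ha4]
    interval_cases i % 4
    · left; simp
    · right; left; simp
    · right; right; left; rfl
    · right; right; right; exact h3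
  have hinj : Function.Injective φ := by
    rw [injective_iff_map_eq_one]
    intro q hq
    have horder : orderOf a = 4 := by
      have : Fact (Nat.Prime 2) := ⟨Nat.prime_two⟩
      have := orderOf_eq_prime_pow (p := 2) (n := 1) (x := a) (by simpa using ha2) (by simpa using ha4)
      simpa using this
    rcases q with i | i
    · rw [hφa] at hq
      have h1 : orderOf a ∣ i.val := orderOf_dvd_of_pow_eq_one hq
      rw [horder] at h1
      have h2 : i.val < 4 := ZMod.val_lt i
      have h3 : i.val = 0 := Nat.eq_zero_of_dvd_of_lt h1 h2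
      have h4 : i = 0 := (ZMod.val_eq_zero i).1 h3
      rw [h4]; rfl
    · exfalso
      rw [hφx] at hq
      apply hnab
      have : b = (a ^ i.val)⁻¹ := eq_inv_of_mul_eq_one_left hq
      rw [this]
      exact ((Commute.refl a).pow_right _).inv_right
  let Q : Subgroup G := φ.range
  have hQe : Nonempty (Q ≃* QuaternionGroup 2) := ⟨(MonoidHom.ofInjective hinj).symm⟩
  have haQ : a ∈ Q := ⟨QuaternionGroup.a 1, by
    rw [hφa]
    have : (1 : ZMod (2 * 2)).val = 1 := by decide
    rw [this, pow_one]⟩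
  have hbQ : b ∈ Q := ⟨QuaternionGroup.xa 0, by rw [hφx]; simp⟩
  have hcQ : c ∈ Q := Q.pow_mem haQ 2
  -- the centralizer
  let C : Subgroup G := Subgroup.centralizer {a} ⊓ Subgroup.centralizer {b}
  have hC : ∀ g, g ∈ C ↔ g * a = a * g ∧ g * b = b * g := by
    intro g
    rw [Subgroup.mem_inf, Subgroup.mem_centralizer_singleton_iff, Subgroup.mem_centralizer_singleton_iff]
  have hcC : c ∈ C := by
    rw [hC]
    constructor
    · rw [hc]; group
    · have : c * b = b * c := by
        rw [← hb2]; group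
      exact this
  have hQC : ∀ q ∈ Q, q ∈ C → q = 1 ∨ q = c := by
    rintro q ⟨r, rfl⟩ hq
    rw [hC] at hq
    rcases r with i | i
    · rw [hφa] at hq ⊢
      rcases hpowers i.val with h | h | h | h
      · left; exact h
      · exfalso; rw [h] at hq; exact hnab hq.2
      · right; exact h
      · exfalso; rw [h] at hq
        apply hnab
        have : Commute a⁻¹ b := hq.2
        simpa using this.inv_left
    · exfalso
      rw [hφx] at hq
      apply hnab
      have h1 : Commute (b * a ^ i.val) a := hq.1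
      have h2 : Commute (a ^ i.val) a := (Commute.refl a).pow_left _
      have h3 : Commute (b * a ^ i.val * (a ^ i.val)⁻¹) a := h1.mul_left h2.inv_left
      have : b * a ^ i.val * (a ^ i.val)⁻¹ = b := by group
      rw [this] at h3
      exact h3.symm
  -- G = Q C
  have hconj : ∀ u : G, u ^ 4 = 1 → u ^ 2 ≠ 1 → ∀ g : G, g * u * g⁻¹ = u ∨ g * u * g⁻¹ = u⁻¹ := by
    intro u hu4 hu2 g
    have h1 : g * u * g⁻¹ ∈ Subgroup.zpowers u := (hn (Subgroup.zpowers u)).conj_mem u (Subgroup.mem_zpowers u) g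
    rw [← mem_powers_iff_mem_zpowers] at h1
    obtain ⟨i, hi⟩ := h1
    have hi' : u ^ i = g * u * g⁻¹ := hi
    rw [pow_eq_pow_mod i hu4] at hi'
    have h : i % 4 < 4 := Nat.mod_lt _ (by norm_num)
    have h3 : u ^ 3 = u⁻¹ := by
      rw [eq_inv_iff_mul_eq_one, ← pow_succ, hu4]
    have hsq : (g * u * g⁻¹) ^ 2 ≠ 1 := by
      rw [conj_pow]
      intro h
      apply hu2
      have : u ^ 2 = g⁻¹ * (g * u ^ 2 * g⁻¹) * g := by group
      rw [this, h]; group
    interval_cases i % 4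
    · exfalso; apply hsq; rw [← hi']; simp
    · left; rw [← hi', pow_one]
    · exfalso; apply hsq; rw [← hi', ← pow_mul, hu4]
    · right; rw [← hi', h3]
  have hb4 : b ^ 4 = 1 := by
    have : b ^ 4 = b ^ 2 * b ^ 2 := by group
    rw [this, hb2, hcc]
  have hb2' : b ^ 2 ≠ 1 := by rw [hb2]; exact ha2
  have hbab : b * a * b⁻¹ = a⁻¹ := by
    have h1 : a * b = b * a⁻¹ := hab
    have h2 : a⁻¹ * b = b * a := by
      calc a⁻¹ * b = a⁻¹ * (b * a⁻¹) * a := by group
        _ = a⁻¹ * (a * b) * a := by rw [h1]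
        _ = b * a := by group
    rw [← h2]; group
  have haba : a * b * a⁻¹ = b⁻¹ := by
    -- a b a⁻¹ = b a⁻¹ a⁻¹ = b c⁻¹ = b c = b³ = b⁻¹
    rw [hab]
    have h1 : b * a⁻¹ * a⁻¹ = b * (a ^ 2)⁻¹ := by group
    rw [h1, ← hc, ← hb2]; group
  have hGQC : ∀ g : G, ∃ q ∈ Q, ∃ x ∈ C, g = q * x := by
    intro g
    rcases hconj a ha4 ha2 g with h1 | h1 <;> rcases hconj b hb4 hb2' g with h2 | h2
    · refine ⟨1, Q.one_mem, g, ?_, by group⟩
      rw [hC]
      exact ⟨mul_inv_eq_iff_eq_mul.1 h1, mul_inv_eq_iff_eq_mul.1 h2⟩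
    · -- fixes a, inverts b : multiply by a⁻¹
      refine ⟨a, haQ, a⁻¹ * g, ?_, by group⟩
      rw [hC]
      constructor
      · calc a⁻¹ * g * a = a⁻¹ * (g * a * g⁻¹) * g := by group
          _ = a⁻¹ * a * g := by rw [h1]
          _ = a * (a⁻¹ * g) := by group
      · calc a⁻¹ * g * b = a⁻¹ * (g * b * g⁻¹) * g := by group
          _ = a⁻¹ * b⁻¹ * g := by rw [h2]
          _ = a⁻¹ * (a * b * a⁻¹) * g := by rw [haba]
          _ = b * (a⁻¹ * g) := by group
    · refine ⟨b, hbQ, b⁻¹ * g, ?_, by group⟩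
      rw [hC]
      constructor
      · calc b⁻¹ * g * a = b⁻¹ * (g * a * g⁻¹) * g := by group
          _ = b⁻¹ * a⁻¹ * g := by rw [h1]
          _ = b⁻¹ * (b * a * b⁻¹) * g := by rw [hbab]
          _ = a * (b⁻¹ * g) := by group
      · calc b⁻¹ * g * b = b⁻¹ * (g * b * g⁻¹) * g := by group
          _ = b⁻¹ * b * g := by rw [h2]
          _ = b * (b⁻¹ * g) := by group
    · refine ⟨a * b, Q.mul_mem haQ hbQ, (a * b)⁻¹ * g, ?_, by group⟩
      have h3 : (a * b) * a * (a * b)⁻¹ = a⁻¹ := by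
        calc (a * b) * a * (a * b)⁻¹ = a * (b * a * b⁻¹) * a⁻¹ := by group
          _ = a * a⁻¹ * a⁻¹ := by rw [hbab]
          _ = a⁻¹ := by group
      have h4 : (a * b) * b * (a * b)⁻¹ = b⁻¹ := by
        calc (a * b) * b * (a * b)⁻¹ = a * b * a⁻¹ := by group
          _ = b⁻¹ := haba
      rw [hC]
      constructor
      · calc (a * b)⁻¹ * g * a = (a * b)⁻¹ * (g * a * g⁻¹) * g := by group
          _ = (a * b)⁻¹ * a⁻¹ * g := by rw [h1]
          _ = (a * b)⁻¹ * ((a * b) * a * (a * b)⁻¹) * g := by rw [h3]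
          _ = a * ((a * b)⁻¹ * g) := by group
      · calc (a * b)⁻¹ * g * b = (a * b)⁻¹ * (g * b * g⁻¹) * g := by group
          _ = (a * b)⁻¹ * b⁻¹ * g := by rw [h2]
          _ = (a * b)⁻¹ * ((a * b) * b * (a * b)⁻¹) * g := by rw [h4]
          _ = b * ((a * b)⁻¹ * g) := by group
  -- C has no elements of order 4
  have hC4 : ∀ x ∈ C, x ^ 4 = 1 → x ^ 2 = 1 := by
    intro x hx hx4
    by_contra hx2
    rw [hC] at hx
    have hxa : Commute x a := hx.1
    have hxb : Commute x b := hx.2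
    -- consider a x
    have h4 : (a * x) ^ 4 = 1 := by rw [hxa.symm.mul_pow, ha4, hx4, one_mul]
    have h1 : (a * x) * b * (a * x)⁻¹ = b⁻¹ := by
      calc (a * x) * b * (a * x)⁻¹ = a * (x * b) * x⁻¹ * a⁻¹ := by group
        _ = a * (b * x) * x⁻¹ * a⁻¹ := by rw [hxb.eq]
        _ = a * b * a⁻¹ := by group
        _ = b⁻¹ := haba
    have h2 : b * (a * x) * b⁻¹ = a⁻¹ * x := by
      calc b * (a * x) * b⁻¹ = (b * a * b⁻¹) * (b * x) * b⁻¹ := by group
        _ = a⁻¹ * (x * b) * b⁻¹ := by rw [hbab, hxb.eq]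
        _ = a⁻¹ * x := by group
    have h3 : a⁻¹ * x ∈ Subgroup.zpowers (a * x) := by
      rw [← h2]
      exact (hn _).conj_mem _ (Subgroup.mem_zpowers _) b
    rw [← mem_powers_iff_mem_zpowers] at h3
    obtain ⟨i, hi⟩ := h3
    have hi' : (a * x) ^ i = a⁻¹ * x := hi
    rw [pow_eq_pow_mod i h4] at hi'
    have hlt : i % 4 < 4 := Nat.mod_lt _ (by norm_num)
    have hax : a = x → False := by
      intro h
      apply hnab
      rw [h]; exact hxb
    have hc' : c ≠ 1 := ha2
    interval_cases i % 4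
    · rw [pow_zero] at hi'
      exact hax (inv_mul_eq_one.1 hi'.symm)
    · rw [pow_one] at hi'
      have h5 := mul_right_cancel hi'
      apply ha2
      rw [hc, pow_two]
      nth_rewrite 1 [h5]
      exact inv_mul_cancel a
    · -- a² x² = a⁻¹ x → x = a^{-3} = a
      rw [hxa.symm.mul_pow] at hi'
      have h5 : x = a⁻¹ * (a ^ 2)⁻¹ := by
        have : a ^ 2 * x ^ 2 * x⁻¹ = a⁻¹ * x * x⁻¹ := by rw [hi']
        have h6 : a ^ 2 * x = a⁻¹ := by
          have e1 : a ^ 2 * x ^ 2 * x⁻¹ = a ^ 2 * x := by group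
          have e2 : a⁻¹ * x * x⁻¹ = a⁻¹ := by group
          rw [e1, e2] at this; exact this
        have h7 : x = (a ^ 2)⁻¹ * (a ^ 2 * x) := by group
        rw [h7, h6]; group
      have h6 : a⁻¹ * (a ^ 2)⁻¹ = a := by
        have : a⁻¹ * (a ^ 2)⁻¹ = (a ^ 4)⁻¹ * a := by group
        rw [this, ha4]; group
      rw [h6] at h5
      exact hax h5.symm
    · -- a³ x³ = a⁻¹ x → x² = 1 as a³ = a⁻¹
      rw [hxa.symm.mul_pow] at hi'
      have h5 : a ^ 3 = a⁻¹ := by rw [eq_inv_iff_mul_eq_one, ← pow_succ, ha4]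
      rw [h5] at hi'
      have h6 := mul_left_cancel hi'
      apply hx2
      have : x ^ 2 = x ^ 3 * x⁻¹ := by group
      rw [this, h6]; group
  -- C is abelian
  have hCab : ∀ x ∈ C, ∀ y ∈ C, x * y = y * x := by
    by_contra hcon
    push Not at hcon
    obtain ⟨x, hx, y, hy, hxy⟩ := hcon
    have hnC : ∀ H : Subgroup C, H.Normal := by
      intro H
      have h1 : H = (H.map C.subtype).subgroupOf C := by
        ext z
        rw [Subgroup.mem_subgroupOf]
        constructor
        · intro hz; exact ⟨z, hz, rfl⟩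
        · rintro ⟨w, hw, hwz⟩
          have : w = z := Subtype.ext hwz
          exact this ▸ hw
      rw [h1]
      have := hn (H.map C.subtype)
      infer_instance
    obtain ⟨u, v, hu4, hu2, _, _⟩ := lemmaA (G := C) hnC ⟨⟨x, hx⟩, ⟨y, hy⟩, fun h => hxy (congrArg Subtype.val h)⟩
    apply hu2
    apply Subtype.ext
    have := hC4 u u.2 (by
      have := congrArg Subtype.val hu4
      simpa using this)
    simpa using this
  -- T
  let T : Subgroup G :=
    { carrier := {x | x ∈ C ∧ x ^ 2 = 1}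
      one_mem' := ⟨C.one_mem, one_pow 2⟩
      mul_mem' := by
        rintro x y ⟨hx, hx2⟩ ⟨hy, hy2⟩
        refine ⟨C.mul_mem hx hy, ?_⟩
        have : Commute x y := hCab x hx y hy
        rw [this.mul_pow, hx2, hy2, one_mul]
      inv_mem' := by
        rintro x ⟨hx, hx2⟩
        exact ⟨C.inv_mem hx, by rw [inv_pow, hx2, inv_one]⟩ }
  have hT : ∀ x, x ∈ T ↔ x ∈ C ∧ x ^ 2 = 1 := fun _ => Iff.rfl
  have hcT : c ∈ T := ⟨hcC, by rw [pow_two]; exact hcc⟩
  -- odd part
  set N := Nat.card G / 2 ^ (Nat.card G).factorization 2 with hN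
  have hNodd : ¬ 2 ∣ N := Nat.not_dvd_ordCompl Nat.prime_two Nat.card_pos.ne'
  have hNmul : 2 ^ (Nat.card G).factorization 2 * N = Nat.card G := Nat.ordProj_mul_ordCompl_eq_self _ _
  let A : Subgroup G :=
    { carrier := {x | x ∈ C ∧ x ^ N = 1}
      one_mem' := ⟨C.one_mem, one_pow N⟩
      mul_mem' := by
        rintro x y ⟨hx, hx2⟩ ⟨hy, hy2⟩
        refine ⟨C.mul_mem hx hy, ?_⟩
        have : Commute x y := hCab x hx y hy
        rw [this.mul_pow, hx2, hy2, one_mul]
      inv_mem' := by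
        rintro x ⟨hx, hx2⟩
        exact ⟨C.inv_mem hx, by rw [inv_pow, hx2, inv_one]⟩ }
  have hA : ∀ x, x ∈ A ↔ x ∈ C ∧ x ^ N = 1 := fun _ => Iff.rfl
  have hTA : ∀ x : G, x ^ 2 = 1 → x ^ N = 1 → x = 1 := by
    intro x h1 h2
    have h3 := orderOf_dvd_of_pow_eq_one h1
    have h4 := orderOf_dvd_of_pow_eq_one h2
    rw [← orderOf_eq_one_iff]
    rcases (Nat.dvd_prime Nat.prime_two).1 h3 with h | h
    · exact h
    · rw [h] at h4; exact absurd h4 hNodd
  have hCTA : ∀ x ∈ C, ∃ u ∈ T, ∃ v ∈ A, x = u * v := by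
    intro x hx
    -- x^(2N) = 1
    have h1 : x ^ (2 * N) = 1 := by
      have h2 : ∀ k : ℕ, x ^ (2 ^ k * N) = 1 → x ^ (2 * N) = 1 := by
        intro k
        induction k with
        | zero => intro h; rw [pow_zero, one_mul] at h; rw [mul_comm, pow_mul, h, one_pow]
        | succ k ih =>
          intro h
          rcases Nat.eq_zero_or_pos k with rfl | hk
          · simpa using h
          · apply ih
            obtain ⟨k', rfl⟩ := Nat.exists_eq_succ_of_ne_zero hk.ne'
            have h3 : (x ^ (2 ^ k' * N)) ^ 4 = 1 := by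
              rw [← pow_mul, ← h]
              congr 1
              rw [Nat.succ_eq_add_one]
              ring
            have h4 := hC4 _ (C.pow_mem hx _) h3
            rw [← pow_mul] at h4
            rw [← h4]
            congr 1
            rw [Nat.succ_eq_add_one]
            ring
      apply h2 ((Nat.card G).factorization 2)
      rw [hNmul]
      exact pow_card_eq_one'
    have hcop : Nat.Coprime 2 N := (Nat.Prime.coprime_iff_not_dvd Nat.prime_two).2 hNodd
    -- bezout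
    have hbez : (2 : ℤ) * Nat.gcdA 2 N + (N : ℤ) * Nat.gcdB 2 N = 1 := by
      have := Nat.gcd_eq_gcd_ab 2 N
      rw [hcop] at this
      exact_mod_cast this.symm
    refine ⟨x ^ ((N : ℤ) * Nat.gcdB 2 N), ?_, x ^ ((2 : ℤ) * Nat.gcdA 2 N), ?_, ?_⟩
    · rw [hT]
      refine ⟨C.zpow_mem hx _, ?_⟩
      rw [← zpow_natCast, ← zpow_mul]
      have : (N : ℤ) * Nat.gcdB 2 N * ((2 : ℕ) : ℤ) = ((2 * N : ℕ) : ℤ) * Nat.gcdB 2 N := by push_cast; ring
      rw [this, zpow_mul, zpow_natCast, h1, one_zpow]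
    · rw [hA]
      refine ⟨C.zpow_mem hx _, ?_⟩
      rw [← zpow_natCast, ← zpow_mul]
      have : (2 : ℤ) * Nat.gcdA 2 N * (N : ℤ) = ((2 * N : ℕ) : ℤ) * Nat.gcdA 2 N := by push_cast; ring
      rw [this, zpow_mul, zpow_natCast, h1, one_zpow]
    · rw [← zpow_add, add_comm, hbez, zpow_one]
  -- maximal subgroup E of T avoiding c
  have hfin : Set.Finite {E : Subgroup G | E ≤ T ∧ c ∉ E} := Set.toFinite _
  obtain ⟨E, hE⟩ := hfin.exists_maximal ⟨⊥, bot_le, fun h => ha2 (Subgroup.mem_bot.1 h)⟩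
  have hET : E ≤ T := hE.prop.1
  have hcE : c ∉ E := hE.prop.2
  have hTE : ∀ x ∈ T, x ∈ E ∨ c * x ∈ E := by
    intro x hx
    by_cases hxE : x ∈ E
    · left; exact hxE
    right
    have hxC : x ∈ C := ((hT x).1 hx).1
    have hx2 : x * x = 1 := by rw [← pow_two]; exact ((hT x).1 hx).2
    let F : Subgroup G :=
      { carrier := {y | y ∈ E ∨ y * x ∈ E}
        one_mem' := Or.inl E.one_mem
        mul_mem' := by
          rintro u v hu hv
          rcases hu with hu | hu <;> rcases hv with hv | hv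
          · left; exact E.mul_mem hu hv
          · right; rw [mul_assoc]; exact E.mul_mem hu hv
          · right
            have hvC : v ∈ C := ((hT v).1 (hET hv)).1
            have : u * v * x = (u * x) * v := by
              rw [mul_assoc, hCab v hvC x hxC]; group
            rw [this]; exact E.mul_mem hu hv
          · left
            have hvxC : v * x ∈ C := ((hT _).1 (hET hv)).1
            have : u * v = (u * x) * (v * x) := by
              have h1 := hCab x hxC _ hvxC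
              calc u * v = u * v * (x * x) := by rw [hx2, mul_one]
                _ = u * ((v * x) * x) := by group
                _ = u * (x * (v * x)) := by rw [h1]
                _ = _ := by group
            rw [this]; exact E.mul_mem hu hv
        inv_mem' := by
          rintro u hu
          rcases hu with hu | hu
          · left; exact E.inv_mem hu
          · right
            have h1 := E.inv_mem hu
            have huC : u * x ∈ C := ((hT _).1 (hET hu)).1
            have h2 := hCab x hxC _ (C.inv_mem huC)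
            have : u⁻¹ * x = (u * x)⁻¹ := by
              calc u⁻¹ * x = x * (u * x)⁻¹ * x := by group
                _ = (u * x)⁻¹ * x * x := by rw [h2]
                _ = (u * x)⁻¹ * (x * x) := by group
                _ = (u * x)⁻¹ := by rw [hx2, mul_one]
            rw [this]; exact h1 }
    have hEF : E ≤ F := fun y hy => Or.inl hy
    have hxF : x ∈ F := by right; rw [hx2]; exact E.one_mem
    by_contra hcx
    have hFT : F ≤ T := by
      intro y hy
      rcases hy with hy | hy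
      · exact hET hy
      · have : y = (y * x) * x := by rw [mul_assoc, hx2, mul_one]
        rw [this]; exact T.mul_mem (hET hy) hx
    have hcF : c ∉ F := by
      rintro (h | h)
      · exact hcE h
      · exact hcx h
    have := hE.le_of_ge (⟨hFT, hcF⟩ : F ≤ T ∧ c ∉ F) hEF
    exact hxE (this hxF)
  have hEA : ∀ z ∈ E ⊔ A, ∃ e ∈ E, ∃ v ∈ A, z = e * v := by
    intro z hz
    have := hn A
    rw [← SetLike.mem_coe, Subgroup.mul_normal] at hz
    obtain ⟨e, he, v, hv, h⟩ := Set.mem_mul.1 hz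
    exact ⟨e, he, v, hv, h.symm⟩
  refine ⟨Q, E, A, hQe, ⟨⟨⟨?_⟩⟩, ?_⟩, ⟨⟨?_⟩⟩, ?_, ?_, ?_, ?_⟩
  · rintro ⟨u, hu⟩ ⟨v, hv⟩
    exact Subtype.ext (hCab u ((hT _).1 (hET hu)).1 v ((hT _).1 (hET hv)).1)
  · intro u hu
    exact ((hT _).1 (hET hu)).2
  · rintro ⟨u, hu⟩ ⟨v, hv⟩
    exact Subtype.ext (hCab u ((hA _).1 hu).1 v ((hA _).1 hv).1)
  · rw [← Nat.not_even_iff_odd, even_iff_two_dvd]
    intro h
    have : Fact (Nat.Prime 2) := ⟨Nat.prime_two⟩
    obtain ⟨u, hu⟩ := exists_prime_orderOf_dvd_card' (G := A) 2 h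
    have h1 : (u : G) ^ 2 = 1 := by
      have : orderOf (u : G) = 2 := by rw [← hu, Subgroup.orderOf_coe]
      rw [← this, pow_orderOf_eq_one]
    have h2 := hTA u h1 ((hA _).1 u.2).2
    have h3 : u = 1 := Subtype.ext h2
    rw [h3, orderOf_one] at hu
    omega
  · rw [eq_bot_iff]
    rintro x ⟨hx1, hx2⟩
    exact Subgroup.mem_bot.2 (hTA x ((hT _).1 (hET hx1)).2 ((hA _).1 hx2).2)
  · rw [eq_bot_iff]
    rintro x ⟨hx1, hx2⟩
    obtain ⟨e, he, v, hv, hxev⟩ := hEA x hx2
    have hxC : x ∈ C := by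
      rw [hxev]; exact C.mul_mem ((hT _).1 (hET he)).1 ((hA _).1 hv).1
    rcases hQC x hx1 hxC with h | h
    · rw [h]; exact Subgroup.mem_bot.2 rfl
    · exfalso
      have h1 : v = e⁻¹ * c := by rw [← h, hxev]; group
      have h2 : v ∈ T := by rw [h1]; exact T.mul_mem (T.inv_mem (hET he)) hcT
      have h3 := hTA v ((hT _).1 h2).2 ((hA _).1 hv).2
      apply hcE
      rw [← h, hxev, h3, mul_one]; exact he
  · rw [eq_top_iff]
    intro g _
    obtain ⟨q, hq, x, hx, rfl⟩ := hGQC g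
    obtain ⟨u, hu, v, hv, rfl⟩ := hCTA x hx
    rcases hTE u hu with h | h
    · exact Subgroup.mul_mem_sup hq (Subgroup.mul_mem_sup h hv)
    · have : q * (u * v) = (q * c) * ((c * u) * v) := by
        calc q * (u * v) = q * (c * c) * (u * v) := by rw [hcc, mul_one]
          _ = _ := by group
      rw [this]
      exact Subgroup.mul_mem_sup (Q.mul_mem hq hcQ) (Subgroup.mul_mem_sup h hv)

end Cfsg.Agent.S4211
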