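import Mathlib
import Cfsg.Statements.S4230

set_option autoImplicit false
open Cfsg

namespace Cfsg.Agent.S4230

/-- Let p be an odd prime, q a natural number not divisible by p, and e the multiplicative order of q modulo p. For a natural number f, p divides the value at q of the f-th cyclotomic polynomial if and only if f = e·p^j for some j ≥ 0. -/
theorem result (p q f : ℕ) (hp : p.Prime) (hp2 : p ≠ 2) (hpq : ¬ p ∣ q) :
    ((p : ℤ) ∣ (Polynomial.cyclotomic f ℤ).eval (q : ℤ)) ↔ ∃ j : ℕ, f = orderOf (q : ZMod p) * p ^ j := by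
  have : Fact p.Prime := ⟨hp⟩
  have hq0 : (q : ZMod p) ≠ 0 := by
    rw [Ne, ZMod.natCast_eq_zero_iff]; exact hpq
  have hepos : 0 < orderOf (q : ZMod p) := by
    rw [orderOf_pos_iff, isOfFinOrder_iff_pow_eq_one]
    exact ⟨p - 1, Nat.sub_pos_of_lt hp.one_lt, ZMod.pow_card_sub_one_eq_one hq0⟩
  have hecop : ¬ p ∣ orderOf (q : ZMod p) := by
    intro h
    have h1 : orderOf (q : ZMod p) ∣ p - 1 := orderOf_dvd_of_pow_eq_one (ZMod.pow_card_sub_one_eq_one hq0)
    have h2 := Nat.le_of_dvd (Nat.sub_pos_of_lt hp.one_lt) (h.trans h1)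
    have := hp.two_le
    omega
  have hroot : ((p : ℤ) ∣ (Polynomial.cyclotomic f ℤ).eval (q : ℤ)) ↔ (Polynomial.cyclotomic f (ZMod p)).IsRoot (q : ZMod p) := by
    rw [← ZMod.intCast_zmod_eq_zero_iff_dvd, Polynomial.IsRoot.def, ← Polynomial.map_cyclotomic f (Int.castRingHom (ZMod p))]
    have : Polynomial.eval (q : ZMod p) (Polynomial.map (Int.castRingHom (ZMod p)) (Polynomial.cyclotomic f ℤ)) =
        Int.castRingHom (ZMod p) (Polynomial.eval (q : ℤ) (Polynomial.cyclotomic f ℤ)) := by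
      have := Polynomial.eval_map_apply (f := Int.castRingHom (ZMod p)) (p := Polynomial.cyclotomic f ℤ) (x := (q : ℤ))
      simpa using this
    rw [this]
    rfl
  rw [hroot]
  constructor
  · intro h
    rcases Nat.eq_zero_or_pos f with rfl | hf
    · simp at h
    · obtain ⟨k, m, hm, rfl⟩ := Nat.exists_eq_pow_mul_and_not_dvd hf.ne' p hp.ne_one
      have : NeZero (m : ZMod p) := ⟨by rw [Ne, ZMod.natCast_eq_zero_iff]; exact hm⟩
      rw [Polynomial.isRoot_cyclotomic_prime_pow_mul_iff_of_charP] at h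
      exact ⟨k, by rw [← h.eq_orderOf, mul_comm]⟩
  · rintro ⟨j, rfl⟩
    rw [mul_comm]
    have : NeZero ((orderOf (q : ZMod p) : ℕ) : ZMod p) := ⟨by rw [Ne, ZMod.natCast_eq_zero_iff]; exact hecop⟩
    rw [Polynomial.isRoot_cyclotomic_prime_pow_mul_iff_of_charP]
    exact IsPrimitiveRoot.orderOf _

end Cfsg.Agent.S4230
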