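import Cfsg.Statements.S4234
import Cfsg.Agent.Lib.MaxNzA
import Cfsg.Agent.Lib.MobCard

set_option autoImplicit false
open Cfsg

namespace Cfsg.Agent.S4234

open Cfsg.Agent.Lib Cfsg.Agent.Lib.MobCount Subgroup

theorem fact13 : Fact (Nat.Prime 13) := ⟨by norm_num⟩

attribute [local instance] fact13

theorem fcard : Fintype.card (ZMod 13) = 13 := ZMod.card 13

theorem card_psl : Nat.card (P2 (ZMod 13)) = 1092 := by
  have h := card_P2 (F := ZMod 13) fcard
  generalize Nat.card (P2 (ZMod 13)) = n at h ⊢
  norm_num at h
  omega

theorem card_cases (A : Subgroup (P2 (ZMod 13))) (hA : A ≠ ⊤) :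
    Nat.card A ∣ 14 ∨ Nat.card A ∣ 12 ∨ Nat.card A ∣ 78 := by
  have hd : Nat.card A ∣ 1092 := by rw [← card_psl]; exact card_subgroup_dvd_card A
  have hg : Nat.gcd 2 (13 - 1) = 2 := by norm_num
  rcases psl_cases fcard 13 A hA with ⟨-, -, h⟩ | ⟨C, -, -, -, hc, -, h, -⟩ | ⟨-, h, -⟩ | ⟨-, h, -⟩ | ⟨-, h, -⟩ |
    ⟨-, x, hx⟩ | ⟨g, k, m, hm, hk, -⟩
  · rw [hg] at h
    rcases h with h | h
    · left; exact (Dvd.intro_left 2 rfl).trans h
    · right; left; exact (Dvd.intro_left 2 rfl).trans h
  · rw [hg] at h
    rcases h with h | h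
    · left; rw [hc]; exact h
    · right; left; rw [hc]; exact h
  · right; left; rw [h]
  · rw [h] at hd; exact absurd hd (by norm_num)
  · rw [h] at hd; exact absurd hd (by norm_num)
  · right; right
    have h1 := card_stab (F := ZMod 13) fcard x
    rw [hg] at h1
    have h2 : Nat.card (MulAction.stabilizer (P2 (ZMod 13)) x) = 78 := by
      generalize Nat.card (MulAction.stabilizer (P2 (ZMod 13)) x) = n at h1
      omega
    rw [← h2]
    exact card_dvd_of_le hx
  · exfalso
    have : (13 : ℕ).Prime := by norm_num
    rw [← hk] at this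
    exact Nat.Prime.not_prime_pow hm this

/-- the matrix `diag(2, 7)` -/
def dm : Matrix.SpecialLinearGroup (Fin 2) (ZMod 13) := ⟨!![2, 0; 0, 7], by rw [Matrix.det_fin_two_of]; decide⟩

theorem order_six : orderOf (dm : P2 (ZMod 13)) = 6 := by
  have hpow : ∀ n : ℕ, (dm : P2 (ZMod 13)) ^ n = ((dm ^ n : Matrix.SpecialLinearGroup (Fin 2) (ZMod 13)) : P2 (ZMod 13)) :=
    fun n => rfl
  apply orderOf_eq_of_pow_and_pow_div_prime (by norm_num)
  · rw [hpow, psl_mk_eq_one]
    right
    decide
  · intro p hp hp6
    have h6 : p = 2 ∨ p = 3 := by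
      have : p ∣ 2 * 3 := by simpa using hp6
      rcases (hp.dvd_mul).mp this with h | h
      · left; exact (Nat.prime_dvd_prime_iff_eq hp Nat.prime_two).mp h
      · right; exact (Nat.prime_dvd_prime_iff_eq hp Nat.prime_three).mp h
    rcases h6 with rfl | rfl
    · rw [hpow, Ne, psl_mk_eq_one]
      decide
    · rw [hpow, Ne, psl_mk_eq_one]
      decide

theorem num : MaxNz.Num (P2 (ZMod 13)) where
  card := card_psl
  simple := Matrix.ProjectiveSpecialLinearGroup.rank_two_simple (by rw [Nat.card_eq_fintype_card, fcard]; norm_num)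
  orders := card_cases
  six := ⟨_, order_six⟩

theorem mem_of_coprime {X : Type*} [Group X] (H : Subgroup X) (c : X) (m n : ℕ) (hmn : Nat.Coprime m n)
    (hm : c ^ m ∈ H) (hn : c ^ n ∈ H) : c ∈ H := by
  have h1 : (c ^ m) ^ (Nat.gcdA m n) * (c ^ n) ^ (Nat.gcdB m n) = c := by
    have := Nat.gcd_eq_gcd_ab m n
    rw [hmn.gcd_eq_one] at this
    rw [← zpow_natCast, ← zpow_natCast, ← zpow_mul, ← zpow_mul, ← zpow_add, ← this]
    simp
  rw [← h1]
  exact mul_mem (zpow_mem hm _) (zpow_mem hn _)

/-- Let K be isomorphic to PSL(2, 13) or to SL(2, 13) and let S be a finite abelian group of order coprime to the order of K. Then in the direct product K × S every subgroup that is not normal has a normalizer that is a maximal subgroup. -/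
theorem result {K S : Type*} [Group K] [CommGroup S] [Finite K] [Finite S]
    (hK : Nonempty (K ≃* Matrix.ProjectiveSpecialLinearGroup (Fin 2) (ZMod 13)) ∨
      Nonempty (K ≃* Matrix.SpecialLinearGroup (Fin 2) (ZMod 13)))
    (hKS : (Nat.card K).Coprime (Nat.card S)) (H : Subgroup (K × S)) (hH : ¬ H.Normal) :
    IsCoatom (Subgroup.normalizer (H : Set (K × S))) := by
  rcases hK with ⟨⟨e⟩⟩ | ⟨⟨e⟩⟩
  · have hcK : Nat.card K = 1092 := by rw [Nat.card_congr e.toEquiv, card_psl]
    rw [hcK] at hKS
    refine MaxNz.coatom_ext num (e.toMonoidHom.comp (MonoidHom.fst K S)) ?_ ?_ ?_ H hH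
    · intro g
      exact ⟨(e.symm g, 1), by simp⟩
    · rintro ⟨k, s⟩ hks ⟨x, y⟩
      have hk : k = 1 := by
        have : e k = 1 := hks
        exact (map_eq_one_iff e e.injective).mp this
      subst hk
      ext
      · simp
      · exact mul_comm _ _
    · rintro H ⟨x, y⟩ hx ⟨k, s⟩ hks hn
      have hk : k = 1 := by
        have : e k = 1 := hks
        exact (map_eq_one_iff e e.injective).mp this
      subst hk
      set n := orderOf ((e.toMonoidHom.comp (MonoidHom.fst K S)) (x, y)) with hndef
      have hn1 : n ∣ 1092 := by rw [← card_psl]; exact orderOf_dvd_natCard _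
      refine mem_of_coprime H _ n (Nat.card S) (Nat.Coprime.coprime_dvd_left hn1 hKS) hn ?_
      have : ((1 : K), s) ^ Nat.card S = 1 := by
        ext
        · simp
        · exact pow_card_eq_one'
      rw [this]; exact one_mem _
  · have hcK : Nat.card K = 2184 := by
      rw [Nat.card_congr e.toEquiv, ClSL2.card_SL2 fcard]; norm_num
    rw [hcK] at hKS
    have hSodd : Nat.Coprime 2 (Nat.card S) := Nat.Coprime.coprime_dvd_left (by norm_num) hKS
    have h2 : (2 : ZMod 13) ≠ 0 := by decide
    let q : Matrix.SpecialLinearGroup (Fin 2) (ZMod 13) →* P2 (ZMod 13) := QuotientGroup.mk' _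
    have hker : ∀ k : K, q (e k) = 1 → e k = 1 ∨ e k = -1 := fun k hk => (psl_mk_eq_one (e k)).mp hk
    refine MaxNz.coatom_ext num ((q.comp e.toMonoidHom).comp (MonoidHom.fst K S)) ?_ ?_ ?_ H hH
    · intro g
      obtain ⟨A, rfl⟩ := QuotientGroup.mk_surjective g
      refine ⟨(e.symm A, 1), ?_⟩
      change q (e (e.symm A)) = _
      rw [e.apply_symm_apply]; rfl
    · rintro ⟨k, s⟩ hks ⟨x, y⟩
      have hk := hker k hks
      ext
      · apply e.injective
        change e (k * x) = e (x * k)
        rw [map_mul, map_mul]
        rcases hk with hk | hk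
        · rw [hk, one_mul, mul_one]
        · rw [hk, neg_one_mul, mul_neg_one]
      · exact mul_comm _ _
    · rintro H ⟨x, y⟩ hx ⟨k, s⟩ hks hn
      have hk := hker k hks
      have hk2 : k ^ 2 = 1 := by
        apply e.injective
        rw [map_pow, map_one]
        rcases hk with hk | hk
        · rw [hk, one_pow]
        · rw [hk, neg_one_sq]
      set n := orderOf (((q.comp e.toMonoidHom).comp (MonoidHom.fst K S)) (x, y)) with hndef
      have hn1 : n ∣ 1092 := by rw [← card_psl]; exact orderOf_dvd_natCard _
      have hnS : Nat.Coprime n (Nat.card S) := Nat.Coprime.coprime_dvd_left (hn1.trans (by norm_num)) hKS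
      rcases Nat.even_or_odd n with hev | hodd
      · -- the involution lies in `H`
        have hord : n ∣ orderOf (x, y) := orderOf_map_dvd _ _
        have hpos : 0 < orderOf (x, y) := orderOf_pos _
        have h2o : 2 ∣ orderOf (x, y) := hev.two_dvd.trans hord
        obtain ⟨m, hm⟩ := h2o
        have hzm : orderOf ((x, y) ^ m) = 2 := by
          rw [orderOf_pow' _ (by omega), hm]
          rw [Nat.gcd_eq_right (Dvd.intro_left 2 rfl)]
          exact Nat.mul_div_cancel _ (by omega)
        have hz2 : ((x, y) ^ m) ^ 2 = 1 := by rw [← hzm, pow_orderOf_eq_one]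
        have hym : y ^ m = 1 := by
          have h3 : (y ^ m) ^ 2 = 1 := congrArg Prod.snd hz2
          have h4 : (y ^ m) ^ Nat.card S = 1 := pow_card_eq_one'
          have h5 := mem_of_coprime (⊥ : Subgroup S) (y ^ m) 2 (Nat.card S) hSodd (by rw [h3]; exact one_mem _)
            (by rw [h4]; exact one_mem _)
          exact mem_bot.mp h5
        have hxm : e (x ^ m) = -1 := by
          have h3 : (x ^ m) ^ 2 = 1 := congrArg Prod.fst hz2
          have h4 : (e (x ^ m)) ^ 2 = 1 := by rw [← map_pow, h3, map_one]
          rcases eq_one_or_neg_one_of_sq h2 _ h4 with h5 | h5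
          · exfalso
            have h6 : x ^ m = 1 := (map_eq_one_iff e e.injective).mp h5
            have h7 : (x, y) ^ m = 1 := by
              ext
              · exact h6
              · exact hym
            rw [h7, orderOf_one] at hzm
            exact absurd hzm (by norm_num)
          · exact h5
        have hzH : ((e.symm (-1) : K), (1 : S)) ∈ H := by
          have : (x, y) ^ m = ((e.symm (-1) : K), (1 : S)) := by
            ext
            · change x ^ m = _
              rw [← hxm, e.symm_apply_apply]
            · exact hym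
          rw [← this]
          exact pow_mem hx m
        have hkH : ((k : K), (1 : S)) ∈ H := by
          rcases hk with hk | hk
          · have : k = 1 := (map_eq_one_iff e e.injective).mp hk
            rw [this]; exact one_mem _
          · rw [← hk, e.symm_apply_apply] at hzH
            exact hzH
        have hsH : ((1 : K), s) ∈ H := by
          refine mem_of_coprime H _ n (Nat.card S) hnS ?_ ?_
          · obtain ⟨j, hj⟩ := hev.two_dvd
            have h3 : (k, s) ^ n = ((1 : K), s) ^ n := by
              ext
              · change k ^ n = 1 ^ n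
                rw [hj, pow_mul, hk2, one_pow, one_pow]
              · rfl
            rw [← h3]; exact hn
          · have : ((1 : K), s) ^ Nat.card S = 1 := by
              ext
              · simp
              · exact pow_card_eq_one'
            rw [this]; exact one_mem _
        have : (k, s) = (k, 1) * (1, s) := by simp
        rw [this]
        exact mul_mem hkH hsH
      · refine mem_of_coprime H _ n (2 * Nat.card S) ?_ hn ?_
        · exact Nat.Coprime.mul_right hodd.coprime_two_right hnS
        · have : (k, s) ^ (2 * Nat.card S) = 1 := by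
            ext
            · change k ^ (2 * Nat.card S) = 1
              rw [pow_mul, hk2, one_pow]
            · change s ^ (2 * Nat.card S) = 1
              rw [mul_comm, pow_mul, pow_card_eq_one', one_pow]
          rw [this]; exact one_mem _

end Cfsg.Agent.S4234
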