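import Mathlib
import Cfsg.Statements.S4238
import Cfsg.Agent.Lib.H70PNil
import Cfsg.Agent.Lib.Fitting

set_option autoImplicit false

open Cfsg

namespace Cfsg.Agent.S4238

open Subgroup
open Cfsg.Agent.Lib.PNilp

theorem exists_orderOf_eq_exponent {K : Type*} [Group K] [Finite K] {p : ℕ} [hp : Fact p.Prime]
    (hK : IsPGroup p K) : ∃ k : K, orderOf k = Monoid.exponent K := by
  obtain ⟨k, hk⟩ := Finite.exists_max (fun k : K => orderOf k)
  refine ⟨k, Nat.dvd_antisymm (Monoid.order_dvd_exponent k) ?_⟩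
  apply Monoid.exponent_dvd_of_forall_pow_eq_one
  intro g
  obtain ⟨a, ha⟩ := IsPGroup.iff_orderOf.1 hK k
  obtain ⟨b, hb⟩ := IsPGroup.iff_orderOf.1 hK g
  apply orderOf_dvd_iff_pow_eq_one.1
  have h1 := hk g
  rw [ha, hb] at h1 ⊢
  exact pow_dvd_pow p ((Nat.pow_le_pow_iff_right hp.out.one_lt).1 h1)

theorem key {K : Type*} [Group K] [Finite K] {p : ℕ} [hp : Fact p.Prime] (P : Subgroup K) (g : K)
    (hPn : P.Normal) (hPne : P ≠ ⊥) (hexp : ∀ x ∈ P, x ^ p = 1)
    (hab : ∀ x ∈ P, ∀ y ∈ P, x * y = y * x) (hr : (orderOf g).Prime) (hcop : (orderOf g).Coprime p)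
    (htop : P ⊔ zpowers g = ⊤) (hfix : ∀ x ∈ P, x * g = g * x → x = 1) :
    pPrimeCore p K = ⊥ ∧ ∀ k : K, orderOf k ≠ Monoid.exponent K := by
  have F1 : ∀ x : K, ∃ a ∈ P, ∃ i : ℤ, a * g ^ i = x := by
    intro x
    have h1 : x ∈ P ⊔ zpowers g := by rw [htop]; trivial
    rw [← SetLike.mem_coe, Subgroup.normal_mul, Set.mem_mul] at h1
    obtain ⟨a, ha, b, hb, h2⟩ := h1
    obtain ⟨i, rfl⟩ := mem_zpowers_iff.1 hb
    exact ⟨a, ha, i, h2⟩
  have F2 : ∀ i : ℤ, g ^ i ∈ P → g ^ i = 1 := by
    intro i hi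
    have h1 : orderOf (g ^ i) ∣ p := orderOf_dvd_of_pow_eq_one (hexp _ hi)
    have h2 := Cfsg.Agent.Lib.H70PNil.orderOf_zpow_dvd_self g i
    rw [← orderOf_eq_one_iff]
    exact Nat.eq_one_of_dvd_coprimes hcop h2 h1
  have F3 : ∀ w ∈ P, ∀ i : ℤ, g ^ i ≠ 1 → w * g ^ i = g ^ i * w → w = 1 := by
    intro w hw i hi hc
    apply hfix w hw
    have h1 : orderOf (g ^ i) = orderOf g := by
      rcases (Nat.dvd_prime hr).1 (Cfsg.Agent.Lib.H70PNil.orderOf_zpow_dvd_self g i) with h | h
      · exact absurd (orderOf_eq_one_iff.1 h) hi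
      · exact h
    have h2 : zpowers (g ^ i) = zpowers g := by
      apply Subgroup.eq_of_le_of_card_ge
      · rw [zpowers_le]; exact zpow_mem (mem_zpowers g) i
      · rw [Nat.card_zpowers, Nat.card_zpowers, h1]
    have h3 : g ∈ zpowers (g ^ i) := by rw [h2]; exact mem_zpowers g
    obtain ⟨j, hj⟩ := mem_zpowers_iff.1 h3
    have h4 : Commute w (g ^ i) := hc
    have h5 := h4.zpow_right j
    rw [hj] at h5
    exact h5
  have F4 : ∀ x : K, (∀ y ∈ P, x * y = y * x) → x ∈ P := by
    intro x hx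
    obtain ⟨a, ha, i, rfl⟩ := F1 x
    by_cases hi : g ^ i = 1
    · rw [hi, mul_one]; exact ha
    · exfalso
      apply hPne
      rw [eq_bot_iff]
      intro y hy
      rw [Subgroup.mem_bot]
      apply F3 y hy i hi
      have h1 := hx y hy
      have h2 := hab a ha y hy
      have h3 : a * (g ^ i * y) = a * (y * g ^ i) := by
        rw [← mul_assoc, h1, ← mul_assoc, ← mul_assoc, h2]
      exact (mul_left_cancel h3).symm
  constructor
  · rw [eq_bot_iff]
    intro x hx
    have hRn : (pPrimeCore p K).Normal := Cfsg.Agent.Lib.Fitting.normal_pPrimeCore p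
    have hRc : (Nat.card (pPrimeCore p K)).Coprime p := Cfsg.Agent.Lib.Fitting.coprime_card_pPrimeCore p
    have hdis : ∀ z ∈ P, z ∈ pPrimeCore p K → z = 1 := by
      intro z hz hzR
      have h1 : orderOf z ∣ p := orderOf_dvd_of_pow_eq_one (hexp z hz)
      have h2 : orderOf z ∣ Nat.card (pPrimeCore p K) := by
        have := orderOf_dvd_natCard (⟨z, hzR⟩ : pPrimeCore p K)
        rwa [← Subgroup.orderOf_coe] at this
      rw [← orderOf_eq_one_iff]
      exact Nat.eq_one_of_dvd_coprimes hRc h2 h1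
    have hxP : x ∈ P := by
      apply F4
      intro y hy
      have h1 : x * y * x⁻¹ * y⁻¹ = 1 := by
        apply hdis
        · exact P.mul_mem (hPn.conj_mem y hy x) (P.inv_mem hy)
        · have h2 : x * y * x⁻¹ * y⁻¹ = x * (y * x⁻¹ * y⁻¹) := by group
          rw [h2]
          exact mul_mem hx (hRn.conj_mem _ (inv_mem hx) y)
      rw [mul_inv_eq_one, mul_inv_eq_iff_eq_mul] at h1
      exact h1
    rw [Subgroup.mem_bot]
    exact hdis x hxP hx
  · intro k hk
    -- `p` and `r` divide the exponent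
    have hp1 : p ∣ orderOf k := by
      rw [hk]
      obtain ⟨y, hy1⟩ := (P.ne_bot_iff_exists_ne_one).1 hPne
      have h1 : orderOf (y : K) = p := by
        apply orderOf_eq_prime (hexp _ y.2)
        intro h
        exact hy1 (Subtype.ext h)
      rw [← h1]
      exact Monoid.order_dvd_exponent _
    have hr1 : orderOf g ∣ orderOf k := by
      rw [hk]; exact Monoid.order_dvd_exponent _
    obtain ⟨a, ha, i, hai⟩ := F1 k
    have hi : g ^ i ≠ 1 := by
      intro h
      rw [h, mul_one] at hai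
      rw [← hai] at hr1
      have h1 : orderOf g ∣ p := hr1.trans (orderOf_dvd_of_pow_eq_one (hexp a ha))
      have h2 := Nat.eq_one_of_dvd_coprimes hcop dvd_rfl h1
      exact hr.one_lt.ne' h2
    set z := k ^ (orderOf k / p) with hz
    have hzo : orderOf z = p := by
      rw [hz, orderOf_pow_of_dvd, Nat.div_div_self hp1 (orderOf_pos k).ne']
      · exact (Nat.div_pos (Nat.le_of_dvd (orderOf_pos k) hp1) hp.out.pos).ne'
      · exact Nat.div_dvd_of_dvd hp1
    have hzP : z ∈ P := by
      obtain ⟨b, hb, j, hbj⟩ := F1 z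
      -- z^p = 1
      have h1 : (z : K) ^ p = 1 := by rw [← hzo]; exact pow_orderOf_eq_one z
      have h2 : ((z : K) : K ⧸ P) = ((g ^ j : K) : K ⧸ P) := by
        rw [← hbj, QuotientGroup.mk_mul, (QuotientGroup.eq_one_iff b).2 hb, one_mul]
      have h3 : (g ^ j) ^ p ∈ P := by
        rw [← QuotientGroup.eq_one_iff, QuotientGroup.mk_pow, ← h2, ← QuotientGroup.mk_pow, h1]
        rfl
      have h4 : (g ^ j) ^ p = 1 := by
        rw [← zpow_natCast, ← zpow_mul] at h3 ⊢
        exact F2 _ h3
      have h5 : g ^ j = 1 := by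
        rw [← orderOf_eq_one_iff]
        exact Nat.eq_one_of_dvd_coprimes hcop (Cfsg.Agent.Lib.H70PNil.orderOf_zpow_dvd_self g j)
          (orderOf_dvd_of_pow_eq_one h4)
      rw [← hbj, h5, mul_one]; exact hb
    have hz1 : z = 1 := by
      apply F3 z hzP i hi
      have h1 : z * k = k * z := ((Commute.refl k).pow_left _).eq
      have h2 := hab z hzP a ha
      rw [← hai] at h1
      have h3 : a * (z * g ^ i) = a * (g ^ i * z) := by
        rw [← mul_assoc, ← h2, mul_assoc, h1, mul_assoc]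
      exact mul_left_cancel h3
    rw [hz1, orderOf_one] at hzo
    exact hp.out.one_lt.ne hzo

/-- Let G be a finite group and p a prime. Then G has a normal p-complement if and only if every section K = H/N of G (N a normal subgroup of a subgroup H) whose largest normal subgroup of order prime to p is trivial contains an element whose order equals the exponent of K. -/
theorem result {G : Type*} [Group G] [Finite G] (p : ℕ) [Fact p.Prime] :
    Cfsg.HasNormalPComplement p G ↔
      ∀ (H : Subgroup G) (N : Subgroup H) [N.Normal], Cfsg.pPrimeCore p (H ⧸ N) = ⊥ →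
        ∃ k : H ⧸ N, orderOf k = Monoid.exponent (H ⧸ N) := by
  constructor
  · intro hG H N hN hcore
    have h1 : HasNormalPComplement p (H ⧸ N) :=
      HasNormalPComplement.quotient (HasNormalPComplement.subgroup hG H) N
    rw [hasNormalPComplement_iff_pResidual] at h1
    have h2 : pResidual p (H ⧸ N) = ⊥ := by
      rw [eq_bot_iff, ← hcore]
      apply Cfsg.Agent.Lib.Fitting.le_pPrimeCore p inferInstance
      exact ((Nat.Prime.coprime_iff_not_dvd Fact.out).2 h1).symm
    have h3 : IsPGroup p (H ⧸ N) := by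
      intro x
      obtain ⟨k, hk⟩ := exists_pow_coprime p x
      have h4 := mem_pResidual_of_coprime hk
      rw [h2, Subgroup.mem_bot] at h4
      exact ⟨k, h4⟩
    exact exists_orderOf_eq_exponent h3
  · intro h
    by_contra hn
    obtain ⟨H, N, hN, P, g, hPn, hPne, -, hexp, hab, hr, hcop, htop, hfix⟩ :=
      Cfsg.Agent.Lib.H70PNil.exists_section hn
    obtain ⟨h1, h2⟩ := key P g hPn hPne hexp hab hr hcop htop hfix
    obtain ⟨k, hk⟩ := h H N h1
    exact h2 k hk

end Cfsg.Agent.S4238
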