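import Mathlib
import Cfsg.Statements.S4242
import Cfsg.Agent.Lib.PNilp
import Cfsg.Agent.Lib.Transfer
import Cfsg.Agent.Lib.HallComplement
import Cfsg.Agent.Lib.Fitting
import Cfsg.Agent.Lib.CoprimeAction

set_option autoImplicit false

open Cfsg

namespace Cfsg.Agent.S4242

open Subgroup
open Cfsg.Agent.Lib.PNilp Cfsg.Agent.Lib.Fitting

theorem commute_of_nilpotent {G : Type*} [Group G] [Finite G] {p : ℕ} [hp : Fact p.Prime]
    {L : Subgroup G} (hL : Group.IsNilpotent L) {x y : G} (hx : x ∈ L) (hy : y ∈ L)
    (hxp : ∃ k : ℕ, x ^ p ^ k = 1) (hyp : (orderOf y).Coprime p) : x * y = y * x := by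
  have h1 : IsPGroup p (zpowers (⟨x, hx⟩ : L)) := by
    obtain ⟨k, hk⟩ := hxp
    rw [IsPGroup.iff_card]
    rw [Nat.card_zpowers, ← Subgroup.orderOf_coe]
    obtain ⟨j, _, hj⟩ := (Nat.dvd_prime_pow hp.out).1 (orderOf_dvd_of_pow_eq_one hk)
    exact ⟨j, hj⟩
  obtain ⟨S, hS⟩ := h1.exists_le_sylow
  have h2 := Cfsg.Agent.Lib.HallComplement.mem_centralizer_of_isNilpotent S (⟨y, hy⟩ : L)
    (by rw [← Subgroup.orderOf_coe]; exact hyp)
  have h3 := (mem_centralizer_iff.1 h2) ⟨x, hx⟩ (hS (mem_zpowers _))
  exact congrArg Subtype.val h3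

theorem exists_coatom {G : Type*} [Group G] [Finite G] {H : Subgroup G} (h : H ≠ ⊤) :
    ∃ M : Subgroup G, IsCoatom M ∧ H ≤ M :=
  (eq_top_or_exists_le_coatom H).resolve_left h

theorem orderOf_coprime_of_mem {G : Type*} [Group G] [Finite G] {p : ℕ} (hp : p.Prime)
    {M : Subgroup G} (hM : ¬ p ∣ Nat.card M) {x : G} (hx : x ∈ M) : (orderOf x).Coprime p := by
  rw [Nat.coprime_comm, Nat.Prime.coprime_iff_not_dvd hp]
  intro h
  apply hM
  refine h.trans ?_
  have := orderOf_dvd_natCard (⟨x, hx⟩ : M)
  rwa [← Subgroup.orderOf_coe] at this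

theorem eq_one_of_both {G : Type*} [Group G] [Finite G] {p : ℕ} (hp : p.Prime)
    {M R : Subgroup G} (hM : ¬ p ∣ Nat.card M) (hR : IsPGroup p R) {x : G} (hx : x ∈ M) (hxR : x ∈ R) :
    x = 1 := by
  haveI := Fact.mk hp
  have h1 := orderOf_coprime_of_mem hp hM hx
  obtain ⟨k, hk⟩ := hR ⟨x, hxR⟩
  have h2 : x ^ p ^ k = 1 := congrArg Subtype.val hk
  rw [← orderOf_eq_one_iff]
  exact Nat.eq_one_of_dvd_coprimes (Nat.Coprime.pow_right k h1) dvd_rfl (orderOf_dvd_of_pow_eq_one h2)

/-- the `p`-core is nontrivial -/
theorem pCore_ne_bot {G : Type*} [Group G] [Finite G] {p : ℕ} (hp : p.Prime) (hpG : p ∣ Nat.card G)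
    (hmax : ∀ M : Subgroup G, IsCoatom M → p ∣ Nat.card M → Group.IsNilpotent M)
    (M : Subgroup G) (hM : IsCoatom M) (hpM : ¬ p ∣ Nat.card M) (hMn : ¬ Group.IsNilpotent M) :
    pCore p G ≠ ⊥ := by
  haveI := Fact.mk hp
  intro hbot
  have hne : ∀ D : Subgroup G, D ≠ ⊥ → IsPGroup p D → ∀ L : Subgroup G, D ≤ L → p ∣ Nat.card L := by
    intro D hD hDp L hDL
    obtain ⟨n, hn⟩ := IsPGroup.iff_card.1 hDp
    have hn0 : n ≠ 0 := by
      rintro rfl
      rw [pow_zero] at hn
      exact hD (Subgroup.eq_bot_of_card_eq D hn)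
    refine (dvd_pow_self p hn0).trans ?_
    rw [← hn]
    exact Subgroup.card_dvd_of_le hDL
  have hnil : ∀ L : Subgroup G, L ≠ ⊤ → p ∣ Nat.card L → Group.IsNilpotent L := by
    intro L hL hpL
    obtain ⟨L', hL', hLL'⟩ := exists_coatom hL
    exact isNilpotent_of_le hLL' (hmax L' hL' (hpL.trans (Subgroup.card_dvd_of_le hLL')))
  have hPN : HasNormalPComplement p G := by
    rw [Cfsg.Agent.Lib.Transfer.hasNormalPComplement_iff_normalizers]
    intro D hDp hD
    have h1 : normalizer (D : Set G) ≠ ⊤ := by
      intro h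
      have hDn : D.Normal := normalizer_eq_top_iff.1 h
      have := le_pCore p hDn hDp
      rw [hbot, le_bot_iff] at this
      exact hD this
    have h2 := hnil _ h1 (hne D hD hDp _ le_normalizer)
    exact Cfsg.Agent.Lib.HallComplement.hasNormalPComplement_of_isNilpotent p
  obtain ⟨N, hN, hpN, k, hk⟩ := hasNormalPComplement_iff.1 hPN
  have hMN : M ≤ N := by
    intro x hx
    rw [← QuotientGroup.eq_one_iff, ← orderOf_eq_one_iff]
    have h1 := orderOf_coprime_of_mem hp hpM hx
    have h2 : orderOf (x : G ⧸ N) ∣ orderOf x := orderOf_map_dvd (QuotientGroup.mk' N) x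
    have h3 : orderOf (x : G ⧸ N) ∣ p ^ k := by
      rw [← hk, Subgroup.index_eq_card]; exact orderOf_dvd_natCard _
    exact Nat.eq_one_of_dvd_coprimes (Nat.Coprime.pow_right k h1) h2 h3
  have hNM : N = M := by
    rcases hM.le_iff.1 hMN with h | h
    · rw [h, Subgroup.card_top] at hpN
      exact absurd hpG hpN
    · exact h
  subst hNM
  obtain ⟨P⟩ : Nonempty (Sylow p G) := inferInstance
  have hP1 : (P : Subgroup G) ≠ ⊥ := by
    intro h
    have h1 := P.not_dvd_index
    rw [h, Subgroup.index_bot] at h1
    exact h1 hpG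
  have hPN' : (P : Subgroup G) ≤ normalizer (N : Set G) := by
    rw [normalizer_eq_top_iff.2 hN]; exact le_top
  have hcop : (Nat.card (P : Subgroup G)).Coprime (Nat.card N) := by
    obtain ⟨n, hn⟩ := IsPGroup.iff_card.1 P.isPGroup'
    rw [hn]
    exact Nat.Coprime.pow_left n ((Nat.Prime.coprime_iff_not_dvd hp).2 hpN)
  have hPs : Group.IsSolvable (P : Subgroup G) := by
    have := P.isPGroup'.isNilpotent
    infer_instance
  -- `N` centralizes `P`
  have hNC : N ≤ centralizer ((P : Subgroup G) : Set G) := by
    rw [← relIndex_eq_one]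
    by_contra hne'
    obtain ⟨q, hq, hqd⟩ := Nat.exists_prime_and_dvd hne'
    haveI := Fact.mk hq
    obtain ⟨Q, hQN, hQq, hQi, hPQ⟩ := Cfsg.Agent.Lib.CoprimeAction.exists_invariant_sylow hPN' hcop (Or.inl hPs) q
    have h1 : Q ⊔ (P : Subgroup G) ≠ ⊤ := by
      intro h
      have h2 : N ≤ Q := by
        intro m hm
        have h3 : m ∈ (P : Subgroup G) ⊔ Q := by rw [sup_comm, h]; trivial
        rw [Cfsg.Agent.Lib.GroupUtil.mem_sup_of_le_normalizer hPQ] at h3
        obtain ⟨x, hx, y, hy, rfl⟩ := h3
        have h4 : x = 1 := by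
          apply eq_one_of_both hp hpN P.isPGroup' _ hx
          have := N.mul_mem hm (N.inv_mem (hQN hy))
          simpa using this
        rw [h4, one_mul]; exact hy
      apply hMn
      have h4 : N = Q := le_antisymm h2 hQN
      rw [h4]
      exact hQq.isNilpotent
    have h2 : Group.IsNilpotent (Q ⊔ (P : Subgroup G) : Subgroup G) :=
      hnil _ h1 (hne _ hP1 P.isPGroup' _ le_sup_right)
    have h3 : Q ≤ centralizer ((P : Subgroup G) : Set G) := by
      intro y hy
      rw [mem_centralizer_iff]
      intro x hx
      refine commute_of_nilpotent h2 (mem_sup_right hx) (mem_sup_left hy) ?_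
        (orderOf_coprime_of_mem hp hpN (hQN hy))
      obtain ⟨k, hk⟩ := P.isPGroup' ⟨x, hx⟩
      exact ⟨k, congrArg Subtype.val hk⟩
    apply hQi
    exact hqd.trans (relIndex_dvd_of_le_left _ h3)
  have hPn : (P : Subgroup G).Normal := by
    rw [← normalizer_eq_top_iff]
    have h1 : N ≤ normalizer ((P : Subgroup G) : Set G) :=
      hNC.trans (Cfsg.Agent.Lib.GroupUtil.centralizer_le_normalizer _)
    rcases hM.le_iff.1 h1 with h | h
    · exact h
    · exfalso
      apply hP1
      rw [eq_bot_iff]
      intro x hx
      rw [Subgroup.mem_bot]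
      refine eq_one_of_both hp hpN P.isPGroup' ?_ hx
      rw [← h]
      exact le_normalizer hx
  have h1 := le_pCore p hPn P.isPGroup'
  rw [hbot, le_bot_iff] at h1
  exact hP1 h1

/-- Let G be a finite group and p a prime dividing its order. Every maximal subgroup of G of order divisible by p is nilpotent if and only if G is nilpotent, or G is a minimal non-nilpotent group, or G is the internal direct product of a normal subgroup of order p and a normal minimal non-nilpotent subgroup of order prime to p. -/
theorem result {G : Type*} [Group G] [Finite G] (p : ℕ) (hp : p.Prime) (hpG : p ∣ Nat.card G) :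
    (∀ M : Subgroup G, IsCoatom M → p ∣ Nat.card M → Group.IsNilpotent M) ↔
      (Group.IsNilpotent G ∨ Cfsg.IsMinimalNonNilpotent G ∨
        ∃ Z K : Subgroup G, Z.Normal ∧ K.Normal ∧ Z ⊓ K = ⊥ ∧ Z ⊔ K = ⊤ ∧ Nat.card Z = p ∧
          Cfsg.IsMinimalNonNilpotent K ∧ ¬ p ∣ Nat.card K) := by
  haveI := Fact.mk hp
  constructor
  · intro hmax
    by_cases hall : ∀ M : Subgroup G, IsCoatom M → Group.IsNilpotent M
    · by_cases hG : Group.IsNilpotent G
      · exact Or.inl hG
      · refine Or.inr (Or.inl ⟨hG, ?_⟩)
        intro H hH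
        obtain ⟨M, hM, hHM⟩ := exists_coatom hH
        exact isNilpotent_of_le hHM (hall M hM)
    · push Not at hall
      obtain ⟨M, hM, hMn⟩ := hall
      have hpM : ¬ p ∣ Nat.card M := fun h => hMn (hmax M hM h)
      refine Or.inr (Or.inr ?_)
      have hR := pCore_ne_bot hp hpG hmax M hM hpM hMn
      set R := pCore p G with hRdef
      have hRn : R.Normal := normal_pCore p
      have hRp : IsPGroup p R := isPGroup_pCore p
      have hRM : ∀ x ∈ M, x ∈ R → x = 1 := fun x hx hxR => eq_one_of_both hp hpM hRp hx hxR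
      have hRdvd : ∀ L : Subgroup G, R ≤ L → p ∣ Nat.card L := by
        intro L hL
        obtain ⟨n, hn⟩ := IsPGroup.iff_card.1 hRp
        have hn0 : n ≠ 0 := by
          rintro rfl
          rw [pow_zero] at hn
          exact hR (Subgroup.eq_bot_of_card_eq R hn)
        refine (dvd_pow_self p hn0).trans ?_
        rw [← hn]
        exact Subgroup.card_dvd_of_le hL
      have hproper : ∀ L : Subgroup G, L ≤ M → L ≠ M → Group.IsNilpotent L ∧
          ∀ x ∈ R, ∀ y ∈ L, x * y = y * x := by
        intro L hLM hne
        have h1 : R ⊔ L ≠ ⊤ := by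
          intro h
          apply hne
          apply le_antisymm hLM
          intro m hm
          have h2 : m ∈ L ⊔ R := by rw [sup_comm, h]; trivial
          rw [mem_sup_of_normal_right] at h2
          obtain ⟨y, hy, x, hx, rfl⟩ := h2
          have h3 : x = 1 := by
            apply hRM x _ hx
            have := M.mul_mem (M.inv_mem (hLM hy)) hm
            simpa using this
          rw [h3, mul_one]; exact hy
        obtain ⟨K, hK, hRK⟩ := exists_coatom h1
        have hKn := hmax K hK (hRdvd K (le_sup_left.trans hRK))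
        refine ⟨isNilpotent_of_le (le_sup_right.trans hRK) hKn, ?_⟩
        intro x hx y hy
        refine commute_of_nilpotent hKn (hRK (mem_sup_left hx)) (hRK (mem_sup_right hy)) ?_
          (orderOf_coprime_of_mem hp hpM (hLM hy))
        obtain ⟨k, hk⟩ := hRp ⟨x, hx⟩
        exact ⟨k, congrArg Subtype.val hk⟩
      have hcomm : ∀ x ∈ R, ∀ y ∈ M, x * y = y * x := by
        intro x hx y hy
        have h1 : zpowers y ≠ M := by
          intro h
          apply hMn
          rw [← h]
          letI : CommGroup (zpowers y) := IsCyclic.commGroup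
          exact CommGroup.isNilpotent
        exact (hproper (zpowers y) (by rwa [zpowers_le]) h1).2 x hx y (mem_zpowers y)
      -- an element of order p in the center of R
      have hRnt : Nontrivial R := (nontrivial_iff_ne_bot R).2 hR
      have hcR : Nontrivial (center R) := hRp.center_nontrivial
      obtain ⟨z, hz⟩ : ∃ z : center R, orderOf z = p := by
        apply exists_prime_orderOf_dvd_card'
        obtain ⟨n, hn⟩ := IsPGroup.iff_card.1 (hRp.to_subgroup (center R))
        have hn0 : n ≠ 0 := by
          rintro rfl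
          rw [pow_zero] at hn
          have := Finite.one_lt_card (α := center R)
          omega
        rw [hn]
        exact dvd_pow_self p hn0
      set w : G := ((z : R) : G) with hw
      have hwo : orderOf w = p := by
        rw [hw, Subgroup.orderOf_coe, Subgroup.orderOf_coe]; exact hz
      have hwR : w ∈ R := (z : R).2
      have hw1 : w ≠ 1 := by
        intro h
        rw [h, orderOf_one] at hwo
        exact hp.one_lt.ne hwo
      have hwcR : ∀ x ∈ R, x * w = w * x := by
        intro x hx
        have := (mem_center_iff.1 z.2) ⟨x, hx⟩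
        exact congrArg Subtype.val this
      have hMR : M ⊔ R = ⊤ := by
        rcases hM.le_iff.1 (le_sup_left : M ≤ M ⊔ R) with h | h
        · exact h
        · exfalso
          apply hw1
          exact hRM w (by rw [← h]; exact mem_sup_right hwR) hwR
      have hMw : M ⊔ zpowers w = ⊤ := by
        rcases hM.le_iff.1 (le_sup_left : M ≤ M ⊔ zpowers w) with h | h
        · exact h
        · exfalso
          apply hw1
          exact hRM w (by rw [← h]; exact mem_sup_right (mem_zpowers w)) hwR
      have hRw : R = zpowers w := by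
        apply le_antisymm _ (by rwa [zpowers_le])
        intro x hx
        have hwn : (zpowers w).Normal := by
          have hcen : w ∈ center G := by
            rw [mem_center_iff]
            intro g
            have h1 : g ∈ M ⊔ R := by rw [hMR]; trivial
            rw [mem_sup_of_normal_right] at h1
            obtain ⟨m, hm, r, hr, rfl⟩ := h1
            rw [mul_assoc, hwcR r hr, ← mul_assoc, ← hcomm w hwR m hm, mul_assoc]
          constructor
          intro a ha b
          have hac : a ∈ center G := (zpowers_le.2 hcen) ha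
          rw [mem_center_iff.1 hac b, mul_inv_cancel_right]
          exact ha
        have h1 : x ∈ M ⊔ zpowers w := by rw [hMw]; trivial
        rw [mem_sup_of_normal_right] at h1
        obtain ⟨m, hm, r, hr, rfl⟩ := h1
        have h2 : m = 1 := by
          apply hRM m hm
          have hrR : r ∈ R := (zpowers_le.2 hwR) hr
          have := R.mul_mem hx (R.inv_mem hrR)
          simpa using this
        rw [h2, one_mul]; exact hr
      refine ⟨R, M, hRn, ?_, ?_, by rw [sup_comm]; exact hMR, ?_, ⟨hMn, ?_⟩, hpM⟩
      · rw [← normalizer_eq_top_iff, ← top_le_iff, ← hMR]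
        refine sup_le le_normalizer ?_
        intro x hx
        rw [mem_normalizer_iff]
        intro y
        constructor
        · intro hy
          rw [hcomm x hx y hy, mul_inv_cancel_right]; exact hy
        · intro hy
          have h1 := hcomm x hx _ hy
          have h2 : x * y * x⁻¹ = y := by
            have h3 : x * (x * y * x⁻¹) = x * y := by rw [h1]; group
            exact mul_left_cancel h3
          rwa [h2] at hy
      · rw [eq_bot_iff]
        rintro x ⟨hxR, hxM⟩
        rw [Subgroup.mem_bot]
        exact hRM x hxM hxR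
      · rw [hRw, Nat.card_zpowers, hwo]
      · intro H hH
        have h1 : H.map M.subtype ≠ M := by
          intro h
          apply hH
          apply map_injective M.subtype_injective
          rw [h, ← MonoidHom.range_eq_map, range_subtype]
        have h2 := (hproper (H.map M.subtype) (map_subtype_le _) h1).1
        exact (Group.isNilpotent_congr (H.equivMapOfInjective _ M.subtype_injective)).2 h2
  · rintro (hG | ⟨_, hG⟩ | ⟨Z, K, hZ, hK, hZK, hZKt, hZc, ⟨_, hKp⟩, hpK⟩) M hM hpM
    · infer_instance
    · exact hG M hM.1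
    · -- direct product
      have hcomm : ∀ z ∈ Z, ∀ k ∈ K, z * k = k * z := by
        intro z hz k hk
        have h1 : z * k * z⁻¹ * k⁻¹ ∈ Z ⊓ K := by
          constructor
          · have h2 : z * k * z⁻¹ * k⁻¹ = z * (k * z⁻¹ * k⁻¹) := by group
            rw [h2]
            exact Z.mul_mem hz (hZ.conj_mem _ (Z.inv_mem hz) k)
          · exact K.mul_mem (hK.conj_mem k hk z) (K.inv_mem hk)
        rw [hZK, Subgroup.mem_bot, mul_inv_eq_one, mul_inv_eq_iff_eq_mul] at h1
        exact h1
      have hZcyc : IsCyclic Z := isCyclic_of_prime_card hZc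
      have hZcen : Z ≤ center G := by
        intro z hz
        rw [mem_center_iff]
        intro g
        have h1 : g ∈ Z ⊔ K := by rw [hZKt]; trivial
        rw [mem_sup_of_normal_right] at h1
        obtain ⟨a, ha, k, hk, rfl⟩ := h1
        have h2 : (⟨a, ha⟩ : Z) * ⟨z, hz⟩ = ⟨z, hz⟩ * ⟨a, ha⟩ := mul_comm' _ _
        have h3 : a * z = z * a := congrArg Subtype.val h2
        rw [mul_assoc, ← hcomm z hz k hk, ← mul_assoc, h3, mul_assoc]
      have hZM : Z ≤ M := by
        obtain ⟨y, hy⟩ := exists_prime_orderOf_dvd_card' p hpM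
        have hyo : orderOf (y : G) = p := by rw [Subgroup.orderOf_coe]; exact hy
        have hyZ : (y : G) ∈ Z := by
          have h1 : (y : G) ∈ Z ⊔ K := by rw [hZKt]; trivial
          rw [mem_sup_of_normal_right] at h1
          obtain ⟨a, ha, k, hk, hak⟩ := h1
          have h2 : a ^ p = 1 := by
            have := pow_card_eq_one' (G := Z) (x := ⟨a, ha⟩)
            rw [hZc] at this
            exact congrArg Subtype.val this
          have h3 : k ^ p = 1 := by
            have h4 : (y : G) ^ p = 1 := by rw [← hyo]; exact pow_orderOf_eq_one _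
            rw [← hak, (show Commute a k from hcomm a ha k hk).mul_pow, h2, one_mul] at h4
            exact h4
          have h5 : k = 1 := by
            rw [← orderOf_eq_one_iff]
            have h6 := orderOf_coprime_of_mem hp hpK hk
            exact Nat.eq_one_of_dvd_coprimes h6 dvd_rfl (orderOf_dvd_of_pow_eq_one h3)
          rw [← hak, h5, mul_one]; exact ha
        have h1 : zpowers (y : G) = Z := by
          apply Subgroup.eq_of_le_of_card_ge
          · rwa [zpowers_le]
          · rw [Nat.card_zpowers, hyo, hZc]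
        rw [← h1, zpowers_le]
        exact y.2
      -- the quotient
      have hMK : (M ⊓ K).subgroupOf K ≠ ⊤ := by
        intro h
        rw [subgroupOf_eq_top] at h
        apply hM.1
        rw [eq_top_iff, ← hZKt]
        exact sup_le hZM (h.trans inf_le_left)
      have h1 : Group.IsNilpotent ((M ⊓ K).subgroupOf K) := hKp _ hMK
      have h2 : Group.IsNilpotent (M ⊓ K : Subgroup G) :=
        (Group.isNilpotent_congr (subgroupOfEquivOfLe (inf_le_right : M ⊓ K ≤ K))).1 h1
      have hZ' : (Z.subgroupOf M).Normal := inferInstance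
      have h4 : Group.IsNilpotent (M ⧸ Z.subgroupOf M) := by
        apply @Group.nilpotent_of_surjective _ _ _ _ h2
          ((QuotientGroup.mk' (Z.subgroupOf M)).comp (inclusion (inf_le_left : M ⊓ K ≤ M)))
        intro y
        obtain ⟨⟨x, hx⟩, rfl⟩ := QuotientGroup.mk'_surjective _ y
        have h3 : x ∈ Z ⊔ K := by rw [hZKt]; trivial
        rw [mem_sup_of_normal_right] at h3
        obtain ⟨a, ha, k, hk, rfl⟩ := h3
        have hkM : k ∈ M := by
          have := M.mul_mem (M.inv_mem (hZM ha)) hx
          simpa using this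
        refine ⟨⟨k, hkM, hk⟩, ?_⟩
        change ((⟨k, hkM⟩ : M) : M ⧸ Z.subgroupOf M) = ((⟨a * k, hx⟩ : M) : M ⧸ Z.subgroupOf M)
        rw [QuotientGroup.eq]
        change k⁻¹ * (a * k) ∈ Z
        rw [hcomm a ha k hk, inv_mul_cancel_left]
        exact ha
      apply Subgroup.isNilpotent_of_ker_le_center (QuotientGroup.mk' (Z.subgroupOf M))
      rw [QuotientGroup.ker_mk']
      intro x hx
      rw [mem_center_iff]
      intro g
      apply Subtype.ext
      exact (mem_center_iff.1 (hZcen hx)) g

end Cfsg.Agent.S4242
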