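import Cfsg.Statements.S4244

set_option autoImplicit false
open Cfsg

namespace Cfsg.Agent.S4244

theorem relIndex_dvd_index_of_normal' {G : Type*} [Group G] [Finite G] (K H : Subgroup G) [H.Normal] :
    K.relIndex H ∣ K.index := by
  have h1 : K.relIndex (K ⊔ H) = K.relIndex H := by
    have e1 : (H ⊓ K).relIndex K * K.relIndex (K ⊔ H) = (H ⊓ K).relIndex (K ⊔ H) :=
      Subgroup.relIndex_mul_relIndex _ _ _ inf_le_right le_sup_left
    have e2 : (H ⊓ K).relIndex H * H.relIndex (K ⊔ H) = (H ⊓ K).relIndex (K ⊔ H) :=
      Subgroup.relIndex_mul_relIndex _ _ _ inf_le_left le_sup_right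
    rw [Subgroup.relIndex_sup_right, Subgroup.inf_relIndex_left] at e2
    rw [Subgroup.inf_relIndex_right] at e1
    have h0 : H.relIndex K ≠ 0 := Subgroup.FiniteIndex.index_ne_zero
    have : H.relIndex K * K.relIndex (K ⊔ H) = H.relIndex K * K.relIndex H := by
      rw [e1, ← e2, mul_comm]
    exact mul_left_cancel₀ h0 this
  rw [← h1]
  exact Subgroup.relIndex_dvd_index_of_le le_sup_left

/-- Let H be a subnormal subgroup of a finite group G. Then for every subgroup K of G the index of H ∩ K in H divides the index of K in G. -/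
theorem result {G : Type*} [Group G] [Finite G] (H : Subgroup G) (hH : H.IsSubnormal) (K : Subgroup G) :
    (H ⊓ K).relIndex H ∣ K.index := by
  rw [Subgroup.inf_relIndex_left]
  induction hH with
  | top => rw [Subgroup.relIndex_top_right]
  | step H L hle hsub hN ih =>
    refine dvd_trans ?_ ih
    -- K.relIndex H ∣ K.relIndex L with H normal in L
    have h1 : K.relIndex H = (K.subgroupOf L).relIndex (H.subgroupOf L) := by
      rw [Subgroup.relIndex_subgroupOf hle]
    rw [h1]
    exact relIndex_dvd_index_of_normal' _ _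

end Cfsg.Agent.S4244
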