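import Cfsg.Statements.S4250
import Cfsg.Agent.Lib.Alperin

set_option autoImplicit false
open Cfsg

namespace Cfsg.Agent.S4250

open Lib.Alperin
open scoped commutatorElement

variable {G : Type*} [Group G] {p : ℕ}

/-- the elements of `N` acting trivially on `H` modulo `D` -/
def good (N H D : Subgroup G) (hN : N ≤ Subgroup.normalizer (H : Set G)) : Subgroup G where
  carrier := {n | n ∈ N ∧ ∀ h ∈ H, h⁻¹ * (n⁻¹ * h * n) ∈ D}
  one_mem' := ⟨N.one_mem, fun h _ => by
    have : h⁻¹ * ((1 : G)⁻¹ * h * 1) = 1 := by group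
    rw [this]; exact D.one_mem⟩
  mul_mem' := by
    rintro a b ⟨ha, ha'⟩ ⟨hb, hb'⟩
    refine ⟨N.mul_mem ha hb, fun h hh => ?_⟩
    have h1 : a⁻¹ * h * a ∈ H := by
      have := (Subgroup.mem_normalizer_iff.1 (hN (N.inv_mem ha)) h).1 hh
      rwa [inv_inv] at this
    have : h⁻¹ * ((a * b)⁻¹ * h * (a * b)) =
        (h⁻¹ * (a⁻¹ * h * a)) * ((a⁻¹ * h * a)⁻¹ * (b⁻¹ * (a⁻¹ * h * a) * b)) := by group
    rw [this]
    exact D.mul_mem (ha' h hh) (hb' _ h1)
  inv_mem' := by
    rintro a ⟨ha, ha'⟩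
    refine ⟨N.inv_mem ha, fun h hh => ?_⟩
    have h1 : a * h * a⁻¹ ∈ H := (Subgroup.mem_normalizer_iff.1 (hN ha) h).1 hh
    have h2 := D.inv_mem (ha' _ h1)
    have : h⁻¹ * ((a⁻¹)⁻¹ * h * a⁻¹) = ((a * h * a⁻¹)⁻¹ * (a⁻¹ * (a * h * a⁻¹) * a))⁻¹ := by group
    rw [this]; exact h2

theorem mem_good {N H D : Subgroup G} {hN : N ≤ Subgroup.normalizer (H : Set G)} {n : G} :
    n ∈ good N H D hN ↔ n ∈ N ∧ ∀ h ∈ H, h⁻¹ * (n⁻¹ * h * n) ∈ D := Iff.rfl

/-- conjugation along a chain -/
theorem chain_good [Finite G] [Fact p.Prime] (P : Sylow p G) (D : Subgroup G) (m : ℕ)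
    (ih : ∀ Q : Sylow p G, Tame P Q → m ≤ Nat.card ((P : Subgroup G) ⊓ (Q : Subgroup G) : Subgroup G) →
      ∀ n ∈ Subgroup.normalizer (((P : Subgroup G) ⊓ (Q : Subgroup G) : Subgroup G) : Set G),
        ∀ h ∈ (P : Subgroup G) ⊓ (Q : Subgroup G), h⁻¹ * (n⁻¹ * h * n) ∈ D) :
    ∀ (l : List (Sylow p G × G)) (A : Set G), m ≤ Nat.card A → Chain P A l →
      ∀ a ∈ A, a⁻¹ * ((pr l)⁻¹ * a * pr l) ∈ D := by
  intro l
  induction l with
  | nil =>
    intro A _ _ a _
    rw [pr_nil]
    have : a⁻¹ * ((1 : G)⁻¹ * a * 1) = 1 := by group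
    rw [this]; exact D.one_mem
  | cons q l ihl =>
    obtain ⟨Q, n⟩ := q
    rintro A hm ⟨⟨hn, ht⟩, hA, hl⟩ a ha
    have hmQ : m ≤ Nat.card ((P : Subgroup G) ⊓ (Q : Subgroup G) : Subgroup G) :=
      hm.trans (Nat.card_mono (Set.toFinite _) hA)
    have h1 := ih Q ht hmQ n hn a (hA ha)
    have hcard : Nat.card (cset n A) = Nat.card A := by
      apply Nat.card_image_of_injective
      intro x y hxy
      have hxy' : n⁻¹ * x * n = n⁻¹ * y * n := hxy
      exact mul_left_cancel (mul_right_cancel hxy')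
    have h2 := ihl (cset n A) (by rw [hcard]; exact hm) hl (n⁻¹ * a * n) ⟨a, ha, rfl⟩
    rw [pr_cons]
    have : a⁻¹ * ((n * pr l)⁻¹ * a * (n * pr l)) =
        (a⁻¹ * (n⁻¹ * a * n)) * ((n⁻¹ * a * n)⁻¹ * ((pr l)⁻¹ * (n⁻¹ * a * n) * pr l)) := by group
    rw [this]
    exact D.mul_mem h1 h2

/-- Frattini: elements of `N` are products of elements of the normalizer of a Sylow subgroup and of the subgroup
generated by the `p`-elements -/
theorem frattini_good [Finite G] [Fact p.Prime] (N S K : Subgroup G) (hSN : S ≤ N) (hSp : IsPGroup p S)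
    (hSi : ¬ p ∣ S.relIndex N) (hKp : ∀ x ∈ N, (∃ k : ℕ, orderOf x = p ^ k) → x ∈ K)
    (hKS : ∀ n ∈ N, n ∈ Subgroup.normalizer (S : Set G) → n ∈ K) : N ≤ K := by
  have h1 : IsPGroup p (S.subgroupOf N) := hSp.of_equiv (Subgroup.subgroupOfEquivOfLe hSN).symm
  let S' : Sylow p N := h1.toSylow hSi
  have hS' : (S' : Subgroup N) = S.subgroupOf N := rfl
  let X : Set N := {x | ∃ k : ℕ, orderOf x = p ^ k}
  let N0 : Subgroup N := Subgroup.normalClosure X
  have hN0K : N0 ≤ K.subgroupOf N := by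
    refine (Subgroup.closure_le _).2 ?_
    intro x hx
    obtain ⟨a, ⟨k, hk⟩, hax⟩ := Group.mem_conjugatesOfSet_iff.1 hx
    obtain ⟨c, rfl⟩ := isConj_iff.1 hax
    rw [SetLike.mem_coe, Subgroup.mem_subgroupOf]
    apply hKp _ (c * a * c⁻¹).2
    refine ⟨k, ?_⟩
    rw [Subgroup.orderOf_coe, ← hk]
    exact orderOf_injective (MulAut.conj c).toMonoidHom (MulAut.conj c).injective a
  have hSN0 : (S' : Subgroup N) ≤ N0 := by
    intro x hx
    apply Subgroup.subset_normalClosure
    obtain ⟨k, hk⟩ := IsPGroup.iff_orderOf.1 S'.2 ⟨x, hx⟩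
    exact ⟨k, by rw [← hk]; exact (Subgroup.orderOf_coe (⟨x, hx⟩ : (S' : Subgroup N)))⟩
  have hfr := Sylow.normalizer_sup_eq_top' S' hSN0
  intro n hn
  have h2 : (⟨n, hn⟩ : N) ∈ Subgroup.normalizer ((S' : Subgroup N) : Set N) ⊔ N0 := by
    have : (⟨n, hn⟩ : N) ∈ (⊤ : Subgroup N) := trivial
    rw [← hfr] at this
    exact this
  obtain ⟨a, ha, b, hb, hab⟩ := Subgroup.mem_sup_of_normal_right.1 h2
  have h3 : n = a * b := (congrArg Subtype.val hab).symm
  rw [h3]
  apply K.mul_mem
  · apply hKS _ a.2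
    rw [Subgroup.mem_normalizer_iff] at ha ⊢
    intro s
    constructor
    · intro hs
      have := (ha ⟨s, hSN hs⟩).1 (by rw [hS', Subgroup.mem_subgroupOf]; exact hs)
      rw [hS', Subgroup.mem_subgroupOf] at this
      exact this
    · intro hs
      have hsN : s ∈ N := by
        have := N.mul_mem (N.mul_mem (N.inv_mem a.2) (hSN hs)) a.2
        have e : (a : G)⁻¹ * (a * s * (a : G)⁻¹) * a = s := by group
        rwa [e] at this
      have := (ha ⟨s, hsN⟩).2 (by rw [hS', Subgroup.mem_subgroupOf]; exact hs)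
      rw [hS', Subgroup.mem_subgroupOf] at this
      exact this
  · exact hN0K hb

/-- Let P be a Sylow p-subgroup of a finite group G. Call an intersection H = P ∩ Q with a Sylow p-subgroup Q tame when N_P(H) and N_Q(H) are Sylow p-subgroups of N_G(H). Then P ∩ G′ is generated by [P, N_G(P)] together with the commutator subgroups [P ∩ Q, ⟨x⟩] for all tame intersections P ∩ Q and all p-elements x of N_G(P ∩ Q). -/
theorem result {G : Type*} [Group G] [Finite G] (p : ℕ) [Fact p.Prime] (P : Sylow p G) :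
    (P : Subgroup G) ⊓ commutator G =
      ⁅(P : Subgroup G), Subgroup.normalizer ((P : Subgroup G) : Set G)⁆ ⊔
        ⨆ (Q : Sylow p G) (_ : (¬ p ∣ ((P : Subgroup G) ⊓ Subgroup.normalizer (((P : Subgroup G) ⊓ (Q : Subgroup G) : Subgroup G) : Set G)).relIndex (Subgroup.normalizer (((P : Subgroup G) ⊓ (Q : Subgroup G) : Subgroup G) : Set G)) ∧ ¬ p ∣ ((Q : Subgroup G) ⊓ Subgroup.normalizer (((P : Subgroup G) ⊓ (Q : Subgroup G) : Subgroup G) : Set G)).relIndex (Subgroup.normalizer (((P : Subgroup G) ⊓ (Q : Subgroup G) : Subgroup G) : Set G))))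
          (x : G) (_ : x ∈ Subgroup.normalizer (((P : Subgroup G) ⊓ (Q : Subgroup G) : Subgroup G) : Set G) ∧ ∃ k : ℕ, orderOf x = p ^ k),
          ⁅(P : Subgroup G) ⊓ (Q : Subgroup G), Subgroup.zpowers x⁆ := by
  apply le_antisymm
  swap
  · apply sup_le
    · refine le_inf ?_ (Subgroup.commutator_mono le_top le_top)
      rw [Subgroup.commutator_le]
      intro a ha b hb
      rw [commutatorElement_def]
      have h1 : b * a⁻¹ * b⁻¹ ∈ P := (Subgroup.mem_normalizer_iff.1 hb a⁻¹).1 (P.inv_mem ha)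
      have h2 := P.mul_mem ha h1
      rwa [← mul_assoc, ← mul_assoc] at h2
    · refine iSup_le fun Q => iSup_le fun hQ => iSup_le fun x => iSup_le fun hx => ?_
      refine le_inf ?_ (Subgroup.commutator_mono le_top le_top)
      rw [Subgroup.commutator_le]
      intro a ha b hb
      rw [commutatorElement_def]
      have hb' : b ∈ Subgroup.normalizer (((P : Subgroup G) ⊓ (Q : Subgroup G) : Subgroup G) : Set G) :=
        (Subgroup.zpowers_le.2 hx.1) hb
      have h1 : b * a⁻¹ * b⁻¹ ∈ (P : Subgroup G) ⊓ (Q : Subgroup G) :=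
        (Subgroup.mem_normalizer_iff.1 hb' a⁻¹).1 (inv_mem ha)
      have h2 := mul_mem ha h1
      rw [← mul_assoc, ← mul_assoc] at h2
      exact h2.1
  · set D : Subgroup G := ⁅(P : Subgroup G), Subgroup.normalizer ((P : Subgroup G) : Set G)⁆ ⊔
        ⨆ (Q : Sylow p G) (_ : (¬ p ∣ ((P : Subgroup G) ⊓ Subgroup.normalizer (((P : Subgroup G) ⊓ (Q : Subgroup G) : Subgroup G) : Set G)).relIndex (Subgroup.normalizer (((P : Subgroup G) ⊓ (Q : Subgroup G) : Subgroup G) : Set G)) ∧ ¬ p ∣ ((Q : Subgroup G) ⊓ Subgroup.normalizer (((P : Subgroup G) ⊓ (Q : Subgroup G) : Subgroup G) : Set G)).relIndex (Subgroup.normalizer (((P : Subgroup G) ⊓ (Q : Subgroup G) : Subgroup G) : Set G))))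
          (x : G) (_ : x ∈ Subgroup.normalizer (((P : Subgroup G) ⊓ (Q : Subgroup G) : Subgroup G) : Set G) ∧ ∃ k : ℕ, orderOf x = p ^ k),
          ⁅(P : Subgroup G) ⊓ (Q : Subgroup G), Subgroup.zpowers x⁆ with hD
    have hD1 : ⁅(P : Subgroup G), Subgroup.normalizer ((P : Subgroup G) : Set G)⁆ ≤ D := le_sup_left
    have hD2 : ∀ Q : Sylow p G, Tame P Q → ∀ x : G,
        x ∈ Subgroup.normalizer (((P : Subgroup G) ⊓ (Q : Subgroup G) : Subgroup G) : Set G) →
        (∃ k : ℕ, orderOf x = p ^ k) → ⁅(P : Subgroup G) ⊓ (Q : Subgroup G), Subgroup.zpowers x⁆ ≤ D := by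
      intro Q hQ x hx hxp
      refine le_trans ?_ (le_sup_right : _ ≤ D)
      exact le_iSup_of_le Q (le_iSup_of_le hQ (le_iSup_of_le x (le_iSup_of_le ⟨hx, hxp⟩ le_rfl)))
    -- the main claim
    have main : ∀ d : ℕ, ∀ Q : Sylow p G, Tame P Q →
        Nat.card P - Nat.card ((P : Subgroup G) ⊓ (Q : Subgroup G) : Subgroup G) ≤ d →
        ∀ n ∈ Subgroup.normalizer (((P : Subgroup G) ⊓ (Q : Subgroup G) : Subgroup G) : Set G),
        ∀ h ∈ (P : Subgroup G) ⊓ (Q : Subgroup G), h⁻¹ * (n⁻¹ * h * n) ∈ D := by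
      intro d
      induction d with
      | zero =>
        intro Q hQ hd n hn h hh
        have heq : (P : Subgroup G) ⊓ (Q : Subgroup G) = P := by
          apply Subgroup.eq_of_le_of_card_ge inf_le_left
          have : Nat.card P = Nat.card (P : Subgroup G) := rfl
          omega
        rw [heq] at hn hh
        apply hD1
        have h1 := Subgroup.commutator_mem_commutator (inv_mem hh) (inv_mem hn)
        rw [commutatorElement_def, inv_inv, inv_inv] at h1
        simpa only [mul_assoc] using h1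
      | succ d ih =>
        intro Q hQ hd
        by_cases heq : (P : Subgroup G) ⊓ (Q : Subgroup G) = P
        · apply ih Q hQ
          rw [heq]
          have : Nat.card P = Nat.card (P : Subgroup G) := rfl
          omega
        · set H := (P : Subgroup G) ⊓ (Q : Subgroup G) with hH
          set N := Subgroup.normalizer (H : Set G) with hN
          -- `S = N_P(H)`
          have hHP : H < (P : Subgroup G) := lt_of_le_of_ne inf_le_left heq
          have hlt : H < (P : Subgroup G) ⊓ N := lt_inf_normalizer _ _ P.2 hHP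
          have hcardlt : Nat.card H < Nat.card ((P : Subgroup G) ⊓ N : Subgroup G) := by
            by_contra hcon
            exact absurd (Subgroup.eq_of_le_of_card_ge hlt.le (not_lt.1 hcon)) hlt.ne
          have hle : N ≤ good N H D le_rfl := by
            apply frattini_good N ((P : Subgroup G) ⊓ N) (good N H D le_rfl) inf_le_right
              (P.2.to_le inf_le_left) hQ.1
            · intro x hx hxp
              refine ⟨hx, fun h hh => ?_⟩
              apply hD2 Q hQ x hx hxp
              have h1 := Subgroup.commutator_mem_commutator (inv_mem hh) (inv_mem (Subgroup.mem_zpowers x))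
              rw [commutatorElement_def, inv_inv, inv_inv] at h1
              simpa only [mul_assoc] using h1
            · intro n hn hnS
              refine ⟨hn, fun h hh => ?_⟩
              obtain ⟨l, hl, hln⟩ := alperin P (((P : Subgroup G) ⊓ N : Subgroup G) : Set G) n
                (fun x hx => hx.1) (by
                  rintro _ ⟨x, hx, rfl⟩
                  have := (Subgroup.mem_normalizer_iff.1 (inv_mem hnS) x).1 hx
                  rw [inv_inv] at this
                  exact this.1)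
              rw [← hln]
              refine chain_good P D (Nat.card ((P : Subgroup G) ⊓ N : Subgroup G)) ?_ l _ le_rfl hl h (hlt.le hh)
              intro Q' hQ' hm
              apply ih Q' hQ'
              omega
          intro n hn h hh
          exact (mem_good.1 (hle hn)).2 h hh
    -- the focal subgroup theorem
    rw [inf_comm, Subgroup.commutator_inf_eq_focalSubgroup, Subgroup.focalSubgroup_def, Subgroup.closure_le]
    rintro g ⟨hg, x, hx, u, rfl⟩
    have h1 : u * x * u⁻¹ ∈ P := by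
      have h2 := P.mul_mem (P.inv_mem hg) hx
      have : (⁅x, u⁆)⁻¹ * x = u * x * u⁻¹ := by rw [commutatorElement_def]; group
      rwa [this] at h2
    obtain ⟨l, hl, hlu⟩ := alperin P {x⁻¹} u⁻¹ (Set.singleton_subset_iff.2 (P.inv_mem hx)) (by
      rw [cset, Set.image_singleton, Set.singleton_subset_iff, inv_inv]
      have := P.inv_mem h1
      have e : (u * x * u⁻¹)⁻¹ = u * x⁻¹ * u⁻¹ := by group
      rwa [e] at this)
    have h2 := chain_good P D 0 (fun Q hQ _ => main _ Q hQ le_rfl) l {x⁻¹} (Nat.zero_le _) hl x⁻¹ rfl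
    rw [hlu, inv_inv, inv_inv] at h2
    rw [SetLike.mem_coe, commutatorElement_def]
    simpa only [mul_assoc] using h2

end Cfsg.Agent.S4250
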