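import Cfsg.Statements.S4251
import Cfsg.Agent.Lib.Alperin
import Cfsg.Agent.Lib.Transfer

set_option autoImplicit false
open Cfsg

namespace Cfsg.Agent.S4251

open Lib.Alperin

variable {G : Type*} [Group G] {p : ℕ}

theorem normalizer_factor [Finite G] [Fact p.Prime] (N S C : Subgroup G) (hS : S ≤ N)
    (hSi : ¬ p ∣ S.relIndex N) [(C.subgroupOf N).Normal] (hC : IsPGroup p (N ⧸ C.subgroupOf N))
    {n : G} (hn : n ∈ N) : ∃ c ∈ C, ∃ s ∈ S, n = c * s := by
  obtain ⟨k, hk⟩ := IsPGroup.iff_card.1 hC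
  have h1 : (C.subgroupOf N).index = p ^ k := hk
  have h2 : (C.subgroupOf N ⊔ S.subgroupOf N).index ∣ p ^ k := h1 ▸ Subgroup.index_dvd_of_le le_sup_left
  have h3 : (C.subgroupOf N ⊔ S.subgroupOf N).index ∣ (S.subgroupOf N).index :=
    Subgroup.index_dvd_of_le le_sup_right
  have h4 : (C.subgroupOf N ⊔ S.subgroupOf N) = ⊤ := by
    rw [← Subgroup.index_eq_one]
    obtain ⟨j, -, hj⟩ := (Nat.dvd_prime_pow Fact.out).1 h2
    rcases Nat.eq_zero_or_pos j with rfl | hj0
    · simpa using hj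
    · exfalso
      apply hSi
      refine (dvd_pow_self p hj0.ne').trans ?_
      rw [← hj]; exact h3
  have h5 : (⟨n, hn⟩ : N) ∈ C.subgroupOf N ⊔ S.subgroupOf N := by rw [h4]; trivial
  obtain ⟨c, hc, s, hs, hcs⟩ := Subgroup.mem_sup_of_normal_left.1 h5
  exact ⟨c, hc, s, hs, (congrArg Subtype.val hcs).symm⟩

/-- Let P be a Sylow p-subgroup of a finite group G. Call an intersection H = P ∩ Q with a Sylow p-subgroup Q tame when N_P(H) and N_Q(H) are Sylow p-subgroups of N_G(H). If N_G(H)/C_G(H) is a p-group for every nontrivial tame intersection H = P ∩ Q, then G has a normal p-complement. -/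
theorem result {G : Type*} [Group G] [Finite G] (p : ℕ) [Fact p.Prime] (P : Sylow p G)
    (h : ∀ Q : Sylow p G, (P : Subgroup G) ⊓ (Q : Subgroup G) ≠ ⊥ → (¬ p ∣ ((P : Subgroup G) ⊓ Subgroup.normalizer (((P : Subgroup G) ⊓ (Q : Subgroup G) : Subgroup G) : Set G)).relIndex (Subgroup.normalizer (((P : Subgroup G) ⊓ (Q : Subgroup G) : Subgroup G) : Set G)) ∧ ¬ p ∣ ((Q : Subgroup G) ⊓ Subgroup.normalizer (((P : Subgroup G) ⊓ (Q : Subgroup G) : Subgroup G) : Set G)).relIndex (Subgroup.normalizer (((P : Subgroup G) ⊓ (Q : Subgroup G) : Subgroup G) : Set G))) →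
      IsPGroup p (Subgroup.normalizer (((P : Subgroup G) ⊓ (Q : Subgroup G) : Subgroup G) : Set G) ⧸
        (Subgroup.centralizer (((P : Subgroup G) ⊓ (Q : Subgroup G) : Subgroup G) : Set G)).subgroupOf
          (Subgroup.normalizer (((P : Subgroup G) ⊓ (Q : Subgroup G) : Subgroup G) : Set G)))) :
    Cfsg.HasNormalPComplement p G := by
  have key : ∀ (l : List (Sylow p G × G)) (x : G), x ∈ P → Chain P {x} l →
      ∃ z ∈ P, (pr l)⁻¹ * x * pr l = z⁻¹ * x * z := by
    intro l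
    induction l with
    | nil =>
      intro x hx _
      exact ⟨1, P.one_mem, by rw [pr_nil]⟩
    | cons q l ih =>
      obtain ⟨Q, n⟩ := q
      rintro x hx ⟨⟨hn, ht⟩, hA, hl⟩
      have hxH : x ∈ (P : Subgroup G) ⊓ (Q : Subgroup G) := hA rfl
      obtain ⟨s, hs, hsx⟩ : ∃ s ∈ P, n⁻¹ * x * n = s⁻¹ * x * s := by
        by_cases hbot : (P : Subgroup G) ⊓ (Q : Subgroup G) = ⊥
        · rw [hbot, Subgroup.mem_bot] at hxH
          exact ⟨1, P.one_mem, by rw [hxH]; simp⟩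
        · obtain ⟨c, hc, s, hs, rfl⟩ := normalizer_factor _ _ _ inf_le_right ht.1 (h Q hbot ht) hn
          refine ⟨s, hs.1, ?_⟩
          have : c * x = x * c := ((Subgroup.mem_centralizer_iff.1 hc) x hxH).symm
          calc (c * s)⁻¹ * x * (c * s) = s⁻¹ * (c⁻¹ * (x * c)) * s := by group
            _ = s⁻¹ * x * s := by rw [← this]; group
      have hset : cset n {x} = {s⁻¹ * x * s} := by
        rw [cset, Set.image_singleton, hsx]
      rw [hset] at hl
      obtain ⟨z, hz, hzx⟩ := ih _ (P.mul_mem (P.mul_mem (P.inv_mem hs) hx) hs) hl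
      refine ⟨s * z, P.mul_mem hs hz, ?_⟩
      rw [pr_cons]
      calc (n * pr l)⁻¹ * x * (n * pr l) = (pr l)⁻¹ * (n⁻¹ * x * n) * pr l := by group
        _ = z⁻¹ * (s⁻¹ * x * s) * z := by rw [hsx, hzx]
        _ = _ := by group
  apply Lib.Transfer.hasNormalPComplement_of_ownFusion P
  rintro x hx y hy ⟨g, hg⟩
  obtain ⟨l, hl, hlg⟩ := alperin P {x} g⁻¹ (by simpa using hx) (by
    rw [cset, Set.image_singleton, Set.singleton_subset_iff, inv_inv, hg]; exact hy)
  obtain ⟨z, hz, hzx⟩ := key l x hx hl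
  refine ⟨z⁻¹, P.inv_mem hz, ?_⟩
  rw [inv_inv, ← hzx, hlg, inv_inv, hg]

end Cfsg.Agent.S4251
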