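import Cfsg.Statements.S4252
import Cfsg.Agent.Lib.FrobBasic

set_option autoImplicit false

open Cfsg

namespace Cfsg.Agent.S4252

/-- Let a finite group G act on a finite set Ω with more than one point, transitively but not regularly, so that no non-identity element of G fixes two distinct points. Then the stabilizer H of any point is a Frobenius complement in G (nontrivial, proper, meeting its other conjugates trivially), and the Frobenius kernel of G with respect to H (the identity together with the elements lying in no conjugate of H) is exactly the set consisting of the identity and the elements fixing no point. -/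
theorem result {G Ω : Type*} [Group G] [Finite G] [Fintype Ω] [MulAction G Ω] (hΩ : 1 < Fintype.card Ω)
    (htrans : ∀ α β : Ω, ∃ g : G, g • α = β) (hnreg : ∃ g : G, g ≠ 1 ∧ ∃ α : Ω, g • α = α)
    (hfix : ∀ g : G, g ≠ 1 → ∀ α β : Ω, g • α = α → g • β = β → α = β) (α : Ω) :
    Cfsg.IsFrobeniusComplement (MulAction.stabilizer G α) ∧
      Cfsg.frobeniusKernel (MulAction.stabilizer G α) = {g : G | g = 1 ∨ ∀ ω : Ω, g • ω ≠ ω} := by
  have key : ∀ g x : G, g⁻¹ * x * g ∈ MulAction.stabilizer G α ↔ x • (g • α) = g • α := by
    intro g x
    rw [MulAction.mem_stabilizer_iff, mul_smul, mul_smul, inv_smul_eq_iff]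
  constructor
  · rw [Lib.FrobBasic.isFrobeniusComplement_iff]
    refine ⟨?_, ?_, ?_⟩
    · obtain ⟨g, hg, β, hβ⟩ := hnreg
      obtain ⟨k, rfl⟩ := htrans α β
      intro hbot
      have := (key k g).2 hβ
      rw [hbot, Subgroup.mem_bot] at this
      apply hg
      have h3 : g = k * (k⁻¹ * g * k) * k⁻¹ := by group
      rw [h3, this]; group
    · intro htop
      obtain ⟨β, hβ⟩ := Fintype.exists_ne_of_one_lt_card hΩ α
      obtain ⟨k, hk⟩ := htrans α β
      have : k ∈ MulAction.stabilizer G α := by rw [htop]; trivial
      rw [MulAction.mem_stabilizer_iff] at this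
      exact hβ (by rw [← hk, this])
    · intro g hg h hh hh'
      by_contra hne
      rw [key] at hh'
      exact hg (by
        rw [MulAction.mem_stabilizer_iff]
        exact (hfix h hne α (g • α) (MulAction.mem_stabilizer_iff.1 hh) hh').symm)
  · ext x
    rw [Lib.FrobBasic.mem_frobeniusKernel_iff]
    change _ ↔ x = 1 ∨ ∀ ω : Ω, x • ω ≠ ω
    refine or_congr_right ?_
    constructor
    · intro h ω
      obtain ⟨k, rfl⟩ := htrans α ω
      intro h'
      exact h k ((key k x).2 h')
    · intro h g hg
      exact h _ ((key g x).1 hg)

end Cfsg.Agent.S4252
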