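import Cfsg.Statements.S4253
import Cfsg.Agent.Lib.FrobBasic

set_option autoImplicit false

open Cfsg

namespace Cfsg.Agent.S4253

/-- Let H be a Frobenius complement in a finite group G (a nontrivial proper subgroup meeting each conjugate gHg⁻¹ with g outside H trivially). Then in the action of G on the left cosets of H by left multiplication, no non-identity element of G fixes two distinct cosets. -/
theorem result {G : Type*} [Group G] [Finite G] (H : Subgroup G) (hH : Cfsg.IsFrobeniusComplement H)
    (g : G) (hg : g ≠ 1) (a b : G ⧸ H) (ha : g • a = a) (hb : g • b = b) : a = b := by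
  induction a using QuotientGroup.induction_on with
  | H x =>
    induction b using QuotientGroup.induction_on with
    | H y =>
      have ha' : ((g * x : G) : G ⧸ H) = x := ha
      have hb' : ((g * y : G) : G ⧸ H) = y := hb
      rw [eq_comm, QuotientGroup.eq] at ha' hb'
      rw [QuotientGroup.eq]
      by_contra hxy
      have h1 := ((Lib.FrobBasic.isFrobeniusComplement_iff H).1 hH).2.2 _ hxy _ ha' (by
        have : (x⁻¹ * y)⁻¹ * (x⁻¹ * (g * x)) * (x⁻¹ * y) = y⁻¹ * (g * y) := by group
        rw [this]; exact hb')
      apply hg
      have h3 : g = x * (x⁻¹ * (g * x)) * x⁻¹ := by group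
      rw [h3, h1]
      group

end Cfsg.Agent.S4253
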