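import Cfsg.Statements.S4260

set_option autoImplicit false

open Cfsg

namespace Cfsg.Agent.S4260

theorem mem_of_pow_mem {G : Type*} [Group G] [Finite G] (H : Subgroup G) (x : G) (n : ℕ)
    (hx : x ^ n ∈ H) (hc : (orderOf x).Coprime n) : x ∈ H := by
  obtain ⟨m, hm⟩ := exists_pow_eq_self_of_coprime hc.symm
  rw [← hm]
  exact H.pow_mem hx m

/-- Let H be a Hall subgroup of a finite group G (the order of H is coprime to its index) such that x^[G : H] lies in H for every x in G. Then H is normal in G. -/
theorem result {G : Type*} [Group G] [Finite G] (H : Subgroup G) (hHall : (Nat.card H).Coprime H.index)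
    (hexp : ∀ x : G, x ^ H.index ∈ H) : H.Normal := by
  refine ⟨fun n hn g => ?_⟩
  refine mem_of_pow_mem H _ H.index (hexp _) ?_
  have h1 : orderOf (g * n * g⁻¹) ∣ Nat.card H := by
    have h2 : orderOf (g * n * g⁻¹) = orderOf n := by
      have := MulEquiv.orderOf_eq (MulAut.conj g) n
      rwa [MulAut.conj_apply] at this
    rw [h2]
    have := orderOf_dvd_natCard (⟨n, hn⟩ : H)
    rwa [Subgroup.orderOf_mk] at this
  exact Nat.Coprime.coprime_dvd_left h1 hHall

end Cfsg.Agent.S4260
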