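import Cfsg.Statements.S4261

set_option autoImplicit false

open Cfsg

namespace Cfsg.Agent.S4261

theorem mem_of_pow_mem {G : Type*} [Group G] (H : Subgroup G) (x : G) (n : ℕ)
    (hx : x ^ n ∈ H) (hc : (orderOf x).Coprime n) : x ∈ H := by
  obtain ⟨m, hm⟩ := exists_pow_eq_self_of_coprime hc.symm
  rw [← hm]
  exact H.pow_mem hx m

theorem corefree {G : Type*} [Group G] [Finite G] (hG : Group.IsSolvable G) (M : Subgroup G) (hM : IsCoatom M)
    (hexp : ∀ x : G, x ^ M.index ∈ M) (hcore : M.normalCore = ⊥) : M.Normal := by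
  have : Nontrivial G := by
    by_contra h
    rw [not_nontrivial_iff_subsingleton] at h
    exact hM.1 (Subsingleton.elim _ _)
  -- abelian normal subgroup
  obtain ⟨A, hAn, hAne, hAc⟩ : ∃ A : Subgroup G, A.Normal ∧ A ≠ ⊥ ∧ ∀ a ∈ A, ∀ b ∈ A, a * b = b * a := by
    classical
    have hex : ∃ n, derivedSeries G n = ⊥ := (Group.isSolvable_def G).1 hG
    have h0 : Nat.find hex ≠ 0 := by
      intro h
      have := Nat.find_spec hex
      rw [h, derivedSeries_zero] at this
      exact top_ne_bot this
    obtain ⟨n, hn⟩ := Nat.exists_eq_succ_of_ne_zero h0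
    refine ⟨derivedSeries G n, derivedSeries_normal G n, Nat.find_min hex (by omega), ?_⟩
    have h1 := Nat.find_spec hex
    rw [hn, derivedSeries_succ, Subgroup.commutator_eq_bot_iff_le_centralizer] at h1
    intro a ha b hb
    have := h1 hb
    rw [Subgroup.mem_centralizer_iff] at this
    exact this a ha
  have hsup : ∀ B : Subgroup G, B.Normal → B ≠ ⊥ → M ⊔ B = ⊤ := by
    intro B hB hBne
    by_contra h
    have h1 : M ⊔ B = M := by
      by_contra h2
      exact h (hM.2 _ (lt_of_le_of_ne le_sup_left (Ne.symm h2)))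
    have h2 : B ≤ M := by rw [← h1]; exact le_sup_right
    have h3 : B ≤ M.normalCore := Subgroup.normal_le_normalCore.2 h2
    rw [hcore] at h3
    exact hBne (le_bot_iff.1 h3)
  have hinf : M ⊓ A = ⊥ := by
    have h1 : (M ⊓ A).Normal := by
      refine ⟨fun n hn g => ?_⟩
      have hg : g ∈ M ⊔ A := by rw [hsup A hAn hAne]; trivial
      rw [Subgroup.mem_sup_of_normal_right] at hg
      obtain ⟨m, hm, a, ha, rfl⟩ := hg
      have h2 : m * a * n * (m * a)⁻¹ = m * n * m⁻¹ := by
        have := hAc a ha n hn.2
        rw [mul_assoc m a n, this]; group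
      rw [h2]
      exact ⟨M.mul_mem (M.mul_mem hm hn.1) (M.inv_mem hm), hAn.conj_mem n hn.2 m⟩
    have h2 : M ⊓ A ≤ M.normalCore := Subgroup.normal_le_normalCore.2 inf_le_left
    rw [hcore] at h2
    exact le_bot_iff.1 h2
  have hcard : ∀ B : Subgroup G, B.Normal → B ≠ ⊥ → B ≤ A → M.index = Nat.card B := by
    intro B hB hBne hBA
    have hd : Disjoint M B := by
      rw [disjoint_iff, ← le_bot_iff, ← hinf]
      exact inf_le_inf_left M hBA
    have hc : M.IsComplement' B := by
      apply Subgroup.isComplement'_of_disjoint_and_mul_eq_univ hd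
      rw [← Subgroup.mul_normal, hsup B hB hBne]
      rfl
    exact hc.symm.index_eq_card
  have hAcard : Nat.card A ≠ 1 := fun h => hAne (Subgroup.card_eq_one.1 h)
  obtain ⟨p, hp, hpA⟩ := Nat.exists_prime_and_dvd hAcard
  have hf : Fact p.Prime := ⟨hp⟩
  have P : Sylow p A := default
  have hAcomm : IsMulCommutative A := ⟨⟨fun a b => Subtype.ext (hAc a a.2 b b.2)⟩⟩
  have hPn : (P : Subgroup A).Normal := by
    refine ⟨fun n hn g => ?_⟩
    have : g * n * g⁻¹ = n := by
      have : g * n = n * g := Subtype.ext (hAc g g.2 n n.2)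
      rw [this]; group
    rwa [this]
  have hPc := P.characteristic_of_normal hPn
  have hPn' : ((P : Subgroup A).map A.subtype).Normal := ConjAct.normal_of_characteristic_of_normal
  have hPcard : Nat.card ((P : Subgroup A).map A.subtype) = Nat.card (P : Subgroup A) :=
    Nat.card_congr ((P : Subgroup A).equivMapOfInjective _ A.subtype_injective).toEquiv.symm
  have hPne : (P : Subgroup A).map A.subtype ≠ ⊥ := by
    intro h
    rw [h, Subgroup.card_bot] at hPcard
    exact P.ne_bot_of_dvd_card hpA (Subgroup.card_eq_one.1 hPcard.symm)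
  have hidx := hcard _ hPn' hPne (Subgroup.map_subtype_le _)
  obtain ⟨k, hk⟩ := IsPGroup.iff_card.1 P.isPGroup'
  change Nat.card (P : Subgroup A) = p ^ k at hk
  rw [hPcard, hk] at hidx
  -- p'-elements
  have hel : ∀ x : G, (orderOf x).Coprime p → x ∈ M := by
    intro x hx
    apply mem_of_pow_mem M x M.index (hexp x)
    rw [hidx]
    exact hx.pow_right k
  have hN : (Subgroup.normalClosure {x : G | (orderOf x).Coprime p}) = ⊥ := by
    rw [← le_bot_iff, ← hcore, Subgroup.normal_le_normalCore]
    rw [Subgroup.normalClosure]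
    rw [Subgroup.closure_le]
    intro y hy
    rw [Group.mem_conjugatesOfSet_iff] at hy
    obtain ⟨x, hx, hxy⟩ := hy
    apply hel
    rw [isConj_iff] at hxy
    obtain ⟨c, rfl⟩ := hxy
    have : orderOf (c * x * c⁻¹) = orderOf x := by
      have := MulEquiv.orderOf_eq (MulAut.conj c) x
      rwa [MulAut.conj_apply] at this
    rw [this]
    exact hx
  have hel' : ∀ x : G, (orderOf x).Coprime p → x = 1 := by
    intro x hx
    have h1 : x ∈ Subgroup.normalClosure {x : G | (orderOf x).Coprime p} :=
      Subgroup.subset_normalClosure hx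
    rw [hN] at h1
    exact h1
  have hpG : IsPGroup p G := by
    rw [IsPGroup.iff_card]
    refine ⟨(Nat.card G).primeFactorsList.length, ?_⟩
    apply Nat.eq_prime_pow_of_unique_prime_dvd Nat.card_pos.ne'
    intro q hq hqG
    by_contra hne
    have hfq : Fact q.Prime := ⟨hq⟩
    obtain ⟨x, hx⟩ := exists_prime_orderOf_dvd_card' (G := G) q hqG
    have := hel' x (by rw [hx]; exact (Nat.coprime_primes hq hp).2 hne)
    rw [this, orderOf_one] at hx
    exact hq.one_lt.ne hx
  have := hpG.isNilpotent
  exact Subgroup.NormalizerCondition.normal_of_coatom M Group.normalizerCondition_of_isNilpotent hM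

theorem comap_map_eq_self {G G' : Type*} [Group G] [Group G'] (f : G →* G') (M : Subgroup G)
    (h : f.ker ≤ M) : (M.map f).comap f = M := by
  rw [Subgroup.comap_map_eq]
  exact sup_eq_left.2 h

theorem isCoatom_map {G G' : Type*} [Group G] [Group G'] (f : G →* G') (hf : Function.Surjective f)
    (M : Subgroup G) (h : f.ker ≤ M) (hM : IsCoatom M) : IsCoatom (M.map f) := by
  constructor
  · intro h1
    apply hM.1
    rw [← comap_map_eq_self f M h, h1, Subgroup.comap_top]
  · intro K hK
    have h1 : M < K.comap f := by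
      rw [← comap_map_eq_self f M h]
      exact (Subgroup.comap_lt_comap_of_surjective hf).2 hK
    have h2 := hM.2 _ h1
    rw [← Subgroup.map_comap_eq_self_of_surjective hf K, h2, ← MonoidHom.range_eq_map,
      MonoidHom.range_eq_top.2 hf]

theorem core_map {G G' : Type*} [Group G] [Group G'] (f : G →* G') (hf : Function.Surjective f)
    (M : Subgroup G) (hker : f.ker = M.normalCore) : (M.map f).normalCore = ⊥ := by
  have hker' : f.ker ≤ M := by rw [hker]; exact Subgroup.normalCore_le M
  have h2 : (M.map f).normalCore.comap f ≤ M.normalCore := by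
    rw [Subgroup.normal_le_normalCore]
    conv_rhs => rw [← comap_map_eq_self f M hker']
    exact Subgroup.comap_mono (Subgroup.normalCore_le _)
  rw [← hker] at h2
  rw [Subgroup.eq_bot_iff_forall]
  intro y hy
  obtain ⟨x, rfl⟩ := hf y
  exact h2 hy

/-- Let M be a maximal subgroup of a finite solvable group G such that x^[G : M] lies in M for every x in G. Then M is normal in G. -/
theorem result {G : Type*} [Group G] [Finite G] (hG : Group.IsSolvable G) (M : Subgroup G) (hM : IsCoatom M)
    (hexp : ∀ x : G, x ^ M.index ∈ M) : M.Normal := by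
  have hNM : M.normalCore ≤ M := Subgroup.normalCore_le M
  let f := QuotientGroup.mk' M.normalCore
  have hf : Function.Surjective f := QuotientGroup.mk'_surjective M.normalCore
  have hker : f.ker = M.normalCore := QuotientGroup.ker_mk' M.normalCore
  have hker' : f.ker ≤ M := by
    rw [hker]; exact hNM
  have hcomap : (M.map f).comap f = M := comap_map_eq_self f M hker'
  have hsol : Group.IsSolvable (G ⧸ M.normalCore) := by
    have := hG
    exact Group.isSolvable_of_surjective hf
  have hidx : (M.map f).index = M.index := Subgroup.index_map_eq M hf hker'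
  have h1 : (M.map f).Normal := by
    apply corefree hsol
    · exact isCoatom_map f hf M hker' hM
    · intro x
      obtain ⟨y, rfl⟩ := hf x
      rw [hidx, ← map_pow]
      exact Subgroup.mem_map_of_mem f (hexp y)
    · exact core_map f hf M hker
  rw [← hcomap]
  exact h1.comap f

end Cfsg.Agent.S4261
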