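import Cfsg.Statements.S4263

set_option autoImplicit false

open Cfsg

namespace Cfsg.Agent.S4263

/-- intersection of all Sylow p-subgroups -/
def sylInf (p : ℕ) (G : Type*) [Group G] : Subgroup G := ⨅ P : Sylow p G, (P : Subgroup G)

open scoped Pointwise in
theorem sylInf_normal (p : ℕ) (G : Type*) [Group G] : (sylInf p G).Normal := by
  refine ⟨fun n hn g => ?_⟩
  unfold sylInf at *
  rw [Subgroup.mem_iInf] at hn ⊢
  intro P
  have h := hn (g⁻¹ • P)
  have h2 : n ∈ (MulAut.conj g⁻¹) • (P : Subgroup G) := h
  rw [Subgroup.mem_pointwise_smul_iff_inv_smul_mem] at h2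
  have h3 : (MulAut.conj g⁻¹)⁻¹ • n = g * n * g⁻¹ := by
    rw [MulAut.smul_def, ← map_inv, MulAut.conj_apply, inv_inv]
  rwa [h3] at h2

theorem sylInf_isPGroup (p : ℕ) (G : Type*) [Group G] : IsPGroup p (sylInf p G) := by
  have P : Sylow p G := default
  exact P.isPGroup'.to_le (iInf_le _ P)

theorem normal_le_sylInf {G : Type*} [Group G] (p : ℕ) (N : Subgroup G) [N.Normal]
    (hN : IsPGroup p N) : N ≤ sylInf p G := by
  refine le_iInf fun P => ?_
  have h1 : IsPGroup p ((P : Subgroup G) ⊔ N : Subgroup G) :=
    P.isPGroup'.to_sup_of_normal_right hN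
  have h2 := P.is_maximal' h1 le_sup_left
  rw [← h2]
  exact le_sup_right

theorem nilp_le {G : Type*} [Group G] [Finite G] (N : Subgroup G) [N.Normal]
    (hN : Group.IsNilpotent N) :
    N ≤ ⨆ p : (Nat.card G).primeFactors, sylInf (p : ℕ) G := by
  rw [← Subgroup.relIndex_eq_one]
  rw [← Nat.coprime_self]
  by_contra hcop
  obtain ⟨p, hp, hpd, -⟩ := Nat.Prime.not_coprime_iff_dvd.1 hcop
  have : Fact p.Prime := ⟨hp⟩
  have P : Sylow p N := default
  have hPn : (P : Subgroup N).Normal := by
    have := (Group.isNilpotent_of_finite_tfae (G := N)).out 0 3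
    exact this.1 hN p ⟨hp⟩ P
  have hPc := P.characteristic_of_normal hPn
  have hPn' : ((P : Subgroup N).map N.subtype).Normal := by
    exact ConjAct.normal_of_characteristic_of_normal
  have hPp : IsPGroup p ((P : Subgroup N).map N.subtype) := P.isPGroup'.map _
  have hle := normal_le_sylInf p _ hPp
  by_cases hpG : p ∈ (Nat.card G).primeFactors
  · have hle2 : ((P : Subgroup N).map N.subtype) ≤
        ⨆ p : (Nat.card G).primeFactors, sylInf (p : ℕ) G :=
      hle.trans (le_iSup (fun p : (Nat.card G).primeFactors => sylInf (p : ℕ) G) ⟨p, hpG⟩)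
    have h3 : (P : Subgroup N) ≤ (⨆ p : (Nat.card G).primeFactors, sylInf (p : ℕ) G).subgroupOf N := by
      rw [Subgroup.subgroupOf, ← Subgroup.map_le_iff_le_comap]
      exact hle2
    have h4 := Subgroup.index_dvd_of_le h3
    exact P.not_dvd_index ((dvd_trans hpd h4))
  · apply hpG
    rw [Nat.mem_primeFactors]
    refine ⟨hp, ?_, Nat.card_pos.ne'⟩
    refine (hpd.trans ?_).trans (Subgroup.card_subgroup_dvd_card N)
    exact Subgroup.relIndex_dvd_card _ _

theorem iSup_nilp (G : Type*) [Group G] [Finite G] :
    Group.IsNilpotent (⨆ p : (Nat.card G).primeFactors, sylInf (p : ℕ) G : Subgroup G) := by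
  have hcomm : Pairwise fun i j : (Nat.card G).primeFactors =>
      ∀ x y : G, x ∈ sylInf (i : ℕ) G → y ∈ sylInf (j : ℕ) G → Commute x y := by
    intro i j hij x y hx hy
    have := sylInf_normal i G
    have := sylInf_normal j G
    have : Fact (i : ℕ).Prime := ⟨Nat.prime_of_mem_primeFactors i.2⟩
    have : Fact (j : ℕ).Prime := ⟨Nat.prime_of_mem_primeFactors j.2⟩
    have hd : Disjoint (sylInf (i : ℕ) G) (sylInf (j : ℕ) G) :=
      IsPGroup.disjoint_of_ne i j (fun h => hij (Subtype.ext h)) _ _
        (sylInf_isPGroup i G) (sylInf_isPGroup j G)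
    exact Subgroup.commute_of_normal_of_disjoint _ _ inferInstance inferInstance hd x y hx hy
  have hr := Subgroup.noncommPiCoprod_range (hcomm := hcomm)
  have : ∀ i : (Nat.card G).primeFactors, Group.IsNilpotent (sylInf (i : ℕ) G) := by
    intro i
    have : Fact (i : ℕ).Prime := ⟨Nat.prime_of_mem_primeFactors i.2⟩
    exact (sylInf_isPGroup i G).isNilpotent
  rw [← hr]
  exact Group.nilpotent_of_surjective _ (MonoidHom.rangeRestrict_surjective _)

theorem fitting_nilp (G : Type*) [Group G] [Finite G] : Group.IsNilpotent (fittingSubgroup G) := by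
  have h1 : fittingSubgroup G ≤ ⨆ p : (Nat.card G).primeFactors, sylInf (p : ℕ) G := by
    unfold fittingSubgroup
    refine sSup_le ?_
    rintro N ⟨hN1, hN2⟩
    exact nilp_le N hN2
  have := iSup_nilp G
  exact Group.nilpotent_of_mulEquiv (Subgroup.subgroupOfEquivOfLe h1)

theorem pow_index_mem_of_nilp (N : Type*) [Group N] [Finite N] [Group.IsNilpotent N] (n : ℕ) :
    ∀ K : Subgroup N, K.index ≤ n → ∀ x : N, x ^ K.index ∈ K := by
  induction n with
  | zero =>
    intro K hK x
    have := K.index_ne_zero_of_finite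
    omega
  | succ n ih =>
    intro K hK x
    by_cases hKtop : K = ⊤
    · rw [hKtop]; trivial
    · have h1 : K < Subgroup.normalizer (K : Set N) :=
        Group.normalizerCondition_of_isNilpotent K (lt_top_iff_ne_top.2 hKtop)
      set M := Subgroup.normalizer (K : Set N) with hM
      have h2 : K.relIndex M * M.index = K.index := Subgroup.relIndex_mul_index h1.le
      have h3 : K.relIndex M ≠ 1 := by
        intro h
        rw [Subgroup.relIndex_eq_one] at h
        exact absurd h1 (not_lt_of_ge h)
      have h4 : K.relIndex M ≠ 0 := by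
        intro h
        rw [h, zero_mul] at h2
        exact K.index_ne_zero_of_finite h2.symm
      have h5 : M.index ≠ 0 := M.index_ne_zero_of_finite
      have h6 : M.index ≤ n := by
        have : 2 * M.index ≤ K.index := by
          rw [← h2]
          exact Nat.mul_le_mul_right _ (by omega)
        omega
      have h7 := ih M h6 x
      have : (K.subgroupOf M).Normal := by
        rw [hM]; infer_instance
      have h8 := Subgroup.pow_index_mem (K.subgroupOf M) (⟨x ^ M.index, h7⟩ : M)
      rw [Subgroup.mem_subgroupOf] at h8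
      rw [← h2, mul_comm, pow_mul]
      exact h8

theorem relIndex_dvd_index_of_normal_right {G : Type*} [Group G] [Finite G] (H N : Subgroup G)
    [N.Normal] : H.relIndex N ∣ H.index := by
  have h1 : (H ⊓ N).relIndex N * N.relIndex (H ⊔ N) = (H ⊓ N).relIndex (H ⊔ N) :=
    Subgroup.relIndex_mul_relIndex _ _ _ inf_le_right le_sup_right
  have h2 : (H ⊓ N).relIndex H * H.relIndex (H ⊔ N) = (H ⊓ N).relIndex (H ⊔ N) :=
    Subgroup.relIndex_mul_relIndex _ _ _ inf_le_left le_sup_left
  rw [Subgroup.inf_relIndex_right, Subgroup.relIndex_sup_right] at h1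
  rw [Subgroup.inf_relIndex_left] at h2
  have h3 : N.relIndex H ≠ 0 := fun h =>
    N.index_ne_zero_of_finite (Subgroup.index_eq_zero_of_relIndex_eq_zero h)
  have h4 : H.relIndex N = H.relIndex (H ⊔ N) := by
    apply Nat.eq_of_mul_eq_mul_left (Nat.pos_of_ne_zero h3)
    rw [h2, ← h1, mul_comm]
  rw [h4]
  exact Subgroup.relIndex_dvd_index_of_le le_sup_left

/-- Let G be a finite group. An element x lies in the Fitting subgroup F(G) if and only if, for every subgroup H of G, the power x^[G : H] lies in H. -/
theorem result {G : Type*} [Group G] [Finite G] (x : G) :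
    x ∈ Cfsg.fittingSubgroup G ↔ ∀ H : Subgroup G, x ^ H.index ∈ H := by
  have hn : (fittingSubgroup G).Normal := Subgroup.sSup_normal _ (fun H hH => hH.1)
  constructor
  · intro hx H
    have hF := fitting_nilp G
    have h1 := pow_index_mem_of_nilp (fittingSubgroup G) _ (H.subgroupOf (fittingSubgroup G)) le_rfl ⟨x, hx⟩
    rw [Subgroup.mem_subgroupOf] at h1
    have h2 : x ^ H.relIndex (fittingSubgroup G) ∈ H := h1
    have h3 : H.relIndex (fittingSubgroup G) ∣ H.index :=
      relIndex_dvd_index_of_normal_right H _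
    obtain ⟨k, hk⟩ := h3
    rw [hk, pow_mul]
    exact H.pow_mem h2 k
  · intro h
    have key : ∀ p : ℕ, p.Prime → ∀ P : Sylow p G, x ^ (P : Subgroup G).index ∈ fittingSubgroup G := by
      intro p hp P
      have : Fact p.Prime := ⟨hp⟩
      have h1 : x ^ (P : Subgroup G).index ∈ sylInf p G := by
        unfold sylInf
        rw [Subgroup.mem_iInf]
        intro Q
        have h2 : (P : Subgroup G).index = (Q : Subgroup G).index := by
          have e1 := (P : Subgroup G).card_mul_index
          have e2 := (Q : Subgroup G).card_mul_index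
          have e3 : Nat.card P = Nat.card Q := by
            rw [P.card_eq_multiplicity, Q.card_eq_multiplicity]
          rw [← e2] at e1
          change Nat.card P * _ = Nat.card Q * _ at e1
          rw [e3] at e1
          exact Nat.eq_of_mul_eq_mul_left Nat.card_pos e1
        rw [h2]
        exact h Q
      have h3 : sylInf p G ≤ fittingSubgroup G := by
        unfold fittingSubgroup
        exact le_sSup ⟨sylInf_normal p G, (sylInf_isPGroup p G).isNilpotent⟩
      exact h3 h1
    rw [← QuotientGroup.eq_one_iff, ← orderOf_eq_one_iff, ← Nat.coprime_self]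
    by_contra hcop
    obtain ⟨p, hp, hpd, -⟩ := Nat.Prime.not_coprime_iff_dvd.1 hcop
    have : Fact p.Prime := ⟨hp⟩
    have P : Sylow p G := default
    have h1 := key p hp P
    rw [← QuotientGroup.eq_one_iff, QuotientGroup.mk_pow] at h1
    have h2 := orderOf_dvd_of_pow_eq_one h1
    exact P.not_dvd_index (hpd.trans h2)

end Cfsg.Agent.S4263
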