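import Cfsg.Statements.S4269
import Cfsg.Agent.Lib.SubgroupTools
import Cfsg.Agent.Lib.RelSylow

set_option autoImplicit false
open Cfsg

namespace Cfsg.Agent.S4269

open Subgroup Pointwise Cfsg.Agent.Lib.SubgroupTools
open scoped commutatorElement

/-- Let G be a finite group, V an abelian normal subgroup and H a subgroup with HV = G. Then H is pronormal in G (H and gHg⁻¹ are conjugate inside the subgroup they generate, for every g) if and only if every H-invariant subgroup U of V satisfies U = N_U(H)·[H, U], that is, U is the join of U ∩ N_G(H) and the commutator subgroup [H, U]. -/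
theorem result {G : Type*} [Group G] [Finite G]
    (V : Subgroup G) [V.Normal] (hV : IsMulCommutative ↥V) (H : Subgroup G) (hHV : H ⊔ V = ⊤) :
    Cfsg.IsPronormal H ↔
      ∀ U : Subgroup G, U ≤ V → (∀ h ∈ H, U.map (MulAut.conj h).toMonoidHom = U) →
        U = (U ⊓ Subgroup.normalizer (H : Set G)) ⊔ ⁅H, U⁆ := by
  have hVc : ∀ a ∈ V, ∀ b ∈ V, a * b = b * a := isMulCommutative_iff_of_setLike.mp hV
  -- `H` normalizes `[H, U]`
  have hHW : ∀ U : Subgroup G, (∀ h ∈ H, U.map (MulAut.conj h).toMonoidHom = U) →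
      H ≤ normalizer ((⁅H, U⁆ : Subgroup G) : Set G) := by
    intro U hU h hh
    rw [Cfsg.Agent.Lib.RelSylow.mem_normalizer_iff_map, map_commutator, hU h hh,
      Cfsg.Agent.Lib.RelSylow.conj_eq_of_mem hh]
  constructor
  · intro hpro U hUV hUH
    have hUH' : ∀ h ∈ H, ∀ u ∈ U, h * u * h⁻¹ ∈ U := by
      intro h hh u hu
      rw [← hUH h hh]
      exact ⟨u, hu, rfl⟩
    have hWU : ⁅H, U⁆ ≤ U := by
      rw [commutator_le]
      intro h hh u hu
      rw [commutatorElement_def]
      exact mul_mem (hUH' h hh u hu) (inv_mem hu)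
    apply le_antisymm
    · intro u hu
      obtain ⟨x, hx, hxH⟩ := hpro u
      have h1 : H ⊔ H.map (MulAut.conj u).toMonoidHom ≤ ⁅H, U⁆ ⊔ H := by
        refine sup_le le_sup_right ?_
        rintro _ ⟨h, hh, rfl⟩
        have h2 : ⁅h, u⁆ ∈ ⁅H, U⁆ := commutator_mem_commutator hh hu
        have h3 : (MulAut.conj u).toMonoidHom h = ⁅h, u⁆⁻¹ * h := by
          show u * h * u⁻¹ = _
          rw [commutatorElement_def]; group
        rw [h3]
        exact mul_mem (mem_sup_left (inv_mem h2)) (mem_sup_right hh)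
      obtain ⟨w, hw, h, hh, hwh⟩ := (mem_sup_of_le_normalizer (hHW U hUH)).mp (h1 hx)
      have h4 : H.map (MulAut.conj u).toMonoidHom = H.map (MulAut.conj w).toMonoidHom := by
        rw [hxH, ← hwh, ← Cfsg.Agent.Lib.RelSylow.conj_conj, Cfsg.Agent.Lib.RelSylow.conj_eq_of_mem hh]
      have h5 : w⁻¹ * u ∈ normalizer (H : Set G) := by
        rw [Cfsg.Agent.Lib.RelSylow.mem_normalizer_iff_map, ← Cfsg.Agent.Lib.RelSylow.conj_conj, h4,
          Cfsg.Agent.Lib.RelSylow.conj_conj, inv_mul_cancel, Cfsg.Agent.Lib.RelSylow.conj_one]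
      have h6 : u = w * (w⁻¹ * u) := by group
      rw [h6]
      exact mul_mem (mem_sup_right hw) (mem_sup_left (mem_inf.mpr ⟨mul_mem (inv_mem (hWU hw)) hu, h5⟩))
    · exact sup_le inf_le_left hWU
  · intro hU g
    obtain ⟨v, hv, h, hh, rfl⟩ : ∃ v ∈ V, ∃ h ∈ H, v * h = g := by
      have h1 : g ∈ V ⊔ H := by rw [sup_comm, hHV]; trivial
      exact (mem_sup_of_normal_left).mp h1
    have h1 : H.map (MulAut.conj (v * h)).toMonoidHom = H.map (MulAut.conj v).toMonoidHom := by
      rw [← Cfsg.Agent.Lib.RelSylow.conj_conj, Cfsg.Agent.Lib.RelSylow.conj_eq_of_mem hh]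
    rw [h1]
    set U : Subgroup G := closure {u | ∃ k ∈ H, u = k * v * k⁻¹} with hUdef
    have hUV : U ≤ V := by
      rw [hUdef, closure_le]
      rintro _ ⟨k, hk, rfl⟩
      exact (inferInstance : V.Normal).conj_mem _ hv k
    have hUle : ∀ k ∈ H, U.map (MulAut.conj k).toMonoidHom ≤ U := by
      intro k hk
      rw [hUdef, MonoidHom.map_closure, closure_le]
      rintro _ ⟨_, ⟨l, hl, rfl⟩, rfl⟩
      apply Subgroup.subset_closure
      refine ⟨k * l, mul_mem hk hl, ?_⟩
      show k * (l * v * l⁻¹) * k⁻¹ = _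
      group
    have hUH : ∀ k ∈ H, U.map (MulAut.conj k).toMonoidHom = U := by
      intro k hk
      apply le_antisymm (hUle k hk)
      have h2 := map_mono (f := (MulAut.conj k).toMonoidHom) (hUle k⁻¹ (inv_mem hk))
      rw [Cfsg.Agent.Lib.RelSylow.conj_conj, mul_inv_cancel, Cfsg.Agent.Lib.RelSylow.conj_one] at h2
      exact h2
    have hvU : v ∈ U := Subgroup.subset_closure ⟨1, one_mem _, by group⟩
    have hUH' : ∀ h ∈ H, ∀ u ∈ U, h * u * h⁻¹ ∈ U := by
      intro h hh u hu
      rw [← hUH h hh]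
      exact ⟨u, hu, rfl⟩
    have hWU : ⁅H, U⁆ ≤ U := by
      rw [commutator_le]
      intro h hh u hu
      rw [commutatorElement_def]
      exact mul_mem (hUH' h hh u hu) (inv_mem hu)
    have h2 := hU U hUV hUH
    have h3 : U ⊓ normalizer (H : Set G) ≤ normalizer ((⁅H, U⁆ : Subgroup G) : Set G) := by
      intro x hx
      have hxV := hUV (mem_inf.mp hx).1
      rw [mem_normalizer_iff]
      intro y
      constructor
      · intro hy
        rw [hVc x hxV y (hUV (hWU hy)), mul_inv_cancel_right]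
        exact hy
      · intro hy
        have h4 : x⁻¹ * (x * y * x⁻¹) = (x * y * x⁻¹) * x⁻¹ := hVc _ (inv_mem hxV) _ (hUV (hWU hy))
        have h5 : y = x * y * x⁻¹ := by
          calc y = (x⁻¹ * (x * y * x⁻¹)) * x := by group
            _ = ((x * y * x⁻¹) * x⁻¹) * x := by rw [h4]
            _ = x * y * x⁻¹ := by group
        rw [h5]; exact hy
    have hv2 : v ∈ ⁅H, U⁆ ⊔ (U ⊓ normalizer (H : Set G)) := by
      rw [sup_comm, ← h2]; exact hvU
    obtain ⟨w, hw, n, hn, hwn⟩ := (mem_sup_of_le_normalizer h3).mp hv2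
    refine ⟨w, ?_, ?_⟩
    · -- `[H, U] ≤ J`
      set J := H ⊔ H.map (MulAut.conj v).toMonoidHom with hJ
      have hHJ : H ≤ J := le_sup_left
      have hvJ : ∀ k ∈ H, v * k * v⁻¹ ∈ J := fun k hk => mem_sup_right ⟨k, hk, rfl⟩
      have h4 : ⁅H, U⁆ ≤ J := by
        rw [commutator_le]
        intro k hk u hu
        rw [hUdef] at hu
        induction hu using closure_induction with
        | mem x hx =>
          obtain ⟨l, hl, rfl⟩ := hx
          have h5 : ⁅k, l * v * l⁻¹⁆ = l * ((l⁻¹ * k * l) * (v * (l⁻¹ * k * l)⁻¹ * v⁻¹)) * l⁻¹ := by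
            rw [commutatorElement_def]; group
          rw [h5]
          have h6 : l⁻¹ * k * l ∈ H := mul_mem (mul_mem (inv_mem hl) hk) hl
          exact mul_mem (mul_mem (hHJ hl) (mul_mem (hHJ h6) (hvJ _ (inv_mem h6)))) (inv_mem (hHJ hl))
        | one => rw [commutatorElement_one_right]; exact one_mem _
        | mul x y hx hy ihx ihy =>
          have h7 : ⁅k, y⁆ ∈ U := hWU (commutator_mem_commutator hk hy)
          have h5 : ⁅k, x * y⁆ = ⁅k, x⁆ * (x * ⁅k, y⁆ * x⁻¹) := by
            simp only [commutatorElement_def]; group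
          rw [h5, hVc x (hUV hx) _ (hUV h7), mul_inv_cancel_right]
          exact mul_mem ihx ihy
        | inv x hx ihx =>
          have h7 : ⁅k, x⁆ ∈ U := hWU (commutator_mem_commutator hk hx)
          have h5 : ⁅k, x⁻¹⁆ = (x⁻¹ * ⁅k, x⁆ * x)⁻¹ := by
            simp only [commutatorElement_def]; group
          rw [h5, hVc _ (inv_mem (hUV hx)) _ (hUV h7), inv_mul_cancel_right]
          exact inv_mem ihx
      exact h4 hw
    · have h4 : v = w * n := hwn.symm
      rw [h4, ← Cfsg.Agent.Lib.RelSylow.conj_conj,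
        Cfsg.Agent.Lib.RelSylow.conj_eq_of_mem_normalizer (mem_inf.mp hn).2]

end Cfsg.Agent.S4269
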