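import Cfsg.Statements.S4323
import Cfsg.Agent.Lib.H70SqJ

set_option autoImplicit false
open Cfsg

namespace Cfsg.Agent.S4323

open Cfsg.Agent.Lib Subgroup

universe u v

theorem aux {A : Type u} {G : Type v} [Group A] [Finite A]
    [Group G] [Finite G] [MulDistribMulAction A G] (q : ℕ) (hq : q.Prime) (hA : Nat.card A = q ^ 2) (hnc : ¬ IsCyclic A)
    (hcop : ¬ q ∣ Nat.card G) (h : ∀ a : A, a ≠ 1 → IsMulCommutative ↥(FixedPoints.subgroup (Subgroup.zpowers a) G)) :
    Group.IsSolvable G := by
  have := Fact.mk hq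
  let φ : A →* MulAut G := MulDistribMulAction.toMulAut A G
  have hφ : ∀ (a : A) (g : G), φ a g = a • g := fun _ _ => rfl
  have hfin : Finite (G ⋊[φ] A) := Finite.of_injective (fun x => (x.left, x.right)) (by
    intro x y hxy
    exact SemidirectProduct.ext (congrArg Prod.fst hxy) (congrArg Prod.snd hxy))
  have hAc := IsPGroup.isMulCommutative_of_card_eq_prime_sq (p := q) hA
  have hinr : Function.Injective (SemidirectProduct.inr : A →* G ⋊[φ] A) := SemidirectProduct.inr_injective
  have hinl : Function.Injective (SemidirectProduct.inl : G →* G ⋊[φ] A) := SemidirectProduct.inl_injective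
  have hcardA : Nat.card (SemidirectProduct.inr : A →* G ⋊[φ] A).range = Nat.card A :=
    (Nat.card_congr (MonoidHom.ofInjective hinr).toEquiv).symm
  have hcardG : Nat.card (SemidirectProduct.inl : G →* G ⋊[φ] A).range = Nat.card G :=
    (Nat.card_congr (MonoidHom.ofInjective hinl).toEquiv).symm
  have hfix : ∀ (a : A) (x : G), (SemidirectProduct.inl x : G ⋊[φ] A) * SemidirectProduct.inr a =
      SemidirectProduct.inr a * SemidirectProduct.inl x → x ∈ FixedPoints.subgroup (Subgroup.zpowers a) G := by
    intro a x hx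
    have h1 : a • x = x := by
      have h2 : (SemidirectProduct.inl (φ a x) : G ⋊[φ] A) = SemidirectProduct.inl x := by
        rw [SemidirectProduct.inl_aut, ← hx, mul_assoc, ← map_mul, mul_inv_cancel, map_one, mul_one]
      exact hinl h2
    have h2 : ∀ m : ℤ, a ^ m • x = x := by
      intro m
      have h3 : zpowers a ≤ MulAction.stabilizer A x := by
        rw [zpowers_le]; exact h1
      exact h3 (zpow_mem (mem_zpowers a) m)
    rintro ⟨m, hm⟩
    obtain ⟨k, rfl⟩ := mem_zpowers_iff.1 hm
    exact h2 k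
  have key : H70SqA.Ctx0 q (SemidirectProduct.inr : A →* G ⋊[φ] A).range
      (SemidirectProduct.inl : G →* G ⋊[φ] A).range := by
    refine ⟨hq, ?_, ?_, ?_, ?_, ?_, ?_⟩
    · rw [hcardA, hA]
    · rintro _ ⟨a, rfl⟩ _ ⟨b, rfl⟩
      rw [← map_mul, ← map_mul, hAc.is_comm.comm]
    · rintro _ ⟨a, rfl⟩
      rw [← map_pow]
      have h1 : a ^ q = 1 := by
        have h2 : orderOf a ∣ q ^ 2 := hA ▸ orderOf_dvd_natCard a
        obtain ⟨k, hk, hk2⟩ := (Nat.dvd_prime_pow hq).1 h2
        have h3 : orderOf a ≠ q ^ 2 := by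
          intro h4
          exact hnc (isCyclic_of_orderOf_eq_card a (by rw [h4, hA]))
        have h4 : k ≠ 2 := by rintro rfl; exact h3 hk2
        have h5 : k ≤ 1 := by omega
        rw [← orderOf_dvd_iff_pow_eq_one, hk2]
        calc q ^ k ∣ q ^ 1 := pow_dvd_pow q h5
          _ = q := pow_one q
      rw [h1, map_one]
    · have hn : (SemidirectProduct.inl : G →* G ⋊[φ] A).range.Normal := by
        rw [SemidirectProduct.range_inl_eq_ker_rightHom]; infer_instance
      rw [normalizer_eq_top]
      exact le_top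
    · rw [hcardG]; exact hcop
    · rintro _ ⟨a, rfl⟩ ha _ ⟨x, rfl⟩ _ ⟨y, rfl⟩ hx hy
      have ha1 : a ≠ 1 := by rintro rfl; exact ha (map_one _)
      have h1 := (h a ha1).is_comm.comm ⟨x, hfix a x hx⟩ ⟨y, hfix a y hy⟩
      rw [← map_mul, ← map_mul]
      exact congrArg _ (congrArg Subtype.val h1)
  have hs := H70SqJ.main _ key rfl
  exact Group.isSolvable_of_isSolvable_injective (f := (MonoidHom.ofInjective hinl).toMonoidHom)
    (MonoidHom.ofInjective hinl).injective

/-- Let `q` be a prime and `A` a non-cyclic group of order `q²` acting by automorphisms on a finite group `G` of order prime to `q`, such that the fixed-point subgroup `C_G(a)` is abelian for every non-identity `a ∈ A`. Then `G` is solvable. -/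
theorem result {A G : Type*} [Group A] [Finite A]
    [Group G] [Finite G] [MulDistribMulAction A G] (q : ℕ) (hq : q.Prime) (hA : Nat.card A = q ^ 2) (hnc : ¬ IsCyclic A)
    (hcop : ¬ q ∣ Nat.card G) (h : ∀ a : A, a ≠ 1 → IsMulCommutative ↥(FixedPoints.subgroup (Subgroup.zpowers a) G)) :
    Group.IsSolvable G :=
  aux q hq hA hnc hcop h

end Cfsg.Agent.S4323
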