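import Cfsg.Statements.S4331

set_option autoImplicit false
open Cfsg

namespace Cfsg.Agent.S4331

open Matrix

instance fact3 : Fact (Nat.Prime 3) := ⟨Nat.prime_three⟩
instance fact2 : Fact (Nat.Prime 2) := ⟨Nat.prime_two⟩

theorem isSubnormal_of_isNilpotent {K : Type*} [Group K] [Finite K] [Group.IsNilpotent K] (H : Subgroup K) :
    H.IsSubnormal := by
  induction H using WellFoundedGT.induction with
  | ind H ih =>
    by_cases hH : H = ⊤
    · rw [hH]; exact Subgroup.IsSubnormal.top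
    · have h1 : H < Subgroup.normalizer (H : Set K) :=
        Group.normalizerCondition_of_isNilpotent H (lt_top_iff_ne_top.mpr hH)
      exact Subgroup.IsSubnormal.step _ _ h1.le (ih _ h1) (by infer_instance)

abbrev V2 := Fin 2 → ZMod 3

/-- action of `GL_2(3)` on the plane. -/
noncomputable def act : GL (Fin 2) (ZMod 3) →* MulAut (Multiplicative V2) where
  toFun g := AddEquiv.toMultiplicative
    { toFun := fun v => g.1.mulVec v
      invFun := fun v => (g⁻¹).1.mulVec v
      left_inv := fun v => by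
        change (g⁻¹).1.mulVec (g.1.mulVec v) = v
        rw [Matrix.mulVec_mulVec, ← Units.val_mul, inv_mul_cancel, Units.val_one, Matrix.one_mulVec]
      right_inv := fun v => by
        change g.1.mulVec ((g⁻¹).1.mulVec v) = v
        rw [Matrix.mulVec_mulVec, ← Units.val_mul, mul_inv_cancel, Units.val_one, Matrix.one_mulVec]
      map_add' := fun v w => Matrix.mulVec_add _ _ _ }
  map_one' := by
    ext v
    change (1 : Matrix (Fin 2) (Fin 2) (ZMod 3)).mulVec _ _ = _
    rw [Matrix.one_mulVec]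
    rfl
  map_mul' g h := by
    ext v
    change (g * h).1.mulVec _ _ = g.1.mulVec (h.1.mulVec _) _
    rw [Matrix.mulVec_mulVec]
    rfl

theorem act_apply (g : GL (Fin 2) (ZMod 3)) (v : V2) :
    act g (Multiplicative.ofAdd v) = Multiplicative.ofAdd (g.1.mulVec v) := rfl

/-- the reflection. -/
def t0 : GL (Fin 2) (ZMod 3) where
  val := !![1, 0; 0, -1]
  inv := !![1, 0; 0, -1]
  val_inv := by decide
  inv_val := by decide

theorem t0_sq : t0 * t0 = 1 := by
  apply Units.ext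
  change (!![1, 0; 0, -1] : Matrix (Fin 2) (Fin 2) (ZMod 3)) * !![1, 0; 0, -1] = 1
  decide

theorem t0_ne : t0 ≠ 1 := by
  intro h
  have := congrArg Units.val h
  revert this
  change (!![1, 0; 0, -1] : Matrix (Fin 2) (Fin 2) (ZMod 3)) = 1 → False
  decide

theorem card_GL : Nat.card (GL (Fin 2) (ZMod 3)) = 48 := by
  rw [Matrix.card_GL_field]
  simp [Fin.prod_univ_two]

def e1 : V2 := ![1, 0]

theorem pow_three : ∀ b : ZMod 3, (!![1, b; 0, 1] : Matrix (Fin 2) (Fin 2) (ZMod 3)) ^ 3 = 1 := by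
  decide

theorem zmod3 : ∀ d : ZMod 3, d = 0 ∨ d = 1 ∨ d = -1 := by decide

theorem stab_one (P : Subgroup (GL (Fin 2) (ZMod 3))) (hP : IsPGroup 2 P)
    (g : GL (Fin 2) (ZMod 3)) (hg : g ∈ P) (b : ZMod 3) (hb : g.1 = !![1, b; 0, 1]) : g = 1 := by
  have h1 : g ^ 3 = 1 := by
    apply Units.ext
    rw [Units.val_pow_eq_pow_val, hb, pow_three]
    rfl
  obtain ⟨k, hk⟩ := hP ⟨g, hg⟩
  have hk' : g ^ 2 ^ k = 1 := by
    have := congrArg Subtype.val hk
    simpa using this
  have h2 : orderOf g ∣ 3 := orderOf_dvd_of_pow_eq_one h1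
  have h3 : orderOf g ∣ 2 ^ k := orderOf_dvd_of_pow_eq_one hk'
  have h4 : Nat.Coprime 3 (2 ^ k) := Nat.Coprime.pow_right k (by norm_num)
  rw [← orderOf_eq_one_iff]
  exact Nat.eq_one_of_dvd_coprimes h4 h2 h3

/-- 2-elements fixing `e1` are determined by their determinant. -/
theorem stab (P : Subgroup (GL (Fin 2) (ZMod 3))) (hP : IsPGroup 2 P) (ht : t0 ∈ P)
    (g : GL (Fin 2) (ZMod 3)) (hg : g ∈ P) (hfix : g.1.mulVec e1 = e1) : g = 1 ∨ g = t0 := by
  have h00 : g.1 0 0 = 1 := by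
    have := congrFun hfix 0
    simpa [e1, Matrix.mulVec, dotProduct] using this
  have h10 : g.1 1 0 = 0 := by
    have := congrFun hfix 1
    simpa [e1, Matrix.mulVec, dotProduct] using this
  have hM : g.1 = !![1, g.1 0 1; 0, g.1 1 1] := by
    ext i j
    fin_cases i <;> fin_cases j <;> simp [h00, h10]
  rcases zmod3 (g.1 1 1) with h | h | h
  · exfalso
    have h1 : g.1.det = 0 := by
      rw [Matrix.det_fin_two, h10, h]; simp
    have h2 : IsUnit g.1.det := (Matrix.isUnit_iff_isUnit_det _).mp g.isUnit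
    rw [h1] at h2
    exact not_isUnit_zero h2
  · left
    rw [h] at hM
    exact stab_one P hP g hg _ hM
  · right
    have h1 : g * t0 = 1 := by
      apply stab_one P hP _ (P.mul_mem hg ht) (-(g.1 0 1))
      rw [Units.val_mul]
      conv_lhs => rw [hM]
      change !![1, g.1 0 1; 0, g.1 1 1] * !![1, 0; 0, -1] = _
      rw [h]
      ext i j
      fin_cases i <;> fin_cases j <;> simp [Matrix.mul_apply]
    have h2 : g = t0⁻¹ := eq_inv_of_mul_eq_one_left h1
    rw [h2]
    exact inv_eq_of_mul_eq_one_left t0_sq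

theorem trans (P : Sylow 2 (GL (Fin 2) (ZMod 3))) (ht : t0 ∈ (P : Subgroup (GL (Fin 2) (ZMod 3))))
    (u : V2) (hu : u ≠ 0) : ∃ g ∈ (P : Subgroup (GL (Fin 2) (ZMod 3))), g.1.mulVec e1 = u := by
  classical
  haveI : Fintype P := Fintype.ofFinite _
  have hcard : Fintype.card P = 16 := by
    rw [← Nat.card_eq_fintype_card, P.card_eq_multiplicity, card_GL]
    have : (48 : ℕ) = 2 ^ 4 * 3 := by norm_num
    rw [this, Nat.factorization_mul (by norm_num) (by norm_num), Nat.factorization_pow]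
    simp [Nat.Prime.factorization_self Nat.prime_two, Nat.factorization_eq_zero_of_not_dvd]
  let f : P → V2 := fun g => g.1.1.mulVec e1
  have h1 : (Finset.univ : Finset P).card ≤ 2 * (Finset.univ.image f).card := by
    apply Finset.card_le_mul_card_image
    intro a ha
    rw [Finset.mem_image] at ha
    obtain ⟨h, -, hh⟩ := ha
    have h2 : (Finset.univ.filter (fun x => f x = a)) ⊆ {h, h * ⟨t0, ht⟩} := by
      intro g hg
      rw [Finset.mem_filter] at hg
      have h3 : (h⁻¹ * g).1.1.mulVec e1 = e1 := by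
        have h4 : g.1.1.mulVec e1 = h.1.1.mulVec e1 := hg.2.trans hh.symm
        have h5 : (h⁻¹ * g).1.1 = (h.1⁻¹).1 * g.1.1 := rfl
        rw [h5, ← Matrix.mulVec_mulVec, h4, Matrix.mulVec_mulVec, ← Units.val_mul, inv_mul_cancel,
          Units.val_one, Matrix.one_mulVec]
      rcases stab P P.2 ht (h⁻¹ * g).1 (h⁻¹ * g).2 h3 with h4 | h4
      · have h5 : h⁻¹ * g = 1 := Subtype.ext h4
        rw [Finset.mem_insert]
        left
        exact (inv_mul_eq_one.mp h5).symm
      · have h5 : h⁻¹ * g = ⟨t0, ht⟩ := Subtype.ext h4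
        rw [Finset.mem_insert, Finset.mem_singleton]
        right
        exact (inv_mul_eq_iff_eq_mul.mp h5)
    exact (Finset.card_le_card h2).trans Finset.card_le_two
  rw [Finset.card_univ, hcard] at h1
  have h2 : Finset.univ.image f ⊆ Finset.univ.erase 0 := by
    intro a ha
    rw [Finset.mem_image] at ha
    obtain ⟨h, -, rfl⟩ := ha
    rw [Finset.mem_erase]
    refine ⟨?_, Finset.mem_univ _⟩
    intro h0
    have h3 : e1 = (h.1⁻¹).1.mulVec (f h) := by
      change e1 = (h.1⁻¹).1.mulVec (h.1.1.mulVec e1)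
      rw [Matrix.mulVec_mulVec, ← Units.val_mul, inv_mul_cancel, Units.val_one, Matrix.one_mulVec]
    rw [h0, Matrix.mulVec_zero] at h3
    have := congrFun h3 0
    simp [e1] at this
  have h3 : (Finset.univ.erase (0 : V2)).card = 8 := by
    rw [Finset.card_erase_of_mem (Finset.mem_univ _), Finset.card_univ]
    simp [V2]
  have h4 : Finset.univ.image f = Finset.univ.erase 0 :=
    Finset.eq_of_subset_of_card_le h2 (by omega)
  have h5 : u ∈ Finset.univ.image f := by
    rw [h4, Finset.mem_erase]; exact ⟨hu, Finset.mem_univ _⟩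
  rw [Finset.mem_image] at h5
  obtain ⟨g, -, hg⟩ := h5
  exact ⟨g.1, g.2, hg⟩

/-- The group `3² : SD₁₆`. -/
abbrev GG (P : Subgroup (GL (Fin 2) (ZMod 3))) := Multiplicative V2 ⋊[act.comp P.subtype] P

instance finite_GG (P : Subgroup (GL (Fin 2) (ZMod 3))) : Finite (GG P) :=
  Finite.of_equiv _ SemidirectProduct.equivProd.symm

theorem solvable_GG (P : Subgroup (GL (Fin 2) (ZMod 3))) (hP : IsPGroup 2 P) :
    Group.IsSolvable (GG P) := by
  haveI : Group.IsNilpotent P := hP.isNilpotent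
  haveI : Group.IsSolvable P := inferInstance
  haveI : Group.IsSolvable (Multiplicative V2) := Group.isSolvable_of_comm (fun a b => mul_comm a b)
  refine Group.isSolvable_of_ker_le_range (SemidirectProduct.inl : Multiplicative V2 →* GG P)
    (SemidirectProduct.rightHom : GG P →* P) ?_
  rw [SemidirectProduct.range_inl_eq_ker_rightHom]

section
variable (P : Subgroup (GL (Fin 2) (ZMod 3)))

def mk (v : V2) (g : P) : GG P := ⟨Multiplicative.ofAdd v, g⟩

theorem mk_mul (v w : V2) (g h : P) : mk P v g * mk P w h = mk P (v + g.1.1.mulVec w) (g * h) := rfl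

theorem mk_surj (x : GG P) : ∃ v g, x = mk P v g := ⟨x.1.toAdd, x.2, rfl⟩

theorem subnormal_of_commute {K : Type*} [Group K] (t g : K) (h : Commute g t) :
    ((Subgroup.zpowers t).subgroupOf (Subgroup.zpowers t ⊔ Subgroup.zpowers g)).IsSubnormal := by
  apply Subgroup.Normal.isSubnormal
  rw [Subgroup.normal_subgroupOf_iff_le_normalizer le_sup_left]
  refine sup_le Subgroup.le_normalizer ?_
  rw [Subgroup.zpowers_le]
  apply Subgroup.centralizer_le_normalizer
  rw [Subgroup.mem_centralizer_iff]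
  rintro _ ⟨m, rfl⟩
  exact (h.zpow_right m).symm.eq

theorem conj_case_fix (v w : V2) (g : P) (h : v = w - g.1.1.mulVec w) :
    IsConj (mk P v g) (mk P 0 g) := by
  rw [isConj_iff]
  refine ⟨mk P (-w) 1, ?_⟩
  rw [mul_inv_eq_iff_eq_mul, mk_mul, mk_mul]
  congr 1
  · simp [h, sub_eq_add_neg, Matrix.mulVec_neg]
  · simp

theorem conj_lin (v : V2) (g p : P) :
    IsConj (mk P v g) (mk P (p⁻¹.1.1.mulVec v) (p⁻¹ * g * p)) := by
  rw [isConj_iff]
  refine ⟨mk P 0 p⁻¹, ?_⟩
  rw [mul_inv_eq_iff_eq_mul, mk_mul, mk_mul]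
  congr 1
  · simp
  · group

theorem t0_mulVec (v : V2) : t0.1.mulVec v = ![v 0, - v 1] := by
  ext i
  fin_cases i <;> simp [t0, Matrix.mulVec, dotProduct]

end

theorem zmod3' : ∀ a : ZMod 3, a = - a - (- a) + a := by decide
theorem zmod3'' : ∀ a : ZMod 3, -a + a + a = a := by decide

theorem key (Q : Subgroup (GL (Fin 2) (ZMod 3))) (hQ2 : IsPGroup 2 Q) (ht : t0 ∈ Q)
    (htr : ∀ u : V2, u ≠ 0 → ∃ g ∈ Q, g.1.mulVec e1 = u) (c : GG Q) :
    ∃ g, IsConj c g ∧ ((Subgroup.zpowers (mk Q 0 ⟨t0, ht⟩)).subgroupOf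
      (Subgroup.zpowers (mk Q 0 ⟨t0, ht⟩) ⊔ Subgroup.zpowers g)).IsSubnormal := by
  obtain ⟨v, g, hcv⟩ := mk_surj Q c
  rw [hcv]
  by_cases hw : ∃ w : V2, v = w - g.1.1.mulVec w
  · obtain ⟨w, hw⟩ := hw
    refine ⟨mk Q 0 g, conj_case_fix Q v w g hw, ?_⟩
    -- everything lies in the 2-group `range inr`
    have h1 : Subgroup.zpowers (mk Q 0 ⟨t0, ht⟩) ⊔ Subgroup.zpowers (mk Q 0 g) ≤
        (SemidirectProduct.inr : Q →* GG Q).range := by
      refine sup_le ?_ ?_ <;> rw [Subgroup.zpowers_le]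
      · exact ⟨⟨t0, ht⟩, rfl⟩
      · exact ⟨g, rfl⟩
    have h2 : IsPGroup 2 (SemidirectProduct.inr : Q →* GG Q).range :=
      IsPGroup.of_surjective hQ2 (SemidirectProduct.inr : Q →* GG Q).rangeRestrict
        (SemidirectProduct.inr : Q →* GG Q).rangeRestrict_surjective
    have h3 := h2.to_le h1
    haveI := h3.isNilpotent
    exact isSubnormal_of_isNilpotent _
  · -- there is a fixed vector
    have hdet : (1 - g.1.1 : Matrix (Fin 2) (Fin 2) (ZMod 3)).det = 0 := by
      by_contra hne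
      apply hw
      have hu : IsUnit (1 - g.1.1 : Matrix (Fin 2) (Fin 2) (ZMod 3)).det := isUnit_iff_ne_zero.mpr hne
      refine ⟨(1 - g.1.1 : Matrix (Fin 2) (Fin 2) (ZMod 3))⁻¹.mulVec v, ?_⟩
      have h1 : (1 - g.1.1 : Matrix (Fin 2) (Fin 2) (ZMod 3)).mulVec
          ((1 - g.1.1 : Matrix (Fin 2) (Fin 2) (ZMod 3))⁻¹.mulVec v) = v := by
        rw [Matrix.mulVec_mulVec, Matrix.mul_nonsing_inv _ hu, Matrix.one_mulVec]
      rw [Matrix.sub_mulVec, Matrix.one_mulVec] at h1
      exact h1.symm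
    obtain ⟨u, hu0, hu⟩ := Matrix.exists_mulVec_eq_zero_iff.mpr hdet
    rw [Matrix.sub_mulVec, Matrix.one_mulVec, sub_eq_zero] at hu
    obtain ⟨p, hp, hpu⟩ := htr u hu0
    have hfix : ((⟨p, hp⟩ : Q)⁻¹ * g * ⟨p, hp⟩).1.1.mulVec e1 = e1 := by
      have h5 : ((⟨p, hp⟩ : Q)⁻¹ * g * ⟨p, hp⟩).1.1 = (p⁻¹).1 * g.1.1 * p.1 := rfl
      rw [h5, ← Matrix.mulVec_mulVec, hpu, ← Matrix.mulVec_mulVec, ← hu, ← hpu,
        Matrix.mulVec_mulVec, ← Units.val_mul, inv_mul_cancel, Units.val_one, Matrix.one_mulVec]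
    have hc1 := conj_lin Q v g ⟨p, hp⟩
    set v' := (⟨p, hp⟩ : Q)⁻¹.1.1.mulVec v with hv'
    set g' := (⟨p, hp⟩ : Q)⁻¹ * g * ⟨p, hp⟩ with hg'
    rcases stab Q hQ2 ht g'.1 g'.2 hfix with h | h
    · have h1 : g' = 1 := Subtype.ext h
      by_cases hv0 : v' = 0
      · refine ⟨mk Q v' g', hc1, subnormal_of_commute _ _ ?_⟩
        rw [h1, hv0]
        exact Commute.one_left _
      · obtain ⟨q, hq, hqu⟩ := htr v' hv0
        have hc2 := conj_lin Q v' g' ⟨q, hq⟩
        refine ⟨_, hc1.trans hc2, subnormal_of_commute _ _ ?_⟩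
        have h2 : (⟨q, hq⟩ : Q)⁻¹.1.1.mulVec v' = e1 := by
          have h5 : (⟨q, hq⟩ : Q)⁻¹.1.1 = (q⁻¹).1 := rfl
          rw [h5, ← hqu, Matrix.mulVec_mulVec, ← Units.val_mul, inv_mul_cancel, Units.val_one, Matrix.one_mulVec]
        rw [h2, h1]
        change mk Q e1 _ * mk Q 0 _ = mk Q 0 _ * mk Q e1 _
        rw [mk_mul, mk_mul]
        congr 1
        · change e1 + _ = 0 + t0.1.mulVec e1
          rw [t0_mulVec, Matrix.mulVec_zero]
          ext i
          fin_cases i <;> simp [e1]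
        · group
    · have h1 : g' = ⟨t0, ht⟩ := Subtype.ext h
      have hc2 : IsConj (mk Q v' g') (mk Q ![v' 0, 0] ⟨t0, ht⟩) := by
        rw [h1, isConj_iff]
        refine ⟨mk Q ![0, v' 1] 1, ?_⟩
        rw [mul_inv_eq_iff_eq_mul, mk_mul, mk_mul]
        congr 1
        · change ![0, v' 1] + (1 : Matrix (Fin 2) (Fin 2) (ZMod 3)).mulVec v' = ![v' 0, 0] + t0.1.mulVec ![0, v' 1]
          rw [t0_mulVec, Matrix.one_mulVec]
          ext i
          fin_cases i
          · simp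
          · have : ∀ a : ZMod 3, a + a = 0 + -a := by decide
            simpa using this (v' 1)
        · group
      refine ⟨_, hc1.trans hc2, subnormal_of_commute _ _ ?_⟩
      change mk Q _ _ * mk Q 0 _ = mk Q 0 _ * mk Q _ _
      rw [mk_mul, mk_mul]
      congr 1
      change ![v' 0, 0] + t0.1.mulVec 0 = 0 + t0.1.mulVec ![v' 0, 0]
      rw [t0_mulVec, t0_mulVec]
      ext i
      fin_cases i <;> simp

/-- There is a finite solvable group G with a subgroup A of order 2 such that every conjugacy class of G contains an element g for which A is subnormal in the subgroup generated by A and g, and yet A is not contained in O_2(G). (So the corresponding criteria for odd primes fail at the prime 2, even for solvable groups.) -/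
theorem result :
    ∃ (G : Type) (_ : Group G) (_ : Finite G) (A : Subgroup G), Group.IsSolvable G ∧ Nat.card A = 2 ∧
      (∀ c : G, ∃ g : G, IsConj c g ∧ (A.subgroupOf (A ⊔ Subgroup.zpowers g)).IsSubnormal) ∧
      ¬ A ≤ Cfsg.pCore 2 G := by
  have ht2 : IsPGroup 2 (Subgroup.zpowers t0) := by
    apply IsPGroup.of_card (n := 1)
    rw [Nat.card_zpowers, pow_one]
    exact orderOf_eq_prime (by rw [sq]; exact t0_sq) t0_ne
  obtain ⟨P, hP⟩ := ht2.exists_le_sylow
  have ht : t0 ∈ (P : Subgroup (GL (Fin 2) (ZMod 3))) := hP (Subgroup.mem_zpowers _)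
  set Q : Subgroup (GL (Fin 2) (ZMod 3)) := (P : Subgroup (GL (Fin 2) (ZMod 3))) with hQ
  refine ⟨GG Q, inferInstance, inferInstance, Subgroup.zpowers (mk Q 0 ⟨t0, ht⟩),
    solvable_GG _ P.2, ?_, key Q P.2 ht (fun u hu => trans P ht u hu), ?_⟩
  · rw [Nat.card_zpowers]
    apply orderOf_eq_prime
    · rw [sq, mk_mul]
      have h1 : (⟨t0, ht⟩ : Q) * ⟨t0, ht⟩ = 1 := Subtype.ext t0_sq
      rw [h1, Matrix.mulVec_zero, add_zero]
      rfl
    · intro h
      have h1 := congrArg (fun x : GG Q => (x.2.1 : GL (Fin 2) (ZMod 3))) h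
      exact t0_ne h1
  · intro hle
    rw [Subgroup.zpowers_le] at hle
    set τ : GG Q := mk Q 0 ⟨t0, ht⟩ with hτ
    set N := Cfsg.pCore 2 (GG Q) with hN
    have hNn : N.Normal := Subgroup.sSup_normal _ (fun _ h => h.1)
    -- N is a 2-group
    obtain ⟨S⟩ : Nonempty (Sylow 2 (GG Q)) := inferInstance
    have hNS : N ≤ S := by
      refine sSup_le ?_
      rintro K ⟨hK, hK2⟩
      exact hK2.le_sylow_of_normal S
    have hN2 : IsPGroup 2 N := S.2.to_le hNS
    set w : GG Q := mk Q ![0, 1] 1 with hw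
    have h1 : τ * (w * τ⁻¹ * w⁻¹) ∈ N := N.mul_mem hle (hNn.conj_mem _ (N.inv_mem hle) w)
    have h2 : τ * (w * τ⁻¹ * w⁻¹) = mk Q ![0, 1] 1 := by
      have e : mk Q ![0, 1] 1 * w * τ = τ * w := by
        rw [hw, hτ, mk_mul, mk_mul, mk_mul]
        congr 1
        · change ![0, 1] + (1 : Matrix (Fin 2) (Fin 2) (ZMod 3)).mulVec ![0, 1] + _ = 0 + t0.1.mulVec ![0, 1]
          rw [t0_mulVec, Matrix.one_mulVec, Matrix.mulVec_zero]
          ext i
          fin_cases i
          · simp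
          · simp; decide
        · group
      calc τ * (w * τ⁻¹ * w⁻¹) = (τ * w) * τ⁻¹ * w⁻¹ := by group
        _ = (mk Q ![0, 1] 1 * w * τ) * τ⁻¹ * w⁻¹ := by rw [e]
        _ = mk Q ![0, 1] 1 := by group
    rw [h2] at h1
    obtain ⟨k, hk⟩ := hN2 ⟨_, h1⟩
    have hk' : (mk Q ![0, 1] 1) ^ 2 ^ k = 1 := by
      have := congrArg Subtype.val hk
      simpa using this
    have h3 : (mk Q ![0, 1] 1) ^ 3 = 1 := by
      rw [pow_succ, pow_two, mk_mul, mk_mul]
      have : (![0, 1] + ((1 : Q).1.1).mulVec ![0, 1] + ((1 * 1 : Q).1.1).mulVec ![0, 1] : V2) = 0 := by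
        change ![0, 1] + (1 : Matrix (Fin 2) (Fin 2) (ZMod 3)).mulVec ![0, 1] + ((1 * 1 : Q).1.1).mulVec ![0, 1] = 0
        rw [mul_one]
        change ![0, 1] + (1 : Matrix (Fin 2) (Fin 2) (ZMod 3)).mulVec ![0, 1] + (1 : Matrix (Fin 2) (Fin 2) (ZMod 3)).mulVec ![0, 1] = 0
        rw [Matrix.one_mulVec]
        decide
      rw [this, mul_one, mul_one]
      rfl
    have h4 : orderOf (mk Q ![0, 1] 1) ∣ 3 := orderOf_dvd_of_pow_eq_one h3
    have h5 : orderOf (mk Q ![0, 1] 1) ∣ 2 ^ k := orderOf_dvd_of_pow_eq_one hk'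
    have h6 : Nat.Coprime 3 (2 ^ k) := Nat.Coprime.pow_right k (by norm_num)
    have h7 := Nat.eq_one_of_dvd_coprimes h6 h4 h5
    rw [orderOf_eq_one_iff] at h7
    have h8 := congrArg (fun x : GG Q => x.1.toAdd 1) h7
    have h9 : (1 : ZMod 3) = 0 := h8
    revert h9
    decide

end Cfsg.Agent.S4331
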