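import Cfsg.Statements.S4333
import Cfsg.Agent.Lib.ZipperH72

set_option autoImplicit false
open Pointwise
open Cfsg

namespace Cfsg.Agent.S4333

open Cfsg.Agent.Lib.ZipperH72

universe u

theorem conj_le {G : Type*} [Group G] {A X : Subgroup G} (hAX : A ≤ X) {x : G} (hx : x ∈ X) :
    MulAut.conj x • A ≤ X := by
  rw [← Subgroup.conj_smul_eq_self_of_mem hx]
  exact Subgroup.pointwise_smul_le_pointwise_smul_iff.mpr hAX

theorem aux (n : ℕ) : ∀ (G : Type u) [Group G] [Finite G], Nat.card G = n → ∀ (A : Subgroup G),
    (∀ a ∈ A, ∀ g : G, (A.subgroupOf (A ⊔ MulAut.conj (g⁻¹ * a * g) • A)).IsSubnormal) →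
    A.IsSubnormal := by
  induction n using Nat.strong_induction_on with
  | _ n ih =>
    intro G _ _ hn A h
    by_contra hA
    obtain ⟨M, hM, hAM, huniq⟩ := zipper A hA (by
      intro X hAX hX
      have hcard : Nat.card X < n := by
        rw [← hn]
        exact lt_of_le_of_ne (Subgroup.card_le_card_group X)
          (fun heq => hX ((Subgroup.card_eq_iff_eq_top X).mp heq))
      apply ih _ hcard X rfl
      intro a ha g
      rw [conj_subgroupOf, ← Subgroup.subgroupOf_sup hAX]
      · apply snIn_comap
        · exact sup_le hAX (conj_le hAX (Subtype.property _))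
        · exact h a ha g
      · exact conj_le hAX (Subtype.property _))
    have hAtop : A ≠ ⊤ := by
      rintro rfl
      exact hA Subgroup.IsSubnormal.top
    -- all `g⁻¹ a g` normalize `M`
    have huniq' : ∀ x : G, A ≤ MulAut.conj x • M → MulAut.conj x • M = M := by
      intro x hx
      apply huniq _ _ hx
      constructor
      · intro htop
        apply hM.1
        have h5 := congrArg (fun Z => MulAut.conj x⁻¹ • Z) htop
        simp only [← mul_smul, ← map_mul, inv_mul_cancel, map_one, one_smul] at h5
        rw [h5, eq_top_iff]
        intro y _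
        rw [Subgroup.mem_pointwise_smul_iff_inv_smul_mem]
        trivial
      · intro K hK
        have h1 : M < MulAut.conj x⁻¹ • K := by
          refine lt_of_le_of_ne ?_ ?_
          · have h4 := Subgroup.pointwise_smul_le_pointwise_smul_iff (a := MulAut.conj x⁻¹).mpr hK.le
            rw [← mul_smul, ← map_mul, inv_mul_cancel, map_one, one_smul] at h4
            exact h4
          · intro heq
            apply hK.ne
            rw [heq, ← mul_smul, ← map_mul, mul_inv_cancel, map_one, one_smul]
        have h2 := hM.2 _ h1
        rw [eq_top_iff]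
        intro y _
        have h3 : x⁻¹ * y * x ∈ MulAut.conj x⁻¹ • K := by rw [h2]; trivial
        rw [Subgroup.mem_pointwise_smul_iff_inv_smul_mem] at h3
        simpa [mul_assoc] using h3
    have hmem : ∀ a ∈ A, ∀ g : G, MulAut.conj (g⁻¹ * a * g)⁻¹ • M = M := by
      intro a ha g
      apply huniq'
      have hne : A ⊔ MulAut.conj (g⁻¹ * a * g) • A ≠ ⊤ := by
        intro htop
        apply hA
        have h1 := h a ha g
        rw [htop] at h1
        have h2 := h1.trans' Subgroup.IsSubnormal.top
        rwa [Subgroup.map_subgroupOf_eq_of_le le_top] at h2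
      obtain ⟨K, hK, hleK⟩ := (eq_top_or_exists_le_coatom _).resolve_left hne
      have hKM : K = M := huniq K hK (le_sup_left.trans hleK)
      rw [hKM] at hleK
      have h4 := Subgroup.pointwise_smul_le_pointwise_smul_iff (a := MulAut.conj (g⁻¹ * a * g)⁻¹).mpr
        (le_sup_right.trans hleK)
      rw [← mul_smul, ← map_mul, inv_mul_cancel, map_one, one_smul] at h4
      exact h4
    have hnorm : ∀ a ∈ A, ∀ g : G, g⁻¹ * a * g ∈ Subgroup.normalizer (M : Set G) := by
      intro a ha g
      have h1 := hmem a⁻¹ (A.inv_mem ha) g
      have e : (g⁻¹ * a⁻¹ * g)⁻¹ = g⁻¹ * a * g := by group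
      rw [e] at h1
      rw [Subgroup.mem_normalizer_iff]
      intro y
      constructor
      · intro hy
        rw [← h1]
        exact Subgroup.smul_mem_pointwise_smul y _ M hy
      · intro hy
        have h3 : g⁻¹ * a * g * y * (g⁻¹ * a * g)⁻¹ ∈ MulAut.conj (g⁻¹ * a * g) • M := by rw [h1]; exact hy
        rw [Subgroup.mem_pointwise_smul_iff_inv_smul_mem] at h3
        simpa [mul_assoc] using h3
    by_cases hMn : M.Normal
    · -- `A` is subnormal in `M`
      apply hA
      have hcard : Nat.card M < n := by
        rw [← hn]
        exact lt_of_le_of_ne (Subgroup.card_le_card_group M)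
          (fun heq => hM.1 ((Subgroup.card_eq_iff_eq_top M).mp heq))
      have h1 : (A.subgroupOf M).IsSubnormal := by
        apply ih _ hcard M rfl
        intro a ha g
        have hle : MulAut.conj ((g⁻¹ * a * g : M) : G) • A ≤ M := conj_le hAM (Subtype.property _)
        rw [conj_subgroupOf, ← Subgroup.subgroupOf_sup hAM hle]
        apply snIn_comap (sup_le hAM hle)
        exact h a ha g
      exact h1.trans hAM hMn.isSubnormal
    · -- `M` is self-normalizing
      have hself : Subgroup.normalizer (M : Set G) = M := by
        rcases hM.le_iff.mp (Subgroup.le_normalizer : M ≤ Subgroup.normalizer (M : Set G)) with h1 | h1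
        · exact absurd (Subgroup.normalizer_eq_top_iff.mp h1) hMn
        · exact h1
      rw [hself] at hnorm
      apply hMn
      refine ⟨fun m hm g => ?_⟩
      have h1 : A ≤ MulAut.conj g • M := by
        intro a ha
        rw [Subgroup.mem_pointwise_smul_iff_inv_smul_mem]
        have := hnorm a ha g
        simpa [mul_assoc] using this
      have h2 := huniq' g h1
      rw [← h2]
      exact Subgroup.smul_mem_pointwise_smul m _ M hm

/-- Let A be a subgroup of a finite group G. If A is subnormal in the subgroup generated by A and its conjugate by g⁻¹ a g, for every a ∈ A and every g ∈ G, then A is subnormal in G. (A sharpening of Wielandt's subnormality criterion: only conjugates of A by conjugates of elements of A are needed.) -/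
theorem result {G : Type*} [Group G] [Finite G]
    (A : Subgroup G)
    (h : ∀ a ∈ A, ∀ g : G, (A.subgroupOf (A ⊔ MulAut.conj (g⁻¹ * a * g) • A)).IsSubnormal) :
    A.IsSubnormal :=
  aux _ G rfl A h

end Cfsg.Agent.S4333
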