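import Cfsg.Statements.S4334
import Mathlib
import Cfsg.Agent.Lib.WielandtProd
import Cfsg.Agent.Lib.NilpotentHall
import Cfsg.Agent.Lib.HallPi
import Cfsg.Agent.Lib.Transfer
import Cfsg.Agent.Lib.CoprimeAction

set_option autoImplicit false
open Cfsg

namespace Cfsg.Agent.S4334

open Subgroup Pointwise Lib.HallPi Lib.NilpotentHall
open Lib.LocBase (IsSyl)
open Lib.SubgroupTools (card_mul_relIndex_of_le card_conj_smul)

universe u

set_option linter.unusedSectionVars false

variable {G : Type u} [Group G] [Finite G]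

theorem map_eq_smul (g : G) (H : Subgroup G) : H.map (MulAut.conj g).toMonoidHom = MulAut.conj g • H := rfl

/-- Sylow subgroups of a Hall subgroup are Sylow. -/
theorem isSyl_top {π : Set ℕ} {H R : Subgroup G} {r : ℕ} [Fact r.Prime] (hr : r ∈ π)
    (hH : Cfsg.IsPiHall π H) (hR : IsSyl r R H) : IsSyl r R ⊤ := by
  refine ⟨le_top, hR.pgroup, ?_⟩
  rw [relIndex_top_right, ← relIndex_mul_index hR.le]
  intro hd
  rcases (Fact.out : r.Prime).dvd_mul.mp hd with h | h
  · exact hR.ndvd h
  · exact (isPiHall_iff.mp hH).2 r Fact.out h hr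

theorem le_centralizer_conj {A B : Subgroup G} (g : G)
    (h : MulAut.conj g • A ≤ centralizer ((MulAut.conj g • B : Subgroup G) : Set G)) :
    A ≤ centralizer (B : Set G) := by
  intro a ha
  rw [mem_centralizer_iff]
  intro b hb
  have h1 : g * a * g⁻¹ ∈ MulAut.conj g • A := ⟨a, ha, rfl⟩
  have h2 : g * b * g⁻¹ ∈ MulAut.conj g • B := ⟨b, hb, rfl⟩
  have h3 := mem_centralizer_iff.mp (h h1) _ h2
  calc b * a = g⁻¹ * ((g * b * g⁻¹) * (g * a * g⁻¹)) * g := by group
    _ = g⁻¹ * ((g * a * g⁻¹) * (g * b * g⁻¹)) * g := by rw [h3]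
    _ = _ := by group

/-- key commuting lemma -/
theorem key {π : Set ℕ} {H X Y : Subgroup G} {r s : ℕ} [Fact r.Prime] [Fact s.Prime] (hr : r ∈ π)
    (hs : s ∈ π) (hH : Cfsg.IsPiHall π H)
    (hcom : ∀ R S : Subgroup G, R ≤ H → S ≤ H → IsPGroup r R → IsPGroup s S →
      S ≤ centralizer (R : Set G))
    (hX : IsPGroup r X) (hY : IsPGroup s Y) (hXY : Y ≤ normalizer (X : Set G)) :
    Y ≤ centralizer (X : Set G) := by
  obtain ⟨R, hR⟩ := Lib.LocBase.exists_isSyl r H
  obtain ⟨S, hS⟩ := Lib.LocBase.exists_isSyl s H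
  have hRt := isSyl_top hr hH hR
  have hSt := isSyl_top hs hH hS
  obtain ⟨g, -, hg⟩ := hRt.exists_conj_le hX le_top
  rw [map_eq_smul] at hg
  apply le_centralizer_conj g
  have hYN : MulAut.conj g • Y ≤ normalizer ((MulAut.conj g • X : Subgroup G) : Set G) := by
    rintro _ ⟨y, hy, rfl⟩
    refine mem_normalizer_fintype ?_
    rintro _ ⟨x, hx, rfl⟩
    refine ⟨y * x * y⁻¹, (mem_normalizer_iff.mp (hXY hy) x).mp hx, ?_⟩
    simp
  have hSC : S ≤ centralizer ((MulAut.conj g • X : Subgroup G) : Set G) :=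
    (hcom R S hR.le hS.le hR.pgroup hS.pgroup).trans (centralizer_le hg)
  have hSN : IsSyl s S (normalizer ((MulAut.conj g • X : Subgroup G) : Set G)) :=
    hSt.of_le (hSC.trans (centralizer_le_normalizer _)) le_top
  obtain ⟨n, hn, hle⟩ := hSN.exists_conj_le (hY.map (MulAut.conj g).toMonoidHom) hYN
  apply le_centralizer_conj n
  have hXn : MulAut.conj n • (MulAut.conj g • X : Subgroup G) = MulAut.conj g • X :=
    Lib.SubgroupTools.conj_smul_of_mem_normalizer hn
  rw [hXn]
  exact hle.trans hSC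

/-- centralizing a subgroup prime by prime -/
theorem le_centralizer_of_forall {A K : Subgroup G}
    (h : ∀ q : ℕ, q.Prime → q ∣ Nat.card K → ∃ Q : Subgroup G, IsSyl q Q K ∧ A ≤ centralizer (Q : Set G)) :
    A ≤ centralizer (K : Set G) := by
  set C := K ⊓ centralizer (A : Set G) with hC
  have h1 : C.relIndex K = 1 := by
    by_contra hne
    obtain ⟨q, hq, hqd⟩ := Nat.exists_prime_and_dvd hne
    obtain ⟨Q, hQ, hAQ⟩ := h q hq (hqd.trans (relIndex_dvd_card _ _))
    have hQC : Q ≤ C := le_inf hQ.le (Subgroup.le_centralizer_iff.mp hAQ)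
    apply hQ.ndvd
    rw [← relIndex_mul_relIndex Q C K hQC inf_le_left]
    exact hqd.mul_left _
  have h2 : K ≤ C := relIndex_eq_one.mp h1
  exact Subgroup.le_centralizer_iff.mp (h2.trans inf_le_right)

theorem dominate {σ τ π : Set ℕ} (hπ : π = σ ∪ τ) (hd : Disjoint σ τ) {H Hs Ht : Subgroup G}
    (hH : Cfsg.IsPiHall π H) (hs : Cfsg.IsPiSubgroup σ Hs) (ht : Cfsg.IsPiSubgroup τ Ht)
    (hsn : Group.IsNilpotent Hs) (hjoin : Hs ⊔ Ht = H) (hcomm : ∀ a ∈ Hs, ∀ b ∈ Ht, a * b = b * a)
    (hD : Cfsg.IsDPiGroup τ G) (n : ℕ) : ∀ M : Subgroup G, Nat.card M = n →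
    PiNum π (Nat.card M) → ∃ g : G, MulAut.conj g • M ≤ H := by
  classical
  -- structure of `H`
  have hst : Hs ≤ centralizer (Ht : Set G) := fun a ha =>
    mem_centralizer_iff.mpr fun b hb => (hcomm a ha b hb).symm
  have hsH : Hs ≤ H := hjoin ▸ le_sup_left
  have htH : Ht ≤ H := hjoin ▸ le_sup_right
  have hsN : H ≤ normalizer (Hs : Set G) := by
    rw [← hjoin]
    exact sup_le le_normalizer ((Subgroup.le_centralizer_iff.mp hst).trans (centralizer_le_normalizer _))
  have htN : H ≤ normalizer (Ht : Set G) := by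
    rw [← hjoin]
    exact sup_le (hst.trans (centralizer_le_normalizer _)) le_normalizer
  have hτσ : PiNum σᶜ (Nat.card Ht) := PiNum.mono (fun r hr h => Set.disjoint_left.mp hd h hr) ht
  have hστ : PiNum τᶜ (Nat.card Hs) := PiNum.mono (fun r hr h => Set.disjoint_left.mp hd hr h) hs
  have hcardH : Nat.card H * Nat.card ↥(Hs ⊓ Ht) = Nat.card Hs * Nat.card Ht := by
    have := Lib.SubgroupTools.card_sup_mul_card_inf (hst.trans (centralizer_le_normalizer _))
    rw [← hjoin, sup_comm, inf_comm]
    rw [mul_comm (Nat.card Hs)]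
    exact this
  have hinf : Hs ⊓ Ht = ⊥ := by
    rw [← disjoint_iff]
    apply Subgroup.disjoint_of_coprime_natCard
    exact PiNum.coprime hs hτσ
  rw [hinf, Subgroup.card_bot, mul_one] at hcardH
  have hrels : Hs.relIndex H = Nat.card Ht := by
    have := card_mul_relIndex_of_le hsH
    rw [hcardH] at this
    exact Nat.eq_of_mul_eq_mul_left Nat.card_pos this
  have hrelt : Ht.relIndex H = Nat.card Hs := by
    have := card_mul_relIndex_of_le htH
    rw [hcardH, mul_comm] at this
    exact Nat.eq_of_mul_eq_mul_right Nat.card_pos this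
  -- `p`-subgroups of `H`
  have hle_s : ∀ (p : ℕ) [Fact p.Prime] (R : Subgroup G), p ∈ σ → R ≤ H → IsPGroup p R → R ≤ Hs := by
    intro p _ R hp hR hRp
    have h1 : IsPGroup p R := hRp
    have h2 : Hs.relIndex R = 1 := by
      have h3 : Hs.relIndex R ∣ Nat.card R := relIndex_dvd_card _ _
      have h4 : Hs.relIndex R ∣ Nat.card Ht := by
        rw [← hrels]
        rw [Lib.WielandtProd.relIndex_eq_relIndex_sup' (hR.trans hsN),
          ← relIndex_mul_relIndex Hs (R ⊔ Hs) H le_sup_right (sup_le hR hsH)]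
        exact dvd_mul_right _ _
      obtain ⟨k, hk⟩ := IsPGroup.iff_card.mp hRp
      rw [hk] at h3
      apply Nat.Coprime.eq_one_of_dvd _ h3
      apply Nat.Coprime.pow_right
      apply Nat.Coprime.coprime_dvd_left h4
      rw [Nat.coprime_comm]
      exact (Nat.Prime.coprime_iff_not_dvd Fact.out).mpr fun h => hτσ p Fact.out h hp
    exact relIndex_eq_one.mp h2
  have hle_t : ∀ (p : ℕ) [Fact p.Prime] (R : Subgroup G), p ∈ τ → R ≤ H → IsPGroup p R → R ≤ Ht := by
    intro p _ R hp hR hRp
    have h2 : Ht.relIndex R = 1 := by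
      have h3 : Ht.relIndex R ∣ Nat.card R := relIndex_dvd_card _ _
      have h4 : Ht.relIndex R ∣ Nat.card Hs := by
        rw [← hrelt]
        rw [Lib.WielandtProd.relIndex_eq_relIndex_sup' (hR.trans htN),
          ← relIndex_mul_relIndex Ht (R ⊔ Ht) H le_sup_right (sup_le hR htH)]
        exact dvd_mul_right _ _
      obtain ⟨k, hk⟩ := IsPGroup.iff_card.mp hRp
      rw [hk] at h3
      apply Nat.Coprime.eq_one_of_dvd _ h3
      apply Nat.Coprime.pow_right
      apply Nat.Coprime.coprime_dvd_left h4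
      rw [Nat.coprime_comm]
      exact (Nat.Prime.coprime_iff_not_dvd Fact.out).mpr fun h => hστ p Fact.out h hp
    exact relIndex_eq_one.mp h2
  have hcom : ∀ (p q : ℕ) [Fact p.Prime] [Fact q.Prime], p ∈ σ → q ∈ π → q ≠ p →
      ∀ R S : Subgroup G, R ≤ H → S ≤ H → IsPGroup p R → IsPGroup q S →
      S ≤ centralizer (R : Set G) := by
    intro p q _ _ hp hq hqp R S hR hS hRp hSq
    have h1 := hle_s p R hp hR hRp
    rw [hπ] at hq
    rcases hq with hq | hq
    · have h2 := hle_s q S hq hS hSq
      exact le_centralizer_of_nilpotent hqp hsn h2 h1 hSq hRp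
    · have h2 := hle_t q S hq hS hSq
      exact (h2.trans (Subgroup.le_centralizer_iff.mp hst)).trans (centralizer_le h1)
  induction n using Nat.strong_induction_on with
  | _ n ih =>
    intro M hn hM
    by_cases hMτ : PiNum τ (Nat.card M)
    · -- use `D_τ`
      have hHt : Cfsg.IsPiHall τ Ht := by
        rw [isPiHall_iff]
        refine ⟨ht, ?_⟩
        rw [← relIndex_mul_index htH, hrelt]
        refine PiNum.mul hστ ?_
        exact (isPiHall_iff.mp hH).2.mono (by
          intro r hr h
          apply hr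
          rw [hπ]
          exact Or.inr h)
      have hmaxHt : Maximal (Cfsg.IsPiSubgroup τ) Ht := by
        refine ⟨ht, fun K hK hle => ?_⟩
        exact (eq_of_isPiHall_le hHt hle hK).ge
      obtain ⟨K, hMK, hK⟩ := Set.Finite.exists_le_maximal (Set.toFinite {K : Subgroup G | Cfsg.IsPiSubgroup τ K}) hMτ
      obtain ⟨g, hg⟩ := hD K Ht hK hmaxHt
      refine ⟨g, ?_⟩
      calc MulAut.conj g • M ≤ MulAut.conj g • K := Lib.SubgroupTools.conj_smul_mono g hMK
        _ = Ht := hg.symm
        _ ≤ H := htH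
    · obtain ⟨p, hp, hpM, hpσ⟩ : ∃ p : ℕ, p.Prime ∧ p ∣ Nat.card M ∧ p ∈ σ := by
        unfold PiNum at hMτ
        push Not at hMτ
        obtain ⟨p, hp, hpM, hpτ⟩ := hMτ
        refine ⟨p, hp, hpM, ?_⟩
        have := hM p hp hpM
        rw [hπ] at this
        exact this.resolve_right hpτ
      have : Fact p.Prime := ⟨hp⟩
      have hpπ : p ∈ π := by rw [hπ]; exact Or.inl hpσ
      -- `M` is `p`-nilpotent
      have hnc : Cfsg.HasNormalPComplement p M := by
        apply Lib.Transfer.hasNormalPComplement_of_local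
        intro D hD _ g hg hgo
        set D' := D.map M.subtype with hD'
        have hgN : (g : G) ∈ normalizer (D' : Set G) := by
          refine mem_normalizer_fintype ?_
          rintro _ ⟨d, hd', rfl⟩
          exact ⟨g * d * g⁻¹, (mem_normalizer_iff.mp hg d).mp hd', rfl⟩
        have h1 : D' ≤ centralizer (zpowers (g : G) : Set G) := by
          apply le_centralizer_of_forall
          intro q hq hqK
          have : Fact q.Prime := ⟨hq⟩
          obtain ⟨Q, hQ⟩ := Lib.LocBase.exists_isSyl q (zpowers (g : G))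
          refine ⟨Q, hQ, ?_⟩
          rw [Nat.card_zpowers, Subgroup.orderOf_coe] at hqK
          have hqp : q ≠ p := by
            rintro rfl
            have := Nat.dvd_gcd hqK (dvd_refl q)
            rw [hgo] at this
            exact hq.one_lt.ne' (Nat.dvd_one.mp this)
          have hqπ : q ∈ π := hM q hq (hqK.trans (orderOf_dvd_natCard g))
          apply Subgroup.le_centralizer_iff.mp
          apply key hpπ hqπ hH (hcom p q hpσ hqπ hqp) (hD.map _) hQ.pgroup
          exact hQ.le.trans (zpowers_le.mpr hgN)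
        rw [mem_centralizer_iff]
        intro d hd'
        apply Subtype.ext
        exact (mem_centralizer_iff.mp (h1 ⟨d, hd', rfl⟩) (g : G) (mem_zpowers _)).symm
      obtain ⟨N₀, hN₀, hN₀p, k, hk⟩ := Lib.PNilp.hasNormalPComplement_iff.mp hnc
      set K := N₀.map M.subtype with hK
      have hKM : K ≤ M := map_subtype_le _
      have hMK : M ≤ normalizer (K : Set G) := by
        intro m hm
        apply mem_normalizer_fintype
        rintro _ ⟨o, ho, rfl⟩
        exact ⟨⟨m, hm⟩ * o * ⟨m, hm⟩⁻¹, hN₀.conj_mem o ho _, rfl⟩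
      have hKcard : Nat.card K = Nat.card N₀ := Subgroup.card_map_of_injective M.subtype_injective
      obtain ⟨P, hP⟩ := Lib.LocBase.exists_isSyl p M
      have hcop : (Nat.card P).Coprime (Nat.card K) := by
        obtain ⟨m, hm⟩ := IsPGroup.iff_card.mp hP.pgroup
        rw [hm, hKcard]
        exact Nat.Coprime.pow_left m ((Nat.Prime.coprime_iff_not_dvd hp).mpr hN₀p)
      have hPs : Group.IsSolvable P := by
        have : Group.IsNilpotent P := hP.pgroup.isNilpotent
        infer_instance
      have hPK : P ≤ centralizer (K : Set G) := by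
        apply le_centralizer_of_forall
        intro q hq hqK
        have : Fact q.Prime := ⟨hq⟩
        have hqp : q ≠ p := by
          rintro rfl
          exact hN₀p (hKcard ▸ hqK)
        obtain ⟨Q, hQK, hQq, hQi, hPQ⟩ := Lib.CoprimeAction.exists_invariant_sylow
          (hP.le.trans hMK) hcop (Or.inl hPs) q
        refine ⟨Q, ⟨hQK, hQq, hQi⟩, ?_⟩
        have hqπ : q ∈ π := hM q hq (hqK.trans (Subgroup.card_dvd_of_le hKM))
        refine key hqπ hpπ hH ?_ hQq hP.pgroup hPQ
        intro R S hR hS hRq hSp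
        exact Subgroup.le_centralizer_iff.mp (hcom p q hpσ hqπ hqp S R hS hR hSp hRq)
      have hMsup : K ⊔ P = M := by
        apply le_antisymm (sup_le hKM hP.le)
        have h1 : (K ⊔ P).relIndex M = 1 := by
          by_contra hne
          obtain ⟨q, hq, hqd⟩ := Nat.exists_prime_and_dvd hne
          have h2 : q ∣ P.relIndex M := by
            rw [← relIndex_mul_relIndex P (K ⊔ P) M le_sup_right (sup_le hKM hP.le)]
            exact hqd.mul_left _
          have h3 : q ∣ K.relIndex M := by
            rw [← relIndex_mul_relIndex K (K ⊔ P) M le_sup_left (sup_le hKM hP.le)]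
            exact hqd.mul_left _
          have h4 : K.relIndex M = p ^ k := by
            rw [← hk, hK, relIndex, subgroupOf, comap_map_eq_self_of_injective M.subtype_injective]
          rw [h4] at h3
          have h5 := (Nat.prime_dvd_prime_iff_eq hq hp).mp (hq.dvd_of_dvd_pow h3)
          rw [h5] at h2
          exact hP.ndvd h2
        exact relIndex_eq_one.mp h1
      have hlt : Nat.card K < n := by
        rw [← hn]
        refine lt_of_le_of_ne (Subgroup.card_le_of_le hKM) ?_
        intro h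
        rw [← h, hKcard] at hpM
        exact hN₀p hpM
      obtain ⟨g, hg⟩ := ih _ hlt K rfl (hM.of_dvd (Subgroup.card_dvd_of_le hKM))
      set K' := MulAut.conj g • K with hK'
      set P' := MulAut.conj g • P with hP'
      have hP'K' : P' ≤ centralizer (K' : Set G) := by
        apply le_centralizer_conj g⁻¹
        rw [hP', hK', smul_smul, smul_smul, map_inv, inv_mul_cancel, one_smul, one_smul]
        exact hPK
      obtain ⟨R, hR⟩ := Lib.LocBase.exists_isSyl p H
      have hRK' : R ≤ centralizer (K' : Set G) := by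
        apply le_centralizer_of_forall
        intro q hq hqK
        have : Fact q.Prime := ⟨hq⟩
        rw [hK', card_conj_smul] at hqK
        have hqp : q ≠ p := by
          rintro rfl
          exact hN₀p (hKcard ▸ hqK)
        obtain ⟨Q, hQ⟩ := Lib.LocBase.exists_isSyl q K'
        refine ⟨Q, hQ, ?_⟩
        have hqπ : q ∈ π := hM q hq (hqK.trans (Subgroup.card_dvd_of_le hKM))
        exact Subgroup.le_centralizer_iff.mp (hcom p q hpσ hqπ hqp R Q hR.le (hQ.le.trans hg) hR.pgroup hQ.pgroup)
      have hRt : IsSyl p R (centralizer (K' : Set G)) := (isSyl_top hpπ hH hR).of_le hRK' le_top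
      obtain ⟨c, hc, hcle⟩ := hRt.exists_conj_le (hP.pgroup.map (MulAut.conj g).toMonoidHom) hP'K'
      refine ⟨c * g, ?_⟩
      rw [map_mul, mul_smul, ← hMsup, smul_sup, smul_sup]
      apply sup_le
      · have h6 : MulAut.conj c • K' = K' :=
          Lib.SubgroupTools.conj_smul_of_mem_normalizer (centralizer_le_normalizer _ hc)
        rw [← hK', h6]
        exact hg
      · exact hcle.trans hR.le

theorem main {σ τ π : Set ℕ} (hπ : π = σ ∪ τ) (hd : Disjoint σ τ) {H Hs Ht : Subgroup G}
    (hH : Cfsg.IsPiHall π H) (hs : Cfsg.IsPiSubgroup σ Hs) (ht : Cfsg.IsPiSubgroup τ Ht)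
    (hsn : Group.IsNilpotent Hs) (hjoin : Hs ⊔ Ht = H) (hcomm : ∀ a ∈ Hs, ∀ b ∈ Ht, a * b = b * a)
    (hD : Cfsg.IsDPiGroup τ G) : Cfsg.IsDPiGroup π G := by
  have key : ∀ K : Subgroup G, Maximal (Cfsg.IsPiSubgroup π) K → ∃ g : G, MulAut.conj g • K = H := by
    intro K hK
    obtain ⟨g, hg⟩ := dominate hπ hd hH hs ht hsn hjoin hcomm hD _ K rfl hK.prop
    refine ⟨g, ?_⟩
    apply le_antisymm hg
    have h1 : K ≤ MulAut.conj g⁻¹ • H := by
      have := Lib.SubgroupTools.conj_smul_mono g⁻¹ hg
      rwa [smul_smul, ← map_mul, inv_mul_cancel, map_one, one_smul] at this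
    have h2 : Cfsg.IsPiSubgroup π (MulAut.conj g⁻¹ • H : Subgroup G) := by
      rw [isPiSubgroup_iff, card_conj_smul]
      exact (isPiHall_iff.mp hH).1
    have h3 := hK.2 h2 h1
    have h4 := Lib.SubgroupTools.conj_smul_mono g h3
    rwa [smul_smul, ← map_mul, mul_inv_cancel, map_one, one_smul] at h4
  intro A B hA hB
  obtain ⟨a, ha⟩ := key A hA
  obtain ⟨b, hb⟩ := key B hB
  refine ⟨b⁻¹ * a, ?_⟩
  rw [map_eq_smul, map_mul, mul_smul, ha, ← hb, smul_smul, ← map_mul, inv_mul_cancel, map_one, one_smul]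

/-- Let σ and τ be disjoint sets of primes with union π. Suppose a finite group G has a Hall π-subgroup H which is the direct product of a nilpotent σ-subgroup and a τ-subgroup (two elementwise-commuting subgroups generating H), and that the maximal τ-subgroups of G are pairwise conjugate. Then the maximal π-subgroups of G are pairwise conjugate. -/
theorem result {G : Type*} [Group G] [Finite G]
    (σ τ π : Set ℕ) (hπ : π = σ ∪ τ) (hd : Disjoint σ τ) (H Hs Ht : Subgroup G) (hH : Cfsg.IsPiHall π H)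
    (hs : Cfsg.IsPiSubgroup σ Hs) (ht : Cfsg.IsPiSubgroup τ Ht) (hsn : Group.IsNilpotent Hs)
    (hjoin : Hs ⊔ Ht = H) (hcomm : ∀ a ∈ Hs, ∀ b ∈ Ht, a * b = b * a) (hD : Cfsg.IsDPiGroup τ G) :
    Cfsg.IsDPiGroup π G := by
  exact main hπ hd hH hs ht hsn hjoin hcomm hD

end Cfsg.Agent.S4334
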