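import Cfsg.Statements.S4337
import Cfsg.Agent.Lib.SwapOrbits

set_option autoImplicit false
open Cfsg

namespace Cfsg.Agent.S4337

/-- In a finite symmetric group, any three transpositions generate a solvable subgroup. -/
theorem result (n : ℕ) (a b c : Equiv.Perm (Fin n))
    (ha : a.IsSwap) (hb : b.IsSwap) (hc : c.IsSwap) :
    Group.IsSolvable (Subgroup.closure ({a, b, c} : Set (Equiv.Perm (Fin n)))) := by
  apply Cfsg.Agent.Lib.SwapOrbits.isSolvable_of_orbits_le_four
  intro x
  have h1 : ({a, b, c} : Set (Equiv.Perm (Fin n))) = Set.range ![a, b, c] := by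
    ext σ
    simp only [Set.mem_insert_iff, Set.mem_singleton_iff, Matrix.range_cons, Matrix.range_empty,
      Set.union_empty, Set.mem_union]
  rw [h1]
  apply Cfsg.Agent.Lib.SwapOrbits.card_orbit_le
  intro i
  have h2 : ∀ σ : Equiv.Perm (Fin n), σ.IsSwap →
      ∃ a b, a ≠ b ∧ σ = @Equiv.swap _ (Classical.decEq (Fin n)) a b := by
    rintro σ ⟨u, v, huv, rfl⟩
    refine ⟨u, v, huv, ?_⟩
    congr
    exact Subsingleton.elim _ _
  fin_cases i
  · exact h2 a ha
  · exact h2 b hb
  · exact h2 c hc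

end Cfsg.Agent.S4337
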