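import Cfsg.Statements.S4342
import Cfsg.Agent.Lib.SylowNumbers

set_option autoImplicit false
open Cfsg

namespace Cfsg.Agent.S4342

open Cfsg.Agent.Lib.SylowNumbers

theorem sylow_le_of_not_dvd_index {G : Type*} [Group G] [Finite G]
    (p : ℕ) [Fact p.Prime] (H : Subgroup G) [H.Normal] (hp : ¬ p ∣ H.index) (Q : Sylow p G) :
    (Q : Subgroup G) ≤ H := by
  -- the image of Q in G/H is a p-group, trivial
  have h1 : IsPGroup p ((Q : Subgroup G).map (QuotientGroup.mk' H)) := Q.2.map _
  have h2 : Nat.card ((Q : Subgroup G).map (QuotientGroup.mk' H)) ∣ H.index := by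
    rw [Subgroup.index_eq_card]
    exact Subgroup.card_subgroup_dvd_card _
  obtain ⟨n, hn⟩ := IsPGroup.iff_card.mp h1
  have h3 : n = 0 := by
    by_contra hne
    apply hp
    refine dvd_trans ?_ h2
    rw [hn]
    exact dvd_pow_self p hne
  rw [h3, pow_zero] at hn
  have h4 := Subgroup.card_eq_one.mp hn
  rw [Subgroup.map_eq_bot_iff, QuotientGroup.ker_mk'] at h4
  exact h4

theorem card_sylow_quot_center {H : Type*} [Group H] [Finite H] (p : ℕ) [Fact p.Prime]
    (Z : Subgroup H) [Z.Normal] (hZ : Z ≤ Subgroup.center H) :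
    Nat.card (Sylow p (H ⧸ Z)) = Nat.card (Sylow p H) := by
  obtain ⟨P⟩ : Nonempty (Sylow p H) := inferInstance
  rw [card_sylow_eq_quot_mul Z P]
  have : Nat.card (Sylow p ((P : Subgroup H) ⊔ Z : Subgroup H)) = 1 := by
    rw [card_sylow_subgroup_eq _ P le_sup_left]
    rw [Nat.card_eq_one_iff_unique]
    refine ⟨⟨fun Q R => ?_⟩, ⟨⟨P, le_sup_left⟩⟩⟩
    have key : ∀ Q : {Q : Sylow p H // (Q : Subgroup H) ≤ (P : Subgroup H) ⊔ Z}, Q.1 = P := by
      intro Q
      have hnorm : (Q.1 : Subgroup H) ≤ Subgroup.normalizer ((P : Subgroup H) : Set H) := by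
        refine Q.2.trans (sup_le Subgroup.le_normalizer (hZ.trans ?_))
        exact Subgroup.center_le_normalizer ((P : Subgroup H) : Set H)
      have h1 : IsPGroup p ((Q.1 : Subgroup H) ⊔ (P : Subgroup H) : Subgroup H) :=
        IsPGroup.to_sup_of_normal_right' Q.1.2 P.2 hnorm
      have h2 := Q.1.3 h1 le_sup_left
      have h3 := P.3 h1 le_sup_right
      exact Sylow.ext (h2.symm.trans h3)
    exact Subtype.ext ((key Q).trans (key R).symm)
  rw [this, mul_one]

/-- Let H be a normal subgroup of a finite group G and p a prime not dividing the index of H. Then the number of Sylow p-subgroups of H/Z(H) equals the number of Sylow p-subgroups of G. -/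
theorem result {G : Type*} [Group G] [Finite G]
    (p : ℕ) [Fact p.Prime] (H : Subgroup G) [H.Normal] (hp : ¬ p ∣ H.index) :
    Nat.card (Sylow p (H ⧸ Subgroup.center H)) = Nat.card (Sylow p G) := by
  rw [card_sylow_quot_center p _ le_rfl]
  obtain ⟨P⟩ : Nonempty (Sylow p G) := inferInstance
  rw [card_sylow_subgroup_eq H P (sylow_le_of_not_dvd_index p H hp P)]
  exact Nat.card_congr (Equiv.subtypeUnivEquiv (fun Q => sylow_le_of_not_dvd_index p H hp Q))

end Cfsg.Agent.S4342
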