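import Cfsg.Statements.S4343
import Cfsg.Agent.Lib.SylowFew

set_option autoImplicit false
open Cfsg

namespace Cfsg.Agent.S4343

open Cfsg.Agent.Lib.SylowFew

/-- Let S be a finite non-abelian simple group and p a prime dividing its order. If S has fewer than p² Sylow p-subgroups, then its Sylow p-subgroups have order p. -/
theorem result {S : Type*} [Group S] [Finite S]
    [IsSimpleGroup S] (hS : ¬ IsMulCommutative S) (p : ℕ) [Fact p.Prime] (hp : p ∣ Nat.card S)
    (hn : Nat.card (Sylow p S) < p ^ 2) (P : Sylow p S) : Nat.card P = p := by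
  have hPne : (P : Subgroup S) ≠ ⊥ := P.ne_bot_of_dvd_card hp
  -- P is not normal
  have hPn : ¬ (P : Subgroup S).Normal := by
    intro h
    rcases h.eq_bot_or_eq_top with h | h
    · exact hPne h
    · -- S is a p-group, so its centre is nontrivial
      have h1 : IsPGroup p S := by
        have := P.2
        rw [h] at this
        exact IsPGroup.of_surjective this (Subgroup.topEquiv (G := S)).toMonoidHom
          (Subgroup.topEquiv (G := S)).surjective
      haveI : Nontrivial S := IsSimpleGroup.toNontrivial
      have h2 : Nontrivial (Subgroup.center S) := h1.center_nontrivial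
      rcases (inferInstance : (Subgroup.center S).Normal).eq_bot_or_eq_top with h3 | h3
      · rw [h3] at h2
        exact not_subsingleton _ (inferInstance : Subsingleton (⊥ : Subgroup S))
      · apply hS
        refine ⟨⟨fun a b => ?_⟩⟩
        have h4 : a ∈ Subgroup.center S := by rw [h3]; trivial
        exact (Subgroup.mem_center_iff.mp h4 b).symm
  obtain ⟨Q, hQ⟩ : ∃ Q : Sylow p S, P ≠ Q := by
    by_contra hcon
    push Not at hcon
    haveI : Subsingleton (Sylow p S) := ⟨fun a b => (hcon a).symm.trans (hcon b)⟩
    exact hPn (Sylow.normal_of_subsingleton P)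
  -- the intersection of all Sylows is trivial
  have hcore : (⨅ R : Sylow p S, (R : Subgroup S)) = ⊥ := by
    have hnorm : (⨅ R : Sylow p S, (R : Subgroup S)).Normal := by
      refine ⟨fun n hn' g => ?_⟩
      rw [Subgroup.mem_iInf] at hn' ⊢
      intro R
      have h1 : n ∈ ((g⁻¹ • R : Sylow p S) : Subgroup S) := hn' _
      rw [Sylow.coe_subgroup_smul, Subgroup.mem_pointwise_smul_iff_inv_smul_mem] at h1
      simpa using h1
    rcases hnorm.eq_bot_or_eq_top with h | h
    · exact h
    · exfalso
      apply hPn
      have : (P : Subgroup S) = ⊤ := by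
        rw [← top_le_iff, ← h]
        exact iInf_le _ P
      rw [this]
      infer_instance
  have h1 : (P : Subgroup S) ⊓ Q = ⊥ := by
    rw [← le_bot_iff, ← hcore]
    exact le_iInf (fun R => inf_le_all hn P Q R hQ)
  have h2 := relIndex_mul_card_inf (P : Subgroup S) Q
  rw [relIndex_eq_prime hn P Q hQ, h1, Subgroup.card_bot, mul_one] at h2
  exact h2.symm

end Cfsg.Agent.S4343
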