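import Cfsg.Statements.S4344

set_option autoImplicit false
open Cfsg

namespace Cfsg.Agent.S4344

theorem subsingleton_sylow_of_comm {C : Type*} [Group C] [Finite C] (p : ℕ) [Fact p.Prime]
    (hC : ∀ a b : C, a * b = b * a) : Subsingleton (Sylow p C) := by
  refine ⟨fun P Q => ?_⟩
  obtain ⟨g, rfl⟩ := MulAction.exists_smul_eq C P Q
  have : (P : Subgroup C).Normal := ⟨fun n hn g => by rw [hC g n, mul_assoc, mul_inv_cancel, mul_one]; exact hn⟩
  exact (Sylow.smul_eq_of_normal).symm

/-- Let S be a finite non-abelian simple group, M a maximal subgroup of S and C a cyclic normal subgroup of M. If a Sylow p-subgroup P of S (for a prime p dividing the order of S) is contained in C, then the number of Sylow p-subgroups of S equals the index of M. -/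
theorem result {S : Type*} [Group S] [Finite S]
    [IsSimpleGroup S] (hS : ¬ IsMulCommutative S) (p : ℕ) [Fact p.Prime] (hp : p ∣ Nat.card S)
    (M : Subgroup S) (hM : IsCoatom M) (C : Subgroup S) (hCM : C ≤ M) (hCn : (C.subgroupOf M).Normal)
    (hC : IsCyclic C) (P : Sylow p S) (hP : (P : Subgroup S) ≤ C) :
    Nat.card (Sylow p S) = M.index := by
  rw [Sylow.card_eq_index_normalizer P]
  congr 1
  -- M ≤ N(P)
  have hPne : (P : Subgroup S) ≠ ⊥ := P.ne_bot_of_dvd_card hp
  have hCc : ∀ a b : C, a * b = b * a := by
    letI := hC.commGroup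
    exact fun a b => mul_comm a b
  have hsub : Subsingleton (Sylow p C) := subsingleton_sylow_of_comm p hCc
  have hMC : M ≤ Subgroup.normalizer (C : Set S) :=
      (Subgroup.normal_subgroupOf_iff_le_normalizer hCM).mp hCn
  have hMN : M ≤ Subgroup.normalizer ((P : Subgroup S) : Set S) := by
    intro g hg
    have hgC : (g • P : Sylow p S) ≤ C := by
      rw [Sylow.coe_subgroup_smul]
      have h1 := hMC hg
      rw [Subgroup.mem_normalizer_iff] at h1
      intro x hx
      rw [Subgroup.mem_pointwise_smul_iff_inv_smul_mem] at hx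
      have h2 := hP hx
      rw [h1] at h2
      simpa [mul_assoc] using h2
    have h3 : (g • P : Sylow p S) = P := by
      apply Sylow.subtype_injective (hP := hgC) (hQ := hP)
      exact Subsingleton.elim _ _
    exact Sylow.smul_eq_iff_mem_normalizer.mp h3
  rcases hM.le_iff.mp hMN with h | h
  · exfalso
    have hnorm : (P : Subgroup S).Normal := by
      rwa [Subgroup.normalizer_eq_top_iff] at h
    rcases hnorm.eq_bot_or_eq_top with h | h
    · exact hPne h
    · apply hS
      have hCtop : C = ⊤ := top_le_iff.mp (h ▸ hP)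
      subst hCtop
      refine ⟨⟨fun a b => ?_⟩⟩
      have := hCc ⟨a, Subgroup.mem_top a⟩ ⟨b, Subgroup.mem_top b⟩
      simpa using this
  · exact h

end Cfsg.Agent.S4344
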