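import Cfsg.Statements.S4345
import Cfsg.Agent.Lib.SylowNumbers
import Cfsg.Agent.Lib.SubgroupTools

set_option autoImplicit false
open Cfsg

namespace Cfsg.Agent.S4345

open Cfsg.Agent.Lib.SylowNumbers

universe u

theorem part_of_prime_pow (p ℓ r k : ℕ) (hr : r.Prime) (h : r ^ k ≡ 1 [MOD p]) :
    ℓ ^ (r ^ k).factorization ℓ ≡ 1 [MOD p] := by
  rw [Nat.Prime.factorization_pow hr]
  by_cases hrl : r = ℓ
  · rw [hrl, Finsupp.single_eq_same, ← hrl]; exact h
  · rw [Finsupp.single_eq_of_ne (Ne.symm hrl), pow_zero]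

/-- `n_p(P ⊔ N)` is a power of `r` when `N` is a normal `r`-group. -/
theorem card_sylow_sup {G : Type*} [Group G] [Finite G] (p : ℕ) [Fact p.Prime] (r : ℕ) (hr : r.Prime)
    (N : Subgroup G) [N.Normal] (hN : IsPGroup r N) (P : Sylow p G) :
    ∃ k, Nat.card (Sylow p ((P : Subgroup G) ⊔ N : Subgroup G)) = r ^ k := by
  haveI : Fact r.Prime := ⟨hr⟩
  set L : Subgroup G := (P : Subgroup G) ⊔ N with hL
  have h1 : Nat.card (Sylow p L) ∣ (P : Subgroup G).relIndex L := by
    have h2 := (P.subtype (le_sup_left : (P : Subgroup G) ≤ L)).card_dvd_index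
    exact h2
  have h3 : (P : Subgroup G).relIndex L ∣ Nat.card N := by
    rw [hL, sup_comm, ← relIndex_eq_sup]
    exact Subgroup.relIndex_dvd_card _ _
  obtain ⟨n, hn⟩ := IsPGroup.iff_card.mp hN
  rw [hn] at h3
  obtain ⟨k, -, hk⟩ := (Nat.dvd_prime_pow hr).mp (h1.trans h3)
  exact ⟨k, hk⟩

theorem aux (p ℓ : ℕ) [Fact p.Prime] (n : ℕ) : ∀ (G : Type u) [Group G] [Finite G],
    Nat.card G = n → Group.IsSolvable G → ℓ ^ (Nat.card (Sylow p G)).factorization ℓ ≡ 1 [MOD p] := by
  induction n using Nat.strong_induction_on with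
  | _ n ih =>
    intro G _ _ hn hG
    rcases subsingleton_or_nontrivial G with hs | hnt
    · have h1 : Nat.card (Sylow p G) = 1 := by
        rw [Nat.card_eq_one_iff_unique]
        refine ⟨⟨fun P Q => Sylow.ext (Subsingleton.elim _ _)⟩, inferInstance⟩
      rw [h1, Nat.factorization_one]
      exact Nat.ModEq.refl _
    · obtain ⟨r, N, hr, hN, hNc, hNab, hNr⟩ := Cfsg.Agent.Lib.SubgroupTools.exists_characteristic_elementary G
      have hNn : N.Normal := inferInstance
      have hNp : IsPGroup r N := by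
        intro x
        exact ⟨1, Subtype.ext (by rw [pow_one]; exact hNr x x.2)⟩
      obtain ⟨P⟩ : Nonempty (Sylow p G) := inferInstance
      obtain ⟨k, hk⟩ := card_sylow_sup p r hr N hNp P
      have hcard : Nat.card (G ⧸ N) < n := by
        rw [← hn, Subgroup.card_eq_card_quotient_mul_card_subgroup N]
        have h1 : 1 < Nat.card N := (Subgroup.one_lt_card_iff_ne_bot N).mpr hN
        have h2 : 0 < Nat.card (G ⧸ N) := Nat.card_pos
        nlinarith
      have h1 := ih _ hcard (G ⧸ N) rfl inferInstance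
      rw [card_sylow_eq_quot_mul N P, Nat.factorization_mul (Nat.card_pos.ne') (Nat.card_pos.ne'),
        Finsupp.add_apply, pow_add]
      have h2 : ℓ ^ (Nat.card (Sylow p ((P : Subgroup G) ⊔ N : Subgroup G))).factorization ℓ ≡ 1 [MOD p] := by
        have h3 := card_sylow_modEq_one p ((P : Subgroup G) ⊔ N : Subgroup G)
        rw [hk] at h3 ⊢
        exact part_of_prime_pow p ℓ r k hr h3
      exact h1.mul h2

/-- Let G be a finite solvable group and p, ℓ primes. Then the largest power of ℓ dividing the number of Sylow p-subgroups of G is congruent to 1 modulo p. -/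
theorem result {G : Type*} [Group G] [Finite G]
    (hG : Group.IsSolvable G) (p ℓ : ℕ) [Fact p.Prime] (hℓ : ℓ.Prime) :
    ℓ ^ (Nat.card (Sylow p G)).factorization ℓ ≡ 1 [MOD p] :=
  aux p ℓ _ G rfl hG

end Cfsg.Agent.S4345
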