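import Cfsg.Statements.S4346
import Cfsg.Agent.Lib.PermLoc3
import Cfsg.Agent.Lib.Syl22
import Cfsg.Agent.Lib.SubS7
import Cfsg.Agent.Lib.SmallSieve

set_option autoImplicit false

open MulAction Subgroup Cfsg.Agent.Lib.SmallSimple Cfsg.Agent.Lib.NSylMin Cfsg.Agent.Lib.PermLoc

namespace Cfsg.Agent.S4346

universe u

section loc

variable {G : Type u} [Group G] [Finite G]

theorem card_three (h22 : Nat.card (Sylow 3 G) = 22)
    (hfaith : ∀ g : G, (∀ Q : Sylow 3 G, g • Q = Q) → g = 1) (P : Sylow 3 G) :
    Nat.card (P : Subgroup G) = 3 := by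
  apply Cfsg.Agent.Lib.Syl22.card_eq_three h22
  intro D hD
  rw [eq_bot_iff]
  intro g hg
  apply hfaith
  intro Q
  exact Sylow.smul_eq_iff_mem_normalizer.2 (le_normalizer (hD Q hg))

theorem local3 (h22 : Nat.card (Sylow 3 G) = 22)
    (hfaith : ∀ g : G, (∀ Q : Sylow 3 G, g • Q = Q) → g = 1) (P : Sylow 3 G) :
    ∃ a b : ℕ, a ∈ Nat.divisors 2 ∧ b ∈ Nat.divisors 560 ∧ (7 ∣ b → b = 7 ∨ b = 14) ∧
      Nat.card (normalizer ((P : Subgroup G) : Set G)) = 3 * a * b := by
  classical
  have : Fact (Nat.Prime 3) := ⟨by norm_num⟩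
  have hfin : Fintype (Sylow 3 G) := Fintype.ofFinite _
  have hX := card_moved P
  obtain ⟨f, a, h1, h2, h3, h4, h5, h6, h7, h8, h9⟩ := pack (Ω := Sylow 3 G) (p := 3) (m := 7) (by norm_num) P
    (card_three h22 hfaith P) hfaith (fun x y hx hy => (eq_of_fixed P x hx).symm.trans (eq_of_fixed P y hy))
    (by omega)
  have hb5040 : Nat.card f.range ∣ 5040 := by
    have h10 := Subgroup.card_subgroup_dvd_card f.range
    have h11 : Nat.card (Equiv.Perm (Fin 7)) = 5040 := by rw [Nat.card_perm, Nat.card_fin]; rfl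
    rwa [h11] at h10
  have hb3 : ¬ 3 ∣ Nat.card f.range := by
    intro h
    have h10 : ¬ 3 ∣ (P : Subgroup G).index := P.not_dvd_index
    apply h10
    have h11 := (P : Subgroup G).index_mul_card
    rw [card_three h22 hfaith P, ← card_normalizer_mul_nsyl P, h22, h3] at h11
    have h12 : (P : Subgroup G).index = a * Nat.card f.range * 22 := by
      apply Nat.eq_of_mul_eq_mul_right (by norm_num : 0 < 3)
      rw [h11]; ring
    rw [h12]
    exact Dvd.dvd.mul_right (Dvd.dvd.mul_left h a) 22
  refine ⟨a, Nat.card f.range, by simpa using h2, ?_, ?_, h3⟩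
  · rw [Nat.mem_divisors]
    refine ⟨?_, by norm_num⟩
    have h10 : Nat.Coprime (Nat.card f.range) 9 := by
      have : Nat.Coprime (Nat.card f.range) 3 := ((Nat.Prime.coprime_iff_not_dvd (by norm_num)).2 hb3).symm
      exact Nat.Coprime.pow_right 2 this
    exact h10.dvd_of_dvd_mul_left (show _ ∣ 9 * 560 from hb5040)
  · intro h
    exact Cfsg.Agent.Lib.SubS7.sub_S7 f.range hb3 h

end loc

theorem simple_case {G : Type u} [Group G] [Finite G] (h22 : Nat.card (Sylow 3 G) = 22)
    (hfaith : ∀ g : G, (∀ Q : Sylow 3 G, g • Q = Q) → g = 1) (hs : IsSimpleGroup G) (hG : ¬ IsMulCommutative G) :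
    False := by
  classical
  have : Fact (Nat.Prime 3) := ⟨by norm_num⟩
  have : Fact (Nat.Prime 11) := ⟨by norm_num⟩
  have : Fact (Nat.Prime 5) := ⟨by norm_num⟩
  have hfin : Fintype (Sylow 3 G) := Fintype.ofFinite _
  obtain ⟨P⟩ : Nonempty (Sylow 3 G) := inferInstance
  obtain ⟨a, b, ha, hb, hb7, hab⟩ := local3 h22 hfaith P
  have h11N : ∀ Q : Sylow 3 G, ¬ 11 ∣ Nat.card (normalizer ((Q : Subgroup G) : Set G)) := by
    intro Q
    obtain ⟨a, b, ha, hb, -, hab⟩ := local3 h22 hfaith Q
    rw [hab]
    have : ∀ a ∈ Nat.divisors 2, ∀ b ∈ Nat.divisors 560, ¬ 11 ∣ 3 * a * b := by decide +kernel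
    exact this a ha b hb
  have hcG : Nat.card G = 3 * a * b * 22 := by
    rw [← card_normalizer_mul_nsyl P, h22, hab]
  obtain ⟨Z⟩ : Nonempty (Sylow 11 G) := inferInstance
  have hcZ : Nat.card (Z : Subgroup G) = 11 := by
    have h8 : Nat.card G = 11 ^ 1 * (6 * a * b) := by rw [hcG]; ring
    rw [sylow_card_of h8 _ Z, pow_one]
    have : ∀ a ∈ Nat.divisors 2, ∀ b ∈ Nat.divisors 560, ¬ 11 ∣ 6 * a * b := by decide +kernel
    exact this a ha b hb
  have hnofix : ∀ R : Sylow 3 G, ∃ g ∈ (Z : Subgroup G), g • R ≠ R := by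
    intro R
    by_contra hno
    push Not at hno
    apply h11N R
    rw [← hcZ]
    apply Subgroup.card_dvd_of_le
    intro g hg
    exact Sylow.smul_eq_iff_mem_normalizer.1 (hno g hg)
  obtain ⟨f', a', k1, k2, k3, -, -, -, -, -, k9⟩ := pack (Ω := Sylow 3 G) (p := 11) (m := 2) (by norm_num) Z
    hcZ hfaith (fun x y hx hy => by
      obtain ⟨g, hg, hgx⟩ := hnofix x
      exact absurd (hx g hg) hgx) (by
      rw [Nat.card_congr (Equiv.subtypeUnivEquiv hnofix), h22])
  have k10 : f'.range = ⊥ := by
    rw [eq_bot_iff]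
    rintro _ ⟨t, rfl⟩
    obtain ⟨s, -, hs2⟩ := k9 (fun g => sign_eq_one hG g) t
    rw [Cfsg.Agent.Lib.PermOrb.units_pow_even s (by decide)] at hs2
    have : ∀ σ : Equiv.Perm (Fin 2), Equiv.Perm.sign σ = 1 → σ = 1 := by decide
    exact this _ hs2
  rw [k10, card_bot, mul_one] at k3
  have h11G : 11 ∣ Nat.card G := by rw [hcG]; exact ⟨3 * a * b * 2, by ring⟩
  have ha1 : a' ≠ 1 := by
    rintro rfl
    rw [mul_one] at k3
    apply not_normalizer_le_centralizer hG h11G Z
    have hNP : normalizer ((Z : Subgroup G) : Set G) = Z := by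
      symm
      apply Subgroup.eq_of_le_of_card_ge le_normalizer
      rw [k3, hcZ]
    rw [hNP]
    exact le_centralizer_of_comm (isMulCommutative_of_prime_card (by norm_num : Nat.Prime 11) hcZ)
  have hZ1 := card_normalizer_mul_nsyl Z
  have hZm := nsyl_mod 11 G
  rw [k3, hcG] at hZ1
  have ha' : a' ∈ Nat.divisors 10 := by simpa using k2
  have hpos : 0 < a' := Nat.pos_of_mem_divisors ha'
  have hmul : a' * Nat.card (Sylow 11 G) = 6 * a * b := by
    apply Nat.eq_of_mul_eq_mul_left (by norm_num : 0 < 11)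
    calc 11 * (a' * Nat.card (Sylow 11 G)) = 11 * a' * Nat.card (Sylow 11 G) := by ring
      _ = 3 * a * b * 22 := hZ1
      _ = _ := by ring
  have hdec : ∀ a ∈ Nat.divisors 2, ∀ b ∈ Nat.divisors 560, (7 ∣ b → b = 7 ∨ b = 14) → ∀ a' ∈ Nat.divisors 10,
      a' ≠ 1 → 6 * a * b % a' = 0 → (6 * a * b / a') % 11 = 1 → 6 * a * b / a' = 12 := by decide +kernel
  have hdiv : 6 * a * b / a' = Nat.card (Sylow 11 G) := by
    rw [← hmul]; exact Nat.mul_div_cancel_left _ hpos
  have hn12 : Nat.card (Sylow 11 G) = 12 := by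
    have h8 := hdec a ha b hb hb7 a' ha' ha1 (by rw [← hmul]; exact Nat.mul_mod_right _ _)
      (by rw [hdiv]; exact hZm)
    rwa [hdiv] at h8
  rw [hn12] at hmul
  -- |G| = 132 a'
  have hcG' : Nat.card G = 132 * a' := by rw [hcG]; linarith
  have hcase : a' = 2 ∨ 5 ∣ a' := by
    have : ∀ a' ∈ Nat.divisors 10, a' ≠ 1 → a' = 2 ∨ 5 ∣ a' := by decide +kernel
    exact this a' ha' ha1
  rcases hcase with h2 | h5
  · rw [h2] at hcG'
    have h8 := Cfsg.Agent.Lib.SmallSieve.mem_survivors hG (by rw [hcG']; norm_num)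
    rw [hcG'] at h8
    revert h8
    decide
  · -- an element of order 5 centralizing `P`
    have h5N : 5 ∣ Nat.card (normalizer ((P : Subgroup G) : Set G)) := by
      rw [hab]
      have h8 : 5 ∣ 6 * a * b := by rw [← hmul]; exact Dvd.dvd.mul_right h5 12
      have h9 : ∀ a ∈ Nat.divisors 2, ∀ b ∈ Nat.divisors 560, 5 ∣ 6 * a * b → 5 ∣ 3 * a * b := by decide +kernel
      exact h9 a ha b hb h8
    have hcP := card_three h22 hfaith P
    have h8 : (centralizer ((P : Subgroup G) : Set G)).relIndex (normalizer ((P : Subgroup G) : Set G)) ∣ 2 :=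
      relIndex_centralizer_dvd_pred (by norm_num) _ hcP
    have h9 := relIndex_mul_card_of_le (centralizer_le_normalizer' (P : Subgroup G))
    rw [← h9] at h5N
    have h10 : 5 ∣ Nat.card (centralizer ((P : Subgroup G) : Set G)) := by
      rcases (Nat.Prime.dvd_mul (by norm_num)).1 h5N with h | h
      · have := h.trans h8
        norm_num at this
      · exact h
    obtain ⟨y, hy⟩ := exists_prime_orderOf_dvd_card' 5 h10
    have hoy : orderOf (y : G) = 5 := by rw [Subgroup.orderOf_coe, hy]
    have hpy : IsPGroup 5 (zpowers (y : G)) := by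
      apply IsPGroup.of_card (n := 1)
      rw [Nat.card_zpowers, hoy, pow_one]
    -- action on the twelve points
    let X : SubMulAction (P : Subgroup G) (Sylow 11 G) :=
      { carrier := {R | (y : G) • R = R}
        smul_mem' := by
          intro g R hR
          have hR : (y : G) • R = R := hR
          change (y : G) • (g : G) • R = (g : G) • R
          have h11 : (g : G) * y = y * g := mem_centralizer_iff.1 y.2 g g.2
          rw [← mul_smul, ← h11, mul_smul, hR] }
    have e1 : Nat.card X % 5 = 2 := by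
      have h11 := hpy.card_modEq_card_fixedPoints (Sylow 11 G)
      rw [hn12] at h11
      have h12 : Nat.card (fixedPoints (zpowers (y : G)) (Sylow 11 G)) = Nat.card X := by
        apply Nat.card_congr
        apply Equiv.subtypeEquivRight
        intro R
        constructor
        · intro h
          exact h ⟨y, mem_zpowers _⟩
        · intro h g
          have h13 : (y : G) ∈ stabilizer G R := h
          have h14 : zpowers (y : G) ≤ stabilizer G R := by rwa [zpowers_le]
          exact h14 g.2
      rw [h12] at h11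
      exact h11.symm
    have h3N : ∀ R : Sylow 11 G, ¬ 3 ∣ Nat.card (normalizer ((R : Subgroup G) : Set G)) := by
      intro R h
      have h11 := card_normalizer_mul_nsyl R
      rw [hn12, hcG'] at h11
      have h12 : Nat.card (normalizer ((R : Subgroup G) : Set G)) = 11 * a' := by omega
      rw [h12] at h
      have : ∀ a' ∈ Nat.divisors 10, ¬ 3 ∣ 11 * a' := by decide +kernel
      exact this a' ha' h
    have e2 : Nat.card X % 3 = 0 := by
      have h11 := P.isPGroup'.card_modEq_card_fixedPoints X
      have h12 : Nat.card (fixedPoints (P : Subgroup G) X) = 0 := by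
        rw [Nat.card_eq_zero]
        left
        constructor
        rintro ⟨R, hR⟩
        apply h3N (R : Sylow 11 G)
        refine (dvd_of_eq hcP.symm).trans (Subgroup.card_dvd_of_le ?_)
        intro g hg
        exact Sylow.smul_eq_iff_mem_normalizer.1 (congrArg Subtype.val (hR ⟨g, hg⟩))
      rw [h12] at h11
      exact h11
    have e3 : Nat.card X ≤ 12 := by
      rw [← hn12]
      exact Nat.card_le_card_of_injective _ Subtype.val_injective
    have e4 : Nat.card X = 12 := by omega
    have e5 : ∀ R : Sylow 11 G, (y : G) • R = R := by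
      intro R
      have h11 : Function.Surjective (Subtype.val : X → Sylow 11 G) := by
        have h12 : Function.Bijective (Subtype.val : X → Sylow 11 G) :=
          (Nat.bijective_iff_injective_and_card _).2 ⟨Subtype.val_injective, by rw [e4, hn12]⟩
        exact h12.2
      obtain ⟨x, rfl⟩ := h11 R
      exact x.2
    have e6 : (y : G) = 1 := by
      apply faithful_of_simple (Ω := Sylow 11 G) _ _ e5
      by_contra hno
      push Not at hno
      have h11 := card_moved Z
      have h12 : Nat.card {Q : Sylow 11 G // ∃ g ∈ (Z : Subgroup G), g • Q ≠ Q} = 0 := by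
        rw [Nat.card_eq_zero]
        left
        constructor
        rintro ⟨Q, g, hg, h⟩
        exact h (hno g Q)
      omega
    rw [e6, orderOf_one] at hoy
    norm_num at hoy

theorem main (n : ℕ) : ∀ (G : Type u) [Group G] [Finite G], Nat.card G = n → Nat.card (Sylow 3 G) ≠ 22 := by
  induction n using Nat.strong_induction_on with
  | _ n ih =>
  intro G _ _ hn h22
  classical
  have : Fact (Nat.Prime 3) := ⟨by norm_num⟩
  have : Fact (Nat.Prime 11) := ⟨by norm_num⟩
  -- faithful
  have hker : ∀ K : Subgroup G, K.Normal → (∀ P : Sylow 3 G, K ≤ normalizer ((P : Subgroup G) : Set G)) → K = ⊥ := by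
    intro K hK hKP
    by_contra hne
    have h1 := card_sylow_quotient K hKP
    rw [h22] at h1
    refine ih (Nat.card (G ⧸ K)) ?_ (G ⧸ K) rfl h1
    rw [← hn, ← K.index_mul_card, index_eq_card]
    have h2 : 1 < Nat.card K := by
      rw [Finite.one_lt_card_iff_nontrivial]
      exact (Subgroup.nontrivial_iff_ne_bot K).2 hne
    have h3 : 0 < Nat.card (G ⧸ K) := Nat.card_pos
    exact lt_mul_of_one_lt_right h3 h2
  have hfaith : ∀ g : G, (∀ Q : Sylow 3 G, g • Q = Q) → g = 1 := by
    intro g hg
    have h1 : (MulAction.toPermHom G (Sylow 3 G)).ker = ⊥ := by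
      apply hker _ inferInstance
      intro P x hx
      rw [MonoidHom.mem_ker] at hx
      exact Sylow.smul_eq_iff_mem_normalizer.1 (congrArg (fun σ => σ P) hx)
    have h2 : g ∈ (MulAction.toPermHom G (Sylow 3 G)).ker := by
      rw [MonoidHom.mem_ker]
      ext x
      exact congrArg (fun Q : Sylow 3 G => (Q : Subgroup G)) (hg x) ▸ Iff.rfl
    rw [h1] at h2
    exact h2
  -- local data
  obtain ⟨P⟩ : Nonempty (Sylow 3 G) := inferInstance
  obtain ⟨a, b, ha', hb', hb7, hab⟩ := local3 h22 hfaith P
  have hcG : Nat.card G = 3 * a * b * 22 := by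
    rw [← card_normalizer_mul_nsyl P, h22, hab]
  have h11N : ∀ Q : Sylow 3 G, ¬ 11 ∣ Nat.card (normalizer ((Q : Subgroup G) : Set G)) := by
    intro Q
    obtain ⟨a, b, ha, hb, -, hab⟩ := local3 h22 hfaith Q
    rw [hab]
    have : ∀ a ∈ Nat.divisors 2, ∀ b ∈ Nat.divisors 560, ¬ 11 ∣ 3 * a * b := by decide +kernel
    exact this a ha b hb
  have h121 : ¬ 11 ∣ 6 * a * b := by
    have : ∀ a ∈ Nat.divisors 2, ∀ b ∈ Nat.divisors 560, ¬ 11 ∣ 6 * a * b := by decide +kernel
    exact this a ha' b hb'
  have hcZ : ∀ Z : Sylow 11 G, Nat.card (Z : Subgroup G) = 11 := by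
    intro Z
    have h8 : Nat.card G = 11 ^ 1 * (6 * a * b) := by rw [hcG]; ring
    rw [sylow_card_of h8 h121 Z, pow_one]
  have hcP : ∀ Q : Sylow 3 G, Nat.card (Q : Subgroup G) = 3 := card_three h22 hfaith
  -- the normalizer of a Sylow 11-subgroup is prime to 3
  have h3N : ∀ Z : Sylow 11 G, ¬ 3 ∣ Nat.card (normalizer ((Z : Subgroup G) : Set G)) := by
    intro Z h5
    have h8 : (centralizer ((Z : Subgroup G) : Set G)).relIndex (normalizer ((Z : Subgroup G) : Set G)) ∣ 10 :=
      relIndex_centralizer_dvd_pred (by norm_num) _ (hcZ Z)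
    have h9 := relIndex_mul_card_of_le (centralizer_le_normalizer' (Z : Subgroup G))
    rw [← h9] at h5
    have h10 : 3 ∣ Nat.card (centralizer ((Z : Subgroup G) : Set G)) := by
      rcases (Nat.Prime.dvd_mul (by norm_num)).1 h5 with h | h
      · have := h.trans h8
        norm_num at this
      · exact h
    obtain ⟨y, hy⟩ := exists_prime_orderOf_dvd_card' 3 h10
    have hoy : orderOf (y : G) = 3 := by rw [Subgroup.orderOf_coe, hy]
    have hpy : IsPGroup 3 (zpowers (y : G)) := by
      apply IsPGroup.of_card (n := 1)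
      rw [Nat.card_zpowers, hoy, pow_one]
    obtain ⟨Q, hQ⟩ := hpy.exists_le_sylow
    have hQe : (Q : Subgroup G) = zpowers (y : G) := by
      symm
      apply Subgroup.eq_of_le_of_card_ge hQ
      rw [hcP Q, Nat.card_zpowers, hoy]
    apply h11N Q
    rw [← hcZ Z]
    apply Subgroup.card_dvd_of_le
    intro z hz
    apply centralizer_le_normalizer' (Q : Subgroup G)
    rw [hQe, mem_centralizer_iff]
    intro w hw
    obtain ⟨k, rfl⟩ := mem_zpowers_iff.1 hw
    have h11 : Commute (y : G) z := (mem_centralizer_iff.1 y.2 z hz).symm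
    exact (h11.zpow_left k).eq
  -- normal subgroups
  have h11G : 11 ∣ Nat.card G := by rw [hcG]; exact ⟨3 * a * b * 2, by ring⟩
  have hsimple : IsSimpleGroup G := by
    have hnt : Nontrivial G := by
      rw [← Finite.one_lt_card_iff_nontrivial]
      have : 0 < Nat.card G := Nat.card_pos
      obtain ⟨c, hc⟩ := h11G
      omega
    refine { eq_bot_or_eq_top_of_normal := ?_ }
    intro M hM
    by_contra hno
    push Not at hno
    obtain ⟨hM1, hM2⟩ := hno
    have hdiv : ∀ d, d ∣ 22 → d % 3 = 1 → d = 1 ∨ d = 22 := by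
      intro d hd hd5
      have : ∀ d ∈ Nat.divisors 22, d % 3 = 1 → d = 1 ∨ d = 22 := by decide +kernel
      exact this d (by simp [hd]) hd5
    rcases normal_dichotomy h22 hdiv M with h | h
    · exact hM1 (hker M hM h)
    have h22M := relIndex_of_sup h22 M P (h P)
    have h11M : 11 ∣ Nat.card M := by
      have h8 := relIndex_mul_card_inf (normalizer ((P : Subgroup G) : Set G)) M
      rw [← h8, h22M]
      exact ⟨2 * _, by ring⟩
    have hidx7 : ¬ 11 ∣ M.index := by
      intro h8
      have h9 : 11 * 11 ∣ Nat.card G := by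
        rw [← M.index_mul_card]
        exact mul_dvd_mul h8 h11M
      rw [hcG] at h9
      have h10 : 11 * 11 ∣ 11 * (6 * a * b) := by
        have : 11 * (6 * a * b) = 3 * a * b * 22 := by ring
        rw [this]; exact h9
      exact h121 (Nat.dvd_of_mul_dvd_mul_left (by norm_num) h10)
    obtain ⟨Z⟩ : Nonempty (Sylow 11 G) := inferInstance
    have hZM : (Z : Subgroup G) ≤ M := by
      intro z hz
      apply mem_of_orderOf_coprime_index
      have h8 : orderOf z ∣ 11 := by
        rw [← hcZ Z]
        have := orderOf_dvd_natCard (⟨z, hz⟩ : (Z : Subgroup G))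
        rwa [Subgroup.orderOf_mk] at this
      exact Nat.Coprime.coprime_dvd_left h8 ((Nat.Prime.coprime_iff_not_dvd (by norm_num)).2 hidx7)
    have hfr : normalizer ((Z : Subgroup G) : Set G) ⊔ M = ⊤ := by
      have h8 := Sylow.normalizer_sup_eq_top (Z.subtype hZM)
      have h9 : ((Z.subtype hZM : Sylow 11 M) : Subgroup M).map M.subtype = Z := by
        rw [Sylow.coe_subtype, subgroupOf_map_subtype, inf_eq_left.2 hZM]
      rw [← h9]
      exact h8
    have hidx5 : ¬ 3 ∣ M.index := by
      intro h8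
      have h9 : M.index = M.relIndex (normalizer ((Z : Subgroup G) : Set G)) := by
        rw [← relIndex_top_right M, ← hfr, relIndex_sup_right]
      apply h3N Z
      rw [h9] at h8
      refine h8.trans ?_
      rw [← relIndex_mul_card_inf M (normalizer ((Z : Subgroup G) : Set G))]
      exact Dvd.intro _ rfl
    have hPM : (P : Subgroup G) ≤ M := by
      intro z hz
      apply mem_of_orderOf_coprime_index
      have h8 : orderOf z ∣ 3 := by
        rw [← hcP P]
        have := orderOf_dvd_natCard (⟨z, hz⟩ : (P : Subgroup G))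
        rwa [Subgroup.orderOf_mk] at this
      exact Nat.Coprime.coprime_dvd_left h8 ((Nat.Prime.coprime_iff_not_dvd (by norm_num)).2 hidx5)
    refine ih (Nat.card M) ?_ M rfl ((nsyl_sub M P hPM).trans h22M)
    rw [← hn, ← M.index_mul_card]
    have h8 : 1 < M.index := by
      have h9 : M.index ≠ 0 := index_ne_zero_of_finite
      have h10 : M.index ≠ 1 := fun h => hM2 (index_eq_one.1 h)
      omega
    exact lt_mul_of_one_lt_left Nat.card_pos h8
  have hG : ¬ IsMulCommutative G := by
    intro hc
    have h8 : Nat.card (Sylow 3 G) = 1 := by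
      rw [Sylow.card_eq_index_normalizer P, index_eq_one]
      have h9 : (P : Subgroup G).Normal := by
        refine ⟨fun x hx g => ?_⟩
        have := hc.is_comm.comm g x
        rw [this, mul_inv_cancel_right]
        exact hx
      exact normalizer_eq_top_iff.2 h9
    omega
  exact simple_case h22 hfaith hsimple hG

/-- No finite group has exactly 22 Sylow 3-subgroups. -/
theorem result {G : Type*} [Group G] [Finite G] : Nat.card (Sylow 3 G) ≠ 22 :=
  main _ G rfl

end Cfsg.Agent.S4346
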