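import Cfsg.Statements.S4354
import Cfsg.Agent.Lib.AbSylExt

set_option autoImplicit false
open Cfsg

namespace Cfsg.Agent.S4354

/-- Let G be a finite group and p a prime such that the Sylow p-subgroups of G are non-abelian while every element of p-power order has conjugacy class size prime to p, and suppose no nontrivial proper normal subgroup N of G has this property and no quotient G/N by such an N has it. Then G is simple. -/
theorem result {G : Type*} [Group G] [Finite G]
    (p : ℕ) [Fact p.Prime] (h : ((∃ P : Sylow p G, ¬ IsMulCommutative P) ∧ ∀ x : G, (∃ k : ℕ, orderOf x = p ^ k) → ¬ p ∣ (Subgroup.centralizer ({x} : Set G)).index))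
    (hmin : ∀ (N : Subgroup G) [N.Normal], N ≠ ⊥ → N ≠ ⊤ →
      ¬ ((∃ P : Sylow p N, ¬ IsMulCommutative P) ∧ ∀ x : N, (∃ k : ℕ, orderOf x = p ^ k) → ¬ p ∣ (Subgroup.centralizer ({x} : Set N)).index) ∧
      ¬ ((∃ P : Sylow p (G ⧸ N), ¬ IsMulCommutative P) ∧ ∀ x : (G ⧸ N), (∃ k : ℕ, orderOf x = p ^ k) → ¬ p ∣ (Subgroup.centralizer ({x} : Set (G ⧸ N))).index)) :
    IsSimpleGroup G := by
  classical
  obtain ⟨⟨P, hP⟩, hc⟩ := h
  have hnt : Nontrivial G := by
    rw [← not_subsingleton_iff_nontrivial]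
    intro hs
    apply hP
    constructor
    constructor
    intro a b
    exact Subtype.ext (Subsingleton.elim _ _)
  refine { exists_pair_ne := hnt.exists_pair_ne, eq_bot_or_eq_top_of_normal := ?_ }
  intro N hN
  by_contra hcon
  push Not at hcon
  obtain ⟨h1, h2⟩ := hmin N hcon.1 hcon.2
  have hc1 : Lib.AbSylExt.AllCentral p N := Lib.AbSylExt.AllCentral.normal hc N
  have hc2 : Lib.AbSylExt.AllCentral p (G ⧸ N) := Lib.AbSylExt.AllCentral.quotient hc N
  have a1 : ∀ Q : Sylow p N, IsMulCommutative Q := by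
    intro Q
    by_contra hq
    exact h1 ⟨⟨Q, hq⟩, hc1⟩
  have a2 : ∀ Q : Sylow p (G ⧸ N), IsMulCommutative Q := by
    intro Q
    by_contra hq
    exact h2 ⟨⟨Q, hq⟩, hc2⟩
  apply hP
  constructor
  constructor
  intro a b
  exact Subtype.ext (Lib.AbSylExt.abelian_of_normal hc N a1 a2 P a a.2 b b.2)

end Cfsg.Agent.S4354
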