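import Cfsg.Statements.S4359
import Cfsg.Agent.Lib.H34Shift2


set_option autoImplicit false
open Pointwise
open Cfsg

namespace Cfsg.Agent.S4359



/-- Let P be a subgroup of a finite group G and g an element such that P ∩ g⁻¹Pg is a normal subgroup of prime index p in g⁻¹Pg. Let n ≥ 1 and let K be the subgroup generated by P and its conjugates g⁻ⁱPgⁱ for i ≤ n. Suppose that g normalizes no non-identity normal subgroup of P and that P meets the center of K trivially. Then the order of P is pᵗ for some t with 1 ≤ t ≤ 3n and t ≠ 3n - 1. -/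
theorem result {G : Type*} [Group G] [Finite G]
    (P : Subgroup G) (g : G) (p : ℕ) (hp : p.Prime)
    (hN : ((P ⊓ MulAut.conj g⁻¹ • P).subgroupOf (MulAut.conj g⁻¹ • P)).Normal)
    (hidx : (P ⊓ MulAut.conj g⁻¹ • P).relIndex (MulAut.conj g⁻¹ • P) = p)
    (n : ℕ) (hn : 1 ≤ n) (K : Subgroup G) (hK : K = ⨆ i ∈ Finset.range (n + 1), MulAut.conj (g ^ i)⁻¹ • P)
    (h1 : ∀ Q : Subgroup G, Q ≤ P → (Q.subgroupOf P).Normal → MulAut.conj g • Q = Q → Q = ⊥)
    (h2 : P ⊓ (Subgroup.center K).map K.subtype = ⊥) :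
    ∃ t : ℕ, Nat.card P = p ^ t ∧ 1 ≤ t ∧ t ≤ 3 * n ∧ t ≠ 3 * n - 1 := by
  have hφ : ∀ i : ℕ, MulAut.conj (g ^ i)⁻¹ = (MulAut.conj g⁻¹) ^ i := by
    intro i
    rw [← map_pow, inv_pow]
  have h : Cfsg.Agent.Lib.H34Shift.Hyp (MulAut.conj g⁻¹) P p := by
    refine ⟨hp, hN, hidx, ?_⟩
    intro Q hQ hQn hQi
    apply h1 Q hQ hQn
    have e : MulAut.conj g • (MulAut.conj g⁻¹ • Q) = Q := by
      rw [← mul_smul, ← map_mul, mul_inv_cancel, map_one, one_smul]
    rw [hQi] at e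
    exact e
  refine Cfsg.Agent.Lib.H34Shift.final h n hn K ?_ h2
  rw [hK]
  simp only [hφ]

end Cfsg.Agent.S4359
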