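import Cfsg.Statements.S4365

set_option autoImplicit false
open Cfsg

namespace Cfsg.Agent.S4365

open Finset in
theorem ring_identity {R : Type*} [Ring R] (p : ℕ) (hp : p.Prime) (a b : R) (hab : Commute a b)
    (hb : b ^ p = 1) :
    ∑ j ∈ range p, ∑ t ∈ range p, (a * b ^ j) ^ t + ∑ t ∈ range p, b ^ t =
      p + (∑ t ∈ range p, a ^ t) * (∑ k ∈ range p, b ^ k) := by
  have hmod : ∀ n, b ^ n = b ^ (n % p) := fun n => pow_eq_pow_mod n hb
  rw [Finset.sum_comm, Finset.sum_mul]
  have h0 : (0 : ℕ) ∈ range p := mem_range.mpr hp.pos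
  rw [← Finset.add_sum_erase _ _ h0, ← Finset.add_sum_erase (range p) (fun i => a ^ i * ∑ k ∈ range p, b ^ k) h0]
  have h1 : ∑ j ∈ range p, (a * b ^ j) ^ 0 = (p : R) := by simp
  rw [h1]
  have h2 : ∀ t ∈ (range p).erase 0, ∑ j ∈ range p, (a * b ^ j) ^ t = a ^ t * ∑ k ∈ range p, b ^ k := by
    intro t ht
    rw [mem_erase, mem_range] at ht
    rw [Finset.mul_sum]
    have h3 : ∀ j ∈ range p, (a * b ^ j) ^ t = a ^ t * b ^ ((j * t) % p) := by
      intro j _
      rw [(hab.pow_right j).mul_pow, ← pow_mul, hmod (j * t)]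
    rw [Finset.sum_congr rfl h3]
    have hinj : Set.InjOn (fun j => (j * t) % p) (range p : Set ℕ) := by
      intro i hi j hj hij
      have hi' := mem_range.mp (mem_coe.mp hi)
      have hj' := mem_range.mp (mem_coe.mp hj)
      have hc : Nat.Coprime p t := by
        rw [Nat.Prime.coprime_iff_not_dvd hp]
        intro hd
        exact absurd (Nat.le_of_dvd (Nat.pos_of_ne_zero ht.1) hd) (not_le.mpr ht.2)
      have h4 : i * t ≡ j * t [MOD p] := hij
      have h5 := Nat.ModEq.cancel_right_of_coprime hc h4
      have h6 : i % p = j % p := h5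
      rwa [Nat.mod_eq_of_lt hi', Nat.mod_eq_of_lt hj'] at h6
    have hmaps : Set.MapsTo (fun j => (j * t) % p) (range p : Set ℕ) (range p : Set ℕ) := by
      intro i _
      exact mem_coe.mpr (mem_range.mpr (Nat.mod_lt _ hp.pos))
    refine Finset.sum_nbij (fun j => (j * t) % p) (fun j hj => hmaps hj) hinj ?_ (fun _ _ => rfl)
    exact Finset.surjOn_of_injOn_of_card_le _ hmaps hinj le_rfl
  rw [Finset.sum_congr rfl h2]
  simp only [pow_zero, one_mul]
  abel

/-- existence of a noncentral `z` which is central modulo the centre and with `z ^ p` central. -/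
theorem exists_second_center {P : Type*} [Group P] [Finite P] (p : ℕ) [Fact p.Prime]
    (hP : IsPGroup p P) (x : P) (hx : x ∉ Subgroup.center P) :
    ∃ z : P, z ∉ Subgroup.center P ∧ z ^ p ∈ Subgroup.center P ∧
      ∀ g : P, z * g * z⁻¹ * g⁻¹ ∈ Subgroup.center P := by
  have h1 : IsPGroup p (P ⧸ Subgroup.center P) := hP.to_quotient _
  have h2 : Nontrivial (P ⧸ Subgroup.center P) := by
    refine ⟨⟨QuotientGroup.mk x, 1, ?_⟩⟩
    rwa [Ne, QuotientGroup.eq_one_iff]
  have h3 : Nontrivial (Subgroup.center (P ⧸ Subgroup.center P)) := h1.center_nontrivial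
  have h4 : p ∣ Nat.card (Subgroup.center (P ⧸ Subgroup.center P)) := by
    obtain ⟨n, hn, hn'⟩ := (h1.to_subgroup (Subgroup.center _)).nontrivial_iff_card.mp h3
    rw [hn']
    exact dvd_pow_self p hn.ne'
  obtain ⟨w, hw⟩ := exists_prime_orderOf_dvd_card' p h4
  obtain ⟨z, hz⟩ := QuotientGroup.mk_surjective (w : P ⧸ Subgroup.center P)
  refine ⟨z, ?_, ?_, ?_⟩
  · intro hzc
    have h5 : (w : P ⧸ Subgroup.center P) = 1 := by
      rw [← hz, QuotientGroup.eq_one_iff]
      exact hzc
    have h6 : w = 1 := Subtype.ext h5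
    rw [h6, orderOf_one] at hw
    exact (Fact.out : p.Prime).one_lt.ne hw
  · rw [← QuotientGroup.eq_one_iff, QuotientGroup.mk_pow, hz]
    have h5 : w ^ p = 1 := by rw [← hw]; exact pow_orderOf_eq_one w
    have h6 := congrArg Subtype.val h5
    simpa using h6
  · intro g
    rw [← QuotientGroup.eq_one_iff]
    have h5 := Subgroup.mem_center_iff.mp w.2 (QuotientGroup.mk g)
    rw [← hz] at h5
    have h6 : (QuotientGroup.mk (z * g * z⁻¹ * g⁻¹) : P ⧸ Subgroup.center P) =
        (QuotientGroup.mk z * QuotientGroup.mk g) * (QuotientGroup.mk z)⁻¹ * (QuotientGroup.mk g)⁻¹ := rfl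
    rw [h6, ← h5]
    group

/-- The homomorphism `g ↦ [z, g]` when all `[z, g]` are central. -/
def commHom {P : Type*} [Group P] (z : P) (hz : ∀ g : P, z * g * z⁻¹ * g⁻¹ ∈ Subgroup.center P) :
    P →* P where
  toFun g := z * g * z⁻¹ * g⁻¹
  map_one' := by simp
  map_mul' g h := by
    have h1 := Subgroup.mem_center_iff.mp (hz h) g
    calc z * (g * h) * z⁻¹ * (g * h)⁻¹ = z * g * z⁻¹ * ((z * h * z⁻¹ * h⁻¹) * g⁻¹) := by group
      _ = z * g * z⁻¹ * (g⁻¹ * (g * (z * h * z⁻¹ * h⁻¹)) * g⁻¹) := by group
      _ = z * g * z⁻¹ * (g⁻¹ * ((z * h * z⁻¹ * h⁻¹) * g) * g⁻¹) := by rw [h1]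
      _ = z * g * z⁻¹ * g⁻¹ * (z * h * z⁻¹ * h⁻¹) := by group

theorem commHom_apply {P : Type*} [Group P] (z : P)
    (hz : ∀ g : P, z * g * z⁻¹ * g⁻¹ ∈ Subgroup.center P) (g : P) :
    commHom z hz g = z * g * z⁻¹ * g⁻¹ := rfl

theorem commHom_pow_eq_one {P : Type*} [Group P] (z : P)
    (hz : ∀ g : P, z * g * z⁻¹ * g⁻¹ ∈ Subgroup.center P) (n : ℕ) (hzn : z ^ n ∈ Subgroup.center P)
    (g : P) : (commHom z hz g) ^ n = 1 := by
  have key : ∀ m : ℕ, z ^ m * g = (commHom z hz g) ^ m * g * z ^ m := by
    intro m
    induction m with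
    | zero => simp
    | succ m ih =>
      have h1 : z * g = commHom z hz g * g * z := by rw [commHom_apply]; group
      have h2 : z * commHom z hz g = commHom z hz g * z := Subgroup.mem_center_iff.mp (hz g) z
      have h3 : z * (commHom z hz g) ^ m = (commHom z hz g) ^ m * z :=
        (Commute.pow_right (show Commute z (commHom z hz g) from h2) m)
      calc z ^ (m + 1) * g = z * (z ^ m * g) := by rw [pow_succ']; group
        _ = z * ((commHom z hz g) ^ m * g * z ^ m) := by rw [ih]
        _ = (z * (commHom z hz g) ^ m) * g * z ^ m := by group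
        _ = (commHom z hz g) ^ m * (z * g) * z ^ m := by rw [h3]; group
        _ = (commHom z hz g) ^ m * (commHom z hz g * g * z) * z ^ m := by rw [h1]
        _ = (commHom z hz g) ^ (m + 1) * g * z ^ (m + 1) := by
          rw [pow_succ (commHom z hz g), pow_succ' z]; group
  have h1 := key n
  have h2 := Subgroup.mem_center_iff.mp hzn g
  rw [← h2, mul_assoc] at h1
  have h3 : (1 : P) * (g * z ^ n) = (commHom z hz g) ^ n * (g * z ^ n) := by rw [one_mul]; exact h1
  exact (mul_right_cancel h3).symm

/-- Let P be a finite p-group whose conjugacy class sizes are exactly 1 and pᵃ for some a ≥ 1. Then every element of P has its p-th power in the center of P (P/Z(P) has exponent p). -/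
theorem result {P : Type*} [Group P] [Finite P] (p : ℕ) [Fact p.Prime]
    (hP : IsPGroup p P) (a : ℕ) (ha : 1 ≤ a)
    (hcs : {k : ℕ | ∃ x : P, (Subgroup.centralizer ({x} : Set P)).index = k} = {1, p ^ a}) (x : P) :
    x ^ p ∈ Subgroup.center P := by
  classical
  have hp : p.Prime := Fact.out
  have hmem : ∀ g h : P, g ∈ Subgroup.centralizer ({h} : Set P) ↔ Commute g h :=
    fun g h => Subgroup.mem_centralizer_singleton_iff
  have hidx : ∀ y : P, y ∉ Subgroup.center P →
      (Subgroup.centralizer ({y} : Set P)).index = p ^ a := by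
    intro y hy
    have h1 : (Subgroup.centralizer ({y} : Set P)).index ∈ ({1, p ^ a} : Set ℕ) := by
      rw [← hcs]; exact ⟨y, rfl⟩
    rcases h1 with h1 | h1
    · exfalso
      apply hy
      rw [Subgroup.index_eq_one] at h1
      rw [Subgroup.mem_center_iff]
      intro g
      have : g ∈ Subgroup.centralizer ({y} : Set P) := by rw [h1]; trivial
      exact (hmem g y).mp this
    · exact h1
  have hle : ∀ y w : P, y ∉ Subgroup.center P → w ∉ Subgroup.center P →
      Subgroup.centralizer ({y} : Set P) ≤ Subgroup.centralizer ({w} : Set P) →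
      Subgroup.centralizer ({w} : Set P) ≤ Subgroup.centralizer ({y} : Set P) := by
    intro y w hy hw hyw
    have h1 := Subgroup.relIndex_mul_index hyw
    rw [hidx y hy, hidx w hw] at h1
    have h2 : (Subgroup.centralizer ({y} : Set P)).relIndex (Subgroup.centralizer ({w} : Set P)) = 1 := by
      have h3 : 0 < p ^ a := pow_pos hp.pos a
      exact Nat.eq_of_mul_eq_mul_right h3 (by rw [h1, one_mul])
    exact Subgroup.relIndex_eq_one.mp h2
  have hpow : ∀ g : P, g ^ p ∉ Subgroup.center P → g ∉ Subgroup.center P := by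
    intro g hg hg'
    exact hg (Subgroup.pow_mem _ hg' p)
  have hCpow : ∀ g h : P, g ^ p ∉ Subgroup.center P → Commute h (g ^ p) → Commute h g := by
    intro g h hg hc
    have h1 : Subgroup.centralizer ({g} : Set P) ≤ Subgroup.centralizer ({g ^ p} : Set P) := by
      intro u hu
      rw [hmem] at hu ⊢
      exact hu.pow_right p
    have h2 := hle g (g ^ p) (hpow g hg) hg h1
    exact (hmem h g).mp (h2 ((hmem _ _).mpr hc))
  by_contra hx
  obtain ⟨z, hz1, hz2, hz3⟩ := exists_second_center p hP x (hpow x hx)
  -- `z` commutes with `g` iff `commHom z hz3 g = 1`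
  have hker : ∀ g : P, commHom z hz3 g = 1 ↔ Commute g z := by
    intro g
    rw [commHom_apply]
    constructor
    · intro h
      have : z * g = g * z := by
        calc z * g = (z * g * z⁻¹ * g⁻¹) * g * z := by group
          _ = g * z := by rw [h, one_mul]
      exact this.symm
    · intro h
      have h' : z * g = g * z := h.symm
      rw [h']; group
  have hCp : ∀ g : P, Commute (g ^ p) z := by
    intro g
    rw [← hker, map_pow, commHom_pow_eq_one z hz3 p hz2]
  have hCcomm : ∀ g h : P, Commute (g * h * g⁻¹ * h⁻¹) z := by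
    intro g h
    rw [← hker, map_mul, map_mul, map_mul, map_inv, map_inv]
    have h1 := Subgroup.mem_center_iff.mp (hz3 g) (commHom z hz3 h)
    rw [← commHom_apply z hz3 g] at h1
    rw [← h1]; group
  -- elements with non-central `p`-th power commute with `z`
  have hA1 : ∀ g : P, g ^ p ∉ Subgroup.center P → Commute g z := by
    intro g hg
    exact (hCpow g z hg (hCp g).symm).symm
  -- and their centralizer is that of `z`
  have hA2 : ∀ g : P, g ^ p ∉ Subgroup.center P → ∀ h : P, Commute h g ↔ Commute h z := by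
    intro g hg
    have h1 : Subgroup.centralizer ({g} : Set P) ≤ Subgroup.centralizer ({z} : Set P) := by
      intro h hh
      rw [hmem] at hh ⊢
      by_cases hhp : h ^ p ∈ Subgroup.center P
      · have h2 : (g * h) ^ p ∉ Subgroup.center P := by
          rw [(Commute.mul_pow hh.symm p)]
          intro h3
          apply hg
          have := Subgroup.mul_mem _ h3 (Subgroup.inv_mem _ hhp)
          simpa using this
        have h3 := hA1 _ h2
        have h4 : Commute g z := hA1 g hg
        have h5 : h = g⁻¹ * (g * h) := by group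
        rw [h5]
        exact (h4.inv_left).mul_left h3
      · exact hA1 h hhp
    have h2 := hle g z (hpow g hg) hz1 h1
    intro h
    rw [← hmem, ← hmem]
    exact ⟨fun h3 => h1 h3, fun h3 => h2 h3⟩
  -- C := C(z) is abelian
  have hCab : ∀ c d : P, Commute c z → Commute d z → Commute c d := by
    have key : ∀ c : P, Commute c z → ∀ d : P, Commute d z → Commute d c := by
      intro c hc d hd
      by_cases hcp : c ^ p ∈ Subgroup.center P
      · have hxz : Commute x z := hA1 x hx
        have hcx : Commute c x := (hA2 x hx c).mpr hc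
        have h2 : (c * x) ^ p ∉ Subgroup.center P := by
          rw [hcx.mul_pow]
          intro h3
          apply hx
          have := Subgroup.mul_mem _ (Subgroup.inv_mem _ hcp) h3
          simpa using this
        have h3 : Commute d (c * x) := (hA2 _ h2 d).mpr hd
        have h4 : Commute d x := (hA2 x hx d).mpr hd
        have h5 : c = (c * x) * x⁻¹ := by group
        rw [h5]
        exact h3.mul_right h4.inv_right
      · exact (hA2 c hcp d).mpr hd
    intro c d hc hd
    exact key d hd c hc
  set C : Subgroup P := Subgroup.centralizer ({z} : Set P) with hCdef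
  have hCmem : ∀ g, g ∈ C ↔ Commute g z := fun g => hmem g z
  have hCn : C.Normal := by
    have : C = (commHom z hz3).ker := by
      ext g
      rw [hCmem, MonoidHom.mem_ker, hker]
    rw [this]
    infer_instance
  -- elements outside `C` commute only with central elements of `C`
  have hout : ∀ y : P, y ∉ C → ∀ c : P, c ∈ C → Commute y c → c ∈ Subgroup.center P := by
    intro y hy c hc hyc
    by_contra hcz
    apply hy
    have h1 : C ≤ Subgroup.centralizer ({c} : Set P) := by
      intro d hd
      rw [hmem]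
      exact hCab d c ((hCmem d).mp hd) ((hCmem c).mp hc)
    have h2 := hle z c hz1 hcz h1
    exact h2 ((hmem y c).mpr hyc)
  have hxC : x ∈ C := (hCmem x).mpr (hA1 x hx)
  have hCpC : ∀ g : P, g ^ p ∈ C := fun g => (hCmem _).mpr (hCp g)
  rcases Nat.lt_or_ge a 2 with ha2 | ha2
  · -- all centralizers of noncentral elements are normal of index `p`
    have ha1 : a = 1 := by omega
    apply hx
    rw [Subgroup.mem_center_iff]
    intro y
    by_cases hy : y ∈ Subgroup.center P
    · exact (Subgroup.mem_center_iff.mp hy (x ^ p)).symm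
    · have h1 := hidx y hy
      rw [ha1, pow_one] at h1
      obtain ⟨n, hn⟩ := IsPGroup.iff_card.mp hP
      have hn0 : n ≠ 0 := by
        rintro rfl
        rw [pow_zero] at hn
        have h2 := Subgroup.index_dvd_card (Subgroup.centralizer ({y} : Set P))
        rw [hn, h1] at h2
        exact hp.one_lt.ne' (Nat.dvd_one.mp h2)
      have h3 : (Subgroup.centralizer ({y} : Set P)).Normal := by
        apply Subgroup.normal_of_index_eq_minFac_card
        rw [h1, hn, hp.pow_minFac hn0]
      have h4 := Subgroup.pow_index_mem (Subgroup.centralizer ({y} : Set P)) x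
      rw [h1] at h4
      exact ((hmem _ _).mp h4).symm
  · -- choose two elements independent modulo `C`
    have hCidx : C.index = p ^ a := hidx z hz1
    obtain ⟨y2, hy2⟩ : ∃ y2, y2 ∉ C := by
      by_contra hcon
      push Not at hcon
      have h1 : C = ⊤ := (Subgroup.eq_top_iff' C).mpr hcon
      rw [h1, Subgroup.index_top] at hCidx
      have := Nat.one_lt_pow (by omega : a ≠ 0) hp.one_lt
      omega
    obtain ⟨y1, hy1⟩ : ∃ y1, ∀ j : ℕ, y1 * y2 ^ j ∉ C := by
      by_contra hcon
      push Not at hcon
      have h1 : C.index ≤ p := by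
        rw [Subgroup.index_eq_card]
        have h2 : ∀ q : P ⧸ C, ∃ j ∈ Finset.range p, q = (QuotientGroup.mk y2 : P ⧸ C) ^ j := by
          intro q
          obtain ⟨g, rfl⟩ := QuotientGroup.mk_surjective q
          obtain ⟨j, hj⟩ := hcon g⁻¹
          have hord : (QuotientGroup.mk y2 : P ⧸ C) ^ p = 1 := by
            rw [← QuotientGroup.mk_pow, QuotientGroup.eq_one_iff]
            exact hCpC y2
          refine ⟨j % p, Finset.mem_range.mpr (Nat.mod_lt _ hp.pos), ?_⟩
          rw [← pow_eq_pow_mod j hord, ← QuotientGroup.mk_pow]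
          exact QuotientGroup.eq.mpr hj
        have h3 : Function.Surjective (fun j : Fin p => (QuotientGroup.mk y2 : P ⧸ C) ^ (j : ℕ)) := by
          intro q
          obtain ⟨j, hj, hj'⟩ := h2 q
          exact ⟨⟨j, Finset.mem_range.mp hj⟩, hj'.symm⟩
        have := Nat.card_le_card_of_surjective _ h3
        simpa using this
      rw [hCidx] at h1
      have h2 : p ^ 2 ≤ p ^ a := Nat.pow_le_pow_right hp.pos ha2
      have h3 : p < p ^ 2 := by
        rw [sq]
        exact (Nat.lt_mul_iff_one_lt_left hp.pos).mpr hp.one_lt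
      omega
    letI : CommGroup C :=
      { (inferInstance : Group C) with
        mul_comm := fun c d => Subtype.ext (hCab c d ((hCmem _).mp c.2) ((hCmem _).mp d.2)) }
    let T : P → AddMonoid.End (Additive C) := fun y =>
      MonoidHom.toAdditive (MulAut.conjNormal y : MulAut C).toMonoidHom
    have hTapp : ∀ (y : P) (c : C), ((T y (Additive.ofMul c)).toMul : P) = y * c * y⁻¹ :=
      fun y c => rfl
    have hTmul : ∀ y w : P, T (y * w) = T y * T w := by
      intro y w
      ext c
      change y * w * (c.toMul : P) * (y * w)⁻¹ = y * (w * (c.toMul : P) * w⁻¹) * y⁻¹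
      group
    have hTone : T 1 = 1 := by
      ext c
      change 1 * (c.toMul : P) * 1⁻¹ = (c.toMul : P)
      group
    have hTpow : ∀ (y : P) (n : ℕ), T (y ^ n) = T y ^ n := by
      intro y n
      induction n with
      | zero => rw [pow_zero, pow_zero, hTone]
      | succ n ih => rw [pow_succ, pow_succ, hTmul, ih]
    have hTC : ∀ c : P, c ∈ C → T c = 1 := by
      intro c hc
      ext d
      change c * (d.toMul : P) * c⁻¹ = (d.toMul : P)
      have h1 : Commute c (d.toMul : P) := hCab c _ ((hCmem _).mp hc) ((hCmem _).mp d.toMul.2)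
      rw [h1.eq]; group
    have hTp : ∀ y : P, T y ^ p = 1 := by
      intro y
      rw [← hTpow]
      exact hTC _ (hCpC y)
    let V : AddSubgroup (Additive C) := ((Subgroup.center P).subgroupOf C).toAddSubgroup
    have hV : ∀ v : Additive C, v ∈ V ↔ (v.toMul : P) ∈ Subgroup.center P := fun v => Iff.rfl
    have hN : ∀ y : P, y ∉ C → ∀ w : Additive C, (∑ t ∈ Finset.range p, T y ^ t) w ∈ V := by
      intro y hy w
      rw [hV]
      apply hout y hy _ (Subtype.property _)
      have h1 : T y * ∑ t ∈ Finset.range p, T y ^ t = ∑ t ∈ Finset.range p, T y ^ t := by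
        have h2 := mul_geom_sum (T y) p
        rw [hTp y, sub_self, sub_mul, one_mul, sub_eq_zero] at h2
        exact h2
      have h2 : T y ((∑ t ∈ Finset.range p, T y ^ t) w) = (∑ t ∈ Finset.range p, T y ^ t) w := by
        conv_rhs => rw [← h1]
        rfl
      have h3 := congrArg (fun u : Additive C => (u.toMul : P)) h2
      have h4 : y * (((∑ t ∈ Finset.range p, T y ^ t) w).toMul : P) * y⁻¹ =
        (((∑ t ∈ Finset.range p, T y ^ t) w).toMul : P) := h3
      exact mul_inv_eq_iff_eq_mul.mp h4
    have hcomm : Commute (T y1) (T y2) := by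
      change T y1 * T y2 = T y2 * T y1
      rw [← hTmul, ← hTmul]
      have h1 : y1 * y2 = (y1 * y2 * y1⁻¹ * y2⁻¹) * (y2 * y1) := by group
      rw [h1, hTmul, hTC _ ((hCmem _).mpr (hCcomm y1 y2)), one_mul]
    have key := ring_identity p hp (T y1) (T y2) hcomm (hTp y2)
    have hsum : ∀ j, T y1 * T y2 ^ j = T (y1 * y2 ^ j) := by
      intro j
      rw [hTmul, hTpow]
    simp only [hsum] at key
    let v : Additive C := Additive.ofMul ⟨x, hxC⟩
    have key2 := congrArg (fun f : AddMonoid.End (Additive C) => f v) key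
    have hL : (∑ j ∈ Finset.range p, ∑ t ∈ Finset.range p, T (y1 * y2 ^ j) ^ t +
        ∑ t ∈ Finset.range p, T y2 ^ t) v ∈ V := by
      have h6 : (∑ j ∈ Finset.range p, ∑ t ∈ Finset.range p, T (y1 * y2 ^ j) ^ t) v ∈ V :=
        Finset.sum_induction _ (fun f : AddMonoid.End (Additive C) => f v ∈ V)
          (fun _ _ h1 h2 => V.add_mem h1 h2) V.zero_mem (fun j _ => hN _ (hy1 j) v)
      exact V.add_mem h6 (hN _ hy2 v)
    have hR : ((∑ t ∈ Finset.range p, T y1 ^ t) * (∑ k ∈ Finset.range p, T y2 ^ k)) v ∈ V := by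
      apply hN y1
      have := hy1 0
      simpa using this
    have h5 : ((p : AddMonoid.End (Additive C))) v ∈ V := by
      have h6 : ((p : AddMonoid.End (Additive C))) v +
          ((∑ t ∈ Finset.range p, T y1 ^ t) * (∑ k ∈ Finset.range p, T y2 ^ k)) v ∈ V := by
        have h7 : ((p : AddMonoid.End (Additive C))) v +
          ((∑ t ∈ Finset.range p, T y1 ^ t) * (∑ k ∈ Finset.range p, T y2 ^ k)) v =
            (∑ j ∈ Finset.range p, ∑ t ∈ Finset.range p, T (y1 * y2 ^ j) ^ t +
              ∑ t ∈ Finset.range p, T y2 ^ t) v := key2.symm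
        rw [h7]
        exact hL
      exact (V.add_mem_cancel_right hR).mp h6
    apply hx
    have h8 : ((p : AddMonoid.End (Additive C))) v = p • v := by
      rw [AddMonoid.End.natCast_apply]
    rw [h8, hV] at h5
    exact h5

end Cfsg.Agent.S4365
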