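import Cfsg.Statements.S4377

set_option autoImplicit false
open Cfsg

namespace Cfsg.Agent.S4377

theorem card_pow_eq {G : Type*} [Group G] [Finite G] {n : ℕ} (hn : n ≠ 0) :
    Nat.card {g : G // g ^ n = 1} = ∑ d ∈ n.divisors, Nat.card {g : G // orderOf g = d} := by
  classical
  have := Fintype.ofFinite G
  simp only [Nat.card_eq_fintype_card, Fintype.card_subtype]
  exact (sum_card_orderOf_eq_card_pow_eq_one (G := G) hn).symm

theorem card_pow_zero {G : Type*} [Group G] [Finite G] {n : ℕ} (hn : Nat.card G ∣ n) :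
    Nat.card {g : G // g ^ n = 1} = Nat.card G := by
  apply Nat.card_congr
  refine (Equiv.subtypeUnivEquiv ?_)
  intro g
  obtain ⟨k, rfl⟩ := hn
  rw [pow_mul, pow_card_eq_one', one_pow]

theorem result {G H : Type*} [Group G] [Finite G] [Group H] [Finite H] :
    (∀ n : ℕ, Nat.card {g : G // orderOf g = n} = Nat.card {h : H // orderOf h = n}) ↔
      ∀ n : ℕ, Nat.card {g : G // g ^ n = 1} = Nat.card {h : H // h ^ n = 1} := by
  constructor
  · intro h
    have key : ∀ n : ℕ, n ≠ 0 → Nat.card {g : G // g ^ n = 1} = Nat.card {h : H // h ^ n = 1} := by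
      intro n hn
      rw [card_pow_eq hn, card_pow_eq hn]
      exact Finset.sum_congr rfl (fun d _ => h d)
    intro n
    rcases Nat.eq_zero_or_pos n with rfl | hn
    · have hne : Nat.card G * Nat.card H ≠ 0 :=
        Nat.mul_ne_zero Nat.card_pos.ne' Nat.card_pos.ne'
      have h1 := key _ hne
      rw [card_pow_zero (G := G) (Dvd.intro _ rfl), card_pow_zero (G := H) (Dvd.intro_left _ rfl)] at h1
      rw [card_pow_zero (G := G) (dvd_zero _), card_pow_zero (G := H) (dvd_zero _), h1]
    · exact key n hn.ne'
  · intro h n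
    induction n using Nat.strong_induction_on with
    | _ n ih =>
      rcases Nat.eq_zero_or_pos n with rfl | hn
      · have e1 : IsEmpty {g : G // orderOf g = 0} := ⟨fun g => (orderOf_pos g.1).ne' g.2⟩
        have e2 : IsEmpty {g : H // orderOf g = 0} := ⟨fun g => (orderOf_pos g.1).ne' g.2⟩
        rw [Nat.card_eq_zero.2 (Or.inl e1), Nat.card_eq_zero.2 (Or.inl e2)]
      · have h1 := h n
        rw [card_pow_eq hn.ne', card_pow_eq hn.ne', ← Nat.cons_self_properDivisors hn.ne',
          Finset.sum_cons, Finset.sum_cons] at h1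
        have h2 : ∑ d ∈ n.properDivisors, Nat.card {g : G // orderOf g = d} =
            ∑ d ∈ n.properDivisors, Nat.card {g : H // orderOf g = d} :=
          Finset.sum_congr rfl (fun d hd => ih d (Nat.mem_properDivisors.1 hd).2)
        omega

end Cfsg.Agent.S4377
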