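import Cfsg.Statements.S4376
import Mathlib
import Cfsg.Agent.S4377

set_option autoImplicit false
open Cfsg
open scoped commutatorElement

namespace Cfsg.Agent.S4376

/-! ### Realised counting functions -/

/-- `f` is the function `n ↦ #{g : g ^ n = 1}` of some finite group. -/
def R (f : ℕ → ℕ) : Prop :=
  ∃ (G : Type) (_ : Group G) (_ : Finite G), ∀ n, Nat.card {g : G // g ^ n = 1} = f n

/-- the same with a solvable group. -/
def P (f : ℕ → ℕ) : Prop :=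
  ∃ (G : Type) (_ : Group G) (_ : Finite G), Group.IsSolvable G ∧ ∀ n, Nat.card {g : G // g ^ n = 1} = f n

/-- the same with a non-solvable group. -/
def Q (f : ℕ → ℕ) : Prop :=
  ∃ (G : Type) (_ : Group G) (_ : Finite G), ¬ Group.IsSolvable G ∧ ∀ n, Nat.card {g : G // g ^ n = 1} = f n

theorem card_prod_pow {G H : Type} [Group G] [Group H] (n : ℕ) :
    Nat.card {x : G × H // x ^ n = 1} = Nat.card {g : G // g ^ n = 1} * Nat.card {h : H // h ^ n = 1} := by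
  rw [← Nat.card_prod]
  apply Nat.card_congr
  refine ⟨fun x => (⟨x.1.1, congrArg Prod.fst x.2⟩, ⟨x.1.2, congrArg Prod.snd x.2⟩),
    fun y => ⟨(y.1.1, y.2.1), Prod.ext y.1.2 y.2.2⟩, fun x => rfl, fun y => rfl⟩

theorem P.toR {f : ℕ → ℕ} (h : P f) : R f := by
  obtain ⟨G, i1, i2, _, h⟩ := h
  exact ⟨G, i1, i2, h⟩

theorem P.mul {f g : ℕ → ℕ} (hf : P f) (hg : P g) : P (fun n => f n * g n) := by
  obtain ⟨G, i1, i2, s1, h1⟩ := hf
  obtain ⟨H, j1, j2, s2, h2⟩ := hg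
  refine ⟨G × H, inferInstance, inferInstance, inferInstance, fun n => ?_⟩
  rw [card_prod_pow, h1, h2]

theorem R.mul {f g : ℕ → ℕ} (hf : R f) (hg : R g) : R (fun n => f n * g n) := by
  obtain ⟨G, i1, i2, h1⟩ := hf
  obtain ⟨H, j1, j2, h2⟩ := hg
  refine ⟨G × H, inferInstance, inferInstance, fun n => ?_⟩
  rw [card_prod_pow, h1, h2]

theorem Q.mul {f g : ℕ → ℕ} (hf : Q f) (hg : R g) : Q (fun n => f n * g n) := by
  obtain ⟨G, i1, i2, s1, h1⟩ := hf
  obtain ⟨H, j1, j2, h2⟩ := hg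
  refine ⟨G × H, inferInstance, inferInstance, ?_, fun n => ?_⟩
  · intro hs
    exact s1 (Group.isSolvable_of_surjective (f := MonoidHom.fst G H) Prod.fst_surjective)
  · rw [card_prod_pow, h1, h2]

theorem P.one : P (fun _ => 1) := by
  refine ⟨Unit, inferInstance, inferInstance, inferInstance, fun n => ?_⟩
  rw [Nat.card_eq_one_iff_unique]
  exact ⟨inferInstance, ⟨⟨(), rfl⟩⟩⟩

theorem P.pow {f : ℕ → ℕ} (hf : P f) (k : ℕ) : P (fun n => f n ^ k) := by
  induction k with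
  | zero => simpa using P.one
  | succ k ih => simpa [pow_succ] using ih.mul hf

theorem R.pow {f : ℕ → ℕ} (hf : R f) (k : ℕ) : R (fun n => f n ^ k) := by
  induction k with
  | zero => simpa using P.one.toR
  | succ k ih => simpa [pow_succ] using ih.mul hf

/-! ### Affine groups `R ⋊ K` over commutative rings -/

/-- pairs `(v, k)` with multiplication `(v,k)(w,l) = (v + χ(k) w, k l)`. -/
@[ext] structure Aff {A K : Type} [CommRing A] [CommGroup K] (χ : K →* Aˣ) where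
  v : A
  k : K

section Aff

variable {A K : Type} [CommRing A] [CommGroup K] (χ : K →* Aˣ)

instance instMulAff : Mul (Aff χ) := ⟨fun a b => ⟨a.v + χ a.k * b.v, a.k * b.k⟩⟩
instance instOneAff : One (Aff χ) := ⟨⟨0, 1⟩⟩
instance instInvAff : Inv (Aff χ) := ⟨fun a => ⟨-(χ a.k⁻¹ * a.v), a.k⁻¹⟩⟩

theorem Aff.mul_v (a b : Aff χ) : (a * b).v = a.v + χ a.k * b.v := rfl
theorem Aff.mul_k (a b : Aff χ) : (a * b).k = a.k * b.k := rfl
theorem Aff.one_v : (1 : Aff χ).v = 0 := rfl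
theorem Aff.one_k : (1 : Aff χ).k = 1 := rfl
theorem Aff.inv_v (a : Aff χ) : (a⁻¹).v = -(χ a.k⁻¹ * a.v) := rfl
theorem Aff.inv_k (a : Aff χ) : (a⁻¹).k = a.k⁻¹ := rfl

instance instGroupAff : Group (Aff χ) := Group.ofLeftAxioms
  (by
    intro a b c
    apply Aff.ext
    · simp only [Aff.mul_v, Aff.mul_k, map_mul, Units.val_mul]; ring
    · simp only [Aff.mul_k, mul_assoc])
  (by
    intro a
    apply Aff.ext
    · simp only [Aff.mul_v, Aff.one_v, Aff.one_k, map_one, Units.val_one]; ring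
    · simp only [Aff.mul_k, Aff.one_k, one_mul])
  (by
    intro a
    apply Aff.ext
    · simp only [Aff.mul_v, Aff.one_v, Aff.inv_v, Aff.inv_k]; ring
    · simp only [Aff.mul_k, Aff.one_k, Aff.inv_k, inv_mul_cancel])

/-- underlying equivalence -/
def Aff.equiv : Aff χ ≃ A × K := ⟨fun a => (a.v, a.k), fun p => ⟨p.1, p.2⟩, fun _ => rfl, fun _ => rfl⟩

instance instFiniteAff [Finite A] [Finite K] : Finite (Aff χ) := Finite.of_equiv _ (Aff.equiv χ).symm

theorem Aff.pow_k (a : Aff χ) (n : ℕ) : (a ^ n).k = a.k ^ n := by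
  induction n with
  | zero => rw [pow_zero, pow_zero]; rfl
  | succ n ih => rw [pow_succ, pow_succ, Aff.mul_k, ih]

theorem Aff.pow_v (a : Aff χ) (n : ℕ) : (a ^ n).v = (∑ j ∈ Finset.range n, (χ a.k : A) ^ j) * a.v := by
  induction n with
  | zero => simp; rfl
  | succ n ih =>
    rw [pow_succ, Aff.mul_v, ih, Aff.pow_k, Finset.sum_range_succ, map_pow, Units.val_pow_eq_pow_val]
    ring

/-- projection to `K` -/
def Aff.proj : Aff χ →* K where
  toFun a := a.k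
  map_one' := rfl
  map_mul' _ _ := rfl

/-- inclusion of `A` -/
def Aff.incl : Multiplicative A →* Aff χ where
  toFun a := ⟨a.toAdd, 1⟩
  map_one' := rfl
  map_mul' a b := by
    apply Aff.ext
    · simp [Aff.mul_v]
    · simp [Aff.mul_k]

theorem Aff.solvable : Group.IsSolvable (Aff χ) := by
  refine Group.isSolvable_of_ker_le_range (Aff.incl χ) (Aff.proj χ) ?_
  intro x hx
  have : x.k = 1 := hx
  exact ⟨Multiplicative.ofAdd x.v, Aff.ext rfl this.symm⟩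

theorem Aff.card_pow [Finite A] [Fintype K] [DecidableEq K] (n : ℕ) :
    Nat.card {x : Aff χ // x ^ n = 1} =
      ∑ k : K, if k ^ n = 1 then Nat.card {v : A // (∑ j ∈ Finset.range n, (χ k : A) ^ j) * v = 0} else 0 := by
  have e : {x : Aff χ // x ^ n = 1} ≃
      Σ k : K, {v : A // k ^ n = 1 ∧ (∑ j ∈ Finset.range n, (χ k : A) ^ j) * v = 0} :=
    { toFun := fun x => ⟨x.1.k, x.1.v, by
        have h := x.2
        constructor
        · rw [← Aff.pow_k, h]; rfl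
        · rw [← Aff.pow_v, h]; rfl⟩
      invFun := fun y => ⟨⟨y.2.1, y.1⟩, by
        apply Aff.ext
        · rw [Aff.pow_v]; exact y.2.2.2
        · rw [Aff.pow_k]; exact y.2.2.1⟩
      left_inv := fun x => rfl
      right_inv := fun y => rfl }
  rw [Nat.card_congr e, Nat.card_sigma]
  apply Finset.sum_congr rfl
  intro k _
  split_ifs with h
  · exact Nat.card_congr (Equiv.subtypeEquivRight (fun v => by simp [h]))
  · have : IsEmpty {v : A // k ^ n = 1 ∧ (∑ j ∈ Finset.range n, (χ k : A) ^ j) * v = 0} :=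
      ⟨fun v => h v.2.1⟩
    exact Nat.card_eq_zero.2 (Or.inl this)

end Aff

/-! ### The ring `A` with character attached to a list of data -/

/-- data of one module: characteristic `p`, degree `d`, order `e` of the character, weights -/
structure Dat where
  p : ℕ
  d : ℕ
  e : ℕ
  w₁ : ℕ
  w₂ : ℕ

/-- validity of a datum for `K = C_a × C_b`. -/
def Dat.valid (a b : ℕ) (D : Dat) : Prop :=
  D.p.Prime ∧ D.d ≠ 0 ∧ D.e ∣ D.p ^ D.d - 1 ∧ D.e ∣ D.w₁ * a ∧ D.e ∣ D.w₂ * b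

/-- the factor contributed by a datum -/
def Dat.fac (D : Dat) (n x y : ℕ) : ℕ :=
  if D.p ∣ n ∨ ¬ D.e ∣ D.w₁ * x + D.w₂ * y then D.p ^ D.d else 1

abbrev KK (a b : ℕ) := Multiplicative (ZMod a) × Multiplicative (ZMod b)

theorem exists_char (a b : ℕ) [NeZero a] [NeZero b] (D : Dat) (hD : D.valid a b) :
    ∃ (F : Type) (_ : Field F) (_ : Finite F) (χ : KK a b →* Fˣ),
      ∀ (n : ℕ) (k : KK a b), k ^ n = 1 →
        Nat.card {v : F // (∑ j ∈ Finset.range n, (χ k : F) ^ j) * v = 0} =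
          D.fac n k.1.toAdd.val k.2.toAdd.val := by
  obtain ⟨hp, hd, he, h1, h2⟩ := hD
  have := Fact.mk hp
  have : Finite (GaloisField D.p D.d) := by
    have := GaloisField.card D.p D.d hd
    exact Nat.finite_of_card_ne_zero (by rw [this]; exact pow_ne_zero _ hp.ne_zero)
  have := Fintype.ofFinite (GaloisField D.p D.d)
  have hcard : Nat.card (GaloisField D.p D.d)ˣ = D.p ^ D.d - 1 := by
    rw [Nat.card_units, GaloisField.card D.p D.d hd]
  have hpos : 0 < D.p ^ D.d - 1 := by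
    rw [← hcard]; exact Nat.card_pos
  -- an element of order `e`
  obtain ⟨ζ, hζ⟩ : ∃ ζ : (GaloisField D.p D.d)ˣ, orderOf ζ = D.e := by
    obtain ⟨g, hg⟩ := IsCyclic.exists_generator (α := (GaloisField D.p D.d)ˣ)
    obtain ⟨c, hc⟩ := he
    have hc0 : c ≠ 0 := by rintro rfl; omega
    have hg' : orderOf g = D.p ^ D.d - 1 := by
      rw [orderOf_eq_card_of_forall_mem_zpowers hg, hcard]
    refine ⟨g ^ c, ?_⟩
    rw [orderOf_pow' _ hc0, hg', hc, Nat.gcd_eq_right (Dvd.intro_left _ rfl), Nat.mul_div_cancel _ (Nat.pos_of_ne_zero hc0)]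
  have hval1 : ∀ x y : ZMod a, ζ ^ (D.w₁ * (x + y).val) = ζ ^ (D.w₁ * x.val) * ζ ^ (D.w₁ * y.val) := by
    intro x y
    rw [← pow_add, ← Nat.mul_add, ZMod.val_add]
    rw [pow_eq_pow_iff_modEq, hζ]
    have hm : (x.val + y.val) % a ≡ x.val + y.val [MOD a] := Nat.mod_modEq _ _
    exact ((hm.mul_left' D.w₁)).of_dvd h1
  have hval2 : ∀ x y : ZMod b, ζ ^ (D.w₂ * (x + y).val) = ζ ^ (D.w₂ * x.val) * ζ ^ (D.w₂ * y.val) := by
    intro x y
    rw [← pow_add, ← Nat.mul_add, ZMod.val_add]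
    rw [pow_eq_pow_iff_modEq, hζ]
    have hm : (x.val + y.val) % b ≡ x.val + y.val [MOD b] := Nat.mod_modEq _ _
    exact ((hm.mul_left' D.w₂)).of_dvd h2
  let χ : KK a b →* (GaloisField D.p D.d)ˣ :=
    { toFun := fun k => ζ ^ (D.w₁ * k.1.toAdd.val) * ζ ^ (D.w₂ * k.2.toAdd.val)
      map_one' := by simp
      map_mul' := by
        intro k l
        rw [Prod.fst_mul, Prod.snd_mul, toAdd_mul, toAdd_mul, hval1, hval2]
        exact mul_mul_mul_comm _ _ _ _ }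
  refine ⟨GaloisField D.p D.d, inferInstance, inferInstance, χ, ?_⟩
  intro n k hk
  have hχ : χ k = 1 ↔ D.e ∣ D.w₁ * k.1.toAdd.val + D.w₂ * k.2.toAdd.val := by
    change ζ ^ (D.w₁ * k.1.toAdd.val) * ζ ^ (D.w₂ * k.2.toAdd.val) = 1 ↔ _
    rw [← pow_add, ← orderOf_dvd_iff_pow_eq_one, hζ]
  have hs : (∑ j ∈ Finset.range n, (χ k : GaloisField D.p D.d) ^ j) = 0 ↔ (D.p ∣ n ∨ ¬ D.e ∣ D.w₁ * k.1.toAdd.val + D.w₂ * k.2.toAdd.val) := by
    rw [← hχ]
    by_cases h : χ k = 1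
    · simp only [h, Units.val_one, one_pow, Finset.sum_const, Finset.card_range, nsmul_eq_mul, mul_one, not_true_eq_false, or_false]
      exact CharP.cast_eq_zero_iff _ D.p n
    · simp only [h, not_false_eq_true, or_true, iff_true]
      have h1 : (χ k : GaloisField D.p D.d) ≠ 1 := fun h' => h (Units.ext h')
      have h2 : (χ k : GaloisField D.p D.d) ^ n = 1 := by
        rw [← Units.val_pow_eq_pow_val, ← map_pow, hk, map_one, Units.val_one]
      rw [geom_sum_eq h1, h2, sub_self, zero_div]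
  unfold Dat.fac
  split_ifs with hc
  · rw [hs.2 hc]
    rw [← GaloisField.card D.p D.d hd]
    exact Nat.card_congr (Equiv.subtypeUnivEquiv (fun v => by simp))
  · have h0 := mt hs.1 hc
    rw [Nat.card_eq_one_iff_unique]
    refine ⟨⟨fun v w => Subtype.ext ?_⟩, ⟨⟨0, by simp⟩⟩⟩
    rw [(mul_eq_zero.1 v.2).resolve_left h0, (mul_eq_zero.1 w.2).resolve_left h0]

theorem exists_ring (a b : ℕ) [NeZero a] [NeZero b] (L : List Dat) (hL : ∀ D ∈ L, D.valid a b) :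
    ∃ (A : Type) (_ : CommRing A) (_ : Finite A) (χ : KK a b →* Aˣ),
      ∀ (n : ℕ) (k : KK a b), k ^ n = 1 →
        Nat.card {v : A // (∑ j ∈ Finset.range n, (χ k : A) ^ j) * v = 0} =
          (L.map (fun D => D.fac n k.1.toAdd.val k.2.toAdd.val)).prod := by
  induction L with
  | nil =>
    refine ⟨PUnit, inferInstance, inferInstance, 1, fun n k _ => ?_⟩
    simp only [List.map_nil, List.prod_nil]
    rw [Nat.card_eq_one_iff_unique]
    exact ⟨inferInstance, ⟨⟨0, trivial⟩⟩⟩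
  | cons D L ih =>
    obtain ⟨A, i1, i2, χ, hA⟩ := ih (fun D' hD' => hL D' (List.mem_cons_of_mem _ hD'))
    obtain ⟨F, j1, j2, ψ, hF⟩ := exists_char a b D (hL D List.mem_cons_self)
    let e : Fˣ × Aˣ ≃* (F × A)ˣ := MulEquiv.prodUnits.symm
    refine ⟨F × A, inferInstance, inferInstance, e.toMonoidHom.comp (ψ.prod χ), fun n k hk => ?_⟩
    rw [List.map_cons, List.prod_cons, ← hF n k hk, ← hA n k hk, ← Nat.card_prod]
    have h1 : ∀ j : ℕ, (((e.toMonoidHom.comp (ψ.prod χ)) k : (F × A)ˣ) : F × A) ^ j = (((ψ k : Fˣ) : F) ^ j, ((χ k : Aˣ) : A) ^ j) := by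
      intro j
      rfl
    have h2 : (∑ j ∈ Finset.range n, (((e.toMonoidHom.comp (ψ.prod χ)) k : (F × A)ˣ) : F × A) ^ j) =
        (∑ j ∈ Finset.range n, ((ψ k : Fˣ) : F) ^ j, ∑ j ∈ Finset.range n, ((χ k : Aˣ) : A) ^ j) := by
      simp only [h1]
      apply Prod.ext
      · rw [Prod.fst_sum]
      · rw [Prod.snd_sum]
    rw [h2]
    apply Nat.card_congr
    refine ⟨fun x => (⟨x.1.1, congrArg Prod.fst x.2⟩, ⟨x.1.2, congrArg Prod.snd x.2⟩),
      fun y => ⟨(y.1.1, y.2.1), Prod.ext y.1.2 y.2.2⟩, fun x => rfl, fun y => rfl⟩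

/-- The counting function of the group attached to `a, b, L`. -/
def cf (a b : ℕ) (L : List Dat) (n : ℕ) : ℕ :=
  ∑ x ∈ Finset.range a, ∑ y ∈ Finset.range b,
    if a ∣ n * x ∧ b ∣ n * y then (L.map (fun D => D.fac n x y)).prod else 0

theorem sum_zmod (a : ℕ) [NeZero a] (f : ℕ → ℕ) : ∑ x : ZMod a, f x.val = ∑ x ∈ Finset.range a, f x := by
  cases a with
  | zero => exact absurd rfl (NeZero.ne 0)
  | succ a => exact Fin.sum_univ_eq_sum_range f (a + 1)

theorem sum_mzmod (a : ℕ) [NeZero a] (f : ℕ → ℕ) : ∑ x : Multiplicative (ZMod a), f x.toAdd.val = ∑ x ∈ Finset.range a, f x := by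
  rw [← sum_zmod]
  exact Fintype.sum_equiv Multiplicative.toAdd _ _ (fun x => rfl)

theorem P_cf (a b : ℕ) [NeZero a] [NeZero b] (L : List Dat) (hL : ∀ D ∈ L, D.valid a b) : P (cf a b L) := by
  classical
  obtain ⟨A, i1, i2, χ, hA⟩ := exists_ring a b L hL
  refine ⟨Aff χ, inferInstance, inferInstance, Aff.solvable χ, fun n => ?_⟩
  rw [Aff.card_pow]
  have hpow : ∀ (m : ℕ) [NeZero m] (x : Multiplicative (ZMod m)), x ^ n = 1 ↔ m ∣ n * x.toAdd.val := by
    intro m _ x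
    rw [← toAdd_eq_zero, toAdd_pow, nsmul_eq_mul]
    rw [← ZMod.natCast_eq_zero_iff, Nat.cast_mul, ZMod.natCast_zmod_val]
  have h1 : ∀ k : KK a b, (if k ^ n = 1 then Nat.card {v : A // (∑ j ∈ Finset.range n, (χ k : A) ^ j) * v = 0} else 0) =
      (if a ∣ n * k.1.toAdd.val ∧ b ∣ n * k.2.toAdd.val then (L.map (fun D => D.fac n k.1.toAdd.val k.2.toAdd.val)).prod else 0) := by
    intro k
    have h2 : k ^ n = 1 ↔ (a ∣ n * k.1.toAdd.val ∧ b ∣ n * k.2.toAdd.val) := by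
      rw [← hpow a, ← hpow b, Prod.ext_iff]
      rfl
    by_cases h : k ^ n = 1
    · rw [if_pos h, if_pos (h2.1 h), hA n k h]
    · rw [if_neg h, if_neg (mt h2.2 h)]
  rw [Finset.sum_congr rfl (fun k _ => h1 k), Fintype.sum_prod_type]
  unfold cf
  have e1 : ∀ x : ℕ, (∑ y : Multiplicative (ZMod b), if a ∣ n * x ∧ b ∣ n * y.toAdd.val then (L.map (fun D => D.fac n x y.toAdd.val)).prod else 0) =
      ∑ y ∈ Finset.range b, if a ∣ n * x ∧ b ∣ n * y then (L.map (fun D => D.fac n x y)).prod else 0 := by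
    intro x
    exact sum_mzmod b (fun y => if a ∣ n * x ∧ b ∣ n * y then (L.map (fun D => D.fac n x y)).prod else 0)
  simp only [e1]
  exact sum_mzmod a (fun x => ∑ y ∈ Finset.range b, if a ∣ n * x ∧ b ∣ n * y then (L.map (fun D => D.fac n x y)).prod else 0)

/-! ### reduction modulo 84 -/

theorem cf_gcd (a b : ℕ) (L : List Dat) (ha : a ∣ 84) (hb : b ∣ 84) (hL : ∀ D ∈ L, D.p ∣ 84) (n : ℕ) :
    cf a b L n = cf a b L (Nat.gcd n 84) := by
  have h1 : ∀ m x : ℕ, m ∣ 84 → (m ∣ n * x ↔ m ∣ Nat.gcd n 84 * x) := by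
    intro m x hm
    rw [← Nat.gcd_mul_right, Nat.dvd_gcd_iff]
    exact ⟨fun h => ⟨h, hm.mul_right x⟩, fun h => h.1⟩
  unfold cf
  apply Finset.sum_congr rfl
  intro x _
  apply Finset.sum_congr rfl
  intro y _
  have h2 : L.map (fun D => D.fac n x y) = L.map (fun D => D.fac (Nat.gcd n 84) x y) := by
    apply List.map_congr_left
    intro D hD
    unfold Dat.fac
    have : D.p ∣ n ↔ D.p ∣ Nat.gcd n 84 := by
      have := h1 D.p 1 (hL D hD)
      simpa using this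
    simp only [this]
  rw [h2]
  simp only [h1 a x ha, h1 b y hb]

theorem card_pow_gcd {G : Type} [Group G] (N : ℕ) (h : ∀ g : G, g ^ N = 1) (n : ℕ) :
    Nat.card {g : G // g ^ n = 1} = Nat.card {g : G // g ^ (Nat.gcd n N) = 1} := by
  apply Nat.card_congr
  apply Equiv.subtypeEquivRight
  intro g
  rw [← orderOf_dvd_iff_pow_eq_one, ← orderOf_dvd_iff_pow_eq_one, Nat.dvd_gcd_iff]
  exact ⟨fun h' => ⟨h', orderOf_dvd_of_pow_eq_one (h g)⟩, fun h' => h'.1⟩

/-! ### The symmetric group `S₄` -/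

abbrev S4 := Equiv.Perm (Fin 4)

def s4c (n : ℕ) : ℕ :=
  if n = 1 then 1 else if n = 2 then 10 else if n = 3 then 9 else if n = 4 then 16 else if n = 6 then 18 else 24

theorem s4_pow : ∀ g : S4, g ^ 12 = 1 := by decide +kernel

theorem s4_count : ∀ d ∈ Nat.divisors 12, (Finset.univ.filter (fun g : S4 => g ^ d = 1)).card = s4c d := by
  decide +kernel

theorem s4_solvable : Group.IsSolvable S4 := by
  let A : Subgroup S4 := (Equiv.Perm.sign (α := Fin 4)).ker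
  have hV1 : ∀ a b : S4, (a ^ 2 = 1 ∧ Equiv.Perm.sign a = 1) → (b ^ 2 = 1 ∧ Equiv.Perm.sign b = 1) →
      ((a * b) ^ 2 = 1 ∧ Equiv.Perm.sign (a * b) = 1) ∧ a * b = b * a := by decide +kernel
  have hV2 : ∀ a b : S4, Equiv.Perm.sign a = 1 → Equiv.Perm.sign b = 1 →
      ((a * b * a⁻¹ * b⁻¹) ^ 2 = 1 ∧ Equiv.Perm.sign (a * b * a⁻¹ * b⁻¹) = 1) := by decide +kernel
  let V : Subgroup S4 :=
    { carrier := {a | a ^ 2 = 1 ∧ Equiv.Perm.sign a = 1}
      one_mem' := by simp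
      mul_mem' := fun {a b} ha hb => (hV1 a b ha hb).1
      inv_mem' := fun {a} ha => by
        refine ⟨?_, ?_⟩
        · rw [inv_pow, ha.1, inv_one]
        · rw [map_inv, ha.2, inv_one] }
  refine ⟨⟨3, ?_⟩⟩
  have h1 : derivedSeries S4 1 ≤ A := by
    rw [derivedSeries_succ, Subgroup.commutator_le]
    intro a _ b _
    change Equiv.Perm.sign _ = 1
    rw [commutatorElement_def, map_mul, map_mul, map_mul, map_inv, map_inv]
    rw [mul_comm (Equiv.Perm.sign a) (Equiv.Perm.sign b), mul_inv_cancel_right, mul_inv_cancel]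
  have h2 : derivedSeries S4 2 ≤ V := by
    rw [derivedSeries_succ, Subgroup.commutator_le]
    intro a ha b hb
    exact hV2 a b (h1 ha) (h1 hb)
  rw [eq_bot_iff, derivedSeries_succ, Subgroup.commutator_le]
  intro a ha b hb
  rw [Subgroup.mem_bot, commutatorElement_eq_one_iff_mul_comm]
  exact (hV1 a b (h2 ha) (h2 hb)).2

theorem P_S4 : P (fun n => s4c (Nat.gcd n 12)) := by
  refine ⟨S4, inferInstance, inferInstance, s4_solvable, fun n => ?_⟩
  rw [card_pow_gcd 12 s4_pow n, Nat.card_eq_fintype_card, Fintype.card_subtype]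
  exact s4_count _ (Nat.mem_divisors.2 ⟨Nat.gcd_dvd_right _ _, by norm_num⟩)

/-! ### The group `GL(3,2)` -/

abbrev M3 := Matrix (Fin 3) (Fin 3) (ZMod 2)

/-- square and multiply -/
def pw2 (M : M3) : M3 := M * M
def pw3 (M : M3) : M3 := pw2 M * M
def pw4 (M : M3) : M3 := pw2 (pw2 M)
def pw7 (M : M3) : M3 := pw4 M * pw3 M

theorem m3_count2 : (Finset.univ.filter (fun M : M3 => pw2 M = 1)).card = 22 := by
  decide +kernel

theorem m3_count3 : (Finset.univ.filter (fun M : M3 => pw3 M = 1)).card = 57 := by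
  decide +kernel

theorem m3_count4 : (Finset.univ.filter (fun M : M3 => pw4 M = 1)).card = 64 := by
  decide +kernel

theorem m3_count7 : (Finset.univ.filter (fun M : M3 => pw7 M = 1)).card = 49 := by
  decide +kernel

def det3 (M : M3) : ZMod 2 :=
  M 0 0 * M 1 1 * M 2 2 - M 0 0 * M 1 2 * M 2 1 - M 0 1 * M 1 0 * M 2 2 + M 0 1 * M 1 2 * M 2 0 +
    M 0 2 * M 1 0 * M 2 1 - M 0 2 * M 1 1 * M 2 0

theorem m3_cases : ∀ M : M3, det3 M = 0 ∨ pw3 M = 1 ∨ pw4 M = 1 ∨ pw7 M = 1 := by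
  decide +kernel

abbrev T3 := M3ˣ

def tr (i j : Fin 3) : M3 := fun a b => (if a = b then 1 else 0) + (if a = i ∧ b = j then 1 else 0)

theorem tr_sq : ∀ i j : Fin 3, i ≠ j → tr i j * tr i j = 1 := by decide +kernel

theorem tr_comm : ∀ i j k : Fin 3, i ≠ j → j ≠ k → i ≠ k → tr i k * tr k j * tr i k * tr k j = tr i j := by
  decide +kernel

theorem tr_ne : tr 0 1 ≠ 1 := by decide +kernel

/-- transvections -/
def E3 (i j : Fin 3) (h : i ≠ j) : T3 := ⟨tr i j, tr i j, tr_sq i j h, tr_sq i j h⟩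

theorem E3_mem (n : ℕ) : ∀ (i j : Fin 3) (h : i ≠ j), E3 i j h ∈ derivedSeries T3 n := by
  induction n with
  | zero => intro i j h; exact Subgroup.mem_top _
  | succ n ih =>
    intro i j h
    obtain ⟨k, hjk, hik⟩ : ∃ k : Fin 3, j ≠ k ∧ i ≠ k := by
      revert i j; decide
    have e : E3 i j h = ⁅E3 i k hik, E3 k j hjk.symm⁆ := by
      apply Units.ext
      rw [commutatorElement_def]
      exact (tr_comm i j k h hjk hik).symm
    rw [e, derivedSeries_succ]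
    exact Subgroup.commutator_mem_commutator (ih _ _ _) (ih _ _ _)

theorem T3_not_solvable : ¬ Group.IsSolvable T3 := by
  refine not_isSolvable_of_mem_derivedSeries (g := E3 0 1 (by decide)) ?_ (fun n => E3_mem n _ _ _)
  intro h
  exact tr_ne (congrArg Units.val h)

theorem pw_units (g : T3) : (pw2 (g : M3) = 1 ↔ g ^ 2 = 1) ∧ (pw3 (g : M3) = 1 ↔ g ^ 3 = 1) ∧
    (pw4 (g : M3) = 1 ↔ g ^ 4 = 1) ∧ (pw7 (g : M3) = 1 ↔ g ^ 7 = 1) := by
  have e2 : pw2 (g : M3) = ((g ^ 2 : T3) : M3) := by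
    unfold pw2; rw [sq, Units.val_mul]
  have e3 : pw3 (g : M3) = ((g ^ 3 : T3) : M3) := by
    unfold pw3; rw [e2, ← Units.val_mul, ← pow_succ]
  have e4 : pw4 (g : M3) = ((g ^ 4 : T3) : M3) := by
    unfold pw4; rw [e2]; unfold pw2; rw [← Units.val_mul, ← pow_add]
  have e7 : pw7 (g : M3) = ((g ^ 7 : T3) : M3) := by
    unfold pw7; rw [e4, e3, ← Units.val_mul, ← pow_add]
  rw [e2, e3, e4, e7]
  simp only [Units.val_eq_one, and_self]

theorem card_units_pow (m : ℕ) (f : M3 → M3) (hf : ∀ g : T3, f (g : M3) = 1 ↔ g ^ m = 1)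
    (hu : ∀ M : M3, f M = 1 → IsUnit M) :
    Nat.card {g : T3 // g ^ m = 1} = (Finset.univ.filter (fun M : M3 => f M = 1)).card := by
  rw [← Fintype.card_subtype, ← Nat.card_eq_fintype_card]
  apply Nat.card_congr
  refine Equiv.ofBijective (fun g => ⟨(g.1 : M3), (hf g.1).2 g.2⟩) ⟨?_, ?_⟩
  · intro g h hgh
    exact Subtype.ext (Units.ext (congrArg Subtype.val hgh))
  · rintro ⟨M, hM⟩
    obtain ⟨u, rfl⟩ := hu M hM
    exact ⟨⟨u, (hf u).1 hM⟩, rfl⟩

theorem isUnit_of_mul_right {M N : M3} (h : M * N = 1) : IsUnit M :=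
  ⟨⟨M, N, h, mul_eq_one_comm.1 h⟩, rfl⟩

theorem T3_card2 : Nat.card {g : T3 // g ^ 2 = 1} = 22 := by
  rw [card_units_pow 2 pw2 (fun g => (pw_units g).1) (fun M h => isUnit_of_mul_right h), m3_count2]

theorem T3_card3 : Nat.card {g : T3 // g ^ 3 = 1} = 57 := by
  rw [card_units_pow 3 pw3 (fun g => (pw_units g).2.1)
    (fun M h => isUnit_of_mul_right (N := M * M) (by rw [← mul_assoc]; exact h)), m3_count3]

theorem T3_card4 : Nat.card {g : T3 // g ^ 4 = 1} = 64 := by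
  rw [card_units_pow 4 pw4 (fun g => (pw_units g).2.2.1)
    (fun M h => isUnit_of_mul_right (N := M * (M * M)) (by
      rw [← mul_assoc]; exact h)), m3_count4]

theorem T3_card7 : Nat.card {g : T3 // g ^ 7 = 1} = 49 := by
  rw [card_units_pow 7 pw7 (fun g => (pw_units g).2.2.2)
    (fun M h => isUnit_of_mul_right (N := M * ((M * M) * (M * M * M))) (by
      rw [← h]; unfold pw7 pw4 pw3 pw2; simp only [mul_assoc])), m3_count7]

theorem T3_cases (g : T3) : g ^ 3 = 1 ∨ g ^ 4 = 1 ∨ g ^ 7 = 1 := by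
  rcases m3_cases (g : M3) with h | h | h | h
  · exfalso
    have h1 : IsUnit ((g : M3).det) := (Matrix.isUnit_iff_isUnit_det _).1 g.isUnit
    have h2 : (g : M3).det = det3 g := by
      rw [Matrix.det_fin_three]; rfl
    rw [h2, h] at h1
    exact not_isUnit_zero h1
  · exact Or.inl ((pw_units g).2.1.1 h)
  · exact Or.inr (Or.inl ((pw_units g).2.2.1.1 h))
  · exact Or.inr (Or.inr ((pw_units g).2.2.2.1 h))

theorem T3_pow84 (g : T3) : g ^ 84 = 1 := by
  rcases T3_cases g with h | h | h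
  · rw [show 84 = 3 * 28 by norm_num, pow_mul, h, one_pow]
  · rw [show 84 = 4 * 21 by norm_num, pow_mul, h, one_pow]
  · rw [show 84 = 7 * 12 by norm_num, pow_mul, h, one_pow]

theorem pow_gcd_one {G : Type} [Group G] {g : G} {m n : ℕ} (h1 : g ^ m = 1) : g ^ n = 1 ↔ g ^ Nat.gcd n m = 1 := by
  rw [← orderOf_dvd_iff_pow_eq_one, ← orderOf_dvd_iff_pow_eq_one, Nat.dvd_gcd_iff]
  exact ⟨fun h' => ⟨h', orderOf_dvd_of_pow_eq_one h1⟩, fun h' => h'.1⟩

theorem eq_one_of_coprime_pow {G : Type} [Group G] {g : G} {m n : ℕ} (hmn : Nat.Coprime m n) (h1 : g ^ m = 1) (h2 : g ^ n = 1) : g = 1 := by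
  rw [← orderOf_eq_one_iff]
  have := Nat.dvd_gcd (orderOf_dvd_of_pow_eq_one h1) (orderOf_dvd_of_pow_eq_one h2)
  rw [hmn.gcd_eq_one] at this
  exact Nat.dvd_one.1 this

theorem T3_formula (n : ℕ) : Nat.card {g : T3 // g ^ n = 1} + 2 =
    Nat.card {g : T3 // g ^ Nat.gcd n 3 = 1} + Nat.card {g : T3 // g ^ Nat.gcd n 4 = 1} +
      Nat.card {g : T3 // g ^ Nat.gcd n 7 = 1} := by
  classical
  have := Fintype.ofFinite T3
  simp only [Nat.card_eq_fintype_card, Fintype.card_subtype]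
  have hun : Finset.univ.filter (fun g : T3 => g ^ n = 1) =
      (Finset.univ.filter (fun g : T3 => g ^ Nat.gcd n 3 = 1) ∪ Finset.univ.filter (fun g : T3 => g ^ Nat.gcd n 4 = 1)) ∪
        Finset.univ.filter (fun g : T3 => g ^ Nat.gcd n 7 = 1) := by
    ext g
    simp only [Finset.mem_filter, Finset.mem_univ, true_and, Finset.mem_union]
    constructor
    · intro h
      rcases T3_cases g with h3 | h4 | h7
      · exact Or.inl (Or.inl ((pow_gcd_one h3).1 h))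
      · exact Or.inl (Or.inr ((pow_gcd_one h4).1 h))
      · exact Or.inr ((pow_gcd_one h7).1 h)
    · have key : ∀ m : ℕ, g ^ Nat.gcd n m = 1 → g ^ n = 1 := by
        intro m hm
        obtain ⟨c, hc⟩ := Nat.gcd_dvd_left n m
        rw [hc, pow_mul, hm, one_pow]
      rintro ((h | h) | h) <;> exact key _ h
  have hi1 : (Finset.univ.filter (fun g : T3 => g ^ Nat.gcd n 3 = 1) ∩ Finset.univ.filter (fun g : T3 => g ^ Nat.gcd n 4 = 1)) = {1} := by
    ext g
    simp only [Finset.mem_inter, Finset.mem_filter, Finset.mem_univ, true_and, Finset.mem_singleton]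
    constructor
    · rintro ⟨h1, h2⟩
      refine eq_one_of_coprime_pow ?_ h1 h2
      exact Nat.Coprime.of_dvd (Nat.gcd_dvd_right _ _) (Nat.gcd_dvd_right _ _) (by norm_num)
    · rintro rfl; simp
  have hi2 : ((Finset.univ.filter (fun g : T3 => g ^ Nat.gcd n 3 = 1) ∪ Finset.univ.filter (fun g : T3 => g ^ Nat.gcd n 4 = 1)) ∩
        Finset.univ.filter (fun g : T3 => g ^ Nat.gcd n 7 = 1)) = {1} := by
    ext g
    simp only [Finset.mem_inter, Finset.mem_union, Finset.mem_filter, Finset.mem_univ, true_and, Finset.mem_singleton]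
    constructor
    · rintro ⟨h1 | h1, h2⟩
      · refine eq_one_of_coprime_pow ?_ h1 h2
        exact Nat.Coprime.of_dvd (Nat.gcd_dvd_right _ _) (Nat.gcd_dvd_right _ _) (by norm_num)
      · refine eq_one_of_coprime_pow ?_ h1 h2
        exact Nat.Coprime.of_dvd (Nat.gcd_dvd_right _ _) (Nat.gcd_dvd_right _ _) (by norm_num)
    · rintro rfl; simp
  have c1 := Finset.card_union_add_card_inter (Finset.univ.filter (fun g : T3 => g ^ Nat.gcd n 3 = 1) ∪ Finset.univ.filter (fun g : T3 => g ^ Nat.gcd n 4 = 1))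
    (Finset.univ.filter (fun g : T3 => g ^ Nat.gcd n 7 = 1))
  have c2 := Finset.card_union_add_card_inter (Finset.univ.filter (fun g : T3 => g ^ Nat.gcd n 3 = 1)) (Finset.univ.filter (fun g : T3 => g ^ Nat.gcd n 4 = 1))
  rw [hi2, Finset.card_singleton] at c1
  rw [hi1, Finset.card_singleton] at c2
  rw [hun]
  omega

def tc (n : ℕ) : ℕ :=
  (if n % 3 = 0 then 57 else 1) + (if n % 4 = 0 then 64 else if n % 2 = 0 then 22 else 1) + (if n % 7 = 0 then 49 else 1) - 2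

theorem T3_card1 : Nat.card {g : T3 // g ^ 1 = 1} = 1 := by
  rw [Nat.card_eq_one_iff_unique]
  refine ⟨⟨fun g h => Subtype.ext ?_⟩, ⟨⟨1, by simp⟩⟩⟩
  have h1 := g.2
  have h2 := h.2
  rw [pow_one] at h1 h2
  rw [h1, h2]

theorem T3_count (n : ℕ) : Nat.card {g : T3 // g ^ n = 1} = tc n := by
  have h := T3_formula n
  have h3 : Nat.card {g : T3 // g ^ Nat.gcd n 3 = 1} = if n % 3 = 0 then 57 else 1 := by
    split_ifs with h
    · rw [Nat.gcd_eq_right (Nat.dvd_of_mod_eq_zero h), T3_card3]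
    · rw [show Nat.gcd n 3 = 1 from ?_, T3_card1]
      exact (Nat.Coprime.symm ((Nat.Prime.coprime_iff_not_dvd Nat.prime_three).2 (fun hd => h (Nat.mod_eq_zero_of_dvd hd))))
  have h7 : Nat.card {g : T3 // g ^ Nat.gcd n 7 = 1} = if n % 7 = 0 then 49 else 1 := by
    split_ifs with h
    · rw [Nat.gcd_eq_right (Nat.dvd_of_mod_eq_zero h), T3_card7]
    · rw [show Nat.gcd n 7 = 1 from ?_, T3_card1]
      exact (Nat.Coprime.symm ((Nat.Prime.coprime_iff_not_dvd (by norm_num)).2 (fun hd => h (Nat.mod_eq_zero_of_dvd hd))))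
  have h4 : Nat.card {g : T3 // g ^ Nat.gcd n 4 = 1} = if n % 4 = 0 then 64 else if n % 2 = 0 then 22 else 1 := by
    have hdef : Nat.gcd n 4 = Nat.gcd (n % 4) 4 := by
      rw [Nat.gcd_comm n 4, Nat.gcd_rec]
    have hlt : n % 4 < 4 := Nat.mod_lt _ (by norm_num)
    have h2 : n % 2 = (n % 4) % 2 := by omega
    rw [hdef, h2]
    generalize n % 4 = r at hlt
    interval_cases r
    · simpa using T3_card4
    · exact T3_card1
    · simpa using T3_card2
    · exact T3_card1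
  rw [h3, h4, h7] at h
  unfold tc
  omega

theorem Q_T3 : Q tc := ⟨T3, inferInstance, inferInstance, T3_not_solvable, T3_count⟩

theorem R_T3 : R tc := ⟨T3, inferInstance, inferInstance, T3_count⟩

/-! ### The final relation -/

/-- an entry: `a`, `b`, list of data, multiplicity -/
abbrev Ent := ℕ × ℕ × List Dat × ℕ

/-- boolean validity check (only the primes `2, 3, 7` are allowed) -/
def Ent.ok (E : Ent) : Bool :=
  (84 % E.1 == 0) && (84 % E.2.1 == 0) && (E.1 != 0) && (E.2.1 != 0) &&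
    E.2.2.1.all (fun D => (D.p == 2 || D.p == 3 || D.p == 7) && D.d != 0 && ((D.p ^ D.d - 1) % D.e == 0) &&
      ((D.w₁ * E.1) % D.e == 0) && ((D.w₂ * E.2.1) % D.e == 0))

def Ent.f (E : Ent) (n : ℕ) : ℕ := cf E.1 E.2.1 E.2.2.1 n ^ E.2.2.2

theorem Ent.spec (E : Ent) (h : E.ok = true) : P E.f ∧ ∀ n, E.f n = E.f (Nat.gcd n 84) := by
  obtain ⟨a, b, L, m⟩ := E
  unfold Ent.ok at h
  simp only [Bool.and_eq_true, beq_iff_eq, bne_iff_ne, ne_eq, List.all_eq_true, Bool.or_eq_true] at h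
  obtain ⟨⟨⟨⟨ha, hb⟩, ha0⟩, hb0⟩, hL⟩ := h
  have : NeZero a := ⟨ha0⟩
  have : NeZero b := ⟨hb0⟩
  have hprime : ∀ p : ℕ, ((p = 2 ∨ p = 3) ∨ p = 7) → p.Prime ∧ p ∣ 84 := by
    rintro p ((rfl | rfl) | rfl) <;> norm_num
  constructor
  · refine (P_cf a b L ?_).pow m
    intro D hD
    obtain ⟨⟨⟨⟨h1, h2⟩, h3⟩, h4⟩, h5⟩ := hL D hD
    exact ⟨(hprime _ h1).1, h2, Nat.dvd_of_mod_eq_zero h3, Nat.dvd_of_mod_eq_zero h4, Nat.dvd_of_mod_eq_zero h5⟩
  · intro n
    unfold Ent.f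
    rw [cf_gcd a b L (Nat.dvd_of_mod_eq_zero ha) (Nat.dvd_of_mod_eq_zero hb) (fun D hD => (hprime _ (hL D hD).1.1.1.1).2) n]

/-- product over a list of entries -/
def prodf (L : List Ent) (n : ℕ) : ℕ := (L.map (fun E => E.f n)).prod

theorem prodf_spec (L : List Ent) (h : ∀ E ∈ L, E.ok = true) : P (prodf L) ∧ ∀ n, prodf L n = prodf L (Nat.gcd n 84) := by
  induction L with
  | nil => exact ⟨P.one, fun n => rfl⟩
  | cons E L ih =>
    obtain ⟨h1, h2⟩ := Ent.spec E (h E List.mem_cons_self)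
    obtain ⟨h3, h4⟩ := ih (fun E' hE' => h E' (List.mem_cons_of_mem _ hE'))
    have e : prodf (E :: L) = fun n => E.f n * prodf L n := by
      funext n; simp [prodf]
    rw [e]
    exact ⟨h1.mul h3, fun n => by beta_reduce; rw [h2 n, h4 n]⟩

def posL : List Ent := [
  (42, 1, [⟨2, 3, 7, 1, 0⟩, ⟨2, 3, 7, 1, 0⟩, ⟨3, 1, 2, 1, 0⟩], 6),
  (42, 2, [⟨7, 1, 2, 0, 1⟩, ⟨7, 1, 6, 1, 0⟩, ⟨7, 1, 6, 1, 3⟩], 6),
  (6, 1, [⟨7, 1, 3, 1, 0⟩, ⟨7, 1, 2, 1, 0⟩, ⟨7, 1, 2, 1, 0⟩], 13),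
  (6, 6, [⟨7, 1, 6, 0, 1⟩, ⟨7, 1, 6, 1, 0⟩, ⟨7, 1, 6, 1, 3⟩], 6),
  (84, 1, [⟨2, 3, 7, 1, 0⟩, ⟨7, 1, 6, 1, 0⟩, ⟨7, 1, 2, 1, 0⟩], 6),
  (12, 2, [⟨7, 1, 6, 1, 3⟩, ⟨2, 2, 3, 1, 0⟩], 12),
  (12, 2, [⟨3, 1, 2, 0, 1⟩, ⟨7, 1, 6, 1, 3⟩, ⟨7, 1, 2, 1, 0⟩], 6),
  (4, 1, [⟨3, 1, 2, 1, 0⟩, ⟨3, 1, 2, 1, 0⟩, ⟨7, 1, 2, 1, 0⟩], 12)]

def negL : List Ent := [
  (12, 1, [⟨7, 1, 3, 1, 0⟩, ⟨7, 1, 2, 1, 0⟩], 15),
  (12, 2, [⟨3, 1, 2, 0, 1⟩, ⟨7, 1, 2, 0, 1⟩, ⟨7, 1, 2, 0, 1⟩, ⟨3, 1, 2, 1, 0⟩, ⟨3, 1, 2, 1, 0⟩], 12),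
  (42, 1, [⟨2, 6, 21, 1, 0⟩, ⟨2, 2, 3, 1, 0⟩, ⟨7, 1, 2, 1, 0⟩], 6),
  (42, 1, [⟨7, 1, 6, 1, 0⟩, ⟨7, 1, 2, 1, 0⟩], 10),
  (12, 3, [⟨7, 1, 3, 0, 1⟩, ⟨7, 1, 3, 0, 1⟩, ⟨7, 1, 6, 1, 0⟩, ⟨7, 2, 4, 1, 0⟩], 6),
  (4, 2, [⟨7, 1, 2, 0, 1⟩, ⟨7, 1, 2, 1, 0⟩, ⟨7, 1, 2, 1, 0⟩], 3),
  (3, 1, [⟨2, 2, 3, 1, 0⟩, ⟨2, 2, 3, 1, 0⟩], 6),
  (2, 1, [], 36)]

theorem posL_ok : ∀ E ∈ posL, E.ok = true := by decide +kernel
theorem negL_ok : ∀ E ∈ negL, E.ok = true := by decide +kernel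

theorem relation : ∀ d ∈ Nat.divisors 84, tc d * tc d ^ 5 * prodf negL d = prodf posL d * s4c (Nat.gcd d 12) ^ 6 := by
  decide +kernel

theorem result :
    ∃ (G : Type) (_ : Group G) (_ : Finite G) (H : Type) (_ : Group H) (_ : Finite H),
      Group.IsSolvable G ∧ ¬ Group.IsSolvable H ∧ ∀ n : ℕ, Nat.card {g : G // orderOf g = n} = Nat.card {h : H // orderOf h = n} := by
  obtain ⟨G, i1, i2, hG, h1⟩ := (prodf_spec posL posL_ok).1.mul (P_S4.pow 6)
  obtain ⟨H, j1, j2, hH, h2⟩ := (Q_T3.mul (R_T3.pow 5)).mul (prodf_spec negL negL_ok).1.toR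
  refine ⟨G, i1, i2, H, j1, j2, hG, hH, ?_⟩
  rw [Cfsg.Agent.S4377.result]
  intro n
  rw [h1, h2]
  beta_reduce
  have hd : Nat.gcd n 84 ∈ Nat.divisors 84 := Nat.mem_divisors.2 ⟨Nat.gcd_dvd_right _ _, by norm_num⟩
  have h := relation _ hd
  rw [(prodf_spec posL posL_ok).2 n, (prodf_spec negL negL_ok).2 n]
  have e1 : tc n = tc (Nat.gcd n 84) := by
    rw [← T3_count, ← T3_count, card_pow_gcd 84 T3_pow84 n]
  have e2 : Nat.gcd (Nat.gcd n 84) 12 = Nat.gcd n 12 := by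
    rw [Nat.gcd_assoc]; rfl
  rw [e2] at h
  rw [e1]
  exact h.symm

end Cfsg.Agent.S4376
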