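import Cfsg.Statements.S4385
import Cfsg.Agent.Lib.TutI

set_option autoImplicit false
open Pointwise
open Cfsg

namespace Cfsg.Agent.S4385

open Cfsg.Agent.Lib.Tut in
open Cfsg.Agent.Lib.LocBase in
theorem main {G : Type*} [Group G] [Finite G]
    (H : Subgroup G) (hO : Cfsg.pCore 2 ↥H ≠ ⊥) (n : ℕ) (hn : 2 ≤ n) (hdih : Nonempty (↥H ⧸ Cfsg.pCore 2 ↥H ≃* DihedralGroup n))
    (P : Subgroup G) (hPH : P ≤ H) (hP : IsPGroup 2 P) (hPsyl : ¬ 2 ∣ P.relIndex H)
    (y : G) (hy2 : y ^ 2 ∈ P ⊔ Subgroup.centralizer (P : Set G)) (hyN : MulAut.conj y • P = P)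
    (hyQ : ∀ Q : Subgroup G, Q ≤ P → (Q.subgroupOf H).Normal → MulAut.conj y • Q = Q → Q = ⊥) :
    (Nat.card P = 4 ∨ Nat.card P = 8 ∨ Nat.card P = 16) ∧
    (Nonempty (↥H ⧸ Cfsg.oddCore ↥H ≃* Multiplicative (ZMod 2) × Multiplicative (ZMod 2)) ∨
     Nonempty (↥H ⧸ Cfsg.oddCore ↥H ≃* Equiv.Perm (Fin 4)) ∨
     Nonempty (↥H ⧸ Cfsg.oddCore ↥H ≃* Equiv.Perm (Fin 4) × Multiplicative (ZMod 2))) := by
  have hS : IsSyl 2 P H := ⟨hPH, hP, hPsyl⟩
  obtain ⟨e⟩ := hdih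
  obtain ⟨f, D⟩ := exists_dih hS hn e
  have hn0 : NeZero n := ⟨by omega⟩
  have hyN' : cj y P = P := hyN
  have h : Hyp (HH H y) P (HH (Cfsg.pCoreOf 2 H) y) := by
    apply hyp_of_dih D hP hyN'
    · rw [← pow_two]; exact hy2
    · intro X hX hHX hyX
      exact hyQ X hX (Subgroup.normal_subgroupOf_of_le_normalizer hHX) hyX
  have hQne : Cfsg.pCoreOf 2 H ≠ ⊥ := (pCore_ne_bot_iff 2 H).mp hO
  by_cases hZ : ∀ i, ze P ≤ HH (Cfsg.pCoreOf 2 H) y i
  · have hS' : IsSyl 2 P (HH H y false) := hS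
    have D' : Dih (HH H y false) P (HH (Cfsg.pCoreOf 2 H) y false) n f := D
    rcases h.final_iso hZ hS' D' with ⟨h1, h2⟩ | ⟨h1, h2⟩
    · exact ⟨Or.inr (Or.inl h1), Or.inr (Or.inl h2)⟩
    · exact ⟨Or.inr (Or.inr h1), Or.inr (Or.inr h2)⟩
  · have hQ : ∀ i, HH (Cfsg.pCoreOf 2 H) y i ≠ ⊥ := by
      intro i
      rcases i with _ | _
      · exact hQne
      · intro hcon
        have h1 : cj y (Cfsg.pCoreOf 2 H) = ⊥ := hcon
        apply hQne
        rw [← cj_bot y] at h1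
        exact cj_inj.mp h1
    obtain ⟨h1, h2, h3⟩ := h.small hQ hZ
    refine ⟨Or.inl h3, Or.inl ?_⟩
    exact small_iso D hS (h2 false) (h.QP true) (h.idx true) (h1 false)

/-- Let H be a subgroup of a finite group G whose largest normal 2-subgroup O_2(H) is nontrivial and such that H/O_2(H) is a dihedral group of order at least 4. Let P be a Sylow 2-subgroup of H and S a Sylow 2-subgroup of G containing P. Suppose y ∈ S lies outside P, normalizes P, has y² in the product of P with the centralizer of P in G, and normalizes no non-identity normal subgroup of H contained in P. Then P has order 4, 8 or 16, and H modulo its largest normal subgroup of odd order is isomorphic to the four-group, to the symmetric group of degree 4, or to the direct product of the symmetric group of degree 4 with a group of order 2. -/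
theorem result {G : Type*} [Group G] [Finite G]
    (H : Subgroup G) (hO : Cfsg.pCore 2 ↥H ≠ ⊥) (n : ℕ) (hn : 2 ≤ n) (hdih : Nonempty (↥H ⧸ Cfsg.pCore 2 ↥H ≃* DihedralGroup n))
    (P : Subgroup G) (hPH : P ≤ H) (hP : IsPGroup 2 P) (hPsyl : ¬ 2 ∣ P.relIndex H)
    (S : Sylow 2 G) (hPS : P ≤ (S : Subgroup G)) (y : G) (hyS : y ∈ (S : Subgroup G)) (hyP : y ∉ P)
    (hy2 : y ^ 2 ∈ P ⊔ Subgroup.centralizer (P : Set G)) (hyN : MulAut.conj y • P = P)
    (hyQ : ∀ Q : Subgroup G, Q ≤ P → (Q.subgroupOf H).Normal → MulAut.conj y • Q = Q → Q = ⊥) :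
    (Nat.card P = 4 ∨ Nat.card P = 8 ∨ Nat.card P = 16) ∧
    (Nonempty (↥H ⧸ Cfsg.oddCore ↥H ≃* Multiplicative (ZMod 2) × Multiplicative (ZMod 2)) ∨
     Nonempty (↥H ⧸ Cfsg.oddCore ↥H ≃* Equiv.Perm (Fin 4)) ∨
     Nonempty (↥H ⧸ Cfsg.oddCore ↥H ≃* Equiv.Perm (Fin 4) × Multiplicative (ZMod 2))) := by
  exact main H hO n hn hdih P hPH hP hPsyl y hy2 hyN hyQ

end Cfsg.Agent.S4385
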