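import Cfsg.Statements.S4387

set_option autoImplicit false
open Pointwise
open Cfsg

namespace Cfsg.Agent.S4387

theorem exists_notMem_conj {G : Type*} [Group G] [Finite G] (M : Subgroup G) (hM : M ≠ ⊤) :
    ∃ x : G, ∀ g : G, x ∉ MulAut.conj g • M := by
  classical
  have := Fintype.ofFinite G
  by_contra hcon
  push Not at hcon
  have hmem : ∀ (x g : G), x ∈ MulAut.conj g • M → (QuotientGroup.mk g : G ⧸ M) ∈ MulAction.fixedBy (G ⧸ M) x := by
    intro x g hx
    rw [MulAction.mem_fixedBy]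
    change (QuotientGroup.mk (x * g) : G ⧸ M) = QuotientGroup.mk g
    rw [eq_comm, QuotientGroup.eq]
    rw [Subgroup.mem_pointwise_smul_iff_inv_smul_mem] at hx
    have e : (MulAut.conj g)⁻¹ • x = g⁻¹ * (x * g) := by
      rw [← map_inv]
      change g⁻¹ * x * (g⁻¹)⁻¹ = _
      group
    rwa [e] at hx
  have hB := MulAction.sum_card_fixedBy_eq_card_orbits_mul_card_group G (G ⧸ M)
  have horb : Fintype.card (Quotient (MulAction.orbitRel G (G ⧸ M))) = 1 := by
    rw [Fintype.card_eq_one_iff]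
    refine ⟨Quotient.mk _ (QuotientGroup.mk 1), fun y => ?_⟩
    induction y using Quotient.inductionOn with
    | _ y => 
      apply Quotient.sound
      change y ∈ MulAction.orbit G _
      rw [MulAction.orbit_eq_univ]; trivial
  rw [horb, one_mul] at hB
  have hlt : ∑ _x : G, 1 < ∑ x : G, Fintype.card (MulAction.fixedBy (G ⧸ M) x) := by
    apply Finset.sum_lt_sum
    · intro x _
      obtain ⟨g, hg⟩ := hcon x
      exact Fintype.card_pos_iff.2 ⟨⟨_, hmem x g hg⟩⟩
    · refine ⟨1, Finset.mem_univ _, ?_⟩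
      rw [Fintype.one_lt_card_iff]
      obtain ⟨y, hy⟩ : ∃ y, y ∉ M := by
        by_contra h
        push Not at h
        exact hM ((Subgroup.eq_top_iff' M).2 h)
      refine ⟨⟨QuotientGroup.mk 1, by simp⟩, ⟨QuotientGroup.mk y, by simp⟩, ?_⟩
      intro h
      have := congrArg Subtype.val h
      simp only at this
      rw [QuotientGroup.eq] at this
      simp at this
      exact hy this
  rw [hB] at hlt
  simp at hlt

theorem result {G : Type*} [Group G] [Finite G] [Nontrivial G]
    (h : ∀ M N : Subgroup G, IsCoatom M → IsCoatom N → ∃ g : G, N = MulAut.conj g • M) :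
    IsCyclic G ∧ IsPrimePow (Nat.card G) := by
  obtain ⟨M, hM⟩ : ∃ M : Subgroup G, IsCoatom M := by
    rcases eq_top_or_exists_le_coatom (⊥ : Subgroup G) with h | ⟨M, hM, _⟩
    · exact absurd h bot_ne_top
    · exact ⟨M, hM⟩
  obtain ⟨x, hx⟩ := exists_notMem_conj M hM.1
  have hx' : Subgroup.zpowers x = ⊤ := by
    rcases eq_top_or_exists_le_coatom (Subgroup.zpowers x) with h' | ⟨N, hN, hle⟩
    · exact h'
    · obtain ⟨g, rfl⟩ := h M N hM hN
      exact absurd (hle (Subgroup.mem_zpowers x)) (hx g)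
  have hcyc : IsCyclic G := ⟨x, fun y => by
    have : y ∈ (⊤ : Subgroup G) := trivial
    rw [← hx'] at this; exact this⟩
  refine ⟨hcyc, ?_⟩
  have hcomm : ∀ a b : G, a * b = b * a := fun a b => by
    have := hcyc.commGroup
    exact IsMulCommutative.is_comm.comm a b
  have huniq : ∀ N : Subgroup G, IsCoatom N → N = M := by
    intro N hN
    obtain ⟨g, rfl⟩ := h M N hM hN
    ext y
    rw [Subgroup.mem_pointwise_smul_iff_inv_smul_mem]
    have : (MulAut.conj g)⁻¹ • y = y := by
      rw [← map_inv]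
      change g⁻¹ * y * (g⁻¹)⁻¹ = y
      rw [hcomm g⁻¹ y]; group
    rw [this]
  have hord : orderOf x = Nat.card G := by
    rw [← Nat.card_zpowers, hx', Subgroup.card_top]
  have hxM : x ∉ M := by
    intro hxM
    apply hM.1
    rw [eq_top_iff, ← hx']
    exact (Subgroup.zpowers_le).2 hxM
  have key : ∀ r : ℕ, r.Prime → r ∣ Nat.card G → x ^ r ∈ M := by
    intro r hr hrd
    rcases eq_top_or_exists_le_coatom (Subgroup.zpowers (x ^ r)) with h' | ⟨N, hN, hle⟩
    · exfalso
      have h1 : Nat.card (Subgroup.zpowers (x ^ r)) = Nat.card G := by rw [h', Subgroup.card_top]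
      rw [Nat.card_zpowers, orderOf_pow, hord, Nat.gcd_eq_right hrd] at h1
      have h2 : Nat.card G / r < Nat.card G := Nat.div_lt_self Nat.card_pos hr.one_lt
      omega
    · rw [← huniq N hN]
      exact hle (Subgroup.mem_zpowers _)
  have hne1 : Nat.card G ≠ 1 := by
    intro h1
    have := (Nat.card_eq_one_iff_unique.1 h1).1
    exact not_subsingleton G this
  rw [isPrimePow_iff_unique_prime_dvd]
  obtain ⟨p, hp, hpd⟩ := Nat.exists_prime_and_dvd hne1
  refine ⟨p, ⟨hp, hpd⟩, ?_⟩
  rintro q ⟨hq, hqd⟩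
  by_contra hne
  have hco : Nat.Coprime q p := (Nat.coprime_primes hq hp).2 hne
  have h1 := key p hp hpd
  have h2 := key q hq hqd
  apply hxM
  have hb : (1 : ℤ) = q * Nat.gcdA q p + p * Nat.gcdB q p := by
    rw [← Nat.gcd_eq_gcd_ab, hco.gcd_eq_one]; simp
  have : x = (x ^ q) ^ (Nat.gcdA q p) * (x ^ p) ^ (Nat.gcdB q p) := by
    conv_lhs => rw [← zpow_one x, hb, zpow_add, zpow_mul, zpow_mul]
    simp
  rw [this]
  exact M.mul_mem (M.zpow_mem h2 _) (M.zpow_mem h1 _)

end Cfsg.Agent.S4387
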