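import Cfsg.Statements.S4396
import Cfsg.Agent.Lib.FrobFree5

set_option autoImplicit false
open Cfsg
open scoped Pointwise

namespace Cfsg.Agent.S4396

/-- Let the finite group A act faithfully and linearly on a finite-dimensional vector space V over a field k, and suppose A is a Frobenius group with nilpotent kernel F (every Frobenius kernel is nilpotent) and complement H such that F fixes no nonzero vector. Then V is free as a module for H: there is a subspace W with V the direct sum of the translates hW, h ∈ H. (No assumption on the characteristic of k.) -/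
theorem result {k V A : Type*} [Field k] [AddCommGroup V] [Module k V] [FiniteDimensional k V] [Group A] [Finite A] [DecidableEq A]
    (ρ : Representation k A V) (hρ : Function.Injective ρ)
    (Fk Hc : Subgroup A) [Fk.Normal] (hHc : Cfsg.IsFrobeniusComplement Hc) (hker : Cfsg.frobeniusKernel Hc = (Fk : Set A)) (hnil : Group.IsNilpotent ↥Fk)
    (hCF : ∀ v : V, (∀ f ∈ Fk, ρ f v = v) → v = 0) :
    ∃ W : Submodule k V, DirectSum.IsInternal (fun h : ↥Hc => W.map (ρ (h : A))) := by
  classical
  have : Fintype Hc := Fintype.ofFinite Hc
  obtain ⟨W, hW⟩ := Lib.FrobFree.main k (Nat.card Fk) A Fk Hc V ρ rfl (by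
    intro h hh hh1 x hx hcomm
    by_contra hx1
    have h1 : x ∉ Hc := by
      have h2 : x ∈ Cfsg.frobeniusKernel Hc := by rw [hker]; exact hx
      rcases h2 with h2 | h2
      · exact absurd h2 hx1
      · intro h3
        apply h2 1
        rw [map_one, one_smul]
        exact h3
    have h2 := hHc.2.2 x h1
    apply hh1
    rw [← Subgroup.mem_bot, ← h2]
    refine ⟨hh, ?_⟩
    have h3 : x * h * x⁻¹ = h := by
      have h4 : h * x = x * h := by
        calc h * x = h * x * h⁻¹ * h := by group
          _ = x * h := by rw [hcomm]
      rw [← h4]; group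
    have h4 := Subgroup.smul_mem_pointwise_smul h (MulAut.conj x) Hc hh
    rw [MulAut.smul_def, MulAut.conj_apply, h3] at h4
    exact h4) hCF
  exact ⟨W, hW.isInternal⟩

end Cfsg.Agent.S4396
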