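import Cfsg.Statements.S4398
import Cfsg.Agent.Lib.DSQ
import Cfsg.Agent.Lib.SectRank
import Cfsg.Agent.Lib.MaxClassCrit

set_option autoImplicit false
open Cfsg

namespace Cfsg.Agent.S4398

open Subgroup Cfsg.Agent.Lib Cfsg.Agent.Lib.SectRank Cfsg.Agent.Lib.SubgroupTools

/-- a nonabelian subgroup of order 8 is self-centralizing in rank 2 -/
theorem centralizer_le {S : Type*} [Group S] [Finite S] (h2 : IsPGroup 2 S) (hr : RankIn 2 2 (⊤ : Subgroup S))
    (H : Subgroup S) (hH8 : Nat.card H = 8) (hna : ¬ IsMulCommutative H) : centralizer (H : Set S) ≤ H := by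
  have : Fact (Nat.Prime 2) := ⟨Nat.prime_two⟩
  by_contra hcon
  obtain ⟨c, hc, hcM⟩ := SetLike.not_le_iff_exists.1 hcon
  obtain ⟨x, hx, hxM, hx2⟩ : ∃ x, x ∈ centralizer (H : Set S) ∧ x ∉ H ∧ x ^ 2 ∈ H := by
    have hex : ∃ k, c ^ (2 ^ k) ∈ H := by
      obtain ⟨k, hk⟩ := h2 c
      refine ⟨k, ?_⟩
      rw [hk]; exact one_mem _
    classical
    have h0 : Nat.find hex ≠ 0 := by
      intro h
      have := Nat.find_spec hex
      rw [h] at this
      simp at this
      exact hcM this
    obtain ⟨k, hk⟩ := Nat.exists_eq_succ_of_ne_zero h0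
    refine ⟨c ^ 2 ^ k, pow_mem hc _, Nat.find_min hex (by omega), ?_⟩
    rw [← pow_mul, ← pow_succ]
    have := Nat.find_spec hex
    rw [hk] at this
    exact this
  have hHp : IsPGroup 2 H := h2.to_subgroup H
  have hncyc : ¬ IsCyclic H := by
    intro h
    exact hna ⟨⟨fun a b => h.commGroup.mul_comm a b⟩⟩
  obtain ⟨N, hNH, hNi, hN1, hN2⟩ := exists_relIndex_sq hHp hncyc
  -- centre
  have hx2Z : x ^ 2 ∈ N := by
    by_contra hxN
    -- then H is abelian
    have hNc : Nat.card N = 2 := by
      have h1 := card_mul_relIndex_of_le hNH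
      rw [hNi, hH8] at h1
      omega
    -- the centre of H has order 2 and equals N
    have hcent : ∀ y ∈ H, (∀ h ∈ H, h * y = y * h) → y ∈ N := by
      intro y hy hyc
      by_contra hyN
      apply hna
      -- H / Z cyclic
      have hHc : ∀ h ∈ H, ∀ k ∈ H, h * k = k * h := by
        set Z : Subgroup S := H ⊓ centralizer (H : Set S) with hZ
        have hNZ : N ≤ Z := by
          refine le_inf hNH ?_
          have hn : H ≤ normalizer (N : Set S) := by
            have key : ∀ s ∈ H, ∀ x, x ∈ N → s * x * s⁻¹ ∈ N := by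
              intro s hs x hx
              have := mul_mem (hN2 s hs x (hNH hx)) hx
              simpa [mul_assoc] using this
            intro s hs
            rw [mem_normalizer_iff]
            intro x
            refine ⟨key s hs x, fun h => ?_⟩
            have := key s⁻¹ (inv_mem hs) _ h
            simpa [mul_assoc] using this
          exact le_centralizer_of_card_two hn hNc
        have hyZ : y ∈ Z := Subgroup.mem_inf.2 ⟨hy, mem_centralizer_iff.2 hyc⟩
        have hZH : Z ≤ H := inf_le_left
        have h1 : Nat.card Z ∣ 8 := by rw [← hH8]; exact Subgroup.card_dvd_of_le hZH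
        have h2 : Nat.card N < Nat.card Z := by
          have hlt : N < Z := lt_of_le_of_ne hNZ (fun h => hyN (h ▸ hyZ))
          by_contra hge
          push Not at hge
          exact hlt.ne (Subgroup.eq_of_le_of_card_ge hNZ hge)
        have h3 : 4 ≤ Nat.card Z := by
          rw [hNc] at h2
          have h4 : Nat.card Z ≠ 3 := by intro h; rw [h] at h1; norm_num at h1
          omega
        have h4 : Z.relIndex H ≤ 2 := by
          have h5 := card_mul_relIndex_of_le hZH
          rw [hH8] at h5
          by_contra hlt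
          push Not at hlt
          nlinarith
        have hZn : (Z.subgroupOf H).Normal := by
          constructor
          intro n hn g
          rw [mem_subgroupOf] at hn ⊢
          have := mem_centralizer_iff.1 (Subgroup.mem_inf.1 hn).2 g g.2
          have e : ((g * n * g⁻¹ : H) : S) = n := by
            simp only [Subgroup.coe_mul, InvMemClass.coe_inv]
            rw [this]; group
          rw [e]; exact hn
        intro h hh k hk
        by_cases hhZ : h ∈ Z
        · exact (mem_centralizer_iff.1 (Subgroup.mem_inf.1 hhZ).2 k hk).symm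
        by_cases hkZ : k ∈ Z
        · exact mem_centralizer_iff.1 (Subgroup.mem_inf.1 hkZ).2 h hh
        -- h⁻¹ k ∈ Z
        have hi2 : (Z.subgroupOf H).index = 2 := by
          have h6 : (Z.subgroupOf H).index ≤ 2 := h4
          have h7 : (Z.subgroupOf H).index ≠ 0 := Subgroup.FiniteIndex.index_ne_zero
          have h8 : (Z.subgroupOf H).index ≠ 1 := by
            rw [Ne, Subgroup.index_eq_one]
            intro h
            have : (⟨k, hk⟩ : H) ∈ Z.subgroupOf H := by rw [h]; trivial
            exact hkZ (mem_subgroupOf.1 this)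
          omega
        have h9 : h * k ∈ Z := by
          have := (Subgroup.mul_mem_iff_of_index_two hi2 (a := (⟨h, hh⟩ : H)) (b := ⟨k, hk⟩)).2 (by
            rw [mem_subgroupOf, mem_subgroupOf]
            exact ⟨fun h' => absurd h' hhZ, fun h' => absurd h' hkZ⟩)
          exact mem_subgroupOf.1 this
        have h10 := mem_centralizer_iff.1 (Subgroup.mem_inf.1 h9).2 h hh
        -- h * (h * k) = h * k * h
        have h11 : h * (h * k) = h * (k * h) := by rw [h10]; group
        exact mul_left_cancel h11
      exact ⟨⟨fun a b => Subtype.ext (hHc a a.2 b b.2)⟩⟩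
    apply hxN
    apply hcent _ hx2
    intro h hh
    have h1 : Commute h x := mem_centralizer_iff.1 hx h hh
    exact (h1.pow_right 2).eq
  -- the section of order 8
  have hcomx : ∀ m ∈ H, ∀ y ∈ zpowers x, m * y = y * m := by
    rintro m hm _ ⟨i, rfl⟩
    have h1 : Commute m x := mem_centralizer_iff.1 hx m hm
    exact (h1.zpow_right i).eq
  have hnx := le_normalizer_of_commute hcomx
  have hEH : Elem 2 N (H ⊔ zpowers x) := by
    refine ⟨hNH.trans le_sup_left, ?_, ?_⟩
    · intro h hh
      obtain ⟨m, hm, y, hy, rfl⟩ := (mem_sup_of_le_normalizer hnx).1 hh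
      have e : (m * y) ^ 2 = m ^ 2 * y ^ 2 := Commute.mul_pow (hcomx m hm y hy) 2
      rw [e]
      refine mul_mem (hN1 m hm) ?_
      obtain ⟨i, rfl⟩ := hy
      have : (x ^ i) ^ 2 = (x ^ 2) ^ i := by
        rw [← zpow_natCast, ← zpow_natCast, ← zpow_mul, ← zpow_mul, mul_comm]
      simp only
      rw [this]
      exact zpow_mem hx2Z i
    · intro h hh k hk
      obtain ⟨m, hm, y, hy, rfl⟩ := (mem_sup_of_le_normalizer hnx).1 hh
      obtain ⟨m', hm', y', hy', rfl⟩ := (mem_sup_of_le_normalizer hnx).1 hk
      have hyy : y * y' = y' * y := by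
        obtain ⟨i, rfl⟩ := hy
        obtain ⟨j, rfl⟩ := hy'
        simp only
        rw [← zpow_add, ← zpow_add, add_comm]
      have c2 := hcomx m hm y' hy'
      have c3 := hcomx m' hm' y hy
      have e : m * y * (m' * y') * (m * y)⁻¹ * (m' * y')⁻¹ = m * m' * m⁻¹ * m'⁻¹ := by
        have e1 : m * y * (m' * y') = (m * m') * (y * y') := by
          calc m * y * (m' * y') = m * (y * m') * y' := by group
            _ = m * (m' * y) * y' := by rw [c3]
            _ = (m * m') * (y * y') := by group
        have e2 : (m' * y') * (m * y) = (m' * m) * (y * y') := by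
          calc m' * y' * (m * y) = m' * (y' * m) * y := by group
            _ = m' * (m * y') * y := by rw [c2]
            _ = (m' * m) * (y' * y) := by group
            _ = (m' * m) * (y * y') := by rw [hyy]
        calc m * y * (m' * y') * (m * y)⁻¹ * (m' * y')⁻¹ = (m * y * (m' * y')) * ((m' * y') * (m * y))⁻¹ := by group
          _ = ((m * m') * (y * y')) * ((m' * m) * (y * y'))⁻¹ := by rw [e1, e2]
          _ = m * m' * m⁻¹ * m'⁻¹ := by group
      rw [e]
      exact hN2 m hm m' hm'
  have hle := hr.le hEH le_top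
  have hmul : N.relIndex H * H.relIndex (H ⊔ zpowers x) = N.relIndex (H ⊔ zpowers x) :=
    relIndex_mul_relIndex _ _ _ hNH le_sup_left
  have hne1 : H.relIndex (H ⊔ zpowers x) ≠ 1 := by
    intro h
    rw [Subgroup.relIndex_eq_one] at h
    exact hxM (h (mem_sup_right (mem_zpowers x)))
  have hne0 : H.relIndex (H ⊔ zpowers x) ≠ 0 := Subgroup.FiniteIndex.index_ne_zero
  rw [hNi] at hmul
  norm_num at hle hmul
  omega

theorem nonabelian_of {H : Type*} [Group H] (h : Nonempty (H ≃* DihedralGroup 4) ∨ Nonempty (H ≃* QuaternionGroup 2)) :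
    Nat.card H = 8 ∧ ¬ IsMulCommutative H := by
  rcases h with ⟨⟨e⟩⟩ | ⟨⟨e⟩⟩
  · refine ⟨by rw [Nat.card_congr e.toEquiv, DihedralGroup.nat_card], ?_⟩
    intro hc
    have h1 : e.symm (DihedralGroup.r 1) * e.symm (DihedralGroup.sr 0) = e.symm (DihedralGroup.sr 0) * e.symm (DihedralGroup.r 1) :=
      hc.is_comm.comm _ _
    rw [← map_mul, ← map_mul] at h1
    have h2 := e.symm.injective h1
    exact absurd h2 (by decide)
  · refine ⟨by rw [Nat.card_congr e.toEquiv, Nat.card_eq_fintype_card, QuaternionGroup.card], ?_⟩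
    intro hc
    have h1 : e.symm (QuaternionGroup.a 1) * e.symm (QuaternionGroup.xa 0) = e.symm (QuaternionGroup.xa 0) * e.symm (QuaternionGroup.a 1) :=
      hc.is_comm.comm _ _
    rw [← map_mul, ← map_mul] at h1
    have h2 := e.symm.injective h1
    exact absurd h2 (by decide)

/-- Let S be a finite 2-group of sectional 2-rank at most 2 that contains a subgroup isomorphic to the dihedral group of order 8 or to the quaternion group of order 8. Then S is dihedral of order at least 8, semidihedral of order at least 16 (order 2^(k+4) with an element a of order 2^(k+3) and an involution b with b a b⁻¹ = a^(2^(k+2)−1)), or generalized quaternion of order at least 8. -/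
theorem result {S : Type*} [Group S] [Finite S] (h2 : IsPGroup 2 S) (hr : Cfsg.SectionalPRankLE 2 2 S)
    (hsub : ∃ H : Subgroup S, Nonempty (↥H ≃* DihedralGroup 4) ∨ Nonempty (↥H ≃* QuaternionGroup 2)) :
    ((∃ k : ℕ, Nonempty (S ≃* DihedralGroup (2 ^ (k + 2)))) ∨
      (∃ k : ℕ, Nat.card S = 2 ^ (k + 4) ∧ ∃ a b : S, orderOf a = 2 ^ (k + 3) ∧ orderOf b = 2 ∧ b * a * b⁻¹ = a ^ (2 ^ (k + 2) - 1)) ∨
      (∃ k : ℕ, Nonempty (S ≃* QuaternionGroup (2 ^ (k + 1))))) := by
  have : Fact (Nat.Prime 2) := ⟨Nat.prime_two⟩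
  obtain ⟨H, hH⟩ := hsub
  obtain ⟨hH8, hna⟩ := nonabelian_of hH
  have hC := centralizer_le h2 (rankIn_of_sectional hr) H hH8 hna
  obtain ⟨n, hn⟩ := IsPGroup.iff_card.1 h2
  have hn3 : 3 ≤ n := by
    have h1 : 2 ^ 3 ∣ 2 ^ n := by
      rw [← hn]
      have : (2 : ℕ) ^ 3 = Nat.card H := by rw [hH8]; norm_num
      rw [this]
      exact Subgroup.card_subgroup_dvd_card H
    exact (Nat.pow_dvd_pow_iff_le_right (by norm_num)).1 h1
  have hcl := MaxClassCrit.nilpotencyClass_of_nonabelian_cube (p := 2) n hn H (by rw [hH8]; norm_num) hna hC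
  have hk := MaximalClass.isKleinFour_of_class hn3 hn hcl
  exact DSQ.dsq_of_index_four hn3 hn (MaximalClass.index_commutator_of_isKleinFour hk)

end Cfsg.Agent.S4398
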