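import Cfsg.Statements.S4400
import Cfsg.Agent.Lib.SectRank

set_option autoImplicit false
open Cfsg

namespace Cfsg.Agent.S4400

open Subgroup Cfsg.Agent.Lib.SectRank

theorem map_center_eq {S : Type*} [Group S] (P : Subgroup S) :
    (Subgroup.center ↥P).map P.subtype = P ⊓ centralizer (P : Set S) := by
  ext x
  constructor
  · rintro ⟨y, hy, rfl⟩
    refine Subgroup.mem_inf.2 ⟨y.2, mem_centralizer_iff.2 fun z hz => ?_⟩
    exact congrArg Subtype.val (mem_center_iff.1 hy ⟨z, hz⟩)
  · intro hx
    refine ⟨⟨x, (Subgroup.mem_inf.1 hx).1⟩, mem_center_iff.2 fun z => ?_, rfl⟩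
    exact Subtype.ext (mem_centralizer_iff.1 (Subgroup.mem_inf.1 hx).2 z z.2)

theorem card_center_eq {S : Type*} [Group S] (P : Subgroup S) :
    Nat.card (P ⊓ centralizer (P : Set S) : Subgroup S) = Nat.card (Subgroup.center ↥P) := by
  rw [← map_center_eq, Subgroup.card_map_of_injective P.subtype_injective]

theorem not_le_centralizer {S : Type*} [Group S] {P : Subgroup S} (hP : ¬ IsMulCommutative ↥P) :
    ¬ P ≤ centralizer (P : Set S) := by
  intro h
  apply hP
  refine ⟨⟨fun a b => Subtype.ext ?_⟩⟩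
  exact mem_centralizer_iff.1 (h b.2) a a.2

/-- Let S be a finite 2-group of sectional 2-rank at most 4, and let P and Q be normal non-abelian subgroups of S whose centres have order 2 and are different. Then P and Q commute elementwise and intersect trivially, and PQ contains its own centralizer in S. -/
theorem result {S : Type*} [Group S] [Finite S] (h2 : IsPGroup 2 S) (hr : Cfsg.SectionalPRankLE 2 4 S)
    (P Q : Subgroup S) [P.Normal] [Q.Normal] (hP : ¬ IsMulCommutative ↥P) (hQ : ¬ IsMulCommutative ↥Q)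
    (hZP : Nat.card ↥(Subgroup.center ↥P) = 2) (hZQ : Nat.card ↥(Subgroup.center ↥Q) = 2)
    (hne : (Subgroup.center ↥P).map P.subtype ≠ (Subgroup.center ↥Q).map Q.subtype) :
    ⁅P, Q⁆ = ⊥ ∧ P ⊓ Q = ⊥ ∧ Subgroup.centralizer ((P ⊔ Q : Subgroup S) : Set S) ≤ P ⊔ Q := by
  rw [map_center_eq, map_center_eq] at hne
  obtain ⟨h1, h3, h4⟩ := two_normal (S := (⊤ : Subgroup S)) (A := P) (B := Q) (h2.to_subgroup ⊤)
    (rankIn_of_sectional hr) le_top le_top (by rw [normalizer_eq_top]) (by rw [normalizer_eq_top])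
    (not_le_centralizer hP) (not_le_centralizer hQ) (by rw [card_center_eq, hZP]) (by rw [card_center_eq, hZQ]) hne
  refine ⟨?_, h3, by simpa using h4⟩
  rw [commutator_eq_bot_iff_le_centralizer]
  intro a ha
  rw [mem_centralizer_iff]
  intro b hb
  exact (h1 a ha b hb).symm

end Cfsg.Agent.S4400
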