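import Cfsg.Statements.S4401
import Cfsg.Agent.Lib.SectRank
import Cfsg.Agent.S4400

set_option autoImplicit false
open Cfsg

namespace Cfsg.Agent.S4401

open Subgroup Cfsg.Agent.Lib.SectRank Cfsg.Agent.Lib.SubgroupTools

variable {G : Type*} [Group G]

/-- conjugate subgroup `g P g⁻¹` -/
def cj (g : G) (P : Subgroup G) : Subgroup G := P.map (MulAut.conj g).toMonoidHom

theorem mem_cj {g x : G} {P : Subgroup G} : x ∈ cj g P ↔ g⁻¹ * x * g ∈ P := by
  constructor
  · rintro ⟨y, hy, rfl⟩
    simpa [mul_assoc] using hy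
  · intro h
    exact ⟨_, h, by simp [mul_assoc]⟩

theorem card_cj (g : G) (P : Subgroup G) : Nat.card (cj g P) = Nat.card P :=
  Subgroup.card_map_of_injective (MulAut.conj g).injective

theorem cj_mono (g : G) {P Q : Subgroup G} (h : P ≤ Q) : cj g P ≤ cj g Q := Subgroup.map_mono h

theorem cj_center (g : G) (P : Subgroup G) :
    cj g P ⊓ centralizer (cj g P : Set G) = cj g (P ⊓ centralizer (P : Set G)) := by
  ext x
  rw [Subgroup.mem_inf, mem_cj, mem_cj, Subgroup.mem_inf, mem_centralizer_iff, mem_centralizer_iff]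
  refine and_congr_right fun _ => ⟨fun h y hy => ?_, fun h y hy => ?_⟩
  · have h1 := h (g * y * g⁻¹) (mem_cj.2 (by simpa [mul_assoc] using hy))
    calc y * (g⁻¹ * x * g) = g⁻¹ * ((g * y * g⁻¹) * x) * g := by group
      _ = g⁻¹ * (x * (g * y * g⁻¹)) * g := by rw [h1]
      _ = g⁻¹ * x * g * y := by group
  · have h1 := h _ (mem_cj.1 hy)
    calc y * x = g * ((g⁻¹ * y * g) * (g⁻¹ * x * g)) * g⁻¹ := by group
      _ = g * ((g⁻¹ * x * g) * (g⁻¹ * y * g)) * g⁻¹ := by rw [h1]
      _ = x * y := by group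

theorem main [Finite G] (h2 : IsPGroup 2 G) (hr : RankIn 2 4 (⊤ : Subgroup G))
    (P : Subgroup G) (z : G) (hz1 : z ≠ 1) (hzz : z * z = 1) (hzP : z ∈ P)
    (hzC : ∀ y ∈ P, y * z = z * y) (hZ : ∀ x ∈ P, (∀ y ∈ P, y * x = x * y) → x = 1 ∨ x = z)
    (hZc : Nat.card (P ⊓ centralizer (P : Set G) : Subgroup G) = 2)
    (hP : ¬ P ≤ centralizer (P : Set G)) (S₀ : Subgroup G) (hS₀ : ∀ s, s ∈ S₀ ↔ s * z = z * s)
    (hPn : ∀ s ∈ S₀, ∀ x ∈ P, s * x * s⁻¹ ∈ P) : S₀ = ⊤ ∨ (RankIn 2 2 P ∧ S₀.index = 2) := by
  by_cases htop : S₀ = ⊤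
  · exact Or.inl htop
  right
  have hPS : P ≤ S₀ := fun x hx => (hS₀ x).2 (hzC x hx)
  have hS₀' : ∀ s, s ∈ S₀ ↔ s * z * s⁻¹ = z := by
    intro s
    rw [hS₀, mul_inv_eq_iff_eq_mul]
  set N : Subgroup G := normalizer (S₀ : Set G) with hN
  have hSN : S₀ ≤ N := le_normalizer
  have hNc : ∀ n ∈ N, ∀ s, s ∈ S₀ ↔ n * s * n⁻¹ ∈ S₀ := fun n hn s => mem_normalizer_iff.1 hn s
  have hNc' : ∀ n ∈ N, ∀ s, s ∈ S₀ ↔ n⁻¹ * s * n ∈ S₀ := by
    intro n hn s
    have := hNc n⁻¹ (inv_mem hn) s
    rwa [inv_inv] at this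
  -- the main commuting property
  have T : ∀ g ∈ N, ∀ k ∈ N, g * z * g⁻¹ ≠ k * z * k⁻¹ →
      (∀ a ∈ cj g P, ∀ b ∈ cj k P, a * b = b * a) ∧ cj g P ⊓ cj k P = ⊥ ∧
        S₀ ⊓ centralizer ((cj g P ⊔ cj k P : Subgroup G) : Set G) ≤ cj g P ⊔ cj k P := by
    intro g hg k hk hne
    have a1 : ∀ g ∈ N, cj g P ≤ S₀ := by
      intro g hg x hx
      rw [mem_cj] at hx
      exact (hNc' g hg x).2 (hPS hx)
    have a2 : ∀ g ∈ N, S₀ ≤ normalizer (cj g P : Set G) := by
      intro g hg s hs
      have key : ∀ s ∈ S₀, ∀ x ∈ cj g P, s * x * s⁻¹ ∈ cj g P := by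
        intro s hs x hx
        rw [mem_cj] at hx ⊢
        have h1 : g⁻¹ * s * g ∈ S₀ := (hNc' g hg s).1 hs
        have h2 := hPn _ h1 _ hx
        have e : g⁻¹ * (s * x * s⁻¹) * g = g⁻¹ * s * g * (g⁻¹ * x * g) * (g⁻¹ * s * g)⁻¹ := by group
        rw [e]; exact h2
      rw [mem_normalizer_iff]
      intro x
      refine ⟨key s hs x, fun h => ?_⟩
      have := key s⁻¹ (inv_mem hs) _ h
      simpa [mul_assoc] using this
    have a3 : ∀ g, ¬ cj g P ≤ centralizer (cj g P : Set G) := by
      intro g h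
      apply hP
      have h1 : cj g P ⊓ centralizer (cj g P : Set G) = cj g P := inf_eq_left.2 h
      rw [cj_center] at h1
      have h3 := card_cj g (P ⊓ centralizer (P : Set G))
      rw [h1, card_cj] at h3
      have h4 : P ⊓ centralizer (P : Set G) = P := Subgroup.eq_of_le_of_card_ge inf_le_left h3.le
      exact inf_eq_left.1 h4
    have a4 : ∀ g, Nat.card (cj g P ⊓ centralizer (cj g P : Set G) : Subgroup G) = 2 := by
      intro g
      rw [cj_center, card_cj, hZc]
    refine two_normal (h2.to_subgroup S₀) (hr.mono le_top) (a1 g hg) (a1 k hk) (a2 g hg) (a2 k hk)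
      (a3 g) (a3 k) (a4 g) (a4 k) ?_
    intro heq
    rw [cj_center, cj_center] at heq
    have hzZ : z ∈ P ⊓ centralizer (P : Set G) := Subgroup.mem_inf.2 ⟨hzP, mem_centralizer_iff.2 hzC⟩
    have h5 : g * z * g⁻¹ ∈ cj k (P ⊓ centralizer (P : Set G)) := by
      rw [← heq]; exact ⟨z, hzZ, rfl⟩
    rw [mem_cj, Subgroup.mem_inf] at h5
    rcases hZ _ h5.1 (mem_centralizer_iff.1 h5.2) with h6 | h6
    · apply hz1
      have : z = g⁻¹ * (k * (k⁻¹ * (g * z * g⁻¹) * k) * k⁻¹) * g := by group
      rw [this, h6]; group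
    · apply hne
      have : g * z * g⁻¹ = k * (k⁻¹ * (g * z * g⁻¹) * k) * k⁻¹ := by group
      rw [this, h6]
  have cj1 : ∀ X : Subgroup G, cj 1 X = X := by
    intro X; ext x; rw [mem_cj]; simp
  have T1 : ∀ g ∈ N, g ∉ S₀ → (∀ a ∈ P, ∀ b ∈ cj g P, a * b = b * a) ∧ P ⊓ cj g P = ⊥ ∧
        S₀ ⊓ centralizer ((P ⊔ cj g P : Subgroup G) : Set G) ≤ P ⊔ cj g P := by
    intro g hg hgS
    have := T 1 (one_mem _) g hg ?_
    · rwa [cj1] at this
    · intro h
      rw [hS₀'] at hgS
      apply hgS
      rw [← h]; simp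
  -- (2)
  have hsame : ∀ g ∈ N, g ∉ S₀ → ∀ k ∈ N, k ∉ S₀ → g * z * g⁻¹ = k * z * k⁻¹ := by
    intro g hg hgS k hk hkS
    by_contra hne
    obtain ⟨t1, t2, t3⟩ := T g hg k hk hne
    obtain ⟨u1, u2, u3⟩ := T1 g hg hgS
    obtain ⟨v1, v2, v3⟩ := T1 k hk hkS
    apply hP
    have hle : P ≤ cj g P ⊔ cj k P := by
      refine le_trans ?_ t3
      refine le_inf hPS ?_
      intro x hx
      rw [mem_centralizer_iff]
      intro y hy
      have hn := le_normalizer_of_commute t1
      obtain ⟨a, ha, b, hb, rfl⟩ := (mem_sup_of_le_normalizer hn).1 hy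
      have e1 := u1 x hx a ha
      have e2 := v1 x hx b hb
      calc a * b * x = a * (b * x) := by group
        _ = a * (x * b) := by rw [e2]
        _ = (a * x) * b := by group
        _ = (x * a) * b := by rw [e1]
        _ = x * (a * b) := by group
    intro x hx
    rw [mem_centralizer_iff]
    intro y hy
    have hn := le_normalizer_of_commute t1
    obtain ⟨a, ha, b, hb, rfl⟩ := (mem_sup_of_le_normalizer hn).1 (hle hy)
    have e1 := u1 x hx a ha
    have e2 := v1 x hx b hb
    calc a * b * x = a * (b * x) := by group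
      _ = a * (x * b) := by rw [e2]
      _ = (a * x) * b := by group
      _ = (x * a) * b := by rw [e1]
      _ = x * (a * b) := by group
  -- existence of an element in N outside S₀
  have hnil : Group.IsNilpotent G := h2.isNilpotent
  have hnc := Group.normalizerCondition_of_isNilpotent (G := G)
  obtain ⟨g, hgN, hgS⟩ : ∃ g ∈ N, g ∉ S₀ := by
    have := hnc S₀ (lt_top_iff_ne_top.2 htop)
    obtain ⟨g, hg, hg'⟩ := SetLike.exists_of_lt this
    exact ⟨g, hg, hg'⟩
  obtain ⟨g1, g2, g3⟩ := T1 g hgN hgS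
  -- (1) rank
  have hrank : RankIn 2 2 P := by
    intro M H hMH hHP h3 h4
    by_contra hlt
    push Not at hlt
    have hE : Elem 2 M H := ⟨hMH, h3, h4⟩
    have hE' : Elem 2 (cj g M) (cj g H) := by
      refine ⟨cj_mono g hMH, ?_, ?_⟩
      · rintro _ ⟨x, hx, rfl⟩
        rw [← map_pow]
        exact ⟨_, h3 x hx, rfl⟩
      · rintro _ ⟨x, hx, rfl⟩ _ ⟨y, hy, rfl⟩
        exact ⟨_, h4 x hx y hy, by simp [mul_assoc]⟩
    obtain ⟨hE2, hi⟩ := hE.sup hE' (fun a ha b hb => g1 a (hHP ha) b (cj_mono g hHP hb)) (by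
      rw [eq_bot_iff, ← g2]; exact inf_le_inf hHP (cj_mono g hHP))
    have hle := hr.le hE2 le_top
    rw [hi] at hle
    have hi2 : (cj g M).relIndex (cj g H) = M.relIndex H :=
      Subgroup.relIndex_map_map_of_injective _ _ (MulAut.conj g).injective
    rw [hi2] at hle
    norm_num at hle hlt
    nlinarith
  refine ⟨hrank, ?_⟩
  -- (3)
  have hNtop : N = ⊤ := by
    by_contra hNt
    obtain ⟨h, hh, hhN⟩ := SetLike.exists_of_lt (hnc N (lt_top_iff_ne_top.2 hNt))
    have hcN : ∀ n, n ∈ N ↔ h * n * h⁻¹ ∈ N := fun n => mem_normalizer_iff.1 hh n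
    have hcN' : ∀ n, n ∈ N ↔ h⁻¹ * n * h ∈ N := by
      intro n
      have := mem_normalizer_iff.1 (inv_mem hh) n
      rwa [inv_inv] at this
    obtain ⟨w, hw⟩ : ∃ w, w = h * z * h⁻¹ := ⟨_, rfl⟩
    obtain ⟨z', hz'⟩ : ∃ z', z' = g * z * g⁻¹ := ⟨_, rfl⟩
    have hz'z : z' ≠ z := by
      rw [hS₀'] at hgS
      rw [hz']; exact hgS
    have hcomzz : z * z' = z' * z := by
      apply g1 z hzP
      rw [hz', mem_cj]
      simpa [mul_assoc] using hzP
    have swap : ∀ n ∈ N, n ∉ S₀ → n * z * n⁻¹ = z' ∧ n * z' * n⁻¹ = z := by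
      intro n hn hnS
      refine ⟨by rw [hz']; exact hsame n hn hnS g hgN hgS, ?_⟩
      have h1 : n⁻¹ * z * n⁻¹⁻¹ = z' := by
        rw [hz']; exact hsame n⁻¹ (inv_mem hn) (fun h => hnS (by simpa using inv_mem h)) g hgN hgS
      rw [← h1]; group
    have fixz : ∀ n ∈ S₀, n * z * n⁻¹ = z ∧ n * z' * n⁻¹ = z' := by
      intro n hn
      refine ⟨(hS₀' n).1 hn, ?_⟩
      have hng : n * g ∉ S₀ := fun h => hgS (by
        have := mul_mem (inv_mem hn) h
        simpa using this)
      have := (swap (n * g) (mul_mem (hSN hn) hgN) hng).1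
      calc n * z' * n⁻¹ = n * g * z * (n * g)⁻¹ := by rw [hz']; group
        _ = z' := this
    have hwN : ∀ n ∈ N, n * z * n⁻¹ = z ∨ n * z * n⁻¹ = z' := by
      intro n hn
      by_cases hnS : n ∈ S₀
      · exact Or.inl (fixz n hnS).1
      · exact Or.inr (swap n hn hnS).1
    have hzz' : ∀ n ∈ N, n * (z * z') * n⁻¹ = z * z' := by
      intro n hn
      by_cases hnS : n ∈ S₀
      · obtain ⟨f1, f2⟩ := fixz n hnS
        calc n * (z * z') * n⁻¹ = (n * z * n⁻¹) * (n * z' * n⁻¹) := by group
          _ = z * z' := by rw [f1, f2]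
      · obtain ⟨f1, f2⟩ := swap n hn hnS
        calc n * (z * z') * n⁻¹ = (n * z * n⁻¹) * (n * z' * n⁻¹) := by group
          _ = z' * z := by rw [f1, f2]
          _ = z * z' := hcomzz.symm
    -- conjugates
    obtain ⟨w', hw'⟩ : ∃ w', w' = h * z' * h⁻¹ := ⟨_, rfl⟩
    have hwconj : ∀ n ∈ N, n * w * n⁻¹ = w ∨ n * w * n⁻¹ = w' := by
      intro n hn
      have hm := (hcN' n).1 hn
      rcases hwN _ hm with h1 | h1
      · left
        calc n * w * n⁻¹ = h * ((h⁻¹ * n * h) * z * (h⁻¹ * n * h)⁻¹) * h⁻¹ := by rw [hw]; group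
          _ = w := by rw [h1, hw]
      · right
        calc n * w * n⁻¹ = h * ((h⁻¹ * n * h) * z * (h⁻¹ * n * h)⁻¹) * h⁻¹ := by rw [hw]; group
          _ = w' := by rw [h1, hw']
    have hww' : ∀ n ∈ N, n * (w * w') * n⁻¹ = w * w' := by
      intro n hn
      have hm := (hcN' n).1 hn
      have h1 := hzz' _ hm
      calc n * (w * w') * n⁻¹ = h * ((h⁻¹ * n * h) * (z * z') * (h⁻¹ * n * h)⁻¹) * h⁻¹ := by rw [hw, hw']; group
        _ = w * w' := by rw [h1, hw, hw']; group
    have hwinv : w⁻¹ = w := by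
      rw [inv_eq_iff_mul_eq_one, hw]
      calc h * z * h⁻¹ * (h * z * h⁻¹) = h * (z * z) * h⁻¹ := by group
        _ = 1 := by rw [hzz]; group
    have hw'inv : w'⁻¹ = w' := by
      rw [inv_eq_iff_mul_eq_one, hw', hz']
      calc h * (g * z * g⁻¹) * h⁻¹ * (h * (g * z * g⁻¹) * h⁻¹) = h * g * (z * z) * g⁻¹ * h⁻¹ := by group
        _ = 1 := by rw [hzz]; group
    have hwNmem : w ∈ N := by
      rw [hw]; exact (hcN z).1 (hSN (hPS hzP))
    by_cases hwS : w ∈ S₀
    · -- case A
      obtain ⟨n, hn1, hn2⟩ : ∃ n ∈ cj h S₀, n ∉ S₀ := by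
        by_contra hcon
        push Not at hcon
        apply hhN
        have heq : cj h S₀ = S₀ := Subgroup.eq_of_le_of_card_ge hcon (by rw [card_cj])
        rw [hN, mem_normalizer_iff'']
        intro x
        rw [← mem_cj, heq]
      have hnN : n ∈ N := by
        rw [hcN']
        exact hSN (mem_cj.1 hn1)
      have hnw : n * w = w * n := by
        have h1 := (hS₀ _).1 (mem_cj.1 hn1)
        calc n * w = h * ((h⁻¹ * n * h) * z) * h⁻¹ := by rw [hw]; group
          _ = h * (z * (h⁻¹ * n * h)) * h⁻¹ := by rw [h1]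
          _ = w * n := by rw [hw]; group
      obtain ⟨n1, n2, n3⟩ := T1 n hnN hn2
      by_cases hwc : ∀ a ∈ P, w * a = a * w
      · have hwc' : ∀ b ∈ cj n P, w * b = b * w := by
          intro b hb
          have h1 := hwc _ (mem_cj.1 hb)
          have hnw' : n⁻¹ * w = w * n⁻¹ := by
            calc n⁻¹ * w = n⁻¹ * (w * n) * n⁻¹ := by group
              _ = n⁻¹ * (n * w) * n⁻¹ := by rw [hnw]
              _ = w * n⁻¹ := by group
          calc w * b = w * n * (n⁻¹ * b * n) * n⁻¹ := by group
            _ = n * w * (n⁻¹ * b * n) * n⁻¹ := by rw [hnw]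
            _ = n * (w * (n⁻¹ * b * n)) * n⁻¹ := by group
            _ = n * ((n⁻¹ * b * n) * w) * n⁻¹ := by rw [h1]
            _ = b * (n * w) * n⁻¹ := by group
            _ = b * (w * n) * n⁻¹ := by rw [hnw]
            _ = b * w := by group
        have hmem : w ∈ P ⊔ cj n P := by
          apply n3
          refine Subgroup.mem_inf.2 ⟨hwS, mem_centralizer_iff.2 ?_⟩
          intro y hy
          obtain ⟨a, ha, b, hb, rfl⟩ := (mem_sup_of_le_normalizer (le_normalizer_of_commute n1)).1 hy
          calc a * b * w = a * (b * w) := by group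
            _ = a * (w * b) := by rw [hwc' b hb]
            _ = (a * w) * b := by group
            _ = (w * a) * b := by rw [hwc a ha]
            _ = w * (a * b) := by group
        obtain ⟨a, ha, b, hb, hab⟩ := (mem_sup_of_le_normalizer (le_normalizer_of_commute n1)).1 hmem
        have haZ : a = 1 ∨ a = z := by
          apply hZ a ha
          intro m hm
          have e1 := hwc m hm
          rw [← hab] at e1
          have e2 := n1 m hm b hb
          have : a * m * b = m * a * b := by
            calc a * m * b = a * (m * b) := by group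
              _ = a * (b * m) := by rw [e2]
              _ = a * b * m := by group
              _ = m * (a * b) := e1
              _ = m * a * b := by group
          exact (mul_right_cancel this).symm
        have hbZ : n⁻¹ * b * n = 1 ∨ n⁻¹ * b * n = z := by
          apply hZ _ (mem_cj.1 hb)
          intro m hm
          have hm' : n * m * n⁻¹ ∈ cj n P := by
            rw [mem_cj]; simpa [mul_assoc] using hm
          have e1 := hwc' _ hm'
          rw [← hab] at e1
          have e2 := n1 a ha _ hm'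
          have e3 : b * (n * m * n⁻¹) = (n * m * n⁻¹) * b := by
            have : a * (b * (n * m * n⁻¹)) = a * ((n * m * n⁻¹) * b) := by
              calc a * (b * (n * m * n⁻¹)) = a * b * (n * m * n⁻¹) := by group
                _ = (n * m * n⁻¹) * (a * b) := e1
                _ = ((n * m * n⁻¹) * a) * b := by group
                _ = (a * (n * m * n⁻¹)) * b := by rw [e2]
                _ = a * ((n * m * n⁻¹) * b) := by group
            exact mul_left_cancel this
          calc m * (n⁻¹ * b * n) = n⁻¹ * ((n * m * n⁻¹) * b) * n := by group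
            _ = n⁻¹ * (b * (n * m * n⁻¹)) * n := by rw [e3]
            _ = n⁻¹ * b * n * m := by group
        have hb' : b = 1 ∨ b = z' := by
          rcases hbZ with h1 | h1
          · left
            calc b = n * (n⁻¹ * b * n) * n⁻¹ := by group
              _ = 1 := by rw [h1]; group
          · right
            calc b = n * (n⁻¹ * b * n) * n⁻¹ := by group
              _ = z' := by rw [h1]; exact (swap n hnN hn2).1
        have hwne : w ≠ 1 := by
          intro h1
          apply hz1
          calc z = h⁻¹ * w * h := by rw [hw]; group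
            _ = 1 := by rw [h1]; group
        have hnwc : n * w * n⁻¹ = w := by rw [hnw]; group
        rcases haZ with rfl | rfl <;> rcases hb' with rfl | hb'
        · exact hwne (by rw [← hab]; group)
        · have : w = z' := by rw [← hab, hb']; group
          rw [this, (swap n hnN hn2).2] at hnwc
          exact hz'z hnwc.symm
        · have : w = a := by rw [← hab]; group
          rw [this, (swap n hnN hn2).1] at hnwc
          exact hz'z hnwc
        · have hweq : w = a * z' := by rw [← hab, hb']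
          have hNle : N ≤ cj h S₀ := by
            intro m hm
            rw [mem_cj, hS₀']
            have h1 := hzz' m hm
            rw [← hweq] at h1
            calc h⁻¹ * m * h * a * (h⁻¹ * m * h)⁻¹ = h⁻¹ * (m * (h * a * h⁻¹) * m⁻¹) * h := by group
              _ = h⁻¹ * (h * a * h⁻¹) * h := by rw [← hw, h1]
              _ = a := by group
          have h3 : Nat.card N ≤ Nat.card S₀ := by
            rw [← card_cj h S₀]
            exact Subgroup.card_le_of_le hNle
          have h4 : S₀ = N := Subgroup.eq_of_le_of_card_ge hSN h3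
          exact hn2 (h4 ▸ hnN)
      · push Not at hwc
        obtain ⟨a, ha, hwa⟩ := hwc
        have haN : a ∈ N := hSN (hPS ha)
        rcases hwconj a haN with h1 | h1
        · apply hwa
          rw [mul_inv_eq_iff_eq_mul] at h1
          exact h1.symm
        · have hv : w * a * w⁻¹ * a⁻¹ = w * w' := by
            calc w * a * w⁻¹ * a⁻¹ = w * (a * w * a⁻¹)⁻¹ := by group
              _ = w * w' := by rw [h1, hw'inv]
          have hvP : w * w' ∈ P := by
            rw [← hv]
            exact mul_mem (hPn w hwS a ha) (inv_mem ha)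
          have hvne : w * w' ≠ 1 := by
            intro h2
            apply hwa
            rw [← hv] at h2
            calc w * a = (w * a * w⁻¹ * a⁻¹) * (a * w) := by group
              _ = a * w := by rw [h2, one_mul]
          rcases hZ _ hvP (fun y hy => by
            have := hww' y (hSN (hPS hy))
            rwa [mul_inv_eq_iff_eq_mul] at this) with h2 | h2
          · exact hvne h2
          · apply hn2
            rw [hS₀', ← h2]
            exact hww' n hnN
    · -- case B
      obtain ⟨t1, t2, t3⟩ := T1 w hwNmem hwS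
      have key : ∀ a ∈ P, a ≠ 1 → ∀ b ∈ P, b ≠ 1 → a = b := by
        have k1 : ∀ a ∈ P, a ≠ 1 → a * w * a⁻¹ = w' := by
          intro a ha ha1
          rcases hwconj a (hSN (hPS ha)) with h1 | h1
          · exfalso
            apply ha1
            have : a ∈ P ⊓ cj w P := by
              refine Subgroup.mem_inf.2 ⟨ha, ?_⟩
              rw [mem_cj]
              have h3 : w⁻¹ * a * w = a := by
                rw [mul_inv_eq_iff_eq_mul] at h1
                rw [mul_assoc, h1]; group
              rw [h3]; exact ha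
            rw [t2, mem_bot] at this
            exact this
          · exact h1
        intro a ha ha1 b hb hb1
        have e1 := k1 a ha ha1
        have e2 := k1 b hb hb1
        by_contra hne
        have hab : b⁻¹ * a ≠ 1 := fun h => hne (inv_mul_eq_one.1 h).symm
        have e3 : b⁻¹ * a * w * (b⁻¹ * a)⁻¹ = w := by
          calc b⁻¹ * a * w * (b⁻¹ * a)⁻¹ = b⁻¹ * (a * w * a⁻¹) * b := by group
            _ = b⁻¹ * (b * w * b⁻¹) * b := by rw [e1, e2]
            _ = w := by group
        have e4 := k1 _ (mul_mem (inv_mem hb) ha) hab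
        rw [e3] at e4
        -- w = w', then a w a⁻¹ = w
        rw [← e4] at e1
        have : a ∈ P ⊓ cj w P := by
          refine Subgroup.mem_inf.2 ⟨ha, ?_⟩
          rw [mem_cj]
          have h3 : w⁻¹ * a * w = a := by
            rw [mul_inv_eq_iff_eq_mul] at e1
            rw [mul_assoc, e1]; group
          rw [h3]; exact ha
        rw [t2, mem_bot] at this
        exact ha1 this
      apply hP
      intro a ha
      rw [mem_centralizer_iff]
      intro b hb
      by_cases ha1 : a = 1
      · rw [ha1]; simp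
      by_cases hb1 : b = 1
      · rw [hb1]; simp
      rw [key a ha ha1 b hb hb1]
  rw [Subgroup.index_eq_two_iff]
  refine ⟨g, fun b => ?_⟩
  have hbN : b ∈ N := by rw [hNtop]; exact mem_top b
  by_cases hb : b ∈ S₀
  · right
    refine ⟨hb, fun h => hgS ?_⟩
    have := mul_mem (inv_mem hb) h
    simpa using this
  · left
    refine ⟨?_, hb⟩
    rw [hS₀']
    have h1 := hsame b⁻¹ (inv_mem hbN) (fun h => hb (by simpa using inv_mem h)) g hgN hgS
    calc b * g * z * (b * g)⁻¹ = b * (g * z * g⁻¹) * b⁻¹ := by group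
      _ = b * (b⁻¹ * z * b⁻¹⁻¹) * b⁻¹ := by rw [h1]
      _ = z := by group

/-- Let S be a finite 2-group of sectional 2-rank at most 4 and P a proper non-abelian subgroup whose centre has order 2. Let S₀ be the centralizer in S of Z(P) and suppose P is normal in S₀. Then either S₀ = S, or P has sectional 2-rank at most 2 and S₀ has index 2 in S. -/
theorem result {S : Type*} [Group S] [Finite S] (h2 : IsPGroup 2 S) (hr : Cfsg.SectionalPRankLE 2 4 S)
    (P : Subgroup S) (hPlt : P ≠ ⊤) (hP : ¬ IsMulCommutative ↥P) (hZP : Nat.card ↥(Subgroup.center ↥P) = 2)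
    (S₀ : Subgroup S) (hS₀ : S₀ = Subgroup.centralizer (((Subgroup.center ↥P).map P.subtype : Subgroup S) : Set S))
    (hPn : ∀ s ∈ S₀, ∀ x ∈ P, s * x * s⁻¹ ∈ P) :
    S₀ = ⊤ ∨ (Cfsg.SectionalPRankLE 2 2 ↥P ∧ S₀.index = 2) := by
  have hfin : Finite (Subgroup.center ↥P) := Nat.finite_of_card_ne_zero (by rw [hZP]; norm_num)
  obtain ⟨z, hz⟩ : ∃ z : Subgroup.center ↥P, z ≠ 1 := by
    have : Nontrivial (Subgroup.center ↥P) := Finite.one_lt_card_iff_nontrivial.1 (by rw [hZP]; norm_num)
    exact exists_ne 1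
  have hall : ∀ x : Subgroup.center ↥P, x = 1 ∨ x = z := by
    intro x
    by_contra hcon
    push Not at hcon
    have := Fintype.ofFinite (Subgroup.center ↥P)
    classical
    let F : Finset (Subgroup.center ↥P) := {1, z, x}
    have h4 : F.card = 3 := by
      rw [Finset.card_eq_three]
      exact ⟨_, _, _, hz.symm, hcon.1.symm, hcon.2.symm, rfl⟩
    have h5 := Finset.card_le_univ F
    rw [h4, ← Nat.card_eq_fintype_card, hZP] at h5
    omega
  have hzz : z * z = 1 := by
    rcases hall (z * z) with h | h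
    · exact h
    · exact absurd (mul_eq_left.1 h) hz
  have hS₀' : ∀ s, s ∈ S₀ ↔ s * ((z : P) : S) = ((z : P) : S) * s := by
    intro s
    rw [hS₀, mem_centralizer_iff]
    constructor
    · intro h
      exact (h _ ⟨z, z.2, rfl⟩).symm
    · rintro h _ ⟨y, hy, rfl⟩
      rcases hall ⟨y, hy⟩ with h1 | h1
      · have : y = 1 := congrArg Subtype.val h1
        rw [this]; simp
      · have : y = z := congrArg Subtype.val h1
        rw [this]; exact h.symm
  have := main h2 (rankIn_of_sectional hr) P ((z : P) : S) ?_ ?_ (z : P).2 ?_ ?_ ?_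
      (S4400.not_le_centralizer hP) S₀ hS₀' hPn
  · rcases this with h | ⟨h, h'⟩
    · exact Or.inl h
    · exact Or.inr ⟨(sectional_subgroup_iff P).2 h, h'⟩
  · intro h
    apply hz
    apply Subtype.ext
    apply Subtype.ext
    exact h
  · have := congrArg (fun u : Subgroup.center ↥P => ((u : P) : S)) hzz
    simpa using this
  · intro y hy
    exact congrArg Subtype.val (mem_center_iff.1 z.2 ⟨y, hy⟩)
  · intro x hx hxc
    have hxz : (⟨x, hx⟩ : P) ∈ Subgroup.center ↥P := by
      rw [mem_center_iff]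
      intro y
      exact Subtype.ext (hxc y y.2)
    rcases hall ⟨_, hxz⟩ with h | h
    · left
      have := congrArg (fun u : Subgroup.center ↥P => ((u : P) : S)) h
      simpa using this
    · right
      have := congrArg (fun u : Subgroup.center ↥P => ((u : P) : S)) h
      simpa using this
  · rw [S4400.card_center_eq, hZP]

end Cfsg.Agent.S4401
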