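import Cfsg.Statements.S4405
import Cfsg.Agent.Lib.SubgroupTools
import Cfsg.Agent.Lib.Fitting
import Cfsg.Agent.Lib.Burnside
import Cfsg.Agent.Lib.ExtraCount
import Cfsg.Agent.Lib.TransferApps2

set_option autoImplicit false
open Cfsg

namespace Cfsg.Agent.S4405

open Subgroup Cfsg.Agent.Lib Cfsg.Agent.Lib.SubgroupTools

variable {G : Type*} [Group G]

/-- fixed points of conjugation by `g` on `H` -/
def Cf (H : Subgroup G) [H.Normal] (g : G) : Subgroup H where
  carrier := {x | MulAut.conjNormal g x = x}
  one_mem' := map_one _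
  mul_mem' := fun {x y} hx hy => by
    change MulAut.conjNormal g (x * y) = x * y
    rw [map_mul, (hx : MulAut.conjNormal g x = x), (hy : MulAut.conjNormal g y = y)]
  inv_mem' := fun {x} hx => by
    change MulAut.conjNormal g x⁻¹ = x⁻¹
    rw [map_inv, (hx : MulAut.conjNormal g x = x)]

theorem mem_Cf {H : Subgroup G} [H.Normal] {g : G} {x : H} : x ∈ Cf H g ↔ MulAut.conjNormal g x = x := Iff.rfl

theorem mk_comm {H : Subgroup G} (hyp : ExtraCount.Hyp H) (a b : H ⧸ center H) : a * b = b * a := by
  induction a using QuotientGroup.induction_on with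
  | H a =>
    induction b using QuotientGroup.induction_on with
    | H b =>
      rw [← QuotientGroup.mk_mul, ← QuotientGroup.mk_mul, QuotientGroup.eq]
      have := hyp.comm_mem b⁻¹ a⁻¹
      rw [commutatorElement_def] at this
      simpa [mul_assoc] using this

/-- `x ↦ x⁻¹ g x g⁻¹` as a homomorphism to `H / Z(H)` -/
def psi {H : Subgroup G} [H.Normal] (hyp : ExtraCount.Hyp H) (g : G) : H →* H ⧸ center H where
  toFun x := (QuotientGroup.mk (x⁻¹ * MulAut.conjNormal g x) : H ⧸ center H)
  map_one' := by simp
  map_mul' := fun x y => by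
    simp only [map_mul, mul_inv_rev, QuotientGroup.mk_mul, QuotientGroup.mk_inv]
    have := mk_comm hyp
    set X : H ⧸ center H := QuotientGroup.mk x
    set Y : H ⧸ center H := QuotientGroup.mk y
    set X' : H ⧸ center H := QuotientGroup.mk (MulAut.conjNormal g x)
    set Y' : H ⧸ center H := QuotientGroup.mk (MulAut.conjNormal g y)
    calc Y⁻¹ * X⁻¹ * (X' * Y') = Y⁻¹ * (X⁻¹ * X') * Y' := by group
      _ = (X⁻¹ * X') * Y⁻¹ * Y' := by rw [this Y⁻¹ (X⁻¹ * X')]
      _ = X⁻¹ * X' * (Y⁻¹ * Y') := by group

theorem mem_ker_psi {H : Subgroup G} [H.Normal] (hyp : ExtraCount.Hyp H) {g : G} {x : H} :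
    x ∈ (psi hyp g).ker ↔ x⁻¹ * MulAut.conjNormal g x ∈ center H := by
  rw [MonoidHom.mem_ker]
  exact QuotientGroup.eq_one_iff _

theorem conj_center {H : Subgroup G} [H.Normal] (g : G) {c : H} (hc : c ∈ center H) :
    MulAut.conjNormal g c ∈ center H := by
  rw [mem_center_iff] at hc ⊢
  intro x
  have h1 := hc ((MulAut.conjNormal g)⁻¹ x)
  have h2 := congrArg (MulAut.conjNormal g) h1
  rw [map_mul, map_mul, MulAut.apply_inv_self] at h2
  exact h2

theorem conj_center_eq {H : Subgroup G} [H.Normal] (hyp : ExtraCount.Hyp H) (g : G) {c : H} (hc : c ∈ center H) :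
    MulAut.conjNormal g c = c := by
  by_cases h : c = 1
  · rw [h, map_one]
  · exact hyp.eq_of_ne_one (conj_center g hc) hc (fun h' => h ((map_eq_one_iff _ (MulEquiv.injective _)).1 h')) h

theorem aux [Finite G] (hG : Nat.card G = 320) (H : Subgroup G) [H.Normal] (hyp : ExtraCount.Hyp H)
    (hHp : IsPGroup 2 H)
    (h32 : Nat.card H = 32) (hC : centralizer (H : Set G) ≤ H)
    (hcore : ∀ N : Subgroup G, N.Normal → IsPGroup 2 N → N ≤ H)
    (hminus : ∀ A : Subgroup H, (∀ a ∈ A, a ^ 2 = 1) → Nat.card A ≤ 4)
    (T : G) (hT : T * T = 1) (hTH : T ∉ H) (h4 : 4 ≤ Nat.card (Cf H T)) : Nat.card (Cf H T) = 4 := by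
  have hZ2 : Nat.card (center H) = 2 := hyp.card_center
  have hcz : ∀ c : H, c ∈ center H → c * c = 1 := fun c hc => hyp.mul_self hc
  -- an element of order 5
  have : Fact (Nat.Prime 5) := ⟨Nat.prime_five⟩
  have : Fact (Nat.Prime 2) := ⟨Nat.prime_two⟩
  obtain ⟨y, hy⟩ := exists_prime_orderOf_dvd_card' (G := G) 5 (by rw [hG]; norm_num)
  have hyH : y ∉ H := by
    intro h
    have h1 : orderOf (⟨y, h⟩ : H) ∣ Nat.card H := orderOf_dvd_natCard _
    rw [← Subgroup.orderOf_coe, h32] at h1
    simp only at h1
    rw [hy] at h1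
    norm_num at h1
  -- fixed points of y
  have hfix : Cf H y ≤ center H := by
    have hR : IsPGroup 5 (zpowers (MulAut.conjNormal y : MulAut H)) := by
      apply IsPGroup.of_card (n := 1)
      rw [Nat.card_zpowers]
      have h1 : orderOf (MulAut.conjNormal y : MulAut H) ∣ 5 := by
        rw [← hy]; exact orderOf_map_dvd _ y
      rcases (Nat.dvd_prime Nat.prime_five).1 h1 with h2 | h2
      · exfalso
        apply hyH
        apply hC
        rw [mem_centralizer_iff]
        intro x hx
        rw [orderOf_eq_one_iff] at h2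
        have h3 := congrArg (fun f : MulAut H => ((f ⟨x, hx⟩ : H) : G)) h2
        simp only [MulAut.conjNormal_apply, MulAut.one_apply] at h3
        rw [← mul_inv_eq_iff_eq_mul.1 (by simpa using h3)]
      · rw [h2]; norm_num
    have h1 := TransferApps2.card_modEq_fixedSubgroup _ hR
    have h2 : Nat.card (TransferApps2.fixedSubgroup (zpowers (MulAut.conjNormal y : MulAut H))) ∣ Nat.card H :=
      Subgroup.card_subgroup_dvd_card _
    rw [h32] at h1 h2
    have hle : center H ≤ TransferApps2.fixedSubgroup (zpowers (MulAut.conjNormal y : MulAut H)) := by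
      intro c hc a ha
      obtain ⟨i, rfl⟩ := ha
      change ((MulAut.conjNormal y : MulAut H) ^ i) c = c
      rw [← map_zpow]
      exact conj_center_eq hyp _ hc
    have hle2 : Cf H y ≤ TransferApps2.fixedSubgroup (zpowers (MulAut.conjNormal y : MulAut H)) := by
      intro c hc a ha
      have h3 : zpowers (MulAut.conjNormal y : MulAut H) ≤ MulAction.stabilizer (MulAut H) c := by
        rw [zpowers_le]
        exact hc
      exact h3 ha
    have hcard : Nat.card (TransferApps2.fixedSubgroup (zpowers (MulAut.conjNormal y : MulAut H))) = 2 := by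
      have h3 : Nat.card (TransferApps2.fixedSubgroup (zpowers (MulAut.conjNormal y : MulAut H))) ∈ Nat.divisors 32 := by
        rw [Nat.mem_divisors]; exact ⟨h2, by norm_num⟩
      have h4 : Nat.divisors 32 = {1, 2, 4, 8, 16, 32} := by decide
      rw [h4] at h3
      simp only [Finset.mem_insert, Finset.mem_singleton] at h3
      rcases h3 with h | h | h | h | h | h <;> rw [h] at h1
      · exact absurd h1 (by decide)
      · exact h
      · exact absurd h1 (by decide)
      · exact absurd h1 (by decide)
      · exact absurd h1 (by decide)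
      · exfalso
        have htop : TransferApps2.fixedSubgroup (zpowers (MulAut.conjNormal y : MulAut H)) = ⊤ :=
          Subgroup.eq_top_of_card_eq _ (by rw [h, h32])
        apply hyH
        apply hC
        rw [mem_centralizer_iff]
        intro x hx
        have h3 : (⟨x, hx⟩ : H) ∈ TransferApps2.fixedSubgroup (zpowers (MulAut.conjNormal y : MulAut H)) := by
          rw [htop]; trivial
        have h4 := congrArg (fun f : H => (f : G)) (h3 _ (mem_zpowers _))
        simp only [MulAut.conjNormal_apply] at h4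
        rw [← mul_inv_eq_iff_eq_mul.1 h4]
    have heq : center H = TransferApps2.fixedSubgroup (zpowers (MulAut.conjNormal y : MulAut H)) :=
      Subgroup.eq_of_le_of_card_ge hle (by rw [hcard, hZ2])
    rw [heq]; exact hle2
  -- only the centre is centralized by everything modulo the centre
  have hM : ∀ x : H, (∀ g : G, x ∈ (psi hyp g).ker) → x ∈ center H := by
    intro x hx
    apply hfix
    have h1 := (mem_ker_psi hyp).1 (hx y)
    obtain ⟨c, hc⟩ : ∃ c, c = x⁻¹ * MulAut.conjNormal y x := ⟨_, rfl⟩
    rw [← hc] at h1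
    have h2 : MulAut.conjNormal y x = x * c := by rw [hc]; group
    have h3 : ∀ n : ℕ, MulAut.conjNormal (y ^ n) x = x * c ^ n := by
      intro n
      induction n with
      | zero => simp
      | succ n ih =>
        rw [pow_succ', map_mul, MulAut.mul_apply, ih, map_mul, map_pow, h2, conj_center_eq hyp y h1, pow_succ']
        group
    have h4 := h3 5
    rw [← hy, pow_orderOf_eq_one, map_one, MulAut.one_apply, hy] at h4
    have h5 : c ^ 5 = 1 := by
      have := h4.symm
      rwa [mul_eq_left] at this
    have h6 : c = 1 := by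
      have h7 := hcz c h1
      calc c = c ^ 5 * (c * c)⁻¹ * (c * c)⁻¹ := by group
        _ = 1 := by rw [h5, h7]; group
    rw [mem_Cf, h2, h6, mul_one]
  -- H⟨T⟩
  have hTn : ∀ t : G, zpowers t ≤ normalizer (H : Set G) := by
    intro t
    rw [normalizer_eq_top]; exact le_top
  have hzp : ∀ t : G, t * t = 1 → ∀ x ∈ zpowers t, x = 1 ∨ x = t := by
    rintro t ht _ ⟨i, rfl⟩
    rcases Int.even_or_odd' i with ⟨k, hk | hk⟩
    · left
      simp only
      rw [hk, zpow_mul]
      have : t ^ (2 : ℤ) = 1 := by rw [zpow_two]; exact ht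
      rw [this, one_zpow]
    · right
      simp only
      rw [hk, zpow_add, zpow_mul]
      have : t ^ (2 : ℤ) = 1 := by rw [zpow_two]; exact ht
      rw [this, one_zpow, one_mul, zpow_one]
  have hcardN : ∀ t : G, t * t = 1 → t ∉ H → Nat.card (H ⊔ zpowers t : Subgroup G) = 64 := by
    intro t ht htH
    rw [card_sup_of_disjoint (hTn t), h32, Nat.card_zpowers]
    · have : orderOf t = 2 := by
        apply orderOf_eq_prime
        · rw [sq]; exact ht
        · rintro rfl; exact htH (one_mem _)
      rw [this]
    · rw [disjoint_iff, eq_bot_iff]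
      rintro x ⟨hx, hx'⟩
      rcases hzp t ht x hx' with h | h
      · exact h
      · rw [h] at hx; exact absurd hx htH
  obtain ⟨a, ha⟩ : ∃ a : G, a * T * a⁻¹ * T⁻¹ ∉ H := by
    by_contra hcon
    push Not at hcon
    have hN : (H ⊔ zpowers T).Normal := by
      constructor
      intro n hn g
      obtain ⟨u, hu, v, hv, rfl⟩ := (mem_sup_of_le_normalizer (hTn T)).1 hn
      have e1 : g * u * g⁻¹ ∈ H := Normal.conj_mem inferInstance u hu g
      rcases hzp T hT v hv with h | h
      · rw [h, mul_one]; exact mem_sup_left e1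
      · rw [h]
        have e : g * (u * T) * g⁻¹ = (g * u * g⁻¹) * (g * T * g⁻¹ * T⁻¹) * T := by group
        rw [e]
        exact mul_mem (mem_sup_left (mul_mem e1 (hcon g))) (mem_sup_right (mem_zpowers T))
    have h1 := hcore _ hN (IsPGroup.of_card (n := 6) (by rw [hcardN T hT hTH]; norm_num))
    exact hTH (h1 (mem_sup_right (mem_zpowers T)))
  obtain ⟨T', hT'⟩ : ∃ T', T' = a * T * a⁻¹ := ⟨_, rfl⟩
  have hT'2 : T' * T' = 1 := by
    rw [hT']
    calc a * T * a⁻¹ * (a * T * a⁻¹) = a * (T * T) * a⁻¹ := by group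
      _ = 1 := by rw [hT]; group
  have hT'H : T' ∉ H := by
    intro h
    apply hTH
    have := Normal.conj_mem inferInstance T' h a⁻¹
    rw [hT'] at this
    have e : a⁻¹ * (a * T * a⁻¹) * a⁻¹⁻¹ = T := by group
    rwa [e] at this
  -- the intersection
  have hinf : (psi hyp T).ker ⊓ (psi hyp T').ker ≤ center H := by
    intro x hx
    obtain ⟨hx1, hx2⟩ := Subgroup.mem_inf.1 hx
    apply hM
    let L : Subgroup G :=
      { carrier := {g | x⁻¹ * MulAut.conjNormal g x ∈ center H}
        one_mem' := by
          change x⁻¹ * MulAut.conjNormal (1 : G) x ∈ center H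
          rw [map_one, MulAut.one_apply, inv_mul_cancel]; exact one_mem _
        mul_mem' := by
          intro g k hg hk
          change x⁻¹ * MulAut.conjNormal (g * k) x ∈ center H
          have e : x⁻¹ * MulAut.conjNormal (g * k) x =
              (x⁻¹ * MulAut.conjNormal g x) * MulAut.conjNormal g (x⁻¹ * MulAut.conjNormal k x) := by
            rw [map_mul, MulAut.mul_apply, map_mul, map_inv]; group
          rw [e]
          exact mul_mem hg (conj_center g hk)
        inv_mem' := by
          intro g hg
          change x⁻¹ * MulAut.conjNormal g⁻¹ x ∈ center H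
          have e : x⁻¹ * MulAut.conjNormal g⁻¹ x = MulAut.conjNormal g⁻¹ (x⁻¹ * MulAut.conjNormal g x)⁻¹ := by
            apply Subtype.ext
            simp [mul_assoc]
          rw [e]
          exact conj_center _ (inv_mem hg) }
    have hLH : H ≤ L := by
      intro g hg
      change x⁻¹ * MulAut.conjNormal g x ∈ center H
      have := hyp.comm_mem x⁻¹ ⟨g, hg⟩
      rw [commutatorElement_def, inv_inv] at this
      have e : x⁻¹ * MulAut.conjNormal g x = x⁻¹ * ⟨g, hg⟩ * x * ⟨g, hg⟩⁻¹ := by
        apply Subtype.ext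
        simp [mul_assoc]
      rw [e]; exact this
    have hLT : T ∈ L := (mem_ker_psi hyp).1 hx1
    have hLT' : T' ∈ L := (mem_ker_psi hyp).1 hx2
    have hle : H ⊔ zpowers T ≤ L := by rw [sup_le_iff, zpowers_le]; exact ⟨hLH, hLT⟩
    have h1 : 64 ∣ Nat.card L := by
      rw [← hcardN T hT hTH]; exact Subgroup.card_dvd_of_le hle
    have h2 : Nat.card L ∣ 320 := by rw [← hG]; exact Subgroup.card_subgroup_dvd_card L
    have hLtop : L = ⊤ := by
      obtain ⟨k, hk⟩ := h1
      rw [hk] at h2
      have h3 : k ∣ 5 := by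
        have : (64 * 5) = 320 := by norm_num
        rw [← this] at h2
        exact Nat.dvd_of_mul_dvd_mul_left (by norm_num) h2
      rcases (Nat.dvd_prime Nat.prime_five).1 h3 with h4 | h4
      · exfalso
        have h5 : H ⊔ zpowers T = L := by
          apply Subgroup.eq_of_le_of_card_ge hle
          rw [hcardN T hT hTH, hk, h4]
        rw [← h5] at hLT'
        obtain ⟨u, hu, v, hv, huv⟩ := (mem_sup_of_le_normalizer (hTn T)).1 hLT'
        rcases hzp T hT v hv with h | h
        · rw [h, mul_one] at huv
          exact hT'H (huv ▸ hu)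
        · apply ha
          rw [← hT', ← huv, h, mul_inv_cancel_right]
          exact hu
      · apply Subgroup.eq_top_of_card_eq
        rw [hk, h4, hG]
    intro g
    rw [mem_ker_psi]
    have : g ∈ L := by rw [hLtop]; trivial
    exact this
  have hcen : ∀ g : G, center H ≤ (psi hyp g).ker := by
    intro g c hc
    rw [mem_ker_psi, conj_center_eq hyp g hc, inv_mul_cancel]
    exact one_mem _
  have hconj : Nat.card (psi hyp T').ker = Nat.card (psi hyp T).ker := by
    have : (psi hyp T').ker = ((psi hyp T).ker).map (MulAut.conjNormal a : MulAut H).toMonoidHom := by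
      ext x
      rw [mem_ker_psi]
      constructor
      · intro h
        refine ⟨MulAut.conjNormal a⁻¹ x, ?_, ?_⟩
        · rw [SetLike.mem_coe, mem_ker_psi]
          have h1 := conj_center a⁻¹ h
          have e : MulAut.conjNormal a⁻¹ (x⁻¹ * MulAut.conjNormal T' x) =
              (MulAut.conjNormal a⁻¹ x)⁻¹ * MulAut.conjNormal T (MulAut.conjNormal a⁻¹ x) := by
            rw [map_mul, map_inv, ← MulAut.mul_apply, ← MulAut.mul_apply, ← map_mul, ← map_mul, hT']
            congr 3
            group
          rw [← e]; exact h1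
        · change MulAut.conjNormal a (MulAut.conjNormal a⁻¹ x) = x
          rw [← MulAut.mul_apply, ← map_mul, mul_inv_cancel, map_one, MulAut.one_apply]
      · rintro ⟨w, hw, rfl⟩
        rw [SetLike.mem_coe, mem_ker_psi] at hw
        have h1 := conj_center a hw
        have e : MulAut.conjNormal a (w⁻¹ * MulAut.conjNormal T w) =
            (MulAut.conjNormal a w)⁻¹ * MulAut.conjNormal T' (MulAut.conjNormal a w) := by
          rw [map_mul, map_inv, ← MulAut.mul_apply, ← MulAut.mul_apply, ← map_mul, ← map_mul, hT']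
          congr 3
          group
        change (MulAut.conjNormal a w)⁻¹ * MulAut.conjNormal T' (MulAut.conjNormal a w) ∈ center H
        rw [← e]; exact h1
    rw [this]
    exact Subgroup.card_map_of_injective (MulEquiv.injective _)
  have hker8 : Nat.card (psi hyp T).ker ≤ 8 := by
    have h1 := card_sup_mul_card_inf (N := (psi hyp T).ker) (H := (psi hyp T').ker)
      (by rw [normalizer_eq_top]; exact le_top)
    have h2 : Nat.card ((psi hyp T).ker ⊔ (psi hyp T').ker : Subgroup H) ≤ 32 := by
      rw [← h32]; exact Subgroup.card_le_card_group _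
    have h3 : Nat.card ((psi hyp T).ker ⊓ (psi hyp T').ker : Subgroup H) ≤ 2 := by
      rw [← hZ2]; exact Subgroup.card_le_of_le hinf
    rw [hconj] at h1
    by_contra hlt
    push Not at hlt
    nlinarith
  have hCle : Cf H T ≤ (psi hyp T).ker := by
    intro x hx
    rw [mem_ker_psi, mem_Cf.1 hx, inv_mul_cancel]
    exact one_mem _
  have hC8 : Nat.card (Cf H T) ≤ 8 := (Subgroup.card_le_of_le hCle).trans hker8
  by_contra hne4
  have h8 : Nat.card (Cf H T) = 8 := by
    have h1 : Nat.card (Cf H T) ∣ 32 := by rw [← h32]; exact Subgroup.card_subgroup_dvd_card _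
    obtain ⟨k, hk⟩ := h1
    generalize Nat.card (Cf H T) = m at *
    have : m ∣ 32 := ⟨k, hk⟩
    interval_cases m
    · exact absurd rfl hne4
    · exact absurd this (by decide)
    · exact absurd this (by decide)
    · exact absurd this (by decide)
    · rfl
  have hCeq : Cf H T = (psi hyp T).ker := Subgroup.eq_of_le_of_card_ge hCle (by rw [h8]; exact hker8)
  have hTT : ∀ x : H, MulAut.conjNormal T (MulAut.conjNormal T x) = x := by
    intro x
    rw [← MulAut.mul_apply, ← map_mul, hT, map_one, MulAut.one_apply]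
  have hinv : ∀ x : H, MulAut.conjNormal T (x⁻¹ * MulAut.conjNormal T x) = (x⁻¹ * MulAut.conjNormal T x)⁻¹ := by
    intro x
    rw [map_mul, hTT, map_inv]; group
  have hphi : ∀ x : H, x⁻¹ * MulAut.conjNormal T x ∈ Cf H T := by
    intro x
    rw [hCeq, mem_ker_psi, hinv]
    set u : H := x⁻¹ * MulAut.conjNormal T x
    have h1 := hyp.sq_mem u
    have h2 := inv_mem h1
    have e : (u ^ 2)⁻¹ = u⁻¹ * u⁻¹ := by group
    rwa [e] at h2
  have hsq : ∀ x : H, (x⁻¹ * MulAut.conjNormal T x) ^ 2 = 1 := by
    intro x
    have h1 := mem_Cf.1 (hphi x)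
    rw [hinv] at h1
    rw [sq]
    nth_rewrite 1 [← h1]
    exact inv_mul_cancel _
  have hrange : (psi hyp T).range = (Cf H T).map (QuotientGroup.mk' (center H)) := by
    apply Subgroup.eq_of_le_of_card_ge
    · rintro _ ⟨x, rfl⟩
      exact ⟨_, hphi x, rfl⟩
    · have h1 : Nat.card (psi hyp T).range * Nat.card (psi hyp T).ker = 32 := by
        rw [← h32, ← Subgroup.card_mul_index (psi hyp T).ker, Subgroup.index_ker, mul_comm]
      have h2 : Nat.card ((Cf H T).map (QuotientGroup.mk' (center H))) * Nat.card (center H) = Nat.card (Cf H T) := by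
        have h3 := card_map_mul_card_inf_ker (QuotientGroup.mk' (center H)) (Cf H T)
        rw [QuotientGroup.ker_mk'] at h3
        have h4 : Cf H T ⊓ center H = center H := inf_eq_right.2 (by rw [hCeq]; exact hcen T)
        rw [h4] at h3
        exact h3
      rw [← hCeq, h8] at h1
      rw [hZ2, h8] at h2
      omega
  have := hminus (Cf H T) ?_
  · omega
  · intro w hw
    have h1 : (QuotientGroup.mk' (center H)) w ∈ (psi hyp T).range := by
      rw [hrange]; exact ⟨w, hw, rfl⟩
    obtain ⟨x, hx⟩ := h1
    have h2 : (x⁻¹ * MulAut.conjNormal T x)⁻¹ * w ∈ center H := QuotientGroup.eq.1 hx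
    obtain ⟨c, hc⟩ : ∃ c, c = (x⁻¹ * MulAut.conjNormal T x)⁻¹ * w := ⟨_, rfl⟩
    rw [← hc] at h2
    have h3 : w = (x⁻¹ * MulAut.conjNormal T x) * c := by rw [hc]; group
    have h4 : Commute (x⁻¹ * MulAut.conjNormal T x) c := mem_center_iff.1 h2 _
    rw [h3, h4.mul_pow, hsq, one_mul, sq, hcz c h2]

/-- Let G be a finite group of order 320 = 64·5 whose largest normal 2-subgroup H = O₂(G) equals the Fitting subgroup F(G) and is extraspecial of order 32 containing no elementary abelian subgroup of order 8 (so H is the central product of a quaternion group and a dihedral group of order 8). If T is an involution of G outside H whose centralizer in H contains an elementary abelian subgroup of order 4, then C_H(T) itself is elementary abelian of order 4. -/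
theorem result {G : Type*} [Group G] [Finite G]
    (hG : Nat.card G = 320) (hHF : Cfsg.pCore 2 G = Cfsg.fittingSubgroup G)
    (hex : Cfsg.IsExtraspecial 2 ↥(Cfsg.pCore 2 G)) (h32 : Nat.card ↥(Cfsg.pCore 2 G) = 32)
    (hminus : ∀ A : Subgroup G, A ≤ Cfsg.pCore 2 G → Cfsg.IsElementaryAbelian 2 A → Nat.card ↥A ≤ 4)
    (T : G) (hT : orderOf T = 2) (hTH : T ∉ Cfsg.pCore 2 G)
    (V : Subgroup G) (hV : V ≤ Cfsg.pCore 2 G ⊓ Subgroup.centralizer ({T} : Set G)) (hV4 : Nat.card ↥V = 4) (hVe : Cfsg.IsElementaryAbelian 2 V) :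
    Nat.card ↥(Cfsg.pCore 2 G ⊓ Subgroup.centralizer ({T} : Set G)) = 4 ∧
      Cfsg.IsElementaryAbelian 2 (Cfsg.pCore 2 G ⊓ Subgroup.centralizer ({T} : Set G)) := by
  have hHn : (Cfsg.pCore 2 G).Normal := Fitting.normal_pCore 2
  have hsol : Group.IsSolvable G := Burnside.isSolvable_of_card_eq 320 2 5 6 1 Nat.prime_two Nat.prime_five
    (by rw [hG]; norm_num) hG
  have hCH : centralizer (pCore 2 G : Set G) ≤ pCore 2 G := by
    have := Fitting.centralizer_fittingSubgroup_le (G := G)
    rwa [← hHF] at this
  have hT2 : T * T = 1 := by rw [← sq, ← hT]; exact pow_orderOf_eq_one T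
  have hmap : (Cf (pCore 2 G) T).map (pCore 2 G).subtype = pCore 2 G ⊓ centralizer ({T} : Set G) := by
    ext x
    constructor
    · rintro ⟨y, hy, rfl⟩
      refine Subgroup.mem_inf.2 ⟨y.2, mem_centralizer_singleton_iff.2 ?_⟩
      have := congrArg (fun u : pCore 2 G => (u : G)) (mem_Cf.1 hy)
      simp only [MulAut.conjNormal_apply] at this
      exact (mul_inv_eq_iff_eq_mul.1 this).symm
    · intro hx
      obtain ⟨h1, h2⟩ := Subgroup.mem_inf.1 hx
      refine ⟨⟨x, h1⟩, ?_, rfl⟩
      rw [SetLike.mem_coe, mem_Cf]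
      apply Subtype.ext
      rw [MulAut.conjNormal_apply]
      rw [mem_centralizer_singleton_iff] at h2
      exact mul_inv_eq_iff_eq_mul.2 h2.symm
  have hcardmap : Nat.card ↥(pCore 2 G ⊓ centralizer ({T} : Set G)) = Nat.card (Cf (pCore 2 G) T) := by
    rw [← hmap]
    exact Subgroup.card_map_of_injective (Subgroup.subtype_injective _)
  have h4 := aux hG (pCore 2 G) (ExtraCount.Hyp.of_isExtraspecial hex) hex.1.1 h32 hCH
    (fun N hN hNp => Fitting.le_pCore 2 hN hNp) (by
      intro A hA
      have h1 := hminus (A.map (pCore 2 G).subtype) (Subgroup.map_subtype_le A) ?_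
      · rwa [Subgroup.card_map_of_injective (Subgroup.subtype_injective _)] at h1
      · refine ⟨⟨⟨?_⟩⟩, ?_⟩
        · rintro ⟨_, a, ha, rfl⟩ ⟨_, b, hb, rfl⟩
          apply Subtype.ext
          have h1 := hA _ (mul_mem ha hb)
          have h2 := hA a ha
          have h3 := hA b hb
          have h4 : a * b = b * a := by
            rw [sq] at h1 h2 h3
            calc a * b = (a * a) * (a * b)⁻¹ * (b * b) := by
                  rw [h2, h3, one_mul, mul_one, eq_comm, inv_eq_iff_mul_eq_one, h1]
              _ = (a * b) * (a * b)⁻¹ * ((a * b)⁻¹ * (a * b) * ((a * a) * (a * b)⁻¹ * (b * b))) := by group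
              _ = (a * b) * (a * b)⁻¹ * ((a * b)⁻¹ * (a * b) * (b * a)) := by
                  have : (a * a) * (a * b)⁻¹ * (b * b) = b * a := by
                    rw [h2, h3, one_mul, mul_one, mul_inv_rev]
                    rw [inv_eq_of_mul_eq_one_left h2, inv_eq_of_mul_eq_one_left h3]
                  rw [this]
              _ = b * a := by group
          exact congrArg (fun u : pCore 2 G => (u : G)) h4
        · rintro _ ⟨a, ha, rfl⟩
          exact congrArg (fun u : pCore 2 G => (u : G)) (hA a ha)) T hT2 hTH (by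
      rw [← hcardmap, ← hV4]
      exact Subgroup.card_le_of_le hV)
  refine ⟨by rw [hcardmap, h4], ?_⟩
  have hVeq : V = pCore 2 G ⊓ centralizer ({T} : Set G) := by
    apply Subgroup.eq_of_le_of_card_ge hV
    rw [hcardmap, h4, hV4]
  rw [← hVeq]
  exact hVe

end Cfsg.Agent.S4405
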