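import Cfsg.Statements.S4406

set_option autoImplicit false
open Cfsg

namespace Cfsg.Agent.S4406

abbrev A4 := ↥(alternatingGroup (Fin 4))

theorem fact1 : ∀ c x y : A4, c ^ 3 = 1 → c ≠ 1 → x ^ 2 = 1 → x ≠ 1 → y ^ 2 = 1 → y ≠ 1 → x ≠ y →
    (c * x * c⁻¹ = y ∧ c * y * c⁻¹ = x * y) ∨ (c⁻¹ * x * c = y ∧ c⁻¹ * y * c = x * y) := by
  decide +kernel

theorem fact3 : ∀ x : A4, x ^ 3 = 1 ∨ x ^ 2 = 1 := by
  decide +kernel

theorem cardA4 : Nat.card A4 = 12 := by
  have : Fintype.card A4 = 12 := by decide +kernel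
  rw [Nat.card_eq_fintype_card, this]

theorem sq_of_two (x : A4) (h : ∃ k : ℕ, x ^ 2 ^ k = 1) : x ^ 2 = 1 := by
  rcases fact3 x with h3 | h2
  · obtain ⟨k, hk⟩ := h
    have h1 : orderOf x ∣ 3 := orderOf_dvd_of_pow_eq_one h3
    have h2 : orderOf x ∣ 2 ^ k := orderOf_dvd_of_pow_eq_one hk
    have h4 : orderOf x ∣ 1 := by
      have : Nat.Coprime 3 (2 ^ k) := Nat.Coprime.pow_right k (by norm_num)
      rw [← this.gcd_eq_one]
      exact Nat.dvd_gcd h1 h2
    have h5 : x = 1 := by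
      rw [← orderOf_eq_one_iff]; exact Nat.dvd_one.1 h4
    rw [h5, one_pow]
  · exact h2

theorem three_group_card (P : Subgroup A4) (hP : IsPGroup 3 P) : Nat.card P ≤ 3 := by
  obtain ⟨k, hk⟩ := IsPGroup.iff_card.1 hP
  have h1 : Nat.card P ∣ 12 := by rw [← cardA4]; exact P.card_subgroup_dvd_card
  rw [hk] at h1 ⊢
  have h2 : k ≤ 1 := by
    by_contra hcon
    have : 3 ^ 2 ∣ 12 := (pow_dvd_pow 3 (by omega)).trans h1
    norm_num at this
  interval_cases k <;> norm_num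

theorem result
    (X : Sylow 2 (↥(alternatingGroup (Fin 4)) × ↥(alternatingGroup (Fin 4))))
    (Q : Sylow 3 (↥(alternatingGroup (Fin 4)) × ↥(alternatingGroup (Fin 4))))
    (B : Subgroup (↥(alternatingGroup (Fin 4)) × ↥(alternatingGroup (Fin 4)))) (hBX : B ≤ (X : Subgroup _)) (hB4 : Nat.card ↥B = 4) :
    B ⊓ ((X : Subgroup _) ⊓ Subgroup.prod ⊤ ⊥) ≠ ⊥ ∨ B ⊓ ((X : Subgroup _) ⊓ Subgroup.prod ⊥ ⊤) ≠ ⊥ ∨
      ∃ R : Subgroup (↥(alternatingGroup (Fin 4)) × ↥(alternatingGroup (Fin 4))), R ≤ (Q : Subgroup _) ∧ Nat.card ↥R = 3 ∧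
        R ≠ (Q : Subgroup _) ⊓ Subgroup.prod ⊤ ⊥ ∧ R ≠ (Q : Subgroup _) ⊓ Subgroup.prod ⊥ ⊤ ∧ R ≤ Subgroup.normalizer (B : Set _) := by
  classical
  by_cases hB1 : B ⊓ ((X : Subgroup _) ⊓ Subgroup.prod ⊤ ⊥) ≠ ⊥
  · exact Or.inl hB1
  by_cases hB2 : B ⊓ ((X : Subgroup _) ⊓ Subgroup.prod ⊥ ⊤) ≠ ⊥
  · exact Or.inr (Or.inl hB2)
  right; right
  push Not at hB1 hB2
  -- elements of B
  have hfst : ∀ b ∈ B, b.1 = 1 → b = 1 := by
    intro b hb h1
    have : b ∈ B ⊓ ((X : Subgroup _) ⊓ Subgroup.prod ⊥ ⊤) :=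
      ⟨hb, hBX hb, ⟨by simpa using h1, trivial⟩⟩
    rw [hB2] at this
    simpa using this
  have hsnd : ∀ b ∈ B, b.2 = 1 → b = 1 := by
    intro b hb h1
    have : b ∈ B ⊓ ((X : Subgroup _) ⊓ Subgroup.prod ⊤ ⊥) :=
      ⟨hb, hBX hb, ⟨trivial, by simpa using h1⟩⟩
    rw [hB1] at this
    simpa using this
  have hsq : ∀ b ∈ B, b ^ 2 = 1 := by
    intro b hb
    have hX := X.isPGroup'
    obtain ⟨k, hk⟩ := hX ⟨b, hBX hb⟩
    have hk' : b ^ 2 ^ k = 1 := congrArg Subtype.val hk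
    ext1
    · exact sq_of_two b.1 ⟨k, congrArg Prod.fst hk'⟩
    · exact sq_of_two b.2 ⟨k, congrArg Prod.snd hk'⟩
  -- pick x, y
  have hBfin : Finite B := inferInstance
  obtain ⟨x, hx, hx1⟩ : ∃ x ∈ B, x ≠ 1 := by
    by_contra hcon
    push Not at hcon
    have : B = ⊥ := (Subgroup.eq_bot_iff_forall B).2 hcon
    rw [this] at hB4
    simp at hB4
  obtain ⟨y, hy, hyx⟩ : ∃ y ∈ B, y ∉ Subgroup.zpowers x := by
    by_contra hcon
    push Not at hcon
    have hle : B ≤ Subgroup.zpowers x := hcon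
    have h1 : Nat.card B ≤ Nat.card (Subgroup.zpowers x) := Subgroup.card_le_of_le hle
    rw [Nat.card_zpowers, hB4] at h1
    have h2 : orderOf x ≤ 2 := orderOf_le_of_pow_eq_one (by norm_num) (hsq x hx)
    omega
  have hy1 : y ≠ 1 := by rintro rfl; exact hyx (Subgroup.one_mem _)
  have hxy : x ≠ y := by rintro rfl; exact hyx (Subgroup.mem_zpowers x)
  have hxi : x⁻¹ = x := by rw [inv_eq_iff_mul_eq_one, ← sq, hsq x hx]
  -- B = {1,x,y,xy}
  have hBset : ∀ b ∈ B, b = 1 ∨ b = x ∨ b = y ∨ b = x * y := by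
    have hxyB : x * y ∈ B := B.mul_mem hx hy
    have hxy1 : x * y ≠ 1 := by
      intro h; apply hxy
      rw [← inv_eq_iff_mul_eq_one, hxi] at h; exact h
    have hxyx : x * y ≠ x := by simpa using hy1
    have hxyy : x * y ≠ y := by simpa using hx1
    have hcard : ({1, x, y, x * y} : Finset (A4 × A4)).card = 4 := by
      rw [Finset.card_insert_of_notMem, Finset.card_insert_of_notMem, Finset.card_insert_of_notMem,
        Finset.card_singleton]
      · simpa using hx1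
      · simp only [Finset.mem_insert, Finset.mem_singleton, not_or]
        exact ⟨hxy, hxyx.symm⟩
      · simp only [Finset.mem_insert, Finset.mem_singleton, not_or]
        exact ⟨hx1.symm, hy1.symm, hxy1.symm⟩
    have hBf : (Finset.univ.filter (fun b : A4 × A4 => b ∈ B)).card = 4 := by
      rw [← Fintype.card_subtype, ← Nat.card_eq_fintype_card]
      exact hB4
    have hsub : ({1, x, y, x * y} : Finset (A4 × A4)) ⊆ Finset.univ.filter (fun b : A4 × A4 => b ∈ B) := by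
      intro b hb
      simp only [Finset.mem_insert, Finset.mem_singleton] at hb
      simp only [Finset.mem_filter, Finset.mem_univ, true_and]
      rcases hb with rfl | rfl | rfl | rfl
      · exact B.one_mem
      · exact hx
      · exact hy
      · exact hxyB
    have heq := Finset.eq_of_subset_of_card_le hsub (by rw [hBf, hcard])
    intro b hb
    have : b ∈ Finset.univ.filter (fun b : A4 × A4 => b ∈ B) := by simpa using hb
    rw [← heq] at this
    simpa using this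
  -- Q
  have hQ9 : Nat.card (Q : Subgroup (A4 × A4)) = 9 := by
    have := Q.card_eq_multiplicity
    rw [this]
    have h1 : Nat.card (A4 × A4) = 144 := by rw [Nat.card_prod, cardA4]
    rw [h1]
    have h2 : (144 : ℕ) = 3 ^ 2 * 16 := by norm_num
    have h3 : Nat.factorization 144 3 = 2 := by
      have h16 : Nat.factorization 16 3 = 0 := Nat.factorization_eq_zero_of_not_dvd (by norm_num)
      rw [h2, Nat.factorization_mul (by norm_num) (by norm_num), Nat.Prime.factorization_pow Nat.prime_three]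
      simp [h16]
    rw [h3]; norm_num
  have hQ1 : IsPGroup 3 ((Q : Subgroup (A4 × A4)).map (MonoidHom.fst A4 A4)) := Q.isPGroup'.map _
  have hQ2 : IsPGroup 3 ((Q : Subgroup (A4 × A4)).map (MonoidHom.snd A4 A4)) := Q.isPGroup'.map _
  have hQle : (Q : Subgroup (A4 × A4)) ≤ ((Q : Subgroup (A4 × A4)).map (MonoidHom.fst A4 A4)).prod ((Q : Subgroup (A4 × A4)).map (MonoidHom.snd A4 A4)) := by
    intro q hq
    exact ⟨⟨q, hq, rfl⟩, ⟨q, hq, rfl⟩⟩
  have hc1 := three_group_card _ hQ1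
  have hc2 := three_group_card _ hQ2
  have hprodcard : Nat.card (((Q : Subgroup (A4 × A4)).map (MonoidHom.fst A4 A4)).prod ((Q : Subgroup (A4 × A4)).map (MonoidHom.snd A4 A4)) : Subgroup (A4 × A4)) =
      Nat.card ((Q : Subgroup (A4 × A4)).map (MonoidHom.fst A4 A4)) * Nat.card ((Q : Subgroup (A4 × A4)).map (MonoidHom.snd A4 A4)) := by
    rw [← Nat.card_prod]
    exact Nat.card_congr (Subgroup.prodEquiv _ _).toEquiv
  have hQeq : (Q : Subgroup (A4 × A4)) = ((Q : Subgroup (A4 × A4)).map (MonoidHom.fst A4 A4)).prod ((Q : Subgroup (A4 × A4)).map (MonoidHom.snd A4 A4)) := by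
    apply Subgroup.eq_of_le_of_card_ge hQle
    rw [hprodcard, hQ9]
    nlinarith
  have hcle : Nat.card (Q : Subgroup (A4 × A4)) ≤ Nat.card ((Q : Subgroup (A4 × A4)).map (MonoidHom.fst A4 A4)) * Nat.card ((Q : Subgroup (A4 × A4)).map (MonoidHom.snd A4 A4)) := by
    rw [← hprodcard]
    exact Subgroup.card_le_of_le hQle
  rw [hQ9] at hcle
  have hc1' : Nat.card ((Q : Subgroup (A4 × A4)).map (MonoidHom.fst A4 A4)) = 3 := by
    by_contra hne
    have : Nat.card ((Q : Subgroup (A4 × A4)).map (MonoidHom.fst A4 A4)) ≤ 2 := by omega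
    nlinarith
  have hc2' : Nat.card ((Q : Subgroup (A4 × A4)).map (MonoidHom.snd A4 A4)) = 3 := by
    by_contra hne
    have : Nat.card ((Q : Subgroup (A4 × A4)).map (MonoidHom.snd A4 A4)) ≤ 2 := by omega
    nlinarith
  obtain ⟨a, ha, ha1⟩ : ∃ a ∈ (Q : Subgroup (A4 × A4)).map (MonoidHom.fst A4 A4), a ≠ 1 := by
    by_contra hcon
    push Not at hcon
    have : (Q : Subgroup (A4 × A4)).map (MonoidHom.fst A4 A4) = ⊥ := (Subgroup.eq_bot_iff_forall _).2 hcon
    rw [this] at hc1'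
    simp at hc1'
  obtain ⟨b, hb, hb1⟩ : ∃ a ∈ (Q : Subgroup (A4 × A4)).map (MonoidHom.snd A4 A4), a ≠ 1 := by
    by_contra hcon
    push Not at hcon
    have : (Q : Subgroup (A4 × A4)).map (MonoidHom.snd A4 A4) = ⊥ := (Subgroup.eq_bot_iff_forall _).2 hcon
    rw [this] at hc2'
    simp at hc2'
  have ha3 : a ^ 3 = 1 := by
    have := pow_card_eq_one' (x := (⟨a, ha⟩ : (Q : Subgroup (A4 × A4)).map (MonoidHom.fst A4 A4)))
    rw [hc1'] at this
    exact congrArg Subtype.val this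
  have hb3 : b ^ 3 = 1 := by
    have := pow_card_eq_one' (x := (⟨b, hb⟩ : (Q : Subgroup (A4 × A4)).map (MonoidHom.snd A4 A4)))
    rw [hc2'] at this
    exact congrArg Subtype.val this
  have hx11 : x.1 ≠ 1 := fun h => hx1 (hfst x hx h)
  have hx21 : x.2 ≠ 1 := fun h => hx1 (hsnd x hx h)
  have hy11 : y.1 ≠ 1 := fun h => hy1 (hfst y hy h)
  have hy21 : y.2 ≠ 1 := fun h => hy1 (hsnd y hy h)
  have hxy1 : x.1 ≠ y.1 := by
    intro h
    have : x⁻¹ * y = 1 := hfst _ (B.mul_mem (B.inv_mem hx) hy) (by simp [h])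
    exact hxy (inv_mul_eq_one.1 this)
  have hxy2 : x.2 ≠ y.2 := by
    intro h
    have : x⁻¹ * y = 1 := hsnd _ (B.mul_mem (B.inv_mem hx) hy) (by simp [h])
    exact hxy (inv_mul_eq_one.1 this)
  have hxs := hsq x hx
  have hys := hsq y hy
  -- existence of suitable c1 c2
  have ex1 : ∃ c ∈ (Q : Subgroup (A4 × A4)).map (MonoidHom.fst A4 A4), c ≠ 1 ∧ c * x.1 * c⁻¹ = y.1 ∧ c * y.1 * c⁻¹ = x.1 * y.1 := by
    rcases fact1 a x.1 y.1 ha3 ha1 (congrArg Prod.fst hxs) hx11 (congrArg Prod.fst hys) hy11 hxy1 with h | h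
    · exact ⟨a, ha, ha1, h⟩
    · exact ⟨a⁻¹, Subgroup.inv_mem _ ha, inv_ne_one.2 ha1, by simpa using h⟩
  have ex2 : ∃ c ∈ (Q : Subgroup (A4 × A4)).map (MonoidHom.snd A4 A4), c ≠ 1 ∧ c * x.2 * c⁻¹ = y.2 ∧ c * y.2 * c⁻¹ = x.2 * y.2 := by
    rcases fact1 b x.2 y.2 hb3 hb1 (congrArg Prod.snd hxs) hx21 (congrArg Prod.snd hys) hy21 hxy2 with h | h
    · exact ⟨b, hb, hb1, h⟩
    · exact ⟨b⁻¹, Subgroup.inv_mem _ hb, inv_ne_one.2 hb1, by simpa using h⟩
  obtain ⟨c, hc, hc1, hcx, hcy⟩ := ex1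
  obtain ⟨d, hd, hd1, hdx, hdy⟩ := ex2
  have hc3 : c ^ 3 = 1 := by
    have := pow_card_eq_one' (x := (⟨c, hc⟩ : (Q : Subgroup (A4 × A4)).map (MonoidHom.fst A4 A4)))
    rw [hc1'] at this
    exact congrArg Subtype.val this
  have hd3 : d ^ 3 = 1 := by
    have := pow_card_eq_one' (x := (⟨d, hd⟩ : (Q : Subgroup (A4 × A4)).map (MonoidHom.snd A4 A4)))
    rw [hc2'] at this
    exact congrArg Subtype.val this
  set t : A4 × A4 := (c, d) with ht
  have htQ : t ∈ (Q : Subgroup (A4 × A4)) := by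
    rw [hQeq]
    exact ⟨hc, hd⟩
  have ht3 : t ^ 3 = 1 := by ext1 <;> simp [ht, hc3, hd3]
  have ht1 : t ≠ 1 := by
    intro h
    exact hc1 (congrArg Prod.fst h)
  have htord : orderOf t = 3 := orderOf_eq_prime ht3 ht1
  have htx : t * x * t⁻¹ = y := Prod.ext hcx hdx
  have hty : t * y * t⁻¹ = x * y := Prod.ext hcy hdy
  refine ⟨Subgroup.zpowers t, (Subgroup.zpowers_le).2 htQ, by rw [Nat.card_zpowers, htord], ?_, ?_, ?_⟩
  · intro h
    have : t ∈ (Q : Subgroup (A4 × A4)) ⊓ Subgroup.prod ⊤ ⊥ := h ▸ Subgroup.mem_zpowers t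
    exact hd1 (by simpa using this.2.2)
  · intro h
    have : t ∈ (Q : Subgroup (A4 × A4)) ⊓ Subgroup.prod ⊥ ⊤ := h ▸ Subgroup.mem_zpowers t
    exact hc1 (by simpa using this.2.1)
  · rw [Subgroup.zpowers_le]
    have hstep : ∀ b ∈ B, t * b * t⁻¹ ∈ B := by
      intro b hb
      rcases hBset b hb with rfl | rfl | rfl | rfl
      · simp
      · rw [htx]; exact hy
      · rw [hty]; exact B.mul_mem hx hy
      · have : t * (x * y) * t⁻¹ = (t * x * t⁻¹) * (t * y * t⁻¹) := by group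
        rw [this, htx, hty]
        exact B.mul_mem hy (B.mul_mem hx hy)
    rw [Subgroup.mem_normalizer_iff]
    intro b
    refine ⟨hstep b, fun hb => ?_⟩
    have h1 := hstep _ (hstep _ hb)
    have h2 : t * (t * (t * b * t⁻¹) * t⁻¹) * t⁻¹ = t ^ 3 * b * (t ^ 3)⁻¹ := by
      rw [show t ^ 3 = t * t * t by rw [pow_succ, sq]]; group
    rw [h2, ht3] at h1
    simpa using h1

end Cfsg.Agent.S4406
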