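import Cfsg.Statements.S4407
import Cfsg.Agent.Lib.SubgroupTools

set_option autoImplicit false
open Cfsg

namespace Cfsg.Agent.S4407

open Subgroup

section Main

variable {S : Type*} [Group S] {M : Type*} [AddCommGroup M] [Module (ZMod 2) M] (ρ : Representation (ZMod 2) S M)

theorem add_self (m : M) : m + m = 0 := by
  have : (2 : ZMod 2) • m = m + m := two_smul _ m
  rw [← this]
  have h2 : (2 : ZMod 2) = 0 := rfl
  rw [h2, zero_smul]

theorem rho_mul (g h : S) (m : M) : ρ (g * h) m = ρ g (ρ h m) := by rw [map_mul]; rfl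

/-- the data: `a, b` generate the normal subgroup of order 9, `r, s` the dihedral group of order 8. -/
structure Hyp (a b r s : S) : Prop where
  r4 : r ^ 4 = 1
  s2 : s ^ 2 = 1
  sr : s * r = r * (r ^ 2 * s)
  b3 : b ^ 3 = 1
  ab : a * b = b * a
  ra : r * a = b * r
  za : a * r ^ 2 = r ^ 2 * a⁻¹
  ar : a * r = r * (b * b)
  sa : s * a = a * s
  sb : s * b = b * b * s
  zb : r ^ 2 * b = b * b * r ^ 2
  irr : ∀ N : Submodule (ZMod 2) M, (∀ m ∈ N, ρ a m ∈ N) → (∀ m ∈ N, ρ b m ∈ N) → (∀ m ∈ N, ρ r m ∈ N) → (∀ m ∈ N, ρ s m ∈ N) →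
    N = ⊥ ∨ N = ⊤
  hC : ∀ m : M, ρ a m = m → ρ b m = m → m = 0
  hsum : ∀ m : M, ∃ u v : M, ρ a u = u ∧ ρ b v = v ∧ m = u + v

variable {ρ} {a b r s : S} (h : Hyp ρ a b r s)

include h

theorem Hyp.fix_inv {x : S} {m : M} (hx : ρ x m = m) : ρ x⁻¹ m = m := by
  conv_lhs => rw [← hx]
  rw [← rho_mul, inv_mul_cancel, map_one]; rfl

theorem Hyp.rM {m : M} (hm : ρ a m = m) : ρ b (ρ r m) = ρ r m := by
  rw [← rho_mul, ← h.ra, rho_mul, hm]

theorem Hyp.M1_b {m : M} (hm : ρ a m = m) : ρ a (ρ b m) = ρ b m := by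
  rw [← rho_mul, h.ab, rho_mul, hm]

theorem Hyp.M1_s {m : M} (hm : ρ a m = m) : ρ a (ρ s m) = ρ s m := by
  rw [← rho_mul, ← h.sa, rho_mul, hm]

theorem Hyp.M1_z {m : M} (hm : ρ a m = m) : ρ a (ρ (r ^ 2) m) = ρ (r ^ 2) m := by
  rw [← rho_mul, h.za, rho_mul, h.fix_inv hm]

theorem Hyp.zero_of {m : M} (hm : ρ a m = m) (hr : ρ a (ρ r m) = ρ r m) : m = 0 := by
  have h1 := h.hC _ hr (h.rM hm)
  have h2 : ρ r⁻¹ (ρ r m) = m := by rw [← rho_mul, inv_mul_cancel, map_one]; rfl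
  rw [← h2, h1, map_zero]

theorem Hyp.bb {m : M} (hm : ρ a m = m) : ρ b (ρ b m) = m + ρ b m := by
  have h1 : ρ a (m + ρ b m + ρ b (ρ b m)) = m + ρ b m + ρ b (ρ b m) := by
    rw [map_add, map_add, hm, h.M1_b hm, h.M1_b (h.M1_b hm)]
  have h2 : ρ b (m + ρ b m + ρ b (ρ b m)) = m + ρ b m + ρ b (ρ b m) := by
    rw [map_add, map_add]
    have h3 : ρ b (ρ b (ρ b m)) = m := by
      rw [← rho_mul, ← rho_mul, ← sq, ← pow_succ, h.b3, map_one]; rfl
    rw [h3]; abel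
  have h3 := h.hC _ h1 h2
  have h4 := add_self (ρ b (ρ b m))
  calc ρ b (ρ b m) = (m + ρ b m + ρ b (ρ b m)) + ρ b (ρ b m) := by rw [h3, zero_add]
    _ = m + ρ b m + (ρ b (ρ b m) + ρ b (ρ b m)) := by abel
    _ = m + ρ b m := by rw [h4, add_zero]

/-- an invariant subspace of `M₁` gives everything -/
theorem Hyp.inv (L : Submodule (ZMod 2) M) (hL : ∀ m ∈ L, ρ a m = m) (hb : ∀ m ∈ L, ρ b m ∈ L) (hs : ∀ m ∈ L, ρ s m ∈ L)
    (hz : ∀ m ∈ L, ρ (r ^ 2) m ∈ L) (hne : L ≠ ⊥) (x : M) : ∃ u ∈ L, ∃ v ∈ L, x = u + ρ r v := by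
  have main : L ⊔ L.map (ρ r) = ⊤ := by
    refine (h.irr (L ⊔ L.map (ρ r)) ?_ ?_ ?_ ?_).resolve_left (fun hb => hne (le_bot_iff.1 (hb ▸ le_sup_left)))
    · intro m hm
      obtain ⟨u, hu, _, ⟨v, hv, rfl⟩, rfl⟩ := Submodule.mem_sup.1 hm
      rw [map_add, hL u hu, ← rho_mul, h.ar, rho_mul, rho_mul]
      exact Submodule.add_mem_sup hu ⟨_, hb _ (hb _ hv), rfl⟩
    · intro m hm
      obtain ⟨u, hu, _, ⟨v, hv, rfl⟩, rfl⟩ := Submodule.mem_sup.1 hm
      rw [map_add, h.rM (hL v hv)]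
      exact Submodule.add_mem_sup (hb _ hu) ⟨_, hv, rfl⟩
    · intro m hm
      obtain ⟨u, hu, _, ⟨v, hv, rfl⟩, rfl⟩ := Submodule.mem_sup.1 hm
      rw [map_add, ← rho_mul, ← sq, add_comm]
      exact Submodule.add_mem_sup (hz _ hv) ⟨_, hu, rfl⟩
    · intro m hm
      obtain ⟨u, hu, _, ⟨v, hv, rfl⟩, rfl⟩ := Submodule.mem_sup.1 hm
      rw [map_add, ← rho_mul, h.sr, rho_mul, rho_mul]
      exact Submodule.add_mem_sup (hs _ hu) ⟨_, hz _ (hs _ hv), rfl⟩
  have hx : x ∈ L ⊔ L.map (ρ r) := by rw [main]; trivial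
  obtain ⟨u, hu, _, ⟨v, hv, rfl⟩, rfl⟩ := Submodule.mem_sup.1 hx
  exact ⟨u, hu, v, hv, rfl⟩

theorem Hyp.zs_comm (m : M) : ρ s (ρ (r ^ 2) m) = ρ (r ^ 2) (ρ s m) := by
  have e : s * r ^ 2 = r ^ 2 * s := by
    have h4 := h.r4
    calc s * r ^ 2 = s * r * r := by rw [sq, mul_assoc]
      _ = (r * (r ^ 2 * s)) * r := by rw [h.sr]
      _ = r * r ^ 2 * (s * r) := by simp only [mul_assoc]
      _ = r * r ^ 2 * (r * (r ^ 2 * s)) := by rw [h.sr]
      _ = r ^ 4 * (r ^ 2 * s) := by group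
      _ = r ^ 2 * s := by rw [h4, one_mul]
  rw [← rho_mul, e, rho_mul]

/-- the involution `sz` is trivial on `M₁` -/
theorem Hyp.sz (hM : Nontrivial M) {m : M} (hm : ρ a m = m) : ρ (r ^ 2) m = ρ s m := by
  have hss : ∀ m, ρ s (ρ s m) = m := fun m => by rw [← rho_mul, ← sq, h.s2, map_one]; rfl
  have hzz : ∀ m, ρ (r ^ 2) (ρ (r ^ 2) m) = m := fun m => by rw [← rho_mul, ← pow_add, h.r4, map_one]; rfl
  let K : Submodule (ZMod 2) M :=
    { carrier := {m | ρ a m = m ∧ ρ (r ^ 2) m = ρ s m}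
      zero_mem' := by simp
      add_mem' := by
        rintro x y ⟨h1, h2⟩ ⟨h3, h4⟩
        exact ⟨by rw [map_add, h1, h3], by rw [map_add, map_add, h2, h4]⟩
      smul_mem' := by
        rintro c x ⟨h1, h2⟩
        exact ⟨by rw [map_smul, h1], by rw [map_smul, map_smul, h2]⟩ }
  have hbz : ∀ m, ρ a m = m → ρ (r ^ 2) (ρ b m) = ρ b (ρ b (ρ (r ^ 2) m)) := by
    intro m hm
    rw [← rho_mul, h.zb, rho_mul, rho_mul]
  have hK : K ≠ ⊥ := by
    obtain ⟨x, hx⟩ := exists_ne (0 : M)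
    obtain ⟨u, v, hu, hv, rfl⟩ := h.hsum x
    -- some nonzero element of `M₁`
    have : ∃ w : M, w ≠ 0 ∧ ρ a w = w := by
      by_cases hu0 : u = 0
      · refine ⟨ρ r v, ?_, ?_⟩
        · intro h0
          have h2 : ρ r⁻¹ (ρ r v) = v := by rw [← rho_mul, inv_mul_cancel, map_one]; rfl
          rw [h0, map_zero] at h2
          apply hx
          rw [hu0, ← h2, add_zero]
        · rw [← rho_mul, h.ar, rho_mul, rho_mul, hv, hv]
      · exact ⟨u, hu0, hu⟩
    obtain ⟨w, hw0, hw⟩ := this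
    -- fixed point of `s z`
    by_cases hsz : ρ s (ρ (r ^ 2) w) = w
    · intro hb
      have : w ∈ K := ⟨hw, by
        have := congrArg (ρ s) hsz
        rwa [hss] at this⟩
      rw [hb, Submodule.mem_bot] at this
      exact hw0 this
    · intro hb
      have : w + ρ s (ρ (r ^ 2) w) ∈ K := by
        refine ⟨by rw [map_add, hw, h.M1_s (h.M1_z hw)], ?_⟩
        rw [map_add, map_add, hss, ← h.zs_comm, hzz, add_comm]
      rw [hb, Submodule.mem_bot] at this
      apply hsz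
      have h2 := add_self w
      have : w + ρ s (ρ (r ^ 2) w) = w + w := by rw [this, h2]
      exact add_left_cancel this
  obtain ⟨u, hu, v, hv, e⟩ := h.inv K (fun m hm => hm.1) (fun m hm => ⟨h.M1_b hm.1, by
      rw [hbz m hm.1, hm.2, ← rho_mul, ← rho_mul, ← rho_mul, h.sb, mul_assoc]⟩)
    (fun m hm => ⟨h.M1_s hm.1, by rw [← h.zs_comm, hm.2]⟩) (fun m hm => ⟨h.M1_z hm.1, by rw [h.zs_comm, hm.2]⟩) hK m
  have h1 : ρ a (ρ r v) = ρ r v := by
    have : ρ r v = m - u := by rw [e]; abel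
    rw [this, map_sub, hm, hu.1]
  have h2 := h.zero_of hv.1 h1
  rw [e, h2, map_zero, add_zero]
  exact hu.2

theorem Hyp.exists_m0 (hM : Nontrivial M) : ∃ w : M, w ≠ 0 ∧ ρ a w = w ∧ ρ s w = w := by
  have hss : ∀ m, ρ s (ρ s m) = m := fun m => by rw [← rho_mul, ← sq, h.s2, map_one]; rfl
  obtain ⟨x, hx⟩ := exists_ne (0 : M)
  obtain ⟨u, v, hu, hv, rfl⟩ := h.hsum x
  have : ∃ w : M, w ≠ 0 ∧ ρ a w = w := by
    by_cases hu0 : u = 0
    · refine ⟨ρ r v, ?_, ?_⟩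
      · intro h0
        have h2 : ρ r⁻¹ (ρ r v) = v := by rw [← rho_mul, inv_mul_cancel, map_one]; rfl
        rw [h0, map_zero] at h2
        apply hx
        rw [hu0, ← h2, add_zero]
      · rw [← rho_mul, h.ar, rho_mul, rho_mul, hv, hv]
    · exact ⟨u, hu0, hu⟩
  obtain ⟨w, hw0, hw⟩ := this
  by_cases hs : ρ s w = w
  · exact ⟨w, hw0, hw, hs⟩
  · refine ⟨w + ρ s w, ?_, ?_, ?_⟩
    · intro h0
      apply hs
      have h2 := add_self w
      have : w + ρ s w = w + w := by rw [h0, h2]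
      exact add_left_cancel this
    · rw [map_add, hw, h.M1_s hw]
    · rw [map_add, hss, add_comm]

theorem Hyp.final (hM : Nontrivial M) : Nat.card M = 16 ∧ Nat.card {m : M // ρ (r ^ 2) m = m ∧ ρ (s * r) m = m} = 2 ∧
    Nat.card {m : M // ρ (r ^ 2) m = m ∧ ρ s m = m} = 4 := by
  obtain ⟨m₀, hm0, ha0, hs0⟩ := h.exists_m0 hM
  have hb2 := h.bb ha0
  have hL1 : ∀ c d : ZMod 2, ρ a (c • m₀ + d • ρ b m₀) = c • m₀ + d • ρ b m₀ := by
    intro c d
    rw [map_add, map_smul, map_smul, ha0, h.M1_b ha0]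
  have hsb : ρ s (ρ b m₀) = m₀ + ρ b m₀ := by
    rw [← rho_mul, h.sb, rho_mul, rho_mul, hs0, hb2]
  have hLs : ∀ c d : ZMod 2, ρ s (c • m₀ + d • ρ b m₀) = (c + d) • m₀ + d • ρ b m₀ := by
    intro c d
    rw [map_add, map_smul, map_smul, hs0, hsb, smul_add, add_smul]
    abel
  have hLz : ∀ c d : ZMod 2, ρ (r ^ 2) (c • m₀ + d • ρ b m₀) = (c + d) • m₀ + d • ρ b m₀ := by
    intro c d
    rw [h.sz hM (hL1 c d), hLs]
  let L : Submodule (ZMod 2) M :=
    { carrier := {x | ∃ c d : ZMod 2, x = c • m₀ + d • ρ b m₀}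
      zero_mem' := ⟨0, 0, by simp⟩
      add_mem' := by
        rintro _ _ ⟨c, d, rfl⟩ ⟨c', d', rfl⟩
        exact ⟨c + c', d + d', by rw [add_smul, add_smul]; abel⟩
      smul_mem' := by
        rintro e _ ⟨c, d, rfl⟩
        exact ⟨e * c, e * d, by rw [smul_add, smul_smul, smul_smul]⟩ }
  have hL : ∀ x : M, ∃ u ∈ L, ∃ v ∈ L, x = u + ρ r v := by
    apply h.inv L
    · rintro _ ⟨c, d, rfl⟩; exact hL1 c d
    · rintro _ ⟨c, d, rfl⟩
      refine ⟨d, c + d, ?_⟩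
      rw [map_add, map_smul, map_smul, hb2, smul_add, add_smul]
      abel
    · rintro _ ⟨c, d, rfl⟩; exact ⟨_, _, hLs c d⟩
    · rintro _ ⟨c, d, rfl⟩; exact ⟨_, _, hLz c d⟩
    · intro hb
      have : m₀ ∈ L := ⟨1, 0, by simp⟩
      rw [hb, Submodule.mem_bot] at this
      exact hm0 this
  have hindep : ∀ c d : ZMod 2, c • m₀ + d • ρ b m₀ = 0 → c = 0 ∧ d = 0 := by
    intro c d hcd
    have hbne : ρ b m₀ ≠ m₀ := fun hb => hm0 (h.hC _ ha0 hb)
    have hb0 : ρ b m₀ ≠ 0 := by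
      intro h0
      rw [h0, map_zero, add_zero] at hb2
      exact hm0 hb2.symm
    have hz2 : ∀ x : ZMod 2, x = 0 ∨ x = 1 := by decide
    rcases hz2 c with rfl | rfl <;> rcases hz2 d with rfl | rfl
    · exact ⟨rfl, rfl⟩
    · rw [zero_smul, one_smul, zero_add] at hcd; exact absurd hcd hb0
    · rw [zero_smul, one_smul, add_zero] at hcd; exact absurd hcd hm0
    · rw [one_smul, one_smul] at hcd
      exfalso
      apply hbne
      have h2 := add_self m₀
      have : m₀ + ρ b m₀ = m₀ + m₀ := by rw [hcd, h2]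
      exact add_left_cancel this
  let φ : ZMod 2 × ZMod 2 × ZMod 2 × ZMod 2 → M := fun c => (c.1 • m₀ + c.2.1 • ρ b m₀) + ρ r (c.2.2.1 • m₀ + c.2.2.2 • ρ b m₀)
  have hφinj : ∀ c c', φ c = φ c' → c = c' := by
    rintro ⟨c1, c2, c3, c4⟩ ⟨d1, d2, d3, d4⟩ he
    simp only [φ] at he
    have h1 : ((c1 - d1) • m₀ + (c2 - d2) • ρ b m₀) = - ρ r ((c3 - d3) • m₀ + (c4 - d4) • ρ b m₀) := by
      rw [← sub_eq_zero] at he ⊢
      rw [← he]
      simp only [map_add, map_smul, sub_smul, map_sub]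
      abel
    have h2 : ρ a (ρ r ((c3 - d3) • m₀ + (c4 - d4) • ρ b m₀)) = ρ r ((c3 - d3) • m₀ + (c4 - d4) • ρ b m₀) := by
      have h3 := hL1 (c1 - d1) (c2 - d2)
      rw [h1, map_neg, neg_inj] at h3
      exact h3
    have h3 := h.zero_of (hL1 _ _) h2
    rw [h3, map_zero, neg_zero] at h1
    obtain ⟨e1, e2⟩ := hindep _ _ h1
    obtain ⟨e3, e4⟩ := hindep _ _ h3
    rw [sub_eq_zero] at e1 e2 e3 e4
    rw [e1, e2, e3, e4]
  have hφsurj : ∀ x, ∃ c, φ c = x := by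
    intro x
    obtain ⟨_, ⟨c1, c2, rfl⟩, _, ⟨c3, c4, rfl⟩, rfl⟩ := hL x
    exact ⟨(c1, c2, c3, c4), rfl⟩
  let e : ZMod 2 × ZMod 2 × ZMod 2 × ZMod 2 ≃ M := Equiv.ofBijective φ ⟨fun c c' => hφinj c c', hφsurj⟩
  -- the actions
  have aZ : ∀ c, ρ (r ^ 2) (φ c) = φ (c.1 + c.2.1, c.2.1, c.2.2.1 + c.2.2.2, c.2.2.2) := by
    rintro ⟨c1, c2, c3, c4⟩
    simp only [φ]
    rw [map_add, hLz, ← rho_mul]
    have : r ^ 2 * r = r * r ^ 2 := by group
    rw [this, rho_mul, hLz]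
  have aS : ∀ c, ρ s (φ c) = φ (c.1 + c.2.1, c.2.1, c.2.2.1, c.2.2.2) := by
    rintro ⟨c1, c2, c3, c4⟩
    simp only [φ]
    rw [map_add, hLs, ← rho_mul, h.sr, rho_mul, rho_mul, ← h.zs_comm, hLz, hLs]
    have : c3 + c4 + c4 = c3 := by
      have : ∀ x y : ZMod 2, x + y + y = x := by decide
      exact this _ _
    rw [this]
  have aSR : ∀ c, ρ (s * r) (φ c) = φ (c.2.2.1, c.2.2.2, c.1, c.2.1) := by
    rintro ⟨c1, c2, c3, c4⟩
    have h1 : ρ r (φ (c1, c2, c3, c4)) = φ (c3 + c4, c4, c1, c2) := by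
      simp only [φ]
      rw [map_add, ← rho_mul ρ r r, ← sq, hLz, add_comm]
    rw [rho_mul, h1, aS]
    have : c3 + c4 + c4 = c3 := by
      have : ∀ x y : ZMod 2, x + y + y = x := by decide
      exact this _ _
    simp only [this]
  refine ⟨?_, ?_, ?_⟩
  · rw [← Nat.card_congr e]
    simp
  · rw [← Nat.card_congr (e.subtypeEquiv (p := fun c => (c.1 + c.2.1, c.2.1, c.2.2.1 + c.2.2.2, c.2.2.2) = c ∧ (c.2.2.1, c.2.2.2, c.1, c.2.1) = c) ?_)]
    · rw [Nat.card_eq_fintype_card]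
      decide
    · intro c
      change _ ↔ ρ (r ^ 2) (φ c) = φ c ∧ ρ (s * r) (φ c) = φ c
      rw [aZ, aSR]
      constructor
      · rintro ⟨h1, h2⟩; rw [h1, h2]; exact ⟨rfl, rfl⟩
      · rintro ⟨h1, h2⟩; exact ⟨hφinj _ _ h1, hφinj _ _ h2⟩
  · rw [← Nat.card_congr (e.subtypeEquiv (p := fun c => (c.1 + c.2.1, c.2.1, c.2.2.1 + c.2.2.2, c.2.2.2) = c ∧ (c.1 + c.2.1, c.2.1, c.2.2.1, c.2.2.2) = c) ?_)]
    · rw [Nat.card_eq_fintype_card]
      decide
    · intro c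
      change _ ↔ ρ (r ^ 2) (φ c) = φ c ∧ ρ s (φ c) = φ c
      rw [aZ, aS]
      constructor
      · rintro ⟨h1, h2⟩; rw [h1, h2]; exact ⟨rfl, rfl⟩
      · rintro ⟨h1, h2⟩; exact ⟨hφinj _ _ h1, hφinj _ _ h2⟩

end Main

section Group

variable {S : Type*} [Group S]

/-- the basic configuration -/
structure Base (A : Subgroup S) (a r s : S) : Prop where
  r4 : r ^ 4 = 1
  s2 : s ^ 2 = 1
  sr : s * r = r⁻¹ * s
  hz : ∀ x ∈ A, r ^ 2 * x = x⁻¹ * r ^ 2
  haA : a ∈ A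
  ha1 : a ≠ 1
  sa : s * a = a * s

variable {A : Subgroup S} [hAn : A.Normal] {a r s : S} (h : Base A a r s)

include h

theorem Base.hb : r * a * r⁻¹ ∈ A := hAn.conj_mem _ h.haA _

theorem Base.rb : r * (r * a * r⁻¹) * r⁻¹ = a⁻¹ := by
  have h1 := h.hz a h.haA
  calc r * (r * a * r⁻¹) * r⁻¹ = r ^ 2 * a * (r ^ 2)⁻¹ := by simp only [sq, mul_inv_rev, mul_assoc]
    _ = a⁻¹ := by rw [h1, mul_inv_cancel_right]

theorem Base.rb' : r⁻¹ * a * r = (r * a * r⁻¹)⁻¹ := by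
  have h1 := h.rb
  have h2 : r * (r * a * r⁻¹)⁻¹ * r⁻¹ = a := by
    have : r * (r * a * r⁻¹)⁻¹ * r⁻¹ = (r * (r * a * r⁻¹) * r⁻¹)⁻¹ := by simp only [mul_inv_rev, mul_assoc, inv_inv]
    rw [this, h1, inv_inv]
  nth_rw 1 [← h2]
  group

theorem Base.sb : s * (r * a * r⁻¹) * s⁻¹ = (r * a * r⁻¹)⁻¹ := by
  rw [← h.rb']
  have h1 := h.sr
  have h2 : s * r = r⁻¹ * s := h.sr
  calc s * (r * a * r⁻¹) * s⁻¹ = (s * r) * a * (s * r)⁻¹ := by group
    _ = (r⁻¹ * s) * a * (r⁻¹ * s)⁻¹ := by rw [h2]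
    _ = r⁻¹ * (s * a) * s⁻¹ * r := by group
    _ = r⁻¹ * (a * s) * s⁻¹ * r := by rw [h.sa]
    _ = r⁻¹ * a * r := by group

theorem Base.swap (hab : ∀ x ∈ A, ∀ y ∈ A, x * y = y * x) (h3 : ∀ x ∈ A, x ^ 3 = 1) : Base A (a * (r * a * r⁻¹)⁻¹) r (s * r) := by
  have hsr := h.sr
  have hb := h.hb
  refine ⟨h.r4, ?_, ?_, h.hz, mul_mem h.haA (inv_mem hb), ?_, ?_⟩
  · rw [sq, mul_assoc, ← mul_assoc r s r]
    have : r * s * r = s := by rw [mul_assoc, hsr, mul_inv_cancel_left]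
    rw [this, ← sq, h.s2]
  · rw [hsr, mul_assoc, hsr]
  · intro h1
    rw [mul_inv_eq_one] at h1
    have h2 := h.sb
    rw [← h1] at h2
    have h4 : s * a * s⁻¹ = a := by rw [h.sa]; group
    rw [h4] at h2
    have h5 : a ^ 3 = 1 := h3 a h.haA
    have h6 : a ^ 2 = 1 := by rw [sq]; nth_rw 1 [h2]; group
    have h7 : a ^ 3 = a := by rw [pow_succ, h6, one_mul]
    rw [h7] at h5
    exact h.ha1 h5
  · -- `s r (a b⁻¹) = (a b⁻¹) s r`
    rw [← mul_inv_eq_iff_eq_mul]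
    set b := r * a * r⁻¹ with hbdef
    have e1 : s * r * (a * b⁻¹) * (s * r)⁻¹ = s * (r * a * r⁻¹ * (r * b * r⁻¹)⁻¹) * s⁻¹ := by group
    have e2 : r * b * r⁻¹ = a⁻¹ := h.rb
    have e3 : s * b * s⁻¹ = b⁻¹ := h.sb
    have e4 : s * a * s⁻¹ = a := by rw [h.sa]; group
    rw [e1, e2, ← hbdef, inv_inv]
    have e5 : s * (b * a) * s⁻¹ = (s * b * s⁻¹) * (s * a * s⁻¹) := by group
    rw [e5, e3, e4]
    exact hab _ (inv_mem hb) _ h.haA

variable {M : Type*} [AddCommGroup M] [Module (ZMod 2) M] {ρ : Representation (ZMod 2) S M}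

/-- relations needed for `Hyp` -/
theorem Base.hyp (hab : ∀ x ∈ A, ∀ y ∈ A, x * y = y * x) (h3 : ∀ x ∈ A, x ^ 3 = 1)
    (irr : ∀ N : Submodule (ZMod 2) M, (∀ m ∈ N, ρ a m ∈ N) → (∀ m ∈ N, ρ (r * a * r⁻¹) m ∈ N) → (∀ m ∈ N, ρ r m ∈ N) → (∀ m ∈ N, ρ s m ∈ N) →
      N = ⊥ ∨ N = ⊤)
    (hC : ∀ m : M, ρ a m = m → ρ (r * a * r⁻¹) m = m → m = 0)
    (hsum : ∀ m : M, ∃ u v : M, ρ a u = u ∧ ρ (r * a * r⁻¹) v = v ∧ m = u + v) : Hyp ρ a (r * a * r⁻¹) r s := by
  have hsr := h.sr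
  have hb := h.hb
  have inv3 : ∀ x ∈ A, x⁻¹ = x * x := by
    intro x hx
    rw [inv_eq_iff_mul_eq_one, ← mul_assoc, ← sq, ← pow_succ]
    exact h3 x hx
  refine ⟨h.r4, h.s2, ?_, h3 _ hb, hab _ h.haA _ hb, ?_, ?_, ?_, h.sa, ?_, ?_, irr, hC, hsum⟩
  · rw [hsr, ← mul_assoc, ← pow_succ']
    have : r⁻¹ = r ^ 3 := by rw [inv_eq_iff_mul_eq_one, ← pow_succ', h.r4]
    rw [this]
  · rw [inv_mul_cancel_right]
  · have := h.hz _ (inv_mem h.haA)
    rw [inv_inv] at this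
    exact this.symm
  · rw [← inv3 _ hb, ← h.rb']
    group
  · rw [← inv3 _ hb, ← h.sb]
    group
  · rw [← inv3 _ hb]
    exact h.hz _ hb

theorem Base.C_inv (hab : ∀ x ∈ A, ∀ y ∈ A, x * y = y * x) :
    let N : Submodule (ZMod 2) M := LinearMap.ker (ρ a - 1) ⊓ LinearMap.ker (ρ (r * a * r⁻¹) - 1)
    (∀ m ∈ N, ρ a m ∈ N) ∧ (∀ m ∈ N, ρ (r * a * r⁻¹) m ∈ N) ∧ (∀ m ∈ N, ρ r m ∈ N) ∧ (∀ m ∈ N, ρ s m ∈ N) := by
  intro N
  have hb := h.hb
  have key : ∀ (g x y : S) (m : M), m ∈ LinearMap.ker (ρ x - 1) → (g * x = y * g ∨ g * x = y⁻¹ * g) → ρ g m ∈ LinearMap.ker (ρ y - 1) := by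
    intro g x y m hm hg
    rw [LinearMap.mem_ker, LinearMap.sub_apply, sub_eq_zero] at hm ⊢
    change ρ x m = m at hm
    change ρ y (ρ g m) = ρ g m
    rcases hg with hg | hg
    · rw [← rho_mul, ← hg, rho_mul, hm]
    · have h1 : ρ y⁻¹ (ρ g m) = ρ g m := by rw [← rho_mul, ← hg, rho_mul, hm]
      conv_lhs => rw [← h1]
      rw [← rho_mul, mul_inv_cancel, map_one]; rfl
  have h1 : r * a = (r * a * r⁻¹) * r := by rw [inv_mul_cancel_right]
  have h2 : r * (r * a * r⁻¹) = a⁻¹ * r := by rw [← h.rb, inv_mul_cancel_right]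
  have h3 : s * (r * a * r⁻¹) = (r * a * r⁻¹)⁻¹ * s := by rw [← h.sb, inv_mul_cancel_right]
  refine ⟨?_, ?_, ?_, ?_⟩
  · rintro m ⟨hu, hv⟩
    exact ⟨key _ _ _ _ hu (Or.inl rfl), key _ _ _ _ hv (Or.inl (hab _ h.haA _ hb))⟩
  · rintro m ⟨hu, hv⟩
    exact ⟨key _ _ _ _ hu (Or.inl (hab _ hb _ h.haA)), key _ _ _ _ hv (Or.inl rfl)⟩
  · rintro m ⟨hu, hv⟩
    exact ⟨key _ _ _ _ hv (Or.inr h2), key _ _ _ _ hu (Or.inl h1)⟩
  · rintro m ⟨hu, hv⟩
    exact ⟨key _ _ _ _ hu (Or.inl h.sa), key _ _ _ _ hv (Or.inr h3)⟩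

/-- the sum of the fixed spaces of `a` and `b` is invariant -/
theorem Base.N_inv (hab : ∀ x ∈ A, ∀ y ∈ A, x * y = y * x) :
    let N : Submodule (ZMod 2) M := LinearMap.ker (ρ a - 1) ⊔ LinearMap.ker (ρ (r * a * r⁻¹) - 1)
    (∀ m ∈ N, ρ a m ∈ N) ∧ (∀ m ∈ N, ρ (r * a * r⁻¹) m ∈ N) ∧ (∀ m ∈ N, ρ r m ∈ N) ∧ (∀ m ∈ N, ρ s m ∈ N) := by
  intro N
  have hb := h.hb
  have key : ∀ (g x y : S) (m : M), m ∈ LinearMap.ker (ρ x - 1) → (g * x = y * g ∨ g * x = y⁻¹ * g) → ρ g m ∈ LinearMap.ker (ρ y - 1) := by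
    intro g x y m hm hg
    rw [LinearMap.mem_ker, LinearMap.sub_apply, sub_eq_zero] at hm ⊢
    change ρ x m = m at hm
    change ρ y (ρ g m) = ρ g m
    rcases hg with hg | hg
    · rw [← rho_mul, ← hg, rho_mul, hm]
    · have h1 : ρ y⁻¹ (ρ g m) = ρ g m := by rw [← rho_mul, ← hg, rho_mul, hm]
      conv_lhs => rw [← h1]
      rw [← rho_mul, mul_inv_cancel, map_one]; rfl
  have h1 : r * a = (r * a * r⁻¹) * r := by rw [inv_mul_cancel_right]
  have h2 : r * (r * a * r⁻¹) = a⁻¹ * r := by rw [← h.rb, inv_mul_cancel_right]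
  have h3 : s * (r * a * r⁻¹) = (r * a * r⁻¹)⁻¹ * s := by rw [← h.sb, inv_mul_cancel_right]
  refine ⟨?_, ?_, ?_, ?_⟩
  · intro m hm
    obtain ⟨u, hu, v, hv, rfl⟩ := Submodule.mem_sup.1 hm
    rw [map_add]
    exact Submodule.add_mem_sup (key _ _ _ _ hu (Or.inl rfl)) (key _ _ _ _ hv (Or.inl (hab _ h.haA _ hb)))
  · intro m hm
    obtain ⟨u, hu, v, hv, rfl⟩ := Submodule.mem_sup.1 hm
    rw [map_add]
    exact Submodule.add_mem_sup (key _ _ _ _ hu (Or.inl (hab _ hb _ h.haA))) (key _ _ _ _ hv (Or.inl rfl))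
  · intro m hm
    obtain ⟨u, hu, v, hv, rfl⟩ := Submodule.mem_sup.1 hm
    rw [map_add, add_comm]
    exact Submodule.add_mem_sup (key _ _ _ _ hv (Or.inr h2)) (key _ _ _ _ hu (Or.inl h1))
  · intro m hm
    obtain ⟨u, hu, v, hv, rfl⟩ := Submodule.mem_sup.1 hm
    rw [map_add]
    exact Submodule.add_mem_sup (key _ _ _ _ hu (Or.inl h.sa)) (key _ _ _ _ hv (Or.inr h3))

end Group

/-- the four-group generated by two commuting involutions -/
def Four {S : Type*} [Group S] (z t : S) (hz : z ^ 2 = 1) (ht : t ^ 2 = 1) (hzt : z * t = t * z) : Subgroup S where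
  carrier := {1, z, t, z * t}
  one_mem' := by simp
  mul_mem' := by
    have hz' : z * z = 1 := by rw [← sq]; exact hz
    have ht' : t * t = 1 := by rw [← sq]; exact ht
    have e1 : z * (z * t) = t := by rw [← mul_assoc, hz', one_mul]
    have e2 : t * z = z * t := hzt.symm
    have e3 : t * (z * t) = z := by rw [hzt, ← mul_assoc, ht', one_mul]
    have e4 : z * t * z = t := by rw [mul_assoc, ← hzt, e1]
    have e5 : z * t * t = z := by rw [mul_assoc, ht', mul_one]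
    have e6 : z * t * (z * t) = 1 := by rw [mul_assoc, e3, hz']
    rintro a b (rfl | rfl | rfl | rfl) (rfl | rfl | rfl | rfl) <;>
      simp only [Set.mem_insert_iff, Set.mem_singleton_iff, one_mul, mul_one, hz', ht', e1, e2, e3, e4, e5, e6, true_or, or_true]
  inv_mem' := by
    have hz' : z⁻¹ = z := inv_eq_of_mul_eq_one_right (by rw [← sq]; exact hz)
    have ht' : t⁻¹ = t := inv_eq_of_mul_eq_one_right (by rw [← sq]; exact ht)
    rintro a (rfl | rfl | rfl | rfl)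
    · simp
    · rw [hz']; simp
    · rw [ht']; simp
    · rw [mul_inv_rev, hz', ht', ← hzt]; simp

section Finish

variable {S : Type*} [Group S] [Finite S] {M : Type*} [AddCommGroup M] [Module (ZMod 2) M] {ρ : Representation (ZMod 2) S M}

theorem fix_iff {z t : S} (hz : z ^ 2 = 1) (ht : t ^ 2 = 1) (hzt : z * t = t * z) (m : M) :
    (∀ b ∈ Four z t hz ht hzt, ρ b m = m) ↔ (ρ z m = m ∧ ρ t m = m) := by
  constructor
  · intro h
    exact ⟨h z (by change z ∈ ({1, z, t, z * t} : Set S); simp), h t (by change t ∈ ({1, z, t, z * t} : Set S); simp)⟩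
  · rintro ⟨h1, h2⟩ b (rfl | rfl | rfl | rfl)
    · rw [map_one]; rfl
    · exact h1
    · exact h2
    · rw [rho_mul, h2, h1]

theorem card_four {z t : S} (hz : z ^ 2 = 1) (ht : t ^ 2 = 1) (hzt : z * t = t * z) (h1 : z ≠ 1) (h2 : t ≠ 1) (h3 : z ≠ t) :
    Nat.card (Four z t hz ht hzt) = 4 := by
  change Nat.card ↥({1, z, t, z * t} : Set S) = 4
  rw [Nat.card_coe_set_eq]
  have hz' : z * z = 1 := by rw [← sq]; exact hz
  have h4 : z * t ≠ 1 := by
    intro h
    apply h3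
    calc z = z * (z * t) := by rw [h, mul_one]
      _ = t := by rw [← mul_assoc, hz', one_mul]
  have h5 : z ≠ z * t := fun h => h2 (by simpa using h.symm)
  have h6 : t ≠ z * t := fun h => h1 (by simpa using h.symm)
  rw [Set.ncard_insert_of_notMem, Set.ncard_insert_of_notMem, Set.ncard_pair h6]
  · simp only [Set.mem_insert_iff, Set.mem_singleton_iff, not_or]
    exact ⟨h3, h5⟩
  · simp only [Set.mem_insert_iff, Set.mem_singleton_iff, not_or]
    exact ⟨h1.symm, h2.symm, h4.symm⟩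

/-- a subgroup of order 4 containing two different involutions is the four-group they generate -/
theorem eq_four {z t : S} (hz : z ^ 2 = 1) (ht : t ^ 2 = 1) (hzt : z * t = t * z) (h1 : z ≠ 1) (h2 : t ≠ 1) (h3 : z ≠ t)
    {B : Subgroup S} (hB : Nat.card B = 4) (hzB : z ∈ B) (htB : t ∈ B) : B = Four z t hz ht hzt := by
  symm
  apply Subgroup.eq_of_le_of_card_ge
  · rintro b (rfl | rfl | rfl | rfl)
    · exact one_mem _
    · exact hzB
    · exact htB
    · exact mul_mem hzB htB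
  · rw [hB, card_four hz ht hzt h1 h2 h3]

theorem finish {a b r s : S} (h : Hyp ρ a b r s) (hM : Nontrivial M) (X : Subgroup S) (hX8 : Nat.card X = 8) (hr : r ∈ X) (hs : s ∈ X) (hr2 : r ^ 2 ≠ 1)
    (hX : ∀ x ∈ X, (∃ i : ℕ, x = r ^ i) ∨ ∃ i : ℕ, x = s * r ^ i) (hsn : ∀ i : ℕ, s ≠ r ^ i) :
    Nat.card M = 16 ∧
      ∃! B : Subgroup S, B ≤ X ∧ Nat.card ↥B = 4 ∧ (∀ b ∈ B, b ^ 2 = 1) ∧
        Nat.card {m : M // ∀ b ∈ B, ρ b m = m} = 2 := by
  obtain ⟨h16, h2, h4⟩ := h.final hM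
  refine ⟨h16, ?_⟩
  have hz : (r ^ 2) ^ 2 = 1 := by rw [← pow_mul]; exact h.r4
  have hzs : r ^ 2 * s = s * r ^ 2 := by
    have h4 := h.r4
    symm
    calc s * r ^ 2 = s * r * r := by rw [sq, mul_assoc]
      _ = (r * (r ^ 2 * s)) * r := by rw [h.sr]
      _ = r * r ^ 2 * (s * r) := by simp only [mul_assoc]
      _ = r * r ^ 2 * (r * (r ^ 2 * s)) := by rw [h.sr]
      _ = r ^ 4 * (r ^ 2 * s) := by group
      _ = r ^ 2 * s := by rw [h4, one_mul]
  have hsr2 : (s * r) ^ 2 = 1 := by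
    have h4 := h.r4
    calc (s * r) ^ 2 = s * r * s * r := by rw [sq]; simp only [mul_assoc]
      _ = r * (r ^ 2 * s) * s * r := by rw [h.sr]
      _ = r * r ^ 2 * (s ^ 2) * r := by rw [sq s]; simp only [mul_assoc]
      _ = r ^ 4 := by rw [h.s2, mul_one]; group
      _ = 1 := h4
  have hzsr : r ^ 2 * (s * r) = s * r * r ^ 2 := by
    rw [← mul_assoc, hzs, mul_assoc, mul_assoc]
    congr 1
    group
  have hsn1 : s ≠ 1 := by simpa using hsn 0
  have hsn2 : r ^ 2 ≠ s := fun h => hsn 2 h.symm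
  have hsrn1 : s * r ≠ 1 := by
    intro h0
    have h4 := h.r4
    apply hsn 3
    have : s = r⁻¹ := eq_inv_of_mul_eq_one_left h0
    rw [this, inv_eq_iff_mul_eq_one, ← pow_succ']; exact h4
  have hsrn2 : r ^ 2 ≠ s * r := by
    intro h0
    apply hsn 1
    have : r * r = s * r := by rw [← sq]; exact h0
    rw [pow_one]
    exact (mul_right_cancel this).symm
  refine ⟨Four (r ^ 2) (s * r) hz hsr2 hzsr, ⟨?_, card_four hz hsr2 hzsr hr2 hsrn1 hsrn2, ?_, ?_⟩, ?_⟩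
  · rintro b (rfl | rfl | rfl | rfl)
    · exact one_mem _
    · exact pow_mem hr 2
    · exact mul_mem hs hr
    · exact mul_mem (pow_mem hr 2) (mul_mem hs hr)
  · rintro b (rfl | rfl | rfl | rfl)
    · exact one_pow 2
    · exact hz
    · exact hsr2
    · rw [(show Commute (r ^ 2) (s * r) from hzsr).mul_pow, hz, hsr2, one_mul]
  · exact (Nat.card_congr (Equiv.subtypeEquivRight fun m => fix_iff hz hsr2 hzsr m)).trans h2
  · rintro B ⟨hBX, hB4, hB2, hBf⟩
    -- `z ∈ B`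
    have hidx : (B.subgroupOf X).index = 2 := by
      have h5 := Subgroup.index_mul_card (B.subgroupOf X)
      rw [Nat.card_congr (Subgroup.subgroupOfEquivOfLe hBX).toEquiv, hB4, hX8] at h5
      omega
    have hzB : r ^ 2 ∈ B := by
      have := Subgroup.sq_mem_of_index_two hidx ⟨r, hr⟩
      rw [Subgroup.mem_subgroupOf] at this
      exact this
    -- another element
    obtain ⟨t, htB, ht1, htz⟩ : ∃ t ∈ B, t ≠ 1 ∧ t ≠ r ^ 2 := by
      by_contra hcon
      push Not at hcon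
      have h5 : B ≤ zpowers (r ^ 2) := by
        intro x hx
        by_cases hx1 : x = 1
        · rw [hx1]; exact one_mem _
        · rw [hcon x hx hx1]; exact mem_zpowers _
      have h6 := Nat.card_le_card_of_injective _ (inclusion_injective h5)
      rw [hB4, Nat.card_zpowers] at h6
      have h7 : orderOf (r ^ 2) ≤ 2 := orderOf_le_of_pow_eq_one (by norm_num) hz
      omega
    have ht2 := hB2 t htB
    have htzc : r ^ 2 * t = t * r ^ 2 := by
      have h5 : (r ^ 2 * t) ^ 2 = 1 := hB2 _ (mul_mem hzB htB)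
      rw [sq] at h5
      have h6 : r ^ 2 * t = (r ^ 2 * t)⁻¹ := eq_inv_of_mul_eq_one_left h5
      rw [h6, mul_inv_rev]
      have h7 : t⁻¹ = t := inv_eq_of_mul_eq_one_right (by rw [← sq]; exact ht2)
      have h8 : (r ^ 2)⁻¹ = r ^ 2 := inv_eq_of_mul_eq_one_right (by rw [← sq]; exact hz)
      rw [h7, h8]
    have key : ∀ i : ℕ, r ^ i = 1 ∨ r ^ i = r ∨ r ^ i = r ^ 2 ∨ r ^ i = r ^ 3 := by
      intro i
      have h5 : r ^ i = r ^ (i % 4) := by
        conv_lhs => rw [← Nat.mod_add_div i 4, pow_add, pow_mul, h.r4, one_pow, mul_one]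
      rw [h5]
      have h6 : i % 4 < 4 := Nat.mod_lt _ (by norm_num)
      interval_cases (i % 4)
      · left; exact pow_zero r
      · right; left; exact pow_one r
      · right; right; left; rfl
      · right; right; right; rfl
    have hBeq := eq_four hz ht2 htzc hr2 ht1 htz.symm hB4 hzB htB
    -- `t = s rⁱ`
    have hcases : t = s ∨ t = s * r ∨ t = s * r ^ 2 ∨ t = s * r ^ 3 := by
      rcases hX t (hBX htB) with ⟨i, hi⟩ | ⟨i, hi⟩
      · exfalso
        rcases key i with h5 | h5 | h5 | h5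
        · exact ht1 (hi.trans h5)
        · rw [hi, h5] at ht2; exact hr2 ht2
        · exact htz (hi.trans h5)
        · rw [hi, h5, ← pow_mul] at ht2
          apply hr2
          have : r ^ (3 * 2) = r ^ 4 * r ^ 2 := by rw [← pow_add]
          rw [this, h.r4, one_mul] at ht2
          exact ht2
      · rcases key i with h5 | h5 | h5 | h5
        · left; rw [hi, h5, mul_one]
        · right; left; rw [hi, h5]
        · right; right; left; rw [hi, h5]
        · right; right; right; rw [hi, h5]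
    have hsB : s ∈ B → False := by
      intro hsB
      have h5 := eq_four hz h.s2 hzs hr2 hsn1 hsn2 hB4 hzB hsB
      rw [h5] at hBf
      rw [Nat.card_congr (Equiv.subtypeEquivRight fun m => fix_iff hz h.s2 hzs m), h4] at hBf
      omega
    have hsrB : s * r ∈ B := by
      rcases hcases with h5 | h5 | h5 | h5
      · exact (hsB (h5 ▸ htB)).elim
      · exact h5 ▸ htB
      · exfalso
        apply hsB
        have : s = t * r ^ 2 := by rw [h5, mul_assoc, ← pow_add, h.r4, mul_one]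
        rw [this]; exact mul_mem htB hzB
      · have : s * r = t * r ^ 2 := by
          rw [h5, mul_assoc, ← pow_add]
          have : r ^ (3 + 2) = r ^ 4 * r := by rw [← pow_succ]
          rw [this, h.r4, one_mul]
        rw [this]; exact mul_mem htB hzB
    exact eq_four hz hsr2 hzsr hr2 hsrn1 hsrn2 hB4 hzB hsrB

end Finish

section Setup

variable {S : Type*} [Group S] [Finite S]

/-- an element of order 2 acting on a group: fixed points or inversion -/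
theorem fix_or_inv {A : Subgroup S} [A.Normal] (hab : ∀ x ∈ A, ∀ y ∈ A, x * y = y * x) {t : S} (ht : t ^ 2 = 1)
    (hno : ∀ x ∈ A, t * x = x * t → x = 1) : ∀ x ∈ A, t * x * t⁻¹ = x⁻¹ := by
  intro x hx
  have ht' : t⁻¹ = t := inv_eq_of_mul_eq_one_right (by rw [← sq]; exact ht)
  have htt : t * t = 1 := by rw [← sq]; exact ht
  have hy : t * x * t⁻¹ ∈ A := (inferInstance : A.Normal).conj_mem _ hx _
  have h1 := hno (x * (t * x * t⁻¹)) (mul_mem hx hy) (by
    rw [ht']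
    have hc : t * x * t * x = x * (t * x * t) := by
      have := hab _ hy _ hx
      rwa [ht'] at this
    calc t * (x * (t * x * t)) = (t * x * t * x) * t := by simp only [mul_assoc]
      _ = x * (t * x * t) * t := by rw [hc])
  exact eq_inv_of_mul_eq_one_right h1

theorem card_three_cases {D : Subgroup S} (hD : Nat.card D ∣ 3) {d : S} (hd : d ∈ D) (hd1 : d ≠ 1) {x : S} (hx : x ∈ D) :
    x = 1 ∨ x = d ∨ x = d⁻¹ := by
  classical
  have h0 : orderOf d ∣ 3 := by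
    have h1 := orderOf_dvd_natCard (⟨d, hd⟩ : D)
    rw [Subgroup.orderOf_mk] at h1
    exact h1.trans hD
  have h1 : orderOf d = 3 := by
    rcases (Nat.dvd_prime Nat.prime_three).1 h0 with h | h
    · rw [orderOf_eq_one_iff] at h; exact absurd h hd1
    · exact h
  have h2 : zpowers d = D := by
    apply Subgroup.eq_of_le_of_card_ge (zpowers_le.2 hd)
    rw [Nat.card_zpowers, h1]
    exact Nat.le_of_dvd (by norm_num) hD
  rw [← h2, mem_zpowers_iff_mem_range_orderOf, h1] at hx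
  simp only [Finset.mem_image, Finset.mem_range] at hx
  obtain ⟨i, hi, rfl⟩ := hx
  have h3 : d ^ 3 = 1 := by rw [← h1]; exact pow_orderOf_eq_one d
  interval_cases i
  · left; exact pow_zero d
  · right; left; exact pow_one d
  · right; right
    rw [eq_inv_iff_mul_eq_one, ← pow_succ]; exact h3

theorem z_inv {A X : Subgroup S} [A.Normal] (hA : IsElementaryAbelian 3 A) (hA9 : Nat.card ↥A = 9)
    (hfix : ∀ x ∈ X, x ∈ centralizer (A : Set S) → x = 1) {r s : S} (hr : r ∈ X) (hs : s ∈ X) (r4 : r ^ 4 = 1) (s2 : s ^ 2 = 1)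
    (sr : s * r = r⁻¹ * s) (hr2 : r ^ 2 ≠ 1) : ∀ x ∈ A, r ^ 2 * x * (r ^ 2)⁻¹ = x⁻¹ := by
  have hab : ∀ x ∈ A, ∀ y ∈ A, x * y = y * x := fun x hx y hy => congrArg Subtype.val (hA.1.is_comm.comm (⟨x, hx⟩ : A) ⟨y, hy⟩)
  have hz2 : (r ^ 2) ^ 2 = 1 := by rw [← pow_mul]; exact r4
  have hz' : (r ^ 2)⁻¹ = r ^ 2 := inv_eq_of_mul_eq_one_right (by rw [← sq]; exact hz2)
  apply fix_or_inv hab hz2
  intro c hc hzc
  by_contra hc1
  -- the inverted elements
  let D : Subgroup S :=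
    { carrier := {x | x ∈ A ∧ r ^ 2 * x * (r ^ 2)⁻¹ = x⁻¹}
      one_mem' := ⟨one_mem _, by simp⟩
      mul_mem' := by
        rintro x y ⟨hx, hx'⟩ ⟨hy, hy'⟩
        refine ⟨mul_mem hx hy, ?_⟩
        have : r ^ 2 * (x * y) * (r ^ 2)⁻¹ = (r ^ 2 * x * (r ^ 2)⁻¹) * (r ^ 2 * y * (r ^ 2)⁻¹) := by
          simp only [mul_assoc, inv_mul_cancel_left]
        rw [this, hx', hy', mul_inv_rev]
        exact hab _ (inv_mem hx) _ (inv_mem hy)
      inv_mem' := by
        rintro x ⟨hx, hx'⟩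
        refine ⟨inv_mem hx, ?_⟩
        have : r ^ 2 * x⁻¹ * (r ^ 2)⁻¹ = (r ^ 2 * x * (r ^ 2)⁻¹)⁻¹ := by simp only [mul_assoc, mul_inv_rev, inv_inv]
        rw [this, hx'] }
  have hDA : D ≤ A := fun x hx => hx.1
  have hcD : c ∉ D := by
    rintro ⟨_, h1⟩
    rw [hzc, mul_inv_cancel_right] at h1
    have h2 : c ^ 3 = 1 := hA.2 c hc
    have h3 : c ^ 2 = 1 := by rw [sq]; nth_rw 1 [h1]; exact inv_mul_cancel c
    rw [pow_succ, h3, one_mul] at h2
    exact hc1 h2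
  have hD3 : Nat.card D ∣ 3 := by
    have h1 : Nat.card D ∣ 9 := by rw [← hA9]; exact Subgroup.card_dvd_of_le hDA
    have h2 : Nat.card D ≠ 9 := by
      intro h
      have : D = A := Subgroup.eq_of_le_of_card_ge hDA (by rw [h, hA9])
      rw [this] at hcD
      exact hcD hc
    have h3 : Nat.card D ≤ 9 := Nat.le_of_dvd (by norm_num) h1
    have h4 : 0 < Nat.card D := Nat.card_pos
    revert h1 h2
    interval_cases (Nat.card D) <;> decide
  -- a nontrivial inverted element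
  obtain ⟨x, hxA, hx⟩ : ∃ x ∈ A, r ^ 2 * x ≠ x * r ^ 2 := by
    by_contra hcon
    push Not at hcon
    apply hr2
    apply hfix _ (pow_mem hr 2)
    rw [mem_centralizer_iff]
    intro y hy
    exact (hcon y hy).symm
  set d := x⁻¹ * (r ^ 2 * x * (r ^ 2)⁻¹) with hd
  have hd1 : d ≠ 1 := by
    intro h
    rw [inv_mul_eq_one] at h
    apply hx
    rw [eq_mul_inv_iff_mul_eq] at h
    exact h.symm
  have hdD : d ∈ D := by
    have hxc := (inferInstance : A.Normal).conj_mem x hxA (r ^ 2)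
    refine ⟨mul_mem (inv_mem hxA) hxc, ?_⟩
    have hzz : r ^ 2 * r ^ 2 = 1 := by rw [← sq]; exact hz2
    have e : r ^ 2 * d * (r ^ 2)⁻¹ = (r ^ 2 * x * (r ^ 2)⁻¹)⁻¹ * (r ^ 2 * r ^ 2 * x * (r ^ 2 * r ^ 2)⁻¹) := by
      rw [hd]; simp only [mul_assoc, mul_inv_rev, inv_inv, inv_mul_cancel_left]
    rw [e, hzz, hd]
    simp
  -- `X` normalizes `D`
  have hnorm : ∀ t : S, t * r ^ 2 * t⁻¹ = r ^ 2 → t * d * t⁻¹ = d ∨ t * d * t⁻¹ = d⁻¹ := by
    intro t ht
    have h1 : t * d * t⁻¹ ∈ D := by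
      refine ⟨(inferInstance : A.Normal).conj_mem _ (hDA hdD) _, ?_⟩
      have h2 : r ^ 2 * d * (r ^ 2)⁻¹ = d⁻¹ := hdD.2
      have e : r ^ 2 * (t * d * t⁻¹) * (r ^ 2)⁻¹ = (t * r ^ 2 * t⁻¹) * (t * d * t⁻¹) * (t * r ^ 2 * t⁻¹)⁻¹ := by rw [ht]
      rw [e]
      have e2 : (t * r ^ 2 * t⁻¹) * (t * d * t⁻¹) * (t * r ^ 2 * t⁻¹)⁻¹ = t * (r ^ 2 * d * (r ^ 2)⁻¹) * t⁻¹ := by
        simp only [mul_assoc, mul_inv_rev, inv_inv, inv_mul_cancel_left]
      rw [e2, h2]
      simp only [mul_assoc, mul_inv_rev, inv_inv]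
    rcases card_three_cases hD3 hdD hd1 h1 with h | h | h
    · exfalso
      rw [mul_inv_eq_one] at h
      exact hd1 (mul_left_cancel (h.trans (mul_one t).symm))
    · exact Or.inl h
    · exact Or.inr h
  have hrn := hnorm r (by group)
  have hsn := hnorm s (by
    rw [mul_inv_eq_iff_eq_mul, sq, ← mul_assoc, sr, mul_assoc, sr, ← mul_assoc]
    have : r⁻¹ * r⁻¹ = r * r := by
      rw [← mul_inv_rev, ← sq]; exact hz'
    rw [this])
  -- `r² = r s r⁻¹ s⁻¹` centralizes `d`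
  have hcomm : r ^ 2 * d * (r ^ 2)⁻¹ = d := by
    have e : r ^ 2 = r * s * r⁻¹ * s⁻¹ := by
      have h1 : r * s = s * r⁻¹ := by
        have : s * r⁻¹ = r * (r⁻¹ * s) * r⁻¹ := by rw [mul_inv_cancel_left]
        rw [this, ← sr]; simp only [mul_assoc, mul_inv_cancel, mul_one]
      have h2 : s * r⁻¹ * s⁻¹ = r := by rw [← h1, mul_inv_cancel_right]
      rw [mul_assoc r s, mul_assoc r, h2, sq]
    have inv_conj : ∀ t y : S, t * y⁻¹ * t⁻¹ = (t * y * t⁻¹)⁻¹ := by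
      intro t y; simp only [mul_assoc, mul_inv_rev, inv_inv]
    have back : ∀ t : S, (t * d * t⁻¹ = d ∨ t * d * t⁻¹ = d⁻¹) → (t⁻¹ * d * t = d ∧ t * d * t⁻¹ = d) ∨ (t⁻¹ * d * t = d⁻¹ ∧ t * d * t⁻¹ = d⁻¹) := by
      intro t ht
      rcases ht with ht | ht
      · left
        refine ⟨?_, ht⟩
        nth_rw 1 [← ht]; group
      · right
        refine ⟨?_, ht⟩
        have : d = t * d⁻¹ * t⁻¹ := by rw [inv_conj, ht, inv_inv]
        nth_rw 1 [this]; group
    have e2 : r ^ 2 * d * (r ^ 2)⁻¹ = r * (s * (r⁻¹ * (s⁻¹ * d * s) * r) * s⁻¹) * r⁻¹ := by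
      rw [e]; group
    rw [e2]
    have hi1 : ∀ t : S, t⁻¹ * d⁻¹ * t = (t⁻¹ * d * t)⁻¹ := fun t => by simp only [mul_assoc, mul_inv_rev, inv_inv]
    rcases back r hrn with ⟨a1, a2⟩ | ⟨a1, a2⟩ <;> rcases back s hsn with ⟨b1, b2⟩ | ⟨b1, b2⟩
    · rw [b1, a1, b2, a2]
    · rw [b1, hi1, a1, inv_conj, b2, inv_inv, a2]
    · rw [b1, a1, inv_conj, b2, inv_conj, a2, inv_inv]
    · rw [b1, hi1, a1, inv_inv, b2, inv_conj, a2, inv_inv]
  have h1 : r ^ 2 * d * (r ^ 2)⁻¹ = d⁻¹ := hdD.2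
  rw [hcomm] at h1
  have h2 : d ^ 3 = 1 := hA.2 d (hDA hdD)
  have h3 : d ^ 2 = 1 := by rw [sq]; nth_rw 1 [h1]; exact inv_mul_cancel d
  rw [pow_succ, h3, one_mul] at h2
  exact hd1 h2

end Setup

/-- Let S be a finite group with a normal elementary abelian subgroup A of order 9 that is self-centralizing (C_S(A) = A), and a dihedral subgroup X of order 8 with S = AX. Let M be a finite-dimensional module for S over the field with two elements that is faithful and irreducible. Then M has 16 elements, and X contains exactly one subgroup B of order 4 and exponent 2 whose fixed points on M form a subspace with exactly 2 elements (equivalently, M is free of rank one over the group algebra of B). -/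
theorem result {S : Type*} [Group S] [Finite S]
    (A : Subgroup S) [A.Normal] (hA : Cfsg.IsElementaryAbelian 3 A) (hA9 : Nat.card ↥A = 9)
    (hAC : Subgroup.centralizer (A : Set S) = A) (X : Subgroup S) (hX : Nonempty (↥X ≃* DihedralGroup 4)) (hAX : A ⊔ X = ⊤)
    {M : Type*} [AddCommGroup M] [Module (ZMod 2) M] [Finite M] (ρ : Representation (ZMod 2) S M)
    (hfaith : Function.Injective ρ)
    (hirr : ∀ N : Submodule (ZMod 2) M, (∀ s : S, ∀ m ∈ N, ρ s m ∈ N) → N = ⊥ ∨ N = ⊤) (hM : Nontrivial M) :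
    Nat.card M = 16 ∧
      ∃! B : Subgroup S, B ≤ X ∧ Nat.card ↥B = 4 ∧ (∀ b ∈ B, b ^ 2 = 1) ∧
        Nat.card {m : M // ∀ b ∈ B, ρ b m = m} = 2 := by
  have hab : ∀ x ∈ A, ∀ y ∈ A, x * y = y * x := fun x hx y hy => congrArg Subtype.val (hA.1.is_comm.comm (⟨x, hx⟩ : A) ⟨y, hy⟩)
  have h3A : ∀ x ∈ A, x ^ 3 = 1 := hA.2
  obtain ⟨e⟩ := hX
  have hX8 : Nat.card X = 8 := by
    rw [Nat.card_congr e.toEquiv, DihedralGroup.nat_card]
  have hfix : ∀ x ∈ X, x ∈ centralizer (A : Set S) → x = 1 := by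
    intro x hx hxc
    rw [hAC] at hxc
    have h1 : x ∈ A ⊓ X := mem_inf.2 ⟨hxc, hx⟩
    have h2 : A ⊓ X = ⊥ := inf_eq_bot_of_coprime (by rw [hA9, hX8]; decide)
    rw [h2, mem_bot] at h1
    exact h1
  set r : S := ((e.symm (DihedralGroup.r 1) : X) : S) with hrdef
  set s : S := ((e.symm (DihedralGroup.sr 0) : X) : S) with hsdef
  have hr : r ∈ X := (e.symm (DihedralGroup.r 1)).2
  have hs : s ∈ X := (e.symm (DihedralGroup.sr 0)).2
  have rpow : ∀ i : ℕ, r ^ i = ((e.symm ((DihedralGroup.r 1) ^ i) : X) : S) := by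
    intro i; rw [map_pow]; rfl
  have srpow : ∀ i : ℕ, s * r ^ i = ((e.symm (DihedralGroup.sr 0 * (DihedralGroup.r 1) ^ i) : X) : S) := by
    intro i; rw [rpow, map_mul]; rfl
  have r4 : r ^ 4 = 1 := by
    rw [rpow]
    have : (DihedralGroup.r 1 : DihedralGroup 4) ^ 4 = 1 := by decide
    rw [this, map_one]; rfl
  have hr2 : r ^ 2 ≠ 1 := by
    rw [rpow]
    intro h
    have h1 : e.symm ((DihedralGroup.r 1) ^ 2) = 1 := Subtype.ext h
    rw [EmbeddingLike.map_eq_one_iff] at h1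
    revert h1; decide
  have s2 : s ^ 2 = 1 := by
    have : s ^ 2 = ((e.symm ((DihedralGroup.sr 0) ^ 2) : X) : S) := by rw [map_pow]; rfl
    rw [this]
    have : (DihedralGroup.sr 0 : DihedralGroup 4) ^ 2 = 1 := by decide
    rw [this, map_one]; rfl
  have sr : s * r = r⁻¹ * s := by
    have h1 : s * r = ((e.symm (DihedralGroup.sr 0 * DihedralGroup.r 1) : X) : S) := by rw [map_mul]; rfl
    have h2 : r⁻¹ * s = ((e.symm ((DihedralGroup.r 1)⁻¹ * DihedralGroup.sr 0) : X) : S) := by rw [map_mul, map_inv]; rfl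
    rw [h1, h2]
    congr 2
  have hXall : ∀ x ∈ X, (∃ i : ℕ, x = r ^ i) ∨ ∃ i : ℕ, x = s * r ^ i := by
    intro x hx
    have key : ∀ d : DihedralGroup 4, (∃ i : Fin 4, d = (DihedralGroup.r 1) ^ (i : ℕ)) ∨ ∃ i : Fin 4, d = DihedralGroup.sr 0 * (DihedralGroup.r 1) ^ (i : ℕ) := by
      decide
    rcases key (e ⟨x, hx⟩) with ⟨i, hi⟩ | ⟨i, hi⟩
    · left
      refine ⟨i, ?_⟩
      rw [rpow, ← hi, MulEquiv.symm_apply_apply]
    · right
      refine ⟨i, ?_⟩
      rw [srpow, ← hi, MulEquiv.symm_apply_apply]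
  have hsn : ∀ i : ℕ, s ≠ r ^ i := by
    intro i h
    rw [rpow] at h
    have h1 : e.symm (DihedralGroup.sr 0) = e.symm ((DihedralGroup.r 1) ^ i) := Subtype.ext h
    have h2 := e.symm.injective h1
    rw [DihedralGroup.r_one_pow] at h2
    exact absurd h2 (by simp)
  have hzinv := z_inv hA hA9 hfix hr hs r4 s2 sr hr2
  have hz : ∀ x ∈ A, r ^ 2 * x = x⁻¹ * r ^ 2 := fun x hx => by rw [← mul_inv_eq_iff_eq_mul]; exact hzinv x hx
  -- an element of `A` fixed by `s`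
  obtain ⟨a, haA, ha1, hsa⟩ : ∃ a ∈ A, a ≠ 1 ∧ s * a = a * s := by
    by_contra hcon
    push Not at hcon
    have h1 := fix_or_inv hab s2 (fun x hx h => by_contra fun hne => hcon x hx hne h)
    -- then `r² = [r, s]` centralizes `A`
    apply hr2
    apply hfix _ (pow_mem hr 2)
    rw [mem_centralizer_iff]
    intro y hy
    have h2 : s * (r * y * r⁻¹) * s⁻¹ = (r * y * r⁻¹)⁻¹ := h1 _ ((inferInstance : A.Normal).conj_mem _ hy _)
    have h3 : s * (r * y * r⁻¹) * s⁻¹ = r⁻¹ * y⁻¹ * r := by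
      calc s * (r * y * r⁻¹) * s⁻¹ = (s * r) * y * (s * r)⁻¹ := by simp only [mul_assoc, mul_inv_rev]
        _ = (r⁻¹ * s) * y * (r⁻¹ * s)⁻¹ := by rw [sr]
        _ = r⁻¹ * (s * y * s⁻¹) * r := by simp only [mul_assoc, mul_inv_rev, inv_inv]
        _ = r⁻¹ * y⁻¹ * r := by rw [h1 y hy]
    rw [h2] at h3
    have h4 : r * y * r⁻¹ = r⁻¹ * y * r := by
      have := congrArg (·⁻¹) h3
      simp only [inv_inv, mul_inv_rev, ← mul_assoc] at this
      exact this
    have h5 : r * (r * y * r⁻¹) * r = r * (r⁻¹ * y * r) * r := by rw [h4]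
    have h6 : r * (r * y * r⁻¹) * r = r ^ 2 * y := by rw [sq]; simp only [mul_assoc, inv_mul_cancel, mul_one]
    have h7 : r * (r⁻¹ * y * r) * r = y * r ^ 2 := by rw [sq]; simp only [mul_assoc, mul_inv_cancel_left]
    rw [h6, h7] at h5
    exact h5.symm
  have hB : Base A a r s := ⟨r4, s2, sr, hz, haA, ha1, hsa⟩
  have hB' := hB.swap hab h3A
  -- generation
  have gen : ∀ (a s' : S), Base A a r s' → (∀ x ∈ X, (∃ i : ℕ, x = r ^ i) ∨ ∃ i : ℕ, x = s' * r ^ i) → ∀ N : Submodule (ZMod 2) M,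
      (∀ m ∈ N, ρ a m ∈ N) → (∀ m ∈ N, ρ (r * a * r⁻¹) m ∈ N) → (∀ m ∈ N, ρ r m ∈ N) → (∀ m ∈ N, ρ s' m ∈ N) → N = ⊥ ∨ N = ⊤ := by
    intro a s' hB hX' N h1 h2 h3 h4
    have hmulmem : ∀ g k : S, (∀ m ∈ N, ρ g m ∈ N) → (∀ m ∈ N, ρ k m ∈ N) → ∀ m ∈ N, ρ (g * k) m ∈ N := by
      intro g k hg hk m hm
      rw [rho_mul]; exact hg _ (hk _ hm)
    have hpowmem : ∀ (g : S) (n : ℕ), (∀ m ∈ N, ρ g m ∈ N) → ∀ m ∈ N, ρ (g ^ n) m ∈ N := by
      intro g n hg
      induction n with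
      | zero => intro m hm; rw [pow_zero, map_one]; exact hm
      | succ n ih => rw [pow_succ]; exact hmulmem _ _ ih hg
    have hXN : ∀ x ∈ X, ∀ m ∈ N, ρ x m ∈ N := by
      intro x hx
      rcases hX' x hx with ⟨i, rfl⟩ | ⟨i, rfl⟩
      · exact hpowmem _ _ h3
      · exact hmulmem _ _ h4 (hpowmem _ _ h3)
    have hAN : ∀ x ∈ A, ∀ m ∈ N, ρ x m ∈ N := by
      -- `A = <a> <b>`
      have hbA := hB.hb
      have hgen : A = zpowers a ⊔ zpowers (r * a * r⁻¹) := by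
        symm
        apply Subgroup.eq_of_le_of_card_ge
        · exact sup_le (zpowers_le.2 hB.haA) (zpowers_le.2 hbA)
        · have h5 : Nat.card (zpowers a ⊔ zpowers (r * a * r⁻¹) : Subgroup S) ∣ 9 := by
            rw [← hA9]
            exact Subgroup.card_dvd_of_le (sup_le (zpowers_le.2 hB.haA) (zpowers_le.2 hbA))
          have h6 : Nat.card (zpowers a ⊔ zpowers (r * a * r⁻¹) : Subgroup S) ≠ 1 := by
            intro h
            rw [Subgroup.card_eq_one] at h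
            have : a ∈ (zpowers a ⊔ zpowers (r * a * r⁻¹) : Subgroup S) := mem_sup_left (mem_zpowers a)
            rw [h, mem_bot] at this
            exact hB.ha1 this
          have h7 : Nat.card (zpowers a ⊔ zpowers (r * a * r⁻¹) : Subgroup S) ≠ 3 := by
            intro h
            have h8 := card_three_cases (D := zpowers a ⊔ zpowers (r * a * r⁻¹)) (by rw [h]) (mem_sup_left (mem_zpowers a)) hB.ha1
              (mem_sup_right (mem_zpowers (r * a * r⁻¹)))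
            have h9 := hB.sb
            have h10 : s' * a * s'⁻¹ = a := by rw [hB.sa]; group
            have h11 : r * a * r⁻¹ ≠ 1 := by
              intro h
              rw [mul_inv_eq_one] at h
              exact hB.ha1 (mul_left_cancel (h.trans (mul_one r).symm))
            have h12 : ∀ x ∈ A, x = x⁻¹ → x = 1 := by
              intro x hx h
              have h13 : x ^ 3 = 1 := h3A x hx
              have h14 : x ^ 2 = 1 := by rw [sq]; nth_rw 1 [h]; exact inv_mul_cancel x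
              rw [pow_succ, h14, one_mul] at h13
              exact h13
            rcases h8 with h8 | h8 | h8
            · exact h11 h8
            · rw [h8, h10] at h9
              exact hB.ha1 (h12 a hB.haA h9)
            · rw [h8, inv_inv] at h9
              have h13 : s' * a⁻¹ * s'⁻¹ = a⁻¹ := by
                have : s' * a⁻¹ * s'⁻¹ = (s' * a * s'⁻¹)⁻¹ := by simp only [mul_assoc, mul_inv_rev, inv_inv]
                rw [this, h10]
              rw [h13] at h9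
              exact hB.ha1 (h12 a hB.haA h9.symm)
          rw [hA9]
          have h8 : Nat.card (zpowers a ⊔ zpowers (r * a * r⁻¹) : Subgroup S) ≤ 9 := Nat.le_of_dvd (by norm_num) h5
          have h9 : 0 < Nat.card (zpowers a ⊔ zpowers (r * a * r⁻¹) : Subgroup S) := Nat.card_pos
          revert h5 h6 h7
          generalize Nat.card (zpowers a ⊔ zpowers (r * a * r⁻¹) : Subgroup S) = k at *
          intro h5 h6 h7
          interval_cases k <;> omega
      intro x hx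
      have hnorm : zpowers a ≤ normalizer (zpowers (r * a * r⁻¹) : Set S) := by
        rw [zpowers_le]
        apply centralizer_le_normalizer
        rw [mem_centralizer_iff]
        rintro _ ⟨i, rfl⟩
        exact ((show Commute a (r * a * r⁻¹) from hab _ hB.haA _ hbA).zpow_right i).eq.symm
      rw [hgen, sup_comm] at hx
      obtain ⟨y, hy, w, hw, rfl⟩ := (Cfsg.Agent.Lib.SubgroupTools.mem_sup_of_le_normalizer' hnorm).1 hx
      apply hmulmem
      · obtain ⟨i, rfl⟩ := mem_powers_iff_mem_zpowers.2 hy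
        exact hpowmem _ _ h1
      · obtain ⟨i, rfl⟩ := mem_powers_iff_mem_zpowers.2 hw
        exact hpowmem _ _ h2
    apply hirr
    intro g
    have hg : g ∈ A ⊔ X := by rw [hAX]; trivial
    obtain ⟨y, hy, w, hw, rfl⟩ := Subgroup.mem_sup_of_normal_left.1 hg
    exact hmulmem _ _ (hAN y hy) (hXN w hw)
  have hXall' : ∀ x ∈ X, (∃ i : ℕ, x = r ^ i) ∨ ∃ i : ℕ, x = (s * r) * r ^ i := by
    intro x hx
    rcases hXall x hx with ⟨i, hi⟩ | ⟨i, hi⟩
    · exact Or.inl ⟨i, hi⟩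
    · right
      refine ⟨i + 3, ?_⟩
      rw [hi, mul_assoc, ← pow_succ']
      have : r ^ (i + 3 + 1) = r ^ i * r ^ 4 := by rw [← pow_add]
      rw [this, r4, mul_one]
  have hCall : ∀ (a s' : S), Base A a r s' → (∀ x ∈ X, (∃ i : ℕ, x = r ^ i) ∨ ∃ i : ℕ, x = s' * r ^ i) → ∀ m : M, ρ a m = m →
      ρ (r * a * r⁻¹) m = m → m = 0 := by
    intro a s' hB hX' m h1 h2
    obtain ⟨c1, c2, c3, c4⟩ := hB.C_inv (ρ := ρ) hab
    rcases gen a s' hB hX' _ c1 c2 c3 c4 with h | h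
    · have : m ∈ (LinearMap.ker (ρ a - 1) ⊓ LinearMap.ker (ρ (r * a * r⁻¹) - 1) : Submodule (ZMod 2) M) := by
        refine ⟨?_, ?_⟩
        · rw [SetLike.mem_coe, LinearMap.mem_ker, LinearMap.sub_apply, sub_eq_zero]; exact h1
        · rw [SetLike.mem_coe, LinearMap.mem_ker, LinearMap.sub_apply, sub_eq_zero]; exact h2
      rw [h, Submodule.mem_bot] at this
      exact this
    · exfalso
      apply hB.ha1
      apply hfaith
      rw [map_one]
      ext x
      have : x ∈ (LinearMap.ker (ρ a - 1) ⊓ LinearMap.ker (ρ (r * a * r⁻¹) - 1) : Submodule (ZMod 2) M) := by rw [h]; trivial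
      have h3 := this.1
      rw [SetLike.mem_coe, LinearMap.mem_ker, LinearMap.sub_apply, sub_eq_zero] at h3
      exact h3
  have of_top : ∀ (a b : S), (LinearMap.ker (ρ a - 1) ⊔ LinearMap.ker (ρ b - 1) : Submodule (ZMod 2) M) = ⊤ →
      ∀ m : M, ∃ u v : M, ρ a u = u ∧ ρ b v = v ∧ m = u + v := by
    intro a b h m
    have hm : m ∈ (LinearMap.ker (ρ a - 1) ⊔ LinearMap.ker (ρ b - 1) : Submodule (ZMod 2) M) := by rw [h]; trivial
    obtain ⟨u, hu, v, hv, rfl⟩ := Submodule.mem_sup.1 hm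
    rw [LinearMap.mem_ker, LinearMap.sub_apply, sub_eq_zero] at hu hv
    exact ⟨u, v, hu, hv, rfl⟩
  obtain ⟨n1, n2, n3, n4⟩ := hB.N_inv (ρ := ρ) hab
  obtain ⟨k1, k2, k3, k4⟩ := hB'.N_inv (ρ := ρ) hab
  rcases gen a s hB hXall _ n1 n2 n3 n4 with hN | hN
  · rcases gen _ (s * r) hB' hXall' _ k1 k2 k3 k4 with hK | hK
    · -- impossible
      exfalso
      have zero_of : ∀ (x y : S) (m : M), x ^ 3 = 1 → (LinearMap.ker (ρ x - 1) ⊔ LinearMap.ker (ρ y - 1) : Submodule (ZMod 2) M) = ⊥ →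
          m + ρ x m + ρ (x * x) m = 0 := by
        intro x y m hx h
        have h1 : m + ρ x m + ρ (x * x) m ∈ (LinearMap.ker (ρ x - 1) ⊔ LinearMap.ker (ρ y - 1) : Submodule (ZMod 2) M) := by
          apply Submodule.mem_sup_left
          rw [LinearMap.mem_ker, LinearMap.sub_apply, sub_eq_zero]
          change ρ x (m + ρ x m + ρ (x * x) m) = m + ρ x m + ρ (x * x) m
          rw [map_add, map_add, ← rho_mul, ← rho_mul, ← mul_assoc, ← sq x, ← pow_succ, hx, map_one]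
          change ρ x m + ρ (x ^ 2) m + m = _
          abel
        rw [h, Submodule.mem_bot] at h1
        exact h1
      obtain ⟨m, hm⟩ := exists_ne (0 : M)
      apply hm
      set b := r * a * r⁻¹ with hbdef
      have hbA : b ∈ A := hB.hb
      have e2 : r * b * r⁻¹ = a⁻¹ := hB.rb
      have inv3 : ∀ x ∈ A, x⁻¹ = x * x := by
        intro x hx
        rw [inv_eq_iff_mul_eq_one, ← mul_assoc, ← sq, ← pow_succ]
        exact h3A x hx
      have hd : r * (a * b⁻¹) * r⁻¹ = a * b := by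
        have : r * (a * b⁻¹) * r⁻¹ = (r * a * r⁻¹) * (r * b * r⁻¹)⁻¹ := by simp only [mul_assoc, mul_inv_rev, inv_inv, inv_mul_cancel_left]
        rw [this, e2, inv_inv, ← hbdef]
        exact hab _ hbA _ haA
      rw [hd] at hK
      have hN' := hN
      rw [sup_comm] at hN'
      have hK' := hK
      rw [sup_comm] at hK'
      have z1 := fun m => zero_of a b m (h3A a haA) hN
      have z2 := zero_of b a m (h3A b hbA) hN'
      have z3 := zero_of (a * b⁻¹) (a * b) m (h3A _ (mul_mem haA (inv_mem hbA))) hK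
      have z4 := zero_of (a * b) (a * b⁻¹) m (h3A _ (mul_mem haA hbA)) hK'
      have z1m := z1 m
      have z1b := z1 (ρ b m)
      have z1bb := z1 (ρ (b * b) m)
      have e3 : a * b⁻¹ * (a * b⁻¹) = a * a * b := by
        have : a * b⁻¹ * (a * b⁻¹) = a * a * (b⁻¹ * b⁻¹) := by
          rw [mul_assoc, ← mul_assoc b⁻¹, hab _ (inv_mem hbA) _ haA]; simp only [mul_assoc]
        rw [this, inv3 b hbA]
        have : b * b * (b * b) = b := by
          have h3 : b * b * b = 1 := by rw [← sq, ← pow_succ]; exact h3A b hbA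
          calc b * b * (b * b) = (b * b * b) * b := by simp only [mul_assoc]
            _ = b := by rw [h3, one_mul]
        rw [this]
      have e4 : a * b * (a * b) = a * a * (b * b) := by
        rw [mul_assoc, ← mul_assoc b, hab _ hbA _ haA]; simp only [mul_assoc]
      rw [e3, inv3 b hbA] at z3
      rw [e4] at z4
      rw [← rho_mul, ← rho_mul] at z1b z1bb
      calc m = (m + ρ a m + ρ (a * a) m) + (m + ρ b m + ρ (b * b) m) + (m + ρ (a * (b * b)) m + ρ (a * a * b) m) +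
            (m + ρ (a * b) m + ρ (a * a * (b * b)) m) - ((m + ρ a m + ρ (a * a) m) + (ρ b m + ρ (a * b) m + ρ (a * a * b) m) +
              (ρ (b * b) m + ρ (a * (b * b)) m + ρ (a * a * (b * b)) m)) - (m + m) := by abel
        _ = 0 := by
          have hmm := add_self m
          rw [z1m, z2, z3, z4, z1b, z1bb, hmm]; simp
    · -- second case
      have hhyp := hB'.hyp hab h3A (gen _ _ hB' hXall') (hCall _ _ hB' hXall') (of_top _ _ hK)
      refine finish hhyp hM X hX8 hr (mul_mem hs hr) hr2 hXall' ?_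
      intro i h
      apply hsn (i + 3)
      have : s = s * r * r ^ 3 := by rw [mul_assoc, ← pow_succ', r4, mul_one]
      rw [this, h, ← pow_add]
  · have hhyp := hB.hyp hab h3A (gen _ _ hB hXall) (hCall _ _ hB hXall) (of_top _ _ hN)
    exact finish hhyp hM X hX8 hr hs hr2 hXall hsn

end Cfsg.Agent.S4407
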