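import Cfsg.Statements.S4410
import Cfsg.Agent.Lib.Fitting

set_option autoImplicit false
open Cfsg

namespace Cfsg.Agent.S4410

section

variable {V : Type*} [AddCommGroup V] [Module (ZMod 2) V]

theorem add_self' (v : V) : v + v = 0 := by
  have : (2 : ZMod 2) • v = 0 := by
    rw [show (2 : ZMod 2) = 0 from rfl, zero_smul]
  rwa [two_smul] at this

theorem key (s1 s2 : V ≃ₗ[ZMod 2] V) (a1 a2 : V) (h1 : ∀ v, s1 v = v ∨ s1 v = v + a1)
    (h2 : ∀ v, s2 v = v ∨ s2 v = v + a2) (ha1 : a1 ≠ 0) (ha2 : a2 ≠ 0)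
    (hsq : s2 * s2 = 1) (hne : s1 ≠ s2) (hodd : Odd (orderOf (s1 * s2))) : s1 a2 = a2 + a1 := by
  rcases h1 a2 with h | h
  swap
  · exact h
  exfalso
  have h1a1 : s1 a1 = a1 := by
    rcases h1 a1 with h' | h'
    · exact h'
    · rw [add_self'] at h'
      exact absurd ((LinearEquiv.map_eq_zero_iff s1).1 h') ha1
  have h2a2 : s2 a2 = a2 := by
    rcases h2 a2 with h' | h'
    · exact h'
    · rw [add_self'] at h'
      exact absurd ((LinearEquiv.map_eq_zero_iff s2).1 h') ha2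
  have hN : ∀ v, (s1 * s2) v = s1 (s2 v) := fun v => rfl
  have hNa2 : (s1 * s2) a2 = a2 := by rw [hN, h2a2, h]
  have hNa1 : (s1 * s2) a1 = a1 ∨ (s1 * s2) a1 = a1 + a2 := by
    rcases h2 a1 with h' | h'
    · left; rw [hN, h', h1a1]
    · right; rw [hN, h', map_add, h1a1, h]
  have hN1 : ∀ v, (s1 * s2) v = v ∨ (s1 * s2) v = v + a2 ∨ (s1 * s2) v = v + a1 ∨ (s1 * s2) v = v + a1 + a2 := by
    intro v
    rcases h2 v with h' | h'
    · rcases h1 v with h'' | h''
      · left; rw [hN, h', h'']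
      · right; right; left; rw [hN, h', h'']
    · rcases h1 v with h'' | h''
      · right; left; rw [hN, h', map_add, h'', h]
      · right; right; right; rw [hN, h', map_add, h'', h]
  have hN2 : ∀ v, ((s1 * s2) ^ 2) v = v ∨ ((s1 * s2) ^ 2) v = v + a2 := by
    intro v
    have e : ((s1 * s2) ^ 2) v = (s1 * s2) ((s1 * s2) v) := by rw [sq]; rfl
    rw [e]
    have z1 : ∀ x y : V, x + y + y = x := fun x y => by rw [add_assoc, add_self', add_zero]
    rcases hN1 v with h' | h' | h' | h'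
    · left; rw [h', h']
    · left; rw [h', map_add, h', hNa2, z1]
    · rw [h', map_add, h']
      rcases hNa1 with h'' | h''
      · left; rw [h'', z1]
      · right; rw [h'', ← add_assoc, z1]
    · rw [h', map_add, map_add, h', hNa2]
      rcases hNa1 with h'' | h''
      · left; rw [h'']
        have : v + a1 + a2 + a1 + a2 = v + (a1 + a1) + (a2 + a2) := by abel
        rw [this, add_self', add_self']; simp
      · right; rw [h'']
        have : v + a1 + a2 + (a1 + a2) + a2 = v + (a1 + a1) + (a2 + a2) + a2 := by abel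
        rw [this, add_self', add_self']; simp
  have hN2a : ((s1 * s2) ^ 2) a2 = a2 := by
    have e : ((s1 * s2) ^ 2) a2 = (s1 * s2) ((s1 * s2) a2) := by rw [sq]; rfl
    rw [e, hNa2, hNa2]
  have hN4 : (s1 * s2) ^ 4 = 1 := by
    apply LinearEquiv.ext
    intro v
    have e : ((s1 * s2) ^ 4) v = ((s1 * s2) ^ 2) (((s1 * s2) ^ 2) v) := by
      rw [show (4 : ℕ) = 2 + 2 by norm_num, pow_add]; rfl
    rw [e]
    change _ = v
    rcases hN2 v with h' | h'
    · rw [h', h']
    · rw [h', map_add, h', hN2a, add_assoc, add_self', add_zero]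
  have ho : orderOf (s1 * s2) ∣ 4 := orderOf_dvd_of_pow_eq_one hN4
  have ho1 : orderOf (s1 * s2) = 1 := by
    have hc : Nat.Coprime (orderOf (s1 * s2)) (2 ^ 2) := Nat.Coprime.pow_right 2 (Nat.Coprime.symm ((Nat.coprime_two_left).2 hodd))
    exact Nat.eq_one_of_dvd_coprimes hc dvd_rfl ho
  rw [orderOf_eq_one_iff] at ho1
  apply hne
  have : s1 * s2 * s2 = 1 * s2 := by rw [ho1]
  rwa [mul_assoc, hsq, mul_one, one_mul] at this

end

theorem exists_noncommute {S : Type*} [Group S] [Finite S] [Group.IsSolvable S] (hO : Cfsg.pCore 2 S = ⊥)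
    (t : S) (ht : t ≠ 1) (ht2 : t ^ 2 = 1) :
    ∃ r : ℕ, r.Prime ∧ r ≠ 2 ∧ ∃ x ∈ Cfsg.pCore r S, x * t ≠ t * x := by
  by_contra hcon
  push Not at hcon
  have hcent : t ∈ Subgroup.centralizer (Cfsg.fittingSubgroup S : Set S) := by
    rw [← Subgroup.zpowers_le, ← Subgroup.le_centralizer_iff, Lib.Fitting.fittingSubgroup_eq_iSup_pCore]
    apply iSup_le
    rintro ⟨r, hr⟩
    intro x hx
    rw [Subgroup.mem_centralizer_iff]
    intro y hy
    obtain ⟨k, rfl⟩ := Subgroup.mem_zpowers_iff.1 hy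
    have hxt : Commute x t := by
      by_cases h2 : r = 2
      · subst h2
        change x ∈ Cfsg.pCore 2 S at hx
        rw [hO] at hx
        rw [Subgroup.mem_bot.1 hx]
        exact Commute.one_left t
      · exact hcon r hr h2 x hx
    exact (hxt.zpow_right k).symm
  have hCF := Lib.Fitting.centralizer_fittingSubgroup_le (G := S)
  let N : Subgroup S :=
    { carrier := {c | c ∈ Subgroup.centralizer (Cfsg.fittingSubgroup S : Set S) ∧ c ^ 2 = 1}
      one_mem' := ⟨Subgroup.one_mem _, one_pow 2⟩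
      mul_mem' := by
        rintro a b ⟨ha, ha2⟩ ⟨hb, hb2⟩
        refine ⟨Subgroup.mul_mem _ ha hb, ?_⟩
        have hc : Commute a b := (Subgroup.mem_centralizer_iff.1 hb a (hCF ha))
        rw [hc.mul_pow, ha2, hb2, one_mul]
      inv_mem' := by
        rintro a ⟨ha, ha2⟩
        exact ⟨Subgroup.inv_mem _ ha, by rw [inv_pow, ha2, inv_one]⟩ }
  have hFn : (Cfsg.fittingSubgroup S).Normal := Lib.Fitting.normal_fittingSubgroup
  have hNn : N.Normal := by
    constructor
    rintro n ⟨hn, hn2⟩ g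
    refine ⟨?_, ?_⟩
    · have : (Subgroup.centralizer (Cfsg.fittingSubgroup S : Set S)).Normal := inferInstance
      exact this.conj_mem n hn g
    · rw [conj_pow, hn2]; group
  have hNp : IsPGroup 2 N := fun g => ⟨1, Subtype.ext (by simpa using g.2.2)⟩
  have h1 := Lib.Fitting.le_pCore 2 hNn hNp
  rw [hO] at h1
  exact ht (Subgroup.mem_bot.1 (h1 ⟨hcent, ht2⟩))

theorem result
    {V : Type*} [AddCommGroup V] [Module (ZMod 2) V] [Finite V]
    (S : Subgroup (V ≃ₗ[ZMod 2] V)) (hS : Group.IsSolvable ↥S) (hO2 : Cfsg.pCore 2 ↥S = ⊥)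
    (P : V ≃ₗ[ZMod 2] V) (hPS : P ∈ S) (hP4 : orderOf P = 4)
    (hcub : ((P : V →ₗ[ZMod 2] V) - LinearMap.id) ^ 3 = 0) :
    4 ≤ Nat.card ↥(LinearMap.range (((P : V →ₗ[ZMod 2] V) - LinearMap.id) ^ 2)) := by
  classical
  by_contra hcon
  have hfin : Finite (V ≃ₗ[ZMod 2] V) := Finite.of_injective (fun f => (f : V → V)) DFunLike.coe_injective
  set t : V ≃ₗ[ZMod 2] V := P ^ 2 with ht
  have ht1 : t ≠ 1 := by
    intro h
    have := orderOf_dvd_of_pow_eq_one h
    rw [hP4] at this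
    norm_num at this
  have htt : t * t = 1 := by
    have h4 : P ^ 4 = 1 := by rw [← hP4, pow_orderOf_eq_one]
    rw [ht, ← pow_add]
    exact h4
  have htS : t ∈ S := S.pow_mem hPS 2
  -- the form of `t`
  have hform : ∀ v : V, ((((P : V →ₗ[ZMod 2] V) - LinearMap.id) ^ 2 : V →ₗ[ZMod 2] V)) v = t v - v := by
    intro v
    rw [sq, ht, sq]
    change P (P v - v) - (P v - v) = P (P v) - v
    rw [map_sub]
    have h1 : P v + P v = 0 := add_self' _
    have h2 : v + v = 0 := add_self' _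
    have : P (P v) - P v - (P v - v) = P (P v) - (P v + P v) + (v + v) - v := by abel
    rw [this, h1, h2]; simp
  have hrange : ∀ v w : V, t v ≠ v → t w ≠ w → t v - v = t w - w := by
    intro v w hv hw
    by_contra hne
    apply hcon
    have hv' : t v - v ≠ 0 := sub_ne_zero.2 hv
    have hw' : t w - w ≠ 0 := sub_ne_zero.2 hw
    set a := t v - v
    set b := t w - w
    have haR : a ∈ LinearMap.range (((P : V →ₗ[ZMod 2] V) - LinearMap.id) ^ 2) := ⟨v, hform v⟩
    have hbR : b ∈ LinearMap.range (((P : V →ₗ[ZMod 2] V) - LinearMap.id) ^ 2) := ⟨w, hform w⟩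
    have hab0 : a + b ≠ 0 := by
      intro h
      apply hne
      have : a + b + b = b := by rw [h, zero_add]
      rwa [add_assoc, add_self', add_zero] at this
    have hsub : (({0, a, b, a + b} : Finset V) : Set V) ⊆ (LinearMap.range (((P : V →ₗ[ZMod 2] V) - LinearMap.id) ^ 2) : Set V) := by
      intro x hx
      simp only [Finset.coe_insert, Finset.coe_singleton, Set.mem_insert_iff, Set.mem_singleton_iff] at hx
      rcases hx with rfl | rfl | rfl | rfl
      · exact Submodule.zero_mem _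
      · exact haR
      · exact hbR
      · exact Submodule.add_mem _ haR hbR
    have hcard : ({0, a, b, a + b} : Finset V).card = 4 := by
      rw [Finset.card_insert_of_notMem, Finset.card_insert_of_notMem, Finset.card_insert_of_notMem,
        Finset.card_singleton]
      · simpa using hv'
      · simp only [Finset.mem_insert, Finset.mem_singleton, not_or]
        exact ⟨hne, by simpa using hw'⟩
      · simp only [Finset.mem_insert, Finset.mem_singleton, not_or]
        exact ⟨hv'.symm, hw'.symm, hab0.symm⟩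
    rw [← hcard, ← Set.ncard_coe_finset]
    exact Set.ncard_le_ncard hsub (Set.toFinite _)
  obtain ⟨v₀, hv₀⟩ : ∃ v, t v ≠ v := by
    by_contra h
    push Not at h
    exact ht1 (LinearEquiv.ext h)
  set a : V := t v₀ - v₀ with ha
  have ha0 : a ≠ 0 := sub_ne_zero.2 hv₀
  have hta : ∀ v, t v = v ∨ t v = v + a := by
    intro v
    by_cases hv : t v = v
    · exact Or.inl hv
    · right
      rw [ha, ← hrange v v₀ hv hv₀]; abel
  -- conjugates
  have hconj : ∀ (x : V ≃ₗ[ZMod 2] V) (v : V), (x * t * x⁻¹) v = v ∨ (x * t * x⁻¹) v = v + x a := by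
    intro x v
    have e : (x * t * x⁻¹) v = x (t (x⁻¹ v)) := rfl
    have e2 : x (x⁻¹ v) = v := LinearEquiv.apply_symm_apply x v
    rcases hta (x⁻¹ v) with h | h
    · left; rw [e, h, e2]
    · right; rw [e, h, map_add, e2]
  have hPa : P a = a := by
    have h1 : P * t = t * P := by rw [ht]; rw [← pow_succ, ← pow_succ']
    have h2 : t (P v₀) - P v₀ = P a := by
      rw [ha, map_sub]
      have : t (P v₀) = P (t v₀) := by
        change (t * P) v₀ = (P * t) v₀
        rw [h1]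
      rw [this]
    have h3 : t (P v₀) ≠ P v₀ := by
      intro h
      rw [h, sub_self] at h2
      exact ha0 ((LinearEquiv.map_eq_zero_iff P).1 h2.symm)
    rw [← h2, ha]
    exact hrange _ _ h3 hv₀
  -- the odd core
  obtain ⟨r, hr, hr2, x, hx, hxt⟩ := exists_noncommute (S := S) hO2 ⟨t, htS⟩
    (fun h => ht1 (congrArg Subtype.val h)) (Subtype.ext (by rw [sq]; exact htt))
  have := Fact.mk hr
  set R : Subgroup S := Cfsg.pCore r S with hR
  have hRn : R.Normal := Lib.Fitting.normal_pCore r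
  have hRp : IsPGroup r R := Lib.Fitting.isPGroup_pCore r
  have hRodd : ∀ y : S, y ∈ R → Odd (orderOf (y : V ≃ₗ[ZMod 2] V)) := by
    intro y hy
    obtain ⟨k, hk⟩ := (IsPGroup.iff_orderOf.1 hRp) ⟨y, hy⟩
    have e : orderOf (y : V ≃ₗ[ZMod 2] V) = r ^ k := by
      rw [← hk]
      rw [Subgroup.orderOf_mk, Subgroup.orderOf_coe]
    rw [e]
    exact (hr.odd_of_ne_two hr2).pow
  set ts : S := ⟨t, htS⟩ with hts
  set Ps : S := ⟨P, hPS⟩ with hPs
  have htts : ts * ts = 1 := Subtype.ext htt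
  have htsi : ts⁻¹ = ts := inv_eq_of_mul_eq_one_left htts
  -- products of two conjugates
  have hprod : ∀ y z : S, y ∈ R → z ∈ R → (y * ts * y⁻¹) * (z * ts * z⁻¹) ∈ R := by
    intro y z hy hz
    have e : (y * ts * y⁻¹) * (z * ts * z⁻¹) = y * (ts * (y⁻¹ * z) * ts⁻¹) * z⁻¹ := by
      rw [htsi]; group
    rw [e]
    exact R.mul_mem (R.mul_mem hy (hRn.conj_mem _ (R.mul_mem (R.inv_mem hy) hz) ts)) (R.inv_mem hz)
  -- main lemma for two distinct conjugates
  have hmain : ∀ y z : S, y ∈ R → z ∈ R → y * ts * y⁻¹ ≠ z * ts * z⁻¹ →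
      ((y * ts * y⁻¹ : S) : V ≃ₗ[ZMod 2] V) ((z : V ≃ₗ[ZMod 2] V) a) = (z : V ≃ₗ[ZMod 2] V) a + (y : V ≃ₗ[ZMod 2] V) a := by
    intro y z hy hz hne
    apply key _ ((z * ts * z⁻¹ : S) : V ≃ₗ[ZMod 2] V)
    · exact hconj y
    · exact hconj z
    · intro h; exact ha0 ((LinearEquiv.map_eq_zero_iff (y : V ≃ₗ[ZMod 2] V)).1 h)
    · intro h; exact ha0 ((LinearEquiv.map_eq_zero_iff (z : V ≃ₗ[ZMod 2] V)).1 h)
    · have : (z * ts * z⁻¹) * (z * ts * z⁻¹) = 1 := by
        have e : (z * ts * z⁻¹) * (z * ts * z⁻¹) = z * (ts * ts) * z⁻¹ := by group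
        rw [e, htts]; group
      exact congrArg Subtype.val this
    · intro h; exact hne (Subtype.ext h)
    · exact hRodd _ (hprod y z hy hz)
  -- set-up: s = x t x⁻¹, center b = x a
  have h1R : (1 : S) ∈ R := R.one_mem
  have hs_ne : x * ts * x⁻¹ ≠ 1 * ts * 1⁻¹ := by
    intro h
    apply hxt
    have : x * ts * x⁻¹ = ts := by simpa using h
    calc x * ts = (x * ts * x⁻¹) * x := by group
      _ = ts * x := by rw [this]
  have htb : t ((x : V ≃ₗ[ZMod 2] V) a) = (x : V ≃ₗ[ZMod 2] V) a + a := by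
    have := hmain 1 x h1R hx (fun h => hs_ne h.symm)
    simpa using this
  set y : S := Ps * x * Ps⁻¹ with hy
  have hyR : y ∈ R := hRn.conj_mem _ hx Ps
  have hPcomm : Ps * ts = ts * Ps := by
    apply Subtype.ext
    change P * t = t * P
    rw [ht, ← pow_succ, ← pow_succ']
  have hya : (y : V ≃ₗ[ZMod 2] V) a = P ((x : V ≃ₗ[ZMod 2] V) a) := by
    change P ((x : V ≃ₗ[ZMod 2] V) (P⁻¹ a)) = _
    have : P⁻¹ a = a := by
      conv_lhs => rw [← hPa]
      exact LinearEquiv.symm_apply_apply P a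
    rw [this]
  -- s' = y t y⁻¹ = P s P⁻¹
  have hs' : y * ts * y⁻¹ = Ps * (x * ts * x⁻¹) * Ps⁻¹ := by
    rw [hy]
    have : Ps⁻¹ * ts * Ps = ts := by
      rw [mul_assoc, ← hPcomm]; group
    calc Ps * x * Ps⁻¹ * ts * (Ps * x * Ps⁻¹)⁻¹ = Ps * x * (Ps⁻¹ * ts * Ps) * x⁻¹ * Ps⁻¹ := by group
      _ = _ := by rw [this]; group
  set z : S := ts * x * ts⁻¹ with hz
  have hzR : z ∈ R := hRn.conj_mem _ hx ts
  have hza : (z : V ≃ₗ[ZMod 2] V) a = (x : V ≃ₗ[ZMod 2] V) a + a := by
    rw [← htb]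
    change t ((x : V ≃ₗ[ZMod 2] V) (t⁻¹ a)) = _
    have hta' : t a = a := by
      rw [ht, sq]
      change P (P a) = a
      rw [hPa, hPa]
    have : t⁻¹ a = a := by
      conv_lhs => rw [← hta']
      exact LinearEquiv.symm_apply_apply t a
    rw [this]
  by_cases hss : x * ts * x⁻¹ = y * ts * y⁻¹
  · -- then `P b = b`
    have hxne : ((x * ts * x⁻¹ : S) : V ≃ₗ[ZMod 2] V) ≠ 1 := by
      intro h
      have h' : x * ts * x⁻¹ = 1 := Subtype.ext h
      have : ts = 1 := by
        have e : ts = x⁻¹ * (x * ts * x⁻¹) * x := by group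
        rw [e, h']; group
      exact ht1 (congrArg Subtype.val this)
    obtain ⟨v, hv⟩ : ∃ v, ((x * ts * x⁻¹ : S) : V ≃ₗ[ZMod 2] V) v ≠ v := by
      by_contra h
      push Not at h
      exact hxne (LinearEquiv.ext h)
    have e1 := (hconj (x : V ≃ₗ[ZMod 2] V) v).resolve_left hv
    have hv' : ((y * ts * y⁻¹ : S) : V ≃ₗ[ZMod 2] V) v ≠ v := by rw [← hss]; exact hv
    have e2 := (hconj (y : V ≃ₗ[ZMod 2] V) v).resolve_left hv'
    have e3 : (x : V ≃ₗ[ZMod 2] V) a = (y : V ≃ₗ[ZMod 2] V) a := by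
      apply add_left_cancel (a := v)
      rw [← e1, ← e2]
      exact congrArg (fun w : S => (w : V ≃ₗ[ZMod 2] V) v) hss
    rw [hya] at e3
    have e4 : t ((x : V ≃ₗ[ZMod 2] V) a) = (x : V ≃ₗ[ZMod 2] V) a := by
      rw [ht, sq]
      change P (P _) = _
      rw [← e3, ← e3]
    rw [e4] at htb
    exact ha0 (by simpa using htb)
  · -- `s ≠ s'`
    have hs'' : z * ts * z⁻¹ = Ps * (y * ts * y⁻¹) * Ps⁻¹ := by
      rw [hs', hz]
      have hts2 : Ps * Ps = ts := Subtype.ext (by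
        change P * P = t
        rw [ht, sq])
      have e1 : ts * x * ts⁻¹ * ts * (ts * x * ts⁻¹)⁻¹ = ts * (x * ts * x⁻¹) * ts⁻¹ := by group
      have e2 : Ps * (Ps * (x * ts * x⁻¹) * Ps⁻¹) * Ps⁻¹ = (Ps * Ps) * (x * ts * x⁻¹) * (Ps * Ps)⁻¹ := by group
      rw [e1, e2, hts2]
    have hne2 : y * ts * y⁻¹ ≠ z * ts * z⁻¹ := by
      rw [hs', hs'']
      intro h
      exact hss (mul_left_cancel (mul_right_cancel h))
    have c1 := hmain y x hyR hx (Ne.symm hss)
    have c2 := hmain y z hyR hzR hne2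
    have c3 : ((y * ts * y⁻¹ : S) : V ≃ₗ[ZMod 2] V) a = a + (y : V ≃ₗ[ZMod 2] V) a := by
      have hne1 : y * ts * y⁻¹ ≠ 1 * ts * 1⁻¹ := by
        rw [hs']
        intro h
        apply hs_ne
        have : Ps * (x * ts * x⁻¹) * Ps⁻¹ = Ps * ts * Ps⁻¹ := by
          rw [h, hPcomm]; group
        have := mul_left_cancel (mul_right_cancel this)
        rw [this]; group
      have := hmain y 1 hyR h1R hne1
      simpa using this
    rw [hza, map_add, c1, c3] at c2
    have e5 : (x : V ≃ₗ[ZMod 2] V) a + (y : V ≃ₗ[ZMod 2] V) a + (a + (y : V ≃ₗ[ZMod 2] V) a) = (x : V ≃ₗ[ZMod 2] V) a + a := by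
      have : (x : V ≃ₗ[ZMod 2] V) a + (y : V ≃ₗ[ZMod 2] V) a + (a + (y : V ≃ₗ[ZMod 2] V) a) = (x : V ≃ₗ[ZMod 2] V) a + a + ((y : V ≃ₗ[ZMod 2] V) a + (y : V ≃ₗ[ZMod 2] V) a) := by abel
      rw [this, add_self', add_zero]
    rw [e5] at c2
    have : (y : V ≃ₗ[ZMod 2] V) a = 0 := by simpa using c2
    exact ha0 ((LinearEquiv.map_eq_zero_iff (y : V ≃ₗ[ZMod 2] V)).1 this)

end Cfsg.Agent.S4410
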