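import Cfsg.Statements.S4412
import Cfsg.Agent.Lib.SubgroupTools
import Cfsg.Agent.Lib.H70Frattini

set_option autoImplicit false
open Cfsg

namespace Cfsg.Agent.S4412

open Subgroup Cfsg.Agent.Lib

universe u

variable {P : Type u} [Group P] [Finite P]

/-- square roots in odd order groups, inside the cyclic subgroup -/
theorem exists_sqrt (hodd : Odd (Nat.card P)) (g : P) : ∃ n : ℕ, (g ^ n) ^ 2 = g := by
  obtain ⟨m, hm⟩ := hodd
  refine ⟨m + 1, ?_⟩
  rw [← pow_mul]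
  have h1 : (m + 1) * 2 = Nat.card P + 1 := by omega
  rw [h1, pow_succ, pow_card_eq_one', one_mul]

theorem eq_one_of_sq (hodd : Odd (Nat.card P)) {g : P} (h : g ^ 2 = 1) : g = 1 := by
  obtain ⟨n, hn⟩ := exists_sqrt hodd g
  rw [← pow_mul, mul_comm, pow_mul, h, one_pow] at hn
  exact hn.symm

theorem mem_of_sq (hodd : Odd (Nat.card P)) {H : Subgroup P} {g : P} (h : g ^ 2 ∈ H) : g ∈ H := by
  obtain ⟨n, hn⟩ := exists_sqrt hodd g
  rw [← hn, ← pow_mul, mul_comm, pow_mul]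
  exact pow_mem h n

/-- coprime action of an involution: fixed points lift -/
theorem inv_fix (hodd : Odd (Nat.card P)) (T : MulAut P) (hT : T * T = 1) (N : Subgroup P) {x : P}
    (hx : x⁻¹ * T x ∈ N) : ∃ h ∈ N, T (x * h) = x * h := by
  have hTT : ∀ y, T (T y) = y := fun y => by rw [← MulAut.mul_apply, hT, MulAut.one_apply]
  obtain ⟨n, hn⟩ := exists_sqrt hodd (x⁻¹ * T x)
  refine ⟨(x⁻¹ * T x) ^ n, pow_mem hx n, ?_⟩
  have h1 : T (x⁻¹ * T x) = (x⁻¹ * T x)⁻¹ := by rw [map_mul, hTT, map_inv]; group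
  rw [map_mul, map_pow, h1, inv_pow]
  generalize (x⁻¹ * T x) ^ n = w at hn ⊢
  have h2 : T x = x * w ^ 2 := by rw [hn]; group
  rw [h2, sq]; group

/-- generation of a `p`-group of odd order by the fixed points of the involutions of a four-group. -/
theorem generation {p : ℕ} [hp : Fact p.Prime] (hP : IsPGroup p P) (hodd : Odd (Nat.card P)) (T₁ T₂ : MulAut P) (h1 : T₁ * T₁ = 1)
    (h2 : T₂ * T₂ = 1) (h12 : T₁ * T₂ = T₂ * T₁) (H : Subgroup P) (H1 : ∀ x, T₁ x = x → x ∈ H)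
    (H2 : ∀ x, T₂ x = x → x ∈ H) (H3 : ∀ x, T₁ (T₂ x) = x → x ∈ H) : H = ⊤ := by
  apply frattini_nongenerating
  rw [eq_top_iff]
  intro x _
  have hchar : ∀ (T : MulAut P), ∀ y ∈ frattini P, T y ∈ frattini P := by
    intro T y hy
    have := (Subgroup.characteristic_iff_map_eq.1 (inferInstance : (frattini P).Characteristic)) T
    rw [← this]
    exact ⟨y, hy, rfl⟩
  -- commutators are in the Frattini subgroup
  have hc : ∀ a b : P, a * b * a⁻¹ * b⁻¹ ∈ frattini P := fun a b =>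
    H70Frattini.commutator_le_frattini hP (Subgroup.commutator_mem_commutator (mem_top a) (mem_top b))
  have hn : (frattini P).Normal := inferInstance
  -- the invariance criterion
  have hq : ∀ (T : MulAut P), T * T = 1 → (∀ x, T x = x → x ∈ H) → ∀ y : P, (QuotientGroup.mk (T y) : P ⧸ frattini P) = QuotientGroup.mk y →
      y ∈ H ⊔ frattini P := by
    intro T hT hH y hy
    have h3 : y⁻¹ * T y ∈ frattini P := QuotientGroup.eq.1 hy.symm
    obtain ⟨h, hh, hf⟩ := inv_fix hodd T hT (frattini P) h3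
    have h4 : y = (y * h) * h⁻¹ := by group
    rw [h4]
    exact mul_mem (mem_sup_left (hH _ hf)) (mem_sup_right (inv_mem hh))
  have hcomm : ∀ a b : P ⧸ frattini P, a * b = b * a := by
    intro a b
    induction a using QuotientGroup.induction_on with
    | H a =>
      induction b using QuotientGroup.induction_on with
      | H b =>
        rw [← mul_inv_eq_one, mul_inv_rev, ← mul_assoc, ← QuotientGroup.mk_mul, ← QuotientGroup.mk_inv, ← QuotientGroup.mk_inv,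
          ← QuotientGroup.mk_mul, ← QuotientGroup.mk_mul, QuotientGroup.eq_one_iff]
        exact hc a b
  letI : CommGroup (P ⧸ frattini P) := { (inferInstance : Group (P ⧸ frattini P)) with mul_comm := hcomm }
  have hT11 : ∀ y, T₁ (T₁ y) = y := fun y => by rw [← MulAut.mul_apply, h1, MulAut.one_apply]
  have hT22 : ∀ y, T₂ (T₂ y) = y := fun y => by rw [← MulAut.mul_apply, h2, MulAut.one_apply]
  have hT12 : ∀ y, T₂ (T₁ y) = T₁ (T₂ y) := fun y => by rw [← MulAut.mul_apply, ← h12, MulAut.mul_apply]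
  have m1 : x * T₁ x ∈ H ⊔ frattini P := by
    apply hq T₁ h1 H1
    rw [map_mul, hT11, QuotientGroup.mk_mul, QuotientGroup.mk_mul, mul_comm]
  have m2 : x * T₂ x ∈ H ⊔ frattini P := by
    apply hq T₂ h2 H2
    rw [map_mul, hT22, QuotientGroup.mk_mul, QuotientGroup.mk_mul, mul_comm]
  have m3 : x * T₁ (T₂ x) ∈ H ⊔ frattini P := by
    apply hq (T₁ * T₂)
    · rw [mul_assoc, ← mul_assoc T₂, ← h12, mul_assoc T₁, h2, mul_one, h1]
    · exact H3
    · rw [MulAut.mul_apply, map_mul, map_mul, hT12, hT22, hT11, QuotientGroup.mk_mul, QuotientGroup.mk_mul, mul_comm]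
  have m4 : x * T₁ x * (T₂ x) * T₁ (T₂ x) ∈ H ⊔ frattini P := by
    apply hq T₁ h1 H1
    simp only [map_mul, hT11, QuotientGroup.mk_mul]
    have e : ∀ a b c d : P ⧸ frattini P, b * a * d * c = a * b * c * d := by
      intro a b c d
      rw [mul_comm b a, mul_assoc, mul_comm d c, ← mul_assoc]
    exact e _ _ _ _
  apply mem_of_sq hodd
  -- `x ^ 2 = (x T₁x)(x T₂x)(x T₃x) / (x T₁x T₂x T₃x)` modulo the Frattini subgroup
  have m5 := mul_mem (mul_mem (mul_mem m1 m2) m3) (inv_mem m4)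
  have m6 : (x ^ 2)⁻¹ * (x * T₁ x * (x * T₂ x) * (x * T₁ (T₂ x)) * (x * T₁ x * T₂ x * T₁ (T₂ x))⁻¹) ∈ frattini P := by
    rw [← QuotientGroup.eq]
    simp only [QuotientGroup.mk_mul, QuotientGroup.mk_inv, QuotientGroup.mk_pow]
    generalize (QuotientGroup.mk x : P ⧸ frattini P) = a
    generalize (QuotientGroup.mk (T₁ x) : P ⧸ frattini P) = b
    generalize (QuotientGroup.mk (T₂ x) : P ⧸ frattini P) = c
    generalize (QuotientGroup.mk (T₁ (T₂ x)) : P ⧸ frattini P) = d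
    rw [eq_mul_inv_iff_mul_eq, sq]
    have e : a * a * (a * b * c * d) = a * b * (a * c) * (a * d) := by
      simp only [mul_comm, mul_left_comm]
    exact e
  have h7 : x ^ 2 = (x * T₁ x * (x * T₂ x) * (x * T₁ (T₂ x)) * (x * T₁ x * T₂ x * T₁ (T₂ x))⁻¹) *
      ((x ^ 2)⁻¹ * (x * T₁ x * (x * T₂ x) * (x * T₁ (T₂ x)) * (x * T₁ x * T₂ x * T₁ (T₂ x))⁻¹))⁻¹ := by
    group
  rw [h7]
  exact mul_mem m5 (inv_mem (mem_sup_right m6))

/-- action of an involution on a cyclic invariant subgroup -/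
theorem sign {p : ℕ} [hp : Fact p.Prime] (hp2 : p ≠ 2) (hP : IsPGroup p P) (T : MulAut P) (hT : T * T = 1) {z : P}
    (hz : T z ∈ zpowers z) : T z = z ∨ T z = z⁻¹ := by
  have hTT : ∀ y, T (T y) = y := fun y => by rw [← MulAut.mul_apply, hT, MulAut.one_apply]
  obtain ⟨n, hn⟩ := hz
  simp only at hn
  obtain ⟨k, hk⟩ := IsPGroup.iff_orderOf.1 hP z
  have h1 : z ^ (n * n - 1) = 1 := by
    rw [zpow_sub, zpow_mul, zpow_one, mul_inv_eq_one]
    have := hTT z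
    rw [← hn, map_zpow, ← hn] at this
    exact this
  have h2 : (p ^ k : ℤ) ∣ (n - 1) * (n + 1) := by
    have h3 := orderOf_dvd_iff_zpow_eq_one.2 h1
    rw [hk] at h3
    push_cast at h3
    have e : (n - 1) * (n + 1) = n * n - 1 := by ring
    rw [e]; exact h3
  have hpp : Prime (p : ℤ) := Nat.prime_iff_prime_int.1 hp.out
  by_cases h3 : (p : ℤ) ∣ n - 1
  · left
    have h4 : ¬ (p : ℤ) ∣ n + 1 := by
      intro h
      have h5 : (p : ℤ) ∣ 2 := by
        have := dvd_sub h h3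
        have e : n + 1 - (n - 1) = 2 := by ring
        rwa [e] at this
      have h6 : p ∣ 2 := by exact_mod_cast h5
      exact hp2 ((Nat.prime_dvd_prime_iff_eq hp.out Nat.prime_two).1 h6)
    have h5 : IsCoprime ((p : ℤ) ^ k) (n + 1) := IsCoprime.pow_left ((Prime.coprime_iff_not_dvd hpp).2 h4)
    have h6 := h5.dvd_of_dvd_mul_right h2
    rw [← hn]
    have h7 : z ^ (n - 1) = 1 := by
      rw [← orderOf_dvd_iff_zpow_eq_one, hk]; push_cast; exact h6
    rw [zpow_sub, zpow_one, mul_inv_eq_one] at h7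
    exact h7
  · right
    have h5 : IsCoprime ((p : ℤ) ^ k) (n - 1) := IsCoprime.pow_left ((Prime.coprime_iff_not_dvd hpp).2 h3)
    have h6 := h5.dvd_of_dvd_mul_left h2
    rw [← hn]
    have h7 : z ^ (n + 1) = 1 := by
      rw [← orderOf_dvd_iff_zpow_eq_one, hk]; push_cast; exact h6
    rw [zpow_add, zpow_one] at h7
    exact eq_inv_of_mul_eq_one_left h7

/-- the commutator of two of the generators is trivial modulo `N` -/
theorem comm_pair (hodd : Odd (Nat.card P)) (N : Subgroup P) [hN : N.Normal] (hchar : ∀ (T : MulAut P), ∀ y ∈ N, T y ∈ N)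
    (hcl : ∀ a b x : P, (a * b * a⁻¹ * b⁻¹) * x * (a * b * a⁻¹ * b⁻¹)⁻¹ * x⁻¹ ∈ N) (T τ : MulAut P) (hT : T * T = 1)
    {a b c : P} (Ta : T a = a⁻¹) (Tb : T b = b⁻¹) (Tc : ∀ x, T x = x → x ∈ zpowers c) (τa : τ a = a) (τb : τ b = b)
    (τc : τ c = c⁻¹) : a * b * a⁻¹ * b⁻¹ ∈ N := by
  have hcl' : ∀ a b x : P ⧸ N, (a * b * a⁻¹ * b⁻¹) * x = x * (a * b * a⁻¹ * b⁻¹) := by
    intro a b x
    induction a using QuotientGroup.induction_on with
    | H a =>
      induction b using QuotientGroup.induction_on with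
      | H b =>
        induction x using QuotientGroup.induction_on with
        | H x =>
          rw [← mul_inv_eq_one, mul_inv_rev, ← mul_assoc]
          rw [← QuotientGroup.mk_inv, ← QuotientGroup.mk_inv, ← QuotientGroup.mk_mul, ← QuotientGroup.mk_mul, ← QuotientGroup.mk_mul,
            ← QuotientGroup.mk_mul, ← QuotientGroup.mk_inv, ← QuotientGroup.mk_mul, ← QuotientGroup.mk_inv, ← QuotientGroup.mk_mul,
            QuotientGroup.eq_one_iff]
          exact hcl a b x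
  set d := a * b * a⁻¹ * b⁻¹ with hd
  have h1 : d⁻¹ * T d ∈ N := by
    rw [← QuotientGroup.eq, hd, map_mul, map_mul, map_mul, map_inv, map_inv, Ta, Tb, inv_inv, inv_inv]
    simp only [QuotientGroup.mk_mul, QuotientGroup.mk_inv]
    generalize (QuotientGroup.mk a : P ⧸ N) = A
    generalize (QuotientGroup.mk b : P ⧸ N) = B
    have h2 : A * B * A⁻¹ * B⁻¹ * (B * A) = A * B := by group
    have h3 := hcl' A B (B * A)
    rw [h2] at h3
    -- `AB = BA [A,B]`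
    have h4 : A⁻¹ * B⁻¹ * (A * B) = A * B * A⁻¹ * B⁻¹ := by
      calc A⁻¹ * B⁻¹ * (A * B) = (B * A)⁻¹ * (A * B) := by group
        _ = (B * A)⁻¹ * (B * A * (A * B * A⁻¹ * B⁻¹)) := by rw [← h3]
        _ = A * B * A⁻¹ * B⁻¹ := inv_mul_cancel_left _ _
    rw [← mul_assoc] at h4
    exact h4.symm
  obtain ⟨h, hh, hf⟩ := inv_fix hodd T hT N h1
  obtain ⟨i, hi⟩ := Tc _ hf
  simp only at hi
  have h2 : τ (d * h) = (d * h)⁻¹ := by rw [← hi, map_zpow, τc, inv_zpow]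
  have h3 : τ d = d := by rw [hd, map_mul, map_mul, map_mul, map_inv, map_inv, τa, τb]
  rw [map_mul, h3] at h2
  apply mem_of_sq hodd
  clear_value d
  rw [← QuotientGroup.eq_one_iff]
  have h4 : (QuotientGroup.mk (d * τ h) : P ⧸ N) = QuotientGroup.mk (d * h)⁻¹ := by rw [h2]
  rw [QuotientGroup.mk_mul, QuotientGroup.mk_inv, QuotientGroup.mk_mul, (QuotientGroup.eq_one_iff h).2 hh,
    (QuotientGroup.eq_one_iff (τ h)).2 (hchar τ h hh), mul_one] at h4
  rw [QuotientGroup.mk_pow, sq]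
  exact mul_eq_one_iff_eq_inv.2 h4

theorem comm_of_gen {x y z : P} (h : closure {x, y, z} = ⊤) (N : Subgroup P) [hN : N.Normal] (hxy : x * y * x⁻¹ * y⁻¹ ∈ N)
    (hyz : y * z * y⁻¹ * z⁻¹ ∈ N) (hxz : x * z * x⁻¹ * z⁻¹ ∈ N) : ∀ a b : P, a * b * a⁻¹ * b⁻¹ ∈ N := by
  have key : ∀ a b : P, a * b * a⁻¹ * b⁻¹ ∈ N ↔ (QuotientGroup.mk a : P ⧸ N) * QuotientGroup.mk b = QuotientGroup.mk b * QuotientGroup.mk a := by
    intro a b
    rw [← QuotientGroup.eq_one_iff]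
    simp only [QuotientGroup.mk_mul, QuotientGroup.mk_inv]
    rw [mul_inv_eq_one, mul_inv_eq_iff_eq_mul]
  have hcz : ∀ a : P, a * x * a⁻¹ * x⁻¹ ∈ N → a * y * a⁻¹ * y⁻¹ ∈ N → a * z * a⁻¹ * z⁻¹ ∈ N → ∀ b, a * b * a⁻¹ * b⁻¹ ∈ N := by
    intro a h1 h2 h3 b
    have hb : b ∈ closure {x, y, z} := by rw [h]; trivial
    induction hb using closure_induction with
    | mem b hb =>
      rcases hb with rfl | rfl | rfl
      · exact h1
      · exact h2
      · exact h3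
    | one => rw [key]; simp
    | mul b c _ _ hb hc =>
      rw [key] at hb hc ⊢
      rw [QuotientGroup.mk_mul, ← mul_assoc, hb, mul_assoc, hc, mul_assoc]
    | inv b _ hb =>
      rw [key] at hb ⊢
      exact (show Commute (QuotientGroup.mk a : P ⧸ N) (QuotientGroup.mk b) from hb).inv_right
  have hsymm : ∀ a b : P, a * b * a⁻¹ * b⁻¹ ∈ N → b * a * b⁻¹ * a⁻¹ ∈ N := by
    intro a b h
    rw [key] at h ⊢
    exact h.symm
  have hself : ∀ a : P, a * a * a⁻¹ * a⁻¹ ∈ N := by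
    intro a
    rw [key]
  have hx := hcz x (hself x) hxy hxz
  have hy := hcz y (hsymm _ _ hxy) (hself y) hyz
  have hz := hcz z (hsymm _ _ hxz) (hsymm _ _ hyz) (hself z)
  intro a b
  exact hcz a (hsymm _ _ (hx a)) (hsymm _ _ (hy a)) (hsymm _ _ (hz a)) b

theorem derived_eq_bot (hP : Group.IsNilpotent P) (h : _root_.commutator P ≤ ⁅_root_.commutator P, (⊤ : Subgroup P)⁆) :
    _root_.commutator P = ⊥ := by
  have h1 : ∀ n, _root_.commutator P ≤ (⊤ : Subgroup P).lowerCentralSeries n := by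
    intro n
    induction n with
    | zero => exact le_top
    | succ n ih => exact h.trans (commutator_mono ih le_rfl)
  obtain ⟨n, hn⟩ := Subgroup.nilpotent_iff_lowerCentralSeries.1 hP
  rw [eq_bot_iff, ← hn]
  exact h1 n

theorem ext_gen {x y z : P} (h : closure {x, y, z} = ⊤) {T T' : MulAut P} (hx : T x = T' x) (hy : T y = T' y)
    (hz : T z = T' z) : T = T' := by
  ext a
  have ha : a ∈ closure {x, y, z} := by rw [h]; trivial
  induction ha using closure_induction with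
  | mem b hb =>
    rcases hb with rfl | rfl | rfl
    · exact hx
    · exact hy
    · exact hz
  | one => simp
  | mul b c _ _ hb hc => rw [map_mul, map_mul, hb, hc]
  | inv b _ hb => rw [map_inv, map_inv, hb]

/-- fixed points are cyclic -/
def NB (T : MulAut P) : Prop := ∃ g : P, ∀ x : P, (T x = x ↔ x ∈ zpowers g)

theorem sign_of_mem {p : ℕ} [hp : Fact p.Prime] (hp2 : p ≠ 2) (hP : IsPGroup p P) {T T' : MulAut P} (hT : T * T = 1)
    (hc : T * T' = T' * T) {z : P} (hz : ∀ x : P, (T' x = x ↔ x ∈ zpowers z)) : T z = z ∨ T z = z⁻¹ := by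
  apply sign hp2 hP T hT
  rw [← hz, ← MulAut.mul_apply, ← hc, MulAut.mul_apply, (hz z).2 (mem_zpowers z)]

theorem broad_of {p : ℕ} [hp : Fact p.Prime] (hp2 : p ≠ 2) (hP : IsPGroup p P) (hodd : Odd (Nat.card P)) {α β : MulAut P}
    (hβ : β * β = 1) (hc : β * α = α * β) {a b : P} (αa : α a = a) (αb : α b = b) (βa : β a = a⁻¹) (ha : a ≠ 1)
    (βb : β b = b) (hb : b ≠ 1) : ¬ NB α := by
  rintro ⟨g, hg⟩
  obtain ⟨k, hk⟩ := (hg a).1 αa
  obtain ⟨l, hl⟩ := (hg b).1 αb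
  simp only at hk hl
  rcases sign_of_mem hp2 hP hβ hc hg with h | h
  · apply ha
    apply eq_one_of_sq hodd
    have : β a = a := by rw [← hk, map_zpow, h]
    rw [this] at βa
    rw [sq]
    exact mul_eq_one_iff_eq_inv.2 βa
  · apply hb
    apply eq_one_of_sq hodd
    have : β b = b⁻¹ := by rw [← hl, map_zpow, h, inv_zpow]
    rw [this] at βb
    rw [sq]
    exact mul_eq_one_iff_eq_inv.2 βb.symm

/-- all the data we extract -/
structure Data (I I₁ : Subgroup (MulAut P)) where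
  z1 : P
  z2 : P
  z3 : P
  T1 : MulAut P
  T2 : MulAut P
  T3 : MulAut P
  τ1 : MulAut P
  τ2 : MulAut P
  τ3 : MulAut P
  ω : MulAut P
  hgen : closure {z1, z2, z3} = ⊤
  T1m : T1 ∈ I₁
  T2m : T2 ∈ I₁
  T3m : T3 ∈ I₁
  τ1m : τ1 ∈ I
  τ2m : τ2 ∈ I
  τ3m : τ3 ∈ I
  ωm : ω ∈ I
  z1n : z1 ≠ 1
  z2n : z2 ≠ 1
  z3n : z3 ≠ 1
  f1 : ∀ x, T1 x = x ↔ x ∈ zpowers z1
  f2 : ∀ x, T2 x = x ↔ x ∈ zpowers z2
  f3 : ∀ x, T3 x = x ↔ x ∈ zpowers z3
  T11 : T1 z1 = z1
  T12 : T1 z2 = z2⁻¹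
  T13 : T1 z3 = z3⁻¹
  T21 : T2 z1 = z1⁻¹
  T22 : T2 z2 = z2
  T23 : T2 z3 = z3⁻¹
  T31 : T3 z1 = z1⁻¹
  T32 : T3 z2 = z2⁻¹
  T33 : T3 z3 = z3
  τ11 : τ1 z1 = z1⁻¹
  τ12 : τ1 z2 = z2
  τ13 : τ1 z3 = z3
  τ21 : τ2 z1 = z1
  τ22 : τ2 z2 = z2⁻¹
  τ23 : τ2 z3 = z3
  τ31 : τ3 z1 = z1
  τ32 : τ3 z2 = z2
  τ33 : τ3 z3 = z3⁻¹
  ω1 : ω z1 = z1⁻¹
  ω2 : ω z2 = z2⁻¹
  ω3 : ω z3 = z3⁻¹
  all : ∀ T ∈ I, (T z1 = z1 ∨ T z1 = z1⁻¹) ∧ (T z2 = z2 ∨ T z2 = z2⁻¹) ∧ (T z3 = z3 ∨ T z3 = z3⁻¹)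

theorem exists_data {p : ℕ} [hp : Fact p.Prime] (hp2 : p ≠ 2) (hP : IsPGroup p P) (hodd : Odd (Nat.card P))
    (I : Subgroup (MulAut P)) (hI : IsElementaryAbelian 2 I) (hI8 : Nat.card ↥I = 8) (I₁ : Subgroup (MulAut P))
    (hle : I₁ ≤ I) (h4 : Nat.card I₁ = 4) (hnb : ∀ T ∈ I₁, T ≠ 1 → NB T) : Nonempty (Data I I₁) := by
  classical
  have hsq : ∀ T ∈ I, T * T = 1 := by
    intro T hT
    have := hI.2 T hT
    rwa [← sq]
  have hcm : ∀ T ∈ I, ∀ T' ∈ I, T * T' = T' * T := by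
    intro T hT T' hT'
    exact congrArg Subtype.val (hI.1.is_comm.comm (⟨T, hT⟩ : I) ⟨T', hT'⟩)
  obtain ⟨T1, hT1, hT1n⟩ : ∃ T ∈ I₁, T ≠ 1 := by
    by_contra hcon
    push Not at hcon
    have : I₁ = ⊥ := eq_bot_iff.2 fun x hx => hcon x hx
    rw [this, Subgroup.card_bot] at h4
    omega
  obtain ⟨T2, hT2, hT2n⟩ : ∃ T ∈ I₁, T ∉ zpowers T1 := by
    by_contra hcon
    push Not at hcon
    have h1 : Nat.card I₁ ≤ Nat.card (zpowers T1) := Nat.card_le_card_of_injective _ (inclusion_injective (show I₁ ≤ zpowers T1 from hcon))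
    rw [h4, Nat.card_zpowers] at h1
    have h2 : orderOf T1 ≤ 2 := orderOf_le_of_pow_eq_one (by norm_num) (by rw [sq]; exact hsq _ (hle hT1))
    omega
  have hT2n1 : T2 ≠ 1 := by rintro rfl; exact hT2n (one_mem _)
  have h12n : T1 * T2 ≠ 1 := by
    intro h
    apply hT2n
    have : T2 = T1⁻¹ := eq_inv_of_mul_eq_one_right h
    rw [this]
    exact inv_mem (mem_zpowers T1)
  have hT12 := mul_mem hT1 hT2
  obtain ⟨z1, f1⟩ := hnb T1 hT1 hT1n
  obtain ⟨z2, f2⟩ := hnb T2 hT2 hT2n1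
  obtain ⟨z3, f3⟩ := hnb (T1 * T2) hT12 h12n
  have hgen : closure {z1, z2, z3} = ⊤ := by
    apply generation hP hodd T1 T2 (hsq _ (hle hT1)) (hsq _ (hle hT2)) (hcm _ (hle hT1) _ (hle hT2))
    · intro x hx
      exact (zpowers_le.2 (subset_closure (by simp))) ((f1 x).1 hx)
    · intro x hx
      exact (zpowers_le.2 (subset_closure (by simp))) ((f2 x).1 hx)
    · intro x hx
      exact (zpowers_le.2 (subset_closure (by simp))) ((f3 x).1 hx)
  have hall : ∀ T ∈ I, (T z1 = z1 ∨ T z1 = z1⁻¹) ∧ (T z2 = z2 ∨ T z2 = z2⁻¹) ∧ (T z3 = z3 ∨ T z3 = z3⁻¹) := by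
    intro T hT
    exact ⟨sign_of_mem hp2 hP (hsq T hT) (hcm T hT T1 (hle hT1)) f1, sign_of_mem hp2 hP (hsq T hT) (hcm T hT T2 (hle hT2)) f2,
      sign_of_mem hp2 hP (hsq T hT) (hcm T hT _ (hle hT12)) f3⟩
  let s : I → Bool × Bool × Bool := fun T => (decide ((T : MulAut P) z1 = z1), decide ((T : MulAut P) z2 = z2), decide ((T : MulAut P) z3 = z3))
  have hsi : Function.Injective s := by
    rintro ⟨T, hT⟩ ⟨T', hT'⟩ h
    simp only [s, Prod.mk.injEq, decide_eq_decide] at h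
    obtain ⟨h1, h2, h3⟩ := h
    obtain ⟨a1, a2, a3⟩ := hall T hT
    obtain ⟨b1, b2, b3⟩ := hall T' hT'
    have key : ∀ z : P, (T z = z ∨ T z = z⁻¹) → (T' z = z ∨ T' z = z⁻¹) → (T z = z ↔ T' z = z) → T z = T' z := by
      intro z u v w
      by_cases hz : T z = z
      · rw [hz, w.1 hz]
      · have hz' : ¬ T' z = z := fun h => hz (w.2 h)
        rw [u.resolve_left hz, v.resolve_left hz']
    exact Subtype.ext (ext_gen hgen (key _ a1 b1 h1) (key _ a2 b2 h2) (key _ a3 b3 h3))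
  have hss : Function.Surjective s := by
    have : Finite I := Nat.finite_of_card_ne_zero (by rw [hI8]; norm_num)
    have hb := (Nat.bijective_iff_injective_and_card s).2 ⟨hsi, by rw [hI8]; simp⟩
    exact hb.2
  have get : ∀ b1 b2 b3 : Bool, ∃ T ∈ I, (T z1 = z1 ↔ b1 = true) ∧ (T z2 = z2 ↔ b2 = true) ∧ (T z3 = z3 ↔ b3 = true) := by
    intro b1 b2 b3
    obtain ⟨⟨T, hT⟩, h⟩ := hss (b1, b2, b3)
    simp only [s, Prod.mk.injEq] at h
    obtain ⟨h1, h2, h3⟩ := h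
    refine ⟨T, hT, ?_, ?_, ?_⟩
    · rw [← h1]; simp
    · rw [← h2]; simp
    · rw [← h3]; simp
  obtain ⟨τ1, τ1m, τ11, τ12, τ13⟩ := get false true true
  obtain ⟨τ2, τ2m, τ21, τ22, τ23⟩ := get true false true
  obtain ⟨τ3, τ3m, τ31, τ32, τ33⟩ := get true true false
  obtain ⟨ω, ωm, ω1, ω2, ω3⟩ := get false false false
  simp only [iff_true, Bool.false_eq_true, iff_false] at τ11 τ12 τ13 τ21 τ22 τ23 τ31 τ32 τ33 ω1 ω2 ω3
  have z1n : z1 ≠ 1 := by rintro rfl; exact ω1 (map_one ω)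
  have z2n : z2 ≠ 1 := by rintro rfl; exact ω2 (map_one ω)
  have z3n : z3 ≠ 1 := by rintro rfl; exact ω3 (map_one ω)
  -- `T z' = z'` for `z' ∈ C(T) = <z>` is impossible
  have inv : ∀ (T : MulAut P) (z z' : P), (∀ x, T x = x ↔ x ∈ zpowers z) → ∀ τ ∈ I, (τ z = z ∨ τ z = z⁻¹) → τ z ≠ z → τ z' = z' → z' ≠ 1 →
      ¬ T z' = z' := by
    intro T z z' f τ hτ h1 h2 h3 h4 h5
    obtain ⟨k, hk⟩ := (f z').1 h5
    simp only at hk
    apply h4
    apply eq_one_of_sq hodd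
    have h6 : τ z' = z'⁻¹ := by rw [← hk, map_zpow, h1.resolve_left h2, inv_zpow]
    rw [h3] at h6
    rw [sq]
    exact mul_eq_one_iff_eq_inv.2 h6
  exact ⟨{
    z1 := z1, z2 := z2, z3 := z3, T1 := T1, T2 := T2, T3 := T1 * T2, τ1 := τ1, τ2 := τ2, τ3 := τ3, ω := ω, hgen := hgen
    T1m := hT1, T2m := hT2, T3m := hT12, τ1m := τ1m, τ2m := τ2m, τ3m := τ3m, ωm := ωm, z1n := z1n, z2n := z2n, z3n := z3n
    f1 := f1, f2 := f2, f3 := f3
    T11 := (f1 z1).2 (mem_zpowers z1)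
    T12 := (hall T1 (hle hT1)).2.1.resolve_left (inv T1 z1 z2 f1 τ1 τ1m (hall _ τ1m).1 τ11 τ12 z2n)
    T13 := (hall T1 (hle hT1)).2.2.resolve_left (inv T1 z1 z3 f1 τ1 τ1m (hall _ τ1m).1 τ11 τ13 z3n)
    T21 := (hall T2 (hle hT2)).1.resolve_left (inv T2 z2 z1 f2 τ2 τ2m (hall _ τ2m).2.1 τ22 τ21 z1n)
    T22 := (f2 z2).2 (mem_zpowers z2)
    T23 := (hall T2 (hle hT2)).2.2.resolve_left (inv T2 z2 z3 f2 τ2 τ2m (hall _ τ2m).2.1 τ22 τ23 z3n)
    T31 := (hall _ (hle hT12)).1.resolve_left (inv _ z3 z1 f3 τ3 τ3m (hall _ τ3m).2.2 τ33 τ31 z1n)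
    T32 := (hall _ (hle hT12)).2.1.resolve_left (inv _ z3 z2 f3 τ3 τ3m (hall _ τ3m).2.2 τ33 τ32 z2n)
    T33 := (f3 z3).2 (mem_zpowers z3)
    τ11 := (hall _ τ1m).1.resolve_left τ11
    τ12 := τ12
    τ13 := τ13
    τ21 := τ21
    τ22 := (hall _ τ2m).2.1.resolve_left τ22
    τ23 := τ23
    τ31 := τ31
    τ32 := τ32
    τ33 := (hall _ τ3m).2.2.resolve_left τ33
    ω1 := (hall _ ωm).1.resolve_left ω1
    ω2 := (hall _ ωm).2.1.resolve_left ω2
    ω3 := (hall _ ωm).2.2.resolve_left ω3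
    all := hall }⟩

theorem map_char (N : Subgroup P) [hN : N.Characteristic] (T : MulAut P) {y : P} (hy : y ∈ N) : T y ∈ N := by
  have := (Subgroup.characteristic_iff_map_eq.1 hN) T
  rw [← this]
  exact ⟨y, hy, rfl⟩

section
variable {I I₁ : Subgroup (MulAut P)} {p : ℕ} [hp : Fact p.Prime]

theorem Data.comm (D : Data I I₁) (hP : IsPGroup p P) (hodd : Odd (Nat.card P)) (hI : ∀ T ∈ I, T * T = 1) (hle : I₁ ≤ I) :
    ∀ a b : P, a * b = b * a := by
  set N : Subgroup P := ⁅_root_.commutator P, (⊤ : Subgroup P)⁆ with hN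
  have hNn : N.Normal := inferInstance
  have hchar : ∀ (T : MulAut P), ∀ y ∈ N, T y ∈ N := fun T y hy => map_char N T hy
  have hcl : ∀ a b x : P, (a * b * a⁻¹ * b⁻¹) * x * (a * b * a⁻¹ * b⁻¹)⁻¹ * x⁻¹ ∈ N := by
    intro a b x
    exact commutator_mem_commutator (commutator_mem_commutator (mem_top a) (mem_top b)) (mem_top x)
  have h12 := comm_pair hodd N hchar hcl D.T3 D.τ3 (hI _ (hle D.T3m)) D.T31 D.T32 (fun x => (D.f3 x).1) D.τ31 D.τ32 D.τ33
  have h13 := comm_pair hodd N hchar hcl D.T2 D.τ2 (hI _ (hle D.T2m)) D.T21 D.T23 (fun x => (D.f2 x).1) D.τ21 D.τ23 D.τ22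
  have h23 := comm_pair hodd N hchar hcl D.T1 D.τ1 (hI _ (hle D.T1m)) D.T12 D.T13 (fun x => (D.f1 x).1) D.τ12 D.τ13 D.τ11
  have h := comm_of_gen D.hgen N h12 h23 h13
  have h1 : _root_.commutator P ≤ N := by
    rw [commutator_def, commutator_le]
    intro a _ b _
    exact h a b
  have h2 := derived_eq_bot hP.isNilpotent h1
  intro a b
  have h3 : a * b * a⁻¹ * b⁻¹ ∈ _root_.commutator P := commutator_mem_commutator (mem_top a) (mem_top b)
  rw [h2, mem_bot, mul_inv_eq_one, mul_inv_eq_iff_eq_mul] at h3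
  exact h3

theorem Data.inv (D : Data I I₁) (hc : ∀ a b : P, a * b = b * a) (x : P) : D.ω x = x⁻¹ := by
  have hx : x ∈ closure {D.z1, D.z2, D.z3} := by rw [D.hgen]; trivial
  induction hx using closure_induction with
  | mem b hb =>
    rcases hb with rfl | rfl | rfl
    · exact D.ω1
    · exact D.ω2
    · exact D.ω3
  | one => simp
  | mul b c _ _ hb hc' => rw [map_mul, hb, hc', mul_inv_rev, hc]
  | inv b _ hb => rw [map_inv, hb]

theorem Data.eq8 (D : Data I I₁) (hodd : Odd (Nat.card P)) {T : MulAut P} (hT : T ∈ I) :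
    T = 1 ∨ T = D.T1 ∨ T = D.T2 ∨ T = D.T3 ∨ T = D.τ1 ∨ T = D.τ2 ∨ T = D.τ3 ∨ T = D.ω := by
  obtain ⟨h1, h2, h3⟩ := D.all T hT
  rcases h1 with h1 | h1 <;> rcases h2 with h2 | h2 <;> rcases h3 with h3 | h3
  · left; exact ext_gen D.hgen h1 h2 h3
  · right; right; right; right; right; right; left
    exact ext_gen D.hgen (by rw [h1, D.τ31]) (by rw [h2, D.τ32]) (by rw [h3, D.τ33])
  · right; right; right; right; right; left
    exact ext_gen D.hgen (by rw [h1, D.τ21]) (by rw [h2, D.τ22]) (by rw [h3, D.τ23])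
  · right; left
    exact ext_gen D.hgen (by rw [h1, D.T11]) (by rw [h2, D.T12]) (by rw [h3, D.T13])
  · right; right; right; right; left
    exact ext_gen D.hgen (by rw [h1, D.τ11]) (by rw [h2, D.τ12]) (by rw [h3, D.τ13])
  · right; right; left
    exact ext_gen D.hgen (by rw [h1, D.T21]) (by rw [h2, D.T22]) (by rw [h3, D.T23])
  · right; right; right; left
    exact ext_gen D.hgen (by rw [h1, D.T31]) (by rw [h2, D.T32]) (by rw [h3, D.T33])
  · right; right; right; right; right; right; right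
    exact ext_gen D.hgen (by rw [h1, D.ω1]) (by rw [h2, D.ω2]) (by rw [h3, D.ω3])

theorem inv_ne (hodd : Odd (Nat.card P)) {z : P} (hz : z ≠ 1) : z⁻¹ ≠ z := by
  intro h
  apply hz
  apply eq_one_of_sq hodd
  rw [sq]
  exact mul_eq_one_iff_eq_inv.2 h.symm

/-- the broad elements -/
theorem Data.broad (D : Data I I₁) (hp2 : p ≠ 2) (hP : IsPGroup p P) (hodd : Odd (Nat.card P)) (hI : ∀ T ∈ I, T * T = 1)
    (hIc : ∀ T ∈ I, ∀ T' ∈ I, T * T' = T' * T) (hle : I₁ ≤ I) (T : MulAut P) :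
    (T ∈ I ∧ T ≠ 1 ∧ ¬ NB T) ↔ (T = D.τ1 ∨ T = D.τ2 ∨ T = D.τ3) := by
  have b1 : ¬ NB D.τ1 := broad_of hp2 hP hodd (hI _ D.τ2m) (hIc _ D.τ2m _ D.τ1m) D.τ12 D.τ13 D.τ22 D.z2n D.τ23 D.z3n
  have b2 : ¬ NB D.τ2 := broad_of hp2 hP hodd (hI _ D.τ1m) (hIc _ D.τ1m _ D.τ2m) D.τ21 D.τ23 D.τ11 D.z1n D.τ13 D.z3n
  have b3 : ¬ NB D.τ3 := broad_of hp2 hP hodd (hI _ D.τ1m) (hIc _ D.τ1m _ D.τ3m) D.τ31 D.τ32 D.τ11 D.z1n D.τ12 D.z2n
  constructor
  · rintro ⟨h1, h2, h3⟩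
    rcases D.eq8 hodd h1 with h | h | h | h | h | h | h | h
    · exact absurd h h2
    · rw [h] at h3; exact absurd ⟨_, D.f1⟩ h3
    · rw [h] at h3; exact absurd ⟨_, D.f2⟩ h3
    · rw [h] at h3; exact absurd ⟨_, D.f3⟩ h3
    · exact Or.inl h
    · exact Or.inr (Or.inl h)
    · exact Or.inr (Or.inr h)
    · exfalso
      rw [h] at h3
      apply h3
      refine ⟨1, fun x => ?_⟩
      rw [D.inv (D.comm hP hodd hI hle), zpowers_one_eq_bot, mem_bot]
      constructor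
      · intro hx
        by_contra hne
        exact inv_ne hodd hne hx
      · rintro rfl; simp
  · rintro (rfl | rfl | rfl)
    · exact ⟨D.τ1m, fun h => inv_ne hodd D.z1n (by rw [← D.τ11, h]; rfl), b1⟩
    · exact ⟨D.τ2m, fun h => inv_ne hodd D.z2n (by rw [← D.τ22, h]; rfl), b2⟩
    · exact ⟨D.τ3m, fun h => inv_ne hodd D.z3n (by rw [← D.τ33, h]; rfl), b3⟩

theorem card_le_of_two_gen {A : Type*} [CommGroup A] [Finite A] (q : ℕ) [hq : Fact q.Prime] (a b : A) (h : closure {a, b} = ⊤) :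
    Nat.card {x : A // x ^ q = 1} ≤ q * q := by
  let f : A →* A := powMonoidHom q
  have h1 : Nat.card f.ker = f.range.index := by
    have h2 := Subgroup.card_mul_index f.ker
    have h3 := Subgroup.card_mul_index f.range
    rw [Subgroup.index_ker] at h2
    have h4 : 0 < Nat.card f.range := Nat.card_pos
    apply Nat.eq_of_mul_eq_mul_left h4
    rw [h3, mul_comm, h2]
  have h2 : Nat.card {x : A // x ^ q = 1} = Nat.card f.ker := by
    apply Nat.card_congr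
    exact Equiv.subtypeEquivRight (fun x => by rw [MonoidHom.mem_ker]; rfl)
  rw [h2, h1, Subgroup.index_eq_card]
  have key : ∀ (c : A) (i : ℤ), ∃ j : Fin q, (QuotientGroup.mk (c ^ i) : A ⧸ f.range) = QuotientGroup.mk (c ^ (j : ℕ)) := by
    intro c i
    have hq0 : (q : ℤ) ≠ 0 := by exact_mod_cast hq.out.ne_zero
    have h5 : 0 ≤ i % q := Int.emod_nonneg i hq0
    have h6 : i % q < q := Int.emod_lt_of_pos i (by exact_mod_cast hq.out.pos)
    refine ⟨⟨(i % q).toNat, by omega⟩, ?_⟩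
    rw [QuotientGroup.eq]
    refine ⟨c ^ (-(i / q)), ?_⟩
    change (c ^ (-(i / q))) ^ q = (c ^ i)⁻¹ * c ^ ((i % q).toNat)
    have h7 : (((i % q).toNat : ℕ) : ℤ) = i % q := Int.toNat_of_nonneg h5
    rw [← zpow_natCast c, h7, ← zpow_natCast, ← zpow_mul, ← zpow_neg, ← zpow_add]
    congr 1
    have := Int.emod_add_mul_ediv i q
    linarith
  have hsurj : Function.Surjective (fun ij : Fin q × Fin q => (QuotientGroup.mk (a ^ (ij.1 : ℕ) * b ^ (ij.2 : ℕ)) : A ⧸ f.range)) := by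
    intro y
    induction y using QuotientGroup.induction_on with
    | H y =>
      have hy : y ∈ closure {a, b} := by rw [h]; trivial
      obtain ⟨m, n, rfl⟩ := mem_closure_pair.1 hy
      obtain ⟨i, hi⟩ := key a m
      obtain ⟨j, hj⟩ := key b n
      refine ⟨(i, j), ?_⟩
      simp only [QuotientGroup.mk_mul, hi, hj]
  have := Nat.card_le_card_of_surjective _ hsurj
  simpa using this

theorem exists_order_p (hP : IsPGroup p P) {z : P} (hz : z ≠ 1) : ∃ n : ℕ, orderOf (z ^ n) = p := by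
  obtain ⟨k, hk⟩ := IsPGroup.iff_orderOf.1 hP z
  have hk0 : k ≠ 0 := by
    rintro rfl
    rw [pow_zero, orderOf_eq_one_iff] at hk
    exact hz hk
  refine ⟨p ^ (k - 1), ?_⟩
  rw [orderOf_pow' z (pow_ne_zero _ hp.out.ne_zero), hk, Nat.gcd_eq_right (pow_dvd_pow p (Nat.sub_le k 1)),
    Nat.pow_div (Nat.sub_le k 1) hp.out.pos]
  have : k - (k - 1) = 1 := by omega
  rw [this, pow_one]

theorem Data.not_two (D : Data I I₁) (hp2 : p ≠ 2) (hP : IsPGroup p P) (hodd : Odd (Nat.card P)) (hc : ∀ a b : P, a * b = b * a) :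
    ¬ ∃ a b : P, closure {a, b} = ⊤ := by
  rintro ⟨a, b, hab⟩
  let _ : CommGroup P := { (inferInstance : Group P) with mul_comm := hc }
  have h1 := card_le_of_two_gen p a b hab
  obtain ⟨n1, hn1⟩ := exists_order_p hP D.z1n
  obtain ⟨n2, hn2⟩ := exists_order_p hP D.z2n
  obtain ⟨n3, hn3⟩ := exists_order_p hP D.z3n
  set u1 := D.z1 ^ n1 with hu1
  set u2 := D.z2 ^ n2 with hu2
  set u3 := D.z3 ^ n3 with hu3
  have hpw : ∀ u : P, orderOf u = p → u ^ p = 1 := fun u hu => by rw [← hu]; exact pow_orderOf_eq_one u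
  have hpw' : ∀ (u : P) (i : ℕ), orderOf u = p → (u ^ i) ^ p = 1 := fun u i hu => by
    rw [← pow_mul, mul_comm, pow_mul, hpw u hu, one_pow]
  have hord : ∀ u : P, orderOf u = p → orderOf (u ^ 2) = p := by
    intro u hu
    rw [orderOf_pow' u (by norm_num), hu]
    have : Nat.gcd p 2 = 1 := (Nat.coprime_primes hp.out Nat.prime_two).2 hp2
    rw [this, Nat.div_one]
  have a11 : D.τ1 u1 = u1⁻¹ := by rw [hu1, map_pow, D.τ11, inv_pow]
  have a12 : D.τ1 u2 = u2 := by rw [hu2, map_pow, D.τ12]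
  have a13 : D.τ1 u3 = u3 := by rw [hu3, map_pow, D.τ13]
  have a21 : D.τ2 u1 = u1 := by rw [hu1, map_pow, D.τ21]
  have a22 : D.τ2 u2 = u2⁻¹ := by rw [hu2, map_pow, D.τ22, inv_pow]
  have a23 : D.τ2 u3 = u3 := by rw [hu3, map_pow, D.τ23]
  have a31 : D.τ3 u1 = u1 := by rw [hu1, map_pow, D.τ31]
  have a32 : D.τ3 u2 = u2 := by rw [hu2, map_pow, D.τ32]
  have a33 : D.τ3 u3 = u3⁻¹ := by rw [hu3, map_pow, D.τ33, inv_pow]
  let F : Fin p × Fin p × Fin p → {x : P // x ^ p = 1} := fun t =>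
    ⟨u1 ^ (t.1 : ℕ) * u2 ^ (t.2.1 : ℕ) * u3 ^ (t.2.2 : ℕ), by
      rw [mul_pow, mul_pow, hpw' _ _ hn1, hpw' _ _ hn2, hpw' _ _ hn3, one_mul, one_mul]⟩
  have hF : Function.Injective F := by
    rintro ⟨i, j, k⟩ ⟨i', j', k'⟩ h
    have h0 : u1 ^ (i : ℕ) * u2 ^ (j : ℕ) * u3 ^ (k : ℕ) = u1 ^ (i' : ℕ) * u2 ^ (j' : ℕ) * u3 ^ (k' : ℕ) := congrArg Subtype.val h
    have e : ∀ (T : MulAut P) (u v w : P) (i j k : ℕ), T u = u⁻¹ → T v = v → T w = w →
        (u ^ i * (v ^ j * w ^ k)) * (T (u ^ i * (v ^ j * w ^ k)))⁻¹ = (u ^ 2) ^ i := by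
      intro T u v w i j k h1 h2 h3
      have h4 : T (u ^ i * (v ^ j * w ^ k)) = (u ^ i)⁻¹ * (v ^ j * w ^ k) := by
        rw [map_mul, map_mul, map_pow, map_pow, map_pow, h1, h2, h3, inv_pow]
      rw [h4, ← pow_mul, mul_comm 2 i, pow_mul, sq]
      group
    have e1 : ∀ i j k : ℕ, (u1 ^ i * u2 ^ j * u3 ^ k) * (D.τ1 (u1 ^ i * u2 ^ j * u3 ^ k))⁻¹ = (u1 ^ 2) ^ i := by
      intro i j k
      rw [mul_assoc (u1 ^ i)]
      exact e D.τ1 u1 u2 u3 i j k a11 a12 a13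
    have e2 : ∀ i j k : ℕ, (u1 ^ i * u2 ^ j * u3 ^ k) * (D.τ2 (u1 ^ i * u2 ^ j * u3 ^ k))⁻¹ = (u2 ^ 2) ^ j := by
      intro i j k
      rw [hc (u1 ^ i), mul_assoc (u2 ^ j)]
      exact e D.τ2 u2 u1 u3 j i k a22 a21 a23
    have e3 : ∀ i j k : ℕ, (u1 ^ i * u2 ^ j * u3 ^ k) * (D.τ3 (u1 ^ i * u2 ^ j * u3 ^ k))⁻¹ = (u3 ^ 2) ^ k := by
      intro i j k
      rw [hc (u1 ^ i * u2 ^ j)]
      exact e D.τ3 u3 u1 u2 k i j a33 a31 a32
    have g1 : (u1 ^ 2) ^ (i : ℕ) = (u1 ^ 2) ^ (i' : ℕ) := by rw [← e1 i j k, ← e1 i' j' k', h0]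
    have g2 : (u2 ^ 2) ^ (j : ℕ) = (u2 ^ 2) ^ (j' : ℕ) := by rw [← e2 i j k, ← e2 i' j' k', h0]
    have g3 : (u3 ^ 2) ^ (k : ℕ) = (u3 ^ 2) ^ (k' : ℕ) := by rw [← e3 i j k, ← e3 i' j' k', h0]
    have inj : ∀ (u : P), orderOf u = p → ∀ i i' : Fin p, (u ^ 2) ^ (i : ℕ) = (u ^ 2) ^ (i' : ℕ) → i = i' := by
      intro u hu i i' h
      have := pow_injOn_Iio_orderOf (x := u ^ 2) (by rw [hord u hu]; exact i.2) (by rw [hord u hu]; exact i'.2) h
      exact Fin.ext this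
    rw [inj u1 hn1 i i' g1, inj u2 hn2 j j' g2, inj u3 hn3 k k' g3]
  have h2 := Nat.card_le_card_of_injective F hF
  rw [Nat.card_prod, Nat.card_prod, Nat.card_fin] at h2
  have h3 : p * (p * p) ≤ p * p := h2.trans h1
  have h4 := hp.out.two_le
  nlinarith [Nat.mul_pos hp.out.pos hp.out.pos]

end

/-- a subgroup of index two avoiding an element -/
theorem exists_hyperplane {A : Type*} [Group A] [Finite A] (I I₀ : Subgroup A) (hsq : ∀ a ∈ I, a * a = 1)
    (hc : ∀ a ∈ I, ∀ b ∈ I, a * b = b * a) (hle : I₀ ≤ I) {t : A} (htI : t ∈ I) (ht : t ∉ I₀) :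
    ∃ I₁ : Subgroup A, I₀ ≤ I₁ ∧ I₁ ≤ I ∧ t ∉ I₁ ∧ Nat.card I = 2 * Nat.card I₁ := by
  obtain ⟨I₁, hI₁⟩ := (Set.toFinite {J : Subgroup A | I₀ ≤ J ∧ J ≤ I ∧ t ∉ J}).exists_maximal ⟨I₀, le_rfl, hle, ht⟩
  obtain ⟨h0, h1, h2⟩ := hI₁.prop
  have key : ∀ x ∈ I, x ∉ I₁ → t * x ∈ I₁ := by
    intro x hx hxn
    -- the subgroup generated by `I₁` and `x`
    let J : Subgroup A :=
      { carrier := {y | y ∈ I₁ ∨ x * y ∈ I₁}
        one_mem' := Or.inl (one_mem _)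
        mul_mem' := by
          rintro a b (ha | ha) (hb | hb)
          · exact Or.inl (mul_mem ha hb)
          · right
            have e : x * (a * b) = a * (x * b) := by rw [← mul_assoc, hc x hx a (h1 ha), mul_assoc]
            rw [e]; exact mul_mem ha hb
          · right; rw [← mul_assoc]; exact mul_mem ha hb
          · left
            have haI : a ∈ I := by
              have := mul_mem (inv_mem hx) (h1 ha)
              rwa [inv_mul_cancel_left] at this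
            have e : a * b = (x * a) * (x * b) := by
              rw [← mul_assoc, mul_assoc x a x, hc a haI x hx, ← mul_assoc x x a, hsq x hx, one_mul]
            rw [e]; exact mul_mem ha hb
        inv_mem' := by
          rintro a (ha | ha)
          · exact Or.inl (inv_mem ha)
          · right
            have haI : a ∈ I := by
              have := mul_mem (inv_mem hx) (h1 ha)
              rwa [inv_mul_cancel_left] at this
            have e : x * a⁻¹ = (x * a)⁻¹ := by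
              have : x⁻¹ = x := inv_eq_of_mul_eq_one_right (hsq x hx)
              rw [mul_inv_rev, this, hc x hx _ (inv_mem haI)]
            rw [e]; exact inv_mem ha }
    by_contra htx
    have hJ : J ∈ {J : Subgroup A | I₀ ≤ J ∧ J ≤ I ∧ t ∉ J} := by
      refine ⟨fun y hy => Or.inl (h0 hy), ?_, ?_⟩
      · rintro y (hy | hy)
        · exact h1 hy
        · have := mul_mem (inv_mem hx) (h1 hy)
          rwa [inv_mul_cancel_left] at this
      · rintro (h | h)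
        · exact h2 h
        · rw [hc x hx t htI] at h
          exact htx h
    have h3 : J ≤ I₁ := hI₁.le_of_ge hJ (fun y hy => Or.inl hy)
    exact hxn (h3 (Or.inr (by rw [hsq x hx]; exact one_mem _)))
  refine ⟨I₁, h0, h1, h2, ?_⟩
  have h3 := Subgroup.index_mul_card (I₁.subgroupOf I)
  have h5 : (I₁.subgroupOf I).index = 2 := by
    rw [Subgroup.index_eq_two_iff]
    refine ⟨⟨t, htI⟩, fun ⟨x, hx⟩ => ?_⟩
    rw [Subgroup.mem_subgroupOf, Subgroup.mem_subgroupOf]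
    simp only [Subgroup.coe_mul]
    by_cases hx1 : x ∈ I₁
    · refine Or.inr ⟨hx1, fun h => h2 ?_⟩
      have := mul_mem (inv_mem hx1) h
      rwa [inv_mul_cancel_left] at this
    · refine Or.inl ⟨?_, hx1⟩
      rw [hc x hx t htI]
      exact key x hx hx1
  rw [h5, Nat.card_congr (Subgroup.subgroupOfEquivOfLe h1).toEquiv] at h3
  exact h3.symm

/-- Let p be an odd prime, P a finite p-group and I an elementary abelian subgroup of order 8 of Aut(P). Call T ∈ I, T ≠ 1, broad when its fixed-point subgroup C_P(T) is not cyclic. Suppose I has a proper subgroup I₀ containing no broad element such that the product of any two broad elements lies in I₀. Then P is abelian of rank exactly 3 (generated by three elements but not by two), there are exactly three broad elements and they generate I, and I₀ is exactly the set of products of two broad elements. -/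
theorem result
    {P : Type*} [Group P] [Finite P] (p : ℕ) (hp : p.Prime) (hp2 : p ≠ 2) (hP : IsPGroup p P)
    (I : Subgroup (MulAut P)) (hI : Cfsg.IsElementaryAbelian 2 I) (hI8 : Nat.card ↥I = 8)
    (I₀ : Subgroup (MulAut P)) (hI₀ : I₀ < I)
    (hdisj : ∀ T ∈ I₀, T ≠ 1 → ∃ g : P, ∀ x : P, (T x = x ↔ x ∈ Subgroup.zpowers g))
    (hprod : ∀ T ∈ I, ∀ T' ∈ I, T ≠ 1 → T' ≠ 1 → (¬ ∃ g : P, ∀ x : P, (T x = x ↔ x ∈ Subgroup.zpowers g)) →
      (¬ ∃ g : P, ∀ x : P, (T' x = x ↔ x ∈ Subgroup.zpowers g)) → T * T' ∈ I₀) :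
    IsMulCommutative P ∧ (∃ a b c : P, Subgroup.closure {a, b, c} = ⊤) ∧ (¬ ∃ a b : P, Subgroup.closure {a, b} = ⊤) ∧
      Nat.card {T : MulAut P // T ∈ I ∧ T ≠ 1 ∧ ¬ ∃ g : P, ∀ x : P, (T x = x ↔ x ∈ Subgroup.zpowers g)} = 3 ∧
      Subgroup.closure {T : MulAut P | T ∈ I ∧ T ≠ 1 ∧ ¬ ∃ g : P, ∀ x : P, (T x = x ↔ x ∈ Subgroup.zpowers g)} = I ∧
      (I₀ : Set (MulAut P)) = {S : MulAut P | ∃ T T' : MulAut P, T ∈ I ∧ T' ∈ I ∧ T ≠ 1 ∧ T' ≠ 1 ∧
        (¬ ∃ g : P, ∀ x : P, (T x = x ↔ x ∈ Subgroup.zpowers g)) ∧ (¬ ∃ g : P, ∀ x : P, (T' x = x ↔ x ∈ Subgroup.zpowers g)) ∧ S = T * T'} := by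
  have hpf : Fact p.Prime := ⟨hp⟩
  have hodd : Odd (Nat.card P) := by
    obtain ⟨k, hk⟩ := IsPGroup.iff_card.1 hP
    rw [hk]
    exact (hp.odd_of_ne_two hp2).pow
  have hsq : ∀ T ∈ I, T * T = 1 := by
    intro T hT
    have := hI.2 T hT
    rwa [← sq]
  have hcm : ∀ T ∈ I, ∀ T' ∈ I, T * T' = T' * T := by
    intro T hT T' hT'
    exact congrArg Subtype.val (hI.1.is_comm.comm (⟨T, hT⟩ : I) ⟨T', hT'⟩)
  have hfin : Finite (MulAut P) := inferInstance
  -- choose the hyperplane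
  obtain ⟨t, htI, ht0, ht⟩ : ∃ t ∈ I, t ∉ I₀ ∧ ∀ T ∈ I, T ≠ 1 → ¬ NB T → t * T ∈ I₀ := by
    by_cases hex : ∃ t ∈ I, t ≠ 1 ∧ ¬ NB t
    · obtain ⟨t, h1, h2, h3⟩ := hex
      exact ⟨t, h1, fun h => h3 (hdisj t h h2), fun T hT hT1 hTn => hprod t h1 T hT h2 hT1 h3 hTn⟩
    · obtain ⟨t, h1, h2⟩ := SetLike.exists_of_lt hI₀
      exact ⟨t, h1, h2, fun T hT hT1 hTn => absurd ⟨T, hT, hT1, hTn⟩ hex⟩
  obtain ⟨I₁, h01, h1I, ht1, hcard⟩ := exists_hyperplane I I₀ hsq hcm hI₀.le htI ht0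
  have h4 : Nat.card I₁ = 4 := by rw [hI8] at hcard; omega
  have hnb : ∀ T ∈ I₁, T ≠ 1 → NB T := by
    intro T hT hT1
    by_contra hn
    have h5 := h01 (ht T (h1I hT) hT1 hn)
    have h6 := mul_mem h5 (inv_mem hT)
    rw [mul_inv_cancel_right] at h6
    exact ht1 h6
  obtain ⟨D⟩ := exists_data hp2 hP hodd I hI hI8 I₁ h1I h4 hnb
  have hbr := D.broad hp2 hP hodd hsq hcm h1I
  have hcomm := D.comm hP hodd hsq h1I
  -- products
  have p12 : D.τ1 * D.τ2 = D.T3 := by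
    apply ext_gen D.hgen
    · rw [MulAut.mul_apply, D.τ21, D.τ11, D.T31]
    · rw [MulAut.mul_apply, D.τ22, map_inv, D.τ12, D.T32]
    · rw [MulAut.mul_apply, D.τ23, D.τ13, D.T33]
  have p13 : D.τ1 * D.τ3 = D.T2 := by
    apply ext_gen D.hgen
    · rw [MulAut.mul_apply, D.τ31, D.τ11, D.T21]
    · rw [MulAut.mul_apply, D.τ32, D.τ12, D.T22]
    · rw [MulAut.mul_apply, D.τ33, map_inv, D.τ13, D.T23]
  have p23 : D.τ2 * D.τ3 = D.T1 := by
    apply ext_gen D.hgen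
    · rw [MulAut.mul_apply, D.τ31, D.τ21, D.T11]
    · rw [MulAut.mul_apply, D.τ32, D.τ22, D.T12]
    · rw [MulAut.mul_apply, D.τ33, map_inv, D.τ23, D.T13]
  have p123 : D.τ1 * D.τ2 * D.τ3 = D.ω := by
    rw [p12]
    apply ext_gen D.hgen
    · rw [MulAut.mul_apply, D.τ31, D.T31, D.ω1]
    · rw [MulAut.mul_apply, D.τ32, D.T32, D.ω2]
    · rw [MulAut.mul_apply, D.τ33, map_inv, D.T33, D.ω3]
  obtain ⟨b1I, b1n, b1b⟩ := (hbr D.τ1).2 (Or.inl rfl)
  obtain ⟨b2I, b2n, b2b⟩ := (hbr D.τ2).2 (Or.inr (Or.inl rfl))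
  obtain ⟨b3I, b3n, b3b⟩ := (hbr D.τ3).2 (Or.inr (Or.inr rfl))
  have n12 : D.τ1 ≠ D.τ2 := by
    intro h
    have := D.τ21
    rw [← h, D.τ11] at this
    exact inv_ne hodd D.z1n this
  have n13 : D.τ1 ≠ D.τ3 := by
    intro h
    have := D.τ31
    rw [← h, D.τ11] at this
    exact inv_ne hodd D.z1n this
  have n23 : D.τ2 ≠ D.τ3 := by
    intro h
    have := D.τ32
    rw [← h, D.τ22] at this
    exact inv_ne hodd D.z2n this
  have hset : {T : MulAut P | T ∈ I ∧ T ≠ 1 ∧ ¬ ∃ g : P, ∀ x : P, (T x = x ↔ x ∈ Subgroup.zpowers g)} = {D.τ1, D.τ2, D.τ3} := by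
    ext T
    exact hbr T
  refine ⟨⟨⟨hcomm⟩⟩, ⟨_, _, _, D.hgen⟩, D.not_two hp2 hP hodd hcomm, ?_, ?_, ?_⟩
  · change Nat.card ↥{T : MulAut P | T ∈ I ∧ T ≠ 1 ∧ ¬ ∃ g : P, ∀ x : P, (T x = x ↔ x ∈ Subgroup.zpowers g)} = 3
    rw [hset, Nat.card_coe_set_eq, Set.ncard_eq_three]
    exact ⟨_, _, _, n12, n13, n23, rfl⟩
  · rw [hset]
    apply le_antisymm
    · rw [closure_le]
      rintro T (rfl | rfl | rfl)
      · exact b1I
      · exact b2I
      · exact b3I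
    · intro T hT
      have c1 : D.τ1 ∈ closure {D.τ1, D.τ2, D.τ3} := subset_closure (by simp)
      have c2 : D.τ2 ∈ closure {D.τ1, D.τ2, D.τ3} := subset_closure (by simp)
      have c3 : D.τ3 ∈ closure {D.τ1, D.τ2, D.τ3} := subset_closure (by simp)
      rcases D.eq8 hodd hT with h | h | h | h | h | h | h | h
      · rw [h]; exact one_mem _
      · rw [h, ← p23]; exact mul_mem c2 c3
      · rw [h, ← p13]; exact mul_mem c1 c3
      · rw [h, ← p12]; exact mul_mem c1 c2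
      · rw [h]; exact c1
      · rw [h]; exact c2
      · rw [h]; exact c3
      · rw [h, ← p123]; exact mul_mem (mul_mem c1 c2) c3
  · ext S
    constructor
    · intro hS
      have hSI : S ∈ I := hI₀.le hS
      by_cases hS1 : S = 1
      · exact ⟨D.τ1, D.τ1, b1I, b1I, b1n, b1n, b1b, b1b, by rw [hS1, hsq _ b1I]⟩
      have hnS : NB S := hdisj S hS hS1
      have hnB : ¬ (S = D.τ1 ∨ S = D.τ2 ∨ S = D.τ3) := fun h => ((hbr S).2 h).2.2 hnS
      rcases D.eq8 hodd hSI with h | h | h | h | h | h | h | h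
      · exact absurd h hS1
      · exact ⟨D.τ2, D.τ3, b2I, b3I, b2n, b3n, b2b, b3b, by rw [h, p23]⟩
      · exact ⟨D.τ1, D.τ3, b1I, b3I, b1n, b3n, b1b, b3b, by rw [h, p13]⟩
      · exact ⟨D.τ1, D.τ2, b1I, b2I, b1n, b2n, b1b, b2b, by rw [h, p12]⟩
      · exact absurd (Or.inl h) hnB
      · exact absurd (Or.inr (Or.inl h)) hnB
      · exact absurd (Or.inr (Or.inr h)) hnB
      · -- `ω ∈ I₀` would give `τ1 ∈ I₀`
        exfalso
        have h5 : D.T1 ∈ I₀ := by rw [← p23]; exact hprod _ b2I _ b3I b2n b3n b2b b3b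
        have h6 : D.τ1 ∈ I₀ := by
          have h7 : D.τ1 = D.ω * D.T1 := by
            rw [← p123, ← p23, mul_assoc D.τ1, mul_assoc D.τ1, hsq _ (mul_mem b2I b3I), mul_one]
          rw [h7]
          exact mul_mem (h ▸ hS) h5
        exact b1b (hdisj _ h6 b1n)
    · rintro ⟨T, T', h1, h2, h3, h4, h5, h6, rfl⟩
      exact hprod T h1 T' h2 h3 h4 h5 h6

end Cfsg.Agent.S4412
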