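import Cfsg.Statements.S4413
import Cfsg.Agent.Lib.Extraspecial

set_option autoImplicit false
open Cfsg

namespace Cfsg.Agent.S4413

open Subgroup

/-! ### The two explicit groups of order 32 -/

/-- the minus type group: `x₁ᵃ x₂ᵇ x₃ᶜ x₄ᵈ zᵉ`, pairwise anticommuting involutions `xᵢ`. -/
@[ext] structure E where
  a : ZMod 2
  b : ZMod 2
  c : ZMod 2
  d : ZMod 2
  e : ZMod 2
deriving DecidableEq, Fintype

instance : Mul E := ⟨fun x y => ⟨x.a + y.a, x.b + y.b, x.c + y.c, x.d + y.d,
  x.e + y.e + (x.b + x.c + x.d) * y.a + (x.c + x.d) * y.b + x.d * y.c⟩⟩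
instance : One E := ⟨⟨0, 0, 0, 0, 0⟩⟩
instance : Inv E := ⟨fun x => ⟨x.a, x.b, x.c, x.d, x.e + (x.b + x.c + x.d) * x.a + (x.c + x.d) * x.b + x.d * x.c⟩⟩

theorem E.mul_def (x y : E) : x * y = ⟨x.a + y.a, x.b + y.b, x.c + y.c, x.d + y.d,
  x.e + y.e + (x.b + x.c + x.d) * y.a + (x.c + x.d) * y.b + x.d * y.c⟩ := rfl

instance : Group E := Group.ofLeftAxioms
  (by
    intro x y z
    simp only [E.mul_def, E.mk.injEq]
    refine ⟨by ring, by ring, by ring, by ring, by ring⟩)
  (by decide) (by decide)

/-- the plus type group -/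
@[ext] structure D where
  a : ZMod 2
  b : ZMod 2
  c : ZMod 2
  d : ZMod 2
  e : ZMod 2
deriving DecidableEq, Fintype

instance : Mul D := ⟨fun x y => ⟨x.a + y.a, x.b + y.b, x.c + y.c, x.d + y.d,
  x.e + y.e + x.b * y.a + x.d * y.c⟩⟩
instance : One D := ⟨⟨0, 0, 0, 0, 0⟩⟩
instance : Inv D := ⟨fun x => ⟨x.a, x.b, x.c, x.d, x.e + x.b * x.a + x.d * x.c⟩⟩

theorem D.mul_def (x y : D) : x * y = ⟨x.a + y.a, x.b + y.b, x.c + y.c, x.d + y.d,
  x.e + y.e + x.b * y.a + x.d * y.c⟩ := rfl

instance : Group D := Group.ofLeftAxioms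
  (by
    intro x y z
    simp only [D.mul_def, D.mk.injEq]
    refine ⟨by ring, by ring, by ring, by ring, by ring⟩)
  (by decide) (by decide)

theorem card_E : Nat.card E = 32 := by
  rw [Nat.card_eq_fintype_card]; decide

theorem card_D : Nat.card D = 32 := by
  rw [Nat.card_eq_fintype_card]; decide

def zE : E := ⟨0, 0, 0, 0, 1⟩
def zD : D := ⟨0, 0, 0, 0, 1⟩

set_option maxRecDepth 100000 in
theorem E_comm : ∀ x y : E, x * y * x⁻¹ * y⁻¹ = 1 ∨ x * y * x⁻¹ * y⁻¹ = zE := by decide +kernel

set_option maxRecDepth 100000 in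
theorem D_comm : ∀ x y : D, x * y * x⁻¹ * y⁻¹ = 1 ∨ x * y * x⁻¹ * y⁻¹ = zD := by decide +kernel

theorem memE {g : E} (h : g ∈ center E) : g = 1 ∨ g = zE := by
  rw [mem_center_iff] at h
  revert g; decide

theorem memD {g : D} (h : g ∈ center D) : g = 1 ∨ g = zD := by
  rw [mem_center_iff] at h
  revert g; decide

theorem xsE : Lib.Extraspecial.XS 2 E zE := by
  refine ⟨?_, ?_, ?_, ?_, ?_⟩
  · apply orderOf_eq_prime <;> decide
  · rw [mem_center_iff]; decide
  · intro x y
    rcases E_comm x y with h | h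
    · rw [commutatorElement_def, h]; exact one_mem _
    · rw [commutatorElement_def, h]; exact mem_zpowers _
  · intro x
    have : x ^ 2 = 1 ∨ x ^ 2 = zE := by revert x; decide
    rcases this with h | h
    · rw [h]; exact one_mem _
    · rw [h]; exact mem_zpowers _
  · intro x hx
    rcases memE hx with rfl | rfl
    · exact one_mem _
    · exact mem_zpowers _

theorem xsD : Lib.Extraspecial.XS 2 D zD := by
  refine ⟨?_, ?_, ?_, ?_, ?_⟩
  · apply orderOf_eq_prime <;> decide
  · rw [mem_center_iff]; decide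
  · intro x y
    rcases D_comm x y with h | h
    · rw [commutatorElement_def, h]; exact one_mem _
    · rw [commutatorElement_def, h]; exact mem_zpowers _
  · intro x
    have : x ^ 2 = 1 ∨ x ^ 2 = zD := by revert x; decide
    rcases this with h | h
    · rw [h]; exact one_mem _
    · rw [h]; exact mem_zpowers _
  · intro x hx
    rcases memD hx with rfl | rfl
    · exact one_mem _
    · exact mem_zpowers _

/-- the five involutions -/
def X : Fin 5 → E := ![⟨1, 0, 0, 0, 0⟩, ⟨0, 1, 0, 0, 0⟩, ⟨0, 0, 1, 0, 0⟩, ⟨0, 0, 0, 1, 0⟩, ⟨1, 1, 1, 1, 0⟩]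

/-- label of an involution -/
def lab (g : E) : Fin 5 := if g.a = 1 then (if g.b = 1 then 4 else 0) else (if g.b = 1 then 1 else if g.c = 1 then 2 else 3)

theorem lab_X : ∀ i, lab (X i) = i := by decide
theorem lab_Xz : ∀ i, lab (X i * zE) = i := by decide
theorem invol : ∀ g : E, g ^ 2 = 1 → g ≠ 1 → g ≠ zE → g = X (lab g) ∨ g = X (lab g) * zE := by decide

theorem X_sq : ∀ i, (X i) ^ 2 = 1 := by decide
theorem X_ne : ∀ i, X i ≠ 1 ∧ X i ≠ zE := by decide
theorem X_comm : X 0 * X 1 * (X 0)⁻¹ * (X 1)⁻¹ = zE := by decide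
theorem z_sq : zE * zE = 1 := by decide
theorem z_cen : ∀ g : E, zE * g = g * zE := by decide
theorem expr : ∀ g : E, g = X 0 ^ (g.a.val) * X 1 ^ (g.b.val) * X 2 ^ (g.c.val) * X 3 ^ (g.d.val) * zE ^ (g.e.val) := by decide

theorem map_z (f : MulAut E) : f zE = zE := by
  have h1 : f zE ∈ center E := by
    rw [mem_center_iff]
    intro g
    obtain ⟨h, rfl⟩ := f.surjective g
    rw [← map_mul, ← map_mul, z_cen]
  rcases memE h1 with h | h
  · exfalso
    rw [map_eq_one_iff f f.injective] at h
    revert h; decide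
  · exact h

theorem map_X (f : MulAut E) (i : Fin 5) : f (X i) = X (lab (f (X i))) ∨ f (X i) = X (lab (f (X i))) * zE := by
  apply invol
  · rw [← map_pow, X_sq, map_one]
  · intro h
    rw [map_eq_one_iff f f.injective] at h
    exact (X_ne i).1 h
  · intro h
    rw [← map_z f] at h
    exact (X_ne i).2 (f.injective h)

theorem lab_map (f : MulAut E) {g : E} {i : Fin 5} (h : g = X i ∨ g = X i * zE) : lab (f g) = lab (f (X i)) := by
  rcases h with rfl | rfl
  · rfl
  · rw [map_mul, map_z]
    rcases map_X f i with h | h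
    · rw [h, lab_X, lab_Xz]
    · rw [h, mul_assoc, z_sq, mul_one, lab_X, lab_Xz]

instance : MulAction (MulAut E) (Fin 5) where
  smul f i := lab (f (X i))
  one_smul i := lab_X i
  mul_smul f g i := by
    change lab ((f * g) (X i)) = lab (f (X (lab (g (X i)))))
    rw [MulAut.mul_apply]
    exact lab_map f (map_X g i)

theorem smul_def (f : MulAut E) (i : Fin 5) : f • i = lab (f (X i)) := rfl

def Φ : MulAut E →* Equiv.Perm (Fin 5) := MulAction.toPermHom (MulAut E) (Fin 5)

theorem ext_X {f g : MulAut E} (h0 : f (X 0) = g (X 0)) (h1 : f (X 1) = g (X 1)) (h2 : f (X 2) = g (X 2))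
    (h3 : f (X 3) = g (X 3)) : f = g := by
  apply MulEquiv.ext
  intro x
  rw [expr x]
  simp only [map_mul, map_pow, h0, h1, h2, h3, map_z]

theorem mem_ker {f : MulAut E} (hf : f ∈ Φ.ker) (i : Fin 5) : f (X i) = X i ∨ f (X i) = X i * zE := by
  have h1 : f • i = i := by
    have : Φ f i = i := by rw [MonoidHom.mem_ker.1 hf]; rfl
    exact this
  rw [smul_def] at h1
  have h2 := map_X f i
  rwa [h1] at h2

theorem card_ker_le : Nat.card Φ.ker ≤ 16 := by
  let F : Φ.ker → Bool × Bool × Bool × Bool := fun f =>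
    (decide ((f : MulAut E) (X 0) = X 0), decide ((f : MulAut E) (X 1) = X 1), decide ((f : MulAut E) (X 2) = X 2),
      decide ((f : MulAut E) (X 3) = X 3))
  have hF : Function.Injective F := by
    rintro ⟨f, hf⟩ ⟨g, hg⟩ h
    simp only [F, Prod.mk.injEq, decide_eq_decide] at h
    obtain ⟨h0, h1, h2, h3⟩ := h
    have key : ∀ i : Fin 5, (f (X i) = X i ↔ g (X i) = X i) → f (X i) = g (X i) := by
      intro i h
      by_cases hi : f (X i) = X i
      · rw [hi, h.1 hi]
      · have hi' : ¬ g (X i) = X i := fun h' => hi (h.2 h')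
        rw [(mem_ker hf i).resolve_left hi, (mem_ker hg i).resolve_left hi']
    exact Subtype.ext (ext_X (key 0 h0) (key 1 h1) (key 2 h2) (key 3 h3))
  have := Nat.card_le_card_of_injective F hF
  simpa using this

/-- a transposition -/
def fτ : E → E := fun g => ⟨g.b, g.a, g.c, g.d, g.e + g.a * g.b⟩

/-- a 5-cycle -/
def fσ : E → E := fun g => ⟨g.d, g.a + g.d, g.b + g.d, g.c + g.d, g.e + g.d * (g.a + g.c)⟩

theorem fτ_mul (x y : E) : fτ (x * y) = fτ x * fτ y := by
  simp only [fτ, E.mul_def, E.mk.injEq, true_and]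
  generalize x.a = a; generalize x.b = b; generalize x.c = c; generalize x.d = d; generalize x.e = e
  generalize y.a = a'; generalize y.b = b'; generalize y.c = c'; generalize y.d = d'; generalize y.e = e'
  revert a b c d a' b' c'
  revert e e'
  decide +kernel

theorem fσ_mul (x y : E) : fσ (x * y) = fσ x * fσ y := by
  simp only [fσ, E.mul_def, E.mk.injEq, true_and]
  refine ⟨by ring, by ring, by ring, ?_⟩
  generalize x.a = a; generalize x.b = b; generalize x.c = c; generalize x.d = d; generalize x.e = e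
  generalize y.a = a'; generalize y.b = b'; generalize y.c = c'; generalize y.d = d'; generalize y.e = e'
  revert a b c d a' b' c' d'
  revert e e'
  decide +kernel

def τ : MulAut E where
  toFun := fτ
  invFun := fτ
  left_inv := by
    intro x
    revert x; decide
  right_inv := by
    intro x
    revert x; decide
  map_mul' := fτ_mul

noncomputable def σ : MulAut E := MulEquiv.ofBijective (MonoidHom.mk' fσ fσ_mul) (by
  rw [Nat.bijective_iff_injective_and_card]
  refine ⟨?_, rfl⟩
  intro x y h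
  have : ∀ x y : E, fσ x = fσ y → x = y := by decide +kernel
  exact this x y h)

theorem Φ_surj : Function.Surjective Φ := by
  rw [← MonoidHom.range_eq_top, eq_top_iff]
  have h1 : Equiv.Perm.IsCycle (finRotate 5) := isCycle_finRotate
  have h2 : (finRotate 5).support = ⊤ := support_finRotate
  rw [← Equiv.Perm.closure_cycle_adjacent_swap h1 h2 0, closure_le]
  rintro f (rfl | rfl)
  · refine ⟨σ, ?_⟩
    ext i
    change ((lab (fσ (X i)) : Fin 5) : ℕ) = (finRotate 5 i : Fin 5)
    revert i; decide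
  · refine ⟨τ, ?_⟩
    ext i
    change ((lab (fτ (X i)) : Fin 5) : ℕ) = (Equiv.swap 0 (finRotate 5 0) i : Fin 5)
    revert i; decide

/-- an elementary abelian subgroup of order 8 of `D` -/
def A8 : Subgroup D where
  carrier := {x | x.b = 0 ∧ x.d = 0}
  one_mem' := ⟨rfl, rfl⟩
  mul_mem' := by
    rintro x y ⟨h1, h2⟩ ⟨h3, h4⟩
    exact ⟨by change x.b + y.b = 0; rw [h1, h3, add_zero], by change x.d + y.d = 0; rw [h2, h4, add_zero]⟩
  inv_mem' := by
    rintro x ⟨h1, h2⟩
    exact ⟨h1, h2⟩

theorem A8_comm : ∀ x y : D, x.b = 0 ∧ x.d = 0 → y.b = 0 ∧ y.d = 0 → x * y = y * x := by decide +kernel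
theorem A8_sq : ∀ x : D, x.b = 0 ∧ x.d = 0 → x ^ 2 = 1 := by decide +kernel
theorem A8_card : Nat.card A8 = 8 := by
  change Nat.card {x : D // x.b = 0 ∧ x.d = 0} = 8
  rw [Nat.card_eq_fintype_card]
  decide

theorem A8_el : IsElementaryAbelian 2 A8 :=
  ⟨⟨⟨fun x y => Subtype.ext (A8_comm _ _ x.2 y.2)⟩⟩, fun x hx => A8_sq x hx⟩

theorem comm_invol : ∀ x y : E, x ^ 2 = 1 → y ^ 2 = 1 → x * y = y * x → x ≠ 1 → x ≠ zE → y = 1 ∨ y = zE ∨ y = x ∨ y = x * zE := by
  decide +kernel

theorem E_no8 (A : Subgroup E) (hA : IsElementaryAbelian 2 A) : Nat.card A ≤ 4 := by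
  by_cases hex : ∃ x ∈ A, x ≠ 1 ∧ x ≠ zE
  · obtain ⟨x, hxA, hx1, hxz⟩ := hex
    have hsub : (A : Set E) ⊆ ({1, zE, x, x * zE} : Finset E) := by
      intro y hy
      have := comm_invol x y (hA.2 x hxA) (hA.2 y hy) (congrArg Subtype.val (hA.1.is_comm.comm (⟨x, hxA⟩ : A) ⟨y, hy⟩)) hx1 hxz
      simpa using this
    have h1 : Nat.card A ≤ ({1, zE, x, x * zE} : Finset E).card := by
      have := Set.ncard_le_ncard hsub
      rw [Set.ncard_coe_finset] at this
      exact this
    exact h1.trans Finset.card_le_four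
  · push Not at hex
    have hsub : (A : Set E) ⊆ ({1, zE} : Finset E) := by
      intro y hy
      by_cases h : y = 1
      · simp [h]
      · simp [hex y hy h]
    have h1 : Nat.card A ≤ ({1, zE} : Finset E).card := by
      have := Set.ncard_le_ncard hsub
      rw [Set.ncard_coe_finset] at this
      exact this
    exact h1.trans (Finset.card_le_two.trans (by norm_num))

theorem map_el {P Q : Type*} [Group P] [Group Q] (e : P ≃* Q) {A : Subgroup P} (hA : IsElementaryAbelian 2 A) :
    IsElementaryAbelian 2 (A.map e.toMonoidHom) := by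
  constructor
  · refine ⟨⟨?_⟩⟩
    rintro ⟨_, x, hx, rfl⟩ ⟨_, y, hy, rfl⟩
    apply Subtype.ext
    change e x * e y = e y * e x
    rw [← map_mul, ← map_mul]
    have := congrArg Subtype.val (hA.1.is_comm.comm (⟨x, hx⟩ : A) ⟨y, hy⟩)
    exact congrArg e this
  · rintro _ ⟨x, hx, rfl⟩
    rw [← map_pow, hA.2 x hx, map_one]

/-- an extraspecial group of order 32 with no elementary abelian subgroup of order 8 -/
theorem exists_iso {P : Type*} [Group P] [Finite P]
    (hex : Cfsg.IsExtraspecial 2 P) (h32 : Nat.card P = 32)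
    (hminus : ∀ A : Subgroup P, Cfsg.IsElementaryAbelian 2 A → Nat.card ↥A ≤ 4) : Nonempty (P ≃* E) := by
  have hp : Fact (Nat.Prime 2) := ⟨Nat.prime_two⟩
  obtain ⟨z, hz⟩ := Lib.Extraspecial.XS.of_extraspecial hex
  rcases Lib.Extraspecial.iso_of_three (Nat.card P) P E D z zE zD hz xsE xsD (by rw [h32, card_E]) (by rw [card_E, card_D]) le_rfl with
    ⟨e, -⟩ | ⟨e, -⟩ | ⟨e, -⟩
  · exact ⟨e⟩
  · exfalso
    have h1 := E_no8 _ (map_el e.symm A8_el)
    rw [Subgroup.card_map_of_injective e.symm.injective, A8_card] at h1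
    omega
  · exfalso
    have h1 := hminus _ (map_el e.symm A8_el)
    rw [Subgroup.card_map_of_injective e.symm.injective, A8_card] at h1
    omega

/-- Let P be an extraspecial 2-group of order 32 with no elementary abelian subgroup of order 8 (the central product of a dihedral and a quaternion group of order 8). Then the inner automorphism group of P has order 16 and the outer automorphism group Aut(P)/Inn(P) is isomorphic to the symmetric group of degree 5; in particular Aut(P) has order 1920. -/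
theorem result {P : Type*} [Group P] [Finite P]
    (hex : Cfsg.IsExtraspecial 2 P) (h32 : Nat.card P = 32)
    (hminus : ∀ A : Subgroup P, Cfsg.IsElementaryAbelian 2 A → Nat.card ↥A ≤ 4)
    [(MulAut.conj : P →* MulAut P).range.Normal] :
    Nat.card ↥(MulAut.conj : P →* MulAut P).range = 16 ∧ Nat.card (MulAut P) = 1920 ∧
      Nonempty ((MulAut P ⧸ (MulAut.conj : P →* MulAut P).range) ≃* Equiv.Perm (Fin 5)) := by
  obtain ⟨e⟩ := exists_iso hex h32 hminus
  have h16 : Nat.card ↥(MulAut.conj : P →* MulAut P).range = 16 := by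
    rw [← Subgroup.index_ker]
    have h1 : (MulAut.conj : P →* MulAut P).ker = center P := by
      ext x
      rw [MonoidHom.mem_ker, mem_center_iff]
      constructor
      · intro h g
        have := congrArg (fun f => f g) h
        simp only [MulAut.conj_apply, MulAut.one_apply] at this
        rw [mul_inv_eq_iff_eq_mul] at this
        exact this.symm
      · intro h
        ext g
        simp only [MulAut.conj_apply, MulAut.one_apply]
        rw [mul_inv_eq_iff_eq_mul]
        exact (h g).symm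
    rw [h1]
    have h2 := Subgroup.card_mul_index (center P)
    have h3 : Nat.card (center P) = 2 := hex.2
    rw [h3, h32] at h2
    omega
  let Ψ : MulAut P →* Equiv.Perm (Fin 5) := Φ.comp (MulAut.congr e).toMonoidHom
  have hsurj : Function.Surjective Ψ := Φ_surj.comp (MulAut.congr e).surjective
  have hker : Ψ.ker = (MulAut.conj : P →* MulAut P).range := by
    symm
    have hfin : Finite (MulAut P) := inferInstance
    apply Subgroup.eq_of_le_of_card_ge
    · rintro _ ⟨g, rfl⟩
      rw [MonoidHom.mem_ker]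
      change Φ (MulAut.congr e (MulAut.conj g)) = 1
      have h1 : MulAut.congr e (MulAut.conj g) = MulAut.conj (e g) := by
        ext x : 1
        change e (MulAut.conj g (e.symm x)) = _
        rw [MulAut.conj_apply, MulAut.conj_apply, map_mul, map_mul, map_inv, MulEquiv.apply_symm_apply]
      rw [h1]
      ext i : 1
      change lab (MulAut.conj (e g) (X i)) = i
      have h2 : ∀ (g : E) (i : Fin 5), lab (g * X i * g⁻¹) = i := by decide +kernel
      exact h2 (e g) i
    · rw [h16]
      have h1 : Nat.card Ψ.ker = Nat.card Φ.ker := by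
        apply Nat.card_congr
        refine (MulAut.congr e).toEquiv.subtypeEquiv (fun f => ?_)
        rw [MonoidHom.mem_ker, MonoidHom.mem_ker]
        rfl
      rw [h1]
      exact card_ker_le
  refine ⟨h16, ?_, ⟨?_⟩⟩
  · have h1 := Subgroup.card_mul_index Ψ.ker
    rw [Subgroup.index_ker, MonoidHom.range_eq_top.2 hsurj, Subgroup.card_top, hker, h16] at h1
    rw [← h1, Nat.card_perm, Nat.card_fin]
    rfl
  · exact (QuotientGroup.quotientMulEquivOfEq hker.symm).trans (QuotientGroup.quotientKerEquivOfSurjective Ψ hsurj)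

end Cfsg.Agent.S4413
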