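import Cfsg.Statements.S4414
import Cfsg.Agent.Lib.WtTwoMain
-- import your own Cfsg.Agent.* helpers here

set_option autoImplicit false
open Cfsg

namespace Cfsg.Agent.S4414

open Cfsg.Agent.Lib.WtTwoMain

/-- Let S be a finite solvable group whose order is divisible only by the primes 2, p, q (p, q distinct odd primes), with a Sylow system S₂, S_p, S_q (pairwise permutable Sylow subgroups) such that: S_p is a minimal normal subgroup of S of order p or p²; S_q has order q and [S_p, S_q] = S_p; and O₂(S) = 1. Let E be an irreducible module for S over the field with two elements on which S_p acts faithfully, and E₀ the subspace of fixed points of S₂. Then either E₀ has at least 8 elements, or E₀ has exactly 4 elements and S_q does not leave E₀ invariant. -/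
theorem result {S : Type*} [Group S] [Finite S]
    [Group.IsSolvable S] (p q : ℕ) (hp : p.Prime) (hq : q.Prime) (hp2 : p ≠ 2) (hq2 : q ≠ 2) (hpq : p ≠ q)
    (hπ : ∀ r : ℕ, r.Prime → r ∣ Nat.card S → r = 2 ∨ r = p ∨ r = q)
    (S₂ : Sylow 2 S) (Sp : Sylow p S) (Sq : Sylow q S)
    (h2q : Nat.card ↥((S₂ : Subgroup S) ⊔ (Sq : Subgroup S)) = Nat.card ↥S₂ * Nat.card ↥Sq)
    (h2p : Nat.card ↥((S₂ : Subgroup S) ⊔ (Sp : Subgroup S)) = Nat.card ↥S₂ * Nat.card ↥Sp)
    (hpq' : Nat.card ↥((Sp : Subgroup S) ⊔ (Sq : Subgroup S)) = Nat.card ↥Sp * Nat.card ↥Sq)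
    (hSpN : (Sp : Subgroup S).Normal) (hSpmin : ∀ N : Subgroup S, N.Normal → N ≤ (Sp : Subgroup S) → N = ⊥ ∨ N = (Sp : Subgroup S))
    (hSpcard : Nat.card ↥Sp = p ∨ Nat.card ↥Sp = p ^ 2)
    (hSq : Nat.card ↥Sq = q) (hcomm : ⁅(Sp : Subgroup S), (Sq : Subgroup S)⁆ = (Sp : Subgroup S))
    (hO2 : Cfsg.pCore 2 S = ⊥)
    {E : Type*} [AddCommGroup E] [Module (ZMod 2) E] [Finite E] (ρ : Representation (ZMod 2) S E) (hE : Nontrivial E)
    (hirr : ∀ N : Submodule (ZMod 2) E, (∀ s : S, ∀ m ∈ N, ρ s m ∈ N) → N = ⊥ ∨ N = ⊤)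
    (hfaith : ∀ x ∈ (Sp : Subgroup S), ρ x = 1 → x = 1) :
    8 ≤ Nat.card {v : E // ∀ s ∈ (S₂ : Subgroup S), ρ s v = v} ∨
      (Nat.card {v : E // ∀ s ∈ (S₂ : Subgroup S), ρ s v = v} = 4 ∧
        ∃ x ∈ (Sq : Subgroup S), ∃ v : E, (∀ s ∈ (S₂ : Subgroup S), ρ s v = v) ∧ ¬ ∀ s ∈ (S₂ : Subgroup S), ρ s (ρ x v) = ρ x v) := by
  classical
  haveI : Fact p.Prime := ⟨hp⟩
  haveI : Fact q.Prime := ⟨hq⟩
  haveI : Fact (Nat.Prime 2) := ⟨Nat.prime_two⟩
  haveI := hSpN
  haveI := hE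
  haveI hVc : IsMulCommutative (Sp : Subgroup S) := by
    rcases hSpcard with h | h
    · haveI : IsCyclic Sp := isCyclic_of_prime_card h
      exact (IsCyclic.commutative : IsMulCommutative Sp)
    · exact ⟨⟨fun a b => IsPGroup.commutative_of_card_eq_prime_sq h a b⟩⟩
  have hpodd : Odd p := hp.odd_of_ne_two hp2
  have hVodd : Odd (Nat.card (Sp : Subgroup S)) := by
    rcases hSpcard with h | h
    · have h' : Nat.card (Sp : Subgroup S) = p := h
      rw [h']; exact hpodd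
    · have h' : Nat.card (Sp : Subgroup S) = p ^ 2 := h
      rw [h']; exact hpodd.pow
  have hSpne : ∃ x ∈ (Sp : Subgroup S), x ≠ 1 := by
    have h1 : 1 < Nat.card Sp := by
      rcases hSpcard with h | h
      · exact lt_of_lt_of_eq hp.one_lt h.symm
      · exact lt_of_lt_of_eq (Nat.one_lt_pow (by norm_num) hp.one_lt) h.symm
    haveI : Nontrivial Sp := Finite.one_lt_card_iff_nontrivial.mp h1
    obtain ⟨x, hx⟩ := exists_ne (1 : Sp)
    exact ⟨x, x.2, fun h => hx (Subtype.ext h)⟩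
  have hfix : ∀ v : E, (∀ x ∈ (Sp : Subgroup S), ρ x v = v) → v = 0 := by
    have hinv : ∀ s : S, ∀ m ∈ fx ρ (Sp : Subgroup S), ρ s m ∈ fx ρ (Sp : Subgroup S) := by
      intro s m hm x hx
      have h1 : s⁻¹ * x * s ∈ (Sp : Subgroup S) := by
        have := hSpN.conj_mem x hx s⁻¹
        rwa [inv_inv] at this
      have h2 : ρ x (ρ s m) = ρ s (ρ (s⁻¹ * x * s) m) := by
        rw [← Module.End.mul_apply, ← Module.End.mul_apply, ← map_mul, ← map_mul]
        congr 2
        group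
      rw [h2, hm _ h1]
    rcases hirr _ hinv with h | h
    · intro v hv
      have h1 : v ∈ fx ρ (Sp : Subgroup S) := hv
      rw [h] at h1
      exact (Submodule.mem_bot _).mp h1
    · exfalso
      obtain ⟨x, hx, hx1⟩ := hSpne
      apply hx1
      apply hfaith x hx
      ext v
      have h1 : v ∈ fx ρ (Sp : Subgroup S) := by rw [h]; exact Submodule.mem_top
      exact h1 x hx
  exact mainThm (Sp : Subgroup S) (S₂ : Subgroup S) (Sq : Subgroup S) hVodd S₂.isPGroup' hq hq2 hSq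
    h2q hcomm.ge ρ hfix

end Cfsg.Agent.S4414
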