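import Cfsg.Statements.S4417
import Cfsg.Agent.Lib.DerLen

set_option autoImplicit false
open Cfsg

namespace Cfsg.Agent.S4417

open Module Cfsg.Agent.Lib.ModRep Cfsg.Agent.Lib.ModMaschke Cfsg.Agent.Lib.DerLen

universe u v w

theorem key {F : Type w} {E V : Type v} [Field F] [Field E] [Algebra F E] [AddCommGroup V] [Module F V] [Module E V]
    [IsScalarTower F E V] [Finite F] [FiniteDimensional F V] [Finite E] {p : ℕ} [hp : Fact p.Prime]
    (hpF : ¬ p ∣ Nat.card F) {P : Type u} [Group P] [Finite P] (hP : IsPGroup p P) (ρ : P →* Module.End F V)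
    (hE : ∀ (g : P) (x : E) (v : V), ρ g (x • v) = x • ρ g v) (hpE : p ∣ Nat.card E - 1) (g : P)
    (hg : g ∈ derivedSeries P (Nat.log 2 (finrank F V / orderOf (Nat.card F : ZMod p)) + 1)) : ρ g = 1 := by
  have hfinE : FiniteDimensional F E := inferInstance
  have hfEV : FiniteDimensional E V := FiniteDimensional.right F E V
  have h1 : finrank F E * finrank E V = finrank F V := Module.finrank_mul_finrank F E V
  have h2 : Nat.card E = Nat.card F ^ finrank F E := Module.natCard_eq_pow_finrank
  have hm : 0 < finrank F E := Module.finrank_pos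
  have h3 : (Nat.card F : ZMod p) ^ finrank F E = 1 := by
    obtain ⟨c, hc⟩ := hpE
    have h4 : Nat.card E = p * c + 1 := by
      have : 0 < Nat.card E := Nat.card_pos
      omega
    rw [← Nat.cast_pow, ← h2, h4]
    simp
  have h4 : orderOf (Nat.card F : ZMod p) ∣ finrank F E := orderOf_dvd_of_pow_eq_one h3
  have h5 : 0 < orderOf (Nat.card F : ZMod p) := Nat.pos_of_dvd_of_pos h4 hm
  have h6 : finrank E V ≤ finrank F V / orderOf (Nat.card F : ZMod p) := by
    rw [Nat.le_div_iff_mul_le h5, ← h1, mul_comm]
    exact Nat.mul_le_mul_right _ (Nat.le_of_dvd hm h4)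
  let σ : P →* Module.End E V :=
    { toFun := fun g =>
        { toFun := ρ g
          map_add' := fun a b => map_add _ a b
          map_smul' := fun x v => hE g x v }
      map_one' := by
        apply LinearMap.ext
        intro v
        change ρ 1 v = v
        rw [map_one]; rfl
      map_mul' := fun a b => by
        apply LinearMap.ext
        intro v
        change ρ (a * b) v = ρ a (ρ b v)
        rw [map_mul]; rfl }
  have hpE0 : (p : E) ≠ 0 := by
    intro h
    obtain ⟨r, hr⟩ := CharP.exists E
    have h7 : r ∣ p := (CharP.cast_eq_zero_iff E r p).1 h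
    have hr0 : r.Prime := (CharP.char_is_prime_or_zero E r).resolve_right (by
      rintro rfl
      have : CharZero E := CharP.charP_to_charZero E
      have := Infinite.of_injective (Nat.cast : ℕ → E) Nat.cast_injective
      exact not_finite E)
    have h8 : r = p := (Nat.prime_dvd_prime_iff_eq hr0 hp.out).1 h7
    subst h8
    have : CharP F r := by
      refine ⟨fun x => ?_⟩
      rw [← CharP.cast_eq_zero_iff E r x, ← map_natCast (algebraMap F E), map_eq_zero]
    have := Fintype.ofFinite F
    obtain ⟨n, _, hn⟩ := FiniteField.card F r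
    apply hpF
    rw [Nat.card_eq_fintype_card, hn]
    exact dvd_pow_self r n.ne_zero
  have h7 := derived_trivial_field (E := E) hpE0 hP σ g (derivedSeries_antitone P (by
    have := Nat.log_mono_right (b := 2) h6
    omega) hg)
  apply LinearMap.ext
  intro v
  have h8 := congrArg (fun f : Module.End E V => f v) h7
  exact h8

/-- central element of order `p` in a nontrivial `p`-quotient -/
theorem exists_central {p : ℕ} [hp : Fact p.Prime] {P : Type u} [Group P] [Finite P] (hP : IsPGroup p P)
    (N : Subgroup P) [N.Normal] (hN : N ≠ ⊤) :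
    ∃ c : P, c ∉ N ∧ c ^ p ∈ N ∧ ∀ g : P, c * g * c⁻¹ * g⁻¹ ∈ N := by
  have hnt : Nontrivial (P ⧸ N) := by
    obtain ⟨x, hx⟩ : ∃ x, x ∉ N := by
      by_contra h
      push Not at h
      exact hN ((Subgroup.eq_top_iff' N).2 h)
    refine ⟨⟨QuotientGroup.mk x, 1, fun h => hx ((QuotientGroup.eq_one_iff x).1 h)⟩⟩
  have hQ : IsPGroup p (P ⧸ N) := hP.to_quotient N
  have hc : Nontrivial (Subgroup.center (P ⧸ N)) := hQ.center_nontrivial
  have hdvd : p ∣ Nat.card (Subgroup.center (P ⧸ N)) := by
    rcases (hQ.to_subgroup (Subgroup.center (P ⧸ N))).card_eq_or_dvd with h1 | h1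
    · exact absurd h1 (Nat.ne_of_gt Finite.one_lt_card)
    · exact h1
  obtain ⟨c, hc⟩ := exists_prime_orderOf_dvd_card' p hdvd
  obtain ⟨x, hx⟩ := QuotientGroup.mk_surjective (c : P ⧸ N)
  refine ⟨x, ?_, ?_, ?_⟩
  · intro h
    have h1 : c = 1 := by
      apply Subtype.ext
      rw [← hx]
      exact (QuotientGroup.eq_one_iff x).2 h
    rw [h1, orderOf_one] at hc
    exact hp.out.one_lt.ne hc
  · rw [← QuotientGroup.eq_one_iff, QuotientGroup.mk_pow, hx, ← Subgroup.coe_pow, ← hc, pow_orderOf_eq_one]
    rfl
  · intro g
    have h1 := Subgroup.mem_center_iff.1 c.2 (QuotientGroup.mk g)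
    rw [← hx] at h1
    rw [← QuotientGroup.eq_one_iff, QuotientGroup.mk_mul, QuotientGroup.mk_mul, QuotientGroup.mk_mul, ← h1,
      QuotientGroup.mk_inv, QuotientGroup.mk_inv]
    group

theorem main {F : Type w} [Field F] [Finite F] {p : ℕ} [hp : Fact p.Prime] (hpF : ¬ p ∣ Nat.card F) (n : ℕ) :
    ∀ {P : Type u} [Group P] [Finite P] (_ : IsPGroup p P) {V : Type w} [AddCommGroup V] [Module F V]
      [FiniteDimensional F V] (ρ : P →* Module.End F V), finrank F V = n →
      ∀ g ∈ derivedSeries P (Nat.log 2 (n / orderOf (Nat.card F : ZMod p)) + 1), ρ g = 1 := by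
  induction n using Nat.strong_induction_on with
  | _ n ih =>
  intro P _ _ hP V _ _ _ ρ hn
  have hanti : ∀ {m n : ℕ}, m ≤ n → derivedSeries P n ≤ derivedSeries P m := fun h => derivedSeries_antitone P h
  by_cases hsub : Subsingleton V
  · intro g _
    apply LinearMap.ext
    intro v
    exact Subsingleton.elim _ _
  have hnt : Nontrivial V := not_subsingleton_iff_nontrivial.1 hsub
  by_cases hirr : ∀ W : Submodule F V, Inv ρ W → W = ⊥ ∨ W = ⊤
  · by_cases htriv : ρ.ker = ⊤
    · intro g _
      have : g ∈ ρ.ker := by rw [htriv]; trivial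
      exact MonoidHom.mem_ker.1 this
    obtain ⟨c, hcN, hcp, hcc⟩ := exists_central hP ρ.ker htriv
    have hccomm : ∀ g : P, ρ c * ρ g = ρ g * ρ c := by
      intro g
      have h1 := MonoidHom.mem_ker.1 (hcc g)
      have e : c * g = (c * g * c⁻¹ * g⁻¹) * (g * c) := by group
      rw [← map_mul, e, map_mul, h1, one_mul, map_mul]
    have hcp' : ρ c ^ p = 1 := by rw [← map_pow]; exact MonoidHom.mem_ker.1 hcp
    have hc1 : ρ c ≠ 1 := fun h => hcN (MonoidHom.mem_ker.2 h)
    let S : Subalgebra F (Module.End F V) := Algebra.adjoin F {ρ c}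
    have hSc : ∀ (x : S) (g : P), (x : Module.End F V) * ρ g = ρ g * x := by
      intro x g
      have h1 : S ≤ Subalgebra.centralizer F {ρ g} := by
        rw [Algebra.adjoin_le_iff, Set.singleton_subset_iff, SetLike.mem_coe, Subalgebra.mem_centralizer_iff]
        intro y hy
        rw [Set.mem_singleton_iff] at hy
        rw [hy]; exact (hccomm g).symm
      have h2 := (Subalgebra.mem_centralizer_iff F).1 (h1 x.2) (ρ g) rfl
      exact h2.symm
    have hScomm : ∀ x y : S, x * y = y * x := by
      have h0 : ∀ y ∈ S, y * ρ c = ρ c * y := by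
        intro y hy
        have h1 : S ≤ Subalgebra.centralizer F {ρ c} := by
          rw [Algebra.adjoin_le_iff, Set.singleton_subset_iff, SetLike.mem_coe, Subalgebra.mem_centralizer_iff]
          intro y hy
          rw [Set.mem_singleton_iff] at hy
          rw [hy]
        exact ((Subalgebra.mem_centralizer_iff F).1 (h1 hy) (ρ c) rfl).symm
      intro x y
      have h1 : S ≤ Subalgebra.centralizer F {(y : Module.End F V)} := by
        rw [Algebra.adjoin_le_iff, Set.singleton_subset_iff, SetLike.mem_coe, Subalgebra.mem_centralizer_iff]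
        intro w hw
        rw [Set.mem_singleton_iff] at hw
        rw [hw]; exact h0 y y.2
      exact Subtype.ext ((Subalgebra.mem_centralizer_iff F).1 (h1 x.2) y rfl).symm
    have hfinEnd : Finite (Module.End F V) := by
      have : Finite V := Module.finite_of_finite F
      exact Finite.of_injective (fun f : Module.End F V => (f : V → V)) DFunLike.coe_injective
    have hinj : ∀ x : S, x ≠ 0 → Function.Injective (x : Module.End F V) := by
      intro x hx
      rw [← LinearMap.ker_eq_bot]
      have h1 : Inv ρ (LinearMap.ker (x : Module.End F V)) := by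
        intro g v hv
        rw [LinearMap.mem_ker] at hv ⊢
        rw [← Module.End.mul_apply, hSc, Module.End.mul_apply, hv, map_zero]
      rcases hirr _ h1 with h2 | h2
      · exact h2
      · exfalso
        apply hx
        apply Subtype.ext
        exact LinearMap.ker_eq_top.1 h2
    have hfield : IsField S := by
      have hnt' : Nontrivial S := by
        refine ⟨⟨0, 1, ?_⟩⟩
        intro h
        obtain ⟨v, hv⟩ := exists_ne (0 : V)
        apply hv
        have := congrArg (fun x : S => (x : Module.End F V) v) h
        simpa using this.symm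
      refine ⟨⟨0, 1, zero_ne_one⟩, hScomm, ?_⟩
      intro x hx
      have h1 : Function.Injective (fun y : S => x * y) := by
        intro y z hyz
        apply Subtype.ext
        apply LinearMap.ext
        intro v
        apply hinj x hx
        exact congrArg (fun w : S => (w : Module.End F V) v) hyz
      obtain ⟨y, hy⟩ := (Finite.injective_iff_surjective.1 h1) 1
      exact ⟨y, hy⟩
    let _ : Field S := hfield.toField
    have hcard : p ∣ Nat.card S - 1 := by
      let u : S := ⟨ρ c, Algebra.subset_adjoin rfl⟩
      have hu1 : u ≠ 1 := fun h => hc1 (congrArg Subtype.val h)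
      have hup : u ^ p = 1 := Subtype.ext hcp'
      have hu0 : u ≠ 0 := by
        intro h
        rw [h, zero_pow hp.out.ne_zero] at hup
        exact zero_ne_one hup
      have h1 : orderOf (Units.mk0 u hu0) = p := by
        apply orderOf_eq_prime
        · apply Units.ext
          simpa using hup
        · intro h
          apply hu1
          simpa using congrArg Units.val h
      have h2 := orderOf_dvd_natCard (Units.mk0 u hu0)
      rwa [h1, Nat.card_units] at h2
    intro g hg
    refine key (E := S) hpF hP ρ ?_ hcard g (by rw [hn]; exact hg)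
    intro g x v
    change ρ g ((x : Module.End F V) v) = (x : Module.End F V) (ρ g v)
    rw [← Module.End.mul_apply, ← hSc, Module.End.mul_apply]
  · push Not at hirr
    obtain ⟨W, hW, hW0, hW1⟩ := hirr
    have hG : (Nat.card P : F) ≠ 0 := by
      obtain ⟨k, hk⟩ := IsPGroup.iff_card.1 hP
      rw [hk, Nat.cast_pow]
      apply pow_ne_zero
      intro h
      obtain ⟨r, hr⟩ := CharP.exists F
      have h7 : r ∣ p := (CharP.cast_eq_zero_iff F r p).1 h
      have := Fintype.ofFinite F
      have hr0 : r.Prime := CharP.char_is_prime F r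
      have h8 : r = p := (Nat.prime_dvd_prime_iff_eq hr0 hp.out).1 h7
      subst h8
      obtain ⟨n, _, hn⟩ := FiniteField.card F r
      apply hpF
      rw [Nat.card_eq_fintype_card, hn]
      exact dvd_pow_self r n.ne_zero
    obtain ⟨W', hW', hc⟩ := maschke hG ρ W hW
    have hadd := Submodule.finrank_add_eq_of_isCompl hc
    have hp1 : 0 < finrank F W := by
      have : Nontrivial W := Submodule.nontrivial_iff_ne_bot.2 hW0
      exact Module.finrank_pos
    have hp2 : finrank F W < n := by
      rw [← hn]; exact Submodule.finrank_lt hW1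
    have hp3 : finrank F W' < n := by omega
    intro g hg
    have h1 := ih _ hp2 hP (subrep ρ W hW) rfl g (hanti (by
      have := Nat.log_mono_right (b := 2) (Nat.div_le_div_right (c := orderOf (Nat.card F : ZMod p)) hp2.le); omega) hg)
    have h2 := ih _ hp3 hP (subrep ρ W' hW') rfl g (hanti (by
      have := Nat.log_mono_right (b := 2) (Nat.div_le_div_right (c := orderOf (Nat.card F : ZMod p)) hp3.le); omega) hg)
    apply LinearMap.ext
    intro v
    have hv : v ∈ W ⊔ W' := by rw [hc.sup_eq_top]; trivial
    obtain ⟨a, ha, b, hb, rfl⟩ := Submodule.mem_sup.1 hv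
    have e1 : ρ g a = a := congrArg (fun f : Module.End F W => ((f ⟨a, ha⟩ : W) : V)) h1
    have e2 : ρ g b = b := congrArg (fun f : Module.End F W' => ((f ⟨b, hb⟩ : W') : V)) h2
    rw [map_add, e1, e2]; rfl

/-- Let F be a field with q elements, p a prime not dividing q, and e the multiplicative order of q modulo p; assume e ≤ n. Then every p-subgroup of GL_n(F) has derived length at most ⌊log₂(n/e)⌋ + 1: that term of its derived series is trivial (n/e is the integer quotient). -/
theorem result {F : Type*} [Field F] [Fintype F] (q : ℕ) (hF : Fintype.card F = q) (p : ℕ) [Fact p.Prime] (hpq : ¬ p ∣ q) (n e : ℕ) (he : e = orderOf (q : ZMod p)) (hen : e ≤ n) (P : Subgroup (GL (Fin n) F)) (hP : IsPGroup p P) : derivedSeries ↥P (Nat.log 2 (n / e) + 1) = ⊥ := by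
  have hcard : Nat.card F = q := by rw [Nat.card_eq_fintype_card, hF]
  have hfin : Finite (GL (Fin n) F) := inferInstance
  let ρ : P →* Module.End F (Fin n → F) :=
    ((Matrix.toLinAlgEquiv' (R := F) (n := Fin n)).toAlgHom.toMonoidHom.comp (Units.coeHom _)).comp P.subtype
  have hρ : Function.Injective ρ := by
    intro a b hab
    apply Subtype.ext
    apply Units.ext
    exact (Matrix.toLinAlgEquiv' (R := F) (n := Fin n)).injective hab
  rw [eq_bot_iff]
  intro g hg
  rw [Subgroup.mem_bot]
  apply hρ
  rw [map_one]
  exact main (F := F) (p := p) (by rw [hcard]; exact hpq) n hP ρ (by simp) g (by rw [hcard, ← he]; exact hg)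

end Cfsg.Agent.S4417
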