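import Cfsg.Statements.S4420

set_option autoImplicit false
open Cfsg

namespace Cfsg.Agent.S4420

theorem result {H : Type*} [Group H] [Finite H] (A : Subgroup H) (hA : A ≠ ⊤) (hD : ∀ x : H, x ∉ A → x ^ 2 = 1) :
    ∃ B : Subgroup H, B.Normal ∧ IsMulCommutative ↥B ∧ B.index = 2 ∧
      (∀ x : H, x ∉ B → x ^ 2 = 1 ∧ ∀ b ∈ B, x * b * x⁻¹ = b⁻¹) ∧
      (¬ (IsMulCommutative H ∧ ∀ x : H, x ^ 2 = 1) →
        ∀ B' : Subgroup H, B'.Normal → IsMulCommutative ↥B' → B'.index = 2 →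
          (∀ x : H, x ∉ B' → x ^ 2 = 1 ∧ ∀ b ∈ B', x * b * x⁻¹ = b⁻¹) → B' = B) := by
  -- inversion
  have inv : ∀ x : H, x ∉ A → ∀ a ∈ A, x * a * x⁻¹ = a⁻¹ := by
    intro x hx a ha
    have hxa : x * a ∉ A := fun h => hx ((A.mul_mem_cancel_right ha).1 h)
    have h1 := hD _ hx
    have h2 := hD _ hxa
    have hxi : x⁻¹ = x := by
      rw [inv_eq_iff_mul_eq_one, ← sq, h1]
    rw [hxi, eq_comm, inv_eq_iff_mul_eq_one]
    calc a * (x * a * x) = x⁻¹ * ((x * a) ^ 2) * x := by rw [sq]; group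
      _ = 1 := by rw [h2]; group
  obtain ⟨x₀, hx₀⟩ : ∃ x, x ∉ A := by
    by_contra hcon
    push Not at hcon
    exact hA ((Subgroup.eq_top_iff' A).2 hcon)
  have hcomm : ∀ a ∈ A, ∀ b ∈ A, a * b = b * a := by
    intro a ha b hb
    have h1 := inv x₀ hx₀ (a * b) (A.mul_mem ha hb)
    have h2 := inv x₀ hx₀ a ha
    have h3 := inv x₀ hx₀ b hb
    have h4 : x₀ * (a * b) * x₀⁻¹ = (x₀ * a * x₀⁻¹) * (x₀ * b * x₀⁻¹) := by group
    rw [h1, h2, h3, mul_inv_rev] at h4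
    have := congrArg (·⁻¹) h4
    simpa using this
  have hAab : IsMulCommutative ↥A := ⟨⟨fun a b => Subtype.ext (hcomm a a.2 b b.2)⟩⟩
  -- uniqueness part
  have uniq : ∀ B B' : Subgroup H, IsMulCommutative ↥B → IsMulCommutative ↥B' → 
      (∀ x : H, x ∉ B → x ^ 2 = 1 ∧ ∀ b ∈ B, x * b * x⁻¹ = b⁻¹) →
      (∀ x : H, x ∉ B' → x ^ 2 = 1 ∧ ∀ b ∈ B', x * b * x⁻¹ = b⁻¹) →
      ¬ (B' ≤ B) → IsMulCommutative H ∧ ∀ x : H, x ^ 2 = 1 := by
    intro B B' hB hB' h1 h2 hne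
    obtain ⟨x, hxB', hxB⟩ := Set.not_subset.1 hne
    have hsq : ∀ x : H, x ^ 2 = 1 := by
      intro b
      by_cases hb : b ∈ B
      · by_cases hb' : b ∈ B'
        · have h3 := (h1 x hxB).2 b hb
          have h4 : x * b = b * x := by
            have := hB'.is_comm.comm ⟨x, hxB'⟩ ⟨b, hb'⟩
            exact congrArg Subtype.val this
          rw [h4, mul_inv_cancel_right] at h3
          rw [sq]
          nth_rewrite 2 [h3]
          simp
        · exact (h2 b hb').1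
      · exact (h1 b hb).1
    refine ⟨⟨⟨fun a b => ?_⟩⟩, hsq⟩
    have ha := hsq a
    have hb := hsq b
    have hab := hsq (a * b)
    have e1 : a⁻¹ = a := by rw [inv_eq_iff_mul_eq_one, ← sq, ha]
    have e2 : b⁻¹ = b := by rw [inv_eq_iff_mul_eq_one, ← sq, hb]
    have e3 : (a * b)⁻¹ = a * b := by rw [inv_eq_iff_mul_eq_one, ← sq, hab]
    rw [← e3, mul_inv_rev, e1, e2]
  have uniq' : ∀ B B' : Subgroup H, B.index = 2 → B'.index = 2 → IsMulCommutative ↥B → IsMulCommutative ↥B' → 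
      (∀ x : H, x ∉ B → x ^ 2 = 1 ∧ ∀ b ∈ B, x * b * x⁻¹ = b⁻¹) →
      (∀ x : H, x ∉ B' → x ^ 2 = 1 ∧ ∀ b ∈ B', x * b * x⁻¹ = b⁻¹) →
      ¬ (IsMulCommutative H ∧ ∀ x : H, x ^ 2 = 1) → B' = B := by
    intro B B' i1 i2 hB hB' h1 h2 hne
    have hle : B' ≤ B := by
      by_contra hcon
      exact hne (uniq B B' hB hB' h1 h2 hcon)
    have hle' : B ≤ B' := by
      by_contra hcon
      exact hne (uniq B' B hB' hB h2 h1 hcon)
    exact le_antisymm hle hle'
  by_cases hall : ∀ x : H, x ^ 2 = 1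
  · -- H elementary abelian
    have hc : ∀ a b : H, a * b = b * a := by
      intro a b
      have ha := hall a
      have hb := hall b
      have hab := hall (a * b)
      have e1 : a⁻¹ = a := by rw [inv_eq_iff_mul_eq_one, ← sq, ha]
      have e2 : b⁻¹ = b := by rw [inv_eq_iff_mul_eq_one, ← sq, hb]
      have e3 : (a * b)⁻¹ = a * b := by rw [inv_eq_iff_mul_eq_one, ← sq, hab]
      rw [← e3, mul_inv_rev, e1, e2]
    have hp : IsPGroup 2 H := fun g => ⟨1, by simpa using hall g⟩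
    have hcard : 2 ∣ Nat.card H := by
      obtain ⟨n, hn⟩ := IsPGroup.iff_card.1 hp
      have hpos : n ≠ 0 := by
        rintro rfl
        have h1 : Nat.card H = 1 := by simpa using hn
        have := (Nat.card_eq_one_iff_unique.1 h1).1
        exact hx₀ (by rw [Subsingleton.elim x₀ 1]; exact A.one_mem)
      rw [hn]
      exact dvd_pow_self 2 hpos
    obtain ⟨n, hn⟩ := IsPGroup.iff_card.1 hp
    have hn0 : n ≠ 0 := by
      rintro rfl
      rw [hn] at hcard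
      norm_num at hcard
    obtain ⟨m, rfl⟩ := Nat.exists_eq_succ_of_ne_zero hn0
    obtain ⟨B, hB⟩ := Sylow.exists_subgroup_card_pow_prime (G := H) 2 (n := m) (by rw [hn]; exact pow_dvd_pow 2 (Nat.le_succ m))
    have hBi : B.index = 2 := by
      have := B.card_mul_index
      rw [hB, hn, Nat.succ_eq_add_one, pow_succ] at this
      exact Nat.eq_of_mul_eq_mul_left (by positivity) this
    refine ⟨B, ⟨fun n hn g => by rw [hc g n, mul_inv_cancel_right]; exact hn⟩, ⟨⟨fun a b => Subtype.ext (hc a b)⟩⟩, hBi, ?_, ?_⟩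
    · intro x _
      refine ⟨hall x, fun b _ => ?_⟩
      rw [hc x b, mul_inv_cancel_right, eq_comm, inv_eq_iff_mul_eq_one, ← sq, hall b]
    · intro hno
      exact absurd ⟨⟨⟨hc⟩⟩, hall⟩ hno
  · push Not at hall
    obtain ⟨a₀, ha₀⟩ := hall
    have ha₀A : a₀ ∈ A := by
      by_contra hcon
      exact ha₀ (hD _ hcon)
    have hidx : A.index = 2 := by
      rw [Subgroup.index_eq_two_iff]
      refine ⟨x₀, fun b => ?_⟩
      rw [xor_iff_iff_not]
      constructor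
      · intro hb hbA
        exact hx₀ ((A.mul_mem_cancel_left hbA).1 hb)
      · intro hb
        by_contra hcon
        have h1 := inv _ hcon a₀ ha₀A
        have h2 := inv _ hb a₀ ha₀A
        have h3 := inv _ hx₀ a₀ ha₀A
        have h4 : b * x₀ * a₀ * (b * x₀)⁻¹ = b * (x₀ * a₀ * x₀⁻¹) * b⁻¹ := by group
        rw [h1, h3] at h4
        have h5 : b * a₀⁻¹ * b⁻¹ = (b * a₀ * b⁻¹)⁻¹ := by group
        rw [h5, h2, inv_inv] at h4
        apply ha₀
        rw [sq]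
        nth_rewrite 1 [← h4]
        simp
    refine ⟨A, Subgroup.normal_of_index_eq_two hidx, hAab, hidx, fun x hx => ⟨hD x hx, inv x hx⟩, ?_⟩
    intro hno B' hB'n hB'c hB'i hB'
    exact uniq' A B' hidx hB'i hAab hB'c (fun x hx => ⟨hD x hx, inv x hx⟩) hB' hno

end Cfsg.Agent.S4420
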