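import Cfsg.Statements.S4460
import Cfsg.Agent.Lib.ThreeDeg

set_option autoImplicit false
open Cfsg

namespace Cfsg.Agent.S4460

/-- A finite group with exactly three distinct irreducible character degrees is solvable of derived length at most 3: its third derived subgroup is trivial. -/
theorem result {G : Type*} [Group G] [Finite G] (hcd : Nat.card {n : ℕ // ∃ χ : Cfsg.IrrCharacter G, Cfsg.charDegree (χ : G → ℂ) = n} = 3) : derivedSeries G 3 = ⊥ := by
  classical
  have h1 : ∃ a b : ℕ, ∀ n : ℕ, (∃ χ : Cfsg.IrrCharacter G, Cfsg.charDegree (χ : G → ℂ) = n) → n = 1 ∨ n = a ∨ n = b := by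
    have hfin : ({n : ℕ | ∃ χ : Cfsg.IrrCharacter G, Cfsg.charDegree (χ : G → ℂ) = n}).ncard = 3 := by
      rw [← Nat.card_coe_set_eq]; exact hcd
    have h1mem : 1 ∈ {n : ℕ | ∃ χ : Cfsg.IrrCharacter G, Cfsg.charDegree (χ : G → ℂ) = n} :=
      ⟨Cfsg.Agent.Lib.MaxDegP.one G, Cfsg.Agent.Lib.BFull.deg_triv⟩
    obtain ⟨x, y, z, hxy, hxz, hyz, hS⟩ := Set.ncard_eq_three.1 hfin
    have hsub : ∀ n : ℕ, (∃ χ : Cfsg.IrrCharacter G, Cfsg.charDegree (χ : G → ℂ) = n) → n = x ∨ n = y ∨ n = z := by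
      intro n hn
      have : n ∈ ({x, y, z} : Set ℕ) := by rw [← hS]; exact hn
      simpa using this
    have h1' : (1 : ℕ) ∈ ({x, y, z} : Set ℕ) := by rw [← hS]; exact h1mem
    have h1'' : 1 = x ∨ 1 = y ∨ 1 = z := by simpa using h1'
    rcases h1'' with rfl | rfl | rfl
    · exact ⟨y, z, hsub⟩
    · refine ⟨x, z, fun n hn => ?_⟩
      rcases hsub n hn with h | h | h
      · exact Or.inr (Or.inl h)
      · exact Or.inl h
      · exact Or.inr (Or.inr h)
    · refine ⟨x, y, fun n hn => ?_⟩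
      rcases hsub n hn with h | h | h
      · exact Or.inr (Or.inl h)
      · exact Or.inr (Or.inr h)
      · exact Or.inl h
  obtain ⟨a, b, hab⟩ := h1
  have h : Cfsg.Agent.Lib.ThreeDeg.Three a b G := by
    intro χ hχ
    have h2 : (Cfsg.charDegree χ : ℂ) = χ 1 := Cfsg.Agent.Lib.BlockDeg.charDegree_cast_irr ⟨χ, hχ⟩
    rcases hab _ ⟨⟨χ, hχ⟩, rfl⟩ with h3 | h3 | h3
    · left; rw [← h2]
      exact_mod_cast h3
    · right; left; rw [← h2]
      exact_mod_cast h3
    · right; right; rw [← h2]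
      exact_mod_cast h3
  exact Cfsg.Agent.Lib.ThreeDeg.main _ G rfl a b h

end Cfsg.Agent.S4460
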