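import Cfsg.Statements.S4514
import Mathlib
import Cfsg.Agent.Lib.CDeg12
import Cfsg.Agent.Lib.CDeg13

set_option autoImplicit false
open Cfsg

namespace Cfsg.Agent.S4514
open Cfsg.Agent.Lib.CDeg Cfsg.Agent.Lib.BlockThird


/-- Let G be a finite group, u an element of G, and fix a maximal ideal M of the algebraic integers containing 2 (defining the 2-blocks). There is a complex number k with χ(1) − χ(u) = k for every non-principal irreducible character χ in the principal 2-block if and only if one of the following holds: u lies in O(G); or G/O(G) has order 2 and u ∉ O(G); or G/O(G) ≅ PSL(2, 2ⁿ) for some n ≥ 2, u ∉ O(G) and u² ∈ O(G). -/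
theorem result {G : Type*} [Group G] [Finite G] (M : Ideal Cfsg.AlgInt) (hM : Cfsg.IsPModular 2 M) (u : G) :
    (∃ k : ℂ, ∀ χ : Cfsg.IrrCharacter G, χ ∈ Cfsg.principalBlock M G → (χ : G → ℂ) ≠ (fun _ => 1) →
        (χ : G → ℂ) 1 - (χ : G → ℂ) u = k) ↔
      (u ∈ Cfsg.oddCore G ∨ (Nat.card (G ⧸ Cfsg.oddCore G) = 2 ∧ u ∉ Cfsg.oddCore G) ∨
        (∃ (F : Type) (_ : Field F) (_ : Fintype F) (n : ℕ), 2 ≤ n ∧ Fintype.card F = 2 ^ n ∧
          Nonempty (G ⧸ Cfsg.oddCore G ≃* Matrix.ProjectiveSpecialLinearGroup (Fin 2) F) ∧ u ∉ Cfsg.oddCore G ∧ u ^ 2 ∈ Cfsg.oddCore G)) := by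
  classical
  have hP := Cfsg.Agent.Lib.BlockRing.isPrime hM
  constructor
  · rintro ⟨k, hk⟩
    have hCD : CD M (G ⧸ Cfsg.oddCore G) (u : G ⧸ Cfsg.oddCore G) k := by
      intro ψ hψ hψ1
      rw [mem_B0] at hψ
      have h1 := hk _ (Cfsg.Agent.Lib.BlockInfl.inflate_mem_principal (Cfsg.oddCore G) hψ) (by
        intro h
        apply hψ1
        apply Subtype.ext
        funext x
        obtain ⟨g, rfl⟩ := QuotientGroup.mk_surjective x
        exact congrFun h g)
      exact h1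
    by_cases hu : (u : G ⧸ Cfsg.oddCore G) = 1
    · left
      exact (QuotientGroup.eq_one_iff u).mp hu
    · right
      have huN : u ∉ Cfsg.oddCore G := fun h => hu ((QuotientGroup.eq_one_iff u).mpr h)
      rcases forward hM oddCore_quot hu hCD with h | ⟨F, hF, hFf, n, hn, hcard, hiso, hsq⟩
      · left; exact ⟨h, huN⟩
      · right
        exact ⟨F, hF, hFf, n, hn, hcard, hiso, huN, (QuotientGroup.eq_one_iff (u ^ 2)).mp hsq⟩
  · have hdef : ∀ χ : Cfsg.IrrCharacter G, χ ∈ Cfsg.principalBlock M G → (χ : G → ℂ) ≠ (fun _ => 1) →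
        ∃ ψ : Cfsg.IrrCharacter (G ⧸ Cfsg.oddCore G), ψ ≠ triv _ ∧
          ∀ g : G, (χ : G → ℂ) g = (ψ : G ⧸ Cfsg.oddCore G → ℂ) (g : G ⧸ Cfsg.oddCore G) := by
      intro χ hχ hχ1
      obtain ⟨ψ, -, h⟩ := Cfsg.Agent.Lib.BlockInfl.exists_deflate hM (Cfsg.oddCore G) odd_card_oddCore hχ
      refine ⟨ψ, ?_, h⟩
      rintro rfl
      apply hχ1
      funext g
      exact h g
    rintro (hu | ⟨hcard, hu⟩ | ⟨F, hF, hFf, n, hn, hcard, ⟨e⟩, hu, hu2⟩)
    · refine ⟨0, fun χ hχ _ => ?_⟩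
      have h1 := (mem_oddCore_iff hM).mp hu χ (mem_B0.mpr hχ)
      rw [h1, sub_self]
    · refine ⟨2, fun χ hχ hχ1 => ?_⟩
      obtain ⟨ψ, hψ, h⟩ := hdef χ hχ hχ1
      have hu1 : (u : G ⧸ Cfsg.oddCore G) ≠ 1 := fun h => hu ((QuotientGroup.eq_one_iff u).mp h)
      obtain ⟨y, -, hy⟩ := (Nat.card_eq_two_iff' (1 : G ⧸ Cfsg.oddCore G)).mp hcard
      have hall : ∀ x : G ⧸ Cfsg.oddCore G, x = 1 ∨ x = (u : G ⧸ Cfsg.oddCore G) := by
        intro x
        by_cases hx : x = 1
        · exact Or.inl hx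
        · right; rw [hy x hx, hy _ hu1]
      have hcomm : ∀ a b : G ⧸ Cfsg.oddCore G, a * b = b * a := by
        intro a b
        rcases hall a with rfl | rfl <;> rcases hall b with rfl | rfl <;> simp
      have hone := lam_one hcomm ψ
      have huu : (u : G ⧸ Cfsg.oddCore G) * (u : G ⧸ Cfsg.oddCore G) = 1 := by
        rcases hall ((u : G ⧸ Cfsg.oddCore G) * (u : G ⧸ Cfsg.oddCore G)) with h1 | h1
        · exact h1
        · exact absurd (mul_eq_left.mp h1) hu1
      have h2 := lam_mul hcomm ψ (u : G ⧸ Cfsg.oddCore G) (u : G ⧸ Cfsg.oddCore G)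
      rw [huu, hone] at h2
      rw [h, h, QuotientGroup.mk_one, hone]
      rcases mul_self_eq_one_iff.mp h2.symm with h3 | h3
      · exfalso
        apply hψ
        apply Subtype.ext
        funext x
        rcases hall x with rfl | rfl
        · exact hone
        · exact h3
      · rw [h3]; norm_num
    · refine ⟨Fintype.card F, fun χ hχ hχ1 => ?_⟩
      obtain ⟨ψ, hψ, h⟩ := hdef χ hχ hχ1
      rw [h, h, QuotientGroup.mk_one]
      exact const_psl hn hcard e (t := (u : G ⧸ Cfsg.oddCore G))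
        (fun h => hu ((QuotientGroup.eq_one_iff u).mp h))
        ((QuotientGroup.eq_one_iff (u ^ 2)).mpr hu2) ψ hψ

end Cfsg.Agent.S4514
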