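import Cfsg.Statements.S4540
import Cfsg.Agent.Lib.SubsecCount
import Cfsg.Agent.Lib.BlockDefect

set_option autoImplicit false
open Cfsg

namespace Cfsg.Agent.S4540

/-- Let B be a 2-block of the finite group G (relative to a maximal ideal M of the algebraic integers containing 2) of defect d with defect group D. Let z be an element of D commuting with every element of D, and let b be a block of the centralizer C of z with defect group D that induces B (a major subsection (z, b)). If b has 2-regular rank at most three, then 3·k(B) ≤ 3·k₀(B) + 2·Σ 2 ^ h(χ), where k(B) is the number of members of B, k₀(B) the number of members of height zero, and the sum runs over the members χ of B of positive height h(χ); this bound is at most 3·2 ^ d, so in particular B contains at most 2 ^ d irreducible characters. -/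
theorem result {G : Type*} [Group G] [Finite G] (M : Ideal Cfsg.AlgInt) (hM : Cfsg.IsPModular 2 M) (B : Set (Cfsg.IrrCharacter G)) (hB : Cfsg.IsPBlock M B) (D : Subgroup G) (hD : Cfsg.IsDefectGroup 2 M B D) (z : G) (hzD : z ∈ D) (hzc : ∀ d ∈ D, d * z = z * d) (b : Set (Cfsg.IrrCharacter ↥(Subgroup.centralizer ({z} : Set G)))) (hb : Cfsg.IsInducedBlock M (Subgroup.centralizer ({z} : Set G)) b B) (hbD : Cfsg.IsDefectGroup 2 M b (D.subgroupOf (Subgroup.centralizer ({z} : Set G)))) (hl : Cfsg.blockRank 2 b ≤ 3) : 3 * Nat.card B ≤ 3 * Nat.card {χ : Cfsg.IrrCharacter G // χ ∈ B ∧ Cfsg.blockHeight 2 B (χ : G → ℂ) = 0} + 2 * (∑ᶠ χ ∈ {χ : Cfsg.IrrCharacter G | χ ∈ B ∧ 1 ≤ Cfsg.blockHeight 2 B (χ : G → ℂ)}, 2 ^ Cfsg.blockHeight 2 B (χ : G → ℂ)) ∧ 3 * Nat.card {χ : Cfsg.IrrCharacter G // χ ∈ B ∧ Cfsg.blockHeight 2 B (χ : G → ℂ) = 0} + 2 * (∑ᶠ χ ∈ {χ : Cfsg.IrrCharacter G | χ ∈ B ∧ 1 ≤ Cfsg.blockHeight 2 B (χ : G → ℂ)}, 2 ^ Cfsg.blockHeight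 2 B (χ : G → ℂ)) ≤ 3 * 2 ^ Cfsg.blockDefect 2 B := by
  classical
  have hp2 : Nat.Prime 2 := Nat.prime_two
  -- the defects agree
  have hDp : IsPGroup 2 D := by
    have := Lib.BlockDefect.defectGroup_isPGroup hD
    exact this
  have hDle : D ≤ Subgroup.centralizer ({z} : Set G) := by
    intro d hd
    rw [Subgroup.mem_centralizer_singleton_iff]
    exact hzc d hd
  have hc1 := Lib.BlockDefect.defectGroup_card hM hB hD
  have hc2 := Lib.BlockDefect.defectGroup_card hM hb.1 hbD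
  have hc3 : Nat.card (D.subgroupOf (Subgroup.centralizer ({z} : Set G))) = Nat.card D :=
    Nat.card_congr (Subgroup.subgroupOfEquivOfLe hDle).toEquiv
  have hd : Cfsg.blockDefect 2 b = Cfsg.blockDefect 2 B := by
    rw [hc3, hc1] at hc2
    exact (Nat.pow_right_injective (le_refl 2) hc2).symm
  obtain ⟨k, hk⟩ : ∃ k, orderOf z = 2 ^ k := by
    obtain ⟨k, hk⟩ := (IsPGroup.iff_orderOf.1 hDp) ⟨z, hzD⟩
    exact ⟨k, by rw [← hk, Subgroup.orderOf_mk]⟩
  haveI : NeZero (2 ^ (k + 1)) := ⟨by positivity⟩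
  set F := Lib.Subsec.fs B with hF
  set f : Cfsg.IrrCharacter G → ℕ := fun χ => if Cfsg.blockHeight 2 B (χ : G → ℂ) = 0 then 3
    else 2 * 2 ^ Cfsg.blockHeight 2 B (χ : G → ℂ) with hf
  have hE : 3 * Nat.card {χ : Cfsg.IrrCharacter G // χ ∈ B ∧ Cfsg.blockHeight 2 B (χ : G → ℂ) = 0} + 2 * (∑ᶠ χ ∈ {χ : Cfsg.IrrCharacter G | χ ∈ B ∧ 1 ≤ Cfsg.blockHeight 2 B (χ : G → ℂ)}, 2 ^ Cfsg.blockHeight 2 B (χ : G → ℂ))
      = ∑ χ ∈ F, f χ := by
    have e1 : Nat.card {χ : Cfsg.IrrCharacter G // χ ∈ B ∧ Cfsg.blockHeight 2 B (χ : G → ℂ) = 0} =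
        (F.filter (fun χ : Cfsg.IrrCharacter G => Cfsg.blockHeight 2 B (χ : G → ℂ) = 0)).card := by
      rw [Nat.card_eq_fintype_card, Fintype.card_subtype]
      congr 1
      ext χ
      simp [hF]
    have e2 : (∑ᶠ χ ∈ {χ : Cfsg.IrrCharacter G | χ ∈ B ∧ 1 ≤ Cfsg.blockHeight 2 B (χ : G → ℂ)}, 2 ^ Cfsg.blockHeight 2 B (χ : G → ℂ))
        = ∑ χ ∈ F.filter (fun χ : Cfsg.IrrCharacter G => ¬ Cfsg.blockHeight 2 B (χ : G → ℂ) = 0), 2 ^ Cfsg.blockHeight 2 B (χ : G → ℂ) := by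
      rw [finsum_mem_eq_finite_toFinset_sum _ (Set.toFinite _)]
      refine Finset.sum_congr ?_ fun _ _ => rfl
      ext χ
      simp only [Set.Finite.mem_toFinset, Set.mem_setOf_eq, Finset.mem_filter, hF]
      rw [Nat.one_le_iff_ne_zero]
    rw [e1, e2, hf, Finset.sum_ite, Finset.sum_const, smul_eq_mul, Finset.mul_sum, mul_comm 3]
  rw [hE]
  have hcard : F.card = Nat.card B := Lib.Subsec.card_fs B
  refine ⟨?_, ?_⟩
  · rw [← hcard, mul_comm, ← smul_eq_mul, ← Finset.sum_const]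
    refine Finset.sum_le_sum fun χ _ => ?_
    rw [hf]
    simp only
    split_ifs with h
    · exact le_refl 3
    · obtain ⟨j, hj⟩ := Nat.exists_eq_succ_of_ne_zero h
      rw [hj, Nat.succ_eq_add_one, pow_succ]
      have : 1 ≤ 2 ^ j := Nat.one_le_two_pow
      omega
  · by_cases hcase : ∃ χ ∈ B, Cfsg.blockHeight 2 B (χ : G → ℂ) = 0 ∧ Lib.Subsec.Av 2 k z b B (χ : G → ℂ) = 1
    · obtain ⟨χ, hχ, h0, hA⟩ := hcase
      have h1 := Lib.Subsec.mul_Av (p := 2) (k := k) (z := z) (b := b) (B := B) hp2 (χ : G → ℂ)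
      rw [hA, mul_one] at h1
      have h2 : ∑ ψ ∈ F, (4 : ℝ) ^ Cfsg.blockHeight 2 B (ψ : G → ℂ) ≤ (2 : ℝ) ^ Cfsg.blockDefect 2 b := by
        have h3 : ((2 : ℕ) : ℝ) ^ Cfsg.blockDefect 2 b = (2 : ℝ) ^ Cfsg.blockDefect 2 b := by norm_num
        rw [← h3, h1]
        refine Finset.sum_le_sum fun ψ hψ => ?_
        have h4 := Lib.Subsec.le_avn_al hM hk hb hd hχ (Lib.Subsec.mem_fs.1 hψ) h0
        rw [pow_mul] at h4
        norm_num at h4
        exact h4
      have h5 : ∑ ψ ∈ F, 4 ^ Cfsg.blockHeight 2 B (ψ : G → ℂ) ≤ 2 ^ Cfsg.blockDefect 2 b := by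
        exact_mod_cast h2
      rw [← hd]
      refine le_trans ?_ (Nat.mul_le_mul_left 3 h5)
      rw [Finset.mul_sum]
      refine Finset.sum_le_sum fun ψ _ => ?_
      rw [hf]
      simp only
      have h6 : 2 ^ Cfsg.blockHeight 2 B (ψ : G → ℂ) ≤ 4 ^ Cfsg.blockHeight 2 B (ψ : G → ℂ) :=
        Nat.pow_le_pow_left (by norm_num) _
      split_ifs with h
      · rw [h]; norm_num
      · omega
    · push Not at hcase
      have h1 := Lib.Subsec.sum_Av (k := k) hM hk hb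
      have h2 : ∑ χ ∈ F, (f χ : ℝ) ≤ ∑ χ ∈ F, Lib.Subsec.Av 2 k z b B (χ : G → ℂ) := by
        refine Finset.sum_le_sum fun χ hχ => ?_
        have hχB := Lib.Subsec.mem_fs.1 hχ
        rw [hf]
        simp only
        split_ifs with h
        · obtain ⟨m, hm, hodd⟩ := Lib.Subsec.Av_odd hM hk hb hd hχB h
          have h3 := hcase χ hχB h
          rw [hm] at h3 ⊢
          have h4 : m ≠ 1 := fun h => h3 (by rw [h]; norm_num)
          have h5 : 3 ≤ m := by omega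
          exact_mod_cast h5
        · have h3 := Lib.Subsec.Av_ge hM hk hb hd hχB h
          push_cast
          rw [pow_succ, mul_comm] at h3
          exact h3
      rw [h1] at h2
      have h3 : ∑ χ ∈ F, f χ ≤ 2 ^ Cfsg.blockDefect 2 b * Cfsg.blockRank 2 b := by
        exact_mod_cast h2
      rw [← hd]
      calc ∑ χ ∈ F, f χ ≤ 2 ^ Cfsg.blockDefect 2 b * Cfsg.blockRank 2 b := h3
        _ ≤ 2 ^ Cfsg.blockDefect 2 b * 3 := Nat.mul_le_mul_left _ hl
        _ = 3 * 2 ^ Cfsg.blockDefect 2 b := mul_comm _ _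

end Cfsg.Agent.S4540
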