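import Cfsg.Statements.S4541
import Cfsg.Agent.Lib.SubsecHZ

set_option autoImplicit false
open Cfsg

namespace Cfsg.Agent.S4541

/-- Let B be a 2-block of the finite group G (relative to a maximal ideal M of the algebraic integers containing 2), u a 2-element, and b a block of the centralizer of u inducing B (a subsection (u, b)), of defect q and 2-regular rank l; write s for the integer square root of l and k₀(B) for the number of members of B of height zero. If s is odd then k₀(B) ≤ s·2 ^ q, and otherwise (s + 1)·k₀(B) ≤ l·2 ^ q; in particular k₀(B) ≤ 2 ^ q when l ≤ 3. -/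
theorem result {G : Type*} [Group G] [Finite G] (M : Ideal Cfsg.AlgInt) (hM : Cfsg.IsPModular 2 M) (B : Set (Cfsg.IrrCharacter G)) (hB : Cfsg.IsPBlock M B) (u : G) (hu : ∃ j : ℕ, orderOf u = 2 ^ j) (b : Set (Cfsg.IrrCharacter ↥(Subgroup.centralizer ({u} : Set G)))) (hb : Cfsg.IsInducedBlock M (Subgroup.centralizer ({u} : Set G)) b B) : (Odd (Nat.sqrt (Cfsg.blockRank 2 b)) → Nat.card {χ : Cfsg.IrrCharacter G // χ ∈ B ∧ Cfsg.blockHeight 2 B (χ : G → ℂ) = 0} ≤ Nat.sqrt (Cfsg.blockRank 2 b) * 2 ^ Cfsg.blockDefect 2 b) ∧ (¬ Odd (Nat.sqrt (Cfsg.blockRank 2 b)) → (Nat.sqrt (Cfsg.blockRank 2 b) + 1) * Nat.card {χ : Cfsg.IrrCharacter G // χ ∈ B ∧ Cfsg.blockHeight 2 B (χ : G → ℂ) = 0} ≤ Cfsg.blockRank 2 b * 2 ^ Cfsg.blockDefect 2 b) ∧ (Cfsg.blockRank 2 b ≤ 3 → Nat.card {χ : Cfsg.IrrCharacter G // χ ∈ B ∧ Cfsg.blockHeight 2 B (χ : G → ℂ) = 0} ≤ 2 ^ Cfsg.blockDefect 2 b) := by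
  obtain ⟨k, hz⟩ := hu
  haveI : NeZero (2 ^ (k + 1)) := ⟨by positivity⟩
  have hind : Cfsg.IsInducedBlock M (Lib.Subsec.Cz u) b B := hb
  rw [Lib.Subsec.card_hz0]
  refine ⟨fun h => Lib.Subsec.hz_odd hM hz hind h, fun h => Lib.Subsec.hz_even hM hz hind h, fun h => ?_⟩
  by_cases h1 : Odd (Nat.sqrt (Cfsg.blockRank 2 b))
  · have h2 := Lib.Subsec.hz_odd hM hz hind h1
    have h3 : Nat.sqrt (Cfsg.blockRank 2 b) ≤ 1 := by
      have := Nat.sqrt_le (Cfsg.blockRank 2 b)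
      by_contra hcon
      push Not at hcon
      nlinarith
    refine h2.trans ?_
    calc _ ≤ 1 * 2 ^ Cfsg.blockDefect 2 b := Nat.mul_le_mul_right _ h3
      _ = _ := one_mul _
  · have h2 := Lib.Subsec.hz_even hM hz hind h1
    have h3 : Nat.sqrt (Cfsg.blockRank 2 b) = 0 := by
      have := Nat.sqrt_le (Cfsg.blockRank 2 b)
      have h4 : Nat.sqrt (Cfsg.blockRank 2 b) ≤ 1 := by
        by_contra hcon
        push Not at hcon
        nlinarith
      rw [Nat.not_odd_iff_even] at h1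
      obtain ⟨r, hr⟩ := h1
      omega
    have h5 : Cfsg.blockRank 2 b = 0 := Nat.sqrt_eq_zero.1 h3
    rw [h5] at h2
    simp at h2
    simp [h2]

end Cfsg.Agent.S4541
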