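import Cfsg.Statements.S4550
import Cfsg.Agent.Lib.H76Blk
import Mathlib.GroupTheory.Perm.Cycle.Type

set_option autoImplicit false
open Cfsg

namespace Cfsg.Agent.S4550

open Cfsg.Agent.Lib Cfsg.Agent.Lib.CharBasic Cfsg.Agent.Lib.BlockRing Cfsg.Agent.Lib.BlockIdem
open Cfsg.Agent.Lib.BlockOsima Cfsg.Agent.Lib.BlockDeg Cfsg.Agent.Lib.H76Blk

theorem coprime_of {G : Type*} [Group G] [Finite G] {k : ℕ}
    (hk₁ : ∀ g : G, (∃ j : ℕ, orderOf g = 2 ^ j) → g ^ k = g ^ 3) (hk₂ : ∀ g : G, Odd (orderOf g) → g ^ k = g) :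
    k.Coprime (Nat.card G) := by
  apply Nat.Coprime.symm
  apply Nat.coprime_of_dvd
  intro q hq hqG hqk
  have : Fact q.Prime := ⟨hq⟩
  obtain ⟨g, hg⟩ := exists_prime_orderOf_dvd_card' (G := G) q hqG
  have h1 : g ^ k = 1 := by
    rw [← orderOf_dvd_iff_pow_eq_one, hg]
    exact hqk
  rcases hq.eq_two_or_odd' with h2 | h2
  · have h3 := hk₁ g ⟨1, by rw [hg, h2, pow_one]⟩
    rw [h1] at h3
    have h4 := orderOf_dvd_of_pow_eq_one h3.symm
    rw [hg, h2] at h4
    omega
  · have h3 := hk₂ g (by rw [hg]; exact h2)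
    rw [h1] at h3
    rw [← h3, orderOf_one] at hg
    exact hq.one_lt.ne hg

theorem pow_iter {G : Type*} [Group G] [Finite G] {k : ℕ}
    (hk₁ : ∀ g : G, (∃ j : ℕ, orderOf g = 2 ^ j) → g ^ k = g ^ 3) (hk₂ : ∀ g : G, Odd (orderOf g) → g ^ k = g) (g : G) :
    g ^ (k ^ 2 ^ Nat.card G) = g := by
  have h1 : ∀ n : ℕ, ∀ x : G, (∃ j : ℕ, orderOf x = 2 ^ j) → x ^ (k ^ n) = x ^ (3 ^ n) := by
    intro n
    induction n with
    | zero => intro x _; simp
    | succ n ih =>
      intro x hx
      rw [pow_succ, pow_mul, ih x hx, pow_succ, pow_mul]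
      apply hk₁
      obtain ⟨j, hj⟩ := hx
      refine ⟨j, ?_⟩
      rw [Nat.Coprime.orderOf_pow, hj]
      rw [hj]
      exact Nat.Coprime.pow _ _ (by norm_num)
  have h2 : ∀ n : ℕ, ∀ y : G, Odd (orderOf y) → y ^ (k ^ n) = y := by
    intro n
    induction n with
    | zero => intro y _; simp
    | succ n ih =>
      intro y hy
      rw [pow_succ, pow_mul, ih y hy, hk₂ y hy]
  obtain ⟨x, y, hxy, hc, hj0, hy, -, -⟩ := exists_p_decomp (p := 2) Nat.prime_two (orderOf_pos g).ne'
  obtain ⟨j, hj⟩ : ∃ j, orderOf x = 2 ^ j := ⟨_, hj0⟩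
  rw [← hxy, hc.mul_pow, h2 _ y (Nat.odd_iff.2 (by omega)), h1 _ x ⟨j, hj⟩]
  congr 1
  have h3 : 3 ^ (2 ^ Nat.card G) ≡ 1 [MOD 2 ^ j] := by
    rcases Nat.eq_zero_or_pos j with h0 | h0
    · rw [h0, pow_zero]; exact Nat.modEq_one
    · have h4 : Nat.Coprime 3 (2 ^ j) := Nat.Coprime.pow_right _ (by norm_num)
      have h5 := Nat.ModEq.pow_totient h4
      rw [Nat.totient_prime_pow Nat.prime_two h0] at h5
      have h6 : j ≤ Nat.card G := by
        have h7 := Nat.le_of_dvd Nat.card_pos (orderOf_dvd_natCard x)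
        rw [hj] at h7
        exact (Nat.lt_two_pow_self).le.trans h7
      have h8 : 2 ^ Nat.card G = (2 ^ (j - 1) * (2 - 1)) * 2 ^ (Nat.card G - (j - 1)) := by
        rw [show 2 - 1 = 1 from rfl, mul_one, ← pow_add]
        congr 1
        omega
      rw [h8, pow_mul]
      have := h5.pow (2 ^ (Nat.card G - (j - 1)))
      rwa [one_pow] at this
  have h4 : x ^ 3 ^ 2 ^ Nat.card G = x ^ 1 := by
    rw [pow_eq_pow_iff_modEq, hj]
    exact h3
  rw [h4, pow_one]

/-- Let G be a finite group of even order and M a maximal ideal of the algebraic integers containing 2. Let k be a natural number with g ^ k = g ^ 3 for every 2-element g and g ^ k = g for every element g of odd order (such k exist); an irreducible character χ is unchanged by g ↦ g ^ k exactly when it is fixed by the field automorphism that cubes the 2-power roots of unity and fixes the roots of unity of odd order. Then the number of members χ of the principal 2-block of odd degree with χ (g ^ k) = χ g for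 all g is even. -/
theorem result {G : Type*} [Group G] [Finite G] (M : Ideal Cfsg.AlgInt) (hM : Cfsg.IsPModular 2 M) (hev : Even (Nat.card G)) (k : ℕ) (hk₁ : ∀ g : G, (∃ j : ℕ, orderOf g = 2 ^ j) → g ^ k = g ^ 3) (hk₂ : ∀ g : G, Odd (orderOf g) → g ^ k = g) : Even (Nat.card {χ : Cfsg.IrrCharacter G // χ ∈ Cfsg.principalBlock M G ∧ Odd (Cfsg.charDegree (χ : G → ℂ)) ∧ ∀ g : G, (χ : G → ℂ) (g ^ k) = (χ : G → ℂ) g}) := by
  classical
  have hk := coprime_of hk₁ hk₂
  have := Fintype.ofFinite G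
  let Ω : Type _ := {χ : IrrCharacter G // χ ∈ principalBlock M G ∧ Odd (charDegree (χ : G → ℂ))}
  have : Fintype Ω := Fintype.ofFinite Ω
  let f : Function.End Ω := fun χ => ⟨powIrr hk χ.1, powIrr_mem_principal hk χ.2.1, by
    rw [charDegree_powIrr]; exact χ.2.2⟩
  have hfit : ∀ n : ℕ, ∀ χ : Ω, ((f ^ n) χ).1 = (powIrr hk)^[n] χ.1 := by
    intro n
    induction n with
    | zero => intro χ; rfl
    | succ n ih =>
      intro χ
      rw [Function.iterate_succ_apply', pow_succ', ← ih]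
      rfl
  have hf : f ^ 2 ^ Nat.card G = 1 := by
    funext χ
    apply Subtype.ext
    rw [hfit]
    apply Subtype.ext
    funext g
    rw [powIrr_iterate, pow_iter hk₁ hk₂]
    rfl
  have : Fact (Nat.Prime 2) := ⟨Nat.prime_two⟩
  have h1 := Equiv.Perm.card_fixedPoints_modEq (p := 2) hf
  -- the number of elements of Ω is even
  have h2 : Fintype.card Ω ≡ 0 [MOD 2] := by
    have h3 := dvd_sum_sq hM (isPBlock_principal (G := G) (M := M)) hev.two_dvd
    have h4 : (∑ χ : IrrCharacter G with χ ∈ principalBlock M G, (charDegree (χ : G → ℂ)) ^ 2) ≡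
        ∑ χ : IrrCharacter G with χ ∈ principalBlock M G, (if Odd (charDegree (χ : G → ℂ)) then 1 else 0) [MOD 2] := by
      apply Nat.ModEq.sum
      intro χ _
      split_ifs with h
      · exact Nat.odd_iff.1 (h.pow)
      · rw [Nat.not_odd_iff_even] at h
        exact Nat.even_iff.1 (h.pow_of_ne_zero (by norm_num))
    rw [Finset.sum_boole, Finset.filter_filter] at h4
    have h5 : Fintype.card Ω = (Finset.univ.filter (fun χ : IrrCharacter G =>
        χ ∈ principalBlock M G ∧ Odd (charDegree (χ : G → ℂ)))).card := Fintype.card_subtype _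
    rw [h5]
    have h6 := (h4.symm.trans ((Nat.modEq_zero_iff_dvd).2 h3))
    exact_mod_cast h6
  have h3 : Fintype.card (Function.fixedPoints f) ≡ 0 [MOD 2] := h1.symm.trans h2
  rw [even_iff_two_dvd, ← Nat.modEq_zero_iff_dvd]
  convert h3 using 1
  rw [← Nat.card_eq_fintype_card]
  apply Nat.card_congr
  exact
    { toFun := fun χ => ⟨⟨χ.1, χ.2.1, χ.2.2.1⟩, Subtype.ext (Subtype.ext (funext χ.2.2.2))⟩
      invFun := fun χ => ⟨χ.1.1, χ.1.2.1, χ.1.2.2, fun g => by
        have h := congrArg (fun y : Ω => ((y.1 : IrrCharacter G) : G → ℂ) g) χ.2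
        exact h⟩
      left_inv := fun χ => rfl
      right_inv := fun χ => rfl }

end Cfsg.Agent.S4550
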