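import Cfsg.Statements.S4551
import Cfsg.Agent.Lib.H76Dade3

set_option autoImplicit false
open Cfsg

namespace Cfsg.Agent.S4551

open Cfsg.Agent.Lib Cfsg.Agent.Lib.BlockRing Cfsg.Agent.Lib.BlockCover Cfsg.Agent.Lib.H76Blk3 Cfsg.Agent.Lib.H76Dade

/-- Let N be a normal subgroup of the finite group G of index prime to p, P a Sylow p-subgroup of G with G = N·C_G(P), and M a maximal ideal of the algebraic integers containing p. Then restriction to N is a bijection from the principal p-block of G onto the principal p-block of N: every member of the principal block of G restricts to a member of the principal block of N, and every member of the principal block of N is the restriction of exactly one member of the principal block of G. -/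
theorem result {G : Type*} [Group G] [Finite G] (p : ℕ) [Fact p.Prime] (M : Ideal Cfsg.AlgInt) (hM : Cfsg.IsPModular p M) (N : Subgroup G) [N.Normal] (hidx : ¬ p ∣ N.index) (P : Sylow p G) (hsup : N ⊔ Subgroup.centralizer ((P : Subgroup G) : Set G) = ⊤) : (∀ χ ∈ Cfsg.principalBlock M G, ∃ θ ∈ Cfsg.principalBlock M ↥N, ∀ n : N, (χ : G → ℂ) n = (θ : N → ℂ) n) ∧ ∀ θ ∈ Cfsg.principalBlock M ↥N, ∃! χ : Cfsg.IrrCharacter G, χ ∈ Cfsg.principalBlock M G ∧ ∀ n : N, (χ : G → ℂ) n = (θ : N → ℂ) n := by
  have hpp : p.Prime := Fact.out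
  have := isPrime hM
  have := Fintype.ofFinite N
  have hPi : ¬ p ∣ (P : Subgroup G).index := P.not_dvd_index
  have hPN : (P : Subgroup G) ≤ N := by
    intro x hx
    rw [← QuotientGroup.eq_one_iff]
    obtain ⟨k, hk⟩ := IsPGroup.iff_orderOf.1 P.isPGroup' ⟨x, hx⟩
    rw [Subgroup.orderOf_mk] at hk
    have h1 : orderOf (x : G ⧸ N) ∣ p ^ k := by
      rw [← hk]; exact orderOf_map_dvd (QuotientGroup.mk' N) x
    have h2 : orderOf (x : G ⧸ N) ∣ N.index := orderOf_dvd_natCard _
    have h3 : Nat.Coprime (p ^ k) N.index := Nat.Coprime.pow_left k ((Nat.Prime.coprime_iff_not_dvd hpp).2 hidx)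
    exact orderOf_eq_one_iff.1 (Nat.eq_one_of_dvd_coprimes h3 h1 h2)
  refine ⟨?_, ?_⟩
  · intro χ hχ
    obtain ⟨θ, hθ⟩ := exists_constituent_res N χ
    exact ⟨θ, mem_principal_of_constituent hM hχ hθ, restrict_principal hM hPN hPi hsup hχ hθ⟩
  · intro θ hθ
    exact existsUnique_ext hM hPN hPi hsup hθ

end Cfsg.Agent.S4551
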