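import Cfsg.Statements.S4552
import Cfsg.Agent.Lib.AbAct2
import Cfsg.Agent.Lib.H76Nil
-- import your own Cfsg.Agent.* helpers here

set_option autoImplicit false
open Cfsg

namespace Cfsg.Agent.S4552

open Cfsg Cfsg.Agent.Lib Cfsg.Agent.Lib.BlockAlg Cfsg.Agent.Lib.AbSec Cfsg.Agent.Lib.AbCount

theorem card_omega {A : Type*} [Group A] [Finite A] (m : ℕ) (hm : 1 ≤ m)
    (φ : A ≃* Multiplicative (ZMod (2 ^ m) × ZMod (2 ^ m))) : Nat.card {x : A // x ^ 2 = 1} ≤ 4 := by
  classical
  haveI : NeZero (2 ^ m) := ⟨by positivity⟩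
  let C := Multiplicative (ZMod (2 ^ m))
  let S := {x : C // x ^ 2 = 1}
  have hS : Nat.card S ≤ 2 := by
    have := IsCyclic.card_pow_eq_one_le (α := C) (n := 2) (by norm_num)
    rw [Nat.card_eq_fintype_card, Fintype.card_subtype]
    exact this
  let f : {x : A // x ^ 2 = 1} → S × S := fun x =>
    (⟨Multiplicative.ofAdd (Multiplicative.toAdd (φ x)).1, by
      have h1 : φ x ^ 2 = 1 := by rw [← map_pow, x.2, map_one]
      have h2 := congrArg (fun y => (Multiplicative.toAdd y).1) h1
      exact h2⟩,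
     ⟨Multiplicative.ofAdd (Multiplicative.toAdd (φ x)).2, by
      have h1 : φ x ^ 2 = 1 := by rw [← map_pow, x.2, map_one]
      have h2 := congrArg (fun y => (Multiplicative.toAdd y).2) h1
      exact h2⟩)
  have hf : Function.Injective f := by
    intro x y hxy
    apply Subtype.ext
    apply φ.injective
    have h1 := congrArg (fun z => (z.1 : C)) hxy
    have h2 := congrArg (fun z => (z.2 : C)) hxy
    have h3 : Multiplicative.toAdd (φ x) = Multiplicative.toAdd (φ y) := Prod.ext h1 h2
    exact h3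
  have := Nat.card_le_card_of_injective f hf
  rw [Nat.card_prod] at this
  nlinarith


/-- Let B be a 2-block of the finite group G (relative to a maximal ideal M of the algebraic integers containing 2) whose defect group D is the direct product of two cyclic groups of the same order 2 ^ m, m ≥ 2. Then either B has 2-regular rank one and exactly 4 ^ m irreducible characters, or B has 2-regular rank three and exactly (4 ^ m + 8) / 3 irreducible characters. -/
theorem result {G : Type*} [Group G] [Finite G] (M : Ideal Cfsg.AlgInt) (hM : Cfsg.IsPModular 2 M) (B : Set (Cfsg.IrrCharacter G)) (hB : Cfsg.IsPBlock M B) (D : Subgroup G) (hD : Cfsg.IsDefectGroup 2 M B D) (m : ℕ) (hm : 2 ≤ m) (hiso : Nonempty (D ≃* Multiplicative (ZMod (2 ^ m) × ZMod (2 ^ m)))) : (Cfsg.blockRank 2 B = 1 ∧ Nat.card B = 4 ^ m) ∨ (Cfsg.blockRank 2 B = 3 ∧ 3 * Nat.card B = 4 ^ m + 8) := by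
  have hMm : M.IsMaximal := hM.2.1
  have hch := charP_Kf hM
  haveI : Fact (Nat.Prime 2) := ⟨Nat.prime_two⟩
  obtain ⟨φ⟩ := hiso
  have hab : ∀ x ∈ D, ∀ y ∈ D, x * y = y * x := by
    intro x hx y hy
    have : (⟨x, hx⟩ : D) * ⟨y, hy⟩ = ⟨y, hy⟩ * ⟨x, hx⟩ := by
      apply φ.injective
      rw [map_mul, map_mul, mul_comm]
    exact congrArg Subtype.val this
  obtain ⟨c, h⟩ := H76Nil.exists_abMax hB hD hab
  have hcard : Nat.card D = 4 ^ m := by
    rw [Nat.card_congr φ.toEquiv]
    have : Nat.card (Multiplicative (ZMod (2 ^ m) × ZMod (2 ^ m))) = Nat.card (ZMod (2 ^ m) × ZMod (2 ^ m)) := rfl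
    rw [this, Nat.card_prod, Nat.card_zmod, ← mul_pow]; norm_num
  have h16 : 16 ≤ 4 ^ m := by
    calc 16 = 4 ^ 2 := by norm_num
      _ ≤ 4 ^ m := Nat.pow_le_pow_right (by norm_num) hm
  have hne : D ≠ ⊥ := by
    intro h'
    rw [h', Subgroup.card_bot] at hcard
    omega
  have hom := card_omega m (by omega) φ
  have hfree := free_of_omega_le h hne hom
  obtain ⟨m', hm1, hem, hkl, hle, heq⟩ := free_main hM hfree
  rw [hcard] at hem
  rcases ei_of_omega_le hfree hom with he | he
  · rw [he] at hem hle heq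
    have h3 := heq (by norm_num) (by omega)
    left
    constructor
    · omega
    · omega
  · rw [he] at hem hle heq
    have h3 := heq (by norm_num) (by omega)
    right
    constructor
    · omega
    · omega

end Cfsg.Agent.S4552
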