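import Cfsg.Statements.S4553
import Cfsg.Agent.Lib.H76Blk3

set_option autoImplicit false
open Cfsg

namespace Cfsg.Agent.S4553

open Cfsg.Agent.Lib Cfsg.Agent.Lib.CharBasic Cfsg.Agent.Lib.BlockRing Cfsg.Agent.Lib.BlockIdem
open Cfsg.Agent.Lib.BlockOsima Cfsg.Agent.Lib.BlockDeg Cfsg.Agent.Lib.H76Blk Cfsg.Agent.Lib.H76Blk3
open Cfsg.Agent.Lib.Clifford

universe u

variable {G : Type u} [Group G]

theorem coprime_of [Finite G] {p : ℕ} [hp : Fact p.Prime] {k : ℕ}
    (hk₁ : ∀ g : G, (∃ j : ℕ, orderOf g = p ^ j) → g ^ k = g ^ (1 + p))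
    (hk₂ : ∀ g : G, Nat.Coprime (orderOf g) p → g ^ k = g) : k.Coprime (Nat.card G) := by
  apply Nat.Coprime.symm
  apply Nat.coprime_of_dvd
  intro q hq hqG hqk
  have : Fact q.Prime := ⟨hq⟩
  obtain ⟨g, hg⟩ := exists_prime_orderOf_dvd_card' (G := G) q hqG
  have h1 : g ^ k = 1 := by
    rw [← orderOf_dvd_iff_pow_eq_one, hg]
    exact hqk
  have h2 : g ^ k = g := by
    by_cases hqp : q = p
    · rw [hk₁ g ⟨1, by rw [hg, hqp, pow_one]⟩, pow_add, pow_one, ← hqp, ← hg, pow_orderOf_eq_one, mul_one]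
    · apply hk₂
      rw [hg]
      exact (Nat.coprime_primes hq hp.out).2 hqp
  rw [h1] at h2
  rw [← h2, orderOf_one] at hg
  exact hq.one_lt.ne hg

theorem modEq_of [Finite G] {p : ℕ} [hp : Fact p.Prime] {k : ℕ}
    (hk₁ : ∀ g : G, (∃ j : ℕ, orderOf g = p ^ j) → g ^ k = g ^ (1 + p)) (hpG : p ∣ Nat.card G) : k ≡ 1 [MOD p] := by
  obtain ⟨g, hg⟩ := exists_prime_orderOf_dvd_card' (G := G) p hpG
  have h1 := hk₁ g ⟨1, by rw [hg, pow_one]⟩
  rw [pow_eq_pow_iff_modEq, hg] at h1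
  exact h1.trans (by
    have : (1 + p) % p = 1 % p := Nat.add_mod_right 1 p
    exact this)

theorem detOrder_coprime [Finite G] {p : ℕ} [hp : Fact p.Prime] (hres : pResidual p G = ⊤) {θ : G → ℂ}
    (hθ : IsCharacter G θ) : ¬ p ∣ detOrder θ := by
  intro h
  obtain ⟨δ, hδ⟩ := DetChar.exists_detHom hθ
  have h1 : detOrder θ = orderOf δ := by
    unfold detOrder
    rw [funext hδ, LinExt.orderOf_coe]
  rw [h1] at h
  obtain ⟨m, hm⟩ := h
  set f : G →* ℂˣ := δ ^ m with hf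
  have hfin : 0 < orderOf δ := by
    rw [orderOf_pos_iff, isOfFinOrder_iff_pow_eq_one]
    refine ⟨Nat.card G, Nat.card_pos, ?_⟩
    ext g
    rw [MonoidHom.pow_apply, ← map_pow, pow_card_eq_one', map_one]
    rfl
  have hfp : f ^ p = 1 := by
    ext g
    have h3 : (δ ^ orderOf δ) g = 1 := by rw [pow_orderOf_eq_one]; rfl
    have h4 : (f ^ p) g = (δ g) ^ (p * m) := by
      rw [mul_comm, pow_mul]
      rfl
    rw [h4, ← hm]
    have h5 : (δ g) ^ orderOf δ = (δ ^ orderOf δ) g := rfl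
    rw [h5, h3]
    rfl
  have hQ : IsPGroup p f.range := by
    rintro ⟨_, g, rfl⟩
    refine ⟨1, Subtype.ext ?_⟩
    rw [pow_one]
    exact DFunLike.congr_fun hfp g
  have h2 := PNilp.pResidual_le_ker hQ f.rangeRestrict
  rw [hres, MonoidHom.ker_rangeRestrict] at h2
  have h3 : f = 1 := by
    ext g
    have := h2 (Subgroup.mem_top g)
    rw [MonoidHom.mem_ker] at this
    rw [this]
    rfl
  have h4 : orderOf δ ∣ m := orderOf_dvd_of_pow_eq_one h3
  have hm0 : 0 < m := by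
    rcases Nat.eq_zero_or_pos m with h0 | h0
    · rw [h0, mul_zero] at hm; omega
    · exact h0
  have h5 := Nat.le_of_dvd hm0 h4
  rw [hm] at h5
  have := hp.out.two_le
  nlinarith

/-- Let G be a finite group, p a prime, P a Sylow p-subgroup, N the p-residual of G (the subgroup generated by the elements of order prime to p, the smallest normal subgroup with G/N a p-group), and M a maximal ideal of the algebraic integers containing p; suppose G/N is cyclic and nontrivial. Let k be a natural number with g ^ k = g ^ (1 + p) for every p-element g and g ^ k = g for every element g of order prime to p (so that χ (g ^ k) is the image of χ g under the field automorphism that raises p-power roots of unity to the power 1 + p and fixes the roots of unity of order prime to p). Then the number of members χ of the principal block of G of degree prime to p with χ (g ^ k) = χ g for all g equals p times the number of members θ of the principal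 block of N of degree prime to p that are invariant under conjugation by P and satisfy θ (n ^ k) = θ n for all n. -/
theorem result {G : Type*} [Group G] [Finite G] (p : ℕ) [Fact p.Prime] (M : Ideal Cfsg.AlgInt) (hM : Cfsg.IsPModular p M) (P : Sylow p G) (N : Subgroup G) [hN : N.Normal] (hNres : N = Cfsg.pResidual p G) (hcyc : IsCyclic (G ⧸ N)) (hnt : N ≠ ⊤) (k : ℕ) (hk₁ : ∀ g : G, (∃ j : ℕ, orderOf g = p ^ j) → g ^ k = g ^ (1 + p)) (hk₂ : ∀ g : G, Nat.Coprime (orderOf g) p → g ^ k = g) : Nat.card {χ : Cfsg.IrrCharacter G // χ ∈ Cfsg.principalBlock M G ∧ ¬ p ∣ Cfsg.charDegree (χ : G → ℂ) ∧ ∀ g : G, (χ : G → ℂ) (g ^ k) = (χ : G → ℂ) g} = p * Nat.card {θ : Cfsg.IrrCharacter ↥N // θ ∈ Cfsg.principalBlock M ↥N ∧ ¬ p ∣ Cfsg.charDegree (θ : ↥N → ℂ) ∧ (∀ x ∈ (P : Subgroup G), ∀ n : ↥N, (θ : ↥N → ℂ) ⟨x * n * x⁻¹, hN.conj_mem n n.2 x⟩ = (θ : ↥N → ℂ) n) ∧ ∀ n : ↥N, (θ : ↥N → ℂ) (n ^ k) = (θ : ↥N → ℂ) n} := by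
  classical
  have hpp : p.Prime := hM.1
  have := isPrime hM
  have := Fintype.ofFinite G
  have := Fintype.ofFinite N
  have hk := coprime_of hk₁ hk₂
  -- the index
  obtain ⟨a, ha⟩ : ∃ a, N.index = p ^ a := by
    rw [hNres]; exact PNilp.pResidual_index p
  have ha0 : a ≠ 0 := by
    intro h0
    rw [h0, pow_zero, Subgroup.index_eq_one] at ha
    exact hnt ha
  have hpidx : p ∣ N.index := by rw [ha]; exact dvd_pow_self p ha0
  have hpG : p ∣ Nat.card G := hpidx.trans (Subgroup.index_dvd_card N)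
  have hk1 := modEq_of hk₁ hpG
  have hreg : ∀ g : G, ¬ p ∣ orderOf g → g ∈ N := by
    intro g hg
    rw [hNres]
    exact PNilp.mem_pResidual_of_coprime (((Nat.Prime.coprime_iff_not_dvd hpp).2 hg).symm)
  have hPN : (P : Subgroup G) ⊔ N = ⊤ := by
    rw [hNres]; exact PNilp.sylow_sup_pResidual P
  have hNN : pResidual p N = ⊤ := by
    subst hNres
    exact PNilp.pResidual_pResidual p
  have hab : ∀ x y : G ⧸ N, x * y = y * x := by
    obtain ⟨q, hq⟩ := hcyc.exists_generator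
    intro x y
    obtain ⟨i, rfl⟩ := Subgroup.mem_zpowers_iff.1 (hq x)
    obtain ⟨j, rfl⟩ := Subgroup.mem_zpowers_iff.1 (hq y)
    exact ((Commute.refl q).zpow_zpow i j).eq
  -- canonical extensions
  have hcan : ∀ θ : IrrCharacter N, ¬ p ∣ charDegree (θ : N → ℂ) →
      (∀ x ∈ (P : Subgroup G), cj N x (θ : N → ℂ) = (θ : N → ℂ)) →
      ∃ χ : G → ℂ, IsIrrCharacter G χ ∧ (∀ n : N, χ n = (θ : N → ℂ) n) ∧
        ((∀ n : N, (θ : N → ℂ) (n ^ k) = (θ : N → ℂ) n) → ∀ g, χ (g ^ k) = χ g) := by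
    intro θ hdeg hinvP
    have hinv : ∀ g : G, cj N g (θ : N → ℂ) = (θ : N → ℂ) := by
      intro g
      have hg : g ∈ (P : Subgroup G) ⊔ N := by rw [hPN]; trivial
      obtain ⟨x, hx, n, hn, rfl⟩ := Subgroup.mem_sup_of_normal_right.1 hg
      rw [← cj_cj, hinvP x hx, cj_of_mem θ.2.isClassFunction hn]
    have hd : (θ : N → ℂ) 1 = (charDegree (θ : N → ℂ) : ℂ) := (charDegree_cast_irr θ).symm
    have hdet := detOrder_coprime hNN θ.2.isCharacter
    have hcop : Nat.Coprime N.index (detOrder (θ : N → ℂ) * charDegree (θ : N → ℂ)) := by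
      rw [ha]
      exact Nat.Coprime.pow_left a (Nat.Coprime.mul_right ((Nat.Prime.coprime_iff_not_dvd hpp).2 hdet)
        ((Nat.Prime.coprime_iff_not_dvd hpp).2 hdeg))
    obtain ⟨χ, ⟨h1, h2, h3⟩, huniq⟩ := CanonExt.canonical_extension θ.2 hinv hd hcop
    refine ⟨χ, h1, h2, ?_⟩
    intro hfix g
    have h4 := huniq (fun g => χ (g ^ k)) (CharGalois.isIrrCharacter_pow h1 hk) (by
      intro n
      have := h2 (n ^ k)
      rw [hfix n] at this
      rw [← this]
      rfl) (by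
      have h5 := detOrder_pow_dvd h1.isCharacter hk
      rw [h3] at h5
      apply Nat.Coprime.coprime_dvd_right h5
      rw [ha]
      exact Nat.Coprime.pow_left a ((Nat.Prime.coprime_iff_not_dvd hpp).2 hdet))
    exact congrFun h4 g
  let C : Type _ := {θ : Cfsg.IrrCharacter ↥N // θ ∈ Cfsg.principalBlock M ↥N ∧ ¬ p ∣ Cfsg.charDegree (θ : ↥N → ℂ) ∧ (∀ x ∈ (P : Subgroup G), ∀ n : ↥N, (θ : ↥N → ℂ) ⟨x * n * x⁻¹, hN.conj_mem n n.2 x⟩ = (θ : ↥N → ℂ) n) ∧ ∀ n : ↥N, (θ : ↥N → ℂ) (n ^ k) = (θ : ↥N → ℂ) n}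
  let L : Type _ := {β : G →* ℂˣ // (∀ n : N, β n = 1) ∧ β ^ p = 1}
  have hC : ∀ θ : C, ∃ χ : G → ℂ, IsIrrCharacter G χ ∧ (∀ n : N, χ n = (θ.1 : N → ℂ) n) ∧ ∀ g, χ (g ^ k) = χ g := by
    intro θ
    obtain ⟨χ, h1, h2, h3⟩ := hcan θ.1 θ.2.2.1 (fun x hx => funext (fun n => θ.2.2.2.1 x hx n))
    exact ⟨χ, h1, h2, h3 θ.2.2.2.2⟩
  choose E hE1 hE2 hE3 using hC
  have hirr : ∀ (θ : C) (β : L), IsIrrCharacter G (fun g => ((β.1 g : ℂˣ) : ℂ) * E θ g) := by
    intro θ β
    have h1 := (hE1 θ).mul_linear (isIrrCharacter_of_unitsHom β.1).isCharacter (by rw [map_one]; rfl)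
    have h2 : (fun g => ((β.1 g : ℂˣ) : ℂ) * E θ g) = fun g => E θ g * ((β.1 g : ℂˣ) : ℂ) := by
      funext g; rw [mul_comm]
    rw [h2]
    exact h1
  have hres : ∀ (θ : C) (β : L) (n : N), ((β.1 (n : G) : ℂˣ) : ℂ) * E θ n = (θ.1 : N → ℂ) n := by
    intro θ β n
    rw [β.2.1 n, hE2]
    simp
  have hdegeq : ∀ (χ : IrrCharacter G) (θ : IrrCharacter N), (∀ n : N, (χ : G → ℂ) n = (θ : N → ℂ) n) →
      charDegree (χ : G → ℂ) = charDegree (θ : N → ℂ) := by
    intro χ θ h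
    have := h 1
    rw [OneMemClass.coe_one] at this
    rw [charDegree, charDegree, this]
  have hinner : ∀ (χ : IrrCharacter G) (θ : IrrCharacter N), (∀ n : N, (χ : G → ℂ) n = (θ : N → ℂ) n) →
      classInner (fun x : N => (χ : G → ℂ) x) (θ : N → ℂ) ≠ 0 := by
    intro χ θ h
    have : (fun x : N => (χ : G → ℂ) x) = (θ : N → ℂ) := funext h
    rw [this, θ.2.classInner_self]
    exact one_ne_zero
  have hβk : ∀ (β : L) (g : G), β.1 (g ^ k) = β.1 g := by
    intro β g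
    have h1 : (β.1 g) ^ p = 1 := DFunLike.congr_fun β.2.2 g
    rw [map_pow]
    have h2 : (β.1 g) ^ k = (β.1 g) ^ 1 := by
      rw [pow_eq_pow_iff_modEq]
      exact hk1.of_dvd (orderOf_dvd_of_pow_eq_one h1)
    rw [h2, pow_one]
  let A : Type _ := {χ : Cfsg.IrrCharacter G // χ ∈ Cfsg.principalBlock M G ∧ ¬ p ∣ Cfsg.charDegree (χ : G → ℂ) ∧ ∀ g : G, (χ : G → ℂ) (g ^ k) = (χ : G → ℂ) g}
  let Φ : C × L → A := fun x => ⟨⟨fun g => ((x.2.1 g : ℂˣ) : ℂ) * E x.1 g, hirr x.1 x.2⟩, by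
    refine ⟨?_, ?_, ?_⟩
    · exact mem_principal_of_below hM hreg x.1.2.1 (hinner _ x.1.1 (hres x.1 x.2))
    · rw [hdegeq _ x.1.1 (hres x.1 x.2)]
      exact x.1.2.2.1
    · intro g
      show ((x.2.1 (g ^ k) : ℂˣ) : ℂ) * E x.1 (g ^ k) = ((x.2.1 g : ℂˣ) : ℂ) * E x.1 g
      rw [hβk, hE3]⟩
  have hΦ : Function.Bijective Φ := by
    constructor
    · rintro ⟨θ, β⟩ ⟨θ', β'⟩ h
      have h1 : ∀ g, ((β.1 g : ℂˣ) : ℂ) * E θ g = ((β'.1 g : ℂˣ) : ℂ) * E θ' g := by
        intro g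
        exact congrArg (fun x : A => ((x.1 : IrrCharacter G) : G → ℂ) g) h
      have h2 : θ = θ' := by
        apply Subtype.ext
        apply Subtype.ext
        funext n
        rw [← hres θ β n, ← hres θ' β' n, h1]
      subst h2
      have h3 := (CanonExt.bijOn θ.1.2 (hE1 θ) (hE2 θ)).injOn
        (show (fun g => ((β.1 g : ℂˣ) : ℂ)) ∈ _ from ⟨isIrrCharacter_of_unitsHom β.1, fun n => by
          show ((β.1 (n : G) : ℂˣ) : ℂ) = ((β.1 (1 : G) : ℂˣ) : ℂ)
          rw [β.2.1 n, map_one]⟩)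
        (show (fun g => ((β'.1 g : ℂˣ) : ℂ)) ∈ _ from ⟨isIrrCharacter_of_unitsHom β'.1, fun n => by
          show ((β'.1 (n : G) : ℂˣ) : ℂ) = ((β'.1 (1 : G) : ℂˣ) : ℂ)
          rw [β'.2.1 n, map_one]⟩) (funext h1)
      have h4 : β = β' := by
        apply Subtype.ext
        ext g
        exact congrFun h3 g
      rw [h4]
    · rintro ⟨χ, hχB, hχdeg, hχk⟩
      obtain ⟨θ, m, hθ, hθχ, hθ1, hm, hθP⟩ := H76PAct.exists_invariant_constituent N (P : Subgroup G) P.isPGroup'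
        χ.2.isCharacter (charDegree (χ : G → ℂ)) (charDegree_cast_irr χ).symm hχdeg
      let θ' : IrrCharacter N := ⟨θ, hθ⟩
      have hθdeg : ¬ p ∣ charDegree (θ' : N → ℂ) := by
        have h1 : ((charDegree (θ' : N → ℂ) : ℕ) : ℂ) = (m : ℂ) := by
          rw [charDegree_cast_irr]; exact hθ1
        have h2 : charDegree (θ' : N → ℂ) = m := by exact_mod_cast h1
        rw [h2]; exact hm
      obtain ⟨ψ, hψ1, hψ2, hψ3⟩ := hcan θ' hθdeg hθP
      obtain ⟨β, hβ, hβc, hβχ⟩ := CanonExt.exists_gallagher hθ hψ1 hψ2 χ.2 hθχ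
      have hβ1 := linear_of_quot_comm N hab hβ hβc
      obtain ⟨b, hb⟩ := hβ.isCharacter.exists_hom hβ1
      have hbN : ∀ n : N, b n = 1 := by
        intro n
        apply Units.ext
        rw [← hb, hβc n, hβ1]
        rfl
      have hχN : ∀ n : N, (χ : G → ℂ) n = (θ' : N → ℂ) n := by
        intro n
        rw [hβχ, Pi.mul_apply, hβc n, hβ1, one_mul]
        exact hψ2 n
      have hθk : ∀ n : N, (θ' : N → ℂ) (n ^ k) = (θ' : N → ℂ) n := by
        intro n
        rw [← hχN, ← hχN]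
        exact hχk (n : G)
      have hθB : θ' ∈ principalBlock M N := mem_principal_of_constituent hM hχB hθχ
      let θC : C := ⟨θ', hθB, hθdeg, fun x hx n => congrFun (hθP x hx) n, hθk⟩
      -- compare with the chosen extension
      obtain ⟨b', hb'N, hb'⟩ := CanonExt.exists_linear_twist hθ (hE1 θC) (hE2 θC) χ.2 hχN
      have hb'k : ∀ g, b' (g ^ k) = b' g := by
        have h1 := (CanonExt.bijOn hθ (hE1 θC) (hE2 θC)).injOn
          (show (fun g => ((b' (g ^ k) : ℂˣ) : ℂ)) ∈ _ from ⟨CharGalois.isIrrCharacter_pow (isIrrCharacter_of_unitsHom b') hk, fun n => by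
            show ((b' ((n : G) ^ k) : ℂˣ) : ℂ) = ((b' ((1 : G) ^ k) : ℂˣ) : ℂ)
            rw [map_pow, hb'N n, one_pow, one_pow, map_one]⟩)
          (show (fun g => ((b' g : ℂˣ) : ℂ)) ∈ _ from ⟨isIrrCharacter_of_unitsHom b', fun n => by
            show ((b' (n : G) : ℂˣ) : ℂ) = ((b' (1 : G) : ℂˣ) : ℂ)
            rw [hb'N n, map_one]⟩) (by
            funext g
            show ((b' (g ^ k) : ℂˣ) : ℂ) * E θC g = ((b' g : ℂˣ) : ℂ) * E θC g
            rw [← hE3 θC g]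
            have h2 := congrFun hb' (g ^ k)
            rw [← h2, hχk, congrFun hb' g, hE3])
        intro g
        exact Units.ext (congrFun h1 g)
      have hb'p : b' ^ p = 1 := by
        ext g
        have hg : g ∈ (P : Subgroup G) ⊔ N := by rw [hPN]; trivial
        obtain ⟨x, hx, n, hn, rfl⟩ := Subgroup.mem_sup_of_normal_right.1 hg
        have h1 : b' (x * n) = b' x := by rw [map_mul, hb'N ⟨n, hn⟩, mul_one]
        have h2 : (b' ^ p) (x * n) = (b' (x * n)) ^ p := rfl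
        rw [h2, h1]
        have h3 : b' (x ^ k) = b' x := hb'k x
        have h4 : x ^ k = x ^ (1 + p) := by
          apply hk₁
          obtain ⟨j, hj⟩ := IsPGroup.iff_orderOf.1 P.isPGroup' ⟨x, hx⟩
          exact ⟨j, by rw [← hj, Subgroup.orderOf_mk]⟩
        rw [h4, map_pow, pow_add, pow_one] at h3
        rw [mul_eq_left.1 h3]
        rfl
      refine ⟨⟨θC, ⟨b', hb'N, hb'p⟩⟩, ?_⟩
      apply Subtype.ext
      apply Subtype.ext
      exact hb'.symm
  have hcard := Nat.card_eq_of_bijective Φ hΦ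
  show Nat.card A = p * Nat.card C
  rw [← hcard, Nat.card_prod, card_lin N hcyc hpidx, mul_comm]

end Cfsg.Agent.S4553
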