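import Cfsg.Statements.S4560
import Cfsg.Agent.Lib.H76Four2
import Mathlib.GroupTheory.Perm.Centralizer

set_option autoImplicit false
open Cfsg

namespace Cfsg.Agent.S4560

open Cfsg.Agent.Lib Cfsg.Agent.Lib.CharBasic Cfsg.Agent.Lib.H76Four

theorem exists_elt (n : ℕ) (m : Multiset ℕ) (hm : m.sum ≤ n) (h2 : ∀ a ∈ m, 2 ≤ a)
    (hs : Even (m.sum + Multiset.card m)) :
    ∃ x : alternatingGroup (Fin n), Equiv.Perm.cycleType (x : Equiv.Perm (Fin n)) = m := by
  obtain ⟨g, hg⟩ := (Equiv.Perm.exists_with_cycleType_iff (Fin n) (m := m)).2 ⟨by rwa [Fintype.card_fin], h2⟩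
  refine ⟨⟨g, ?_⟩, hg⟩
  rw [Equiv.Perm.mem_alternatingGroup, Equiv.Perm.sign_of_cycleType, hg]
  exact hs.neg_one_pow

theorem order_elt {n : ℕ} {m : Multiset ℕ} {x : alternatingGroup (Fin n)}
    (hx : Equiv.Perm.cycleType (x : Equiv.Perm (Fin n)) = m) : orderOf x = m.lcm := by
  rw [← hx, Equiv.Perm.lcm_cycleType, Subgroup.orderOf_coe]

theorem fx_elt {n : ℕ} {m : Multiset ℕ} {x : alternatingGroup (Fin n)}
    (hx : Equiv.Perm.cycleType (x : Equiv.Perm (Fin n)) = m) : pc (Fin n) x = (n : ℂ) - (m.sum : ℂ) := by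
  have h1 : Fx (Fin n) x = (x : Equiv.Perm (Fin n)).supportᶜ := by
    ext a
    rw [mem_Fx, Finset.mem_compl, Equiv.Perm.mem_support, not_not]
    rfl
  rw [pc, h1, Finset.card_compl, Fintype.card_fin, ← Equiv.Perm.sum_cycleType, hx, Nat.cast_sub]
  rw [← hx, Equiv.Perm.sum_cycleType]
  have := Finset.card_le_univ (x : Equiv.Perm (Fin n)).support
  rwa [Fintype.card_fin] at this

theorem tw_elt {n : ℕ} {m : Multiset ℕ} {x : alternatingGroup (Fin n)}
    (hx : Equiv.Perm.cycleType (x : Equiv.Perm (Fin n)) = m) (h2 : 2 ∉ m) : tc (Fin n) x = 0 := by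
  rw [tc, Nat.cast_eq_zero, Finset.card_eq_zero, Finset.eq_empty_iff_forall_notMem]
  intro a ha
  rw [mem_Tw] at ha
  apply h2
  obtain ⟨h3, h4⟩ := ha
  set σ : Equiv.Perm (Fin n) := (x : Equiv.Perm (Fin n)) with hσ
  have h5 : σ (σ a) = a := h3
  have h6 : σ a ≠ a := h4
  have h7 : σ.cycleOf a ∈ σ.cycleFactorsFinset := by
    rw [Equiv.Perm.cycleOf_mem_cycleFactorsFinset_iff, Equiv.Perm.mem_support]
    exact h6
  have h8 : (σ.cycleOf a).support.card ∈ σ.cycleType := by
    rw [Equiv.Perm.cycleType_def, Multiset.mem_map]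
    exact ⟨σ.cycleOf a, h7, rfl⟩
  have hcyc : (σ.cycleOf a).IsCycle := Equiv.Perm.isCycle_cycleOf σ h6
  have h9 : (σ.cycleOf a) ^ 2 = 1 := by
    rw [hcyc.pow_eq_one_iff' (x := a)]
    · rw [pow_two, Equiv.Perm.mul_apply, Equiv.Perm.cycleOf_apply_self]
      have : (σ.cycleOf a) (σ a) = σ (σ a) := by
        rw [Equiv.Perm.cycleOf_apply, if_pos]
        exact ⟨1, by simp⟩
      rw [this, h5]
    · rwa [Equiv.Perm.cycleOf_apply_self]
  have h10 : (σ.cycleOf a).support.card = 2 := by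
    rw [← hcyc.orderOf]
    apply orderOf_eq_prime h9
    intro h
    apply h6
    have := Equiv.Perm.cycleOf_apply_self σ a
    rw [h] at this
    exact this.symm
  rw [h10] at h8
  rw [← hx]
  exact h8

theorem exists_extends (n : ℕ) (hn : 7 ≤ n) (F : ∀ (f t : ℂ), ℂ)
    (hF : (∀ f t, F f t = f - 1) ∨ (∀ f t, F f t = (f ^ 2 - 3 * f + t) / 2) ∨ (∀ f t, F f t = (f ^ 2 - 3 * f + 2 - t) / 2)) :
    ∃ χ : IrrCharacter (alternatingGroup (Fin n)),
      (∀ x : alternatingGroup (Fin n), (χ : alternatingGroup (Fin n) → ℂ) x = F (pc (Fin n) x) (tc (Fin n) x)) ∧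
      ∃ ψ : IrrCharacter (Equiv.Perm (Fin n)), ∀ x : alternatingGroup (Fin n),
        (ψ : Equiv.Perm (Fin n) → ℂ) x = (χ : alternatingGroup (Fin n) → ℂ) x := by
  classical
  have hS : MulAction.IsMultiplyPretransitive (Equiv.Perm (Fin n)) (Fin n) 4 :=
    Equiv.Perm.isMultiplyPretransitive (Fin n) 4
  have hA : MulAction.IsMultiplyPretransitive (alternatingGroup (Fin n)) (Fin n) 4 := by
    have := alternatingGroup.isMultiplyPretransitive (Fin n)
    apply MulAction.isMultiplyPretransitive_of_le (n := Nat.card (Fin n) - 2)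
    · rw [Nat.card_eq_fintype_card, Fintype.card_fin]; omega
    · omega
  have hc : 4 ≤ Fintype.card (Fin n) := by rw [Fintype.card_fin]; omega
  have hpc : ∀ x : alternatingGroup (Fin n), pc (Fin n) (x : Equiv.Perm (Fin n)) = pc (Fin n) x := by
    intro x
    rfl
  have htc : ∀ x : alternatingGroup (Fin n), tc (Fin n) (x : Equiv.Perm (Fin n)) = tc (Fin n) x := by
    intro x
    rfl
  rcases hF with hF | hF | hF
  · refine ⟨⟨_, irr1 hA hc⟩, fun x => (hF _ _).symm, ⟨_, irr1 hS hc⟩, fun x => ?_⟩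
    show pc (Fin n) (x : Equiv.Perm (Fin n)) - 1 = pc (Fin n) x - 1
    rw [hpc]
  · refine ⟨⟨_, irr2 hA hc⟩, fun x => (hF _ _).symm, ⟨_, irr2 hS hc⟩, fun x => ?_⟩
    show (pc (Fin n) (x : Equiv.Perm (Fin n)) ^ 2 - 3 * pc (Fin n) (x : Equiv.Perm (Fin n)) +
      tc (Fin n) (x : Equiv.Perm (Fin n))) / 2 = (pc (Fin n) x ^ 2 - 3 * pc (Fin n) x + tc (Fin n) x) / 2
    rw [hpc, htc]
  · refine ⟨⟨_, irr3 hA hc⟩, fun x => (hF _ _).symm, ⟨_, irr3 hS hc⟩, fun x => ?_⟩
    show (pc (Fin n) (x : Equiv.Perm (Fin n)) ^ 2 - 3 * pc (Fin n) (x : Equiv.Perm (Fin n)) + 2 -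
      tc (Fin n) (x : Equiv.Perm (Fin n))) / 2 = (pc (Fin n) x ^ 2 - 3 * pc (Fin n) x + 2 - tc (Fin n) x) / 2
    rw [hpc, htc]

/-- from a cycle type to a vanishing character -/
theorem build (n : ℕ) (hn : 7 ≤ n) (m : Multiset ℕ) (hm : m.sum ≤ n) (h2 : ∀ a ∈ m, 2 ≤ a)
    (hs : Even (m.sum + Multiset.card m))
    (h : n = m.sum + 1 ∨ (2 ∉ m ∧ n = m.sum) ∨ (2 ∉ m ∧ n = m.sum + 2)) :
    ∃ χ : IrrCharacter (alternatingGroup (Fin n)), (∃ x : alternatingGroup (Fin n), orderOf x = m.lcm ∧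
      (χ : alternatingGroup (Fin n) → ℂ) x = 0) ∧ ∃ ψ : IrrCharacter (Equiv.Perm (Fin n)),
        ∀ x : alternatingGroup (Fin n), (ψ : Equiv.Perm (Fin n) → ℂ) x = (χ : alternatingGroup (Fin n) → ℂ) x := by
  obtain ⟨x, hx⟩ := exists_elt n m hm h2 hs
  have hf := fx_elt hx
  rcases h with h | ⟨h3, h⟩ | ⟨h3, h⟩
  · obtain ⟨χ, hχ, hψ⟩ := exists_extends n hn (fun f _ => f - 1) (Or.inl fun _ _ => rfl)
    refine ⟨χ, ⟨x, order_elt hx, ?_⟩, hψ⟩
    rw [hχ, hf]
    have : (n : ℂ) = (m.sum : ℂ) + 1 := by exact_mod_cast h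
    rw [this]; ring
  · obtain ⟨χ, hχ, hψ⟩ := exists_extends n hn (fun f t => (f ^ 2 - 3 * f + t) / 2) (Or.inr (Or.inl fun _ _ => rfl))
    refine ⟨χ, ⟨x, order_elt hx, ?_⟩, hψ⟩
    rw [hχ, hf, tw_elt hx h3]
    have : (n : ℂ) = (m.sum : ℂ) := by exact_mod_cast h
    rw [this]; ring
  · obtain ⟨χ, hχ, hψ⟩ := exists_extends n hn (fun f t => (f ^ 2 - 3 * f + 2 - t) / 2) (Or.inr (Or.inr fun _ _ => rfl))
    refine ⟨χ, ⟨x, order_elt hx, ?_⟩, hψ⟩
    rw [hχ, hf, tw_elt hx h3]
    have : (n : ℂ) = (m.sum : ℂ) + 2 := by exact_mod_cast h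
    rw [this]; ring

theorem lcm_two_pow (m : Multiset ℕ) (h : ∀ a ∈ m, a ∣ 8) : ∃ j : ℕ, m.lcm = 2 ^ j := by
  have h1 : m.lcm ∣ 2 ^ 3 := Multiset.lcm_dvd.2 h
  obtain ⟨j, -, hj⟩ := (Nat.dvd_prime_pow Nat.prime_two).1 h1
  exact ⟨j, hj⟩

/-- For n ≥ 7 the alternating group on n letters has an irreducible character that vanishes at some 2-element and is the restriction of an irreducible character of the symmetric group, and an irreducible character that vanishes at some element of order 3 and is the restriction of an irreducible character of the symmetric group. -/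
theorem result (n : ℕ) (hn : 7 ≤ n) : (∃ χ : Cfsg.IrrCharacter (alternatingGroup (Fin n)), (∃ x : alternatingGroup (Fin n), (∃ j : ℕ, orderOf x = 2 ^ j) ∧ (χ : alternatingGroup (Fin n) → ℂ) x = 0) ∧ ∃ ψ : Cfsg.IrrCharacter (Equiv.Perm (Fin n)), ∀ x : alternatingGroup (Fin n), (ψ : Equiv.Perm (Fin n) → ℂ) x = (χ : alternatingGroup (Fin n) → ℂ) x) ∧ (∃ χ : Cfsg.IrrCharacter (alternatingGroup (Fin n)), (∃ y : alternatingGroup (Fin n), orderOf y = 3 ∧ (χ : alternatingGroup (Fin n) → ℂ) y = 0) ∧ ∃ ψ : Cfsg.IrrCharacter (Equiv.Perm (Fin n)), ∀ x : alternatingGroup (Fin n), (ψ : Equiv.Perm (Fin n) → ℂ) x = (χ : alternatingGroup (Fin n) → ℂ) x) := by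
  constructor
  · have key : ∃ m : Multiset ℕ, m.sum ≤ n ∧ (∀ a ∈ m, 2 ≤ a) ∧ Even (m.sum + Multiset.card m) ∧
        (n = m.sum + 1 ∨ (2 ∉ m ∧ n = m.sum) ∨ (2 ∉ m ∧ n = m.sum + 2)) ∧ (∀ a ∈ m, a ∣ 8) := by
      have hrep : ∀ c k : ℕ, (Multiset.replicate k c).sum = k * c := by
        intro c k; rw [Multiset.sum_replicate, smul_eq_mul]
      have hmem : ∀ a c k : ℕ, a ∈ Multiset.replicate k c → a = c := fun a c k h => Multiset.eq_of_mem_replicate h
      rcases Nat.even_or_odd' n with ⟨k, hk | hk⟩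
      · -- n = 2k
        have hdiv : ∃ m r, n = 4 * m + r ∧ (r = 0 ∨ r = 2) ∧ 2 ≤ m := by
          refine ⟨n / 4, n % 4, ?_, ?_, ?_⟩ <;> omega
        obtain ⟨q, r, hqr, hr, hq⟩ := hdiv
        rcases Nat.even_or_odd' q with ⟨l, hl | hl⟩
        · refine ⟨Multiset.replicate q 4, ?_, ?_, ?_, ?_, ?_⟩
          · rw [hrep]; omega
          · intro a ha; rw [hmem _ _ _ ha]; omega
          · rw [hrep, Multiset.card_replicate]; exact ⟨q * 2 + l, by omega⟩
          · right
            have h2 : 2 ∉ Multiset.replicate q 4 := fun h => by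
              have := hmem _ _ _ h
              omega
            rcases hr with hr | hr
            · left; exact ⟨h2, by rw [hrep]; omega⟩
            · right; exact ⟨h2, by rw [hrep]; omega⟩
          · intro a ha; rw [hmem _ _ _ ha]; norm_num
        · refine ⟨8 ::ₘ Multiset.replicate (q - 2) 4, ?_, ?_, ?_, ?_, ?_⟩
          · rw [Multiset.sum_cons, hrep]; omega
          · intro a ha
            rcases Multiset.mem_cons.1 ha with h | h
            · omega
            · rw [hmem _ _ _ h]; omega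
          · rw [Multiset.sum_cons, hrep, Multiset.card_cons, Multiset.card_replicate]
            exact ⟨4 + (q - 2) * 2 + l, by omega⟩
          · right
            have h2 : 2 ∉ 8 ::ₘ Multiset.replicate (q - 2) 4 := fun h => by
              rcases Multiset.mem_cons.1 h with h | h
              · omega
              · have := hmem _ _ _ h
                omega
            rcases hr with hr | hr
            · left; exact ⟨h2, by rw [Multiset.sum_cons, hrep]; omega⟩
            · right; exact ⟨h2, by rw [Multiset.sum_cons, hrep]; omega⟩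
          · intro a ha
            rcases Multiset.mem_cons.1 ha with h | h
            · rw [h]
            · rw [hmem _ _ _ h]; norm_num
      · rcases Nat.even_or_odd' k with ⟨l, hl | hl⟩
        · refine ⟨Multiset.replicate k 2, ?_, ?_, ?_, ?_, ?_⟩
          · rw [hrep]; omega
          · intro a ha; rw [hmem _ _ _ ha]
          · rw [hrep, Multiset.card_replicate]; exact ⟨k + l, by omega⟩
          · left; rw [hrep]; omega
          · intro a ha; rw [hmem _ _ _ ha]; norm_num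
        · refine ⟨4 ::ₘ Multiset.replicate (k - 2) 2, ?_, ?_, ?_, ?_, ?_⟩
          · rw [Multiset.sum_cons, hrep]; omega
          · intro a ha
            rcases Multiset.mem_cons.1 ha with h | h
            · omega
            · rw [hmem _ _ _ h]
          · rw [Multiset.sum_cons, hrep, Multiset.card_cons, Multiset.card_replicate]
            exact ⟨2 + (k - 2) + l, by omega⟩
          · left; rw [Multiset.sum_cons, hrep]; omega
          · intro a ha
            rcases Multiset.mem_cons.1 ha with h | h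
            · rw [h]; norm_num
            · rw [hmem _ _ _ h]; norm_num
    obtain ⟨m, h1, h2, h3, h4, h5⟩ := key
    obtain ⟨χ, ⟨x, hx, hx0⟩, hψ⟩ := build n hn m h1 h2 h3 h4
    obtain ⟨j, hj⟩ := lcm_two_pow m h5
    exact ⟨χ, ⟨x, ⟨j, by rw [hx, hj]⟩, hx0⟩, hψ⟩
  · have hrep : ∀ k : ℕ, (Multiset.replicate k 3).sum = k * 3 := by
      intro k; rw [Multiset.sum_replicate, smul_eq_mul]
    have hmem : ∀ a k : ℕ, a ∈ Multiset.replicate k 3 → a = 3 := fun a k h => Multiset.eq_of_mem_replicate h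
    have h2 : 2 ∉ Multiset.replicate (n / 3) 3 := fun h => by
      have := hmem _ _ h
      omega
    obtain ⟨χ, ⟨x, hx, hx0⟩, hψ⟩ := build n hn (Multiset.replicate (n / 3) 3) (by rw [hrep]; omega)
      (fun a ha => by rw [hmem _ _ ha]; omega)
      (by rw [hrep, Multiset.card_replicate]; exact ⟨n / 3 * 2, by omega⟩)
      (by
        rw [hrep]
        have : n % 3 = 0 ∨ n % 3 = 1 ∨ n % 3 = 2 := by omega
        rcases this with h | h | h
        · right; left; exact ⟨h2, by omega⟩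
        · left; omega
        · right; right; exact ⟨h2, by omega⟩)
    refine ⟨χ, ⟨x, ?_, hx0⟩, hψ⟩
    rw [hx]
    have h6 : (Multiset.replicate (n / 3) 3).lcm ∣ 3 :=
      Multiset.lcm_dvd.2 fun a ha => by rw [hmem _ _ ha]
    have h7 : 3 ∣ (Multiset.replicate (n / 3) 3).lcm :=
      Multiset.dvd_lcm (Multiset.mem_replicate.2 ⟨by omega, rfl⟩)
    exact Nat.dvd_antisymm h6 h7

end Cfsg.Agent.S4560
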