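import Cfsg.Statements.S4561
import Cfsg.Agent.Lib.CentralTypeEmb

set_option autoImplicit false
universe u
open Cfsg

namespace Cfsg.Agent.S4561

/-- For every finite solvable group G there is a finite group H with a faithful irreducible character χ whose degree squared equals the index of the centre Z(H) (so χ is fully ramified over the centre), such that G is isomorphic to a subgroup of H/Z(H), the primes dividing the orders of H, of Z(H) and of G are the same, and the order of Z(H) is squarefree. -/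
theorem result {G : Type u} [Group G] [Finite G] (hsolv : Group.IsSolvable G) : ∃ (H : Type u) (_ : Group H) (_ : Finite H) (χ : Cfsg.IrrCharacter H), (∀ h : H, (χ : H → ℂ) h = (χ : H → ℂ) 1 → h = 1) ∧ (Cfsg.charDegree (χ : H → ℂ)) ^ 2 = (Subgroup.center H).index ∧ (∃ f : G →* H ⧸ Subgroup.center H, Function.Injective f) ∧ (∀ p : ℕ, p.Prime → ((p ∣ Nat.card H ↔ p ∣ Nat.card G) ∧ (p ∣ Nat.card (Subgroup.center H) ↔ p ∣ Nat.card G))) ∧ Squarefree (Nat.card (Subgroup.center H)) := by
  classical
  obtain ⟨m, hm0, hmsf, hmq, hmq'⟩ : ∃ m : ℕ, m ≠ 0 ∧ Squarefree m ∧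
      (∀ q : ℕ, q.Prime → q ∣ Nat.card G → q ∣ m) ∧ True := by
    refine ⟨∏ q ∈ (Nat.card G).primeFactors, q, ?_, ?_, ?_, trivial⟩
    · exact Finset.prod_ne_zero_iff.2 fun q hq => (Nat.prime_of_mem_primeFactors hq).ne_zero
    · exact Cfsg.Agent.Lib.CentralTypeEmb.squarefree_prod _
    · intro q hq hd
      exact Finset.dvd_prod_of_mem _ (Nat.mem_primeFactors.2 ⟨hq, hd, Nat.card_pos.ne'⟩)
  exact Cfsg.Agent.Lib.CentralTypeEmb.final hm0 hmsf
    (Cfsg.Agent.Lib.CentralTypeEmb.good_of_solvable hm0 _ G rfl hsolv hmq)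

end Cfsg.Agent.S4561
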