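import Cfsg.Statements.S4563
import Cfsg.Agent.S0006
import Cfsg.Agent.Lib.H76LData

set_option autoImplicit false
open Cfsg

namespace Cfsg.Agent.S4563

open scoped ComplexConjugate
open Cfsg.Agent.Lib Cfsg.Agent.Lib.CharBasic Cfsg.Agent.Lib.Clifford Cfsg.Agent.Lib.CliffordCorr
open Cfsg.Agent.Lib.H76FullRam Cfsg.Agent.Lib.H76Ram Cfsg.Agent.Lib.H76Setup Cfsg.Agent.Lib.H76LData

universe u

theorem dvd_pow_helper {p n c : ℕ} (hp : p.Prime) (h : c * c ∣ p ^ n) (hc : ¬ p ∣ c) : c = 1 := by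
  have h1 : c ∣ p ^ n := (Dvd.intro _ rfl).trans h
  obtain ⟨k, -, hk⟩ := (Nat.dvd_prime_pow hp).1 h1
  rcases Nat.eq_zero_or_pos k with rfl | h2
  · simpa using hk
  · exact absurd (hk ▸ dvd_pow_self p h2.ne') hc

theorem induced_case {L : Type u} [Group L] [Fintype L] {p : ℕ} [hp : Fact p.Prime] {Z S Y P : Subgroup L} [Z.Normal] [S.Normal]
    [Y.Normal] {θ : Z → ℂ} {X : L → ℂ} {e a k n : ℕ} [Fintype Z] (D : LData p Z S Y P θ X e a k n)
    (f m : ℕ) (hf0 : f ≠ 0) (hf : e = p ^ n * m * f) (Φ : S → ℂ) (hΦ : IsCharacter S Φ)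
    (hΦZ : resTo Z S D.hZS Φ = (f : ℂ) • θ) (η : S → ℂ) (hη : IsIrrCharacter S η)
    (hover : classInner (resTo Z S D.hZS η) θ ≠ 0) : inertia S η ⊓ P ≤ S := by
  classical
  have := Fintype.ofFinite P
  have := Fintype.ofFinite S
  obtain ⟨ψ, hψ, hψη, hψθ⟩ := exists_over (P := P) D.hZS D.hSP D.hθ hη hover
  have hoff := D.off hψ hψθ
  have hcard := inertia_card (Z := Z) D.hZS D.hSP hη hψ hψη hoff
  obtain ⟨c, hc⟩ := (isCharacter_resTo D.hSP hψ.isCharacter).classInner_nat hη.isCharacter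
  obtain ⟨f', hf'⟩ := (isCharacter_resTo D.hZS hη.isCharacter).classInner_nat D.hθ.isCharacter
  rw [hc] at hcard
  rw [map_natCast] at hcard
  have hcard' : c * c = S.relIndex (inertia S η ⊓ P) := by exact_mod_cast hcard
  have hf'0 : f' ≠ 0 := by rintro rfl; exact hover (by rw [hf']; simp)
  -- restriction of η
  have hηZ : resTo Z S D.hZS η = (f' : ℂ) • θ := by
    rw [← hf']
    exact resTo_eq_smul D.hZS hη D.hθ (fun g _ => D.hinv g) hover
  have hψZ : resTo Z P (D.hZS.trans D.hSP) ψ = ((p ^ a : ℕ) : ℂ) • θ := by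
    rw [← D.mult hψ hψθ]
    exact resTo_eq_smul (D.hZS.trans D.hSP) hψ D.hθ (fun g _ => D.hinv g) hψθ
  have h1 := classInner_eq_of_support (Z := Z) (P := S) D.hZS (resTo S P D.hSP ψ) η (by
    intro x hx
    exact hoff ⟨x, D.hSP x.2⟩ hx)
  have h2 : resTo Z S D.hZS (resTo S P D.hSP ψ) = ((p ^ a : ℕ) : ℂ) • θ := hψZ
  rw [h2, hηZ, classInner_smul_left, classInner_smul_right, D.hθ.classInner_self, hc, map_natCast, mul_one] at h1
  have h3 : Nat.card S * c = Nat.card Z * (p ^ a * f') := by exact_mod_cast h1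
  have h4 : Z.relIndex S * Nat.card Z = Nat.card S := by
    have h40 := Subgroup.relIndex_mul_relIndex ⊥ Z S bot_le D.hZS
    rw [Subgroup.relIndex_bot_left, Subgroup.relIndex_bot_left] at h40
    rw [mul_comm]
    exact h40
  have h5 : Z.relIndex S * c = p ^ a * f' := by
    have hZpos : 0 < Nat.card Z := Nat.card_pos
    apply Nat.eq_of_mul_eq_mul_left hZpos
    rw [← h3, ← h4]; ring
  have h6 : Z.relIndex S * p ^ n = (p ^ a) ^ 2 := by
    rw [← D.hPZ, ← D.hPS]
    exact Subgroup.relIndex_mul_relIndex Z S P D.hZS D.hSP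
  have hpa : 0 < p ^ a := pow_pos hp.out.pos a
  have hpn : 0 < p ^ n := pow_pos hp.out.pos n
  have h7 : c * p ^ a = p ^ n * f' := by
    apply Nat.eq_of_mul_eq_mul_left hpa
    calc p ^ a * (c * p ^ a) = (p ^ a) ^ 2 * c := by ring
      _ = Z.relIndex S * p ^ n * c := by rw [h6]
      _ = p ^ n * (Z.relIndex S * c) := by ring
      _ = p ^ n * (p ^ a * f') := by rw [h5]
      _ = p ^ a * (p ^ n * f') := by ring
  -- f' ∣ f
  have hdeg : ∀ η' : S → ℂ, IsIrrCharacter S η' → classInner Φ η' ≠ 0 → η' 1 = η 1 := by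
    intro η' hη' h
    have h8 : classInner (resTo Z S D.hZS η') θ ≠ 0 := by
      have hb := hΦ.sub_constituent hη' h
      have hne : resTo Z S D.hZS η' ≠ 0 := by
        intro h0
        have := congrFun h0 1
        exact hη'.one_ne_zero this
      obtain ⟨θ', hθ', h9⟩ := (isCharacter_resTo D.hZS hη'.isCharacter).exists_constituent hne
      obtain ⟨m1, hm1⟩ := (isCharacter_resTo D.hZS hη'.isCharacter).classInner_nat hθ'.isCharacter
      obtain ⟨m2, hm2⟩ := (isCharacter_resTo D.hZS hb).classInner_nat hθ'.isCharacter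
      have hsum : resTo Z S D.hZS Φ = resTo Z S D.hZS η' + resTo Z S D.hZS (Φ - η') := by
        funext z
        simp [resTo]
      have hne2 : classInner (resTo Z S D.hZS Φ) θ' ≠ 0 := by
        rw [hsum, classInner_add_left, hm1, hm2]
        have hn0 : m1 ≠ 0 := by
          rintro rfl; exact h9 (by rw [hm1]; simp)
        have : ((m1 : ℂ) + (m2 : ℂ)) = ((m1 + m2 : ℕ) : ℂ) := by push_cast; ring
        rw [this]
        exact_mod_cast (by omega : m1 + m2 ≠ 0)
      rw [hΦZ, classInner_smul_left] at hne2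
      have h10 : θ' = θ := by
        by_contra hcon
        exact hne2 (by rw [D.hθ.classInner_eq_zero hθ' (fun h => hcon h.symm), mul_zero])
      rwa [h10] at h9
    obtain ⟨x, hx, hx2⟩ := transitive D.hZS D.hSP D.hθ (fun ψ ψ' h1 h2 h3 h4 => D.uniq h1 h3 h2 h4) hη hη' hover h8
    rw [hx2, cj_apply]
    congr 1
    apply Subtype.ext
    simp
  have hη1 : η 1 = f' * θ 1 := congrFun hηZ 1
  have hΦ1 : Φ 1 = f * θ 1 := congrFun hΦZ 1
  obtain ⟨r, hr⟩ : ∃ r : ℕ, Φ 1 = r * η 1 := by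
    have h11 := hΦ.isClassFunction.expansion_apply 1
    have h12 : ∀ η' : IrrCharacter S, ∃ r : ℕ, classInner Φ (η' : S → ℂ) * (η' : S → ℂ) 1 = r * η 1 := by
      intro η'
      obtain ⟨r, hr⟩ := hΦ.classInner_nat η'.2.isCharacter
      by_cases h : classInner Φ (η' : S → ℂ) = 0
      · exact ⟨0, by rw [h]; simp⟩
      · exact ⟨r, by rw [hr, hdeg _ η'.2 h]⟩
    choose r hr using h12
    refine ⟨∑ η' : IrrCharacter S, r η', ?_⟩
    rw [h11, Finset.sum_congr rfl (fun η' _ => hr η')]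
    push_cast
    rw [Finset.sum_mul]
  have hθ1 : θ 1 ≠ 0 := D.hθ.one_ne_zero
  have hfr : f = r * f' := by
    rw [hΦ1, hη1, ← mul_assoc] at hr
    have := mul_right_cancel₀ hθ1 hr
    exact_mod_cast this
  -- conclusion
  have h13 : m * c * r = k := by
    have h14 : p ^ a * k = p ^ n * m * (r * f') := by rw [← D.he, hf, hfr]
    have h15 : p ^ n * f' * (m * c * r) = p ^ n * f' * k := by
      calc p ^ n * f' * (m * c * r) = c * (p ^ n * m * (r * f')) := by ring
        _ = c * (p ^ a * k) := by rw [h14]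
        _ = (c * p ^ a) * k := by ring
        _ = p ^ n * f' * k := by rw [h7]
    exact Nat.eq_of_mul_eq_mul_left (Nat.mul_pos hpn (Nat.pos_of_ne_zero hf'0)) h15
  have hpc : ¬ p ∣ c := fun h => D.hk (h13 ▸ (h.mul_left m).mul_right r)
  have hc1 : c = 1 := by
    apply dvd_pow_helper hp.out (n := n) _ hpc
    rw [hcard', ← D.hPS]
    have h16 := Subgroup.relIndex_mul_relIndex S (inertia S η ⊓ P) P
      (le_inf (le_inertia hη.isClassFunction) D.hSP) inf_le_right
    exact ⟨_, h16.symm⟩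
  rw [hc1] at hcard'
  exact Subgroup.relIndex_eq_one.1 hcard'.symm

theorem result {H : Type*} [Group H] [Fintype H] (Z : Subgroup H) [Z.Normal] (χ : Cfsg.IrrCharacter H) (hfr : ∃ (θ : Cfsg.IrrCharacter ↥Z) (e : ℕ), e ^ 2 = Z.index ∧ ∀ z : ↥Z, (χ : H → ℂ) z = (e : ℂ) * (θ : ↥Z → ℂ) z) (K : Subgroup H) [K.Normal] [Fintype K] (hZK : Z ≤ K) (hK : K ≠ ⊤) (φ : ↥K → ℂ) (hφ : Cfsg.IsCharacter ↥K φ) (hind : Cfsg.indFun K φ = (χ : H → ℂ)) : Group.IsSolvable (H ⧸ K) ∧ (Group.IsSolvable ↥K → Group.IsSolvable H) := by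
  classical
  have hmain : Group.IsSolvable (H ⧸ K) := by
    have := Fintype.ofFinite Z
    obtain ⟨θ, e, he, hres⟩ := hfr
    obtain ⟨he0, hci, hoff, hinv, huniq⟩ := unpack Z χ θ e he hres
    -- restriction of φ
    have hcomp : ∀ g : H, IsCharacter Z (resTo Z K hZK (cj K g φ)) := fun g =>
      isCharacter_resTo hZK (isCharacter_cj hφ g)
    have hsum : ((Nat.card K : ℂ) * e) • (θ : Z → ℂ) = ∑ g : H, resTo Z K hZK (cj K g φ) := by
      funext z
      have h1 := indFun_res φ ⟨z, hZK z.2⟩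
      rw [hind] at h1
      have h2 := hres z
      have h3 : (Nat.card K : ℂ) ≠ 0 := by exact_mod_cast Nat.card_pos.ne'
      rw [Finset.sum_apply, Pi.smul_apply, smul_eq_mul, mul_assoc, ← h2, h1, mul_inv_cancel_left₀ h3]
      rfl
    have hother : ∀ θ' : Z → ℂ, IsIrrCharacter Z θ' → θ' ≠ θ → classInner (resTo Z K hZK φ) θ' = 0 := by
      intro θ' hθ' hne
      have h1 : ∀ g : H, ∃ n : ℕ, classInner (resTo Z K hZK (cj K g φ)) θ' = n := fun g =>
        (hcomp g).classInner_nat hθ'.isCharacter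
      choose n hn using h1
      have h2 := congrArg (fun F => classInner F θ') hsum
      simp only [classInner_smul_left, classInner_sum_left] at h2
      rw [θ.2.classInner_eq_zero hθ' (fun h => hne h.symm), mul_zero, Finset.sum_congr rfl (fun g _ => hn g)] at h2
      have h3 : ∑ g : H, n g = 0 := by exact_mod_cast h2.symm
      have h4 : n 1 = 0 := Finset.sum_eq_zero_iff.1 h3 1 (Finset.mem_univ _)
      have h5 := hn 1
      rw [cj_one, h4] at h5
      simpa using h5
    obtain ⟨f, hf⟩ := (isCharacter_resTo hZK hφ).classInner_nat θ.2.isCharacter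
    have hφZ : resTo Z K hZK φ = (f : ℂ) • (θ : Z → ℂ) := by
      have h1 := (isCharacter_resTo hZK hφ).isClassFunction.expansion
      rw [h1, Finset.sum_eq_single θ]
      · rw [hf]
      · intro θ' _ hne
        rw [hother θ' θ'.2 (fun h => hne (Subtype.ext h)), zero_smul]
      · intro h; exact absurd (Finset.mem_univ _) h
    have hef : e = K.index * f := by
      have h1 := IndFun.indFun_one K φ
      rw [hind] at h1
      have h2 : (χ : H → ℂ) 1 = e * (θ : Z → ℂ) 1 := hres 1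
      have h3 : φ 1 = f * (θ : Z → ℂ) 1 := congrFun hφZ 1
      rw [h2, h3, ← mul_assoc] at h1
      have := mul_right_cancel₀ θ.2.one_ne_zero h1
      exact_mod_cast this
    have hf0 : f ≠ 0 := by rintro rfl; exact he0 (by simpa using hef)
    apply Cfsg.Agent.S0006.result
    intro p hp
    have := Fact.mk hp
    obtain ⟨P₀⟩ : Nonempty (Sylow p H) := inferInstance
    set S₁ : Subgroup H := (Z ⊔ (P₀ : Subgroup H)) ⊓ K with hS₁
    set L := Subgroup.normalizer (S₁ : Set H) with hL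
    have := Fintype.ofFinite L
    obtain ⟨hZL, hSn, hPL, a, k, n, m, hKL, hKi, hm, D⟩ := exists_data Z K hZK χ θ e he hres p P₀ L hL
    have := Fintype.ofFinite (Z.subgroupOf L)
    let ι : (S₁.subgroupOf L) →* K :=
      { toFun := fun s => ⟨((s : L) : H), (Subgroup.mem_subgroupOf.1 s.2).2⟩
        map_one' := rfl
        map_mul' := fun _ _ => rfl }
    have hΦ : IsCharacter (S₁.subgroupOf L) (fun s => φ (ι s)) := hφ.comp ι
    obtain ⟨I, hYI, hI⟩ := D.final (fun η hη hover => induced_case D f m hf0 (by rw [hef, hKi]) _ hΦ (by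
      funext z
      exact congrFun hφZ (subEquiv Z L hZL z)) η hη hover)
    obtain ⟨M, hM⟩ := push K L hKL I hYI
    refine ⟨M, ?_⟩
    rw [hM, hI]
    congr 1
    have hcard : Nat.card (H ⧸ K) = p ^ n * m := hKi
    have hm0 : m ≠ 0 := by rintro rfl; exact hm (dvd_zero p)
    rw [hcard, Nat.factorization_mul (pow_ne_zero _ hp.ne_zero) hm0]
    simp [hp.factorization_pow, Nat.factorization_eq_zero_of_not_dvd hm]
  refine ⟨hmain, fun h => ?_⟩
  exact Group.isSolvable_of_ker_le_range K.subtype (QuotientGroup.mk' K) (by simp) 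

end Cfsg.Agent.S4563
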