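import Cfsg.Statements.S4564
import Cfsg.Agent.S0886
import Cfsg.Agent.Lib.H76LData
set_option autoImplicit false
open Cfsg
namespace Cfsg.Agent.S4564

open scoped ComplexConjugate
open Cfsg.Agent.Lib Cfsg.Agent.Lib.CharBasic Cfsg.Agent.Lib.Clifford Cfsg.Agent.Lib.CliffordCorr
open Cfsg.Agent.Lib.H76FullRam Cfsg.Agent.Lib.H76Ram Cfsg.Agent.Lib.H76Setup Cfsg.Agent.Lib.H76LData

universe u

theorem cyclic_case {L : Type u} [Group L] [Fintype L] {p : ℕ} [hp : Fact p.Prime] {Z S Y P : Subgroup L} [Z.Normal] [S.Normal]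
    [Y.Normal] {θ : Z → ℂ} {X : L → ℂ} {e a k n : ℕ} [Fintype Z] (D : LData p Z S Y P θ X e a k n)
    (hcyc : IsCyclic (P ⧸ S.subgroupOf P)) (η : S → ℂ) (hη : IsIrrCharacter S η)
    (hover : classInner (resTo Z S D.hZS η) θ ≠ 0) : inertia S η ⊓ P ≤ S := by
  classical
  have := Fintype.ofFinite P
  have := Fintype.ofFinite S
  set N : Subgroup P := S.subgroupOf P with hN
  have := Fintype.ofFinite N
  let η' : N → ℂ := fun n => η (subEquiv S P D.hSP n)
  have hη' : IsIrrCharacter N η' := isIrr_sub D.hSP hη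
  set T : Subgroup P := inertia N η' with hT
  have := Fintype.ofFinite T
  have hNT : N ≤ T := le_inertia hη'.isClassFunction
  -- T / N is cyclic
  set NT : Subgroup T := N.subgroupOf T with hNTdef
  let f : T ⧸ NT →* P ⧸ N := QuotientGroup.map NT N T.subtype (by
    intro x hx
    exact hx)
  have hfinj : Function.Injective f := by
    rw [injective_iff_map_eq_one]
    intro x hx
    obtain ⟨x, rfl⟩ := QuotientGroup.mk_surjective x
    have h1 : f (x : T ⧸ NT) = ((x : P) : P ⧸ N) := rfl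
    rw [h1, QuotientGroup.eq_one_iff] at hx
    exact (QuotientGroup.eq_one_iff x).2 hx
  have hcycT : IsCyclic (T ⧸ NT) := isCyclic_of_injective f hfinj
  let η'' : NT → ℂ := fun n => η' (subEquiv N T hNT n)
  have hη'' : IsIrrCharacter NT η'' := isIrr_sub hNT hη'
  obtain ⟨ψ₀, hψ₀, hext⟩ := Cfsg.Agent.S0886.result NT hcycT η'' hη'' (by
    intro g n
    have h1 : cj N (g : P) η' = η' := g.2
    have h2 := congrFun h1 (subEquiv N T hNT n)
    rw [cj_apply] at h2
    exact h2)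
  have hres : resTo N T hNT ψ₀ = η' := by
    funext m
    exact hext ⟨⟨(m : P), hNT m.2⟩, by rw [hNTdef, Subgroup.mem_subgroupOf]; exact m.2⟩
  have h1 : classInner (resTo N T hNT ψ₀) η' ≠ 0 := by
    rw [hres, hη'.classInner_self]; exact one_ne_zero
  obtain ⟨h2, h3⟩ := corr_irr hNT hη' (fun g => Iff.rfl) hψ₀ h1
  rw [hres, hη'.classInner_self] at h3
  set ψ := indFun T ψ₀ with hψ
  have hc : classInner (resTo S P D.hSP ψ) η = 1 := by
    rw [← classInner_resTo P D.hSP ψ η]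
    exact h3
  have hoverψ : classInner (resTo Z P (D.hZS.trans D.hSP) ψ) θ ≠ 0 := by
    have hb := (isCharacter_resTo D.hSP h2.isCharacter).sub_constituent hη (by rw [hc]; exact one_ne_zero)
    obtain ⟨n, hn⟩ := (isCharacter_resTo D.hZS hη.isCharacter).classInner_nat D.hθ.isCharacter
    obtain ⟨m, hm⟩ := (isCharacter_resTo D.hZS hb).classInner_nat D.hθ.isCharacter
    have hsum : resTo Z P (D.hZS.trans D.hSP) ψ = resTo Z S D.hZS η + resTo Z S D.hZS (resTo S P D.hSP ψ - η) := by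
      funext z
      simp [resTo]
    rw [hsum, classInner_add_left, hn, hm]
    have hn0 : n ≠ 0 := by
      rintro rfl; exact hover (by rw [hn]; simp)
    have : ((n : ℂ) + (m : ℂ)) = ((n + m : ℕ) : ℂ) := by push_cast; ring
    rw [this]
    exact_mod_cast (by omega : n + m ≠ 0)
  have hoff := D.off h2 hoverψ
  have hcard := inertia_card (Z := Z) D.hZS D.hSP hη h2 (by rw [hc]; exact one_ne_zero) hoff
  rw [hc] at hcard
  simp only [map_one, mul_one] at hcard
  have hcard' : S.relIndex (inertia S η ⊓ P) = 1 := by exact_mod_cast hcard.symm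
  exact Subgroup.relIndex_eq_one.1 hcard'

theorem result {H : Type*} [Group H] [Finite H] (Z : Subgroup H) [Z.Normal] (χ : Cfsg.IrrCharacter H) (hfr : ∃ (θ : Cfsg.IrrCharacter ↥Z) (e : ℕ), e ^ 2 = Z.index ∧ ∀ z : ↥Z, (χ : H → ℂ) z = (e : ℂ) * (θ : ↥Z → ℂ) z) (K : Subgroup H) [K.Normal] (hZK : Z ≤ K) (p : ℕ) [Fact p.Prime] (P : Sylow p (H ⧸ K)) (hcyc : IsCyclic P) : ∃ M : Subgroup (H ⧸ K), M.IsComplement' (P : Subgroup (H ⧸ K)) := by
  classical
  have hp : p.Prime := Fact.out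
  have := Fintype.ofFinite H
  have := Fintype.ofFinite Z
  obtain ⟨θ, e, he, hres⟩ := hfr
  obtain ⟨P₀⟩ : Nonempty (Sylow p H) := inferInstance
  set S₁ : Subgroup H := (Z ⊔ (P₀ : Subgroup H)) ⊓ K with hS₁
  set L := Subgroup.normalizer (S₁ : Set H) with hL
  have := Fintype.ofFinite L
  obtain ⟨hZL, hSn, hPL, a, k, n, m, hKL, hKi, hm, D⟩ := exists_data Z K hZK χ θ e he hres p P₀ L hL
  have := Fintype.ofFinite (Z.subgroupOf L)
  -- cyclicity
  let f : (Z ⊔ (P₀ : Subgroup H)).subgroupOf L →* H ⧸ K :=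
    ((QuotientGroup.mk' K).comp L.subtype).comp ((Z ⊔ (P₀ : Subgroup H)).subgroupOf L).subtype
  have hfker : f.ker = (S₁.subgroupOf L).subgroupOf ((Z ⊔ (P₀ : Subgroup H)).subgroupOf L) := by
    ext x
    rw [MonoidHom.mem_ker, Subgroup.mem_subgroupOf, Subgroup.mem_subgroupOf, hS₁, Subgroup.mem_inf]
    have h1 : f x = (((x : L) : H) : H ⧸ K) := rfl
    rw [h1, QuotientGroup.eq_one_iff]
    constructor
    · intro h; exact ⟨Subgroup.mem_subgroupOf.1 x.2, h⟩
    · intro h; exact h.2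
  have hπs : Function.Surjective (QuotientGroup.mk' K) := QuotientGroup.mk'_surjective K
  have hcyc₀ : IsCyclic (P₀.mapSurjective hπs) := by
    have e := Sylow.equiv P (P₀.mapSurjective hπs)
    exact isCyclic_of_surjective e e.surjective
  have hfrange : ∀ x, f x ∈ (P₀.mapSurjective hπs : Subgroup (H ⧸ K)) := by
    intro x
    rw [Sylow.coe_mapSurjective]
    have hx := Subgroup.mem_subgroupOf.1 x.2
    rw [mem_sup_left] at hx
    obtain ⟨z, hz, y, hy, hxy⟩ := hx
    refine ⟨y, hy, ?_⟩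
    have h1 : f x = (((x : L) : H) : H ⧸ K) := rfl
    rw [h1, hxy, QuotientGroup.mk_mul, (QuotientGroup.eq_one_iff z).2 (hZK hz), one_mul]
    rfl
  have hcyc' : IsCyclic (((Z ⊔ (P₀ : Subgroup H)).subgroupOf L) ⧸
      (S₁.subgroupOf L).subgroupOf ((Z ⊔ (P₀ : Subgroup H)).subgroupOf L)) := by
    let g : ((Z ⊔ (P₀ : Subgroup H)).subgroupOf L) →* (P₀.mapSurjective hπs : Subgroup (H ⧸ K)) :=
      f.codRestrict _ hfrange
    have hgker : ∀ x, x ∈ (S₁.subgroupOf L).subgroupOf ((Z ⊔ (P₀ : Subgroup H)).subgroupOf L) ↔ g x = 1 := by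
      intro x
      rw [← hfker, MonoidHom.mem_ker, Subtype.ext_iff]
      rfl
    let g' := QuotientGroup.lift ((S₁.subgroupOf L).subgroupOf ((Z ⊔ (P₀ : Subgroup H)).subgroupOf L)) g
      (fun x hx => (hgker x).1 hx)
    refine isCyclic_of_injective g' ?_
    rw [injective_iff_map_eq_one]
    intro x hx
    obtain ⟨x, rfl⟩ := QuotientGroup.mk_surjective x
    have h1 : g' (x : _ ⧸ _) = g x := rfl
    rw [h1] at hx
    exact (QuotientGroup.eq_one_iff x).2 ((hgker x).2 hx)
  obtain ⟨I, hYI, hI⟩ := D.final (cyclic_case D hcyc')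
  obtain ⟨M, hM⟩ := push K L hKL I hYI
  refine ⟨M, ?_⟩
  rw [hI] at hM
  have hcard : Nat.card (H ⧸ K) = p ^ n * m := hKi
  have hMc : Nat.card M = m := by
    have := Subgroup.card_mul_index M
    rw [hM, hcard, mul_comm] at this
    exact Nat.eq_of_mul_eq_mul_left (pow_pos hp.pos n) this
  have hm0 : m ≠ 0 := by rintro rfl; exact hm (dvd_zero p)
  have hPc : Nat.card P = p ^ n := by
    rw [Sylow.card_eq_multiplicity, hcard, Nat.factorization_mul (pow_ne_zero _ hp.ne_zero) hm0]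
    simp [hp.factorization_pow, Nat.factorization_eq_zero_of_not_dvd hm]
  apply Subgroup.isComplement'_of_coprime
  · rw [hMc, hPc, hcard, mul_comm]
  · rw [hMc, hPc]
    exact (Nat.Coprime.pow_left n ((Nat.Prime.coprime_iff_not_dvd hp).2 hm)).symm

end Cfsg.Agent.S4564
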