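import Cfsg.Statements.S4565
import Cfsg.Agent.S0886
import Cfsg.Agent.Lib.H76Coset
set_option autoImplicit false
open Cfsg
namespace Cfsg.Agent.S4565

open scoped ComplexConjugate
open Cfsg.Agent.Lib.CharBasic Cfsg.Agent.Lib.Clifford Cfsg.Agent.Lib.CliffordCorr
open Cfsg.Agent.Lib.H76FullRam Cfsg.Agent.Lib.H76Coset

theorem result {H : Type*} [Group H] [Finite H] (Z : Subgroup H) [Z.Normal] (χ : Cfsg.IrrCharacter H) (hfr : ∃ (θ : Cfsg.IrrCharacter ↥Z) (e : ℕ), e ^ 2 = Z.index ∧ ∀ z : ↥Z, (χ : H → ℂ) z = (e : ℂ) * (θ : ↥Z → ℂ) z) (hZ : Z ≠ ⊤) (C : Subgroup (H ⧸ Z)) (hC : IsCyclic C) : Subgroup.centralizer (C : Set (H ⧸ Z)) ≠ C := by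
  classical
  intro hself
  have := Fintype.ofFinite H
  have := Fintype.ofFinite Z
  obtain ⟨θ, e, he, hres⟩ := hfr
  obtain ⟨he0, hci, hoff, hinv, huniq⟩ := unpack Z χ θ e he hres
  -- generator
  obtain ⟨c, hc⟩ := hC.exists_generator
  obtain ⟨g₀, hg₀⟩ := QuotientGroup.mk_surjective (c : H ⧸ Z)
  set π : H →* H ⧸ Z := QuotientGroup.mk' Z with hπ
  set D : Subgroup H := C.comap π with hD
  have hZD : Z ≤ D := by
    intro z hz
    rw [hD, Subgroup.mem_comap]
    have : π z = 1 := (QuotientGroup.eq_one_iff z).2 hz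
    rw [this]; exact C.one_mem
  have hg₀D : g₀ ∈ D := by
    rw [hD, Subgroup.mem_comap]
    show ((g₀ : H) : H ⧸ Z) ∈ C
    rw [hg₀]; exact c.2
  have hCpow : ∀ y ∈ C, ∃ k : ℤ, y = (g₀ : H ⧸ Z) ^ k := by
    intro y hy
    obtain ⟨k, hk⟩ := Subgroup.mem_zpowers_iff.1 (hc ⟨y, hy⟩)
    refine ⟨k, ?_⟩
    rw [hg₀]
    have := congrArg Subtype.val hk
    simpa using this.symm
  set N : Subgroup D := Z.subgroupOf D with hN
  have := Fintype.ofFinite D
  have := Fintype.ofFinite N
  have hmk : ∀ x y : D, (x : D ⧸ N) = (y : D ⧸ N) ↔ ((x : H) : H ⧸ Z) = ((y : H) : H ⧸ Z) := by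
    intro x y
    rw [QuotientGroup.eq, QuotientGroup.eq, hN, Subgroup.mem_subgroupOf]
    simp
  set g : D := ⟨g₀, hg₀D⟩ with hg
  have hcycDN : IsCyclic (D ⧸ N) := by
    refine ⟨⟨(g : D ⧸ N), ?_⟩⟩
    intro q
    obtain ⟨x, rfl⟩ := QuotientGroup.mk_surjective q
    obtain ⟨k, hk⟩ := hCpow (π x) (Subgroup.mem_comap.1 x.2)
    refine Subgroup.mem_zpowers_iff.2 ⟨k, ?_⟩
    rw [← QuotientGroup.mk_zpow, hmk]
    rw [show ((g ^ k : D) : H) = g₀ ^ k by simp [hg], QuotientGroup.mk_zpow]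
    exact hk.symm
  have hab : ∀ a b : D ⧸ N, a * b = b * a := fun a b =>
    (IsCyclic.commGroup (α := D ⧸ N)).mul_comm a b
  -- transport θ to N
  let θ' : N → ℂ := fun n => (θ : Z → ℂ) (subEquiv Z D hZD n)
  have hθ' : IsIrrCharacter N θ' := (isIrrCharacter_comp_mulEquiv_iff (subEquiv Z D hZD)).2 θ.2
  have hθ'inv : ∀ (d : D) (n : N), θ' ⟨d * n * d⁻¹, (inferInstance : N.Normal).conj_mem (n : D) n.2 d⟩ = θ' n := by
    intro d n
    have h1 := congrFun (hinv (d : H)) (subEquiv Z D hZD n)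
    rw [cj_apply] at h1
    exact h1
  obtain ⟨ψ, hψ, hψext⟩ := Cfsg.Agent.S0886.result N hcycDN θ' hθ' hθ'inv
  have hψext' : ∀ n : N, ψ n = θ' n := hψext
  -- F
  let F : D → ℂ := fun x => cosetInd N g x * ψ x
  have hF1 : classInner F ψ = 1 := sum_coset N hθ' hψ hψext' g
  have hFcf : IsClassFunction D F := by
    intro x y
    show cosetInd N g (y * x * y⁻¹) * ψ (y * x * y⁻¹) = _
    rw [hψ.isClassFunction x y]
    congr 1
    rw [cosetInd_apply N hab, cosetInd_apply N hab]
    have : ((y * x * y⁻¹ : D) : D ⧸ N) = (x : D ⧸ N) := by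
      rw [QuotientGroup.mk_mul, QuotientGroup.mk_mul, hab (y : D ⧸ N), mul_assoc, ← QuotientGroup.mk_mul,
        mul_inv_cancel, QuotientGroup.mk_one, mul_one]
    rw [this]
  -- g₀ ∉ Z
  have hg₀Z : g₀ ∉ Z := by
    intro h
    have h1 : (g₀ : H ⧸ Z) = 1 := (QuotientGroup.eq_one_iff g₀).2 h
    have hbot : C = ⊥ := by
      rw [eq_bot_iff]
      intro y hy
      obtain ⟨k, hk⟩ := hCpow y hy
      rw [hk, h1, one_zpow]; exact Subgroup.one_mem _
    rw [hbot] at hself
    have htop : Subgroup.centralizer ((⊥ : Subgroup (H ⧸ Z)) : Set (H ⧸ Z)) = ⊤ := by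
      rw [eq_top_iff]
      intro y _
      rw [Subgroup.mem_centralizer_iff]
      intro z hz
      have : z = 1 := by simpa using hz
      rw [this, one_mul, mul_one]
    rw [htop] at hself
    apply hZ
    rw [eq_top_iff]
    intro x _
    have : ((x : H) : H ⧸ Z) ∈ (⊥ : Subgroup (H ⧸ Z)) := by rw [← hself]; trivial
    rw [Subgroup.mem_bot] at this
    exact (QuotientGroup.eq_one_iff x).1 this
  -- indFun D F vanishes off Z
  have hindF : ∀ y : H, y ∉ Z → indFun D F y = 0 := by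
    intro y hy
    have hFsum : F = ∑ lam : IrrCharacter (D ⧸ N),
      conj ((lam : D ⧸ N → ℂ) (g : D ⧸ N)) • (infl N (lam : D ⧸ N → ℂ) * ψ) := by
      funext x
      simp only [F, cosetInd, Finset.sum_mul, Finset.sum_apply, Pi.smul_apply, Pi.mul_apply, smul_eq_mul, infl]
      exact Finset.sum_congr rfl fun _ _ => by ring
    rw [hFsum, Lib.IndFun.indFun_sum, Finset.sum_apply]
    apply Finset.sum_eq_zero
    intro lam _
    rw [Lib.IndFun.indFun_smul, Pi.smul_apply, smul_eq_mul]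
    obtain ⟨hirr, -⟩ := infl_mul_ext N hθ' hψ hψext' lam
    have hzero : indFun D (infl N (lam : D ⧸ N → ℂ) * ψ) y = 0 := by
      apply eq_zero_of_over χ hoff (Lib.IndFun.indFun_isClassFunction D _) _ y hy
      intro ξ hξ hne
      apply huniq ξ hξ
      apply over_of_constituent hZD θ.2 hirr _ hξ hne
      have : resTo Z D hZD (infl N (lam : D ⧸ N → ℂ) * ψ) = ((lam : D ⧸ N → ℂ) 1) • (θ : Z → ℂ) := by
        funext z
        have h1 : (⟨(z : H), hZD z.2⟩ : D) ∈ N := by
          rw [hN, Subgroup.mem_subgroupOf]; exact z.2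
        have h2 : ψ ⟨(z : H), hZD z.2⟩ = (θ : Z → ℂ) z := hψext' ⟨_, h1⟩
        simp only [resTo, Pi.mul_apply, Pi.smul_apply, smul_eq_mul, infl, h2]
        rw [(QuotientGroup.eq_one_iff _).2 h1]
      rw [this, classInner_smul_left, θ.2.classInner_self, mul_one]
      exact lam.2.one_ne_zero
    rw [hzero, mul_zero]
  -- F vanishes
  have hF0 : ∀ x : D, F x = 0 := by
    intro x
    by_cases hx : (x : D ⧸ N) = (g : D ⧸ N)
    · have hxH : ((x : H) : H ⧸ Z) = (g₀ : H ⧸ Z) := (hmk x g).1 hx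
      have hxZ : (x : H) ∉ Z := by
        intro h
        apply hg₀Z
        rw [← QuotientGroup.eq_one_iff, ← hxH, QuotientGroup.eq_one_iff]
        exact h
      have h1 := hindF x hxZ
      rw [Lib.IndFun.indFun_apply] at h1
      have h2 : ∀ y : H, extendByZero D F (y⁻¹ * x * y) = if y ∈ D then F x else 0 := by
        intro y
        split_ifs with hy
        · have h3 : y⁻¹ * (x : H) * y ∈ D := D.mul_mem (D.mul_mem (D.inv_mem hy) x.2) hy
          rw [Lib.IndFun.extendByZero_mem _ _ h3]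
          have h4 := hFcf x (⟨y, hy⟩ : D)⁻¹
          rw [← h4]
          congr 1
          ext; simp
        · by_cases h3 : y⁻¹ * (x : H) * y ∈ D
          · rw [Lib.IndFun.extendByZero_mem _ _ h3]
            show cosetInd N g _ * _ = 0
            rw [cosetInd_apply N hab, if_neg, zero_mul]
            intro h4
            apply hy
            have h5 : ((y⁻¹ * (x : H) * y : H) : H ⧸ Z) = (g₀ : H ⧸ Z) := (hmk ⟨_, h3⟩ g).1 h4
            have h6 : ((y : H) : H ⧸ Z) ∈ Subgroup.centralizer (C : Set (H ⧸ Z)) := by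
              rw [Subgroup.mem_centralizer_iff]
              intro z hz
              obtain ⟨k, rfl⟩ := hCpow z hz
              have h7 : Commute ((y : H) : H ⧸ Z) ((g₀ : H) : H ⧸ Z) := by
                rw [QuotientGroup.mk_mul, QuotientGroup.mk_mul, hxH, QuotientGroup.mk_inv] at h5
                show _ * _ = _ * _
                have h8 : ((g₀ : H) : H ⧸ Z) * (y : H ⧸ Z) = (y : H ⧸ Z) * (g₀ : H ⧸ Z) := by
                  calc ((g₀ : H) : H ⧸ Z) * (y : H ⧸ Z) = (y : H ⧸ Z) * ((y : H ⧸ Z)⁻¹ * (g₀ : H ⧸ Z) * (y : H ⧸ Z)) := by group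
                    _ = _ := by rw [h5]
                exact h8.symm
              exact (h7.zpow_right k).symm.eq
            rw [hself] at h6
            rw [hD, Subgroup.mem_comap]
            exact h6
          · rw [Lib.IndFun.extendByZero_not_mem _ _ h3]
      simp only [h2] at h1
      rw [← Finset.sum_filter, Finset.sum_const, nsmul_eq_mul] at h1
      have hDcard : (Nat.card D : ℂ) ≠ 0 := by exact_mod_cast Nat.card_pos.ne'
      have h3 : ((Finset.univ.filter (fun y : H => y ∈ D)).card : ℂ) = Nat.card D := by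
        rw [← Fintype.card_subtype, Nat.card_eq_fintype_card]
      rw [h3] at h1
      rcases mul_eq_zero.1 h1 with h | h
      · exact absurd h (inv_ne_zero hDcard)
      · rcases mul_eq_zero.1 h with h | h
        · exact absurd h hDcard
        · exact h
    · show cosetInd N g x * ψ x = 0
      rw [cosetInd_apply N hab, if_neg hx, zero_mul]
  have : F = 0 := funext hF0
  rw [this, classInner_zero_left] at hF1
  exact zero_ne_one hF1

end Cfsg.Agent.S4565
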