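import Cfsg.Statements.S4566
import Cfsg.Agent.Lib.CharBasic2
import Cfsg.Agent.Lib.CharCentral
set_option autoImplicit false
open Cfsg
namespace Cfsg.Agent.S4566

open Cfsg.Agent.Lib.CharBasic

/-- An irreducible character restricted to a central subgroup: the central hom. -/
theorem exists_central_hom {G : Type*} [Group G] [Finite G] {χ : G → ℂ} (hχ : IsIrrCharacter G χ)
    (N : Subgroup G) (hN : N ≤ Subgroup.center G) :
    ∃ lam : N →* ℂˣ, ∀ (n : N) (g : G), χ ((n : G) * g) = (lam n : ℂ) * χ g := by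
  have hχ1 := hχ.one_ne_zero
  obtain ⟨k, ρ, hρ, rfl⟩ := hχ
  have : ρ.IsIrreducible := hρ
  have h1 : ∀ n : N, ∃ c : ℂ, ρ (n : G) = c • (LinearMap.id : (Fin k → ℂ) →ₗ[ℂ] (Fin k → ℂ)) := by
    intro n
    refine Lib.CharCentral.exists_scalar_of_commute ρ (ρ (n : G)) ?_
    intro g v
    have hc : (n : G) * g = g * n := (Subgroup.mem_center_iff.1 (hN n.2) g).symm
    rw [← Module.End.mul_apply, ← Module.End.mul_apply, ← map_mul, ← map_mul, hc]
  choose c hc using h1
  have h2 : ∀ (n : N) (g : G), ρ.character ((n : G) * g) = c n * ρ.character g := by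
    intro n g
    simp only [Representation.character, map_mul]
    rw [hc n]
    have : (c n • (LinearMap.id : (Fin k → ℂ) →ₗ[ℂ] (Fin k → ℂ))) * ρ g = c n • ρ g := by
      ext v; simp
    rw [this, map_smul, smul_eq_mul]
  have hc1 : c 1 = 1 := by
    have := h2 1 1
    simp only [OneMemClass.coe_one, one_mul] at this
    exact (mul_right_cancel₀ hχ1 (by rw [← this, one_mul]))
  have hcm : ∀ a b : N, c (a * b) = c a * c b := by
    intro a b
    have e1 := h2 (a * b) 1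
    have e2 := h2 a ((b : G) * 1)
    rw [h2 b 1] at e2
    have e3 : ((a * b : N) : G) * 1 = (a : G) * ((b : G) * 1) := by
      rw [Subgroup.coe_mul, mul_assoc]
    rw [e3, e2] at e1
    apply mul_right_cancel₀ hχ1
    rw [← e1]; ring
  let f : N →* ℂ := { toFun := c, map_one' := hc1, map_mul' := hcm }
  exact ⟨f.toHomUnits, fun n g => h2 n g⟩

theorem result {G : Type*} [Group G] [Fintype G] (N : Subgroup G) [Fintype N] (hN : N ≤ Subgroup.center G) (ψ : Cfsg.IrrCharacter ↥N) (hfaith : ∀ n : ↥N, (ψ : ↥N → ℂ) n = (ψ : ↥N → ℂ) 1 → n = 1) (χ : Cfsg.IrrCharacter G) (hover : Cfsg.classInner (fun n : ↥N => (χ : G → ℂ) n) (ψ : ↥N → ℂ) ≠ 0) (g x : G) (hcomm : x⁻¹ * g⁻¹ * x * g ∈ N) (hne : x⁻¹ * g⁻¹ * x * g ≠ 1) : (χ : G → ℂ) g = 0 := by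
  obtain ⟨lam, hlam⟩ := exists_central_hom χ.2 N hN
  -- ψ = lam
  have hres : (fun n : ↥N => (χ : G → ℂ) n) = (χ : G → ℂ) 1 • (fun n : N => (lam n : ℂ)) := by
    funext n
    have := hlam n 1
    rw [mul_one] at this
    rw [this]
    simp [mul_comm]
  have hψ : (fun n : N => (lam n : ℂ)) = (ψ : N → ℂ) := by
    by_contra hcon
    apply hover
    rw [hres, classInner_smul_left, (isIrrCharacter_of_unitsHom lam).classInner_eq_zero ψ.2 hcon, mul_zero]
  set n : N := ⟨x⁻¹ * g⁻¹ * x * g, hcomm⟩ with hn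
  have h1 : (lam n : ℂ) ≠ 1 := by
    intro h1
    have h2 : n = 1 := by
      apply hfaith
      rw [← hψ]
      simp [h1]
    apply hne
    have := congrArg Subtype.val h2
    simpa [hn] using this
  have h2 : (χ : G → ℂ) g⁻¹ = (lam n : ℂ) * (χ : G → ℂ) g⁻¹ := by
    rw [← hlam n g⁻¹]
    have e : (n : G) * g⁻¹ = x⁻¹ * g⁻¹ * x := by rw [hn]; group
    rw [e, χ.2.isClassFunction.conj_eq']
  have h3 : (χ : G → ℂ) g⁻¹ = 0 := by
    by_contra hne0
    apply h1
    have : (1 : ℂ) * (χ : G → ℂ) g⁻¹ = (lam n : ℂ) * (χ : G → ℂ) g⁻¹ := by rw [one_mul, ← h2]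
    exact (mul_right_cancel₀ hne0 this).symm
  rw [χ.2.inv] at h3
  exact (map_eq_zero _).1 h3

end Cfsg.Agent.S4566
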