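import Cfsg.Statements.S4567
import Cfsg.Agent.Lib.CharBasic2
import Cfsg.Agent.Lib.CharCentral

set_option autoImplicit false
open Cfsg

namespace Cfsg.Agent.S4567

open scoped ComplexConjugate
open Cfsg Cfsg.Agent.Lib Cfsg.Agent.Lib.CharBasic

universe u

variable {G : Type u} [Group G]

/-- counting the classes in an invariant set -/
theorem count_classes {Q : Type u} [Group Q] [Fintype Q] (S : Q → Prop) [DecidablePred S]
    (hS : ∀ q r : Q, IsConj q r → S q → S r) :
    ∑ q : Q, (if S q then Nat.card (Subgroup.centralizer ({q} : Set Q)) else 0) =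
      Nat.card Q * Nat.card {C : ConjClasses Q // ∃ q, ConjClasses.mk q = C ∧ S q} := by
  classical
  rw [← Finset.sum_fiberwise (Finset.univ : Finset Q) (fun q => ConjClasses.mk q)]
  have h1 : ∀ C : ConjClasses Q, ∑ q with ConjClasses.mk q = C,
      (if S q then Nat.card (Subgroup.centralizer ({q} : Set Q)) else 0) =
      if (∃ q, ConjClasses.mk q = C ∧ S q) then Nat.card Q else 0 := by
    intro C
    by_cases h : ∃ q, ConjClasses.mk q = C ∧ S q
    · rw [if_pos h]
      obtain ⟨q₀, rfl, hq₀⟩ := h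
      have h2 : ∀ q ∈ Finset.univ.filter (fun q : Q => ConjClasses.mk q = ConjClasses.mk q₀),
          (if S q then Nat.card (Subgroup.centralizer ({q} : Set Q)) else 0) =
          Nat.card (Subgroup.centralizer ({q₀} : Set Q)) := by
        intro q hq
        rw [Finset.mem_filter, ConjClasses.mk_eq_mk_iff_isConj] at hq
        have hc : IsConj q₀ q := hq.2.symm
        rw [if_pos (hS q₀ q hc hq₀)]
        obtain ⟨c, hc2⟩ := isConj_iff.1 hc
        have h3 := card_isConj q₀
        have h4 := card_isConj q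
        have h5 : Nat.card {x : Q // IsConj q₀ x} = Nat.card {x : Q // IsConj q x} :=
          Nat.card_congr (Equiv.subtypeEquivRight (fun x => ⟨fun h => hc.symm.trans h, fun h => hc.trans h⟩))
        rw [h5, h4] at h3
        have h6 := Subgroup.card_mul_index (Subgroup.centralizer ({q} : Set Q))
        have h7 := Subgroup.card_mul_index (Subgroup.centralizer ({q₀} : Set Q))
        rw [← h3, ← h6] at h7
        exact (Nat.eq_of_mul_eq_mul_right (Nat.pos_of_ne_zero Subgroup.index_ne_zero_of_finite) h7).symm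
      rw [Finset.sum_congr rfl h2, Finset.sum_const, smul_eq_mul, ← card_isConj_mul_card_centralizer q₀]
      congr 1
      rw [Nat.card_eq_fintype_card, Fintype.card_subtype]
      congr 1
      ext q
      rw [Finset.mem_filter, Finset.mem_filter, ConjClasses.mk_eq_mk_iff_isConj, isConj_comm]
    · rw [if_neg h]
      apply Finset.sum_eq_zero
      intro q hq
      rw [Finset.mem_filter] at hq
      rw [if_neg]
      intro hs
      exact h ⟨q, hq.2, hs⟩
  rw [Finset.sum_congr rfl (fun C _ => h1 C), ← Finset.sum_filter, Finset.sum_const, smul_eq_mul, mul_comm]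
  congr 1
  rw [Nat.card_eq_fintype_card, Fintype.card_subtype]

/-- central elements act by scalars -/
theorem exists_central [Fintype G] (N : Subgroup G) (hN : N ≤ Subgroup.center G) {χ : G → ℂ}
    (hχ : IsIrrCharacter G χ) : ∃ lam : N → ℂ, IsIrrCharacter N lam ∧ ∀ (g : G) (n : N), χ (g * n) = χ g * lam n := by
  obtain ⟨m, ρ, hρ, rfl⟩ := hχ
  have hρ' : IsIrrCharacter G ρ.character := ⟨m, ρ, hρ, rfl⟩
  have h1 : ∀ n : N, ∃ c : ℂ, ρ (n : G) = c • (LinearMap.id : (Fin m → ℂ) →ₗ[ℂ] (Fin m → ℂ)) := by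
    intro n
    have := hρ
    apply CharCentral.exists_scalar_of_commute ρ
    intro g
    have h2 : g * (n : G) = n * g := (Subgroup.mem_center_iff.1 (hN n.2) g)
    intro v
    have h3 : ρ (n : G) * ρ g = ρ g * ρ (n : G) := by rw [← map_mul, ← map_mul, h2]
    exact congrArg (fun T => T v) h3
  choose c hc using h1
  have h2 : ∀ (g : G) (n : N), ρ.character (g * n) = ρ.character g * c n := by
    intro g n
    unfold Representation.character
    rw [map_mul, hc n]
    have : ρ g * (c n • (LinearMap.id : (Fin m → ℂ) →ₗ[ℂ] (Fin m → ℂ))) = c n • ρ g := by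
      ext v
      simp
    rw [this, map_smul, smul_eq_mul, mul_comm]
  have h3 : ρ.character 1 ≠ 0 := hρ'.one_ne_zero
  have hc1 : c 1 = 1 := by
    have h4 := h2 1 1
    rw [Subgroup.coe_one, mul_one] at h4
    have h5 : ρ.character 1 * c 1 = ρ.character 1 * 1 := by rw [mul_one]; exact h4.symm
    exact mul_left_cancel₀ h3 h5
  have hcm : ∀ a b : N, c (a * b) = c a * c b := by
    intro a b
    have h4 := h2 1 (a * b)
    have h5 := h2 (1 * a) b
    rw [h2 1 a] at h5
    rw [Subgroup.coe_mul, ← mul_assoc, h5] at h4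
    have h6 : ρ.character 1 * c (a * b) = ρ.character 1 * (c a * c b) := by rw [← h4, mul_assoc]
    exact mul_left_cancel₀ h3 h6
  let f : N →* ℂ := { toFun := c, map_one' := hc1, map_mul' := hcm }
  refine ⟨c, ?_, h2⟩
  have h7 := isIrrCharacter_of_unitsHom f.toHomUnits
  exact h7

/-- the special elements -/
def Sp (N : Subgroup G) (g : G) : Prop := ∀ x : G, x⁻¹ * g⁻¹ * x * g ∈ N → x * g = g * x

theorem Sp.mul {N : Subgroup G} (hN : N ≤ Subgroup.center G) {g : G} (h : Sp N g) {n : G} (hn : n ∈ N) :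
    Sp N (g * n) := by
  intro x hx
  have hc : ∀ y : G, y * n = n * y := fun y => Subgroup.mem_center_iff.1 (hN hn) y
  have h1 : x⁻¹ * (g * n)⁻¹ * x * (g * n) = x⁻¹ * g⁻¹ * x * g := by
    rw [mul_inv_rev]
    have e1 : n⁻¹ * g⁻¹ = g⁻¹ * n⁻¹ := by
      rw [← mul_inv_rev, ← mul_inv_rev, hc g]
    rw [e1]
    have e2 : n⁻¹ * x = x * n⁻¹ := by
      rw [inv_mul_eq_iff_eq_mul, ← mul_assoc, ← hc x, mul_inv_cancel_right]
    calc x⁻¹ * (g⁻¹ * n⁻¹) * x * (g * n) = x⁻¹ * g⁻¹ * (n⁻¹ * x) * (g * n) := by group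
      _ = x⁻¹ * g⁻¹ * (x * n⁻¹) * (g * n) := by rw [e2]
      _ = x⁻¹ * g⁻¹ * x * n⁻¹ * (n * g) := by rw [hc g]; group
      _ = x⁻¹ * g⁻¹ * x * g := by group
  rw [h1] at hx
  have h2 := h x hx
  rw [← mul_assoc, h2, mul_assoc, mul_assoc, hc x]

theorem sp_mul_iff {N : Subgroup G} (hN : N ≤ Subgroup.center G) {g n : G} (hn : n ∈ N) : Sp N (g * n) ↔ Sp N g := by
  constructor
  · intro h
    have := h.mul hN (N.inv_mem hn)
    rwa [mul_inv_cancel_right] at this
  · intro h; exact h.mul hN hn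

theorem Sp.conj {N : Subgroup G} [hNn : N.Normal] {g : G} (h : Sp N g) (c : G) : Sp N (c * g * c⁻¹) := by
  intro x hx
  have h1 := h (c⁻¹ * x * c) (by
    have h2 := hNn.conj_mem _ hx c⁻¹
    have e : c⁻¹ * (x⁻¹ * (c * g * c⁻¹)⁻¹ * x * (c * g * c⁻¹)) * c⁻¹⁻¹ =
      (c⁻¹ * x * c)⁻¹ * g⁻¹ * (c⁻¹ * x * c) * g := by group
    rwa [e] at h2)
  have h3 := congrArg (fun z => c * z * c⁻¹) h1
  have e1 : c * (c⁻¹ * x * c * g) * c⁻¹ = x * (c * g * c⁻¹) := by group
  have e2 : c * (g * (c⁻¹ * x * c)) * c⁻¹ = c * g * c⁻¹ * x := by group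
  simp only [e1, e2] at h3
  exact h3

/-- for a special element only the trivial `n` has `gn` conjugate to `g`. -/
theorem Sp.eq_one {N : Subgroup G} [hNn : N.Normal] {g : G} (h : Sp N g) {n : G} (hn : n ∈ N)
    (hc : IsConj (g * n) g) : n = 1 := by
  obtain ⟨c, hc⟩ := isConj_iff.1 hc
  have h1 : c⁻¹ * g * c = g * n := by
    have h0 : c⁻¹ * (c * (g * n) * c⁻¹) * c = g * n := by group
    rwa [hc] at h0
  have h2 : c * g = g * c := by
    apply h c
    have h3 : (c⁻¹ * g⁻¹ * c) = (c⁻¹ * g * c)⁻¹ := by group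
    rw [h3, h1, mul_inv_rev, inv_mul_cancel_right]
    exact N.inv_mem hn
  have h4 : c⁻¹ * g * c = g := by rw [mul_assoc, ← h2, inv_mul_cancel_left]
  rw [h1] at h4
  simpa using h4

/-- for a non special element there is a nontrivial `n` with `gn` conjugate to `g`. -/
theorem exists_of_not_sp {N : Subgroup G} {g : G} (h : ¬ Sp N g) : ∃ n ∈ N, n ≠ 1 ∧ IsConj (g * n) g := by
  unfold Sp at h
  push Not at h
  obtain ⟨x, hx, hne⟩ := h
  -- x⁻¹ g⁻¹ x g = n ; then (x⁻¹ g x)⁻¹ g = n ; g n⁻¹ = x⁻¹ g x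
  refine ⟨(x⁻¹ * g⁻¹ * x * g)⁻¹, N.inv_mem hx, ?_, ?_⟩
  · intro h1
    apply hne
    have h2 : x⁻¹ * g⁻¹ * x * g = 1 := by
      rw [← inv_inv (x⁻¹ * g⁻¹ * x * g), h1, inv_one]
    have h3 : x * g = g * x * (x⁻¹ * g⁻¹ * x * g) := by group
    rw [h3, h2, mul_one]
  · have h1 : g * (x⁻¹ * g⁻¹ * x * g)⁻¹ = x⁻¹ * g * x := by group
    rw [h1]
    exact isConj_iff.2 ⟨x, by group⟩

theorem card_centralizer_eq [Finite G] {N : Subgroup G} [hNn : N.Normal] (hN : N ≤ Subgroup.center G) {g : G} (h : Sp N g) :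
    Nat.card (Subgroup.centralizer ({g} : Set G)) =
      Nat.card N * Nat.card (Subgroup.centralizer ({(g : G ⧸ N)} : Set (G ⧸ N))) := by
  have h1 : Subgroup.centralizer ({g} : Set G) =
      (Subgroup.centralizer ({(g : G ⧸ N)} : Set (G ⧸ N))).comap (QuotientGroup.mk' N) := by
    ext x
    rw [Subgroup.mem_comap, Subgroup.mem_centralizer_singleton_iff, Subgroup.mem_centralizer_singleton_iff]
    constructor
    · intro hx
      show ((x : G ⧸ N)) * (g : G ⧸ N) = g * x
      rw [← QuotientGroup.mk_mul, hx, QuotientGroup.mk_mul]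
    · intro hx
      apply h x
      have h2 : ((x * g : G) : G ⧸ N) = ((g * x : G) : G ⧸ N) := by
        rw [QuotientGroup.mk_mul, QuotientGroup.mk_mul]; exact hx
      have h3 : (((g * x)⁻¹ * (x * g) : G) : G ⧸ N) = 1 := by
        rw [QuotientGroup.mk_mul, QuotientGroup.mk_inv, h2, inv_mul_cancel]
      rw [QuotientGroup.eq_one_iff] at h3
      have e : (g * x)⁻¹ * (x * g) = x⁻¹ * g⁻¹ * x * g := by group
      rwa [e] at h3
  have h2 := Subgroup.card_mul_index (Subgroup.centralizer ({g} : Set G))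
  rw [h1, Subgroup.index_comap_of_surjective _ (QuotientGroup.mk'_surjective N), ← h1] at h2
  have h3 := Subgroup.card_mul_index (Subgroup.centralizer ({(g : G ⧸ N)} : Set (G ⧸ N)))
  have h4 := Subgroup.card_mul_index N
  have h5 : N.index = Nat.card (G ⧸ N) := rfl
  rw [h5, ← h3, ← mul_assoc] at h4
  rw [← h4] at h2
  exact Nat.eq_of_mul_eq_mul_right (Nat.pos_of_ne_zero Subgroup.index_ne_zero_of_finite) h2

theorem sum_quotient [Fintype G] {N : Subgroup G} [hNn : N.Normal] [Fintype (G ⧸ N)] (F : G ⧸ N → ℕ) :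
    ∑ g : G, F (g : G ⧸ N) = Nat.card N * ∑ q : G ⧸ N, F q := by
  classical
  rw [← Finset.sum_fiberwise (Finset.univ : Finset G) (fun g => (g : G ⧸ N)), Finset.mul_sum]
  apply Finset.sum_congr rfl
  intro q _
  obtain ⟨g₀, rfl⟩ := QuotientGroup.mk_surjective q
  rw [Finset.sum_congr rfl (g := fun _ => F (g₀ : G ⧸ N)) (fun g hg => by
    rw [Finset.mem_filter] at hg; rw [hg.2]), Finset.sum_const, smul_eq_mul]
  congr 1
  have e : N ≃ {g : G // (g : G ⧸ N) = g₀} :=
    { toFun := fun n => ⟨g₀ * n, by rw [QuotientGroup.mk_mul, (QuotientGroup.eq_one_iff (n : G)).2 n.2, mul_one]⟩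
      invFun := fun g => ⟨g₀⁻¹ * g, QuotientGroup.eq.1 g.2.symm⟩
      left_inv := fun n => by simp
      right_inv := fun g => by simp }
  rw [Nat.card_congr e, Nat.card_eq_fintype_card, Fintype.card_subtype]

theorem result {G : Type*} [Group G] [Fintype G] (N : Subgroup G) [N.Normal] [Fintype N] (hN : N ≤ Subgroup.center G) (ψ : Cfsg.IrrCharacter ↥N) (hfaith : ∀ n : ↥N, (ψ : ↥N → ℂ) n = (ψ : ↥N → ℂ) 1 → n = 1) : Nat.card {χ : Cfsg.IrrCharacter G // Cfsg.classInner (fun n : ↥N => (χ : G → ℂ) n) (ψ : ↥N → ℂ) ≠ 0} = Nat.card {C : ConjClasses (G ⧸ N) // ∃ g : G, ConjClasses.mk (g : G ⧸ N) = C ∧ ∀ x : G, x⁻¹ * g⁻¹ * x * g ∈ N → x * g = g * x} := by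
  classical
  have hNn : N.Normal := inferInstance
  have := Fintype.ofFinite (G ⧸ N)
  have hcomm : ∀ (y : G) (n : N), y * n = n * y := fun y n => Subgroup.mem_center_iff.1 (hN n.2) y
  have hcN : (Nat.card N : ℂ) ≠ 0 := by exact_mod_cast Nat.card_pos.ne'
  have hcG : (Nat.card G : ℂ) ≠ 0 := by exact_mod_cast Nat.card_pos.ne'
  -- ψ is linear
  have hψ1 : (ψ : N → ℂ) 1 = 1 := ψ.2.one_eq_one_of_comm (fun a b => Subtype.ext (hcomm a b))
  -- central characters
  choose lam hlam1 hlam2 using fun χ : IrrCharacter G => exists_central N hN χ.2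
  have hres : ∀ χ : IrrCharacter G, (fun n : N => (χ : G → ℂ) n) = (χ : G → ℂ) 1 • lam χ := by
    intro χ
    funext n
    have := hlam2 χ 1 n
    rw [one_mul] at this
    exact this
  have hind : ∀ χ : IrrCharacter G, classInner (lam χ) (ψ : N → ℂ) =
      if classInner (fun n : N => (χ : G → ℂ) n) (ψ : N → ℂ) ≠ 0 then 1 else 0 := by
    intro χ
    have h1 : classInner (fun n : N => (χ : G → ℂ) n) (ψ : N → ℂ) = (χ : G → ℂ) 1 * classInner (lam χ) (ψ : N → ℂ) := by
      rw [hres χ, classInner_smul_left]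
    rw [h1, (hlam1 χ).classInner_eq ψ.2]
    by_cases h : lam χ = (ψ : N → ℂ)
    · rw [if_pos h, if_pos]
      rw [mul_one]; exact χ.2.one_ne_zero
    · rw [if_neg h, if_neg]
      simp
  -- the left hand side
  have hL : (Nat.card {χ : Cfsg.IrrCharacter G // Cfsg.classInner (fun n : ↥N => (χ : G → ℂ) n) (ψ : ↥N → ℂ) ≠ 0} : ℂ) =
      ∑ χ : IrrCharacter G, classInner (lam χ) (ψ : N → ℂ) := by
    rw [Finset.sum_congr rfl (fun χ _ => hind χ), ← Finset.sum_filter, Finset.sum_const, nsmul_eq_mul, mul_one,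
      Nat.card_eq_fintype_card, Fintype.card_subtype]
  have hmain : (Nat.card N : ℂ) * Nat.card G * ∑ χ : IrrCharacter G, classInner (lam χ) (ψ : N → ℂ) =
      ∑ g : G, ∑ n : N, conj ((ψ : N → ℂ) n) *
        (if IsConj (g * (n : G)) g then (Nat.card (Subgroup.centralizer ({g * (n : G)} : Set G)) : ℂ) else 0) := by
    have h1 : ∀ (g : G) (n : N), (if IsConj (g * (n : G)) g then
        (Nat.card (Subgroup.centralizer ({g * (n : G)} : Set G)) : ℂ) else 0) =
        ∑ χ : IrrCharacter G, (χ : G → ℂ) (g * n) * conj ((χ : G → ℂ) g) := by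
      intro g n
      have := (column_orthogonality (g * (n : G)) g).symm
      convert this
    simp only [h1, hlam2]
    have h2 : ∀ χ : IrrCharacter G, (Nat.card N : ℂ) * Nat.card G * classInner (lam χ) (ψ : N → ℂ) =
        ∑ g : G, ∑ n : N, conj ((ψ : N → ℂ) n) * ((χ : G → ℂ) g * lam χ n * conj ((χ : G → ℂ) g)) := by
      intro χ
      have h3 := χ.2.classInner_self
      rw [classInner_def] at h3
      have h4 : ∑ g : G, (χ : G → ℂ) g * conj ((χ : G → ℂ) g) = Nat.card G := by
        field_simp at h3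
        exact h3
      have h5 : ∑ n : N, lam χ n * conj ((ψ : N → ℂ) n) = Nat.card N * classInner (lam χ) (ψ : N → ℂ) := by
        rw [classInner_def, mul_inv_cancel_left₀ hcN]
      have h6 : ∀ g : G, ∑ n : N, conj ((ψ : N → ℂ) n) * ((χ : G → ℂ) g * lam χ n * conj ((χ : G → ℂ) g)) =
          ((χ : G → ℂ) g * conj ((χ : G → ℂ) g)) * (Nat.card N * classInner (lam χ) (ψ : N → ℂ)) := by
        intro g
        rw [← h5, Finset.mul_sum]
        apply Finset.sum_congr rfl
        intro n _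
        ring
      rw [Finset.sum_congr rfl (fun g _ => h6 g), ← Finset.sum_mul, h4]
      ring
    rw [Finset.mul_sum, Finset.sum_congr rfl (fun χ _ => h2 χ), Finset.sum_comm]
    apply Finset.sum_congr rfl
    intro g _
    rw [Finset.sum_comm]
    apply Finset.sum_congr rfl
    intro n _
    rw [Finset.mul_sum]
  -- evaluate
  have hT : ∀ g : G, ∑ n : N, conj ((ψ : N → ℂ) n) *
        (if IsConj (g * (n : G)) g then (Nat.card (Subgroup.centralizer ({g * (n : G)} : Set G)) : ℂ) else 0) =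
      if Sp N g then (Nat.card (Subgroup.centralizer ({g} : Set G)) : ℂ) else 0 := by
    intro g
    by_cases hg : Sp N g
    · rw [if_pos hg, Finset.sum_eq_single (1 : N)]
      · simp only [Subgroup.coe_one, mul_one]
        rw [if_pos (IsConj.refl g), hψ1]
        simp
      · intro n _ hn
        rw [if_neg, mul_zero]
        intro h
        exact hn (Subtype.ext (hg.eq_one n.2 h))
      · intro h; exact absurd (Finset.mem_univ _) h
    · rw [if_neg hg]
      obtain ⟨m, hm, hm1, hmc⟩ := exists_of_not_sp hg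
      set T := ∑ n : N, conj ((ψ : N → ℂ) n) *
        (if IsConj (g * (n : G)) g then (Nat.card (Subgroup.centralizer ({g * (n : G)} : Set G)) : ℂ) else 0) with hT
      let m' : N := ⟨m, hm⟩
      have hψm : ∀ n : N, (ψ : N → ℂ) (n * m') = (ψ : N → ℂ) n * (ψ : N → ℂ) m' := fun n =>
        ψ.2.isCharacter.map_mul_of_linear hψ1 n m'
      have hcj : ∀ n : N, IsConj (g * ((n * m' : N) : G)) (g * (n : G)) := by
        intro n
        obtain ⟨c, hc⟩ := isConj_iff.1 hmc
        refine isConj_iff.2 ⟨c, ?_⟩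
        have e1 : g * ((n * m' : N) : G) = (g * m) * n := by
          rw [Subgroup.coe_mul, ← mul_assoc]
          show g * (n : G) * m = g * m * n
          rw [mul_assoc, mul_assoc]
          congr 1
          exact (hcomm m n).symm
        rw [e1]
        have e2 : c * (g * m * (n : G)) * c⁻¹ = (c * (g * m) * c⁻¹) * n := by
          rw [mul_assoc c, mul_assoc (g * m), ← hcomm c⁻¹ n]
          group
        rw [e2, hc]
      have hcard : ∀ n : N, Nat.card (Subgroup.centralizer ({g * ((n * m' : N) : G)} : Set G)) =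
          Nat.card (Subgroup.centralizer ({g * (n : G)} : Set G)) := by
        intro n
        have h3 := card_isConj_mul_card_centralizer (g * ((n * m' : N) : G))
        have h4 := card_isConj_mul_card_centralizer (g * (n : G))
        have h5 : Nat.card {x : G // IsConj (g * ((n * m' : N) : G)) x} = Nat.card {x : G // IsConj (g * (n : G)) x} :=
          Nat.card_congr (Equiv.subtypeEquivRight (fun x => ⟨fun h => (hcj n).symm.trans h, fun h => (hcj n).trans h⟩))
        rw [h5, ← h4] at h3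
        have h6 : 0 < Nat.card {x : G // IsConj (g * (n : G)) x} := by
          have : Nonempty {x : G // IsConj (g * (n : G)) x} := ⟨⟨_, IsConj.refl _⟩⟩
          exact Nat.card_pos
        exact Nat.eq_of_mul_eq_mul_left h6 h3
      have h1 : T = conj ((ψ : N → ℂ) m') * T := by
        conv_lhs => rw [hT, ← Equiv.sum_comp (Equiv.mulRight m')]
        rw [hT, Finset.mul_sum]
        apply Finset.sum_congr rfl
        intro n _
        rw [Equiv.coe_mulRight, hψm, map_mul, hcard]
        have h2 : IsConj (g * ((n * m' : N) : G)) g ↔ IsConj (g * (n : G)) g :=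
          ⟨fun h => (hcj n).symm.trans h, fun h => (hcj n).trans h⟩
        by_cases h3 : IsConj (g * (n : G)) g
        · rw [if_pos h3, if_pos (h2.2 h3)]; ring
        · rw [if_neg h3, if_neg (fun h => h3 (h2.1 h))]; ring
      have h2 : (ψ : N → ℂ) m' ≠ 1 := by
        intro h
        apply hm1
        have := hfaith m' (by rw [h, hψ1])
        exact congrArg Subtype.val this
      have h3 : conj ((ψ : N → ℂ) m') ≠ 1 := by
        intro h
        apply h2
        have := congrArg conj h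
        simpa using this
      have h4 : (1 - conj ((ψ : N → ℂ) m')) * T = 0 := by linear_combination h1
      exact (mul_eq_zero.1 h4).resolve_left (sub_ne_zero.2 (Ne.symm h3))
  rw [Finset.sum_congr rfl (fun g _ => hT g), ← hL] at hmain
  -- the right hand side
  let S : G ⧸ N → Prop := fun q => ∃ g : G, (g : G ⧸ N) = q ∧ Sp N g
  have hSsp : ∀ g : G, S (g : G ⧸ N) ↔ Sp N g := by
    intro g
    constructor
    · rintro ⟨g', h1, h2⟩
      have h3 : g'⁻¹ * g ∈ N := QuotientGroup.eq.1 h1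
      have h4 := h2.mul hN h3
      rwa [mul_inv_cancel_left] at h4
    · intro h; exact ⟨g, rfl, h⟩
  have hSconj : ∀ q r : G ⧸ N, IsConj q r → S q → S r := by
    rintro q r hqr ⟨g, rfl, hg⟩
    obtain ⟨c, hc⟩ := isConj_iff.1 hqr
    obtain ⟨c, rfl⟩ := QuotientGroup.mk_surjective c
    exact ⟨c * g * c⁻¹, by rw [← hc]; rfl, hg.conj c⟩
  have hR := count_classes (Q := G ⧸ N) S hSconj
  have h1 : ∑ g : G, (if Sp N g then Nat.card (Subgroup.centralizer ({g} : Set G)) else 0) =
      Nat.card N * (Nat.card N * ∑ q : G ⧸ N, (if S q then Nat.card (Subgroup.centralizer ({q} : Set (G ⧸ N))) else 0)) := by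
    have h2 := sum_quotient (N := N) (fun q => if S q then Nat.card (Subgroup.centralizer ({q} : Set (G ⧸ N))) else 0)
    rw [← h2, Finset.mul_sum]
    apply Finset.sum_congr rfl
    intro g _
    by_cases hg : Sp N g
    · rw [if_pos hg, if_pos ((hSsp g).2 hg), card_centralizer_eq hN hg]
    · rw [if_neg hg, if_neg (fun h => hg ((hSsp g).1 h)), mul_zero]
  rw [hR] at h1
  have h2 : ((∑ g : G, (if Sp N g then Nat.card (Subgroup.centralizer ({g} : Set G)) else 0) : ℕ) : ℂ) =
      ∑ g : G, (if Sp N g then (Nat.card (Subgroup.centralizer ({g} : Set G)) : ℂ) else 0) := by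
    push_cast; rfl
  rw [← h2, h1] at hmain
  have h3 : Nat.card N * Nat.card G * Nat.card {χ : Cfsg.IrrCharacter G // Cfsg.classInner (fun n : ↥N => (χ : G → ℂ) n) (ψ : ↥N → ℂ) ≠ 0} =
      Nat.card N * (Nat.card N * (Nat.card (G ⧸ N) * Nat.card {C : ConjClasses (G ⧸ N) // ∃ q, ConjClasses.mk q = C ∧ S q})) := by
    exact_mod_cast hmain
  have h4 : Nat.card N * Nat.card (G ⧸ N) = Nat.card G := Subgroup.card_mul_index N
  have h5 : Nat.card {C : ConjClasses (G ⧸ N) // ∃ q, ConjClasses.mk q = C ∧ S q} =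
      Nat.card {C : ConjClasses (G ⧸ N) // ∃ g : G, ConjClasses.mk (g : G ⧸ N) = C ∧ ∀ x : G, x⁻¹ * g⁻¹ * x * g ∈ N → x * g = g * x} := by
    apply Nat.card_congr
    apply Equiv.subtypeEquivRight
    intro C
    constructor
    · rintro ⟨q, rfl, g, rfl, hg⟩
      exact ⟨g, rfl, hg⟩
    · rintro ⟨g, rfl, hg⟩
      exact ⟨g, rfl, g, rfl, hg⟩
  rw [← h5]
  have hpos : 0 < Nat.card N * Nat.card G := Nat.mul_pos Nat.card_pos Nat.card_pos
  apply Nat.eq_of_mul_eq_mul_left hpos
  rw [h3, ← h4]; ring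

end Cfsg.Agent.S4567
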