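import Cfsg.Statements.S4571
import Cfsg.Agent.Lib.H76Blk2

set_option autoImplicit false
open Cfsg

namespace Cfsg.Agent.S4571

open Cfsg.Agent.Lib Cfsg.Agent.Lib.CharBasic Cfsg.Agent.Lib.BlockRing Cfsg.Agent.Lib.BlockIdem
open Cfsg.Agent.Lib.BlockGA Cfsg.Agent.Lib.BlockPair Cfsg.Agent.Lib.BlockCount
open Cfsg.Agent.Lib.BlockOsima Cfsg.Agent.Lib.BlockDeg Cfsg.Agent.Lib.H76Blk Cfsg.Agent.Lib.H76Blk2

theorem rsp_eq {G : Type*} [Group G] [Finite G] (p : ℕ) [Fact p.Prime] (M : Ideal Cfsg.AlgInt) (hM : Cfsg.IsPModular p M)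
    (Q : Subgroup G) [Q.Normal] (hQ : IsPGroup p Q) (hsup : Q ⊔ Subgroup.centralizer (Q : Set G) = ⊤) :
    rsp p (principalBlock M G) = (rsp p (principalBlock M (G ⧸ Q))).map (T p Q) := by
  classical
  have := isPrime hM
  have := Fintype.ofFinite G
  have := Fintype.ofFinite (G ⧸ Q)
  apply le_antisymm
  · rw [rsp, Submodule.span_le]
    rintro _ ⟨χ, hχ, rfl⟩
    have hv : preg p (χ : G → ℂ) ∈ rsp p (principalBlock M G) := Submodule.subset_span ⟨χ, hχ, rfl⟩
    obtain ⟨f, hf, hTf⟩ := exists_T_eq hM.1 hQ hsup (rsp_classFunction hv) (fun g hg => rsp_reg hv hg)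
    have hfe := hf.expansion
    -- split the sum
    set c : IrrCharacter (G ⧸ Q) → ℂ := fun ψ => classInner f (ψ : G ⧸ Q → ℂ) with hc
    set v₁ : G → ℂ := ∑ ψ : IrrCharacter (G ⧸ Q) with ψ ∈ principalBlock M (G ⧸ Q), c ψ • preg p (infl Q ψ : G → ℂ) with hv₁
    set v₂ : G → ℂ := ∑ ψ : IrrCharacter (G ⧸ Q) with ψ ∉ principalBlock M (G ⧸ Q), c ψ • preg p (infl Q ψ : G → ℂ) with hv₂
    have hT : ∀ ψ : IrrCharacter (G ⧸ Q), T p Q (ψ : G ⧸ Q → ℂ) = preg p (infl Q ψ : G → ℂ) := fun ψ => rfl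
    have hsum : preg p (χ : G → ℂ) = v₁ + v₂ := by
      rw [← hTf, hfe, map_sum, hv₁, hv₂, Finset.sum_filter_add_sum_filter_not]
      apply Finset.sum_congr rfl
      intro ψ _
      rw [map_smul, hT]
    have hv₁m : v₁ ∈ rsp p (principalBlock M G) := by
      apply Submodule.sum_mem
      intro ψ hψ
      apply Submodule.smul_mem
      apply Submodule.subset_span
      exact ⟨infl Q ψ, (infl_mem_principal hM hQ hsup).2 (Finset.mem_filter.1 hψ).2, rfl⟩
    have hv₂m : v₂ ∈ rsp p (principalBlock M G) := by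
      have : v₂ = preg p (χ : G → ℂ) - v₁ := by rw [hsum]; ring
      rw [this]
      exact Submodule.sub_mem _ hv hv₁m
    have h0 : classInner v₂ v₂ = 0 := by
      conv_lhs => rw [hv₂]
      rw [classInner_sum_left]
      apply Finset.sum_eq_zero
      intro ψ hψ
      rw [classInner_smul_left]
      have h1 : classInner (preg p (infl Q ψ : G → ℂ)) v₂ = 0 := by
        apply rsp_orth hM (isPBlock_blockOf (M := M) (infl Q ψ)) isPBlock_principal
        · intro h
          apply (Finset.mem_filter.1 hψ).2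
          rw [← infl_mem_principal hM hQ hsup, ← h]
          exact mem_blockOf_self _
        · exact Submodule.subset_span ⟨infl Q ψ, mem_blockOf_self _, rfl⟩
        · exact hv₂m
      rw [h1, mul_zero]
    have h1 : v₂ = 0 := classInner_self_eq_zero.1 h0
    rw [h1, add_zero] at hsum
    show preg p (χ : G → ℂ) ∈ _
    rw [hsum, hv₁]
    apply Submodule.sum_mem
    intro ψ hψ
    apply Submodule.smul_mem
    rw [Submodule.mem_map]
    exact ⟨preg p (ψ : G ⧸ Q → ℂ), Submodule.subset_span ⟨ψ, (Finset.mem_filter.1 hψ).2, rfl⟩, T_preg p Q ψ⟩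
  · rw [Submodule.map_le_iff_le_comap, rsp, Submodule.span_le]
    rintro _ ⟨ψ, hψ, rfl⟩
    show T p Q (preg p (ψ : G ⧸ Q → ℂ)) ∈ rsp p (principalBlock M G)
    rw [T_preg]
    exact Submodule.subset_span ⟨infl Q ψ, (infl_mem_principal hM hQ hsup).2 hψ, rfl⟩

/-- Let Q be a normal p-subgroup of the finite group G with G = Q·C_G(Q), and M a maximal ideal of the algebraic integers containing p. Then the principal p-blocks of G and of G/Q have the same p-regular rank (the same number of irreducible Brauer characters). -/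
theorem result {G : Type*} [Group G] [Finite G] (p : ℕ) [Fact p.Prime] (M : Ideal Cfsg.AlgInt) (hM : Cfsg.IsPModular p M) (Q : Subgroup G) [Q.Normal] (hQ : IsPGroup p Q) (hsup : Q ⊔ Subgroup.centralizer (Q : Set G) = ⊤) : Cfsg.blockRank p (Cfsg.principalBlock M G) = Cfsg.blockRank p (Cfsg.principalBlock M (G ⧸ Q)) := by
  classical
  rw [blockRank_eq, blockRank_eq, rsp_eq p M hM Q hQ hsup]
  have hinj : Function.Injective ((T p Q).domRestrict (rsp p (principalBlock M (G ⧸ Q)))) := by
    rw [← LinearMap.ker_eq_bot, LinearMap.ker_eq_bot']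
    rintro ⟨f, hf⟩ h
    apply Subtype.ext
    funext y
    show f y = 0
    by_cases hy : p ∣ orderOf y
    · exact rsp_reg hf hy
    · obtain ⟨x, hx, rfl⟩ := exists_regular_lift hM.1 Q hy
      have h1 := congrFun h x
      have h2 : T p Q f x = 0 := h1
      rw [T_apply, if_neg hx] at h2
      exact h2
  have h1 := LinearMap.finrank_range_of_inj hinj
  rw [← h1, LinearMap.range_domRestrict]

end Cfsg.Agent.S4571
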