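import Cfsg.Statements.S4574
import Cfsg.Agent.Lib.H76GalAvg

set_option autoImplicit false
open Cfsg

namespace Cfsg.Agent.S4574

open scoped ComplexConjugate
open Cfsg Cfsg.Agent.Lib Cfsg.Agent.Lib.CharBasic Cfsg.Agent.Lib.H76GalAvg

universe u

theorem scalar_iff {G : Type u} [Group G] [Finite G] {χ : G → ℂ} (hχ : IsCharacter G χ) {d : ℕ} (hd : χ 1 = d) (g : G)
    (k : ℕ) (h : ‖χ g‖ = d) : ‖χ (g ^ k)‖ = d := by
  obtain ⟨n, ρ, rfl⟩ := hχ
  rw [Representation.char_one] at hd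
  have h2 : Module.finrank ℂ (Fin n → ℂ) = d := by exact_mod_cast hd
  rw [← h2] at h ⊢
  rw [CharValues.norm_character_eq_iff] at h ⊢
  obtain ⟨ω, hω⟩ := h
  refine ⟨ω ^ k, ?_⟩
  rw [map_pow, hω]
  have h3 : (LinearMap.id : (Fin n → ℂ) →ₗ[ℂ] (Fin n → ℂ)) = 1 := rfl
  rw [h3, smul_pow, one_pow]

theorem result {G : Type*} [Group G] [Fintype G] [DecidableEq G] (χ : G → ℂ) (hχ : Cfsg.IsIrrCharacter G χ) : (Cfsg.charDegree χ ^ 2 - 1) * (Finset.univ.filter (fun g : G => ‖χ g‖ = (Cfsg.charDegree χ : ℝ))).card ≤ (Finset.univ.filter (fun g : G => χ g = 0)).card ∧ ((∀ g : G, ‖χ g‖ = 0 ∨ ‖χ g‖ = 1 ∨ ‖χ g‖ = (Cfsg.charDegree χ : ℝ)) → (Cfsg.charDegree χ ^ 2 - 1) * (Finset.univ.filter (fun g : G => ‖χ g‖ = (Cfsg.charDegree χ : ℝ))).card = (Finset.univ.filter (fun g : G => χ g = 0)).card) := by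
  set d := charDegree χ with hd
  have hχ1 : χ 1 = d := (H76Char.charDegree_eq hχ.isCharacter).symm
  have hd0 : 0 < d := by
    obtain ⟨n, hn, h⟩ := hχ.exists_degree
    have : (n : ℂ) = d := by rw [← h, hχ1]
    have : n = d := by exact_mod_cast this
    omega
  set Z := Finset.univ.filter (fun g : G => ‖χ g‖ = (d : ℝ)) with hZ
  set V := Finset.univ.filter (fun g : G => χ g = 0) with hV
  set R := Finset.univ.filter (fun g : G => ¬ (‖χ g‖ = (d : ℝ)) ∧ ¬ (χ g = 0)) with hR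
  have hsum : ∑ g, ‖χ g‖ ^ 2 = (Fintype.card G : ℝ) := by
    have h1 := hχ.classInner_self
    rw [classInner_def] at h1
    have h2 : (Nat.card G : ℂ) ≠ 0 := by exact_mod_cast Nat.card_pos.ne'
    have h3 : ∑ g, χ g * conj (χ g) = Nat.card G := by
      field_simp at h1
      exact h1
    have h4 : ∀ g, χ g * conj (χ g) = ((‖χ g‖ ^ 2 : ℝ) : ℂ) := by
      intro g
      rw [Complex.mul_conj, Complex.normSq_eq_norm_sq]
    rw [Finset.sum_congr rfl (fun g _ => h4 g), ← Complex.ofReal_sum, Nat.card_eq_fintype_card] at h3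
    exact_mod_cast h3
  have hdZV : Disjoint Z V := by
    rw [Finset.disjoint_left]
    intro g hg hg2
    rw [hZ, Finset.mem_filter] at hg
    rw [hV, Finset.mem_filter] at hg2
    rw [hg2.2, norm_zero] at hg
    have : (d : ℝ) ≠ 0 := by exact_mod_cast hd0.ne'
    exact this hg.2.symm
  have hdR : Disjoint (Z ∪ V) R := by
    rw [Finset.disjoint_left]
    intro g hg hg2
    rw [Finset.mem_union, hZ, hV, Finset.mem_filter, Finset.mem_filter] at hg
    rw [hR, Finset.mem_filter] at hg2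
    rcases hg with h | h
    · exact hg2.2.1 h.2
    · exact hg2.2.2 h.2
  have huniv : (Finset.univ : Finset G) = (Z ∪ V) ∪ R := by
    ext g
    simp only [hZ, hV, hR, Finset.mem_univ, Finset.mem_union, Finset.mem_filter, true_and, true_iff]
    tauto
  have hcard : Fintype.card G = Z.card + V.card + R.card := by
    rw [← Finset.card_univ, huniv, Finset.card_union_of_disjoint hdR, Finset.card_union_of_disjoint hdZV]
  have hsplit : ∑ g, ‖χ g‖ ^ 2 = (d : ℝ) ^ 2 * Z.card + ∑ g ∈ R, ‖χ g‖ ^ 2 := by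
    rw [huniv, Finset.sum_union hdR, Finset.sum_union hdZV]
    have h1 : ∑ g ∈ Z, ‖χ g‖ ^ 2 = (d : ℝ) ^ 2 * Z.card := by
      have h0 : ∀ g ∈ Z, ‖χ g‖ ^ 2 = (d : ℝ) ^ 2 := by
        intro g hg
        rw [hZ, Finset.mem_filter] at hg
        rw [hg.2]
      rw [Finset.sum_congr rfl h0, Finset.sum_const, nsmul_eq_mul, mul_comm]
    have h2 : ∑ g ∈ V, ‖χ g‖ ^ 2 = 0 := by
      apply Finset.sum_eq_zero
      intro g hg
      rw [hV, Finset.mem_filter] at hg
      rw [hg.2]; simp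
    rw [h1, h2, add_zero]
  have hkey : (R.card : ℝ) ≤ ∑ g ∈ R, ‖χ g‖ ^ 2 := by
    apply card_le_sum hχ.isCharacter
    · intro g hg
      rw [hR, Finset.mem_filter] at hg
      exact hg.2.2
    · intro g u hg
      rw [hR, Finset.mem_filter] at hg ⊢
      refine ⟨Finset.mem_univ _, ?_, ?_⟩
      · intro h
        apply hg.2.1
        have h1 := scalar_iff hχ.isCharacter hχ1 (pw g u) ((u⁻¹ : (ZMod (Nat.card G))ˣ) : ZMod (Nat.card G)).val h
        have h2 : (pw g u) ^ ((u⁻¹ : (ZMod (Nat.card G))ˣ) : ZMod (Nat.card G)).val = g := pw_inv_cancel g u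
        rwa [h2] at h1
      · rw [eq_zero_iff hχ.isCharacter]
        exact hg.2.2
  have hcard' : (Fintype.card G : ℝ) = Z.card + V.card + R.card := by exact_mod_cast hcard
  rw [hsplit, hcard'] at hsum
  have hsub : ((d ^ 2 - 1 : ℕ) : ℝ) = (d : ℝ) ^ 2 - 1 := by
    rw [Nat.cast_sub (Nat.one_le_pow _ _ hd0)]; push_cast; rfl
  refine ⟨?_, ?_⟩
  · have h1 : (((d ^ 2 - 1) * Z.card : ℕ) : ℝ) ≤ V.card := by
      push_cast [hsub]
      linarith
    exact_mod_cast h1
  · intro hall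
    have h2 : ∑ g ∈ R, ‖χ g‖ ^ 2 = R.card := by
      have h0 : ∀ g ∈ R, ‖χ g‖ ^ 2 = (1 : ℝ) := by
        intro g hg
        rw [hR, Finset.mem_filter] at hg
        have h3 : ‖χ g‖ = 1 := by
          rcases hall g with h | h | h
          · exact absurd (norm_eq_zero.1 h) hg.2.2
          · exact h
          · exact absurd h hg.2.1
        rw [h3, one_pow]
      rw [Finset.sum_congr rfl h0, Finset.sum_const, nsmul_eq_mul, mul_one]
    have h1 : (((d ^ 2 - 1) * Z.card : ℕ) : ℝ) = V.card := by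
      push_cast [hsub]
      linarith
    exact_mod_cast h1

end Cfsg.Agent.S4574
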