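import Cfsg.Statements.S4575
import Cfsg.Agent.Lib.SubsecThree
import Cfsg.Agent.Lib.BlockDefect

set_option autoImplicit false
open Cfsg

namespace Cfsg.Agent.S4575

/-- Let B be a 2-block of the finite group G (relative to a maximal ideal M of the algebraic integers containing 2) of defect d with defect group D. Let z be an element of D commuting with every element of D, and let b be a block of the centralizer of z with defect group D that induces B (a major subsection (z, b)). If the number of irreducible characters in B exceeds the 2-regular rank of b by at most three, then B contains at most 2 ^ d irreducible characters. -/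
theorem result {G : Type*} [Group G] [Finite G] (M : Ideal Cfsg.AlgInt) (hM : Cfsg.IsPModular 2 M) (B : Set (Cfsg.IrrCharacter G)) (hB : Cfsg.IsPBlock M B) (D : Subgroup G) (hD : Cfsg.IsDefectGroup 2 M B D) (z : G) (hzD : z ∈ D) (hzc : ∀ d ∈ D, d * z = z * d) (b : Set (Cfsg.IrrCharacter ↥(Subgroup.centralizer ({z} : Set G)))) (hb : Cfsg.IsInducedBlock M (Subgroup.centralizer ({z} : Set G)) b B) (hbD : Cfsg.IsDefectGroup 2 M b (D.subgroupOf (Subgroup.centralizer ({z} : Set G)))) (h : Nat.card B ≤ Cfsg.blockRank 2 b + 3) : Nat.card B ≤ 2 ^ Cfsg.blockDefect 2 B := by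
  classical
  have hp : (2 : ℕ).Prime := Nat.prime_two
  haveI : Fact (2 : ℕ).Prime := ⟨hp⟩
  have hDp : IsPGroup 2 D := Lib.BlockDefect.defectGroup_isPGroup hD
  have hDle : D ≤ Subgroup.centralizer ({z} : Set G) := by
    intro d hd
    rw [Subgroup.mem_centralizer_singleton_iff]
    exact hzc d hd
  have hc1 := Lib.BlockDefect.defectGroup_card hM hB hD
  have hc2 := Lib.BlockDefect.defectGroup_card hM hb.1 hbD
  have hc3 : Nat.card (D.subgroupOf (Subgroup.centralizer ({z} : Set G))) = Nat.card D :=
    Nat.card_congr (Subgroup.subgroupOfEquivOfLe hDle).toEquiv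
  have hd : Cfsg.blockDefect 2 b = Cfsg.blockDefect 2 B := by
    rw [hc3, hc1] at hc2
    exact (Nat.pow_right_injective hp.two_le hc2).symm
  obtain ⟨k, hk⟩ : ∃ k, orderOf z = 2 ^ k := by
    obtain ⟨k, hk⟩ := (IsPGroup.iff_orderOf.1 hDp) ⟨z, hzD⟩
    exact ⟨k, by rw [← hk, Subgroup.orderOf_mk]⟩
  have : NeZero (2 ^ (k + 1)) := ⟨pow_ne_zero _ hp.ne_zero⟩
  rw [← hd]
  exact Lib.Subsec.card_le_of_corank hM hk hb hd h

end Cfsg.Agent.S4575
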