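import Cfsg.Statements.S4580
import Cfsg.Agent.Lib.H76Blk4

set_option autoImplicit false
open Cfsg

namespace Cfsg.Agent.S4580

open scoped ComplexConjugate
open Cfsg.Agent.Lib Cfsg.Agent.Lib.CharBasic Cfsg.Agent.Lib.BlockRing Cfsg.Agent.Lib.BlockIdem
open Cfsg.Agent.Lib.BlockGA Cfsg.Agent.Lib.BlockDeg Cfsg.Agent.Lib.H76Blk Cfsg.Agent.Lib.H76Blk3 Cfsg.Agent.Lib.H76Blk4
open Cfsg.Agent.Lib.Clifford

/-- Let N be a normal subgroup of the finite group G, M a maximal ideal of the algebraic integers containing 2, and θ a real-valued irreducible character of N of odd degree that extends to G (some irreducible character of G restricts to θ). Then θ has an extension to G lying in the principal 2-block of G. -/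
theorem result {G : Type*} [Group G] [Finite G] (N : Subgroup G) [N.Normal] (M : Ideal Cfsg.AlgInt) (hM : Cfsg.IsPModular 2 M) (θ : Cfsg.IrrCharacter N) (hreal : ∀ n : N, ((θ : N → ℂ) n).im = 0) (hodd : Odd (Cfsg.charDegree (θ : N → ℂ))) (hext : ∃ η : Cfsg.IrrCharacter G, ∀ n : N, (η : G → ℂ) n = (θ : N → ℂ) n) :
    ∃ η : Cfsg.IrrCharacter G, (∀ n : N, (η : G → ℂ) n = (θ : N → ℂ) n) ∧ η ∈ Cfsg.principalBlock M G := by
  have := isPrime hM
  obtain ⟨η₀, hη₀⟩ := hext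
  obtain ⟨β, hβN, hβ⟩ := CanonExt.exists_linear_twist θ.2 η₀.2 hη₀ η₀.2.conj (by
    intro n
    rw [hη₀ n]
    exact Complex.conj_eq_iff_im.2 (hreal n))
  -- the order of β
  have hfin : 0 < orderOf β := by
    rw [orderOf_pos_iff, isOfFinOrder_iff_pow_eq_one]
    refine ⟨Nat.card G, Nat.card_pos, ?_⟩
    ext g
    rw [MonoidHom.pow_apply, ← map_pow, pow_card_eq_one', map_one]
    rfl
  obtain ⟨a, m, hm, hn⟩ := Nat.exists_eq_two_pow_mul_odd hfin.ne'
  obtain ⟨j, hj⟩ := hm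
  have hβn : ∀ g : G, (β g) ^ (2 ^ a * m) = 1 := by
    intro g
    rw [← hn]
    have h1 : (β ^ orderOf β) g = 1 := by rw [pow_orderOf_eq_one]; rfl
    exact h1
  have hβconj : ∀ g : G, conj ((β g : ℂˣ) : ℂ) * ((β g : ℂˣ) : ℂ) = 1 := by
    intro g
    have := (isIrrCharacter_of_unitsHom β).isCharacter.mul_conj_of_linear (by rw [map_one]; rfl) g
    rw [mul_comm]
    exact this
  have hμirr : IsIrrCharacter G (fun g => (((β ^ (j + 1)) g : ℂˣ) : ℂ)) := isIrrCharacter_of_unitsHom (β ^ (j + 1))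
  have hirr : IsIrrCharacter G ((η₀ : G → ℂ) * fun g => (((β ^ (j + 1)) g : ℂˣ) : ℂ)) :=
    η₀.2.mul_linear hμirr.isCharacter (by rw [map_one]; rfl)
  set η : IrrCharacter G := ⟨_, hirr⟩ with hη
  have hηg : ∀ g, (η : G → ℂ) g = (η₀ : G → ℂ) g * ((β g : ℂˣ) : ℂ) ^ (j + 1) := by
    intro g
    show (η₀ : G → ℂ) g * (((β ^ (j + 1)) g : ℂˣ) : ℂ) = _
    congr 1
  have hηN : ∀ n : N, (η : G → ℂ) n = (θ : N → ℂ) n := by
    intro n
    rw [hηg, hβN n, hη₀]
    simp
  refine ⟨η, hηN, ?_⟩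
  apply mem_principal_of_real hM
  · have h1 : charDegree (η : G → ℂ) = charDegree (θ : N → ℂ) := by
      have h2 := hηN 1
      rw [OneMemClass.coe_one] at h2
      rw [charDegree, charDegree, h2]
    rw [h1]
    exact hodd
  · -- the conjugate is the twist by a linear character of 2-power order
    have hconj : ∀ g, conj ((η : G → ℂ) g) = ((conj ((β g : ℂˣ) : ℂ)) ^ m) * (η : G → ℂ) g := by
      intro g
      have h1 : conj ((η₀ : G → ℂ) g) = ((β g : ℂˣ) : ℂ) * (η₀ : G → ℂ) g := congrFun hβ g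
      rw [hηg, map_mul, map_pow, h1, hj]
      have h2 := hβconj g
      have h3 : (conj ((β g : ℂˣ) : ℂ)) ^ (j + 1) * ((β g : ℂˣ) : ℂ) = (conj ((β g : ℂˣ) : ℂ)) ^ (2 * j + 1) * ((β g : ℂˣ) : ℂ) ^ (j + 1) := by
        have e1 : (conj ((β g : ℂˣ) : ℂ)) ^ (2 * j + 1) * ((β g : ℂˣ) : ℂ) ^ (j + 1) =
          (conj ((β g : ℂˣ) : ℂ)) ^ (j + 1) * ((β g : ℂˣ) : ℂ) * (conj ((β g : ℂˣ) : ℂ) * ((β g : ℂˣ) : ℂ)) ^ j := by ring
        rw [e1, h2, one_pow, mul_one]
      linear_combination (η₀ : G → ℂ) g * h3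
    intro g
    have h1 : centralChar (fun g => conj ((η : G → ℂ) g)) g = (conj ((β g : ℂˣ) : ℂ)) ^ m * centralChar (η : G → ℂ) g := by
      have h2 : conj ((η : G → ℂ) 1) = (η : G → ℂ) 1 := by
        have := η.2.isCharacter.inv 1
        rw [inv_one] at this
        exact this.symm
      rw [centralChar, centralChar, h2, hconj g]
      ring
    rw [h1]
    have h2 : MemLocalIdeal M ((conj ((β g : ℂˣ) : ℂ)) ^ m - 1) := by
      apply idl_sub_one_of_pow hM (k := a)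
      rw [← pow_mul, mul_comm m, ← map_pow]
      have h3 : ((β g : ℂˣ) : ℂ) ^ (2 ^ a * m) = 1 := by
        have := congrArg (fun z : ℂˣ => (z : ℂ)) (hβn g)
        simpa using this
      rw [h3, map_one]
    have h3 : centralChar (η : G → ℂ) g - (conj ((β g : ℂˣ) : ℂ)) ^ m * centralChar (η : G → ℂ) g =
        -(((conj ((β g : ℂˣ) : ℂ)) ^ m - 1) * centralChar (η : G → ℂ) g) := by ring
    rw [h3]
    exact idl_neg (idl_mul_right h2 (loc_centralChar η.2 g))

end Cfsg.Agent.S4580
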