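import Cfsg.Statements.S4581
import Cfsg.Agent.Lib.H76RO7
import Cfsg.Agent.Lib.FrattiniQuot
import Cfsg.Agent.Lib.H76Char

set_option autoImplicit false
open Cfsg

namespace Cfsg.Agent.S4581

open scoped ComplexConjugate
open Cfsg Cfsg.Agent.Lib Cfsg.Agent.Lib.CharBasic Cfsg.Agent.Lib.Clifford Cfsg.Agent.Lib.H76RO

universe u v

variable {K : Type u} [Group K] {P : Type v} [Group P]

/-- the set of sign characters with odd multiplicity -/
def fK [Fintype P] (i : P →* K) (χ : K → ℂ) : Set (P →* ℤˣ) := {ν | OM (fun x => χ (i x)) (sg ν)}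

/-- the orbit of a sign character -/
def orb (i : P →* K) (ν : P →* ℤˣ) : Set (P →* ℤˣ) :=
  {ν' | ∃ g : K, (∀ x, ∃ y, i y = g * i x * g⁻¹) ∧ ∀ x y, i y = g * i x * g⁻¹ → ν' y = ν x}

theorem om_of_orb [Finite K] [Fintype P] (i : P →* K) (hinj : Function.Injective i) {χ : K → ℂ} (hχ : RO χ)
    {ν ν' : P →* ℤˣ} (h : ν' ∈ orb i ν) (hν : ν ∈ fK i χ) : ν' ∈ fK i χ := by
  classical
  obtain ⟨g, h1, h2⟩ := h
  obtain ⟨m, hm, hm2⟩ := hν
  refine ⟨m, hm, ?_⟩
  rw [← hm2]
  choose σ hσ using h1
  have hσi : Function.Injective σ := by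
    intro a b hab
    have h3 := hσ a
    rw [hab, hσ b] at h3
    exact hinj (mul_left_cancel (mul_right_cancel h3)).symm
  have hσb : Function.Bijective σ := hσi.bijective_of_finite
  rw [classInner_def, classInner_def]
  congr 1
  symm
  apply Fintype.sum_bijective σ hσb
  intro x
  have e1 : χ (i (σ x)) = χ (i x) := by
    rw [hσ]; exact hχ.1.isClassFunction _ _
  have e2 : sg ν' (σ x) = sg ν x := by
    rw [sg_eq_iff]; exact h2 x (σ x) (hσ x)
  rw [e1, e2]

theorem exists_over [Finite K] [Fintype P] (i : P →* K) (hinj : Function.Injective i)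
    (hi : ¬ 2 ∣ i.range.index) (ν : P →* ℤˣ) : ∃ χ : K → ℂ, RO χ ∧ ν ∈ fK i χ := by
  classical
  have := Fintype.ofFinite K
  have := Fintype.ofFinite i.range
  obtain ⟨ν', hν'⟩ := exists_lam i ν (fun x hx => by
    rw [hinj (hx.trans (map_one i).symm), map_one]) i.range le_rfl
  obtain ⟨χ, h1, h2⟩ := exists_real_odd ((isIrr_sg ν').isCharacter.indFun i.range) (fun g => by
    rw [conj_indFun]
    congr 1
    funext x
    rw [conj_sg]) (d := i.range.index) (by rw [IndFun.indFun_one, sg_one, mul_one]) (odd_iff_not_two_dvd.2 hi)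
  refine ⟨χ, h1, ?_⟩
  obtain ⟨m, hm, hm2⟩ := h2
  refine ⟨m, hm, ?_⟩
  rw [IndFun.frobenius_reciprocity i.range (sg ν') χ h1.1.isClassFunction,
    ← classInner_comp_hom i.rangeRestrict_surjective, ← conj_classInner] at hm2
  have h3 := congrArg conj hm2
  rw [Complex.conj_conj, map_natCast] at h3
  rw [← h3]
  congr 1
  funext x
  rw [sg_eq_iff]
  exact (hν' x ⟨x, rfl⟩).symm

theorem card_RO [Finite K] [Group.IsSolvable K] [Fintype P] (hP : IsPGroup 2 P) (i : P →* K)
    (hinj : Function.Injective i) (hi : ¬ 2 ∣ i.range.index) :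
    Nat.card {χ : K → ℂ // RO χ} = Nat.card (Set.range (orb i)) := by
  obtain ⟨h1, h2⟩ := main.{u, v} (Nat.card K) K rfl
  have hne : ∀ χ : {χ : K → ℂ // RO χ}, ∃ ν, ν ∈ fK i χ.1 := by
    intro χ
    obtain ⟨d, hd, hd1⟩ := χ.2.2.2
    obtain ⟨ν, hν⟩ := exists_nu hP i χ.2.1.isCharacter χ.2.2.1 hd1 hd
    exact ⟨ν, hν⟩
  have hfo : ∀ (χ : {χ : K → ℂ // RO χ}) (ν), ν ∈ fK i χ.1 → fK i χ.1 = orb i ν := by
    intro χ ν hν
    ext ν'
    constructor
    · intro hν'
      exact h2 P hP i i hi hi ν ν' χ.1 χ.2 hν hν'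
    · intro hν'
      exact om_of_orb i hinj χ.2 hν' hν
  have hinjf : Function.Injective (fun χ : {χ : K → ℂ // RO χ} => fK i χ.1) := by
    intro χ χ' h
    obtain ⟨ν, hν⟩ := hne χ
    have hν' : ν ∈ fK i χ'.1 := by
      have h3 : fK i χ.1 = fK i χ'.1 := h
      rw [← h3]; exact hν
    exact Subtype.ext (h1 P hP i hi ν χ.1 χ'.1 χ.2 χ'.2 hν hν')
  have hrange : Set.range (fun χ : {χ : K → ℂ // RO χ} => fK i χ.1) = Set.range (orb i) := by
    ext S
    constructor
    · rintro ⟨χ, rfl⟩
      obtain ⟨ν, hν⟩ := hne χ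
      exact ⟨ν, (hfo χ ν hν).symm⟩
    · rintro ⟨ν, rfl⟩
      obtain ⟨χ, hχ, hν⟩ := exists_over i hinj hi ν
      exact ⟨⟨χ, hχ⟩, hfo ⟨χ, hχ⟩ ν hν⟩
  rw [← hrange]
  exact Nat.card_congr (Equiv.ofInjective _ hinjf)

theorem card_subtype_eq [Finite K] :
    Nat.card {χ : IrrCharacter K // (∀ g : K, ((χ : K → ℂ) g).im = 0) ∧ Odd (charDegree (χ : K → ℂ))} =
      Nat.card {χ : K → ℂ // RO χ} := by
  apply Nat.card_congr
  refine
    { toFun := fun χ => ⟨(χ.1 : K → ℂ), χ.1.2, fun g => Complex.conj_eq_iff_im.2 (χ.2.1 g), charDegree (χ.1 : K → ℂ), χ.2.2,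
        (H76Char.charDegree_eq χ.1.2.isCharacter).symm⟩
      invFun := fun χ => ⟨⟨χ.1, χ.2.1⟩, fun g => Complex.conj_eq_iff_im.1 (χ.2.2.1 g), ?_⟩
      left_inv := fun _ => rfl
      right_inv := fun _ => rfl }
  obtain ⟨d, hd, hd1⟩ := χ.2.2.2
  have h1 : ((charDegree χ.1 : ℕ) : ℂ) = d := by
    rw [← hd1]; exact H76Char.charDegree_eq χ.2.1.isCharacter
  have h2 : charDegree χ.1 = d := by exact_mod_cast h1
  show Odd (charDegree χ.1)
  rw [h2]; exact hd

theorem allReal_iff [Finite K] : (∀ χ : Cfsg.IrrCharacter K, Odd (Cfsg.charDegree (χ : K → ℂ)) →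
    ∀ g : K, ((χ : K → ℂ) g).im = 0) ↔ AllReal K := by
  constructor
  · intro h χ d h1 h2 h3 g
    have h4 : ((charDegree χ : ℕ) : ℂ) = d := by
      rw [← h2]; exact H76Char.charDegree_eq h1.isCharacter
    have h5 : charDegree χ = d := by exact_mod_cast h4
    exact Complex.conj_eq_iff_im.2 (h ⟨χ, h1⟩ (by show Odd (charDegree χ); rw [h5]; exact h3) g)
  · intro h χ h1 g
    exact Complex.conj_eq_iff_im.1 (h χ _ χ.2 (H76Char.charDegree_eq χ.2.isCharacter).symm h1 g)

theorem result {G : Type*} [Group G] [Finite G] [Group.IsSolvable G] (P : Sylow 2 G) :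
    Nat.card {χ : Cfsg.IrrCharacter G // (∀ g : G, ((χ : G → ℂ) g).im = 0) ∧ Odd (Cfsg.charDegree (χ : G → ℂ))} =
      Nat.card {ψ : Cfsg.IrrCharacter (Subgroup.normalizer ((P : Subgroup G) : Set G)) // (∀ g, ((ψ : Subgroup.normalizer ((P : Subgroup G) : Set G) → ℂ) g).im = 0) ∧ Odd (Cfsg.charDegree (ψ : Subgroup.normalizer ((P : Subgroup G) : Set G) → ℂ))} ∧
    ((∀ χ : Cfsg.IrrCharacter G, Odd (Cfsg.charDegree (χ : G → ℂ)) → ∀ g : G, ((χ : G → ℂ) g).im = 0) ↔
      (commutator (P : Subgroup G) = frattini (P : Subgroup G) ∧ Subgroup.normalizer ((P : Subgroup G) : Set G) = (P : Subgroup G))) := by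
  classical
  have := Fintype.ofFinite G
  have := Fintype.ofFinite (P : Subgroup G)
  have hPi : ¬ 2 ∣ (P : Subgroup G).index := P.not_dvd_index
  have hP : IsPGroup 2 (P : Subgroup G) := P.isPGroup'
  have hmemN : ∀ g : G, (∀ x : (P : Subgroup G), ∃ y : (P : Subgroup G), (y : G) = g * x * g⁻¹) →
      g ∈ Subgroup.normalizer ((P : Subgroup G) : Set G) := by
    intro g hg
    apply Subgroup.mem_normalizer_fintype
    intro x hx
    obtain ⟨y, hy⟩ := hg ⟨x, hx⟩
    have hy' : (y : G) = g * x * g⁻¹ := hy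
    rw [← hy']; exact y.2
  refine ⟨?_, ?_⟩
  · set H := Subgroup.normalizer ((P : Subgroup G) : Set G) with hH
    have hle : (P : Subgroup G) ≤ H := Subgroup.le_normalizer
    rw [card_subtype_eq, card_subtype_eq]
    rw [card_RO hP (P : Subgroup G).subtype (Subgroup.subtype_injective _) (by rw [Subgroup.range_subtype]; exact hPi),
      card_RO hP (Subgroup.inclusion hle) (Subgroup.inclusion_injective hle) (by
        have e : (Subgroup.inclusion hle).range = (P : Subgroup G).subgroupOf H := Subgroup.inclusion_range hle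
        rw [e]
        exact fun hd => hPi (hd.trans (Subgroup.relIndex_dvd_index_of_le hle)))]
    have e : orb (P : Subgroup G).subtype = orb (Subgroup.inclusion hle) := by
      funext ν
      ext ν'
      constructor
      · rintro ⟨g, h1, h2⟩
        have hg : g ∈ H := hmemN g h1
        refine ⟨⟨g, hg⟩, fun x => ?_, fun x y hxy => ?_⟩
        · obtain ⟨y, hy⟩ := h1 x
          exact ⟨y, Subtype.ext hy⟩
        · exact h2 x y (congrArg Subtype.val hxy)
      · rintro ⟨g, h1, h2⟩
        refine ⟨g, fun x => ?_, fun x y hxy => ?_⟩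
        · obtain ⟨y, hy⟩ := h1 x
          exact ⟨y, congrArg Subtype.val hy⟩
        · exact h2 x y (Subtype.ext hxy)
    rw [e]
  · rw [allReal_iff]
    constructor
    · intro h
      obtain ⟨h1, h2⟩ := mainR2 (Nat.card G) G rfl (P : Subgroup G) hP (P : Subgroup G).subtype
        (by rw [Subgroup.range_subtype]; exact hPi) h
      constructor
      · apply le_antisymm
        · exact Cfsg.Agent.Lib.H70Frattini.commutator_le_frattini hP
        · apply FrattiniQuot.frattini_le_of_squares
          intro a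
          by_contra hne
          have h3 : (Abelianization.of (a ^ 2) : Abelianization (P : Subgroup G)) ≠ 1 := by
            intro h4
            apply hne
            have h5 : a ^ 2 ∈ (Abelianization.of (G := (P : Subgroup G))).ker := h4
            rwa [Abelianization.ker_of] at h5
          obtain ⟨φ, hφ⟩ := CommGroup.exists_apply_ne_one_of_hasEnoughRootsOfUnity (Abelianization (P : Subgroup G)) ℂ h3
          apply hφ
          have h5 := h2 (φ.comp Abelianization.of) (fun x hx => by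
            have : x = 1 := Subtype.ext hx
            rw [this, map_one]) a
          rw [map_pow, map_pow]
          exact h5
      · apply le_antisymm
        · intro g hg
          have h3 := h1 g (fun x => by
            refine ⟨⟨g * x * g⁻¹, ((Subgroup.mem_normalizer_iff.1 hg) (x : G)).1 x.2⟩, rfl⟩)
          rw [Subgroup.range_subtype] at h3
          exact h3
        · exact Subgroup.le_normalizer
    · rintro ⟨h1, h2⟩
      apply mainR1 (Nat.card G) G rfl (P : Subgroup G) hP (P : Subgroup G).subtype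
        (by rw [Subgroup.range_subtype]; exact hPi)
      · intro g hg
        rw [Subgroup.range_subtype]
        have := hmemN g hg
        rw [h2] at this
        exact this
      · intro ν x
        have h3 : x ^ 2 ∈ commutator (P : Subgroup G) := by
          rw [h1]; exact Cfsg.Agent.Lib.H70Frattini.pow_mem_frattini hP x
        have h4 : commutator (P : Subgroup G) ≤ ν.ker := Abelianization.commutator_subset_ker ν
        have h5 := h4 h3
        rw [MonoidHom.mem_ker, map_pow] at h5
        exact h5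

end Cfsg.Agent.S4581
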