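import Cfsg.Statements.S4582
import Cfsg.Agent.Lib.H76RealExt
import Cfsg.Agent.Lib.H76Setup

set_option autoImplicit false
open Cfsg

namespace Cfsg.Agent.S4582

open scoped ComplexConjugate commutatorElement
open Cfsg Cfsg.Agent.Lib Cfsg.Agent.Lib.CharBasic Cfsg.Agent.Lib.Clifford Cfsg.Agent.Lib.H76PCount
open Cfsg.Agent.Lib.CliffordCorr Cfsg.Agent.Lib.H76Ker Cfsg.Agent.Lib.H76RealExt Cfsg.Agent.Lib.H76PAct

universe u

variable {G : Type u} [Group G]

instance fact2 : Fact (Nat.Prime 2) := ⟨Nat.prime_two⟩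

/-- real induced function -/
theorem conj_indFun [Fintype G] (H : Subgroup G) (θ : H → ℂ) (h : ∀ x, conj (θ x) = θ x) (g : G) :
    conj (indFun H θ g) = indFun H θ g := by
  rw [IndFun.indFun_apply, map_mul, map_sum, map_inv₀, map_natCast]
  congr 1
  apply Finset.sum_congr rfl
  intro x _
  by_cases hx : x⁻¹ * g * x ∈ H
  · rw [IndFun.extendByZero_mem H θ hx, h]
  · rw [IndFun.extendByZero_not_mem H θ hx, map_zero]

/-- a real character with a positive odd multiplicity: a real constituent of a product of two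
real characters' inner product -/
theorem exists_real_constituent [Fintype G] {A B : G → ℂ} (hA : IsCharacter G A) (hB : IsCharacter G B)
    (hAr : ∀ g, conj (A g) = A g) (hBr : ∀ g, conj (B g) = B g) (a : ℕ) (ha : classInner A B = a) (hodd : Odd a) :
    ∃ (ψ : G → ℂ) (m n : ℕ), IsIrrCharacter G ψ ∧ (∀ g, conj (ψ g) = ψ g) ∧ classInner A ψ = m ∧ classInner B ψ = n ∧
      Odd m ∧ Odd n := by
  classical
  have hm : ∀ ψ : IrrCharacter G, ∃ m : ℕ, classInner A (ψ : G → ℂ) = m := fun ψ => hA.classInner_nat ψ.2.isCharacter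
  have hn : ∀ ψ : IrrCharacter G, ∃ m : ℕ, classInner B (ψ : G → ℂ) = m := fun ψ => hB.classInner_nat ψ.2.isCharacter
  choose m hm using hm
  choose n hn using hn
  have h1 := hA.isClassFunction.classInner_eq_sum B
  rw [ha] at h1
  have h2 : a = ∑ ψ : IrrCharacter G, m ψ * n ψ := by
    have : (a : ℂ) = ((∑ ψ : IrrCharacter G, m ψ * n ψ : ℕ) : ℂ) := by
      rw [h1]; push_cast
      apply Finset.sum_congr rfl
      intro ψ _
      rw [hm, hn, map_natCast]
    exact_mod_cast this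
  let σ : IrrCharacter G → IrrCharacter G := fun ψ => ⟨fun g => conj ((ψ : G → ℂ) g), ψ.2.conj⟩
  have hcj : ∀ (C : G → ℂ) (hC : IsCharacter G C) (hCr : ∀ g, conj (C g) = C g) (ψ : IrrCharacter G),
      classInner C (σ ψ : G → ℂ) = classInner C (ψ : G → ℂ) := by
    intro C hC hCr ψ
    have h3 : C = fun g => conj (C g) := funext (fun g => (hCr g).symm)
    conv_lhs => rw [h3]
    show classInner (fun g => conj (C g)) (fun g => conj ((ψ : G → ℂ) g)) = _
    rw [classInner_conj_conj]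
    obtain ⟨k, hk⟩ := hC.classInner_nat ψ.2.isCharacter
    rw [← conj_classInner, hk, map_natCast]
  obtain ⟨ψ, -, h4, h5⟩ := exists_fixed_odd (Finset.univ : Finset (IrrCharacter G)) σ (fun _ _ => Finset.mem_univ _)
    (fun ψ _ => Subtype.ext (by funext g; simp [σ])) (fun ψ => m ψ * n ψ) (fun ψ _ => by
      have e1 : m (σ ψ) = m ψ := by
        have := hcj A hA hAr ψ
        rw [hm, hm] at this
        exact_mod_cast this
      have e2 : n (σ ψ) = n ψ := by
        have := hcj B hB hBr ψ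
        rw [hn, hn] at this
        exact_mod_cast this
      simp only [e1, e2]) (by rw [← h2]; exact hodd)
  rw [Nat.odd_mul] at h5
  exact ⟨ψ, m ψ, n ψ, ψ.2, fun g => congrFun (congrArg Subtype.val h4) g, hm ψ, hn ψ, h5.1, h5.2⟩

theorem ind_cj [Fintype G] (N P : Subgroup G) [hN : N.Normal] [Fintype N] (f : P →* ℂˣ) (g : G) (hg : g ∈ P) :
    cj N g (indFun (P.subgroupOf N) (fun y => ((f ⟨((y : N) : G), Subgroup.mem_subgroupOf.1 y.2⟩ : ℂˣ) : ℂ)) : N → ℂ) =
      indFun (P.subgroupOf N) (fun y => ((f ⟨((y : N) : G), Subgroup.mem_subgroupOf.1 y.2⟩ : ℂˣ) : ℂ)) := by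
  classical
  funext n
  rw [cj_apply, IndFun.indFun_apply, IndFun.indFun_apply]
  congr 1
  rw [← (MulAut.conjNormal g : N ≃* N).toEquiv.sum_comp]
  apply Finset.sum_congr rfl
  intro y _
  set z : N := y⁻¹ * n * y with hz
  have h1 : (((MulAut.conjNormal g : N ≃* N).toEquiv y : N))⁻¹ * ⟨g * (n : G) * g⁻¹, hN.conj_mem (n : G) n.2 g⟩ *
      ((MulAut.conjNormal g : N ≃* N).toEquiv y : N) = MulAut.conjNormal g z := by
    have h2 : (⟨g * (n : G) * g⁻¹, hN.conj_mem (n : G) n.2 g⟩ : N) = MulAut.conjNormal g n := by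
      apply Subtype.ext; rw [MulAut.conjNormal_apply]
    rw [h2, hz, map_mul, map_mul, map_inv]
    rfl
  rw [h1]
  by_cases hzP : z ∈ P.subgroupOf N
  · have hzP' : MulAut.conjNormal g z ∈ P.subgroupOf N := by
      rw [Subgroup.mem_subgroupOf] at hzP ⊢
      rw [MulAut.conjNormal_apply]
      exact P.mul_mem (P.mul_mem hg hzP) (P.inv_mem hg)
    rw [IndFun.extendByZero_mem _ _ hzP, IndFun.extendByZero_mem _ _ hzP']
    have h3 : (⟨((MulAut.conjNormal g z : N) : G), Subgroup.mem_subgroupOf.1 hzP'⟩ : P) =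
        ⟨g, hg⟩ * ⟨(z : G), Subgroup.mem_subgroupOf.1 hzP⟩ * ⟨g, hg⟩⁻¹ := by
      apply Subtype.ext
      exact MulAut.conjNormal_apply g z
    show ((f ⟨((MulAut.conjNormal g z : N) : G), Subgroup.mem_subgroupOf.1 hzP'⟩ : ℂˣ) : ℂ) = _
    rw [h3, map_mul, map_mul, map_inv, mul_comm (f ⟨g, hg⟩), mul_inv_cancel_right]
  · have hzP' : MulAut.conjNormal g z ∉ P.subgroupOf N := by
      intro h
      apply hzP
      rw [Subgroup.mem_subgroupOf] at h ⊢
      rw [MulAut.conjNormal_apply] at h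
      have h4 := P.mul_mem (P.mul_mem (P.inv_mem hg) h) hg
      have h5 : g⁻¹ * (g * (z : G) * g⁻¹) * g = z := by group
      rwa [h5] at h4
    rw [IndFun.extendByZero_not_mem _ _ hzP, IndFun.extendByZero_not_mem _ _ hzP']

theorem exists_theta [Fintype G] (N : Subgroup G) [hN : N.Normal] (P : Sylow 2 G) (f : P →* ℂˣ)
    (hf : ∀ y : P, (y : G) ∈ N → f y ^ 2 = 1) [Fintype N] :
    ∃ (θ : N → ℂ) (d a : ℕ), IsIrrCharacter N θ ∧ (∀ g ∈ (P : Subgroup G), cj N g θ = θ) ∧ (∀ n, conj (θ n) = θ n) ∧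
      θ 1 = d ∧ Odd d ∧ Odd a ∧
      classInner (indFun ((P : Subgroup G).subgroupOf N)
        (fun y => ((f ⟨((y : N) : G), Subgroup.mem_subgroupOf.1 y.2⟩ : ℂˣ) : ℂ))) θ = a := by
  classical
  set Q₁ : Subgroup N := (P : Subgroup G).subgroupOf N with hQ₁
  set g₁ : Q₁ →* P :=
    { toFun := fun y => ⟨((y : N) : G), Subgroup.mem_subgroupOf.1 y.2⟩
      map_one' := rfl
      map_mul' := fun _ _ => rfl } with hg₁
  have hν : IsIrrCharacter Q₁ (fun y => ((f ⟨((y : N) : G), Subgroup.mem_subgroupOf.1 y.2⟩ : ℂˣ) : ℂ)) :=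
    isIrrCharacter_of_unitsHom (f.comp g₁)
  set ν : Q₁ → ℂ := fun y => ((f ⟨((y : N) : G), Subgroup.mem_subgroupOf.1 y.2⟩ : ℂˣ) : ℂ) with hνdef
  set Φ : N → ℂ := indFun Q₁ ν with hΦ
  have hΦc : IsCharacter N Φ := hν.isCharacter.indFun Q₁
  have hνr : ∀ x, conj (ν x) = ν x := by
    intro x
    have h1 : f (g₁ x) ^ 2 = 1 := hf (g₁ x) (x : N).2
    have h2 : (ν x) ^ 2 = 1 := by
      have h3 : ν x = (f (g₁ x) : ℂ) := rfl
      rw [h3, ← Units.val_pow_eq_pow_val, h1, Units.val_one]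
    rcases sq_eq_one_iff.1 h2 with h | h
    · rw [h]; simp
    · rw [h]; simp
  have hΦr : ∀ n, conj (Φ n) = Φ n := conj_indFun Q₁ ν hνr
  have hΦ1 : Φ 1 = (Q₁.index : ℂ) := by
    rw [hΦ, IndFun.indFun_one, hνdef]
    have : (⟨(((1 : Q₁) : N) : G), Subgroup.mem_subgroupOf.1 (1 : Q₁).2⟩ : P) = 1 := rfl
    simp only [this]
    simp
  have hQodd : Odd Q₁.index := by
    obtain ⟨Q, hQ⟩ := Subnormal.exists_sylow_eq_subgroupOf 2 hN.isSubnormal P
    have h1 := Q.not_dvd_index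
    rw [hQ, ← hQ₁, Nat.two_dvd_ne_zero, ← Nat.odd_iff] at h1
    exact h1
  let _ := actIrrSub N (P : Subgroup G)
  have hsm : ∀ (g : P) (θ : IrrCharacter N), ((g • θ : IrrCharacter N) : N → ℂ) = cj N (g : G)⁻¹ θ := fun _ _ => rfl
  have hm : ∀ ψ : IrrCharacter N, ∃ m : ℕ, classInner Φ (ψ : N → ℂ) = m := fun ψ => hΦc.classInner_nat ψ.2.isCharacter
  choose m hm using hm
  have hd : ∀ ψ : IrrCharacter N, ∃ d : ℕ, (ψ : N → ℂ) 1 = d := fun ψ => by
    obtain ⟨d, -, hd⟩ := ψ.2.exists_degree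
    exact ⟨d, hd⟩
  choose d hd using hd
  have hsum : ∑ ψ : IrrCharacter N, m ψ * d ψ = Q₁.index := by
    have h1 := hΦc.isClassFunction.expansion_apply 1
    rw [hΦ1] at h1
    have : ((∑ ψ : IrrCharacter N, m ψ * d ψ : ℕ) : ℂ) = (Q₁.index : ℂ) := by
      rw [h1]; push_cast
      apply Finset.sum_congr rfl
      intro ψ _
      rw [hm, hd]
    exact_mod_cast this
  have hminv : ∀ (g : P) (ψ : IrrCharacter N), m (g • ψ) = m ψ := by
    intro g ψ
    have h1 := hm (g • ψ)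
    rw [hsm] at h1
    have h2 := ind_cj N (P : Subgroup G) f (g : G)⁻¹ ((P : Subgroup G).inv_mem g.2)
    have h3 : cj N (g : G)⁻¹ Φ = Φ := h2
    rw [← h3, classInner_cj_cj, hm] at h1
    exact_mod_cast h1.symm
  have hdinv : ∀ (g : P) (ψ : IrrCharacter N), d (g • ψ) = d ψ := by
    intro g ψ
    have h1 := hd (g • ψ)
    rw [hsm, cj_apply] at h1
    have e2 : (⟨(g : G)⁻¹ * ((1 : N) : G) * (g : G)⁻¹⁻¹, (inferInstance : N.Normal).conj_mem _ (1 : N).2 _⟩ : N) = 1 := by
      apply Subtype.ext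
      simp
    rw [e2, hd] at h1
    exact_mod_cast h1.symm
  have hcong := nat_sum_modEq_fixed (p := 2) P.2 (fun ψ => m ψ * d ψ) (fun g ψ => by
    simp only [hminv, hdinv])
  rw [hsum] at hcong
  let σ : IrrCharacter N → IrrCharacter N := fun ψ => ⟨fun g => conj ((ψ : N → ℂ) g), ψ.2.conj⟩
  have hfixP : ∀ ψ : IrrCharacter N, ψ ∈ MulAction.fixedPoints P (IrrCharacter N) ↔
      ∀ g ∈ (P : Subgroup G), cj N g (ψ : N → ℂ) = ψ := by
    intro ψ
    constructor
    · intro h g hg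
      have h4 := congrArg Subtype.val (h ⟨g, hg⟩⁻¹)
      rw [hsm] at h4
      simpa using h4
    · intro h g
      apply Subtype.ext
      rw [hsm]
      exact h _ ((P : Subgroup G).inv_mem g.2)
  have hmσ : ∀ ψ, m (σ ψ) = m ψ := by
    intro ψ
    have h1 := hm (σ ψ)
    have h3 : Φ = fun g => conj (Φ g) := funext (fun g => (hΦr g).symm)
    rw [h3] at h1
    have h4 : classInner (fun g => conj (Φ g)) (fun g => conj ((ψ : N → ℂ) g)) = (m (σ ψ) : ℂ) := h1
    rw [classInner_conj_conj, ← conj_classInner, hm, map_natCast] at h4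
    exact_mod_cast h4.symm
  have hdσ : ∀ ψ, d (σ ψ) = d ψ := by
    intro ψ
    have h1 := hd (σ ψ)
    have h2 : conj ((ψ : N → ℂ) 1) = (d (σ ψ) : ℂ) := h1
    rw [hd, map_natCast] at h2
    exact_mod_cast h2.symm
  obtain ⟨ψ, h1, h2, h3⟩ := exists_fixed_odd
    (Finset.univ.filter (fun ψ : IrrCharacter N => ψ ∈ MulAction.fixedPoints P (IrrCharacter N))) σ
    (fun ψ hψ => by
      rw [Finset.mem_filter] at hψ ⊢
      refine ⟨Finset.mem_univ _, ?_⟩
      rw [hfixP] at hψ ⊢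
      intro g hg
      funext n
      have h4 := congrFun (hψ.2 g hg) n
      rw [cj_apply] at h4 ⊢
      exact congrArg (starRingEnd ℂ) h4)
    (fun ψ _ => Subtype.ext (by funext g; simp [σ])) (fun ψ => m ψ * d ψ) (fun ψ _ => by simp only [hmσ, hdσ])
    (by
      rw [Nat.odd_iff, ← hcong, ← Nat.odd_iff]
      exact hQodd)
  rw [Nat.odd_mul] at h3
  rw [Finset.mem_filter, hfixP] at h1
  refine ⟨ψ, d ψ, m ψ, ψ.2, h1.2, fun g => congrFun (congrArg Subtype.val h2) g, hd ψ, h3.2, h3.1, hm ψ⟩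

theorem real_linear_sq [Finite G] {χ : G → ℂ} (hχ : IsCharacter G χ) (h1 : χ 1 = 1) (hr : ∀ g, conj (χ g) = χ g) (g : G) :
    χ g * χ g = 1 := by
  have h := hχ.mul_conj_of_linear h1 g
  rwa [hr] at h

/-- Every linear character of `P` has order at most 2. -/
theorem sq_eq_one [Finite G] (N : Subgroup G) [hN : N.Normal] (P : Sylow 2 G)
    (hP : ∀ x ∈ (P : Subgroup G), x ^ 2 ∈ ((P : Subgroup G) ⊓ N) ⊔ ⁅(P : Subgroup G), (P : Subgroup G)⁆)
    (hQ : ∀ x ∈ (P : Subgroup G) ⊓ N, x ^ 2 ∈ ⁅(P : Subgroup G) ⊓ N, (P : Subgroup G) ⊓ N⁆)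
    (hodd : Odd (Nat.card (Abelianization N))) (f : P →* ℂˣ) (x : P) : f x ^ 2 = 1 := by
  classical
  have := Fintype.ofFinite G
  have := Fintype.ofFinite N
  have := Fintype.ofFinite P
  have hcomm : ∀ (h : P →* ℂˣ) (y : P), (y : G) ∈ ⁅(P : Subgroup G), (P : Subgroup G)⁆ → h y = 1 := by
    intro h y hy
    have h10 : ⁅(P : Subgroup G), (P : Subgroup G)⁆ = (commutator P).map (P : Subgroup G).subtype := by
      rw [commutator_def, Subgroup.map_commutator, ← MonoidHom.range_eq_map, Subgroup.range_subtype]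
    rw [h10] at hy
    obtain ⟨z, hz, hz2⟩ := hy
    have h11 : y = z := Subtype.ext hz2.symm
    rw [h11]
    exact Abelianization.commutator_subset_ker h hz
  have hf : ∀ y : P, (y : G) ∈ N → f y ^ 2 = 1 := by
    intro y hy
    rw [← map_pow]
    apply hcomm
    have h1 := hQ y (Subgroup.mem_inf.2 ⟨y.2, hy⟩)
    exact Subgroup.commutator_mono inf_le_left inf_le_left h1
  obtain ⟨θ, d, a, hθ, hinv, hreal, hd, hdo, hao, ha⟩ := exists_theta N P f hf
  -- extension to H = N ⊔ P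
  set H : Subgroup G := N ⊔ (P : Subgroup G) with hH
  have hNH : N ≤ H := le_sup_left
  have hPH : (P : Subgroup G) ≤ H := le_sup_right
  have := Fintype.ofFinite H
  set N₁ : Subgroup H := N.subgroupOf H with hN₁
  let θ₁ : N₁ → ℂ := fun n => θ (subEquiv N H hNH n)
  have hθ₁ : IsIrrCharacter N₁ θ₁ := (isIrrCharacter_comp_mulEquiv_iff (subEquiv N H hNH)).2 hθ
  have hHi : H ≤ inertia N θ := by
    apply sup_le
    · exact le_inertia hθ.isClassFunction
    · intro g hg
      exact hinv g hg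
  have hinv₁ : ∀ g : H, cj N₁ g θ₁ = θ₁ := by
    intro g
    funext n
    have h1 : cj N (g : G) θ = θ := hHi g.2
    have h2 := congrFun h1 (subEquiv N H hNH n)
    rw [cj_apply] at h2
    exact h2
  have hidx : Nat.Coprime N₁.index d := by
    have h1 : N₁.index = N.relIndex (P : Subgroup G) := by
      show N.relIndex (N ⊔ (P : Subgroup G)) = _
      exact Subgroup.relIndex_sup_left _ _
    obtain ⟨k, hk⟩ := (IsPGroup.iff_card (p := 2)).1 P.2
    have h3 : N.relIndex (P : Subgroup G) ∣ 2 ^ k := by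
      rw [← hk]; exact Subgroup.relIndex_dvd_card _ _
    rw [h1]
    exact Nat.Coprime.coprime_dvd_left h3 (Nat.Coprime.pow_left k (Nat.coprime_two_left.2 hdo))
  have hdet : detOrder θ₁ = 1 := by
    apply detOrder_eq_one hθ₁.isCharacter (fun n => hreal _)
    have e := (subEquiv N H hNH).abelianizationCongr
    rw [Nat.card_congr e.toEquiv]
    exact hodd
  obtain ⟨χ, hχ, hχr, hχreal⟩ := exists_real_extension N₁ hθ₁ hinv₁ d hd hidx hdet (fun n => hreal _)
  -- restriction to P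
  let j : P →* H := Subgroup.inclusion hPH
  set A : P → ℂ := fun y => χ (j y) with hA
  have hAc : IsCharacter P A := hχ.isCharacter.comp j
  have hAr : ∀ y, conj (A y) = A y := fun y => hχreal _
  -- the induced character of P
  set Q₂ : Subgroup P := N.subgroupOf (P : Subgroup G) with hQ₂
  have := Fintype.ofFinite Q₂
  let ν₂ : Q₂ → ℂ := fun y => (f y : ℂ)
  have hν₂ : IsIrrCharacter Q₂ ν₂ := isIrrCharacter_of_unitsHom (f.comp Q₂.subtype)
  have hν₂r : ∀ y, conj (ν₂ y) = ν₂ y := by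
    intro y
    have h1 : f y ^ 2 = 1 := hf y y.2
    have h2 : (ν₂ y) ^ 2 = 1 := by
      have h3 : ν₂ y = (f y : ℂ) := rfl
      rw [h3, ← Units.val_pow_eq_pow_val, h1, Units.val_one]
    rcases sq_eq_one_iff.1 h2 with h | h
    · rw [h]; simp
    · rw [h]; simp
  have hBc : IsCharacter P (indFun Q₂ ν₂) := hν₂.isCharacter.indFun Q₂
  have hBr : ∀ y, conj (indFun Q₂ ν₂ y) = indFun Q₂ ν₂ y := conj_indFun Q₂ ν₂ hν₂r
  have hAB : classInner A (indFun Q₂ ν₂) = a := by
    have := Fintype.ofFinite ((P : Subgroup G).subgroupOf N)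
    rw [IndFun.frobenius_reciprocity' Q₂ ν₂ A hAc.isClassFunction]
    rw [IndFun.frobenius_reciprocity _ _ θ hθ.isClassFunction] at ha
    -- both are inner products over P ⊓ N
    let e : Q₂ ≃* ((P : Subgroup G).subgroupOf N) :=
      { toFun := fun y => ⟨⟨((y : P) : G), y.2⟩, (y : P).2⟩
        invFun := fun y => ⟨⟨((y : N) : G), y.2⟩, (y : N).2⟩
        left_inv := fun _ => rfl
        right_inv := fun _ => rfl
        map_mul' := fun _ _ => rfl }
    rw [← classInner_comp_equiv e] at ha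
    rw [← conj_classInner]
    have h1 : (fun y : Q₂ => A y) = fun y : Q₂ => θ ((e y : (P : Subgroup G).subgroupOf N) : N) := by
      funext y
      exact hχr ⟨⟨((y : P) : G), hNH y.2⟩, y.2⟩
    have h2 : classInner ν₂ (fun y : Q₂ => A y) = a := by
      rw [h1]
      exact ha
    rw [h2, map_natCast]
  obtain ⟨ψ, m, n, hψ, hψr, hm, hn, hmo, hno⟩ := exists_real_constituent hAc hBc hAr hBr a hAB hao
  -- ψ lies over ν₂, of odd degree
  have h1 : classInner ν₂ (fun y : Q₂ => ψ y) = n := by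
    rw [← IndFun.frobenius_reciprocity Q₂ ν₂ ψ hψ.isClassFunction]; exact hn
  have h2 : classInner (fun y : Q₂ => ψ y) ν₂ = n := by
    rw [← conj_classInner, h1, map_natCast]
  have hn0 : n ≠ 0 := by rintro rfl; simp at hno
  have h3 := res_eq_smul_of_invariant hψ hν₂ (fun g => by
    funext y
    rw [cj_apply]
    show ((f (g * (y : P) * g⁻¹) : ℂˣ) : ℂ) = f y
    rw [map_mul, map_mul, map_inv, mul_comm (f g), mul_inv_cancel_right]) (by rw [h2]; exact_mod_cast hn0)
  rw [h2] at h3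
  have hψ1 : ψ 1 = n := by
    have h4 := congrFun h3 1
    simp only [Pi.smul_apply, smul_eq_mul] at h4
    have h5 : ν₂ 1 = 1 := by simp [ν₂]
    rw [h5, mul_one] at h4
    exact h4
  have hn1 : n = 1 := linear_of_pgroup P.2 hψ hψ1 (by
    rw [Nat.two_dvd_ne_zero, ← Nat.odd_iff]; exact hno)
  subst hn1
  rw [Nat.cast_one] at hψ1
  obtain ⟨h, hh⟩ := hψ.isCharacter.exists_hom hψ1
  have hhf : ∀ y : P, (y : G) ∈ N → h y = f y := by
    intro y hy
    have h4 := congrFun h3 ⟨y, hy⟩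
    simp only [Pi.smul_apply, smul_eq_mul, Nat.cast_one, one_mul] at h4
    apply Units.ext
    rw [← hh]
    exact h4
  have hh2 : h x ^ 2 = 1 := by
    apply Units.ext
    rw [Units.val_pow_eq_pow_val, sq, ← hh, Units.val_one]
    exact real_linear_sq hψ.isCharacter hψ1 hψr x
  -- f = h on x ^ 2
  have h5 : f (x ^ 2) = h (x ^ 2) := by
    let K : Subgroup P := (f / h).ker
    have h6 : (P : Subgroup G) ⊓ N ⊔ ⁅(P : Subgroup G), (P : Subgroup G)⁆ ≤ K.map (P : Subgroup G).subtype := by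
      apply sup_le
      · intro y hy
        refine ⟨⟨y, hy.1⟩, ?_, rfl⟩
        show (f / h) _ = 1
        rw [MonoidHom.div_apply, hhf _ hy.2, div_self']
      · intro y hy
        have hyP : y ∈ (P : Subgroup G) := by
          have h10 : ⁅(P : Subgroup G), (P : Subgroup G)⁆ = (commutator P).map (P : Subgroup G).subtype := by
            rw [commutator_def, Subgroup.map_commutator, ← MonoidHom.range_eq_map, Subgroup.range_subtype]
          rw [h10] at hy
          obtain ⟨z, hz, rfl⟩ := hy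
          exact z.2
        exact ⟨⟨y, hyP⟩, hcomm (f / h) ⟨y, hyP⟩ hy, rfl⟩
    obtain ⟨z, hz, hz2⟩ := h6 (hP x x.2)
    have h7 : z = x ^ 2 := Subtype.ext hz2
    have h8 : (f / h) (x ^ 2) = 1 := h7 ▸ hz
    rw [MonoidHom.div_apply, div_eq_one] at h8
    exact h8
  rw [← map_pow, h5, map_pow, hh2]

theorem result {G : Type*} [Group G] [Finite G] (N : Subgroup G) [N.Normal] (P : Sylow 2 G)
    (hP : ∀ x ∈ (P : Subgroup G), x ^ 2 ∈ ((P : Subgroup G) ⊓ N) ⊔ ⁅(P : Subgroup G), (P : Subgroup G)⁆)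
    (hQ : ∀ x ∈ (P : Subgroup G) ⊓ N, x ^ 2 ∈ ⁅(P : Subgroup G) ⊓ N, (P : Subgroup G) ⊓ N⁆)
    (hodd : Odd (Nat.card (Abelianization N))) :
    ∀ x ∈ (P : Subgroup G), x ^ 2 ∈ ⁅(P : Subgroup G), (P : Subgroup G)⁆ := by
  intro x hx
  have h10 : ⁅(P : Subgroup G), (P : Subgroup G)⁆ = (commutator P).map (P : Subgroup G).subtype := by
    rw [commutator_def, Subgroup.map_commutator, ← MonoidHom.range_eq_map, Subgroup.range_subtype]
  rw [h10]
  refine ⟨⟨x, hx⟩ ^ 2, ?_, rfl⟩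
  rw [SetLike.mem_coe, ← Abelianization.ker_of, MonoidHom.mem_ker]
  by_contra hne
  have : NeZero (Monoid.exponent (Abelianization P)) := ⟨Monoid.exponent_ne_zero_of_finite⟩
  obtain ⟨φ, hφ⟩ := CommGroup.exists_apply_ne_one_of_hasEnoughRootsOfUnity (Abelianization P) ℂ hne
  apply hφ
  have h1 := sq_eq_one N P hP hQ hodd (φ.comp Abelianization.of) ⟨x, hx⟩
  rw [← map_pow] at h1
  exact h1

end Cfsg.Agent.S4582
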