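import Cfsg.Statements.S4584
import Cfsg.Agent.Lib.H76PGroup2
set_option autoImplicit false
open Cfsg
namespace Cfsg.Agent.S4584

open Cfsg.Agent.Lib.H76PGroup

theorem exists_not_mem {P : Type*} [Group P] {H : Subgroup P} (h : H ≠ ⊤) : ∃ x, x ∉ H := by
  by_contra hcon
  push Not at hcon
  exact h (top_le_iff.1 fun x _ => hcon x)

/-- the centre of a nonabelian `p`-group has index at least `p ^ 2` -/
theorem not_index_center {P : Type*} [Group P] [Finite P] (p : ℕ) [Fact p.Prime]
    (h : (Subgroup.center P).index = p) : False := by
  have hp : p.Prime := Fact.out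
  have hne : Subgroup.center P ≠ ⊤ := by
    intro h'
    rw [h', Subgroup.index_top] at h
    exact hp.one_lt.ne h
  obtain ⟨x, hx⟩ := exists_not_mem hne
  apply hx
  rw [Subgroup.mem_center_iff]
  intro g
  obtain ⟨a, ha, k, rfl⟩ := exists_mul_zpow_of_index p (Subgroup.center P) h x hx g
  have := Subgroup.mem_center_iff.1 ha
  calc a * x ^ k * x = a * x * x ^ k := by
        rw [mul_assoc, mul_assoc, ((Commute.refl x).zpow_left k).eq]
    _ = x * (a * x ^ k) := by rw [this x |>.symm, mul_assoc]

theorem result {P : Type*} [Group P] [Finite P] (p : ℕ) [Fact p.Prime] (hP : Nat.card P = p ^ 4) :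
    Nat.card (commutator P) = p ↔ (Subgroup.center P).index = p ^ 2 := by
  have hp : p.Prime := Fact.out
  have hPp : IsPGroup p P := IsPGroup.of_card hP
  constructor
  · intro h
    have hcen : commutator P ≤ Subgroup.center P := le_center_of_card_prime hPp _ h
    have hne : Subgroup.center P ≠ ⊤ := by
      intro h'
      have : commutator P = ⊥ := by
        rw [commutator_def, Subgroup.commutator_eq_bot_iff_le_centralizer]
        rw [← h', Subgroup.le_centralizer_iff]
        intro x _
        rw [Subgroup.mem_centralizer_iff]
        intro y hy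
        exact (Subgroup.mem_center_iff.1 hy x).symm
      rw [this] at h
      simp at h
      exact hp.one_lt.ne h
    obtain ⟨x, hx⟩ := exists_not_mem hne
    obtain ⟨y, hy⟩ : ∃ y, y ∉ Subgroup.centralizer ({x} : Set P) := by
      apply exists_not_mem
      intro h'
      apply hx
      rw [Subgroup.mem_center_iff]
      intro g
      have : g ∈ Subgroup.centralizer ({x} : Set P) := by rw [h']; trivial
      exact (Subgroup.mem_centralizer_iff.1 this x rfl).symm
    set Cx := Subgroup.centralizer ({x} : Set P) with hCx
    set Cy := Subgroup.centralizer ({y} : Set P) with hCy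
    have hxCx : x ∈ Cx := by rw [hCx, Subgroup.mem_centralizer_iff]; rintro _ rfl; rfl
    have hyCy : y ∈ Cy := by rw [hCy, Subgroup.mem_centralizer_iff]; rintro _ rfl; rfl
    have hxCy : x ∉ Cy := by
      intro h'
      apply hy
      rw [Subgroup.mem_centralizer_iff]
      rintro _ rfl
      exact (Subgroup.mem_centralizer_iff.1 h' y rfl).symm
    have hix : Cx.index = p := by
      have := index_centralizer_dvd hcen x
      rw [h] at this
      rcases (Nat.dvd_prime hp).1 this with h1 | h1
      · rw [Subgroup.index_eq_one] at h1
        exact absurd (by rw [hCx, h1]; trivial) hy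
      · exact h1
    have hiy : Cy.index = p := by
      have := index_centralizer_dvd hcen y
      rw [h] at this
      rcases (Nat.dvd_prime hp).1 this with h1 | h1
      · rw [Subgroup.index_eq_one] at h1
        exact absurd (by rw [hCy, h1]; trivial) hxCy
      · exact h1
    set K := Cx ⊓ Cy with hK
    have hKidx : K.index ≤ p ^ 2 := by
      calc K.index ≤ Cx.index * Cy.index := Subgroup.index_inf_le
        _ = p ^ 2 := by rw [hix, hiy]; ring
    have hKC : K < Cx := by
      refine lt_of_le_of_ne inf_le_left fun he => hxCy ?_
      have : x ∈ K := he ▸ hxCx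
      exact this.2
    have hKcard : Nat.card K = p ^ 2 := by
      have h1 : Nat.card K * K.index = p ^ 4 := by rw [Subgroup.card_mul_index, hP]
      have h2 : Nat.card Cx * p = p ^ 4 := by
        have := Subgroup.card_mul_index Cx
        rw [hix, hP] at this
        exact this
      have h3 : Nat.card Cx = p ^ 3 := by
        apply Nat.eq_of_mul_eq_mul_right hp.pos
        rw [h2]; ring
      have h4 := lt_card_of_lt hPp hKC
      rw [h3] at h4
      have h5 : Nat.card K ≤ p ^ 2 := by
        apply Nat.le_of_mul_le_mul_left _ hp.pos
        calc p * Nat.card K ≤ p ^ 3 := h4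
          _ = p * p ^ 2 := by ring
      have h6 : p ^ 2 ≤ Nat.card K := by
        by_contra hcon
        push Not at hcon
        have : Nat.card K * K.index < p ^ 2 * p ^ 2 :=
          Nat.mul_lt_mul_of_lt_of_le hcon hKidx (pow_pos hp.pos 2)
        rw [h1] at this
        have e : p ^ 2 * p ^ 2 = p ^ 4 := by ring
        omega
      omega
    have hKidx2 : K.index = p ^ 2 := by
      have h1 : Nat.card K * K.index = p ^ 4 := by rw [Subgroup.card_mul_index, hP]
      rw [hKcard] at h1
      apply Nat.eq_of_mul_eq_mul_left (pow_pos hp.pos 2)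
      rw [h1]; ring
    have hKab := IsPGroup.commutative_of_card_eq_prime_sq hKcard
    -- the centralizer of K is everything
    have hCK : Subgroup.centralizer (K : Set P) = ⊤ := by
      have hKle : K ≤ Subgroup.centralizer (K : Set P) := by
        intro a ha
        rw [Subgroup.mem_centralizer_iff]
        intro b hb
        exact congrArg Subtype.val (hKab ⟨b, hb⟩ ⟨a, ha⟩)
      have hxK : x ∈ Subgroup.centralizer (K : Set P) := by
        rw [Subgroup.mem_centralizer_iff]
        intro b hb
        exact (Subgroup.mem_centralizer_iff.1 hb.1 x rfl).symm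
      have hyK : y ∈ Subgroup.centralizer (K : Set P) := by
        rw [Subgroup.mem_centralizer_iff]
        intro b hb
        exact (Subgroup.mem_centralizer_iff.1 hb.2 y rfl).symm
      have h1 : K < Cx ⊓ Subgroup.centralizer (K : Set P) := by
        refine lt_of_le_of_ne (le_inf hKC.le hKle) fun he => hxCy ?_
        have : x ∈ K := he ▸ ⟨hxCx, hxK⟩
        exact this.2
      have h2 : Cx ⊓ Subgroup.centralizer (K : Set P) < Subgroup.centralizer (K : Set P) := by
        refine lt_of_le_of_ne inf_le_right fun he => hy ?_
        have : y ∈ Cx ⊓ Subgroup.centralizer (K : Set P) := by rw [he]; exact hyK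
        exact this.1
      have h3 := lt_card_of_lt hPp h1
      have h4 := lt_card_of_lt hPp h2
      have h5 : Nat.card P ≤ Nat.card (Subgroup.centralizer (K : Set P)) := by
        rw [hP]
        calc p ^ 4 = p * (p * p ^ 2) := by ring
          _ ≤ p * Nat.card (Cx ⊓ Subgroup.centralizer (K : Set P) : Subgroup P) :=
              Nat.mul_le_mul_left _ (hKcard ▸ h3)
          _ ≤ _ := h4
      exact Subgroup.eq_top_of_card_eq _ (le_antisymm (Subgroup.card_le_card_group _) h5)
    have hKZ : K = Subgroup.center P := by
      apply le_antisymm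
      · intro k hk
        rw [Subgroup.mem_center_iff]
        intro g
        have : g ∈ Subgroup.centralizer (K : Set P) := by rw [hCK]; trivial
        exact (Subgroup.mem_centralizer_iff.1 this k hk).symm
      · intro z hz
        rw [Subgroup.mem_center_iff] at hz
        refine ⟨?_, ?_⟩
        · refine Subgroup.mem_centralizer_iff.2 ?_
          rintro _ rfl
          exact hz _
        · refine Subgroup.mem_centralizer_iff.2 ?_
          rintro _ rfl
          exact hz _
    rw [← hKZ, hKidx2]
  · intro h
    have hZcard : Nat.card (Subgroup.center P) = p ^ 2 := by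
      have h1 : Nat.card (Subgroup.center P) * (Subgroup.center P).index = p ^ 4 := by
        rw [Subgroup.card_mul_index, hP]
      rw [h] at h1
      apply Nat.eq_of_mul_eq_mul_right (pow_pos hp.pos 2)
      rw [h1]; ring
    have hne : Subgroup.center P ≠ ⊤ := by
      intro h'
      rw [h', Subgroup.index_top] at h
      have := hp.one_lt
      nlinarith
    obtain ⟨x, hx⟩ := exists_not_mem hne
    set Cx := Subgroup.centralizer ({x} : Set P) with hCx
    have hxCx : x ∈ Cx := by rw [hCx, Subgroup.mem_centralizer_iff]; rintro _ rfl; rfl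
    have hZC : Subgroup.center P ≤ Cx := Subgroup.center_le_centralizer _
    have hZC' : Subgroup.center P < Cx := lt_of_le_of_ne hZC fun he => hx (he ▸ hxCx)
    have hCne : Cx ≠ ⊤ := by
      intro h'
      apply hx
      rw [Subgroup.mem_center_iff]
      intro g
      have : g ∈ Cx := by rw [h']; trivial
      exact (Subgroup.mem_centralizer_iff.1 this x rfl).symm
    have hCcard : Nat.card Cx = p ^ 3 := by
      have h1 := lt_card_of_lt hPp hZC'
      have h2 := lt_card_of_lt hPp (lt_top_iff_ne_top.2 hCne)
      rw [Subgroup.card_top, hP] at h2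
      rw [hZcard] at h1
      have h3 : Nat.card Cx ≤ p ^ 3 := by
        apply Nat.le_of_mul_le_mul_left _ hp.pos
        calc p * Nat.card Cx ≤ p ^ 4 := h2
          _ = p * p ^ 3 := by ring
      have h4 : p ^ 3 ≤ Nat.card Cx := by
        calc p ^ 3 = p * p ^ 2 := by ring
          _ ≤ _ := h1
      omega
    have hCidx : Cx.index = p := by
      have h1 : Nat.card Cx * Cx.index = p ^ 4 := by rw [Subgroup.card_mul_index, hP]
      rw [hCcard] at h1
      apply Nat.eq_of_mul_eq_mul_left (pow_pos hp.pos 3)
      rw [h1]; ring
    haveI hCn : Cx.Normal := by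
      apply Subgroup.normal_of_index_eq_minFac_card
      rw [hCidx, hP, Nat.Prime.pow_minFac hp (by norm_num)]
    -- Cx is abelian: centralizer of Cx inside contains Z and x
    have hCab : ∀ a ∈ Cx, ∀ b ∈ Cx, a * b = b * a := by
      have h1 : Subgroup.center P < Cx ⊓ Subgroup.centralizer (Cx : Set P) := by
        refine lt_of_le_of_ne (le_inf hZC (Subgroup.center_le_centralizer _)) fun he => hx ?_
        rw [he]
        refine ⟨hxCx, Subgroup.mem_centralizer_iff.2 ?_⟩
        intro b hb
        exact (Subgroup.mem_centralizer_iff.1 hb x rfl).symm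
      have h2 := lt_card_of_lt hPp h1
      rw [hZcard] at h2
      have h3 : Cx ⊓ Subgroup.centralizer (Cx : Set P) = Cx := by
        apply Subgroup.eq_of_le_of_card_ge inf_le_left
        rw [hCcard]
        calc p ^ 3 = p * p ^ 2 := by ring
          _ ≤ _ := h2
      intro a ha b hb
      have : b ∈ Subgroup.centralizer (Cx : Set P) := by
        have : b ∈ Cx ⊓ Subgroup.centralizer (Cx : Set P) := by rw [h3]; exact hb
        exact this.2
      exact Subgroup.mem_centralizer_iff.1 this a ha
    obtain ⟨y, hy⟩ := exists_not_mem hCne
    have hgen := exists_mul_zpow_of_index p Cx hCidx y hy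
    have key := card_commutator_mul Cx hCab y hgen
    have hcount : Nat.card {a : Cx // y * (a : P) * y⁻¹ * (a : P)⁻¹ = 1} = p ^ 2 := by
      rw [← hZcard]
      refine Nat.card_congr ⟨fun a => ⟨a.1.1, ?_⟩, fun z => ⟨⟨z.1, hZC z.2⟩, ?_⟩, fun _ => rfl, fun _ => rfl⟩
      · rw [Subgroup.mem_center_iff]
        intro g
        obtain ⟨c, hc, k, rfl⟩ := hgen g
        have h1 : y * (a.1 : P) = a.1 * y := by
          have := a.2
          rw [mul_inv_eq_one, mul_inv_eq_iff_eq_mul] at this
          exact this
        have h2 : Commute (a.1 : P) (y ^ k) := (show Commute (a.1 : P) y from h1.symm).zpow_right k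
        have h3 : Commute (a.1 : P) c := hCab _ a.1.2 _ hc
        exact (h3.mul_right h2).symm.eq
      · have := Subgroup.mem_center_iff.1 z.2 y
        rw [this]; group
    rw [hcount, hCcard] at key
    apply Nat.eq_of_mul_eq_mul_right (pow_pos hp.pos 2)
    rw [key]; ring

end Cfsg.Agent.S4584
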