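import Cfsg.Statements.S4585
import Cfsg.Agent.S4584
set_option autoImplicit false
open Cfsg
namespace Cfsg.Agent.S4585

open Cfsg.Agent.Lib.H76PGroup Cfsg.Agent.S4584
open scoped commutatorElement

/-- in a nonabelian `p`-group the index of the centre is at least `p ^ 2` -/
theorem index_center_ge {P : Type*} [Group P] [Finite P] {p : ℕ} [Fact p.Prime] (hP : IsPGroup p P)
    (hne : Subgroup.center P ≠ ⊤) : p ^ 2 ≤ (Subgroup.center P).index := by
  have hp : p.Prime := Fact.out
  obtain ⟨n, hn⟩ := hP.index (Subgroup.center P)
  rw [hn]
  have h0 : n ≠ 0 := by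
    rintro rfl
    rw [pow_zero, Subgroup.index_eq_one] at hn
    exact hne hn
  have h1 : n ≠ 1 := by
    rintro rfl
    rw [pow_one] at hn
    exact not_index_center p hn
  exact Nat.pow_le_pow_right hp.pos (by omega)

theorem commutator_le_center_of_two {P : Type*} [Group P]
    (h : Subgroup.upperCentralSeries P 2 = ⊤) : commutator P ≤ Subgroup.center P := by
  rw [commutator_def, Subgroup.commutator_le]
  intro a _ b _
  have ha : a ∈ Subgroup.upperCentralSeries P 2 := by rw [h]; trivial
  rw [Subgroup.mem_upperCentralSeries_succ_iff] at ha
  have := ha b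
  rwa [Subgroup.upperCentralSeries_one] at this

theorem result {P : Type*} [Group P] [Finite P] (p : ℕ) [Fact p.Prime] (hP : Nat.card P = p ^ 4) :
    (commutator P).index = p ^ 2 ↔ Group.nilpotencyClass P = 3 := by
  have hp : p.Prime := Fact.out
  have hPp : IsPGroup p P := IsPGroup.of_card hP
  haveI : Group.IsNilpotent P := hPp.isNilpotent
  constructor
  · intro h
    have hcard : Nat.card (commutator P) = p ^ 2 := by
      have h1 := Subgroup.card_mul_index (commutator P)
      rw [h, hP] at h1
      apply Nat.eq_of_mul_eq_mul_right (pow_pos hp.pos 2)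
      rw [h1]; ring
    -- class is not at most 2
    have hnot : ¬ Group.nilpotencyClass P ≤ 2 := by
      intro hle
      have h2 := Subgroup.upperCentralSeries_eq_top_iff_nilpotencyClass_le.2 hle
      have hc := commutator_le_center_of_two h2
      have hne : Subgroup.center P ≠ ⊤ := by
        intro h'
        have : commutator P = ⊥ := by
          rw [eq_bot_iff, commutator_def, Subgroup.commutator_le]
          intro a _ b _
          have hb : b ∈ Subgroup.center P := by rw [h']; trivial
          have := Subgroup.mem_center_iff.1 hb a
          show a * b * a⁻¹ * b⁻¹ = 1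
          rw [this]; group
        rw [this] at hcard
        simp at hcard
        have := hp.one_lt
        nlinarith
      have hZ : p ^ 2 ≤ Nat.card (Subgroup.center P) := by
        rw [← hcard]; exact Subgroup.card_le_of_le hc
      have hZi := index_center_ge hPp hne
      have hmul := Subgroup.card_mul_index (Subgroup.center P)
      rw [hP] at hmul
      have hidx : (Subgroup.center P).index = p ^ 2 := by
        apply le_antisymm _ hZi
        by_contra hcon
        push Not at hcon
        have : p ^ 2 * p ^ 2 < Nat.card (Subgroup.center P) * (Subgroup.center P).index :=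
          Nat.mul_lt_mul_of_le_of_lt hZ hcon Nat.card_pos
        rw [hmul] at this
        have e : p ^ 2 * p ^ 2 = p ^ 4 := by ring
        omega
      have := (S4584.result p hP).2 hidx
      rw [hcard] at this
      have := hp.one_lt
      nlinarith
    -- class is at most 3
    have hle3 : Group.nilpotencyClass P ≤ 3 := by
      rw [← Subgroup.upperCentralSeries_eq_top_iff_nilpotencyClass_le]
      by_contra hcon
      -- strict chain
      have hlt : ∀ n, n ≤ 3 → p ^ n ≤ Nat.card (Subgroup.upperCentralSeries P n) ∧ Subgroup.upperCentralSeries P n ≠ ⊤ := by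
        intro n hn
        refine ⟨?_, ?_⟩
        · induction n with
          | zero => simp
          | succ n ih =>
            have h1 := ih (by omega)
            have h2 : Subgroup.upperCentralSeries P n < Subgroup.upperCentralSeries P (n + 1) := by
              refine lt_of_le_of_ne (Subgroup.upperCentralSeries_mono (G := P) (Nat.le_succ n)) ?_
              intro he
              have : Subgroup.upperCentralSeries P n = ⊤ := by
                apply Subgroup.upperCentralSeries.eq_top (G := P) (a := n) (b := n + 1) (by omega) he
              exact hcon (top_le_iff.1 (this ▸ Subgroup.upperCentralSeries_mono (G := P) (by omega : n ≤ 3)))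
            calc p ^ (n + 1) = p * p ^ n := by ring
              _ ≤ p * Nat.card (Subgroup.upperCentralSeries P n) := Nat.mul_le_mul_left _ h1
              _ ≤ _ := lt_card_of_lt hPp h2
        · intro he
          exact hcon (top_le_iff.1 (he ▸ Subgroup.upperCentralSeries_mono (G := P) hn))
      -- Z_2 has order at least p^2, so P / Z_2 is abelian
      obtain ⟨h3, h3'⟩ := hlt 2 (by norm_num)
      have hq : Nat.card (P ⧸ Subgroup.upperCentralSeries P 2) ∣ p ^ 2 := by
        obtain ⟨a, ha⟩ := IsPGroup.iff_card.1 (hPp.to_quotient (Subgroup.upperCentralSeries P 2))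
        rw [ha]
        apply pow_dvd_pow
        have h4 := Subgroup.card_eq_card_quotient_mul_card_subgroup (Subgroup.upperCentralSeries P 2)
        rw [hP, ha] at h4
        by_contra hlt'
        push Not at hlt'
        have : p ^ 4 < p ^ a * Nat.card (Subgroup.upperCentralSeries P 2) := by
          calc p ^ 4 < p ^ 5 := Nat.pow_lt_pow_right hp.one_lt (by norm_num)
            _ = p ^ 3 * p ^ 2 := by ring
            _ ≤ p ^ a * Nat.card (Subgroup.upperCentralSeries P 2) :=
              Nat.mul_le_mul (Nat.pow_le_pow_right hp.pos (by omega)) h3
        omega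
      have hab : ∀ a b : P ⧸ Subgroup.upperCentralSeries P 2, a * b = b * a := by
        obtain ⟨j, hj, hj'⟩ := (Nat.dvd_prime_pow hp).1 hq
        rcases (by omega : j = 0 ∨ j = 1 ∨ j = 2) with rfl | rfl | rfl
        · rw [pow_zero] at hj'
          have := (Nat.card_eq_one_iff_unique.1 hj').1
          intro a b
          exact Subsingleton.elim _ _
        · rw [pow_one] at hj'
          haveI : IsCyclic (P ⧸ Subgroup.upperCentralSeries P 2) := isCyclic_of_prime_card hj'
          intro a b
          exact (IsCyclic.commGroup (α := P ⧸ Subgroup.upperCentralSeries P 2)).mul_comm a b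
        · exact IsPGroup.commutative_of_card_eq_prime_sq hj'
      apply hcon
      rw [eq_top_iff]
      intro x _
      rw [Subgroup.mem_upperCentralSeries_succ_iff]
      intro y
      rw [commutatorElement_def, ← QuotientGroup.eq_one_iff]
      simp only [QuotientGroup.mk_mul, QuotientGroup.mk_inv]
      rw [hab (x : P ⧸ Subgroup.upperCentralSeries P 2) y]
      group
    omega
  · intro h
    have h3 : Subgroup.upperCentralSeries P 3 = ⊤ :=
      Subgroup.upperCentralSeries_eq_top_iff_nilpotencyClass_le.2 h.le
    have h2 : Subgroup.upperCentralSeries P 2 ≠ ⊤ := by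
      intro h'
      have := Subgroup.upperCentralSeries_eq_top_iff_nilpotencyClass_le.1 h'
      omega
    have hle : commutator P ≤ Subgroup.upperCentralSeries P 2 := by
      rw [commutator_def, Subgroup.commutator_le]
      intro a _ b _
      have ha : a ∈ Subgroup.upperCentralSeries P 3 := by rw [h3]; trivial
      rw [Subgroup.mem_upperCentralSeries_succ_iff] at ha
      exact ha b
    -- index of Z_2 at least p^2
    have hidx2 : p ^ 2 ≤ (Subgroup.upperCentralSeries P 2).index := by
      obtain ⟨n, hn⟩ := hPp.index (Subgroup.upperCentralSeries P 2)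
      rw [hn]
      have h0 : n ≠ 0 := by
        rintro rfl
        rw [pow_zero, Subgroup.index_eq_one] at hn
        exact h2 hn
      have h1 : n ≠ 1 := by
        rintro rfl
        rw [pow_one] at hn
        -- then commutator ≤ Z_1
        obtain ⟨x, hx⟩ := exists_not_mem h2
        apply hx
        rw [Subgroup.mem_upperCentralSeries_succ_iff]
        have hx2 : ∀ a ∈ Subgroup.upperCentralSeries P 2, ∀ g : P, a * g * a⁻¹ * g⁻¹ ∈ Subgroup.upperCentralSeries P 1 := by
          intro a ha g
          exact (Subgroup.mem_upperCentralSeries_succ_iff).1 ha g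
        intro g
        obtain ⟨a, ha, k, rfl⟩ := exists_mul_zpow_of_index p _ hn x hx g
        have e1 := hx2 a ha x
        rw [commutatorElement_def]
        -- work in the quotient by Z_1
        rw [← QuotientGroup.eq_one_iff] at e1 ⊢
        simp only [QuotientGroup.mk_mul, QuotientGroup.mk_inv, QuotientGroup.mk_zpow] at e1 ⊢
        rw [mul_inv_eq_one, mul_inv_eq_iff_eq_mul] at e1 ⊢
        have c1 : Commute ((a : P) : P ⧸ Subgroup.upperCentralSeries P 1) (x : P ⧸ Subgroup.upperCentralSeries P 1) := e1
        exact (c1.symm.mul_right ((Commute.refl _).zpow_right k)).eq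
      exact Nat.pow_le_pow_right hp.pos (by omega)
    have hidx : p ^ 2 ≤ (commutator P).index :=
      hidx2.trans (Nat.le_of_dvd (Nat.pos_of_ne_zero Subgroup.index_ne_zero_of_finite)
        (Subgroup.index_dvd_of_le hle))
    -- |P'| at least p^2
    have hcard : p ^ 2 ≤ Nat.card (commutator P) := by
      obtain ⟨n, hn⟩ := IsPGroup.iff_card.1 (hPp.to_subgroup (commutator P))
      rw [hn]
      have h2' : ¬ commutator P ≤ Subgroup.center P := by
        intro hc
        apply h2
        rw [eq_top_iff]
        intro x _
        rw [Subgroup.mem_upperCentralSeries_succ_iff]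
        intro y
        rw [Subgroup.upperCentralSeries_one]
        exact hc (Subgroup.commutator_mem_commutator (Subgroup.mem_top x) (Subgroup.mem_top y))
      have h0 : n ≠ 0 := by
        rintro rfl
        rw [pow_zero, Subgroup.card_eq_one] at hn
        apply h2'
        rw [hn]; exact bot_le
      have h1 : n ≠ 1 := by
        rintro rfl
        rw [pow_one] at hn
        exact h2' (le_center_of_card_prime hPp _ hn)
      exact Nat.pow_le_pow_right hp.pos (by omega)
    have hmul := Subgroup.card_mul_index (commutator P)
    rw [hP] at hmul
    apply le_antisymm _ hidx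
    by_contra hcon
    push Not at hcon
    have : p ^ 2 * p ^ 2 < Nat.card (commutator P) * (commutator P).index :=
      Nat.mul_lt_mul_of_le_of_lt hcard hcon Nat.card_pos
    rw [hmul] at this
    have e : p ^ 2 * p ^ 2 = p ^ 4 := by ring
    omega

end Cfsg.Agent.S4585
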