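import Cfsg.Statements.S4586
import Cfsg.Agent.Lib.H76PGroup
import Mathlib.GroupTheory.SpecificGroups.Cyclic.Basic
set_option autoImplicit false
open Cfsg
namespace Cfsg.Agent.S4586

theorem exists_mul_zpow {P : Type*} [Group P] [Finite P] (p : ℕ) [Fact p.Prime] (N : Subgroup P) [N.Normal]
    (hN : N.index = p) (x : P) (hx : x ∉ N) (g : P) : ∃ a ∈ N, ∃ k : ℤ, g = a * x ^ k := by
  have hc : Nat.card (P ⧸ N) = p := by rw [← hN]; rfl
  have hx1 : (x : P ⧸ N) ≠ 1 := by
    rw [Ne, QuotientGroup.eq_one_iff]; exact hx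
  have := mem_zpowers_of_prime_card hc hx1 (g' := (g : P ⧸ N))
  obtain ⟨k, hk⟩ := Subgroup.mem_zpowers_iff.1 this
  refine ⟨g * (x ^ k)⁻¹, ?_, k, by group⟩
  rw [← QuotientGroup.eq_one_iff]
  simp [hk]

theorem main {P : Type*} [Group P] [Finite P] (p : ℕ) [Fact p.Prime] (N : Subgroup P) [N.Normal]
    (hN : N.index = p) (x : P) (hx : x ∉ N) :
    (commutator P).index * Nat.card (commutator N) =
      p * Nat.card {n : N // x * n * x⁻¹ * (n : P)⁻¹ ∈ (commutator N).map N.subtype} := by
  classical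
  set D : Subgroup P := (commutator N).map N.subtype with hD
  haveI : D.Normal := by rw [hD]; infer_instance
  have hDN : D ≤ N := by rw [hD]; exact Subgroup.map_subtype_le _
  have hDP : D ≤ commutator P := by
    rw [hD]
    rw [commutator_def, Subgroup.map_commutator, commutator_def]
    exact Subgroup.commutator_mono le_top le_top
  let π : P →* P ⧸ D := QuotientGroup.mk' D
  have hπs : Function.Surjective π := QuotientGroup.mk'_surjective D
  set A : Subgroup (P ⧸ D) := N.map π with hA
  haveI : A.Normal := Subgroup.Normal.map inferInstance π hπs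
  have hcomapA : A.comap π = N := by
    rw [hA, Subgroup.comap_map_eq_self]
    rw [QuotientGroup.ker_mk']; exact hDN
  have hAidx : A.index = p := by
    rw [← hN, ← hcomapA, Subgroup.index_comap_of_surjective _ hπs]
  have hab : ∀ a ∈ A, ∀ b ∈ A, a * b = b * a := by
    rintro _ ⟨a, ha, rfl⟩ _ ⟨b, hb, rfl⟩
    rw [← map_mul, ← map_mul]
    show ((a * b : P) : P ⧸ D) = ((b * a : P) : P ⧸ D)
    rw [QuotientGroup.eq]
    rw [hD]
    refine ⟨(⟨b, hb⟩ : N)⁻¹ * (⟨a, ha⟩ : N)⁻¹ * (⟨b, hb⟩ : N)⁻¹⁻¹ * (⟨a, ha⟩ : N)⁻¹⁻¹, ?_, ?_⟩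
    · exact Subgroup.commutator_mem_commutator (Subgroup.mem_top _) (Subgroup.mem_top _)
    · simp only [map_mul, map_inv, Subgroup.coe_subtype]; group
  have hxA : ∀ g : P ⧸ D, ∃ a ∈ A, ∃ k : ℤ, g = a * (π x) ^ k := by
    intro g
    obtain ⟨g, rfl⟩ := hπs g
    obtain ⟨a, ha, k, rfl⟩ := exists_mul_zpow p N hN x hx g
    exact ⟨π a, ⟨a, ha, rfl⟩, k, by simp⟩
  have key := Lib.H76PGroup.card_commutator_mul A hab (π x) hxA
  -- index of commutator
  have hcm : (commutator (P ⧸ D)).comap π = commutator P := by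
    have h1 : commutator (P ⧸ D) = (commutator P).map π := by
      rw [commutator_def, commutator_def, Subgroup.map_commutator,
        Subgroup.map_top_of_surjective _ hπs]
    rw [h1, Subgroup.comap_map_eq_self]
    rw [QuotientGroup.ker_mk']; exact hDP
  have hidx : (commutator P).index = (commutator (P ⧸ D)).index := by
    rw [← hcm, Subgroup.index_comap_of_surjective _ hπs]
  set c := Nat.card {a : A // (π x) * (a : P ⧸ D) * (π x)⁻¹ * (a : P ⧸ D)⁻¹ = 1} with hc
  -- [Q:Q'] = p * c
  have h1 : (commutator (P ⧸ D)).index = p * c := by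
    have e1 : Nat.card (commutator (P ⧸ D)) * (commutator (P ⧸ D)).index = Nat.card (P ⧸ D) :=
      Subgroup.card_mul_index _
    have e2 : Nat.card A * A.index = Nat.card (P ⧸ D) := Subgroup.card_mul_index _
    rw [hAidx, ← key] at e2
    have e3 : Nat.card (commutator (P ⧸ D)) * (commutator (P ⧸ D)).index =
        Nat.card (commutator (P ⧸ D)) * (p * c) := by
      rw [e1, ← e2]; ring
    exact Nat.eq_of_mul_eq_mul_left Nat.card_pos e3
  -- c(x) = c * |N'|
  let φ : N →* P ⧸ D := π.comp N.subtype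
  let C : Subgroup (P ⧸ D) := Subgroup.centralizer {π x} ⊓ A
  have h2 : Nat.card {n : N // x * n * x⁻¹ * (n : P)⁻¹ ∈ D} = c * Nat.card (commutator N) := by
    have hK : Nat.card (C.comap φ) = Nat.card (φ.ker.subgroupOf (C.comap φ)) * (φ.ker.subgroupOf (C.comap φ)).index :=
      (Subgroup.card_mul_index _).symm
    have hkerle : φ.ker ≤ C.comap φ := by
      intro n hn
      rw [Subgroup.mem_comap, (MonoidHom.mem_ker).1 hn]
      exact C.one_mem
    have hkercard : Nat.card (φ.ker.subgroupOf (C.comap φ)) = Nat.card (commutator N) := by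
      rw [Nat.card_congr (Subgroup.subgroupOfEquivOfLe hkerle).toEquiv]
      have : φ.ker = commutator N := by
        ext n
        rw [MonoidHom.mem_ker]
        show ((n : P) : P ⧸ D) = 1 ↔ _
        rw [QuotientGroup.eq_one_iff, hD]
        constructor
        · rintro ⟨m, hm, hmn⟩
          have : m = n := Subtype.ext hmn
          rwa [← this]
        · intro hn
          exact ⟨n, hn, rfl⟩
      rw [this]
    have hCcard : (φ.ker.subgroupOf (C.comap φ)).index = c := by
      have h3 : φ.ker.subgroupOf (C.comap φ) = (φ.subgroupComap C).ker := by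
        ext n
        rw [Subgroup.mem_subgroupOf, MonoidHom.mem_ker, MonoidHom.mem_ker, Subtype.ext_iff]
        rfl
      rw [h3, Subgroup.index_ker]
      have h4 : (φ.subgroupComap C).range = ⊤ := by
        rw [MonoidHom.range_eq_top]
        rintro ⟨y, hy⟩
        obtain ⟨n, hn, hny⟩ := hy.2
        refine ⟨⟨⟨n, hn⟩, ?_⟩, ?_⟩
        · rw [Subgroup.mem_comap]
          show π n ∈ C
          rw [hny]; exact hy
        · apply Subtype.ext
          exact hny
      rw [h4, Nat.card_congr (Subgroup.topEquiv).toEquiv]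
      rw [hc]
      refine Nat.card_congr ⟨fun y => ⟨⟨y.1, y.2.2⟩, ?_⟩, fun a => ⟨a.1.1, ?_, a.1.2⟩, fun _ => rfl, fun _ => rfl⟩
      · have := Subgroup.mem_centralizer_iff.1 y.2.1 (π x) rfl
        rw [mul_inv_eq_one, mul_inv_eq_iff_eq_mul]
        exact this
      · refine Subgroup.mem_centralizer_iff.2 ?_
        rintro _ rfl
        have := a.2
        rw [mul_inv_eq_one, mul_inv_eq_iff_eq_mul] at this
        exact this
    rw [hkercard, hCcard] at hK
    rw [mul_comm c, ← hK]
    refine Nat.card_congr (Equiv.subtypeEquivRight fun n => ?_)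
    rw [Subgroup.mem_comap]
    constructor
    · intro hn
      refine ⟨?_, ⟨n, n.2, rfl⟩⟩
      refine Subgroup.mem_centralizer_iff.2 ?_
      rintro _ rfl
      have : π (x * n * x⁻¹ * (n : P)⁻¹) = 1 := (QuotientGroup.eq_one_iff _).2 hn
      simp only [map_mul, map_inv] at this
      rw [mul_inv_eq_one, mul_inv_eq_iff_eq_mul] at this
      exact this
    · rintro ⟨h, -⟩
      have h' := Subgroup.mem_centralizer_iff.1 h _ rfl
      rw [← QuotientGroup.eq_one_iff]
      show π (x * n * x⁻¹ * (n : P)⁻¹) = 1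
      simp only [map_mul, map_inv]
      rw [mul_inv_eq_one, mul_inv_eq_iff_eq_mul]
      exact h'
  rw [h2, hidx, h1]
  ring

theorem result {P : Type*} [Group P] [Finite P] (p : ℕ) [Fact p.Prime] (hP : IsPGroup p P) (N : Subgroup P) [N.Normal] (hN : N.index = p) :
    ((commutator P).index = p ^ 2 ↔ ∀ x : P, x ∉ N →
        Nat.card {n : N // x * n * x⁻¹ * (n : P)⁻¹ ∈ (commutator N).map N.subtype} = p * Nat.card (commutator N)) ∧
    ((commutator P).index = p ^ 2 ↔ ∃ x : P, x ∉ N ∧
        Nat.card {n : N // x * n * x⁻¹ * (n : P)⁻¹ ∈ (commutator N).map N.subtype} = p * Nat.card (commutator N)) := by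
  have hp : p.Prime := Fact.out
  have hNtop : N ≠ ⊤ := by
    rintro rfl
    rw [Subgroup.index_top] at hN
    exact hp.one_lt.ne hN
  obtain ⟨y, -, hy⟩ : ∃ y ∈ (⊤ : Subgroup P), y ∉ N := by
    by_contra hcon
    push Not at hcon
    exact hNtop (top_le_iff.1 hcon)
  have key : ∀ x : P, x ∉ N → ((commutator P).index = p ^ 2 ↔
      Nat.card {n : N // x * n * x⁻¹ * (n : P)⁻¹ ∈ (commutator N).map N.subtype} = p * Nat.card (commutator N)) := by
    intro x hx
    have hm := main p N hN x hx
    constructor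
    · intro h
      rw [h] at hm
      refine Nat.eq_of_mul_eq_mul_left hp.pos ?_
      rw [← hm]; ring
    · intro h
      rw [h] at hm
      refine Nat.eq_of_mul_eq_mul_right (Nat.card_pos (α := commutator N)) ?_
      rw [hm]; ring
  refine ⟨⟨fun h x hx => (key x hx).1 h, fun h => (key y hy).2 (h y hy)⟩, ⟨fun h => ⟨y, hy, (key y hy).1 h⟩, ?_⟩⟩
  rintro ⟨x, hx, h⟩
  exact (key x hx).2 h

end Cfsg.Agent.S4586
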