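import Cfsg.Statements.S4587
import Cfsg.Agent.Lib.H46AbSq

set_option autoImplicit false
open Cfsg

namespace Cfsg.Agent.S4587

/-- Let G be a finite group, p a prime and P a Sylow p-subgroup of order at least p². Assume that G has no nontrivial normal subgroup of order prime to p, that the derived subgroup P' of P contains no nontrivial normal subgroup of G, and that G is not almost simple (there is no non-abelian simple normal subgroup of G with trivial centralizer). Then [P : P'] = p² if and only if some p-element x of G has centralizer whose order has p-part exactly p². -/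
theorem result {G : Type*} [Group G] [Finite G] (p : ℕ) [Fact p.Prime] (P : Sylow p G) (hbig : p ^ 2 ∣ Nat.card G) (hcore : Cfsg.pPrimeCore p G = ⊥)
    (hcore' : (⁅(P : Subgroup G), (P : Subgroup G)⁆).normalCore = ⊥) (hnas : ¬ ∃ S : Subgroup G, S.Normal ∧ IsSimpleGroup S ∧ ¬ IsMulCommutative S ∧ Subgroup.centralizer (S : Set G) = ⊥) :
    (⁅(P : Subgroup G), (P : Subgroup G)⁆).relIndex (P : Subgroup G) = p ^ 2 ↔
      ∃ x : G, (∃ k : ℕ, orderOf x = p ^ k) ∧ (Nat.card (Subgroup.centralizer ({x} : Set G))).factorization p = 2 := by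
  constructor
  · intro h
    exact Cfsg.Agent.Lib.H46AbSq.forward P hcore hcore' hnas h
  · rintro ⟨x, hx, hf⟩
    obtain ⟨y, hyP, _, hcard⟩ := Cfsg.Agent.Lib.H46AbSq.exists_syl_centralizer P hx
    rw [hf] at hcard
    have h1 := Cfsg.Agent.Lib.H46AbSq.index_commutator_le (Q := ↥(P : Subgroup G)) ⟨y, hyP⟩
    rw [Cfsg.Agent.Lib.H46AbSq.card_centralizer_rel hyP, hcard] at h1
    rw [Cfsg.Agent.Lib.H46AbSq.relIndex_comm]
    refine le_antisymm h1 ?_
    refine Cfsg.Agent.Lib.H46AbSq.le_index_commutator P.2 ?_
    rw [P.card_eq_multiplicity]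
    exact pow_dvd_pow p ((Nat.Prime.pow_dvd_iff_le_factorization Fact.out Nat.card_pos.ne').mp hbig)

end Cfsg.Agent.S4587
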