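import Cfsg.Statements.S4591
import Cfsg.Agent.S0081
import Cfsg.Agent.Lib.H76Ker
import Cfsg.Agent.Lib.H76Setup
import Cfsg.Agent.Lib.H70Frattini
import Cfsg.Agent.Lib.PNilp

set_option autoImplicit false
open Cfsg

namespace Cfsg.Agent.S4591

open scoped ComplexConjugate commutatorElement
open Cfsg Cfsg.Agent.Lib Cfsg.Agent.Lib.CharBasic Cfsg.Agent.Lib.Clifford Cfsg.Agent.Lib.H76PCount
open Cfsg.Agent.Lib.CliffordCorr Cfsg.Agent.Lib.H76Ker

universe u

variable {G : Type u} [Group G]

theorem exists_degree_charDegree {χ : G → ℂ} (hχ : IsCharacter G χ) : χ 1 = (charDegree χ : ℕ) :=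
  (H76Char.charDegree_eq hχ).symm

theorem pkKer_inf_le [Finite G] {p : ℕ} [hp : Fact p.Prime] (P : Sylow p G) :
    pkKer (G := G) p ⊓ (P : Subgroup G) ≤ ⁅(P : Subgroup G), (P : Subgroup G)⁆ := by
  classical
  have := Fintype.ofFinite G
  have := Fintype.ofFinite P
  rintro x ⟨hxK, hxP⟩
  by_contra hx
  have h1 : Abelianization.of (⟨x, hxP⟩ : P) ≠ 1 := by
    intro h
    apply hx
    have h2 : (⟨x, hxP⟩ : P) ∈ commutator P := by
      rw [← Abelianization.ker_of]
      exact h
    have h10 : ⁅(P : Subgroup G), (P : Subgroup G)⁆ = (commutator P).map (P : Subgroup G).subtype := by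
      rw [commutator_def, Subgroup.map_commutator, ← MonoidHom.range_eq_map, Subgroup.range_subtype]
    rw [h10]
    exact ⟨⟨x, hxP⟩, h2, rfl⟩
  have : NeZero (Monoid.exponent (Abelianization P)) := ⟨Monoid.exponent_ne_zero_of_finite⟩
  obtain ⟨φ, hφ⟩ := CommGroup.exists_apply_ne_one_of_hasEnoughRootsOfUnity (Abelianization P) ℂ h1
  let f : P →* ℂˣ := φ.comp Abelianization.of
  let lam : P → ℂ := fun g => (f g : ℂ)
  have hlamdef : lam = fun g => (f g : ℂ) := rfl
  have hlam : IsIrrCharacter P lam := isIrrCharacter_of_unitsHom f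
  have h2 : indFun (P : Subgroup G) lam 1 = ((P : Subgroup G).index : ℕ) := by
    rw [IndFun.indFun_one, hlamdef]
    simp
  obtain ⟨χ, m, h3, h4, h5, h6⟩ := H76PAct.exists_pprime_constituent (hlam.isCharacter.indFun (P : Subgroup G)) _ h2
    P.not_dvd_index
  have h7 : classInner lam (fun d : P => χ d) ≠ 0 := by
    rwa [IndFun.frobenius_reciprocity (P : Subgroup G) lam χ h3.isClassFunction] at h4
  have h8 : classInner (fun d : P => χ d) lam ≠ 0 := by
    rw [← conj_classInner]; exact (map_ne_zero _).mpr h7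
  have h9 : χ x = χ 1 := by
    apply hxK ⟨χ, h3⟩
    have : charDegree χ = m := by
      have := H76Char.charDegree_eq h3.isCharacter
      rw [h5] at this
      exact_mod_cast this
    rw [this]; exact h6
  have h10 := of_constituent (h3.isCharacter.restrict (P : Subgroup G)) hlam h8 (g := ⟨x, hxP⟩) h9
  apply hφ
  have h11 : (f ⟨x, hxP⟩ : ℂ) = (f 1 : ℂ) := h10
  rw [map_one] at h11
  exact Units.ext h11

theorem inf_centralizer [Finite G] {p : ℕ} [hp : Fact p.Prime] (P : Sylow p G) (X : Subgroup G) [hXn : X.Normal]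
    (hX : ¬ p ∣ Nat.card X) (hXK : X ≤ pkKer p) : X ⊓ Subgroup.centralizer ((P : Subgroup G) : Set G) = ⊥ := by
  classical
  have := Fintype.ofFinite G
  have := Fintype.ofFinite X
  by_contra hcon
  obtain ⟨⟨c, hc⟩, hc1'⟩ := Subgroup.ne_bot_iff_exists_ne_one.1 hcon
  have hc1 : c ≠ 1 := fun h => hc1' (Subtype.ext h)
  obtain ⟨hcX, hcC⟩ := Subgroup.mem_inf.1 hc
  obtain ⟨θ, hθ, hθ1, hinv⟩ := H76PAct.exists_nontrivial_invariant X (P : Subgroup G) P.2 hcX (fun g hg =>
    Subgroup.mem_centralizer_iff.1 hcC g hg) hc1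
  set H : Subgroup G := X ⊔ (P : Subgroup G) with hH
  have hXH : X ≤ H := le_sup_left
  have := Fintype.ofFinite H
  set X₁ : Subgroup H := X.subgroupOf H with hX₁
  let θ₁ : X₁ → ℂ := fun n => θ (subEquiv X H hXH n)
  have hθ₁ : IsIrrCharacter X₁ θ₁ := (isIrrCharacter_comp_mulEquiv_iff (subEquiv X H hXH)).2 hθ
  have hHi : H ≤ inertia X θ := by
    apply sup_le
    · exact le_inertia hθ.isClassFunction
    · intro g hg
      exact hinv g hg
  have hinv₁ : ∀ g : H, cj X₁ g θ₁ = θ₁ := by
    intro g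
    funext n
    have h1 : cj X (g : G) θ = θ := hHi g.2
    have h2 := congrFun h1 (subEquiv X H hXH n)
    rw [cj_apply] at h2
    exact h2
  have hidx : Nat.Coprime X₁.index (Nat.card X₁) := by
    have h1 : X₁.index = X.relIndex (P : Subgroup G) := by
      show X.relIndex (X ⊔ (P : Subgroup G)) = _
      exact Subgroup.relIndex_sup_left _ _
    have h2 : Nat.card X₁ = Nat.card X := Nat.card_congr (subEquiv X H hXH).toEquiv
    obtain ⟨k, hk⟩ := (IsPGroup.iff_card (p := p)).1 P.2
    have h3 : X.relIndex (P : Subgroup G) ∣ p ^ k := by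
      rw [← hk]; exact Subgroup.relIndex_dvd_card _ _
    rw [h1, h2]
    exact Nat.Coprime.coprime_dvd_left h3 (Nat.Coprime.pow_left k ((Nat.Prime.coprime_iff_not_dvd hp.out).2 hX))
  obtain ⟨ψ, hψ, hψr⟩ := H76Ext.exists_extension_of_coprime_card X₁ hθ₁ hinv₁ hidx
  obtain ⟨d, hd0, hd⟩ := hθ.exists_degree
  have hψ1 : ψ 1 = d := by
    have h1 := hψr 1
    rw [← hd]
    exact h1
  have h2 : indFun H ψ 1 = ((H.index * d : ℕ) : ℂ) := by
    rw [IndFun.indFun_one, hψ1]; push_cast; rfl
  have hpd : ¬ p ∣ H.index * d := by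
    intro h
    rcases hp.out.dvd_mul.1 h with h | h
    · exact P.not_dvd_index (h.trans (Subgroup.index_dvd_of_le le_sup_right))
    · exact hX (h.trans (CharApps.irr_degree_dvd_card hθ hd))
  obtain ⟨χ, m, h3, h4, h5, h6⟩ := H76PAct.exists_pprime_constituent (hψ.isCharacter.indFun H) _ h2 hpd
  have hres : resTo X H hXH ψ = θ := by
    funext x
    exact hψr ⟨⟨x, hXH x.2⟩, x.2⟩
  have h7 := H76FullRam.over_of_constituent hXH hθ hψ (by
    rw [hres, hθ.classInner_self]; exact one_ne_zero) h3 h4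
  have h8 : ∀ x : X, θ x = θ 1 := by
    intro x
    apply of_constituent (h3.isCharacter.restrict X) hθ h7 (g := x)
    have : charDegree χ = m := by
      have := H76Char.charDegree_eq h3.isCharacter
      rw [h5] at this
      exact_mod_cast this
    exact hXK x.2 ⟨χ, h3⟩ (by rw [this]; exact h6)
  have h9 := H76PAct.sum_nontrivial_eq_zero hθ hθ1
  rw [Finset.sum_congr rfl (fun x _ => h8 x), Finset.sum_const, Finset.card_univ, nsmul_eq_mul] at h9
  rcases mul_eq_zero.1 h9 with h | h
  · have : Fintype.card X ≠ 0 := Fintype.card_ne_zero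
    exact this (by exact_mod_cast h)
  · exact hθ.one_ne_zero h

theorem result {G : Type*} [Group G] [Finite G] (p : ℕ) [Fact p.Prime] (P : Sylow p G) (N : Subgroup G) [N.Normal]
    (hN : N ⊓ Subgroup.centralizer ((P : Subgroup G) : Set G) = ⊥)
    (hmax : ∀ L : Subgroup G, L.Normal → L ⊓ Subgroup.centralizer ((P : Subgroup G) : Set G) = ⊥ → L ≤ N) :
    {g : G | ∀ χ : Cfsg.IrrCharacter G, ¬ p ∣ Cfsg.charDegree (χ : G → ℂ) → (χ : G → ℂ) g = (χ : G → ℂ) 1} =
      ((N ⊔ ⁅(P : Subgroup G), (P : Subgroup G)⁆).normalCore : Set G) := by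
  classical
  have hp : Fact p.Prime := inferInstance
  have := Fintype.ofFinite G
  set D : Subgroup G := ⁅(P : Subgroup G), (P : Subgroup G)⁆ with hD
  have := Fintype.ofFinite D
  have := Fintype.ofFinite N
  set K : Subgroup G := pkKer p with hK
  have hKn : K.Normal := pkKer_normal p
  have hKset : {g : G | ∀ χ : Cfsg.IrrCharacter G, ¬ p ∣ Cfsg.charDegree (χ : G → ℂ) → (χ : G → ℂ) g = (χ : G → ℂ) 1}
      = (K : Set G) := rfl
  rw [hKset]
  apply Set.Subset.antisymm
  · -- K ≤ core (N ⊔ D)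
    have h1 : K ⊓ (P : Subgroup G) ≤ D := pkKer_inf_le P
    have h2 : HasNormalPComplement p K := by
      apply Cfsg.Agent.S0081.result P K
      apply h1.trans
      have h10 : ⁅(P : Subgroup G), (P : Subgroup G)⁆ = (commutator P).map (P : Subgroup G).subtype := by
        rw [commutator_def, Subgroup.map_commutator, ← MonoidHom.range_eq_map, Subgroup.range_subtype]
      rw [hD, h10]
      exact Subgroup.map_mono (H70Frattini.commutator_le_frattini P.2)
    rw [PNilp.hasNormalPComplement_iff_pResidual] at h2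
    have hchar : (pResidual p K).Characteristic := PNilp.pResidual_characteristic p
    set X : Subgroup G := (pResidual p K).map K.subtype with hX
    have hXn : X.Normal := inferInstance
    have hXc : Nat.card X = Nat.card (pResidual p K) :=
      (Nat.card_congr ((pResidual p K).equivMapOfInjective K.subtype K.subtype_injective).toEquiv).symm
    have hXK : X ≤ K := Subgroup.map_subtype_le _
    have h3 : X ≤ N := hmax X hXn (inf_centralizer P X (by rw [hXc]; exact h2) hXK)
    obtain ⟨Q, hQ⟩ := Subnormal.exists_sylow_eq_subgroupOf p hKn.isSubnormal P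
    have h4 := PNilp.sylow_sup_pResidual Q
    have h5 : K = (K ⊓ (P : Subgroup G)) ⊔ X := by
      have h6 := congrArg (Subgroup.map K.subtype) h4
      rw [Subgroup.map_sup, hQ, Subgroup.subgroupOf_map_subtype, ← MonoidHom.range_eq_map, Subgroup.range_subtype] at h6
      rw [inf_comm]
      exact h6.symm
    have h7 : K ≤ N ⊔ D := by
      rw [h5]
      exact sup_le (h1.trans le_sup_right) (h3.trans le_sup_left)
    exact Subgroup.normal_le_normalCore.2 h7
  · -- core ≤ K
    intro g hg χ hχ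
    have hχd := exists_degree_charDegree χ.2.isCharacter
    have hNker : ∀ x ∈ N, (χ : G → ℂ) x = (χ : G → ℂ) 1 := by
      obtain ⟨θ, m, h1, h2, h3, h4, h5⟩ := H76PAct.exists_invariant_constituent N (P : Subgroup G) P.2
        χ.2.isCharacter _ hχd hχ
      have h6 := H76PAct.invariant_eq_one N (P : Subgroup G) P.2 hN h1 h5 m h3 h4
      rw [h6] at h2
      intro x hx
      exact eq_one_of_trivial_constituent χ.2 N h2 hx
    exact eq_one_of_le_sup χ.2 N D ((N ⊔ D).normalCore) hNker
      (res_commutator (P : Subgroup G) D P.2 hD χ.2.isCharacter _ hχd hχ) (Subgroup.normalCore_le _) hg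

end Cfsg.Agent.S4591
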