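import Cfsg.Statements.S4593
import Cfsg.Agent.Lib.ZStarIso
import Cfsg.Agent.Lib.BrauerSuzuki
import Cfsg.Agent.Lib.TransferApps
import Cfsg.Agent.Lib.FusionControl
import Cfsg.Agent.Lib.Fitting

set_option autoImplicit false
open Cfsg

namespace Cfsg.Agent.S4593

universe u
open Subgroup Cfsg.Agent.Lib

theorem brauerSuzuki : Cfsg.Agent.Lib.ZStar.BrauerSuzukiStatement.{u} :=
  fun _ _ _ S n e hO => Cfsg.Agent.Lib.BrauerSuzuki.card_center_eq_two S n e hO

/-- With abelian Sylow 2-subgroup, `O(X) = 1` and `Z(X) = 1` the Sylow subgroup lies in the derived subgroup. -/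
theorem sylow_le_commutator {X : Type u} [Group X] [Finite X] (T : Sylow 2 X)
    (hT : IsMulCommutative (T : Subgroup X)) (hZ : center X = ⊥) (hO : Cfsg.pPrimeCore 2 X = ⊥) :
    (T : Subgroup X) ≤ commutator X := by
  have h2 : Fact (Nat.Prime 2) := ⟨Nat.prime_two⟩
  obtain ⟨h1, -⟩ := TransferApps.abelian_sylow_decomp T hT
  have hC : (T : Subgroup X) ⊓ centralizer (normalizer (T : Set X) : Set X) = ⊥ := by
    by_contra hne
    have h3 : Nat.card ((T : Subgroup X) ⊓ centralizer (normalizer (T : Set X) : Set X) : Subgroup X) ≠ 1 :=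
      fun h => hne (Subgroup.card_eq_one.1 h)
    have h4 : 2 ∣ Nat.card ((T : Subgroup X) ⊓ centralizer (normalizer (T : Set X) : Set X) : Subgroup X) :=
      ((T.2.to_le inf_le_left).card_eq_or_dvd).resolve_left h3
    obtain ⟨z, hz⟩ := exists_prime_orderOf_dvd_card' 2 h4
    have hzo : orderOf (z : X) = 2 := (Subgroup.orderOf_coe z).trans hz
    have hiso : ∀ g : X, g * z * g⁻¹ ∈ T → g * (z : X) * g⁻¹ = z := by
      intro g hg
      obtain ⟨n, hn, h5⟩ := FusionControl.abelian_controls T hT z z.2.1 g hg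
      rw [← h5]
      have h6 := mem_centralizer_iff.1 z.2.2 n hn
      rw [h6]; group
    have h7 := ZStarIso.inZStar_of_sylow brauerSuzuki X T z.2.1 hiso
    have h8 : (z : X) ∈ center X := by
      rw [mem_center_iff]
      intro g
      have h9 := h7 g
      rw [hO, mem_bot, mul_inv_eq_one, mul_inv_eq_iff_eq_mul] at h9
      exact h9
    rw [hZ, mem_bot] at h8
    rw [h8, orderOf_one] at hzo
    exact absurd hzo (by norm_num)
  rw [hC, bot_sup_eq] at h1
  rw [← h1]
  exact Subgroup.commutator_mono le_top le_top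

/-- Let G be a finite group with trivial centre and no nontrivial normal subgroup of odd order, whose Sylow 2-subgroups are abelian, and let P be a Sylow 2-subgroup. Every automorphism of G of 2-power order that fixes P elementwise is inner. -/
theorem result {G : Type*} [Group G] [Finite G] (hZ : Subgroup.center G = ⊥) (hcore : Cfsg.pPrimeCore 2 G = ⊥) (P : Sylow 2 G) (hab : IsMulCommutative (P : Subgroup G))
    (α : MulAut G) (h2 : ∃ j : ℕ, orderOf α = 2 ^ j) (hfix : ∀ x ∈ (P : Subgroup G), α x = x) :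
    ∃ g : G, ∀ x : G, α x = g * x * g⁻¹ := by
  have h2f : Fact (Nat.Prime 2) := ⟨Nat.prime_two⟩
  obtain ⟨j, hj⟩ := h2
  set N₀ : Subgroup (MulAut G) := (MulAut.conj (G := G)).range with hN₀
  have hN₀n : N₀.Normal := by
    constructor
    rintro _ ⟨g, rfl⟩ φ
    exact ⟨φ g, by ext x; simp [MulAut.conj_apply]⟩
  set Γ : Subgroup (MulAut G) := N₀ ⊔ zpowers α with hΓ
  have hcinj : Function.Injective (MulAut.conj (G := G)) := by
    rw [← MonoidHom.ker_eq_bot_iff, eq_bot_iff]
    intro g hg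
    rw [MonoidHom.mem_ker] at hg
    rw [← hZ, mem_center_iff]
    intro x
    have := congrArg (fun f : MulAut G => f x) hg
    simp only [MulAut.conj_apply, MulAut.one_apply] at this
    rw [mul_inv_eq_iff_eq_mul] at this
    exact this.symm
  -- the embedding of `G`
  let c : G →* Γ := (MulAut.conj (G := G)).codRestrict Γ (fun g => (le_sup_left : N₀ ≤ Γ) ⟨g, rfl⟩)
  have hc : ∀ g, ((c g : Γ) : MulAut G) = MulAut.conj g := fun g => rfl
  have hci : Function.Injective c := fun a b h => hcinj (congrArg Subtype.val h)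
  let β : Γ := ⟨α, (le_sup_right : zpowers α ≤ Γ) (mem_zpowers α)⟩
  have hβc : ∀ (φ : Γ) (g : G), φ * c g * φ⁻¹ = c ((φ : MulAut G) g) := by
    intro φ g
    apply Subtype.ext
    show (φ : MulAut G) * MulAut.conj g * (φ : MulAut G)⁻¹ = MulAut.conj ((φ : MulAut G) g)
    ext x; simp [MulAut.conj_apply]
  have hgen : ∀ x : Γ, ∃ (g : G) (k : ℤ), x = c g * β ^ k := by
    rintro ⟨x, hx⟩
    obtain ⟨_, ⟨g, rfl⟩, b, hb, rfl⟩ := (mem_sup_of_normal_left).1 hx
    obtain ⟨k, rfl⟩ := mem_zpowers_iff.1 hb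
    exact ⟨g, k, Subtype.ext rfl⟩
  have hcn : c.range.Normal := by
    constructor
    rintro _ ⟨g, rfl⟩ φ
    exact ⟨_, (hβc φ g).symm⟩
  have hβo : β ^ (2 ^ j) = 1 := by
    apply Subtype.ext
    show α ^ (2 ^ j) = 1
    rw [← hj]; exact pow_orderOf_eq_one α
  have hcr : ∀ g, QuotientGroup.mk' c.range (c g) = 1 := by
    intro g
    rw [QuotientGroup.mk'_apply, QuotientGroup.eq_one_iff]
    exact MonoidHom.mem_range.2 ⟨g, rfl⟩
  -- powers `2 ^ j` lie in `G`
  have hpow : ∀ x : Γ, x ^ (2 ^ j) ∈ c.range := by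
    intro x
    obtain ⟨g, k, rfl⟩ := hgen x
    rw [← QuotientGroup.eq_one_iff]
    show QuotientGroup.mk' c.range ((c g * β ^ k) ^ (2 ^ j)) = 1
    rw [map_pow, map_mul, hcr, one_mul, ← map_pow, ← zpow_natCast, ← zpow_mul, mul_comm, zpow_mul, zpow_natCast, hβo,
      one_zpow, map_one]
  -- centre
  have hZΓ : center Γ = ⊥ := by
    rw [eq_bot_iff]
    intro φ hφ
    rw [mem_bot]
    apply Subtype.ext
    ext g
    have h1 := mem_center_iff.1 hφ (c g)
    have h3 := hβc φ g
    rw [← h1, mul_inv_cancel_right] at h3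
    exact (hci h3).symm
  -- odd core
  have hOΓ : Cfsg.pPrimeCore 2 Γ = ⊥ := by
    have hOn : (Cfsg.pPrimeCore 2 Γ).Normal := inferInstance
    have hOc : (Nat.card (Cfsg.pPrimeCore 2 Γ)).Coprime 2 := Fitting.coprime_card_pPrimeCore 2
    have h1 : Cfsg.pPrimeCore 2 Γ ≤ c.range := by
      intro x hx
      have h3 : x ^ Nat.card (Cfsg.pPrimeCore 2 Γ) = 1 := by
        have := pow_card_eq_one' (x := (⟨x, hx⟩ : Cfsg.pPrimeCore 2 Γ))
        exact congrArg Subtype.val this
      have h4 : (Nat.card (Cfsg.pPrimeCore 2 Γ)).Coprime (2 ^ j) := hOc.pow_right j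
      rw [← QuotientGroup.eq_one_iff]
      have h5 : (QuotientGroup.mk x : Γ ⧸ c.range) ^ (2 ^ j) = 1 := by
        rw [← QuotientGroup.mk_pow]; exact (QuotientGroup.eq_one_iff _).2 (hpow x)
      have h6 : (QuotientGroup.mk x : Γ ⧸ c.range) ^ Nat.card (Cfsg.pPrimeCore 2 Γ) = 1 := by
        rw [← QuotientGroup.mk_pow, h3]; rfl
      have h7 := Nat.dvd_gcd (orderOf_dvd_of_pow_eq_one h6) (orderOf_dvd_of_pow_eq_one h5)
      rw [h4.gcd_eq_one, Nat.dvd_one, orderOf_eq_one_iff] at h7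
      exact h7
    have h3 : (Cfsg.pPrimeCore 2 Γ).comap c ≤ Cfsg.pPrimeCore 2 G := by
      apply Fitting.le_pPrimeCore 2 (hOn.comap c)
      have h4 : Nat.card ((Cfsg.pPrimeCore 2 Γ).comap c) ∣ Nat.card (Cfsg.pPrimeCore 2 Γ) := by
        have h5 : ((Cfsg.pPrimeCore 2 Γ).comap c).map c ≤ Cfsg.pPrimeCore 2 Γ := map_comap_le _ _
        have h6 := card_dvd_of_le h5
        rwa [Subgroup.card_map_of_injective hci] at h6
      exact Nat.Coprime.coprime_dvd_left h4 hOc
    rw [hcore, le_bot_iff] at h3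
    rw [eq_bot_iff]
    intro x hx
    obtain ⟨g, rfl⟩ := h1 hx
    have h4 : g ∈ (Cfsg.pPrimeCore 2 Γ).comap c := hx
    rw [h3, mem_bot] at h4
    rw [h4, map_one]; exact one_mem _
  -- the Sylow subgroup
  have hβP : ∀ x ∈ (P : Subgroup G), β * c x * β⁻¹ = c x := by
    intro x hx
    rw [hβc β x]
    exact congrArg c (hfix x hx)
  have hcomm : ∀ x ∈ (P : Subgroup G), Commute β (c x) := fun x hx => mul_inv_eq_iff_eq_mul.1 (hβP x hx)
  have hzp : IsPGroup 2 (zpowers β) := by
    obtain ⟨i, -, hi⟩ := (Nat.dvd_prime_pow Nat.prime_two).1 (orderOf_dvd_of_pow_eq_one hβo)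
    exact IsPGroup.of_card (n := i) (by rw [Nat.card_zpowers, hi])
  have hPp : IsPGroup 2 ((P : Subgroup G).map c) := P.2.map c
  have hnorm : zpowers β ≤ normalizer (((P : Subgroup G).map c : Subgroup Γ) : Set Γ) := by
    refine le_trans ?_ (centralizer_le_normalizer _)
    rw [zpowers_le, mem_centralizer_iff]
    rintro _ ⟨x, hx, rfl⟩
    exact (hcomm x hx).symm
  have hsup : IsPGroup 2 ((P : Subgroup G).map c ⊔ zpowers β : Subgroup Γ) :=
    hPp.to_sup_of_normal_left' hzp hnorm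
  obtain ⟨T, hT⟩ := hsup.exists_le_sylow
  have hPT : (P : Subgroup G) = (T : Subgroup Γ).comap c := by
    have h1 : IsPGroup 2 ((T : Subgroup Γ).comap c) := T.2.comap_of_injective c hci
    have h3 : (P : Subgroup G) ≤ (T : Subgroup Γ).comap c := by
      rw [← map_le_iff_le_comap]; exact le_sup_left.trans hT
    exact (P.3 h1 h3).symm
  have hβT : β ∈ T := hT (le_sup_right (α := Subgroup Γ) (mem_zpowers β))
  have hTel : ∀ t ∈ (T : Subgroup Γ), ∃ (g : G) (k : ℤ), g ∈ (P : Subgroup G) ∧ t = c g * β ^ k := by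
    intro t ht
    obtain ⟨g, k, rfl⟩ := hgen t
    refine ⟨g, k, ?_, rfl⟩
    rw [hPT]
    have := (T : Subgroup Γ).mul_mem ht ((T : Subgroup Γ).inv_mem ((T : Subgroup Γ).zpow_mem hβT k))
    rwa [mul_inv_cancel_right] at this
  have hTab : IsMulCommutative (T : Subgroup Γ) := by
    refine ⟨⟨fun a b => ?_⟩⟩
    obtain ⟨g, k, hg, hgk⟩ := hTel a a.2
    obtain ⟨h, l, hh, hhl⟩ := hTel b b.2
    apply Subtype.ext
    show (a : Γ) * b = b * a
    rw [hgk, hhl]
    have e1 : Commute (c g) (c h) := by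
      have h5 : (⟨g, hg⟩ : (P : Subgroup G)) * ⟨h, hh⟩ = ⟨h, hh⟩ * ⟨g, hg⟩ := hab.is_comm.comm _ _
      have h6 : g * h = h * g := congrArg Subtype.val h5
      show c g * c h = c h * c g
      rw [← map_mul, h6, map_mul]
    have e2 : Commute (β ^ k) (c h) := (hcomm h hh).zpow_left k
    have e3 : Commute (c g) (β ^ l) := ((hcomm g hg).zpow_left l).symm
    have e4 : Commute (β ^ k) (β ^ l) := ((Commute.refl β).zpow_left k).zpow_right l
    exact ((e1.mul_right e3).mul_left (e2.mul_right e4)).eq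
  have hTc := sylow_le_commutator T hTab hZΓ hOΓ
  -- `Γ / G` is abelian
  have hder : commutator Γ ≤ c.range := by
    rw [_root_.commutator_def, Subgroup.commutator_le]
    intro x _ y _
    obtain ⟨g, k, rfl⟩ := hgen x
    obtain ⟨h, l, rfl⟩ := hgen y
    rw [← QuotientGroup.eq_one_iff]
    refine (map_commutatorElement (QuotientGroup.mk' c.range) (c g * β ^ k) (c h * β ^ l)).trans ?_
    rw [ commutatorElement_eq_one_iff_commute, map_mul, map_mul, hcr, hcr, one_mul, one_mul,
      map_zpow, map_zpow]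
    exact ((Commute.refl _).zpow_left k).zpow_right l
  obtain ⟨g, hg⟩ := hder (hTc hβT)
  refine ⟨g, fun x => ?_⟩
  have h1 : α = MulAut.conj g := by
    have := congrArg Subtype.val hg
    exact this.symm
  rw [h1]; rfl

end Cfsg.Agent.S4593
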