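import Cfsg.Statements.S4601
import Cfsg.Agent.Lib.H76SylNorm
import Cfsg.Agent.Lib.PPart

set_option autoImplicit false
open Cfsg

namespace Cfsg.Agent.S4601

open Subgroup
open scoped Pointwise
open Cfsg.Agent.Lib Cfsg.Agent.Lib.SubgroupTools Cfsg.Agent.Lib.H76SylNorm

universe u

/-- every `q`-element has class size prime to `p` -/
def Star (p q : ℕ) (G : Type u) [Group G] : Prop :=
  ∀ y : G, (∃ k : ℕ, orderOf y = q ^ k) → ¬ p ∣ (Subgroup.centralizer ({y} : Set G)).index

theorem exists_lift {G : Type u} [Group G] [Finite G] {q : ℕ} [hq : Fact q.Prime] (N : Subgroup G) [N.Normal]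
    (z : G ⧸ N) (hz : ∃ k : ℕ, orderOf z = q ^ k) : ∃ y : G, (y : G ⧸ N) = z ∧ ∃ k : ℕ, orderOf y = q ^ k := by
  obtain ⟨y₀, rfl⟩ := QuotientGroup.mk_surjective z
  obtain ⟨e, f, hef⟩ := PPart.exists_isRegExp q hq.out G
  refine ⟨y₀ ^ f, ?_, hef.sing y₀⟩
  have h1 : ((y₀ ^ e : G) : G ⧸ N) = 1 := by
    obtain ⟨k, hk⟩ := hz
    have h2 : orderOf (((y₀ ^ e : G)) : G ⧸ N) ∣ orderOf (y₀ ^ e) := orderOf_map_dvd (QuotientGroup.mk' N) _
    have h3 : orderOf (((y₀ ^ e : G)) : G ⧸ N) ∣ q ^ k := by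
      rw [QuotientGroup.mk_pow, ← hk]
      exact orderOf_pow_dvd e
    obtain ⟨j, -, hj⟩ := (Nat.dvd_prime_pow hq.out).1 h3
    rcases Nat.eq_zero_or_pos j with rfl | hj0
    · rw [pow_zero] at hj
      exact orderOf_eq_one_iff.1 hj
    · exfalso
      apply hef.reg y₀
      apply (dvd_pow_self q hj0.ne').trans
      rw [← hj]; exact h2
  have h4 := hef.pow_add y₀
  rw [pow_add] at h4
  have h5 := congrArg (fun x : G => (x : G ⧸ N)) h4
  simp only [QuotientGroup.mk_mul] at h5
  rw [h1, one_mul] at h5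
  exact h5

theorem Star.quotient {G : Type u} [Group G] [Finite G] {p q : ℕ} [hq : Fact q.Prime] (h : Star p q G) (N : Subgroup G)
    [N.Normal] : Star p q (G ⧸ N) := by
  intro z hz hd
  obtain ⟨y, rfl, hy⟩ := exists_lift N z hz
  apply h y hy
  apply hd.trans
  rw [← Subgroup.index_comap_of_surjective _ (QuotientGroup.mk'_surjective N)]
  apply Subgroup.index_dvd_of_le
  intro x hx
  rw [Subgroup.mem_centralizer_singleton_iff] at hx
  rw [Subgroup.mem_comap, Subgroup.mem_centralizer_singleton_iff]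
  show (x : G ⧸ N) * (y : G ⧸ N) = y * x
  rw [← QuotientGroup.mk_mul, hx, QuotientGroup.mk_mul]

/-- there is a Sylow `p`-subgroup of `G` centralising `y`. -/
theorem exists_sylow_centralizer {G : Type u} [Group G] [Finite G] {p : ℕ} [hp : Fact p.Prime] (y : G)
    (h : ¬ p ∣ (Subgroup.centralizer ({y} : Set G)).index) :
    ∃ T : Sylow p G, (T : Subgroup G) ≤ Subgroup.centralizer ({y} : Set G) := by
  obtain ⟨T₀⟩ : Nonempty (Sylow p (Subgroup.centralizer ({y} : Set G))) := inferInstance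
  obtain ⟨h1, h2, h3⟩ := CoprimeAction.sylow_map_subtype_props T₀
  exact ⟨h2.toSylow (index_not_dvd_of_le h1 h3 h hp.out), h1⟩

/-- `Q` centralises every `Q`-invariant Sylow `p`-subgroup of the normal `q'`-subgroup `K`. -/
theorem le_centralizer {G : Type u} [Group G] [Finite G] {p q : ℕ} [hp : Fact p.Prime] [hq : Fact q.Prime]
    (h : Star p q G) (K : Subgroup G) [hKn : K.Normal] (hK : (Nat.card K).Coprime q) (Q : Subgroup G) (hQ : IsPGroup q Q)
    (S : Subgroup G) (hSK : S ≤ K) (hSp : IsPGroup p S) (hSi : ¬ p ∣ S.relIndex K)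
    (hQS : Q ≤ normalizer (S : Set G)) : Q ≤ centralizer (S : Set G) := by
  intro y hy
  have hyo : ∃ k : ℕ, orderOf y = q ^ k := by
    obtain ⟨k, hk⟩ := IsPGroup.iff_orderOf.1 hQ ⟨y, hy⟩
    exact ⟨k, by rw [← hk, Subgroup.orderOf_mk]⟩
  obtain ⟨T, hT⟩ := exists_sylow_centralizer (p := p) y (h y hyo)
  have hTc : ∀ t ∈ (T : Subgroup G), t * y = y * t := fun t ht =>
    Subgroup.mem_centralizer_singleton_iff.1 (hT ht)
  have h1 := Subnormal.not_dvd_relIndex_sylow p hKn.isSubnormal T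
  obtain ⟨c, hc, hcS⟩ := CoprimeAction.invariant_sylow_conj (A := Subgroup.zpowers y) (K := K) (p := p)
    (P := (T : Subgroup G) ⊓ K) (Q := S) le_normalizer_of_normal (by
      obtain ⟨k, hk⟩ := hyo
      rw [Nat.card_zpowers, hk]
      exact Nat.Coprime.pow_left k hK.symm) (Or.inl (by infer_instance)) inf_le_right hSK
      (T.2.to_le inf_le_left) hSp h1 hSi (by
        rw [Subgroup.zpowers_le]
        apply Subgroup.centralizer_le_normalizer
        rw [Subgroup.mem_centralizer_iff]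
        intro t ht
        exact hTc t ht.1) (by
        rw [Subgroup.zpowers_le]
        exact hQS hy)
  rw [Subgroup.mem_centralizer_iff]
  intro s hs
  have hc2 : y * c = c * y := by
    have := (Subgroup.mem_inf.1 hc).2
    rw [Subgroup.mem_centralizer_iff] at this
    exact this y (Subgroup.mem_zpowers y)
  rw [← hcS, SetLike.mem_coe, mem_conj_smul] at hs
  have h2 := hTc _ (Subgroup.mem_inf.1 hs).1
  have h3 : s * y = c * ((c⁻¹ * s * c) * (c⁻¹ * y * c)) * c⁻¹ := by group
  have h4 : c⁻¹ * y * c = y := by rw [mul_assoc, hc2, inv_mul_cancel_left]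
  rw [h3, h4, h2]
  have h5 : c * (y * (c⁻¹ * s * c)) * c⁻¹ = (c * y) * c⁻¹ * s := by group
  rw [h5, ← hc2, mul_inv_cancel_right]

theorem step {G : Type u} [Group G] [Finite G] {p q : ℕ} [hp : Fact p.Prime] [hq : Fact q.Prime] (hpq : p ≠ q)
    (h : Star p q G) (K : Subgroup G) [hKn : K.Normal] (hK : (Nat.card K).Coprime q) (P : Sylow p G) (Q : Sylow q G)
    (hPM : (P : Subgroup G) ≤ normalizer ((K ⊔ (Q : Subgroup G) : Subgroup G) : Set G)) :
    ∃ P' : Sylow p G, (P' : Subgroup G) ≤ normalizer ((Q : Subgroup G) : Set G) := by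
  obtain ⟨S, hSK, hSp, hSi, hQS⟩ := CoprimeAction.exists_invariant_sylow (A := (Q : Subgroup G)) (K := K)
    le_normalizer_of_normal (by
      obtain ⟨k, hk⟩ := (IsPGroup.iff_card (p := q)).1 Q.2
      rw [hk]
      exact Nat.Coprime.pow_left k hK.symm) (Or.inl (by
      have := Q.2.isNilpotent
      infer_instance)) p
  have h1 := le_centralizer h K hK (Q : Subgroup G) Q.2 S hSK hSp hSi hQS
  have hSQ : S ≤ normalizer ((Q : Subgroup G) : Set G) :=
    (Subgroup.le_centralizer_iff.1 h1).trans (Subgroup.centralizer_le_normalizer _)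
  set M : Subgroup G := K ⊔ (Q : Subgroup G) with hM
  set W : Subgroup G := (P : Subgroup G) ⊔ M with hW
  set R : Subgroup G := normalizer ((Q : Subgroup G) : Set G) ⊓ W with hR
  have hWM : W ≤ normalizer (M : Set G) := sup_le hPM Subgroup.le_normalizer
  have hMW : M ≤ W := le_sup_right
  have hRW : R ≤ W := inf_le_right
  have hQM : (Q : Subgroup G) ≤ M := le_sup_right
  have hsup : M ⊔ R = W := by
    apply le_antisymm (sup_le hMW hRW)
    apply sup_le _ le_sup_left
    intro x hx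
    have hxQ : MulAut.conj x • (Q : Subgroup G) ≤ M := by
      rw [← conj_smul_of_mem_normalizer (hPM hx)]
      exact conj_smul_mono x hQM
    obtain ⟨m, hm, hm2⟩ := sylow_conj_rel hQM hxQ Q.2 (Q.2.map _) (fun hd =>
      Q.not_dvd_index (hd.trans (Subgroup.relIndex_dvd_index_of_le hQM))) (fun hd => by
        have h2 : ¬ q ∣ (MulAut.conj x • (Q : Subgroup G)).index := by
          rw [show MulAut.conj x • (Q : Subgroup G) = ((x • Q : Sylow q G) : Subgroup G) from rfl]
          exact (x • Q : Sylow q G).not_dvd_index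
        exact h2 (hd.trans (Subgroup.relIndex_dvd_index_of_le hxQ)))
    have h3 : m⁻¹ * x ∈ normalizer ((Q : Subgroup G) : Set G) := by
      rw [mem_normalizer_iff_conj_smul, conj_smul_mul, ← hm2, ← conj_smul_mul, inv_mul_cancel, conj_smul_one]
    have h4 : x = m * (m⁻¹ * x) := by group
    rw [h4]
    apply Subgroup.mul_mem_sup hm
    exact ⟨h3, W.mul_mem (W.inv_mem (hMW hm)) (le_sup_left (a := (P : Subgroup G)) hx)⟩
  have hSR : S ≤ M ⊓ R := le_inf (hSK.trans le_sup_left) (le_inf hSQ ((hSK.trans le_sup_left).trans hMW))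
  have hSM : ¬ p ∣ S.relIndex M := by
    rw [← Subgroup.relIndex_mul_relIndex S K M hSK le_sup_left, hM, Subgroup.relIndex_sup_left]
    intro hd
    rcases hp.out.dvd_mul.1 hd with hd | hd
    · exact hSi hd
    · obtain ⟨k, hk⟩ := (IsPGroup.iff_card (p := q)).1 Q.2
      have h2 := hd.trans (Subgroup.relIndex_dvd_card K (Q : Subgroup G))
      rw [hk] at h2
      exact hpq ((Nat.prime_dvd_prime_iff_eq hp.out hq.out).1 (hp.out.dvd_of_dvd_pow h2))
  have hRM : ¬ p ∣ (M ⊓ R).relIndex M := by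
    intro hd
    apply hSM
    rw [← Subgroup.relIndex_mul_relIndex S (M ⊓ R) M hSR inf_le_left]
    exact hd.mul_left _
  have hRWi : R.relIndex W = (M ⊓ R).relIndex M := by
    have e1 := card_sup_mul_card_inf (N := M) (H := R) (hRW.trans hWM)
    rw [hsup] at e1
    have e2 := Cores.card_mul_relIndex hRW
    have e3 := Cores.card_mul_relIndex (inf_le_left : M ⊓ R ≤ M)
    rw [← e2, ← e3] at e1
    have hpos : 0 < Nat.card R * Nat.card (M ⊓ R : Subgroup G) := Nat.mul_pos Nat.card_pos Nat.card_pos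
    apply Nat.eq_of_mul_eq_mul_left hpos
    calc Nat.card R * Nat.card (M ⊓ R : Subgroup G) * R.relIndex W
        = Nat.card R * R.relIndex W * Nat.card (M ⊓ R : Subgroup G) := by ring
      _ = Nat.card (M ⊓ R : Subgroup G) * (M ⊓ R).relIndex M * Nat.card R := e1
      _ = _ := by ring
  have hWi : ¬ p ∣ W.index := fun hd => P.not_dvd_index (hd.trans (Subgroup.index_dvd_of_le le_sup_left))
  have hRi : ¬ p ∣ R.index := index_not_dvd_of_le hRW (by rw [hRWi]; exact hRM) hWi hp.out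
  obtain ⟨T₀⟩ : Nonempty (Sylow p R) := inferInstance
  obtain ⟨h1, h2, h3⟩ := CoprimeAction.sylow_map_subtype_props T₀
  exact ⟨h2.toSylow (index_not_dvd_of_le h1 h3 hRi hp.out), h1.trans inf_le_left⟩

theorem lift {G : Type u} [Group G] [Finite G] {p q : ℕ} [hp : Fact p.Prime] [hq : Fact q.Prime]
    (K : Subgroup G) [hKn : K.Normal] (h : ∃ (P : Sylow p (G ⧸ K)) (Q : Sylow q (G ⧸ K)),
      (P : Subgroup (G ⧸ K)) ≤ Subgroup.normalizer ((Q : Subgroup (G ⧸ K)) : Set (G ⧸ K))) :
    ∃ (P : Sylow p G) (Q : Sylow q G), (P : Subgroup G) ≤ normalizer ((K ⊔ (Q : Subgroup G) : Subgroup G) : Set G) := by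
  have hπs : Function.Surjective (QuotientGroup.mk' K) := QuotientGroup.mk'_surjective _
  obtain ⟨P₁, Q₁, h1⟩ := h
  obtain ⟨P, rfl⟩ := Sylow.mapSurjective_surjective hπs p P₁
  obtain ⟨Q, rfl⟩ := Sylow.mapSurjective_surjective hπs q Q₁
  refine ⟨P, Q, ?_⟩
  have h2 : K ⊔ (Q : Subgroup G) = ((Q : Subgroup G).map (QuotientGroup.mk' K)).comap (QuotientGroup.mk' K) := by
    rw [Subgroup.comap_map_eq, QuotientGroup.ker_mk', sup_comm]
  rw [h2]
  intro x hx
  have h3 : QuotientGroup.mk' K x ∈ Subgroup.normalizer (((Q : Subgroup G).map (QuotientGroup.mk' K) : Subgroup (G ⧸ K)) : Set (G ⧸ K)) :=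
    h1 ⟨x, hx, rfl⟩
  rw [mem_normalizer_iff] at h3 ⊢
  intro y
  have := h3 (QuotientGroup.mk' K y)
  rw [Subgroup.mem_comap, Subgroup.mem_comap, map_mul, map_mul, map_inv]
  exact this

theorem main {p q : ℕ} [hp : Fact p.Prime] [hq : Fact q.Prime] (hpq : p ≠ q) (n : ℕ) :
    ∀ (G : Type u) [Group G] [Finite G], Nat.card G = n → IsPSolvable q G → Star p q G →
    ∃ (P : Sylow p G) (Q : Sylow q G), (P : Subgroup G) ≤ normalizer ((Q : Subgroup G) : Set G) := by
  induction n using Nat.strong_induction_on with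
  | _ n ih =>
    intro G _ _ hcard hS hstar
    have hquot : ∀ (K : Subgroup G) [K.Normal], K ≠ ⊥ → ∃ (P : Sylow p G) (Q : Sylow q G),
        (P : Subgroup G) ≤ normalizer ((K ⊔ (Q : Subgroup G) : Subgroup G) : Set G) := by
      intro K _ hK
      apply lift
      apply ih (Nat.card (G ⧸ K)) _ (G ⧸ K) rfl (H32PSolv.isPSolvable_quotient hS K) (hstar.quotient K)
      rw [← hcard]
      have h1 := Subgroup.card_mul_index K
      have h2 : 1 < Nat.card K := (Subgroup.one_lt_card_iff_ne_bot K).2 hK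
      have h3 : 0 < K.index := Nat.pos_of_ne_zero Subgroup.index_ne_zero_of_finite
      have h4 : K.index = Nat.card (G ⧸ K) := rfl
      rw [← h4, ← h1]
      nlinarith
    by_cases h1 : pCore q G = ⊥
    · by_cases h2 : pPrimeCore q G = ⊥
      · have h3 := PSolvDual.centralizer_pPrimeCore_le hS h1
        rw [h2] at h3
        have h4 : (⊤ : Subgroup G) ≤ ⊥ := by
          intro x _
          apply h3
          rw [Subgroup.mem_centralizer_iff]
          intro y hy
          rw [Subgroup.coe_bot, Set.mem_singleton_iff] at hy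
          rw [hy, one_mul, mul_one]
        obtain ⟨P⟩ : Nonempty (Sylow p G) := inferInstance
        obtain ⟨Q⟩ : Nonempty (Sylow q G) := inferInstance
        refine ⟨P, Q, ?_⟩
        have h5 : (P : Subgroup G) ≤ ⊥ := le_top.trans h4
        exact h5.trans bot_le
      · obtain ⟨P, Q, hPQ⟩ := hquot (pPrimeCore q G) h2
        obtain ⟨P', hP'⟩ := step hpq hstar (pPrimeCore q G) (Cores.coprime_card_pPrimeCore q G) P Q hPQ
        exact ⟨P', Q, hP'⟩
    · obtain ⟨P, Q, hPQ⟩ := hquot (pCore q G) h1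
      refine ⟨P, Q, ?_⟩
      rwa [sup_eq_right.2 (Cores.pCore_le_sylow Q)] at hPQ

theorem result {G : Type*} [Group G] [Finite G] (p q : ℕ) [Fact p.Prime] [Fact q.Prime] (hsolv : Cfsg.IsPSolvable p G ∨ Cfsg.IsPSolvable q G)
    (h : ∀ y : G, (∃ k : ℕ, orderOf y = q ^ k) → ¬ p ∣ (Subgroup.centralizer ({y} : Set G)).index) :
    ∃ (P : Sylow p G) (Q : Sylow q G), (P : Subgroup G) ≤ Subgroup.normalizer ((Q : Subgroup G) : Set G) := by
  by_cases hpq : p = q
  · subst hpq
    obtain ⟨P⟩ : Nonempty (Sylow p G) := inferInstance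
    exact ⟨P, P, Subgroup.le_normalizer⟩
  have hp : Fact p.Prime := inferInstance
  have hq : Fact q.Prime := inferInstance
  rcases hsolv with hS | hS
  · rw [iff_not_dvd p q hpq hS]
    intro hd
    have hstar : Star p q (G ⧸ pPrimeCore p G) := Star.quotient (p := p) (q := q) h (pPrimeCore p G)
    obtain ⟨z, hz⟩ := exists_prime_orderOf_dvd_card' q (G := G ⧸ pPrimeCore p G) hd
    obtain ⟨T, hT⟩ := exists_sylow_centralizer (p := p) z (hstar z ⟨1, by rw [hz, pow_one]⟩)
    have h1 : z ∈ centralizer (pCore p (G ⧸ pPrimeCore p G) : Set (G ⧸ pPrimeCore p G)) := by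
      rw [mem_centralizer_iff]
      intro u hu
      exact Subgroup.mem_centralizer_singleton_iff.1 (hT (Cores.pCore_le_sylow T hu))
    have h2 := H32PSolv.centralizer_pCore_le (H32PSolv.isPSolvable_quotient hS (pPrimeCore p G))
      (Cores.pPrimeCore_quotient_pPrimeCore p G) h1
    obtain ⟨k, hk⟩ := IsPGroup.iff_orderOf.1 (Cores.isPGroup_pCore p (G ⧸ pPrimeCore p G)) ⟨z, h2⟩
    rw [Subgroup.orderOf_mk, hz] at hk
    have h3 : q ∣ p ^ k := by rw [← hk]
    exact hpq ((Nat.prime_dvd_prime_iff_eq hq.out hp.out).1 (hq.out.dvd_of_dvd_pow h3)).symm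
  · exact main hpq (Nat.card G) G rfl hS h

end Cfsg.Agent.S4601
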