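import Cfsg.Statements.S4602
import Cfsg.Agent.Lib.H76SylNorm

set_option autoImplicit false
open Cfsg

namespace Cfsg.Agent.S4602

theorem result {G : Type*} [Group G] [Finite G] (p q : ℕ) [Fact p.Prime] [Fact q.Prime] (hpq : p ≠ q) (hsolv : Cfsg.IsPSolvable p G) :
    (∃ (P : Sylow p G) (Q : Sylow q G), (P : Subgroup G) ≤ Subgroup.normalizer ((Q : Subgroup G) : Set G)) ↔ ¬ q ∣ (Cfsg.pPrimeCore p G).index :=
  Cfsg.Agent.Lib.H76SylNorm.iff_not_dvd p q hpq hsolv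

end Cfsg.Agent.S4602
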