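import Cfsg.Statements.S4604
import Cfsg.Agent.Lib.BrauerApp
import Cfsg.Agent.Lib.H76Char

set_option autoImplicit false
open Cfsg

namespace Cfsg.Agent.S4604

open scoped ComplexConjugate
open Cfsg Cfsg.Agent.Lib Cfsg.Agent.Lib.CharBasic

universe u

theorem sum_pow_sub {R : Type*} [CommRing R] (p : ℕ) [hp : Fact p.Prime] (hnu : (p : R) ∈ nonunits R) {n : ℕ}
    (a : Fin n → R) (k : ℕ) : ∃ γ : R, (∑ i, a i) ^ (p ^ k) - ∑ i, (a i) ^ (p ^ k) = p * γ := by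
  have hc : CharP (R ⧸ (Ideal.span ({(p : R)} : Set R) : Ideal R)) p := CharP.quotient R p hnu
  have h1 : (∑ i, a i) ^ (p ^ k) - ∑ i, (a i) ^ (p ^ k) ∈ Ideal.span ({(p : R)} : Set R) := by
    rw [← Ideal.Quotient.eq_zero_iff_mem, map_sub, map_pow, map_sum, map_sum, sum_pow_char_pow, sub_eq_zero]
    simp only [map_pow]
  obtain ⟨γ, hγ⟩ := Ideal.mem_span_singleton'.1 h1
  exact ⟨γ, by rw [mul_comm]; exact hγ.symm⟩

theorem sub_pow_sub {R : Type*} [CommRing R] (p : ℕ) [hp : Fact p.Prime] (hnu : (p : R) ∈ nonunits R)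
    (a b : R) (k : ℕ) : ∃ γ : R, (a - b) ^ (p ^ k) - (a ^ (p ^ k) - b ^ (p ^ k)) = p * γ := by
  have hc : CharP (R ⧸ (Ideal.span ({(p : R)} : Set R) : Ideal R)) p := CharP.quotient R p hnu
  have h1 : (a - b) ^ (p ^ k) - (a ^ (p ^ k) - b ^ (p ^ k)) ∈ Ideal.span ({(p : R)} : Set R) := by
    rw [← Ideal.Quotient.eq_zero_iff_mem, map_sub, map_pow, map_sub, map_sub, sub_pow_char_pow, sub_eq_zero]
    simp only [map_pow]
  obtain ⟨γ, hγ⟩ := Ideal.mem_span_singleton'.1 h1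
  exact ⟨γ, by rw [mul_comm]; exact hγ.symm⟩

theorem nonunit (p : ℕ) [hp : Fact p.Prime] : (p : AlgInt) ∈ nonunits AlgInt := by
  obtain ⟨M, hM⟩ := H76Char.exists_isPModular p
  intro h
  exact hM.2.1.ne_top (Ideal.eq_top_of_isUnit_mem M hM.2.2 h)

/-- `χ(x)^{p^k} ≡ χ(x^{p^k})` modulo `p`. -/
theorem char_pow {G : Type u} [Group G] [Finite G] (p : ℕ) [hp : Fact p.Prime] {χ : G → ℂ} (hχ : IsCharacter G χ)
    (x : G) (k : ℕ) : ∃ γ : AlgInt, χ x ^ (p ^ k) - χ (x ^ (p ^ k)) = (p : ℂ) * (γ : ℂ) := by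
  obtain ⟨n, μ, h1, h2, h3⟩ := H76Char.exists_eigenvalues hχ x
  have hint : ∀ i, IsIntegral ℤ (μ i) := by
    intro i
    apply IsIntegral.of_pow (orderOf_pos x)
    rw [h1]; exact isIntegral_one
  obtain ⟨γ, hγ⟩ := sum_pow_sub p (nonunit p) (fun i => (⟨μ i, hint i⟩ : AlgInt)) k
  refine ⟨γ, ?_⟩
  have h4 := congrArg (fun z : AlgInt => (z : ℂ)) hγ
  have h5 := h2 1
  simp only [pow_one] at h5
  rw [h5, h2]
  push_cast at h4
  simpa using h4

theorem result {G : Type*} [Group G] [Finite G] (p : ℕ) [Fact p.Prime] (x y x' y' : G)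
    (hx : (∃ k : ℕ, orderOf (x * x'⁻¹) = p ^ k) ∧ Commute (x * x'⁻¹) x' ∧ ¬ p ∣ orderOf x')
    (hy : (∃ k : ℕ, orderOf (y * y'⁻¹) = p ^ k) ∧ Commute (y * y'⁻¹) y' ∧ ¬ p ∣ orderOf y') :
    IsConj x' y' ↔ ∀ χ : Cfsg.IrrCharacter G, ∃ γ : Cfsg.AlgInt,
      (χ : G → ℂ) x ^ (p ^ (Nat.card G).factorization p) - (χ : G → ℂ) y ^ (p ^ (Nat.card G).factorization p) = (p : ℂ) * (γ : ℂ) := by
  have hp : Fact p.Prime := inferInstance
  set a := (Nat.card G).factorization p with ha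
  have hpow : ∀ z z' : G, (∃ k : ℕ, orderOf (z * z'⁻¹) = p ^ k) → Commute (z * z'⁻¹) z' →
      z ^ (p ^ a) = z' ^ (p ^ a) := by
    rintro z z' ⟨k, hk⟩ hc
    have h1 : z = (z * z'⁻¹) * z' := by group
    conv_lhs => rw [h1]
    rw [hc.mul_pow]
    have h2 : orderOf (z * z'⁻¹) ∣ p ^ a := by
      rw [hk]
      apply pow_dvd_pow
      rw [ha]
      rw [← hp.out.pow_dvd_iff_le_factorization Nat.card_pos.ne']
      rw [← hk]
      exact orderOf_dvd_natCard _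
    rw [orderOf_dvd_iff_pow_eq_one.1 h2, one_mul]
  constructor
  · intro h χ
    obtain ⟨γ₁, h1⟩ := char_pow p χ.2.isCharacter x a
    obtain ⟨γ₂, h2⟩ := char_pow p χ.2.isCharacter y a
    refine ⟨γ₁ - γ₂, ?_⟩
    have h3 : (χ : G → ℂ) (x ^ (p ^ a)) = (χ : G → ℂ) (y ^ (p ^ a)) := by
      rw [hpow x x' hx.1 hx.2.1, hpow y y' hy.1 hy.2.1]
      obtain ⟨c, hc⟩ := isConj_iff.1 h
      rw [← hc, conj_pow]
      exact (χ.2.isClassFunction _ c).symm
    push_cast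
    linear_combination h1 - h2 + h3
  · intro h
    obtain ⟨M, hM⟩ := H76Char.exists_isPModular p
    have := BlockRing.isPrime hM
    obtain ⟨e, f, hef⟩ := PPart.exists_isRegExp p hp.out G
    have h1 : IsConj (x ^ e) (y ^ e) := by
      rw [BrauerApp.isConj_regular_iff hM hef]
      intro χ
      obtain ⟨γ, hγ⟩ := h χ
      let u : AlgInt := ⟨(χ : G → ℂ) x, H76Char.isIntegral_of_isCharacter χ.2.isCharacter x⟩
      let v : AlgInt := ⟨(χ : G → ℂ) y, H76Char.isIntegral_of_isCharacter χ.2.isCharacter y⟩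
      obtain ⟨γ', hγ'⟩ := sub_pow_sub p (nonunit p) u v a
      have h2 : (u - v) ^ (p ^ a) = p * (γ + γ') := by
        have h3 : u ^ (p ^ a) - v ^ (p ^ a) = p * γ := Subtype.ext (by push_cast; exact hγ)
        linear_combination hγ' + h3
      have h4 : (u - v) ^ (p ^ a) ∈ M := by
        rw [h2]; exact M.mul_mem_right _ hM.2.2
      have h5 : u - v ∈ M := this.mem_of_pow_mem _ h4
      have h6 := BlockRing.idl_of_mem h5
      push_cast at h6
      exact h6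
    have h2 : x ^ e = x' := (hef.eq_of_mul (g := x) (s := x') (u := x * x'⁻¹) (by
      rw [← hx.2.1.eq]; group) hx.2.1.symm hx.2.2 hx.1).1
    have h3 : y ^ e = y' := (hef.eq_of_mul (g := y) (s := y') (u := y * y'⁻¹) (by
      rw [← hy.2.1.eq]; group) hy.2.1.symm hy.2.2 hy.1).1
    rwa [h2, h3] at h1

end Cfsg.Agent.S4604
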