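import Cfsg.Statements.S4606
import Cfsg.Agent.S4492
import Cfsg.Agent.Lib.H76KL3

set_option autoImplicit false
set_option linter.all false
open Cfsg

namespace Cfsg.Agent.S4606

open Cfsg Cfsg.Agent.Lib Cfsg.Agent.Lib.BlockRing Cfsg.Agent.Lib.BlockGA Cfsg.Agent.Lib.BlockIdem
open Cfsg.Agent.Lib.BlockOsima Cfsg.Agent.Lib.BlockPair Cfsg.Agent.Lib.BlockFong Cfsg.Agent.Lib.BlockCover
open Cfsg.Agent.Lib.CharBasic Cfsg.Agent.Lib.BlockCount Cfsg.Agent.Lib.BlockSecond Cfsg.Agent.Lib.Clifford
open Cfsg.Agent.Lib.CliffordCorr Cfsg.Agent.Lib.H76KL Cfsg.Agent.Lib.BlockInd Cfsg.Agent.Lib.BlockDefect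
open scoped ComplexConjugate Classical

universe u

variable {p : ℕ} {M : Ideal AlgInt}

/-- full defect: a member of degree prime to `p` -/
theorem exists_deg {G : Type u} [Group G] [Finite G] (hM : IsPModular p M) {B : Set (IrrCharacter G)} (hB : IsPBlock M B)
    {P : Sylow p G} (hP : IsDefectGroup p M B (P : Subgroup G)) :
    ∃ χ ∈ B, ¬ p ∣ charDegree (χ : G → ℂ) := by
  haveI : Fact p.Prime := ⟨hM.1⟩
  haveI := isPrime hM
  obtain ⟨χ, hχ, h0⟩ := BlockDeg.exists_height_zero (p := p) (isPBlock_nonempty hB)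
  refine ⟨χ, hχ, ?_⟩
  have h1 := BlockDeg.blockDefect_add hχ h0
  have h2 := defectGroup_card hM hB hP
  rw [P.card_eq_multiplicity] at h2
  have h3 := Nat.pow_right_injective hM.1.two_le h2
  have h4 : BlockDeg.nuDeg p (χ : G → ℂ) = 0 := by
    have h5 : (Nat.card G).factorization p = blockDefect p B := h3
    omega
  intro hd
  have h5 : (charDegree (χ : G → ℂ)).factorization p = 0 := h4
  have h6 := (hM.1.dvd_iff_one_le_factorization (BlockDeg.charDegree_pos χ.2).ne').1 hd
  omega

theorem psolv (n : ℕ) : ∀ (G : Type u) [Group G] [Finite G], Nat.card G = n → ∀ (hM : IsPModular p M), IsPSolvable p G →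
    ∀ B : Set (IrrCharacter G), IsPBlock M B → Nat.card B = blockRank p B + 1 →
    ∀ D : Subgroup G, IsDefectGroup p M B D → IsElementaryAbelian p D := by
  induction n using Nat.strong_induction_on with
  | _ n ih =>
    intro G _ _ hn hM hS B hB hk D hD
    haveI hMp := isPrime hM
    haveI : Fact p.Prime := ⟨hM.1⟩
    have := Fintype.ofFinite G
    set N := pPrimeCore p G with hNdef
    have hNn : N.Normal := inferInstance
    have := Fintype.ofFinite N
    have hNp : (Nat.card N).Coprime p := Cores.coprime_card_pPrimeCore p G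
    obtain ⟨χ, hχ⟩ := isPBlock_nonempty hB
    obtain ⟨θ, hθ⟩ := exists_constituent_res N χ
    have hf0 : (Nat.card N).factorization p = 0 := by
      apply Nat.factorization_eq_zero_of_not_dvd
      intro h
      have := Nat.dvd_gcd h (dvd_refl p)
      rw [hNp] at this
      exact hM.1.one_lt.ne' (Nat.dvd_one.1 this)
    have hsing : blockOf M (θ : N → ℂ) = {θ} := BlockDefZero.blockOf_eq_singleton hM θ (by
      rw [hf0]
      have h1 := BlockDeg.nuDeg_le_card (p := p) θ.2
      rw [hf0] at h1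
      exact Nat.le_zero.1 h1)
    have hbl : IsPBlock M ({θ} : Set (IrrCharacter N)) := ⟨θ, hsing.symm⟩
    set T := inertia N (θ : N → ℂ) with hTdef
    have := Fintype.ofFinite T
    have hNT : N ≤ T := le_inertia θ.2.isClassFunction
    have hT : ∀ g : G, g ∈ T ↔ ∀ θ₁ ∈ ({θ} : Set (IrrCharacter N)), ∀ θ' : IrrCharacter N,
        (∀ n : N, (θ' : N → ℂ) n = (θ₁ : N → ℂ) ⟨g * n * g⁻¹, hNn.conj_mem n n.2 g⟩) → θ' ∈ ({θ} : Set (IrrCharacter N)) := by
      intro g
      rw [hTdef, mem_inertia]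
      constructor
      · intro hg θ₁ hθ₁ θ' h'
        rw [Set.mem_singleton_iff] at hθ₁ ⊢
        subst hθ₁
        apply Subtype.ext
        rw [← hg]
        funext n
        exact h' n
      · intro h
        have h1 := h θ rfl ⟨cj N g (θ : N → ℂ), isIrrCharacter_cj θ.2 g⟩ (fun n => rfl)
        rw [Set.mem_singleton_iff] at h1
        exact congrArg Subtype.val h1
    have hχθ : classInner (fun n : N => (χ : G → ℂ) n) (θ : N → ℂ) ≠ 0 := hθ
    have hs : Stab ({θ} : Set (IrrCharacter N)) T := stab_of hbl hT hNT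
    have hlb : LocA M (eB ({θ} : Set (IrrCharacter N))) := locA_eB hbl
    obtain ⟨-, -, h3⟩ := Cfsg.Agent.S4435.result p M hM N _ hbl T hT hNT
    obtain ⟨B', hB', hcov, hind⟩ := h3 B hB ⟨χ, hχ, θ, rfl, hχθ⟩
    obtain ⟨ψ₀, hψ₀, hover⟩ := hcov
    obtain ⟨χ₀, hχ₀, hind', hmem⟩ := fong_main hs (unionOfBlocks_of_isPBlock hbl) hB' hψ₀ hover
    have e1 := induced_unique hind' hind
    rw [e1] at hmem
    have hover' : ∀ ψ ∈ B', Over hs.hNT ({θ} : Set (IrrCharacter N)) ψ := fun ψ hψ =>
      over_all hs hlb (sameBlock_of_mem hB' hψ₀ hψ) hover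
    have hirr : ∀ ψ ∈ B', IsIrrCharacter G (indFun T (ψ : T → ℂ)) := fun ψ hψ => ind_irr hs (hover' ψ hψ)
    have hinj : ∀ ψ ∈ B', ∀ ψ' ∈ B', indFun T (ψ : T → ℂ) = indFun T (ψ' : T → ℂ) → ψ = ψ' := by
      intro ψ hψ ψ' hψ' h
      apply ind_inj hs (hover' ψ hψ) (hover' ψ' hψ') (χ := ⟨_, hirr ψ hψ⟩) rfl
      show classInner (indFun T (ψ' : T → ℂ)) (indFun T (ψ : T → ℂ)) ≠ 0
      rw [h, (hirr ψ' hψ').classInner_self]
      exact one_ne_zero
    have hrank : blockRank p B = blockRank p B' := rank_ind hM T hB' hmem hirr hinj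
    have hcard : Nat.card B = Nat.card B' := by
      symm
      apply Nat.card_congr
      refine Equiv.ofBijective (fun ψ : B' => (⟨⟨_, hirr ψ.1 ψ.2⟩, (hmem _).2 ⟨ψ.1, ψ.2, rfl⟩⟩ : B)) ⟨?_, ?_⟩
      · intro ψ ψ' h
        apply Subtype.ext
        exact hinj ψ.1 ψ.2 ψ'.1 ψ'.2 (congrArg (fun x : B => ((x : IrrCharacter G) : G → ℂ)) h)
      · rintro ⟨χ', hχ'⟩
        obtain ⟨ψ, hψ, h⟩ := (hmem χ').1 hχ'
        exact ⟨⟨ψ, hψ⟩, Subtype.ext (Subtype.ext h.symm)⟩
    by_cases hTtop : T = ⊤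
    · -- `θ` is invariant
      obtain ⟨B₁, hB₁, h4, h5, h6⟩ := Cfsg.Agent.S4492.result p M hM hS N hNdef θ (by
        intro g n
        have h7 : g ∈ T := by rw [hTtop]; exact Subgroup.mem_top g
        rw [hTdef, mem_inertia'] at h7
        exact h7 n)
      have h7 : χ ∈ B₁ := (h4 χ).2 hχθ
      have h8 : B₁ = B := block_eq_of_mem hB₁ hB h7 hχ
      subst h8
      obtain ⟨P, rfl⟩ := h6 D hD
      obtain ⟨χ', hχ', hdeg⟩ := exists_deg hM hB hD
      apply elementary_of_psolvable hS _ P.isPGroup'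
      intro x y hx hx1 hy hy1
      exact conj_of_card hM hB hk.le (fun x hx => exists_induced hM hB hχ' hdeg hx) hx hx1 hy hy1
    · have hlt : Nat.card T < n := by
        rw [← hn]
        refine lt_of_le_of_ne (Subgroup.card_le_card_group T) (fun h => hTtop ?_)
        exact Subgroup.eq_top_of_card_eq T h
      obtain ⟨D', hD'⟩ := exists_defectGroup hM hB'
      have h4 := ih _ hlt T rfl hM (H32PSolv.isPSolvable_subgroup hS T) B' hB' (by rw [← hcard, ← hrank]; exact hk) D' hD'
      have h5 := (Cfsg.Agent.S4436.result p M hM N _ hbl T hT hNT B' hB' ⟨ψ₀, hψ₀, hover⟩ B hind).1 D' hD'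
      obtain ⟨x, hx⟩ := defectGroup_conj hM hB h5 hD
      rw [hx]
      exact isElementaryAbelian_conj (isElementaryAbelian_map h4) x

theorem result {G : Type*} [Group G] [Finite G] (p : ℕ) [Fact p.Prime] (M : Ideal Cfsg.AlgInt) (hM : Cfsg.IsPModular p M) (B : Set (Cfsg.IrrCharacter G)) (hB : Cfsg.IsPBlock M B) (D : Subgroup G) (hD : Cfsg.IsDefectGroup p M B D)
    (hk : Nat.card B = Cfsg.blockRank p B + 1) (hB0 : B = Cfsg.principalBlock M G ∨ Cfsg.IsPSolvable p G) :
    Cfsg.IsElementaryAbelian p D := by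
  haveI hMp := isPrime hM
  rcases hB0 with rfl | hS
  · -- the principal block
    have hex : ∀ x : G, (∃ k : ℕ, orderOf x = p ^ k) → IsInducedBlock M (Subgroup.centralizer ({x} : Set G))
        (principalBlock M _) (principalBlock M G) := by
      rintro x ⟨k, hk⟩
      have h1 := BlockTop.induced_principal_set (G := G) hM hk
      have h2 : principalBlock M ↥(Subgroup.centralizer ({x} : Set G)) ∈
          ({principalBlock M ↥(Subgroup.centralizer ({x} : Set G))} : Set (Set (IrrCharacter ↥(Subgroup.centralizer ({x} : Set G))))) := rfl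
      rw [← h1] at h2
      exact h2
    have hconj : ∀ x y : G, (∃ k : ℕ, orderOf x = p ^ k) → x ≠ 1 → (∃ k : ℕ, orderOf y = p ^ k) → y ≠ 1 →
        IsConj x y := fun x y hx hx1 hy hy1 => conj_of_card hM hB hk.le (fun x hx => ⟨_, hex x hx⟩) hx hx1 hy hy1
    have hnil : ∀ x : G, (∃ k : ℕ, orderOf x = p ^ k) → x ≠ 1 → ∃ N : Subgroup (Subgroup.centralizer ({x} : Set G)),
        N.Normal ∧ ¬ p ∣ Nat.card N ∧ ∀ g, ¬ p ∣ orderOf g → g ∈ N := by
      intro x hx hx1
      apply exists_complement_of_rank hM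
      have h1 := one_le hM hB hx hx1
      have h2 := lsum_pos hM.1 (hex x hx)
      have h3 := BlockSmall.blockRank_pos (p := p) hM.1 (isPBlock_nonempty (hex x hx).1)
      omega
    -- the defect group is a Sylow subgroup
    have htriv := BlockThird.triv_mem (M := M) (G := G)
    have hcardD := defectGroup_card hM hB hD
    have hdef : blockDefect p (principalBlock M G) = (Nat.card G).factorization p := by
      obtain ⟨χ, hχ, h0⟩ := BlockDeg.exists_height_zero (p := p) (isPBlock_nonempty hB)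
      have h1 := BlockDeg.blockDefect_add hχ h0
      have h2 := BlockDeg.card_le_blockDefect_add (p := p) htriv
      have h3 : BlockDeg.nuDeg p (BlockThird.triv G : G → ℂ) = 0 := by
        show (charDegree (BlockThird.triv G : G → ℂ)).factorization p = 0
        have h4 := BlockDeg.charDegree_cast_irr (BlockThird.triv G)
        have h5 : ((charDegree (BlockThird.triv G : G → ℂ) : ℕ) : ℂ) = 1 := h4
        have h6 : charDegree (BlockThird.triv G : G → ℂ) = 1 := by exact_mod_cast h5
        rw [h6]; simp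
      omega
    have hDp : IsPGroup p D := IsPGroup.of_card hcardD
    have hDi : ¬ p ∣ D.index := by
      have h1 := D.card_mul_index
      intro h
      have h2 : p ^ ((Nat.card G).factorization p + 1) ∣ Nat.card G := by
        rw [pow_succ, ← hdef, ← hcardD, ← h1]
        exact Nat.mul_dvd_mul_left _ h
      have h3 := (Nat.Prime.pow_dvd_iff_le_factorization hM.1 Nat.card_pos.ne').1 h2
      omega
    exact elementary_of_conj (hDp.toSylow hDi) hconj hnil
  · exact psolv (Nat.card G) G rfl hM hS B hB hk D hD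

end Cfsg.Agent.S4606
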