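import Cfsg.Statements.S4613
import Cfsg.Agent.Lib.LieFin
import Cfsg.Agent.S2363

set_option autoImplicit false
open Cfsg

namespace Cfsg.Agent.S4613

/-- Let G be a finite simple group of Lie type in characteristic p and α an automorphism of G of order prime to p that fixes some Sylow p-subgroup of G elementwise. Then α is the identity. -/
theorem result {G : Type*} [Group G] [Finite G] [IsSimpleGroup G] (p : ℕ) [Fact p.Prime] (hG : Cfsg.IsLieTypeChar p G) (α : MulAut G) (hα : ¬ p ∣ orderOf α) (U : Sylow p G) (hfix : ∀ x ∈ (U : Subgroup G), α x = x) : α = 1 := by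
  have hp : p.Prime := Fact.out
  have hpG : p ∣ Nat.card G := by
    by_contra hd
    have h1 := (Cfsg.Agent.S2363.result p hp hG).1
    rw [Nat.factorization_eq_zero_of_not_dvd hd, mul_zero, pow_zero] at h1
    have h2 : 0 < Nat.card G := Nat.card_pos
    omega
  obtain ⟨P, V, h⟩ := Cfsg.Agent.Lib.LieFin.lie_fin p hG
  exact (Cfsg.Agent.Lib.WBN.ofFin' h).sylow hpG α hα U hfix

end Cfsg.Agent.S4613
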