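import Cfsg.Statements.S4619

set_option autoImplicit false
open scoped Pointwise
open Cfsg

namespace Cfsg.Agent.S4619

theorem result {G : Type*} [Group G] [Finite G] (p : ℕ) [Fact p.Prime] (P : Sylow p G) (hTI : (∀ g : G, g ∉ Subgroup.normalizer ((P : Subgroup G) : Set G) → (P : Subgroup G) ⊓ (MulAut.conj g • (P : Subgroup G)) = ⊥)) (Q : Subgroup G) (hQ : Q ≤ (P : Subgroup G)) (hQ1 : Q ≠ ⊥) :
    Subgroup.normalizer (Q : Set G) ≤ Subgroup.normalizer ((P : Subgroup G) : Set G) ∧
      ∀ g : G, MulAut.conj g • Q ≤ (P : Subgroup G) → g ∈ Subgroup.normalizer ((P : Subgroup G) : Set G) := by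
  have key : ∀ g : G, MulAut.conj g • Q ≤ (P : Subgroup G) → g ∈ Subgroup.normalizer ((P : Subgroup G) : Set G) := by
    intro g hg
    by_contra hgn
    have h := hTI g hgn
    apply hQ1
    have h1 : MulAut.conj g • Q ≤ (P : Subgroup G) ⊓ (MulAut.conj g • (P : Subgroup G)) := by
      refine le_inf hg ?_
      exact Subgroup.pointwise_smul_le_pointwise_smul_iff.mpr hQ
    rw [h, le_bot_iff] at h1
    have h2 : Q = (MulAut.conj g)⁻¹ • (⊥ : Subgroup G) := by
      rw [← h1, inv_smul_smul]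
    rw [h2, Subgroup.smul_bot]
  refine ⟨?_, key⟩
  intro g hg
  apply key
  have : MulAut.conj g • Q = Q := by
    ext x
    rw [Subgroup.mem_pointwise_smul_iff_inv_smul_mem]
    rw [Subgroup.mem_normalizer_iff] at hg
    rw [hg]
    simp [MulAut.smul_def, mul_assoc]
  rw [this]
  exact hQ

end Cfsg.Agent.S4619
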