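import Cfsg.Statements.S4620
import Mathlib

set_option autoImplicit false
open scoped Pointwise
open Cfsg

namespace Cfsg.Agent.S4620

section aux
variable {H : Type*} [Group H] [Finite H] {p : ℕ} [Fact p.Prime]

theorem mem_conj_smul (g x : H) (K : Subgroup H) : x ∈ MulAut.conj g • K ↔ g⁻¹ * x * g ∈ K := by
  rw [Subgroup.mem_pointwise_smul_iff_inv_smul_mem]
  simp [MulAut.smul_def, mul_assoc]

/-- P ∩ N is a Sylow subgroup of the normal subgroup N. -/
theorem sylow_inf (P : Sylow p H) (N : Subgroup H) [N.Normal] :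
    ∃ S : Sylow p N, (S : Subgroup N) = (P : Subgroup H).subgroupOf N := by
  obtain ⟨Q0⟩ := (inferInstance : Nonempty (Sylow p N))
  obtain ⟨Q, hQ⟩ := Q0.exists_comap_subtype_eq
  obtain ⟨g, hg⟩ := MulAction.exists_smul_eq H Q P
  refine ⟨(MulAut.conjNormal g : MulAut N) • Q0, ?_⟩
  ext x
  rw [Sylow.pointwise_smul_def, Subgroup.mem_pointwise_smul_iff_inv_smul_mem, ← hQ,
    Subgroup.mem_subgroupOf, ← hg, Sylow.coe_subgroup_smul, mem_conj_smul]
  simp only [Subgroup.mem_comap, Subgroup.coe_subtype, MulAut.smul_def]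
  have : (((MulAut.conjNormal g : MulAut N)⁻¹ x : N) : H) = g⁻¹ * x * g := by
    rw [← map_inv, MulAut.conjNormal_apply]; simp
  rw [this]

theorem inf_ne_bot (P : Sylow p H) (N : Subgroup H) [N.Normal] (hN : p ∣ Nat.card N) :
    (P : Subgroup H) ⊓ N ≠ ⊥ := by
  obtain ⟨S, hS⟩ := sylow_inf P N
  intro h
  have h1 := S.ne_bot_of_dvd_card hN
  apply h1
  rw [hS, Subgroup.subgroupOf_eq_bot]
  rwa [disjoint_iff]

theorem le_pCore (N : Subgroup H) (hN : N.Normal) (h : IsPGroup p N) : N ≤ Cfsg.pCore p H :=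
  le_sSup ⟨hN, h⟩

theorem le_pPrimeCore (N : Subgroup H) (hN : N.Normal) (h : (Nat.card N).Coprime p) :
    N ≤ Cfsg.pPrimeCore p H :=
  le_sSup ⟨hN, h⟩

/-- there is a largest normal p'-subgroup -/
theorem card_pPrimeCore : (Nat.card (Cfsg.pPrimeCore p H)).Coprime p := by
  classical
  have hfin : ({N : Subgroup H | N.Normal ∧ (Nat.card N).Coprime p}).Finite := Set.toFinite _
  obtain ⟨M, hM⟩ := hfin.exists_maximal ⟨⊥, inferInstance, by simp⟩
  have hM' : M = Cfsg.pPrimeCore p H := by
    apply le_antisymm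
    · exact le_sSup hM.prop
    · apply sSup_le
      rintro L ⟨hL, hLc⟩
      have hMn : M.Normal := hM.prop.1
      have h1 : M ⊔ L ∈ {N : Subgroup H | N.Normal ∧ (Nat.card N).Coprime p} := by
        refine ⟨Subgroup.sup_normal M L, ?_⟩
        have h2 : Nat.card (M ⊔ L : Subgroup H) ∣ Nat.card M * Nat.card L := by
          have h3 := Subgroup.card_mul_index (M.subgroupOf (M ⊔ L))
          have h4 : Nat.card (M.subgroupOf (M ⊔ L)) = Nat.card M :=
            Nat.card_congr (Subgroup.subgroupOfEquivOfLe le_sup_left).toEquiv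
          have h5 : (M.subgroupOf (M ⊔ L)).index = M.relIndex L := by
            have := Subgroup.relIndex_sup_left L M
            exact this
          rw [← h3, h4, h5]
          exact Nat.mul_dvd_mul_left _ (Subgroup.relIndex_dvd_card M L)
        exact Nat.Coprime.coprime_dvd_left h2 (Nat.Coprime.mul_left hM.prop.2 hLc)
      have := hM.le_of_ge h1 le_sup_left
      exact le_sup_right.trans this
  rw [← hM']
  exact hM.prop.2

theorem normal_pPrimeCore (q : ℕ) (K : Type*) [Group K] : (Cfsg.pPrimeCore q K).Characteristic := by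
  rw [Subgroup.characteristic_iff_map_le]
  intro φ
  unfold Cfsg.pPrimeCore
  rw [sSup_eq_iSup, Subgroup.map_iSup]
  apply iSup_le
  intro N
  rw [Subgroup.map_iSup]
  apply iSup_le
  rintro ⟨hN, hNc⟩
  refine le_trans ?_ (le_iSup₂ (N.map φ.toMonoidHom) ⟨?_, ?_⟩)
  · exact le_rfl
  · exact hN.map _ φ.surjective
  · rw [← Nat.card_congr (N.equivMapOfInjective φ.toMonoidHom φ.injective).toEquiv]
    exact hNc

end aux

theorem result {H : Type*} [Group H] [Finite H] (p : ℕ) [Fact p.Prime] (hOp : Cfsg.pCore p H = ⊥) (hOp' : Cfsg.pPrimeCore p H = ⊥) (P : Sylow p H) (hP1 : (P : Subgroup H) ≠ ⊥)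
    (hTI : ∀ g : H, g ∉ Subgroup.normalizer ((P : Subgroup H) : Set H) → (P : Subgroup H) ⊓ (MulAut.conj g • (P : Subgroup H)) = ⊥) :
    ∃ N : Subgroup H, N.Normal ∧ N ≠ ⊥ ∧ (∀ K : Subgroup H, K.Normal → K ≠ ⊥ → N ≤ K) ∧
      IsSimpleGroup N ∧ ¬ IsMulCommutative N ∧ Subgroup.centralizer (N : Set H) = ⊥ ∧
      ∀ Q : Sylow p N, (Q : Subgroup N) ≠ ⊥ ∧
        ∀ n : N, n ∉ Subgroup.normalizer ((Q : Subgroup N) : Set N) → (Q : Subgroup N) ⊓ (MulAut.conj n • (Q : Subgroup N)) = ⊥ := by
  classical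
  have hp : p.Prime := Fact.out
  -- Lemma C
  have lemC : ∀ K L : Subgroup H, (P : Subgroup H) ⊓ K ≠ ⊥ → L ≤ Subgroup.centralizer (K : Set H) →
      L ≤ Subgroup.normalizer ((P : Subgroup H) : Set H) := by
    intro K L hK hL l hl
    by_contra hn
    have h1 := hTI l hn
    apply hK
    rw [eq_bot_iff, ← h1]
    intro x hx
    refine Subgroup.mem_inf.mpr ⟨hx.1, ?_⟩
    rw [mem_conj_smul]
    have h2 := hL hl
    rw [Subgroup.mem_centralizer_iff] at h2
    have h3 := h2 x hx.2
    rw [mul_assoc, h3]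
    rw [inv_mul_cancel_left]
    exact hx.1
  -- Lemma D
  have ppos : ∀ N : Subgroup H, N.Normal → N ≠ ⊥ → p ∣ Nat.card N := by
    intro N hN hN1
    by_contra hnd
    apply hN1
    rw [eq_bot_iff, ← hOp']
    exact le_pPrimeCore N hN (((Nat.Prime.coprime_iff_not_dvd hp).mpr hnd).symm)
  have lemD : ∀ N : Subgroup H, N.Normal → N ≠ ⊥ → ¬ N ≤ Subgroup.normalizer ((P : Subgroup H) : Set H) := by
    intro N hN hN1 hle
    obtain ⟨S, hS⟩ := sylow_inf P N
    have hSn : (S : Subgroup N).Normal := by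
      constructor
      intro x hx g
      rw [hS, Subgroup.mem_subgroupOf] at hx ⊢
      have := hle g.2
      rw [Subgroup.mem_normalizer_iff] at this
      exact (this _).mp hx
    have hSc : (S : Subgroup N).Characteristic := S.characteristic_of_normal hSn
    have hSm : ((S : Subgroup N).map N.subtype).Normal := ConjAct.normal_of_characteristic_of_normal
    have hSp : IsPGroup p ((S : Subgroup N).map N.subtype) := S.isPGroup'.map _
    have h1 := le_pCore _ hSm hSp
    rw [hOp, le_bot_iff, Subgroup.map_eq_bot_iff_of_injective _ N.subtype_injective] at h1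
    exact S.ne_bot_of_dvd_card (ppos N hN hN1) h1
  -- minimal normal subgroup
  have hfin : ({N : Subgroup H | N.Normal ∧ N ≠ ⊥}).Finite := Set.toFinite _
  have htop : (⊤ : Subgroup H) ∈ {N : Subgroup H | N.Normal ∧ N ≠ ⊥} := by
    refine ⟨inferInstance, ?_⟩
    intro h
    apply hP1
    rw [eq_bot_iff, ← h]
    exact le_top
  obtain ⟨N, hNmin⟩ := hfin.exists_minimal ⟨⊤, htop⟩
  have hNn : N.Normal := hNmin.prop.1
  have hN1 : N ≠ ⊥ := hNmin.prop.2
  have hPN : (P : Subgroup H) ⊓ N ≠ ⊥ := inf_ne_bot P N (ppos N hNn hN1)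
  have huniq : ∀ K : Subgroup H, K.Normal → K ≠ ⊥ → N ≤ K := by
    intro K hK hK1
    by_cases h : N ⊓ K = ⊥
    · exfalso
      apply lemD K hK hK1
      apply lemC N K hPN
      intro k hk
      rw [Subgroup.mem_centralizer_iff]
      intro n hn
      exact (Subgroup.commute_of_normal_of_disjoint N K hNn hK (disjoint_iff.mpr h) n k hn hk)
    · have : N ⊓ K ∈ {N : Subgroup H | N.Normal ∧ N ≠ ⊥} := ⟨Subgroup.normal_inf_normal N K, h⟩
      exact (hNmin.le_of_le this inf_le_left).trans inf_le_right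
  have hcent : Subgroup.centralizer (N : Set H) = ⊥ := by
    by_contra hc
    have h1 : (Subgroup.centralizer (N : Set H)).Normal := inferInstance
    have h2 := huniq _ h1 hc
    exact lemD N hNn hN1 (lemC N N hPN h2)
  have hnab : ¬ IsMulCommutative N := by
    intro h
    apply hN1
    rw [eq_bot_iff, ← hcent]
    exact Subgroup.le_centralizer_iff_isMulCommutative.mpr h
  -- all Sylow subgroups are TI
  have hTI' : ∀ (P' : Sylow p H) (g : H), g ∉ Subgroup.normalizer ((P' : Subgroup H) : Set H) →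
      (P' : Subgroup H) ⊓ (MulAut.conj g • (P' : Subgroup H)) = ⊥ := by
    intro P' g hg
    obtain ⟨a, ha⟩ := MulAction.exists_smul_eq H P P'
    have hP' : ∀ x : H, x ∈ (P' : Subgroup H) ↔ a⁻¹ * x * a ∈ (P : Subgroup H) := by
      intro x
      rw [← ha, Sylow.coe_subgroup_smul, mem_conj_smul]
    have h1 : a⁻¹ * g * a ∉ Subgroup.normalizer ((P : Subgroup H) : Set H) := by
      intro h
      apply hg
      rw [Subgroup.mem_normalizer_iff] at h ⊢
      intro x
      rw [hP', hP']
      have := h (a⁻¹ * x * a)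
      rw [this]
      have e : a⁻¹ * g * a * (a⁻¹ * x * a) * (a⁻¹ * g * a)⁻¹ = a⁻¹ * (g * x * g⁻¹) * a := by group
      rw [e]
    have h2 := hTI _ h1
    rw [eq_bot_iff]
    intro x hx
    obtain ⟨hx1, hx2⟩ := Subgroup.mem_inf.mp hx
    have h3 : a⁻¹ * x * a ∈ (P : Subgroup H) ⊓ (MulAut.conj (a⁻¹ * g * a) • (P : Subgroup H)) := by
      refine Subgroup.mem_inf.mpr ⟨(hP' x).mp hx1, ?_⟩
      rw [mem_conj_smul]
      rw [mem_conj_smul] at hx2
      have := (hP' _).mp hx2
      have e : (a⁻¹ * g * a)⁻¹ * (a⁻¹ * x * a) * (a⁻¹ * g * a) = a⁻¹ * (g⁻¹ * x * g) * a := by group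
      rw [e]; exact this
    rw [h2, Subgroup.mem_bot] at h3
    rw [Subgroup.mem_bot]
    have : x = a * (a⁻¹ * x * a) * a⁻¹ := by group
    rw [this, h3]; group
  -- simplicity
  have hntN : Nontrivial N := (Subgroup.nontrivial_iff_ne_bot N).mpr hN1
  have hsimple : ∀ K0 : Subgroup N, K0.Normal → K0 = ⊥ ∨ K0 = ⊤ := by
    intro K0 hK0
    by_contra hcon
    push Not at hcon
    obtain ⟨hK01, hK0t⟩ := hcon
    obtain ⟨K, hKmin⟩ := (Set.toFinite {L : Subgroup N | L.Normal ∧ L ≠ ⊥ ∧ L ≤ K0}).exists_minimal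
      ⟨K0, hK0, hK01, le_rfl⟩
    have hKn : K.Normal := hKmin.prop.1
    have hK1 : K ≠ ⊥ := hKmin.prop.2.1
    have hKK0 : K ≤ K0 := hKmin.prop.2.2
    have hKt : K ≠ ⊤ := by
      rintro rfl
      exact hK0t (top_le_iff.mp hKK0)
    have hKmin' : ∀ L : Subgroup N, L.Normal → L ≠ ⊥ → L ≤ K → K ≤ L := by
      intro L hL hL1 hLK
      exact hKmin.le_of_le ⟨hL, hL1, hLK.trans hKK0⟩ hLK
    -- p divides |K|
    have hpK : p ∣ Nat.card K := by
      by_contra hnd
      have h1 : K ≤ Cfsg.pPrimeCore p N :=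
        le_pPrimeCore K hKn (((Nat.Prime.coprime_iff_not_dvd hp).mpr hnd).symm)
      have h2 : (Cfsg.pPrimeCore p N).Characteristic := normal_pPrimeCore p N
      have h3 : ((Cfsg.pPrimeCore p N).map N.subtype).Normal := ConjAct.normal_of_characteristic_of_normal
      have h4 : (Cfsg.pPrimeCore p N).map N.subtype ≤ Cfsg.pPrimeCore p H := by
        apply le_pPrimeCore _ h3
        rw [← Nat.card_congr ((Cfsg.pPrimeCore p N).equivMapOfInjective N.subtype N.subtype_injective).toEquiv]
        exact card_pPrimeCore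
      rw [hOp', le_bot_iff, Subgroup.map_eq_bot_iff_of_injective _ N.subtype_injective] at h4
      rw [h4, le_bot_iff] at h1
      exact hK1 h1
    -- conjugates of K
    let c : H → Subgroup N := fun h => (MulAut.conjNormal h : MulAut N) • K
    have hc_mem : ∀ (h : H) (x : N), x ∈ c h ↔ (MulAut.conjNormal h⁻¹ : MulAut N) x ∈ K := by
      intro h x
      show x ∈ (MulAut.conjNormal h : MulAut N) • K ↔ _
      rw [Subgroup.mem_pointwise_smul_iff_inv_smul_mem, MulAut.smul_def, map_inv]
    have hcn : ∀ h, (c h).Normal := by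
      intro h
      constructor
      intro x hx g
      rw [hc_mem] at hx ⊢
      have := hKn.conj_mem _ hx ((MulAut.conjNormal h⁻¹ : MulAut N) g)
      simpa only [map_mul, map_inv] using this
    have hccard : ∀ h, Nat.card (c h) = Nat.card K := by
      intro h
      exact (Nat.card_congr (Subgroup.equivSMul (MulAut.conjNormal h : MulAut N) K).toEquiv).symm
    obtain ⟨S, hS⟩ := sylow_inf P N
    have hPc : ∀ h, (P : Subgroup H) ⊓ (c h).map N.subtype ≠ ⊥ := by
      intro h
      have := hcn h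
      have h1 : (S : Subgroup N) ⊓ c h ≠ ⊥ := inf_ne_bot S (c h) (by rw [hccard]; exact hpK)
      intro h2
      apply h1
      rw [eq_bot_iff]
      intro x hx
      obtain ⟨hx1, hx2⟩ := Subgroup.mem_inf.mp hx
      rw [hS, Subgroup.mem_subgroupOf] at hx1
      have : (x : H) ∈ (P : Subgroup H) ⊓ (c h).map N.subtype := ⟨hx1, ⟨x, hx2, rfl⟩⟩
      rw [h2, Subgroup.mem_bot] at this
      rw [Subgroup.mem_bot]
      exact Subtype.ext this
    -- distinct conjugates commute
    have hmin_c : ∀ h, ∀ L : Subgroup N, L.Normal → L ≠ ⊥ → L ≤ c h → c h ≤ L := by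
      intro h L hL hL1 hLc
      have h1 : ((MulAut.conjNormal h⁻¹ : MulAut N) • L) ≤ K := by
        intro x hx
        rw [Subgroup.mem_pointwise_smul_iff_inv_smul_mem, MulAut.smul_def, ← map_inv, inv_inv] at hx
        have := (hc_mem _ _).mp (hLc hx)
        rw [← MulAut.mul_apply, ← map_mul] at this
        simpa using this
      have h2 : ((MulAut.conjNormal h⁻¹ : MulAut N) • L).Normal := by
        constructor
        intro x hx g
        rw [Subgroup.mem_pointwise_smul_iff_inv_smul_mem, MulAut.smul_def] at hx ⊢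
        have := hL.conj_mem _ hx ((MulAut.conjNormal h⁻¹ : MulAut N)⁻¹ g)
        simpa only [map_mul, map_inv] using this
      have h3 : ((MulAut.conjNormal h⁻¹ : MulAut N) • L) ≠ ⊥ := by
        intro h3
        apply hL1
        have : L = (MulAut.conjNormal h⁻¹ : MulAut N)⁻¹ • (⊥ : Subgroup N) := by
          rw [← h3, inv_smul_smul]
        rw [this, Subgroup.smul_bot]
      have h4 := hKmin' _ h2 h3 h1
      intro x hx
      have h5 := h4 ((hc_mem _ _).mp hx)
      rw [Subgroup.mem_pointwise_smul_iff_inv_smul_mem, MulAut.smul_def, ← MulAut.mul_apply] at h5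
      simpa using h5
    have hcomm : ∀ a b : H, c a ≠ c b → c a ⊓ c b = ⊥ := by
      intro a b hab
      by_contra hne
      apply hab
      have hna := hcn a
      have hnb := hcn b
      have h1 := hmin_c a _ (Subgroup.normal_inf_normal (c a) (c b)) hne inf_le_left
      have h2 := hmin_c b _ (Subgroup.normal_inf_normal (c a) (c b)) hne inf_le_right
      exact le_antisymm (h1.trans inf_le_right) (h2.trans inf_le_left)
    -- some conjugate is different
    have hex : ∀ a : H, ∃ b : H, c b ≠ c a := by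
      intro a
      by_contra hall
      push Not at hall
      have hinv : ∀ b, c b = K := by
        intro b
        have h1 : c 1 = K := by
          show (MulAut.conjNormal (1:H) : MulAut N) • K = K
          rw [map_one, one_smul]
        rw [hall b, ← hall 1, h1]
      have hKH : (K.map N.subtype).Normal := by
        constructor
        rintro _ ⟨x, hx, rfl⟩ g
        refine ⟨MulAut.conjNormal g x, ?_, ?_⟩
        · rw [SetLike.mem_coe, ← hinv g, hc_mem, ← MulAut.mul_apply, ← map_mul]
          simpa using hx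
        · simp
      have h2 : K.map N.subtype ≠ ⊥ := by
        intro h
        rw [Subgroup.map_eq_bot_iff_of_injective _ N.subtype_injective] at h
        exact hK1 h
      have h3 := huniq _ hKH h2
      apply hKt
      rw [eq_top_iff]
      intro x _
      obtain ⟨y, hy, hxy⟩ := h3 x.2
      have : y = x := Subtype.ext hxy
      rw [← this]; exact hy
    -- all conjugates lie in the normalizer of P
    have hcP : ∀ a : H, (c a).map N.subtype ≤ Subgroup.normalizer ((P : Subgroup H) : Set H) := by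
      intro a
      obtain ⟨b, hb⟩ := hex a
      apply lemC ((c b).map N.subtype) _ (hPc b)
      rintro _ ⟨x, hx, rfl⟩
      rw [Subgroup.mem_centralizer_iff]
      rintro _ ⟨y, hy, rfl⟩
      have h1 := Subgroup.commute_of_normal_of_disjoint (c b) (c a) (hcn b) (hcn a)
        (disjoint_iff.mpr (hcomm b a hb)) y x hy hx
      have := congrArg (Subtype.val) h1.eq
      simpa using this
    have hNle : N ≤ Subgroup.normalClosure ((K.map N.subtype : Subgroup H) : Set H) := by
      apply huniq
      · infer_instance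
      · intro h
        apply hK1
        rw [← Subgroup.map_eq_bot_iff_of_injective _ N.subtype_injective, eq_bot_iff, ← h]
        exact Subgroup.subset_normalClosure
    apply lemD N hNn hN1
    refine hNle.trans ?_
    rw [Subgroup.normalClosure, Subgroup.closure_le]
    intro x hx
    rw [Group.mem_conjugatesOfSet_iff] at hx
    obtain ⟨y, ⟨k, hk, rfl⟩, hy⟩ := hx
    obtain ⟨a, ha⟩ := isConj_iff.mp hy
    apply hcP a
    refine ⟨MulAut.conjNormal a k, ?_, ?_⟩
    · rw [SetLike.mem_coe, hc_mem, ← MulAut.mul_apply, ← map_mul]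
      simpa using hk
    · rw [← ha]; simp
  refine ⟨N, hNn, hN1, huniq, ⟨fun K hK => hsimple K hK⟩, hnab, hcent, ?_⟩
  intro Q
  refine ⟨Q.ne_bot_of_dvd_card (ppos N hNn hN1), ?_⟩
  intro n hn
  obtain ⟨P', hP'⟩ := Q.exists_comap_subtype_eq
  have hQm : ∀ x : N, x ∈ (Q : Subgroup N) ↔ (x : H) ∈ (P' : Subgroup H) := by
    intro x
    rw [← hP']
    rfl
  have h1 : (n : H) ∉ Subgroup.normalizer ((P' : Subgroup H) : Set H) := by
    intro h
    apply hn
    rw [Subgroup.mem_normalizer_iff] at h ⊢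
    intro x
    rw [hQm, hQm]
    have := h (x : H)
    simpa using this
  have h2 := hTI' P' _ h1
  rw [eq_bot_iff]
  intro x hx
  obtain ⟨hx1, hx2⟩ := Subgroup.mem_inf.mp hx
  have h3 : (x : H) ∈ (P' : Subgroup H) ⊓ (MulAut.conj (n : H) • (P' : Subgroup H)) := by
    refine Subgroup.mem_inf.mpr ⟨(hQm _).mp hx1, ?_⟩
    rw [mem_conj_smul]
    rw [mem_conj_smul] at hx2
    have := (hQm _).mp hx2
    simpa using this
  rw [h2, Subgroup.mem_bot] at h3
  rw [Subgroup.mem_bot]
  exact Subtype.ext h3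

end Cfsg.Agent.S4620
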