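import Cfsg.Statements.S4634
import Cfsg.Agent.Lib.AbFrob2
import Cfsg.Agent.Lib.AbFrob3
import Cfsg.Agent.S4633
-- import your own Cfsg.Agent.* helpers here

set_option autoImplicit false
open Cfsg

namespace Cfsg.Agent.S4634

open Cfsg Cfsg.Agent.Lib Cfsg.Agent.Lib.BlockAlg Cfsg.Agent.Lib.AbSec Cfsg.Agent.Lib.AbCount

/-- the kernel is normal -/
theorem normal_of {F : Type*} [Group F] [Finite F] {p e : ℕ} [hp : Fact p.Prime] (he : e ∣ p - 1)
    (Q : Subgroup F) (hQp : IsPGroup p Q) (hidx : Q.index = e) : Q.Normal := by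
  have hp1 : 0 < p - 1 := Nat.sub_pos_of_lt hp.out.one_lt
  have hep : e < p := by
    have := Nat.le_of_dvd hp1 he
    omega
  have he0 : 0 < e := Nat.pos_of_dvd_of_pos he hp1
  have hnd : ¬ p ∣ Q.index := by
    rw [hidx]
    exact Nat.not_dvd_of_pos_of_lt he0 hep
  obtain ⟨S, hS⟩ := hQp.exists_le_sylow
  have hSQ : (S : Subgroup F) = Q := by
    apply le_antisymm _ hS
    have h1 : Q.relIndex S ∣ Q.index := Subgroup.relIndex_dvd_index_of_le hS
    have h2 : ∃ k, Q.relIndex S = p ^ k := by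
      have := S.isPGroup'.index (Q.subgroupOf S)
      exact this
    obtain ⟨k, hk⟩ := h2
    rcases Nat.eq_zero_or_pos k with h0 | h0
    · rw [h0, pow_zero] at hk
      exact Subgroup.relIndex_eq_one.1 hk
    · exfalso
      apply hnd
      exact (dvd_pow_self p h0.ne').trans (hk ▸ h1)
  have h3 : Nat.card (Sylow p F) ∣ (S : Subgroup F).index := Sylow.card_dvd_index S
  have h4 := card_sylow_modEq_one p F
  rw [hSQ, hidx] at h3
  have h5 : Nat.card (Sylow p F) < p := lt_of_le_of_lt (Nat.le_of_dvd he0 h3) hep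
  have h6 : Nat.card (Sylow p F) = 1 := by
    have h7 : Nat.card (Sylow p F) % p = 1 % p := h4
    rwa [Nat.mod_eq_of_lt h5, Nat.mod_eq_of_lt hp.out.one_lt] at h7
  haveI : Subsingleton (Sylow p F) := (Nat.card_eq_one_iff_unique.1 h6).1
  rw [← hSQ]
  exact Sylow.normal_of_subsingleton S


/-- Let B be a block of the finite group G relative to a maximal ideal M of the algebraic integers containing the prime p, with a nontrivial cyclic defect group P, let c be a block of C_G(P) inducing B, T the stabilizer of c in N_G(P) and e the index of C_G(P) in T. Let F be any finite group of order #P · e having a cyclic subgroup Q of order #P that is its own centralizer (F is then the semidirect product of Q by a cyclic group of order e acting faithfully). Then there is a perfect isometry from the set of all irreducible characters of F onto B whose signs agree on all the characters of F that do not contain Q in their kernel. -/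
theorem result {G : Type*} [Group G] [Finite G] (p : ℕ) [Fact p.Prime] (M : Ideal Cfsg.AlgInt) (hM : Cfsg.IsPModular p M) (B : Set (Cfsg.IrrCharacter G)) (hB : Cfsg.IsPBlock M B) (P : Subgroup G) (hPD : Cfsg.IsDefectGroup p M B P) (hP1 : P ≠ ⊥) (hcyc : IsCyclic P) (c : Set (Cfsg.IrrCharacter (Subgroup.centralizer (P : Set G)))) (hc : Cfsg.IsInducedBlock M (Subgroup.centralizer (P : Set G)) c B) (T : Subgroup G) (hT : ∀ g : G, g ∈ T ↔ (g ∈ Subgroup.normalizer (P : Set G) ∧ Cfsg.StabilizesBlock (Subgroup.centralizer (P : Set G)) c g)) (e : ℕ) (he : (Subgroup.centralizer (P : Set G)).relIndex T = e) (F : Type*) [Group F] [Finite F] (hF : Nat.card F = Nat.card P * e) (Q : Subgroup F) (hQ : IsCyclic Q) (hQcard : Nat.card Q = Nat.card P) (hQC : Subgroup.centralizer (Q : Set F) = Q) : ∃ (I : Cfsg.IrrCharacter F → Cfsg.IrrCharacter G) (ε : Cfsg.IrrCharacter F → ℤ), Cfsg.IsPerfectIsometry p M (Set.univ : Set (Cfsg.IrrCharacter F)) B I ε ∧ ∀ η η' : Cfsg.IrrCharacter F, (∃ x ∈ Q, (η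 : F → ℂ) x ≠ (η : F → ℂ) 1) → (∃ x ∈ Q, (η' : F → ℂ) x ≠ (η' : F → ℂ) 1) → ε η = ε η' := by
  have hMm : M.IsMaximal := hM.2.1
  have hch := charP_Kf hM
  have habP : ∀ x ∈ P, ∀ y ∈ P, x * y = y * x := by
    intro x hx y hy
    have hcomm : ∀ a b : P, a * b = b * a := fun a b => (IsCyclic.isMulCommutative (α := P)).is_comm.comm a b
    exact congrArg Subtype.val (hcomm (⟨x, hx⟩ : P) ⟨y, hy⟩)
  have habQ : ∀ x ∈ Q, ∀ y ∈ Q, x * y = y * x := by
    intro x hx y hy
    have hcomm : ∀ a b : Q, a * b = b * a := fun a b => (IsCyclic.isMulCommutative (α := Q)).is_comm.comm a b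
    exact congrArg Subtype.val (hcomm (⟨x, hx⟩ : Q) ⟨y, hy⟩)
  have h := AbMax.of hB hPD habP hc
  have hTe := mem_T_iff hc.1 hT
  have hei : ei P (BlockAlg.bid M _ c) = e := by rw [← he, ei, TT, ← hTe]
  have hfree := free_of_cyclic h hP1 hcyc
  have hn : ((Subgroup.centralizer (P : Set G)).subgroupOf T).Normal := by
    rw [hTe]
    exact Cn_normal h
  have hdvd : e ∣ p - 1 := by
    rw [← he]
    exact (S4633.result p M hM B hB P hPD hP1 hcyc c hc T hT).2.1
  have hP0 : 0 < Nat.card P := Nat.card_pos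
  have hidx : Q.index = e := by
    have h1 := Q.card_mul_index
    rw [hF, hQcard] at h1
    exact Nat.eq_of_mul_eq_mul_left hP0 h1
  obtain ⟨a, ha⟩ := IsPGroup.iff_card.1 h.pair.1
  have hQp : IsPGroup p Q := IsPGroup.of_card (n := a) (by rw [hQcard, ha])
  haveI hQn : Q.Normal := normal_of hdvd Q hQp hidx
  have hp1 : 0 < p - 1 := Nat.sub_pos_of_lt (Fact.out : p.Prime).one_lt
  have he0 : 0 < e := Nat.pos_of_dvd_of_pos hdvd hp1
  have hnd : ¬ p ∣ Q.index := by
    rw [hidx]
    apply Nat.not_dvd_of_pos_of_lt he0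
    have := Nat.le_of_dvd hp1 hdvd
    omega
  obtain ⟨c', h'⟩ := frob_block (M := M) hM hQp hQC hnd habQ
  have hQ1 : Q ≠ ⊥ := by
    intro h0
    rw [h0, Subgroup.card_bot] at hQcard
    exact hP1 (Subgroup.eq_bot_of_card_eq P hQcard.symm)
  have hfree' := free_of_cyclic h' hQ1 hQ
  have hei' : ei Q c' = e := by rw [frob_ei hM hQp hQC h', hidx]
  obtain ⟨m, hm1, hem, hkl, -, -⟩ := free_main hM hfree
  obtain ⟨m', hm1', hem', hkl', -, -⟩ := free_main hM hfree'
  rw [hei] at hem
  rw [hei', hQcard, ← hem] at hem'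
  have hmm : m' = m := Nat.eq_of_mul_eq_mul_left he0 hem'
  rw [rank_cyclic hM h hP1 hcyc, hei] at hkl
  rw [rank_cyclic hM h' hQ1 hQ, hei', hmm] at hkl'
  have φ : Q ≃* P := mulEquivOfCyclicCardEq hQcard
  obtain ⟨I, δ, hI, s, hs⟩ := exists_perfect hM hfree (by rw [hkl, hei, ← hem, Nat.mul_add]) hfree'
    (frob_rho hM hQp hQC hfree') (by rw [hkl', hei', hQcard, ← hem, Nat.mul_add]) (by rw [hkl', hkl]) φ
    (match_of_cyclic h h' hcyc φ (by rw [hei, hei']) (by rw [hei]; exact hdvd))
  exact ⟨I, δ, hI, fun η η' hη hη' => frob_sign hM hQp hQC hfree' hs hη hη'⟩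

end Cfsg.Agent.S4634
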