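import Cfsg.Statements.S4635
import Cfsg.Agent.Lib.AbPI6
import Cfsg.Agent.Lib.AbCyc1
import Cfsg.Agent.S4636
-- import your own Cfsg.Agent.* helpers here

set_option autoImplicit false
open Cfsg

namespace Cfsg.Agent.S4635

open Cfsg Cfsg.Agent.Lib Cfsg.Agent.Lib.BlockAlg Cfsg.Agent.Lib.AbSec Cfsg.Agent.Lib.AbCount


/-- Let B be a block of the finite group G relative to a maximal ideal M of the algebraic integers containing the prime p, with a nontrivial cyclic defect group P; let Z be the subgroup of order p of P and H = N_G(Z), which contains N_G(P). Let c be the block of H with defect group P that induces B. Then B and c contain the same number of irreducible characters, have the same p-regular rank, and there is a perfect isometry from c onto B. -/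
theorem result {G : Type*} [Group G] [Finite G] (p : ℕ) [Fact p.Prime] (M : Ideal Cfsg.AlgInt) (hM : Cfsg.IsPModular p M) (B : Set (Cfsg.IrrCharacter G)) (hB : Cfsg.IsPBlock M B) (P : Subgroup G) (hPD : Cfsg.IsDefectGroup p M B P) (hP1 : P ≠ ⊥) (hcyc : IsCyclic P) (Z : Subgroup G) (hZ : Z ≤ P) (hZcard : Nat.card Z = p) (H : Subgroup G) (hH : H = Subgroup.normalizer (Z : Set G)) (c : Set (Cfsg.IrrCharacter H)) (hcD : Cfsg.IsDefectGroup p M c (P.subgroupOf H)) (hc : Cfsg.IsInducedBlock M H c B) : Nat.card c = Nat.card B ∧ Cfsg.blockRank p c = Cfsg.blockRank p B ∧ ∃ (I : Cfsg.IrrCharacter H → Cfsg.IrrCharacter G) (ε : Cfsg.IrrCharacter H → ℤ), Cfsg.IsPerfectIsometry p M c B I ε := by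
  have hMm : M.IsMaximal := hM.2.1
  have hch := charP_Kf hM
  have hab : ∀ x ∈ P, ∀ y ∈ P, x * y = y * x := by
    intro x hx y hy
    have hcomm : ∀ a b : P, a * b = b * a := fun a b => (IsCyclic.isMulCommutative (α := P)).is_comm.comm a b
    exact congrArg Subtype.val (hcomm (⟨x, hx⟩ : P) ⟨y, hy⟩)
  obtain ⟨c0, h0⟩ := H76Nil.exists_abMax hB hPD hab
  have hNH : Subgroup.normalizer (P : Set G) ≤ H := by
    rw [hH]
    exact (S4636.result p P h0.pair.1 hP1 hcyc Z hZ hZcard).2 P le_rfl hP1
  obtain ⟨c1, h1, h2⟩ := exists_corr hNH hB hPD hab hc hcD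
  have hPH : P ≤ H := Subgroup.le_normalizer.trans hNH
  have hfree := free_of_cyclic h1 hP1 hcyc
  have e := Subgroup.subgroupOfEquivOfLe hPH
  have hcyc' : IsCyclic (P.subgroupOf H) := isCyclic_of_surjective e.symm e.symm.surjective
  have hP1' := (corr_data hNH hfree h2).1.ne
  exact corr_perfect hM hNH hfree h2 (rank_cyclic hM h1 hP1 hcyc) (rank_cyclic hM h2 hP1' hcyc')

end Cfsg.Agent.S4635
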