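import Cfsg.Statements.S4644
import Cfsg.Agent.Lib.AbWat3
-- import your own Cfsg.Agent.* helpers here

set_option autoImplicit false
open Cfsg

namespace Cfsg.Agent.S4644

open Cfsg Cfsg.Agent.Lib Cfsg.Agent.Lib.BlockAlg Cfsg.Agent.Lib.AbSec Cfsg.Agent.Lib.AbCount Cfsg.Agent.Lib.PairCount

theorem pr_of' {p : ℕ} [hp : Fact p.Prime] {M : Ideal AlgInt} [hMm : M.IsMaximal] [hchar : CharP (Kf M) p]
    {G : Type*} [Group G] [Finite G] {B : Set (IrrCharacter G)} {P : Subgroup G}
    {c : Set (IrrCharacter (Subgroup.centralizer (P : Set G)))}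
    (hc : IsPBlock M c) (h : AbMax p B P (bid M _ c)) {Q : Subgroup G} (hQ : Q ≤ P) {H : Subgroup G}
    (hH : H = Subgroup.centralizer (Q : Set G)) {f : Set (IrrCharacter H)} (hf : IsPBlock M f)
    (hcf : IsInducedBlockIn M H (Subgroup.centralizer (P : Set G)) c f) :
    pr p P (bid M _ c) Q = bid M _ f := by
  subst hH
  exact (h.pr_of_inducedIn hc hQ hf hcf).1


/-- Let B be a block of the finite group G relative to a maximal ideal M of the algebraic integers containing the prime p, with a commutative defect group P; let c be a block of C_G(P) inducing B and T the stabilizer of c in N_G(P). Let u be an element of P fixed under conjugation by every element of T, H = C_G(u) (so C_G(P) ≤ H), and f the block of H induced by c inside H. Then B and f have the same p-regular rank and the same number of irreducible characters. -/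
theorem result {G : Type*} [Group G] [Finite G] (p : ℕ) [Fact p.Prime] (M : Ideal Cfsg.AlgInt) (hM : Cfsg.IsPModular p M) (B : Set (Cfsg.IrrCharacter G)) (hB : Cfsg.IsPBlock M B) (P : Subgroup G) (hPD : Cfsg.IsDefectGroup p M B P) (hPab : ∀ x ∈ P, ∀ y ∈ P, x * y = y * x) (c : Set (Cfsg.IrrCharacter (Subgroup.centralizer (P : Set G)))) (hc : Cfsg.IsInducedBlock M (Subgroup.centralizer (P : Set G)) c B) (T : Subgroup G) (hT : ∀ g : G, g ∈ T ↔ (g ∈ Subgroup.normalizer (P : Set G) ∧ Cfsg.StabilizesBlock (Subgroup.centralizer (P : Set G)) c g)) (u : G) (hu : u ∈ P) (huT : ∀ g ∈ T, g * u * g⁻¹ = u) (H : Subgroup G) (hH : H = Subgroup.centralizer ({u} : Set G)) (f : Set (Cfsg.IrrCharacter H)) (hf : Cfsg.IsInducedBlockIn M H (Subgroup.centralizer (P : Set G)) c f) : Cfsg.blockRank p B = Cfsg.blockRank p f ∧ Nat.card B = Nat.card f := by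
  have hMm : M.IsMaximal := hM.2.1
  have hch := charP_Kf hM
  have h := AbMax.of hB hPD hPab hc
  have hTe := mem_T_iff hc.1 hT
  have hzT : ∀ t ∈ TT P (BlockAlg.bid M _ c), t * u * t⁻¹ = u := by
    intro t ht
    apply huT
    rw [hTe]
    exact ht
  have h1 := pr_of' hc.1 h (AbCount.zpowers_le_of hu) (by rw [hH, SubsecNorm.centralizer_zpowers]) hf.2.1 hf
  subst hH
  have h2 : bu p P (BlockAlg.bid M _ c) u = f := by
    show blkOf M _ _ = f
    rw [h1, blkOf_bid hf.2.1]
  have h3 := wat_rank hM _ le_rfl h u hu hzT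
  have h4 := wat_card hM h hu hzT
  rw [lq_zpowers] at h3
  change blockRank p (bu p P (BlockAlg.bid M _ c) u) = _ at h3
  rw [h2] at h3 h4
  exact ⟨h3.symm, h4.symm⟩

end Cfsg.Agent.S4644
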