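import Cfsg.Statements.S4647
import Cfsg.Agent.Lib.Brockhaus
import Cfsg.Agent.Lib.BlockDeg

set_option autoImplicit false
open Cfsg

namespace Cfsg.Agent.S4647

/-- Let B be a block of the finite group G relative to a maximal ideal M of the algebraic integers containing the prime p, p^a the p-part of the order of G and p^d the order of a defect group D of B. If Σ_{χ ∈ B} χ(1)² = p^(2a−d) (the least possible value), then B is nilpotent. -/
theorem result {G : Type*} [Group G] [Finite G] (p : ℕ) [Fact p.Prime] (M : Ideal Cfsg.AlgInt) (hM : Cfsg.IsPModular p M) (B : Set (Cfsg.IrrCharacter G)) (hB : Cfsg.IsPBlock M B) (D : Subgroup G) (hD : Cfsg.IsDefectGroup p M B D) (a d : ℕ) (ha : (Nat.card G).factorization p = a) (hd : Nat.card D = p ^ d) (hmin : ∑ᶠ χ ∈ B, Cfsg.charDegree (χ : G → ℂ) ^ 2 = p ^ (2 * a - d)) : Cfsg.IsNilpotentBlock p M B := by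
  classical
  have hMm : M.IsMaximal := hM.2.1
  haveI := hMm.isPrime
  have hch : CharP (Cfsg.Agent.Lib.BlockAlg.Kf M) p := Cfsg.Agent.Lib.BlockAlg.charP_Kf hM
  have hDG := Cfsg.Agent.Lib.BrauerPairs.dg_of_isDefectGroup (p := p) hB hD
  rw [Cfsg.Agent.Lib.BlkNil.isNilpotentBlock_iff]
  refine ⟨hB, Cfsg.Agent.Lib.Brockhaus.nil_of_dim hB hDG ha hd ?_⟩
  have h1 := Cfsg.Agent.Lib.H76BDim.finrank_BA (M := M) hB
  have h2 : Module.finrank (Cfsg.Agent.Lib.BlockAlg.Kf M) (Cfsg.Agent.Lib.H76Alg.Cor (Cfsg.Agent.Lib.BlockAlg.Kf M)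
      (Cfsg.Agent.Lib.H76BDim.bI (M := M) hB)) = Module.finrank (Cfsg.Agent.Lib.BlockAlg.Kf M)
      (Cfsg.Agent.Lib.H76BDim.PW (Cfsg.Agent.Lib.BlockAlg.Kf M) (Cfsg.Agent.Lib.BrauerPairs.bidG M B)
        (Cfsg.Agent.Lib.BrauerPairs.bidG M B)) := rfl
  rw [← h2]
  have h3 : ((∑ᶠ χ ∈ B, Cfsg.charDegree (χ : G → ℂ) ^ 2 : ℕ) : ℂ) =
      ∑ χ : IrrCharacter G, if χ ∈ B then (χ : G → ℂ) 1 ^ 2 else 0 := by
    have h4 : (∑ᶠ χ ∈ B, Cfsg.charDegree (χ : G → ℂ) ^ 2 : ℕ) =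
        ∑ χ : IrrCharacter G, if χ ∈ B then Cfsg.charDegree (χ : G → ℂ) ^ 2 else 0 := by
      rw [← finsum_eq_sum_of_fintype]
      refine finsum_congr fun χ => ?_
      rw [finsum_eq_if]
    rw [h4, Nat.cast_sum]
    refine Finset.sum_congr rfl fun χ _ => ?_
    split_ifs
    · rw [Nat.cast_pow, Cfsg.Agent.Lib.BlockDeg.charDegree_cast χ.2.isCharacter]
    · exact Nat.cast_zero
  rw [hmin] at h3
  rw [← h3] at h1
  exact (Nat.cast_injective h1).le

end Cfsg.Agent.S4647
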