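import Cfsg.Statements.S4649
import Cfsg.Agent.Lib.AbCyc1
import Cfsg.Agent.Lib.AbNil1
import Cfsg.Agent.Lib.AbLocal
import Cfsg.Agent.Lib.H76Nil
-- import your own Cfsg.Agent.* helpers here

set_option autoImplicit false
open Cfsg

namespace Cfsg.Agent.S4649

open Cfsg Cfsg.Agent.Lib Cfsg.Agent.Lib.BlockAlg Cfsg.Agent.Lib.AbSec Cfsg.Agent.Lib.AbCount


/-- A block with cyclic defect group, of a finite group relative to a maximal ideal M of the algebraic integers containing the prime p, is nilpotent if and only if its p-regular rank is 1 (it has a unique irreducible Brauer character). -/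
theorem result {G : Type*} [Group G] [Finite G] (p : ℕ) [Fact p.Prime] (M : Ideal Cfsg.AlgInt) (hM : Cfsg.IsPModular p M) (B : Set (Cfsg.IrrCharacter G)) (hB : Cfsg.IsPBlock M B) (P : Subgroup G) (hPD : Cfsg.IsDefectGroup p M B P) (hcyc : IsCyclic P) : Cfsg.IsNilpotentBlock p M B ↔ Cfsg.blockRank p B = 1 := by
  have hMm : M.IsMaximal := hM.2.1
  have hch := charP_Kf hM
  have hab : ∀ x ∈ P, ∀ y ∈ P, x * y = y * x := by
    intro x hx y hy
    have hcomm : ∀ a b : P, a * b = b * a := fun a b => (IsCyclic.commutative (α := P)).is_comm.comm a b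
    exact congrArg Subtype.val (hcomm (⟨x, hx⟩ : P) ⟨y, hy⟩)
  obtain ⟨c, h⟩ := H76Nil.exists_abMax hB hPD hab
  constructor
  · intro hn
    exact rank_of_nilpotent hM h hn
  · intro hl
    by_cases hP1 : P = ⊥
    · apply h.isNilpotentBlock
      intro t ht
      rw [Subgroup.mem_centralizer_iff]
      intro y hy
      rw [hP1] at hy
      have : y = 1 := hy
      rw [this, one_mul, mul_one]
    · have he := rank_cyclic hM h hP1 hcyc
      rw [hl] at he
      apply h.isNilpotentBlock
      intro t ht
      have h1 : TT P c ≤ Cn P := Subgroup.relIndex_eq_one.1 he.symm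
      exact h1 ht

end Cfsg.Agent.S4649
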