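import Cfsg.Statements.S4657
import Cfsg.Agent.Lib.BrauerPairs
-- import your own Cfsg.Agent.* helpers here

set_option autoImplicit false
open Cfsg

namespace Cfsg.Agent.S4657

open Cfsg Cfsg.Agent.Lib Cfsg.Agent.Lib.BlockAlg Cfsg.Agent.Lib.BrauerPairs Cfsg.Agent.Lib.PairAlg
open Cfsg.Agent.Lib.PairMax Cfsg.Agent.Lib.BlkIdem


/-- Fix a prime p and a maximal ideal M of the algebraic integers containing p. Every Brauer pair (P, e) of the finite group G is a Brauer pair of exactly one p-block B of G. -/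
theorem result {G : Type*} [Group G] [Fintype G] (p : ℕ) [Fact p.Prime] (M : Ideal Cfsg.AlgInt) (hM : Cfsg.IsPModular p M) (P : Subgroup G) (e : Set (Cfsg.IrrCharacter (Subgroup.centralizer (P : Set G)))) (hPe : Cfsg.IsBrauerPair p M P e) : ∃! B : Set (Cfsg.IrrCharacter G), Cfsg.IsBrauerPairOf p M B P e := by
  have hMm : M.IsMaximal := hM.2.1
  have hch : CharP (Kf M) p := charP_Kf hM
  obtain ⟨B, hB, hBe⟩ := exists_blk_of_pair (p := p) hasBlocks (bpair_of hPe)
  obtain ⟨b, hb, rfl⟩ := exists_bidG hB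
  refine ⟨b, isBrauerPairOf_iff.mpr ⟨hPe, hb, hBe⟩, ?_⟩
  intro c hc
  have hc1 := isBrauerPairOf_iff.mp hc
  exact bidG_injective hc1.2.1 hb (blk_unique (bpair_of hPe) (isBlk_bidG hc1.2.1) hB hc1.2.2 hBe)

end Cfsg.Agent.S4657
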