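import Cfsg.Statements.S4702
import Cfsg.Agent.Lib.Sharply2
import Cfsg.Agent.Lib.Sharp3Pgl
import Cfsg.Agent.Lib.BRThm
import Cfsg.Agent.S0727

set_option autoImplicit false
open Cfsg

namespace Cfsg.Agent.S4702

open MulAction

theorem deg_pow {α : Type*} [Fintype α] {G : Type*} [Group G] [MulAction G α] [Finite G] (hm : 3 ≤ Fintype.card α)
    (hodd : Odd (Fintype.card α)) (h3 : IsMultiplyPretransitive G α 3)
    (hsharp : ∀ x : Fin 3 ↪ α, stabilizer G x = ⊥) : ∃ a : ℕ, 1 ≤ a ∧ Fintype.card α = 2 ^ a + 1 := by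
  classical
  obtain ⟨w⟩ : Nonempty α := Fintype.card_pos_iff.1 (by omega)
  have h2' : IsMultiplyPretransitive G α 2 := isMultiplyPretransitive_of_le (n := 3) (by norm_num)
    (by rw [Nat.card_eq_fintype_card]; exact hm)
  have htr : IsPretransitive G α := isPretransitive_of_is_two_pretransitive
  have h2 : IsMultiplyPretransitive (stabilizer G w) (SubMulAction.ofStabilizer G w) 2 :=
    (SubMulAction.ofStabilizer.isMultiplyPretransitive (a := w)).mp h3
  have hcard : Nat.card (SubMulAction.ofStabilizer G w) = Fintype.card α - 1 := by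
    rw [SubMulAction.nat_card_ofStabilizer_eq, Nat.card_eq_fintype_card]
  obtain ⟨q, hq, K, -, hK, hKc, hKq, -⟩ := Lib.Sharply2.main h2 (by
    intro g a b hab hga hgb
    apply Subtype.ext
    have h4 : (a : α) ≠ b := fun h => hab (Subtype.ext h)
    have ha : (a : α) ≠ w := a.2
    have hb : (b : α) ≠ w := b.2
    exact Lib.Sharp3Ord.sharp_of hsharp (a := w) (b := (a : α)) (c := (b : α)) ha.symm hb.symm h4 g.2
      (congrArg Subtype.val hga) (congrArg Subtype.val hgb)) (by rw [hcard]; omega)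
  rw [hcard] at hKc
  haveI : Fact (Nat.Prime 2) := ⟨Nat.prime_two⟩
  obtain ⟨k, hk⟩ := hodd
  have h2K : 2 ∣ Nat.card K := by rw [hKc, hk]; exact ⟨k, by omega⟩
  obtain ⟨x, hx⟩ := exists_prime_orderOf_dvd_card' (G := K) 2 h2K
  have hq2 : q = 2 := by
    have h4 := hKq _ x.2
    have h5 : x ^ q = 1 := Subtype.ext h4
    have h6 := orderOf_dvd_of_pow_eq_one h5
    rw [hx] at h6
    exact ((Nat.prime_dvd_prime_iff_eq Nat.prime_two hq).1 h6).symm
  subst hq2
  have hP : IsPGroup 2 K := by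
    intro y
    refine ⟨1, ?_⟩
    rw [pow_one]
    exact Subtype.ext (hKq _ y.2)
  obtain ⟨a, ha⟩ := IsPGroup.iff_card.1 hP
  rw [hKc] at ha
  refine ⟨a, ?_, by omega⟩
  by_contra h0
  have h0' : a = 0 := by omega
  rw [h0', pow_zero] at ha
  omega

/-- Let G be a triply transitive permutation group on a finite set of odd size m ≥ 3 in which only the identity fixes three or more points. Then m = 2^a + 1 for some a ≥ 1 and G is isomorphic to SL(2, 2^a). -/
theorem result {α : Type*} [Fintype α] [DecidableEq α] (hm : 3 ≤ Fintype.card α) (hodd : Odd (Fintype.card α)) (G : Subgroup (Equiv.Perm α)) (h3 : MulAction.IsMultiplyPretransitive G α 3) (hfix : ∀ g : G, 3 ≤ Nat.card (MulAction.fixedBy α g) → g = 1) : ∃ a : ℕ, 1 ≤ a ∧ Fintype.card α = 2 ^ a + 1 ∧ ∃ (F : Type) (_ : Field F) (_ : Fintype F), Fintype.card F = 2 ^ a ∧ Nonempty (G ≃* Matrix.SpecialLinearGroup (Fin 2) F) := by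
  have hsharp : ∀ x : Fin 3 ↪ α, MulAction.stabilizer G x = ⊥ := by
    intro x
    rw [Subgroup.eq_bot_iff_forall]
    intro g hg
    have hg' : g • x = x := hg
    have h7 : ∀ i, g • x i = x i := fun i => DFunLike.congr_fun hg' i
    apply hfix
    have h8 : Function.Injective (fun i : Fin 3 => (⟨x i, h7 i⟩ : MulAction.fixedBy α g)) := by
      intro i j hij
      exact x.injective (congrArg Subtype.val hij)
    have h9 := Nat.card_le_card_of_injective _ h8
    rwa [Nat.card_eq_fintype_card, Fintype.card_fin] at h9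
  obtain ⟨a, ha, hm'⟩ := deg_pow (G := G) hm hodd h3 hsharp
  refine ⟨a, ha, hm', ?_⟩
  obtain ⟨F, i1, i2, hF, ⟨e⟩⟩ := Cfsg.Agent.S0727.result ha hm' G h3 hsharp
  obtain ⟨e1⟩ := Lib.Sharp3Pgl.psl_equiv_pgl ha hF
  obtain ⟨e2⟩ := Lib.BRThm.psl_eq_sl (F := F) (Lib.BRThm.two_eq_zero (by omega) hF)
  exact ⟨F, i1, i2, hF, ⟨(e.trans e1.symm).trans e2⟩⟩

end Cfsg.Agent.S4702
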