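import Cfsg.Statements.S4733
import Cfsg.Agent.Lib.BlockDefZero

set_option autoImplicit false
open Cfsg

namespace Cfsg.Agent.S4733

open Cfsg.Agent.Lib.DefectZero Cfsg.Agent.Lib Cfsg.Agent.Lib.BlockRing Cfsg.Agent.Lib.CharBasic
  Cfsg.Agent.Lib.BlockIdem Cfsg.Agent.Lib.BlockGA Cfsg.Agent.Lib.BlockDefZero
open scoped ComplexConjugate

/-- If the restrictions to the `p`-regular elements are independent, the block has defect zero. -/
theorem defect_zero_of_rank {G : Type*} [Group G] [Finite G] (p : ℕ) [Fact p.Prime]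
    (M : Ideal Cfsg.AlgInt) (hM : Cfsg.IsPModular p M) (B : Set (Cfsg.IrrCharacter G))
    (hB : Cfsg.IsPBlock M B) (h : Nat.card B = blockRank p B) : blockDefect p B = 0 := by
  classical
  have := Fintype.ofFinite B
  have hrange : Set.range (fun χ : B => pRegularPart p ((χ : IrrCharacter G) : G → ℂ)) =
      (fun χ : IrrCharacter G => pRegularPart p (χ : G → ℂ)) '' B := by
    ext f; simp
  have hlin : LinearIndependent ℂ (fun χ : B => pRegularPart p ((χ : IrrCharacter G) : G → ℂ)) := by
    rw [linearIndependent_iff_card_eq_finrank_span, hrange, ← Nat.card_eq_fintype_card, h]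
    rfl
  rw [blockDefect_eq_zero_iff hM hB]
  intro χ hχ
  apply defect_zero_of_vanish p χ.2
  intro y hy
  rw [Fintype.linearIndependent_iff] at hlin
  have h1 := hlin (fun χ => conj (((χ : IrrCharacter G) : G → ℂ) y)) (by
    ext x
    simp only [Finset.sum_apply, Pi.smul_apply, smul_eq_mul, Pi.zero_apply, pRegularPart]
    by_cases hx : IsPRegular p x
    · simp only [if_pos hx]
      have h2 := BlockOsima.weak_orthogonality hM hB hx hy
      rw [finsum_mem_eq_finite_toFinset_sum _ (Set.toFinite B)] at h2
      rw [← h2]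
      apply Finset.sum_bij (fun (χ : B) _ => (χ : IrrCharacter G))
      · intro a _; simp
      · intro a _ b _ h; exact Subtype.ext h
      · intro b hb
        exact ⟨⟨b, by simpa using hb⟩, Finset.mem_univ _, rfl⟩
      · intro a _; ring
    · simp [if_neg hx]) ⟨χ, hχ⟩
  have h2 : conj ((χ : G → ℂ) y) = 0 := h1
  exact (map_eq_zero _).mp h2

/-- Let p be a prime, M a maximal ideal of the algebraic integers containing p, and B a p-block of the finite group G with k irreducible characters and p-regular rank l (the number of irreducible Brauer characters). Then l ≤ k, and the following are equivalent: B has defect 0; k = l = 1; k = l. -/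
theorem result {G : Type*} [Group G] [Finite G] (p : ℕ) [Fact p.Prime] (M : Ideal Cfsg.AlgInt) (hM : Cfsg.IsPModular p M) (B : Set (Cfsg.IrrCharacter G)) (hB : Cfsg.IsPBlock M B) : Cfsg.blockRank p B ≤ Nat.card B ∧ (Cfsg.blockDefect p B = 0 ↔ (Nat.card B = 1 ∧ Cfsg.blockRank p B = 1)) ∧ (Cfsg.blockDefect p B = 0 ↔ Nat.card B = Cfsg.blockRank p B) := by
  classical
  have hMp := isPrime hM
  have hle : blockRank p B ≤ Nat.card B := by
    have := Fintype.ofFinite ((fun χ : IrrCharacter G => pRegularPart p (χ : G → ℂ)) '' B)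
    refine (finrank_span_le_card
      ((fun χ : IrrCharacter G => pRegularPart p (χ : G → ℂ)) '' B)).trans ?_
    rw [Set.toFinset_card, ← Nat.card_eq_fintype_card]
    have := Fintype.ofFinite B
    rw [Nat.card_coe_set_eq, Nat.card_coe_set_eq]
    exact Set.ncard_image_le (Set.toFinite B)
  have h1 : blockDefect p B = 0 → (Nat.card B = 1 ∧ blockRank p B = 1) := by
    intro h0
    rw [blockDefect_eq_zero_iff hM hB] at h0
    obtain ⟨χ, hχ⟩ := isPBlock_nonempty hB
    have h2 := eq_blockOf hB hχ
    rw [blockOf_eq_singleton hM χ (h0 χ hχ)] at h2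
    refine ⟨by rw [h2]; simp, ?_⟩
    rw [blockRank, h2, Set.image_singleton]
    apply finrank_span_singleton
    intro h3
    have h4 := congrFun h3 1
    simp only [pRegularPart, Pi.zero_apply] at h4
    rw [if_pos] at h4
    · exact χ.2.one_ne_zero h4
    · rw [IsPRegular, orderOf_one]
      exact fun h => (Fact.out : p.Prime).one_lt.not_ge (Nat.le_of_dvd one_pos h)
  refine ⟨hle, ⟨h1, fun h => ?_⟩, ⟨fun h => ?_, fun h => ?_⟩⟩
  · exact defect_zero_of_rank p M hM B hB (by rw [h.1, h.2])
  · rw [(h1 h).1, (h1 h).2]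
  · exact defect_zero_of_rank p M hM B hB h

end Cfsg.Agent.S4733
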