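import Cfsg.Statements.S4735
import Cfsg.Agent.Lib.BlockPow
import Cfsg.Agent.Lib.BlockInfl
import Cfsg.Agent.Lib.CharCentral
import Cfsg.Agent.Lib.Cores

set_option autoImplicit false
open Cfsg

namespace Cfsg.Agent.S4735

open Cfsg.Agent.Lib Cfsg.Agent.Lib.CharBasic Cfsg.Agent.Lib.BlockPow
open scoped ComplexConjugate

section
variable {G : Type*} [Group G] [Finite G]

open scoped Classical in
omit [Finite G] in
theorem finsum_mem_eq' [Finite G] {β : Type*} [AddCommMonoid β] (B : Set (IrrCharacter G)) (f : IrrCharacter G → β) :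
    ∑ᶠ χ ∈ B, f χ = ∑ χ : IrrCharacter G, if χ ∈ B then f χ else 0 := by
  rw [finsum_mem_def, finsum_eq_sum_of_fintype]
  rfl

theorem conj_isCharacter {χ : G → ℂ} (hχ : IsCharacter G χ) : IsCharacter G (fun g => conj (χ g)) :=
  CharGalois.isCharacter_map hχ (starRingEnd ℂ)

theorem isInt (M : Ideal AlgInt) (x : G) : ∃ z : ℤ,
    ∑ᶠ χ ∈ principalBlock M G, Complex.normSq ((χ : G → ℂ) x) = (z : ℝ) := by
  classical
  set Θ : G → ℂ := ∑ χ : IrrCharacter G, if χ ∈ principalBlock M G then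
    ((χ : G → ℂ) * fun g => conj ((χ : G → ℂ) g)) else 0 with hΘ
  have hchar : IsCharacter G Θ := by
    apply isCharacter_sum
    intro χ _
    split_ifs
    · exact χ.2.isCharacter.mul (conj_isCharacter χ.2.isCharacter)
    · exact isCharacter_zero
  have hval : ∀ g : G, Θ g = ((∑ᶠ χ ∈ principalBlock M G, Complex.normSq ((χ : G → ℂ) g) : ℝ) : ℂ) := by
    intro g
    rw [finsum_mem_eq', hΘ, Finset.sum_apply]
    push_cast
    apply Finset.sum_congr rfl
    intro χ _
    split_ifs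
    · rw [Pi.mul_apply, Complex.mul_conj]
    · simp
  have hpow : ∀ k : ℕ, k.Coprime (Nat.card G) → Θ (x ^ k) = Θ x := by
    intro k hk
    rw [hval, hval]
    congr 1
    symm
    have := finsum_mem_eq_of_bijOn (f := fun χ : IrrCharacter G => Complex.normSq ((χ : G → ℂ) (x ^ k)))
      (g := fun χ : IrrCharacter G => Complex.normSq ((χ : G → ℂ) x)) (powIrr hk)
      (bijOn_principal (M := M) hk) (fun χ _ => rfl)
    exact this.symm
  obtain ⟨q, hq⟩ := CharGalois.exists_rat_of_pow hchar x hpow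
  have hint : IsIntegral ℤ (Θ x) := by
    obtain ⟨n, ρ, hρ⟩ := hchar
    rw [← hρ]
    exact CharValues.isIntegral_character ρ x
  obtain ⟨z, hz⟩ := CharCentral.exists_int_of_isIntegral_rat hint q hq
  refine ⟨z, ?_⟩
  rw [hval] at hz
  exact_mod_cast hz

theorem bijOn_infl {p : ℕ} {M : Ideal AlgInt} (hM : IsPModular p M) (N : Subgroup G) [N.Normal]
    (hN : ¬ p ∣ Nat.card N) :
    Set.BijOn (fun ψ : IrrCharacter (G ⧸ N) =>
      (⟨fun x : G => (ψ : G ⧸ N → ℂ) (x : G ⧸ N), ψ.2.inflate N⟩ : IrrCharacter G))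
      (principalBlock M (G ⧸ N)) (principalBlock M G) := by
  have := BlockRing.isPrime hM
  refine ⟨fun ψ hψ => BlockInfl.inflate_mem_principal N hψ, ?_, ?_⟩
  · intro ψ _ ψ' _ h
    apply Subtype.ext
    funext y
    obtain ⟨g, rfl⟩ := QuotientGroup.mk_surjective y
    exact congrFun (congrArg Subtype.val h) g
  · intro χ hχ
    obtain ⟨ψ, hψ, h⟩ := BlockInfl.exists_deflate hM N hN hχ
    exact ⟨ψ, hψ, Subtype.ext (funext fun g => (h g).symm)⟩

end

/-- Let p be a prime, M a maximal ideal of the algebraic integers containing p, G a finite group, H = O_p'(G) and Ḡ = G/H. For x ∈ G write λ(G, x) for the sum of |χ(x)|^2 over the irreducible characters χ in the principal p-block of G. Then λ(G, x) is a positive integer, λ(G, x) = λ(Ḡ, x̄) where x̄ is the image of x, and λ(G, x) ≤ #C_Ḡ(x̄). Moreover λ(G, 1) = [G : H] if and only if the principal block is the only p-block of Ḡ. -/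
theorem result {G : Type*} [Group G] [Finite G] (p : ℕ) [Fact p.Prime] (M : Ideal Cfsg.AlgInt) (hM : Cfsg.IsPModular p M) (x : G) : (∃ n : ℕ, 0 < n ∧ ∑ᶠ χ ∈ Cfsg.principalBlock M G, Complex.normSq ((χ : G → ℂ) x) = n) ∧ ∑ᶠ χ ∈ Cfsg.principalBlock M G, Complex.normSq ((χ : G → ℂ) x) = ∑ᶠ ψ ∈ Cfsg.principalBlock M (G ⧸ Cfsg.pPrimeCore p G), Complex.normSq ((ψ : G ⧸ Cfsg.pPrimeCore p G → ℂ) (QuotientGroup.mk x)) ∧ ∑ᶠ χ ∈ Cfsg.principalBlock M G, Complex.normSq ((χ : G → ℂ) x) ≤ (Nat.card ↥(Subgroup.centralizer ({(QuotientGroup.mk x : G ⧸ Cfsg.pPrimeCore p G)} : Set (G ⧸ Cfsg.pPrimeCore p G))) : ℝ) ∧ ((∑ᶠ χ ∈ Cfsg.principalBlock M G, Cfsg.charDegree (χ : G → ℂ) ^ 2) = (Cfsg.pPrimeCore p G).index ↔ ∀ B : Set (Cfsg.IrrCharacter (G ⧸ Cfsg.pPrimeCore p G)), Cfsg.IsPBlock M B → B = Cfsg.principalBlock M (G ⧸ Cfsg.pPrimeCore p G)) := by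
  classical
  have hp : p.Prime := Fact.out
  have := BlockRing.isPrime hM
  set N := pPrimeCore p G with hN
  have hNc : (Nat.card N).Coprime p := Cores.coprime_card_pPrimeCore p G
  have hNp : ¬ p ∣ Nat.card N := fun h => by
    have h2 : p ∣ 1 := by rw [← hNc]; exact Nat.dvd_gcd h dvd_rfl
    exact hp.one_lt.ne' (Nat.dvd_one.mp h2)
  have hbij := bijOn_infl hM N hNp
  have heq : ∑ᶠ χ ∈ principalBlock M G, Complex.normSq ((χ : G → ℂ) x) =
      ∑ᶠ ψ ∈ principalBlock M (G ⧸ N), Complex.normSq ((ψ : G ⧸ N → ℂ) (QuotientGroup.mk x)) :=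
    (finsum_mem_eq_of_bijOn _ hbij (fun ψ _ => rfl)).symm
  refine ⟨?_, heq, ?_, ?_⟩
  · obtain ⟨z, hz⟩ := isInt M x
    have hpos : (1 : ℝ) ≤ ∑ᶠ χ ∈ principalBlock M G, Complex.normSq ((χ : G → ℂ) x) := by
      rw [finsum_mem_eq']
      have h1 := Finset.single_le_sum (f := fun χ : IrrCharacter G =>
        if χ ∈ principalBlock M G then Complex.normSq ((χ : G → ℂ) x) else 0)
        (fun χ _ => by
          split_ifs
          · exact Complex.normSq_nonneg _
          · exact le_rfl) (Finset.mem_univ (BlockThird.triv G))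
      rw [if_pos BlockThird.triv_mem, BlockThird.coe_triv, Complex.normSq_one] at h1
      exact h1
    rw [hz] at hpos ⊢
    have hz1 : (1 : ℤ) ≤ z := by exact_mod_cast hpos
    refine ⟨z.toNat, by omega, ?_⟩
    have : ((z.toNat : ℤ) : ℝ) = (z : ℝ) := by
      rw [Int.toNat_of_nonneg (by omega)]
    exact_mod_cast this.symm
  · rw [heq, finsum_mem_eq']
    have h1 := column_orthogonality (G := G ⧸ N) (QuotientGroup.mk x) (QuotientGroup.mk x)
    rw [if_pos (IsConj.refl _)] at h1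
    have h2 : ∑ ψ : IrrCharacter (G ⧸ N), Complex.normSq ((ψ : G ⧸ N → ℂ) (QuotientGroup.mk x)) =
        (Nat.card (Subgroup.centralizer ({(QuotientGroup.mk x : G ⧸ N)} : Set (G ⧸ N))) : ℝ) := by
      have h3 : ((∑ ψ : IrrCharacter (G ⧸ N), Complex.normSq ((ψ : G ⧸ N → ℂ) (QuotientGroup.mk x)) : ℝ) : ℂ) =
          ((Nat.card (Subgroup.centralizer ({(QuotientGroup.mk x : G ⧸ N)} : Set (G ⧸ N))) : ℝ) : ℂ) := by
        push_cast
        rw [← h1]
        apply Finset.sum_congr rfl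
        intro ψ _
        rw [Complex.mul_conj]
      exact_mod_cast h3
    rw [← h2]
    apply Finset.sum_le_sum
    intro ψ _
    split_ifs
    · exact le_rfl
    · exact Complex.normSq_nonneg _
  · have heq2 : ∑ᶠ χ ∈ principalBlock M G, charDegree (χ : G → ℂ) ^ 2 =
        ∑ᶠ ψ ∈ principalBlock M (G ⧸ N), charDegree (ψ : G ⧸ N → ℂ) ^ 2 :=
      (finsum_mem_eq_of_bijOn _ hbij (fun ψ _ => rfl)).symm
    have htot : ∑ ψ : IrrCharacter (G ⧸ N), charDegree (ψ : G ⧸ N → ℂ) ^ 2 = N.index := by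
      have h1 := sum_degree_sq (G := G ⧸ N)
      have h2 : ((∑ ψ : IrrCharacter (G ⧸ N), charDegree (ψ : G ⧸ N → ℂ) ^ 2 : ℕ) : ℂ) =
          ((N.index : ℕ) : ℂ) := by
        rw [Subgroup.index_eq_card, ← h1]
        push_cast
        apply Finset.sum_congr rfl
        intro ψ _
        rw [BlockDeg.charDegree_cast_irr]
      exact_mod_cast h2
    rw [heq2, finsum_mem_eq', ← htot]
    have hle : ∀ ψ ∈ (Finset.univ : Finset (IrrCharacter (G ⧸ N))),
        (if ψ ∈ principalBlock M (G ⧸ N) then charDegree (ψ : G ⧸ N → ℂ) ^ 2 else 0) ≤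
          charDegree (ψ : G ⧸ N → ℂ) ^ 2 := by
      intro ψ _
      split_ifs
      · exact le_rfl
      · exact Nat.zero_le _
    rw [Finset.sum_eq_sum_iff_of_le hle]
    constructor
    · intro h B hB
      obtain ⟨ψ, hψ⟩ := BlockIdem.isPBlock_nonempty hB
      have h1 := h ψ (Finset.mem_univ _)
      have h2 : ψ ∈ principalBlock M (G ⧸ N) := by
        by_contra hne
        rw [if_neg hne] at h1
        have h3 := BlockDeg.charDegree_pos ψ.2
        have h4 : 0 < charDegree (ψ : G ⧸ N → ℂ) ^ 2 := pow_pos h3 2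
        omega
      exact BlockIdem.block_eq_of_mem hB BlockThird.isPBlock_principal hψ h2
    · intro h ψ _
      rw [if_pos]
      rw [← h _ (BlockIdem.isPBlock_blockOf ψ)]
      exact BlockIdem.mem_blockOf_self ψ

end Cfsg.Agent.S4735
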