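import Cfsg.Statements.S4741
import Cfsg.Agent.Lib.BlockDet

set_option autoImplicit false
open Cfsg

namespace Cfsg.Agent.S4741

open Cfsg.Agent.Lib Cfsg.Agent.Lib.CharBasic Cfsg.Agent.Lib.DefectZero
open Cfsg.Agent.Lib.BlockRing Cfsg.Agent.Lib.BlockGA Cfsg.Agent.Lib.BlockIdem
open Cfsg.Agent.Lib.BlockDefect Cfsg.Agent.Lib.BlockDet
open scoped ComplexConjugate

/-- Let p be a prime, M a maximal ideal of the algebraic integers containing p, and D a subgroup of the finite group G. Let x₁, …, x_r be pairwise non-conjugate elements of G such that D is a Sylow p-subgroup of the centralizer of each xᵢ, and such that for any conjugates g of some xᵢ and h of some xⱼ the element g h⁻¹ is never a non-identity p-element. Then there are r distinct p-blocks B₁, …, B_r of G, each having D as a defect group, such that for every choice of characters χᵢ ∈ Bᵢ of height zero the determinant of the r × r matrix (χᵢ(xⱼ)) does not lie in the local ideal at M. -/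
theorem result {G : Type*} [Group G] [Finite G] (p : ℕ) [Fact p.Prime] (M : Ideal Cfsg.AlgInt) (hM : Cfsg.IsPModular p M) (D : Subgroup G) {r : ℕ} (x : Fin r → G) (hx : ∀ i j : Fin r, IsConj (x i) (x j) → i = j) (hD : ∀ i : Fin r, ∃ S : Sylow p ↥(Subgroup.centralizer ({x i} : Set G)), (S : Subgroup ↥(Subgroup.centralizer ({x i} : Set G))).map (Subgroup.centralizer ({x i} : Set G)).subtype = D) (hsep : ∀ i j : Fin r, ∀ g h : G, IsConj (x i) g → IsConj (x j) h → ∀ k : ℕ, 0 < k → orderOf (g * h⁻¹) ≠ p ^ k) : ∃ B : Fin r → Set (Cfsg.IrrCharacter G), Function.Injective B ∧ (∀ i : Fin r, Cfsg.IsPBlock M (B i) ∧ Cfsg.IsDefectGroup p M (B i) D) ∧ ∀ χ : Fin r → Cfsg.IrrCharacter G, (∀ i : Fin r, χ i ∈ B i ∧ Cfsg.blockHeight p (B i) (χ i : G → ℂ) = 0) → ¬ Cfsg.MemLocalIdeal M (Matrix.det (Matrix.of fun i j : Fin r => (χ i : G → ℂ) (x j))) := by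
  classical
  have := Fintype.ofFinite G
  have hp : p.Prime := Fact.out
  have hMp := isPrime hM
  have hSyl : ∀ i, SylC p (x i) D := fun i => by
    obtain ⟨S, hS⟩ := hD i
    exact ⟨S, hS.symm⟩
  have hcardD : ∀ i, Nat.card D = p ^ (Nat.card (Subgroup.centralizer ({x i} : Set G))).factorization p :=
    fun i => sylC_card (hSyl i)
  obtain ⟨n, hn, hsum⟩ := exists_coeff (G := G) p
  set m := Nat.card G / p ^ (Nat.card G).factorization p with hm
  have hnl : ∀ χ, MemLocalRing M (n χ) := fun χ => loc_of_isIntegral (hn χ)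
  -- blocks
  let 𝓑 := {B : Set (IrrCharacter G) // IsPBlock M B}
  have : Finite 𝓑 := finite_blocks
  have := Fintype.ofFinite 𝓑
  let bl : IrrCharacter G → 𝓑 := fun χ => ⟨blockOf M (χ : G → ℂ), isPBlock_blockOf χ⟩
  have hrep : ∀ B : 𝓑, ∃ χ : IrrCharacter G, χ ∈ B.1 ∧ vdeg p χ = vmin p B.1 := fun B => by
    obtain ⟨χ, hχ⟩ := B.2
    exact exists_vmin ⟨χ, hχ ▸ mem_blockOf_self χ⟩
  choose rep hrepm hrepv using hrep
  have hblm : ∀ χ : IrrCharacter G, χ ∈ (bl χ).1 := fun χ => mem_blockOf_self χ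
  let A : Matrix (Fin r) 𝓑 ℂ := fun i B => ∑ χ ∈ Finset.univ.filter (fun χ => bl χ = B), n χ * (χ : G → ℂ) (x i)
  let W : Matrix 𝓑 (Fin r) ℂ := fun B j => centralChar (rep B : G → ℂ) (x j)⁻¹
  have hA : ∀ i B, MemLocalRing M (A i B) := fun i B =>
    loc_sum fun χ _ => loc_mul (hnl χ) (loc_irr χ _)
  have hW : ∀ B j, MemLocalRing M (W B j) := fun B j => loc_centralChar (rep B).2 _
  have hAW : ∀ i j, MemLocalIdeal M ((A * W) i j - ((m : ℂ) • (1 : Matrix (Fin r) (Fin r) ℂ)) i j) := by
    intro i j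
    have h1 : ((m : ℂ) • (1 : Matrix (Fin r) (Fin r) ℂ)) i j =
        ∑ χ : IrrCharacter G, n χ * (χ : G → ℂ) (x i) * centralChar (χ : G → ℂ) (x j)⁻¹ := by
      rw [Matrix.smul_apply, smul_eq_mul]
      by_cases hij : i = j
      · subst hij
        rw [Matrix.one_apply_eq, mul_one]
        exact ((hsum (x i) (x i) (hsep i i)).1 (IsConj.refl _)).symm
      · rw [Matrix.one_apply_ne hij, mul_zero]
        exact ((hsum (x i) (x j) (hsep i j)).2 (fun h => hij (hx i j h))).symm
    have h2 : (A * W) i j = ∑ χ : IrrCharacter G, n χ * (χ : G → ℂ) (x i) * W (bl χ) j := by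
      rw [Matrix.mul_apply]
      rw [← Finset.sum_fiberwise_of_maps_to (g := bl) (t := Finset.univ) (fun _ _ => Finset.mem_univ _)]
      apply Finset.sum_congr rfl
      intro B _
      simp only [A]
      rw [Finset.sum_mul]
      apply Finset.sum_congr rfl
      intro χ hχ
      rw [(Finset.mem_filter.mp hχ).2]
    rw [h1, h2, ← Finset.sum_sub_distrib]
    refine idl_sum fun χ _ => ?_
    rw [← mul_sub]
    refine idl_mul_left (loc_mul (hnl χ) (loc_irr χ _)) ?_
    have h3 : SameBlock M (rep (bl χ) : G → ℂ) (χ : G → ℂ) :=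
      sameBlock_of_mem (bl χ).2 (hrepm _) (hblm χ)
    exact h3 _
  have hm0 : ¬ MemLocalIdeal M (m : ℂ) := by
    rw [idl_natCast_iff hM]
    exact Nat.not_dvd_ordCompl hp Nat.card_pos.ne'
  have hdetAW : ¬ MemLocalIdeal M (A * W).det := by
    have h1 := idl_det_sub (N := A * W) (N' := (m : ℂ) • (1 : Matrix (Fin r) (Fin r) ℂ))
      (fun i j => by
        rw [Matrix.mul_apply]
        exact loc_sum fun B _ => loc_mul (hA _ _) (hW _ _))
      (fun i j => by
        rw [Matrix.smul_apply, smul_eq_mul]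
        refine loc_mul (loc_natCast _) ?_
        rw [Matrix.one_apply]
        split_ifs
        · exact loc_one
        · exact loc_zero) hAW
    rw [idl_congr h1, Matrix.det_smul, Matrix.det_one, mul_one]
    intro h2
    exact hm0 (idl_of_pow (loc_natCast _) h2)
  rw [det_mul_expand] at hdetAW
  obtain ⟨f, hf⟩ : ∃ f : Fin r → 𝓑, ¬ MemLocalIdeal M ((∏ j, W (f j) j) *
      (Matrix.of fun i j => A i (f j)).det) := by
    by_contra hcon
    push Not at hcon
    exact hdetAW (idl_sum fun f _ => hcon f)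
  have hdl : MemLocalRing M (Matrix.of fun i j => A i (f j)).det := loc_det fun i j => hA _ _
  have hWf : ∀ j, ¬ MemLocalIdeal M (W (f j) j) := fun j h =>
    hf (idl_mul_right (idl_prod (fun i _ => hW _ _) (Finset.mem_univ j) h) hdl)
  have hdA : ¬ MemLocalIdeal M (Matrix.of fun i j => A i (f j)).det := fun h =>
    hf (idl_mul_left (loc_prod fun i _ => hW _ _) h)
  have hfinj : Function.Injective f := by
    intro j k hjk
    by_contra hne
    apply hdA
    rw [Matrix.det_zero_of_column_eq hne]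
    · exact idl_zero
    · intro i
      simp only [Matrix.of_apply, hjk]
  -- each column contains a unit
  have hcol : ∀ j, ∃ i, ¬ MemLocalIdeal M (A i (f j)) := by
    intro j
    by_contra hcon
    push Not at hcon
    apply hdA
    rw [Matrix.det_apply']
    refine idl_sum fun σ _ => idl_mul_left (loc_intCast _) ?_
    exact idl_prod (fun i _ => hA _ _) (Finset.mem_univ j) (hcon (σ j))
  have hchar : ∀ j, ∃ (i : Fin r) (χ : IrrCharacter G), χ ∈ (f j).1 ∧ ¬ MemLocalIdeal M ((χ : G → ℂ) (x i)) := by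
    intro j
    obtain ⟨i, hi⟩ := hcol j
    by_contra hcon
    push Not at hcon
    apply hi
    refine idl_sum fun χ hχ => idl_mul_left (hnl χ) (hcon i χ ?_)
    rw [← (Finset.mem_filter.mp hχ).2]
    exact hblm χ
  have hdef : ∀ j, IsDefectGroup p M (f j).1 D := by
    intro j
    obtain ⟨E, hE⟩ := exists_defectGroup hM (f j).2
    have hS : SylC p (x j)⁻¹ D := by
      have := hSyl j
      unfold SylC at this ⊢
      rwa [centralizer_inv]
    obtain ⟨c, hc⟩ := minmax_omega hM (f j).2 hE (h := (x j)⁻¹) ⟨rep (f j), hrepm _, hWf j⟩ hS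
    obtain ⟨i, χ, hχ, hχi⟩ := hchar j
    have h1 := vdeg_le_fact_index hM hχi
    have h2 := vmin_le (p := p) hχ
    have h3 := fact_card_centralizer (p := p) (x i)
    have h4 := defectGroup_card hM (f j).2 hE
    rw [blockDefect_eq] at h4
    have h5 : Nat.card D ≤ Nat.card E := by
      rw [hcardD i, h4]
      apply Nat.pow_le_pow_right hp.pos
      omega
    have h6 : E = D.map (MulAut.conj c).toMonoidHom := by
      apply Subgroup.eq_of_le_of_card_ge hc
      rw [card_map_conj]; exact h5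
    have h7 := defectGroup_map_conj hE c⁻¹
    rw [h6, map_conj_mul, inv_mul_cancel, map_conj_one] at h7
    exact h7
  refine ⟨fun j => (f j).1, fun j k hjk => hfinj (Subtype.ext hjk), fun j => ⟨(f j).2, hdef j⟩, ?_⟩
  intro χ hχ
  -- `A i (f j) ≡ κ j * χ j (x i)`
  have hvdeg : ∀ j, vdeg p (χ j) = vmin p (f j).1 := fun j =>
    (height_zero_iff (hχ j).1).mp (hχ j).2
  have hidx : ∀ i j, ((Subgroup.centralizer ({x i} : Set G)).index).factorization p = vmin p (f j).1 := by
    intro i j
    have h3 := fact_card_centralizer (p := p) (x i)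
    have h4 := defectGroup_card hM (f j).2 (hdef j)
    rw [hcardD i, blockDefect_eq] at h4
    have h5 := Nat.pow_right_injective hp.two_le h4
    have h6 := vmin_le_fact hM (f j).2
    omega
  let κ : Fin r → ℂ := fun j => ∑ ψ ∈ Finset.univ.filter (fun ψ => bl ψ = f j),
    n ψ * ((ψ : G → ℂ) 1 / (χ j : G → ℂ) 1)
  have hκ : ∀ j, MemLocalRing M (κ j) := by
    intro j
    refine loc_sum fun ψ hψ => loc_mul (hnl ψ) ?_
    rw [loc_div_degree_iff hM, hvdeg j]
    apply vmin_le
    rw [← (Finset.mem_filter.mp hψ).2]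
    exact hblm ψ
  have hcong : ∀ i j, MemLocalIdeal M (A i (f j) - κ j * (χ j : G → ℂ) (x i)) := by
    intro i j
    simp only [A, κ]
    rw [Finset.sum_mul, ← Finset.sum_sub_distrib]
    refine idl_sum fun ψ hψ => ?_
    have hψm : ψ ∈ (f j).1 := by
      rw [← (Finset.mem_filter.mp hψ).2]
      exact hblm ψ
    have h1 : SameBlock M (ψ : G → ℂ) (χ j : G → ℂ) := sameBlock_of_mem (f j).2 hψm (hχ j).1
    have h2 := h1 (x i)
    have hi0 : ((Subgroup.centralizer ({x i} : Set G)).index : ℂ) ≠ 0 := by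
      exact_mod_cast Subgroup.index_ne_zero_of_finite
    have hψ0 := ψ.2.one_ne_zero
    have hχ0 := (χ j).2.one_ne_zero
    have h3 : n ψ * (ψ : G → ℂ) (x i) - n ψ * ((ψ : G → ℂ) 1 / (χ j : G → ℂ) 1) * (χ j : G → ℂ) (x i) =
        (n ψ * ((charDegree (ψ : G → ℂ) : ℂ) / ((Subgroup.centralizer ({x i} : Set G)).index : ℂ))) *
          (centralChar (ψ : G → ℂ) (x i) - centralChar (χ j : G → ℂ) (x i)) := by
      rw [centralChar, centralChar, (charDegree_spec ψ.2).1.symm]
      field_simp
    rw [h3]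
    refine idl_mul_left (loc_mul (hnl ψ) ?_) h2
    rw [loc_div_natCast_iff hM (charDegree_spec ψ.2).2 Subgroup.index_ne_zero_of_finite, hidx i j]
    exact vmin_le hψm
  intro hcon
  apply hdA
  have h1 := idl_det_sub (N := Matrix.of fun i j => A i (f j))
    (N' := Matrix.of fun i j => κ j * (χ j : G → ℂ) (x i)) (fun i j => hA _ _)
    (fun i j => loc_mul (hκ j) (loc_irr _ _)) hcong
  rw [idl_congr h1]
  have h2 : (Matrix.of fun i j => κ j * (χ j : G → ℂ) (x i)).det =
      (∏ j, κ j) * (Matrix.of fun i j : Fin r => (χ i : G → ℂ) (x j)).det := by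
    rw [← Matrix.det_transpose (Matrix.of fun i j : Fin r => (χ i : G → ℂ) (x j))]
    rw [← Matrix.det_mul_row]
    rfl
  rw [h2]
  exact idl_mul_left (loc_prod fun j _ => hκ j) hcon

end Cfsg.Agent.S4741
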