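import Cfsg.Statements.S4742
import Cfsg.Agent.Lib.DefectZero

set_option autoImplicit false
open Cfsg

namespace Cfsg.Agent.S4742

open Cfsg.Agent.Lib.DefectZero

/-- No element of order `q` commutes with an element of order `p`. -/
theorem not_dvd_centralizer {G : Type*} [Group G] [Finite G] (p q : ℕ) [Fact p.Prime] [Fact q.Prime]
    (hC : ∀ g : G, g ≠ 1 → (∃ k : ℕ, orderOf g = p ^ k) → ¬ q ∣ Nat.card ↥(Subgroup.centralizer ({g} : Set G)))
    (z : G) (hz : z ≠ 1) (hzq : ∃ k : ℕ, orderOf z = q ^ k) :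
    ¬ p ∣ Nat.card ↥(Subgroup.centralizer ({z} : Set G)) := by
  intro hd
  obtain ⟨⟨u, hu⟩, hu2⟩ := exists_prime_orderOf_dvd_card' p hd
  rw [Subgroup.orderOf_mk] at hu2
  rw [Subgroup.mem_centralizer_iff] at hu
  have hu3 := hu z rfl
  have hu1 : u ≠ 1 := by
    rintro rfl
    rw [orderOf_one] at hu2
    exact (Fact.out : p.Prime).one_lt.ne hu2
  refine hC u hu1 ⟨1, by rw [hu2, pow_one]⟩ ?_
  have hz2 : z ∈ Subgroup.centralizer ({u} : Set G) := by
    rw [Subgroup.mem_centralizer_iff]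
    rintro y rfl
    exact hu3.symm
  have h1 : q ∣ orderOf z := by
    obtain ⟨k, hk⟩ := hzq
    rw [hk]
    apply dvd_pow_self
    rintro rfl
    rw [pow_zero, orderOf_eq_one_iff] at hk
    exact hz hk
  have h2 : orderOf z ∣ Nat.card ↥(Subgroup.centralizer ({u} : Set G)) := by
    have := orderOf_dvd_natCard (⟨z, hz2⟩ : Subgroup.centralizer ({u} : Set G))
    rwa [Subgroup.orderOf_mk] at this
  exact h1.trans h2

/-- Let p ≠ q be primes dividing the order of the finite group G, and suppose the centralizer of every non-identity p-element of G has order prime to q. Then either G has an irreducible character of p-defect zero, or for every non-identity q-element z of G there are conjugates g, h of z such that g h⁻¹ is a non-identity p-element. -/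
theorem result {G : Type*} [Group G] [Finite G] (p q : ℕ) [Fact p.Prime] [Fact q.Prime] (hppq : p ≠ q) (hpG : p ∣ Nat.card G) (hqG : q ∣ Nat.card G) (hC : ∀ g : G, g ≠ 1 → (∃ k : ℕ, orderOf g = p ^ k) → ¬ q ∣ Nat.card ↥(Subgroup.centralizer ({g} : Set G))) : (∃ χ : Cfsg.IrrCharacter G, (Cfsg.charDegree (χ : G → ℂ)).factorization p = (Nat.card G).factorization p) ∨ ∀ z : G, z ≠ 1 → (∃ k : ℕ, orderOf z = q ^ k) → ∃ g h : G, IsConj z g ∧ IsConj z h ∧ g * h⁻¹ ≠ 1 ∧ ∃ k : ℕ, orderOf (g * h⁻¹) = p ^ k := by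
  by_contra hcon
  push Not at hcon
  obtain ⟨h0, z, hz, hzq, hz3⟩ := hcon
  obtain ⟨P⟩ : Nonempty (Sylow p G) := inferInstance
  obtain ⟨χ, hχ⟩ := exists_defect_zero p z P (not_dvd_centralizer p q hC z hz hzq) (by
    intro s t hst
    by_contra hne
    have h1 : (s * z * s⁻¹) * (t * z * t⁻¹)⁻¹ ≠ 1 := fun h => hne (mul_inv_eq_one.mp h)
    obtain ⟨k, hk⟩ := (IsPGroup.iff_orderOf.mp P.2) ⟨_, hst⟩
    rw [Subgroup.orderOf_mk] at hk
    exact hz3 _ _ (isConj_iff.mpr ⟨s, rfl⟩) (isConj_iff.mpr ⟨t, rfl⟩) h1 k hk)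
  exact h0 χ hχ

end Cfsg.Agent.S4742
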