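import Cfsg.Statements.S4743
import Cfsg.Agent.S4742

set_option autoImplicit false
open Cfsg

namespace Cfsg.Agent.S4743

open Cfsg.Agent.Lib.DefectZero

/-- If `p`-elements are quotients of conjugates for every `q`-element and conversely, then `G` is
not `p`-solvable. -/
theorem aux {G : Type*} [Group G] [Finite G] (p q : ℕ) [Fact p.Prime] [Fact q.Prime]
    (hpq : p ≠ q) (hpG : p ∣ Nat.card G)
    (h1 : ∀ z : G, z ≠ 1 → (∃ k : ℕ, orderOf z = q ^ k) → ∃ g h : G, IsConj z g ∧ IsConj z h ∧ g * h⁻¹ ≠ 1 ∧ ∃ k : ℕ, orderOf (g * h⁻¹) = p ^ k)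
    (h2 : ∀ z : G, z ≠ 1 → (∃ k : ℕ, orderOf z = p ^ k) → ∃ g h : G, IsConj z g ∧ IsConj z h ∧ g * h⁻¹ ≠ 1 ∧ ∃ k : ℕ, orderOf (g * h⁻¹) = q ^ k)
    (hsolv : IsPSolvable p G) : False := by
  obtain ⟨n, H, hbot, htop, hmono, hnorm, hfac⟩ := hsolv
  have hp : p.Prime := Fact.out
  have hq : q.Prime := Fact.out
  -- a normal subgroup containing a nontrivial r-element contains nontrivial s-elements
  have key : ∀ (r s : ℕ) [Fact r.Prime] [Fact s.Prime],
      (∀ z : G, z ≠ 1 → (∃ k : ℕ, orderOf z = r ^ k) → ∃ g h : G, IsConj z g ∧ IsConj z h ∧ g * h⁻¹ ≠ 1 ∧ ∃ k : ℕ, orderOf (g * h⁻¹) = s ^ k) →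
      ∀ N : Subgroup G, N.Normal → r ∣ Nat.card N → s ∣ Nat.card N := by
    intro r s _ _ h N hN hr
    obtain ⟨⟨u, hu⟩, hu2⟩ := exists_prime_orderOf_dvd_card' r hr
    rw [Subgroup.orderOf_mk] at hu2
    have hu1 : u ≠ 1 := by
      rintro rfl
      rw [orderOf_one] at hu2
      exact (Fact.out : r.Prime).one_lt.ne hu2
    obtain ⟨g, k, hg, hk, hne, m, hm⟩ := h u hu1 ⟨1, by rw [hu2, pow_one]⟩
    obtain ⟨c, hc⟩ := isConj_iff.mp hg
    obtain ⟨d, hd⟩ := isConj_iff.mp hk
    have hgN : g ∈ N := by rw [← hc]; exact hN.conj_mem u hu c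
    have hkN : k ∈ N := by rw [← hd]; exact hN.conj_mem u hu d
    have hN2 : g * k⁻¹ ∈ N := N.mul_mem hgN (N.inv_mem hkN)
    have h3 : s ∣ orderOf (g * k⁻¹) := by
      rw [hm]
      apply dvd_pow_self
      rintro rfl
      rw [pow_zero, orderOf_eq_one_iff] at hm
      exact hne hm
    have h4 := orderOf_dvd_natCard (⟨_, hN2⟩ : N)
    rw [Subgroup.orderOf_mk] at h4
    exact h3.trans h4
  have main : ∀ i : Fin (n + 1), ¬ p ∣ Nat.card (H i) := by
    intro i
    induction i using Fin.induction with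
    | zero =>
      rw [hbot]
      simpa using hp.one_lt.ne'
    | succ i ih =>
      intro hd
      have hqd : ¬ q ∣ Nat.card (H i.castSucc) := fun h => ih (key q p h1 _ (hnorm _) h)
      have hqs : q ∣ Nat.card (H i.succ) := key p q h2 _ (hnorm _) hd
      have hle : H i.castSucc ≤ H i.succ := hmono (Fin.castSucc_lt_succ).le
      have hc := Subgroup.card_mul_index ((H i.castSucc).subgroupOf (H i.succ))
      have hcard : Nat.card ((H i.castSucc).subgroupOf (H i.succ)) = Nat.card (H i.castSucc) :=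
        Nat.card_congr (Subgroup.subgroupOfEquivOfLe hle).toEquiv
      rw [hcard] at hc
      change Nat.card (H i.castSucc) * (H i.castSucc).relIndex (H i.succ) = _ at hc
      rcases hfac i with ⟨m, hm⟩ | hm
      · rw [← hc, hm] at hqs
        rcases hq.dvd_mul.mp hqs with h | h
        · exact hqd h
        · have := hq.dvd_of_dvd_pow h
          exact hpq ((Nat.prime_dvd_prime_iff_eq hq hp).mp this).symm
      · rw [← hc] at hd
        rcases hp.dvd_mul.mp hd with h | h
        · exact ih h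
        · exact (Nat.Prime.coprime_iff_not_dvd hp).mp hm.symm h
  apply main (Fin.last n)
  rw [htop, Subgroup.card_top]
  exact hpG

/-- Let p ≠ q be primes dividing the order of the finite group G, suppose the centralizer of every non-identity p-element has order prime to q, and suppose G is p-solvable or q-solvable. Then G has an irreducible character of p-defect zero or an irreducible character of q-defect zero. -/
theorem result {G : Type*} [Group G] [Finite G] (p q : ℕ) [Fact p.Prime] [Fact q.Prime] (hppq : p ≠ q) (hpG : p ∣ Nat.card G) (hqG : q ∣ Nat.card G) (hC : ∀ g : G, g ≠ 1 → (∃ k : ℕ, orderOf g = p ^ k) → ¬ q ∣ Nat.card ↥(Subgroup.centralizer ({g} : Set G))) (hsolv : Cfsg.IsPSolvable p G ∨ Cfsg.IsPSolvable q G) : (∃ χ : Cfsg.IrrCharacter G, (Cfsg.charDegree (χ : G → ℂ)).factorization p = (Nat.card G).factorization p) ∨ (∃ χ : Cfsg.IrrCharacter G, (Cfsg.charDegree (χ : G → ℂ)).factorization q = (Nat.card G).factorization q) := by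
  rcases S4742.result p q hppq hpG hqG hC with h1 | h1
  · exact Or.inl h1
  have hC' : ∀ g : G, g ≠ 1 → (∃ k : ℕ, orderOf g = q ^ k) →
      ¬ p ∣ Nat.card ↥(Subgroup.centralizer ({g} : Set G)) :=
    fun z hz hzq => S4742.not_dvd_centralizer p q hC z hz hzq
  rcases S4742.result q p hppq.symm hqG hpG hC' with h2 | h2
  · exact Or.inr h2
  exfalso
  rcases hsolv with h | h
  · exact aux p q hppq hpG h1 h2 h
  · exact aux q p hppq.symm hqG h2 h1 h

end Cfsg.Agent.S4743
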