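import Cfsg.Statements.S4744
import Cfsg.Agent.Lib.InvertSylow

set_option autoImplicit false
open Cfsg

namespace Cfsg.Agent.S4744

open Cfsg.Agent.Lib.DefectZero Cfsg.Agent.Lib.InvertSylow

/-- Let p be an odd prime and G a finite group of even order divisible by p in which the centralizer of every non-identity p-element has odd order. Then either G has an irreducible character of p-defect zero, or the normalizer of every Sylow p-subgroup P of G has even order and P is abelian. -/
theorem result {G : Type*} [Group G] [Finite G] (p : ℕ) [Fact p.Prime] (hp2 : p ≠ 2) (hpG : p ∣ Nat.card G) (h2G : 2 ∣ Nat.card G) (hC : ∀ g : G, g ≠ 1 → (∃ k : ℕ, orderOf g = p ^ k) → Odd (Nat.card ↥(Subgroup.centralizer ({g} : Set G)))) : (∃ χ : Cfsg.IrrCharacter G, (Cfsg.charDegree (χ : G → ℂ)).factorization p = (Nat.card G).factorization p) ∨ ∀ P : Sylow p G, Even (Nat.card ↥(Subgroup.normalizer ((P : Subgroup G) : Set G))) ∧ IsMulCommutative ↥(P : Subgroup G) := by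
  rw [or_iff_not_imp_left]
  intro hno P
  obtain ⟨t, ht⟩ := exists_prime_orderOf_dvd_card' 2 h2G
  obtain ⟨g, hg, hinv⟩ := exists_conj_inverting p hC hno t ht P
  refine ⟨?_, comm_of_inverted hinv⟩
  have hgo : orderOf g = 2 := by
    obtain ⟨c, hc⟩ := isConj_iff.mp hg
    rw [← hc, ← ht]
    exact orderOf_injective (MulAut.conj c).toMonoidHom (MulAut.conj c).injective t
  have hgN : g ∈ Subgroup.normalizer ((P : Subgroup G) : Set G) := by
    rw [Subgroup.mem_normalizer_iff]
    intro w
    constructor
    · intro hw
      rw [hinv w hw]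
      exact (P : Subgroup G).inv_mem hw
    · intro hw
      have h1 := hinv _ hw
      have h2 : g * (g * w * g⁻¹) * g⁻¹ = w := by
        have hg2 : g * g = 1 := by
          have := pow_orderOf_eq_one g
          rwa [hgo, sq] at this
        have e : g * (g * w * g⁻¹) * g⁻¹ = (g * g) * w * (g * g)⁻¹ := by group
        rw [e, hg2]; simp
      rw [h2] at h1
      rw [h1]
      exact (P : Subgroup G).inv_mem hw
  have h4 := orderOf_dvd_natCard (⟨g, hgN⟩ : Subgroup.normalizer ((P : Subgroup G) : Set G))
  rw [Subgroup.orderOf_mk, hgo] at h4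
  exact even_iff_two_dvd.mpr h4

end Cfsg.Agent.S4744
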