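import Cfsg.Statements.S4746
import Cfsg.Agent.Lib.InvertSylow
import Cfsg.Agent.Lib.InvolBlock

set_option autoImplicit false
open Cfsg

namespace Cfsg.Agent.S4746

open Cfsg.Agent.Lib Cfsg.Agent.Lib.CharBasic Cfsg.Agent.Lib.DefectZero
open Cfsg.Agent.Lib.BlockRing Cfsg.Agent.Lib.BlockGA Cfsg.Agent.Lib.InvertSylow
open scoped ComplexConjugate

/-- Let p be an odd prime and G a finite group of even order divisible by p in which the centralizer of every non-identity p-element has odd order. Then G has an irreducible character of p-defect zero or an irreducible character of even degree. -/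
theorem result {G : Type*} [Group G] [Finite G] (p : ℕ) [Fact p.Prime] (hp2 : p ≠ 2) (hpG : p ∣ Nat.card G) (h2G : 2 ∣ Nat.card G) (hC : ∀ g : G, g ≠ 1 → (∃ k : ℕ, orderOf g = p ^ k) → Odd (Nat.card ↥(Subgroup.centralizer ({g} : Set G)))) : (∃ χ : Cfsg.IrrCharacter G, (Cfsg.charDegree (χ : G → ℂ)).factorization p = (Nat.card G).factorization p) ∨ ∃ χ : Cfsg.IrrCharacter G, Even (Cfsg.charDegree (χ : G → ℂ)) := by
  classical
  have := Fintype.ofFinite G
  have hp : p.Prime := Fact.out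
  have : Fact (Nat.Prime 2) := ⟨Nat.prime_two⟩
  rw [or_iff_not_imp_left]
  intro hno
  by_contra hodd
  push Not at hodd
  obtain ⟨t, ht⟩ := exists_prime_orderOf_dvd_card' 2 h2G
  have P : Sylow p G := default
  obtain ⟨g, -, hinv⟩ := exists_conj_inverting p hC hno t ht P
  -- a nontrivial element of `P`
  have hP1 : (P : Subgroup G) ≠ ⊥ := by
    intro h
    have h2 := P.dvd_card_of_dvd_card hpG
    rw [h, Subgroup.card_bot] at h2
    exact hp.one_lt.ne' (Nat.dvd_one.mp h2)
  obtain ⟨⟨u, huP⟩, hu1⟩ := Subgroup.ne_bot_iff_exists_ne_one.mp hP1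
  have hu1' : u ≠ 1 := fun h => hu1 (Subtype.ext h)
  have hup : ∃ k : ℕ, orderOf u = p ^ k := by
    obtain ⟨k, hk⟩ := IsPGroup.iff_orderOf.mp P.isPGroup' ⟨u, huP⟩
    exact ⟨k, by rw [← hk]; exact Subgroup.orderOf_coe (⟨u, huP⟩ : (P : Subgroup G))⟩
  have hCu := hC u hu1' hup
  have hreal : IsConj u u⁻¹ := isConj_iff.mpr ⟨g, hinv u huP⟩
  obtain ⟨M, hM⟩ := H76Char.exists_isPModular 2
  have hMp := isPrime hM
  have hcr : ∀ χ : IrrCharacter G, conj ((χ : G → ℂ) u) = (χ : G → ℂ) u := by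
    intro χ
    rw [← χ.2.inv]
    exact (χ.2.isClassFunction.conj_eq hreal).symm
  have h1 := column_orthogonality u u
  rw [if_pos (IsConj.refl u)] at h1
  simp only [hcr] at h1
  have h2 := sum_degree_mul u hu1'
  -- modulo the ideal
  have h3 := InvolBlock.idl_sq_sum hM Finset.univ (fun χ : IrrCharacter G => (χ : G → ℂ) u)
    (fun χ _ => loc_irr χ u)
  have h4 : MemLocalIdeal M (∑ χ : IrrCharacter G, (χ : G → ℂ) u) := by
    have h5 : ∑ χ : IrrCharacter G, (χ : G → ℂ) u =
        - ∑ χ : IrrCharacter G, ((χ : G → ℂ) 1 - 1) * (χ : G → ℂ) u := by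
      simp only [sub_mul, one_mul, Finset.sum_sub_distrib, h2]
      ring
    rw [h5]
    refine idl_neg (idl_sum fun χ _ => idl_mul_right ?_ (loc_irr χ u))
    have h6 := hodd χ
    rw [Nat.not_even_iff_odd] at h6
    obtain ⟨k, hk⟩ := h6
    have h7 : (χ : G → ℂ) 1 - 1 = ((2 * k : ℕ) : ℂ) := by
      rw [← charDegree_eq χ.2.isCharacter, hk]; push_cast; ring
    rw [h7, idl_natCast_iff hM]
    exact dvd_mul_right 2 k
  have h5 : ∑ χ : IrrCharacter G, (χ : G → ℂ) u ^ 2 =
      (Nat.card (Subgroup.centralizer ({u} : Set G)) : ℂ) := by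
    rw [← h1]
    exact Finset.sum_congr rfl fun χ _ => sq _
  rw [h5] at h3
  have h6 : MemLocalIdeal M (Nat.card (Subgroup.centralizer ({u} : Set G)) : ℂ) := by
    have h7 := idl_sub (idl_pow h4 two_ne_zero) h3
    simpa using h7
  rw [idl_natCast_iff hM] at h6
  exact (Nat.not_even_iff_odd.mpr hCu) (even_iff_two_dvd.mpr h6)

end Cfsg.Agent.S4746
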