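import Cfsg.Statements.S4748
import Cfsg.Agent.Lib.TITrace
import Cfsg.Agent.Lib.PSolvDual

set_option autoImplicit false
open scoped Pointwise
open Cfsg

namespace Cfsg.Agent.S4748

open Cfsg.Agent.Lib Cfsg.Agent.Lib.CharBasic Cfsg.Agent.Lib.DefectZero

/-- If each constituent of `χ` is constant on `{1, x}` then so is `χ`. -/
theorem const_of_constituents {G : Type*} [Group G] [Finite G] {χ : G → ℂ} (hχ : IsCharacter G χ)
    (L : Subgroup G) [Fintype L] (x : L)
    (h : ∀ θ : IrrCharacter L, classInner (fun y : L => χ y) (θ : L → ℂ) ≠ 0 →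
      (θ : L → ℂ) x = (θ : L → ℂ) 1) : χ x = χ 1 := by
  obtain ⟨c, hc, hs⟩ := (hχ.restrict L).exists_coeff
  have h1 := congrFun hs x
  have h2 := congrFun hs 1
  simp only [Finset.sum_apply, Pi.smul_apply] at h1 h2
  simp only [OneMemClass.coe_one] at h2
  rw [h1, h2]
  apply Finset.sum_congr rfl
  intro θ _
  rcases eq_or_ne (c θ) 0 with h0 | h0
  · rw [h0]; simp
  · rw [h θ (by rw [hc θ]; exact_mod_cast h0)]

/-- A central element of a subgroup on which `θ` restricts irreducibly acts as a scalar. -/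
theorem comm_in_kernel {L : Type*} [Group L] [Finite L] {θ : L → ℂ} (hθ : IsIrrCharacter L θ)
    (H : Subgroup L) (hH : IsIrrCharacter H (fun h : H => θ h)) {z : L}
    (hz : ∀ h ∈ H, h * z = z * h) (k : L) : θ (z * k * z⁻¹ * k⁻¹) = θ 1 := by
  obtain ⟨n, ρ, hρ, rfl⟩ := hθ
  let σ : Representation ℂ H (Fin n → ℂ) := ρ.comp H.subtype
  have hσ : σ.IsIrreducible := isIrreducible_of_isIrrCharacter σ hH
  obtain ⟨c, hc⟩ := CharCentral.exists_scalar_of_commute σ (ρ z) (fun g v => by
    have h := hz g.1 g.2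
    show (ρ z) (ρ g.1 v) = ρ g.1 (ρ z v)
    rw [← Module.End.mul_apply, ← Module.End.mul_apply, ← map_mul, ← map_mul, h])
  have h1 : ρ (z * k) = ρ (k * z) := by
    rw [map_mul, map_mul, hc]
    rw [show (LinearMap.id : (Fin n → ℂ) →ₗ[ℂ] (Fin n → ℂ)) = 1 from rfl, smul_mul_assoc,
      one_mul, mul_smul_comm, mul_one]
  have h2 : ρ (z * k * z⁻¹ * k⁻¹) = ρ 1 := by
    have h3 : z * k * z⁻¹ * k⁻¹ = (z * k) * (k * z)⁻¹ := by group
    rw [h3, map_mul, h1, ← map_mul, mul_inv_cancel]
  simp only [Representation.character, h2]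

theorem pCore_eq_bot {G : Type*} [Group G] [Finite G] {p : ℕ} [Fact p.Prime] (P : Sylow p G)
    (hTI : ∀ g : G, g ∉ Subgroup.normalizer ((P : Subgroup G) : Set G) →
      (P : Subgroup G) ⊓ (MulAut.conj g • (P : Subgroup G)) = ⊥)
    (hn : ¬ (P : Subgroup G).Normal) : pCore p G = ⊥ := by
  obtain ⟨g, hg⟩ : ∃ g : G, g ∉ Subgroup.normalizer ((P : Subgroup G) : Set G) := by
    by_contra hcon
    push Not at hcon
    exact hn (Subgroup.normalizer_eq_top_iff.mp (top_le_iff.mp (fun x _ => hcon x)))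
  have hle : pCore p G ≤ (P : Subgroup G) := by
    obtain ⟨Q, hQ⟩ := (H32Cores.pCore_isPGroup (G := G) p).exists_le_sylow
    obtain ⟨g, hg⟩ := MulAction.exists_smul_eq G Q P
    rw [← hg]
    intro x hx
    rw [Sylow.coe_subgroup_smul, Subgroup.mem_pointwise_smul_iff_inv_smul_mem]
    apply hQ
    have : (pCore p G).Normal := inferInstance
    have h1 := this.conj_mem x hx g⁻¹
    simpa using h1
  rw [eq_bot_iff, ← hTI g hg]
  refine le_inf hle ?_
  intro x hx
  rw [Subgroup.mem_pointwise_smul_iff_inv_smul_mem]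
  apply hle
  have : (pCore p G).Normal := inferInstance
  have h1 := this.conj_mem x hx g⁻¹
  simpa using h1

/-- Let G be a finite p-solvable group whose Sylow p-subgroup P meets each conjugate g P g⁻¹ with g outside N_G(P) trivially, and let χ be a faithful character of G (χ g = χ 1 only for g = 1) whose degree d satisfies d² ≤ |P|. Then P is normal in G. -/
theorem result {G : Type*} [Group G] [Finite G] (p : ℕ) [Fact p.Prime] (hsolv : Cfsg.IsPSolvable p G) (P : Sylow p G) (hTI : ∀ g : G, g ∉ Subgroup.normalizer ((P : Subgroup G) : Set G) → (P : Subgroup G) ⊓ (MulAut.conj g • (P : Subgroup G)) = ⊥) (χ : G → ℂ) (hχ : Cfsg.IsCharacter G χ) (hfaith : ∀ g : G, χ g = χ 1 → g = 1) (hdeg : Cfsg.charDegree χ ^ 2 ≤ Nat.card ↥(P : Subgroup G)) : (P : Subgroup G).Normal := by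
  classical
  have := Fintype.ofFinite G
  have hp : p.Prime := Fact.out
  by_contra hn
  have hO := pCore_eq_bot P hTI hn
  set K : Subgroup G := pPrimeCore p G with hK
  have hKn : K.Normal := inferInstance
  have hCK : Subgroup.centralizer (K : Set G) ≤ K := PSolvDual.centralizer_pPrimeCore_le hsolv hO
  have hKP : ∀ x ∈ K, x ∈ (P : Subgroup G) → x = 1 := by
    intro x hxK hxP
    have h1 : K ⊓ (P : Subgroup G) = ⊥ :=
      H32Cores.eq_bot_of_isPGroup_of_coprime (p := p) (P.isPGroup'.to_le inf_le_right)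
        (Nat.Coprime.coprime_dvd_left (Subgroup.card_dvd_of_le inf_le_left)
          (H32Cores.pPrimeCore_coprime p))
    have h2 : x ∈ K ⊓ (P : Subgroup G) := ⟨hxK, hxP⟩
    rwa [h1, Subgroup.mem_bot] at h2
  -- `z`
  have hP1 : (P : Subgroup G) ≠ ⊥ := by
    intro h
    apply hn
    rw [h]; infer_instance
  have hPnt : Nontrivial (P : Subgroup G) := (Subgroup.nontrivial_iff_ne_bot _).mpr hP1
  have := P.isPGroup'.center_nontrivial
  obtain ⟨⟨z, hzc⟩, hz1⟩ := exists_ne (1 : Subgroup.center (P : Subgroup G))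
  have hz1' : (z : G) ≠ 1 := by
    intro h
    exact hz1 (Subtype.ext (Subtype.ext h))
  have hzP : ∀ y ∈ (P : Subgroup G), y * (z : G) = z * y := by
    intro y hy
    exact congrArg Subtype.val (Subgroup.mem_center_iff.mp hzc ⟨y, hy⟩)
  -- `L = K P`
  set L : Subgroup G := K ⊔ (P : Subgroup G) with hL
  have hPL : (P : Subgroup G) ≤ L := le_sup_right
  have hKL : K ≤ L := le_sup_left
  have := Fintype.ofFinite L
  let PL : Sylow p L := P.subtype hPL
  have hPLmem : ∀ x : L, x ∈ (PL : Subgroup L) ↔ (x : G) ∈ (P : Subgroup G) := by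
    intro x
    simp only [PL, Sylow.coe_subtype, Subgroup.mem_subgroupOf]
  have hnorm : ∀ g : L, g ∉ Subgroup.normalizer ((PL : Subgroup L) : Set L) →
      (g : G) ∉ Subgroup.normalizer ((P : Subgroup G) : Set G) := by
    intro g hg hg2
    apply hg
    rw [Subgroup.mem_normalizer_iff] at hg2 ⊢
    intro x
    rw [hPLmem, hPLmem]
    exact hg2 x
  have hTIL : ∀ g : L, g ∉ Subgroup.normalizer ((PL : Subgroup L) : Set L) →
      (PL : Subgroup L) ⊓ (MulAut.conj g • (PL : Subgroup L)) = ⊥ := by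
    intro g hg
    rw [eq_bot_iff]
    rintro x ⟨hx1, hx2⟩
    have h1 := hTI g (hnorm g hg)
    have h2 : (x : G) ∈ (P : Subgroup G) ⊓ (MulAut.conj (g : G) • (P : Subgroup G)) := by
      refine ⟨(hPLmem x).mp hx1, ?_⟩
      obtain ⟨y, hy, hyx⟩ := hx2
      refine ⟨y, (hPLmem y).mp hy, ?_⟩
      rw [← hyx]
      rfl
    rw [h1, Subgroup.mem_bot] at h2
    rw [Subgroup.mem_bot]
    exact Subtype.ext h2
  let H : Subgroup L := Subgroup.normalizer ((PL : Subgroup L) : Set L)
  have := Fintype.ofFinite H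
  let zL : L := ⟨z, hPL z.2⟩
  have hzH : ∀ h ∈ H, h * zL = zL * h := by
    intro h hh
    -- write `h = k * y`
    obtain ⟨k, hk, y, hy, hky⟩ : ∃ k ∈ K, ∃ y ∈ (P : Subgroup G), k * y = (h : G) := by
      have h1 : (h : G) ∈ (K : Set G) * ((P : Subgroup G) : Set G) := by
        rw [← Subgroup.normal_mul]; exact h.2
      exact h1
    -- `k` normalizes `P`
    have hkN : ∀ x ∈ (P : Subgroup G), k * x * k⁻¹ ∈ (P : Subgroup G) := by
      intro x hx
      have h1 := (Subgroup.mem_normalizer_iff.mp hh) ⟨y⁻¹ * x * y, hPL (mul_mem (mul_mem (inv_mem hy) hx) hy)⟩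
      rw [hPLmem, hPLmem] at h1
      have h2 := h1.mp (mul_mem (mul_mem (inv_mem hy) hx) hy)
      have h3 : (((h * ⟨y⁻¹ * x * y, hPL (mul_mem (mul_mem (inv_mem hy) hx) hy)⟩ * h⁻¹ : L)) : G) =
          k * x * k⁻¹ := by
        push_cast
        rw [← hky]; group
      rwa [h3] at h2
    have hkz : k * (z : G) * k⁻¹ * (z : G)⁻¹ = 1 := by
      apply hKP
      · have h1 : (z : G) * k⁻¹ * (z : G)⁻¹ ∈ K := hKn.conj_mem _ (inv_mem hk) _
        have h2 : k * (z : G) * k⁻¹ * (z : G)⁻¹ = k * ((z : G) * k⁻¹ * (z : G)⁻¹) := by group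
        rw [h2]; exact mul_mem hk h1
      · exact mul_mem (hkN z z.2) (inv_mem z.2)
    have hkz' : k * (z : G) = z * k := by
      have h1 : k * (z : G) * k⁻¹ * (z : G)⁻¹ * (z * k) = z * k := by rw [hkz, one_mul]
      rw [← h1]; group
    apply Subtype.ext
    show (h : G) * (z : G) = (z : G) * (h : G)
    rw [← hky, mul_assoc, hzP y hy, ← mul_assoc, hkz', mul_assoc]
  have hzK : z.1 ∈ Subgroup.centralizer (K : Set G) := by
    rw [Subgroup.mem_centralizer_iff]
    intro k hk
    have h1 : (z : G) * k * (z : G)⁻¹ * k⁻¹ = 1 := by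
      apply hfaith
      refine const_of_constituents hχ L (zL * ⟨k, hKL hk⟩ * zL⁻¹ * ⟨k, hKL hk⟩⁻¹) (fun θ hθ => ?_)
      apply comm_in_kernel θ.2 H _ hzH
      have h2 : charDegree (θ : L → ℂ) ≤ charDegree χ := by
        refine degree_le_of_constituent (hχ.restrict L) θ.2 hθ ?_ ?_
        · simp only [OneMemClass.coe_one]
          exact (charDegree_eq hχ).symm
        · exact (charDegree_eq θ.2.isCharacter).symm
      have hcardP : Nat.card (PL : Subgroup L) = Nat.card (P : Subgroup G) := by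
        apply Nat.card_congr
        exact
          { toFun := fun x => ⟨x.1.1, (hPLmem x.1).mp x.2⟩
            invFun := fun x => ⟨⟨x.1, hPL x.2⟩, (hPLmem _).mpr x.2⟩
            left_inv := fun x => rfl
            right_inv := fun x => rfl }
      have h3 := TITrace.classInner_restrict_eq PL hTIL (H := H) le_rfl θ.2.isCharacter (by
        rw [hcardP]
        exact (Nat.pow_le_pow_left h2 2).trans hdeg)
      rw [θ.2.classInner_self] at h3
      exact (θ.2.isCharacter.restrict H).isIrr_of_norm_one h3.symm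
    have h4 : (z : G) * k = (z : G) * k * (z : G)⁻¹ * k⁻¹ * (k * z) := by group
    rw [h4, h1, one_mul]
  exact hz1' (hKP _ (hCK hzK) z.2)

end Cfsg.Agent.S4748
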