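import Cfsg.Statements.S4752
import Cfsg.Agent.Lib.H16XW

set_option autoImplicit false
open Cfsg

namespace Cfsg.Agent.S4752

/-- Let G be a finite group whose Sylow 3-subgroup P is extraspecial of order 27 and exponent 3, with N_G(P) ≤ C_G(Z(P)), and let M be a maximal ideal of the algebraic integers containing 3, B the principal 3-block of G, k its number of irreducible characters, k₀ the number of those of height zero, l its 3-regular rank (number of irreducible Brauer characters), and e the index of P·C_G(P) in N_G(P) (the order of the inertial quotient). Then e = 1 gives (k, k₀, l) = (11, 9, 1); e = 2 gives (10, 6, 2); e = 4 gives (14, 6, 4); e = 8 gives (16, 6, 5). -/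
theorem result {G : Type*} [Group G] [Finite G] (P : Sylow 3 G) (hE : Cfsg.IsExtraspecial 3 ↥(P : Subgroup G)) (h27 : Nat.card ↥(P : Subgroup G) = 27) (hexp : ∀ x ∈ (P : Subgroup G), x ^ 3 = 1) (hNC : ∀ g ∈ Subgroup.normalizer ((P : Subgroup G) : Set G), ∀ z ∈ (P : Subgroup G), (∀ y ∈ (P : Subgroup G), z * y = y * z) → g * z = z * g) (M : Ideal Cfsg.AlgInt) (hM : Cfsg.IsPModular 3 M) (k k₀ l e : ℕ) (hk : Nat.card ↥(Cfsg.principalBlock M G) = k) (hk₀ : Nat.card {χ : Cfsg.IrrCharacter G // χ ∈ Cfsg.principalBlock M G ∧ Cfsg.blockHeight 3 (Cfsg.principalBlock M G) (χ : G → ℂ) = 0} = k₀) (hl : Cfsg.blockRank 3 (Cfsg.principalBlock M G) = l) (he : ((P : Subgroup G) ⊔ Subgroup.centralizer ((P : Subgroup G) : Set G)).relIndex (Subgroup.normalizer ((P : Subgroup G) : Set G)) = e) : (e = 1 → k = 11 ∧ k₀ = 9 ∧ l = 1) ∧ (e = 2 → k = 10 ∧ k₀ = 6 ∧ l = 2) ∧ (e = 4 → k = 14 ∧ k₀ = 6 ∧ l = 4) ∧ (e = 8 → k = 16 ∧ k₀ = 6 ∧ l = 5) := by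
  obtain ⟨z, hz⟩ := Cfsg.Agent.Lib.H16XA.XD.of_extraspecial P hE h27 hexp hNC
  have hreal : Even e → ∃ X : Finset G, Cfsg.Agent.Lib.H16XA.XS P z X ∧ X.card * e = 8 := by
    intro hev
    obtain ⟨X, h1, h2, h3⟩ := hz.exists_X
    refine ⟨X, ⟨hz, h1, h2, ?_⟩, ?_⟩
    · intro u hu hu'
      refine hz.real_of_even ?_ hu hu'
      show Even (((P : Subgroup G) ⊔ Subgroup.centralizer ((P : Subgroup G) : Set G)).relIndex
        (Subgroup.normalizer ((P : Subgroup G) : Set G)))
      rw [he]; exact hev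
    · rw [← he]; exact h3
  have key : ∀ m : ℕ, Even e → m * e = 8 → (m = 1 ∨ m = 2 ∨ m = 4) → k = 6 + 2 * (6 - m) ∧ k₀ = 6 ∧ l = 6 - m := by
    intro m hev hme hm
    obtain ⟨X, hX, hXe⟩ := hreal hev
    have he0 : 0 < e := by
      rcases Nat.eq_zero_or_pos e with h0 | h0
      · rw [h0, mul_zero] at hme; omega
      · exact h0
    have hXm : X.card = m := Nat.eq_of_mul_eq_mul_right he0 (hXe.trans hme.symm)
    obtain ⟨h1, h2, h3⟩ := Cfsg.Agent.Lib.H16XI.main_real hX hM (by rw [hXm]; exact hm)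
    rw [hXm] at h1 h3
    exact ⟨hk.symm.trans h1, hk₀.symm.trans h2, hl.symm.trans h3⟩
  refine ⟨?_, ?_, ?_, ?_⟩
  · intro h1
    have hc : (commutator (P : Subgroup G)).index = 9 := by
      have e1 : commutator (P : Subgroup G) = Subgroup.center (P : Subgroup G) := hE.1.2.2
      have e2 : Nat.card (Subgroup.center (P : Subgroup G)) = 3 := hE.2
      have e3 := (commutator (P : Subgroup G)).card_mul_index
      rw [h27, e1, e2] at e3
      rw [e1]; omega
    obtain ⟨h2, h3, h4⟩ := Cfsg.Agent.Lib.H16XI.main_one hz hM hc (he.trans h1)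
    exact ⟨hk.symm.trans h2, hk₀.symm.trans h3, hl.symm.trans h4⟩
  · intro h1
    exact key 4 (by rw [h1]; decide) (by rw [h1]) (by decide)
  · intro h1
    exact key 2 (by rw [h1]; decide) (by rw [h1]) (by decide)
  · intro h1
    exact key 1 (by rw [h1]; decide) (by rw [h1]) (by decide)

end Cfsg.Agent.S4752
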