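import Cfsg.Statements.S4754
import Cfsg.Agent.Lib.StructConst

set_option autoImplicit false
open Cfsg

namespace Cfsg.Agent.S4754

open Cfsg.Agent.Lib.CharBasic Cfsg.Agent.Lib.StructConst

/-- For elements x, y of a finite group G, the conjugacy class of x y equals the set of all products of a conjugate of x with a conjugate of y if and only if χ(1) χ(a x a⁻¹ b y b⁻¹) = χ(x) χ(y) for all a, b ∈ G and every irreducible character χ. -/
theorem result {G : Type*} [Group G] [Finite G] (x y : G) : (∀ z : G, IsConj (x * y) z ↔ ∃ a b : G, z = a * x * a⁻¹ * (b * y * b⁻¹)) ↔ ∀ (a b : G) (χ : Cfsg.IrrCharacter G), (χ : G → ℂ) 1 * (χ : G → ℂ) (a * x * a⁻¹ * (b * y * b⁻¹)) = (χ : G → ℂ) x * (χ : G → ℂ) y := by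
  have := Fintype.ofFinite G
  have hcard : (Nat.card G : ℂ) ≠ 0 := by exact_mod_cast Nat.card_pos.ne'
  constructor
  · intro h a b χ
    have h0 := χ.2.one_ne_zero
    have h1 := sum_conj_mul χ.2 x y
    have h2 : ∀ b, (χ : G → ℂ) (x * (b * y * b⁻¹)) = (χ : G → ℂ) (x * y) := by
      intro b
      apply (χ.2.isClassFunction.conj_eq _).symm
      rw [h]
      exact ⟨1, b, by simp⟩
    simp only [h2, Finset.sum_const, Finset.card_univ, nsmul_eq_mul] at h1
    have h3 : (χ : G → ℂ) (a * x * a⁻¹ * (b * y * b⁻¹)) = (χ : G → ℂ) (x * y) := by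
      apply (χ.2.isClassFunction.conj_eq _).symm
      rw [h]
      exact ⟨a, b, rfl⟩
    rw [h3]
    rw [← Nat.card_eq_fintype_card] at h1
    rw [eq_div_iff h0] at h1
    have h4 : (Nat.card G : ℂ) * ((χ : G → ℂ) 1 * (χ : G → ℂ) (x * y)) =
        Nat.card G * ((χ : G → ℂ) x * (χ : G → ℂ) y) := by linear_combination h1
    exact mul_left_cancel₀ hcard h4
  · intro h z
    constructor
    · intro hz
      obtain ⟨c, hc⟩ := isConj_iff.mp hz
      exact ⟨c, c, by rw [← hc]; group⟩
    · rintro ⟨a, b, rfl⟩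
      rw [isConj_iff_forall_irr]
      intro χ
      have h0 := χ.2.one_ne_zero
      have h1 := h a b χ
      have h2 := h 1 1 χ
      simp only [one_mul, inv_one, mul_one] at h2
      exact mul_left_cancel₀ h0 (h2.trans h1.symm)

end Cfsg.Agent.S4754
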