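import Cfsg.Statements.S4755
import Cfsg.Agent.Lib.StructConst

set_option autoImplicit false
open Cfsg

namespace Cfsg.Agent.S4755

open Cfsg.Agent.Lib.CharBasic Cfsg.Agent.Lib.StructConst
open scoped ComplexConjugate commutatorElement

/-- Let x, y be non-identity elements of the finite group G such that χ(x' y') = χ(x') χ(y') for all conjugates x' of x, y' of y and every irreducible character χ. Then the conjugacy class of x y is the set of all products of a conjugate of x with a conjugate of y; every irreducible character of degree greater than 1 vanishes at x y; and the conjugacy class of x y is the coset of the commutator subgroup containing x y. -/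
theorem result {G : Type*} [Group G] [Finite G] (x y : G) (hx : x ≠ 1) (hy : y ≠ 1) (h : ∀ (a b : G) (χ : Cfsg.IrrCharacter G), (χ : G → ℂ) (a * x * a⁻¹ * (b * y * b⁻¹)) = (χ : G → ℂ) (a * x * a⁻¹) * (χ : G → ℂ) (b * y * b⁻¹)) : (∀ z : G, IsConj (x * y) z ↔ ∃ a b : G, z = a * x * a⁻¹ * (b * y * b⁻¹)) ∧ (∀ χ : Cfsg.IrrCharacter G, (χ : G → ℂ) 1 ≠ 1 → (χ : G → ℂ) (x * y) = 0) ∧ (∀ z : G, IsConj (x * y) z ↔ (x * y)⁻¹ * z ∈ commutator G) := by
  classical
  have := Fintype.ofFinite G
  have hcard : (Nat.card G : ℂ) ≠ 0 := by exact_mod_cast Nat.card_pos.ne'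
  have hval : ∀ (a b : G) (χ : Cfsg.IrrCharacter G),
      (χ : G → ℂ) (a * x * a⁻¹ * (b * y * b⁻¹)) = (χ : G → ℂ) x * (χ : G → ℂ) y := by
    intro a b χ
    rw [h, χ.2.isClassFunction, χ.2.isClassFunction]
  have hxy : ∀ χ : Cfsg.IrrCharacter G, (χ : G → ℂ) (x * y) = (χ : G → ℂ) x * (χ : G → ℂ) y := by
    intro χ
    simpa using hval 1 1 χ
  have hvan : ∀ χ : Cfsg.IrrCharacter G, (χ : G → ℂ) 1 ≠ 1 → (χ : G → ℂ) (x * y) = 0 := by
    intro χ h1
    have h0 := χ.2.one_ne_zero
    have h2 := sum_conj_mul χ.2 x y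
    have h3 : ∀ b, (χ : G → ℂ) (x * (b * y * b⁻¹)) = (χ : G → ℂ) x * (χ : G → ℂ) y := by
      intro b
      simpa using hval 1 b χ
    simp only [h3, Finset.sum_const, Finset.card_univ, nsmul_eq_mul] at h2
    rw [← Nat.card_eq_fintype_card, eq_div_iff h0] at h2
    have h4 : (Nat.card G : ℂ) * (((χ : G → ℂ) x * (χ : G → ℂ) y) * ((χ : G → ℂ) 1 - 1)) = 0 := by
      linear_combination h2
    rcases mul_eq_zero.mp h4 with h5 | h5
    · exact absurd h5 hcard
    · rcases mul_eq_zero.mp h5 with h6 | h6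
      · rw [hxy, h6]
      · exact absurd (sub_eq_zero.mp h6) h1
  refine ⟨?_, hvan, ?_⟩
  · intro z
    constructor
    · intro hz
      obtain ⟨c, hc⟩ := isConj_iff.mp hz
      exact ⟨c, c, by rw [← hc]; group⟩
    · rintro ⟨a, b, rfl⟩
      rw [isConj_iff_forall_irr]
      intro χ
      rw [hval, hxy]
  · intro z
    constructor
    · intro hz
      obtain ⟨c, hc⟩ := isConj_iff.mp hz
      rw [← hc]
      have : (x * y)⁻¹ * (c * (x * y) * c⁻¹) = ⁅(x * y)⁻¹, c⁆ := by
        rw [commutatorElement_def]; group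
      rw [this, commutator_def]
      exact Subgroup.commutator_mem_commutator (Subgroup.mem_top _) (Subgroup.mem_top _)
    · intro hz
      by_contra hc
      have h1 := column_orthogonality (x * y) z
      rw [if_neg hc] at h1
      have h2 : ∀ χ : IrrCharacter G, (χ : G → ℂ) (x * y) * conj ((χ : G → ℂ) z) =
          ((‖(χ : G → ℂ) (x * y)‖ ^ 2 : ℝ) : ℂ) := by
        intro χ
        by_cases h3 : (χ : G → ℂ) 1 = 1
        · rw [linear_eq_of_mem_commutator χ.2.isCharacter h3 hz, Complex.mul_conj,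
            Complex.normSq_eq_norm_sq]
        · rw [hvan χ h3]; simp
      simp only [h2] at h1
      rw [← Complex.ofReal_sum] at h1
      have h3 : ∑ χ : IrrCharacter G, ‖(χ : G → ℂ) (x * y)‖ ^ 2 = 0 := by exact_mod_cast h1
      rw [Finset.sum_eq_zero_iff_of_nonneg (fun _ _ => by positivity)] at h3
      have h4 : ∀ χ : IrrCharacter G, (χ : G → ℂ) (x * y) = 0 := by
        intro χ
        have := h3 χ (Finset.mem_univ _)
        simpa using this
      have h5 := column_orthogonality (x * y) (x * y)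
      rw [if_pos (IsConj.refl _)] at h5
      simp only [h4, zero_mul, Finset.sum_const_zero] at h5
      have h6 : (Nat.card (Subgroup.centralizer ({x * y} : Set G)) : ℂ) ≠ 0 := by
        exact_mod_cast Nat.card_pos.ne'
      exact h6 h5.symm

end Cfsg.Agent.S4755
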