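import Cfsg.Statements.S4756
import Cfsg.Agent.Lib.MultChar

set_option autoImplicit false
open Cfsg

namespace Cfsg.Agent.S4756

/-- For a finite group G the following are equivalent. (1) χ(x y) = χ(x) χ(y) for every irreducible character χ and all non-identity elements x, y of prime power orders for two different primes. (2) G is a p-group for some prime p, or G is abelian, or for some prime p: G = A P with P a normal Sylow p-subgroup and A a nontrivial cyclic subgroup of order prime to p such that, with C = C_P(A) and D = [A, P], one has P = C D, C abelian, D normal in G, C ∩ D = 1, and A acts fixed-point-freely on D (no non-identity element of A centralizes a non-identity element of D). -/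
theorem result {G : Type*} [Group G] [Finite G] : (∀ (x y : G) (χ : Cfsg.IrrCharacter G), x ≠ 1 → y ≠ 1 → (∃ p q a b : ℕ, p.Prime ∧ q.Prime ∧ p ≠ q ∧ orderOf x = p ^ a ∧ orderOf y = q ^ b) → (χ : G → ℂ) (x * y) = (χ : G → ℂ) x * (χ : G → ℂ) y) ↔ ((∃ p : ℕ, p.Prime ∧ IsPGroup p G) ∨ IsMulCommutative G ∨ ∃ (p : ℕ) (_ : Fact p.Prime) (P : Sylow p G) (A : Subgroup G), (P : Subgroup G).Normal ∧ IsCyclic ↥A ∧ A ≠ ⊥ ∧ (Nat.card ↥A).Coprime p ∧ A ⊔ (P : Subgroup G) = ⊤ ∧ IsMulCommutative ↥((P : Subgroup G) ⊓ Subgroup.centralizer (A : Set G)) ∧ (⁅A, (P : Subgroup G)⁆).Normal ∧ ((P : Subgroup G) ⊓ Subgroup.centralizer (A : Set G)) ⊔ ⁅A, (P : Subgroup G)⁆ = (P : Subgroup G) ∧ ((P : Subgroup G) ⊓ Subgroup.centralizer (A : Set G)) ⊓ ⁅A, (P : Subgroup G)⁆ = ⊥ ∧ ∀ a ∈ A, a ≠ 1 → ∀ d ∈ ⁅A, (P : Subgroup G)⁆, a * d = d * a → d = 1) := by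
  classical
  constructor
  · intro h
    by_cases hnp : ∃ p : ℕ, p.Prime ∧ IsPGroup p G
    · exact Or.inl hnp
    by_cases hc : ∀ a b : G, a * b = b * a
    · exact Or.inr (Or.inl ⟨⟨hc⟩⟩)
    exact Or.inr (Or.inr (Cfsg.Agent.Lib.MultChar.forward h hc hnp))
  · rintro (⟨p, hp, hP⟩ | hc | ⟨p, hp, P, A, hPn, hcyc, hA1, hcop, hsup, hCc, hDn, hCD, hCDi, hfpf⟩)
    · rintro x y χ hx hy ⟨q, r, a, b, hq, hr, hqr, hxo, hyo⟩
      exfalso
      have := Fact.mk hp
      obtain ⟨k, hk⟩ := (IsPGroup.iff_orderOf.mp hP) x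
      obtain ⟨l, hl⟩ := (IsPGroup.iff_orderOf.mp hP) y
      have aux : ∀ (z : G) (s m n : ℕ), z ≠ 1 → s.Prime → orderOf z = s ^ m → orderOf z = p ^ n →
          s = p := by
        intro z s m n hz hs h1 h2
        have hm : m ≠ 0 := by
          rintro rfl
          rw [pow_zero, orderOf_eq_one_iff] at h1
          exact hz h1
        have h3 : s ∣ p ^ n := by
          rw [← h2, h1]
          exact dvd_pow_self s hm
        exact (Nat.prime_dvd_prime_iff_eq hs hp).mp (hs.dvd_of_dvd_pow h3)
      exact hqr ((aux x q a k hx hq hxo hk).trans (aux y r b l hy hr hyo hl).symm)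
    · intro x y χ _ _ _
      exact χ.2.isCharacter.map_mul_of_linear
        (χ.2.one_eq_one_of_comm (fun a b => hc.is_comm.comm a b)) x y
    · rintro x y χ hx hy ⟨q, r, a, b, hq, hr, hqr, hxo, hyo⟩
      by_cases hχ : (χ : G → ℂ) 1 = 1
      · exact χ.2.isCharacter.map_mul_of_linear hχ x y
      have hvan : ∀ g : G, g ∉ P → (χ : G → ℂ) g = 0 := fun g hg =>
        Cfsg.Agent.Lib.MultChar.backward hPn hcyc hsup hCc hDn hCD hfpf hcop hg χ hχ
      have hpP := hp.out
      have aux : ∀ (z : G) (s m : ℕ), z ≠ 1 → s.Prime → orderOf z = s ^ m → z ∈ P → s = p := by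
        intro z s m hz hs h1 hzP
        obtain ⟨n, hn⟩ := (IsPGroup.iff_orderOf.mp P.2) ⟨z, hzP⟩
        rw [← Subgroup.orderOf_coe] at hn
        change orderOf z = p ^ n at hn
        have hm : m ≠ 0 := by
          rintro rfl
          rw [pow_zero, orderOf_eq_one_iff] at h1
          exact hz h1
        have h3 : s ∣ p ^ n := by
          rw [← hn, h1]
          exact dvd_pow_self s hm
        exact (Nat.prime_dvd_prime_iff_eq hs hpP).mp (hs.dvd_of_dvd_pow h3)
      -- the product is not in P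
      have hxy : x * y ∉ P ∧ (x ∉ P ∨ y ∉ P) := by
        by_cases hxP : x ∈ P
        · have hqp := aux x q a hx hq hxo hxP
          have hyP : y ∉ P := by
            intro hyP
            exact hqr (hqp.trans (aux y r b hy hr hyo hyP).symm)
          refine ⟨?_, Or.inr hyP⟩
          intro h
          exact hyP (((P : Subgroup G).mul_mem_cancel_left hxP).mp h)
        · refine ⟨?_, Or.inl hxP⟩
          intro h
          -- in the quotient, x and y⁻¹ agree, coprime orders
          apply hxP
          have h1 : ((x : G) : G ⧸ (P : Subgroup G)) * y = 1 :=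
            (QuotientGroup.eq_one_iff (x * y)).mpr h
          have h2 : ((x : G) : G ⧸ (P : Subgroup G)) = ((y : G) : G ⧸ (P : Subgroup G))⁻¹ :=
            eq_inv_of_mul_eq_one_left h1
          have h3 : orderOf ((x : G) : G ⧸ (P : Subgroup G)) ∣ q ^ a := by
            rw [← hxo]
            exact orderOf_map_dvd (QuotientGroup.mk' (P : Subgroup G)) x
          have h4 : orderOf ((x : G) : G ⧸ (P : Subgroup G)) ∣ r ^ b := by
            rw [h2, orderOf_inv, ← hyo]
            exact orderOf_map_dvd (QuotientGroup.mk' (P : Subgroup G)) y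
          have h5 : (q ^ a).Coprime (r ^ b) := Nat.Coprime.pow _ _ ((Nat.coprime_primes hq hr).mpr hqr)
          have h6 := Nat.eq_one_of_dvd_coprimes h5 h3 h4
          rw [orderOf_eq_one_iff] at h6
          exact (QuotientGroup.eq_one_iff x).mp h6
      rw [hvan _ hxy.1]
      rcases hxy.2 with h | h
      · rw [hvan _ h, zero_mul]
      · rw [hvan _ h, mul_zero]

end Cfsg.Agent.S4756
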