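import Cfsg.Statements.S4757
import Cfsg.Agent.Lib.NilChar
import Cfsg.Agent.Lib.BrauerFowler
import Cfsg.Agent.Lib.H23Basic

set_option autoImplicit false
open Cfsg

namespace Cfsg.Agent.S4757

open Cfsg.Agent.Lib Cfsg.Agent.Lib.CharBasic Cfsg.Agent.Lib.DefectZero
open scoped ComplexConjugate commutatorElement Pointwise

section
variable {G : Type*} [Group G] [Finite G]

/-- the hypothesis -/
def Hyp (u : G) (c : ℂ) : Prop := ∀ χ : Cfsg.IrrCharacter G, (χ : G → ℂ) ≠ (fun _ => (1 : ℂ)) → ((χ : G → ℂ) 1 - (χ : G → ℂ) u = c ∨ (χ : G → ℂ) u = 0)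

theorem one_irr : IsIrrCharacter G (fun _ : G => (1 : ℂ)) := isCharacter_trivial

/-- If all the terms `χ(1)χ(u)` (other than the principal one) are nonnegative reals we get a contradiction. -/
theorem no_nonneg {u : G} (hu : u ≠ 1)
    (h : ∀ χ : IrrCharacter G, (χ : G → ℂ) ≠ (fun _ => (1 : ℂ)) →
      ∃ r : ℝ, 0 ≤ r ∧ (χ : G → ℂ) 1 * (χ : G → ℂ) u = r) : False := by
  classical
  have h1 := sum_degree_mul u hu
  let χ₀ : IrrCharacter G := ⟨fun _ => 1, one_irr⟩
  rw [← Finset.add_sum_erase _ _ (Finset.mem_univ χ₀)] at h1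
  have h2 : ∀ χ : IrrCharacter G, χ ≠ χ₀ → ∃ r : ℝ, 0 ≤ r ∧ (χ : G → ℂ) 1 * (χ : G → ℂ) u = r :=
    fun χ hχ => h χ (fun h3 => hχ (Subtype.ext h3))
  have h3 := congrArg Complex.re h1
  rw [Complex.add_re, Complex.re_sum] at h3
  have h4 : 0 ≤ ∑ χ ∈ Finset.univ.erase χ₀, ((χ : G → ℂ) 1 * (χ : G → ℂ) u).re := by
    apply Finset.sum_nonneg
    intro χ hχ
    obtain ⟨r, hr, h5⟩ := h2 χ (Finset.ne_of_mem_erase hχ)
    rw [h5]; simpa using hr
  have h5 : ((χ₀ : G → ℂ) 1 * (χ₀ : G → ℂ) u).re = 1 := by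
    show ((1 : ℂ) * 1).re = 1
    simp
  rw [h5] at h3
  simp only [Complex.zero_re] at h3
  linarith

theorem perfect_of_two {u : G} (hu : u ≠ 1) (hyp : Hyp u 2) : commutator G ≠ ⊤ := by
  intro hperf
  apply no_nonneg hu
  intro χ hχ
  rcases hyp χ hχ with h1 | h1
  · have h2 : (χ : G → ℂ) u = (χ : G → ℂ) 1 - 2 := by linear_combination -h1
    have hd := charDegree_eq χ.2.isCharacter
    have hpos := charDegree_pos χ.2
    have hne : charDegree (χ : G → ℂ) ≠ 1 := by
      intro h3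
      apply hχ
      have h4 : (χ : G → ℂ) 1 = 1 := by rw [← hd, h3]; simp
      funext g
      exact χ.2.isCharacter.eq_one_on_commutator h4 (by rw [hperf]; exact Subgroup.mem_top g)
    have h2le : 2 ≤ charDegree (χ : G → ℂ) := by omega
    refine ⟨(charDegree (χ : G → ℂ) : ℝ) * ((charDegree (χ : G → ℂ) : ℝ) - 2), ?_, ?_⟩
    · have : (2 : ℝ) ≤ (charDegree (χ : G → ℂ) : ℝ) := by exact_mod_cast h2le
      nlinarith
    · rw [h2, ← hd]; push_cast; ring
  · exact ⟨0, le_refl _, by rw [h1]; simp⟩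

theorem structure_of_not_perfect {u : G} (hu : u ≠ 1) {c : ℂ} (hyp : Hyp u c)
    (hnp : commutator G ≠ ⊤) :
    c = 2 ∧ Nat.card (Subgroup.centralizer ({u} : Set G)) = 2 := by
  classical
  -- a nonprincipal linear character
  have hidx : 1 < Nat.card {χ : IrrCharacter G // (χ : G → ℂ) 1 = 1} := by
    rw [card_linear]
    have h1 : (commutator G).index ≠ 1 := by rwa [Ne, Subgroup.index_eq_one]
    have h2 : (commutator G).index ≠ 0 := Subgroup.index_ne_zero_of_finite
    omega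
  have hnt : Nontrivial {χ : IrrCharacter G // (χ : G → ℂ) 1 = 1} :=
    Finite.one_lt_card_iff_nontrivial.mp hidx
  obtain ⟨⟨lam, hlam1⟩, hlamne⟩ := exists_ne
    (⟨⟨fun _ => 1, one_irr⟩, rfl⟩ : {χ : IrrCharacter G // (χ : G → ℂ) 1 = 1})
  have hlamne' : (lam : G → ℂ) ≠ (fun _ => 1) := fun h => hlamne (Subtype.ext (Subtype.ext h))
  have hlin : ∀ mu : G → ℂ, IsCharacter G mu → mu 1 = 1 → mu ≠ (fun _ => 1) → mu u = 1 - c := by
    intro mu hmu h1 hne
    rcases hyp ⟨mu, hmu.isIrr_of_one_eq_one h1⟩ hne with h | h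
    · have h' : mu 1 - mu u = c := h
      rw [h1] at h'
      linear_combination -h'
    · exact absurd h (hmu.ne_zero_of_linear h1 u)
  have hlc := lam.2.isCharacter
  have hc0 : c ≠ 0 := by
    intro h0
    apply no_nonneg hu
    intro χ hχ
    rcases hyp χ hχ with h1 | h1
    · have h2 : (χ : G → ℂ) u = (χ : G → ℂ) 1 := by rw [h0] at h1; linear_combination -h1
      refine ⟨(charDegree (χ : G → ℂ) : ℝ) ^ 2, by positivity, ?_⟩
      rw [h2, ← charDegree_eq χ.2.isCharacter]; push_cast; ring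
    · exact ⟨0, le_refl _, by rw [h1]; simp⟩
  have hlu := hlin lam hlc hlam1 hlamne'
  have hc1 : c ≠ 1 := by
    intro h1
    apply hlc.ne_zero_of_linear hlam1 u
    rw [hlu, h1, sub_self]
  have hsq : ∀ mu : G → ℂ, IsCharacter G mu → mu 1 = 1 → mu ≠ (fun _ => 1) → mu * mu = fun _ => 1 := by
    intro mu hmu h1 hne
    by_contra hne2
    have h2 := hlin (mu * mu) (hmu.mul hmu) (by simp [h1]) hne2
    rw [Pi.mul_apply, hlin mu hmu h1 hne] at h2
    have h3 : c * (c - 1) = 0 := by linear_combination h2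
    rcases mul_eq_zero.mp h3 with h4 | h4
    · exact hc0 h4
    · exact hc1 (sub_eq_zero.mp h4)
  have hc2 : c = 2 := by
    have h1 := congrFun (hsq lam hlc hlam1 hlamne') u
    rw [Pi.mul_apply, hlu] at h1
    have h2 : c * (c - 2) = 0 := by linear_combination h1
    rcases mul_eq_zero.mp h2 with h4 | h4
    · exact absurd h4 hc0
    · exact sub_eq_zero.mp h4
  refine ⟨hc2, ?_⟩
  have huniq : ∀ mu : IrrCharacter G, (mu : G → ℂ) 1 = 1 → (mu : G → ℂ) ≠ (fun _ => 1) → mu = lam := by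
    intro mu hmu1 hmune
    by_contra hne
    have h1 : (mu : G → ℂ) * (lam : G → ℂ) ≠ fun _ => 1 := by
      intro h2
      apply hne
      apply Subtype.ext
      have h3 := hsq lam hlc hlam1 hlamne'
      funext g
      have h4 := congrFun h2 g
      have h5 := congrFun h3 g
      rw [Pi.mul_apply] at h4 h5
      have h6 := hlc.ne_zero_of_linear hlam1 g
      apply mul_right_cancel₀ h6
      rw [h4, h5]
    have h2 := hlin _ (mu.2.isCharacter.mul hlc) (by simp [hmu1, hlam1]) h1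
    rw [Pi.mul_apply, hlin mu mu.2.isCharacter hmu1 hmune, hlu, hc2] at h2
    norm_num at h2
  -- the sum
  let χ₀ : IrrCharacter G := ⟨fun _ => 1, one_irr⟩
  have hne0 : lam ≠ χ₀ := fun h => hlamne' (congrArg Subtype.val h)
  have hterm : ∀ χ : IrrCharacter G, χ ≠ χ₀ → χ ≠ lam → ∃ r : ℝ, 0 ≤ r ∧
      (χ : G → ℂ) 1 * (χ : G → ℂ) u = r ∧ (r = 0 → (χ : G → ℂ) u = 0) := by
    intro χ h0 h1
    have h0' : (χ : G → ℂ) ≠ (fun _ => 1) := fun h => h0 (Subtype.ext h)
    rcases hyp χ h0' with h2 | h2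
    · have h3 : (χ : G → ℂ) u = (χ : G → ℂ) 1 - 2 := by rw [hc2] at h2; linear_combination -h2
      have hd := charDegree_eq χ.2.isCharacter
      have hpos := charDegree_pos χ.2
      have hne : charDegree (χ : G → ℂ) ≠ 1 := by
        intro h3
        apply h1
        exact huniq χ (by rw [← hd, h3]; simp) h0'
      have h2le : 2 ≤ charDegree (χ : G → ℂ) := by omega
      have h2le' : (2 : ℝ) ≤ (charDegree (χ : G → ℂ) : ℝ) := by exact_mod_cast h2le
      refine ⟨(charDegree (χ : G → ℂ) : ℝ) * ((charDegree (χ : G → ℂ) : ℝ) - 2), by nlinarith, ?_, ?_⟩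
      · rw [h3, ← hd]; push_cast; ring
      · intro h4
        have h5 : (charDegree (χ : G → ℂ) : ℝ) - 2 = 0 := by
          rcases mul_eq_zero.mp h4 with h5 | h5
          · linarith
          · exact h5
        have h6 : (charDegree (χ : G → ℂ) : ℝ) = 2 := by linarith
        have h7 : charDegree (χ : G → ℂ) = 2 := by exact_mod_cast h6
        rw [h3, ← hd, h7]; norm_num
    · exact ⟨0, le_refl _, by rw [h2]; simp, fun _ => h2⟩
  have h1 := sum_degree_mul u hu
  have hmem : lam ∈ Finset.univ.erase χ₀ := Finset.mem_erase.mpr ⟨hne0, Finset.mem_univ _⟩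
  rw [← Finset.add_sum_erase _ _ (Finset.mem_univ χ₀), ← Finset.add_sum_erase _ _ hmem] at h1
  have e0 : (χ₀ : G → ℂ) 1 * (χ₀ : G → ℂ) u = 1 := one_mul 1
  have hlu' : (lam : G → ℂ) u = -1 := by rw [hlu, hc2]; norm_num
  have e1 : (lam : G → ℂ) 1 * (lam : G → ℂ) u = -1 := by rw [hlam1, hlu']; ring
  rw [e0, e1] at h1
  have h2 : ∑ χ ∈ (Finset.univ.erase χ₀).erase lam, ((χ : G → ℂ) 1 * (χ : G → ℂ) u).re = 0 := by
    have h3 := congrArg Complex.re h1
    rw [Complex.add_re, Complex.add_re, Complex.re_sum] at h3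
    simp only [Complex.one_re, Complex.neg_re, Complex.zero_re] at h3
    linarith
  have hnn : ∀ χ ∈ (Finset.univ.erase χ₀).erase lam, 0 ≤ ((χ : G → ℂ) 1 * (χ : G → ℂ) u).re := by
    intro χ hχ
    have h3 := Finset.mem_erase.mp hχ
    obtain ⟨r, hr, h4, -⟩ := hterm χ (Finset.ne_of_mem_erase h3.2) h3.1
    rw [h4]; simpa using hr
  have hzero : ∀ χ ∈ (Finset.univ.erase χ₀).erase lam, (χ : G → ℂ) u = 0 := by
    intro χ hχ
    have h3 := (Finset.sum_eq_zero_iff_of_nonneg hnn).mp h2 χ hχ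
    have h4 := Finset.mem_erase.mp hχ
    obtain ⟨r, hr, h5, h6⟩ := hterm χ (Finset.ne_of_mem_erase h4.2) h4.1
    apply h6
    rw [h5] at h3
    simpa using h3
  have h3 := column_orthogonality u u
  rw [if_pos (IsConj.refl u), ← Finset.add_sum_erase _ _ (Finset.mem_univ χ₀),
    ← Finset.add_sum_erase _ _ hmem] at h3
  have h4 : ∑ χ ∈ (Finset.univ.erase χ₀).erase lam, (χ : G → ℂ) u * conj ((χ : G → ℂ) u) = 0 := by
    apply Finset.sum_eq_zero
    intro χ hχ
    rw [hzero χ hχ]; simp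
  have e2 : (χ₀ : G → ℂ) u * conj ((χ₀ : G → ℂ) u) = 1 := by
    show (1 : ℂ) * conj (1 : ℂ) = 1
    simp
  rw [h4, e2, hlu'] at h3
  have h5 : ((2 : ℕ) : ℂ) = (Nat.card (Subgroup.centralizer ({u} : Set G)) : ℂ) := by
    rw [← h3]; simp; norm_num
  exact_mod_cast h5.symm

theorem struct {u : G} (hu : u ≠ 1)
    (hC : Nat.card (Subgroup.centralizer ({u} : Set G)) = 2) :
    orderOf u = 2 ∧ Subgroup.zpowers u ⊔ Cfsg.oddCore G = ⊤ ∧
      Subgroup.centralizer ({u} : Set G) = Subgroup.zpowers u := by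
  classical
  have hle : Subgroup.zpowers u ≤ Subgroup.centralizer ({u} : Set G) := by
    rw [Subgroup.zpowers_le, Subgroup.mem_centralizer_singleton_iff]
  have hord : orderOf u = 2 := by
    have h1 : orderOf u ∣ 2 := by
      rw [← hC, ← Nat.card_zpowers]
      exact Subgroup.card_dvd_of_le hle
    rcases (Nat.dvd_prime Nat.prime_two).mp h1 with h | h
    · exact absurd (orderOf_eq_one_iff.mp h) hu
    · exact h
  have hCz : Subgroup.centralizer ({u} : Set G) = Subgroup.zpowers u := by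
    symm
    apply Subgroup.eq_of_le_of_card_ge hle
    rw [hC, Nat.card_zpowers, hord]
  refine ⟨hord, ?_, hCz⟩
  -- Sylow 2-subgroup
  have : Fact (Nat.Prime 2) := ⟨Nat.prime_two⟩
  have h2 : IsPGroup 2 (Subgroup.zpowers u) := by
    apply IsPGroup.of_card (n := 1)
    rw [Nat.card_zpowers, hord]; rfl
  obtain ⟨T, hT⟩ := h2.exists_le_sylow
  have huT : u ∈ (T : Subgroup G) := hT (Subgroup.mem_zpowers u)
  have hTnt : Nontrivial (T : Subgroup G) :=
    ⟨⟨⟨u, huT⟩, 1, fun h => hu (congrArg Subtype.val h)⟩⟩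
  have := T.isPGroup'.center_nontrivial
  obtain ⟨⟨z, hzc⟩, hz1⟩ := exists_ne (1 : Subgroup.center (T : Subgroup G))
  have hz1' : (z : G) ≠ 1 := fun h => hz1 (Subtype.ext (Subtype.ext h))
  have hzu : (z : G) = u := by
    have h3 : (z : G) ∈ Subgroup.centralizer ({u} : Set G) := by
      rw [Subgroup.mem_centralizer_singleton_iff]
      exact (congrArg Subtype.val (Subgroup.mem_center_iff.mp hzc ⟨u, huT⟩)).symm
    rw [hCz] at h3
    obtain ⟨k, hk⟩ := h3
    have hk' : u ^ k = (z : G) := hk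
    rw [← zpow_mod_orderOf, hord] at hk'
    rcases Int.emod_two_eq_zero_or_one k with h4 | h4
    · have h4' : k % ((2 : ℕ) : ℤ) = 0 := h4
      rw [h4', zpow_zero] at hk'
      exact absurd hk'.symm hz1'
    · have h4' : k % ((2 : ℕ) : ℤ) = 1 := h4
      rw [h4', zpow_one] at hk'
      exact hk'.symm
  have hTle : (T : Subgroup G) ≤ Subgroup.centralizer ({u} : Set G) := by
    intro x hx
    rw [Subgroup.mem_centralizer_singleton_iff, ← hzu]
    exact congrArg Subtype.val (Subgroup.mem_center_iff.mp hzc ⟨x, hx⟩)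
  have hTcard : Nat.card (T : Subgroup G) = 2 := by
    apply le_antisymm
    · exact (Subgroup.card_le_of_le hTle).trans hC.le
    · have h3 := Subgroup.card_le_of_le hT
      rwa [Nat.card_zpowers, hord] at h3
  have hmod : Nat.card G % 4 = 2 := by
    have h3 := Subgroup.card_mul_index (T : Subgroup G)
    have h4 := T.not_dvd_index
    rw [hTcard] at h3
    omega
  obtain ⟨K, hK⟩ := BrauerFowler.exists_index_two_of_two_mod_four hmod
  have hKn : K.Normal := Subgroup.normal_of_index_eq_two hK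
  have hKodd : (Nat.card K).Coprime 2 := by
    have h3 := Subgroup.card_mul_index K
    rw [hK] at h3
    rw [Nat.coprime_two_right, Nat.odd_iff]
    omega
  have hKO : K ≤ Cfsg.oddCore G := H23Basic.le_pPrimeCore hKn hKodd
  have huK : u ∉ K := by
    intro h
    have h3 : orderOf u ∣ Nat.card K := Subgroup.orderOf_dvd_natCard K h
    rw [hord] at h3
    rw [Nat.coprime_two_right, Nat.odd_iff] at hKodd
    omega
  rw [eq_top_iff]
  intro g _
  by_cases hg : g ∈ K
  · exact Subgroup.mem_sup_right (hKO hg)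
  · have h3 : u⁻¹ * g ∈ K := by
      rw [Subgroup.mul_mem_iff_of_index_two hK]
      have : u⁻¹ ∉ K := fun h => huK (by simpa using K.inv_mem h)
      tauto
    have h4 : g = u * (u⁻¹ * g) := by group
    rw [h4]
    exact Subgroup.mul_mem_sup (Subgroup.mem_zpowers u) (hKO h3)

theorem not_perfect {u : G} (hord : orderOf u = 2)
    (htop : Subgroup.zpowers u ⊔ Cfsg.oddCore G = ⊤) : commutator G ≠ ⊤ := by
  intro hperf
  have hn : (Cfsg.oddCore G).Normal := inferInstance
  have hcom : commutator G ≤ Cfsg.oddCore G := by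
    rw [commutator_def, Subgroup.commutator_le]
    intro a _ b _
    have key : ∀ g : G, ∃ k : ℤ, (QuotientGroup.mk g : G ⧸ Cfsg.oddCore G) = (QuotientGroup.mk u) ^ k := by
      intro g
      have hg : g ∈ Subgroup.zpowers u ⊔ Cfsg.oddCore G := by rw [htop]; trivial
      have hg' : g ∈ ((Subgroup.zpowers u : Set G) * (Cfsg.oddCore G : Set G)) := by
        rw [← Subgroup.mul_normal]; exact hg
      obtain ⟨x, ⟨k, hk⟩, o, ho, hxo⟩ := hg'
      refine ⟨k, ?_⟩
      have hk' : u ^ k = x := hk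
      have hxo' : x * o = g := hxo
      rw [← hxo', ← hk', QuotientGroup.mk_mul, (QuotientGroup.eq_one_iff o).mpr ho, mul_one]
      rfl
    obtain ⟨i, hi⟩ := key a
    obtain ⟨j, hj⟩ := key b
    rw [← QuotientGroup.eq_one_iff, commutatorElement_def, QuotientGroup.mk_mul,
      QuotientGroup.mk_mul, QuotientGroup.mk_mul, QuotientGroup.mk_inv, QuotientGroup.mk_inv, hi, hj]
    group
  rw [hperf, top_le_iff] at hcom
  have h1 := H23Basic.odd_card_oddCore (G := G)
  rw [hcom, Subgroup.card_top] at h1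
  have h2 := orderOf_dvd_natCard u
  rw [hord] at h2
  rw [Nat.odd_iff] at h1
  omega

end

/-- Let u ≠ 1 be an element of the finite group G and c a complex number such that every non-principal irreducible character χ satisfies χ(1) − χ(u) = c or χ(u) = 0. Then the following are equivalent: (a) u has order 2, G is generated by u together with O(G), the largest normal subgroup of G of odd order, and the centralizer of u is {1, u}; (b) G is not perfect; (c) c = 2. -/
theorem result {G : Type*} [Group G] [Finite G] (u : G) (hu : u ≠ 1) (c : ℂ) (hyp : ∀ χ : Cfsg.IrrCharacter G, (χ : G → ℂ) ≠ (fun _ => (1 : ℂ)) → ((χ : G → ℂ) 1 - (χ : G → ℂ) u = c ∨ (χ : G → ℂ) u = 0)) : ((orderOf u = 2 ∧ Subgroup.zpowers u ⊔ Cfsg.oddCore G = ⊤ ∧ Subgroup.centralizer ({u} : Set G) = Subgroup.zpowers u) ↔ commutator G ≠ ⊤) ∧ (commutator G ≠ ⊤ ↔ c = 2) := by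
  refine ⟨⟨fun h => not_perfect h.1 h.2.1, fun h => ?_⟩, ⟨fun h => ?_, fun h => ?_⟩⟩
  · exact struct hu (structure_of_not_perfect hu hyp h).2
  · exact (structure_of_not_perfect hu hyp h).1
  · subst h
    exact perfect_of_two hu hyp

end Cfsg.Agent.S4757
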