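import Cfsg.Statements.S4762
import Cfsg.Agent.Lib.NilChar
import Cfsg.Agent.Lib.FrattiniQuot
import Cfsg.Agent.Lib.MinimalClass
import Cfsg.Agent.Lib.CharDegrees

set_option autoImplicit false
open Cfsg

namespace Cfsg.Agent.S4762

open Cfsg Cfsg.Agent.Lib Cfsg.Agent.Lib.CharBasic Cfsg.Agent.Lib.DefectZero Cfsg.Agent.Lib.NilChar
open scoped ComplexConjugate commutatorElement

section
variable {G : Type*} [Group G] [Finite G]

/-- for a normal `p`-subgroup `P`, characters of degree prime to `p` are constant on `P'` -/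
theorem const_of_not_dvd (p : ℕ) [Fact p.Prime] (P : Subgroup G) [P.Normal] (hP : IsPGroup p P)
    (χ : IrrCharacter G) (h : ¬ p ∣ charDegree (χ : G → ℂ)) {g : G} (hg : g ∈ ⁅P, P⁆) :
    (χ : G → ℂ) g = (χ : G → ℂ) 1 := by
  classical
  have := Fintype.ofFinite G
  have := Fintype.ofFinite P
  refine const_on_commutator χ.2.isCharacter P (fun θ hθ => ?_) hg
  have h1 := DegTools.charDegree_dvd_of_constituent P χ.2 θ.2 hθ
  have h2 := charDegree_dvd θ.2
  obtain ⟨k, hk⟩ := IsPGroup.iff_card.mp hP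
  rw [hk] at h2
  obtain ⟨j, -, hj⟩ := (Nat.dvd_prime_pow Fact.out).mp h2
  have h3 : j = 0 := by
    by_contra hj0
    apply h
    apply dvd_trans _ h1
    rw [hj]
    exact dvd_pow_self p hj0
  rw [← charDegree_eq θ.2.isCharacter, hj, h3]
  simp

theorem counting (p : ℕ) [hp : Fact p.Prime] [Group.IsNilpotent G]
    (hcard : Nat.card {χ : IrrCharacter G // p ∣ charDegree (χ : G → ℂ)} = 1)
    (P : Sylow p G) :
    Nat.card (Subgroup.center G) = 2 ∧ Nat.card (⁅(P : Subgroup G), (P : Subgroup G)⁆ : Subgroup G) = 2 := by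
  classical
  have := Fintype.ofFinite G
  have hPn : (P : Subgroup G).Normal := inferInstance
  obtain ⟨hss, ⟨⟨χ, hχ⟩⟩⟩ := Nat.card_eq_one_iff_unique.mp hcard
  have huniq : ∀ ψ : IrrCharacter G, ψ ≠ χ → ¬ p ∣ charDegree (ψ : G → ℂ) := by
    intro ψ hne hd
    apply hne
    exact congrArg Subtype.val (hss.elim ⟨ψ, hd⟩ ⟨χ, hχ⟩)
  set N : Subgroup G := ⁅(P : Subgroup G), (P : Subgroup G)⁆ with hN
  have hNn : N.Normal := inferInstance
  have := Fintype.ofFinite N
  have hNP : N ≤ P := Subgroup.commutator_le_self _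
  -- N ≠ 1
  have hN1 : N ≠ ⊥ := by
    intro h
    have h1 : ∀ a ∈ (P : Subgroup G), ∀ b ∈ (P : Subgroup G), a * b = b * a := by
      intro a ha b hb
      have h2 : ⁅a, b⁆ ∈ N := Subgroup.commutator_mem_commutator ha hb
      rw [h, Subgroup.mem_bot] at h2
      exact commutatorElement_eq_one_iff_mul_comm.mp h2
    have h2 := CharDegrees.ito χ.2 (P : Subgroup G) h1 (charDegree (χ : G → ℂ))
      (charDegree_eq χ.2.isCharacter).symm
    exact P.not_dvd_index (hχ.trans h2)
  -- the column relation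
  have hcol : ∀ n ∈ N, n ≠ 1 → (χ : G → ℂ) 1 * (χ : G → ℂ) n = (χ : G → ℂ) 1 ^ 2 - Nat.card G := by
    intro n hn hn1
    have h1 := sum_degree_mul n hn1
    have h2 := sum_degree_sq (G := G)
    rw [← Finset.add_sum_erase _ _ (Finset.mem_univ χ)] at h1 h2
    have h3 : ∑ ψ ∈ Finset.univ.erase χ, (ψ : G → ℂ) 1 * (ψ : G → ℂ) n =
        ∑ ψ ∈ Finset.univ.erase χ, (ψ : G → ℂ) 1 ^ 2 := by
      apply Finset.sum_congr rfl
      intro ψ hψ
      rw [const_of_not_dvd p (P : Subgroup G) P.isPGroup' ψ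
        (huniq ψ (Finset.ne_of_mem_erase hψ)) hn, sq]
    rw [h3] at h1
    linear_combination h1 - h2
  have hG0 : (Nat.card G : ℂ) ≠ 0 := by exact_mod_cast Nat.card_pos.ne'
  have hsum := sum_normal_eq_zero χ.2 N (by
    obtain ⟨n, hn⟩ := Subgroup.ne_bot_iff_exists_ne_one.mp hN1
    refine ⟨n, n.2, fun h => hG0 ?_⟩
    have h1 := hcol n n.2 (by simpa using hn)
    rw [h] at h1
    linear_combination h1 )
  have h1 : (χ : G → ℂ) 1 * ∑ n : N, (χ : G → ℂ) n = 0 := by rw [hsum, mul_zero]
  rw [Finset.mul_sum, ← Finset.add_sum_erase _ _ (Finset.mem_univ (1 : N))] at h1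
  have h2 : ∑ n ∈ Finset.univ.erase (1 : N), (χ : G → ℂ) 1 * (χ : G → ℂ) n =
      ∑ n ∈ Finset.univ.erase (1 : N), ((χ : G → ℂ) 1 ^ 2 - Nat.card G) := by
    apply Finset.sum_congr rfl
    intro n hn
    exact hcol n n.2 (by simpa using Finset.ne_of_mem_erase hn)
  rw [h2, Finset.sum_const, Finset.card_erase_of_mem (Finset.mem_univ _), Finset.card_univ,
    ← Nat.card_eq_fintype_card, nsmul_eq_mul, OneMemClass.coe_one,
    ← charDegree_eq χ.2.isCharacter] at h1
  set d := charDegree (χ : G → ℂ) with hd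
  have hNcard : 2 ≤ Nat.card N := by
    have : 1 < Nat.card N := (Subgroup.one_lt_card_iff_ne_bot N).mpr hN1
    omega
  have h3 : (Nat.card N) * d ^ 2 = (Nat.card N - 1) * Nat.card G := by
    have h4 : ((Nat.card N - 1 : ℕ) : ℂ) = (Nat.card N : ℂ) - 1 := by
      rw [Nat.cast_sub (by omega)]; simp
    have h5 : ((Nat.card N : ℂ)) * (d : ℂ) ^ 2 = ((Nat.card N - 1 : ℕ) : ℂ) * Nat.card G := by
      rw [h4] at h1 ⊢
      linear_combination h1
    exact_mod_cast h5
  have h4 := sq_mul_center_le χ.2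
  rw [← hd] at h4
  have hnt : Nontrivial G := by
    obtain ⟨n, hn⟩ := Subgroup.ne_bot_iff_exists_ne_one.mp hN1
    exact ⟨⟨(n : G), 1, by simpa using hn⟩⟩
  have hZ2 : 2 ≤ Nat.card (Subgroup.center G) := by
    obtain ⟨z, hz, hzc, hz1⟩ := MinimalClass.exists_mem_center_of_normal (⊤ : Subgroup G) top_ne_bot
    have : 1 < Nat.card (Subgroup.center G) :=
      (Subgroup.one_lt_card_iff_ne_bot _).mpr (fun h => hz1 (by rwa [h, Subgroup.mem_bot] at hzc))
    omega
  have hGpos : 0 < Nat.card G := Nat.card_pos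
  -- |Z| (|N|-1) ≤ |N|
  have h5 : Nat.card (Subgroup.center G) * (Nat.card N - 1) ≤ Nat.card N := by
    apply Nat.le_of_mul_le_mul_right _ hGpos
    calc Nat.card (Subgroup.center G) * (Nat.card N - 1) * Nat.card G
        = Nat.card (Subgroup.center G) * (Nat.card N * d ^ 2) := by rw [h3]; ring
      _ = Nat.card N * (d ^ 2 * Nat.card (Subgroup.center G)) := by ring
      _ ≤ Nat.card N * Nat.card G := Nat.mul_le_mul_left _ h4
  obtain ⟨m, hm⟩ : ∃ m, Nat.card N = m + 2 := ⟨Nat.card N - 2, by omega⟩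
  obtain ⟨k, hk⟩ : ∃ k, Nat.card (Subgroup.center G) = k + 2 :=
    ⟨Nat.card (Subgroup.center G) - 2, by omega⟩
  rw [hm, hk] at h5
  have h6 : m + 2 - 1 = m + 1 := rfl
  rw [h6] at h5
  have h7 : k = 0 ∧ m = 0 := by
    constructor <;> nlinarith
  rw [hm, hk, h7.1, h7.2]
  exact ⟨rfl, rfl⟩

theorem forward (p : ℕ) [hp : Fact p.Prime] [Group.IsNilpotent G]
    (hcard : Nat.card {χ : IrrCharacter G // p ∣ charDegree (χ : G → ℂ)} = 1) :
    p = 2 ∧ IsExtraspecial 2 G := by
  classical
  have P : Sylow p G := default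
  obtain ⟨hZ, hN⟩ := counting p hcard P
  set N : Subgroup G := ⁅(P : Subgroup G), (P : Subgroup G)⁆ with hNdef
  have hNn : N.Normal := inferInstance
  have hNP : N ≤ P := Subgroup.commutator_le_self _
  have hp2 : p = 2 := by
    have h1 : Nat.card N ∣ Nat.card P := Subgroup.card_dvd_of_le hNP
    obtain ⟨k, hk⟩ := IsPGroup.iff_card.mp P.isPGroup'
    rw [hN, hk] at h1
    exact ((Nat.prime_dvd_prime_iff_eq Nat.prime_two hp.out).mp
      (Nat.prime_two.dvd_of_dvd_pow h1)).symm
  refine ⟨hp2, ?_⟩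
  subst hp2
  have hG2 : IsPGroup 2 G := by
    have h1 : Nat.card G = 2 ^ (Nat.card G).primeFactorsList.length := by
      apply Nat.eq_prime_pow_of_unique_prime_dvd Nat.card_pos.ne'
      intro q hq hqG
      have : Fact q.Prime := ⟨hq⟩
      have Q : Sylow q G := default
      have hQn : (Q : Subgroup G).Normal := inferInstance
      have hQ1 : (Q : Subgroup G) ≠ ⊥ := by
        intro h
        have h2 := Q.dvd_card_of_dvd_card hqG
        rw [h, Subgroup.card_bot] at h2
        exact hq.one_lt.ne' (Nat.dvd_one.mp h2)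
      obtain ⟨z, hzQ, hzc, hz1⟩ := MinimalClass.exists_mem_center_of_normal (Q : Subgroup G) hQ1
      have h3 : orderOf z ∣ 2 := by
        rw [← hZ]
        exact Subgroup.orderOf_dvd_natCard _ hzc
      obtain ⟨k, hk⟩ := IsPGroup.iff_card.mp Q.isPGroup'
      have h4 : orderOf z ∣ q ^ k := by
        rw [← hk]; exact Subgroup.orderOf_dvd_natCard _ hzQ
      have h5 : orderOf z = 2 := by
        rcases (Nat.dvd_prime Nat.prime_two).mp h3 with h | h
        · exact absurd (orderOf_eq_one_iff.mp h) hz1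
        · exact h
      rw [h5] at h4
      exact ((Nat.prime_dvd_prime_iff_eq Nat.prime_two hq).mp
        (Nat.prime_two.dvd_of_dvd_pow h4)).symm
    exact IsPGroup.of_card h1
  have hPtop : (P : Subgroup G) = ⊤ := by
    exact (P.is_maximal' (hG2.to_subgroup ⊤) le_top).symm
  have hcomm : commutator G = N := by
    rw [hNdef, hPtop]; rfl
  have hNZ : N = Subgroup.center G := by
    have h1 : N ≤ Subgroup.center G := by
      have hN1 : N ≠ ⊥ := by
        intro h; rw [h, Subgroup.card_bot] at hN; omega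
      obtain ⟨z, hzN, hzc, hz1⟩ := MinimalClass.exists_mem_center_of_normal N hN1
      have h2 : N = Subgroup.zpowers z := by
        symm
        apply Subgroup.eq_of_le_of_card_ge
        · rwa [Subgroup.zpowers_le]
        · rw [hN, Nat.card_zpowers]
          by_contra hlt
          have h3 : orderOf z = 1 := by
            have := orderOf_pos z; omega
          exact hz1 (orderOf_eq_one_iff.mp h3)
      rw [h2, Subgroup.zpowers_le]
      exact hzc
    apply Subgroup.eq_of_le_of_card_ge h1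
    rw [hZ, hN]
  have hNcomm : ∀ a b : G, ⁅a, b⁆ ∈ Subgroup.center G := by
    intro a b
    rw [← hNZ, ← hcomm]
    exact Subgroup.commutator_mem_commutator (Subgroup.mem_top a) (Subgroup.mem_top b)
  have hsq : ∀ a : G, a ^ 2 ∈ Subgroup.center G := by
    intro a
    rw [Subgroup.mem_center_iff]
    intro g
    have h1 : ⁅a, g⁆ ^ 2 = 1 := by
      have h2 : (⟨⁅a, g⁆, hNcomm a g⟩ : Subgroup.center G) ^ Nat.card (Subgroup.center G) = 1 :=
        pow_card_eq_one'
      rw [hZ] at h2
      exact congrArg Subtype.val h2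
    have h3 := Subgroup.mem_center_iff.mp (hNcomm a g)
    have h4 : a * g = ⁅a, g⁆ * (g * a) := by rw [commutatorElement_def]; group
    symm
    calc a ^ 2 * g = a * (a * g) := by rw [sq, mul_assoc]
      _ = a * (⁅a, g⁆ * (g * a)) := by rw [h4]
      _ = (a * ⁅a, g⁆) * (g * a) := by rw [mul_assoc]
      _ = (⁅a, g⁆ * a) * (g * a) := by rw [h3 a]
      _ = ⁅a, g⁆ * ((a * g) * a) := by simp only [mul_assoc]
      _ = ⁅a, g⁆ * ((⁅a, g⁆ * (g * a)) * a) := by rw [← h4]
      _ = (⁅a, g⁆ ^ 2) * (g * a ^ 2) := by rw [sq, sq]; simp only [mul_assoc]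
      _ = g * a ^ 2 := by rw [h1, one_mul]
  refine ⟨⟨hG2, ?_, by rw [hcomm, hNZ]⟩, hZ⟩
  apply le_antisymm
  · exact FrattiniQuot.frattini_le_of_squares _ hsq
  · rw [← hNZ, ← hcomm]
    exact H70Frattini.commutator_le_frattini hG2

theorem backward (hE : IsExtraspecial 2 G) :
    Nat.card {χ : IrrCharacter G // 2 ∣ charDegree (χ : G → ℂ)} = 1 := by
  classical
  have := Fintype.ofFinite G
  obtain ⟨⟨hP, -, hc⟩, hZ⟩ := hE
  -- the central involution
  obtain ⟨z, hz⟩ : ∃ z : Subgroup.center G, z ≠ 1 := by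
    have : 1 < Nat.card (Subgroup.center G) := by rw [hZ]; norm_num
    have := (Finite.one_lt_card_iff_nontrivial).mp this
    exact exists_ne 1
  have hz1 : (z : G) ≠ 1 := by simpa using hz
  have hall : ∀ w ∈ Subgroup.center G, w = 1 ∨ w = (z : G) := by
    intro w hw
    obtain ⟨y, -, hy⟩ := (Nat.card_eq_two_iff' (1 : Subgroup.center G)).mp hZ
    by_cases hw1 : w = 1
    · exact Or.inl hw1
    · right
      have h1 := hy ⟨w, hw⟩ (fun h => hw1 (congrArg Subtype.val h))
      have h2 := hy z hz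
      exact congrArg Subtype.val (h1.trans h2.symm)
  have hzz : (z : G) * z = 1 := by
    have h2 : z ^ Nat.card (Subgroup.center G) = 1 := pow_card_eq_one'
    rw [hZ, sq] at h2
    exact congrArg Subtype.val h2
  -- degrees
  have hdeg : ∀ χ : IrrCharacter G, ¬ 2 ∣ charDegree (χ : G → ℂ) ↔ (χ : G → ℂ) 1 = 1 := by
    intro χ
    have h2 := charDegree_dvd χ.2
    obtain ⟨k, hk⟩ := IsPGroup.iff_card.mp hP
    rw [hk] at h2
    obtain ⟨j, -, hj⟩ := (Nat.dvd_prime_pow Nat.prime_two).mp h2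
    rw [← charDegree_eq χ.2.isCharacter, hj]
    rcases Nat.eq_zero_or_pos j with h0 | h0
    · simp [h0]
    · have h3 : 2 ∣ 2 ^ j := dvd_pow_self 2 h0.ne'
      constructor
      · intro h; exact absurd h3 h
      · intro h
        have h4 : (2 ^ j : ℕ) = 1 := by exact_mod_cast h
        omega
  -- nonlinear characters
  have hneg : ∀ χ : IrrCharacter G, (χ : G → ℂ) 1 ≠ 1 → ∀ g, (χ : G → ℂ) (g * z) = -(χ : G → ℂ) g := by
    intro χ hχ
    obtain ⟨c, hc1, hc2⟩ := exists_central_scalar χ.2 z.2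
    have h1 : orderOf (z : G) = 2 := orderOf_eq_prime (by rw [sq, hzz]) hz1
    rw [h1] at hc1
    rcases (sq_eq_sq_iff_eq_or_eq_neg.mp (hc1.trans (one_pow 2).symm)) with h | h
    · exfalso
      apply hχ
      apply linear_of_const χ.2
      intro n hn
      rw [hc] at hn
      rcases hall n hn with h2 | h2
      · rw [h2]
      · rw [h2]
        have := hc2 1
        rw [one_mul, h, one_mul] at this
        exact this
    · intro g
      rw [hc2, h, neg_one_mul]
  have hvan : ∀ χ : IrrCharacter G, (χ : G → ℂ) 1 ≠ 1 → ∀ g, g ∉ Subgroup.center G →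
      (χ : G → ℂ) g = 0 := by
    intro χ hχ g hg
    have h1 : ∃ h : G, ⁅h, g⁆ ≠ 1 := by
      by_contra hcon
      push Not at hcon
      apply hg
      rw [Subgroup.mem_center_iff]
      intro h
      exact commutatorElement_eq_one_iff_mul_comm.mp (hcon h)
    obtain ⟨h, hh⟩ := h1
    have h2 : ⁅h, g⁆ ∈ Subgroup.center G := by
      rw [← hc]
      exact Subgroup.commutator_mem_commutator (Subgroup.mem_top _) (Subgroup.mem_top _)
    have h3 : ⁅h, g⁆ = (z : G) := by
      rcases hall _ h2 with h3 | h3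
      · exact absurd h3 hh
      · exact h3
    have h4 : h * g * h⁻¹ = g * z := by
      have h5 : h * g * h⁻¹ = ⁅h, g⁆ * g := by rw [commutatorElement_def]; group
      rw [h5, h3]
      exact (Subgroup.mem_center_iff.mp z.2 g).symm
    have h5 := χ.2.isClassFunction g h
    rw [h4, hneg χ hχ] at h5
    have h6 : (2 : ℂ) * (χ : G → ℂ) g = 0 := by linear_combination -h5
    simpa using h6
  rw [Nat.card_eq_one_iff_unique]
  constructor
  · constructor
    rintro ⟨χ, hχ⟩ ⟨ψ, hψ⟩
    have hχ1 : (χ : G → ℂ) 1 ≠ 1 := fun h => (hdeg χ).mpr h hχ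
    have hψ1 : (ψ : G → ℂ) 1 ≠ 1 := fun h => (hdeg ψ).mpr h hψ
    by_contra hne
    have hne' : χ ≠ ψ := fun h => hne (Subtype.ext h)
    have h1 := irr_orthonormal χ ψ
    rw [if_neg hne', classInner_def] at h1
    have hG0 : (Nat.card G : ℂ)⁻¹ ≠ 0 := by
      apply inv_ne_zero
      exact_mod_cast Nat.card_pos.ne'
    have h2 := (mul_eq_zero.mp h1).resolve_left hG0
    have h3 : ∑ g : G, (χ : G → ℂ) g * conj ((ψ : G → ℂ) g) =
        ∑ g ∈ ({1, (z : G)} : Finset G), (χ : G → ℂ) g * conj ((ψ : G → ℂ) g) := by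
      symm
      apply Finset.sum_subset (Finset.subset_univ _)
      intro g _ hg
      rw [hvan χ hχ1 g, zero_mul]
      intro hgc
      apply hg
      rcases hall g hgc with h | h <;> simp [h]
    rw [h3, Finset.sum_pair (Ne.symm hz1)] at h2
    have h4 := hneg χ hχ1 1
    have h5 := hneg ψ hψ1 1
    rw [one_mul] at h4 h5
    rw [h4, h5, ← charDegree_eq χ.2.isCharacter, ← charDegree_eq ψ.2.isCharacter] at h2
    simp only [map_neg, Complex.conj_natCast] at h2
    have h6 : ((charDegree (χ : G → ℂ) : ℂ)) * (charDegree (ψ : G → ℂ) : ℂ) = 0 := by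
      linear_combination h2 / 2
    have h7 : charDegree (χ : G → ℂ) * charDegree (ψ : G → ℂ) = 0 := by exact_mod_cast h6
    have h8 := charDegree_pos χ.2
    have h9 := charDegree_pos ψ.2
    have := Nat.mul_pos h8 h9
    omega
  · by_contra hcon
    rw [not_nonempty_iff] at hcon
    have h1 : ∀ a b : G, a * b = b * a := by
      apply comm_of_forall_irr_linear
      intro χ hχ
      apply (hdeg ⟨χ, hχ⟩).mp
      intro hd
      exact hcon.elim ⟨⟨χ, hχ⟩, hd⟩
    have h2 : commutator G = ⊥ := by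
      rw [commutator_def, Subgroup.commutator_eq_bot_iff_le_centralizer]
      intro a _
      rw [Subgroup.mem_centralizer_iff]
      intro b _
      exact h1 b a
    rw [← hc, h2, Subgroup.card_bot] at hZ
    omega

end

/-- Let p be a prime and G a finite nilpotent group. Then G has exactly one irreducible complex character of degree divisible by p if and only if p = 2 and G is an extraspecial 2-group. -/
theorem result {G : Type*} [Group G] [Finite G] [Group.IsNilpotent G] (p : ℕ) [Fact p.Prime] : Nat.card {χ : Cfsg.IrrCharacter G // p ∣ Cfsg.charDegree (χ : G → ℂ)} = 1 ↔ (p = 2 ∧ Cfsg.IsExtraspecial 2 G) := by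
  constructor
  · exact forward p
  · rintro ⟨rfl, hE⟩
    exact backward hE

end Cfsg.Agent.S4762
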