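import Cfsg.Statements.S4763
import Cfsg.Agent.Lib.NormalCompl
import Cfsg.Agent.Lib.BlockDet
import Cfsg.Agent.Lib.H76Char
import Cfsg.Agent.Lib.ConjCover
import Cfsg.Agent.Lib.CharDegrees
import Cfsg.Agent.Lib.SylowTools

set_option autoImplicit false
open Cfsg

namespace Cfsg.Agent.S4763

open Cfsg.Agent.Lib Cfsg.Agent.Lib.CharBasic Cfsg.Agent.Lib.DefectZero Cfsg.Agent.Lib.Clifford
open Cfsg.Agent.Lib.BlockRing Cfsg.Agent.Lib.BlockGA Cfsg.Agent.Lib.BlockOsima
open scoped ComplexConjugate commutatorElement Pointwise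

section
variable {G : Type*} [Group G] [Finite G]

theorem card_carrier (g : G) : Nat.card (ConjClasses.mk g).carrier =
    (Subgroup.centralizer ({g} : Set G)).index := by
  rw [← CharCentral.card_conj_eq_index]
  apply Nat.card_congr
  apply Equiv.subtypeEquivRight
  intro x
  rw [ConjClasses.mem_carrier_iff_mk_eq, ConjClasses.mk_eq_mk_iff_isConj]
  exact isConj_comm

/-- an element with centralizer of index prime to `p` is conjugate to one centralizing `P`. -/
theorem exists_conj_centralizing {p : ℕ} [hp : Fact p.Prime] (P : Sylow p G) (g : G)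
    (h : ¬ p ∣ (Subgroup.centralizer ({g} : Set G)).index) :
    ∃ c : G, ∀ x ∈ (P : Subgroup G), x * (c * g * c⁻¹) = (c * g * c⁻¹) * x := by
  obtain ⟨S⟩ : Nonempty (Sylow p (Subgroup.centralizer ({g} : Set G))) := inferInstance
  set Q := (S : Subgroup (Subgroup.centralizer ({g} : Set G))).map
    (Subgroup.centralizer ({g} : Set G)).subtype with hQ
  have hQp : IsPGroup p Q := S.isPGroup'.map _
  have hQC : Q ≤ Subgroup.centralizer ({g} : Set G) := Subgroup.map_subtype_le _
  have hidx : ¬ p ∣ Q.index := by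
    rw [← Subgroup.relIndex_mul_index hQC, hp.out.dvd_mul, not_or]
    refine ⟨?_, h⟩
    have h1 : Q.relIndex (Subgroup.centralizer ({g} : Set G)) =
        (S : Subgroup (Subgroup.centralizer ({g} : Set G))).index := by
      rw [Subgroup.relIndex, hQ, Subgroup.subgroupOf,
        Subgroup.comap_map_eq_self_of_injective (Subgroup.subtype_injective _)]
    rw [h1]
    exact S.not_dvd_index
  let Q' : Sylow p G := hQp.toSylow hidx
  obtain ⟨c, hc⟩ := SylowTools.sylow_conj Q' P
  refine ⟨c, fun x hx => ?_⟩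
  have h1 : c⁻¹ * x * c ∈ Q := (hc x).mp hx
  have h2 := Subgroup.mem_centralizer_singleton_iff.mp (hQC h1)
  calc x * (c * g * c⁻¹) = c * ((c⁻¹ * x * c) * g) * c⁻¹ := by group
    _ = c * (g * (c⁻¹ * x * c)) * c⁻¹ := by rw [h2]
    _ = (c * g * c⁻¹) * x := by group

theorem P1 {p : ℕ} [hp : Fact p.Prime] (hnil : ¬ Group.IsNilpotent G) (N : Subgroup G) [N.Normal]
    {k : ℕ} (hidx : N.index = p ^ k) (χ₀ : IrrCharacter G)
    (huniq : ∀ χ : IrrCharacter G, p ∣ charDegree (χ : G → ℂ) → χ = χ₀) :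
    ∀ a b : G, ⁅a, b⁆ ∈ N := by
  classical
  have := Fintype.ofFinite G
  have := Fintype.ofFinite N
  suffices h : ∀ χ : G ⧸ N → ℂ, IsIrrCharacter (G ⧸ N) χ → χ 1 = 1 by
    have h1 := comm_of_forall_irr_linear h
    intro a b
    rw [← QuotientGroup.eq_one_iff, commutatorElement_def, QuotientGroup.mk_mul,
      QuotientGroup.mk_mul, QuotientGroup.mk_mul, QuotientGroup.mk_inv, QuotientGroup.mk_inv]
    rw [h1 (a : G ⧸ N) (b : G ⧸ N)]
    group
  intro β' hβ'
  by_contra hne
  set β : G → ℂ := fun g => β' (g : G ⧸ N) with hβdef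
  have hβ : IsIrrCharacter G β := hβ'.inflate N
  have hβc : ∀ n : N, β n = β 1 := by
    intro n
    simp only [hβdef]
    rw [(QuotientGroup.eq_one_iff (n : G)).mpr n.2, QuotientGroup.mk_one]
  have hd : p ∣ charDegree β := by
    have h1 := charDegree_dvd hβ'
    rw [← Subgroup.index_eq_card, hidx] at h1
    obtain ⟨j, -, hj⟩ := (Nat.dvd_prime_pow hp.out).mp h1
    have h2 : charDegree β = charDegree β' := by
      simp only [charDegree, hβdef, QuotientGroup.mk_one]
    rw [h2, hj]
    apply dvd_pow_self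
    rintro rfl
    apply hne
    rw [← charDegree_eq hβ'.isCharacter, hj]; simp
  have hβ0 : (⟨β, hβ⟩ : IrrCharacter G) = χ₀ := huniq ⟨β, hβ⟩ hd
  have hall : ∀ θ : IrrCharacter N, (θ : N → ℂ) = 1 := by
    intro θ
    obtain ⟨χ, hχ⟩ := DegTools.exists_over N θ.2
    by_cases hχβ : χ = ⟨β, hβ⟩
    · subst hχβ
      have h1 : (fun n : N => β n) = (β 1) • (1 : N → ℂ) := by
        funext n; rw [hβc n]; simp
      change classInner (fun n : N => β n) (θ : N → ℂ) ≠ 0 at hχ
      rw [h1, classInner_smul_left, isIrrCharacter_one.classInner_eq θ.2] at hχ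
      by_contra hne2
      rw [if_neg (fun h => hne2 h.symm)] at hχ
      simp at hχ
    · have hpd : ¬ p ∣ charDegree (χ : G → ℂ) := fun h => hχβ ((huniq χ h).trans hβ0.symm)
      have hirr := NormalCompl.res_irr_of_not_dvd hp.out N hidx χ hpd
      have hθ : (fun n : N => (χ : G → ℂ) n) = (θ : N → ℂ) := by
        rw [hirr.classInner_eq θ.2] at hχ
        by_contra hne2
        rw [if_neg hne2] at hχ
        exact hχ rfl
      have hm := NormalCompl.mul_irr N hβ hβc χ.2 hirr
      have hmd : p ∣ charDegree (β * (χ : G → ℂ)) := by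
        have h1 : ((charDegree (β * (χ : G → ℂ)) : ℕ) : ℂ) =
            ((charDegree β * charDegree (χ : G → ℂ) : ℕ) : ℂ) := by
          push_cast
          rw [charDegree_eq hm.isCharacter, charDegree_eq hβ.isCharacter,
            charDegree_eq χ.2.isCharacter]; rfl
        have h2 : charDegree (β * (χ : G → ℂ)) = charDegree β * charDegree (χ : G → ℂ) := by
          exact_mod_cast h1
        rw [h2]
        exact hd.mul_right _
      have h3 : β * (χ : G → ℂ) = β :=
        congrArg Subtype.val ((huniq ⟨_, hm⟩ hmd).trans hβ0.symm)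
      rw [← hθ]
      funext n
      have h4 := congrFun h3 (n : G)
      rw [Pi.mul_apply, hβc n] at h4
      have h5 := hβ.one_ne_zero
      exact mul_left_cancel₀ h5 (by rw [h4]; simp)
  -- so `N = 1`
  have hN1 : Nat.card N = 1 := by
    have h1 := sum_degree_sq (G := N)
    have : Unique (IrrCharacter N) :=
      { default := ⟨1, isIrrCharacter_one⟩
        uniq := fun θ => Subtype.ext (hall θ) }
    rw [Fintype.sum_unique, hall] at h1
    have h2 : ((1 : ℕ) : ℂ) = (Nat.card N : ℂ) := by rw [← h1]; simp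
    exact_mod_cast h2.symm
  apply hnil
  have h2 : IsPGroup p G := by
    apply IsPGroup.of_card (n := k)
    rw [← Subgroup.card_mul_index N, hN1, one_mul, hidx]
  exact h2.isNilpotent

theorem P2 {p : ℕ} [hp : Fact p.Prime] (N : Subgroup G) [N.Normal]
    {k : ℕ} (hidx : N.index = p ^ k) (χ₀ : IrrCharacter G)
    (huniq : ∀ χ : IrrCharacter G, p ∣ charDegree (χ : G → ℂ) → χ = χ₀) :
    Nat.card (ConjClasses G) ≤
      Nat.card {θ : IrrCharacter N // ∀ g : G, cj N g (θ : N → ℂ) = (θ : N → ℂ)} * N.index + 1 := by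
  classical
  have := Fintype.ofFinite G
  have := Fintype.ofFinite N
  rw [← card_irr]
  set Inv := {θ : IrrCharacter N // ∀ g : G, cj N g (θ : N → ℂ) = (θ : N → ℂ)} with hInv
  let Λ := {f : G →* ℂˣ // ∀ n : N, f n = 1}
  have hfinhom : Finite (G →* ℂˣ) := by
    have h1 := card_hom_units (G := G)
    have h2 : (commutator G).index ≠ 0 := Subgroup.index_ne_zero_of_finite
    exact Nat.finite_of_card_ne_zero (by rw [h1]; exact h2)
  have hΛ : Nat.card Λ ≤ N.index := by
    have h1 : Nat.card (G ⧸ N →* ℂˣ) ≤ N.index := by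
      rw [card_hom_units, Subgroup.index_eq_card N]
      exact Nat.le_of_dvd Nat.card_pos (Subgroup.index_dvd_card _)
    have hfin2 : Finite (G ⧸ N →* ℂˣ) := by
      have h1 := card_hom_units (G := G ⧸ N)
      have h2 : (commutator (G ⧸ N)).index ≠ 0 := Subgroup.index_ne_zero_of_finite
      exact Nat.finite_of_card_ne_zero (by rw [h1]; exact h2)
    refine le_trans ?_ h1
    apply Nat.card_le_card_of_injective (fun f : Λ => QuotientGroup.lift N f.1 (fun n hn => f.2 ⟨n, hn⟩))
    intro f f' h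
    apply Subtype.ext
    ext g
    have h2 := congrArg (fun φ : G ⧸ N →* ℂˣ => (φ (g : G ⧸ N) : ℂ)) h
    exact h2
  -- the parametrization
  let F : Inv × Λ → IrrCharacter G := fun q =>
    if h : ∃ χ : IrrCharacter G, (fun n : N => (χ : G → ℂ) n) = (q.1.1 : N → ℂ) then
      ⟨fun g => (h.choose : G → ℂ) g * (q.2.1 g : ℂ), by
        have := h.choose.2.mul_linear (isCharacter_of_unitsHom q.2.1) (by simp)
        exact this⟩
    else χ₀
  have hsurj : ∀ χ : IrrCharacter G, χ ≠ χ₀ → ∃ q, F q = χ := by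
    intro χ hχ
    have hpd : ¬ p ∣ charDegree (χ : G → ℂ) := fun h => hχ (huniq χ h)
    have hirr := NormalCompl.res_irr_of_not_dvd hp.out N hidx χ hpd
    let θ : IrrCharacter N := ⟨_, hirr⟩
    have hθinv : ∀ g : G, cj N g (θ : N → ℂ) = (θ : N → ℂ) := fun g => cj_res χ.2.isClassFunction g
    have hex : ∃ χ' : IrrCharacter G, (fun n : N => (χ' : G → ℂ) n) = (θ : N → ℂ) := ⟨χ, rfl⟩
    obtain ⟨f, hf1, hf2⟩ := CanonExt.exists_linear_twist hirr hex.choose.2
      (fun n => congrFun hex.choose_spec n) χ.2 (fun n => rfl)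
    refine ⟨(⟨θ, hθinv⟩, ⟨f, hf1⟩), ?_⟩
    simp only [F]
    rw [dif_pos hex]
    apply Subtype.ext
    refine Eq.trans ?_ hf2.symm
    funext g
    exact mul_comm _ _
  have hcard : Nat.card (IrrCharacter G) ≤ Nat.card (Inv × Λ) + 1 := by
    have h1 : Nat.card (IrrCharacter G) ≤ Nat.card (Option (Inv × Λ)) := by
      apply Nat.card_le_card_of_surjective (fun o : Option (Inv × Λ) => o.elim χ₀ F)
      intro χ
      by_cases h : χ = χ₀
      · exact ⟨none, h.symm⟩
      · obtain ⟨q, hq⟩ := hsurj χ h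
        exact ⟨some q, hq⟩
    rwa [Finite.card_option] at h1
  rw [Nat.card_prod] at hcard
  exact hcard.trans (Nat.add_le_add_right (Nat.mul_le_mul_left _ hΛ) 1)

theorem P3 {p : ℕ} [hp : Fact p.Prime] (N : Subgroup G) [N.Normal] (hN : (Nat.card N).Coprime p)
    {k : ℕ} (hidx : N.index = p ^ k) (hcomm : ∀ a b : G, ⁅a, b⁆ ∈ N) :
    N.index * Nat.card {C : ConjClasses G // C.carrier ⊆ N ∧ ¬ p ∣ Nat.card C.carrier} +
      Nat.card {C : ConjClasses G // p ∣ Nat.card C.carrier} ≤ Nat.card (ConjClasses G) := by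
  classical
  obtain ⟨P⟩ : Nonempty (Sylow p G) := inferInstance
  set 𝒦 := {C : ConjClasses G // C.carrier ⊆ N ∧ ¬ p ∣ Nat.card C.carrier} with h𝒦
  set 𝒟 := {C : ConjClasses G // p ∣ Nat.card C.carrier} with h𝒟
  have hNP : ∀ x ∈ (P : Subgroup G), x ∈ N → x = 1 := by
    intro x hx hxN
    have h1 : orderOf x ∣ Nat.card N := Subgroup.orderOf_dvd_natCard N hxN
    obtain ⟨j, hj⟩ := IsPGroup.iff_card.mp P.isPGroup'
    have h2 : orderOf x ∣ p ^ j := by rw [← hj]; exact Subgroup.orderOf_dvd_natCard _ hx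
    have h3 : Nat.Coprime (orderOf x) (orderOf x) :=
      Nat.Coprime.coprime_dvd_left h1 (Nat.Coprime.coprime_dvd_right h2 (hN.pow_right j))
    rw [Nat.coprime_self] at h3
    exact orderOf_eq_one_iff.mp h3
  have hPcard : Nat.card (P : Subgroup G) = N.index := by
    have h1 := P.card_eq_multiplicity
    rw [h1, ← Subgroup.card_mul_index N, hidx,
      Nat.factorization_mul Nat.card_pos.ne' (pow_ne_zero _ hp.out.ne_zero)]
    have h2 : (Nat.card N).factorization p = 0 :=
      Nat.factorization_eq_zero_of_not_dvd (fun h =>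
        hp.out.one_lt.ne' (Nat.dvd_one.mp (by rw [← hN]; exact Nat.dvd_gcd h dvd_rfl)))
    simp [h2, hp.out.factorization_self]
  have hPcomm : ∀ x ∈ (P : Subgroup G), ∀ y ∈ (P : Subgroup G), x * y = y * x := by
    intro x hx y hy
    have h1 := hNP ⁅x, y⁆ (by
      rw [commutatorElement_def]
      exact mul_mem (mul_mem (mul_mem hx hy) (inv_mem hx)) (inv_mem hy)) (hcomm x y)
    exact commutatorElement_eq_one_iff_mul_comm.mp h1
  have hrep : ∀ C : 𝒦, ∃ c : G, ConjClasses.mk c = C.1 ∧ c ∈ N ∧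
      ∀ x ∈ (P : Subgroup G), x * c = c * x := by
    rintro ⟨C, hCN, hCp⟩
    obtain ⟨g, rfl⟩ := ConjClasses.mk_surjective C
    rw [card_carrier] at hCp
    obtain ⟨c, hc⟩ := exists_conj_centralizing P g hCp
    refine ⟨c * g * c⁻¹, ?_, ?_, hc⟩
    · rw [ConjClasses.mk_eq_mk_iff_isConj]
      exact (isConj_iff.mpr ⟨c, rfl⟩ : IsConj g (c * g * c⁻¹)).symm
    · apply hCN
      rw [ConjClasses.mem_carrier_iff_mk_eq, ConjClasses.mk_eq_mk_iff_isConj]
      exact (isConj_iff.mpr ⟨c, rfl⟩ : IsConj g (c * g * c⁻¹)).symm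
  choose c hc1 hcN hcP using hrep
  -- the exponent
  obtain ⟨e, he0, he1⟩ := Nat.chineseRemainder (show Nat.Coprime (p ^ k) (Nat.card N) from
    (hN.symm.pow_left k)) 0 1
  have hpow : ∀ (x : (P : Subgroup G)) (C : 𝒦), ((x : G) * c C) ^ e = c C := by
    intro x C
    have h1 : Commute (x : G) (c C) := hcP C x x.2
    rw [h1.mul_pow]
    have h2 : (x : G) ^ e = 1 := by
      apply orderOf_dvd_iff_pow_eq_one.mp
      have h3 : orderOf (x : G) ∣ p ^ k := by
        rw [← hidx, ← hPcard]; exact Subgroup.orderOf_dvd_natCard _ x.2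
      exact h3.trans ((Nat.modEq_zero_iff_dvd).mp he0)
    have h3 : (c C) ^ e = (c C) ^ 1 := by
      rw [pow_eq_pow_iff_modEq]
      exact he1.of_dvd (Subgroup.orderOf_dvd_natCard N (hcN C))
    rw [h2, h3, one_mul, pow_one]
  let F : (↥(P : Subgroup G) × 𝒦) ⊕ 𝒟 → ConjClasses G :=
    Sum.elim (fun q => ConjClasses.mk ((q.1 : G) * c q.2)) (fun D => D.1)
  have hF : Function.Injective F := by
    have h1 : ∀ (x : (P : Subgroup G)) (C : 𝒦), ¬ p ∣ Nat.card (ConjClasses.mk ((x : G) * c C)).carrier := by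
      intro x C
      rw [card_carrier]
      have h2 : (P : Subgroup G) ≤ Subgroup.centralizer ({(x : G) * c C} : Set G) := by
        intro y hy
        rw [Subgroup.mem_centralizer_singleton_iff]
        rw [← mul_assoc, hPcomm y hy x x.2, mul_assoc, hcP C y hy, mul_assoc]
      intro h3
      exact P.not_dvd_index (h3.trans (Subgroup.index_dvd_of_le h2))
    rintro (⟨x, C⟩ | D) (⟨x', C'⟩ | D') h
    · simp only [F, Sum.elim_inl] at h
      rw [ConjClasses.mk_eq_mk_iff_isConj] at h
      have hCC : C = C' := by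
        apply Subtype.ext
        rw [← hc1 C, ← hc1 C', ConjClasses.mk_eq_mk_iff_isConj]
        obtain ⟨g, hg⟩ := isConj_iff.mp h
        rw [isConj_iff]
        refine ⟨g, ?_⟩
        rw [← hpow x C, ← hpow x' C', ← hg, conj_pow]
      subst hCC
      have hxx : x = x' := by
        obtain ⟨g, hg⟩ := isConj_iff.mp h
        have h2 : (x' : G) * (x : G)⁻¹ ∈ N := by
          have h3 : (x' : G) * (x : G)⁻¹ = ⁅g, (x : G) * c C⁆ * ((x : G) * (c C * (c C)⁻¹) * (x : G)⁻¹) := by
            rw [commutatorElement_def, hg]; group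
          rw [h3]
          apply mul_mem (hcomm _ _)
          simp
        have h3 := hNP _ (mul_mem x'.2 (inv_mem x.2)) h2
        exact Subtype.ext (mul_inv_eq_one.mp h3).symm
      rw [hxx]
    · exfalso
      simp only [F, Sum.elim_inl, Sum.elim_inr] at h
      apply h1 x C
      rw [h]; exact D'.2
    · exfalso
      simp only [F, Sum.elim_inl, Sum.elim_inr] at h
      apply h1 x' C'
      rw [← h]; exact D.2
    · simp only [F, Sum.elim_inr] at h
      rw [Subtype.ext h]
  have h4 := Nat.card_le_card_of_injective F hF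
  rw [Nat.card_sum, Nat.card_prod, hPcard] at h4
  exact h4

theorem P4 {p : ℕ} [hp : Fact p.Prime] (N : Subgroup G) [hNn : N.Normal] (hN : (Nat.card N).Coprime p) :
    Nat.card {θ : IrrCharacter N // ∀ g : G, cj N g (θ : N → ℂ) = (θ : N → ℂ)} ≤
      Nat.card {C : ConjClasses G // C.carrier ⊆ N ∧ ¬ p ∣ Nat.card C.carrier} := by
  classical
  have := Fintype.ofFinite G
  have := Fintype.ofFinite N
  obtain ⟨M, hM⟩ := H76Char.exists_isPModular p
  have hMp := isPrime hM
  set Inv := {θ : IrrCharacter N // ∀ g : G, cj N g (θ : N → ℂ) = (θ : N → ℂ)} with hInv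
  set 𝒦 := {C : ConjClasses G // C.carrier ⊆ N ∧ ¬ p ∣ Nat.card C.carrier} with h𝒦
  have := Fintype.ofFinite Inv
  have := Fintype.ofFinite 𝒦
  have := Fintype.ofFinite (ConjClasses G)
  have hNp : ¬ p ∣ Nat.card N := fun h =>
        hp.out.one_lt.ne' (Nat.dvd_one.mp (by rw [← hN]; exact Nat.dvd_gcd h dvd_rfl))
  have hN0 : (Nat.card N : ℂ) ≠ 0 := by exact_mod_cast Nat.card_pos.ne'
  have hrep : ∀ C : 𝒦, ∃ n : N, ConjClasses.mk (n : G) = C.1 := by
    rintro ⟨C, hCN, hCp⟩
    obtain ⟨g, rfl⟩ := ConjClasses.mk_surjective C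
    exact ⟨⟨g, hCN ConjClasses.mem_carrier_mk⟩, rfl⟩
  choose n hn using hrep
  -- invariant characters are constant on `G`-classes
  have hconst : ∀ (θ : Inv) (a b : N), IsConj (a : G) (b : G) → (θ.1 : N → ℂ) a = (θ.1 : N → ℂ) b := by
    intro θ a b hab
    obtain ⟨g, hg⟩ := isConj_iff.mp hab
    have h1 := congrFun (θ.2 g) a
    rw [cj_apply] at h1
    exact h1.symm.trans (congrArg (θ.1 : N → ℂ) (Subtype.ext hg))
  let S : Inv → Inv → ConjClasses G → ℂ := fun θ η C =>
    (∑ m ∈ Finset.univ.filter (fun m : N => ConjClasses.mk (m : G) = C),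
      (θ.1 : N → ℂ) m * conj ((η.1 : N → ℂ) m)) * (Nat.card N : ℂ)⁻¹
  have hSsum : ∀ θ η : Inv, ∑ C : ConjClasses G, S θ η C = (1 : Matrix Inv Inv ℂ) θ η := by
    intro θ η
    simp only [S]
    rw [← Finset.sum_mul, Finset.sum_fiberwise_of_maps_to (fun _ _ => Finset.mem_univ _)]
    have h1 := irr_orthonormal θ.1 η.1
    rw [classInner_def, mul_comm] at h1
    rw [h1, Matrix.one_apply]
    by_cases h2 : θ = η
    · rw [if_pos h2, if_pos (by rw [h2])]
    · rw [if_neg h2, if_neg (fun h3 => h2 (Subtype.ext h3))]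
  have hcardfib : ∀ m : N, (Finset.univ.filter (fun m' : N => ConjClasses.mk (m' : G) = ConjClasses.mk (m : G))).card =
      Nat.card (ConjClasses.mk (m : G)).carrier := by
    intro m
    rw [← Fintype.card_subtype, ← Nat.card_eq_fintype_card]
    apply Nat.card_congr
    exact
      { toFun := fun x => ⟨(x.1 : G), ConjClasses.mem_carrier_iff_mk_eq.mpr x.2⟩
        invFun := fun x => ⟨⟨x.1, by
          have h1 := ConjClasses.mk_eq_mk_iff_isConj.mp (ConjClasses.mem_carrier_iff_mk_eq.mp x.2)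
          obtain ⟨c, hc⟩ := isConj_iff.mp h1.symm
          rw [← hc]; exact hNn.conj_mem _ m.2 c⟩, ConjClasses.mem_carrier_iff_mk_eq.mp x.2⟩
        left_inv := fun x => rfl
        right_inv := fun x => rfl }
  have hSval : ∀ (θ η : Inv) (m : N), S θ η (ConjClasses.mk (m : G)) =
      (Nat.card (ConjClasses.mk (m : G)).carrier : ℂ) * ((θ.1 : N → ℂ) m * conj ((η.1 : N → ℂ) m)) *
        (Nat.card N : ℂ)⁻¹ := by
    intro θ η m
    simp only [S]
    rw [Finset.sum_congr rfl (g := fun _ => (θ.1 : N → ℂ) m * conj ((η.1 : N → ℂ) m))]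
    · rw [Finset.sum_const, nsmul_eq_mul, hcardfib]
    · intro m' hm'
      have h1 := ConjClasses.mk_eq_mk_iff_isConj.mp (Finset.mem_filter.mp hm').2
      rw [hconst θ m' m h1, hconst η m' m h1]
  have hlconj : ∀ (η : Inv) (m : N), MemLocalRing M (conj ((η.1 : N → ℂ) m)) := by
    intro η m
    rw [← η.1.2.inv]; exact loc_irr _ _
  let A : Matrix Inv 𝒦 ℂ := fun θ C => (Nat.card C.1.carrier : ℂ) * (θ.1 : N → ℂ) (n C) * (Nat.card N : ℂ)⁻¹
  let B : Matrix 𝒦 Inv ℂ := fun C η => conj ((η.1 : N → ℂ) (n C))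
  have hunit : IsUnit (A * B) := by
    apply isUnit_of_sub_one_idlMat (M := M)
    intro θ η
    have h1 : ((A * B : Matrix Inv Inv ℂ) - 1) θ η =
        - ∑ C : {C : ConjClasses G // ¬ (C.carrier ⊆ N ∧ ¬ p ∣ Nat.card C.carrier)}, S θ η C.1 := by
      have h2 : ∑ C : 𝒦, A θ C * B C η = ∑ C : 𝒦, S θ η C.1 := by
        apply Finset.sum_congr rfl
        intro C _
        rw [← hn C, hSval]
        simp only [A, B]
        rw [hn C]
        ring
      have h3 : ∑ C : ConjClasses G, S θ η C = ∑ C : 𝒦, S θ η C.1 +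
          ∑ C : {C : ConjClasses G // ¬ (C.carrier ⊆ N ∧ ¬ p ∣ Nat.card C.carrier)}, S θ η C.1 := by
        rw [← Fintype.sum_subtype_add_sum_subtype
          (fun C : ConjClasses G => C.carrier ⊆ N ∧ ¬ p ∣ Nat.card C.carrier) (fun C => S θ η C)]
        congr 1
        apply Finset.sum_congr
        · ext a
          exact ⟨fun _ => @Finset.mem_univ _ (_) _, fun _ => @Finset.mem_univ _ (_) _⟩
        · intro _ _; rfl
      rw [Matrix.sub_apply, ← hSsum θ η, Matrix.mul_apply, h2, h3]
      ring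
    rw [h1]
    apply idl_neg
    apply idl_sum
    rintro ⟨C, hC⟩ _
    by_cases hex : ∃ m : N, ConjClasses.mk (m : G) = C
    · obtain ⟨m, rfl⟩ := hex
      simp only
      rw [hSval]
      refine idl_mul_right (idl_mul_right ?_ (loc_mul (loc_irr _ _) (hlconj _ _)))
        (loc_inv_natCast hM hNp)
      rw [idl_natCast_iff hM]
      by_contra hnd
      apply hC
      refine ⟨?_, hnd⟩
      intro x hx
      have h1 := ConjClasses.mk_eq_mk_iff_isConj.mp (ConjClasses.mem_carrier_iff_mk_eq.mp hx)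
      obtain ⟨c, hc⟩ := isConj_iff.mp h1.symm
      rw [← hc]; exact hNn.conj_mem _ m.2 c
    · push Not at hex
      have : S θ η C = 0 := by
        simp only [S]
        rw [Finset.sum_eq_zero, zero_mul]
        intro m hm
        exact absurd (Finset.mem_filter.mp hm).2 (hex m)
      show MemLocalIdeal M (S θ η C)
      rw [this]
      exact idl_zero
  have h1 := Matrix.rank_of_isUnit _ hunit
  have h2 := Matrix.rank_mul_le_left A B
  have h3 := Matrix.rank_le_card_width A
  rw [Nat.card_eq_fintype_card, Nat.card_eq_fintype_card]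
  omega

theorem P5 {p : ℕ} [hp : Fact p.Prime] (N : Subgroup G) [N.Normal] (hN : (Nat.card N).Coprime p)
    (hcomm : ∀ a b : G, ⁅a, b⁆ ∈ N) (χ₀ : IrrCharacter G) (hχ₀ : p ∣ charDegree (χ₀ : G → ℂ)) :
    ∃ g : G, p ∣ Nat.card (ConjClasses.mk g).carrier := by
  classical
  by_contra hcon
  push Not at hcon
  obtain ⟨P⟩ : Nonempty (Sylow p G) := inferInstance
  have htop : Subgroup.centralizer ((P : Subgroup G) : Set G) = ⊤ := by
    apply ConjCover.eq_top_of_forall_conj
    intro g
    have h1 := hcon g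
    rw [card_carrier] at h1
    obtain ⟨c, hc⟩ := exists_conj_centralizing P g h1
    refine ⟨c⁻¹, ?_⟩
    rw [inv_inv, Subgroup.mem_centralizer_iff]
    intro x hx
    exact hc x hx
  have hPc : ∀ x ∈ (P : Subgroup G), ∀ g : G, x * g = g * x := by
    intro x hx g
    have h1 : g ∈ Subgroup.centralizer ((P : Subgroup G) : Set G) := by rw [htop]; trivial
    exact Subgroup.mem_centralizer_iff.mp h1 x hx
  have hPn : (P : Subgroup G).Normal := by
    constructor
    intro x hx g
    have : g * x * g⁻¹ = x := by rw [← hPc x hx g]; group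
    rw [this]; exact hx
  have h2 := CharDegrees.ito χ₀.2 (P : Subgroup G) (fun a ha b _ => hPc a ha b)
    (charDegree (χ₀ : G → ℂ)) (charDegree_eq χ₀.2.isCharacter).symm
  exact P.not_dvd_index (hχ₀.trans h2)

end

/-- Let p be a prime and G a finite group that is not nilpotent and has a normal p-complement (a normal subgroup of order prime to p and index a power of p). If G has exactly one irreducible complex character of degree divisible by p, then G has exactly one conjugacy class whose size is divisible by p. -/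
theorem result {G : Type*} [Group G] [Finite G] (p : ℕ) [Fact p.Prime] (hnil : ¬ Group.IsNilpotent G) (N : Subgroup G) [N.Normal] (hN : (Nat.card N).Coprime p) (hidx : ∃ k : ℕ, N.index = p ^ k) (hone : Nat.card {χ : Cfsg.IrrCharacter G // p ∣ Cfsg.charDegree (χ : G → ℂ)} = 1) : Nat.card {C : ConjClasses G // p ∣ Nat.card C.carrier} = 1 := by
  classical
  obtain ⟨k, hk⟩ := hidx
  obtain ⟨hss, ⟨⟨χ₀, hχ₀⟩⟩⟩ := Nat.card_eq_one_iff_unique.mp hone
  have huniq : ∀ χ : IrrCharacter G, p ∣ charDegree (χ : G → ℂ) → χ = χ₀ := fun χ h =>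
    congrArg Subtype.val (hss.elim ⟨χ, h⟩ ⟨χ₀, hχ₀⟩)
  have hcomm := P1 hnil N hk χ₀ huniq
  have h2 := P2 N hk χ₀ huniq
  have h3 := P3 N hN hk hcomm
  have h4 := P4 (p := p) N hN
  obtain ⟨g, hg⟩ := P5 N hN hcomm χ₀ hχ₀
  have h5 : 0 < Nat.card {C : ConjClasses G // p ∣ Nat.card C.carrier} :=
    Nat.card_pos_iff.mpr ⟨⟨⟨ConjClasses.mk g, hg⟩⟩, inferInstance⟩
  have h6 := Nat.mul_le_mul_left N.index h4
  rw [Nat.mul_comm N.index] at h6
  omega

end Cfsg.Agent.S4763
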