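import Cfsg.Statements.S4765
import Cfsg.Agent.Lib.PSL2Degrees

set_option autoImplicit false
open Cfsg

namespace Cfsg.Agent.S4765

open Cfsg.Agent.Lib.SL2Basic Cfsg.Agent.Lib.SL2Tori Cfsg.Agent.Lib.SL2Int Cfsg.Agent.Lib.SL2Ind Cfsg.Agent.Lib.SL2Ortho Cfsg.Agent.Lib.SL2Class Cfsg.Agent.Lib.SL2Vals Cfsg.Agent.Lib.SL2Deg

/-- Let F be a finite field of characteristic p with at least 4 elements. Then PSL(2,F) has exactly one irreducible complex character of degree divisible by p, and its degree is the order of F. -/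
theorem result (p : ℕ) [Fact p.Prime] (F : Type*) [Field F] [Fintype F] [CharP F p] (hF : 4 ≤ Fintype.card F) : Nat.card {χ : Cfsg.IrrCharacter (Matrix.ProjectiveSpecialLinearGroup (Fin 2) F) // p ∣ Cfsg.charDegree (χ : Matrix.ProjectiveSpecialLinearGroup (Fin 2) F → ℂ)} = 1 ∧ ∀ χ : Cfsg.IrrCharacter (Matrix.ProjectiveSpecialLinearGroup (Fin 2) F), p ∣ Cfsg.charDegree (χ : Matrix.ProjectiveSpecialLinearGroup (Fin 2) F → ℂ) → Cfsg.charDegree (χ : Matrix.ProjectiveSpecialLinearGroup (Fin 2) F → ℂ) = Fintype.card F := by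
  classical
  have : Fintype (Matrix.SpecialLinearGroup (Fin 2) F) := Fintype.ofFinite _
  have hp : p.Prime := Fact.out
  have hcard : Nat.card F = Fintype.card F := Nat.card_eq_fintype_card
  have hpq : p ∣ Nat.card F := by
    obtain ⟨n, _, hn⟩ := FiniteField.card F p
    rw [hcard, hn]; exact dvd_pow_self _ n.ne_zero
  obtain ⟨ψ, hψ, hψSt⟩ := PSL2Degrees.exists_St (F := F)
  have hψ1 : ψ 1 = Nat.card F := by
    have := hψSt 1
    rw [St_one] at this
    exact this
  obtain ⟨A₀, h0⟩ := exists_isEll (F := F)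
  have key : ∀ χ : Matrix.ProjectiveSpecialLinearGroup (Fin 2) F → ℂ, IsIrrCharacter _ χ →
      p ∣ charDegree χ → χ = ψ := by
    intro χ hχ hdvd
    have h3 : IsIrrCharacter (Matrix.SpecialLinearGroup (Fin 2) F)
        (fun g => χ (g : Matrix.SpecialLinearGroup (Fin 2) F ⧸ Subgroup.center (Matrix.SpecialLinearGroup (Fin 2) F))) :=
      IsIrrCharacter.inflate (Subgroup.center _) hχ
    obtain ⟨d, hd, hc⟩ := classify' h0 h3
    have hd' : χ 1 = d := hd
    rw [PSL2Degrees.charDegree_of_one hd'] at hdvd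
    have hno : ¬ p ∣ Nat.card F + 1 := fun h => by
      have := (Nat.dvd_add_right hpq).1 h
      exact hp.one_lt.ne' (Nat.dvd_one.1 this)
    have hSt : (fun g : Matrix.SpecialLinearGroup (Fin 2) F => χ (g : Matrix.SpecialLinearGroup (Fin 2) F ⧸ Subgroup.center (Matrix.SpecialLinearGroup (Fin 2) F))) = St := by
      rcases hc with h | h | h | h | h | h
      · exfalso
        rw [h.2] at hdvd
        exact hp.one_lt.ne' (Nat.dvd_one.1 hdvd)
      · exact h.1
      · exfalso
        apply hno; rw [← h.2]; exact hdvd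
      · exfalso
        have h4 := h.2
        rw [← h4] at hpq
        exact hp.one_lt.ne' (Nat.dvd_one.1 ((Nat.dvd_add_right hdvd).1 hpq))
      · exfalso
        apply hno; rw [← h.2]; exact hdvd.mul_left 2
      · exfalso
        have h4 := h.2
        rw [← h4] at hpq
        exact hp.one_lt.ne' (Nat.dvd_one.1 ((Nat.dvd_add_right (hdvd.mul_left 2)).1 hpq))
    funext g
    obtain ⟨g, rfl⟩ := QuotientGroup.mk_surjective g
    exact (congrFun hSt g).trans (hψSt g).symm
  have hdegψ : charDegree ψ = Nat.card F := PSL2Degrees.charDegree_of_one hψ1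
  refine ⟨?_, ?_⟩
  · rw [Nat.card_eq_one_iff_unique]
    refine ⟨⟨fun a b => ?_⟩, ⟨⟨⟨ψ, hψ⟩, by rw [hdegψ]; exact hpq⟩⟩⟩
    apply Subtype.ext
    apply Subtype.ext
    rw [key _ a.1.2 a.2, key _ b.1.2 b.2]
  · rintro ⟨χ, hχ⟩ hdvd
    have := key χ hχ hdvd
    simp only [this]
    rw [hdegψ, hcard]

end Cfsg.Agent.S4765
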