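import Cfsg.Statements.S4768
import Cfsg.Agent.Lib.ItoPSolv
import Cfsg.Agent.Lib.LinChar

set_option autoImplicit false
open Cfsg

namespace Cfsg.Agent.S4768

open Cfsg.Agent.Lib Cfsg.Agent.Lib.CharBasic Cfsg.Agent.Lib.DefectZero Cfsg.Agent.Lib.Clifford
open scoped ComplexConjugate commutatorElement

universe u

section
variable {G : Type u} [Group G] [Finite G]

/-- inflation of the characters of degree divisible by `p` -/
noncomputable def infl (p : ℕ) (N : Subgroup G) [N.Normal] :
    {ψ : IrrCharacter (G ⧸ N) // p ∣ charDegree (ψ : G ⧸ N → ℂ)} →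
      {χ : IrrCharacter G // p ∣ charDegree (χ : G → ℂ)} := fun ψ =>
  ⟨⟨fun g : G => (ψ.1 : G ⧸ N → ℂ) (g : G ⧸ N), ψ.1.2.inflate N⟩, ψ.2⟩

omit [Finite G] in
theorem infl_injective (p : ℕ) (N : Subgroup G) [N.Normal] : Function.Injective (infl p N) := by
  intro ψ ψ' h
  apply Subtype.ext
  apply Subtype.ext
  funext x
  obtain ⟨g, rfl⟩ := QuotientGroup.mk_surjective x
  have h1 := congrArg (fun χ : {χ : IrrCharacter G // p ∣ charDegree (χ : G → ℂ)} => (χ.1 : G → ℂ)) h
  exact congrFun h1 g

theorem card_quotient_le (p : ℕ) (N : Subgroup G) [N.Normal] :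
    Nat.card {ψ : IrrCharacter (G ⧸ N) // p ∣ charDegree (ψ : G ⧸ N → ℂ)} ≤
      Nat.card {χ : IrrCharacter G // p ∣ charDegree (χ : G → ℂ)} :=
  Nat.card_le_card_of_injective _ (infl_injective p N)

theorem ker_of_card_eq (p : ℕ) (N : Subgroup G) [N.Normal]
    (h : Nat.card {ψ : IrrCharacter (G ⧸ N) // p ∣ charDegree (ψ : G ⧸ N → ℂ)} =
      Nat.card {χ : IrrCharacter G // p ∣ charDegree (χ : G → ℂ)}) (χ : IrrCharacter G)
    (hχ : p ∣ charDegree (χ : G → ℂ)) (n : N) : (χ : G → ℂ) n = (χ : G → ℂ) 1 := by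
  have hbij := (Nat.bijective_iff_injective_and_card (infl p N)).mpr ⟨infl_injective p N, h⟩
  obtain ⟨ψ, hψ⟩ := hbij.2 ⟨χ, hχ⟩
  have h1 : ∀ g : G, (χ : G → ℂ) g = (ψ.1 : G ⧸ N → ℂ) (g : G ⧸ N) := by
    intro g
    have h1 := congrArg (fun χ : {χ : IrrCharacter G // p ∣ charDegree (χ : G → ℂ)} => (χ.1 : G → ℂ)) hψ
    exact (congrFun h1 g).symm
  rw [h1, h1, (QuotientGroup.eq_one_iff (n : G)).mpr n.2]
  rfl

theorem derived_mem {p : ℕ} [Fact p.Prime] (P : Sylow p G) (N : Subgroup G) [N.Normal] {m : ℕ}
    (h : derivedSeries ((P.mapSurjective (QuotientGroup.mk'_surjective N) : Sylow p (G ⧸ N)) :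
      Subgroup (G ⧸ N)) m = ⊥) :
    ∀ x ∈ derivedSeries (P : Subgroup G) m, (x : G) ∈ N := by
  intro x hx
  let f : (P : Subgroup G) →* ((P : Subgroup G).map (QuotientGroup.mk' N)) :=
    (QuotientGroup.mk' N).subgroupMap (P : Subgroup G)
  have h1 : f x ∈ derivedSeries ((P : Subgroup G).map (QuotientGroup.mk' N)) m :=
    map_derivedSeries_le_derivedSeries f m ⟨x, hx, rfl⟩
  have h2 : derivedSeries ((P : Subgroup G).map (QuotientGroup.mk' N)) m = ⊥ := h
  rw [h2, Subgroup.mem_bot] at h1
  have h3 : QuotientGroup.mk' N (x : G) = 1 := congrArg Subtype.val h1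
  exact (QuotientGroup.eq_one_iff (x : G)).mp h3

theorem bot_of_transport {H K : Type*} [Group H] [Group K] (e : H ≃* K) {m : ℕ}
    (h : derivedSeries H m = ⊥) : derivedSeries K m = ⊥ := by
  rw [← map_derivedSeries_eq e.surjective m (f := e.toMonoidHom), h, Subgroup.map_bot]

theorem derived_two {H : Type*} [Group H] (A : Subgroup H) (h1 : ∀ a b : H, ⁅a, b⁆ ∈ A)
    (h2 : ∀ a ∈ A, ∀ b ∈ A, a * b = b * a) : derivedSeries H 2 = ⊥ := by
  rw [eq_bot_iff]
  have h3 : derivedSeries H 1 ≤ A := by
    rw [derivedSeries_one, commutator_def, Subgroup.commutator_le]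
    intro a _ b _
    exact h1 a b
  rw [derivedSeries_succ, Subgroup.commutator_le]
  intro a ha b hb
  rw [Subgroup.mem_bot, commutatorElement_eq_one_iff_mul_comm]
  exact h2 a (h3 ha) b (h3 hb)

theorem main (p : ℕ) [hp : Fact p.Prime] (hps : IsPSolvable p G) (P : Sylow p G) :
    derivedSeries (P : Subgroup G)
      (Nat.card {χ : IrrCharacter G // p ∣ charDegree (χ : G → ℂ)} + 1) = ⊥ := by
  classical
  induction hn : Nat.card G using Nat.strong_induction_on generalizing G with
  | _ n ih =>
  have := Fintype.ofFinite G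
  have hquot : ∀ N : Subgroup G, ∀ _ : N.Normal, N ≠ ⊥ → ∀ x ∈ derivedSeries (P : Subgroup G)
      (Nat.card {ψ : IrrCharacter (G ⧸ N) // p ∣ charDegree (ψ : G ⧸ N → ℂ)} + 1), (x : G) ∈ N := by
    intro N hNn hN
    have hcard : Nat.card (G ⧸ N) < n := by
      rw [← hn, ← Subgroup.index_eq_card, ← Subgroup.card_mul_index N]
      have h1 : 1 < Nat.card N := (Subgroup.one_lt_card_iff_ne_bot N).mpr hN
      have h2 : 0 < N.index := Nat.pos_of_ne_zero Subgroup.index_ne_zero_of_finite
      nlinarith
    exact derived_mem P N (ih _ hcard (G := G ⧸ N) (H32PSolv.isPSolvable_quotient hps N)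
      (P.mapSurjective (QuotientGroup.mk'_surjective N)) rfl)
  set nn := Nat.card {χ : IrrCharacter G // p ∣ charDegree (χ : G → ℂ)} with hnn
  by_cases h0 : nn = 0
  · have hdeg : ∀ χ : IrrCharacter G, ¬ p ∣ charDegree (χ : G → ℂ) := by
      intro χ hχ
      have h1 : 0 < nn := Nat.card_pos_iff.mpr ⟨⟨⟨χ, hχ⟩⟩, inferInstance⟩
      omega
    have h1 := (ItoPSolv.ito_psolvable hps hdeg P).2
    rw [h0, zero_add, derivedSeries_one, commutator_def, eq_bot_iff, Subgroup.commutator_le]
    intro a _ b _
    rw [Subgroup.mem_bot, commutatorElement_eq_one_iff_mul_comm]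
    exact Subtype.ext (h1 a a.2 b b.2)
  by_cases hb : pPrimeCore p G = ⊥
  swap
  · have h1 := hquot (pPrimeCore p G) inferInstance hb
    have h2 := card_quotient_le p (pPrimeCore p G)
    rw [eq_bot_iff]
    intro x hx
    have h3 := h1 x (derivedSeries_antitone _ (Nat.add_le_add_right h2 1) hx)
    obtain ⟨j, hj⟩ := IsPGroup.iff_card.mp P.isPGroup'
    have h4 : orderOf (x : G) ∣ p ^ j := by
      rw [← hj]; exact Subgroup.orderOf_dvd_natCard _ x.2
    have h5 : orderOf (x : G) ∣ Nat.card (pPrimeCore p G) := Subgroup.orderOf_dvd_natCard _ h3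
    have h6 : orderOf (x : G) = 1 := Nat.eq_one_of_dvd_coprimes
      ((Cores.coprime_card_pPrimeCore p G).pow_right j) h5 h4
    rw [Subgroup.mem_bot]
    exact Subtype.ext (orderOf_eq_one_iff.mp h6)
  by_cases hG : pCore p G = ⊥
  · have h1 := H32PSolv.centralizer_pCore_le hps hb
    rw [hG] at h1
    have h2 : (⊤ : Subgroup G) ≤ ⊥ := by
      refine le_trans ?_ h1
      intro g _
      rw [Subgroup.mem_centralizer_iff]
      intro x hx
      rw [Subgroup.mem_bot.mp hx]; simp
    rw [eq_bot_iff]
    intro x _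
    rw [Subgroup.mem_bot]
    exact Subtype.ext (Subgroup.mem_bot.mp (h2 (Subgroup.mem_top (x : G))))
  set O := pCore p G with hO
  have hOp : IsPGroup p O := Cores.isPGroup_pCore p G
  set N := O ⊓ Subgroup.centralizer (O : Set G) with hN
  have hNn : N.Normal := inferInstance
  have hNp : IsPGroup p N := hOp.to_le inf_le_left
  have hNc : ∀ a ∈ N, ∀ b ∈ N, a * b = b * a := by
    intro a ha b hb
    exact Subgroup.mem_centralizer_iff.mp hb.2 a ha.1
  have hNb : N ≠ ⊥ := by
    have : Nontrivial O := (Subgroup.nontrivial_iff_ne_bot O).mpr hG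
    have h1 := hOp.center_nontrivial
    obtain ⟨z, hz⟩ := exists_ne (1 : Subgroup.center O)
    intro h2
    apply hz
    have h3 : ((z : O) : G) ∈ N := by
      refine ⟨(z : O).2, Subgroup.mem_centralizer_iff.mpr ?_⟩
      intro x hx
      exact congrArg Subtype.val (Subgroup.mem_center_iff.mp z.2 ⟨x, hx⟩)
    rw [h2, Subgroup.mem_bot] at h3
    exact Subtype.ext (Subtype.ext h3)
  have hq := hquot N hNn hNb
  rcases (card_quotient_le p N).lt_or_eq with hlt | heq
  · -- `n(G/N) < n(G)`
    have h1 : derivedSeries (P : Subgroup G)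
        (Nat.card {ψ : IrrCharacter (G ⧸ N) // p ∣ charDegree (ψ : G ⧸ N → ℂ)} + 1 + 1) = ⊥ := by
      rw [eq_bot_iff, derivedSeries_succ, Subgroup.commutator_le]
      intro a ha b hb
      rw [Subgroup.mem_bot, commutatorElement_eq_one_iff_mul_comm]
      exact Subtype.ext (hNc a (hq a ha) b (hq b hb))
    rw [eq_bot_iff, ← h1]
    apply derivedSeries_antitone
    omega
  · -- all characters over a nontrivial character of `N` have degree prime to `p`
    have := Fintype.ofFinite N
    have hker := ker_of_card_eq p N heq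
    have hNcomm : ∀ a b : N, a * b = b * a := fun a b => Subtype.ext (hNc a a.2 b b.2)
    have hNt : Nontrivial N := (Subgroup.nontrivial_iff_ne_bot N).mpr hNb
    obtain ⟨z, hz⟩ := exists_ne (1 : N)
    obtain ⟨f, hf⟩ := LinChar.exists_ne_one hNcomm hz
    set lam : N → ℂ := fun n => (f n : ℂ) with hlamdef
    have hlam : IsIrrCharacter N lam := isIrrCharacter_of_unitsHom f
    have hlam1 : lam 1 = 1 := by simp [hlamdef]
    have hlamne : lam ≠ 1 := by
      intro h
      apply hf
      exact Units.ext (congrFun h z)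
    have hover : ∀ χ : IrrCharacter G, classInner (fun n : N => (χ : G → ℂ) n) lam ≠ 0 →
        ¬ p ∣ charDegree (χ : G → ℂ) := by
      intro χ hχ hp'
      apply hχ
      have h1 : (fun n : N => (χ : G → ℂ) n) = ((χ : G → ℂ) 1) • (1 : N → ℂ) := by
        funext n; rw [hker χ hp' n]; simp
      rw [h1, classInner_smul_left, isIrrCharacter_one.classInner_eq_zero hlam
        (fun h => hlamne h.symm), mul_zero]
    set T := inertia N lam with hT
    have hNT : N ≤ T := le_inertia hlam.isClassFunction
    have hTp : ¬ p ∣ T.index := by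
      intro h2
      obtain ⟨χ, hχ⟩ := DegTools.exists_over N hlam
      apply hover χ hχ
      have h3 := CliffordCorr.degree_clifford χ.2 hlam hχ
      obtain ⟨e, he⟩ := (χ.2.isCharacter.restrict N).classInner_nat hlam.isCharacter
      rw [he, ← charDegree_eq χ.2.isCharacter, hlam1, mul_one] at h3
      have h4 : charDegree (χ : G → ℂ) = e * T.index := by exact_mod_cast h3
      rw [h4]
      exact h2.mul_left _
    have := Fintype.ofFinite T
    have := Fintype.ofFinite (N.subgroupOf T)
    have hN'p : IsPGroup p (N.subgroupOf T) := hNp.of_equiv (Subgroup.subgroupOfEquivOfLe hNT).symm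
    set lam' : N.subgroupOf T → ℂ := fun x => lam (CliffordCorr.subEquiv N T hNT x) with hlam'def
    have hlam' : IsIrrCharacter (N.subgroupOf T) lam' :=
      (isIrrCharacter_comp_mulEquiv_iff (CliffordCorr.subEquiv N T hNT)).mpr hlam
    have hlam'1 : lam' 1 = 1 := by
      simp only [hlam'def, map_one]; exact hlam1
    have hlam'inv : ∀ g : T, cj (N.subgroupOf T) g lam' = lam' := by
      intro g
      funext n
      have h1 := congrFun (mem_inertia.mp g.2) (CliffordCorr.subEquiv N T hNT n)
      rw [cj_apply] at h1 ⊢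
      exact h1
    obtain ⟨S⟩ : Nonempty (Sylow p T) := inferInstance
    have hcomm := ItoPSolv.commutator_mem_of_over (H32PSolv.isPSolvable_subgroup hps T)
      (N.subgroupOf T) hN'p hlam' hlam'1 hlam'inv (by
        intro ψ hψ hpψ
        rw [CliffordCorr.classInner_resTo] at hψ
        obtain ⟨h1, h2⟩ := CliffordCorr.corr_irr hNT hlam (fun g => mem_inertia) ψ.2 hψ
        apply hover ⟨_, h1⟩ (by
          change classInner (fun n : N => indFun T (ψ : T → ℂ) n) lam ≠ 0
          rw [h2]; exact hψ)
        change p ∣ charDegree (indFun T (ψ : T → ℂ))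
        have h3 : ((charDegree (indFun T (ψ : T → ℂ)) : ℕ) : ℂ) =
            ((T.index * charDegree (ψ : T → ℂ) : ℕ) : ℂ) := by
          rw [charDegree_eq h1.isCharacter, IndFun.indFun_one]
          push_cast
          rw [charDegree_eq ψ.2.isCharacter]
        have h4 : charDegree (indFun T (ψ : T → ℂ)) = T.index * charDegree (ψ : T → ℂ) := by
          exact_mod_cast h3
        rw [h4]
        exact hpψ.mul_left _) S
    have hS2 : derivedSeries (S : Subgroup T) 2 = ⊥ := by
      apply derived_two ((N.subgroupOf T).subgroupOf (S : Subgroup T))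
      · intro a b
        rw [Subgroup.mem_subgroupOf]
        exact hcomm a a.2 b b.2
      · intro a ha b hb
        rw [Subgroup.mem_subgroupOf, Subgroup.mem_subgroupOf] at ha hb
        exact Subtype.ext (Subtype.ext (hNc _ ha _ hb))
    -- transport to `P`
    set Q := (S : Subgroup T).map T.subtype with hQ
    have hQp : IsPGroup p Q := S.isPGroup'.map _
    have hQC : Q ≤ T := Subgroup.map_subtype_le _
    have hidx : ¬ p ∣ Q.index := by
      rw [← Subgroup.relIndex_mul_index hQC, hp.out.dvd_mul, not_or]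
      refine ⟨?_, hTp⟩
      have h1 : Q.relIndex T = (S : Subgroup T).index := by
        rw [Subgroup.relIndex, hQ, Subgroup.subgroupOf,
          Subgroup.comap_map_eq_self_of_injective (Subgroup.subtype_injective _)]
      rw [h1]
      exact S.not_dvd_index
    let Q' : Sylow p G := hQp.toSylow hidx
    have e1 : (S : Subgroup T) ≃* Q :=
      (S : Subgroup T).equivMapOfInjective T.subtype (Subgroup.subtype_injective _)
    have e2 : Q' ≃* P := Sylow.equiv Q' P
    have hP2 : derivedSeries (P : Subgroup G) 2 = ⊥ := by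
      apply bot_of_transport e2
      exact bot_of_transport e1 hS2
    rw [eq_bot_iff, ← hP2]
    apply derivedSeries_antitone
    omega

end

/-- Let p be a prime, G a finite p-solvable group and P a Sylow p-subgroup of G. If n is the number of irreducible complex characters of G whose degree is divisible by p, then the (n+1)-st term of the derived series of P is trivial. (The p-solvable case has a direct inductive proof.) -/
theorem result {G : Type*} [Group G] [Finite G] (p : ℕ) [Fact p.Prime] (hG : Cfsg.IsPSolvable p G) (P : Sylow p G) : derivedSeries ↥(P : Subgroup G) (Nat.card {χ : Cfsg.IrrCharacter G // p ∣ Cfsg.charDegree (χ : G → ℂ)} + 1) = ⊥ := by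
  exact main p hG P

end Cfsg.Agent.S4768
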