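import Cfsg.Statements.S4774
import Cfsg.Agent.Lib.PSL2Degrees

set_option autoImplicit false
open Cfsg

namespace Cfsg.Agent.S4774

/-- Let F be a finite field of odd characteristic t with q > 5 elements and let S be isomorphic to PSL(2,F) or to SL(2,F). Then the vertices of the character degree graph of S are the primes dividing q(q²−1); the prime t is adjacent to no vertex; two distinct primes dividing q² − 1 are adjacent exactly when one of them is 2, or both divide q + 1, or both divide q − 1. -/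
theorem result (F : Type*) [Field F] [Fintype F] (t : ℕ) [Fact t.Prime] [CharP F t] (ht : t ≠ 2) (q : ℕ) (hq : Fintype.card F = q) (h5 : 5 < q) {S : Type*} [Group S] [Finite S] (hS : Nonempty (S ≃* Matrix.ProjectiveSpecialLinearGroup (Fin 2) F) ∨ Nonempty (S ≃* Matrix.SpecialLinearGroup (Fin 2) F)) : Cfsg.degreePrimes S = {r : ℕ | r.Prime ∧ r ∣ q * (q ^ 2 - 1)} ∧ ∀ r s : ℕ, (Cfsg.degreeGraph S).Adj r s ↔ (r ≠ s ∧ r.Prime ∧ s.Prime ∧ r ∣ q ^ 2 - 1 ∧ s ∣ q ^ 2 - 1 ∧ (r = 2 ∨ s = 2 ∨ (r ∣ q + 1 ∧ s ∣ q + 1) ∨ (r ∣ q - 1 ∧ s ∣ q - 1))) := by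
  have hcard : Nat.card F = q := by rw [Nat.card_eq_fintype_card, hq]
  have hD : PSL2Degrees.Degs S q := by
    rcases hS with ⟨⟨e⟩⟩ | ⟨⟨e⟩⟩
    · exact (PSL2Degrees.degs_psl hcard (Or.inr h5)).of_equiv e
    · exact (PSL2Degrees.degs_sl hcard (Or.inr h5)).of_equiv e
  obtain ⟨k, hk⟩ : ∃ k : ℕ, q = t ^ k := by
    obtain ⟨n, _, hn⟩ := FiniteField.card F t
    exact ⟨n, by rw [← hq, hn]⟩
  have htp : t.Prime := Fact.out
  have hodd : Odd q := by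
    rw [hk]; exact (htp.odd_of_ne_two ht).pow
  refine ⟨hD.primes, fun r s => ?_⟩
  rw [hD.adj htp hk]
  have h2a : 2 ∣ q + 1 := by obtain ⟨m, hm⟩ := hodd; exact ⟨m + 1, by omega⟩
  have h2b : 2 ∣ q - 1 := by obtain ⟨m, hm⟩ := hodd; exact ⟨m, by omega⟩
  constructor
  · rintro ⟨hrs, hr, hs, h | h⟩
    · exact ⟨hrs, hr, hs, PSL2Degrees.dvd_sq_left h.1, PSL2Degrees.dvd_sq_left h.2, Or.inr (Or.inr (Or.inl h))⟩
    · exact ⟨hrs, hr, hs, PSL2Degrees.dvd_sq_right h.1, PSL2Degrees.dvd_sq_right h.2, Or.inr (Or.inr (Or.inr h))⟩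
  · rintro ⟨hrs, hr, hs, h1, h2, h | h | h | h⟩
    · subst h
      rcases PSL2Degrees.prime_dvd_cases hs h2 with h3 | h3
      · exact ⟨hrs, hr, hs, Or.inl ⟨h2a, h3⟩⟩
      · exact ⟨hrs, hr, hs, Or.inr ⟨h2b, h3⟩⟩
    · subst h
      rcases PSL2Degrees.prime_dvd_cases hr h1 with h3 | h3
      · exact ⟨hrs, hr, hs, Or.inl ⟨h3, h2a⟩⟩
      · exact ⟨hrs, hr, hs, Or.inr ⟨h3, h2b⟩⟩
    · exact ⟨hrs, hr, hs, Or.inl h⟩
    · exact ⟨hrs, hr, hs, Or.inr h⟩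

end Cfsg.Agent.S4774
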