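import Cfsg.Statements.S4775
import Cfsg.Agent.Lib.SzChr9

set_option autoImplicit false
open Cfsg

namespace Cfsg.Agent.S4775

open Cfsg.Agent.Lib.SzChr Cfsg.Agent.Lib

theorem degree_of_eq {H : Type*} [Group H] {ϑ : H → ℂ} {n : ℕ} (h : ϑ 1 = (n : ℂ)) :
    charDegree ϑ = n := by
  rw [charDegree, h, Complex.natCast_re, Nat.floor_natCast]

/-- degrees of the irreducible characters -/
theorem degs {G : Type*} [Group G] [Fintype G] {q r : ℕ} (D : Data G q r) {t : ℕ} (ht : r = 2 * t) (d : ℕ) :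
    d ∈ charDegrees G ↔ (d = 1 ∨ d = q ^ 2 ∨ d = q ^ 2 + 1 ∨ d = (q - 1) * (q + 1 - r) ∨
      d = (q - 1) * (q + 1 + r) ∨ d = t * (q - 1)) := by
  obtain ⟨E0, E1, E2, W1, W2, ε1, ε2, z1, z2, w1, w2, T⟩ := D.tab
  obtain ⟨-, -, -, -, f5, f6, f7, f8⟩ := T.degrees
  have hq := D.hq
  have hqr : r ≤ q + 1 := by
    have := D.a2; omega
  have g5 : z1 = (q - 1) * (q + 1 - r) := by
    have : (z1 : ℤ) = (((q - 1) * (q + 1 - r) : ℕ) : ℤ) := by
      rw [f5, Nat.cast_mul, Nat.cast_sub (by omega), Nat.cast_sub hqr]; push_cast; ring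
    exact_mod_cast this
  have g6 : z2 = (q - 1) * (q + 1 + r) := by
    have : (z2 : ℤ) = (((q - 1) * (q + 1 + r) : ℕ) : ℤ) := by
      rw [f6, Nat.cast_mul, Nat.cast_sub (by omega)]; push_cast; ring
    exact_mod_cast this
  have hq1 : ((q - 1 : ℕ) : ℂ) = (q : ℂ) - 1 := by rw [Nat.cast_sub (by omega)]; simp
  have hW : ∀ W : IrrCharacter G, 2 * (W : G → ℂ) 1 = r * (q - 1) → (W : G → ℂ) 1 = ((t * (q - 1) : ℕ) : ℂ) := by
    intro W hW
    rw [ht] at hW
    push_cast at hW ⊢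
    rw [hq1]
    linear_combination hW / 2
  constructor
  · rintro ⟨χ, rfl⟩
    by_cases c1 : χ = one
    · left; rw [c1]; exact degree_of_eq (by rw [one_apply]; simp)
    by_cases c2 : χ = D.St
    · right; left; rw [c2]; exact degree_of_eq (by rw [D.St1]; push_cast; ring)
    by_cases c3 : χ ∈ E0
    · right; right; left; exact degree_of_eq (by rw [T.p0.deg χ c3]; push_cast; ring)
    by_cases c4 : χ ∈ E1
    · right; right; right; left; exact degree_of_eq (by rw [T.p1.deg χ c4, g5])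
    rcases (T.mem χ).1 ⟨c1, c2, c3, c4⟩ with c5 | c5 | c5
    · iterate 5 right
      rw [c5]; exact degree_of_eq (hW _ f7)
    · iterate 5 right
      rw [c5]; exact degree_of_eq (hW _ f8)
    · iterate 4 right
      left; exact degree_of_eq (by rw [T.deg2 χ c5, g6])
  · rintro (h | h | h | h | h | h)
    · exact ⟨one, by rw [h]; exact degree_of_eq (by rw [one_apply]; simp)⟩
    · exact ⟨D.St, by rw [h]; exact degree_of_eq (by rw [D.St1]; push_cast; ring)⟩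
    · obtain ⟨χ, hχ⟩ := T.nonempty0
      exact ⟨χ, by rw [h]; exact degree_of_eq (by rw [T.p0.deg χ hχ]; push_cast; ring)⟩
    · obtain ⟨χ, hχ⟩ := T.nonempty1
      exact ⟨χ, by rw [h]; exact degree_of_eq (by rw [T.p1.deg χ hχ, g5])⟩
    · obtain ⟨χ, hχ⟩ := T.nonempty2
      exact ⟨χ, by rw [h]; exact degree_of_eq (by rw [T.deg2 χ hχ, g6])⟩
    · exact ⟨W1, by rw [h]; exact degree_of_eq (hW _ f7)⟩

theorem charDegrees_congr {G H : Type*} [Group G] [Group H] (e : G ≃* H) (d : ℕ) :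
    d ∈ charDegrees G ↔ d ∈ charDegrees H := by
  constructor
  · rintro ⟨χ, rfl⟩
    refine ⟨⟨fun h => (χ : G → ℂ) (e.symm h), ?_⟩, ?_⟩
    · exact (Cfsg.Agent.Lib.CharBasic.isIrrCharacter_comp_mulEquiv_iff (χ := (χ : G → ℂ)) e.symm).2 χ.2
    · simp [charDegree]
  · rintro ⟨χ, rfl⟩
    refine ⟨⟨fun h => (χ : H → ℂ) (e h), ?_⟩, ?_⟩
    · exact (Cfsg.Agent.Lib.CharBasic.isIrrCharacter_comp_mulEquiv_iff (χ := (χ : H → ℂ)) e).2 χ.2
    · simp [charDegree]

/-- Let F be a finite field with q = 2^(2m+1) ≥ 8 elements and let S be isomorphic to the Suzuki group over F. Then the vertices of the character degree graph of S are 2 and the primes dividing (q − 1)(q² + 1); the primes dividing (q − 1)(q² + 1) are pairwise adjacent, and 2 is adjacent exactly to the primes dividing q − 1. -/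
theorem result (F : Type*) [Field F] [Fintype F] (m : ℕ) (hm : 1 ≤ m) (q : ℕ) (hq : Fintype.card F = q) (hqm : q = 2 ^ (2 * m + 1)) {S : Type*} [Group S] [Finite S] (hS : Nonempty (S ≃* ↥(Cfsg.Lie.Sz F (2 ^ (m + 1))))) : Cfsg.degreePrimes S = {r : ℕ | r.Prime ∧ (r = 2 ∨ r ∣ (q - 1) * (q ^ 2 + 1))} ∧ ∀ r s : ℕ, (Cfsg.degreeGraph S).Adj r s ↔ (r ≠ s ∧ r.Prime ∧ s.Prime ∧ ((r ∣ (q - 1) * (q ^ 2 + 1) ∧ s ∣ (q - 1) * (q ^ 2 + 1)) ∨ (r = 2 ∧ s ∣ q - 1) ∨ (s = 2 ∧ r ∣ q - 1))) := by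
  obtain ⟨e⟩ := hS
  have hF : Fintype.card F = 2 ^ (2 * m + 1) := by rw [hq, hqm]
  have hcp : CharP F 2 := SuzukiFin.charTwo hF
  have hθ := SuzukiFin.th_sq (F := F) (m := m) hF
  have hne := SuzukiFin.th_ne (F := F) hm hF
  have e2 : S ≃* SuzukiOvoid.Gz (SuzukiFin.th F m) :=
    (e.trans (SuzukiLie.szEquiv m hm hF).symm).trans (MulEquiv.subgroupCongr (SuzukiFin.Sz_eq m))
  have hft : Fintype (SuzukiOvoid.Gz (SuzukiFin.th F m)) := Fintype.ofFinite _
  obtain ⟨D⟩ := exists_data (SuzukiFin.th F m) hθ hne hm (by rw [Nat.card_eq_fintype_card, hF])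
  have hdeg : ∀ d, d ∈ charDegrees S ↔ (d = 1 ∨ d = q ^ 2 ∨ d = q ^ 2 + 1 ∨
      d = (q - 1) * (q + 1 - 2 ^ (m + 1)) ∨ d = (q - 1) * (q + 1 + 2 ^ (m + 1)) ∨ d = 2 ^ m * (q - 1)) := by
    intro d
    rw [charDegrees_congr e2, hqm]
    exact degs D (by rw [pow_succ]; ring) d
  have hr2 := D.hr
  have h8 := D.hq
  have hrq : 2 ^ (m + 1) ≤ q + 1 := by have := D.a2; rw [hqm]; omega
  rw [← hqm] at hr2 h8
  have hfac : (q + 1 - 2 ^ (m + 1)) * (q + 1 + 2 ^ (m + 1)) = q ^ 2 + 1 := by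
    zify [hrq]
    have : ((2 ^ (m + 1) : ℕ) : ℤ) ^ 2 = 2 * q := by exact_mod_cast hr2
    push_cast at this
    linear_combination -this
  set a := q + 1 - 2 ^ (m + 1) with ha
  set b := q + 1 + 2 ^ (m + 1) with hb
  have ham : a ∣ q ^ 2 + 1 := ⟨b, hfac.symm⟩
  have hbm : b ∣ q ^ 2 + 1 := ⟨a, by rw [← hfac, mul_comm]⟩
  have hq2 : 2 ∣ q := by rw [hqm]; exact dvd_pow_self 2 (by omega)
  have hqpow : ∀ p : ℕ, p.Prime → p ∣ q → p = 2 := by
    intro p hp h
    rw [hqm] at h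
    exact (Nat.prime_dvd_prime_iff_eq hp Nat.prime_two).1 (hp.dvd_of_dvd_pow h)
  -- prime divisors of degrees
  have hpd : ∀ d ∈ charDegrees S, ∀ p : ℕ, p.Prime → p ∣ d → p = 2 ∨ p ∣ (q - 1) * (q ^ 2 + 1) := by
    intro d hd p hp hpd
    rcases (hdeg d).1 hd with h | h | h | h | h | h <;> rw [h] at hpd
    · exact absurd (Nat.dvd_one.1 hpd) hp.one_lt.ne'
    · exact Or.inl (hqpow p hp (hp.dvd_of_dvd_pow hpd))
    · exact Or.inr (hpd.mul_left _)
    · rcases hp.dvd_mul.1 hpd with h1 | h1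
      · exact Or.inr (h1.mul_right _)
      · exact Or.inr ((h1.trans ham).mul_left _)
    · rcases hp.dvd_mul.1 hpd with h1 | h1
      · exact Or.inr (h1.mul_right _)
      · exact Or.inr ((h1.trans hbm).mul_left _)
    · rcases hp.dvd_mul.1 hpd with h1 | h1
      · exact Or.inl ((Nat.prime_dvd_prime_iff_eq hp Nat.prime_two).1 (hp.dvd_of_dvd_pow h1))
      · exact Or.inr (h1.mul_right _)
  have h2n : ¬ 2 ∣ (q - 1) * (q ^ 2 + 1) := by
    rw [Nat.Prime.dvd_mul Nat.prime_two]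
    rintro (h | h)
    · have : 2 ∣ q - (q - 1) := Nat.dvd_sub hq2 h
      have h1 : q - (q - 1) = 1 := by omega
      rw [h1] at this; omega
    · have h1 : 2 ∣ q ^ 2 := hq2.trans (dvd_pow_self q two_ne_zero)
      have := (Nat.dvd_add_right h1).1 h
      omega
  -- two primes dividing (q-1)(q²+1)
  have hboth : ∀ p s : ℕ, p.Prime → s.Prime → p ∣ (q - 1) * (q ^ 2 + 1) → s ∣ (q - 1) * (q ^ 2 + 1) →
      ∃ d ∈ charDegrees S, p ∣ d ∧ s ∣ d := by
    have h3 : ∀ p : ℕ, p.Prime → p ∣ (q - 1) * (q ^ 2 + 1) → p ∣ q - 1 ∨ p ∣ a ∨ p ∣ b := by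
      intro p hp h
      rcases hp.dvd_mul.1 h with h1 | h1
      · exact Or.inl h1
      · rw [← hfac] at h1
        exact Or.inr (hp.dvd_mul.1 h1)
    have d1 : (q - 1) * a ∈ charDegrees S := (hdeg _).2 (by tauto)
    have d2 : (q - 1) * b ∈ charDegrees S := (hdeg _).2 (by tauto)
    have d3 : q ^ 2 + 1 ∈ charDegrees S := (hdeg _).2 (by tauto)
    intro p s hp hs h1 h2
    rcases h3 p hp h1 with h1 | h1 | h1 <;> rcases h3 s hs h2 with h2 | h2 | h2
    · exact ⟨_, d1, h1.mul_right _, h2.mul_right _⟩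
    · exact ⟨_, d1, h1.mul_right _, h2.mul_left _⟩
    · exact ⟨_, d2, h1.mul_right _, h2.mul_left _⟩
    · exact ⟨_, d1, h1.mul_left _, h2.mul_right _⟩
    · exact ⟨_, d1, h1.mul_left _, h2.mul_left _⟩
    · exact ⟨_, d3, h1.trans ham, h2.trans hbm⟩
    · exact ⟨_, d2, h1.mul_left _, h2.mul_right _⟩
    · exact ⟨_, d3, h1.trans hbm, h2.trans ham⟩
    · exact ⟨_, d2, h1.mul_left _, h2.mul_left _⟩
  have d6 : 2 ^ m * (q - 1) ∈ charDegrees S := (hdeg _).2 (by tauto)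
  have h2m : 2 ∣ 2 ^ m := dvd_pow_self 2 (by omega)
  -- two with another prime
  have htwo : ∀ s : ℕ, s.Prime → s ≠ 2 → ∀ d ∈ charDegrees S, 2 ∣ d → s ∣ d → s ∣ q - 1 := by
    intro s hs hs2 d hd h2 h
    rcases (hdeg d).1 hd with h1 | h1 | h1 | h1 | h1 | h1 <;> rw [h1] at h2 h
    · omega
    · exact absurd (hqpow s hs (hs.dvd_of_dvd_pow h)) hs2
    · exact absurd (h2.mul_left _) h2n
    · exfalso; apply h2n
      rcases Nat.prime_two.dvd_mul.1 h2 with h3 | h3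
      · exact h3.mul_right _
      · exact (h3.trans ham).mul_left _
    · exfalso; apply h2n
      rcases Nat.prime_two.dvd_mul.1 h2 with h3 | h3
      · exact h3.mul_right _
      · exact (h3.trans hbm).mul_left _
    · rcases hs.dvd_mul.1 h with h3 | h3
      · exact absurd ((Nat.prime_dvd_prime_iff_eq hs Nat.prime_two).1 (hs.dvd_of_dvd_pow h3)) hs2
      · exact h3
  constructor
  · ext p
    constructor
    · rintro ⟨hp, d, hd, h⟩
      exact ⟨hp, hpd d hd p hp h⟩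
    · rintro ⟨hp, h⟩
      refine ⟨hp, ?_⟩
      rcases h with h | h
      · exact ⟨_, d6, by rw [h]; exact h2m.mul_right _⟩
      · obtain ⟨d, hd, h1, -⟩ := hboth p p hp hp h h
        exact ⟨d, hd, h1⟩
  · intro p s
    constructor
    · rintro ⟨hps, hp, hs, d, hd, h⟩
      refine ⟨hps, hp, hs, ?_⟩
      have h1 : p ∣ d := (Dvd.intro _ rfl).trans h
      have h2 : s ∣ d := (Dvd.intro_left _ rfl).trans h
      rcases hpd d hd p hp h1 with h3 | h3
      · right; left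
        refine ⟨h3, htwo s hs (fun h4 => hps (h3.trans h4.symm)) d hd (h3 ▸ h1) h2⟩
      · rcases hpd d hd s hs h2 with h4 | h4
        · right; right
          exact ⟨h4, htwo p hp (fun h5 => hps (h5.trans h4.symm)) d hd (h4 ▸ h2) h1⟩
        · exact Or.inl ⟨h3, h4⟩
    · rintro ⟨hps, hp, hs, h⟩
      refine ⟨hps, hp, hs, ?_⟩
      have hcop : Nat.Coprime p s := (Nat.coprime_primes hp hs).2 hps
      rcases h with ⟨h1, h2⟩ | ⟨h1, h2⟩ | ⟨h1, h2⟩
      · obtain ⟨d, hd, h3, h4⟩ := hboth p s hp hs h1 h2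
        exact ⟨d, hd, hcop.mul_dvd_of_dvd_of_dvd h3 h4⟩
      · exact ⟨_, d6, by rw [h1]; exact mul_dvd_mul h2m h2⟩
      · exact ⟨_, d6, by rw [h1, mul_comm]; exact mul_dvd_mul h2m h2⟩

end Cfsg.Agent.S4775
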