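import Cfsg.Statements.S4784
import Cfsg.Agent.Lib.FrobSchur
import Cfsg.Agent.Lib.DegTools

set_option autoImplicit false
open Cfsg

namespace Cfsg.Agent.S4784

open Cfsg.Agent.Lib.DefectZero Cfsg.Agent.Lib Cfsg.Agent.Lib.CharBasic Cfsg.Agent.Lib.FrobSchur
open scoped ComplexConjugate

/-- Number of `x` with `x⁻¹ g x ∈ H`. -/
noncomputable def fx {G : Type*} [Group G] [Fintype G] (H : Subgroup G) (g : G) : ℕ := by
  classical exact (Finset.univ.filter fun x : G => x⁻¹ * g * x ∈ H).card

theorem ind_eq {G : Type*} [Group G] [Fintype G] (H : Subgroup G) (g : G) :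
    indFun H (fun _ : H => (1 : ℂ)) g = (Nat.card H : ℂ)⁻¹ * fx H g := by
  classical
  rw [IndFun.indFun_apply, fx]
  congr 1
  rw [Finset.card_filter]
  push_cast
  apply Finset.sum_congr rfl
  intro x _
  rw [IndFun.extendByZero_eq]
  split_ifs <;> simp

theorem fx_le {G : Type*} [Group G] [Fintype G] (H : Subgroup G) (s : G) :
    fx H s ≤ fx H (s * s) := by
  classical
  apply Finset.card_le_card
  intro x hx
  simp only [Finset.mem_filter, Finset.mem_univ, true_and] at hx ⊢
  have : x⁻¹ * (s * s) * x = (x⁻¹ * s * x) * (x⁻¹ * s * x) := by group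
  rw [this]
  exact H.mul_mem hx hx

/-- A constituent of the permutation character on cosets of `H` contains the core in its kernel. -/
theorem core_in_kernel {G : Type*} [Group G] [Fintype G] (H N : Subgroup G) [N.Normal] (hN : N ≤ H)
    (χ : IrrCharacter G) (h : classInner (indFun H (fun _ : H => (1 : ℂ))) (χ : G → ℂ) ≠ 0) :
    ∀ n ∈ N, (χ : G → ℂ) n = (χ : G → ℂ) 1 := by
  classical
  have := Fintype.ofFinite H
  have := Fintype.ofFinite N
  rw [IndFun.frobenius_reciprocity H _ _ χ.2.isClassFunction, classInner_def] at h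
  have h1 : ∑ h : H, conj ((χ : G → ℂ) h) ≠ 0 := by
    intro h0
    apply h
    simp only [one_mul]
    rw [h0, mul_zero]
  have h2 : ∑ h : H, (χ : G → ℂ) h ≠ 0 := by
    intro h0
    apply h1
    rw [← map_sum, h0, map_zero]
  -- indicator of N
  have ha : IsClassFunction G (fun g => if g ∈ N then (1 : ℂ) else 0) := by
    intro g x
    have : x * g * x⁻¹ ∈ N ↔ g ∈ N := by
      constructor
      · intro h
        have := (inferInstance : N.Normal).conj_mem _ h x⁻¹
        simpa [mul_assoc] using this
      · intro h; exact (inferInstance : N.Normal).conj_mem _ h x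
    simp only [this]
  have hsumN : ∀ f : G → ℂ, ∑ g, (if g ∈ N then (1 : ℂ) else 0) * f g = ∑ n : N, f n := by
    intro f
    have : ∀ g, (if g ∈ N then (1 : ℂ) else 0) * f g = if g ∈ N then f g else 0 := by
      intro g; split_ifs <;> simp
    simp only [this]
    rw [← Finset.sum_filter]
    symm
    apply Finset.sum_bij (fun (n : N) _ => (n : G))
    · intro a _; simp
    · intro a _ b _ h; exact Subtype.ext h
    · intro b hb
      exact ⟨⟨b, by simpa using hb⟩, Finset.mem_univ _, rfl⟩
    · intro a _; rfl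
  have h3 : ∑ n : N, (χ : G → ℂ) n ≠ 0 := by
    intro h0
    apply h2
    have h4 : ∀ x : G, ∑ n : N, (χ : G → ℂ) (x * n) = 0 := by
      intro x
      rw [← hsumN (fun g => (χ : G → ℂ) (x * g)), StructConst.sum_mul_irr ha χ.2, hsumN, h0]
      simp
    have h5 : ∀ n : N, ∑ h : H, (χ : G → ℂ) (h * n) = ∑ h : H, (χ : G → ℂ) h := by
      intro n
      exact Equiv.sum_comp (Equiv.mulRight (⟨n, hN n.2⟩ : H)) (fun h : H => (χ : G → ℂ) h)
    have h6 : ∑ n : N, ∑ h : H, (χ : G → ℂ) (h * n) = 0 := by
      rw [Finset.sum_comm]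
      exact Finset.sum_eq_zero fun h _ => h4 h
    simp only [h5, Finset.sum_const, Finset.card_univ, nsmul_eq_mul] at h6
    rcases mul_eq_zero.mp h6 with h7 | h7
    · exact absurd h7 (by exact_mod_cast Fintype.card_ne_zero)
    · exact h7
  have hθ : IsIrrCharacter N (fun _ : N => (1 : ℂ)) := isIrrCharacter_fun_one
  have h4 : classInner (fun n : N => (χ : G → ℂ) n) (fun _ : N => (1 : ℂ)) ≠ 0 := by
    rw [classInner_def]
    simp only [map_one, mul_one]
    exact mul_ne_zero (inv_ne_zero (by exact_mod_cast Nat.card_pos.ne')) h3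
  have h5 := Clifford.res_eq_smul_of_invariant χ.2 hθ (fun g => rfl) h4
  intro n hn
  have e1 := congrFun h5 ⟨n, hn⟩
  have e2 := congrFun h5 1
  simp only [Pi.smul_apply, smul_eq_mul, mul_one, OneMemClass.coe_one] at e1 e2
  rw [e1, e2]

theorem classInner_triv {G : Type*} [Group G] [Fintype G] (H : Subgroup G) :
    classInner (indFun H (fun _ : H => (1 : ℂ))) (fun _ : G => (1 : ℂ)) = 1 := by
  classical
  have := Fintype.ofFinite H
  rw [IndFun.frobenius_reciprocity H _ _ isIrrCharacter_fun_one.isClassFunction]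
  exact isIrrCharacter_fun_one.classInner_self

theorem fsInd_triv {G : Type*} [Group G] [Fintype G] : fsInd (fun _ : G => (1 : ℂ)) = 1 := by
  rw [fsInd]
  simp

/-- Let H be a subgroup of the finite group G and consider the permutation character of G on the cosets of H (the function induced from the principal character of H). Then exactly one irreducible constituent of it is real-valued with Frobenius–Schur indicator +1 (namely the principal character) if and only if the normal core of H has odd index in G. -/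
theorem result {G : Type*} [Group G] [Fintype G] (H : Subgroup G) : Nat.card {χ : Cfsg.IrrCharacter G // Cfsg.classInner (Cfsg.indFun H (fun _ : H => (1 : ℂ))) (χ : G → ℂ) ≠ 0 ∧ (∀ g : G, (starRingEnd ℂ) ((χ : G → ℂ) g) = (χ : G → ℂ) g) ∧ (Nat.card G : ℂ)⁻¹ * ∑ g : G, (χ : G → ℂ) (g * g) = 1} = 1 ↔ Odd H.normalCore.index := by
  classical
  have htriv : classInner (indFun H (fun _ : H => (1 : ℂ))) ((trivChar G : IrrCharacter G) : G → ℂ) ≠ 0 ∧ (∀ g : G, (starRingEnd ℂ) (((trivChar G : IrrCharacter G) : G → ℂ) g) = ((trivChar G : IrrCharacter G) : G → ℂ) g) ∧ (Nat.card G : ℂ)⁻¹ * ∑ g : G, ((trivChar G : IrrCharacter G) : G → ℂ) (g * g) = 1 := by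
    refine ⟨?_, fun g => ?_, ?_⟩
    · change classInner (indFun H (fun _ : H => (1 : ℂ))) (fun _ : G => (1 : ℂ)) ≠ 0
      rw [classInner_triv]; exact one_ne_zero
    · change (starRingEnd ℂ) 1 = 1
      simp
    · exact fsInd_triv
  constructor
  · intro hone
    rw [Nat.card_eq_one_iff_unique] at hone
    obtain ⟨⟨hone⟩, -⟩ := hone
    set π := indFun H (fun _ : H => (1 : ℂ)) with hπ
    have hπchar : IsCharacter G π := Clifford.isCharacter_indFun H isIrrCharacter_fun_one.isCharacter
    have hnat : ∀ χ : IrrCharacter G, ∃ n : ℕ, classInner π (χ : G → ℂ) = n :=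
      fun χ => hπchar.classInner_nat χ.2.isCharacter
    choose a ha using hnat
    have hG : (Nat.card G : ℂ) ≠ 0 := by exact_mod_cast Nat.card_pos.ne'
    have hGr : (0 : ℝ) < Nat.card G := by exact_mod_cast Nat.card_pos
    have h1 : (Nat.card G : ℂ)⁻¹ * ∑ s : G, π (s * s) =
        ∑ χ : IrrCharacter G, (a χ : ℂ) * fsInd (χ : G → ℂ) := by
      have e : ∀ s : G, π (s * s) = ∑ χ : IrrCharacter G, (a χ : ℂ) * (χ : G → ℂ) (s * s) := by
        intro s
        rw [hπchar.isClassFunction.expansion_apply (s * s)]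
        simp only [ha]
      simp only [e]
      rw [Finset.sum_comm, Finset.mul_sum]
      apply Finset.sum_congr rfl
      intro χ _
      rw [fsInd, ← Finset.mul_sum]
      ring
    have h2 : (Nat.card G : ℂ)⁻¹ * ∑ s : G, π s = 1 := by
      have := classInner_triv H
      rw [classInner_def] at this
      simpa using this
    -- real part bound
    have h3 : (∑ χ : IrrCharacter G, (a χ : ℂ) * fsInd (χ : G → ℂ)).re ≤ 1 := by
      rw [Complex.re_sum]
      have : ∀ χ : IrrCharacter G, ((a χ : ℂ) * fsInd (χ : G → ℂ)).re ≤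
          if χ = trivChar G then (1 : ℝ) else 0 := by
        intro χ
        by_cases hχ : χ = trivChar G
        · rw [if_pos hχ]
          have e1 : (a χ : ℂ) = 1 := by
            rw [← ha, hχ]; exact classInner_triv H
          have e2 : fsInd (χ : G → ℂ) = 1 := by rw [hχ]; exact fsInd_triv
          rw [e1, e2]; simp
        · rw [if_neg hχ]
          obtain ⟨h4, h5⟩ := fsInd_trichotomy χ.2
          rcases h4 with h4 | h4 | h4
          · rw [h4]; simp
          · by_cases ha0 : a χ = 0
            · rw [ha0]; simp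
            · exfalso
              apply hχ
              have hreal : ∀ g : G, (starRingEnd ℂ) ((χ : G → ℂ) g) = (χ : G → ℂ) g := by
                intro g
                by_contra hg
                have : fsInd (χ : G → ℂ) = 0 := by
                  rw [h5]
                  refine ⟨g, fun h => hg ?_⟩
                  exact Complex.conj_eq_iff_im.mpr h
                rw [this] at h4
                exact zero_ne_one h4
              have h6 := hone ⟨χ, by rw [ha]; exact_mod_cast ha0, hreal, h4⟩ ⟨trivChar G, htriv⟩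
              exact congrArg Subtype.val h6
          · rw [h4]
            simp
      refine (Finset.sum_le_sum fun χ _ => this χ).trans ?_
      simp
    have h4 : ∑ s : G, (fx H (s * s) : ℝ) ≤ ∑ s : G, (fx H s : ℝ) := by
      have hH : (0 : ℝ) < Nat.card H := by exact_mod_cast Nat.card_pos
      have e1 : (Nat.card G : ℂ)⁻¹ * ∑ s : G, π (s * s) =
          (((Nat.card G : ℝ)⁻¹ * ((Nat.card H : ℝ)⁻¹ * ∑ s : G, (fx H (s * s) : ℝ)) : ℝ) : ℂ) := by
        push_cast
        rw [Finset.mul_sum]
        simp only [hπ, ind_eq]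
        rw [Finset.mul_sum]
        simp only [Finset.mul_sum]
      have e2 : (Nat.card G : ℂ)⁻¹ * ∑ s : G, π s =
          (((Nat.card G : ℝ)⁻¹ * ((Nat.card H : ℝ)⁻¹ * ∑ s : G, (fx H s : ℝ)) : ℝ) : ℂ) := by
        push_cast
        simp only [hπ, ind_eq]
        simp only [Finset.mul_sum]
      rw [← h1, e1, Complex.ofReal_re] at h3
      rw [e2] at h2
      have h5 : (Nat.card G : ℝ)⁻¹ * ((Nat.card H : ℝ)⁻¹ * ∑ s : G, (fx H s : ℝ)) = 1 := by
        exact_mod_cast h2
      rw [← h5] at h3
      have h6 := le_of_mul_le_mul_left h3 (inv_pos.mpr hGr)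
      exact le_of_mul_le_mul_left h6 (inv_pos.mpr hH)
    have h5 : ∀ s : G, fx H (s * s) = fx H s := by
      have h6 : ∑ s : G, ((fx H (s * s) : ℝ) - fx H s) ≤ 0 := by
        rw [Finset.sum_sub_distrib]; linarith
      have h7 : ∀ s ∈ Finset.univ, (0 : ℝ) ≤ ((fx H (s * s) : ℝ) - fx H s) := by
        intro s _
        have : (fx H s : ℝ) ≤ fx H (s * s) := by exact_mod_cast fx_le H s
        linarith
      have h8 := (Finset.sum_eq_zero_iff_of_nonneg h7).mp (le_antisymm h6 (Finset.sum_nonneg h7))
      intro s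
      have h9 := h8 s (Finset.mem_univ _)
      have : (fx H (s * s) : ℝ) = fx H s := by linarith
      exact_mod_cast this
    by_contra hodd
    rw [Nat.not_odd_iff_even, even_iff_two_dvd] at hodd
    obtain ⟨t, ht⟩ := exists_prime_orderOf_dvd_card' (G := G ⧸ H.normalCore) 2 hodd
    obtain ⟨s, rfl⟩ := QuotientGroup.mk_surjective t
    have hss : s * s ∈ H.normalCore := by
      have h6 := pow_orderOf_eq_one (QuotientGroup.mk s : G ⧸ H.normalCore)
      rw [ht, sq, ← QuotientGroup.mk_mul, QuotientGroup.eq_one_iff] at h6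
      exact h6
    have hs : s ∉ H.normalCore := by
      intro h6
      rw [← QuotientGroup.eq_one_iff] at h6
      rw [h6, orderOf_one] at ht
      omega
    apply hs
    have h6 : fx H (s * s) = Fintype.card G := by
      rw [fx, Finset.card_eq_iff_eq_univ, Finset.eq_univ_iff_forall]
      intro x
      simp only [Finset.mem_filter, Finset.mem_univ, true_and]
      have h7 := (H.normalCore_normal).conj_mem _ hss x⁻¹
      rw [inv_inv] at h7
      exact H.normalCore_le h7
    rw [h5 s, fx, Finset.card_eq_iff_eq_univ, Finset.eq_univ_iff_forall] at h6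
    rw [Subgroup.normalCore]
    intro x
    have h7 := h6 x⁻¹
    simp only [Finset.mem_filter, Finset.mem_univ, true_and, inv_inv] at h7
    exact h7
  · intro hodd
    rw [Nat.card_eq_one_iff_unique]
    refine ⟨⟨?_⟩, ⟨⟨trivChar G, htriv⟩⟩⟩
    have key : ∀ χ : IrrCharacter G, classInner (indFun H (fun _ : H => (1 : ℂ))) (χ : G → ℂ) ≠ 0 →
        (∀ g : G, (starRingEnd ℂ) ((χ : G → ℂ) g) = (χ : G → ℂ) g) → χ = trivChar G := by
      intro χ h1 h2
      have h3 := core_in_kernel H H.normalCore H.normalCore_le χ h1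
      obtain ⟨ψ, hψ, hψ2⟩ := χ.2.deflate H.normalCore h3
      have hodd' : Odd (Nat.card (G ⧸ H.normalCore)) := hodd
      have h4 := PermLemma.real_irr_of_odd hodd' ⟨ψ, hψ⟩ (by
        intro g
        obtain ⟨x, rfl⟩ := QuotientGroup.mk_surjective g
        change (ψ x).im = 0
        rw [hψ2]
        exact Complex.conj_eq_iff_im.mp (h2 x))
      apply Subtype.ext
      funext g
      rw [← hψ2 g]
      exact congrFun h4 _
    rintro ⟨χ, h1, h2, -⟩ ⟨χ', h1', h2', -⟩
    apply Subtype.ext
    change χ = χ'
    rw [key χ h1 h2, key χ' h1' h2']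

end Cfsg.Agent.S4784
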