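import Cfsg.Statements.S4802
import Cfsg.Agent.Lib.Codegree

set_option autoImplicit false
open Cfsg

namespace Cfsg.Agent.S4802

/-- Let N < M be normal subgroups of the finite group G and g ∈ M ∖ N. Then the conjugacy class of g is exactly M ∖ N if and only if every irreducible complex character of G whose kernel contains N takes the same value at all elements of M ∖ N, and every irreducible complex character of G whose kernel does not contain N vanishes at g. -/
theorem result {G : Type*} [Group G] [Finite G] (N M : Subgroup G) [N.Normal] [M.Normal] (hNM : N < M) (g : G) (hgM : g ∈ M) (hgN : g ∉ N) : {h : G | IsConj g h} = (M : Set G) \ (N : Set G) ↔ ((∀ χ : Cfsg.IrrCharacter G, (∀ x ∈ N, (χ : G → ℂ) x = (χ : G → ℂ) 1) → ∀ x ∈ M, x ∉ N → ∀ y ∈ M, y ∉ N → (χ : G → ℂ) x = (χ : G → ℂ) y) ∧ (∀ χ : Cfsg.IrrCharacter G, (∃ x ∈ N, (χ : G → ℂ) x ≠ (χ : G → ℂ) 1) → (χ : G → ℂ) g = 0)) := by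
  classical
  haveI := Fintype.ofFinite G
  haveI := Fintype.ofFinite N
  have hNM' : N ≤ M := hNM.le
  constructor
  · intro h
    have hmem : ∀ x, x ∈ M → x ∉ N → IsConj g x := by
      intro x hx hxN
      have : x ∈ {h : G | IsConj g h} := by rw [h]; exact ⟨hx, hxN⟩
      exact this
    refine ⟨?_, ?_⟩
    · intro χ _ x hx hxN y hy hyN
      exact χ.2.isClassFunction.conj_eq ((hmem x hx hxN).symm.trans (hmem y hy hyN))
    · intro χ hχ
      have h1 : ∀ n : N, (χ : G → ℂ) (g * n) = (χ : G → ℂ) g := by
        intro n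
        apply χ.2.isClassFunction.conj_eq
        apply IsConj.symm
        apply hmem
        · exact M.mul_mem hgM (hNM' n.2)
        · intro h2
          apply hgN
          have := N.mul_mem h2 (N.inv_mem n.2)
          rwa [mul_inv_cancel_right] at this
      have h2 : ∑ n : N, (χ : G → ℂ) (g * n) = 0 := by
        obtain ⟨m, ρ, hρ, hρχ⟩ := χ.2
        haveI := hρ
        have h3 := Cfsg.Agent.Lib.CharMisc.sum_normal_eq_zero ρ N (by
          obtain ⟨n, hn, hne⟩ := hχ
          refine ⟨n, hn, fun h2 => hne ?_⟩
          rw [← hρχ]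
          simp only [Representation.character, h2, map_one]
          rfl)
        have h4 := congrArg (fun f => LinearMap.trace ℂ (Fin m → ℂ) (ρ g * f)) h3
        simp only [mul_zero, map_zero, Finset.mul_sum, map_sum] at h4
        rw [← h4, ← hρχ]
        apply Finset.sum_congr rfl
        intro n _
        rw [Representation.character, map_mul]
      rw [Finset.sum_congr rfl (fun n _ => h1 n), Finset.sum_const, Finset.card_univ,
        nsmul_eq_mul] at h2
      rcases mul_eq_zero.1 h2 with h3 | h3
      · exfalso
        have : Fintype.card N = 0 := by exact_mod_cast h3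
        exact Fintype.card_ne_zero this
      · exact h3
  · rintro ⟨h1, h2⟩
    ext x
    constructor
    · intro hx
      obtain ⟨c, hc⟩ := isConj_iff.1 (show IsConj g x from hx)
      refine ⟨?_, ?_⟩
      · rw [← hc]; exact (inferInstance : M.Normal).conj_mem g hgM c
      · intro hxN
        apply hgN
        have h3 := (inferInstance : N.Normal).conj_mem x hxN c⁻¹
        have h4 : c⁻¹ * x * c⁻¹⁻¹ = g := by rw [← hc]; group
        rwa [h4] at h3
    · rintro ⟨hxM, hxN⟩
      show IsConj g x
      by_contra hc
      have h3 := Cfsg.Agent.Lib.CharBasic.column_orthogonality g x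
      rw [if_neg hc] at h3
      have h4 := Cfsg.Agent.Lib.CharBasic.column_orthogonality g g
      rw [if_pos (IsConj.refl g)] at h4
      have h5 : ∑ χ : Cfsg.IrrCharacter G, (χ : G → ℂ) g * (starRingEnd ℂ) ((χ : G → ℂ) x) =
          ∑ χ : Cfsg.IrrCharacter G, (χ : G → ℂ) g * (starRingEnd ℂ) ((χ : G → ℂ) g) := by
        apply Finset.sum_congr rfl
        intro χ _
        by_cases hk : ∀ x ∈ N, (χ : G → ℂ) x = (χ : G → ℂ) 1
        · rw [h1 χ hk x hxM hxN g hgM hgN]
        · push Not at hk
          rw [h2 χ hk, zero_mul, zero_mul]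
      rw [h3, h4] at h5
      have h6 : (Nat.card (Subgroup.centralizer ({g} : Set G)) : ℂ) ≠ 0 := by
        exact_mod_cast Nat.card_pos.ne'
      exact h6 h5.symm

end Cfsg.Agent.S4802
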