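import Cfsg.Statements.S4807
import Mathlib
import Cfsg.Agent.Lib.RMck10

set_option autoImplicit false
open Cfsg

namespace Cfsg.Agent.S4807
open Cfsg.Agent.Lib.RMck Cfsg.Agent.Lib.CharBasic
open scoped ComplexConjugate
attribute [local instance 5000] Fintype.ofFinite in
theorem ip_ne_iff {G : Type*} [Group G] [Finite G] (L : Subgroup G) (f : G → ℂ) (ν : Cfsg.IrrCharacter L) :
    ip L f (lf L (ν : L → ℂ)) ≠ 0 ↔ (∑ᶠ l : ↥L, f l * conj ((ν : L → ℂ) l)) ≠ 0 := by
  have h0 : (Nat.card L : ℂ) ≠ 0 := by exact_mod_cast Nat.card_pos.ne'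
  have h1 : ip L f (lf L (ν : L → ℂ)) = (Nat.card L : ℂ)⁻¹ * ∑ᶠ l : ↥L, f l * conj ((ν : L → ℂ) l) := by
    unfold ip
    rw [lf_fun, classInner_def, finsum_eq_sum_of_fintype]
  rw [h1]
  constructor
  · intro h h2
    apply h
    rw [h2, mul_zero]
  · intro h
    exact mul_ne_zero (inv_ne_zero h0) h

/-- Let p be a prime and G a finite p-solvable group, L a normal subgroup of G, S a Sylow p-subgroup of G and P the subgroup generated by L and S (so P/L is a Sylow p-subgroup of G/L), and let ν be an irreducible complex character of L that is invariant under conjugation by every element of P. Let N be the normalizer of P in G (it contains L). Then the number of irreducible characters of G of degree prime to p lying over ν (restriction to L not orthogonal to ν) equals the number of irreducible characters of N of degree prime to p lying over ν. -/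
theorem result {G : Type*} [Group G] [Finite G] (p : ℕ) [Fact p.Prime] (hG : Cfsg.IsPSolvable p G) (L : Subgroup G) [L.Normal] (S : Sylow p G) (P : Subgroup G) (hP : P = L ⊔ (S : Subgroup G)) (hLN : L ≤ (Subgroup.normalizer ((P : Subgroup G) : Set G))) (ν : Cfsg.IrrCharacter ↥L) (hν : ∀ x ∈ P, Cfsg.IsConjCharOf L x (ν : ↥L → ℂ) (ν : ↥L → ℂ)) : Nat.card {χ : Cfsg.IrrCharacter G // ¬ p ∣ Cfsg.charDegree (χ : G → ℂ) ∧ (∑ᶠ l : ↥L, (χ : G → ℂ) (l : G) * (starRingEnd ℂ) ((ν : ↥L → ℂ) l)) ≠ 0} = Nat.card {ψ : Cfsg.IrrCharacter ↥(Subgroup.normalizer ((P : Subgroup G) : Set G)) // ¬ p ∣ Cfsg.charDegree (ψ : ↥(Subgroup.normalizer ((P : Subgroup G) : Set G)) → ℂ) ∧ (∑ᶠ l : ↥L, (ψ : ↥(Subgroup.normalizer ((P : Subgroup G) : Set G)) → ℂ) (Subgroup.inclusion hLN l) * (starRingEnd ℂ) ((ν : ↥L → ℂ) l)) ≠ 0} := by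
  subst hP
  have hst : (S : Subgroup G) ≤ stab L (lf L (ν : L → ℂ)) := by
    intro s hs
    have hsn : s ∈ Subgroup.normalizer (L : Set G) := mem_norm_of_normal s
    refine ⟨hsn, fun n hn => ?_⟩
    have hsn' : s * n * s⁻¹ ∈ L := ((Subgroup.mem_normalizer_iff.mp hsn) n).mp hn
    rw [lf_mem L _ hn, lf_mem L _ hsn']
    exact hν s (Subgroup.mem_sup_right hs) ⟨n, hn⟩ ⟨_, hsn'⟩ rfl
  have hidx : ¬ p ∣ (L ⊔ (S : Subgroup G)).relIndex ⊤ := by
    rw [Subgroup.relIndex_top_right]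
    exact fun h => S.not_dvd_index (h.trans (Subgroup.index_dvd_of_le le_sup_right))
  have hmain := relmckay hG _ ⊤ L (S : Subgroup G) (lf L (ν : L → ℂ)) rfl le_top le_norm_of_normal le_top S.2 hidx
    (chOn_lf ν) hst
  rw [top_inf_eq, cnt_top] at hmain
  have e1 : Nat.card {χ : Cfsg.IrrCharacter G // ¬ p ∣ Cfsg.charDegree (χ : G → ℂ) ∧
      (∑ᶠ l : ↥L, (χ : G → ℂ) (l : G) * (starRingEnd ℂ) ((ν : ↥L → ℂ) l)) ≠ 0} =
      Nat.card {χ : Cfsg.IrrCharacter G // ¬ p ∣ dg (χ : G → ℂ) ∧ ip L (χ : G → ℂ) (lf L (ν : L → ℂ)) ≠ 0} := by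
    refine Nat.card_congr ((Equiv.refl _).subtypeEquiv (fun χ => ?_))
    rw [Equiv.refl_apply, ip_ne_iff]
    rfl
  rw [e1, hmain]
  unfold cnt
  refine Nat.card_congr ((Equiv.refl _).subtypeEquiv (fun ψ => ?_))
  rw [Equiv.refl_apply, ip_ne_iff, ← charDegree_eq_dg]
  have e2 : ∀ l : L, lf (Subgroup.normalizer ((L ⊔ (S : Subgroup G) : Subgroup G) : Set G)) (ψ : _ → ℂ) (l : G) =
      (ψ : ↥(Subgroup.normalizer ((L ⊔ (S : Subgroup G) : Subgroup G) : Set G)) → ℂ) (Subgroup.inclusion hLN l) := by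
    intro l
    exact lf_mem _ _ (hLN l.2)
  simp only [e2]

end Cfsg.Agent.S4807
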