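import Cfsg.Statements.S4812
import Cfsg.Agent.Lib.PSL2Degrees

set_option autoImplicit false
open Cfsg

namespace Cfsg.Agent.S4812

/-- Let F be a finite field of characteristic 2 with q ≥ 4 elements and let S be isomorphic to PSL(2,F) or to SL(2,F). Then the vertices of the character degree graph of S are the primes dividing q(q²−1), and two distinct primes are adjacent exactly when both divide q + 1 or both divide q − 1; so the graph has the three connected components {2}, the primes dividing q + 1 and the primes dividing q − 1, each complete. -/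
theorem result (F : Type*) [Field F] [Fintype F] [CharP F 2] (q : ℕ) (hq : Fintype.card F = q) (h4 : 4 ≤ q) {S : Type*} [Group S] [Finite S] (hS : Nonempty (S ≃* Matrix.ProjectiveSpecialLinearGroup (Fin 2) F) ∨ Nonempty (S ≃* Matrix.SpecialLinearGroup (Fin 2) F)) : Cfsg.degreePrimes S = {r : ℕ | r.Prime ∧ r ∣ q * (q ^ 2 - 1)} ∧ ∀ r s : ℕ, (Cfsg.degreeGraph S).Adj r s ↔ (r ≠ s ∧ r.Prime ∧ s.Prime ∧ ((r ∣ q + 1 ∧ s ∣ q + 1) ∨ (r ∣ q - 1 ∧ s ∣ q - 1))) := by
  have hcard : Nat.card F = q := by rw [Nat.card_eq_fintype_card, hq]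
  have : Fact (Nat.Prime 2) := ⟨Nat.prime_two⟩
  obtain ⟨k, hk⟩ : ∃ k : ℕ, q = 2 ^ k := by
    obtain ⟨n, _, hn⟩ := FiniteField.card F 2
    exact ⟨n, by rw [← hq, hn]⟩
  have h45 : q = 4 ∨ 5 < q := by
    have h5 : q ≠ 5 := by
      rintro rfl
      rcases k with _ | k
      · simp at hk
      · rw [pow_succ] at hk; omega
    omega
  have hD : PSL2Degrees.Degs S q := by
    rcases hS with ⟨⟨e⟩⟩ | ⟨⟨e⟩⟩
    · exact (PSL2Degrees.degs_psl hcard h45).of_equiv e
    · exact (PSL2Degrees.degs_sl hcard h45).of_equiv e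
  exact ⟨hD.primes, fun r s => hD.adj Nat.prime_two hk r s⟩

end Cfsg.Agent.S4812
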