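import Cfsg.Statements.S4814
import Cfsg.Agent.Lib.CommutatorCount
import Cfsg.Agent.Lib.CharValues

set_option autoImplicit false
open Cfsg

namespace Cfsg.Agent.S4814

open Cfsg.Agent.Lib.CommutatorCount Cfsg.Agent.Lib.CharBasic
open scoped ComplexConjugate

theorem norm_le {G : Type*} [Group G] [Finite G] (χ : IrrCharacter G) (g : G) :
    ‖(χ : G → ℂ) g‖ ≤ ‖(χ : G → ℂ) 1‖ := by
  obtain ⟨n, ρ, hρ, h⟩ := χ.2
  rw [← h, Representation.char_one]
  have := Lib.CharValues.norm_character_le ρ g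
  simpa using this

theorem count_eq {G : Type*} [Group G] [Fintype G] (g : G) :
    ∑ x : G, commCount x * commCount (x⁻¹ * g) =
      (Nat.card G : ℂ) ^ 3 * ∑ χ : IrrCharacter G, (χ : G → ℂ) g / (χ : G → ℂ) 1 ^ 3 := by
  classical
  have h1 : ∀ x : G, commCount x * commCount (x⁻¹ * g) =
      ∑ χ : IrrCharacter G, (Nat.card G : ℂ) / (χ : G → ℂ) 1 * (commCount x * (χ : G → ℂ) (x⁻¹ * g)) := by
    intro x
    rw [commCount_eq (x⁻¹ * g), Finset.mul_sum, Finset.mul_sum]
    refine Finset.sum_congr rfl fun χ _ => ?_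
    ring
  simp only [h1]
  rw [Finset.sum_comm, Finset.mul_sum]
  refine Finset.sum_congr rfl fun χ _ => ?_
  rw [← Finset.mul_sum]
  have hinv : ∀ x : G, commCount (G := G) x⁻¹ = commCount x := by
    intro x
    unfold commCount
    rw [Finset.sum_comm]
    refine Finset.sum_congr rfl fun a _ => Finset.sum_congr rfl fun b _ => ?_
    have : (b * a * b⁻¹ * a⁻¹ = x⁻¹) ↔ (a * b * a⁻¹ * b⁻¹ = x) := by
      constructor
      · intro h
        rw [← inv_inv x, ← h]; group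
      · intro h
        rw [← h]; group
    simp only [this]
  have h2 : ∑ x : G, commCount x * (χ : G → ℂ) (x⁻¹ * g) = ∑ x : G, commCount x * (χ : G → ℂ) (g * x) := by
    rw [← Equiv.sum_comp (Equiv.inv G)]
    refine Finset.sum_congr rfl fun x _ => ?_
    rw [Equiv.inv_apply, hinv, inv_inv]
    have := χ.2.isClassFunction (x * g) x⁻¹
    rw [← this]
    congr 2
    group
  rw [h2, Lib.StructConst.sum_mul_irr commCount_isClassFunction χ.2, sum_commCount_mul,
    sum_character_commutator χ.2]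
  have := χ.2.one_ne_zero
  field_simp

/-- Let G be a finite group such that the sum, over the irreducible complex characters χ of G, of 1/χ(1)² is less than 2. Then every element of G is a product of two commutators. -/
theorem result {G : Type*} [Group G] [Finite G]
    (h : ∑ᶠ χ : Cfsg.IrrCharacter G, 1 / ‖(χ : G → ℂ) 1‖ ^ 2 < (2 : ℝ)) (g : G) :
    ∃ a b c d : G, (a * b * a⁻¹ * b⁻¹) * (c * d * c⁻¹ * d⁻¹) = g := by
  classical
  have := Fintype.ofFinite G
  by_contra hno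
  push Not at hno
  have h0 : ∑ x : G, commCount x * commCount (x⁻¹ * g) = 0 := by
    refine Finset.sum_eq_zero fun x _ => ?_
    by_contra hne
    rw [← ne_eq, mul_ne_zero_iff, commCount_ne_zero_iff, commCount_ne_zero_iff] at hne
    obtain ⟨⟨a, b, hab⟩, ⟨c, d, hcd⟩⟩ := hne
    apply hno a b c d
    rw [← hab, ← hcd]; group
  rw [count_eq] at h0
  have hG : (Nat.card G : ℂ) ≠ 0 := Nat.cast_ne_zero.mpr Nat.card_pos.ne'
  have h1 := (mul_eq_zero.1 h0).resolve_left (pow_ne_zero 3 hG)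
  set t : IrrCharacter G := ⟨fun _ => 1, isIrrCharacter_fun_one⟩ with ht
  rw [← Finset.add_sum_erase _ _ (Finset.mem_univ t)] at h1
  have h2 : (t : G → ℂ) g / (t : G → ℂ) 1 ^ 3 = 1 := by simp [ht]
  rw [h2] at h1
  rw [finsum_eq_sum_of_fintype, ← Finset.add_sum_erase _ _ (Finset.mem_univ t)] at h
  have h3 : 1 / ‖(t : G → ℂ) 1‖ ^ 2 = 1 := by simp [ht]
  rw [h3] at h
  have h4 : ‖∑ χ ∈ Finset.univ.erase t, (χ : G → ℂ) g / (χ : G → ℂ) 1 ^ 3‖ ≤
      ∑ χ ∈ Finset.univ.erase t, 1 / ‖(χ : G → ℂ) 1‖ ^ 2 := by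
    refine (norm_sum_le _ _).trans (Finset.sum_le_sum fun χ _ => ?_)
    have h5 : 0 < ‖(χ : G → ℂ) 1‖ := norm_pos_iff.2 χ.2.one_ne_zero
    rw [norm_div, norm_pow, div_le_div_iff₀ (by positivity) (by positivity), one_mul]
    have := norm_le χ g
    calc ‖(χ : G → ℂ) g‖ * ‖(χ : G → ℂ) 1‖ ^ 2 ≤ ‖(χ : G → ℂ) 1‖ * ‖(χ : G → ℂ) 1‖ ^ 2 := by gcongr
      _ = _ := by ring
  have h5 : ∑ χ ∈ Finset.univ.erase t, (χ : G → ℂ) g / (χ : G → ℂ) 1 ^ 3 = -1 := by
    linear_combination h1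
  rw [h5, norm_neg, norm_one] at h4
  linarith

end Cfsg.Agent.S4814
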