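import Cfsg.Statements.S4825
import Cfsg.Agent.Lib.BlockIdem
import Cfsg.Agent.Lib.BlockCover
import Cfsg.Agent.Lib.CliffordCorr
import Cfsg.Agent.Lib.H76Char

set_option autoImplicit false
open Cfsg

namespace Cfsg.Agent.S4825

open Lib.BlockRing Lib.BlockIdem Lib.BlockCover Lib
open scoped ComplexConjugate

/-- Let p be a prime, G a finite group with Sylow p-subgroup P, M a maximal ideal of the algebraic integers containing p, and B a p-block of G with defect group P. Let N be a normal subgroup of G not containing P and θ an irreducible character of N. Then the number of irreducible characters in B of degree prime to p lying over θ (having θ as a constituent on restriction to N) is either 0 or at least 2, and when p ≤ 3 it is divisible by p. -/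
theorem result {G : Type*} [Group G] [Fintype G] (p : ℕ) [Fact p.Prime] (P : Sylow p G) (M : Ideal Cfsg.AlgInt) (hM : Cfsg.IsPModular p M) (B : Set (Cfsg.IrrCharacter G)) (hB : Cfsg.IsPBlock M B) (hBP : Cfsg.IsDefectGroup p M B P) (N : Subgroup G) [N.Normal] [Fintype N] (hPN : ¬ (P : Subgroup G) ≤ N) (θ : Cfsg.IrrCharacter N) :
    (Nat.card {χ : Cfsg.IrrCharacter G // χ ∈ B ∧ ¬ p ∣ Cfsg.charDegree (χ : G → ℂ) ∧ Cfsg.classInner (fun n : N => (χ : G → ℂ) n) (θ : N → ℂ) ≠ 0} = 0 ∨
      2 ≤ Nat.card {χ : Cfsg.IrrCharacter G // χ ∈ B ∧ ¬ p ∣ Cfsg.charDegree (χ : G → ℂ) ∧ Cfsg.classInner (fun n : N => (χ : G → ℂ) n) (θ : N → ℂ) ≠ 0}) ∧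
    (p ≤ 3 → p ∣ Nat.card {χ : Cfsg.IrrCharacter G // χ ∈ B ∧ ¬ p ∣ Cfsg.charDegree (χ : G → ℂ) ∧ Cfsg.classInner (fun n : N => (χ : G → ℂ) n) (θ : N → ℂ) ≠ 0}) := by
  classical
  haveI hMp := isPrime hM
  have hp : p.Prime := Fact.out
  letI : Fintype (IrrCharacter G) := Fintype.ofFinite _
  -- the multiplicities
  choose e he using fun χ : IrrCharacter G => (χ.2.isCharacter.restrict N).classInner_nat θ.2.isCharacter
  have he' : ∀ χ : IrrCharacter G, classInner (fun n : N => (χ : G → ℂ) n) (θ : N → ℂ) = e χ := he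
  set d : IrrCharacter G → ℕ := fun χ => charDegree (χ : G → ℂ) with hd_def
  have hd : ∀ χ : IrrCharacter G, (χ : G → ℂ) 1 = (d χ : ℂ) := fun χ =>
    (H76Char.charDegree_eq χ.2.isCharacter).symm
  -- `p` divides the index
  have hidx : p ∣ N.index := by
    by_contra hnd
    exact hPN (by
      have h1 : IsPGroup p (P : Subgroup G) := P.isPGroup'
      intro g hg
      obtain ⟨k, hk⟩ := (IsPGroup.iff_orderOf.1 h1) ⟨g, hg⟩
      rw [Subgroup.orderOf_mk] at hk
      have h2 : orderOf (QuotientGroup.mk' N g) ∣ p ^ k := by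
        rw [← hk]; exact orderOf_map_dvd _ _
      have h3 : orderOf (QuotientGroup.mk' N g) ∣ N.index := by
        rw [Subgroup.index_eq_card]; exact orderOf_dvd_natCard _
      have h4 : orderOf (QuotientGroup.mk' N g) = 1 := by
        apply Nat.eq_one_of_dvd_coprimes _ h2 h3
        exact Nat.Coprime.pow_left _ ((hp.coprime_iff_not_dvd).2 hnd)
      rw [orderOf_eq_one_iff] at h4
      rwa [← QuotientGroup.eq_one_iff])
  -- the key congruence
  have key : p ∣ ∑ χ ∈ Finset.univ.filter (fun χ : IrrCharacter G => χ ∈ B), d χ * e χ := by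
    rw [← idl_natCast_iff hM]
    have h1 : ((∑ χ ∈ Finset.univ.filter (fun χ : IrrCharacter G => χ ∈ B), d χ * e χ : ℕ) : ℂ)
        = (N.index : ℂ) * ∑ n : N, (θ : N → ℂ) n * blockCoeff B (n : G) := by
      have h2 : ∀ χ : IrrCharacter G, ((d χ * e χ : ℕ) : ℂ) =
          (Nat.card N : ℂ)⁻¹ * ∑ n : N, (θ : N → ℂ) n * ((χ : G → ℂ) 1 * conj ((χ : G → ℂ) n)) := by
        intro χ
        have h3 : (e χ : ℂ) = conj (classInner (fun n : N => (χ : G → ℂ) n) (θ : N → ℂ)) := by
          rw [he', Complex.conj_natCast]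
        rw [Nat.cast_mul, h3, ← hd, classInner, map_mul, map_sum, Finset.mul_sum, Finset.mul_sum,
          Finset.mul_sum]
        refine Finset.sum_congr rfl fun n _ => ?_
        rw [map_inv₀, Complex.conj_natCast, map_mul, Complex.conj_conj]
        ring
      rw [Nat.cast_sum, Finset.sum_congr rfl (fun χ _ => h2 χ), ← Finset.mul_sum, Finset.sum_comm]
      have h4 : ∀ n : N, ∑ χ ∈ Finset.univ.filter (fun χ : IrrCharacter G => χ ∈ B),
          (θ : N → ℂ) n * ((χ : G → ℂ) 1 * conj ((χ : G → ℂ) n)) =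
          (Nat.card G : ℂ) * ((θ : N → ℂ) n * blockCoeff B (n : G)) := by
        intro n
        rw [blockCoeff_eq_sum', Finset.sum_filter, ← mul_assoc, mul_comm (Nat.card G : ℂ) _,
          mul_assoc, ← mul_assoc (Nat.card G : ℂ), mul_inv_cancel₀ (by exact_mod_cast Nat.card_pos.ne'),
          one_mul, Finset.mul_sum]
        refine Finset.sum_congr rfl fun χ _ => ?_
        by_cases h : χ ∈ B
        · rw [if_pos h, if_pos h]
        · rw [if_neg h, if_neg h, mul_zero]
      rw [Finset.sum_congr rfl (fun n _ => h4 n), ← Finset.mul_sum, ← mul_assoc]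
      congr 1
      have h5 : (Nat.card G : ℂ) = Nat.card N * N.index := by
        exact_mod_cast (N.card_mul_index).symm
      rw [h5, ← mul_assoc, inv_mul_cancel₀ (by exact_mod_cast Nat.card_pos.ne'), one_mul]
    rw [h1]
    apply idl_mul_right
    · rw [idl_natCast_iff hM]; exact hidx
    · apply loc_sum
      intro n _
      apply loc_mul
      · apply loc_of_isIntegral
        obtain ⟨m, ρ, hρ⟩ := θ.2.isCharacter
        rw [← hρ]
        exact CharValues.isIntegral_character ρ n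
      · exact loc_blockCoeff hB _
  set D : Finset (IrrCharacter G) := Finset.univ.filter (fun χ : IrrCharacter G =>
    χ ∈ B ∧ ¬ p ∣ Cfsg.charDegree (χ : G → ℂ) ∧ Cfsg.classInner (fun n : N => (χ : G → ℂ) n) (θ : N → ℂ) ≠ 0) with hD
  have hcard : Nat.card {χ : Cfsg.IrrCharacter G // χ ∈ B ∧ ¬ p ∣ Cfsg.charDegree (χ : G → ℂ) ∧ Cfsg.classInner (fun n : N => (χ : G → ℂ) n) (θ : N → ℂ) ≠ 0} = D.card := by
    rw [Nat.card_eq_fintype_card, Fintype.card_subtype]
  rw [hcard]
  -- Clifford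
  obtain ⟨t, ht0, ht⟩ := θ.2.exists_degree
  set c : ℕ := (Clifford.inertia N (θ : N → ℂ)).index * t with hc
  have hcl : ∀ χ : IrrCharacter G, e χ ≠ 0 → d χ = e χ * c := by
    intro χ hχ
    have h1 : classInner (fun n : N => (χ : G → ℂ) n) (θ : N → ℂ) ≠ 0 := by
      rw [he']; exact_mod_cast hχ
    have h2 := CliffordCorr.degree_clifford χ.2 θ.2 h1
    rw [hd, he', ht] at h2
    exact_mod_cast h2
  have hDe : ∀ χ ∈ D, ¬ p ∣ e χ ∧ d χ = e χ * c ∧ ¬ p ∣ d χ := by
    intro χ hχ
    rw [hD, Finset.mem_filter] at hχ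
    obtain ⟨-, -, h2, h3⟩ := hχ
    rw [he'] at h3
    have h4 : d χ = e χ * c := hcl χ (by exact_mod_cast h3)
    refine ⟨fun h => h2 ?_, h4, h2⟩
    show p ∣ d χ
    rw [h4]
    exact h.mul_right _
  have key2 : p ∣ ∑ χ ∈ D, d χ * e χ := by
    have h1 : ∑ χ ∈ Finset.univ.filter (fun χ : IrrCharacter G => χ ∈ B), d χ * e χ =
        ∑ χ ∈ D, d χ * e χ + ∑ χ ∈ (Finset.univ.filter (fun χ : IrrCharacter G => χ ∈ B)) \ D, d χ * e χ := by
      rw [add_comm, Finset.sum_sdiff]
      intro χ hχ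
      rw [hD, Finset.mem_filter] at hχ
      exact Finset.mem_filter.2 ⟨Finset.mem_univ _, hχ.2.1⟩
    rw [h1] at key
    refine (Nat.dvd_add_left ?_).1 key
    apply Finset.dvd_sum
    intro χ hχ
    rw [Finset.mem_sdiff, Finset.mem_filter, hD, Finset.mem_filter] at hχ
    by_cases h2 : p ∣ d χ
    · exact h2.mul_right _
    · have h3 : e χ = 0 := by
        by_contra h4
        apply hχ.2
        refine ⟨Finset.mem_univ _, hχ.1.2, h2, ?_⟩
        rw [he']
        exact_mod_cast h4
      rw [h3, mul_zero]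
      exact dvd_zero _
  have key3 : D.Nonempty → p ∣ ∑ χ ∈ D, e χ ^ 2 := by
    rintro ⟨χ₀, hχ₀⟩
    have h1 : ∑ χ ∈ D, d χ * e χ = c * ∑ χ ∈ D, e χ ^ 2 := by
      rw [Finset.mul_sum]
      refine Finset.sum_congr rfl fun χ hχ => ?_
      rw [(hDe χ hχ).2.1]
      ring
    rw [h1] at key2
    refine (hp.dvd_mul.1 key2).resolve_left ?_
    intro h2
    apply (hDe χ₀ hχ₀).2.2
    rw [(hDe χ₀ hχ₀).2.1]
    exact h2.mul_left _
  constructor
  · rcases Nat.lt_trichotomy D.card 1 with h | h | h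
    · left; omega
    · exfalso
      obtain ⟨χ, hχ⟩ := Finset.card_eq_one.1 h
      have h1 := key3 ⟨χ, by rw [hχ]; exact Finset.mem_singleton_self _⟩
      rw [hχ, Finset.sum_singleton] at h1
      exact (hDe χ (by rw [hχ]; exact Finset.mem_singleton_self _)).1 (hp.dvd_of_dvd_pow h1)
    · right; omega
  · intro hp3
    rcases D.eq_empty_or_nonempty with h | h
    · rw [h]; simp
    · have h1 := key3 h
      rw [← Nat.modEq_zero_iff_dvd] at h1 ⊢
      refine Nat.ModEq.trans ?_ h1
      have h2 : D.card = ∑ χ ∈ D, 1 := by simp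
      rw [h2]
      apply Nat.ModEq.sum
      intro χ hχ
      have h3 := (hDe χ hχ).1
      have h4 := hp.two_le
      have h5 : p = 2 ∨ p = 3 := by omega
      show (1 : ℕ) % p = (e χ ^ 2) % p
      rw [Nat.dvd_iff_mod_eq_zero] at h3
      rw [Nat.pow_mod]
      rcases h5 with rfl | rfl
      · have h6 : e χ % 2 = 1 := by omega
        rw [h6]
      · have h6 : e χ % 3 = 1 ∨ e χ % 3 = 2 := by omega
        rcases h6 with h6 | h6 <;> rw [h6]

end Cfsg.Agent.S4825
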