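import Cfsg.Statements.S4828
import Cfsg.Agent.Lib.H16CD
import Cfsg.Agent.Lib.DefPairs
import Cfsg.Agent.Lib.StabQuot
import Cfsg.Agent.Lib.BlockNormP
import Cfsg.Agent.S4657

set_option autoImplicit false
open Cfsg

namespace Cfsg.Agent.S4828

open Cfsg Cfsg.Agent.Lib Cfsg.Agent.Lib.BlockAlg Cfsg.Agent.Lib.BrauerPairs Cfsg.Agent.Lib.PairAlg
open Cfsg.Agent.Lib.PairMax Cfsg.Agent.Lib.BlkIdem Cfsg.Agent.Lib.DefPairs
open Cfsg.Agent.Lib.BlockRing

/-- Let p be a prime, M a maximal ideal of the algebraic integers containing p, and (Q, e) a Brauer pair of the finite group G (Q a p-subgroup, e a block of C_G(Q)). Then (Q, e) is a maximal Brauer pair of some block of G if and only if e contains an irreducible character θ such that θ takes the value θ(1) at every element of Z(Q) = Q ∩ C_G(Q), the p-part of θ(1) times the p-part of the order of Z(Q) equals the p-part of the order of C_G(Q) (θ has defect zero as a character of C_G(Q)/Z(Q)), and every element of N_G(Q) of p-power order that stabilizes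 e lies in Q·C_G(Q) (the stabilizer of e in N_G(Q) has index prime to p over Q·C_G(Q)). -/
theorem result {G : Type*} [Group G] [Finite G] (p : ℕ) [Fact p.Prime] (M : Ideal Cfsg.AlgInt) (hM : Cfsg.IsPModular p M) (Q : Subgroup G) (e : Set (Cfsg.IrrCharacter (Subgroup.centralizer (Q : Set G)))) (he : Cfsg.IsBrauerPair p M Q e) :
    (∃ B : Set (Cfsg.IrrCharacter G), Cfsg.IsMaximalBrauerPair p M B Q e) ↔
      ∃ θ ∈ e, (∀ z : Subgroup.centralizer (Q : Set G), (z : G) ∈ Q → (θ : Subgroup.centralizer (Q : Set G) → ℂ) z = (θ : Subgroup.centralizer (Q : Set G) → ℂ) 1) ∧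
        (Cfsg.charDegree (θ : Subgroup.centralizer (Q : Set G) → ℂ)).factorization p + (Nat.card ↥(Q ⊓ Subgroup.centralizer (Q : Set G))).factorization p = (Nat.card (Subgroup.centralizer (Q : Set G))).factorization p ∧
        (∀ g : G, g ∈ Subgroup.normalizer (Q : Set G) → Cfsg.StabilizesBlock (Subgroup.centralizer (Q : Set G)) e g → (∃ k : ℕ, orderOf g = p ^ k) → g ∈ Q ⊔ Subgroup.centralizer (Q : Set G)) := by
  classical
  haveI := Fintype.ofFinite G
  haveI hMm : M.IsMaximal := hM.2.1
  haveI hch : CharP (Kf M) p := charP_Kf hM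
  haveI := isPrime hM
  have hb := hasBlocks (M := M) (G := G)
  set Z : Subgroup (Subgroup.centralizer (Q : Set G)) := Q.subgroupOf (Subgroup.centralizer (Q : Set G)) with hZ
  have hZmap : Z.map (Subgroup.centralizer (Q : Set G)).subtype = Q ⊓ (Subgroup.centralizer (Q : Set G)) := by
    rw [hZ, Subgroup.subgroupOf_map_subtype]
  have hZp : IsPGroup p Z := he.1.comap_subtype
  have hZc : Z ≤ Subgroup.center (Subgroup.centralizer (Q : Set G)) := by
    intro z hz
    rw [Subgroup.mem_center_iff]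
    intro x
    apply Subtype.ext
    exact (Subgroup.mem_centralizer_iff.1 x.2 (z : G) hz).symm
  haveI hZn : Z.Normal := ⟨fun z hz g => by
    rw [(Subgroup.mem_center_iff.1 (hZc hz) g), mul_inv_cancel_right]; exact hz⟩
  have hZcard : Nat.card Z = Nat.card ↥(Q ⊓ (Subgroup.centralizer (Q : Set G))) := by
    rw [← hZmap, Subgroup.card_map_of_injective (Subgroup.subtype_injective (Subgroup.centralizer (Q : Set G)))]
  have hbe := bpair_of he
  constructor
  · rintro ⟨B, hB⟩
    obtain ⟨h1, hmax⟩ := isMaximalBrauerPair_iff.mp hB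
    -- the defect group of `e` is `Z(Q)`
    obtain ⟨D, hD⟩ := exists_defectGroup_sub (p := p) he.2
    have hDe := isDefectGroup_subgroupOf he.2 hD
    have hCstab : (Subgroup.centralizer (Q : Set G)) ≤ stab (Subgroup.normalizer (Q : Set G)) (bid M (Subgroup.centralizer (Q : Set G)) e) := fun x hx =>
      ⟨Subgroup.centralizer_le_normalizer _ hx, (bid_mem_ZAlg (Subgroup.centralizer (Q : Set G)) e).2 x hx⟩
    have hDQ : D ≤ Q := by
      obtain ⟨y, hy, hyne⟩ := exists_coeff_of_br_ne hD.ne
      have h2 := hmax.defIn_stab hb hbe (N := Subgroup.normalizer (Q : Set G)) le_rfl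
      obtain ⟨x, hx, hxx⟩ := h2 y hyne D (hD.le.trans hCstab) hD.pg hy
      intro r hr
      have h3 := hxx r hr
      have h4 := Subgroup.mem_normalizer_iff.1 hx.1 (x⁻¹ * r * x)
      have h5 : x * (x⁻¹ * r * x) * x⁻¹ = r := by group
      rw [h5] at h4
      exact h4.1 h3
    have hZD : Z ≤ D.subgroupOf (Subgroup.centralizer (Q : Set G)) := BlockNormP.le_defectGroup hM hZp he.2 hDe
    have hDZ : D.subgroupOf (Subgroup.centralizer (Q : Set G)) = Z := by
      apply le_antisymm _ hZD
      intro x hx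
      exact hDQ hx
    rw [hDZ] at hDe
    obtain ⟨θ, hθ, hθZ⟩ := BlockNormP.exists_trivial hM hZp (BlockIdem.unionOfBlocks_of_isPBlock he.2)
      (BlockIdem.isPBlock_nonempty he.2)
    refine ⟨θ, hθ, fun z hz => hθZ z hz, ?_, ?_⟩
    · rw [BlockPC.degree_eq hM he.2 hDe hθ hθZ, ← hZcard, ← Subgroup.card_mul_index Z,
        Nat.factorization_mul Nat.card_pos.ne' Subgroup.index_ne_zero_of_finite]
      show _ = (Nat.card Z).factorization p + Z.index.factorization p
      rw [add_comm]
    · rintro g hg hst ⟨k, hk⟩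
      have hstab : g ∈ stab (Subgroup.normalizer (Q : Set G)) (bid M (Subgroup.centralizer (Q : Set G)) e) := by
        refine ⟨hg, ?_⟩
        exact (stabilizesBlock_iff (normalizer_le_normalizer_centralizer Q hg) he.2).1 hst
      obtain ⟨u, hu, huc⟩ := Lib.StabQuot.maxPair_pelement hbe hmax hstab ⟨k, by rw [← hk, pow_orderOf_eq_one]⟩
      have h3 : g = u * (u⁻¹ * g) := by group
      rw [h3]
      exact Subgroup.mul_mem_sup hu huc
  · rintro ⟨θ, hθ, hθZ, hdeg, hp'⟩
    have hDe : IsDefectGroup p M e Z := H16CD.isDefectGroup_of hM hZp hZc he.2 hθ (fun z hz => hθZ z hz)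
      (by rw [hZcard]; exact hdeg)
    rw [isDefectGroup_sub_iff he.2] at hDe
    obtain ⟨B, hB, -⟩ := Cfsg.Agent.S4657.result p M hM Q e he
    refine ⟨B, isMaximalBrauerPair_iff.mpr ⟨hB, ?_⟩⟩
    intro S s hS
    refine le_antisymm ?_ hS.le
    have hSp := hS.pairP.1
    -- `S ∩ (Subgroup.centralizer (Q : Set G))` is contained in `Z(Q)`
    have hR : S ⊓ (Subgroup.centralizer (Q : Set G)) ≤ Q := by
      have hne : BrauerMap.br (S ⊓ (Subgroup.centralizer (Q : Set G))) (bid M (Subgroup.centralizer (Q : Set G)) e) ≠ 0 := by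
        have h1 : BrauerMap.br S (bid M (Subgroup.centralizer (Q : Set G)) e) ≠ 0 := by
          intro h0
          have h2 := hS.br_mul
          rw [h0, zero_mul] at h2
          exact hS.pairP.2.ne_zero h2.symm
        obtain ⟨y, hy, hyne⟩ := exists_coeff_of_br_ne h1
        intro h0
        apply hyne
        have h3 := BrauerMap.br_coeff_mem (a := bid M (Subgroup.centralizer (Q : Set G)) e) (Subgroup.centralizer_le (inf_le_left : S ⊓ (Subgroup.centralizer (Q : Set G)) ≤ S) hy)
        rw [← h3, h0]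
        rfl
      obtain ⟨x, hx, hle⟩ := hDe.le_conj (hSp.to_le inf_le_left) inf_le_right hne
      intro r hr
      have h4 := hle hr
      rw [mem_map_conj_iff] at h4
      have h5 := hZmap ▸ h4
      have h6 : x⁻¹ * r * x ∈ Q := h5.1
      have h7 := Subgroup.mem_normalizer_iff.1 (Subgroup.centralizer_le_normalizer _ hx) (x⁻¹ * r * x)
      have h8 : x * (x⁻¹ * r * x) * x⁻¹ = r := by group
      rw [h8] at h7
      exact h7.1 h6
    intro x hx
    obtain ⟨k, hk⟩ := (IsPGroup.iff_orderOf.1 hSp) ⟨x, hx⟩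
    rw [Subgroup.orderOf_mk] at hk
    have hxN := hS.norm hx
    have h1 := hp' x hxN ((stabilizesBlock_iff (normalizer_le_normalizer_centralizer Q hxN) he.2).2 (hS.stab x hx)) ⟨k, hk⟩
    rw [Lib.StabQuot.mem_sup_iff_of_norm ?_] at h1
    · obtain ⟨q, hq, hqc⟩ := h1
      have h2 : q⁻¹ * x ∈ S ⊓ (Subgroup.centralizer (Q : Set G)) := ⟨S.mul_mem (S.inv_mem (hS.le hq)) hx, hqc⟩
      have h3 : x = q * (q⁻¹ * x) := by group
      rw [h3]
      exact Q.mul_mem hq (hR h2)
    · exact Subgroup.le_normalizer.trans (normalizer_le_normalizer_centralizer Q)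

end Cfsg.Agent.S4828
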