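import Cfsg.Statements.S4845
import Cfsg.Agent.Lib.GalConj
import Cfsg.Agent.Lib.H76Char

set_option autoImplicit false
open Cfsg

namespace Cfsg.Agent.S4845

/-- Let p be a prime and P a finite non-commutative p-group. Then every two irreducible characters of P of the same degree greater than 1 are Galois conjugate (one is obtained from the other by composing with g ↦ g^k for some k prime to the order of P) if and only if the centre of P is cyclic and the derived subgroup of P has order p. -/
theorem result {P : Type*} [Group P] [Finite P] (p : ℕ) [Fact p.Prime] (hP : IsPGroup p P) (hna : ¬ IsMulCommutative P) :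
    (∀ χ ψ : Cfsg.IrrCharacter P, Cfsg.charDegree (χ : P → ℂ) ≠ 1 → Cfsg.charDegree (χ : P → ℂ) = Cfsg.charDegree (ψ : P → ℂ) → ∃ k : ℕ, Nat.Coprime k (Nat.card P) ∧ ∀ g : P, (ψ : P → ℂ) g = (χ : P → ℂ) (g ^ k)) ↔
      (IsCyclic (Subgroup.center P) ∧ Nat.card (commutator P) = p) := by
  have hstar : (∀ χ ψ : Cfsg.IrrCharacter P, Cfsg.charDegree (χ : P → ℂ) ≠ 1 → Cfsg.charDegree (χ : P → ℂ) = Cfsg.charDegree (ψ : P → ℂ) → ∃ k : ℕ, Nat.Coprime k (Nat.card P) ∧ ∀ g : P, (ψ : P → ℂ) g = (χ : P → ℂ) (g ^ k)) ↔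
      Lib.GalConj.Star P := by
    have hd : ∀ χ : IrrCharacter P, (χ : P → ℂ) 1 = (charDegree (χ : P → ℂ) : ℂ) := fun χ =>
      (Lib.H76Char.charDegree_eq χ.2.isCharacter).symm
    constructor
    · intro h χ ψ h1 h2
      apply h χ ψ
      · intro h3
        apply h1
        rw [hd, h3, Nat.cast_one]
      · rw [hd, hd] at h2
        exact_mod_cast h2
    · intro h χ ψ h1 h2
      apply h χ ψ
      · intro h3
        apply h1
        rw [hd] at h3
        exact_mod_cast h3
      · rw [hd, hd, h2]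
  have hnc : ¬ ∀ a b : P, a * b = b * a := fun h => hna ⟨⟨h⟩⟩
  rw [hstar]
  constructor
  · intro hs
    have hc := Lib.GalConj.card_commutator_of_star _ P rfl hP hnc hs
    exact ⟨Lib.GalConj.cyclic_center hP hs hc, hc⟩
  · rintro ⟨hcyc, hc⟩
    exact Lib.GalConj.star_of hP hcyc hc

end Cfsg.Agent.S4845
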