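import Cfsg.Statements.S4850
import Cfsg.Agent.Lib.VanPSing4

set_option autoImplicit false
open Cfsg

namespace Cfsg.Agent.S4850

/-- Let p be a prime and G a finite solvable group whose vanishing elements (elements at which some irreducible character is zero) of order divisible by p all have the same order, with at least one such element. Let P be a Sylow p-subgroup of G. Then the derived subgroup of P is subnormal in G and the image of P in G/O_p(G) is cyclic. -/
theorem result {G : Type*} [Group G] [Finite G] [hs : Group.IsSolvable G] (p : ℕ) [Fact p.Prime] (b : ℕ) (hvo : {n : ℕ | p ∣ n ∧ ∃ (g : G) (χ : Cfsg.IrrCharacter G), orderOf g = n ∧ (χ : G → ℂ) g = 0} = {b}) (P : Sylow p G) :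
    ((commutator ↥(P : Subgroup G)).map (P : Subgroup G).subtype).IsSubnormal ∧ IsCyclic ↥((P : Subgroup G).map (QuotientGroup.mk' (Cfsg.pCore p G))) := by
  have hb : ∀ g : G, Cfsg.Agent.Lib.VanPSing.Van g → p ∣ orderOf g → orderOf g = b := by
    rintro g ⟨χ, hχ⟩ hpg
    have h2 : orderOf g ∈ {n : ℕ | p ∣ n ∧ ∃ (g : G) (χ : Cfsg.IrrCharacter G), orderOf g = n ∧
      (χ : G → ℂ) g = 0} := ⟨hpg, g, χ, rfl, hχ⟩
    rw [hvo] at h2
    exact h2
  exact ⟨Cfsg.Agent.Lib.VanPSing4.isSubnormal_commutator b hb P, Cfsg.Agent.Lib.VanPSing4.isCyclic_map b hb P⟩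

end Cfsg.Agent.S4850
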