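import Cfsg.Statements.S4856
import Cfsg.Agent.Lib.CharBasic

set_option autoImplicit false
open Cfsg

namespace Cfsg.Agent.S4856

open Cfsg.Agent.Lib.CharBasic
open scoped ComplexConjugate

universe u
variable {G : Type u} [Group G]

/-- `∑ y, χ (x * (y * w * y⁻¹)) = |G| χ(x) χ(w) / χ(1)`. -/
theorem sum_conj_mul [Fintype G] {χ : G → ℂ} (hχ : IsIrrCharacter G χ) (x w : G) :
    ∑ y : G, χ (x * (y * w * y⁻¹)) = (Nat.card G : ℂ) * (χ x * χ w) / χ 1 := by
  classical
  have h1 := hχ.one_ne_zero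
  obtain ⟨n, ρ, hρ, rfl⟩ := hχ
  let a : G → ℂ := fun g => ∑ y : G, if y * w * y⁻¹ = g then 1 else 0
  have ha : IsClassFunction G a := by
    intro g h
    simp only [a]
    rw [← Equiv.sum_comp (Equiv.mulLeft h)]
    apply Finset.sum_congr rfl
    intro y _
    congr 1
    simp only [Equiv.coe_mulLeft, eq_iff_iff]
    constructor
    · intro hy
      have : h * (y * w * y⁻¹) * h⁻¹ = h * g * h⁻¹ := by rw [← hy]; group
      exact mul_left_cancel (mul_right_cancel this)
    · intro hy; rw [← hy]; group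
  obtain ⟨c, hc⟩ := wsum_irr_scalar ha ρ hρ
  have hw : wsum a ρ = ∑ y : G, ρ (y * w * y⁻¹) := by
    simp only [wsum, a, Finset.sum_smul]
    rw [Finset.sum_comm]
    apply Finset.sum_congr rfl
    intro y _
    simp
  have ht : ∀ x : G, ∑ y : G, ρ.character (x * (y * w * y⁻¹)) = c * ρ.character x := by
    intro x
    have h2 : ∑ y : G, ρ.character (x * (y * w * y⁻¹)) =
        LinearMap.trace ℂ _ (ρ x * wsum a ρ) := by
      rw [hw, Finset.mul_sum, map_sum]
      apply Finset.sum_congr rfl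
      intro y _
      rw [← map_mul]; rfl
    rw [h2, hc]
    have h3 : ρ x * (c • LinearMap.id) = c • ρ x := by
      ext v; simp
    rw [h3, map_smul]; rfl
  have h4 := ht 1
  have h5 : ∑ y : G, ρ.character (1 * (y * w * y⁻¹)) = (Nat.card G : ℂ) * ρ.character w := by
    simp only [one_mul]
    rw [Finset.sum_congr rfl (fun y _ => Representation.char_conj ρ w y)]
    simp [Nat.card_eq_fintype_card]
  rw [h5] at h4
  rw [ht x, eq_div_iff h1]
  linear_combination -(ρ.character x) * h4

theorem result {G : Type*} [Group G] [Finite G] (z : G) : (Nat.card {xy : G × G // xy.1 * xy.2 * xy.1⁻¹ * xy.2⁻¹ = z} : ℂ) = (Nat.card G : ℂ) * ∑ᶠ χ : Cfsg.IrrCharacter G, (χ : G → ℂ) z / (χ : G → ℂ) 1 := by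
  classical
  have := Fintype.ofFinite G
  let F : G → ℂ := fun z => ∑ x : G, ∑ y : G, if x * y * x⁻¹ * y⁻¹ = z then 1 else 0
  have hF : IsClassFunction G F := by
    intro g h
    simp only [F]
    rw [← Equiv.sum_comp (MulAut.conj h).toEquiv]
    apply Finset.sum_congr rfl
    intro x _
    rw [← Equiv.sum_comp (MulAut.conj h).toEquiv]
    apply Finset.sum_congr rfl
    intro y _
    congr 1
    simp only [MulEquiv.toEquiv_eq_coe, EquivLike.coe_coe, MulAut.conj_apply, eq_iff_iff]
    constructor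
    · intro hy
      have : h * (x * y * x⁻¹ * y⁻¹) * h⁻¹ = h * g * h⁻¹ := by rw [← hy]; group
      exact mul_left_cancel (mul_right_cancel this)
    · intro hy; rw [← hy]; group
  have hc : (Nat.card {xy : G × G // xy.1 * xy.2 * xy.1⁻¹ * xy.2⁻¹ = z} : ℂ) = F z := by
    simp only [F]
    rw [← Fintype.sum_prod_type' (f := fun x y : G => if x * y * x⁻¹ * y⁻¹ = z then (1:ℂ) else 0)]
    rw [Finset.sum_boole, Nat.card_eq_fintype_card, Fintype.card_subtype]
  rw [hc, hF.expansion_apply, finsum_eq_sum_of_fintype, Finset.mul_sum]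
  apply Finset.sum_congr rfl
  intro χ _
  have h1 := χ.2.one_ne_zero
  have hG : (Nat.card G : ℂ) ≠ 0 := by exact_mod_cast Nat.card_pos.ne'
  have key : classInner F (χ : G → ℂ) = (Nat.card G : ℂ) / (χ : G → ℂ) 1 := by
    have e1 : ∑ g : G, F g * conj ((χ : G → ℂ) g) =
        ∑ x : G, ∑ y : G, conj ((χ : G → ℂ) (x * (y * x⁻¹ * y⁻¹))) := by
      simp only [F, Finset.sum_mul]
      rw [Finset.sum_comm]
      apply Finset.sum_congr rfl
      intro x _
      rw [Finset.sum_comm]
      apply Finset.sum_congr rfl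
      intro y _
      simp [mul_assoc]
    rw [classInner_def, e1]
    have e2 : ∀ x : G, ∑ y : G, conj ((χ : G → ℂ) (x * (y * x⁻¹ * y⁻¹))) =
        (Nat.card G : ℂ) * ((χ : G → ℂ) x * conj ((χ : G → ℂ) x)) / (χ : G → ℂ) 1 := by
      intro x
      rw [← map_sum, sum_conj_mul χ.2, χ.2.inv]
      obtain ⟨n, -, hn⟩ := χ.2.exists_degree
      simp only [map_div₀, map_mul, map_natCast, Complex.conj_conj, hn]
      ring
    rw [Finset.sum_congr rfl fun x _ => e2 x]
    have e3 := χ.2.classInner_self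
    rw [classInner_def] at e3
    rw [← Finset.sum_div, ← Finset.mul_sum]
    field_simp
    field_simp at e3
    rw [e3]
  rw [key]
  field_simp

end Cfsg.Agent.S4856
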