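import Cfsg.Statements.S4866
import Cfsg.Agent.Lib.ClassAction

set_option autoImplicit false
open Cfsg

namespace Cfsg.Agent.S4866

open Cfsg.Agent.Lib.CharBasic Cfsg.Agent.Lib.PermLemma Cfsg.Agent.Lib.OrbitCount
open Cfsg.Agent.Lib.ClassAction MulAction

theorem result {G : Type*} [Group G] [Finite G] (K : Subgroup G) [K.Normal] (hodd : Odd K.index) : Nat.card (Quot (fun θ η : {θ : Cfsg.IrrCharacter ↥K // (∀ k : ↥K, ((θ : ↥K → ℂ) k).im = 0)} => ∃ g : G, ∀ k k' : ↥K, (k' : G) = g * (k : G) * g⁻¹ → (η.1 : ↥K → ℂ) k' = (θ.1 : ↥K → ℂ) k)) = Nat.card (Quot (fun x y : {x : ↥K // IsConj x x⁻¹} => ∃ g : G, (y.1 : G) = g * x.1 * g⁻¹)) := by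
  classical
  let φ : G →* MulAut K := MulAut.conjNormal
  let _ := irrAct φ
  let _ := clsAct φ
  have hφ : ∀ (g : G) (k : K), ((φ g k : K) : G) = g * k * g⁻¹ := fun g k =>
    MulAut.conjNormal_apply g k
  have hKirr : ∀ (g : G), g ∈ K → ∀ θ : IrrCharacter K, g • θ = θ := by
    intro g hg θ
    apply Subtype.ext
    funext x
    rw [irrAct_apply]
    apply θ.2.isClassFunction.conj_eq
    refine isConj_iff.mpr ⟨⟨g, hg⟩, ?_⟩
    apply Subtype.ext
    rw [Subgroup.coe_mul, Subgroup.coe_mul, hφ]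
    simp only [Subgroup.coe_inv]
    group
  have hKcls : ∀ (g : G), g ∈ K → ∀ C : ConjClasses K, g • C = C := by
    intro g hg C
    obtain ⟨x, rfl⟩ := ConjClasses.mk_surjective C
    rw [clsAct_mk, ConjClasses.mk_eq_mk_iff_isConj]
    apply IsConj.symm
    refine isConj_iff.mpr ⟨⟨g, hg⟩, ?_⟩
    apply Subtype.ext
    rw [Subgroup.coe_mul, Subgroup.coe_mul, hφ]
    simp only [Subgroup.coe_inv]
  have hpow : ∀ g : G, g ^ K.index ∈ K := fun g => Subgroup.pow_index_mem K g
  have key := card_real_orbits_eq φ (AI.val : AI →+* ℂ) (X := K)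
    (by exact_mod_cast Nat.card_pos.ne')
  -- left-hand side
  have hL : Nat.card (Quot (fun θ η : {θ : Cfsg.IrrCharacter ↥K // (∀ k : ↥K, ((θ : ↥K → ℂ) k).im = 0)} => ∃ g : G, ∀ k k' : ↥K, (k' : G) = g * (k : G) * g⁻¹ → (η.1 : ↥K → ℂ) k' = (θ.1 : ↥K → ℂ) k)) =
      Nat.card {q : orbitRel.Quotient G (IrrCharacter K) //
        cbar (irrConj K) (irrConj_smul φ) q = q} := by
    refine card_quot_eq _ (fun θ => ⟨Quotient.mk'' θ.1, ?_⟩) ?_ ?_
    · rw [cbar_mk]
      congr 1
      apply Subtype.ext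
      funext x
      rw [irrConj_apply]
      exact Complex.conj_eq_iff_im.mpr (θ.2 x)
    · intro θ η
      rw [Subtype.mk.injEq, Quotient.eq'']
      constructor
      · rintro ⟨g, hg⟩
        refine ⟨g⁻¹, ?_⟩
        apply Subtype.ext
        funext x
        show ((g⁻¹ • η.1 : IrrCharacter K) : K → ℂ) x = _
        rw [irrAct_apply, inv_inv]
        exact hg x _ (hφ g x)
      · rintro ⟨g, hg⟩
        have hg' : g • η.1 = θ.1 := hg
        refine ⟨g⁻¹, fun k k' hk => ?_⟩
        have h1 : k' = φ g⁻¹ k := Subtype.ext (by rw [hφ]; exact hk)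
        rw [← hg', irrAct_apply, h1]
    · rintro ⟨q, hq⟩
      induction q using Quotient.inductionOn' with
      | _ θ =>
      rw [cbar_mk, Quotient.eq''] at hq
      obtain ⟨g, hg⟩ := hq
      have hg' : g • θ = irrConj K θ := hg
      have h1 := invol_fixed_of_odd (irrConj K) irrConj_irrConj (irrConj_smul φ) θ g hg' K.index
        hodd (hKirr _ (hpow g) θ)
      refine ⟨⟨θ, fun k => ?_⟩, rfl⟩
      have h2 := congrArg (fun χ : IrrCharacter K => (χ : K → ℂ) k) h1
      simp only [irrConj_apply] at h2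
      exact Complex.conj_eq_iff_im.mp h2
  have hR : Nat.card (Quot (fun x y : {x : ↥K // IsConj x x⁻¹} => ∃ g : G, (y.1 : G) = g * x.1 * g⁻¹)) =
      Nat.card {q : orbitRel.Quotient G (ConjClasses K) //
        cbar (classInv K) (classInv_smul φ) q = q} := by
    refine card_quot_eq _ (fun x => ⟨Quotient.mk'' (ConjClasses.mk x.1), ?_⟩) ?_ ?_
    · rw [cbar_mk]
      congr 1
      rw [classInv_mk, ConjClasses.mk_eq_mk_iff_isConj]
      exact x.2.symm
    · intro x y
      rw [Subtype.mk.injEq, Quotient.eq'']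
      constructor
      · rintro ⟨g, hg⟩
        refine ⟨g⁻¹, ?_⟩
        show g⁻¹ • ConjClasses.mk y.1 = ConjClasses.mk x.1
        rw [clsAct_mk]
        congr 1
        apply Subtype.ext
        rw [hφ, hg]
        group
      · rintro ⟨g, hg⟩
        have hg' : g • ConjClasses.mk y.1 = ConjClasses.mk x.1 := hg
        rw [clsAct_mk, ConjClasses.mk_eq_mk_iff_isConj] at hg'
        obtain ⟨c, hc⟩ := isConj_iff.mp hg'
        refine ⟨g⁻¹ * (c : G)⁻¹, ?_⟩
        rw [← hc]
        rw [Subgroup.coe_mul, Subgroup.coe_mul, hφ]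
        simp only [Subgroup.coe_inv]
        group
    · rintro ⟨q, hq⟩
      induction q using Quotient.inductionOn' with
      | _ C =>
      obtain ⟨x, rfl⟩ := ConjClasses.mk_surjective C
      rw [cbar_mk, Quotient.eq''] at hq
      obtain ⟨g, hg⟩ := hq
      have hg' : g • ConjClasses.mk x = classInv K (ConjClasses.mk x) := hg
      have h1 := invol_fixed_of_odd (classInv K) classInv_classInv (classInv_smul φ) _ g hg'
        K.index hodd (hKcls _ (hpow g) _)
      rw [classInv_mk, ConjClasses.mk_eq_mk_iff_isConj] at h1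
      exact ⟨⟨x, h1.symm⟩, rfl⟩
  rw [hL, hR]
  exact key

end Cfsg.Agent.S4866
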