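import Cfsg.Statements.S4870
import Cfsg.Agent.Lib.CliffordCorr
import Cfsg.Agent.Lib.CharBasic2
import Cfsg.Agent.Lib.IndFun

set_option autoImplicit false
open Cfsg

namespace Cfsg.Agent.S4870

open Cfsg.Agent.Lib.CharBasic Cfsg.Agent.Lib.Clifford Cfsg.Agent.Lib.CliffordCorr
open scoped ComplexConjugate

universe u

theorem charDegree_eq {G : Type u} [Group G] {χ : G → ℂ} {n : ℕ} (h : χ 1 = n) :
    charDegree χ = n := by
  unfold charDegree
  rw [h]
  simp

theorem one_eq_charDegree {G : Type u} [Group G] {χ : G → ℂ} (h : IsCharacter G χ) :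
    χ 1 = charDegree χ := by
  obtain ⟨n, hn⟩ := h.exists_degree
  rw [charDegree_eq hn, hn]

/-- The number of homomorphisms to `ℂˣ` trivial on `I` is at most the index of `I`. -/
theorem card_hom_trivial_le {G : Type u} [Group G] [Finite G] (I : Subgroup G) :
    Nat.card {f : G →* ℂˣ // ∀ i ∈ I, f i = 1} ≤ I.index := by
  classical
  have : Finite (G →* ℂˣ) := by
    apply Nat.finite_of_card_ne_zero
    rw [card_hom_units]
    exact Subgroup.index_ne_zero_of_finite
  have := Fintype.ofFinite {f : G →* ℂˣ // ∀ i ∈ I, f i = 1}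
  have := Fintype.ofFinite (G ⧸ I)
  let v : {f : G →* ℂˣ // ∀ i ∈ I, f i = 1} → (G ⧸ I → ℂ) := fun f =>
    Quotient.lift (fun g : G => (f.1 g : ℂ)) (by
      intro a b hab
      have h1 : a⁻¹ * b ∈ I := QuotientGroup.leftRel_apply.mp hab
      have h2 := f.2 _ h1
      rw [map_mul, map_inv, inv_mul_eq_one] at h2
      show (f.1 a : ℂ) = f.1 b
      rw [h2])
  have hv : LinearIndependent ℂ v := by
    apply LinearIndependent.of_comp (LinearMap.funLeft ℂ ℂ (QuotientGroup.mk : G → G ⧸ I))
    have h1 := linearIndependent_monoidHom G ℂ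
    let e : {f : G →* ℂˣ // ∀ i ∈ I, f i = 1} → (G →* ℂ) := fun f => (Units.coeHom ℂ).comp f.1
    have he : Function.Injective e := by
      intro a b hab
      apply Subtype.ext
      ext g
      exact congrArg (fun f : G →* ℂ => f g) hab
    exact h1.comp e he
  have h2 := hv.fintype_card_le_finrank
  rw [Module.finrank_fintype_fun_eq_card] at h2
  rw [Nat.card_eq_fintype_card, Subgroup.index, Nat.card_eq_fintype_card]
  exact h2

theorem result {G : Type*} [Group G] [Finite G] (N : Subgroup G) (hN : N.Normal) (hN1 : N ≠ ⊥) (hmin : ∀ M : Subgroup G, M.Normal → M ≤ N → M = ⊥ ∨ M = N) (hna : ¬ IsMulCommutative ↥N) (φ : Cfsg.IrrCharacter ↥N) (I : Subgroup G) (hI : ∀ g : G, g ∈ I ↔ ∀ n n' : ↥N, (n' : G) = g * (n : G) * g⁻¹ → (φ : ↥N → ℂ) n' = (φ : ↥N → ℂ) n) (hNI : N ≤ I) (hext : ∃ ψ : Cfsg.IrrCharacter ↥I, ∀ n : ↥N, (ψ : ↥I → ℂ) (Subgroup.inclusion hNI n) = (φ : ↥N → ℂ) n) : Nat.card {χ : Cfsg.IrrCharacter G // Cfsg.charDegree (χ : G → ℂ) = 1} ≤ I.index * Nat.card {χ : Cfsg.IrrCharacter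 G // Cfsg.charDegree (χ : G → ℂ) = Cfsg.charDegree (φ : ↥N → ℂ) * I.index} := by
  classical
  have := Fintype.ofFinite G
  have := Fintype.ofFinite N
  have := Fintype.ofFinite I
  obtain ⟨ψ, hψ⟩ := hext
  -- N is perfect
  have hNG : N ≤ commutator G := by
    have h1 : ⁅N, N⁆ ≤ N := Subgroup.commutator_le_left N N
    rcases hmin ⁅N, N⁆ inferInstance h1 with h | h
    · exfalso
      apply hna
      rw [Subgroup.commutator_eq_bot_iff_le_centralizer] at h
      refine ⟨⟨fun a b => ?_⟩⟩
      apply Subtype.ext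
      exact (Subgroup.mem_centralizer_iff.mp (h b.2) a a.2)
    · rw [← h]
      exact Subgroup.commutator_mono le_top le_top
  -- stabilizer
  have hT : ∀ g : G, g ∈ I ↔ cj N g (φ : N → ℂ) = φ := by
    intro g
    rw [hI]
    constructor
    · intro h
      funext n
      exact h n _ rfl
    · intro h n n' hn
      have h1 := congrFun h n
      rw [cj_apply] at h1
      rw [← h1]
      have hn' : n' = ⟨g * (n : G) * g⁻¹, hN.conj_mem (n : G) n.2 g⟩ := Subtype.ext hn
      rw [hn']
  -- linear characters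
  have hlin : Nat.card {χ : Cfsg.IrrCharacter G // Cfsg.charDegree (χ : G → ℂ) = 1} =
      Nat.card (G →* ℂˣ) := by
    rw [Nat.card_congr (linEquiv G)]
    apply Nat.card_congr
    apply Equiv.subtypeEquivRight
    intro χ
    rw [one_eq_charDegree χ.2.isCharacter]
    exact_mod_cast Iff.rfl
  have hfin : Finite (G →* ℂˣ) := by
    apply Nat.finite_of_card_ne_zero
    rw [card_hom_units]
    exact Subgroup.index_ne_zero_of_finite
  have := Fintype.ofFinite (G →* ℂˣ)
  -- the characters ψ * lam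
  let lamI : (G →* ℂˣ) → I → ℂ := fun f i => (f (i : G) : ℂ)
  have hlamI : ∀ f, IsCharacter I (lamI f) := fun f =>
    isCharacter_of_unitsHom (f.comp I.subtype)
  have hψf : ∀ f, IsIrrCharacter I ((ψ : I → ℂ) * lamI f) := fun f =>
    ψ.2.mul_linear (hlamI f) (by simp [lamI])
  have hfN : ∀ (f : G →* ℂˣ), ∀ n ∈ N, f n = 1 := by
    intro f n hn
    have h1 := (isCharacter_of_unitsHom f).eq_one_on_commutator (by simp) (hNG hn)
    exact Units.ext (by simpa using h1)
  have hres : ∀ f, resTo N I hNI ((ψ : I → ℂ) * lamI f) = φ := by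
    intro f
    funext n
    show (ψ : I → ℂ) ⟨n, hNI n.2⟩ * (f (n : G) : ℂ) = _
    rw [hfN f n n.2, Units.val_one, mul_one]
    exact hψ n
  have hover : ∀ f, classInner (resTo N I hNI ((ψ : I → ℂ) * lamI f)) (φ : N → ℂ) ≠ 0 := by
    intro f
    rw [hres, φ.2.classInner_self]
    exact one_ne_zero
  let F : (G →* ℂˣ) → {χ : Cfsg.IrrCharacter G // Cfsg.charDegree (χ : G → ℂ) =
      Cfsg.charDegree (φ : ↥N → ℂ) * I.index} := fun f =>
    ⟨⟨indFun I ((ψ : I → ℂ) * lamI f), (corr_irr hNI φ.2 hT (hψf f) (hover f)).1⟩, by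
      apply charDegree_eq
      show indFun I ((ψ : I → ℂ) * lamI f) 1 = _
      rw [Cfsg.Agent.Lib.IndFun.indFun_one]
      have h1 : ((ψ : I → ℂ) * lamI f) 1 = charDegree (φ : N → ℂ) := by
        rw [← one_eq_charDegree φ.2.isCharacter, ← hres f]
        rfl
      rw [h1]
      push_cast
      ring⟩
  have hfib : ∀ f g, F f = F g → ∀ i ∈ I, f i = g i := by
    intro f g hfg
    have h1 : indFun I ((ψ : I → ℂ) * lamI f) = indFun I ((ψ : I → ℂ) * lamI g) :=
      congrArg (fun x => (x.1 : G → ℂ)) hfg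
    have h2 := corr_inj hNI φ.2 hT (hψf f) (hψf g) (hover f) (hover g) h1
    -- μ = g / f
    let μ : I →* ℂˣ := (g / f).comp I.subtype
    have hoff : ∀ x : I, x ∉ μ.ker → (ψ : I → ℂ) x = 0 := by
      intro x hx
      have h3 := congrFun h2 x
      simp only [Pi.mul_apply, lamI] at h3
      by_contra h0
      have h4 : (f (x : G) : ℂ) = g (x : G) := mul_left_cancel₀ h0 h3
      apply hx
      rw [MonoidHom.mem_ker]
      show g (x : G) / f (x : G) = 1
      rw [div_eq_one]
      exact (Units.ext h4).symm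
    have hker : ∀ n : N, Subgroup.inclusion hNI n ∈ μ.ker := by
      intro n
      rw [MonoidHom.mem_ker]
      show g (n : G) / f (n : G) = 1
      rw [hfN g n n.2, hfN f n n.2, div_one]
    have := Fintype.ofFinite μ.ker
    have hirr : IsIrrCharacter μ.ker (fun x : μ.ker => (ψ : I → ℂ) x) := by
      let j : N →* μ.ker := (Subgroup.inclusion hNI).codRestrict μ.ker hker
      apply (ψ.2.isCharacter.restrict μ.ker).isIrr_of_comp j
      have h5 : (fun n : N => (ψ : I → ℂ) (j n : μ.ker)) = φ := funext hψ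
      show IsIrrCharacter N (fun n : N => (ψ : I → ℂ) (j n : μ.ker))
      rw [h5]; exact φ.2
    have h6 := (classInner_res_eq_index_iff (N := μ.ker) ψ.2.classInner_self).mpr hoff
    rw [hirr.classInner_self] at h6
    have h7 : μ.ker.index = 1 := by exact_mod_cast h6.symm
    rw [Subgroup.index_eq_one] at h7
    intro i hi
    have h8 : (⟨i, hi⟩ : I) ∈ μ.ker := by rw [h7]; trivial
    rw [MonoidHom.mem_ker] at h8
    have h9 : g i / f i = 1 := h8
    rw [div_eq_one] at h9
    exact h9.symm
  rw [hlin]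
  have key : Fintype.card (G →* ℂˣ) ≤ I.index * (Finset.univ.image F).card := by
    rw [← Finset.card_univ]
    apply Finset.card_le_mul_card_image
    intro χ _
    by_cases hne : (Finset.univ.filter fun f => F f = χ).Nonempty
    · obtain ⟨f, hf⟩ := hne
      have hf' : F f = χ := (Finset.mem_filter.mp hf).2
      refine le_trans ?_ (card_hom_trivial_le I)
      rw [Nat.card_eq_fintype_card, ← Finset.card_univ (α := {f : G →* ℂˣ // ∀ i ∈ I, f i = 1})]
      refine Finset.card_le_card_of_injOn (fun f' => if h : ∀ i ∈ I, (f' / f) i = 1 then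
        (⟨f' / f, h⟩ : {f : G →* ℂˣ // ∀ i ∈ I, f i = 1}) else ⟨1, fun _ _ => rfl⟩)
        (fun _ _ => Finset.mem_coe.mpr (Finset.mem_univ _)) ?_
      have hmem : ∀ f' ∈ (Finset.univ.filter fun f => F f = χ), ∀ i ∈ I, (f' / f) i = 1 := by
        intro f' hf'' i hi
        have h1 : F f' = F f := (Finset.mem_filter.mp hf'').2.trans hf'.symm
        show f' i / f i = 1
        rw [hfib f' f h1 i hi, div_self']
      intro a ha b hb hab
      have ha' := hmem a (Finset.mem_coe.mp ha)
      have hb' := hmem b (Finset.mem_coe.mp hb)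
      simp only [dif_pos ha', dif_pos hb'] at hab
      have := congrArg Subtype.val hab
      exact div_left_injective this
    · rw [Finset.not_nonempty_iff_eq_empty.mp hne]
      simp
  rw [Nat.card_eq_fintype_card]
  refine key.trans (Nat.mul_le_mul_left _ ?_)
  rw [Nat.card_eq_fintype_card]
  exact Finset.card_le_univ _

end Cfsg.Agent.S4870
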