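import Cfsg.Statements.S4872
import Cfsg.Agent.Lib.RealMult
import Cfsg.Agent.Lib.RealOdd
import Cfsg.Agent.Lib.DegRatio
import Cfsg.Agent.Lib.DefZeroCount

set_option autoImplicit false
open Cfsg

namespace Cfsg.Agent.S4872

open Cfsg.Agent.Lib.CharBasic Cfsg.Agent.Lib.PermLemma
open Cfsg.Agent.Lib.Clifford Cfsg.Agent.Lib.FrobSchur Cfsg.Agent.Lib.RealOdd
open Cfsg.Agent.Lib
open scoped ComplexConjugate

/-- The multiplicity of `φ` in the restriction of `χ` divides the index. -/
theorem mult_dvd {G : Type*} [Group G] [Fintype G] (N : Subgroup G) [N.Normal] [Fintype N]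
    {χ : G → ℂ} (hχ : IsIrrCharacter G χ) {φ : N → ℂ} (hφ : IsIrrCharacter N φ) {e : ℕ}
    (he : classInner (fun n : N => χ n) φ = e) (he0 : e ≠ 0) : e ∣ N.index := by
  classical
  have hcon : classInner (fun n : N => χ n) φ ≠ 0 := by rw [he]; exact_mod_cast he0
  have hc := DefectZero.charDegree_eq hχ.isCharacter
  have hd := DefectZero.charDegree_eq hφ.isCharacter
  have hdpos := DefectZero.charDegree_pos hφ
  obtain ⟨f, h1, h2⟩ := Lib.DegRatio.degree_ratio hχ hφ hcon hc.symm hd.symm
  have h3 := congrFun (clifford hχ hφ hcon) 1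
  have hfin : ({ψ : N → ℂ | ∃ g : G, ψ = cj N g φ}).Finite := by
    have : {ψ : N → ℂ | ∃ g : G, ψ = cj N g φ} = Set.range (fun g : G => cj N g φ) := by
      ext ψ; constructor
      · rintro ⟨g, rfl⟩; exact ⟨g, rfl⟩
      · rintro ⟨g, rfl⟩; exact ⟨g, rfl⟩
    rw [this]
    exact Set.finite_range _
  rw [finsum_mem_eq_finite_toFinset_sum _ hfin] at h3
  simp only [Pi.smul_apply, Finset.sum_apply, smul_eq_mul, OneMemClass.coe_one] at h3
  have h4 : ∀ ψ ∈ hfin.toFinset, ψ 1 = φ 1 := by
    intro ψ hψ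
    rw [Set.Finite.mem_toFinset] at hψ
    obtain ⟨g, rfl⟩ := hψ
    rw [cj_apply]
    congr 1
    apply Subtype.ext
    simp
  rw [Finset.sum_congr rfl h4, Finset.sum_const, nsmul_eq_mul, he, ← hc, ← hd] at h3
  have h5 : charDegree χ = e * (hfin.toFinset.card * charDegree φ) := by exact_mod_cast h3
  rw [h1] at h5
  have h6 : f = e * hfin.toFinset.card := by
    apply Nat.eq_of_mul_eq_mul_right hdpos
    rw [h5, mul_assoc]
  exact (Dvd.intro _ h6.symm).trans h2

theorem result {G : Type*} [Group G] [Finite G] (N : Subgroup G) [N.Normal] (h2 : IsPGroup 2 (G ⧸ N)) (φ : Cfsg.IrrCharacter ↥N) (hdef : 2 ^ (Nat.card ↥N).factorization 2 ∣ Cfsg.charDegree (φ : ↥N → ℂ)) (hconj : ∃ g : G, ∀ n n' : ↥N, (n' : G) = g * (n : G) * g⁻¹ → (φ : ↥N → ℂ) n' = (starRingEnd ℂ) ((φ : ↥N → ℂ) n)) : ∃ χ : Cfsg.IrrCharacter G, (Nat.card G : ℂ)⁻¹ * ∑ᶠ g : G, (χ : G → ℂ) (g * g) = 1 ∧ (Nat.card ↥N : ℂ)⁻¹ * ∑ᶠ n : ↥N, (χ : G → ℂ) n * (starRingEnd ℂ) ((φ : ↥N → ℂ) n) = 1 := by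
  classical
  have := Fintype.ofFinite G
  have := Fintype.ofFinite N
  have h2p : Fact (Nat.Prime 2) := ⟨Nat.prime_two⟩
  obtain ⟨S'⟩ : Nonempty (Sylow 2 G) := inferInstance
  obtain ⟨S, hS⟩ : ∃ S : Subgroup G, S = (S' : Subgroup G) := ⟨_, rfl⟩
  have hSp : IsPGroup 2 S := by rw [hS]; exact S'.2
  have hScard : Nat.card S = 2 ^ (Nat.card G).factorization 2 := by rw [hS]; exact S'.card_eq_multiplicity
  have := Fintype.ofFinite S
  -- multiplicities
  have hea : ∀ χ : IrrCharacter G, ∃ a : ℕ, classInner (fun s : S => (χ : G → ℂ) s) 1 = a := fun χ =>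
    (χ.2.isCharacter.restrict _).classInner_nat isIrrCharacter_one.isCharacter
  have hee : ∀ χ : IrrCharacter G, ∃ e : ℕ, classInner (fun n : N => (χ : G → ℂ) n) (φ : N → ℂ) = e := fun χ =>
    (χ.2.isCharacter.restrict _).classInner_nat φ.2.isCharacter
  choose a ha using hea
  choose e he using hee
  -- degree of φ
  have hdeg := DefectZero.charDegree_eq φ.2.isCharacter
  have hdvd := DefectZero.charDegree_dvd φ.2
  have hNpos : Nat.card N ≠ 0 := Nat.card_pos.ne'
  obtain ⟨m, hm⟩ := hdef
  have hodd : Odd m := by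
    rw [← Nat.not_even_iff_odd, even_iff_two_dvd]
    intro hm2
    apply Nat.pow_succ_factorization_not_dvd hNpos Nat.prime_two
    refine Dvd.dvd.trans ?_ hdvd
    rw [hm, pow_succ]
    exact Nat.mul_dvd_mul_left _ hm2
  have hvan : ∀ n : N, 2 ∣ orderOf n → (φ : N → ℂ) n = 0 := by
    intro n hn
    refine DefZeroCount.vanish Nat.prime_two φ.2 ?_ hn
    have hpos := DefectZero.charDegree_pos φ.2
    rw [← Nat.prime_two.pow_dvd_iff_le_factorization hpos.ne', hm]
    exact Dvd.intro _ rfl
  obtain ⟨k, hk⟩ : ∃ k, N.index = 2 ^ k := IsPGroup.iff_card.mp h2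
  have hcardG : Nat.card G = Nat.card N * 2 ^ k := by rw [← hk, Subgroup.card_mul_index]
  have hfac : (Nat.card G).factorization 2 = (Nat.card N).factorization 2 + k := by
    rw [hcardG, Nat.factorization_mul hNpos (by positivity), Finsupp.add_apply,
      Nat.Prime.factorization_pow Nat.prime_two, Finsupp.single_eq_same]
  -- the induced permutation character
  have hF := IndFun.indFun_isClassFunction S (1 : S → ℂ)
  have hFsum : ∑ χ : IrrCharacter G, a χ * e χ = m := by
    have h1 : indFun S (1 : S → ℂ) = ∑ χ : IrrCharacter G, (a χ : ℂ) • (χ : G → ℂ) := by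
      rw [hF.expansion]
      refine Finset.sum_congr rfl fun χ _ => ?_
      congr 1
      rw [IndFun.frobenius_reciprocity _ _ _ χ.2.isClassFunction, ← IndFun.classInner_conj_symm, ha χ,
        Complex.conj_natCast]
    have h2 : classInner (fun n : N => indFun S (1 : S → ℂ) n) (φ : N → ℂ) =
        ∑ χ : IrrCharacter G, (a χ : ℂ) * (e χ : ℂ) := by
      have h3 : (fun n : N => indFun S (1 : S → ℂ) n) =
          ∑ χ : IrrCharacter G, (a χ : ℂ) • (fun n : N => (χ : G → ℂ) n) := by
        funext n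
        rw [h1]
        simp only [Finset.sum_apply, Pi.smul_apply]
      rw [h3, IndFun.classInner_sum_left]
      refine Finset.sum_congr rfl fun χ _ => ?_
      rw [IndFun.classInner_smul_left, he]
    have h4 : classInner (fun n : N => indFun S (1 : S → ℂ) n) (φ : N → ℂ) = m := by
      rw [classInner_def, Finset.sum_eq_single (1 : N)]
      · rw [OneMemClass.coe_one, IndFun.indFun_one, ← hdeg, hm, Pi.one_apply, mul_one]
        have h5 : (Nat.card S : ℂ) * (S.index : ℂ) = Nat.card N * 2 ^ k := by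
          have : Nat.card S * S.index = Nat.card N * 2 ^ k := by rw [Subgroup.card_mul_index, hcardG]
          exact_mod_cast this
        rw [hScard, hfac] at h5
        have h6 : (Nat.card N : ℂ) ≠ 0 := by exact_mod_cast hNpos
        have h7 : (2 : ℂ) ^ k ≠ 0 := pow_ne_zero _ two_ne_zero
        rw [Complex.conj_natCast]
        push_cast at h5 ⊢
        rw [pow_add] at h5
        have h8 : (2 : ℂ) ^ (Nat.card N).factorization 2 * S.index = Nat.card N := by
          apply mul_right_cancel₀ h7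
          rw [← h5]; ring
        field_simp
        linear_combination (m : ℂ) * h8
      · intro n _ hn
        by_cases h : 2 ∣ orderOf n
        · rw [hvan n h, map_zero, mul_zero]
        · rw [IndFun.indFun_eq_zero, zero_mul]
          intro x hx
          apply hn
          obtain ⟨j, hj⟩ := hSp ⟨_, hx⟩
          have h5 : (x⁻¹ * (n : G) * x) ^ (2 ^ j) = 1 := congrArg Subtype.val hj
          have h6 : x⁻¹ * (n : G) * x = MulAut.conj x⁻¹ (n : G) := by simp
          rw [h6, ← map_pow, map_eq_one_iff _ (MulAut.conj x⁻¹).injective] at h5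
          have h7 : n ^ (2 ^ j) = 1 := Subtype.ext h5
          have h8 := orderOf_dvd_of_pow_eq_one h7
          rw [Nat.dvd_prime_pow Nat.prime_two] at h8
          obtain ⟨i, -, hi⟩ := h8
          have hi0 : i = 0 := by
            by_contra hi0
            exact h (by rw [hi]; exact dvd_pow_self 2 hi0)
          rw [hi0, pow_zero, orderOf_eq_one_iff] at hi
          exact hi
      · intro h; exact absurd (Finset.mem_univ _) h
    rw [h2] at h4
    exact_mod_cast h4
  obtain ⟨g, hg⟩ := hconj
  have hcj : cj N g (φ : N → ℂ) = fun n => conj ((φ : N → ℂ) n) := by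
    funext n
    rw [cj_apply]
    exact hg n _ rfl
  have hsym : ∀ χ : IrrCharacter G, a (irrConj G χ) * e (irrConj G χ) = a χ * e χ := by
    intro χ
    have h1 : (a (irrConj G χ) : ℂ) = a χ := by
      rw [← ha, ← ha]
      have h3 : classInner (fun s : S => (irrConj G χ : G → ℂ) s) 1 = conj (classInner (fun s : S => (χ : G → ℂ) s) 1) := by
        rw [classInner_def, classInner_def, map_mul, map_sum, map_inv₀, Complex.conj_natCast]
        congr 1
        refine Finset.sum_congr rfl fun s _ => ?_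
        rw [irrConj_apply, Pi.one_apply, map_mul, Complex.conj_conj, map_one]
      rw [h3, ha, Complex.conj_natCast]
    have h2 : (e (irrConj G χ) : ℂ) = e χ := by
      rw [← he, ← he]
      have h3 : classInner (fun n : N => (irrConj G χ : G → ℂ) n) (φ : N → ℂ) =
          conj (classInner (fun n : N => (χ : G → ℂ) n) (fun n => conj ((φ : N → ℂ) n))) := by
        rw [classInner_def, classInner_def, map_mul, map_sum, map_inv₀, Complex.conj_natCast]
        congr 1
        refine Finset.sum_congr rfl fun s _ => ?_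
        rw [irrConj_apply, map_mul, Complex.conj_conj]
      rw [h3, ← hcj, classInner_cj_res χ.2.isClassFunction, he, Complex.conj_natCast]
    rw [Nat.cast_inj] at h1 h2
    rw [h1, h2]
  obtain ⟨χ, hχreal, hχodd⟩ := exists_real_of_odd_sum (fun χ => a χ * e χ) hsym (by rw [hFsum]; exact hodd)
  rw [Nat.odd_mul] at hχodd
  refine ⟨χ, ?_, ?_⟩
  · have h1 := RealMult.fsInd_eq_one_of_odd_mult χ.2 hχreal S (ha χ) hχodd.1
    rw [finsum_eq_sum_of_fintype]
    exact h1
  · have h1 := mult_dvd N χ.2 φ.2 (he χ) (by rintro h; rw [h] at hχodd; exact absurd hχodd.2 (by decide))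
    rw [hk, Nat.dvd_prime_pow Nat.prime_two] at h1
    obtain ⟨i, -, hi⟩ := h1
    have hi0 : i = 0 := by
      by_contra hi0
      have := hχodd.2
      rw [hi, ← Nat.not_even_iff_odd] at this
      exact this ((Nat.even_pow.mpr ⟨even_two, hi0⟩))
    rw [hi0, pow_zero] at hi
    have h2 := he χ
    rw [hi, Nat.cast_one, classInner_def] at h2
    rw [finsum_eq_sum_of_fintype]
    exact h2

end Cfsg.Agent.S4872
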