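import Cfsg.Statements.S4873
import Cfsg.Agent.Lib.RealOdd

set_option autoImplicit false
open Cfsg

namespace Cfsg.Agent.S4873

open Cfsg.Agent.Lib.CharBasic Cfsg.Agent.Lib.PermLemma
open Cfsg.Agent.Lib.Clifford Cfsg.Agent.Lib.FrobSchur Cfsg.Agent.Lib.RealOdd
open scoped ComplexConjugate

theorem result {G : Type*} [Group G] [Finite G] (N : Subgroup G) [N.Normal] (hodd : Odd N.index) (φ : Cfsg.IrrCharacter ↥N) (hφ : (Nat.card ↥N : ℂ)⁻¹ * ∑ᶠ g : ↥N, (φ : ↥N → ℂ) (g * g) = 1) : ∃! χ : Cfsg.IrrCharacter G, (Nat.card G : ℂ)⁻¹ * ∑ᶠ g : G, (χ : G → ℂ) (g * g) = 1 ∧ (∑ᶠ n : ↥N, (χ : G → ℂ) n * (starRingEnd ℂ) ((φ : ↥N → ℂ) n)) ≠ 0 := by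
  classical
  have := Fintype.ofFinite G
  have := Fintype.ofFinite N
  have hfs : ∀ χ : IrrCharacter G, (Nat.card G : ℂ)⁻¹ * ∑ᶠ g : G, (χ : G → ℂ) (g * g) =
      fsInd (χ : G → ℂ) := fun χ => by rw [finsum_eq_sum_of_fintype]; rfl
  have hfsN : (Nat.card ↥N : ℂ)⁻¹ * ∑ᶠ g : ↥N, (φ : ↥N → ℂ) (g * g) = fsInd (φ : N → ℂ) := by
    rw [finsum_eq_sum_of_fintype]; rfl
  have hNc : (Nat.card N : ℂ) ≠ 0 := by exact_mod_cast Nat.card_pos.ne'
  have hin : ∀ χ : IrrCharacter G,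
      (∑ᶠ n : ↥N, (χ : G → ℂ) n * (starRingEnd ℂ) ((φ : ↥N → ℂ) n)) ≠ 0 ↔
        classInner (fun n : N => (χ : G → ℂ) n) (φ : N → ℂ) ≠ 0 := by
    intro χ
    rw [finsum_eq_sum_of_fintype, classInner_def]
    constructor
    · intro h; exact mul_ne_zero (inv_ne_zero hNc) h
    · intro h h0; exact h (by rw [h0, mul_zero])
  rw [hfsN] at hφ
  simp only [hfs, hin]
  -- real
  have hrealφ : ∀ n : N, ((φ : N → ℂ) n).im = 0 := by
    by_contra h
    push Not at h
    have := ((fsInd_trichotomy φ.2).2).mpr h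
    rw [hφ] at this
    exact one_ne_zero this
  have hreal_of : ∀ χ : IrrCharacter G, fsInd (χ : G → ℂ) ≠ 0 → ∀ g : G, ((χ : G → ℂ) g).im = 0 := by
    intro χ hχ
    by_contra h
    push Not at h
    exact hχ (((fsInd_trichotomy χ.2).2).mpr h)
  obtain ⟨χ, hχ1, hχ2⟩ := exists_real_over N hodd φ.2 hrealφ
  -- square root counting
  have hsq : ∀ n : N, ∑ χ : IrrCharacter G, fsInd (χ : G → ℂ) * (χ : G → ℂ) n =
      ∑ ψ : IrrCharacter N, fsInd (ψ : N → ℂ) * (ψ : N → ℂ) n := by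
    intro n
    rw [← card_sq_eq, ← card_sq_eq]
    congr 1
    refine Nat.card_congr ⟨fun s => ⟨⟨s.1, ?_⟩, ?_⟩, fun s => ⟨(s.1 : G), ?_⟩, fun s => rfl, fun s => rfl⟩
    · have h1 : s.1 ^ N.index ∈ N := Subgroup.pow_index_mem N s.1
      have h2 : s.1 ^ 2 ∈ N := by rw [pow_two, s.2]; exact n.2
      obtain ⟨m, hm⟩ := hodd
      rw [hm, pow_succ, pow_mul] at h1
      exact (N.mul_mem_cancel_left (N.pow_mem h2 m)).mp h1
    · exact Subtype.ext s.2
    · have := congrArg Subtype.val s.2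
      exact this
  have hsum : ∑ χ : IrrCharacter G, fsInd (χ : G → ℂ) *
      classInner (fun n : N => (χ : G → ℂ) n) (φ : N → ℂ) = 1 := by
    have h1 : (∑ χ : IrrCharacter G, fsInd (χ : G → ℂ) • (fun n : N => (χ : G → ℂ) n)) =
        ∑ ψ : IrrCharacter N, fsInd (ψ : N → ℂ) • (ψ : N → ℂ) := by
      funext n
      simp only [Finset.sum_apply, Pi.smul_apply, smul_eq_mul]
      exact hsq n
    have h2 := congrArg (fun f => classInner f (φ : N → ℂ)) h1
    simp only [classInner_sum_left, classInner_smul_left] at h2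
    rw [h2, Finset.sum_eq_single φ]
    · rw [φ.2.classInner_self, hφ, mul_one]
    · intro ψ _ hψ
      rw [irr_orthonormal, if_neg hψ, mul_zero]
    · intro h; exact absurd (Finset.mem_univ _) h
  have hfsχ : fsInd (χ : G → ℂ) = 1 := by
    rw [Finset.sum_eq_single χ] at hsum
    · obtain ⟨e, he⟩ := (χ.2.isCharacter.restrict N).classInner_nat φ.2.isCharacter
      rw [he] at hsum
      rcases (fsInd_trichotomy χ.2).1 with h | h | h
      · rw [h, zero_mul] at hsum; exact absurd hsum zero_ne_one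
      · exact h
      · rw [h] at hsum
        exfalso
        have h3 : (e : ℝ) = -1 := by
          have h4 := congrArg Complex.re hsum
          simp at h4
          linarith
        have h5 : (0 : ℝ) ≤ e := Nat.cast_nonneg e
        linarith
    · intro ψ _ hψ
      by_cases h0 : fsInd (ψ : G → ℂ) = 0
      · rw [h0, zero_mul]
      · by_cases h1 : classInner (fun n : N => (ψ : G → ℂ) n) (φ : N → ℂ) = 0
        · rw [h1, mul_zero]
        · exact absurd (unique_real_over N hodd φ.2 ψ χ (hreal_of ψ h0) hχ1 h1 hχ2) hψ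
    · intro h; exact absurd (Finset.mem_univ _) h
  refine ⟨χ, ⟨hfsχ, hχ2⟩, ?_⟩
  rintro ψ ⟨h1, h2⟩
  exact unique_real_over N hodd φ.2 ψ χ (hreal_of ψ (by rw [h1]; exact one_ne_zero)) hχ1 h2 hχ2

end Cfsg.Agent.S4873
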