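import Cfsg.Statements.S4885
import Cfsg.Agent.Lib.CrossBlk

set_option autoImplicit false
open Cfsg

namespace Cfsg.Agent.S4885

open Cfsg.Agent.Lib Cfsg.Agent.Lib.CharBasic Cfsg.Agent.Lib.DefectZero

/-- Let p and q be primes dividing the order of the finite group G, and suppose G is p-solvable and q-solvable. Fix maximal ideals of the algebraic integers containing p and q, defining the principal p-block and the principal q-block. If the irreducible characters of degree prime to p in the principal p-block are exactly the irreducible characters of degree prime to q in the principal q-block, then p = q. -/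
theorem result {G : Type*} [Group G] [Finite G] (p q : ℕ) [Fact p.Prime] [Fact q.Prime] (hp : p ∣ Nat.card G) (hq : q ∣ Nat.card G) (hps : Cfsg.IsPSolvable p G) (hqs : Cfsg.IsPSolvable q G) (Mp Mq : Ideal Cfsg.AlgInt) (hMp : Cfsg.IsPModular p Mp) (hMq : Cfsg.IsPModular q Mq) (h : ∀ χ : Cfsg.IrrCharacter G, (χ ∈ Cfsg.principalBlock Mp G ∧ ¬ p ∣ Cfsg.charDegree (χ : G → ℂ)) ↔ (χ ∈ Cfsg.principalBlock Mq G ∧ ¬ q ∣ Cfsg.charDegree (χ : G → ℂ))) : p = q := by
  classical
  by_contra hpq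
  have hpp : p.Prime := Fact.out
  have h2 : ¬ p ∣ (pPrimeCore q G).index :=
    CrossBlk.not_dvd_index (Ne.symm hpq) hMq hqs hps (fun χ hχ hd => ((h χ).2 ⟨hχ, hd⟩).2)
  obtain ⟨P⟩ : Nonempty (Sylow p G) := inferInstance
  have hPK : (P : Subgroup G) ≤ pPrimeCore q G := CrossBlk.sylow_le_of_not_dvd P _ h2
  set K := pPrimeCore p G with hK
  obtain ⟨R, hR⟩ : ∃ R : Sylow p (G ⧸ K), R = P.mapSurjective (QuotientGroup.mk'_surjective K) := ⟨_, rfl⟩
  have hRP : (R : Subgroup (G ⧸ K)) = (P : Subgroup G).map (QuotientGroup.mk' K) := by rw [hR]; rfl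
  have hR1 : (R : Subgroup (G ⧸ K)) ≠ ⊥ := by
    intro hbot
    rw [hRP, Subgroup.map_eq_bot_iff, QuotientGroup.ker_mk'] at hbot
    have h3 := Cores.isPGroup_inf_pPrimeCore P.isPGroup'
    rw [← hK, inf_eq_left.mpr hbot] at h3
    have h4 := P.not_dvd_index
    rw [h3, Subgroup.index_bot] at h4
    exact h4 hp
  -- a nontrivial linear character of `R`
  have hsolv : Group.IsSolvable (R : Subgroup (G ⧸ K)) := by
    have := R.isPGroup'.isNilpotent
    infer_instance
  have hnt : Nontrivial (R : Subgroup (G ⧸ K)) := (Subgroup.nontrivial_iff_ne_bot _).mpr hR1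
  have hlt := Group.IsSolvable.commutator_lt_top_of_nontrivial (G := (R : Subgroup (G ⧸ K)))
  obtain ⟨x, -, hx⟩ := SetLike.exists_of_lt hlt
  have := Fintype.ofFinite (R : Subgroup (G ⧸ K))
  obtain ⟨f, -, hf⟩ := GoingDown.exists_hom_ne_one (K := (R : Subgroup (G ⧸ K)))
    (L := commutator (R : Subgroup (G ⧸ K)))
    (fun a b => Subgroup.commutator_mem_commutator (Subgroup.mem_top a) (Subgroup.mem_top b)) hx
  let μ : ↥(R : Subgroup (G ⧸ K)) → ℂ := fun x => (f x : ℂ)
  have hμc : IsCharacter (R : Subgroup (G ⧸ K)) μ := isCharacter_of_unitsHom f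
  have hμ : IsIrrCharacter (R : Subgroup (G ⧸ K)) μ := hμc.isIrr_of_one_eq_one (by simp [μ])
  have hμd : ¬ p ∣ charDegree μ := by
    have h1 := charDegree_eq hμc
    have h2 : μ 1 = 1 := by simp [μ]
    rw [h2] at h1
    have h3 : charDegree μ = 1 := by exact_mod_cast h1
    rw [h3]
    exact hpp.one_lt.ne' ∘ Nat.dvd_one.mp
  obtain ⟨χ, hχp, hχ⟩ := CrossDeg.exists_over (R : Subgroup (G ⧸ K)) R.not_dvd_index hμ hμd
  have hmem := CrossBlk.inflate_mem hMp hps χ.2
  have hmemq := ((h _).1 ⟨hmem, hχp⟩).1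
  rw [CrossBlk.mem_principalBlock_iff hMq hqs] at hmemq
  have hres : (fun y : (R : Subgroup (G ⧸ K)) => (χ : G ⧸ K → ℂ) y) = ((χ : G ⧸ K → ℂ) 1) • (1 : ↥(R : Subgroup (G ⧸ K)) → ℂ) := by
    funext y
    obtain ⟨g, hg, hgy⟩ : (y : G ⧸ K) ∈ (P : Subgroup G).map (QuotientGroup.mk' K) := by
      rw [← hRP]; exact y.2
    have h3 := hmemq g (hPK hg)
    rw [← hgy, Pi.smul_apply, Pi.one_apply, smul_eq_mul, mul_one]
    exact h3
  apply hχ
  rw [hres, classInner_smul_left, isIrrCharacter_one.classInner_eq_zero hμ, mul_zero]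
  intro h3
  apply hf
  have h4 := congrFun h3 x
  exact Units.ext h4.symm

end Cfsg.Agent.S4885
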