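import Cfsg.Statements.S4888
import Cfsg.Agent.Lib.H3PNil
import Cfsg.Agent.Lib.Contrib2
import Cfsg.Agent.Lib.BlockCore
import Cfsg.Agent.Lib.BlockOsima
import Cfsg.Agent.Lib.PNilp

set_option autoImplicit false
open Cfsg Cfsg.Agent.Lib Cfsg.Agent.Lib.CharBasic
open scoped ComplexConjugate

namespace Cfsg.Agent.S4888

section

universe u

variable {G : Type u} [Group G] [Finite G] {p : ℕ} {M : Ideal AlgInt}

theorem deg_triv : charDegree (BlockThird.triv G : G → ℂ) = 1 := by
  have h : ((charDegree (BlockThird.triv G : G → ℂ) : ℕ) : ℂ) = 1 := BlockDeg.charDegree_cast_irr (BlockThird.triv G)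
  exact_mod_cast h

theorem nuDeg_triv : BlockDeg.nuDeg p (BlockThird.triv G : G → ℂ) = 0 := by
  have h1 : charDegree (BlockThird.triv G : G → ℂ) = 1 := deg_triv
  unfold BlockDeg.nuDeg
  rw [h1, Nat.factorization_one]
  rfl

theorem height_zero_iff (hM : IsPModular p M) {χ : IrrCharacter G} (hχ : χ ∈ principalBlock M G) :
    blockHeight p (principalBlock M G) (χ : G → ℂ) = 0 ↔ ¬ p ∣ charDegree (χ : G → ℂ) := by
  have hMp := BlockRing.isPrime hM
  rw [BlockDeg.blockHeight_eq_zero_iff hχ]
  have h0 : BlockDeg.nuDeg p (χ : G → ℂ) = 0 ↔ ¬ p ∣ charDegree (χ : G → ℂ) := by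
    unfold BlockDeg.nuDeg
    rw [Nat.factorization_eq_zero_iff]
    have h1 := hM.1
    have h2 := (BlockDeg.charDegree_pos χ.2).ne'
    tauto
  rw [← h0]
  constructor
  · intro h
    have := h _ (BlockThird.triv_mem)
    rw [nuDeg_triv] at this
    omega
  · intro h ψ _
    rw [h]
    exact Nat.zero_le _

theorem defect_principal (hM : IsPModular p M) :
    blockDefect p (principalBlock M G) = (Nat.card G).factorization p := by
  have hMp := BlockRing.isPrime hM
  unfold blockDefect
  have h : sInf ((fun χ : IrrCharacter G => (charDegree (χ : G → ℂ)).factorization p) ''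
      principalBlock M G) = 0 := by
    rw [Nat.sInf_eq_zero]
    left
    exact ⟨BlockThird.triv G, BlockThird.triv_mem, nuDeg_triv⟩
  rw [h, Nat.sub_zero]

/-- Every linear character of a Sylow subgroup is contained in the restriction of some character of the
principal block of degree prime to `p`. -/
theorem exists_over (hM : IsPModular p M) [hp : Fact p.Prime] (P : Sylow p G)
    [Fintype (P : Subgroup G)] (lam : (P : Subgroup G) →* ℂˣ) :
    ∃ χ : IrrCharacter G, χ ∈ principalBlock M G ∧ ¬ p ∣ charDegree (χ : G → ℂ) ∧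
      classInner (fun x : (P : Subgroup G) => (χ : G → ℂ) x) (fun x => (lam x : ℂ)) ≠ 0 := by
  classical
  have := Fintype.ofFinite G
  have hMp := BlockRing.isPrime hM
  set B := principalBlock M G with hBdef
  have hB : IsPBlock M B := BlockThird.isPBlock_principal
  have hlamchar : IsCharacter (P : Subgroup G) (fun x => (lam x : ℂ)) := isCharacter_of_unitsHom lam
  have hc : ∀ χ : IrrCharacter G, ∃ n : ℕ,
      classInner (fun x : (P : Subgroup G) => (χ : G → ℂ) x) (fun x => (lam x : ℂ)) = n :=
    fun χ => (χ.2.isCharacter.restrict (P : Subgroup G)).classInner_nat hlamchar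
  choose c hc using hc
  set N₀ := ∑ᶠ χ ∈ B, charDegree (χ : G → ℂ) ^ 2 with hN₀
  have hN₀f : N₀ = ∑ χ ∈ B.toFinset, charDegree (χ : G → ℂ) ^ 2 := by
    rw [hN₀, finsum_mem_eq_toFinset_sum]
  have hdim := Contrib2.dim_block hM hB
  rw [defect_principal hM, ← hN₀] at hdim
  set D := ∑ χ ∈ B.toFinset, c χ * charDegree (χ : G → ℂ) with hD
  have hkey : (Nat.card (P : Subgroup G)) * D = N₀ := by
    have h1 : ((Nat.card (P : Subgroup G) : ℕ) : ℂ) * (D : ℂ) = (N₀ : ℂ) := by
      have h2 : ∀ χ : IrrCharacter G, ((Nat.card (P : Subgroup G) : ℕ) : ℂ) * (c χ * (χ : G → ℂ) 1) =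
          ∑ x : (P : Subgroup G), conj (lam x : ℂ) * ((χ : G → ℂ) 1 * conj ((χ : G → ℂ) (x : G)⁻¹)) := by
        intro χ
        have h3 : ((Nat.card (P : Subgroup G) : ℕ) : ℂ) * (c χ : ℂ) =
            ∑ x : (P : Subgroup G), (χ : G → ℂ) x * conj (lam x : ℂ) := by
          rw [← hc χ, classInner_def]
          have h0 : ((Nat.card (P : Subgroup G) : ℕ) : ℂ) ≠ 0 := Nat.cast_ne_zero.2 Nat.card_pos.ne'
          rw [mul_inv_cancel_left₀ h0]
        rw [← mul_assoc, h3, Finset.sum_mul]
        apply Finset.sum_congr rfl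
        intro x _
        rw [χ.2.inv (x : G), Complex.conj_conj]
        ring
      rw [hD, hN₀f]
      push_cast
      simp only [BlockDeg.charDegree_cast_irr]
      rw [Finset.mul_sum, Finset.sum_congr rfl (fun χ _ => h2 χ), Finset.sum_comm]
      rw [Finset.sum_eq_single (1 : (P : Subgroup G))]
      · apply Finset.sum_congr rfl
        intro χ _
        rw [map_one, Units.val_one, map_one, one_mul, OneMemClass.coe_one, inv_one]
        rw [← BlockDeg.charDegree_cast_irr χ]
        simp [pow_two]
      · intro x _ hx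
        rw [← Finset.mul_sum]
        have h4 : p ∣ orderOf (x : G)⁻¹ := by
          rw [orderOf_inv, Subgroup.orderOf_coe]
          obtain ⟨k, hk⟩ := (IsPGroup.iff_orderOf.1 P.isPGroup') x
          rw [hk]
          apply dvd_pow_self
          rintro rfl
          rw [pow_zero, orderOf_eq_one_iff] at hk
          exact hx hk
        have h5 := BlockOsima.blockCoeff_eq_zero hM hB h4
        unfold blockCoeff at h5
        have h0 : ((Nat.card G : ℕ) : ℂ) ≠ 0 := Nat.cast_ne_zero.2 Nat.card_pos.ne'
        have h6 := (mul_eq_zero.1 h5).resolve_left (inv_ne_zero h0)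
        rw [finsum_mem_eq_toFinset_sum] at h6
        rw [h6, mul_zero]
      · intro h
        exact absurd (Finset.mem_univ _) h
    exact_mod_cast h1
  have hN₀0 : N₀ ≠ 0 := by
    rw [hN₀f]
    intro h
    rw [Finset.sum_eq_zero_iff] at h
    have h1 := h (BlockThird.triv G) (by rw [Set.mem_toFinset]; exact BlockThird.triv_mem)
    have h2 := BlockDeg.charDegree_pos (BlockThird.triv G).2
    have : 0 < charDegree (BlockThird.triv G : G → ℂ) ^ 2 := by positivity
    omega
  have hD0 : D ≠ 0 := by
    rintro h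
    rw [h, mul_zero] at hkey
    exact hN₀0 hkey.symm
  have hpD : ¬ p ∣ D := by
    intro h
    have h1 : (Nat.card (P : Subgroup G) * D).factorization p = (Nat.card G).factorization p := by
      rw [hkey, hdim]
      omega
    rw [Nat.factorization_mul Nat.card_pos.ne' hD0, Finsupp.add_apply, Sylow.card_eq_multiplicity P,
      hp.out.factorization_pow, Finsupp.single_eq_same] at h1
    have h2 := hp.out.factorization_pos_of_dvd hD0 h
    omega
  have hex : ∃ χ ∈ B.toFinset, ¬ p ∣ c χ * charDegree (χ : G → ℂ) := by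
    by_contra hcon
    push Not at hcon
    exact hpD (Finset.dvd_sum hcon)
  obtain ⟨χ, hχB, hχ⟩ := hex
  refine ⟨χ, Set.mem_toFinset.1 hχB, fun h => hχ (h.mul_left _), ?_⟩
  rw [hc χ]
  intro h
  apply hχ
  have : c χ = 0 := by exact_mod_cast h
  rw [this, zero_mul]
  exact dvd_zero p

end

/-- Let G be a finite group, p a prime and M a maximal ideal of the algebraic integers containing p. Then all height-zero irreducible characters of the principal p-block of G (equivalently, all its characters of degree prime to p) have the same degree if and only if G has a normal p-complement. -/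
theorem result {G : Type*} [Group G] [Finite G] (p : ℕ) [Fact p.Prime] (M : Ideal Cfsg.AlgInt) (hM : Cfsg.IsPModular p M) : (∃ d : ℕ, ∀ χ : Cfsg.IrrCharacter G, χ ∈ (Cfsg.principalBlock M G) → Cfsg.blockHeight p (Cfsg.principalBlock M G) (χ : G → ℂ) = 0 → Cfsg.charDegree (χ : G → ℂ) = d) ↔ Cfsg.HasNormalPComplement p G := by
  classical
  have hMp := BlockRing.isPrime hM
  constructor
  · rintro ⟨d, hd⟩
    have hdeg1 : charDegree (BlockThird.triv G : G → ℂ) = 1 := deg_triv
    have hd1 : d = 1 := by
      rw [← hd (BlockThird.triv G) BlockThird.triv_mem ((height_zero_iff hM BlockThird.triv_mem).2 (by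
        rw [hdeg1]
        exact fun h => hM.1.one_lt.not_ge (Nat.le_of_dvd one_pos h)))]
      exact hdeg1
    obtain ⟨P⟩ : Nonempty (Sylow p G) := inferInstance
    have := Fintype.ofFinite (P : Subgroup G)
    apply H3PNil.hasNormalPComplement_of_linear_extend P
    intro lam
    obtain ⟨χ, hχB, hχp, hχl⟩ := exists_over hM P lam
    have hdχ : charDegree (χ : G → ℂ) = 1 := by
      rw [hd χ hχB ((height_zero_iff hM hχB).2 hχp), hd1]
    have hχ1 : (χ : G → ℂ) 1 = 1 := by
      rw [← BlockDeg.charDegree_cast_irr, hdχ, Nat.cast_one]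
    obtain ⟨f, hf⟩ := χ.2.isCharacter.exists_hom hχ1
    refine ⟨f, ?_⟩
    intro h
    have hres : IsIrrCharacter (P : Subgroup G) (fun x => (χ : G → ℂ) x) :=
      (χ.2.isCharacter.restrict (P : Subgroup G)).isIrr_of_one_eq_one (by
        rw [OneMemClass.coe_one, hχ1])
    have hlam : IsIrrCharacter (P : Subgroup G) (fun x => (lam x : ℂ)) := isIrrCharacter_of_unitsHom lam
    have heq : (fun x : (P : Subgroup G) => (χ : G → ℂ) x) = (fun x => (lam x : ℂ)) := by
      by_contra hne
      exact hχl (hres.classInner_eq_zero hlam hne)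
    have := congrFun heq h
    ext
    rw [← this]
    first
      | exact hf h
      | exact (hf h).symm
  · intro h
    rw [PNilp.hasNormalPComplement_iff] at h
    obtain ⟨N, hN, hpN, k, hk⟩ := h
    refine ⟨1, ?_⟩
    intro χ hχB hχ0
    rw [height_zero_iff hM hχB] at hχ0
    have hker := BlockCore.ker_of_principal hM hpN hχB
    obtain ⟨ψ, hψ, hψχ⟩ := χ.2.deflate N hker
    have h1 : charDegree (χ : G → ℂ) = charDegree ψ := by
      unfold charDegree
      rw [← hψχ 1]
      rfl
    have h2 := BlockDeg.charDegree_dvd_card hψ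
    rw [← h1, ← Subgroup.index, hk] at h2
    obtain ⟨j, -, hj⟩ := (Nat.dvd_prime_pow hM.1).1 h2
    rw [hj]
    rcases Nat.eq_zero_or_pos j with h0 | h0
    · rw [h0, pow_zero]
    · exfalso
      apply hχ0
      rw [hj]
      exact dvd_pow_self p h0.ne'

end Cfsg.Agent.S4888
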