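import Cfsg.Statements.S4892
import Cfsg.Agent.Lib.H32PRat5
-- import your own Cfsg.Agent.* helpers here

set_option autoImplicit false
open Cfsg

namespace Cfsg.Agent.S4892

/-- Let p be an odd prime, M a maximal ideal of the algebraic integers containing p, N a normal subgroup of the finite group G, and θ an irreducible character of N that is G-invariant, of degree prime to p, p-rational (values in the field generated over ℚ by a root of unity of order prime to p) and lies in the principal p-block of N. Let Q be a Sylow p-subgroup of N and suppose the index of N·C_G(Q) in G is a power of p. Then θ extends to a p-rational irreducible character of G lying in the principal p-block of G. -/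
theorem result {G : Type*} [Group G] [Finite G] (p : ℕ) [Fact p.Prime] (hp : p ≠ 2) (M : Ideal Cfsg.AlgInt) (hM : Cfsg.IsPModular p M) (N : Subgroup G) [N.Normal] (θ : Cfsg.IrrCharacter ↥N) (hinv : ∀ g : G, ∀ n n' : ↥N, (n' : G) = g * (n : G) * g⁻¹ → (θ : ↥N → ℂ) n' = (θ : ↥N → ℂ) n) (hdeg : ¬ p ∣ Cfsg.charDegree (θ : ↥N → ℂ)) (hrat : ∃ m : ℕ, ¬ p ∣ m ∧ ∀ n : ↥N, (θ : ↥N → ℂ) n ∈ IntermediateField.adjoin ℚ ({Complex.exp (2 * Real.pi * Complex.I / m)} : Set ℂ)) (hB : θ ∈ Cfsg.principalBlock M ↥N) (Q : Sylow p ↥N) (hidx : ∃ a : ℕ, (N ⊔ Subgroup.centralizer (((Q : Subgroup ↥N).map N.subtype : Subgroup G) : Set G)).index = p ^ a) : ∃ χ : Cfsg.IrrCharacter G, χ ∈ (Cfsg.principalBlock M G) ∧ (∃ n : ℕ, ¬ p ∣ n ∧ ∀ g : G, (χ : G → ℂ) g ∈ IntermediateField.adjoin ℚ ({Complex.exp (2 * Real.pi * Complex.I / n)} : Set ℂ)) ∧ ∀ n : ↥N, (χ : G → ℂ) n = (θ : ↥N → ℂ) n := by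
  classical
  have := Fintype.ofFinite G
  have := Fintype.ofFinite N
  have hpp : p.Prime := Fact.out
  obtain ⟨m1, hm1, hrat⟩ := hrat
  obtain ⟨a, hidx⟩ := hidx
  have hm10 : m1 ≠ 0 := by rintro rfl; exact hm1 (dvd_zero p)
  obtain ⟨R, hR⟩ : ∃ R : Subgroup G, R = (Q : Subgroup N).map N.subtype := ⟨_, rfl⟩
  have hRN : R ≤ N := hR ▸ Subgroup.map_subtype_le _
  have hRi : ¬ p ∣ (R.subgroupOf N).index := by
    have h1 : R.subgroupOf N = (Q : Subgroup N) := by
      rw [hR]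
      exact Subgroup.comap_map_eq_self_of_injective N.subtype_injective _
    rw [h1]
    exact Q.not_dvd_index
  have hnorm := Cfsg.Agent.Lib.H32PRat.normal_sup_centralizer Q
  rw [← hR] at hnorm hidx
  obtain ⟨χ0, hχ0, hext0⟩ := Cfsg.Agent.Lib.H32PRat.exists_ext hp hM θ hinv hdeg hm1 hrat hB hRN hRi hnorm hidx
  have hloc : Cfsg.Agent.Lib.H32PRat.Loc p N (θ : N → ℂ) :=
    { irr := θ.2
      loc := by
        intro X hNX hXi
        have hle := Cfsg.Agent.Lib.H32PRat.le_of_index (H := N ⊔ Subgroup.centralizer (R : Set G)) le_sup_left hNX hpp hidx hXi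
        have := Fintype.ofFinite (N.subgroupOf X)
        obtain ⟨θX, h1, h2⟩ := Cfsg.Agent.Lib.H32PRat.exists_local hM hB hRN hRi hNX hXi hle
        refine ⟨θX, θX.2, h1, ?_⟩
        intro inst x
        rw [← h2 x]
        congr!
      ne := Cfsg.Agent.Lib.H32PRat.sum_preg_ne_zero hM hB hdeg }
  obtain ⟨b, m, k, hk⟩ := Cfsg.Agent.Lib.H32PRat.exists_PK G hpp
  have hm0 : m ≠ 0 := by rintro rfl; exact hk.hm (dvd_zero p)
  have hd : (θ : N → ℂ) 1 = ((charDegree (θ : N → ℂ) : ℕ) : ℂ) := (Cfsg.Agent.Lib.BlockDeg.charDegree_cast_irr θ).symm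
  obtain ⟨χ, hχ, hext, hrs, hdet⟩ := hloc.exists_adj hχ0 hext0 hk hpp hd hdeg
    (Cfsg.Agent.Lib.H32PRat.not_dvd_detOrder hpp hp θ.2.isCharacter hm1 hrat)
  refine ⟨⟨χ, hχ⟩, Cfsg.Agent.Lib.H32PRat.mem_of_adj (χ := ⟨χ, hχ⟩) hM hk hloc.ne hrs, ⟨m * m1, ?_, ?_⟩, hext⟩
  · intro h
    rcases hpp.dvd_mul.1 h with h | h
    · exact hk.hm h
    · exact hm1 h
  · intro g
    apply Cfsg.Agent.Lib.H32PRat.mem_adjoin_of_fixed
    · have hχ' := hχ
      obtain ⟨n, ρ, -, hρ⟩ := hχ'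
      show IsIntegral ℚ (χ g)
      rw [← congrFun hρ g]
      exact (Cfsg.Agent.Lib.CharValues.isIntegral_character ρ g).tower_top
    · intro σ hσ
      have hz := Complex.isPrimitiveRoot_exp (m * m1) (mul_ne_zero hm0 hm10)
      have hall : ∀ z : ℂ, z ^ (m * m1) = 1 → σ z = z := by
        intro z hz1
        have : NeZero (m * m1) := ⟨mul_ne_zero hm0 hm10⟩
        obtain ⟨i, -, hi⟩ := hz.eq_pow_of_pow_eq_one hz1
        rw [← hi, map_pow]
        congr 1
      refine Cfsg.Agent.Lib.H32PRat.fixed_of_adj θ.2 hχ hext hk hpp hd hdeg hloc.ne hrs hdet σ ?_ ?_ g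
      · intro n
        refine Cfsg.Agent.Lib.SchurBound.fixes_adjoin σ ?_ (hrat n)
        apply hall
        rw [mul_comm m m1, pow_mul, Cfsg.Agent.Lib.H32PRat.exp_pow hm10, one_pow]
      · intro z hz1
        apply hall
        rw [pow_mul, hz1, one_pow]


end Cfsg.Agent.S4892
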