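import Cfsg.Statements.S4911
import Cfsg.Agent.Lib.ClassAction

set_option autoImplicit false
open Cfsg

namespace Cfsg.Agent.S4911

open Cfsg.Agent.Lib.CharBasic Cfsg.Agent.Lib.PermLemma Cfsg.Agent.Lib.OrbitCount
open Cfsg.Agent.Lib.ClassAction MulAction

theorem result {G : Type*} [Group G] [Finite G] (p : ℕ) [Fact p.Prime] (P K : Subgroup G) (hP : IsPGroup p ↥P) (hK : ¬ p ∣ Nat.card ↥K) (hPK : P ≤ Subgroup.normalizer (K : Set G)) : Nat.card {θ : Cfsg.IrrCharacter ↥K // (∀ k : ↥K, ((θ : ↥K → ℂ) k).im = 0) ∧ (∀ x ∈ P, ∀ k k' : ↥K, (k' : G) = x * (k : G) * x⁻¹ → (θ : ↥K → ℂ) k' = (θ : ↥K → ℂ) k)} = Nat.card {c : ConjClasses ↥K // (∀ k : ↥K, ConjClasses.mk k = c → IsConj k k⁻¹) ∧ ∀ k : ↥K, ConjClasses.mk k = c → ∀ x ∈ P, ∀ k' : ↥K, (k' : G) = x * (k : G) * x⁻¹ → ConjClasses.mk k' = c} ∧ ((∀ θ : Cfsg.IrrCharacter ↥K, (∀ k : ↥K, ((θ : ↥K → ℂ) k).im = 0) → (∀ x ∈ P, ∀ k k' : ↥K, (k' : G) = x * (k : G) * x⁻¹ → (θ : ↥K → ℂ) k' = (θ : ↥K → ℂ) k)) → ∀ k : ↥K, IsConj k k⁻¹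 → ∃ k' : ↥K, IsConj k k' ∧ ∀ x ∈ P, x * (k' : G) * x⁻¹ = (k' : G)) := by
  classical
  let φ : P →* MulAut K := K.normalizerMonoidHom.comp (Subgroup.inclusion hPK)
  let _ := irrAct φ
  let _ := clsAct φ
  have hφ : ∀ (g : P) (k : K), ((φ g k : K) : G) = g * k * (g : G)⁻¹ := fun g k => rfl
  have hreal : ∀ θ : IrrCharacter K, irrConj K θ = θ ↔ ∀ k : ↥K, ((θ : ↥K → ℂ) k).im = 0 := by
    intro θ
    rw [Subtype.ext_iff]
    constructor
    · intro h k
      have h2 := congrFun h k
      rw [irrConj_apply] at h2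
      exact Complex.conj_eq_iff_im.mp h2
    · intro h
      funext k
      rw [irrConj_apply]
      exact Complex.conj_eq_iff_im.mpr (h k)
  have hinv : ∀ θ : IrrCharacter K, (∀ h : P, h • θ = θ) ↔ (∀ x ∈ P, ∀ k k' : ↥K, (k' : G) = x * (k : G) * x⁻¹ → (θ : ↥K → ℂ) k' = (θ : ↥K → ℂ) k) := by
    intro θ
    constructor
    · intro h x hx k k' hk
      have h1 : k' = φ ⟨x, hx⟩ k := Subtype.ext (by rw [hφ]; exact hk)
      have h2 : (((⟨x, hx⟩ : P) • θ : IrrCharacter K) : K → ℂ) (φ ⟨x, hx⟩ k) = (θ : K → ℂ) k :=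
        irrAct_apply' φ ⟨x, hx⟩ θ k
      rw [h ⟨x, hx⟩] at h2
      rw [h1]; exact h2
    · intro h g
      apply Subtype.ext
      funext k
      rw [irrAct_apply]
      exact h (g⁻¹ : P) (g⁻¹).2 k _ (hφ g⁻¹ k)
  have hcreal : ∀ C : ConjClasses K, classInv K C = C ↔
      ∀ k : ↥K, ConjClasses.mk k = C → IsConj k k⁻¹ := by
    intro C
    constructor
    · rintro h k rfl
      rw [classInv_mk, ConjClasses.mk_eq_mk_iff_isConj] at h
      exact h.symm
    · intro h
      obtain ⟨k, rfl⟩ := ConjClasses.mk_surjective C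
      rw [classInv_mk, ConjClasses.mk_eq_mk_iff_isConj]
      exact (h k rfl).symm
  have hcinv : ∀ C : ConjClasses K, (∀ h : P, h • C = C) ↔
      ∀ k : ↥K, ConjClasses.mk k = C → ∀ x ∈ P, ∀ k' : ↥K, (k' : G) = x * (k : G) * x⁻¹ →
        ConjClasses.mk k' = C := by
    intro C
    constructor
    · rintro h k rfl x hx k' hk
      have h1 : k' = φ ⟨x, hx⟩ k := Subtype.ext (by rw [hφ]; exact hk)
      rw [h1, ← clsAct_mk]
      exact h ⟨x, hx⟩
    · intro h g
      obtain ⟨k, rfl⟩ := ConjClasses.mk_surjective C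
      rw [clsAct_mk]
      exact h k rfl g g.2 _ (hφ g k)
  have key := card_fixed_real_irr_eq p hP hK φ
  constructor
  · rw [← Nat.card_congr (Equiv.subtypeEquivRight fun θ => and_congr (hreal θ) (hinv θ)),
      ← Nat.card_congr (Equiv.subtypeEquivRight fun C => and_congr (hcreal C) (hcinv C))]
    exact key
  · intro hall k hk
    have h1 : Nat.card {χ : IrrCharacter K // irrConj K χ = χ ∧ ∀ h : P, h • χ = χ} =
        Nat.card {χ : IrrCharacter K // irrConj K χ = χ} := by
      apply Nat.card_congr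
      apply Equiv.subtypeEquivRight
      intro χ
      constructor
      · exact fun h => h.1
      · intro h
        exact ⟨h, (hinv χ).mpr (hall χ ((hreal χ).mp h))⟩
    have h2 : Nat.card {χ : IrrCharacter K // irrConj K χ = χ} =
        Nat.card {C : ConjClasses K // classInv K C = C} := by
      have := card_real_irr_eq_card_real_classes (G := K)
      rw [← Nat.card_congr (Equiv.subtypeEquivRight fun θ => (hreal θ)),
        ← Nat.card_congr (Equiv.subtypeEquivRight fun C => (hcreal C))] at this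
      exact this
    have h3 : ∀ C : ConjClasses K, classInv K C = C → ∀ h : P, h • C = C := by
      by_contra hcon
      push Not at hcon
      obtain ⟨C, hC1, hC2⟩ := hcon
      have h4 : Nat.card {C : ConjClasses K // classInv K C = C ∧ ∀ h : P, h • C = C} <
          Nat.card {C : ConjClasses K // classInv K C = C} := by
        rw [Nat.card_eq_fintype_card, Nat.card_eq_fintype_card, Fintype.card_subtype,
          Fintype.card_subtype]
        apply Finset.card_lt_card
        rw [Finset.ssubset_iff_of_subset]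
        · refine ⟨C, by simpa using hC1, ?_⟩
          simp only [Finset.mem_filter, Finset.mem_univ, true_and, not_and, not_forall]
          intro _
          exact hC2
        · intro D hD
          simp only [Finset.mem_filter, Finset.mem_univ, true_and] at hD ⊢
          exact hD.1
      omega
    have h5 := h3 (ConjClasses.mk k) ((hcreal _).mpr (by
      intro k' hk'
      rw [ConjClasses.mk_eq_mk_iff_isConj] at hk'
      obtain ⟨c, hc⟩ := isConj_iff.mp hk'
      have h6 : IsConj k'⁻¹ k⁻¹ := isConj_iff.mpr ⟨c, by rw [← hc]; group⟩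
      exact (hk'.trans hk).trans h6.symm))
    obtain ⟨y, hy1, hy2⟩ := exists_fixed_of_class p hP hK φ k (by
      intro g
      have h6 := h5 g
      rw [clsAct_mk, ConjClasses.mk_eq_mk_iff_isConj] at h6
      exact h6.symm)
    refine ⟨y, hy1, fun x hx => ?_⟩
    have h7 := congrArg Subtype.val (hy2 ⟨x, hx⟩)
    rw [hφ] at h7
    exact h7

end Cfsg.Agent.S4911
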