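import Cfsg.Statements.S4912
import Cfsg.Agent.Lib.FSInd82

set_option autoImplicit false
open Cfsg

namespace Cfsg.Agent.S4912

open scoped ComplexConjugate
open Cfsg.Agent.Lib Cfsg.Agent.Lib.CharBasic Cfsg.Agent.Lib.Clifford Cfsg.Agent.Lib.CliffordCorr Cfsg.Agent.Lib.FrobSchur

/-- a group generated by commutators is killed by linear characters -/
theorem hom_one {G : Type*} [Group G] {N : Subgroup G} (hp : ⁅N, N⁆ = N) (f : G →* ℂˣ) (n : N) : f n = 1 := by
  have h : N ≤ f.ker := by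
    rw [← hp, Subgroup.commutator_le]
    intro a _ b _
    rw [MonoidHom.mem_ker, map_commutatorElement, commutatorElement_eq_one_iff_mul_comm, mul_comm]
  exact h n.2

/-- linear characters agreeing on a subgroup -/
theorem fiber_le {G : Type*} [Group G] [Finite G] (I : Subgroup G) (s : Finset (Cfsg.IrrCharacter G)) (χ₀ : I → ℂ)
    (hs : ∀ χ ∈ s, ∀ (g : G) (i : I), (χ : G → ℂ) (g * i) = (χ : G → ℂ) g * χ₀ i) : s.card ≤ I.index := by
  classical
  have := Fintype.ofFinite G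
  have := Fintype.ofFinite (G ⧸ I)
  have hli : LinearIndependent ℂ (fun χ : s => fun q : G ⧸ I => ((χ : Cfsg.IrrCharacter G) : G → ℂ) q.out) := by
    have h1 : LinearIndependent ℂ (fun χ : s => ((χ : Cfsg.IrrCharacter G) : G → ℂ)) :=
      (irr_linearIndependent (G := G)).comp (fun χ : s => (χ : Cfsg.IrrCharacter G)) Subtype.val_injective
    rw [Fintype.linearIndependent_iff] at h1 ⊢
    intro c hc
    apply h1
    funext g
    obtain ⟨i, hi⟩ : ∃ i : I, g = (QuotientGroup.mk g : G ⧸ I).out * i := by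
      have h2 : (QuotientGroup.mk (QuotientGroup.mk g : G ⧸ I).out : G ⧸ I) = QuotientGroup.mk g := Quotient.out_eq _
      rw [QuotientGroup.eq] at h2
      exact ⟨⟨_, h2⟩, by simp⟩
    have h3 := congrFun hc (QuotientGroup.mk g : G ⧸ I)
    simp only [Finset.sum_apply, Pi.smul_apply, smul_eq_mul, Pi.zero_apply] at h3 ⊢
    rw [hi]
    calc ∑ χ : s, c χ * ((χ : Cfsg.IrrCharacter G) : G → ℂ) ((QuotientGroup.mk g : G ⧸ I).out * i)
        = (∑ χ : s, c χ * ((χ : Cfsg.IrrCharacter G) : G → ℂ) (QuotientGroup.mk g : G ⧸ I).out) * χ₀ i := by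
          rw [Finset.sum_mul]
          exact Finset.sum_congr rfl fun χ _ => by rw [hs χ χ.2, mul_assoc]
      _ = 0 := by rw [h3, zero_mul]
  have h2 := hli.fintype_card_le_finrank
  rw [Fintype.card_coe, Module.finrank_fintype_fun_eq_card] at h2
  rwa [Subgroup.index_eq_card, Nat.card_eq_fintype_card]

/-- Let G be a finite group with a non-abelian minimal normal subgroup N, and let φ be an irreducible complex character of N with stabilizer I in G such that φ extends to an irreducible character of I with Frobenius–Schur indicator +1. Put d = φ(1)·[G : I]. Then the number of linear characters of G with Frobenius–Schur indicator +1 is at most [G : I] times the number of irreducible characters of G of degree d with Frobenius–Schur indicator +1. -/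
theorem result {G : Type*} [Group G] [Finite G] (N : Subgroup G) (hN : N.Normal) (hN1 : N ≠ ⊥) (hmin : ∀ M : Subgroup G, M.Normal → M ≤ N → M = ⊥ ∨ M = N) (hna : ¬ IsMulCommutative ↥N) (φ : Cfsg.IrrCharacter ↥N) (I : Subgroup G) (hI : ∀ g : G, g ∈ I ↔ ∀ n n' : ↥N, (n' : G) = g * (n : G) * g⁻¹ → (φ : ↥N → ℂ) n' = (φ : ↥N → ℂ) n) (hNI : N ≤ I) (hext : ∃ ψ : Cfsg.IrrCharacter ↥I, (Nat.card ↥I : ℂ)⁻¹ * ∑ᶠ g : ↥I, (ψ : ↥I → ℂ) (g * g) = 1 ∧ ∀ n : ↥N, (ψ : ↥I → ℂ) (Subgroup.inclusion hNI n) = (φ : ↥N → ℂ) n) : Nat.card {χ : Cfsg.IrrCharacter G // Cfsg.charDegree (χ : G → ℂ) = 1 ∧ (Nat.card G : ℂ)⁻¹ * ∑ᶠ g : G, (χ : G → ℂ) (g * g) = 1} ≤ I.index * Nat.card {χ : Cfsg.IrrCharacter G // Cfsg.charDegree (χ : G → ℂ) = Cfsg.charDegree (φ : ↥N → ℂ) * I.index ∧ (Nat.card G : ℂ)⁻¹ * ∑ᶠ g : G, (χ : G → ℂ) (g * g) = 1} := by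
  classical
  haveI := hN
  have := Fintype.ofFinite G
  have := Fintype.ofFinite N
  have := Fintype.ofFinite I
  -- `N` is perfect
  have hp : ⁅N, N⁆ = N := by
    rcases hmin ⁅N, N⁆ inferInstance (Subgroup.commutator_le_left N N) with h | h
    · exfalso
      apply hna
      rw [Subgroup.commutator_eq_bot_iff_le_centralizer] at h
      refine ⟨⟨fun a b => Subtype.ext ?_⟩⟩
      exact (Subgroup.mem_centralizer_iff.1 (h b.2) a a.2)
    · exact h
  have hT : ∀ g : G, g ∈ I ↔ cj N g (φ : N → ℂ) = (φ : N → ℂ) := by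
    intro g
    rw [hI]
    constructor
    · intro h
      funext n
      exact h n ⟨g * n * g⁻¹, hN.conj_mem n n.2 g⟩ rfl
    · intro h n n' hn
      have h1 := congrFun h n
      rw [cj_apply] at h1
      rw [← h1]
      have h2 : n' = ⟨g * n * g⁻¹, hN.conj_mem n n.2 g⟩ := Subtype.ext hn
      rw [h2]
  obtain ⟨ψ, hψ1, hψ2⟩ := hext
  have hres : resTo N I hNI (ψ : I → ℂ) = (φ : N → ℂ) := by
    funext n
    exact hψ2 n
  rw [finsum_eq_sum_of_fintype] at hψ1
  have hfs : fsInd (ψ : I → ℂ) = 1 := hψ1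
  have hψr : ∀ i : I, ((ψ : I → ℂ) i).im = 0 := by
    by_contra h
    push Not at h
    have := (fsInd_trichotomy ψ.2).2.2 h
    rw [hfs] at this
    exact one_ne_zero this
  have hφr : ∀ n : N, ((φ : N → ℂ) n).im = 0 := by
    intro n
    rw [← hψ2]
    exact hψr _
  -- the linear characters
  have hlin : ∀ χ : Cfsg.IrrCharacter G, Cfsg.charDegree (χ : G → ℂ) = 1 →
      ∃ f : G →* ℂˣ, ∀ g, (χ : G → ℂ) g = (f g : ℂ) := by
    intro χ hχ
    apply χ.2.isCharacter.exists_hom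
    rw [← BlockDeg.charDegree_cast_irr, hχ, Nat.cast_one]
  have hsq : ∀ χ : Cfsg.IrrCharacter G, Cfsg.charDegree (χ : G → ℂ) = 1 →
      (Nat.card G : ℂ)⁻¹ * ∑ᶠ g : G, (χ : G → ℂ) (g * g) = 1 → ∀ g : G, (χ : G → ℂ) (g * g) = 1 := by
    intro χ hχ hχ1 g
    obtain ⟨f, hf⟩ := hlin χ hχ
    rw [finsum_eq_sum_of_fintype] at hχ1
    have h1 : fsInd (χ : G → ℂ) = 1 := hχ1
    have h2 : ((χ : G → ℂ) g).im = 0 := by
      by_contra h
      have := (fsInd_trichotomy χ.2).2.2 ⟨g, h⟩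
      rw [h1] at this
      exact one_ne_zero this
    have h3 : conj ((χ : G → ℂ) g) = (χ : G → ℂ) g := Complex.conj_eq_iff_im.mpr h2
    have h4 := χ.2.inv g
    rw [h3] at h4
    rw [hf, hf, map_inv] at h4
    rw [hf, map_mul, Units.val_mul]
    have h5 : f g = (f g)⁻¹ := (Units.ext h4).symm
    nth_rewrite 1 [h5]
    simp
  -- the twisted characters of `I`
  let tw : Cfsg.IrrCharacter G → (I → ℂ) := fun χ => (ψ : I → ℂ) * fun i : I => (χ : G → ℂ) i
  have htwirr : ∀ χ : Cfsg.IrrCharacter G, Cfsg.charDegree (χ : G → ℂ) = 1 → IsIrrCharacter I (tw χ) := by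
    intro χ hχ
    refine ψ.2.mul_linear (χ.2.isCharacter.restrict I) ?_
    show (χ : G → ℂ) ((1 : I) : G) = 1
    rw [OneMemClass.coe_one, ← BlockDeg.charDegree_cast_irr, hχ, Nat.cast_one]
  have hone : ∀ χ : Cfsg.IrrCharacter G, Cfsg.charDegree (χ : G → ℂ) = 1 → ∀ n : N, (χ : G → ℂ) n = 1 := by
    intro χ hχ n
    obtain ⟨f, hf⟩ := hlin χ hχ
    rw [hf, hom_one hp f n, Units.val_one]
  have htwres : ∀ χ : Cfsg.IrrCharacter G, Cfsg.charDegree (χ : G → ℂ) = 1 → resTo N I hNI (tw χ) = (φ : N → ℂ) := by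
    intro χ hχ
    funext n
    show (ψ : I → ℂ) ⟨(n : G), hNI n.2⟩ * (χ : G → ℂ) n = _
    rw [hone χ hχ, mul_one]
    exact hψ2 n
  have hover : ∀ χ : Cfsg.IrrCharacter G, Cfsg.charDegree (χ : G → ℂ) = 1 →
      classInner (resTo N I hNI (tw χ)) (φ : N → ℂ) ≠ 0 := by
    intro χ hχ
    rw [htwres χ hχ, φ.2.classInner_self]
    exact one_ne_zero
  have hirr : ∀ χ : Cfsg.IrrCharacter G, Cfsg.charDegree (χ : G → ℂ) = 1 → IsIrrCharacter G (indFun I (tw χ)) :=
    fun χ hχ => (corr_irr hNI φ.2 hT (htwirr χ hχ) (hover χ hχ)).1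
  have hφ1 : (φ : N → ℂ) 1 = (ψ : I → ℂ) 1 := by
    rw [← hψ2]
    rfl
  let S := {χ : Cfsg.IrrCharacter G // Cfsg.charDegree (χ : G → ℂ) = 1 ∧ (Nat.card G : ℂ)⁻¹ * ∑ᶠ g : G, (χ : G → ℂ) (g * g) = 1}
  let D := {χ : Cfsg.IrrCharacter G // Cfsg.charDegree (χ : G → ℂ) = Cfsg.charDegree (φ : ↥N → ℂ) * I.index ∧ (Nat.card G : ℂ)⁻¹ * ∑ᶠ g : G, (χ : G → ℂ) (g * g) = 1}
  have := Fintype.ofFinite S
  have := Fintype.ofFinite D
  let F : S → D := fun χ => ⟨⟨indFun I (tw χ.1), hirr χ.1 χ.2.1⟩, by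
    constructor
    · have h1 := BlockDeg.charDegree_cast_irr ⟨indFun I (tw χ.1), hirr χ.1 χ.2.1⟩
      have h2 : (Cfsg.charDegree (indFun I (tw χ.1)) : ℂ) = ((Cfsg.charDegree (φ : ↥N → ℂ) * I.index : ℕ) : ℂ) := by
        rw [h1]
        show indFun I (tw χ.1) 1 = _
        rw [IndFun.indFun_one]
        have h3 : tw χ.1 1 = (φ : N → ℂ) 1 := by
          have := congrFun (htwres χ.1 χ.2.1) 1
          exact this
        rw [h3, Nat.cast_mul, BlockDeg.charDegree_cast_irr, mul_comm]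
      exact_mod_cast h2
    · rw [finsum_eq_sum_of_fintype]
      have h1 : fsInd (indFun I (tw χ.1)) = 1 := by
        rw [FSInd82.fsInd_ind hNI (htwirr χ.1 χ.2.1) (by rw [htwres χ.1 χ.2.1]; exact φ.2)
          (by rw [htwres χ.1 χ.2.1]; exact fun g => (hT g).2) (by rw [htwres χ.1 χ.2.1]; exact hφr)]
        refine Eq.trans ?_ hfs
        rw [fsInd, fsInd]
        congr 1
        apply Finset.sum_congr rfl
        intro i _
        show (ψ : I → ℂ) (i * i) * (χ.1 : G → ℂ) ((i * i : I) : G) = _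
        rw [Subgroup.coe_mul, hsq χ.1 χ.2.1 χ.2.2, mul_one]
      exact h1⟩
  show Nat.card S ≤ I.index * Nat.card D
  rw [Nat.card_eq_fintype_card (α := S), Nat.card_eq_fintype_card (α := D)]
  have key := Finset.card_le_mul_card_image_of_maps_to (f := F) (s := Finset.univ) (t := Finset.univ)
    (fun a _ => Finset.mem_univ _) I.index (by
      intro y _
      rcases Finset.eq_empty_or_nonempty (Finset.univ.filter (fun a : S => F a = y)) with h | ⟨χ₀, h⟩
      · rw [h]
        simp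
      · rw [Finset.mem_filter] at h
        rw [← Finset.card_map (Function.Embedding.subtype _)]
        apply fiber_le I _ (fun i : I => (χ₀.1 : G → ℂ) i)
        intro χ hχ g i
        rw [Finset.mem_map] at hχ
        obtain ⟨χ', hχ', rfl⟩ := hχ
        rw [Finset.mem_filter] at hχ'
        have e1 : F χ' = F χ₀ := hχ'.2.trans h.2.symm
        have e2 : indFun I (tw χ'.1) = indFun I (tw χ₀.1) := by
          have := congrArg (fun z : D => ((z.1 : Cfsg.IrrCharacter G) : G → ℂ)) e1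
          exact this
        have e3 : tw χ'.1 = tw χ₀.1 := corr_inj hNI φ.2 hT (htwirr χ'.1 χ'.2.1) (htwirr χ₀.1 χ₀.2.1)
          (hover χ'.1 χ'.2.1) (hover χ₀.1 χ₀.2.1) e2
        have e4 : (fun i : I => (χ'.1 : G → ℂ) i) = fun i : I => (χ₀.1 : G → ℂ) i := by
          have hir : ∀ a : S, IsIrrCharacter I (fun i : I => (a.1 : G → ℂ) i) := by
            intro a
            have := (isIrrCharacter_one (G := I)).mul_linear (a.1.2.isCharacter.restrict I) (by
              show (a.1 : G → ℂ) ((1 : I) : G) = 1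
              rw [OneMemClass.coe_one, ← BlockDeg.charDegree_cast_irr, a.2.1, Nat.cast_one])
            rwa [one_mul] at this
          have hcon : ∀ a : S, ∀ n : N.subgroupOf I, (fun i : I => (a.1 : G → ℂ) i) (n : I) = (fun i : I => (a.1 : G → ℂ) i) 1 := by
            intro a n
            show (a.1 : G → ℂ) ((n : I) : G) = (a.1 : G → ℂ) ((1 : I) : G)
            have h5 := hone a.1 a.2.1 ⟨((n : I) : G), n.2⟩
            rw [OneMemClass.coe_one, ← BlockDeg.charDegree_cast_irr, a.2.1, Nat.cast_one]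
            exact h5
          have hθ' : IsIrrCharacter (N.subgroupOf I) (fun x : N.subgroupOf I => (φ : N → ℂ) (subEquiv N I hNI x)) :=
            (isIrrCharacter_comp_mulEquiv_iff (subEquiv N I hNI)).2 φ.2
          have hb := CanonExt.bijOn (N := N.subgroupOf I) hθ' ψ.2 (by
            intro n
            exact hψ2 (subEquiv N I hNI n))
          apply hb.injOn ⟨hir χ', hcon χ'⟩ ⟨hir χ₀, hcon χ₀⟩
          show (fun i : I => (χ'.1 : G → ℂ) i) * (ψ : I → ℂ) = (fun i : I => (χ₀.1 : G → ℂ) i) * (ψ : I → ℂ)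
          rw [mul_comm, mul_comm _ (ψ : I → ℂ)]
          exact e3
        obtain ⟨f, hf⟩ := hlin χ'.1 χ'.2.1
        have e5 := congrFun e4 i
        show (χ'.1 : G → ℂ) (g * i) = (χ'.1 : G → ℂ) g * (χ₀.1 : G → ℂ) i
        have e6 : (χ'.1 : G → ℂ) i = (χ₀.1 : G → ℂ) i := e5
        rw [← e6, hf, hf, hf, map_mul, Units.val_mul])
  rw [Finset.card_univ, Finset.card_univ] at key
  exact key

end Cfsg.Agent.S4912
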