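import Cfsg.Statements.S4916
import Cfsg.Agent.Lib.BlockKlein

set_option autoImplicit false
open Cfsg

namespace Cfsg.Agent.S4916

/-- Let G be a finite group, p a prime and M a maximal ideal of the algebraic integers containing p. Then the principal character is the only irreducible character of degree prime to p in the principal p-block of G if and only if p does not divide the order of G. -/
theorem result {G : Type*} [Group G] [Finite G] (p : ℕ) [Fact p.Prime] (M : Ideal Cfsg.AlgInt) (hM : Cfsg.IsPModular p M) : (∀ χ : Cfsg.IrrCharacter G, χ ∈ Cfsg.principalBlock M G → ¬ p ∣ Cfsg.charDegree (χ : G → ℂ) → (χ : G → ℂ) = fun _ => (1 : ℂ)) ↔ ¬ p ∣ Nat.card G := by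
  open Lib.BlockRing Lib.BlockGA Lib.BlockIdem Lib.BlockThird in
  classical
  have hMp := isPrime hM
  constructor
  · intro h hdvd
    have h1 := loc_blockCoeff (M := M) (isPBlock_principal (G := G)) (1 : G)
    rw [blockCoeff, finsum_mem_eq_finite_toFinset_sum _ (Set.toFinite _)] at h1
    set S := (Set.toFinite (principalBlock M G)).toFinset with hS
    have hmemS : ∀ χ, χ ∈ S ↔ χ ∈ principalBlock M G := fun χ => by rw [hS, Set.Finite.mem_toFinset]
    have htS : triv G ∈ S := (hmemS _).2 triv_mem
    have h2 : ∑ χ ∈ S, (χ : G → ℂ) 1 * (starRingEnd ℂ) ((χ : G → ℂ) 1) =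
        ((∑ χ ∈ S, charDegree (χ : G → ℂ) ^ 2 : ℕ) : ℂ) := by
      push_cast
      refine Finset.sum_congr rfl fun χ _ => ?_
      rw [← Lib.BlockDeg.charDegree_cast_irr χ, map_natCast, pow_two]
    rw [h2] at h1
    set m := ∑ χ ∈ S, charDegree (χ : G → ℂ) ^ 2 with hm
    have h3 : ¬ p ∣ m := by
      rw [hm, ← Finset.add_sum_erase S _ htS]
      intro h4
      have h5 : p ∣ ∑ χ ∈ S.erase (triv G), charDegree (χ : G → ℂ) ^ 2 := by
        refine Finset.dvd_sum fun χ hχ => ?_
        by_contra h6
        have h7 : ¬ p ∣ charDegree (χ : G → ℂ) := fun h8 => h6 (dvd_pow h8 two_ne_zero)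
        have h8 := h χ ((hmemS χ).1 (Finset.mem_of_mem_erase hχ)) h7
        exact (Finset.mem_erase.1 hχ).1 (Subtype.ext h8)
      have h6 : charDegree (triv G : G → ℂ) = 1 := by
        have : ((charDegree (triv G : G → ℂ) : ℕ) : ℂ) = 1 := Lib.BlockDeg.charDegree_cast_irr (triv G)
        exact_mod_cast this
      rw [h6, one_pow] at h4
      have h7 : p ∣ 1 := (Nat.dvd_add_left h5).1 h4
      exact hM.1.one_lt.ne' (Nat.dvd_one.1 h7)
    have h4 : m ≠ 0 := by rintro h5; rw [h5] at h3; exact h3 (dvd_zero p)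
    have h5 := (loc_div_natCast_iff hM h4 (Nat.card_pos (α := G)).ne').1 (by
      rw [div_eq_mul_inv, mul_comm]; exact h1)
    rw [Nat.factorization_eq_zero_of_not_dvd h3, Nat.le_zero] at h5
    have h6 := (Nat.Prime.factorization_pos_of_dvd hM.1 (Nat.card_pos (α := G)).ne' hdvd)
    omega
  · intro h χ hχ _
    have h1 : (charDegree (χ : G → ℂ)).factorization p = (Nat.card G).factorization p := by
      apply le_antisymm (Lib.BlockDefZero.factorization_charDegree_le p χ.2)
      rw [Nat.factorization_eq_zero_of_not_dvd h]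
      exact Nat.zero_le _
    have h5 := Lib.BlockDefZero.blockOf_eq_singleton hM χ h1
    have h6 : principalBlock M G = blockOf M (χ : G → ℂ) := eq_blockOf isPBlock_principal hχ
    have h7 : triv G ∈ ({χ} : Set (IrrCharacter G)) := by rw [← h5, ← h6]; exact triv_mem
    have h8 : triv G = χ := h7
    rw [← h8]; rfl

end Cfsg.Agent.S4916
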