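import Cfsg.Statements.S4923
import Cfsg.Agent.Lib.FieldGal82

set_option autoImplicit false
open Cfsg

namespace Cfsg.Agent.S4923

open Subgroup
open scoped commutatorElement
open Cfsg.Agent.Lib Cfsg.Agent.Lib.CharBasic Cfsg.Agent.Lib.FieldGal82

/-- a nonabelian `2`-group whose derived group is large -/
theorem index_four {X : Type*} [Group X] [Finite X] {n : ℕ} (hn : 3 ≤ n) (hc : Nat.card X = 2 ^ n)
    (hna : ¬ ∀ a b : X, a * b = b * a) (hd : 2 ^ (n - 2) ≤ Nat.card (commutator X)) : (commutator X).index = 4 := by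
  have hf2 : Fact (Nat.Prime 2) := ⟨Nat.prime_two⟩
  have hX : IsPGroup 2 X := IsPGroup.of_card hc
  have h1 := (commutator X).index_mul_card
  rw [hc] at h1
  obtain ⟨i, hi, hi2⟩ := (Nat.dvd_prime_pow Nat.prime_two).1 (Dvd.intro _ h1)
  have h2 : i ≤ 2 := by
    by_contra h
    push Not at h
    have h3 : 2 ^ n < 2 ^ i * 2 ^ (n - 2) := by
      rw [← pow_add]
      exact Nat.pow_lt_pow_right (by norm_num) (by omega)
    have h4 : 2 ^ i * 2 ^ (n - 2) ≤ 2 ^ n := by
      rw [← h1, hi2]
      exact Nat.mul_le_mul_left _ hd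
    omega
  have h3 : ¬ IsCyclic (X ⧸ commutator X) := fun h => hna (MaximalClass.comm_of_isCyclic_abelianization hX h)
  interval_cases i
  · exfalso
    apply h3
    have h4 : Nat.card (X ⧸ commutator X) = 1 := by rw [← Subgroup.index_eq_card, hi2, pow_zero]
    have : Subsingleton (X ⧸ commutator X) := (Nat.card_eq_one_iff_unique.1 h4).1
    infer_instance
  · exfalso
    apply h3
    have h4 : Nat.card (X ⧸ commutator X) = 2 := by rw [← Subgroup.index_eq_card, hi2, pow_one]
    exact isCyclic_of_prime_card h4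
  · rw [hi2]; norm_num

/-- the forward direction -/
theorem forward {G : Type*} [Group G] [Finite G] (P : Sylow 2 G) (n : ℕ) (hn : 3 ≤ n) (hP : Nat.card P = 2 ^ n) (ζ : ℂ)
    (hζ : IsPrimitiveRoot ζ (2 ^ (n - 1))) (hi : (commutator P).index = 4) :
      ∃ g : G, g ∈ (P : Subgroup G) ∧ 2 ∣ (Subgroup.centralizer ({g} : Set G)).index ∧
        (IntermediateField.adjoin ℚ (vals G g) = IntermediateField.adjoin ℚ ({ζ + ζ⁻¹} : Set ℂ) ∨
          IntermediateField.adjoin ℚ (vals G g) = IntermediateField.adjoin ℚ ({ζ - ζ⁻¹} : Set ℂ)) := by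
  have hf2 : Fact (Nat.Prime 2) := ⟨Nat.prime_two⟩
  obtain ⟨c, x, hco, hCi, hx, hx2, hu, hZ, hZle, hcen⟩ := MaximalClass.structure_thm hn hP hi
  obtain ⟨k, rfl⟩ : ∃ k, n = k + 3 := ⟨n - 3, by omega⟩
  have hk : k + 3 - 1 = k + 2 := rfl
  rw [hk] at hco hζ
  -- `x c x⁻¹ = c ^ e`
  obtain ⟨e, he, hE, hxc, hw⟩ : ∃ e : ℕ, Odd e ∧ 2 ^ (k + 2) ∣ 2 * (1 + e) ∧ x * c * x⁻¹ = c ^ e ∧
      (ζ ^ e = ζ⁻¹ ∨ ζ ^ e = - ζ⁻¹) := by
    obtain ⟨u, hu', huZ⟩ : ∃ u, u = c * (x * c * x⁻¹) ∧ u ∈ center P := ⟨_, rfl, hu⟩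
    have hu2 : u ^ 2 = 1 := by
      have h1 : (⟨u, huZ⟩ : center P) ^ Nat.card (center P) = 1 := pow_card_eq_one'
      rw [hZ] at h1
      exact congrArg Subtype.val h1
    obtain ⟨i, hi⟩ : ∃ i : ℕ, c ^ i = u := by
      have := hZle huZ
      rw [← mem_powers_iff_mem_zpowers] at this
      exact this
    have h2 : 2 ^ (k + 2) ∣ i * 2 := by
      rw [← hco, orderOf_dvd_iff_pow_eq_one, pow_mul, hi, hu2]
    have h3 : 2 ^ (k + 1) ∣ i := by
      rw [pow_succ] at h2
      exact Nat.dvd_of_mul_dvd_mul_right (by norm_num) h2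
    obtain ⟨j, rfl⟩ := h3
    have hxcu : x * c * x⁻¹ = c⁻¹ * u := by rw [hu']; group
    have hcN : c ^ 2 ^ (k + 2) = 1 := by rw [← hco]; exact pow_orderOf_eq_one c
    have hζN : ζ ^ 2 ^ (k + 2) = 1 := hζ.pow_eq_one
    have hζ0 : ζ ≠ 0 := hζ.ne_zero (by positivity)
    have hpk : 2 ^ (k + 2) = 2 * 2 ^ (k + 1) := by ring
    rcases Nat.even_or_odd j with ⟨a, rfl⟩ | ⟨a, rfl⟩
    · refine ⟨2 ^ (k + 2) - 1, ?_, ?_, ?_, Or.inl ?_⟩
      · rw [Nat.odd_sub Nat.one_le_two_pow, ← not_iff_not, Nat.not_odd_iff_even]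
        simp [Nat.even_pow]
      · rw [Nat.add_sub_cancel' Nat.one_le_two_pow]
        exact dvd_mul_left _ _
      · have h5 : u = 1 := by
          rw [← hi]
          have : 2 ^ (k + 1) * (a + a) = 2 ^ (k + 2) * a := by ring
          rw [this, pow_mul, hcN, one_pow]
        rw [hxcu, h5, mul_one, eq_comm, eq_inv_iff_mul_eq_one, ← pow_succ, Nat.sub_add_cancel Nat.one_le_two_pow, hcN]
      · apply eq_inv_of_mul_eq_one_left
        rw [← pow_succ, Nat.sub_add_cancel Nat.one_le_two_pow, hζN]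
    · have h7 : ζ ^ 2 ^ (k + 1) = -1 := by
        have h8 : ζ ^ 2 ^ (k + 1) * ζ ^ 2 ^ (k + 1) = 1 := by rw [← pow_two, ← pow_mul, mul_comm, ← hpk, hζN]
        rcases mul_self_eq_one_iff.1 h8 with h | h
        · exfalso
          have h9 := (hζ.pow_eq_one_iff_dvd _).1 h
          have h10 := Nat.le_of_dvd (by positivity) h9
          have h11 : 2 ^ (k + 1) < 2 ^ (k + 2) := Nat.pow_lt_pow_right (by norm_num) (by omega)
          omega
        · exact h
      refine ⟨2 ^ (k + 1) - 1, ?_, ?_, ?_, Or.inr ?_⟩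
      · rw [Nat.odd_sub Nat.one_le_two_pow, ← not_iff_not, Nat.not_odd_iff_even]
        simp [Nat.even_pow]
      · rw [Nat.add_sub_cancel' Nat.one_le_two_pow, hpk]
      · have h5 : u = c ^ 2 ^ (k + 1) := by
          rw [← hi]
          have : 2 ^ (k + 1) * (2 * a + 1) = 2 ^ (k + 2) * a + 2 ^ (k + 1) := by ring
          rw [this, pow_add, pow_mul, hcN, one_pow, one_mul]
        rw [hxcu, h5, inv_mul_eq_iff_eq_mul, ← pow_succ', Nat.sub_add_cancel Nat.one_le_two_pow]
      · have h6 : ζ ^ (2 ^ (k + 1) - 1) * ζ = -1 := by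
          rw [← pow_succ, Nat.sub_add_cancel Nat.one_le_two_pow, h7]
        field_simp
        exact h6
  have hcG : orderOf (c : G) = 2 ^ (k + 2) := by rw [Subgroup.orderOf_coe, hco]
  have hmap : zpowers (c : G) = (zpowers c).map (P : Subgroup G).subtype := by
    rw [MonoidHom.map_zpowers]; rfl
  have hCle : zpowers (c : G) ≤ (P : Subgroup G) := by
    rw [zpowers_le]; exact c.2
  have hCn : (zpowers c).Normal := Subgroup.normal_of_index_eq_two hCi
  have hPC : (P : Subgroup G) ≤ normalizer (zpowers (c : G) : Set G) := by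
    rw [← Subgroup.normal_subgroupOf_iff_le_normalizer hCle]
    have h1 : (zpowers (c : G)).subgroupOf (P : Subgroup G) = zpowers c := by
      rw [hmap]
      exact Subgroup.comap_map_eq_self_of_injective (Subgroup.subtype_injective _) _
    rw [h1]
    exact hCn
  have hCc : Nat.card (zpowers (c : G)) = 2 ^ (k + 2) := by rw [Nat.card_zpowers, hcG]
  obtain ⟨⟨i, hi1⟩, hi2⟩ := normalizer_cyclic P (zpowers (c : G)) hCc hPC
  have hcent : Subgroup.centralizer ({(c : G)} : Set G) = Subgroup.centralizer (zpowers (c : G) : Set G) := by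
    ext v
    rw [mem_centralizer_iff, mem_centralizer_iff]
    constructor
    · intro h
      have h1 : Commute v (c : G) := (h c rfl).symm
      rintro _ ⟨j, rfl⟩
      exact (h1.zpow_right j).symm.eq
    · intro h a ha
      rw [Set.mem_singleton_iff] at ha
      rw [ha]
      exact h c (mem_zpowers _)
  have hcentle : Subgroup.centralizer (zpowers (c : G) : Set G) ≤ normalizer (zpowers (c : G) : Set G) :=
    centralizer_le_normalizer _
  have hxcG : (x : G) * c * (x : G)⁻¹ = (c : G) ^ e := by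
    have := congrArg Subtype.val hxc
    simpa using this
  refine ⟨c, c.2, ?_, ?_⟩
  · rw [hcent, ← Subgroup.relIndex_mul_index hcentle, hi1]
    apply Dvd.dvd.mul_right
    rcases Nat.eq_zero_or_pos i with h | h
    · exfalso
      rw [h, pow_zero, Subgroup.relIndex_eq_one] at hi1
      have h1 := hi1 (hPC x.2)
      have h2 : c * x = x * c := Subtype.ext ((mem_centralizer_iff.1 h1) c (mem_zpowers _))
      have h3 := hcen c (mem_zpowers c) h2
      have h4 : zpowers c ≤ center P := by rw [zpowers_le]; exact h3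
      have h5 := Subgroup.card_le_of_le h4
      rw [hZ, Nat.card_zpowers, hco] at h5
      have h6 : 2 ^ 2 ≤ 2 ^ (k + 2) := Nat.pow_le_pow_right (by norm_num) (by omega)
      omega
    · exact dvd_pow_self 2 h.ne'
  · have key := field_eq (g := (c : G)) (N := 2 ^ (k + 2)) (by positivity) (by simp [Nat.even_pow]) hcG hζ he hE
      (isConj_iff.2 ⟨x, hxcG⟩) (by
        intro j hj
        obtain ⟨t, ht⟩ := isConj_iff.1 hj
        have h1 : t ∈ normalizer (zpowers (c : G) : Set G) := by
          apply Subgroup.mem_normalizer_fintype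
          rintro _ ⟨l, rfl⟩
          show t * (c : G) ^ l * t⁻¹ ∈ zpowers (c : G)
          rw [← conj_zpow, ht]
          exact zpow_mem (pow_mem (mem_zpowers _) _) _
        obtain ⟨u, hu1, v, hv, rfl⟩ := hi2 t h1
        have h2 : v * (c : G) * v⁻¹ = c := by
          rw [mul_inv_eq_iff_eq_mul]
          exact ((mem_centralizer_iff.1 hv) c (mem_zpowers _)).symm
        have h3 : u * (c : G) * u⁻¹ = (c : G) ^ j := by
          rw [← ht]
          calc u * (c : G) * u⁻¹ = u * (v * (c : G) * v⁻¹) * u⁻¹ := by rw [h2]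
            _ = u * v * c * (u * v)⁻¹ := by group
        rw [← h3]
        by_cases h4 : (⟨u, hu1⟩ : P) ∈ zpowers c
        · left
          obtain ⟨l, hl⟩ := h4
          have h5 : (c : G) ^ l = u := by
            have := congrArg Subtype.val hl
            simpa using this
          rw [← h5, mul_inv_eq_iff_eq_mul]
          exact ((Commute.refl (c : G)).zpow_left l).eq
        · right
          have h5 : x⁻¹ * (⟨u, hu1⟩ : P) ∈ zpowers c := by
            rw [Subgroup.mul_mem_iff_of_index_two hCi, inv_mem_iff]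
            exact ⟨fun h => absurd h hx, fun h => absurd h h4⟩
          obtain ⟨l, hl⟩ := h5
          have h6 : u = x * (c : G) ^ l := by
            have := congrArg Subtype.val hl
            have h7 : (c : G) ^ l = (x : G)⁻¹ * u := by simpa using this
            rw [h7]; group
          rw [h6, ← hxcG]
          have h8 : (c : G) ^ l * c * ((c : G) ^ l)⁻¹ = c := by
            rw [mul_inv_eq_iff_eq_mul]
            exact ((Commute.refl (c : G)).zpow_left l).eq
          calc (x : G) * (c : G) ^ l * c * ((x : G) * (c : G) ^ l)⁻¹ = x * ((c : G) ^ l * c * ((c : G) ^ l)⁻¹) * (x : G)⁻¹ := by group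
            _ = x * c * (x : G)⁻¹ := by rw [h8])
    rcases hw with h | h
    · left; rw [key, h]
    · right; rw [key, h, sub_eq_add_neg]

/-- the backward direction -/
theorem backward {G : Type*} [Group G] [Finite G] (P : Sylow 2 G) (n : ℕ) (hn : 3 ≤ n) (hP : Nat.card P = 2 ^ n) (ζ : ℂ)
    (hζ : IsPrimitiveRoot ζ (2 ^ (n - 1))) {g : G} (hg : g ∈ (P : Subgroup G))
    (hev : 2 ∣ (Subgroup.centralizer ({g} : Set G)).index) {w : ℂ} (hw : w = ζ + ζ⁻¹ ∨ w = ζ - ζ⁻¹)
    (hfield : IntermediateField.adjoin ℚ (vals G g) = IntermediateField.adjoin ℚ ({w} : Set ℂ)) :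
    (commutator P).index = 4 := by
  have hf2 : Fact (Nat.Prime 2) := ⟨Nat.prime_two⟩
  obtain ⟨c, hc⟩ : ∃ c : P, c = ⟨g, hg⟩ := ⟨_, rfl⟩
  have hcg : (c : G) = g := by rw [hc]
  obtain ⟨y, hy⟩ : ∃ y : P, y * c ≠ c * y := by
    by_contra hcon
    push Not at hcon
    have h1 : (P : Subgroup G) ≤ Subgroup.centralizer ({g} : Set G) := by
      intro u hu
      rw [mem_centralizer_iff]
      intro a ha
      rw [Set.mem_singleton_iff] at ha
      rw [ha, ← hcg]
      exact (congrArg Subtype.val (hcon ⟨u, hu⟩)).symm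
    exact P.not_dvd_index (hev.trans (Subgroup.index_dvd_of_le h1))
  have hna : ¬ ∀ a b : P, a * b = b * a := fun h => hy (h y c)
  rcases Nat.lt_or_ge n 4 with hn4 | hn4
  · have hn3 : n = 3 := by omega
    subst hn3
    apply index_four le_rfl hP hna
    have h1 : commutator P ≠ ⊥ := by
      intro h
      apply hna
      intro a b
      have h2 : ⁅a, b⁆ ∈ commutator P := Subgroup.commutator_mem_commutator (Subgroup.mem_top a) (Subgroup.mem_top b)
      rw [h, Subgroup.mem_bot] at h2
      exact commutatorElement_eq_one_iff_mul_comm.1 h2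
    have h3 := (Subgroup.one_lt_card_iff_ne_bot (commutator P)).2 h1
    show 2 ^ 1 ≤ _
    omega
  · obtain ⟨k, rfl⟩ : ∃ k, n = k + 4 := ⟨n - 4, by omega⟩
    have hk : k + 4 - 1 = k + 3 := rfl
    rw [hk] at hζ
    have hζN : ζ ^ 2 ^ (k + 3) = 1 := hζ.pow_eq_one
    have hζ0 : ζ ≠ 0 := hζ.ne_zero (by positivity)
    have h7 : ζ ^ 2 ^ (k + 2) = -1 := by
      have h8 : ζ ^ 2 ^ (k + 2) * ζ ^ 2 ^ (k + 2) = 1 := by
        rw [← pow_add]
        have : 2 ^ (k + 2) + 2 ^ (k + 2) = 2 ^ (k + 3) := by ring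
        rw [this, hζN]
      rcases mul_self_eq_one_iff.1 h8 with h | h
      · exfalso
        have h9 := (hζ.pow_eq_one_iff_dvd _).1 h
        have h10 := Nat.le_of_dvd (by positivity) h9
        have h11 : 2 ^ (k + 2) < 2 ^ (k + 3) := Nat.pow_lt_pow_right (by norm_num) (by omega)
        omega
      · exact h
    -- the order of `g` divides `2^(n-1)`
    have hord : orderOf g ∣ 2 ^ (k + 3) := by
      have h1 : orderOf c ∣ 2 ^ (k + 4) := by rw [← hP]; exact orderOf_dvd_natCard c
      obtain ⟨i, hi, hi2⟩ := (Nat.dvd_prime_pow Nat.prime_two).1 h1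
      have h2 : i ≠ k + 4 := by
        rintro rfl
        have h3 : zpowers c = ⊤ := by
          apply Subgroup.eq_top_of_card_eq
          rw [Nat.card_zpowers, hi2]
          exact hP.symm
        have h4 : y ∈ zpowers c := by rw [h3]; exact mem_top _
        obtain ⟨l, hl⟩ := h4
        apply hy
        rw [← hl]
        exact ((Commute.refl c).zpow_left l).eq
      rw [← hcg, Subgroup.orderOf_coe, hi2]
      exact pow_dvd_pow 2 (by omega)
    -- `g` is not conjugate to `g^(1+2^(n-2))`
    have hnc : ¬ IsConj g (g ^ (1 + 2 ^ (k + 2))) := by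
      intro hcj
      have hcop : (1 + 2 ^ (k + 2)).Coprime (2 ^ (k + 3)) := by
        apply Nat.Coprime.pow_right
        rw [Nat.coprime_comm, Nat.Prime.coprime_iff_not_dvd Nat.prime_two]
        intro h
        have : 2 ∣ 2 ^ (k + 2) := dvd_pow_self 2 (by omega)
        omega
      obtain ⟨σ, hσ⟩ := CharGalois.exists_ringHom_pow (n := 2 ^ (k + 3)) (by positivity) hcop
      have h1 : ∀ s ∈ vals G g, σ s = s := by
        rintro _ ⟨χ, rfl⟩
        have h2 := CharGalois.map_apply_eq χ.2.isCharacter σ (1 + 2 ^ (k + 2)) g (by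
          intro μ hμ
          apply hσ
          obtain ⟨d, hd⟩ := hord
          rw [hd, pow_mul, hμ, one_pow])
        rw [h2]
        exact ((isConj_iff_forall_irr g _).1 hcj χ).symm
      have h3 : w ∈ IntermediateField.adjoin ℚ (vals G g) := by
        rw [hfield]
        exact IntermediateField.subset_adjoin ℚ _ rfl
      have h4 := fixes_adjoin_set σ h1 h3
      have h5 : σ ζ = -ζ := by
        rw [hσ ζ hζN, pow_add, pow_one, h7]; ring
      have h6 : w = 0 := by
        have h8 : σ w = - w := by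
          rcases hw with h | h
          · rw [h, map_add, map_inv₀, h5, inv_neg]; ring
          · rw [h, map_sub, map_inv₀, h5, inv_neg]; ring
        rw [h8] at h4
        exact self_eq_neg.1 h4.symm
      have h8 : ζ ^ 4 = 1 := by
        rcases hw with h | h
        · rw [h6] at h
          have h9 : ζ ^ 2 = -1 := by
            have : ζ * (ζ + ζ⁻¹) = 0 := by rw [← h, mul_zero]
            rw [mul_add, mul_inv_cancel₀ hζ0] at this
            linear_combination this
          calc ζ ^ 4 = (ζ ^ 2) ^ 2 := by ring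
            _ = 1 := by rw [h9]; norm_num
        · rw [h6] at h
          have h9 : ζ ^ 2 = 1 := by
            have : ζ * (ζ - ζ⁻¹) = 0 := by rw [← h, mul_zero]
            rw [mul_sub, mul_inv_cancel₀ hζ0] at this
            linear_combination this
          calc ζ ^ 4 = (ζ ^ 2) ^ 2 := by ring
            _ = 1 := by rw [h9]; norm_num
      have h9 := Nat.le_of_dvd (by norm_num) ((hζ.pow_eq_one_iff_dvd _).1 h8)
      have h10 : 2 ^ 3 ≤ 2 ^ (k + 3) := Nat.pow_le_pow_right (by norm_num) (by omega)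
      omega
    have hordc : orderOf c = 2 ^ (k + 3) := by
      rw [← Subgroup.orderOf_coe, hcg]
      obtain ⟨i, hi, hi2⟩ := (Nat.dvd_prime_pow Nat.prime_two).1 hord
      rcases Nat.lt_or_ge i (k + 3) with h | h
      · exfalso
        apply hnc
        have h1 : g ^ 2 ^ (k + 2) = 1 := by
          rw [← orderOf_dvd_iff_pow_eq_one, hi2]
          exact pow_dvd_pow 2 (by omega)
        rw [pow_add, pow_one, h1, mul_one]
      · have : i = k + 3 := le_antisymm hi h
        rw [hi2, this]
    have hCi : (zpowers c).index = 2 := by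
      have h1 := (zpowers c).index_mul_card
      rw [Nat.card_zpowers, hordc] at h1
      replace h1 := h1.trans hP
      have h9 : (zpowers c).index * 2 ^ (k + 3) = 2 * 2 ^ (k + 3) := by rw [h1]; ring
      exact Nat.eq_of_mul_eq_mul_right (by positivity) h9
    have hCn : (zpowers c).Normal := Subgroup.normal_of_index_eq_two hCi
    obtain ⟨j, hj⟩ : ∃ j : ℕ, c ^ j = y * c * y⁻¹ := by
      have := hCn.conj_mem c (mem_zpowers c) y
      rw [← mem_powers_iff_mem_zpowers] at this
      exact this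
    have hcN : c ^ 2 ^ (k + 3) = 1 := by rw [← hordc]; exact pow_orderOf_eq_one c
    have hjodd : j % 2 = 1 := by
      by_contra h
      have h1 : j % 2 = 0 := by omega
      obtain ⟨a, rfl⟩ := Nat.dvd_of_mod_eq_zero h1
      have h2 : (c ^ (2 * a)) ^ 2 ^ (k + 2) = 1 := by
        rw [← pow_mul]
        have : 2 * a * 2 ^ (k + 2) = 2 ^ (k + 3) * a := by ring
        rw [this, pow_mul, hcN, one_pow]
      rw [hj, conj_pow, conj_eq_one_iff] at h2
      have h3 := Nat.le_of_dvd (by positivity) (orderOf_dvd_of_pow_eq_one h2)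
      rw [hordc] at h3
      have h11 : 2 ^ (k + 2) < 2 ^ (k + 3) := Nat.pow_lt_pow_right (by norm_num) (by omega)
      omega
    have hj3 : j % 4 = 3 := by
      by_contra h
      have h1 : j % 4 = 1 := by omega
      obtain ⟨a, rfl⟩ : ∃ a, j = 4 * a + 1 := ⟨j / 4, by omega⟩
      have h2 : c ^ ((4 * a + 1) * (4 * a + 1)) = c := by
        have hy2 : y ^ 2 ∈ zpowers c := Subgroup.sq_mem_of_index_two hCi y
        obtain ⟨l, hl⟩ := hy2
        have h3 : y ^ 2 * c * (y ^ 2)⁻¹ = c := by
          rw [← hl, mul_inv_eq_iff_eq_mul]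
          exact ((Commute.refl c).zpow_left l).eq
        calc c ^ ((4 * a + 1) * (4 * a + 1)) = (y * c * y⁻¹) ^ (4 * a + 1) := by rw [pow_mul, hj]
          _ = y * (c ^ (4 * a + 1)) * y⁻¹ := conj_pow
          _ = y * (y * c * y⁻¹) * y⁻¹ := by rw [hj]
          _ = y ^ 2 * c * (y ^ 2)⁻¹ := by rw [pow_two]; group
          _ = c := h3
      have h3 : 2 ^ (k + 3) ∣ 8 * (a * (2 * a + 1)) := by
        rw [← hordc, orderOf_dvd_iff_pow_eq_one]
        have h4 : (4 * a + 1) * (4 * a + 1) = 8 * (a * (2 * a + 1)) + 1 := by ring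
        rw [h4, pow_succ] at h2
        exact mul_eq_right.1 h2
      have h4 : 2 ^ k ∣ a * (2 * a + 1) := by
        have h5 : 2 ^ (k + 3) = 8 * 2 ^ k := by ring
        rw [h5] at h3
        exact Nat.dvd_of_mul_dvd_mul_left (by norm_num) h3
      have h5 : 2 ^ k ∣ a := by
        apply Nat.Coprime.dvd_of_dvd_mul_right _ h4
        apply Nat.Coprime.pow_left
        rw [Nat.Prime.coprime_iff_not_dvd Nat.prime_two]
        omega
      obtain ⟨b, rfl⟩ := h5
      rcases Nat.even_or_odd b with ⟨b', rfl⟩ | ⟨b', rfl⟩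
      · apply hy
        have h6 : c ^ (4 * (2 ^ k * (b' + b')) + 1) = c := by
          have : 4 * (2 ^ k * (b' + b')) + 1 = 2 ^ (k + 3) * b' + 1 := by ring
          rw [this, pow_add, pow_mul, hcN, one_pow, one_mul, pow_one]
        rw [h6] at hj
        exact (mul_inv_eq_iff_eq_mul.1 hj.symm)
      · apply hnc
        rw [isConj_iff]
        refine ⟨y, ?_⟩
        have h6 : c ^ (4 * (2 ^ k * (2 * b' + 1)) + 1) = c ^ (1 + 2 ^ (k + 2)) := by
          have : 4 * (2 ^ k * (2 * b' + 1)) + 1 = 2 ^ (k + 3) * b' + (1 + 2 ^ (k + 2)) := by ring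
          rw [this, pow_add, pow_mul, hcN, one_pow, one_mul]
        rw [h6] at hj
        have := congrArg Subtype.val hj.symm
        rw [← hcg]
        simpa using this
    apply index_four (by omega) hP hna
    obtain ⟨a, rfl⟩ : ∃ a, j = 4 * a + 3 := ⟨j / 4, by omega⟩
    have h1 : c ^ (2 * (2 * a + 1)) ∈ commutator P := by
      have h2 : c ^ (2 * (2 * a + 1)) = ⁅y, c⁆ := by
        rw [commutatorElement_def, ← hj]
        have : 4 * a + 3 = 2 * (2 * a + 1) + 1 := by ring
        rw [this, pow_succ]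
        group
      rw [h2]
      exact Subgroup.commutator_mem_commutator (Subgroup.mem_top y) (Subgroup.mem_top c)
    have h2 : orderOf (c ^ (2 * (2 * a + 1))) = 2 ^ (k + 2) := by
      rw [pow_mul, Nat.Coprime.orderOf_pow]
      · rw [orderOf_pow_of_dvd (by norm_num) (by rw [hordc]; exact dvd_pow_self 2 (by omega)), hordc]
        have : 2 ^ (k + 3) = 2 ^ (k + 2) * 2 := by ring
        rw [this, Nat.mul_div_cancel _ (by norm_num)]
      · rw [orderOf_pow_of_dvd (by norm_num) (by rw [hordc]; exact dvd_pow_self 2 (by omega)), hordc]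
        have : 2 ^ (k + 3) = 2 ^ (k + 2) * 2 := by ring
        rw [this, Nat.mul_div_cancel _ (by norm_num)]
        apply Nat.Coprime.pow_left
        rw [Nat.Prime.coprime_iff_not_dvd Nat.prime_two]
        omega
    have h3 : zpowers (c ^ (2 * (2 * a + 1))) ≤ commutator P := by rw [zpowers_le]; exact h1
    have h4 := Subgroup.card_le_of_le h3
    rw [Nat.card_zpowers, h2] at h4
    exact h4

/-- Let G be a finite group with Sylow 2-subgroup P of order 2^n ≥ 8, and let ζ be a primitive 2^(n−1)-th root of unity in ℂ. Then the commutator subgroup of P has index 4 in P if and only if there is an element g of P whose conjugacy class in G has even size and such that the field generated over ℚ by the values at g of all irreducible complex characters of G equals ℚ(ζ + ζ⁻¹) or ℚ(ζ − ζ⁻¹). -/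
theorem result {G : Type*} [Group G] [Finite G] (P : Sylow 2 G) (n : ℕ) (hn : 3 ≤ n) (hP : Nat.card P = 2 ^ n) (ζ : ℂ) (hζ : IsPrimitiveRoot ζ (2 ^ (n - 1))) :
    (commutator ↥P).index = 4 ↔
      ∃ g : G, g ∈ (P : Subgroup G) ∧ 2 ∣ (Subgroup.centralizer ({g} : Set G)).index ∧
        (IntermediateField.adjoin ℚ {z : ℂ | ∃ χ : Cfsg.IrrCharacter G, (χ : G → ℂ) g = z} = IntermediateField.adjoin ℚ ({ζ + ζ⁻¹} : Set ℂ) ∨
          IntermediateField.adjoin ℚ {z : ℂ | ∃ χ : Cfsg.IrrCharacter G, (χ : G → ℂ) g = z} = IntermediateField.adjoin ℚ ({ζ - ζ⁻¹} : Set ℂ)) := by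
  constructor
  · exact forward P n hn hP ζ hζ
  · rintro ⟨g, hg, hev, h | h⟩
    · exact backward P n hn hP ζ hζ hg hev (Or.inl rfl) h
    · exact backward P n hn hP ζ hζ hg hev (Or.inr rfl) h

end Cfsg.Agent.S4923
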