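import Cfsg.Statements.S4930
import Cfsg.Agent.Lib.SylowSquares

set_option autoImplicit false
open Cfsg

namespace Cfsg.Agent.S4930

/-- Let G be a finite group, P a Sylow 2-subgroup of G with normalizer N, and P′ the commutator subgroup of P. Then the sum of the squares of the degrees of the irreducible complex characters of G of odd degree is at least the index of P′ in N (the order of N divided by the order of P′), and equality holds if and only if N has a normal complement in G: a normal subgroup K of G with K ∩ N = 1 and KN = G. -/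
theorem result {G : Type*} [Group G] [Finite G] (P : Sylow 2 G) :
    Nat.card (Subgroup.normalizer ((P : Subgroup G) : Set G)) ≤ Nat.card (commutator ↥P) * (∑ᶠ χ : {χ : Cfsg.IrrCharacter G // ¬ 2 ∣ Cfsg.charDegree (χ : G → ℂ)}, Cfsg.charDegree (χ.1 : G → ℂ) ^ 2) ∧
    (Nat.card (Subgroup.normalizer ((P : Subgroup G) : Set G)) = Nat.card (commutator ↥P) * (∑ᶠ χ : {χ : Cfsg.IrrCharacter G // ¬ 2 ∣ Cfsg.charDegree (χ : G → ℂ)}, Cfsg.charDegree (χ.1 : G → ℂ) ^ 2) ↔
      ∃ K : Subgroup G, K.Normal ∧ K ⊓ Subgroup.normalizer ((P : Subgroup G) : Set G) = ⊥ ∧ K ⊔ Subgroup.normalizer ((P : Subgroup G) : Set G) = ⊤) := by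
  classical
  have hp : Fact (Nat.Prime 2) := ⟨Nat.prime_two⟩
  have hPN : (P : Subgroup G) ≤ Subgroup.normalizer ((P : Subgroup G) : Set G) := Subgroup.le_normalizer
  have hidx : ¬ 2 ∣ (Subgroup.normalizer ((P : Subgroup G) : Set G)).index := fun h =>
    P.not_dvd_index (h.trans (Subgroup.index_dvd_of_le hPN))
  have h1 := Lib.SylowSquares.sum_sq_restrict (G := G)
    (H := Subgroup.normalizer ((P : Subgroup G) : Set G)) Nat.prime_two hidx
  have h2 := Lib.SylowSquares.sum_normalizer P
  have e1 := Lib.SylowSquares.finsum_eq_filter (fun χ : IrrCharacter G => ¬ 2 ∣ charDegree (χ : G → ℂ))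
    (fun χ => charDegree (χ : G → ℂ) ^ 2)
  have e2 := Lib.SylowSquares.finsum_eq_filter
    (fun θ : IrrCharacter (Subgroup.normalizer ((P : Subgroup G) : Set G)) =>
      ¬ 2 ∣ charDegree (θ : Subgroup.normalizer ((P : Subgroup G) : Set G) → ℂ))
    (fun θ => charDegree (θ : Subgroup.normalizer ((P : Subgroup G) : Set G) → ℂ) ^ 2)
  have hpos : 0 < Nat.card (commutator (P : Subgroup G)) := Nat.card_pos
  have h3 : ∑ᶠ θ : {θ : IrrCharacter (Subgroup.normalizer ((P : Subgroup G) : Set G)) //
        ¬ 2 ∣ charDegree (θ : Subgroup.normalizer ((P : Subgroup G) : Set G) → ℂ)},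
        charDegree (θ.1 : Subgroup.normalizer ((P : Subgroup G) : Set G) → ℂ) ^ 2 ≤
      ∑ᶠ χ : {χ : IrrCharacter G // ¬ 2 ∣ charDegree (χ : G → ℂ)}, charDegree (χ.1 : G → ℂ) ^ 2 := by
    rw [e1, e2]
    convert h1.1
  constructor
  · rw [← h2]
    exact Nat.mul_le_mul_left _ h3
  · constructor
    · intro h
      rw [← h2] at h
      have h4 := Nat.eq_of_mul_eq_mul_left hpos h
      rw [e1, e2] at h4
      obtain ⟨K, hK, h5, h6⟩ := Lib.SylowExtend.complement_of_extends P (h1.2 (by convert h4))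
      exact ⟨K, hK, h6, h5⟩
    · rintro ⟨K, hK, h5, h6⟩
      have h7 : K ⊓ Subgroup.centralizer ((P : Subgroup G) : Set G) = ⊥ := by
        rw [eq_bot_iff, ← h5]
        exact inf_le_inf_left K (Lib.GroupUtil.centralizer_le_normalizer _)
      rw [← h2, Lib.SylowSquares.sum_equiv_retraction 2 K _ h6 h5
        (fun χ hχ => Lib.SylowSquares.ker_of_centralizer_trivial (P : Subgroup G) K P.2 h7 χ hχ)]
      rfl

end Cfsg.Agent.S4930
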