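import Cfsg.Statements.S4931
import Cfsg.Agent.Lib.SylowExtend

set_option autoImplicit false
open Cfsg

namespace Cfsg.Agent.S4931

/-- Let G be a finite group, p a prime and P a Sylow p-subgroup of G with normalizer N. Then every irreducible complex character of N of degree not divisible by p is the restriction of an irreducible character of G if and only if there is a normal subgroup K of G with KN = G and K ∩ N = 1. -/
theorem result {G : Type*} [Group G] [Finite G] (p : ℕ) [Fact p.Prime] (P : Sylow p G) :
    (∀ θ : Cfsg.IrrCharacter ↥(Subgroup.normalizer ((P : Subgroup G) : Set G)), ¬ p ∣ Cfsg.charDegree (θ : ↥(Subgroup.normalizer ((P : Subgroup G) : Set G)) → ℂ) →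
        ∃ χ : Cfsg.IrrCharacter G, ∀ x : ↥(Subgroup.normalizer ((P : Subgroup G) : Set G)), (χ : G → ℂ) x = (θ : ↥(Subgroup.normalizer ((P : Subgroup G) : Set G)) → ℂ) x) ↔
      ∃ K : Subgroup G, K.Normal ∧ K ⊔ Subgroup.normalizer ((P : Subgroup G) : Set G) = ⊤ ∧ K ⊓ Subgroup.normalizer ((P : Subgroup G) : Set G) = ⊥ := by
  constructor
  · intro h
    exact Lib.SylowExtend.complement_of_extends P h
  · rintro ⟨K, hK, h1, h2⟩ θ _
    obtain ⟨f, hf, -⟩ := Lib.SylowExtend.exists_retraction K (Subgroup.normalizer ((P : Subgroup G) : Set G)) h1 h2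
    have hs : Function.Surjective f := fun x => ⟨x, hf x⟩
    exact ⟨⟨fun g => (θ : Subgroup.normalizer ((P : Subgroup G) : Set G) → ℂ) (f g),
      θ.2.comp_surjective f hs⟩, fun x => by show (θ : _ → ℂ) (f x) = _; rw [hf]⟩

end Cfsg.Agent.S4931
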