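import Cfsg.Statements.S4937
import Cfsg.Agent.Lib.H32PRat5

set_option autoImplicit false
open Cfsg

namespace Cfsg.Agent.S4937

open scoped ComplexConjugate Classical
open Cfsg.Agent.Lib Cfsg.Agent.Lib.CharBasic Cfsg.Agent.Lib.CanonExt Cfsg.Agent.Lib.CosetAvg
open Cfsg.Agent.Lib.BlockRing Cfsg.Agent.Lib.BlockPair Cfsg.Agent.Lib.Clifford Cfsg.Agent.Lib.H32PRat

/-- the sum over the regular elements of a character in the principal block -/
theorem sum_preg_ne {G : Type*} [Group G] [Fintype G] {p : ℕ} {M : Ideal AlgInt} (hM : IsPModular p M)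
    {θ : IrrCharacter G} (hθ : θ ∈ principalBlock M G) : ∑ x : G, preg p (θ : G → ℂ) x ≠ 0 := by
  have := isPrime hM
  intro h
  have h0 : blockHeight p (principalBlock M G) (BlockThird.triv G : G → ℂ) = 0 := by
    unfold blockHeight
    have h1 : charDegree (BlockThird.triv G : G → ℂ) = 1 := by
      have h2 := BlockDeg.charDegree_cast_irr (BlockThird.triv G)
      have h3 : (BlockThird.triv G : G → ℂ) 1 = 1 := by simp
      rw [h3] at h2
      exact_mod_cast h2
    rw [h1]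
    simp
  apply not_idl_pair hM BlockThird.isPBlock_principal BlockThird.triv_mem hθ h0
  rw [omega_pel, pair_def]
  have h1 : ∑ x : G, (if p ∣ orderOf x then 0 else (θ : G → ℂ) x * (BlockThird.triv G : G → ℂ) x⁻¹) =
      ∑ x : G, preg p (θ : G → ℂ) x := by
    refine Finset.sum_congr rfl fun x _ => ?_
    unfold preg
    simp
  rw [h1, h, zero_div]
  exact idl_zero

/-- Let G be a finite group, p a prime, M a maximal ideal of the algebraic integers containing p, N a normal subgroup of G and P a Sylow p-subgroup of N such that G = N·C_G(P). Let θ be an irreducible character in the principal p-block of N that is the restriction of some irreducible character of G. Then θ is the restriction of an irreducible character χ of G lying in the principal p-block of G such that, for every subgroup J of G containing N, the restriction of χ to J is an irreducible character of J lying in the principal p-block of J. -/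
theorem result {G : Type*} [Group G] [Finite G] (p : ℕ) [Fact p.Prime] (M : Ideal Cfsg.AlgInt) (hM : Cfsg.IsPModular p M) (N : Subgroup G) [N.Normal] (P : Sylow p ↥N)
    (hcov : N ⊔ Subgroup.centralizer (((P : Subgroup ↥N).map N.subtype : Subgroup G) : Set G) = ⊤)
    (θ : Cfsg.IrrCharacter ↥N) (hθ : θ ∈ Cfsg.principalBlock M ↥N)
    (hext : ∃ ψ : Cfsg.IrrCharacter G, ∀ x : ↥N, (ψ : G → ℂ) x = (θ : ↥N → ℂ) x) :
    ∃ χ : Cfsg.IrrCharacter G, χ ∈ Cfsg.principalBlock M G ∧ (∀ x : ↥N, (χ : G → ℂ) x = (θ : ↥N → ℂ) x) ∧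
      ∀ J : Subgroup G, N ≤ J → ∃ ξ : Cfsg.IrrCharacter ↥J, ξ ∈ Cfsg.principalBlock M ↥J ∧ ∀ y : ↥J, (ξ : ↥J → ℂ) y = (χ : G → ℂ) y := by
  have := Fintype.ofFinite G
  have := Fintype.ofFinite N
  have hpp : p.Prime := Fact.out
  obtain ⟨R, hR⟩ : ∃ R : Subgroup G, R = (P : Subgroup N).map N.subtype := ⟨_, rfl⟩
  have hRN : R ≤ N := hR ▸ Subgroup.map_subtype_le _
  have hRi : ¬ p ∣ (R.subgroupOf N).index := by
    have h1 : R.subgroupOf N = (P : Subgroup N) := by
      rw [hR]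
      exact Subgroup.comap_map_eq_self_of_injective N.subtype_injective _
    rw [h1]
    exact P.not_dvd_index
  rw [← hR] at hcov
  obtain ⟨ψ, hψ⟩ := hext
  have hloc : Loc p N (θ : N → ℂ) :=
    { irr := θ.2
      loc := by
        intro X hNX hXi
        have := Fintype.ofFinite (N.subgroupOf X)
        obtain ⟨θX, h1, h2⟩ := exists_local hM hθ hRN hRi hNX hXi (by rw [hcov]; exact le_top)
        refine ⟨θX, θX.2, h1, ?_⟩
        intro inst x
        rw [← h2 x]
        congr!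
      ne := sum_preg_ne hM hθ }
  obtain ⟨b, m, k, hk⟩ := exists_PK G hpp
  obtain ⟨s, hs⟩ : ∃ s : ℂ, s = ∑ n : N, preg p (θ : N → ℂ) n := ⟨_, rfl⟩
  have hs0 : s ≠ 0 := hs ▸ hloc.ne
  obtain ⟨β, hβ⟩ := hloc.exists_beta ψ.2 hψ hk hpp
  rw [← hs] at hβ
  have hone : rs p N (ψ : G → ℂ) 1 = s := by
    rw [rs_one, hs]
    have : (fun n : N => (ψ : G → ℂ) n) = (θ : N → ℂ) := funext hψ
    rw [this]
  have hβN : ∀ n : N, β n = 1 := by
    intro n
    have h1 := hβ (n : G)
    have h2 : rs p N (ψ : G → ℂ) ((n : G) ^ k) = s := by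
      have h3 := rs_mul (p := p) (ψ : G → ℂ) (n ^ k) 1
      rw [hone, mul_one] at h3
      rw [← h3]
      congr 1
    rw [h2] at h1
    apply Units.ext
    have h4 : ((β n : ℂˣ) : ℂ) * s = 1 * s := by rw [one_mul]; exact h1.symm
    exact mul_right_cancel₀ hs0 h4
  have hβk : ∀ g, β (g ^ k) = β g := by
    intro g
    have h1 := hβ (g ^ k)
    rw [hk.pow_pow, hβ g] at h1
    exact (Units.ext (mul_right_cancel₀ hs0 h1)).symm
  obtain ⟨hχ1, hext1⟩ := twist_irr hloc.irr ψ.2 hψ β⁻¹ (fun n => by rw [MonoidHom.inv_apply, hβN, inv_one])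
  obtain ⟨χ1, hχ1d⟩ : ∃ χ1 : G → ℂ, χ1 = fun g => ((β⁻¹ g : ℂˣ) : ℂ) * (ψ : G → ℂ) g := ⟨_, rfl⟩
  rw [← hχ1d] at hχ1 hext1
  have hrs1 : ∀ g, rs p N χ1 (g ^ k) = s := by
    intro g
    rw [hχ1d, rs_twist (β := fun g => ((β⁻¹ g : ℂˣ) : ℂ)) (lin_mul β⁻¹ (fun n => by rw [MonoidHom.inv_apply, hβN, inv_one])) (ψ : G → ℂ)]
    rw [hβ g]
    simp only [MonoidHom.inv_apply, hβk g]
    rw [← mul_assoc, Units.inv_mul, one_mul]
  refine ⟨⟨χ1, hχ1⟩, mem_of_adj (χ := ⟨χ1, hχ1⟩) hM hk hs0 hrs1, hext1, ?_⟩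
  intro J hNJ
  have := Fintype.ofFinite (N.subgroupOf J)
  let e : N.subgroupOf J ≃* N := Subgroup.subgroupOfEquivOfLe hNJ
  have hθ' : IsIrrCharacter (N.subgroupOf J) (fun n => (θ : N → ℂ) (e n)) := (BlockTop.cmp e θ).2
  have hres : IsIrrCharacter J (fun x : J => χ1 x) :=
    isIrr_of_ext hθ' (hχ1.isCharacter.restrict J) (fun n => hext1 ⟨n, n.2⟩)
  obtain ⟨b', m', k', hk'⟩ := exists_PK J hpp
  refine ⟨⟨_, hres⟩, mem_of_adj (N := N.subgroupOf J) (χ := ⟨_, hres⟩) hM hk' hs0 ?_, fun y => rfl⟩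
  intro y
  have h1 : ¬ p ∣ orderOf ((y ^ k' : J) : G) := by
    rw [Subgroup.orderOf_coe]
    exact hk'.reg_pow y
  show rs p (N.subgroupOf J) (fun x : J => χ1 x) (y ^ k') = s
  rw [rs_restrict hNJ χ1, ← hk.pow_reg hpp h1, hrs1]

end Cfsg.Agent.S4937
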