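import Cfsg.Statements.S4969
import Cfsg.Agent.Lib.CharBasic

set_option autoImplicit false
open Cfsg

namespace Cfsg.Agent.S4969

open scoped ComplexConjugate in
theorem sum_norm_sq {G : Type*} [Group G] [Finite G] (g : G) :
    ∑ χ : Cfsg.IrrCharacter G, ‖(χ : G → ℂ) g‖ ^ 2 =
      (Nat.card ↥(Subgroup.centralizer ({g} : Set G)) : ℝ) := by
  have h := Cfsg.Agent.Lib.CharBasic.column_orthogonality g g
  rw [if_pos (IsConj.refl g)] at h
  have h2 : ∑ χ : Cfsg.IrrCharacter G, (χ : G → ℂ) g * conj ((χ : G → ℂ) g) =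
      ((∑ χ : Cfsg.IrrCharacter G, ‖(χ : G → ℂ) g‖ ^ 2 : ℝ) : ℂ) := by
    push_cast
    apply Finset.sum_congr rfl
    intro χ _
    rw [Complex.mul_conj, Complex.normSq_eq_norm_sq]
    push_cast; rfl
  rw [h2] at h
  exact_mod_cast h

/-- Let G be a finite group with k conjugacy classes, g ∈ G, and N > 0. Then the sum over the irreducible complex characters χ of G with χ(1) ≥ N of |χ(g)|/χ(1) is at most √(k · #C_G(g)) / N. -/
theorem result {G : Type*} [Group G] [Finite G] (g : G) (N : ℝ) (hN : 0 < N) :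
    ∑ᶠ χ : Cfsg.IrrCharacter G, (if N ≤ ‖(χ : G → ℂ) 1‖ then ‖(χ : G → ℂ) g‖ / ‖(χ : G → ℂ) 1‖ else 0) ≤
      Real.sqrt ((Nat.card (ConjClasses G) : ℝ) * (Nat.card ↥(Subgroup.centralizer ({g} : Set G)) : ℝ)) / N := by
  rw [finsum_eq_sum_of_fintype]
  have h1 : ∀ χ : Cfsg.IrrCharacter G, (if N ≤ ‖(χ : G → ℂ) 1‖ then ‖(χ : G → ℂ) g‖ / ‖(χ : G → ℂ) 1‖ else 0)
      ≤ ‖(χ : G → ℂ) g‖ / N := by
    intro χ
    split_ifs with h
    · gcongr
    · positivity
  refine (Finset.sum_le_sum fun χ _ => h1 χ).trans ?_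
  rw [← Finset.sum_div]
  gcongr
  apply Real.le_sqrt_of_sq_le
  refine (sq_sum_le_card_mul_sum_sq).trans ?_
  rw [sum_norm_sq, ← Cfsg.Agent.Lib.CharBasic.card_irr, Nat.card_eq_fintype_card (α := Cfsg.IrrCharacter G), Finset.card_univ]

end Cfsg.Agent.S4969
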