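import Cfsg.Statements.S4989
import Cfsg.Agent.Lib.GaloisMean

set_option autoImplicit false
open Cfsg

namespace Cfsg.Agent.S4989

open Cfsg.Agent.Lib.CharBasic Cfsg.Agent.Lib.CharGalois Cfsg.Agent.Lib.CharCentral
open Cfsg.Agent.Lib.GaloisMean
open scoped ComplexConjugate

/-- Let H be a subgroup of the finite group G and χ an irreducible complex character of G. Then the inner product of the restriction of χ to H with itself, (1/#H)·Σ_{h ∈ H} |χ(h)|², is at most 1 + #(Z ∖ H)/#H, where Z is the set of zeros of χ in G. -/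
theorem result {G : Type*} [Group G] [Finite G] (H : Subgroup G) (χ : Cfsg.IrrCharacter G) : (Nat.card ↥H : ℝ)⁻¹ * ∑ᶠ h : ↥H, ‖(χ : G → ℂ) h‖ ^ 2 ≤ 1 + (Set.ncard ({x : G | (χ : G → ℂ) x = 0} \ (H : Set G)) : ℝ) / (Nat.card ↥H : ℝ) := by
  classical
  have hFG := Fintype.ofFinite G
  have hcardH : (0 : ℝ) < Nat.card H := by exact_mod_cast Nat.card_pos
  have hcardG : (0 : ℝ) < Nat.card G := by exact_mod_cast Nat.card_pos
  have hcharsq : Cfsg.IsCharacter G ((χ : G → ℂ) * fun g => conj ((χ : G → ℂ) g)) :=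
    χ.2.isCharacter.mul χ.2.isCharacter.conj
  have hsum : ∑ g : G, ‖(χ : G → ℂ) g‖ ^ 2 = Nat.card G := by
    have h1 := χ.2.classInner_self
    rw [classInner_self] at h1
    have h2 : (Nat.card G : ℝ)⁻¹ * ∑ g : G, ‖(χ : G → ℂ) g‖ ^ 2 = 1 := by exact_mod_cast h1
    field_simp at h2
    exact h2
  set T : Finset G := Finset.univ.filter (fun g => g ∉ H ∧ (χ : G → ℂ) g ≠ 0) with hT
  set U : Finset G := Finset.univ.filter (fun g => g ∉ H ∧ (χ : G → ℂ) g = 0) with hU
  have key := card_le_sum hcharsq (fun g => ‖(χ : G → ℂ) g‖ ^ 2) T (by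
    intro k hk g hg
    rw [hT, Finset.mem_filter] at hg ⊢
    refine ⟨Finset.mem_univ _, ?_, ?_⟩
    · intro hgk
      apply hg.2.1
      obtain ⟨m, hm⟩ := exists_pow_eq_self_of_coprime
        (Nat.Coprime.coprime_dvd_right (orderOf_dvd_natCard g) hk)
      rw [← hm]; exact H.pow_mem hgk _
    · obtain ⟨σ, hσ⟩ := exists_ringHom_pow (n := Nat.card G) Nat.card_pos hk
      have h1 : σ ((χ : G → ℂ) g) = (χ : G → ℂ) (g ^ k) := by
        apply map_apply_eq χ.2.isCharacter σ k g
        intro μ hμ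
        apply hσ
        obtain ⟨m, hm⟩ := orderOf_dvd_natCard g
        rw [hm, pow_mul, hμ, one_pow]
      rw [← h1]
      intro h0
      exact hg.2.2 ((map_eq_zero σ).1 h0))
    (by
      intro g _
      show (χ : G → ℂ) g * conj ((χ : G → ℂ) g) = _
      rw [Complex.mul_conj, Complex.normSq_eq_norm_sq])
    (by
      intro g hg
      rw [hT, Finset.mem_filter] at hg
      have := norm_pos_iff.2 hg.2.2
      positivity)
  have h1 : ∑ g ∈ T, ‖(χ : G → ℂ) g‖ ^ 2 = ∑ g ∈ Finset.univ.filter (fun g => g ∉ H), ‖(χ : G → ℂ) g‖ ^ 2 := by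
    rw [hT, ← Finset.filter_filter]
    apply Finset.sum_filter_of_ne
    intro g _ hg h0
    rw [h0] at hg; simp at hg
  have h2 : ∑ g : G, ‖(χ : G → ℂ) g‖ ^ 2 = ∑ g ∈ Finset.univ.filter (fun g => g ∈ H), ‖(χ : G → ℂ) g‖ ^ 2 +
      ∑ g ∈ Finset.univ.filter (fun g => g ∉ H), ‖(χ : G → ℂ) g‖ ^ 2 :=
    (Finset.sum_filter_add_sum_filter_not _ _ _).symm
  have h3 : ∑ g ∈ Finset.univ.filter (fun g => g ∈ H), ‖(χ : G → ℂ) g‖ ^ 2 = ∑ᶠ h : ↥H, ‖(χ : G → ℂ) h‖ ^ 2 := by
    rw [finsum_eq_sum_of_fintype]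
    rw [Finset.sum_subtype (Finset.univ.filter (fun g => g ∈ H)) (p := fun g => g ∈ H) (by simp)]
  have h4 : Set.ncard ({x : G | (χ : G → ℂ) x = 0} \ (H : Set G)) = U.card := by
    rw [← Set.ncard_coe_finset]
    congr 1
    ext g
    simp [hU, and_comm]
  have h5 : T.card + U.card + Nat.card H = Nat.card G := by
    have e1 : (Finset.univ.filter (fun g => g ∉ H)).card = T.card + U.card := by
      rw [hT, hU, ← Finset.filter_filter, ← Finset.filter_filter, add_comm]
      exact (Finset.card_filter_add_card_filter_not _).symm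
    have e2 : (Finset.univ.filter (fun g => g ∈ H)).card + (Finset.univ.filter (fun g => g ∉ H)).card =
        Fintype.card G := Finset.card_filter_add_card_filter_not _
    have e3 : (Finset.univ.filter (fun g => g ∈ H)).card = Nat.card H := by
      rw [Nat.card_eq_fintype_card, Fintype.card_subtype]
    rw [Nat.card_eq_fintype_card (α := G)]
    omega
  have h6 : (T.card : ℝ) + U.card + Nat.card H = Nat.card G := by exact_mod_cast h5
  rw [h4, ← h3]
  have h7 : ∑ g ∈ Finset.univ.filter (fun g => g ∈ H), ‖(χ : G → ℂ) g‖ ^ 2 ≤ Nat.card H + U.card := by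
    have := key.1
    rw [h1] at this
    linarith
  rw [inv_mul_le_iff₀ hcardH, mul_add, mul_one, mul_div_cancel₀ _ hcardH.ne']
  exact h7

end Cfsg.Agent.S4989
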