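import Cfsg.Statements.S4996
import Cfsg.Agent.Lib.GaloisMean

set_option autoImplicit false
open Cfsg

namespace Cfsg.Agent.S4996

open Cfsg.Agent.Lib.CharBasic Cfsg.Agent.Lib.CharGalois Cfsg.Agent.Lib.CharCentral
open Cfsg.Agent.Lib.GaloisMean
open scoped ComplexConjugate

/-- Let N be a normal subgroup of the finite group G and χ an irreducible complex character of G. Then the restriction of χ to N is not irreducible if and only if χ vanishes on some whole coset Nx of N in G. -/
theorem result {G : Type*} [Group G] [Finite G] (N : Subgroup G) [N.Normal] (χ : Cfsg.IrrCharacter G) : ¬ Cfsg.IsIrrCharacter ↥N (fun n : ↥N => (χ : G → ℂ) n) ↔ ∃ x : G, ∀ n : ↥N, (χ : G → ℂ) ((n : G) * x) = 0 := by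
  classical
  have hFG := Fintype.ofFinite G
  have hFN := Fintype.ofFinite N
  have hcardN : (0 : ℝ) < Nat.card N := by exact_mod_cast Nat.card_pos
  have hcardG : (0 : ℝ) < Nat.card G := by exact_mod_cast Nat.card_pos
  have hcharsq : Cfsg.IsCharacter G ((χ : G → ℂ) * fun g => conj ((χ : G → ℂ) g)) :=
    χ.2.isCharacter.mul χ.2.isCharacter.conj
  have hresN : Cfsg.IsCharacter N (fun n : ↥N => (χ : G → ℂ) n) := χ.2.isCharacter.restrict N
  have hsum : ∑ g : G, ‖(χ : G → ℂ) g‖ ^ 2 = Nat.card G := by
    have h1 := χ.2.classInner_self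
    rw [classInner_self] at h1
    have h2 : (Nat.card G : ℝ)⁻¹ * ∑ g : G, ‖(χ : G → ℂ) g‖ ^ 2 = 1 := by exact_mod_cast h1
    field_simp at h2
    exact h2
  constructor
  · intro hnot
    by_contra hno
    push Not at hno
    apply hnot
    apply hresN.isIrr_of_norm_one
    have hav := isCharacter_avg N hcharsq
    set r : G → ℝ := fun g => (Nat.card N : ℝ)⁻¹ * ∑ n : N, ‖(χ : G → ℂ) (n * g)‖ ^ 2 with hr
    have key := card_le_sum hav r Finset.univ (fun _ _ _ _ => Finset.mem_univ _)
      (by
        intro g _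
        rw [hr]
        push_cast
        congr 1
        refine Finset.sum_congr rfl fun n _ => ?_
        show (χ : G → ℂ) _ * conj ((χ : G → ℂ) _) = _
        rw [Complex.mul_conj, Complex.normSq_eq_norm_sq]
        push_cast; rfl)
      (by
        intro g _
        obtain ⟨n, hn⟩ := hno g
        rw [hr]
        apply mul_pos (inv_pos.2 hcardN)
        apply Finset.sum_pos' (fun _ _ => by positivity)
        exact ⟨n, Finset.mem_univ _, by have := norm_pos_iff.2 hn; positivity⟩)
    have hle : ∑ g : G, r g ≤ (Finset.univ : Finset G).card := by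
      rw [Finset.card_univ, ← Nat.card_eq_fintype_card, ← hsum, hr, ← Finset.mul_sum,
        Finset.sum_comm]
      have : ∀ n : N, ∑ g : G, ‖(χ : G → ℂ) (n * g)‖ ^ 2 = ∑ g : G, ‖(χ : G → ℂ) g‖ ^ 2 := fun n =>
        Fintype.sum_equiv (Equiv.mulLeft (n : G)) _ _ (fun _ => rfl)
      simp only [this, Finset.sum_const, Finset.card_univ, ← Nat.card_eq_fintype_card, nsmul_eq_mul]
      rw [inv_mul_cancel_left₀ hcardN.ne']
    have h1 := key.2 hle 1 (Finset.mem_univ _)
    rw [classInner_self]
    rw [hr] at h1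
    simp only [mul_one] at h1
    rw [h1]; norm_num
  · rintro ⟨x, hx⟩ hirr
    have htriv : Cfsg.IsIrrCharacter G (fun _ : G => (1 : ℂ)) :=
      isCharacter_one.isIrr_of_one_eq_one rfl
    have h1 := (Cfsg.Agent.Lib.CosetAvg.coset_average hirr χ.2 (fun _ => rfl) χ.2).1 (fun _ => 1) htriv
      (fun _ => rfl) (by funext g; simp) x
    simp only [hx, map_zero, mul_zero, Finset.sum_const_zero] at h1
    exact zero_ne_one h1

end Cfsg.Agent.S4996
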