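import Cfsg.Statements.S5001
import Cfsg.Agent.Lib.BlockDefect
import Cfsg.Agent.Lib.NilChar
import Cfsg.Agent.Lib.CharDegrees

set_option autoImplicit false
open Cfsg

namespace Cfsg.Agent.S5001

open Cfsg Cfsg.Agent.Lib.CharBasic Cfsg.Agent.Lib.BlockRing Cfsg.Agent.Lib.BlockGA
open scoped ComplexConjugate

/-- a character value which is a unit modulo `M` at an element centralising the `p`-subgroup `D`:
there is a linear constituent of the restriction to `⟨D, g⟩`. -/
lemma exists_linear {G : Type*} [Group G] [Finite G] {p : ℕ} [hp : Fact p.Prime]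
    {M : Ideal Cfsg.AlgInt} (hM : Cfsg.IsPModular p M) {D H : Subgroup G} (hD : IsPGroup p D)
    {g : G} (hgD : ∀ d ∈ D, d * g = g * d) (hDH : D ≤ H) (hgH : g ∈ H)
    (hH : H ≤ D ⊔ Subgroup.zpowers g)
    {χ : G → ℂ} (hχ : Cfsg.IsCharacter G χ) (hg : ¬ Cfsg.MemLocalIdeal M (χ g)) [Fintype H] :
    ∃ ψ : H → ℂ, Cfsg.IsIrrCharacter H ψ ∧ ψ 1 = 1 ∧
      Cfsg.classInner (fun h : H => χ h) ψ ≠ 0 := by
  have hMp := isPrime hM
  have hres : Cfsg.IsCharacter H (fun h : H => χ h) := hχ.restrict H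
  obtain ⟨c, hc, hs⟩ := hres.exists_coeff
  set g' : H := ⟨g, hgH⟩ with hg'
  -- centre
  have hgc : g' ∈ Subgroup.center H := by
    rw [Subgroup.mem_center_iff]
    intro x
    apply Subtype.ext
    show (x : G) * g = g * x
    have hx : (x : G) ∈ Subgroup.centralizer ({g} : Set G) := by
      have : D ⊔ Subgroup.zpowers g ≤ Subgroup.centralizer ({g} : Set G) := by
        refine sup_le ?_ ?_
        · intro d hd
          rw [Subgroup.mem_centralizer_singleton_iff]
          exact hgD d hd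
        · rw [Subgroup.zpowers_le, Subgroup.mem_centralizer_singleton_iff]
      exact this (hH x.2)
    exact Subgroup.mem_centralizer_singleton_iff.1 hx
  have hindex : IsPGroup p (H ⧸ Subgroup.center H) := by
    let f : D →* H ⧸ Subgroup.center H := (QuotientGroup.mk' (Subgroup.center H)).comp
      (Subgroup.inclusion hDH)
    have hf : Function.Surjective f := by
      rw [← MonoidHom.range_eq_top, eq_top_iff]
      intro q _
      obtain ⟨x, rfl⟩ := QuotientGroup.mk'_surjective _ q
      let T : Subgroup G := (f.range.comap (QuotientGroup.mk' (Subgroup.center H))).map H.subtype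
      have hT : D ⊔ Subgroup.zpowers g ≤ T := by
        refine sup_le ?_ ?_
        · intro d hd
          exact ⟨⟨d, hDH hd⟩, ⟨⟨d, hd⟩, rfl⟩, rfl⟩
        · rw [Subgroup.zpowers_le]
          refine ⟨g', ?_, rfl⟩
          show (QuotientGroup.mk' (Subgroup.center H)) g' ∈ f.range
          have : (QuotientGroup.mk' (Subgroup.center H)) g' = 1 := by
            rw [QuotientGroup.mk'_apply, QuotientGroup.eq_one_iff]; exact hgc
          rw [this]; exact Subgroup.one_mem _
      obtain ⟨y, hy, hyx⟩ := hT (hH x.2)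
      have : y = x := Subtype.ext hyx
      rw [← this]; exact hy
    exact hD.of_surjective f hf
  have hdeg : ∀ ψ : IrrCharacter H, (∃ n : ℕ, p ∣ n ∧ (ψ : H → ℂ) 1 = n) ∨ (ψ : H → ℂ) 1 = 1 := by
    intro ψ
    obtain ⟨m, ρ, hρ, hψ⟩ := ψ.2
    have := hρ
    have h1 := Cfsg.Agent.Lib.CharDegrees.finrank_dvd_index_center ρ
    have h2 : (ψ : H → ℂ) 1 = (Module.finrank ℂ (Fin m → ℂ) : ℂ) := by
      rw [← hψ]; simp
    obtain ⟨k, hk⟩ := IsPGroup.iff_card.1 hindex
    have h3 : Module.finrank ℂ (Fin m → ℂ) ∣ p ^ k := by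
      rw [← hk]; exact h1
    obtain ⟨j, hj, hj'⟩ := (Nat.dvd_prime_pow hp.out).1 h3
    rw [h2, hj']
    rcases Nat.eq_zero_or_pos j with h0 | h0
    · right; rw [h0]; norm_num
    · left; exact ⟨p ^ j, dvd_pow_self p (by omega), rfl⟩
  by_contra hno
  push Not at hno
  apply hg
  have h1 : χ g = ∑ ψ : IrrCharacter H, (c ψ : ℂ) * (ψ : H → ℂ) g' := by
    have := congrFun hs g'
    simp only [Finset.sum_apply, Pi.smul_apply, smul_eq_mul] at this
    exact this
  rw [h1]
  apply idl_sum
  intro ψ _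
  rcases hdeg ψ with ⟨n, hn, hn'⟩ | h2
  · obtain ⟨e, he1, he2⟩ := Cfsg.Agent.Lib.NilChar.exists_central_scalar ψ.2 hgc
    have h3 := he2 1
    rw [one_mul, hn'] at h3
    rw [h3]
    apply idl_mul_left (loc_natCast _)
    apply idl_mul_left
    · apply loc_of_isIntegral
      exact IsIntegral.of_pow (orderOf_pos g') (by rw [he1]; exact isIntegral_one)
    · exact (idl_natCast_iff hM n).2 hn
  · have := hno ψ ψ.2 h2
    rw [hc ψ] at this
    rw [this, zero_mul]
    exact idl_zero


/-- Let p be a prime, G a finite group and B a p-block of G (relative to a maximal ideal M of the algebraic integers containing p) with defect group D. Let Z be a central p-subgroup of G contained in D and λ a linear character of Z (a homomorphism to the nonzero complex numbers). Say an irreducible character χ of G lies over λ when χ(z) = χ(1)λ(z) for all z ∈ Z. If some irreducible character in B lying over λ has height zero, then λ extends to a linear character of D. -/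
theorem result {G : Type*} [Group G] [Finite G] (p : ℕ) [Fact p.Prime] (M : Ideal Cfsg.AlgInt) (hM : Cfsg.IsPModular p M) (B : Set (Cfsg.IrrCharacter G)) (hB : Cfsg.IsPBlock M B) (D : Subgroup G) (hD : Cfsg.IsDefectGroup p M B D) (Z : Subgroup G) (hZc : Z ≤ Subgroup.center G) (hZp : IsPGroup p ↥Z) (hZD : Z ≤ D) (lam : ↥Z →* ℂˣ) (χ : Cfsg.IrrCharacter G) (hχ : χ ∈ B) (hover : (∀ z : ↥Z, (χ : G → ℂ) z = (χ : G → ℂ) 1 * (lam z : ℂ))) (h0 : Cfsg.blockHeight p B (χ : G → ℂ) = 0) : (∃ μ : ↥D →* ℂˣ, ∀ z : ↥Z, μ ⟨(z : G), hZD z.2⟩ = lam z) := by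
  classical
  have hFG := Fintype.ofFinite G
  have hMp := isPrime hM
  obtain ⟨g, hg, hgD⟩ := hD
  have h0' := (Cfsg.Agent.Lib.BlockDefect.height_zero_iff hχ).1 h0
  have hval := Cfsg.Agent.Lib.BlockDefect.not_idl_value_of_height_zero hM hB hg hχ h0'
  have hDp : IsPGroup p D := Cfsg.Agent.Lib.BlockDefect.sylIn_isPGroup hgD
  have hDc : ∀ d ∈ D, d * g = g * d := by
    intro d hd
    have := (Cfsg.Agent.Lib.BlockDefect.sylIn_le hgD) hd
    exact Subgroup.mem_centralizer_singleton_iff.1 this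
  set H : Subgroup G := D ⊔ Subgroup.zpowers g with hH
  have hDH : D ≤ H := le_sup_left
  have hgH : g ∈ H := Subgroup.mem_sup_right (Subgroup.mem_zpowers g)
  obtain ⟨ψ, hψ, hψ1, hin⟩ := exists_linear hM hDp hDc hDH hgH le_rfl χ.2.isCharacter hval
  obtain ⟨f, hf⟩ := hψ.isCharacter.exists_hom hψ1
  refine ⟨f.comp (Subgroup.inclusion hDH), ?_⟩
  intro z
  have hzc : (z : G) ∈ Subgroup.center G := hZc z.2
  obtain ⟨c, hc1, hc⟩ := Cfsg.Agent.Lib.NilChar.exists_central_scalar χ.2 hzc
  have hχ1 : (χ : G → ℂ) 1 ≠ 0 := χ.2.one_ne_zero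
  have hcl : c = (lam z : ℂ) := by
    have h1 := hc 1
    rw [one_mul, hover z] at h1
    have h2 : (χ : G → ℂ) 1 * ((lam z : ℂ) - c) = 0 := by linear_combination h1
    rcases mul_eq_zero.1 h2 with h3 | h3
    · exact absurd h3 hχ1
    · exact (sub_eq_zero.1 h3).symm
  set z' : H := ⟨(z : G), hDH (hZD z.2)⟩ with hz'
  have hshift : classInner (fun h : H => (χ : G → ℂ) h) ψ =
      (c * conj (ψ z')) * classInner (fun h : H => (χ : G → ℂ) h) ψ := by
    conv_lhs => unfold classInner
    conv_rhs => unfold classInner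
    rw [← mul_assoc, mul_comm (c * conj (ψ z')), mul_assoc]
    congr 1
    rw [Finset.mul_sum]
    rw [← Equiv.sum_comp (Equiv.mulRight z')]
    refine Finset.sum_congr rfl fun h _ => ?_
    have h1 : (χ : G → ℂ) ((Equiv.mulRight z' h : H) : G) = c * (χ : G → ℂ) h := hc h
    have h2 : ψ (Equiv.mulRight z' h) = ψ h * ψ z' := by
      rw [hf, hf, hf]
      show ((f (h * z') : ℂˣ) : ℂ) = _
      rw [map_mul]; rfl
    show (χ : G → ℂ) ((Equiv.mulRight z' h : H) : G) * conj (ψ (Equiv.mulRight z' h)) =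
      c * conj (ψ z') * ((χ : G → ℂ) h * conj (ψ h))
    rw [h1, h2, map_mul]
    ring
  have h1 : c * conj (ψ z') = 1 := by
    have h2 : (c * conj (ψ z') - 1) * classInner (fun h : H => (χ : G → ℂ) h) ψ = 0 := by
      linear_combination -hshift
    rcases mul_eq_zero.1 h2 with h3 | h3
    · exact sub_eq_zero.1 h3
    · exact absurd h3 hin
  have h2 := hψ.isCharacter.mul_conj_of_linear hψ1 z'
  have h3 : ψ z' = c := by
    have : ψ z' * (c * conj (ψ z')) = ψ z' := by rw [h1, mul_one]
    rw [← this]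
    linear_combination c * h2
  apply Units.ext
  rw [← hcl, ← h3, hf z']
  rfl

end Cfsg.Agent.S5001
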