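import Cfsg.Statements.S5011
-- import your own Cfsg.Agent.* helpers here

set_option autoImplicit false
open Cfsg

namespace Cfsg.Agent.S5011

/-- Let G be a finite non-abelian simple group and ρ an irreducible complex representation of G on a space of dimension greater than one (irreducible in the sense that the only subspaces invariant under every ρ(x) are 0 and the whole space). Then for every non-identity element g of G, the centralizer of g does not act irreducibly: there is a non-zero proper subspace invariant under ρ(c) for every c commuting with g. -/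
theorem result {G : Type*} [Group G] [Finite G] [IsSimpleGroup G]
    (hG : ¬ IsMulCommutative G) {V : Type*} [AddCommGroup V] [Module ℂ V] [FiniteDimensional ℂ V]
    (ρ : Representation ℂ G V)
    (hirr : ∀ W : Submodule ℂ V, (∀ x : G, ∀ v ∈ W, ρ x v ∈ W) → W = ⊥ ∨ W = ⊤)
    (hdim : 1 < Module.finrank ℂ V) (g : G) (hg : g ≠ 1) :
    ∃ W : Submodule ℂ V, W ≠ ⊥ ∧ W ≠ ⊤ ∧ ∀ c ∈ Subgroup.centralizer ({g} : Set G), ∀ v ∈ W, ρ c v ∈ W := by
  by_contra hcon
  push Not at hcon
  have hnt : Nontrivial V := Module.nontrivial_of_finrank_pos (R := ℂ) (by omega)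
  obtain ⟨μ, hμ⟩ := Module.End.exists_eigenvalue (ρ g)
  have hW : ∀ v ∈ Module.End.eigenspace (ρ g) μ, ∀ c ∈ Subgroup.centralizer ({g} : Set G),
      ρ c v ∈ Module.End.eigenspace (ρ g) μ := by
    intro v hv c hc
    rw [Module.End.mem_eigenspace_iff] at hv ⊢
    have hcg : g * c = c * g := (Subgroup.mem_centralizer_singleton_iff.mp hc).symm
    rw [← Module.End.mul_apply, ← map_mul, hcg, map_mul, Module.End.mul_apply, hv, map_smul]
  have htop : Module.End.eigenspace (ρ g) μ = ⊤ := by
    by_contra hne
    obtain ⟨c, hc, v, hv, hnv⟩ := hcon _ hμ hne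
    exact hnv (hW v hv c hc)
  have hscal : ∀ v, ρ g v = μ • v := by
    intro v
    have : v ∈ Module.End.eigenspace (ρ g) μ := by rw [htop]; trivial
    rwa [Module.End.mem_eigenspace_iff] at this
  -- the kernel of ρ
  rcases (MonoidHom.normal_ker ρ).eq_bot_or_eq_top with hk | hk
  · have hcen : g ∈ Subgroup.center G := by
      rw [Subgroup.mem_center_iff]
      intro x
      have h1 : ρ (x * g) = ρ (g * x) := by
        ext v
        simp only [map_mul, Module.End.mul_apply, hscal, map_smul]
      have h2 : (x * g) * (g * x)⁻¹ ∈ ρ.ker := by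
        rw [MonoidHom.mem_ker, map_mul, h1, ← map_mul, mul_inv_cancel, map_one]
      rw [hk, Subgroup.mem_bot] at h2
      exact mul_inv_eq_one.mp h2
    rcases (inferInstance : (Subgroup.center G).Normal).eq_bot_or_eq_top with hc | hc
    · rw [hc, Subgroup.mem_bot] at hcen
      exact hg hcen
    · apply hG
      constructor
      constructor
      intro a b
      have hb : b ∈ Subgroup.center G := by rw [hc]; trivial
      exact (Subgroup.mem_center_iff.mp hb a)
  · obtain ⟨v, hv⟩ := exists_ne (0 : V)
    rcases hirr (Submodule.span ℂ {v}) (by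
      intro x w hw
      have hx : x ∈ ρ.ker := by rw [hk]; trivial
      rw [MonoidHom.mem_ker] at hx
      rw [hx]; exact hw) with h | h
    · rw [Submodule.span_singleton_eq_bot] at h
      exact hv h
    · have h1 : Module.finrank ℂ (Submodule.span ℂ {v}) = 1 := finrank_span_singleton hv
      rw [h, finrank_top] at h1
      omega

end Cfsg.Agent.S5011
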