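import Cfsg.Statements.S5012
import Cfsg.Agent.Lib.LieFin
import Cfsg.Agent.Lib.SHK8
import Cfsg.Agent.Lib.SplitTop

set_option autoImplicit false
open Cfsg

namespace Cfsg.Agent.S5012

/-- Let G be a finite simple group of Lie type in characteristic p. Then every p-block of G has defect zero or full defect: its defect is 0 or the exponent of p in the order of G (its defect groups are trivial or Sylow p-subgroups). -/
theorem result {G : Type*} [Group G] [Finite G] (p : ℕ) [Fact p.Prime] (hG : Cfsg.IsLieTypeChar p G) (M : Ideal Cfsg.AlgInt) (hM : Cfsg.IsPModular p M) (B : Set (Cfsg.IrrCharacter G)) (hB : Cfsg.IsPBlock M B) : Cfsg.blockDefect p B = 0 ∨ Cfsg.blockDefect p B = (Nat.card G).factorization p := by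
  have hp : p.Prime := Fact.out
  have hs : IsSimpleGroup G := Cfsg.Agent.Lib.SplitTop.isSimple hG
  have hpG := Cfsg.Agent.Lib.SplitTop.dvd_card hp hG
  obtain ⟨P, V, h⟩ := Cfsg.Agent.Lib.LieFin.lie_fin p hG
  exact Cfsg.Agent.Lib.SHK.block_defect (h.ps.toSBN h.cop) hpG hM hB

end Cfsg.Agent.S5012
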