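import Cfsg.Statements.S5075
import Cfsg.Agent.Lib.H50McL6

set_option autoImplicit false
open Cfsg

namespace Cfsg.Agent.S5075

open Cfsg.Agent.Lib.H50McL in
theorem main {p : ℕ} [Fact p.Prime] (hp : Odd p) {V : Type*} [AddCommGroup V] [Module (ZMod p) V] [Finite V]
    (H : Subgroup (V ≃ₗ[ZMod p] V)) (T : Set (V ≃ₗ[ZMod p] V)) (hHT : H = Subgroup.closure T)
    (hT : ∀ t ∈ T, orderOf t = p ∧
      Module.finrank (ZMod p) ↥(LinearMap.ker ((t : V →ₗ[ZMod p] V) - LinearMap.id)) + 1 =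
        Module.finrank (ZMod p) V)
    (hOp : Cfsg.pCore p ↥H = ⊥) :
    ∃ (n : ℕ) (U W : Fin n → Submodule (ZMod p) V) (K : Fin n → Subgroup (V ≃ₗ[ZMod p] V)), 1 ≤ n ∧
      (∀ j, Good H (U j) (W j) (K j)) ∧ (∀ i j, i ≠ j → U i ≤ W j) ∧ ⨆ j, K j = H := by
  classical
  have hform : ∀ t ∈ T, ∃ (a : V) (φ : Module.Dual (ZMod p) V), a ≠ 0 ∧ φ ≠ 0 ∧ φ a = 0 ∧
      ∀ v, t v = v + φ v • a := fun t ht => exists_form hp (hT t ht).1 (hT t ht).2
  have hP := partner_of_pCore hp hOp
  -- the components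
  have hcomp : ∀ x, Gm H x → ∃ (U : Submodule (ZMod p) V) (X : Submodule (ZMod p) (Module.Dual (ZMod p) V)),
      Comp2 H (cen H x) U X ∧ Good H U X.dualCoannihilator (KK H (cen H x)) := by
    intro x hx
    have hC := comp_cen hP hx
    have hinv : ∀ g ∈ H, ∀ b ∈ cen H x, g b ∈ cen H x := fun g hg => cen_inv hP hx hHT hform hg
    have hne : (cen H x).Nonempty := ⟨x.1, x.2, hx, Conn.refl x⟩
    by_cases hm : ∀ a ∈ cen H x, 2 ≤ Module.finrank (ZMod p) (MM H a)
    · obtain ⟨U, X, h1, h2⟩ := hC.asym hm hne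
      exact ⟨U, X, h1, good_of_comp hC hinv h1 (typ_asym hC hinv h1 h2)⟩
    · push Not at hm
      obtain ⟨a, ha, hm⟩ := hm
      have hm' : ∀ b ∈ cen H x, Module.finrank (ZMod p) (MM H b) ≤ 1 := by
        intro b hb
        rw [hC.finrank_eq hb ha]
        omega
      obtain ⟨U, X, h1, B, h2⟩ := hC.symp hm' hne hp (chain_cen hp hOp hinv)
      exact ⟨U, X, h1, good_of_comp hC hinv h1 (typ_symp hC hinv h1 h2)⟩
  let C : Type _ := {S : Set V // ∃ x, Gm H x ∧ S = cen H x}
  have hcomp' : ∀ c : C, ∃ (U : Submodule (ZMod p) V) (X : Submodule (ZMod p) (Module.Dual (ZMod p) V)),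
      Comp2 H c.1 U X ∧ Good H U X.dualCoannihilator (KK H c.1) := by
    rintro ⟨S, x, hx, rfl⟩
    exact hcomp x hx
  choose Uc Xc h1 h2 using hcomp'
  haveI : Fintype (Option C) := Fintype.ofFinite _
  let e : Fin (Fintype.card (Option C)) ≃ Option C := (Fintype.equivFin (Option C)).symm
  let UU : Option C → Submodule (ZMod p) V := fun o => o.elim ⊥ Uc
  let WW : Option C → Submodule (ZMod p) V := fun o => o.elim ⊤ (fun c => (Xc c).dualCoannihilator)
  let KC : Option C → Subgroup (V ≃ₗ[ZMod p] V) := fun o => o.elim ⊥ (fun c => KK H c.1)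
  refine ⟨Fintype.card (Option C), fun j => UU (e j), fun j => WW (e j), fun j => KC (e j), ?_, ?_, ?_, ?_⟩
  · exact Fintype.card_pos
  · intro j
    change Good H (UU (e j)) (WW (e j)) (KC (e j))
    rcases e j with _ | c
    · exact good_none H
    · exact h2 c
  · intro i j hij
    change UU (e i) ≤ WW (e j)
    have hne : e i ≠ e j := fun h => hij (e.injective h)
    revert hne
    rcases e i with _ | c
    · intro _; exact bot_le
    · rcases e j with _ | d
      · intro _; exact le_top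
      · intro hne
        have hcd : c ≠ d := fun h => hne (by rw [h])
        change Uc c ≤ (Xc d).dualCoannihilator
        intro v hv
        rw [Submodule.mem_dualCoannihilator]
        intro φ hφ
        rcases ((h1 c).mem_U v).mp hv with rfl | hv
        · rw [map_zero]
        · by_cases hφ0 : φ = 0
          · rw [hφ0]; rfl
          · obtain ⟨b, hb, hφb⟩ := (h1 d).axis_X φ hφ hφ0
            obtain ⟨S, x, hx, hS⟩ := c
            obtain ⟨S', y, hy, hS'⟩ := d
            simp only at hv hb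
            rw [hS] at hv
            rw [hS'] at hb
            obtain ⟨ψ, h3, h4⟩ := hv
            obtain ⟨ψ', h5, h6⟩ := hb
            have h7 : Gm H (b, φ) := ⟨h5.1, hφ0, hφb⟩
            have h8 : Conn H y (b, φ) := (mem_cen_iff hP hy h5.1 hφ0 hφb).mp ⟨ψ', h5, h6⟩
            refine perp_of_not_conn hP h7 h3 fun h9 => hcd ?_
            -- the components coincide
            have h10 : Conn H x y := (h4.trans h9.symm).trans h8.symm
            apply Subtype.ext
            simp only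
            rw [hS, hS']
            ext w
            constructor
            · rintro ⟨θ, k1, k2⟩
              exact ⟨θ, k1, h10.symm.trans k2⟩
            · rintro ⟨θ, k1, k2⟩
              exact ⟨θ, k1, h10.trans k2⟩
  · apply le_antisymm
    · refine iSup_le fun j => ?_
      change KC (e j) ≤ H
      rcases e j with _ | c
      · exact bot_le
      · exact KK_le
    · conv_lhs => rw [hHT]
      rw [Subgroup.closure_le]
      intro t ht
      obtain ⟨a, φ, ha0, hφ0, hφa, ht'⟩ := hform t ht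
      have htH : t ∈ H := hHT ▸ Subgroup.subset_closure ht
      have hG : Gm H (a, φ) := ⟨ha0, hφ0, hφa, t, htH, ht'⟩
      let c : C := ⟨cen H (a, φ), (a, φ), hG, rfl⟩
      have h3 : t ∈ KC (e (e.symm (some c))) := by
        rw [e.apply_symm_apply]
        exact mem_KK (P := cen H (a, φ)) ⟨φ, hG, Conn.refl _⟩ hG.2.2 ht'
      exact (le_iSup (fun j => KC (e j)) (e.symm (some c))) h3

/-- Let p be an odd prime, V a finite-dimensional vector space over the field with p elements, and H a group of linear automorphisms of V generated by transvections (elements of order p fixing a hyperplane pointwise) and having no nontrivial normal p-subgroup. Then for some n ≥ 1 there are a decomposition V = V₀ ⊕ V₁ ⊕ ⋯ ⊕ Vₙ into H-invariant subspaces and a decomposition of H as the internal direct product of normal subgroups H₁, …, Hₙ such that Hⱼ acts trivially on every Vᵢ with i ≠ j, and Hⱼ induces on Vⱼ exactly the special linear group of Vⱼ or exactly the isometry group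 of a non-degenerate alternating form on Vⱼ. -/
theorem result {p : ℕ} [Fact p.Prime] (hp : Odd p) {V : Type*} [AddCommGroup V] [Module (ZMod p) V] [Finite V]
    (H : Subgroup (V ≃ₗ[ZMod p] V)) (T : Set (V ≃ₗ[ZMod p] V)) (hHT : H = Subgroup.closure T)
    (hT : ∀ t ∈ T, orderOf t = p ∧
      Module.finrank (ZMod p) ↥(LinearMap.ker ((t : V →ₗ[ZMod p] V) - LinearMap.id)) + 1 =
        Module.finrank (ZMod p) V)
    (hOp : Cfsg.pCore p ↥H = ⊥) :
    ∃ (n : ℕ) (W : Fin (n + 1) → Submodule (ZMod p) V) (K : Fin n → Subgroup (V ≃ₗ[ZMod p] V)),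
      1 ≤ n ∧ DirectSum.IsInternal W ∧
      (∀ h ∈ H, ∀ i, (W i).map (h : V →ₗ[ZMod p] V) = W i) ∧
      (∀ j, K j ≤ H ∧ ((K j).subgroupOf H).Normal) ∧ ⨆ j, K j = H ∧
      (∀ j, K j ⊓ (⨆ j' ∈ {j' : Fin n | j' ≠ j}, K j') = ⊥) ∧
      (∀ j j', j ≠ j' → ∀ a ∈ K j, ∀ b ∈ K j', a * b = b * a) ∧
      (∀ j, ∀ h ∈ K j, ∀ i : Fin (n + 1), i ≠ j.succ → ∀ v ∈ W i, h v = v) ∧
      (∀ j, ∃ ρ : ↥(K j) →* (↥(W j.succ) ≃ₗ[ZMod p] ↥(W j.succ)),
        (∀ (h : ↥(K j)) (v : ↥(W j.succ)), ((ρ h v : ↥(W j.succ)) : V) = (h : V ≃ₗ[ZMod p] V) (v : V)) ∧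
        ((ρ.range : Set (↥(W j.succ) ≃ₗ[ZMod p] ↥(W j.succ))) =
            {f : ↥(W j.succ) ≃ₗ[ZMod p] ↥(W j.succ) | LinearMap.det (f : ↥(W j.succ) →ₗ[ZMod p] ↥(W j.succ)) = 1} ∨
          ∃ B : LinearMap.BilinForm (ZMod p) ↥(W j.succ), B.IsAlt ∧ B.Nondegenerate ∧
            (ρ.range : Set (↥(W j.succ) ≃ₗ[ZMod p] ↥(W j.succ))) = {f : ↥(W j.succ) ≃ₗ[ZMod p] ↥(W j.succ) | ∀ x y, B (f x) (f y) = B x y})) := by
  obtain ⟨n, U, W, K, hn, hG, hUW, hK⟩ := main hp H T hHT hT hOp
  exact Cfsg.Agent.Lib.H50McL.assemble n hn U W K hG hUW hK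

end Cfsg.Agent.S5075
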