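import Cfsg.Statements.S5125
import Cfsg.Agent.Lib.FusionPP

set_option autoImplicit false
open Cfsg
open Cfsg.FusionSystem
open Cfsg.Agent.Lib.FusionBasic
open Cfsg.Agent.Lib.FusionSat
open Cfsg.Agent.Lib.FusionNormal
open Cfsg.Agent.Lib.FusionPP
open Cfsg.Agent.Lib.FusionClosed
open scoped commutatorElement

namespace Cfsg.Agent.S5125

/-- Let F be a saturated fusion system over a finite p-group S and Q a subgroup strongly closed in F. If Q has a subgroup Q₁ that is normal in F, with Q/Q₁ abelian and Aut_F(Q₁) a p-group, then Q is normal in F. -/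
theorem result {Ω : Type*} [Group Ω] {S : Subgroup Ω} [Finite S] (p : ℕ) [Fact p.Prime] (hS : IsPGroup p S) (F : Cfsg.FusionSystem S) (hF : F.IsSaturated p) (Q Q₁ : Subgroup Ω) (hQ : F.StronglyClosed Q) (hQ₁Q : Q₁ ≤ Q) (hQ₁ : F.IsNormal Q₁) (hab : ⁅Q, Q⁆ ≤ Q₁) (hAut : IsPGroup p ↥(F.autGroup Q₁)) : F.IsNormal Q := by
  refine isNormal_of_centricRadical hS hF hQ fun P hPn hPc hPr => ?_
  have hP := hPc.1
  have hQ₁P : Q₁ ≤ P := le_of_isNormal hS hQ₁ hPc hPr
  have hQ₁s := isNormal_stronglyClosed hQ₁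
  have hcl : ∀ K : Subgroup Ω, F.StronglyClosed K → ∀ α ∈ F.autGroup P, ∀ x : P, (x : Ω) ∈ K → ((α x : P) : Ω) ∈ K := by
    intro K hK α hα x hx
    have := StronglyClosed.map_mem F hK (fmap_of_autGroup hP hα) x.2 hx
    rwa [autFun_coe] at this
  have hSc : F.StronglyClosed S := (stronglyClosed_iff F).2 ⟨le_rfl, fun P f _ hf x hx => hf.map_mem hx⟩
  let L : Bool → Subgroup Ω := fun j => if j then S else Q
  let M : Bool → Subgroup Ω := fun j => if j then Q else Q₁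
  have hL : ∀ j, F.StronglyClosed (L j) := fun j => by cases j; exacts [hQ, hSc]
  have hM : ∀ j, F.StronglyClosed (M j) := fun j => by cases j; exacts [hQ₁s, hQ]
  have hst := famStab_le_inn (F := F) hP hPr L M (fun j => hcl _ (hL j)) (fun j => hcl _ (hM j)) (by
    rintro α ⟨hα, h1⟩ ho
    have hpp := pp_of_aut hP hα ho
    -- trivial on Q₁
    have hmap : ∀ x ∈ Q₁, autFun α x ∈ Q₁ := fun x hx => StronglyClosed.map_mem F hQ₁s hpp.map (hQ₁P hx) hx
    have hpp1 := hpp.restrict hQ₁P hmap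
    have htriv : ∀ x ∈ Q₁, autFun α x = x := by
      have h2 := hpp1.order
      obtain ⟨k, hk⟩ := IsPGroup.iff_orderOf.1 hAut ⟨_, hpp1.aut_mem⟩
      rw [Subgroup.orderOf_mk] at hk
      rw [hk] at h2
      have h3 : k = 0 := by
        by_contra hk0
        have := (Nat.coprime_pow_left_iff (Nat.pos_of_ne_zero hk0) p p).1 h2
        exact (Fact.out : p.Prime).one_lt.ne' ((Nat.coprime_self p).1 this)
      rw [h3, pow_zero, orderOf_eq_one_iff] at hk
      intro x hx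
      have h4 : ((hpp1.1.equiv ⟨x, hx⟩ : Q₁) : Ω) = x := by rw [hk]; rfl
      exact h4
    have h2 : ∀ x ∈ P, x ∈ Q → autFun α x = x := by
      intro x hx hxQ
      have h3 : x⁻¹ * autFun α x ∈ Q₁ := by
        have := h1 false ⟨x, hx⟩ hxQ
        rwa [← autFun_coe] at this
      exact hpp.fix hS hQ₁P hx h3 htriv
    refine eq_one_of_autFun fun x hx => ?_
    refine hpp.fix hS (Y := P ⊓ Q) inf_le_left hx ⟨Subgroup.mul_mem _ (Subgroup.inv_mem _ hx) (hpp.mem hx), ?_⟩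
      (fun y hy => h2 y hy.1 hy.2)
    have := h1 true ⟨x, hx⟩ (hP hx)
    rwa [← autFun_coe] at this)
  refine le_of_normalizerIn_le hS hP hQ.1 (normalizes_of_stronglyClosed hQ) fun q hq hqn => ?_
  have hqS := hQ.1 hq
  have h1 : conjAut P q hqn ∈ Inn P := by
    refine hst ⟨conjAut_mem_autGroup hP hqn hqS, fun j x hx => ?_⟩
    rw [conjAut_apply]
    cases j
    · -- x in Q, value in Q₁
      have hx' : (x : Ω) ∈ Q := hx
      have h2 : ⁅(x : Ω)⁻¹, q⁆ ∈ Q₁ := hab (Subgroup.commutator_mem_commutator (Subgroup.inv_mem _ hx') hq)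
      have h3 : (x : Ω)⁻¹ * (q * x * q⁻¹) = ⁅(x : Ω)⁻¹, q⁆ := by rw [commutatorElement_def]; group
      show (x : Ω)⁻¹ * (q * x * q⁻¹) ∈ Q₁
      rw [h3]; exact h2
    · show (x : Ω)⁻¹ * (q * x * q⁻¹) ∈ Q
      have h2 := (Subgroup.mem_normalizer_iff.1 (Subgroup.inv_mem _ (normalizes_of_stronglyClosed hQ (hP x.2)))) q
      have h3 : (x : Ω)⁻¹ * q * (x : Ω)⁻¹⁻¹ * q⁻¹ ∈ Q := Subgroup.mul_mem _ (h2.1 hq) (Subgroup.inv_mem _ hq)
      have h4 : (x : Ω)⁻¹ * (q * x * q⁻¹) = (x : Ω)⁻¹ * q * (x : Ω)⁻¹⁻¹ * q⁻¹ := by group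
      rw [h4]; exact h3
  exact Cfsg.Agent.Lib.FusionAlperin.mem_of_conj_mem_inn (hPc.2 P (isConj_refl F hP)) hqS hqn h1 hP

end Cfsg.Agent.S5125
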