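import Cfsg.Statements.S5126
import Cfsg.Agent.Lib.FusionNormal
import Cfsg.Agent.Lib.FusionGroup
import Cfsg.Agent.Lib.FusionNormSat

set_option autoImplicit false
open Cfsg
open Cfsg.FusionSystem
open Cfsg.Agent.Lib.FusionBasic
open Cfsg.Agent.Lib.FusionSat
open Cfsg.Agent.Lib.FusionNormal
open Cfsg.Agent.Lib.FusionNormSat

namespace Cfsg.Agent.S5126

/-- In a saturated fusion system over a finite p-group S, the normalizer system of a fully normalized, centric, radical subgroup R is constrained, and in every model of that normalizer system the largest normal p-subgroup is the image of R. -/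
theorem result {Ω : Type*} [Group Ω] {S : Subgroup Ω} [Finite S] (p : ℕ) [Fact p.Prime] (hS : IsPGroup p S) (F : Cfsg.FusionSystem S) (hF : F.IsSaturated p) (R : Subgroup Ω) (hRn : F.IsFullyNormalized R) (hRc : F.IsCentric R) (hRr : F.IsRadical p R) (E : Cfsg.FusionSystem (Cfsg.FusionSystem.normalizerIn S R)) (hE : F.IsNormalizerSystem R E) {G : Type*} [Group G] (ι : ↥(Cfsg.FusionSystem.normalizerIn S R) →* G) : E.IsConstrained p ∧ (E.IsModel p G ι → (Cfsg.pCore p G : Subgroup G) = (R.subgroupOf (Cfsg.FusionSystem.normalizerIn S R)).map ι) := by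
  have hRS := hRc.1
  have hRN : R ≤ normalizerIn S R := le_normalizerIn hRS
  have hN := isPGroup_of_le hS (normalizerIn_le S R)
  have hfin : Finite (normalizerIn S R) := finite_of_le (normalizerIn_le S R)
  have hEsat := normalizerSystem_saturated hS hF hRn hE
  have hE' := isNormalizerSystem_iff.1 hE
  have hsub : ∀ (P : Subgroup Ω) (f : Ω → Ω), FMap E P f → FMap F P f := by
    intro P f hf
    obtain ⟨-, -, g, hg, h1, -⟩ := (hE' P f).1 hf
    exact (hg.restrict le_sup_left).congr h1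
  have hup : ∀ f : Ω → Ω, FIso F R R f → FIso E R R f := by
    intro f hf
    refine ⟨(hE' R f).2 ⟨hRN, fun x hx => hRN (hf.mem hx), f, ?_, fun _ _ => rfl, hf⟩, hf.2⟩
    rw [sup_idem]; exact hf.1
  have hnorm : E.IsNormal R := by
    refine (isNormal_iff E).2 ⟨hRN, fun P f hf => ?_⟩
    obtain ⟨hPN, -, g, hg, h1, h2⟩ := (hE' P f).1 hf
    have hsN : P ⊔ R ≤ normalizerIn S R := sup_le hPN hRN
    refine ⟨g, (hE' _ g).2 ⟨hsN, fun x hx => ⟨hg.map_mem hx, ?_⟩, g, ?_, fun _ _ => rfl, h2⟩, h1, hup g h2⟩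
    · exact h2.map_normalizer hg le_sup_right hx (hsN hx).2
    · rw [sup_assoc, sup_idem]; exact hg
  have hcent : E.IsCentric R := by
    refine ⟨hRN, fun Q hQ => ?_⟩
    obtain ⟨f, hf⟩ := isConj_iff_fiso.1 hQ
    have := hRc.2 Q (isConj_iff_fiso.2 ⟨f, hsub _ _ hf.1, hf.2⟩)
    exact fun x hx => this ⟨normalizerIn_le S R hx.1, hx.2⟩
  refine ⟨⟨hEsat, R, hnorm, hcent⟩, ?_⟩
  rintro ⟨hG, hreal, ⟨T, hT⟩, hC⟩
  have hAut : E.autGroup R = F.autGroup R := by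
    ext α
    constructor
    · intro h
      obtain ⟨f, hf, h1⟩ := exists_fmap_of_aut hRN h
      exact mem_autGroup_of_fmap (hsub _ _ hf.1) fun x => (h1 x).symm
    · intro h
      obtain ⟨f, hf, h1⟩ := exists_fmap_of_aut hRS h
      exact mem_autGroup_of_fmap (hup f hf).1 fun x => (h1 x).symm
  have hrad : E.IsRadical p R := by
    rw [isRadical_iff hN hRN, hAut]
    exact (isRadical_iff hS hRS).1 hRr
  set O := (Cfsg.pCore p G : Subgroup G) with hO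
  have hOT : O ≤ ι.range := by rw [← hT]; exact pCore_le_sylow T
  have hOn : O.Normal := Cfsg.Agent.Lib.FusionNormal.pCore_normal
  obtain ⟨Qs, hQs⟩ : ∃ Qs, Qs = (O.comap ι).map (normalizerIn S R).subtype := ⟨_, rfl⟩
  have hQN : Qs ≤ normalizerIn S R := hQs ▸ Subgroup.map_subtype_le _
  have hmem : ∀ (x : Ω) (hx : x ∈ normalizerIn S R), x ∈ Qs ↔ ι ⟨x, hx⟩ ∈ O := by
    intro x hx
    rw [hQs]
    constructor
    · rintro ⟨y, hy, rfl⟩
      exact hy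
    · intro h
      exact ⟨⟨x, hx⟩, h, rfl⟩
  have hQnorm : E.IsNormal Qs := by
    refine (isNormal_iff E).2 ⟨hQN, fun P f hf => ?_⟩
    obtain ⟨φ, hφ, hφf⟩ := hf
    obtain ⟨g, hg⟩ := Cfsg.Agent.Lib.FusionGroup.exists_conj ι hreal hφ
    have hPN := (E.le_of_mem hφ).1
    have hle : P ⊔ Qs ≤ normalizerIn S R := sup_le hPN hQN
    have hPS : P ⊔ Qs ≤ ((ι.range.comap (MulAut.conj g).toMonoidHom).comap ι).map (normalizerIn S R).subtype := by
      refine sup_le (fun x hx => ⟨⟨x, hPN hx⟩, ?_, rfl⟩) (fun x hx => ⟨⟨x, hQN hx⟩, ?_, rfl⟩)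
      · have := hg ⟨x, hx⟩
        show g * ι ⟨x, hPN hx⟩ * g⁻¹ ∈ ι.range
        rw [← this]
        exact ⟨_, rfl⟩
      · exact hOT (hOn.conj_mem _ ((hmem x (hQN hx)).1 hx) g)
    obtain ⟨ψ, hψ, h1, h2⟩ := Cfsg.Agent.Lib.FusionGroup.exists_map ι hreal hle g (fun x => by
      obtain ⟨y, hy, hyx⟩ := hPS x.2
      have : (⟨x, hle x.2⟩ : normalizerIn S R) = y := Subtype.ext hyx.symm
      rw [this]
      exact hy)
    refine ⟨toFun ψ, fmap_toFun.2 hψ, fun x hx => ?_, ?_⟩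
    · rw [toFun_of_mem ψ (Subgroup.mem_sup_left hx), ← hφf ⟨x, hx⟩]
      have h3 := h2 ⟨x, Subgroup.mem_sup_left hx⟩
      have h4 := hg ⟨x, hx⟩
      have h5 : ι ⟨ψ ⟨x, Subgroup.mem_sup_left hx⟩, h1 _⟩ = ι ⟨φ ⟨x, hx⟩, (E.le_of_mem hφ).2 _⟩ := h3.trans h4.symm
      exact congrArg Subtype.val (hreal.1 h5)
    · refine ((fmap_toFun.2 hψ).restrict le_sup_right).fiso_of_card hQN (fun x hx => ?_) le_rfl
      rw [toFun_of_mem ψ (Subgroup.mem_sup_right hx), hmem _ (h1 _), h2]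
      exact hOn.conj_mem _ ((hmem x (hQN hx)).1 hx) g
  have hQR : Qs ≤ R := le_of_isNormal hN hQnorm hcent hrad
  have hOle : O ≤ (R.subgroupOf (normalizerIn S R)).map ι := by
    intro y hy
    obtain ⟨x, rfl⟩ := hOT hy
    exact ⟨x, hQR ((hmem x x.2).2 hy), rfl⟩
  refine le_antisymm hOle (le_pCore ⟨?_⟩ ?_)
  · rintro _ ⟨r, hr, rfl⟩ g
    obtain ⟨φ, hφ, h1, h2⟩ := Cfsg.Agent.Lib.FusionGroup.exists_map ι hreal hQN g (fun x =>
      hOT (hOn.conj_mem _ ((hmem x (hQN x.2)).1 x.2) g))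
    obtain ⟨-, hn⟩ := (isNormal_iff E).1 hnorm
    obtain ⟨ψ, -, h4, h5⟩ := hn Qs (toFun φ) (fmap_toFun.2 hφ)
    obtain ⟨ψ', hψ', hψe⟩ := id h5.1
    obtain ⟨h, hh⟩ := Cfsg.Agent.Lib.FusionGroup.exists_conj ι hreal hψ'
    have hc : g⁻¹ * h ∈ O := by
      refine hC (Subgroup.mem_centralizer_iff.2 fun y hy => ?_)
      obtain ⟨x, rfl⟩ := hOT hy
      have hxQ : (x : Ω) ∈ Qs := (hmem x x.2).2 hy
      have h6 := h2 ⟨x, hxQ⟩
      have h7 := hh ⟨x, hQR hxQ⟩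
      have h8 : (⟨φ ⟨x, hxQ⟩, h1 _⟩ : normalizerIn S R) = ⟨ψ' ⟨x, hQR hxQ⟩, (E.le_of_mem hψ').2 _⟩ := by
        apply Subtype.ext
        show φ ⟨x, hxQ⟩ = ψ' ⟨x, hQR hxQ⟩
        rw [hψe]
        show _ = ψ x
        rw [h4 x hxQ, toFun_of_mem φ hxQ]
      rw [h8, h7] at h6
      have h9 : h * ι x * h⁻¹ = g * ι x * g⁻¹ := h6
      have h10 : ι x = h⁻¹ * (g * ι x * g⁻¹) * h := by rw [← h9]; group
      calc ι x * (g⁻¹ * h) = (h⁻¹ * (g * ι x * g⁻¹) * h) * (g⁻¹ * h) := by rw [← h10]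
        _ = (h⁻¹ * (h * ι x * h⁻¹) * h) * (g⁻¹ * h) := by rw [h9]
        _ = g⁻¹ * (g * ι x * g⁻¹) * h := by group
        _ = g⁻¹ * (h * ι x * h⁻¹) * h := by rw [h9]
        _ = g⁻¹ * h * ι x := by group
    -- g = h * (g⁻¹ h)⁻¹
    obtain ⟨⟨c, hcN⟩, hcc⟩ := hOT hc
    have hcR : c ∈ R := hQR ((hmem c hcN).2 (by rw [hcc]; exact hc))
    have hr' : (r : Ω) ∈ R := hr
    have hcr : c⁻¹ * r * c ∈ R := Subgroup.mul_mem _ (Subgroup.mul_mem _ (Subgroup.inv_mem _ hcR) hr') hcR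
    refine ⟨⟨ψ' ⟨c⁻¹ * r * c, hcr⟩, (E.le_of_mem hψ').2 _⟩, ?_, ?_⟩
    · show ψ' ⟨c⁻¹ * r * c, hcr⟩ ∈ R
      rw [hψe]
      exact h5.mem hcr
    · rw [hh]
      have h11 : ι ⟨c⁻¹ * r * c, hRN hcr⟩ = (g⁻¹ * h)⁻¹ * ι r * (g⁻¹ * h) := by
        rw [← hcc, ← map_inv, ← map_mul, ← map_mul]
        rfl
      show h * ι ⟨c⁻¹ * r * c, hRN hcr⟩ * h⁻¹ = g * ι r * g⁻¹
      rw [h11]
      group
  · exact (hN.to_subgroup (R.subgroupOf (normalizerIn S R))).map ι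

end Cfsg.Agent.S5126
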