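import Cfsg.Statements.S5127
import Cfsg.Agent.Lib.FusionCenClosed

set_option autoImplicit false
open Cfsg
open Cfsg.FusionSystem
open Cfsg.Agent.Lib.FusionBasic
open Cfsg.Agent.Lib.FusionSat
open Cfsg.Agent.Lib.FusionInvar
open Cfsg.Agent.Lib.FusionSys
open Cfsg.Agent.Lib.FusionZeta
open Cfsg.Agent.Lib.FusionCenClosed

namespace Cfsg.Agent.S5127

/-- Let F be a saturated fusion system over a finite p-group S and E a normal subsystem of F over T. Among the subgroups Y of C_S(T) whose centralizer system C_F(Y) contains E there is a largest one, C_S(E), and it is strongly closed in F. -/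
theorem result {Ω : Type*} [Group Ω] {S : Subgroup Ω} [Finite S] (p : ℕ) [Fact p.Prime] (hS : IsPGroup p S) (F : Cfsg.FusionSystem S) (hF : F.IsSaturated p) {T : Subgroup Ω} (E : Cfsg.FusionSystem T) (hE : E.IsNormalIn F p) : ∃ C : Subgroup Ω, C ≤ Cfsg.FusionSystem.centralizerIn S T ∧ (∀ P : Subgroup Ω, E.Hom P ⊆ F.centralizerHom C P) ∧ (∀ Y : Subgroup Ω, Y ≤ Cfsg.FusionSystem.centralizerIn S T → (∀ P : Subgroup Ω, E.Hom P ⊆ F.centralizerHom Y P) → Y ≤ C) ∧ F.StronglyClosed C := by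
  obtain ⟨hEs, -, hi, hx⟩ := isNormalIn_iff.1 hE
  have hT := hi.closed.1
  have h1 := (cen_iff hT).1 (cenS_cen hS hF hEs hi hx)
  exact ⟨cenS F E, h1.1, h1.2, fun Y h2 h3 => le_cenS ((cen_iff hT).2 ⟨h2, h3⟩), cenS_closed hS hF hEs hi hx⟩

end Cfsg.Agent.S5127
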