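import Cfsg.Statements.S5135
import Cfsg.Agent.Lib.FusionFactor
import Cfsg.Agent.Lib.SylCard

set_option autoImplicit false
open Cfsg
open Cfsg.FusionSystem
open Cfsg.Agent.Lib.FusionFactor
open Cfsg.Agent.Lib.SylCard

namespace Cfsg.Agent.S5135

/-- Let G be a finite group, S a Sylow p-subgroup and H a normal subgroup of G. Then the fusion system of G/H on the image SH/H of S is the factor system of the fusion system of G on S modulo S ∩ H, read through the quotient map restricted to S: for each subgroup P' of SH/H, the conjugation maps by elements of G/H defined on P' with values in SH/H are exactly the homomorphisms induced by the conjugation maps by elements of G defined on the full preimage of P' in S with values in S. -/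
theorem result {G : Type*} [Group G] [Finite G] (p : ℕ) [Fact p.Prime] (S : Sylow p G) (H : Subgroup G) [H.Normal] : (Cfsg.groupFusionSystem (S : Subgroup G)).IsFactorSystem ((S : Subgroup G) ⊓ H) ((QuotientGroup.mk' H).comp (S : Subgroup G).subtype) (Cfsg.groupFusionSystem ((S : Subgroup G).map (QuotientGroup.mk' H))) := by
  set S' : Subgroup (G ⧸ H) := (S : Subgroup G).map (QuotientGroup.mk' H) with hS'
  set θ : (S : Subgroup G) →* G ⧸ H := (QuotientGroup.mk' H).comp (S : Subgroup G).subtype with hθ
  have hθa : ∀ s : (S : Subgroup G), θ s = QuotientGroup.mk' H (s : G) := fun s => rfl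
  have hrange : θ.range = S' := by
    rw [hθ, MonoidHom.range_comp, Subgroup.range_subtype]
  refine ⟨inf_le_left, fun s => ?_, hrange, fun P' φ' => ?_⟩
  · rw [hθa, QuotientGroup.mk'_apply, QuotientGroup.eq_one_iff]
    exact ⟨fun h => ⟨s.2, h⟩, fun h => h.2⟩
  · constructor
    · rintro ⟨hP', hφS', g', hg'⟩
      obtain ⟨g, rfl⟩ := QuotientGroup.mk'_surjective H g'
      refine ⟨hP', ?_⟩
      set P : Subgroup G := preimageAlong θ P' with hP
      have hPS : P ≤ S := preimageAlong_le θ P'
      have hPp : IsPGroup p P := S.2.to_le hPS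
      have hK : IsPGroup p (P.map (MulAut.conj g).toMonoidHom) := hPp.map _
      have hle : P.map (MulAut.conj g).toMonoidHom ≤ (S : Subgroup G) ⊔ H := by
        rintro _ ⟨x, hx, rfl⟩
        obtain ⟨hxS, hxP'⟩ := mem_preimageAlong.mp hx
        have h1 := hφS' ⟨_, hxP'⟩
        rw [hg'] at h1
        have h2 : QuotientGroup.mk' H (g * x * g⁻¹) ∈ S' := by
          rw [map_mul, map_mul, map_inv]
          exact h1
        rw [hS'] at h2
        obtain ⟨s, hs, hse⟩ := h2
        have h3 : s⁻¹ * (g * x * g⁻¹) ∈ H := QuotientGroup.eq.mp hse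
        have h4 : g * x * g⁻¹ = s * (s⁻¹ * (g * x * g⁻¹)) := by simp
        show g * x * g⁻¹ ∈ _
        rw [h4]
        exact Subgroup.mul_mem_sup hs h3
      obtain ⟨u, hu, hconj⟩ := exists_conj_mem_of_le S (le_sup_left : (S : Subgroup G) ≤ (S : Subgroup G) ⊔ H) hle hK
      rw [← SetLike.mem_coe, Subgroup.mul_normal] at hu
      obtain ⟨s, hs, h, hh, rfl⟩ := hu
      have hval : ∀ x : P, (h * g) * (x : G) * (h * g)⁻¹ ∈ (S : Subgroup G) := by
        intro x
        have h1 := hconj _ ⟨x, x.2, rfl⟩
        have h2 := S.mul_mem (S.mul_mem (S.inv_mem hs) h1) hs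
        convert h2 using 1
        simp [mul_assoc]
      refine ⟨conjHom P (h * g), ⟨hPS, hval, h * g, fun x => rfl⟩, hPS, hval, fun x => (mem_preimageAlong.mp x.2).2, ?_⟩
      intro x
      rw [hg']
      show _ = QuotientGroup.mk' H ((h * g) * (x : G) * (h * g)⁻¹)
      have h3 : QuotientGroup.mk' H h = 1 := (QuotientGroup.eq_one_iff h).mpr hh
      rw [map_mul, map_mul, map_inv, map_mul, h3, one_mul]
      rfl
    · rintro ⟨hP', φ, ⟨hP, hφS, g, hg⟩, hPS, hφS', hPP, h⟩
      have hsurj : ∀ x : P', ∃ y : preimageAlong θ P', θ ⟨y, hPS y.2⟩ = x := by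
        intro x
        obtain ⟨s, hs⟩ : (x : G ⧸ H) ∈ θ.range := hrange ▸ hP' x.2
        exact ⟨⟨s, mem_preimageAlong.mpr ⟨s.2, by rw [hs]; exact x.2⟩⟩, hs⟩
      have key : ∀ (x : P') (y : preimageAlong θ P'), θ ⟨y, hPS y.2⟩ = x → φ' x = θ ⟨φ y, hφS' y⟩ := by
        intro x y hy
        rw [← h y]
        congr 1
        exact Subtype.ext hy.symm
      refine ⟨hP', fun x => ?_, QuotientGroup.mk' H g, fun x => ?_⟩
      · obtain ⟨y, hy⟩ := hsurj x
        rw [key x y hy]
        exact hrange ▸ ⟨_, rfl⟩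
      · obtain ⟨y, hy⟩ := hsurj x
        rw [key x y hy, ← hy]
        show QuotientGroup.mk' H (φ y) = QuotientGroup.mk' H g * QuotientGroup.mk' H (y : G) * (QuotientGroup.mk' H g)⁻¹
        rw [hg y, map_mul, map_mul, map_inv]

end Cfsg.Agent.S5135
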