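import Cfsg.Statements.S5143
import Cfsg.Agent.Lib.FusionES7

set_option autoImplicit false
open Cfsg

namespace Cfsg.Agent.S5143

open Cfsg.FusionSystem Cfsg.Agent.Lib.FusionBasic Cfsg.Agent.Lib.FusionSat Cfsg.Agent.Lib.FusionNormal
  Cfsg.Agent.Lib.FusionInvar Cfsg.Agent.Lib.FusionPPower Cfsg.Agent.Lib.FusionES

theorem hom_eq_of_index {Ω : Type*} [Group Ω] {S : Subgroup Ω} [Finite S] {p : ℕ} [Fact p.Prime] (hS : IsPGroup p S)
    {F : Cfsg.FusionSystem S} {H₁ H₂ : Subgroup Ω} (h : H₁ = H₂) (hH : H₁ ≤ S) {D₁ : Cfsg.FusionSystem H₁}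
    {D₂ : Cfsg.FusionSystem H₂} (h1 : D₁.IsSaturated p) (h2 : D₂.IsSaturated p) (i1 : D₁.HasPPowerIndexIn F p)
    (i2 : D₂.HasPPowerIndexIn F p) : ∀ P : Subgroup Ω, D₁.Hom P = D₂.Hom P := by
  subst h
  have hf : Finite H₁ := finite_of_le hH
  rw [eq_of_index (isPGroup_of_le hS hH) h1 h2 i1 i2]
  exact fun _ => rfl

/-- the index only depends on the maps -/
theorem index_of_hom {Ω : Type*} [Group Ω] {R H₁ H₂ : Subgroup Ω} {p : ℕ} {D : Cfsg.FusionSystem R} (h : H₁ = H₂)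
    {D₁ : Cfsg.FusionSystem H₁} {D₂ : Cfsg.FusionSystem H₂} (hD : ∀ P : Subgroup Ω, D₁.Hom P = D₂.Hom P)
    (hi : D₁.HasPPowerIndexIn D p) : D₂.HasPPowerIndexIn D p := by
  subst h
  have : D₁ = D₂ := fusion_ext hD
  rw [← this]; exact hi

/-- Let F be a saturated fusion system over a finite p-group S, E a normal subsystem over T, and R a subgroup with T ≤ R ≤ S. Then there is exactly one saturated subsystem D of F over R (exactly one family of map sets) whose p-residual subsystem is that of E: the hyperfocal subgroups of D and E coincide and the p-residual subsystems of D and of E have the same maps. -/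
theorem result {Ω : Type*} [Group Ω] {S : Subgroup Ω} [Finite S] (p : ℕ) [Fact p.Prime] (hS : IsPGroup p S) (F : Cfsg.FusionSystem S) (hF : F.IsSaturated p) {T : Subgroup Ω} (E : Cfsg.FusionSystem T) (hE : E.IsNormalIn F p) (R : Subgroup Ω) (hTR : T ≤ R) (hRS : R ≤ S) : ∃ D : Cfsg.FusionSystem R, (D.IsSaturated p ∧ D.IsSubsystemOf F ∧ D.hyperfocalSubgroup p = E.hyperfocalSubgroup p ∧ ∀ (D₁ : Cfsg.FusionSystem (D.hyperfocalSubgroup p)) (E₁ : Cfsg.FusionSystem (E.hyperfocalSubgroup p)), D.IsPResidual p D₁ → E.IsPResidual p E₁ → ∀ P : Subgroup Ω, D₁.Hom P = E₁.Hom P) ∧ ∀ D' : Cfsg.FusionSystem R, D'.IsSaturated p → D'.IsSubsystemOf F → D'.hyperfocalSubgroup p = E.hyperfocalSubgroup p → (∀ (D₁ : Cfsg.FusionSystem (D'.hyperfocalSubgroup p)) (E₁ : Cfsg.FusionSystem (E.hyperfocalSubgroup p)), D'.IsPResidual p D₁ → E.IsPResidual p E₁ → ∀ P : Subgroup Ω, D₁.Hom P = E₁.Hom P) → ∀ P : Subgroup Ω, D'.Hom P = D.Hom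 P := by
  obtain ⟨E₀, hE₀E, hE₀F, hE₀i⟩ := Cfsg.Agent.Lib.FusionDich.oP_normal hS hE
  obtain ⟨hEs, -, hEinv, hEext⟩ := isNormalIn_iff.1 hE
  obtain ⟨hE₀s, -, hE₀inv, hE₀ext⟩ := isNormalIn_iff.1 hE₀F
  have hTS := hTR.trans hRS
  have hTf : Finite T := finite_of_le hTS
  have hRf : Finite R := finite_of_le hRS
  have hTp : IsPGroup p T := isPGroup_of_le hS hTS
  have hRp : IsPGroup p R := isPGroup_of_le hS hRS
  have hHT : E.hyperfocalSubgroup p ≤ T := hyperfocal_le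
  have hHS : E.hyperfocalSubgroup p ≤ S := hHT.trans hTS
  have hHR : E.hyperfocalSubgroup p ≤ R := hHT.trans hTR
  let c : Cx F E₀ p := ⟨hS, hF, hE₀s, hE₀inv, hE₀ext⟩
  have hDs := DSys_saturated c
  have hidxS : E₀.HasPPowerIndexIn (DSys c S c.TS le_rfl) p := DSys_index c
  have hhypE₀ : E₀.hyperfocalSubgroup p = E.hyperfocalSubgroup p := hyperfocal_eq_of_index hTp hE₀i
  have hhypS : (DSys c S c.TS le_rfl).hyperfocalSubgroup p = E.hyperfocalSubgroup p := by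
    rw [← hyperfocal_eq_of_index hS hidxS, hhypE₀]
  obtain ⟨D, hD, hDi⟩ := Cfsg.Agent.Lib.FusionPIdx.exists_index (Nat.card S) hS _ hDs hRS (hhypS.le.trans hHR) rfl
  have hDF : D.IsSubsystemOf F := sub_trans hDi.1 DSys_sub
  have hhypD : D.hyperfocalSubgroup p = E.hyperfocalSubgroup p := by
    rw [hyperfocal_eq_of_index hS hDi, hhypS]
  -- the residual of `E` is `E₀`
  have hE₁ : ∀ E₁ : Cfsg.FusionSystem (E.hyperfocalSubgroup p), E.IsPResidual p E₁ → E₁ = E₀ := by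
    intro E₁ h
    have hf : Finite (E.hyperfocalSubgroup p) := finite_of_le hHS
    exact eq_of_index (isPGroup_of_le hS hHS) h.1 hE₀s h.2 hE₀i
  -- systems with residual `E₀`
  have hkey : ∀ D' : Cfsg.FusionSystem R, D'.IsSaturated p → D'.IsSubsystemOf F →
      D'.hyperfocalSubgroup p = E.hyperfocalSubgroup p → E₀.HasPPowerIndexIn D' p →
      ∀ P f, FMap D' P f ↔ FMap (DSys c R hHR hRS) P f := by
    intro D' h1 h2 h3 h4
    exact DSys_unique c h1 h2 h4 hHR hRS h3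
  have hres : ∀ D₁ : Cfsg.FusionSystem (D.hyperfocalSubgroup p), D.IsPResidual p D₁ → ∀ P : Subgroup Ω, D₁.Hom P = E₀.Hom P := by
    intro D₁ h
    exact hom_eq_of_index hS (F := DSys c S c.TS le_rfl) hhypD (hhypD.le.trans hHS) h.1 hE₀s (index_trans hS hDi h.2) hidxS
  have hDidx : E₀.HasPPowerIndexIn D p := by
    obtain ⟨D₁, h1, h2⟩ := Cfsg.Agent.Lib.FusionPIdx.exists_index (Nat.card R) hRp D hD (hhypD.le.trans hHR) le_rfl rfl
    exact index_of_hom hhypD (hres D₁ ⟨h1, h2⟩) h2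
  refine ⟨D, ⟨hD, hDF, hhypD, fun D₁ E₁ h1 h2 => ?_⟩, fun D' h1 h2 h3 h4 => ?_⟩
  · rw [hE₁ E₁ h2]; exact hres D₁ h1
  · have h5 : E₀.HasPPowerIndexIn D' p := by
      obtain ⟨D₁, k1, k2⟩ := Cfsg.Agent.Lib.FusionPIdx.exists_index (Nat.card R) hRp D' h1 (h3.le.trans hHR) le_rfl rfl
      exact index_of_hom h3 (h4 D₁ E₀ ⟨k1, k2⟩ ⟨hE₀s, hE₀i⟩) k2
    intro P
    rw [hom_eq_iff_fmap]
    intro f
    rw [hkey D' h1 h2 h3 h5, hkey D hD hDF hhypD hDidx]

end Cfsg.Agent.S5143
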