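import Cfsg.Statements.S5147
import Cfsg.Agent.Lib.FusionConstr
import Cfsg.Agent.S5135

set_option autoImplicit false
open Cfsg
open Cfsg.FusionSystem
open Cfsg.Agent.Lib.FusionBasic
open Cfsg.Agent.Lib.FusionSat
open Cfsg.Agent.Lib.FusionInvar
open Cfsg.Agent.Lib.FusionConstr

namespace Cfsg.Agent.S5147

/-- Let G be a finite group with Sylow 2-subgroup S whose 2-fusion system on S is constrained, and L a component of G (a subnormal quasisimple subgroup). Then the 2-fusion system of L/Z(L) on the image of S ∩ L is constrained. -/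
theorem result {G : Type*} [Group G] [Finite G] (S : Sylow 2 G) (hF : (Cfsg.groupFusionSystem (S : Subgroup G)).IsConstrained 2) (L : Subgroup G) (hL : Cfsg.IsComponent L) : (Cfsg.groupFusionSystem (((S : Subgroup G).subgroupOf L).map (QuotientGroup.mk' (Subgroup.center L)))).IsConstrained 2 := by
  obtain ⟨h1, R, hR⟩ := constrained_subgroup S hF L hL.1
  rw [← hR] at h1 ⊢
  refine constrained_factor R.isPGroup' h1 (Z := (R : Subgroup L) ⊓ Subgroup.center L) ?_ (Cfsg.Agent.S5135.result 2 R (Subgroup.center L))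
  refine (isCentral_iff _).2 ⟨inf_le_left, fun P f hf => ?_⟩
  obtain ⟨h2, h3, g, h4⟩ := fmap_group_iff.1 hf
  have hz : ∀ z ∈ Subgroup.center L, g * z * g⁻¹ = z := fun z hz => by
    rw [Subgroup.mem_center_iff.1 hz g, mul_inv_cancel_right]
  refine ⟨fun x => g * x * g⁻¹, fmap_group_iff.2 ⟨sup_le h2 inf_le_left, ?_, g, fun _ _ => rfl⟩,
    fun x hx => (h4 x hx).symm, fun x hx => hz x hx.2⟩
  have h5 : P ⊔ ((R : Subgroup L) ⊓ Subgroup.center L) ≤ (R : Subgroup L).comap (MulAut.conj g).toMonoidHom := by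
    refine sup_le (fun x hx => ?_) (fun x hx => ?_)
    · show g * x * g⁻¹ ∈ (R : Subgroup L)
      rw [← h4 x hx]; exact h3 x hx
    · show g * x * g⁻¹ ∈ (R : Subgroup L)
      rw [hz x hx.2]; exact hx.1
  exact fun x hx => h5 hx

end Cfsg.Agent.S5147
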