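import Cfsg.Statements.S5148
import Cfsg.Agent.Lib.FusionInnerN
import Cfsg.Agent.Lib.FusionQuotHyp
import Cfsg.Agent.Lib.FusionFactor
import Cfsg.Agent.Lib.FusionJoin
import Cfsg.Agent.Lib.FusionFocal

set_option autoImplicit false
open Cfsg
open Cfsg.FusionSystem
open Cfsg.Agent.Lib.FusionBasic
open Cfsg.Agent.Lib.FusionSat
open Cfsg.Agent.Lib.FusionNormal
open Cfsg.Agent.Lib.FusionQuot
open Cfsg.Agent.Lib.FusionQuotHyp
open Cfsg.Agent.Lib.FusionInnerN

namespace Cfsg.Agent.S5148

/-- A quasisimple fusion system over a finite p-group S (saturated, equal to its p-residual subsystem, with simple — in particular nontrivial — factor system modulo its centre) has S nonabelian. -/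
theorem result {Ω : Type*} [Group Ω] {S : Subgroup Ω} [Finite S] (p : ℕ) [Fact p.Prime] (hS : IsPGroup p S) (F : Cfsg.FusionSystem S) (hq : F.Quasisimple p) : ¬ IsMulCommutative S := by
  intro hcomm
  obtain ⟨hF, hhyp, hsimp⟩ := hq
  have hZ : F.IsCentral F.center := Cfsg.Agent.Lib.FusionJoin.isCentral_center F
  have hZs : F.StronglyClosed F.center := by
    rw [stronglyClosed_iff]
    exact ⟨hZ.1, fun P f hP hf x hx => by rw [Cfsg.Agent.Lib.FusionFocal.fix_of_isCentral hZ hf hx (hP hx)]; exact hP hx⟩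
  have hθ : ∀ s : S, QuotientGroup.mk' ((F.center).subgroupOf S) s = 1 ↔ (s : Ω) ∈ F.center := by
    intro s
    rw [QuotientGroup.mk'_apply, QuotientGroup.eq_one_iff, Subgroup.mem_subgroupOf]
  have hrange : (QuotientGroup.mk' ((F.center).subgroupOf S)).range = ⊤ :=
    MonoidHom.range_eq_top.2 (QuotientGroup.mk'_surjective _)
  obtain ⟨E, hE⟩ := Cfsg.Agent.Lib.FusionFactor.exists_factorSystem F F.center hZs
    (QuotientGroup.mk' ((F.center).subgroupOf S)) hθ hrange
  have hEs := hsimp E hE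
  have hfin : Finite (⊤ : Subgroup (S ⧸ (F.center).subgroupOf S)) := finite_range hrange
  have hEp := isPGroup_range hS hrange
  have hhypE : E.hyperfocalSubgroup p = ⊤ := by
    rw [hyp_factor hS hF hZs hE, hhyp]
    have h1 : imageAlong (QuotientGroup.mk' ((F.center).subgroupOf S)) S = ⊤ := by
      unfold imageAlong
      rw [Subgroup.subgroupOf_self, ← MonoidHom.range_eq_map, hrange]
    exact h1
  have hcl : E.StronglyClosed ⊤ := (stronglyClosed_iff E).2 ⟨le_rfl, fun P f _ hf x hx => Subgroup.mem_top _⟩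
  have hn : E.IsNormal ⊤ := isNormal_of_abelian_stronglyClosed hEp hEs.1 hcl (by
    intro x _ y _
    obtain ⟨x, rfl⟩ := QuotientGroup.mk'_surjective _ x
    obtain ⟨y, rfl⟩ := QuotientGroup.mk'_surjective _ y
    rw [← map_mul, ← map_mul]
    congr 1
    exact hcomm.is_comm.comm x y)
  have hbot : (⊤ : Subgroup (S ⧸ (F.center).subgroupOf S)) = ⊥ :=
    core_eq_bot_of_simple hEp hEs (by rw [hhypE]; exact hEs.2.1) hn
  exact hEs.2.1 hbot

end Cfsg.Agent.S5148
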