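import Cfsg.Statements.S5153
import Cfsg.Agent.Lib.FusionSat

set_option autoImplicit false
open Cfsg
open Cfsg.FusionSystem
open Cfsg.Agent.Lib.FusionBasic
open Cfsg.Agent.Lib.FusionSat

namespace Cfsg.Agent.S5153


theorem subnormal_le {Ω : Type*} [Group Ω] {T S : Subgroup Ω} {E : Cfsg.FusionSystem T}
    {F : Cfsg.FusionSystem S} {p : ℕ} (hE : E.IsSubnormalIn F p) : T ≤ S := by
  induction hE with
  | refl => exact le_rfl
  | step h1 h2 ih => exact ih.trans h2.1.2.2.2.1.1

theorem subnormal_fullyNormalized {Ω : Type*} [Group Ω] {T S : Subgroup Ω} {E : Cfsg.FusionSystem T}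
    {F : Cfsg.FusionSystem S} {p : ℕ} (hp : p.Prime) (hE : E.IsSubnormalIn F p) {P : Subgroup Ω} (hPT : P ≤ T) :
    Finite S → IsPGroup p S → F.IsSaturated p → F.IsFullyNormalized P → E.IsFullyNormalized P := by
  induction hE with
  | refl => exact fun _ _ _ hP => hP
  | @step U S E D F p h1 h2 ih =>
    intro hfin hS hF hP
    have : Fact p.Prime := ⟨hp⟩
    have hU : F.StronglyClosed U := h2.1.2.2.2.1
    have hDF : D.IsSubsystemOf F := h2.1.2.2.1
    have hUS : U ≤ S := hU.1
    have hfinU : Finite U := finite_of_le hUS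
    have hUp : IsPGroup p U := isPGroup_of_le hS hUS
    have hTU : T ≤ U := subnormal_le h1
    have hPD : D.IsFullyNormalized P := by
      refine ⟨hPT.trans hTU, fun Q hQ => ?_⟩
      obtain ⟨φ, hφ, hφQ⟩ := hQ
      have hQF : F.IsConj P Q := ⟨φ, hDF P hφ, hφQ⟩
      obtain ⟨f, hf, hfN, hfn⟩ := exists_map_to_fullyNormalized hS hF hP (isConj_symm hQF)
      have hle : normalizerIn U Q ≤ normalizerIn S Q := fun x hx => ⟨hUS hx.1, hx.2⟩
      refine (hfN.restrict hle).card_image_le (T := normalizerIn U P) ?_ ((normalizerIn_le U P).trans hUS)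
      intro x hx
      refine ⟨?_, (hfn x (hle hx)).2⟩
      exact StronglyClosed.map_mem F hU hfN (hle hx) hx.1
    exact ih hp hfinU hUp h2.1.1 hPD

/-- Let F be a saturated fusion system over a finite p-group S and E a subnormal subsystem of F over T. Then every subgroup of T that is fully normalized in F is fully normalized in E. -/
theorem result {Ω : Type*} [Group Ω] {S : Subgroup Ω} [Finite S] (p : ℕ) [Fact p.Prime] (hS : IsPGroup p S) (F : Cfsg.FusionSystem S) (hF : F.IsSaturated p) {T : Subgroup Ω} (E : Cfsg.FusionSystem T) (hE : E.IsSubnormalIn F p) (P : Subgroup Ω) (hPT : P ≤ T) (hP : F.IsFullyNormalized P) : E.IsFullyNormalized P := by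
  exact subnormal_fullyNormalized Fact.out hE hPT inferInstance hS hF hP

end Cfsg.Agent.S5153
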