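import Cfsg.Statements.S5194
import Cfsg.Agent.Lib.H34Inner


set_option autoImplicit false
open Cfsg

namespace Cfsg.Agent.S5194

open Cfsg.FusionSystem Cfsg.Agent.Lib Cfsg.Agent.Lib.FusionBasic Cfsg.Agent.Lib.FusionSat Cfsg.Agent.Lib.FusionNormSat Cfsg.Agent.Lib.FusionNormal Cfsg.Agent.Lib.FusionSys Cfsg.Agent.Lib.H34Local Cfsg.Agent.Lib.H34JCenter Cfsg.Agent.Lib.H34Inner Cfsg.Agent.Lib.FusionInner


/-- Thompson's normal p-complement Theorem for fusion systems. Let F be a saturated fusion system over a finite p-group S such that p is odd or F is S₄-free (the symmetric group of degree 4 is not involved in any model of the normalizer system of a fully normalized F-centric subgroup), and let J(S) be the subgroup generated by the abelian subgroups of S of largest order. If the centralizer fusion system of Z(S) in F is the inner fusion system of C_S(Z(S)) = S and the normalizer fusion system of J(S) in F is the inner fusion system of N_S(J(S)) = S, then F is the inner fusion system of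 S. -/
theorem result {Ω : Type*} [Group Ω] {S : Subgroup Ω} [Finite S] (p : ℕ) [Fact p.Prime] (hS : IsPGroup p S) (F : Cfsg.FusionSystem S) (hF : F.IsSaturated p) (hp : p ≠ 2 ∨ F.IsSectionFree p (Equiv.Perm (Fin 4))) (hC : ∀ C : Cfsg.FusionSystem (Cfsg.FusionSystem.centralizerIn S (S ⊓ Subgroup.centralizer (S : Set Ω))), F.IsCentralizerSystem (S ⊓ Subgroup.centralizer (S : Set Ω)) C → ∀ P : Subgroup Ω, C.Hom P = (Cfsg.innerFusionSystem (Cfsg.FusionSystem.centralizerIn S (S ⊓ Subgroup.centralizer (S : Set Ω)))).Hom P) (hN : ∀ N : Cfsg.FusionSystem (Cfsg.FusionSystem.normalizerIn S (Cfsg.thompsonSubgroupAOf S)), F.IsNormalizerSystem (Cfsg.thompsonSubgroupAOf S) N → ∀ P : Subgroup Ω, N.Hom P = (Cfsg.innerFusionSystem (Cfsg.FusionSystem.normalizerIn S (Cfsg.thompsonSubgroupAOf S))).Hom P) : ∀ P : Subgroup Ω, F.Hom P = (Cfsg.innerFusionSystem S).Hom P := by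

  set Z := S ⊓ Subgroup.centralizer (S : Set Ω) with hZ
  have hZS : Z ≤ S := inf_le_left
  have hGd := gd_of_sectionFree hS hF hp
  rw [isInner_iff]
  have hnS : S ≤ Subgroup.normalizer (Wof WJ S : Set Ω) := Subgroup.le_normalizer.trans (Wof_norm (inv_J p) hS)
  have hcS : S ≤ Subgroup.centralizer (Z : Set Ω) := by
    intro s hs
    rw [Subgroup.mem_centralizer_iff]
    intro z hz
    exact (Subgroup.mem_centralizer_iff.1 hz.2 s hs).symm
  refine inner_main p F hS hF hGd ?_ ?_
  · rintro P f hf ⟨g, hg, hgf, hgz⟩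
    have h1 := isInner_iff.1 (hC (centSys F Z hZS) isCentralizerSystem_centSys) P f ?_
    · obtain ⟨s, hs, h2⟩ := h1
      exact ⟨s, hs.1, h2⟩
    · refine (isCentralizerSystem_iff.1 (isCentralizerSystem_centSys (hX := hZS)) P f).2 ⟨?_, ?_, g, hg, hgf, hgz⟩
      · exact le_inf hf.le (hf.le.trans hcS)
      · exact fun x hx => ⟨hf.map_mem hx, hcS (hf.map_mem hx)⟩
  · rintro P f hf ⟨g, hg, hgf, hgW⟩
    have h1 := isInner_iff.1 (hN (normSys F (Wof WJ S) (Wof_le S)) isNormalizerSystem_normSys) P f ?_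
    · obtain ⟨s, hs, h2⟩ := h1
      exact ⟨s, hs.1, h2⟩
    · refine fmap_normSys.2 ⟨?_, ?_, g, hg, hgf, hgW⟩
      · exact le_inf hf.le (hf.le.trans hnS)
      · exact fun x hx => ⟨hf.map_mem hx, hnS (hf.map_mem hx)⟩

end Cfsg.Agent.S5194
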