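import Cfsg.Statements.S5196
import Cfsg.Agent.Lib.H34Center


set_option autoImplicit false
universe u
open Cfsg

namespace Cfsg.Agent.S5196

open Cfsg.FusionSystem Cfsg.Agent.Lib.FusionBasic Cfsg.Agent.Lib.FusionSat Cfsg.Agent.Lib.FusionNormal Cfsg.Agent.Lib.FusionGroup Cfsg.Agent.Lib.FusionRealized Cfsg.Agent.Lib.FusionSys Cfsg.Agent.Lib.H34Local Cfsg.Agent.Lib.H34Center


/-- Let p be an odd prime and W a positive characteristic p-functor: W assigns to every finite p-group Q (in a fixed universe) a subgroup W(Q), nontrivial when Q is, carried to W(R) by every isomorphism Q ≅ R; assume also Z(Q) ≤ W(Q) for every finite p-group Q. Suppose W satisfies the local condition: for every finite group G with Sylow p-subgroup P, O_p(G) ∩ Z(G) = O_p(G) ∩ Z(N_G(W(P))). Then W controls weak closure of elements in every saturated fusion system F over a finite p-group S: the centre of the normalizer fusion system of W(S) in F equals the centre of F. (For p = 2 no functor satisfies the local condition, so p is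 taken odd.) -/
theorem result {p : ℕ} [Fact p.Prime] (hp : p ≠ 2) (W : ∀ (Q : Type u) [Group Q], Subgroup Q) (hW1 : ∀ (Q : Type u) [Group Q] [Finite Q], IsPGroup p Q → Nontrivial Q → W Q ≠ ⊥) (hW2 : ∀ (Q R : Type u) [Group Q] [Group R] [Finite Q], IsPGroup p Q → ∀ φ : Q ≃* R, (W Q).map φ.toMonoidHom = W R) (hWZ : ∀ (Q : Type u) [Group Q] [Finite Q], IsPGroup p Q → Subgroup.center Q ≤ W Q) (hC : ∀ (G : Type u) [Group G] [Finite G] (P : Sylow p G), Cfsg.pCore p G ⊓ Subgroup.center G = Cfsg.pCore p G ⊓ (Subgroup.center ↥(Subgroup.normalizer (((W ↥(P : Subgroup G)).map (P : Subgroup G).subtype : Subgroup G) : Set G))).map (Subgroup.normalizer (((W ↥(P : Subgroup G)).map (P : Subgroup G).subtype : Subgroup G) : Set G)).subtype) {Ω : Type u} [Group Ω] {S : Subgroup Ω} [Finite S] (hS : IsPGroup p S) (F : Cfsg.FusionSystem S) (hF : F.IsSaturated p) (N : Cfsg.FusionSystem (Cfsg.FusionSystem.normalizerIn S ((W ↥S).map S.subtype))) (hN : F.IsNormalizerSystem ((W ↥S).map S.subtype) N) : N.center = F.center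 := by

  set W₀ := Wof W S with hW₀
  have hSp : IsPGroup p ↥S := hS
  have hn : S ≤ Subgroup.normalizer (W₀ : Set Ω) := by
    refine le_trans ?_ (Wof_norm hW2 hSp)
    exact Subgroup.le_normalizer
  have hW₀S : W₀ ≤ S := Wof_le S
  have hZc := center_comm hn N
  have hZS := center_le_S N
  have hZW : N.center ≤ W₀ := by
    intro z hz
    refine ⟨⟨z, hZS hz⟩, hWZ _ hS ?_, rfl⟩
    rw [Subgroup.mem_center_iff]
    intro r
    apply Subtype.ext
    show (r : Ω) * z = z * r
    have := hZc z hz r r.2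
    calc (r : Ω) * z = (r * z * (r : Ω)⁻¹) * r := by group
      _ = z * r := by rw [this]
  refine le_antisymm ?_ (center_le_center hW₀S hn hN)
  refine le_sSup ?_
  show F.IsCentral N.center
  refine center_control hS hF hW2 hWZ hZS hZc (fun a ha z hz => center_fix hW₀S hN a ha z hz (hZW hz)) ?_
  intro Q hQ1 hQ2 G _ _ ι hm T hT hle z hz hN h
  have hQN : Q ≤ normalizerIn S Q := le_normalizerIn hQ1.1
  have hzQ : z ∈ Q := by
    refine hQ2.2 Q (isConj_refl F hQ1.1) ⟨hZS hz, ?_⟩
    refine mem_centralizer_iff'.2 ?_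
    intro x hx
    have := hZc z hz x (hQ1.1 hx)
    calc z * x * z⁻¹ = (x * z * x⁻¹) * x * z⁻¹ := by rw [this]
      _ = x := by group
  have hNS : normalizerIn S Q ≤ S := normalizerIn_le S Q
  have hNfin : Finite (normalizerIn S Q) := finite_of_le hNS
  have hNp : IsPGroup p (normalizerIn S Q) := isPGroup_of_le hS hNS
  have hzcore : lift ι z ∈ pCore p G := hle ((mem_im_iff' hQN).2 ⟨z, hzQ, rfl⟩)
  have hzT : lift ι z ∈ (T : Subgroup G) := by
    rw [hT, lift_of_mem (hQN hzQ)]
    exact ⟨_, rfl⟩
  have hTn : (T : Subgroup G) ≤ Subgroup.normalizer (Wof W (T : Subgroup G) : Set G) :=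
    le_trans Subgroup.le_normalizer (Wof_norm hW2 T.isPGroup')
  have h1 : lift ι z ∈ pCore p G ⊓ Subgroup.center G := by
    rw [hC G T]
    refine ⟨hzcore, ⟨⟨lift ι z, hTn hzT⟩, ?_, rfl⟩⟩
    refine Subgroup.mem_center_iff.2 ?_
    intro r
    apply Subtype.ext
    show (r : G) * lift ι z = lift ι z * r
    have := hN r r.2
    calc (r : G) * lift ι z = (r * lift ι z * (r : G)⁻¹) * r := by group
      _ = lift ι z * r := by rw [this]
  have h2 := Subgroup.mem_center_iff.1 h1.2 h
  rw [h2]; group

end Cfsg.Agent.S5196
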