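import Cfsg.Statements.S5197
import Cfsg.Agent.Lib.H34Transfer


set_option autoImplicit false
universe u
open Cfsg

namespace Cfsg.Agent.S5197

open Cfsg.FusionSystem Cfsg.Agent.Lib Cfsg.Agent.Lib.FusionBasic Cfsg.Agent.Lib.FusionSat Cfsg.Agent.Lib.FusionNormSat Cfsg.Agent.Lib.FusionNormal Cfsg.Agent.Lib.FusionRealized Cfsg.Agent.Lib.FusionSys Cfsg.Agent.Lib.H34Local Cfsg.Agent.Lib.H34Reduce


/-- Let p be a prime and W a positive characteristic p-functor: W assigns to every finite p-group Q (in a fixed universe) a subgroup W(Q), nontrivial when Q is, carried to W(R) by every isomorphism Q ≅ R. Suppose W satisfies the local condition: for every finite group G with Sylow p-subgroup P such that C_G(O_p(G)) ≤ O_p(G), one has O_p(G) ∩ [G, G] = O_p(G) ∩ [N, N] for N = N_G(W(P)). Then W controls transfer in every saturated fusion system F over a finite p-group S: the focal subgroup of F equals the focal subgroup of the normalizer fusion system of W(S) in F. -/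
theorem result {p : ℕ} [Fact p.Prime] (W : ∀ (Q : Type u) [Group Q], Subgroup Q) (hW1 : ∀ (Q : Type u) [Group Q] [Finite Q], IsPGroup p Q → Nontrivial Q → W Q ≠ ⊥) (hW2 : ∀ (Q R : Type u) [Group Q] [Group R] [Finite Q], IsPGroup p Q → ∀ φ : Q ≃* R, (W Q).map φ.toMonoidHom = W R) (hT : ∀ (G : Type u) [Group G] [Finite G] (P : Sylow p G), Subgroup.centralizer ((Cfsg.pCore p G : Subgroup G) : Set G) ≤ Cfsg.pCore p G → Cfsg.pCore p G ⊓ commutator G = Cfsg.pCore p G ⊓ (commutator ↥(Subgroup.normalizer (((W ↥(P : Subgroup G)).map (P : Subgroup G).subtype : Subgroup G) : Set G))).map (Subgroup.normalizer (((W ↥(P : Subgroup G)).map (P : Subgroup G).subtype : Subgroup G) : Set G)).subtype) {Ω : Type u} [Group Ω] {S : Subgroup Ω} [Finite S] (hS : IsPGroup p S) (F : Cfsg.FusionSystem S) (hF : F.IsSaturated p) (N : Cfsg.FusionSystem (Cfsg.FusionSystem.normalizerIn S ((W ↥S).map S.subtype))) (hN : F.IsNormalizerSystem ((W ↥S).map S.subtype) N) : N.focalSubgroup = F.focalSubgroup := by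

  have hWS : Wof W S ≤ S := Wof_le S
  have hnS : S ≤ Subgroup.normalizer (Wof W S : Set Ω) := Subgroup.le_normalizer.trans (Wof_norm hW2 hS)
  have hgrp : ∀ (G : Type u) [Group G] [Finite G] (T : Sylow p G), Subgroup.centralizer (pCore p G : Set G) ≤ pCore p G →
      ∀ x ∈ pCore p G, x ∈ commutator G →
      x ∈ (commutator ↥(Subgroup.normalizer (Wof W (T : Subgroup G) : Set G))).map
        (Subgroup.normalizer (Wof W (T : Subgroup G) : Set G)).subtype := by
    intro G _ _ T hc x hx1 hx2
    have h1 := hT G T hc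
    have h2 : x ∈ Cfsg.pCore p G ⊓ commutator G := ⟨hx1, hx2⟩
    rw [h1] at h2
    unfold H34Local.Wof
    exact h2.2
  have key := H34Transfer.transfer_main p W hW2 hW1 hgrp F hS hF
  have hN' : F.IsNormalizerSystem (Wof W S) N := hN
  apply le_antisymm
  · rw [FusionFocal.focalSubgroup_eq N, Subgroup.closure_le]
    rintro y ⟨P, f, hf, x, hx, rfl⟩
    obtain ⟨-, -, g, hg, hgf, -⟩ := (isNormalizerSystem_iff.1 hN' P f).1 hf
    exact FusionFocal.mem_focal ((hg.restrict le_sup_left).congr hgf) hx
  · rw [FusionFocal.focalSubgroup_eq F, Subgroup.closure_le]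
    rintro y ⟨P, f, hf, x, hx, rfl⟩
    refine H34Transfer.fcN_le ?_ (key P f hf x hx)
    intro P' f' hf' he' x' hx'
    have hm : FMap N P' f' := by
      refine (isNormalizerSystem_iff.1 hN' P' f').2 ⟨?_, ?_, he'⟩
      · exact le_inf hf'.le (hf'.le.trans hnS)
      · exact fun z hz => ⟨hf'.map_mem hz, hnS (hf'.map_mem hz)⟩
    exact FusionFocal.mem_focal hm hx'

end Cfsg.Agent.S5197
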