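import Cfsg.Statements.S5199
import Cfsg.Agent.Lib.FusionPPower
-- import your own Cfsg.Agent.* helpers here

set_option autoImplicit false
open Cfsg

namespace Cfsg.Agent.S5199

/-- Let F be a saturated fusion system over a finite p-group S, E a normal subsystem of F over T, and F₀ a normal subsystem of F over a subgroup U containing both T and the hyperfocal subgroup of F, such that F₀ has p-power index in F. Then E is a subsystem of F₀. -/
theorem result {Ω : Type*} [Group Ω] {S : Subgroup Ω} [Finite S] (p : ℕ) [Fact p.Prime] (hS : IsPGroup p S) (F : Cfsg.FusionSystem S) (hF : F.IsSaturated p) {T U : Subgroup Ω} (E : Cfsg.FusionSystem T) (hE : E.IsNormalIn F p) (F₀ : Cfsg.FusionSystem U) (hF₀ : F₀.IsNormalIn F p) (hU : T ⊔ F.hyperfocalSubgroup p ≤ U) (hidx : F₀.HasPPowerIndexIn F p) : E.IsSubsystemOf F₀ := by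
  have hTS := Cfsg.Agent.Lib.FusionPPower.subsystem_le hE.1.2.2.1
  have hTU : T ≤ U := le_sup_left.trans hU
  have hfT : Finite T := Cfsg.Agent.Lib.FusionSat.finite_of_le hTS
  exact Cfsg.Agent.Lib.FusionPPower.subsystem_of_pprime (Cfsg.Agent.Lib.FusionSat.isPGroup_of_le hS hTS) hE.1.1 hTU
    (fun P hP α hα ho => Cfsg.Agent.Lib.FusionPPower.pprime_mem_of_index hidx (hP.trans hTU)
      (Cfsg.Agent.Lib.FusionPPower.autGroup_mono_of_subsystem hE.1.2.2.1 hP hα) ho)

end Cfsg.Agent.S5199
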