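import Cfsg.Statements.S5200
import Cfsg.Agent.Lib.H34CfpFus5


set_option autoImplicit false
open Cfsg

namespace Cfsg.Agent.S5200

open Cfsg.FusionSystem Cfsg.Agent.Lib Cfsg.Agent.Lib.FusionBasic Cfsg.Agent.Lib.FusionSat Cfsg.Agent.Lib.FusionInvar
  Cfsg.Agent.Lib.FusionSys Cfsg.Agent.Lib.FusionZeta Cfsg.Agent.Lib.H34CfpFus
open scoped commutatorElement


/-- Let F be a saturated fusion system over a finite p-group S and E a normal subsystem of F over T whose centralizer in S lies in T: every subgroup Y of C_S(T) such that E is contained in the centralizer fusion system of Y in F satisfies Y ≤ T. Then T·C_S(T)/T is abelian (the commutator subgroup of T·C_S(T) lies in T), and if p is odd then C_S(T) ≤ T. -/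
theorem result {Ω : Type*} [Group Ω] {S : Subgroup Ω} [Finite S] (p : ℕ) [Fact p.Prime] (hS : IsPGroup p S) (F : Cfsg.FusionSystem S) (hF : F.IsSaturated p) {T : Subgroup Ω} (E : Cfsg.FusionSystem T) (hE : E.IsNormalIn F p) (hCE : ∀ Y : Subgroup Ω, Y ≤ Cfsg.FusionSystem.centralizerIn S T → (∀ C : Cfsg.FusionSystem (Cfsg.FusionSystem.centralizerIn S Y), F.IsCentralizerSystem Y C → E.IsSubsystemOf C) → Y ≤ T) : ⁅T ⊔ Cfsg.FusionSystem.centralizerIn S T, T ⊔ Cfsg.FusionSystem.centralizerIn S T⁆ ≤ T ∧ (p ≠ 2 → Cfsg.FusionSystem.centralizerIn S T ≤ T) := by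
  obtain ⟨hEs, -, hInv, hExt⟩ := isNormalIn_iff.1 hE
  have hT := hInv.closed
  have hTS := hT.1
  have key : ∀ Y : Subgroup Ω, Cen F E Y → Y ≤ T := by
    intro Y hY
    refine hCE Y hY.1 fun C hC P => ?_
    rw [hC P]
    exact ((cen_iff hTS).1 hY).2 P
  refine ⟨?_, fun hp => ?_⟩
  · have hfoc : focT F T hTS ≤ T := key _ (focT_cen hS hF hEs hInv hExt)
    have hCC : ∀ c ∈ centralizerIn S T, ∀ d ∈ centralizerIn S T, c * d * c⁻¹ * d⁻¹ ∈ T := by
      intro c hc d hd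
      apply hfoc
      have h1 := Cfsg.Agent.Lib.FusionFocal.mem_focal
        (fmap_conj (centSys F T hTS) (le_refl (centralizerIn S T)) hd) ((centralizerIn S T).inv_mem hc)
      have h2 : c * d * c⁻¹ * d⁻¹ = ((c : Ω)⁻¹)⁻¹ * (d * c⁻¹ * d⁻¹) := by group
      rw [h2]
      exact h1
    rw [Subgroup.commutator_le]
    intro x hx y hy
    obtain ⟨t, ht, c, hc, rfl⟩ := mem_sup_centralizerIn.1 hx
    obtain ⟨s, hs, d, hd, rfl⟩ := mem_sup_centralizerIn.1 hy
    have hcomm : ∀ {u v : Ω}, u ∈ T → v ∈ centralizerIn S T → v * u = u * v := fun hu hv => (hv.2 _ hu).symm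
    have hd1 : c * d * c⁻¹ ∈ centralizerIn S T := Subgroup.mul_mem _ (Subgroup.mul_mem _ hc hd) (Subgroup.inv_mem _ hc)
    have hd2 : c * d * c⁻¹ * d⁻¹ ∈ centralizerIn S T := Subgroup.mul_mem _ hd1 (Subgroup.inv_mem _ hd)
    have e : ⁅t * c, s * d⁆ = (t * s * t⁻¹ * s⁻¹) * (c * d * c⁻¹ * d⁻¹) := by
      rw [commutatorElement_def]
      calc t * c * (s * d) * (t * c)⁻¹ * (s * d)⁻¹ = t * (c * s) * d * c⁻¹ * t⁻¹ * d⁻¹ * s⁻¹ := by group
        _ = t * s * ((c * d * c⁻¹) * t⁻¹) * d⁻¹ * s⁻¹ := by rw [hcomm hs hc]; group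
        _ = t * s * t⁻¹ * ((c * d * c⁻¹ * d⁻¹) * s⁻¹) := by rw [hcomm (T.inv_mem ht) hd1]; group
        _ = _ := by rw [hcomm (T.inv_mem hs) hd2]; group
    rw [e]
    exact T.mul_mem (T.mul_mem (T.mul_mem (T.mul_mem ht hs) (T.inv_mem ht)) (T.inv_mem hs)) (hCC c hc d hd)
  · exact cent_le hS hF hEs hInv (key _ (cen_C0 hp hS hF hEs hInv hExt))

end Cfsg.Agent.S5200
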