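import Cfsg.Statements.S5201
import Cfsg.Agent.Lib.H34CenExt2


set_option autoImplicit false
open Cfsg

namespace Cfsg.Agent.S5201

open Cfsg.FusionSystem Cfsg.Agent.Lib Cfsg.Agent.Lib.FusionBasic Cfsg.Agent.Lib.FusionSat Cfsg.Agent.Lib.FusionInvar Cfsg.Agent.Lib.FusionTools Cfsg.Agent.Lib.FusionSub Cfsg.Agent.Lib.FusionPPower Cfsg.Agent.Lib.FusionPIdx Cfsg.Agent.Lib.H34Limit Cfsg.Agent.Lib.H34Solv Cfsg.Agent.Lib.H34CenExt


/-- A reduction to normal subsystems. Let F be a saturated fusion system over a finite p-group S and E a normal subsystem of F over T whose centralizer in S lies in T (every subgroup Y of C_S(T) with E contained in the centralizer fusion system of Y in F satisfies Y ≤ T), and suppose Aut_F(T)/Aut_E(T) is p-solvable. Then F and E have the same residual limit: if F∞ is the residual limit of F (reached by alternately passing to the p-residual and the p'-residual subsystem until nothing changes) and E∞ that of E, then F∞ and E∞ have the same maps.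 -/
theorem result {Ω : Type*} [Group Ω] {S : Subgroup Ω} [Finite S] (p : ℕ) [Fact p.Prime] (hS : IsPGroup p S) (F : Cfsg.FusionSystem S) (hF : F.IsSaturated p) {T : Subgroup Ω} (E : Cfsg.FusionSystem T) (hE : E.IsNormalIn F p) (hCE : ∀ Y : Subgroup Ω, Y ≤ Cfsg.FusionSystem.centralizerIn S T → (∀ C : Cfsg.FusionSystem (Cfsg.FusionSystem.centralizerIn S Y), F.IsCentralizerSystem Y C → E.IsSubsystemOf C) → Y ≤ T) [hn : ((E.autGroup T).subgroupOf (F.autGroup T)).Normal] (hsolv : Cfsg.IsPSolvable p (↥(F.autGroup T) ⧸ (E.autGroup T).subgroupOf (F.autGroup T))) {U V : Subgroup Ω} (Finf : Cfsg.FusionSystem U) (hFinf : Finf.IsResidualLimitOf F p) (Einf : Cfsg.FusionSystem V) (hEinf : Einf.IsResidualLimitOf E p) : ∀ P : Subgroup Ω, Finf.Hom P = Einf.Hom P := by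
  obtain ⟨hEs, -, hInv, hExt⟩ := isNormalIn_iff.1 hE
  have c : Cx E F p := ⟨hS, hF, hEs, hInv, hExt, hCE⟩
  obtain ⟨S', F', h⟩ := exists_final hS hF hEs hInv hsolv
  have hS' := h.eq_sup hS hInv hEs
  have hle : S' ≤ S := h.inv.le
  have hf : Finite ↥S' := finite_of_le hle
  have hp := isPGroup_of_le hS hle
  have hTS' : T ≤ S' := sub_le h.sub
  have hTf : Finite T := finite_of_le hInv.le
  have hTp := isPGroup_of_le hS hInv.le
  have hhyp := hyp_le_of_aut c hS'.le hTS' h.sat h.inv.sub h.aut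
  have hmid := inv_mid hS hInv h.inv h.sat h.sub
  obtain ⟨F₁, hF₁s, hF₁i⟩ := exists_index _ hp F' h.sat hTS' hhyp rfl
  have h1 : E.IsSubsystemOf F₁ := subsystem_of_pprime hTp hEs le_rfl fun P hP α hα ho =>
    pprime_mem_of_index hF₁i hP (sub_autGroup h.sub hP hα) ho
  have h2 : F₁.IsSubsystemOf E := by
    rw [isSubsystemOf_iff]
    intro P f hf'
    obtain ⟨a, f₀, ha, hf₀, h3⟩ := hmid.frattini hf'.le (sub_fmap hF₁i.1 hf')
    have h4 := (fiso_autFun_iff le_rfl).2 (h.aut ha.equiv_mem_autGroup)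
    refine (hf₀.comp h4.1 (fun x hx => hf₀.map_mem hx)).congr fun x hx => ?_
    rw [h3 x hx, autFun_of_mem _ (hf₀.map_mem hx)]
    rfl
  have h3 : F₁ = E := by
    rw [fusion_eq_iff_fmap]
    intro P f
    exact ⟨fun h => sub_fmap h2 h, fun h => sub_fmap h1 h⟩
  subst h3
  obtain ⟨X, Xinf, hX⟩ := exists_limit _ _ hp F' h.sat rfl rfl
  intro P
  exact ((h.lim hFinf hX).trans (limit_of_index hp h.sat hEs hF₁i hX hEinf)).2 P

end Cfsg.Agent.S5201
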