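import Cfsg.Statements.S5202
import Cfsg.Agent.Lib.H34Solv2


set_option autoImplicit false
open Cfsg

namespace Cfsg.Agent.S5202

open Cfsg.FusionSystem Cfsg.Agent.Lib Cfsg.Agent.Lib.FusionBasic Cfsg.Agent.Lib.FusionSat Cfsg.Agent.Lib.FusionInvar Cfsg.Agent.Lib.H34Limit Cfsg.Agent.Lib.H34Solv


/-- Let F be a saturated fusion system over a finite p-group S and E a normal subsystem of F over T such that Aut_F(T)/Aut_E(T) is p-solvable. Then there is a normal subsystem F₀ of F over T·C_S(T) containing E, with Aut_{F₀}(T) = Aut_E(T), containing every residual limit of F, and whose residual limits have the same maps as those of F. -/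
theorem result {Ω : Type*} [Group Ω] {S : Subgroup Ω} [Finite S] (p : ℕ) [Fact p.Prime] (hS : IsPGroup p S) (F : Cfsg.FusionSystem S) (hF : F.IsSaturated p) {T : Subgroup Ω} (E : Cfsg.FusionSystem T) (hE : E.IsNormalIn F p) [hn : ((E.autGroup T).subgroupOf (F.autGroup T)).Normal] (hsolv : Cfsg.IsPSolvable p (↥(F.autGroup T) ⧸ (E.autGroup T).subgroupOf (F.autGroup T))) : ∃ F₀ : Cfsg.FusionSystem (T ⊔ Cfsg.FusionSystem.centralizerIn S T), F₀.IsNormalIn F p ∧ E.IsSubsystemOf F₀ ∧ F₀.autGroup T = E.autGroup T ∧ ∀ {U : Subgroup Ω} (Finf : Cfsg.FusionSystem U), Finf.IsResidualLimitOf F p → Finf.IsSubsystemOf F₀ ∧ ∀ {V : Subgroup Ω} (L : Cfsg.FusionSystem V), L.IsResidualLimitOf F₀ p → ∀ P : Subgroup Ω, L.Hom P = Finf.Hom P := by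
  obtain ⟨hEs, -, hInv, -⟩ := isNormalIn_iff.1 hE
  obtain ⟨S', F', h⟩ := exists_final hS hF hEs hInv hsolv
  have hS' := h.eq_sup hS hInv hEs
  subst hS'
  have hle : T ⊔ Cfsg.FusionSystem.centralizerIn S T ≤ S := h.inv.le
  have hf : Finite ↥(T ⊔ Cfsg.FusionSystem.centralizerIn S T) := finite_of_le hle
  have hp := isPGroup_of_le hS hle
  refine ⟨F', h.isNormalIn hF, h.sub, le_antisymm h.aut (sub_autGroup h.sub le_rfl), ?_⟩
  intro U Finf hFinf
  refine ⟨?_, fun {V} L hL P => ((h.lim hFinf hL).2 P).symm⟩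
  obtain ⟨X, Xinf, hX⟩ := exists_limit _ _ hp F' h.sat rfl rfl
  intro P
  rw [(h.lim hFinf hX).2 P]
  exact limit_sub hX P

end Cfsg.Agent.S5202
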