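import Cfsg.Statements.S5212
import Cfsg.Agent.Lib.MetaFusTwo
import Cfsg.Agent.Lib.FusionInner

set_option autoImplicit false
open Cfsg

namespace Cfsg.Agent.S5212

open Cfsg.Agent.Lib.FusionBasic Cfsg.Agent.Lib.FusionSat Cfsg.Agent.Lib.FusionNormal

def prodEquiv (R : Type*) [AddCommGroup R] :
    Multiplicative R × Multiplicative R ≃* Multiplicative (Fin 2 → R) where
  toFun x := Multiplicative.ofAdd ![x.1.toAdd, x.2.toAdd]
  invFun y := (Multiplicative.ofAdd (y.toAdd 0), Multiplicative.ofAdd (y.toAdd 1))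
  left_inv x := rfl
  right_inv y := by
    show Multiplicative.ofAdd (![y.toAdd 0, y.toAdd 1]) = y
    have : (![y.toAdd 0, y.toAdd 1] : Fin 2 → R) = y.toAdd := by
      funext i
      fin_cases i <;> rfl
    rw [this]
    rfl
  map_mul' x y := by
    rw [← ofAdd_add]
    congr 1
    funext i
    fin_cases i <;> rfl

/-- Let S be a finite metacyclic 2-group that is not homocyclic abelian (a direct product of cyclic groups of one common order), not dihedral, not semidihedral and not generalized quaternion. Then every saturated fusion system over S is the inner fusion system of S. -/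
theorem result {Ω : Type*} [Group Ω] {S : Subgroup Ω} [Finite S] (hS : IsPGroup 2 S) (F : Cfsg.FusionSystem S) (hF : F.IsSaturated 2) (hm : Cfsg.IsMetacyclic ↥S) (hh : ¬ ∃ n k : ℕ, Nonempty (↥S ≃* Multiplicative (Fin k → ZMod (2 ^ n)))) (hd : ¬ ∃ m : ℕ, Nonempty (↥S ≃* DihedralGroup m)) (hq : ¬ ∃ m : ℕ, Nonempty (↥S ≃* QuaternionGroup m)) (hsd : ¬ Cfsg.IsQuasiDihedral ↥S) : ∀ P : Subgroup Ω, F.Hom P = (Cfsg.innerFusionSystem S).Hom P := by
  have : Fact (Nat.Prime 2) := ⟨Nat.prime_two⟩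
  have hSc : F.StronglyClosed S := by
    rw [stronglyClosed_iff]
    exact ⟨le_rfl, fun P f _ hf x hx => hf.map_mem hx⟩
  have hN : F.IsNormal S := by
    refine Cfsg.Agent.Lib.MetaFusTwo.normal_two hS hF hSc hm ?_
    rintro (h | h | h)
    · exact hd h
    · exact hq h
    · exact hsd h
  have hA : IsPGroup 2 (MulAut S) := by
    by_contra hA
    rcases Cfsg.Agent.Lib.MetaTwoAut.main hS hm hA with h | ⟨n, ⟨e⟩⟩
    · exact hq ⟨2, h⟩
    · exact hh ⟨n, 2, ⟨e.trans (prodEquiv _)⟩⟩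
  rw [Cfsg.Agent.Lib.FusionInner.isInner_iff]
  intro P f hf
  rw [isNormal_iff] at hN
  obtain ⟨g, hg, hgf, hgi⟩ := hN.2 P f hf
  obtain ⟨-, R, hR⟩ := fullyAutomized_of_fullyNormalized hS hF (isFullyNormalized_top F)
  have hRtop : (R : Subgroup (F.autGroup S)) = ⊤ := by
    have h1 : IsPGroup 2 (⊤ : Subgroup (F.autGroup S)) := (hA.to_subgroup (F.autGroup S)).to_subgroup ⊤
    exact (R.3 h1 le_top).symm
  have h2 : (⟨_, hgi.equiv_mem_autGroup⟩ : F.autGroup S) ∈ (R : Subgroup (F.autGroup S)) := by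
    rw [hRtop]; exact Subgroup.mem_top _
  rw [hR, Subgroup.mem_subgroupOf] at h2
  obtain ⟨s, hs, h3⟩ := mem_autInducedBy_iff.1 h2
  have hP := hf.le
  refine ⟨s, hs, fun x hx => ?_⟩
  rw [← hgf x hx, ← h3 ⟨x, hP hx⟩]
  rfl

end Cfsg.Agent.S5212
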