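import Cfsg.Statements.S5214
import Cfsg.Agent.Lib.HigmanCor
import Cfsg.Agent.Lib.FusionNormal

set_option autoImplicit false
open Cfsg

namespace Cfsg.Agent.S5214

/-- Let S be a Suzuki 2-group (a finite nonabelian 2-group with more than one involution admitting a cyclic group of automorphisms permuting its involutions regularly). Then S is normal in every saturated fusion system over S (such a group is resistant). -/
theorem result {Ω : Type*} [Group Ω] {S : Subgroup Ω} [Finite S] (hS : IsPGroup 2 S) (F : Cfsg.FusionSystem S) (hF : F.IsSaturated 2) (hsz : Cfsg.IsSuzukiTwoGroup ↥S) : F.IsNormal S := by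
  classical
  haveI : Fact (Nat.Prime 2) := ⟨Nat.prime_two⟩
  obtain ⟨K, _, φ, _, -, h, hna⟩ := Lib.HigmanBase.exists_hyp hsz
  have hZmem : ∀ x : S, x ∈ h.Z ↔ x * x = 1 := fun x => h.mem_Z
  let Z : Subgroup Ω := h.Z.map S.subtype
  have hZ : ∀ x : Ω, x ∈ Z ↔ x ∈ S ∧ x * x = 1 := by
    intro x
    constructor
    · rintro ⟨y, hy, rfl⟩
      exact ⟨y.2, congrArg Subtype.val ((hZmem y).1 hy)⟩
    · rintro ⟨hx, hx2⟩
      exact ⟨⟨x, hx⟩, (hZmem _).2 (Subtype.ext hx2), rfl⟩
  have hSS : F.StronglyClosed S := by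
    refine ⟨le_rfl, fun P hP φ hφ x => (F.le_of_mem hφ).2 x⟩
  have hZS : F.StronglyClosed Z := by
    refine ⟨fun x hx => ((hZ x).1 hx).1, fun P hP φ hφ x => ?_⟩
    rw [hZ]
    refine ⟨(F.le_of_mem hφ).2 x, ?_⟩
    have h1 : x * x = 1 := Subtype.ext ((hZ x).1 (hP x.2)).2
    rw [← map_mul, h1, map_one]
  refine Lib.FusionNormal.isNormal_of_chain hS hF (fun i => if i = 0 then ⊥ else if i = 1 then Z else S) 2
    rfl rfl ?_
  intro i hi
  interval_cases i
  · refine ⟨hZS, ?_⟩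
    change ⁅S, Z⁆ ≤ ⊥
    rw [Subgroup.commutator_le]
    intro a ha b hb
    have hb' := (hZ b).1 hb
    have h1 := h.central (x := ⟨b, hb'.1⟩) (Subtype.ext hb'.2) ⟨a, ha⟩
    have h2 : b * a = a * b := congrArg Subtype.val h1
    rw [Subgroup.mem_bot, commutatorElement_eq_one_iff_mul_comm]
    exact h2.symm
  · refine ⟨hSS, ?_⟩
    change ⁅S, S⁆ ≤ Z
    rw [Subgroup.commutator_le]
    intro a ha b hb
    exact ⟨_, h.comm_mem hna ⟨a, ha⟩ ⟨b, hb⟩, rfl⟩

end Cfsg.Agent.S5214
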