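import Cfsg.Statements.S5215
import Cfsg.Agent.Lib.H88FS23
import Cfsg.Agent.Lib.TwoEFus3
import Cfsg.Agent.Lib.TwoEGrp
import Cfsg.Agent.Lib.ClSLn

set_option autoImplicit false
open Cfsg

namespace Cfsg.Agent.S5215

open Cfsg.FusionSystem Cfsg.Agent.Lib.FusionBasic Cfsg.Agent.Lib.FusionSat Cfsg.Agent.Lib.FusionRealized
open Cfsg.Agent.Lib.H88FS

theorem center3_coprime {p : ℕ} [Fact p.Prime] :
    (Nat.card (Subgroup.center (Matrix.SpecialLinearGroup (Fin 3) (ZMod p)))).Coprime 2 := by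
  rw [Cfsg.Agent.Lib.ClSLn.card_center_SL (F := ZMod p) (q := p) (ZMod.card p) 3 (by norm_num)]
  have h1 : Nat.gcd 3 (p - 1) ∣ 3 := Nat.gcd_dvd_left _ _
  exact Nat.Coprime.coprime_dvd_left h1 (by norm_num)

theorem normal_of_central {Ω : Type*} [Group Ω] {S : Subgroup Ω} {F : FusionSystem S} {Q : Subgroup Ω}
    (hQ : F.IsCentral Q) : F.IsNormal Q := by
  refine ⟨hQ.1, fun P φ hφ => ?_⟩
  obtain ⟨ψ, hψ, h1, h2⟩ := hQ.2 P φ hφ
  refine ⟨ψ, hψ, h1, ?_⟩
  ext a
  constructor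
  · rintro ⟨⟨b, hb⟩, hbQ, rfl⟩
    have hbQ' : b ∈ Q := hbQ
    have h3 : ψ ⟨b, hb⟩ = b := h2 ⟨b, hbQ'⟩
    rw [h3]; exact hbQ'
  · intro ha
    exact ⟨Subgroup.inclusion le_sup_right ⟨a, ha⟩, ha, h2 ⟨a, ha⟩⟩


/-- Let S be a finite 2-group of 2-rank 2 (an elementary abelian subgroup of order 4, none of order 8) and F a simple saturated fusion system over S. Then S is dihedral, semidihedral or wreathed, and F is the fusion system of the projective special linear group PSL₂(q) for some odd prime power q ≡ ±1 (mod 8) or of PSL₃(q) for some odd prime power q: it is realized by an injective homomorphism of S into that group whose image is a Sylow 2-subgroup. -/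
theorem result {Ω : Type*} [Group Ω] {S : Subgroup Ω} [Finite S] (hS : IsPGroup 2 S) (F : Cfsg.FusionSystem S) (hF : F.IsSaturated 2) (hr : Cfsg.PRankAtLeast 2 2 ↥S ∧ ¬ Cfsg.PRankAtLeast 2 3 ↥S) (hsimple : F.IsSimple 2) : ((∃ m : ℕ, Nonempty (↥S ≃* DihedralGroup m)) ∨ Cfsg.IsQuasiDihedral ↥S ∨ Cfsg.IsWreathed ↥S) ∧ ∃ (K : Type) (_ : Field K) (_ : Fintype K) (q : ℕ), Fintype.card K = q ∧ Odd q ∧ (((q % 8 = 1 ∨ q % 8 = 7) ∧ ∃ ι : ↥S →* Matrix.ProjectiveSpecialLinearGroup (Fin 2) K, F.IsRealizedBy ι ∧ ∃ T : Sylow 2 (Matrix.ProjectiveSpecialLinearGroup (Fin 2) K), (T : Subgroup (Matrix.ProjectiveSpecialLinearGroup (Fin 2) K)) = ι.range) ∨ (∃ ι : ↥S →* Matrix.ProjectiveSpecialLinearGroup (Fin 3) K, F.IsRealizedBy ι ∧ ∃ T : Sylow 2 (Matrix.ProjectiveSpecialLinearGroup (Fin 3) K), (T : Subgroup (Matrix.ProjectiveSpecialLinearGroup (Fin 3) K)) = ι.range)) := by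
  classical
  haveI : Fact (Nat.Prime 2) := ⟨Nat.prime_two⟩
  have hRk := Cfsg.Agent.Lib.TwoE.rk_of_not_atLeast hS hr.2
  have h4 : 4 ≤ Nat.card S := by
    obtain ⟨A, -, -, hA⟩ := hr.1
    have h1 : Nat.card A ≤ Nat.card S := Nat.card_le_card_of_injective _ Subtype.val_injective
    omega
  have hcore : ∀ Q : Subgroup Ω, F.IsNormal Q → Q = ⊥ := fun Q hQ => simple_core hS hsimple h4 hQ
  have hS1 : S ≠ ⊥ := hsimple.2.1
  have hZ : F.center = ⊥ := by
    rw [FusionSystem.center, sSup_eq_bot]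
    intro Q hQ
    exact hcore Q (normal_of_central hQ)
  obtain ⟨E, Q, hEQ, hQn, hmax⟩ := Cfsg.Agent.Lib.TwoE.exists_max hS hF
    (Cfsg.Agent.Lib.TwoE.exists_good hS hF hZ hS1 hRk)
  have hQS : Q ≠ S := by
    rintro rfl
    have h1 : F.IsNormal E := by
      refine Cfsg.Agent.Lib.FusionNormal.isNormal_of_abelian_stronglyClosed hS hF ⟨hEQ.le, ?_⟩ ?_
      · intro R hR φ hφ a
        have h2 := (F.le_of_mem hφ).2 a
        rw [← hEQ.sq _ h2, ← map_mul]
        have h3 : a * a = 1 := Subtype.ext ((hEQ.sq _ (hEQ.le (hR a.2))).2 (hR a.2))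
        rw [h3, map_one]
      · intro a ha b hb
        exact hEQ.comm a ha b (hEQ.le hb)
    have h2 := hEQ.card
    rw [hcore E h1, Subgroup.card_bot] at h2
    omega
  rcases Cfsg.Agent.Lib.TwoE.Good.proper hS hF hRk hEQ hQn hmax hQS with ⟨m, hm2, ⟨e⟩⟩ | hqd | hwr
  · refine ⟨Or.inl ⟨m, ⟨e⟩⟩, ?_⟩
    have hm4 : 4 ≤ m := by
      by_contra hlt
      have hcard : Nat.card S = 2 * m := by
        rw [Nat.card_congr e.toEquiv, DihedralGroup.nat_card]
      obtain ⟨k, hk⟩ := IsPGroup.iff_card.mp hS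
      have hm : m = 2 := by
        have : m = 2 ∨ m = 3 := by omega
        rcases this with h1 | h1
        · exact h1
        · exfalso
          rw [hcard, h1] at hk
          have h2 : 3 ∣ 2 ^ k := ⟨2, by omega⟩
          have h3 := (Nat.Prime.dvd_of_dvd_pow Nat.prime_three h2)
          norm_num at h3
      subst hm
      have hab : ∀ a b : DihedralGroup 2, a * b = b * a := by decide
      have h1 : F.IsNormal S := by
        refine Cfsg.Agent.Lib.FusionNormal.isNormal_of_abelian_stronglyClosed hS hF ⟨le_rfl, ?_⟩ ?_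
        · intro R hR φ hφ a
          exact (F.le_of_mem hφ).2 a
        · intro a ha b hb
          have h2 : (⟨a, ha⟩ : S) * ⟨b, hb⟩ = ⟨b, hb⟩ * ⟨a, ha⟩ := by
            apply e.injective
            rw [map_mul, map_mul, hab]
          exact congrArg Subtype.val h2
      exact hS1 (hcore S h1)
    obtain ⟨x, y, n, h⟩ := mc_dihedral hS hm4 e
    obtain ⟨ha, hb⟩ := h.simple_act rfl hsimple
    obtain ⟨p, hp, x', y', hp8, hG⟩ := dataD_TT h.hn
    have hG' : GD _ x' y' (-1) 0 n (Act F (EE x n y)) (Act F (EE x n (x * y))) := by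
      rw [eq_true ha, eq_true hb]; exact hG
    obtain ⟨ι, h1, h2⟩ := h.realize (Or.inr rfl) hF hG'
    refine ⟨ZMod p, inferInstance, inferInstance, p, ZMod.card p, ?_, Or.inl ⟨Or.inl hp8, ι, h1, h2⟩⟩
    rw [Nat.odd_iff]; omega
  · refine ⟨Or.inr (Or.inl hqd), ?_⟩
    obtain ⟨x, y, n, hn, h⟩ := mc_semidihedral hqd
    obtain ⟨ha, hb⟩ := h.simple_act rfl hsimple
    obtain ⟨p, hp, x', y', hpo, hG⟩ := dataSD_TT hn
    have hG' : GD _ x' y' (2 ^ n - 1) 0 n (Act F (EE x n y)) (Act F (EE x n (x * y))) := by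
      rw [eq_true ha, eq_true hb]; exact hG
    obtain ⟨ι, h1, T, h2⟩ := h.realize (Or.inr rfl) hF hG'
    have h3 := Cfsg.Agent.Lib.FusionRealized2.isRealizedBy_quotient h1 T h2
      (Subgroup.center (Matrix.SpecialLinearGroup (Fin 3) (ZMod p))) (center3_coprime)
    exact ⟨ZMod p, inferInstance, inferInstance, p, ZMod.card p, hpo, Or.inr ⟨_, h3.1, h3.2⟩⟩
  · refine ⟨Or.inr (Or.inr hwr), ?_⟩
    obtain ⟨x, y, z, q, n, h⟩ := Cfsg.Agent.Lib.Wreathed.exists_wr hwr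
    obtain ⟨hV, hU⟩ := wr_simple_act h hwr hsimple
    obtain ⟨X, Y, h', hUU, hrho⟩ := exists_adapted h hF hU
    obtain ⟨p, hp, hpo, -, x', y', z', hG⟩ := dataW h.hn
    obtain ⟨ι, h1, T, h2⟩ := wr_realize h' hF (wr_transfer h h' hUU hV) hG (fun _ => hrho) (fun h0 => absurd trivial h0)
    have h3 := Cfsg.Agent.Lib.FusionRealized2.isRealizedBy_quotient h1 T h2
      (Subgroup.center (Matrix.SpecialLinearGroup (Fin 3) (ZMod p))) (center3_coprime)
    exact ⟨ZMod p, inferInstance, inferInstance, p, ZMod.card p, hpo, Or.inr ⟨_, h3.1, h3.2⟩⟩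

end Cfsg.Agent.S5215
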