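import Cfsg.Statements.S5219
import Cfsg.Agent.Lib.FusionAgemo

set_option autoImplicit false
open Cfsg Cfsg.FusionSystem Cfsg.Agent.Lib

namespace Cfsg.Agent.S5219

/-- Let p be a prime, n a natural number, S a nontrivial finite p-group of nilpotence class at most n(p−1)+1, and F a saturated fusion system over S with no nontrivial normal subgroup (O_p(F) = 1). Then S has exponent dividing p^(n²(p−1)+n). -/
theorem result {Ω : Type*} [Group Ω] {S : Subgroup Ω} [Finite S] (p : ℕ) [Fact p.Prime] (hS : IsPGroup p S) (F : Cfsg.FusionSystem S) (hF : F.IsSaturated p) (n : ℕ) (hS1 : S ≠ ⊥) (hcl : Subgroup.lowerCentralSeries S (n * (p - 1) + 1) = ⊥) (hcore : F.core = ⊥) : Monoid.exponent ↥S ∣ p ^ (n ^ 2 * (p - 1) + n) := by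
  have hnil : Group.IsNilpotent ↥S := hS.isNilpotent
  have h1 := FusionAgemo.agemo_isNormal hS hF hcl
  have h2 : Cfsg.powerClosure p n (S ⊓ Subgroup.centralizer (S : Set Ω)) ≤ F.core := le_sSup h1
  rw [hcore] at h2
  have h3 : ∀ z ∈ Subgroup.center ↥S, z ^ (p ^ n) = 1 := by
    intro z hz
    apply Subtype.ext
    have h4 : (z : Ω) ^ p ^ n ∈ Cfsg.powerClosure p n (S ⊓ Subgroup.centralizer (S : Set Ω)) := by
      refine Subgroup.subset_closure ⟨z, ⟨z.2, Subgroup.mem_centralizer_iff.2 fun s hs => ?_⟩, rfl⟩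
      exact congrArg Subtype.val (Subgroup.mem_center_iff.1 hz ⟨s, hs⟩)
    exact Subgroup.mem_bot.1 (h2 h4)
  have h4 : (⊤ : Subgroup ↥S).lowerCentralSeries (n * (p - 1) + 1) = ⊥ := by
    have h5 := Subgroup.top_subtype_lowerCentralSeries S (n * (p - 1) + 1)
    rw [hcl, Subgroup.map_eq_bot_iff_of_injective _ S.subtype_injective] at h5
    exact h5
  rw [Monoid.exponent_dvd_iff_forall_pow_eq_one]
  intro x
  have h5 := FusionAgemo.exponent_dvd h3 h4 x
  rw [← pow_mul] at h5
  have h6 : n * (n * (p - 1) + 1) = n ^ 2 * (p - 1) + n := by ring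
  rw [← h6]
  exact h5

end Cfsg.Agent.S5219
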