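import Cfsg.Statements.S5220
import Cfsg.Agent.Lib.FusionAgemoJ

set_option autoImplicit false
open Cfsg Cfsg.FusionSystem Cfsg.Agent.Lib Cfsg.Agent.Lib.FusionBasic Cfsg.Agent.Lib.FusionSat

namespace Cfsg.Agent.S5220

/-- Let F be a saturated fusion system over a nontrivial finite p-group S, let J(S) be the subgroup generated by the abelian subgroups of S of largest order, and let V be the subgroup generated by the p-th powers of the elements of Z(S). Then F is generated by the centralizer fusion system of V and the normalizer fusion system of J(S): every fusion system over S containing the maps of both contains every map of F. -/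
theorem result {Ω : Type*} [Group Ω] {S : Subgroup Ω} [Finite S] (p : ℕ) [Fact p.Prime] (hS : IsPGroup p S) (F : Cfsg.FusionSystem S) (hF : F.IsSaturated p) (hS1 : S ≠ ⊥) (C : Cfsg.FusionSystem (Cfsg.FusionSystem.centralizerIn S (Cfsg.powerClosure p 1 (S ⊓ Subgroup.centralizer (S : Set Ω))))) (hC : F.IsCentralizerSystem (Cfsg.powerClosure p 1 (S ⊓ Subgroup.centralizer (S : Set Ω))) C) (N : Cfsg.FusionSystem (Cfsg.FusionSystem.normalizerIn S (Cfsg.thompsonSubgroupAOf S))) (hN : F.IsNormalizerSystem (Cfsg.thompsonSubgroupAOf S) N) (E : Cfsg.FusionSystem S) (hCE : C.IsSubsystemOf E) (hNE : N.IsSubsystemOf E) : F.IsSubsystemOf E := by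
  have hCE' : ∀ P f, FMap C P f → FMap E P f := fun P f h => hom_subset_iff_fmap.1 (hCE P) f h
  have hNE' : ∀ P f, FMap N P f → FMap E P f := fun P f h => hom_subset_iff_fmap.1 (hNE P) f h
  rw [FusionNormSat.isCentralizerSystem_iff] at hC
  rw [FusionNormSat.isNormalizerSystem_iff] at hN
  have key : ∀ P f, FMap F P f → FMap E P f := by
    refine FusionAgemoJ.main _ S inferInstance hS F hF rfl (fun P f => FMap E P f) (fun P f g _ h1 h2 => h2.congr h1)
      (fun P Q f _ h1 h2 => h2.restrict h1) (fun P Q f g h _ h1 h2 => h1.comp h2 (fun x hx => h.mem hx)) ?_ ?_ ?_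
    · intro P Q f g hf hg hgf h1
      obtain ⟨g', hg', h3, h4⟩ := (show FIso E P Q f from ⟨h1, hf.2⟩).symm
      refine hg'.1.congr fun y hy => ?_
      obtain ⟨x, hx, rfl⟩ := (hf.2 y).1 hy
      rw [h3 x hx, hgf x hx]
    · intro P f hf hVP h1
      have hVZ : powerClosure p 1 (centralizerIn S S) ≤ centralizerIn S S := FusionAgemoJ.pc_le _
      have h2 : centralizerIn S (powerClosure p 1 (centralizerIn S S)) = S := by
        apply le_antisymm (centralizerIn_le S _)
        intro x hx
        refine mem_centralizerIn.2 ⟨hx, Subgroup.mem_centralizer_iff.2 fun v hv => ?_⟩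
        exact (Subgroup.mem_centralizer_iff.1 (hVZ hv).2 x hx).symm
      refine hCE' P f ((hC P f).2 ⟨?_, fun x hx => ?_, f, ?_, fun _ _ => rfl, h1⟩)
      · intro x hx
        have : x ∈ centralizerIn S (powerClosure p 1 (centralizerIn S S)) := by rw [h2]; exact hf.le hx
        exact this
      · have : f x ∈ centralizerIn S (powerClosure p 1 (centralizerIn S S)) := by rw [h2]; exact hf.map_mem hx
        exact this
      · have : P ⊔ powerClosure p 1 (centralizerIn S S) = P := sup_eq_left.2 hVP
        have h3 : FMap F (P ⊔ powerClosure p 1 (centralizerIn S S)) f := by rw [this]; exact hf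
        exact h3
    · intro P f hf hJP h1
      have h2 : normalizerIn S (thompsonSubgroupAOf S) = S :=
        inf_eq_left.2 (Subgroup.le_normalizer.trans (FusionJ.normalizer_le S))
      refine hNE' P f ((hN P f).2 ⟨by rw [h2]; exact hf.le, fun x hx => by rw [h2]; exact hf.map_mem hx, f, ?_,
        fun _ _ => rfl, h1⟩)
      rw [sup_eq_left.2 hJP]; exact hf
  exact fun P => hom_subset_iff_fmap.2 (key P)

end Cfsg.Agent.S5220
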