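import Cfsg.Statements.S5221
import Cfsg.Agent.Lib.H34Sparse


set_option autoImplicit false
open Cfsg

namespace Cfsg.Agent.S5221

open Cfsg.FusionSystem Cfsg.Agent.Lib Cfsg.Agent.Lib.FusionBasic Cfsg.Agent.Lib.FusionSat Cfsg.Agent.Lib.FusionNormSat Cfsg.Agent.Lib.FusionNormal Cfsg.Agent.Lib.FusionSys Cfsg.Agent.Lib.H34Local Cfsg.Agent.Lib.H34JCenter Cfsg.Agent.Lib.H34Inner Cfsg.Agent.Lib.FusionInner Cfsg.Agent.Lib.H34Sparse


/-- Let F be a sparse fusion system over a finite p-group S: a saturated fusion system, not the inner fusion system of S, whose only saturated fusion systems over S contained in it are F itself and the inner one. If p is odd, or F is S₄-free (the symmetric group of degree 4 is not involved in any model of the normalizer system of a fully normalized F-centric subgroup), then F is constrained. -/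
theorem result {Ω : Type*} [Group Ω] {S : Subgroup Ω} [Finite S] (p : ℕ) [Fact p.Prime] (hS : IsPGroup p S) (F : Cfsg.FusionSystem S) (hF : F.IsSaturated p) (hsp : ¬ (∀ P : Subgroup Ω, F.Hom P = (Cfsg.innerFusionSystem S).Hom P) ∧ ∀ E : Cfsg.FusionSystem S, E.IsSaturated p → E.IsSubsystemOf F → (∀ P : Subgroup Ω, E.Hom P = F.Hom P) ∨ (∀ P : Subgroup Ω, E.Hom P = (Cfsg.innerFusionSystem S).Hom P)) (hp : p ≠ 2 ∨ F.IsSectionFree p (Equiv.Perm (Fin 4))) : F.IsConstrained p := by

  obtain ⟨h1, h2, -⟩ := sparse_constrained hS hF (gd_of_sectionFree hS hF hp) (fun h => hsp.1 (isInner_iff.2 h)) (by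
    intro E hE hsub
    rcases hsp.2 E hE (fun P φ hφ => by
      have h3 := hsub P _ (fmap_toFun.2 hφ)
      exact fmap_toFun.1 h3) with h | h
    · left
      intro P f hf
      exact (hom_eq_iff_fmap.1 (h P) f).2 hf
    · right
      exact isInner_iff.1 h)
  exact ⟨hF, _, h1, h2⟩

end Cfsg.Agent.S5221
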