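import Cfsg.Statements.S5222
import Cfsg.Agent.Lib.FusionInner

set_option autoImplicit false
open Cfsg

namespace Cfsg.Agent.S5222

/-- Let F be a saturated fusion system over a finite p-group S whose normalizer fusion system of S is the inner fusion system of S (Aut_F(S) is a p-group). Then for every subgroup Q of S with [S, S] ≤ Q ≤ Φ(S), the normalizer fusion system of Q in F is the inner fusion system of N_S(Q) = S. -/
theorem result {Ω : Type*} [Group Ω] {S : Subgroup Ω} [Finite S] (p : ℕ) [Fact p.Prime] (hS : IsPGroup p S) (F : Cfsg.FusionSystem S) (hF : F.IsSaturated p) (hN : ∀ N : Cfsg.FusionSystem (Cfsg.FusionSystem.normalizerIn S S), F.IsNormalizerSystem S N → ∀ P : Subgroup Ω, N.Hom P = (Cfsg.innerFusionSystem (Cfsg.FusionSystem.normalizerIn S S)).Hom P) (Q : Subgroup Ω) (h1 : (commutator ↥S).map S.subtype ≤ Q) (h2 : Q ≤ (frattini ↥S).map S.subtype) : ∀ N : Cfsg.FusionSystem (Cfsg.FusionSystem.normalizerIn S Q),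 F.IsNormalizerSystem Q N → ∀ P : Subgroup Ω, N.Hom P = (Cfsg.innerFusionSystem (Cfsg.FusionSystem.normalizerIn S Q)).Hom P := by
  intro N hNQ
  have hQS : Q ≤ S := h2.trans (Subgroup.map_subtype_le _)
  have hcomm : ∀ a ∈ S, ∀ b ∈ S, a⁻¹ * (b * a * b⁻¹) ∈ Q := by
    intro a ha b hb
    apply h1
    refine ⟨⟨a⁻¹, S.inv_mem ha⟩ * ⟨b, hb⟩ * ⟨a⁻¹, S.inv_mem ha⟩⁻¹ * ⟨b, hb⟩⁻¹, ?_, ?_⟩
    · exact Subgroup.commutator_mem_commutator (Subgroup.mem_top _) (Subgroup.mem_top _)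
    · show a⁻¹ * b * a⁻¹⁻¹ * b⁻¹ = a⁻¹ * (b * a * b⁻¹)
      group
  have hnorm : S ≤ Subgroup.normalizer (Q : Set Ω) := by
    intro s hs
    have h3 : ∀ s ∈ S, ∀ x ∈ Q, s * x * s⁻¹ ∈ Q := by
      intro s hs x hx
      have h2 : s * x * s⁻¹ = x * (x⁻¹ * (s * x * s⁻¹)) := by group
      rw [h2]
      exact Q.mul_mem hx (hcomm x (hQS hx) s hs)
    rw [Subgroup.mem_normalizer_iff]
    intro x
    constructor
    · exact h3 s hs x
    · intro hx
      have h4 := h3 _ (S.inv_mem hs) _ hx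
      have h5 : s⁻¹ * (s * x * s⁻¹) * s⁻¹⁻¹ = x := by group
      rwa [h5] at h4
  have hSQ : Cfsg.FusionSystem.normalizerIn S Q = S := inf_eq_left.2 hnorm
  have hQfn : F.IsFullyNormalized Q := by
    refine ⟨hQS, fun R hR => ?_⟩
    rw [hSQ]
    exact Nat.card_le_card_of_injective _ (Subgroup.inclusion_injective (inf_le_left))
  have hiff := Cfsg.Agent.Lib.FusionNormSat.isNormalizerSystem_iff.1 hNQ
  refine Cfsg.Agent.Lib.FusionInner.inner_of_sub hS hSQ N
    (Cfsg.Agent.Lib.FusionNormSat.normalizerSystem_saturated hS hF hQfn hNQ) ?_ ?_ h1 h2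
    (fun f hf => Cfsg.Agent.Lib.FusionInner.normalizer_top_inner hN hf)
  · intro P f hf
    obtain ⟨-, -, g, hg, hgf, -⟩ := (hiff P f).1 hf
    exact (hg.restrict le_sup_left).congr hgf
  · rw [Cfsg.Agent.Lib.FusionBasic.stronglyClosed_iff]
    refine ⟨by rw [hSQ]; exact hQS, fun P f hP hf x hx => ?_⟩
    obtain ⟨-, -, g, hg, hgf, hgQ⟩ := (hiff P f).1 hf
    rw [← hgf x hx]
    exact hgQ.mem (hP hx)

end Cfsg.Agent.S5222
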