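import Cfsg.Statements.S5223
import Cfsg.Agent.Lib.FusionNormal
import Cfsg.Agent.Lib.PAut
import Cfsg.Agent.Lib.PNilp

set_option autoImplicit false
open Cfsg

namespace Cfsg.Agent.S5223

/-- Let F be a saturated fusion system over a finite p-group S. Suppose there are subgroups Q₀ = S, Q₁, …, Qₙ = 1 (not required to be nested) such that for each i < n the focal subgroup of Qᵢ (generated by the elements x⁻¹φ(x), x ∈ Qᵢ, φ a map of F defined on the cyclic group generated by x) lies in Qᵢ₊₁. Then F is the inner fusion system of S. -/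
theorem result {Ω : Type*} [Group Ω] {S : Subgroup Ω} [Finite S] (p : ℕ) [Fact p.Prime] (hS : IsPGroup p S) (F : Cfsg.FusionSystem S) (hF : F.IsSaturated p) (n : ℕ) (Q : Fin (n + 1) → Subgroup Ω) (hQ0 : Q 0 = S) (hQn : Q (Fin.last n) = ⊥) (hstep : ∀ i : Fin n, Subgroup.closure {y : Ω | ∃ x ∈ Q i.castSucc, ∃ φ ∈ F.Hom (Subgroup.zpowers x), y = x⁻¹ * φ ⟨x, Subgroup.mem_zpowers x⟩} ≤ Q i.succ) : ∀ P : Subgroup Ω, F.Hom P = (Cfsg.innerFusionSystem S).Hom P := by
  open Cfsg.Agent.Lib.FusionBasic Cfsg.Agent.Lib.FusionSat in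
  have hpg : ∀ P : Subgroup Ω, P ≤ S → IsPGroup p (F.autGroup P) := by
    intro P hP
    have hfinP : Finite P := finite_of_le hP
    have hPp : IsPGroup p P := isPGroup_of_le hS hP
    intro α
    obtain ⟨k, hk⟩ := Cfsg.Agent.Lib.PNilp.exists_pow_coprime p α
    refine ⟨k, ?_⟩
    obtain ⟨β, hβ⟩ : ∃ β, β = α ^ p ^ k := ⟨_, rfl⟩
    rw [← hβ] at hk ⊢
    have hβo : (orderOf (β : MulAut P)).Coprime p := by rw [Subgroup.orderOf_coe]; exact hk
    have hQS : Q 0 = S := hQ0
    let Q' : ℕ → Subgroup P := fun i => if h : i < n + 1 then (Q ⟨i, h⟩).subgroupOf P else ⊥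
    have h1 : (β : MulAut P) = 1 := by
      refine Cfsg.Agent.Lib.PAut.eq_one_of_chain hPp hβo (n := n) Q' ?_ ?_ ?_
      · have h0 : Q' 0 = (Q 0).subgroupOf P := by
          show (if h : 0 < n + 1 then (Q ⟨0, h⟩).subgroupOf P else ⊥) = _
          rw [dif_pos (Nat.succ_pos n)]
          rfl
        rw [h0, hQ0]
        exact Subgroup.subgroupOf_eq_top.2 hP
      · have h0 : Q' n = (Q (Fin.last n)).subgroupOf P := by
          show (if h : n < n + 1 then (Q ⟨n, h⟩).subgroupOf P else ⊥) = _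
          rw [dif_pos (Nat.lt_succ_self n)]
          rfl
        rw [h0, hQn]
        exact Subgroup.bot_subgroupOf P
      · intro i hi x hx
        have h0 : Q' i = (Q (Fin.castSucc ⟨i, hi⟩)).subgroupOf P := by
          show (if h : i < n + 1 then (Q ⟨i, h⟩).subgroupOf P else ⊥) = _
          rw [dif_pos (by omega)]
          rfl
        have h2 : Q' (i + 1) = (Q (Fin.succ ⟨i, hi⟩)).subgroupOf P := by
          show (if h : i + 1 < n + 1 then (Q ⟨i + 1, h⟩).subgroupOf P else ⊥) = _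
          rw [dif_pos (by omega)]
          rfl
        rw [h2]
        rw [h0] at hx
        refine Subgroup.mem_subgroupOf.2 (hstep ⟨i, hi⟩ (Subgroup.subset_closure ⟨x, Subgroup.mem_subgroupOf.1 hx, ?_⟩))
        have h3 : FMap F (Subgroup.zpowers (x : Ω)) (autFun (β : MulAut P)) :=
          (fmap_of_autGroup hP β.2).restrict (by rw [Subgroup.zpowers_le]; exact x.2)
        obtain ⟨φ, hφ, hφx⟩ := h3
        refine ⟨φ, hφ, ?_⟩
        rw [hφx]
        show ((x⁻¹ * (β : MulAut P) x : P) : Ω) = (x : Ω)⁻¹ * autFun (β : MulAut P) (x : Ω)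
        rw [autFun_coe]
        rfl
    exact Subtype.ext h1
  intro P
  rw [Cfsg.Agent.Lib.FusionNormal.eq_inner_of_pGroup hS hF hpg]

end Cfsg.Agent.S5223
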