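import Cfsg.Statements.S5226
import Cfsg.Agent.Lib.FusionClosed

set_option autoImplicit false
open Cfsg

namespace Cfsg.Agent.S5226

/-- Let F be a saturated fusion system over a finite p-group S and Q a subgroup of S. Then Q is normal in F (F equals the normalizer system of Q) if and only if Q is strongly closed in F and admits a central series 1 = Q₀ ≤ Q₁ ≤ ⋯ ≤ Qₙ = Q ([Qᵢ₊₁, Q] ≤ Qᵢ) all of whose proper terms are weakly closed in F. -/
theorem result {Ω : Type*} [Group Ω] {S : Subgroup Ω} [Finite S] (p : ℕ) [Fact p.Prime] (hS : IsPGroup p S) (F : Cfsg.FusionSystem S) (hF : F.IsSaturated p) (Q : Subgroup Ω) : F.IsNormal Q ↔ F.StronglyClosed Q ∧ ∃ (n : ℕ) (C : Fin (n + 1) → Subgroup Ω), C 0 = ⊥ ∧ C (Fin.last n) = Q ∧ Monotone C ∧ (∀ i : Fin n, ⁅C i.succ, Q⁆ ≤ C i.castSucc) ∧ ∀ i : Fin n, F.WeaklyClosed (C i.castSucc) := by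
  open Cfsg.Agent.Lib.FusionClosed Cfsg.Agent.Lib.FusionNormal Cfsg.Agent.Lib.FusionSat in
  constructor
  · intro hQ
    have hsc := isNormal_stronglyClosed hQ
    refine ⟨hsc, ?_⟩
    have hQp : IsPGroup p Q := isPGroup_of_le hS hsc.1
    have hfin : Finite Q := finite_of_le hsc.1
    have hnil : Group.IsNilpotent Q := hQp.isNilpotent
    obtain ⟨n, C, hC0, hCn, hmono, hle, hcomm, hchar⟩ := exists_central_chain Q
    refine ⟨n, fun i => C i, hC0, hCn, fun i j hij => hmono hij, fun i => hcomm i, fun i => ?_⟩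
    exact weaklyClosed_of_stronglyClosed (isNormal_stronglyClosed (isNormal_of_characteristic hQ (hle _) (hchar _)))
  · rintro ⟨hsc, n, C, hC0, hCn, hmono, hcomm, hw⟩
    let C' : ℕ → Subgroup Ω := fun i => if h : i < n + 1 then C ⟨i, h⟩ else Q
    have hC' : ∀ i (h : i < n + 1), C' i = C ⟨i, h⟩ := fun i h => dif_pos h
    refine isNormal_of_weak_chain hS hF hsc C' n ?_ ?_ ?_ ?_ ?_
    · rw [hC' 0 (by omega)]; exact hC0
    · rw [hC' n (by omega)]; exact hCn
    · intro i hi
      rw [hC' i (by omega), ← hCn]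
      exact hmono (Fin.le_last _)
    · intro i hi
      rw [hC' i (by omega), hC' (i + 1) (by omega)]
      exact hcomm ⟨i, hi⟩
    · intro i hi
      rw [hC' i (by omega)]
      exact hw ⟨i, hi⟩

end Cfsg.Agent.S5226
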