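import Cfsg.Statements.S5243
import Cfsg.Agent.Lib.H34PIndex5


set_option autoImplicit false
open Cfsg

namespace Cfsg.Agent.S5243

open Cfsg.FusionSystem Cfsg.Agent.Lib Cfsg.Agent.Lib.FusionBasic Cfsg.Agent.Lib.FusionSat Cfsg.Agent.Lib.FusionInvar Cfsg.Agent.Lib.FusionTools Cfsg.Agent.Lib.FusionPrime Cfsg.Agent.Lib.H34PIndex Cfsg.Agent.Lib.H34PIndex4


/-- Let F be a saturated fusion system over a finite p-group S, E a normal subsystem of F over T ≤ S, and χ a surjective homomorphism from Aut_F(T) onto a nontrivial finite group Δ of order prime to p whose kernel contains Aut_E(T). Then there is a proper normal subsystem F₀ of F over S containing E such that Aut_{F₀}(S) consists of those α ∈ Aut_F(S) whose restriction to T is an element of Aut_F(T) in the kernel of χ; moreover every p'-residual subsystem O^{p'}(F) of F is contained in F₀. -/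
theorem result {Ω : Type*} [Group Ω] {S : Subgroup Ω} [Finite S] (p : ℕ) [Fact p.Prime] (hS : IsPGroup p S) (F : Cfsg.FusionSystem S) (hF : F.IsSaturated p) {T : Subgroup Ω} (hTS : T ≤ S) (E : Cfsg.FusionSystem T) (hE : E.IsNormalIn F p) {Δ : Type*} [Group Δ] [Finite Δ] [Nontrivial Δ] (hΔ : (Nat.card Δ).Coprime p) (χ : ↥(F.autGroup T) →* Δ) (hχ : Function.Surjective χ) (hker : (E.autGroup T).subgroupOf (F.autGroup T) ≤ χ.ker) : ∃ F₀ : Cfsg.FusionSystem S, F₀.IsNormalIn F p ∧ ¬ (∀ P : Subgroup Ω, F₀.Hom P = F.Hom P) ∧ E.IsSubsystemOf F₀ ∧ (∀ α : MulAut ↥S, α ∈ F₀.autGroup S ↔ α ∈ F.autGroup S ∧ ∃ β : ↥(F.autGroup T), χ β = 1 ∧ ∀ t : ↥T, (((β : MulAut ↥T) t : ↥T) : Ω) = ((α ⟨(t : Ω), hTS t.2⟩ : ↥S) : Ω)) ∧ ∀ R : Cfsg.FusionSystem S, F.IsPPrimeResidual p R → R.IsSubsystemOf F₀ := by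
  have hE' := FusionInvar.isNormalIn_iff.1 hE
  obtain ⟨hEs, -, hInv, -⟩ := hE'
  have c : Ctx E p χ := ⟨hS, hF, hEs, hInv, hΔ, fun a ha => hker (Subgroup.mem_subgroupOf.2 ha)⟩
  have hT := hInv.closed
  obtain ⟨d, hd⟩ := exists_ne (1 : Δ)
  obtain ⟨a, ha⟩ := hχ d
  have hW0 := w0_le_wk c
  have hn : ∀ α ∈ F.autGroup S, ∀ β ∈ WK hT.1 χ, α * β * α⁻¹ ∈ WK hT.1 χ := fun α hα β hβ => wk_normal hT hα hβ
  refine ⟨wsys F p (WK hT.1 χ) wk_le, wsys_isNormalIn wk_le hW0 hS hF hn, ?_, sub_wsys c, ?_, ?_⟩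
  · intro h
    obtain ⟨β, hβ, hβW⟩ := exists_not_mem c ⟨a, by rw [ha]; exact hd⟩
    apply hβW
    rw [← autGroup_wsys wk_le hW0]
    have h1 : FMap (wsys F p (WK hT.1 χ) wk_le) S (autFun β) := by
      obtain ⟨φ, hφ, hφ'⟩ := fmap_of_autGroup le_rfl hβ
      exact ⟨φ, by rw [h]; exact hφ, hφ'⟩
    exact (FMap_autFun_iff le_rfl).1 h1
  · intro α
    rw [autGroup_wsys wk_le hW0]
    constructor
    · rintro ⟨h1, b, h2, h3⟩
      refine ⟨h1, b, h2, fun t => ?_⟩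
      have h4 := h3 t t.2
      rw [autFun_coe, autFun_of_mem α (hT.1 t.2)] at h4
      exact h4
    · rintro ⟨h1, b, h2, h3⟩
      refine ⟨h1, b, h2, fun t ht => ?_⟩
      rw [autFun_of_mem _ ht, autFun_of_mem α (hT.1 ht)]
      exact h3 ⟨t, ht⟩
  · intro R hR
    exact hR.2.2 _ (wsys_saturated wk_le hW0 hS hF) (wsys_primeIndex wk_le hS hF)

end Cfsg.Agent.S5243
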