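import Cfsg.Statements.S5244
import Cfsg.Agent.Lib.FusionUniqAbel3

set_option autoImplicit false
open Cfsg

namespace Cfsg.Agent.S5244

/-- Let p be an odd prime, S a finite nonabelian p-group with a unique abelian subgroup A of index p, and F a saturated fusion system over S with no nontrivial normal subgroup (O_p(F) = 1) in which A is not F-essential. Then some subgroup Z(S)⟨x⟩ with x ∈ S outside A is F-essential, the centre Z(S) is contained in the commutator subgroup of S, and S has maximal nilpotency class (if S has order pⁿ with n ≥ 3, the term of index n − 2 of its lower central series, counting S itself as the term of index 0, is nontrivial). -/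
theorem result {Ω : Type*} [Group Ω] {S : Subgroup Ω} [Finite S] (p : ℕ) [Fact p.Prime] (hS : IsPGroup p S) (F : Cfsg.FusionSystem S) (hF : F.IsSaturated p) (hp : p ≠ 2) (hna : ¬ IsMulCommutative ↥S) (A : Subgroup Ω) (hA : A ≤ S ∧ IsMulCommutative ↥A ∧ (A.subgroupOf S).index = p) (huniq : ∀ B : Subgroup Ω, B ≤ S → IsMulCommutative ↥B → (B.subgroupOf S).index = p → B = A) (hcore : F.core = ⊥) (hAe : ¬ F.IsEssential p A) : (∃ x ∈ S, x ∉ A ∧ F.IsEssential p ((S ⊓ Subgroup.centralizer (S : Set Ω)) ⊔ Subgroup.zpowers x)) ∧ (S ⊓ Subgroup.centralizer (S : Set Ω)) ≤ (commutator ↥S).map S.subtype ∧ ∀ n : ℕ, Nat.card S = p ^ n → 3 ≤ n → Subgroup.lowerCentralSeries S (n - 2) ≠ ⊥ := by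
  have hset : Cfsg.Agent.Lib.FusionUniqAbel.Setup p S A := by
    refine ⟨hS, inferInstance, Fact.out, ?_, hA.1, ?_, hA.2.2⟩
    · by_contra hcon
      push Not at hcon
      exact hna ⟨⟨fun x y => Subtype.ext (hcon x x.2 y y.2)⟩⟩
    · intro x hx y hy
      exact congrArg Subtype.val (hA.2.1.is_comm.comm ⟨x, hx⟩ ⟨y, hy⟩)
  obtain ⟨E, hE, hab, a, ⟨haZ, e, he, heA, y, hy, hey⟩, hap, ha1, hZa⟩ := Cfsg.Agent.Lib.FusionUniqAbel.main hset
    (fun B hB hBab hBi => huniq B hB ⟨⟨fun x y => Subtype.ext (hBab x x.2 y y.2)⟩⟩ hBi) hF hp hcore hAe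
  have hp' : p.Prime := Fact.out
  have hne : E ≠ A := fun h => hAe (h ▸ hE)
  have hfE : Finite E := Cfsg.Agent.Lib.FusionSat.finite_of_le hE.1.1
  have hZE := Cfsg.Agent.Lib.FusionUniqAbel.ZS_le_of_centric hE.1
  obtain ⟨x, hx, hxA⟩ := hset.not_le hE hne
  have hZdef : (S ⊓ Subgroup.centralizer (S : Set Ω)) = Cfsg.Agent.Lib.FusionUniqAbel.ZS S := rfl
  rw [hZdef]
  have hEe : E = Cfsg.Agent.Lib.FusionUniqAbel.ZS S ⊔ Subgroup.zpowers x := by
    refine le_antisymm (fun c hc => ?_) (sup_le hZE (Subgroup.zpowers_le.2 hx))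
    obtain ⟨i, hi⟩ := hset.exists_zpow (hE.1.1 hx) hxA (hE.1.1 hc)
    have h1 := hset.inter hE hne hab (E.mul_mem hc (E.zpow_mem hx i)) hi
    have h2 : c = (c * x ^ i) * (x ^ i)⁻¹ := by rw [mul_inv_cancel_right]
    rw [h2]
    exact Subgroup.mul_mem_sup h1 (Subgroup.inv_mem _ (Subgroup.zpow_mem _ (Subgroup.mem_zpowers x) i))
  refine ⟨⟨x, hE.1.1 hx, hxA, hEe ▸ hE⟩, ?_, ?_⟩
  · rw [hZa, Subgroup.zpowers_le, hey]
    have hyS := hset.hA hy
    have hcm := Subgroup.commutator_mem_commutator (Subgroup.mem_top (⟨e, he⟩ : S)⁻¹) (Subgroup.mem_top (⟨y, hyS⟩ : S))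
    rw [commutatorElement_def] at hcm
    refine ⟨_, hcm, ?_⟩
    show e⁻¹ * y * e⁻¹⁻¹ * y⁻¹ = e⁻¹ * (y * e * y⁻¹)
    group
  · intro n hn h3
    have hZc : Nat.card (Cfsg.Agent.Lib.FusionUniqAbel.ZS S) = p := by
      rw [hZa, Nat.card_zpowers]
      exact orderOf_eq_prime hap ha1
    have hEc : Nat.card E = p ^ 2 := by
      have h1 := ((Cfsg.Agent.Lib.FusionUniqAbel.ZS S).subgroupOf E).index_mul_card
      rw [hset.index_E hE hne hab] at h1
      have h2 : Nat.card ((Cfsg.Agent.Lib.FusionUniqAbel.ZS S).subgroupOf E) = p := by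
        rw [← hZc]
        exact Nat.card_congr (Subgroup.subgroupOfEquivOfLe hZE).toEquiv
      rw [← h1, h2, pow_two]
    have hcl := Cfsg.Agent.Lib.MaxClassCrit.nilpotencyClass_of_self_centralizing n hn (E.subgroupOf S)
      ((Nat.card_congr (Subgroup.subgroupOfEquivOfLe hE.1.1).toEquiv).trans hEc) (by
        intro c hc
        rw [Subgroup.mem_subgroupOf]
        refine hE.1.2 E (Cfsg.Agent.Lib.FusionBasic.isConj_refl F hE.1.1) (Cfsg.Agent.Lib.FusionBasic.mem_centralizerIn.2 ⟨c.2, ?_⟩)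
        rw [Subgroup.mem_centralizer_iff] at hc ⊢
        intro g hg
        exact congrArg Subtype.val (hc ⟨g, hE.1.1 hg⟩ hg))
    intro hbot
    have hnil : Group.IsNilpotent S := hS.isNilpotent
    have h1 : (⊤ : Subgroup S).lowerCentralSeries (n - 2) = ⊥ := by
      apply Subgroup.map_injective S.subtype_injective
      rw [Subgroup.top_subtype_lowerCentralSeries, hbot, Subgroup.map_bot]
    have h2 := Subgroup.lowerCentralSeries_eq_bot_iff_nilpotencyClass_le.mp h1
    rw [hcl] at h2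
    omega

end Cfsg.Agent.S5244
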