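import Cfsg.Statements.S5245
import Cfsg.Agent.Lib.FusionSemi
import Cfsg.Agent.Lib.FusionRad
import Cfsg.Agent.Lib.FusionHyper
import Cfsg.Agent.Lib.Critical

set_option autoImplicit false
open Cfsg Cfsg.FusionSystem Cfsg.Agent.Lib Cfsg.Agent.Lib.FusionBasic Cfsg.Agent.Lib.FusionSat Cfsg.Agent.Lib.FusionNormal Cfsg.Agent.Lib.FusionClosed Cfsg.Agent.Lib.FusionHyper Cfsg.Agent.Lib.FusionFocal

namespace Cfsg.Agent.S5245

/-- Let F be an extremely sparse fusion system over a finite p-group S (saturated, not the inner system, and every saturated fusion system over any subgroup T of S contained in F is F itself or the inner system of T). Then S is normal in F, the focal and hyperfocal subgroups of F are both S, and Aut_F(S) is generated by the inner automorphisms of S together with a single automorphism of prime order q ≠ p (F is the fusion system of the semidirect product of S by a cyclic group of prime order). -/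
theorem result {Ω : Type*} [Group Ω] {S : Subgroup Ω} [Finite S] (p : ℕ) [Fact p.Prime] (hS : IsPGroup p S) (F : Cfsg.FusionSystem S) (hF : F.IsSaturated p) (hxs : ¬ (∀ P : Subgroup Ω, F.Hom P = (Cfsg.innerFusionSystem S).Hom P) ∧ ∀ (T : Subgroup Ω) (E : Cfsg.FusionSystem T), E.IsSaturated p → E.IsSubsystemOf F → (T = S ∧ ∀ P : Subgroup Ω, E.Hom P = F.Hom P) ∨ (∀ P : Subgroup Ω, E.Hom P = (Cfsg.innerFusionSystem T).Hom P)) : F.IsNormal S ∧ F.focalSubgroup = S ∧ F.hyperfocalSubgroup p = S ∧ ∃ (q : ℕ) (β : MulAut ↥S), q.Prime ∧ q ≠ p ∧ β ∈ F.autGroup S ∧ orderOf β = q ∧ (F.autGroup S : Subgroup (MulAut ↥S)) = Cfsg.Inn ↥S ⊔ Subgroup.zpowers β := by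
  classical
  have hp : p.Prime := Fact.out
  obtain ⟨hni, hxs⟩ := hxs
  -- automorphisms of order prime to p are not inner
  have hnotinner : ∀ (T : Subgroup Ω) (E : FusionSystem T), T ≤ S → ∀ α ∈ E.autGroup T, (orderOf α).Coprime p → α ≠ 1 →
      ¬ ∀ P : Subgroup Ω, E.Hom P = (innerFusionSystem T).Hom P := by
    intro T E hT α hα hc h1 h
    have hTp : IsPGroup p T := hS.to_le hT
    have h2 : α ∈ (innerFusionSystem T).autGroup T := by
      rw [mem_autGroup_iff le_rfl] at hα ⊢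
      rw [← h T]; exact hα
    obtain ⟨-, g, hg, h3⟩ := fmap_inner_iff.1 (fmap_of_autGroup le_rfl h2)
    have h4 : α ∈ Inn T := FusionRad.mem_inn_iff.2 ⟨g, hg, fun x => by rw [← h3 x x.2, autFun_coe]⟩
    have h5 : IsPGroup p (Inn T) := isPGroup_inn hTp le_rfl
    obtain ⟨k, hk⟩ := h5 ⟨α, h4⟩
    have h6 : α ^ p ^ k = 1 := congrArg Subtype.val hk
    have h7 : (orderOf α).Coprime (p ^ k) := Nat.Coprime.pow_right k hc
    have h8 := Nat.dvd_gcd dvd_rfl (orderOf_dvd_of_pow_eq_one h6)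
    rw [h7.gcd_eq_one] at h8
    exact h1 (orderOf_eq_one_iff.1 (Nat.dvd_one.1 h8))
  -- an automorphism of prime order
  obtain ⟨P, hP, α, hα, q, hq, hqp, hαq⟩ : ∃ P : Subgroup Ω, P ≤ S ∧ ∃ α ∈ F.autGroup P, ∃ q : ℕ, q.Prime ∧ q ≠ p ∧
      orderOf α = q := by
    by_contra hcon
    push Not at hcon
    refine hni fun P => ?_
    rw [eq_inner_of_pGroup hS hF fun P hP => ?_]
    have hPfin : Finite P := finite_of_le hP
    refine isPGroup_of_coprime_trivial fun g hg => ?_
    by_contra hg1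
    have hne : orderOf (g : MulAut P) ≠ 1 := by
      rw [Subgroup.orderOf_coe]; exact fun h => hg1 (orderOf_eq_one_iff.1 h)
    have h0 : orderOf (g : MulAut P) ≠ 0 := (orderOf_pos _).ne'
    have hq := Nat.minFac_prime hne
    refine hcon P hP ((g : MulAut P) ^ (orderOf (g : MulAut P) / (orderOf (g : MulAut P)).minFac))
      (Subgroup.pow_mem _ g.2 _) _ hq ?_ (orderOf_pow_orderOf_div h0 (Nat.minFac_dvd _))
    intro h
    have h1 : p ∣ orderOf (g : MulAut P) := h ▸ Nat.minFac_dvd _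
    rw [Subgroup.orderOf_coe] at h1
    have h2 := Nat.dvd_gcd h1 (dvd_refl p)
    rw [hg.gcd_eq_one] at h2
    exact hp.one_lt.ne' (Nat.dvd_one.1 h2)
  have hαc : (orderOf α).Coprime p := by rw [hαq]; exact (Nat.coprime_primes hq hp).2 hqp
  have hα1 : α ≠ 1 := fun h => by rw [h, orderOf_one] at hαq; exact hq.one_lt.ne hαq
  obtain ⟨E, hEs, hEF, hE⟩ := FusionSemi.exists_semidirect hS hP hα hαc
  have hαE : α ∈ E.autGroup P := by
    refine mem_autGroup_of_fmap ((hE P (autFun α)).2 ⟨le_rfl, α, Subgroup.mem_zpowers α, 1, P.one_mem, fun x _ => by simp⟩)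
      (fun x => (autFun_coe α x).symm)
  obtain ⟨rfl, hEeq⟩ := (hxs P E hEs hEF).resolve_right (hnotinner P E hP α hαE hαc hα1)
  have hFm : ∀ (Q : Subgroup Ω) (f : Ω → Ω), FMap F Q f ↔ Q ≤ P ∧ ∃ β ∈ Subgroup.zpowers α, ∃ g ∈ P, ∀ x ∈ Q,
      f x = g * autFun β x * g⁻¹ := by
    intro Q f
    rw [← hE Q f, ← hom_eq_iff_fmap.1 (hEeq Q) f]
  have hnorm : F.IsNormal P := by
    rw [isNormal_iff]
    refine ⟨le_rfl, fun Q f hf => ?_⟩
    obtain ⟨hQ, β, hβ, g, hg, h⟩ := (hFm Q f).1 hf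
    have h1 : FMap F P (fun x => g * autFun β x * g⁻¹) := (hFm P _).2 ⟨le_rfl, β, hβ, g, hg, fun _ _ => rfl⟩
    refine ⟨_, by rw [sup_eq_right.2 hQ]; exact h1, fun x hx => (h x hx).symm, ?_⟩
    exact h1.fiso_of_card le_rfl (fun x hx => h1.map_mem hx) le_rfl
  have hhyp : F.hyperfocalSubgroup p = P := by
    obtain ⟨T, hT⟩ : ∃ T, T = F.hyperfocalSubgroup p := ⟨_, rfl⟩
    have hTP : T ≤ P := by rw [hT]; exact hyp_le
    have hmem : ∀ x : P, (x : Ω)⁻¹ * (α x : P) ∈ T := by
      intro x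
      rw [hT, hyp_eq]
      exact Subgroup.subset_closure ⟨P, α, le_rfl, hα, hαc, x, rfl⟩
    have hα' : ∀ x ∈ T, autFun α x ∈ T := by
      intro x hx
      have h1 := hmem ⟨x, hTP hx⟩
      rw [autFun_of_mem α (hTP hx)]
      have h2 : ((α ⟨x, hTP hx⟩ : P) : Ω) = x * (x⁻¹ * (α ⟨x, hTP hx⟩ : P)) := by group
      rw [h2]
      exact T.mul_mem hx h1
    have hTfin : Finite T := finite_of_le hTP
    obtain ⟨γ, hγ, hγα⟩ := exists_aut_of_fmap ((fmap_of_autGroup le_rfl hα).restrict hTP) hα'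
    have hγpow : ∀ (k : ℕ) (x : T), (((γ ^ k) x : T) : Ω) = (α ^ k) ⟨x, hTP x.2⟩ := by
      intro k
      induction k with
      | zero => intro x; rfl
      | succ k ih =>
        intro x
        rw [pow_succ, pow_succ, MulAut.mul_apply, MulAut.mul_apply, ih]
        congr 2
        apply Subtype.ext
        show ((γ x : T) : Ω) = _
        rw [hγα x, autFun_of_mem α (hTP x.2)]
    have hγq : γ ^ q = 1 := by
      ext x
      rw [hγpow, ← hαq, pow_orderOf_eq_one]
      rfl
    have hγc : (orderOf γ).Coprime p :=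
      Nat.Coprime.coprime_dvd_left (orderOf_dvd_of_pow_eq_one hγq) ((Nat.coprime_primes hq hp).2 hqp)
    have hγ1 : γ ≠ 1 := by
      intro h
      apply hα1
      ext x
      have h1 : α (x⁻¹ * α x) = x⁻¹ * α x := by
        apply Subtype.ext
        have h2 := hγα ⟨_, hmem x⟩
        rw [h] at h2
        have h3 : autFun α (((x : Ω)⁻¹ * (α x : P))) = (α (x⁻¹ * α x) : P) := autFun_coe α (x⁻¹ * α x)
        rw [← h3]
        exact h2.symm
      rw [Critical.fixed_of_fixed hS α hαc h1]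
      rfl
    obtain ⟨E', hEs', hEF', hE'⟩ := FusionSemi.exists_semidirect hS hTP hγ hγc
    have hγE : γ ∈ E'.autGroup T := by
      refine mem_autGroup_of_fmap ((hE' T (autFun γ)).2 ⟨le_rfl, γ, Subgroup.mem_zpowers γ, 1, T.one_mem, fun x _ => by simp⟩)
        (fun x => (autFun_coe γ x).symm)
    rw [← hT]
    exact ((hxs T E' hEs' hEF').resolve_right (hnotinner T E' hTP γ hγE hγc hγ1)).1
  refine ⟨hnorm, le_antisymm (focal_le F) (hhyp.symm.le.trans (hyp_le_focal (F := F) (p := p))), hhyp, q, α, hq, hqp, hα, hαq, ?_⟩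
  apply le_antisymm
  · intro γ hγ
    obtain ⟨-, β, hβ, g, hg, h⟩ := (hFm P _).1 (fmap_of_autGroup le_rfl hγ)
    have hc : conjAut P g (Subgroup.le_normalizer hg) ∈ Inn P := FusionRad.mem_inn_iff.2 ⟨g, hg, fun x => rfl⟩
    have h1 : γ = conjAut P g (Subgroup.le_normalizer hg) * β := by
      ext x
      have h2 := h x x.2
      rw [autFun_coe, autFun_coe] at h2
      rw [h2]
      rfl
    rw [h1]
    exact Subgroup.mul_mem_sup hc hβ
  · exact sup_le (inn_le_autGroup le_rfl) (Subgroup.zpowers_le.2 hα)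

end Cfsg.Agent.S5245
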