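import Cfsg.Statements.S5247
import Cfsg.Agent.Lib.FusionStable
import Cfsg.Agent.S5096

set_option autoImplicit false
open Cfsg Cfsg.FusionSystem Cfsg.Agent.Lib Cfsg.Agent.Lib.FusionBasic Cfsg.Agent.Lib.FusionSat Cfsg.Agent.Lib.FusionStable

namespace Cfsg.Agent.S5247

/-- Let p be an odd prime and F a saturated fusion system over a finite p-group S. Call a fusion system E (over any subgroup) p-stable when, for every fully E-normalized subgroup Q and every χ ∈ Aut_E(Q) with χ(a⁻¹)·a·χ(a⁻¹)·χ(χ(a)) = 1 for all a ∈ Q (χ acts quadratically), χ lies in O_p(Aut_E(Q)). Then F is p-stable if and only if every normalizer fusion system N_F(R) of every non-cyclic fully F-normalized subgroup R of S is p-stable. -/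
theorem result {Ω : Type*} [Group Ω] {S : Subgroup Ω} [Finite S] (p : ℕ) [Fact p.Prime] (hS : IsPGroup p S) (F : Cfsg.FusionSystem S) (hF : F.IsSaturated p) (hp : p ≠ 2) : (∀ Q : Subgroup Ω, F.IsFullyNormalized Q → ∀ χ : MulAut ↥Q, χ ∈ F.autGroup Q → (∀ a : ↥Q, (χ a⁻¹) * a * (χ a⁻¹) * (χ (χ a)) = 1) → χ ∈ ((Cfsg.pCore p ↥(F.autGroup Q)).map (F.autGroup Q).subtype : Subgroup (MulAut ↥Q))) ↔ ∀ R : Subgroup Ω, F.IsFullyNormalized R → ¬ IsCyclic ↥R → ∀ N : Cfsg.FusionSystem (Cfsg.FusionSystem.normalizerIn S R), F.IsNormalizerSystem R N → (∀ Q : Subgroup Ω, N.IsFullyNormalized Q → ∀ χ : MulAut ↥Q, χ ∈ N.autGroup Q → (∀ a : ↥Q, (χ a⁻¹) * a * (χ a⁻¹) * (χ (χ a)) = 1) → χ ∈ ((Cfsg.pCore p ↥(N.autGroup Q)).map (N.autGroup Q).subtype : Subgroup (MulAut ↥Q))) := by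
  constructor
  · intro h R hR _ N hN Q hQ
    have hQS : Q ≤ S := hQ.1.trans (normalizerIn_le S R)
    obtain ⟨Q', h2, h3⟩ := exists_fullyNormalized_conj F hQS
    obtain ⟨f, hf⟩ := isConj_iff_fiso.1 h2
    have h4 : Stable F p Q := (show Stable F p Q' from h Q' h3).of_fiso hf
    refine h4.of_le ?_
    intro α hα
    rw [FusionNormSat.isNormalizerSystem_iff] at hN
    obtain ⟨-, -, g, hg, hgf, -⟩ := (hN Q (autFun α)).1 (fmap_of_autGroup hQ.1 hα)
    exact mem_autGroup_of_fmap ((hg.restrict le_sup_left).congr hgf) (fun x => (autFun_coe α x).symm)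
  · intro h Q hQ
    have hfin : Finite Q := Finite.of_injective _ (Subgroup.inclusion_injective hQ.1)
    by_cases hc : IsCyclic Q
    · exact stable_of_cyclic (hS.to_le hQ.1) hc
    · obtain ⟨N, hN⟩ := Cfsg.Agent.S5096.result F Q hQ.1
      have hN' := FusionNormSat.isNormalizerSystem_iff.1 hN
      have hQN : N.IsFullyNormalized Q := by
        refine ⟨le_normalizerIn hQ.1, fun Q' hQ' => ?_⟩
        obtain ⟨f, hf⟩ := isConj_iff_fiso.1 hQ'
        obtain ⟨-, -, g, hg, hgf, hgQ⟩ := (hN' Q f).1 hf.1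
        have : Q' = Q := by
          ext y
          rw [hf.2, hgQ.2]
          constructor
          · rintro ⟨x, hx, rfl⟩; exact ⟨x, hx, hgf x hx⟩
          · rintro ⟨x, hx, rfl⟩; exact ⟨x, hx, (hgf x hx).symm⟩
        rw [this]
      refine Stable.of_le (E := F) ?_ (show Stable N p Q from h Q hQ hc N hN Q hQN)
      intro α hα
      have h1 := (fiso_autFun_iff hQ.1).2 hα
      have h2 : FMap N Q (autFun α) := by
        rw [hN']
        refine ⟨le_normalizerIn hQ.1, fun x hx => le_normalizerIn hQ.1 (h1.mem hx), autFun α, ?_, fun _ _ => rfl, h1⟩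
        rw [sup_idem]
        exact h1.1
      exact mem_autGroup_of_fmap h2 (fun x => (autFun_coe α x).symm)

end Cfsg.Agent.S5247
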