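import Cfsg.Statements.S5249
import Cfsg.Agent.Lib.H34ZJ


set_option autoImplicit false
open Cfsg

namespace Cfsg.Agent.S5249

open Cfsg.FusionSystem Cfsg.Agent.Lib Cfsg.Agent.Lib.FusionBasic Cfsg.Agent.Lib.FusionGroup Cfsg.Agent.Lib.FusionSat Cfsg.Agent.Lib.FusionNormal Cfsg.Agent.Lib.H34QdFus


/-- Let p be an odd prime, G a finite group in which Qd(p) (the natural semidirect product of an elementary abelian group of order p² by SL₂(p)) is not involved, and P a Sylow p-subgroup of G. Then the fusion system of G on P is a solvable fusion system. -/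
theorem result {G : Type*} [Group G] [Finite G] {p : ℕ} [Fact p.Prime] (hp : p ≠ 2) (hqd : ¬ Cfsg.Involves ↥(Cfsg.qd p) G) (P : Sylow p G) : (Cfsg.groupFusionSystem (P : Subgroup G)).IsSolvableSystem := by

  have hr := groupFusionSystem_isRealizedBy (P : Subgroup G)
  refine H34ZJ.isSolvableSystem_of_qdFree p hp _ P.isPGroup' (groupFusionSystem_isSaturated P) ?_
  intro Q hQ
  exact hqd (involves_of_QdS P.isPGroup' hr hQ)

end Cfsg.Agent.S5249
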