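import Cfsg.Statements.S5251
import Cfsg.Agent.Lib.FusionRad

set_option autoImplicit false
open Cfsg Cfsg.FusionSystem Cfsg.Agent.Lib Cfsg.Agent.Lib.FusionBasic Cfsg.Agent.Lib.FusionSat Cfsg.Agent.Lib.FusionAlperin Cfsg.Agent.Lib.FusionNormal Cfsg.Agent.Lib.FusionRad

namespace Cfsg.Agent.S5251

/-- Let F be a saturated fusion system over a finite p-group S, E a normal subsystem of F over T, and P an F-centric subgroup of S such that P ∩ T is not E-centric. Then some F-conjugate P* of P satisfies Out_S(P*) ∩ O_p(Out_F(P*)) ≠ 1: there is an element of N_S(P*) outside P* whose conjugation action on P* lies in O_p(Aut_F(P*)). In particular P is not both centric and radical in F. -/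
theorem result {Ω : Type*} [Group Ω] {S : Subgroup Ω} [Finite S] (p : ℕ) [Fact p.Prime] (hS : IsPGroup p S) (F : Cfsg.FusionSystem S) (hF : F.IsSaturated p) {T : Subgroup Ω} (E : Cfsg.FusionSystem T) (hE : E.IsNormalIn F p) (P : Subgroup Ω) (hP : F.IsCentric P) (hPT : ¬ E.IsCentric (P ⊓ T)) : (∃ φ ∈ F.Hom P, ∃ x ∈ S ⊓ Subgroup.normalizer (φ.range : Set Ω), x ∉ φ.range ∧ ∃ α ∈ ((Cfsg.pCore p ↥(F.autGroup φ.range)).map (F.autGroup φ.range).subtype : Subgroup (MulAut ↥φ.range)), ∀ y : ↥φ.range, ((α y : ↥φ.range) : Ω) = x * (y : Ω) * x⁻¹) ∧ ¬ F.IsRadical p P := by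
  have hfin : Finite S := inferInstance
  have hPS := hP.1
  have hT : F.StronglyClosed T := hE.1.2.2.2.1
  have hsub : E.IsSubsystemOf F := hE.1.2.2.1
  have hTS : T ≤ S := hT.1
  have hSn : S ≤ Subgroup.normalizer (T : Set Ω) := normalizes_of_stronglyClosed hT
  -- a conjugate of `P ∩ T` whose centralizer in `T` is not contained in it
  obtain ⟨Q, hQc, z, hz, hzQ⟩ : ∃ Q, E.IsConj (P ⊓ T) Q ∧ ∃ z ∈ centralizerIn T Q, z ∉ Q := by
    by_contra hcon
    push Not at hcon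
    exact hPT ⟨inf_le_right, fun Q hQ z hz => hcon Q hQ z hz⟩
  have hQF : F.IsConj (P ⊓ T) Q := by
    obtain ⟨φ, hφ, h⟩ := hQc
    exact ⟨φ, hsub _ hφ, h⟩
  have hRS : P ⊓ T ≤ S := inf_le_left.trans hPS
  obtain ⟨R, f, hRn, hfR, hfN, hfm⟩ := exists_fullyNormalized_map hS hF hRS
  have hPN : P ≤ normalizerIn S (P ⊓ T) := by
    intro x hx
    refine mem_normalizerIn.2 ⟨hPS hx, ?_⟩
    have h1 := Subgroup.le_normalizer hx
    have h2 := hSn (hPS hx)
    rw [Subgroup.mem_normalizer_iff] at h1 h2 ⊢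
    intro y
    exact and_congr (h1 y) (h2 y)
  have hfP : FMap F P f := hfN.restrict hPN
  obtain ⟨P', hP'⟩ := hfP.exists_iso
  have hP'S : P' ≤ S := hP'.le_right
  have hR : ∀ y, y ∈ R ↔ y ∈ P' ∧ y ∈ T := by
    intro y
    constructor
    · intro hy
      obtain ⟨x, hx, rfl⟩ := (hfR.2 y).1 hy
      exact ⟨hP'.mem hx.1, StronglyClosed.map_mem F hT hfP hx.1 hx.2⟩
    · rintro ⟨hy1, hy2⟩
      obtain ⟨g, hg, hg1, hg2⟩ := hP'.symm
      rw [← hg2 y hy1]
      exact hfR.mem ⟨hg.mem hy1, StronglyClosed.map_mem F hT hg.1 hy1 hy2⟩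
  -- C_T(R) is not contained in R
  obtain ⟨z', hz'T, hz'C, hz'R⟩ : ∃ z' ∈ T, z' ∈ Subgroup.centralizer (R : Set Ω) ∧ z' ∉ R := by
    have hQR : F.IsConj Q R := isConj_trans (isConj_symm hQF) hfR.isConj
    obtain ⟨k, hk, hkN, -⟩ := exists_map_to_fullyNormalized hS hF hRn hQR
    have hzN : z ∈ normalizerIn S Q := ⟨hTS hz.1, centralizer_le_normalizer' Q hz.2⟩
    refine ⟨k z, StronglyClosed.map_mem F hT hkN hzN hz.1, ?_, ?_⟩
    · exact hk.map_centralizer hkN (le_normalizerIn hk.le_left) hzN hz.2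
    · exact fun h => hzQ (hk.mem_of_map_mem hkN (le_normalizerIn hk.le_left) hzN h)
  -- P' normalizes C = C_T(R)
  obtain ⟨C, hC⟩ : ∃ C, C = centralizerIn T R := ⟨_, rfl⟩
  have hCS : C ≤ S := by rw [hC]; exact (centralizerIn_le T R).trans hTS
  have hPC : P' ≤ Subgroup.normalizer (C : Set Ω) := by
    have hRn' : P' ≤ Subgroup.normalizer (R : Set Ω) := by
      intro x hx
      rw [Subgroup.mem_normalizer_iff]
      intro y
      have h1 := Subgroup.le_normalizer hx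
      have h2 := hSn (hP'S hx)
      rw [Subgroup.mem_normalizer_iff] at h1 h2
      rw [hR, hR]
      exact and_congr (h1 y) (h2 y)
    have key : ∀ x ∈ P', ∀ c ∈ C, x * c * x⁻¹ ∈ C := by
      intro x hx c hc
      rw [hC] at hc ⊢
      refine mem_centralizerIn.2 ⟨(Subgroup.mem_normalizer_iff.1 (hSn (hP'S hx)) c).1 hc.1, ?_⟩
      rw [mem_centralizer_iff']
      intro r hr
      have h1 : x⁻¹ * r * x ∈ R := by
        have := (Subgroup.mem_normalizer_iff.1 (Subgroup.inv_mem _ (hRn' hx)) r).1 hr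
        rwa [inv_inv] at this
      have h2 := mem_centralizer_iff'.1 hc.2 _ h1
      calc x * c * x⁻¹ * r * (x * c * x⁻¹)⁻¹ = x * (c * (x⁻¹ * r * x) * c⁻¹) * x⁻¹ := by group
        _ = r := by rw [h2]; group
    intro x hx
    rw [Subgroup.mem_normalizer_iff]
    intro c
    refine ⟨key x hx c, fun hc => ?_⟩
    have := key x⁻¹ (P'.inv_mem hx) _ hc
    have h1 : x⁻¹ * (x * c * x⁻¹) * x⁻¹⁻¹ = c := by group
    rwa [h1] at this
  obtain ⟨c, hcC, hcN, hcP⟩ : ∃ c ∈ C, c ∈ Subgroup.normalizer (P' : Set Ω) ∧ c ∉ P' := by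
    by_contra hcon
    push Not at hcon
    have hfin2 : Finite (P' ⊔ C : Subgroup Ω) := finite_of_le (sup_le hP'S hCS)
    have h1 : C ≤ P' := le_of_normalizerIn_le (S := P' ⊔ C) (hS.to_le (sup_le hP'S hCS)) le_sup_left le_sup_right
      (sup_le hPC Subgroup.le_normalizer) hcon
    have h2 : z' ∈ C := by rw [hC]; exact mem_centralizerIn.2 ⟨hz'T, hz'C⟩
    exact hz'R ((hR z').2 ⟨h1 h2, hz'T⟩)
  have hcT : c ∈ T := by rw [hC] at hcC; exact hcC.1
  have hcR : ∀ y ∈ R, c * y * c⁻¹ = y := by rw [hC] at hcC; exact mem_centralizer_iff'.1 hcC.2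
  have hop : conjAut P' c hcN ∈ (pCore p (F.autGroup P')).map (F.autGroup P').subtype := by
    refine mem_op_of_stab hS hT hP'S (conjAut_mem_autGroup hP'S hcN (hTS hcT)) ?_ ?_
    · intro x
      rw [conjAut_apply]
      have h1 : (x : Ω)⁻¹ * (c * x * c⁻¹) = ((x : Ω)⁻¹ * c * (x : Ω)⁻¹⁻¹) * c⁻¹ := by group
      rw [h1]
      exact T.mul_mem ((Subgroup.mem_normalizer_iff.1 (hSn (S.inv_mem (hP'S x.2))) c).1 hcT) (T.inv_mem hcT)
    · intro x hx
      apply Subtype.ext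
      rw [conjAut_apply]
      exact hcR x ((hR x).2 ⟨x.2, hx⟩)
  constructor
  · obtain ⟨φ, hφ, h1⟩ := hfP
    have hrange : φ.range = P' := by
      ext y
      rw [hP'.2]
      constructor
      · rintro ⟨x, rfl⟩; exact ⟨x, x.2, (h1 x).symm⟩
      · rintro ⟨x, hx, rfl⟩; exact ⟨⟨x, hx⟩, h1 ⟨x, hx⟩⟩
    subst hrange
    exact ⟨φ, hφ, c, ⟨hTS hcT, hcN⟩, hcP, _, hop, fun y => conjAut_apply c hcN y⟩
  · intro hr
    have hr' := isRadical_of_fiso hS hP' hr
    have h1 : conjAut P' c hcN ∈ Inn P' := by rw [← hr'.2]; exact hop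
    obtain ⟨y, hy, h2⟩ := mem_inn_iff.1 h1
    have h3 : y⁻¹ * c ∈ P' := hP.2 P' hP'.isConj (mem_centralizerIn.2 ⟨S.mul_mem (S.inv_mem (hP'S hy)) (hTS hcT), by
      rw [mem_centralizer_iff']
      intro x hx
      have h4 := h2 ⟨x, hx⟩
      rw [conjAut_apply] at h4
      calc y⁻¹ * c * x * (y⁻¹ * c)⁻¹ = y⁻¹ * (c * x * c⁻¹) * y := by group
        _ = x := by rw [h4]; group⟩)
    apply hcP
    have := P'.mul_mem hy h3
    rwa [mul_inv_cancel_left] at this

end Cfsg.Agent.S5251
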