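import Cfsg.Statements.S5255
import Cfsg.Agent.Lib.FusionStrong

set_option autoImplicit false
open Cfsg

namespace Cfsg.Agent.S5255

/-- Let F be a saturated fusion system over a finite p-group S and T a subgroup of S strongly closed in F. Then T·C_S(T) is strongly closed in F. -/
theorem result {Ω : Type*} [Group Ω] {S : Subgroup Ω} [Finite S] (p : ℕ) [Fact p.Prime] (hS : IsPGroup p S) (F : Cfsg.FusionSystem S) (hF : F.IsSaturated p) (T : Subgroup Ω) (hT : F.StronglyClosed T) : F.StronglyClosed (T ⊔ Cfsg.FusionSystem.centralizerIn S T) := by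
  have hTS := hT.1
  rw [Cfsg.Agent.Lib.FusionBasic.stronglyClosed_iff]
  refine ⟨sup_le hTS inf_le_left, fun P f hP hf x hx => ?_⟩
  obtain ⟨g, hg, h⟩ := Cfsg.Agent.Lib.FusionStrong.exists_map_mod hS hF hT P f hf
  have hgT : Cfsg.Agent.Lib.FusionBasic.FIso F T T g := (hg.restrict le_sup_right).fiso_of_card hTS
    (fun x hx => Cfsg.Agent.Lib.FusionBasic.StronglyClosed.map_mem F hT hg (Subgroup.mem_sup_right hx) hx) le_rfl
  have hn : Cfsg.FusionSystem.centralizerIn S T ≤ Subgroup.normalizer (T : Set Ω) :=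
    fun y hy => Cfsg.Agent.Lib.FusionNormal.normalizes_of_stronglyClosed hT hy.1
  have hx' := hP hx
  rw [sup_comm, Cfsg.Agent.Lib.FusionNormal.mem_sup_of_normalizes hn] at hx'
  obtain ⟨c, hc, t, ht, rfl⟩ := hx'
  have hcm : c ∈ P ⊔ T := by
    have : c = (c * t) * t⁻¹ := by group
    rw [this]
    exact Subgroup.mul_mem _ (Subgroup.mem_sup_left hx) (Subgroup.mem_sup_right (T.inv_mem ht))
  have h1 : g c ∈ Cfsg.FusionSystem.centralizerIn S T := by
    refine ⟨hg.map_mem hcm, Subgroup.mem_centralizer_iff.2 ?_⟩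
    intro y hy
    obtain ⟨z, hz, rfl⟩ := (hgT.2 y).1 hy
    have h2 := Subgroup.mem_centralizer_iff.1 hc.2 z hz
    rw [← hg.map_mul (Subgroup.mem_sup_right hz) hcm, h2, hg.map_mul hcm (Subgroup.mem_sup_right hz)]
  have h2 : f (c * t) = g c * (g t * ((f (c * t))⁻¹ * g (c * t))⁻¹) := by
    rw [hg.map_mul hcm (Subgroup.mem_sup_right ht)]
    group
  rw [h2]
  exact Subgroup.mul_mem _ (Subgroup.mem_sup_right h1) (Subgroup.mem_sup_left (T.mul_mem (hgT.mem ht) (T.inv_mem (h _ hx))))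

end Cfsg.Agent.S5255
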