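import Cfsg.Statements.S5271
import Cfsg.Agent.Lib.FusionWeakEmb
import Cfsg.Agent.Lib.FusionNormSat

set_option autoImplicit false
open Cfsg Cfsg.FusionSystem Cfsg.Agent.Lib

namespace Cfsg.Agent.S5271

/-- A nilpotency criterion for fusion systems. Let F be a saturated fusion system over a finite p-group S of order at least p². Call a subgroup Q of S weakly embedded in F when there is a subgroup P of S strongly closed in F such that both the product QP and the intersection Q ∩ P are strongly closed in F. Then F is the inner fusion system of S if and only if there is a subgroup D of S with 1 < D < S such that every subgroup of S of the same order as D is weakly embedded in F and, for every fully normalized subgroup H of S of that order, the normalizer fusion system of H in F is the inner fusion system of N_S(H). -/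
theorem result {Ω : Type*} [Group Ω] {S : Subgroup Ω} [Finite S] (p : ℕ) [Fact p.Prime] (hS : IsPGroup p ↥S) (F : Cfsg.FusionSystem S) (hF : F.IsSaturated p) (hcard : p ^ 2 ≤ Nat.card S) : (∀ P : Subgroup Ω, F.Hom P = (Cfsg.innerFusionSystem S).Hom P) ↔ ∃ D : Subgroup Ω, ⊥ < D ∧ D < S ∧ (∀ Q : Subgroup Ω, Q ≤ S → Nat.card ↥Q = Nat.card ↥D → ∃ P : Subgroup Ω, F.StronglyClosed P ∧ F.StronglyClosed (Q ⊔ P) ∧ F.StronglyClosed (Q ⊓ P)) ∧ (∀ H : Subgroup Ω, F.IsFullyNormalized H → Nat.card ↥H = Nat.card ↥D → ∀ N : Cfsg.FusionSystem (Cfsg.FusionSystem.normalizerIn S H), F.IsNormalizerSystem H N → ∀ P : Subgroup Ω, N.Hom P = (Cfsg.innerFusionSystem (Cfsg.FusionSystem.normalizerIn S H)).Hom P) := by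
  have hp : p.Prime := Fact.out
  obtain ⟨n, hn⟩ := IsPGroup.iff_card.1 hS
  constructor
  · intro hin
    have hn2 : 2 ≤ n := by
      rw [hn] at hcard
      exact (Nat.pow_le_pow_iff_right hp.one_lt).1 hcard
    obtain ⟨m, rfl⟩ : ∃ m, n = m + 1 := ⟨n - 1, by omega⟩
    obtain ⟨D, -, hDS, hD⟩ := FusionWeakEmb.exists_between (p := p) (d := m) hS (A := ⊥) (B := S) le_rfl bot_le
      (by rw [Subgroup.card_bot]; exact Nat.one_le_pow _ _ hp.pos) (by rw [hn]; exact Nat.pow_le_pow_right hp.pos (by omega))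
    have hconj := FusionInner.isInner_iff.1 hin
    have hnorm : ∀ Q : Subgroup Ω, Q ≤ S → Nat.card Q = Nat.card D → ∀ s ∈ S, ∀ x ∈ Q, s * x * s⁻¹ ∈ Q := by
      intro Q hQS hQ
      have h1 : (Q.subgroupOf S).index = p := by
        have h1 : Nat.card (Q.subgroupOf S) * (Q.subgroupOf S).index = Nat.card S := Subgroup.card_mul_index _
        have h2 : Nat.card (Q.subgroupOf S) = Nat.card Q := Nat.card_congr (Subgroup.subgroupOfEquivOfLe hQS).toEquiv
        rw [h2, hQ, hD, hn, pow_succ] at h1
        exact Nat.eq_of_mul_eq_mul_left (pow_pos hp.pos m) h1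
      have h3 : (Q.subgroupOf S).Normal := by
        apply Subgroup.normal_of_index_eq_minFac_card
        rw [h1, hn, Nat.Prime.pow_minFac hp (by omega)]
      intro s hs x hx
      exact h3.conj_mem ⟨x, hQS hx⟩ hx ⟨s, hs⟩
    refine ⟨D, ?_, ?_, ?_, ?_⟩
    · rw [bot_lt_iff_ne_bot]
      intro h
      rw [h, Subgroup.card_bot] at hD
      have h1 := Nat.one_lt_pow (by omega : m ≠ 0) hp.one_lt
      omega
    · refine lt_of_le_of_ne hDS fun h => ?_
      rw [h, hn] at hD
      exact absurd (Nat.pow_right_injective hp.two_le hD) (by omega)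
    · intro Q hQS hQ
      refine ⟨⊥, FusionSolv.closed_bot F, ?_, ?_⟩
      · rw [sup_bot_eq, FusionBasic.stronglyClosed_iff]
        refine ⟨hQS, fun P f hP hf x hx => ?_⟩
        obtain ⟨s, hs, h1⟩ := hconj P f hf
        rw [h1 x hx]
        exact hnorm Q hQS hQ s hs x (hP hx)
      · rw [inf_bot_eq]; exact FusionSolv.closed_bot F
    · intro H hH hHD N hN
      rw [FusionInner.isInner_iff]
      intro P f hf
      obtain ⟨h1, h2, g, hg, h3, h4⟩ := (FusionNormSat.isNormalizerSystem_iff.1 hN P f).1 hf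
      obtain ⟨s, hs, h5⟩ := hconj _ g hg
      refine ⟨s, ⟨hs, FusionQuot.mem_normalizer_of_forall hH.1 hs (hnorm H hH.1 hHD s hs)⟩, fun x hx => ?_⟩
      rw [← h3 x hx, h5 x (Subgroup.mem_sup_left hx)]
  · rintro ⟨D, hD1, hDS, hW, hN⟩
    have hfD : Finite D := FusionSat.finite_of_le hDS.le
    obtain ⟨d, hd⟩ := IsPGroup.iff_card.1 (FusionSat.isPGroup_of_le hS hDS.le)
    rw [hd] at hW hN
    have hlt : p ^ d < Nat.card S := by
      rw [← hd]; exact FusionStrong.card_lt_of_lt hDS le_rfl
    exact FusionInner.isInner_of_hyp_eq_bot hS hF (FusionWeakEmb.hyp_eq_bot hS hF hlt hW hN)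

end Cfsg.Agent.S5271
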