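import Cfsg.Statements.S5276
import Cfsg.Agent.Lib.FusionInner
import Cfsg.Agent.Lib.H70Frattini

set_option autoImplicit false
open Cfsg

namespace Cfsg.Agent.S5276

/-- Let p be a prime and F a saturated fusion system over a finite p-group S. Then F is the inner fusion system of S if and only if the normalizer fusion system of S itself in F is the inner fusion system (equivalently, Aut_F(S) is induced by S) and the Frattini subgroup Φ(S) is strongly closed in F. -/
theorem result {Ω : Type*} [Group Ω] {S : Subgroup Ω} [Finite S] (p : ℕ) [Fact p.Prime] (hS : IsPGroup p ↥S) (F : Cfsg.FusionSystem S) (hF : F.IsSaturated p) : (∀ P : Subgroup Ω, F.Hom P = (Cfsg.innerFusionSystem S).Hom P) ↔ (∀ N : Cfsg.FusionSystem (Cfsg.FusionSystem.normalizerIn S S), F.IsNormalizerSystem S N → ∀ P : Subgroup Ω, N.Hom P = (Cfsg.innerFusionSystem (Cfsg.FusionSystem.normalizerIn S S)).Hom P) ∧ F.StronglyClosed ((frattini ↥S).map S.subtype) := by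
  open Cfsg.Agent.Lib.FusionInner Cfsg.Agent.Lib.FusionBasic Cfsg.Agent.Lib.FusionNormSat in
  constructor
  · intro h
    have h' := isInner_iff.1 h
    refine ⟨fun N hN => isInner_iff.2 fun P f hf => ?_, ?_⟩
    · obtain ⟨hP, -, g, hg, hgf, -⟩ := (isNormalizerSystem_iff.1 hN P f).1 hf
      obtain ⟨s, hs, h1⟩ := h' P f ((hg.restrict le_sup_left).congr hgf)
      exact ⟨s, ⟨hs, Subgroup.le_normalizer hs⟩, h1⟩
    · rw [stronglyClosed_iff]
      refine ⟨Subgroup.map_subtype_le _, fun P f hP hf x hx => ?_⟩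
      obtain ⟨s, hs, h1⟩ := h' P f hf
      rw [h1 x hx]
      obtain ⟨y, hy, hyx⟩ := hP hx
      refine ⟨⟨s, hs⟩ * y * ⟨s, hs⟩⁻¹, ?_, ?_⟩
      · exact (inferInstance : (frattini ↥S).Normal).conj_mem y hy _
      · rw [← hyx]; rfl
  · rintro ⟨h1, h2⟩
    refine isInner_of_focal_le_frattini hS hF ?_
    refine focal_le_of_inner_top hS hF h2 (Subgroup.map_mono (Cfsg.Agent.Lib.H70Frattini.commutator_le_frattini hS)) ?_
    intro f hf
    exact normalizer_top_inner h1 hf

end Cfsg.Agent.S5276
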