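import Cfsg.Statements.S5279
import Cfsg.Agent.Lib.StabQuotMain
import Cfsg.Agent.Lib.FusionGroup

set_option autoImplicit false
open Cfsg

namespace Cfsg.Agent.S5279

/-- Let p be an odd prime, G a finite group with a nontrivial Sylow p-subgroup P, and F the fusion system of G on P. Suppose F is p-stable: for every fully normalized subgroup Q and every χ in Aut_F(Q) acting quadratically on Q (χ(a⁻¹)·a·χ(a⁻¹)·χ(χ(a)) = 1 for all a in Q), χ lies in O_p(Aut_F(Q)). Then some nontrivial subgroup of P is normal in F. -/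
theorem result {Ω : Type*} [Group Ω] [Finite Ω] (p : ℕ) [Fact p.Prime] (hp : p ≠ 2) (P : Sylow p Ω) (hP : (P : Subgroup Ω) ≠ ⊥) (hst : (∀ Q : Subgroup Ω, (Cfsg.groupFusionSystem (P : Subgroup Ω)).IsFullyNormalized Q → ∀ χ : MulAut ↥Q, χ ∈ (Cfsg.groupFusionSystem (P : Subgroup Ω)).autGroup Q → (∀ a : ↥Q, (χ a⁻¹) * a * (χ a⁻¹) * (χ (χ a)) = 1) → χ ∈ ((Cfsg.pCore p ↥((Cfsg.groupFusionSystem (P : Subgroup Ω)).autGroup Q)).map ((Cfsg.groupFusionSystem (P : Subgroup Ω)).autGroup Q).subtype : Subgroup (MulAut ↥Q)))) : (Cfsg.groupFusionSystem (P : Subgroup Ω)).core ≠ ⊥ := by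
  have hF := Cfsg.Agent.Lib.FusionGroup.groupFusionSystem_isSaturated P
  have hD : ∀ R ≤ (P : Subgroup Ω), Cfsg.Agent.Lib.FusionStable.Stable (Cfsg.groupFusionSystem (P : Subgroup Ω)) p R := by
    intro R hR
    obtain ⟨Q, hc, hQ⟩ := Cfsg.Agent.Lib.FusionSat.exists_fullyNormalized_conj (Cfsg.groupFusionSystem (P : Subgroup Ω)) hR
    obtain ⟨f, hf⟩ := Cfsg.Agent.Lib.FusionBasic.isConj_iff_fiso.1 hc
    exact Cfsg.Agent.Lib.FusionStable.Stable.of_fiso hf (hst Q hQ)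
  have h1 := Cfsg.Agent.Lib.StabQuotMain.isNormal_zj_of_stable p hp (Cfsg.groupFusionSystem (P : Subgroup Ω))
    P.isPGroup' hF hD
  intro hbot
  refine Cfsg.Agent.Lib.H34ZJ.Wof_ne_bot (p := p) Cfsg.Agent.Lib.ClosedPS.isChar_Wab.1 P.isPGroup' hP ?_
  rw [eq_bot_iff, ← hbot]
  exact le_sSup h1

end Cfsg.Agent.S5279
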