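import Cfsg.Statements.S5281
import Cfsg.Agent.Lib.H88RadExt

set_option autoImplicit false
open Cfsg Cfsg.FusionSystem Cfsg.Agent.Lib.FusionBasic Cfsg.Agent.Lib.FusionSat Cfsg.Agent.Lib.FusionSys Cfsg.Agent.Lib.FusionStable Cfsg.Agent.Lib

namespace Cfsg.Agent.S5281

/-- Let p be an odd prime and F a saturated fusion system over a finite p-group S. Call a fusion system E (over any subgroup) p-stable when, for every fully E-normalized subgroup Q and every χ in Aut_E(Q) with χ(a⁻¹)·a·χ(a⁻¹)·χ(χ(a)) = 1 for all a in Q (χ acts quadratically), χ lies in O_p(Aut_E(Q)). Then F is p-stable if and only if the normalizer fusion system of R in F is p-stable for every fully F-normalized, F-centric, F-radical subgroup R of S. -/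
theorem result {Ω : Type*} [Group Ω] {S : Subgroup Ω} [Finite S] (p : ℕ) [Fact p.Prime] (hS : IsPGroup p ↥S) (F : Cfsg.FusionSystem S) (hF : F.IsSaturated p) (hp : p ≠ 2) : (∀ Q : Subgroup Ω, F.IsFullyNormalized Q → ∀ χ : MulAut ↥Q, χ ∈ F.autGroup Q → (∀ a : ↥Q, (χ a⁻¹) * a * (χ a⁻¹) * (χ (χ a)) = 1) → χ ∈ ((Cfsg.pCore p ↥(F.autGroup Q)).map (F.autGroup Q).subtype : Subgroup (MulAut ↥Q))) ↔ ∀ R : Subgroup Ω, F.IsFullyNormalized R → F.IsCentric R → F.IsRadical p R → ∀ N : Cfsg.FusionSystem (Cfsg.FusionSystem.normalizerIn S R), F.IsNormalizerSystem R N → (∀ Q : Subgroup Ω, N.IsFullyNormalized Q → ∀ χ : MulAut ↥Q, χ ∈ N.autGroup Q → (∀ a : ↥Q, (χ a⁻¹) * a * (χ a⁻¹) * (χ (χ a)) = 1) → χ ∈ ((Cfsg.pCore p ↥(N.autGroup Q)).map (N.autGroup Q).subtype : Subgroup (MulAut ↥Q))) := by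
  constructor
  · intro h R hRn hRc hRr N hN Q hQn
    have hall : ∀ Q : Subgroup Ω, Q ≤ S → Stable F p Q := by
      intro Q hQ
      obtain ⟨Q', hc, hQ'⟩ := exists_fullyNormalized_conj F hQ
      obtain ⟨f, hf⟩ := isConj_iff_fiso.1 hc
      exact Stable.of_fiso hf (h Q' hQ')
    have hQN : Q ≤ normalizerIn S R := hQn.1
    have hQS : Q ≤ S := hQN.trans (fun x hx => hx.1)
    refine Stable.of_le ?_ (hall Q hQS)
    intro α hα
    rw [mem_autGroup_iff hQN, hN Q] at hα
    exact (mem_autGroup_iff hQS).2 hα.1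
  · intro h Q hQn
    show Stable F p Q
    obtain ⟨Q', R, ⟨hc, hle, hRn, hext⟩, hRc, hRr⟩ := RadExt.exists_radical_pair hS hF hQn.1
    obtain ⟨f, hf⟩ := isConj_iff_fiso.1 hc
    refine Stable.of_fiso hf ?_
    have hRN : R ≤ normalizerIn S R := fun x hx => ⟨hRn.1 hx, Subgroup.le_normalizer hx⟩
    have hN := h R hRn hRc hRr (normSys F R hRn.1) isNormalizerSystem_normSys
    haveI : Finite (normalizerIn S R) := finite_of_le (fun x (hx : x ∈ normalizerIn S R) => hx.1)
    obtain ⟨Q₁, hc₁, hQ₁⟩ := exists_fullyNormalized_conj (normSys F R hRn.1) (hle.trans hRN)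
    obtain ⟨f₁, hf₁⟩ := isConj_iff_fiso.1 hc₁
    have h1 : Stable (normSys F R hRn.1) p Q' := Stable.of_fiso hf₁ (hN Q₁ hQ₁)
    have heq : F.autGroup Q' = (normSys F R hRn.1).autGroup Q' := by
      apply le_antisymm
      · intro α hα
        obtain ⟨a, ha, haα⟩ := exists_fmap_of_aut (hle.trans hRn.1) hα
        obtain ⟨b, hb, hba⟩ := hext a ha
        have h2 : FMap (normSys F R hRn.1) Q' a := by
          rw [fmap_normSys]
          refine ⟨hle.trans hRN, fun x hx => hRN (hle (ha.mem hx)), b, ?_, hba, hb⟩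
          rw [sup_eq_right.2 hle]
          exact hb.1
        exact mem_autGroup_of_fmap h2 fun x => (haα x).symm
      · intro α hα
        rw [mem_autGroup_iff (hle.trans hRN), isNormalizerSystem_normSys Q'] at hα
        exact (mem_autGroup_iff (hle.trans hRn.1)).2 hα.1
    exact Stable.of_le (le_of_eq heq) h1

end Cfsg.Agent.S5281
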