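import Cfsg.Statements.S5290
import Cfsg.Agent.Lib.FusionInv

set_option autoImplicit false
open Cfsg

namespace Cfsg.Agent.S5290

/-- Let F be a saturated fusion system over a finite p-group S and Q a subgroup of S. Then Q is normal in F (F = N_F(Q)) if and only if the inner fusion system of Q, consisting of the conjugations by elements of Q on subgroups of Q, is a weakly normal subsystem of F (both saturated, Q strongly closed, invariant under F-conjugation, with the Frattini property). -/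
theorem result {Ω : Type*} [Group Ω] {S : Subgroup Ω} [Finite S] (p : ℕ) [Fact p.Prime] (hS : IsPGroup p S)
    (F : Cfsg.FusionSystem S) (hF : F.IsSaturated p)
    (Q : Subgroup Ω) (hQ : Q ≤ S) :
    F.IsNormal Q ↔ (Cfsg.innerFusionSystem Q).IsWeaklyNormalIn F p := by
  have hQfin : Finite Q := Cfsg.Agent.Lib.FusionSat.finite_of_le hQ
  have hQp := Cfsg.Agent.Lib.FusionSat.isPGroup_of_le hS hQ
  constructor
  · intro h
    have hsc := Cfsg.Agent.Lib.FusionNormal.isNormal_stronglyClosed h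
    refine ⟨Cfsg.Agent.Lib.FusionInv.inner_isSaturated hQp, hF, ?_⟩
    rw [Cfsg.Agent.Lib.FusionInv.isInvariantIn_iff]
    refine ⟨?_, hsc, ?_, ?_⟩
    · intro P f hf
      rw [Cfsg.Agent.Lib.FusionBasic.fmap_inner_iff] at hf
      obtain ⟨hP, q, hq, h1⟩ := hf
      exact (Cfsg.Agent.Lib.FusionBasic.fmap_conj F (hP.trans hQ) (hQ hq)).congr (fun x hx => (h1 x hx).symm)
    · intro P P' f a b hf ha hb hba hab hP'
      rw [Cfsg.Agent.Lib.FusionBasic.fmap_inner_iff] at hf ⊢
      obtain ⟨hP, q, hq, h1⟩ := hf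
      refine ⟨?_, a q, ha.mem hq, ?_⟩
      · intro y hy
        obtain ⟨x, hx, rfl⟩ := (hP' y).1 hy
        exact ha.mem (hP hx)
      · intro y hy
        obtain ⟨x, hx, rfl⟩ := (hP' y).1 hy
        show a (f (b (a x))) = _
        rw [hba x (hP hx), h1 x hx, ha.1.map_conj hq (hP hx)]
    · intro P f hP hf
      rw [Cfsg.Agent.Lib.FusionBasic.isNormal_iff] at h
      obtain ⟨g, -, hg1, hg2⟩ := h.2 P f hf
      exact ⟨g, fun x => x, hg2, Cfsg.Agent.Lib.FusionBasic.fmap_id _ hP, fun x hx => (hg1 x hx).symm⟩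
  · rintro ⟨-, -, h⟩
    rw [Cfsg.Agent.Lib.FusionInv.isInvariantIn_iff] at h
    obtain ⟨-, -, -, h4⟩ := h
    refine Cfsg.Agent.Lib.FusionSub.isNormal_of_extends hS hF hQ fun P f hP hf => ?_
    obtain ⟨a, f₀, ha, hf₀, h5⟩ := h4 P f hP hf
    rw [Cfsg.Agent.Lib.FusionBasic.fmap_inner_iff] at hf₀
    obtain ⟨-, q, hq, h6⟩ := hf₀
    refine ⟨fun x => a (q * x * q⁻¹), ?_, fun x hx => ?_⟩
    · exact (Cfsg.Agent.Lib.FusionBasic.fiso_conj_of_normalizer F hQ (hQ hq) (Subgroup.le_normalizer hq)).trans ha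
    · show a (q * x * q⁻¹) = f x
      rw [h5 x hx, h6 x hx]

end Cfsg.Agent.S5290
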