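import Cfsg.Statements.S5291
import Cfsg.Agent.Lib.FusionInv
import Cfsg.Agent.Lib.FusionJoin

set_option autoImplicit false
open Cfsg

namespace Cfsg.Agent.S5291

open Cfsg.FusionSystem Cfsg.Agent.Lib.FusionBasic Cfsg.Agent.Lib.FusionSat Cfsg.Agent.Lib.FusionNormal
  Cfsg.Agent.Lib.FusionInv in
theorem aux {Ω : Type*} [Group Ω] {S : Subgroup Ω} [Finite S] (p : ℕ) [Fact p.Prime] (hS : IsPGroup p S)
    (F : Cfsg.FusionSystem S) (hF : F.IsSaturated p)
    {T : Subgroup Ω} (E : Cfsg.FusionSystem T) (hE : E.IsInvariantIn F)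
    (R : Subgroup Ω) (hR : E.IsNormal R) :
    F.IsNormal (Subgroup.closure {x : Ω | ∃ φ ∈ F.Hom R, ∃ r : R, x = φ r}) := by
  set R' : Subgroup Ω := Subgroup.closure {x : Ω | ∃ φ ∈ F.Hom R, ∃ r : R, x = φ r} with hR'
  have hE' := (isInvariantIn_iff E F).1 hE
  obtain ⟨h1, h2, h3, h4⟩ := hE'
  have hT := h2.1
  have hTfin : Finite T := finite_of_le hT
  have hRT : R ≤ T := hR.1
  have hscR : E.StronglyClosed R := isNormal_stronglyClosed hR
  -- every image of R is α(R)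
  have himg : ∀ f : Ω → Ω, FMap F R f → ∃ a : Ω → Ω, FIso F T T a ∧ ∀ y, (∃ x ∈ R, a x = y) ↔ (∃ x ∈ R, f x = y) := by
    intro f hf
    obtain ⟨a, f₀, ha, hf₀, h5⟩ := h4 R f hRT hf
    have hf₀R : FIso E R R f₀ := hf₀.fiso_of_card hRT (fun x hx =>
      Cfsg.Agent.Lib.FusionBasic.StronglyClosed.map_mem E hscR hf₀ hx hx) le_rfl
    refine ⟨a, ha, fun y => ?_⟩
    constructor
    · rintro ⟨x, hx, rfl⟩
      obtain ⟨w, hw, rfl⟩ := (hf₀R.2 x).1 hx
      exact ⟨w, hw, h5 w hw⟩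
    · rintro ⟨x, hx, rfl⟩
      exact ⟨f₀ x, hf₀R.mem hx, (h5 x hx).symm⟩
  -- R' is normal in E
  have hs : sSup {Q : Subgroup Ω | E.IsNormal Q ∧ Q ≤ R'} ∈ {Q : Subgroup Ω | E.IsNormal Q ∧ Q ≤ R'} := by
    refine Cfsg.Agent.Lib.FusionJoin.sSup_mem_of_sup_closed (S := T) _ ⟨⊥, isNormal_bot E, bot_le⟩
      (fun Q hQ => hQ.1.1) ?_
    rintro Q₁ ⟨hQ₁, hQ₁'⟩ Q₂ ⟨hQ₂, hQ₂'⟩
    exact ⟨Cfsg.Agent.Lib.FusionJoin.isNormal_sup E hQ₁ hQ₂, sup_le hQ₁' hQ₂'⟩
  have hR'N : E.IsNormal R' := by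
    have : R' = sSup {Q : Subgroup Ω | E.IsNormal Q ∧ Q ≤ R'} := by
      apply le_antisymm
      · conv_lhs => rw [hR']
        rw [Subgroup.closure_le]
        rintro x ⟨φ, hφ, r, rfl⟩
        obtain ⟨a, ha, h5⟩ := himg (toFun φ) (fmap_toFun.2 hφ)
        obtain ⟨R₁, hR₁⟩ := (ha.1.restrict hRT).exists_iso
        have hR₁N : E.IsNormal R₁ := isNormal_transport hE ha hR hR₁.2
        have hR₁R' : R₁ ≤ R' := by
          intro y hy
          obtain ⟨x, hx, hxy⟩ := (h5 y).1 ((hR₁.2 y).1 hy)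
          refine Subgroup.subset_closure ⟨φ, hφ, ⟨x, hx⟩, ?_⟩
          rw [← hxy, toFun_of_mem φ hx]
        have hle : R₁ ≤ sSup {Q : Subgroup Ω | E.IsNormal Q ∧ Q ≤ R'} := le_sSup ⟨hR₁N, hR₁R'⟩
        refine hle ((hR₁.2 _).2 ((h5 _).2 ⟨r, r.2, toFun_coe φ r⟩))
      · exact hs.2
    rw [this]; exact hs.1
  -- R' is invariant under Aut_F(T)
  have hinv : ∀ a : Ω → Ω, FIso F T T a → ∀ x ∈ R', a x ∈ R' := by
    intro a ha
    have hR'T : R' ≤ T := hR'N.1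
    have h5 : R' ≤ (R'.comap (T.subtype.comp ha.equiv.toMonoidHom)).map T.subtype := by
      conv_lhs => rw [hR']
      rw [Subgroup.closure_le]
      rintro x ⟨φ, hφ, r, rfl⟩
      have hφT : φ r ∈ T := by
        have := Cfsg.Agent.Lib.FusionBasic.StronglyClosed.map_mem F h2 (fmap_toFun.2 hφ) r.2 (hRT r.2)
        rwa [toFun_coe] at this
      refine ⟨⟨φ r, hφT⟩, ?_, rfl⟩
      show a (φ r) ∈ R'
      have h6 : FMap F R (fun x => a (toFun φ x)) := (fmap_toFun.2 hφ).comp ha.1 (fun x hx =>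
        Cfsg.Agent.Lib.FusionBasic.StronglyClosed.map_mem F h2 (fmap_toFun.2 hφ) hx (hRT hx))
      obtain ⟨ψ, hψ, h7⟩ := h6
      refine Subgroup.subset_closure ⟨ψ, hψ, r, ?_⟩
      rw [h7]
      show a (φ r) = a (toFun φ r)
      rw [toFun_coe]
    intro x hx
    obtain ⟨y, hy, rfl⟩ := h5 hx
    exact hy
  refine Cfsg.Agent.Lib.FusionSub.isNormal_of_extends hS hF (hR'N.1.trans hT) fun P f hP hf => ?_
  obtain ⟨a, f₀, ha, hf₀, h5⟩ := h4 P f (hP.trans hR'N.1) hf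
  obtain ⟨-, h6⟩ := (isNormal_iff E).1 hR'N
  obtain ⟨g, -, hg1, hg2⟩ := h6 P f₀ hf₀
  have hgF : FIso F R' R' g := ⟨h1 _ _ hg2.1, hg2.2⟩
  have haR' : FIso F R' R' a := (ha.1.restrict hR'N.1).fiso_of_card (hR'N.1.trans hT) (hinv a ha) le_rfl
  refine ⟨fun x => a (g x), hgF.trans haR', fun x hx => ?_⟩
  show a (g x) = f x
  rw [h5 x hx, hg1 x hx]


/-- Let F be a saturated fusion system over a finite p-group S and E a weakly normal subsystem of F over a subgroup T. Suppose a subgroup R of T is normal in E (E = N_E(R)), and let R* be the subgroup of T generated by the images of R under all maps of F with source R. Then R* is normal in F (F = N_F(R*)). -/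
theorem result {Ω : Type*} [Group Ω] {S : Subgroup Ω} [Finite S] (p : ℕ) [Fact p.Prime] (hS : IsPGroup p S)
    (F : Cfsg.FusionSystem S) (hF : F.IsSaturated p)
    {T : Subgroup Ω} (E : Cfsg.FusionSystem T) (hE : E.IsWeaklyNormalIn F p)
    (R : Subgroup Ω) (hR : E.IsNormal R) :
    F.IsNormal (Subgroup.closure {x : Ω | ∃ φ ∈ F.Hom R, ∃ r : R, x = φ r}) := by
  exact aux p hS F hF E hE.2.2 R hR

end Cfsg.Agent.S5291
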