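import Cfsg.Statements.S5292
import Cfsg.Agent.Lib.FusionRealized2

set_option autoImplicit false
universe u
open Cfsg

namespace Cfsg.Agent.S5292

/-- Let F be a saturated fusion system over a finite p-group S. Then F is the fusion system of some finite p-solvable group on a Sylow p-subgroup if and only if F is constrained (some subgroup normal in F is centric in F) and the group of automorphisms that F induces on its largest normal subgroup O_p(F) is p-solvable. -/
theorem result {Ω : Type u} [Group Ω] {S : Subgroup Ω} [Finite S] (p : ℕ) [Fact p.Prime] (hS : IsPGroup p S)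
    (F : Cfsg.FusionSystem S) (hF : F.IsSaturated p) :
    (∃ (G : Type u) (_ : Group G) (_ : Finite G) (ι : S →* G), Cfsg.IsPSolvable p G ∧ F.IsRealizedBy ι ∧
        ∃ T : Sylow p G, (T : Subgroup G) = ι.range) ↔
      (F.IsConstrained p ∧ Cfsg.IsPSolvable p ↥(F.autGroup F.core)) := by
  constructor
  · rintro ⟨G, _, _, ι, hG, hr, T, hT⟩
    have h1 := Cfsg.Agent.Lib.FusionRealized2.isModel_of_centralizer_le hr T hT
      (Cfsg.Agent.Lib.H32PSolv.centralizer_pCore_le
        (Cfsg.Agent.Lib.H32PSolv.isPSolvable_quotient hG _)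
        (Cfsg.Agent.Lib.Cores.pPrimeCore_quotient_pPrimeCore p G))
    exact ⟨⟨hF, F.core, Cfsg.Agent.Lib.FusionJoin.isNormal_core F,
      Cfsg.Agent.Lib.FusionRealized.isCentric_core_of_isModel h1⟩,
      Cfsg.Agent.Lib.FusionRealized2.isPSolvable_autGroup_core h1
        (Cfsg.Agent.Lib.H32PSolv.isPSolvable_quotient hG _)⟩
  · rintro ⟨hc, hA⟩
    have h1 := Cfsg.Agent.Lib.FusionRealized.isCentric_core_of_isConstrained hc
    have h2 := Cfsg.Agent.Lib.FusionJoin.isNormal_core F
    obtain ⟨G, i1, i2, ι, h3, h4, h5, h6⟩ := Cfsg.Agent.Lib.FusionModel.exists_model hS hF h2 h1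
    exact ⟨G, i1, i2, ι, Cfsg.Agent.Lib.FusionRealized2.isPSolvable_of_autGroup hS h3 h2.1 h5 h6 hA, h3, h4⟩

end Cfsg.Agent.S5292
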