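import Cfsg.Statements.S5293
import Cfsg.Agent.Lib.FusionZeta

set_option autoImplicit false
open Cfsg
open Cfsg.FusionSystem
open Cfsg.Agent.Lib.FusionBasic
open Cfsg.Agent.Lib.FusionSat
open Cfsg.Agent.Lib.FusionInvar
open Cfsg.Agent.Lib.FusionSys
open Cfsg.Agent.Lib.FusionZeta

namespace Cfsg.Agent.S5293

/-- Let F be a saturated fusion system over a finite p-group S, E a normal subsystem of F over T ≤ S, and C the join of the subgroups X ≤ C_S(T) such that E is contained in the centralizer system C_F(X). Then for the centralizer fusion system C_F(T) over C_S(T), the focal subgroup of C_F(T) is contained in C. -/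
theorem result {Ω : Type*} [Group Ω] {S : Subgroup Ω} [Finite S] (p : ℕ) [Fact p.Prime] (hS : IsPGroup p S)
    (F : Cfsg.FusionSystem S) (hF : F.IsSaturated p)
    {T : Subgroup Ω} (E : Cfsg.FusionSystem T) (hE : E.IsNormalIn F p)
    (C : Subgroup Ω)
    (hC : C = sSup {X : Subgroup Ω | X ≤ Cfsg.FusionSystem.centralizerIn S T ∧ ∀ P : Subgroup Ω, E.Hom P ⊆ F.centralizerHom X P})
    (D : Cfsg.FusionSystem (Cfsg.FusionSystem.centralizerIn S T)) (hD : F.IsCentralizerSystem T D) :
    D.focalSubgroup ≤ C := by
  obtain ⟨hEs, -, hi, hx⟩ := isNormalIn_iff.1 hE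
  have hD' : D = centSys F T hi.closed.1 := fusion_ext fun P => by
    rw [hD P]; exact (isCentralizerSystem_centSys (hX := hi.closed.1) P).symm
  have hC' : C = cenS F E := by
    rw [hC]
    unfold cenS
    congr 1
    ext X
    exact (cen_iff hi.closed.1).symm
  rw [hD', hC']
  exact le_cenS (focT_cen hS hF hEs hi hx)

end Cfsg.Agent.S5293
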