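import Cfsg.Statements.S5294
import Cfsg.Agent.Lib.FusionAbel
import Cfsg.Agent.Lib.FusionModelUnique

set_option autoImplicit false
universe u
open Cfsg

namespace Cfsg.Agent.S5294

open scoped IsMulCommutative
open Cfsg.FusionSystem Cfsg.Agent.Lib.FusionBasic Cfsg.Agent.Lib.FusionSat Cfsg.Agent.Lib.FusionAbel Cfsg.Agent.Lib.FusionNormal Cfsg.Agent.Lib.FusionFocal Cfsg.Agent.Lib.FusionModelUnique Cfsg.Agent.Lib.FusionModel Cfsg.Agent.Lib.ModelExt


/-- Let F be a saturated fusion system over a finite p-group S whose centre Z(S) lies in the largest subgroup O_p(F) normal in F. Then the centre Z(F) of F is a direct factor of Z(S): there is a subgroup K of Z(S) with Z(F) ∩ K = 1 and Z(F)K = Z(S). -/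
theorem result {Ω : Type u} [Group Ω] {S : Subgroup Ω} [Finite S] (p : ℕ) [Fact p.Prime] (hS : IsPGroup p S)
    (F : Cfsg.FusionSystem S) (hF : F.IsSaturated p) (hZ : (S ⊓ Subgroup.centralizer (S : Set Ω)) ≤ F.core) :
    ∃ K : Subgroup Ω, K ≤ (S ⊓ Subgroup.centralizer (S : Set Ω)) ∧ F.center ⊓ K = ⊥ ∧ F.center ⊔ K = (S ⊓ Subgroup.centralizer (S : Set Ω)) := by
  have hQ := Cfsg.Agent.Lib.FusionJoin.isNormal_core F
  have hQS : F.core ≤ S := hQ.1
  have hn : S ≤ Subgroup.normalizer (F.core : Set Ω) := normalizes_of_stronglyClosed (isNormal_stronglyClosed hQ)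
  haveI : Finite F.core := finite_of_le hQS
  have hauto : F.IsFullyAutomized p F.core := by
    have h1 : F.IsFullyNormalized F.core := by
      refine ⟨hQS, fun R _ => ?_⟩
      have h2 : normalizerIn S F.core = S := inf_eq_left.2 hn
      rw [h2]
      exact Nat.card_mono (Set.toFinite _) (fun x hx => hx.1)
    exact fullyAutomized_of_fullyNormalized hS hF h1
  have hidx : ¬ p ∣ (conjA F hQS hn).range.index := by
    have h1 := ((isFullyAutomized_iff hS).1 hauto).2
    rw [conjA_range hQS hn]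
    exact h1
  have hm : (Nat.card (Subgroup.center F.core)).Coprime (conjA F hQS hn).range.index := by
    obtain ⟨k, hk⟩ := IsPGroup.iff_card.1 ((isPGroup_of_le hS hQS).to_subgroup (Subgroup.center F.core))
    rw [hk]
    exact Nat.Coprime.pow_left k (((Fact.out : p.Prime).coprime_iff_not_dvd).2 hidx)
  obtain ⟨K, h1, h2, h3⟩ := Cfsg.Agent.Lib.CoprimeNorm.exists_complement
    ((zAut F.core).comp (F.autGroup F.core).subtype) (conjA F hQS hn).range hm
  -- an element of the centre of the core fixed by `S` is in the centre of `S`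
  have hfixZ : ∀ z : Subgroup.center F.core, (∀ h ∈ (conjA F hQS hn).range,
      ((zAut F.core).comp (F.autGroup F.core).subtype) h z = z) →
      ((z : F.core) : Ω) ∈ S ⊓ Subgroup.centralizer (S : Set Ω) := by
    intro z hz
    refine ⟨hQS (z : F.core).2, mem_centralizer_iff'.2 ?_⟩
    intro s hs
    have h4 := congrArg (fun w : Subgroup.center F.core => ((w : F.core) : Ω)) (hz _ ⟨⟨s, hs⟩, rfl⟩)
    have h5 : s * ((z : F.core) : Ω) * s⁻¹ = (z : F.core) := h4
    rw [mul_inv_eq_iff_eq_mul] at h5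
    rw [mul_inv_eq_iff_eq_mul]
    exact h5.symm
  have hZfix : ∀ x ∈ S ⊓ Subgroup.centralizer (S : Set Ω), ∃ z : Subgroup.center F.core, ((z : F.core) : Ω) = x ∧
      ∀ h ∈ (conjA F hQS hn).range, ((zAut F.core).comp (F.autGroup F.core).subtype) h z = z := by
    intro x hx
    have hc : ∀ s ∈ S, x * s * x⁻¹ = s := mem_centralizer_iff'.1 hx.2
    have h4 : (⟨x, hZ hx⟩ : F.core) ∈ Subgroup.center F.core := by
      rw [Subgroup.mem_center_iff]
      intro g
      apply Subtype.ext
      show (g : Ω) * x = x * g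
      have := hc g (hQS g.2)
      rw [mul_inv_eq_iff_eq_mul] at this
      exact this.symm
    refine ⟨⟨_, h4⟩, rfl, ?_⟩
    rintro _ ⟨s, rfl⟩
    apply Subtype.ext
    apply Subtype.ext
    show (s : Ω) * x * (s : Ω)⁻¹ = x
    have := hc s s.2
    rw [mul_inv_eq_iff_eq_mul] at this ⊢
    exact this.symm
  refine ⟨(K.map (Subgroup.center F.core).subtype).map F.core.subtype, ?_, ?_, ?_⟩
  · rintro _ ⟨_, ⟨z, hz, rfl⟩, rfl⟩
    exact hfixZ z (h1 z hz)
  · rw [eq_bot_iff]
    rintro x ⟨hx, _, ⟨z, hz, rfl⟩, rfl⟩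
    have h4 : z = 1 := h2 z hz (fun a => Subtype.ext (Subtype.ext (fix_aut_of_mem_center hQS (z : F.core).2 hx a)))
    rw [h4]
    exact Subgroup.one_mem _
  · apply le_antisymm
    · refine sup_le (fun x hx => ?_) ?_
      · refine ⟨center_le hx, mem_centralizer_iff'.2 ?_⟩
        intro s hs
        have h4 := fix_of_mem_center hx (fmap_conj F (P := S) le_rfl hs) (center_le hx)
        rw [mul_inv_eq_iff_eq_mul] at h4 ⊢
        exact h4.symm
      · rintro _ ⟨_, ⟨z, hz, rfl⟩, rfl⟩
        exact hfixZ z (h1 z hz)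
    · intro x hx
      obtain ⟨z, rfl, hz⟩ := hZfix x hx
      obtain ⟨k, hk, c, hc, hkc⟩ := h3 z hz
      have h4 : ((z : F.core) : Ω) = ((c : F.core) : Ω) * ((k : F.core) : Ω) := by
        rw [← hkc, mul_comm k c]
        rfl
      rw [h4]
      refine Subgroup.mul_mem_sup (mem_center_of_fix hQ (c : F.core).2 (fun a => ?_)) ⟨_, ⟨k, hk, rfl⟩, rfl⟩
      exact congrArg (fun w : Subgroup.center F.core => ((w : F.core) : Ω)) (hc a)

end Cfsg.Agent.S5294
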