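import Cfsg.Statements.S5300
import Cfsg.Agent.Lib.FusionCyclic
import Cfsg.Agent.Lib.FusionFocal
import Cfsg.Agent.Lib.FusionSupersol

set_option autoImplicit false
universe u
open Cfsg Cfsg.FusionSystem Cfsg.Agent.Lib.FusionBasic Cfsg.Agent.Lib.FusionNormal Cfsg.Agent.Lib.FusionFocal Cfsg.Agent.Lib.FusionCyclic

namespace Cfsg.Agent.S5300

/-- Let F be a saturated fusion system over a finite p-group S. If every cyclic subgroup of the focal subgroup of F of order p (of order 2 or 4 when p = 2) is normal in S, then S is normal in F. -/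
theorem result {Ω : Type u} [Group Ω] {S : Subgroup Ω} [Finite S] (p : ℕ) [Fact p.Prime] (hS : IsPGroup p S)
    (F : Cfsg.FusionSystem S) (hF : F.IsSaturated p)
    (hnorm : ∀ x ∈ F.focalSubgroup, (x ^ p = 1 ∨ (p = 2 ∧ x ^ 4 = 1)) → ∀ s ∈ S, s * x * s⁻¹ ∈ Subgroup.zpowers x) :
    F.IsNormal S := by
  obtain ⟨q, hq⟩ : ∃ q, (p ≠ 2 ∧ q = p) ∨ (p = 2 ∧ q = 4) := by
    by_cases h : p = 2
    · exact ⟨4, Or.inr ⟨h, rfl⟩⟩
    · exact ⟨p, Or.inl ⟨h, rfl⟩⟩
  have hT : F.StronglyClosed F.focalSubgroup := by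
    rw [stronglyClosed_iff]
    refine ⟨focal_le F, fun P f hP hf x hx => ?_⟩
    have h1 := mem_focal hf hx
    have h2 : f x = x * (x⁻¹ * f x) := by group
    rw [h2]
    exact Subgroup.mul_mem _ (hP hx) h1
  have hhyp : F.hyperfocalSubgroup p ≤ F.focalSubgroup := Cfsg.Agent.Lib.FusionHyper.hyp_le_focal
  -- elements of order p are central
  have hcen : ∀ x ∈ F.focalSubgroup, x ^ p = 1 → ∀ s ∈ S, s * x * s⁻¹ = x := by
    intro x hx hxp s hs
    have h1 := hnorm x hx (Or.inl hxp) s hs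
    have hxS := focal_le F hx
    obtain ⟨k, hk⟩ := h1
    have h2 := Cfsg.Agent.Lib.FusionSupersol.central_of_order_p hS (⟨x, hxS⟩ : S) (Subtype.ext hxp) ⟨s, hs⟩
      ⟨k, Subtype.ext hk⟩
    exact congrArg Subtype.val h2
  have hq' : ∀ x ∈ F.focalSubgroup, x ^ q = 1 → ∀ s ∈ S, s * x * s⁻¹ ∈ Subgroup.zpowers x := by
    intro x hx hxq s hs
    rcases hq with ⟨hp2, rfl⟩ | ⟨rfl, rfl⟩
    · exact hnorm x hx (Or.inl hxq) s hs
    · exact hnorm x hx (Or.inr ⟨rfl, hxq⟩) s hs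
  refine isNormal_top_of_centricRadical hS hF fun P hPn hPc hPr => ?_
  obtain ⟨D, hDP, hDT, hDq, hDinv, hDdet⟩ := exists_detect hS hq hT hhyp hPc.1
  let D1 : Subgroup Ω :=
    { carrier := {x | x ∈ D ∧ x ^ p = 1}
      one_mem' := ⟨D.one_mem, one_pow _⟩
      mul_mem' := by
        rintro a b ⟨ha, ha1⟩ ⟨hb, hb1⟩
        refine ⟨D.mul_mem ha hb, ?_⟩
        have h1 := hcen b (hDT hb) hb1 a (focal_le F (hDT ha))
        have h2 : Commute a b := mul_inv_eq_iff_eq_mul.1 h1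
        rw [h2.mul_pow, ha1, hb1, one_mul]
      inv_mem' := by
        rintro a ⟨ha, ha1⟩
        exact ⟨D.inv_mem ha, by rw [inv_pow, ha1, inv_one]⟩ }
  refine eq_top_of_chain hS hPc hPr (fun i => match i with | 0 => ⊥ | 1 => D1 | _ => D) 2 rfl ?_ ?_ hDdet
  · intro i α hα x hx
    match i with
    | 0 =>
      have hx' : (x : Ω) = 1 := Subgroup.mem_bot.1 hx
      have h1 : x = 1 := Subtype.ext hx'
      rw [h1, map_one]
      exact Subgroup.one_mem _
    | 1 =>
      refine ⟨hDinv α hα x hx.1, ?_⟩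
      have h1 : x ^ p = 1 := Subtype.ext hx.2
      have h2 : (α x) ^ p = 1 := by rw [← map_pow, h1, map_one]
      exact congrArg Subtype.val h2
    | (n + 2) => exact hDinv α hα x hx
  · intro i s hs hsn x hx hxP
    match i with
    | 0 =>
      have hx' : x ∈ D ∧ x ^ p = 1 := hx
      rw [hcen x (hDT hx'.1) hx'.2 s hs, inv_mul_cancel]
      exact Subgroup.one_mem _
    | 1 =>
      have hx' : x ∈ D := hx
      obtain ⟨k, hk⟩ := hq' x (hDT hx') (hDq x hx') s hs
      have hk' : x ^ k = s * x * s⁻¹ := hk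
      refine ⟨?_, ?_⟩
      · rw [← hk']
        exact D.mul_mem (D.inv_mem hx') (D.zpow_mem hx' k)
      · rw [← hk']
        have h3 : x⁻¹ * x ^ k = x ^ (k - 1) := by rw [zpow_sub_one]; exact (Commute.refl x).inv_left.zpow_right k
        rw [h3]
        rcases hq with ⟨hp2, hqp⟩ | ⟨hp2, hq4⟩
        · have h4 : x ^ p = 1 := by rw [← hqp]; exact hDq x hx'
          rw [← zpow_natCast, ← zpow_mul, mul_comm, zpow_mul, zpow_natCast, h4, one_zpow]
        · have h4 : (x ^ p) ^ p = 1 := by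
            rw [← pow_mul, hp2, show 2 * 2 = 4 from rfl, ← hq4]; exact hDq x hx'
          have h5 := hcen (x ^ p) (Subgroup.pow_mem _ (hDT hx') p) h4 s hs
          rw [← conj_pow, ← hk', ← zpow_natCast, ← zpow_natCast, ← zpow_mul] at h5
          rw [← zpow_natCast, ← zpow_mul, sub_mul, one_mul, zpow_sub, h5, mul_inv_cancel]
    | (n + 2) =>
      have hx' : x ∈ D := hx
      obtain ⟨k, hk⟩ := hq' x (hDT hx') (hDq x hx') s hs
      have hk' : x ^ k = s * x * s⁻¹ := hk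
      rw [← hk']
      exact D.mul_mem (D.inv_mem hx') (D.zpow_mem hx' k)

end Cfsg.Agent.S5300
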