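import Cfsg.Statements.S5301
import Cfsg.Agent.Lib.FusionNormal

set_option autoImplicit false
universe u
open Cfsg

namespace Cfsg.Agent.S5301

/-- Let F be a saturated fusion system over a finite p-group S. If for every subgroup P of S that is fully normalized, centric and radical in F the automorphism group that F induces on P has a normal Sylow p-subgroup, then S is normal in F. -/
theorem result {Ω : Type u} [Group Ω] {S : Subgroup Ω} [Finite S] (p : ℕ) [Fact p.Prime] (hS : IsPGroup p S)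
    (F : Cfsg.FusionSystem S) (hF : F.IsSaturated p)
    (hcl : ∀ P : Subgroup Ω, F.IsFullyNormalized P → F.IsCentric P → F.IsRadical p P →
      ∃ R : Sylow p ↥(F.autGroup P), (R : Subgroup ↥(F.autGroup P)).Normal) :
    F.IsNormal S := by
  refine Cfsg.Agent.Lib.FusionNormal.isNormal_top_of_centricRadical hS hF fun P hn hc hr => ?_
  have hP := hn.1
  have hfin : Finite P := Cfsg.Agent.Lib.FusionSat.finite_of_le hP
  by_contra hne
  have hlt : P < S := lt_of_le_of_ne hP hne
  obtain ⟨t, ht, htP⟩ := SetLike.exists_of_lt (Cfsg.Agent.Lib.FusionSat.lt_normalizerIn hS le_rfl hlt)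
  apply htP
  refine Cfsg.Agent.Lib.FusionAlperin.mem_of_conj_mem_inn
    (hc.2 P (Cfsg.Agent.Lib.FusionBasic.isConj_refl F hP)) ht.1 ht.2 ?_ hP
  obtain ⟨R, hR⟩ := hcl P hn hc hr
  obtain ⟨-, T, hT⟩ := Cfsg.Agent.Lib.FusionSat.fullyAutomized_of_fullyNormalized hS hF hn
  obtain ⟨g, hg⟩ := MulAction.exists_smul_eq (F.autGroup P) R T
  have hRT : (T : Subgroup (F.autGroup P)) = R := by
    rw [← hg]
    exact congrArg _ (Sylow.smul_eq_of_normal (P := R) (g := g))
  have hK : Cfsg.autInducedBy S P ≤ Cfsg.Inn P := by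
    refine Cfsg.Agent.Lib.FusionNormal.le_inn_of_radical hr
      (Cfsg.Agent.Lib.FusionBasic.autInducedBy_le_autGroup hP le_rfl)
      (Cfsg.Agent.Lib.FusionSat.isPGroup_autInducedBy hS le_rfl) ?_
    intro α hα κ hκ
    have h1 : (⟨κ, Cfsg.Agent.Lib.FusionBasic.autInducedBy_le_autGroup hP le_rfl hκ⟩ : F.autGroup P) ∈
        (T : Subgroup (F.autGroup P)) := by rw [hT]; exact Subgroup.mem_subgroupOf.2 hκ
    rw [hRT] at h1
    have h2 := hR.conj_mem _ h1 ⟨α, hα⟩
    rw [← hRT, hT] at h2
    exact h2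
  exact hK (Cfsg.Agent.Lib.FusionBasic.conjAut_mem_autInducedBy ht.2 ht.1)

end Cfsg.Agent.S5301
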