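import Cfsg.Statements.S5312
import Cfsg.Agent.Lib.FusionCP4

set_option autoImplicit false
open Cfsg
open Cfsg.Agent.Lib.FusionCP
open Cfsg.Agent.Lib.FusionCP2
open Cfsg.Agent.Lib.FusionCP4

namespace Cfsg.Agent.S5312

/-- Let F be a saturated fusion system over a finite p-group S. Every component C of F is a normal subsystem of every generalized Fitting subsystem of F. -/
theorem result {Ω : Type*} [Group Ω] {S : Subgroup Ω} [Finite S] (p : ℕ) [Fact p.Prime] (hS : IsPGroup p S) (F : Cfsg.FusionSystem S) (hF : F.IsSaturated p)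
    {T : Subgroup Ω} (C : Cfsg.FusionSystem T) (hC : C.IsComponentIn F p)
    {U : Subgroup Ω} (D : Cfsg.FusionSystem U) (hD : D.IsGeneralizedFittingOf F p) : C.IsNormalIn D p := gf_comp hS hF hD hC

end Cfsg.Agent.S5312
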