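import Cfsg.Statements.S5315
import Cfsg.Agent.Lib.FusionAbel
import Cfsg.Agent.Lib.FusionQuot
import Cfsg.Agent.Lib.FusionFrat
import Cfsg.Agent.Lib.FusionHyper
import Cfsg.Agent.Lib.FusionFocal

set_option autoImplicit false
open Cfsg Cfsg.FusionSystem Cfsg.Agent.Lib.FusionBasic Cfsg.Agent.Lib.FusionSat Cfsg.Agent.Lib.FusionNormal Cfsg.Agent.Lib.FusionAbel Cfsg.Agent.Lib.FusionQuot Cfsg.Agent.Lib.FusionFocal
open scoped IsMulCommutative
set_option maxHeartbeats 400000

namespace Cfsg.Agent.S5315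

/-- An analogue of Grün's lemma for fusion systems. Let F be a saturated fusion system over a finite p-group S that is perfect in the sense that its hyperfocal subgroup is all of S (F coincides with its p-residual subsystem). Then the second centre of F equals its centre: every fusion system over S/(Z(F) ∩ S) that is the factor system of F modulo its centre Z(F), read through the quotient map, has trivial centre. -/
theorem result {Ω : Type*} [Group Ω] {S : Subgroup Ω} [Finite S] (p : ℕ) [Fact p.Prime] (hS : IsPGroup p S) (F : Cfsg.FusionSystem S) (hF : F.IsSaturated p)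
    (hperf : F.hyperfocalSubgroup p = S)
    (E : Cfsg.FusionSystem (⊤ : Subgroup (↥S ⧸ (F.center).subgroupOf S)))
    (hE : F.IsFactorSystem F.center (QuotientGroup.mk' ((F.center).subgroupOf S)) E) : E.center = ⊥ := by
  classical
  have hcen := Cfsg.Agent.Lib.FusionJoin.isCentral_center F
  have hZS : F.center ≤ S := center_le
  have hZSC : F.StronglyClosed F.center := by
    rw [stronglyClosed_iff]
    refine ⟨hZS, fun P f hP hf x hx => ?_⟩
    rw [fix_of_mem_center (hP hx) hf hx]
    exact hP hx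
  have hθ := hE.2.1
  have hfinE : Finite (⊤ : Subgroup (↥S ⧸ (F.center).subgroupOf S)) := inferInstance
  -- elements with central image
  have hA : ∀ (P : Subgroup Ω) (f : Ω → Ω), FMap F P f → ∀ x ∈ P,
      ev (QuotientGroup.mk' ((F.center).subgroupOf S)) x ∈ E.center → x⁻¹ * f x ∈ F.center := by
    intro P f hf x hx hxc
    obtain ⟨g, hg, hg2, hg3⟩ := ((isCentral_iff F).1 hcen).2 P f hf
    obtain ⟨f', hf', hf'2⟩ := exists_induced hZSC hE le_sup_right hg
    have h1 := hf'2 x (Subgroup.mem_sup_left hx)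
    have h2 : f' (ev (QuotientGroup.mk' ((F.center).subgroupOf S)) x) =
        ev (QuotientGroup.mk' ((F.center).subgroupOf S)) x := by
      apply fix_of_mem_center hxc hf'
      rw [mem_im]
      exact ⟨x, Subgroup.mem_sup_left hx, hf.le hx, rfl⟩
    rw [h2, hg2 x hx, ev_eq_iff hθ (hf.le hx) (hf.map_mem hx)] at h1
    exact h1
  have hZcomm : ∀ z ∈ F.center, ∀ s ∈ S, s * z * s⁻¹ = z := by
    intro z hz s hs
    exact fix_of_mem_center hz (fmap_conj F le_rfl hs) (hZS hz)
  -- main
  rw [eq_bot_iff]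
  intro y hy
  obtain ⟨x, rfl⟩ := QuotientGroup.mk_surjective y
  have hxc : ev (QuotientGroup.mk' ((F.center).subgroupOf S)) (x : Ω) ∈ E.center := by
    rw [ev_coe]; exact hy
  have hconj : ∀ s ∈ S, (x : Ω)⁻¹ * (s * x * s⁻¹) ∈ F.center := fun s hs =>
    hA S _ (fmap_conj F le_rfl hs) x x.2 hxc
  set Q : Subgroup Ω := F.center ⊔ Subgroup.zpowers (x : Ω) with hQ
  have hmemQ : ∀ y, y ∈ Q ↔ ∃ i : ℤ, ∃ z ∈ F.center, (x : Ω) ^ i * z = y := by
    intro y
    rw [hQ, sup_comm, mem_sup_of_normalizes (by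
      rw [Subgroup.zpowers_le]
      exact normalizes_of_stronglyClosed hZSC x.2)]
    constructor
    · rintro ⟨a, ⟨i, rfl⟩, t, ht, h⟩
      exact ⟨i, t, ht, h⟩
    · rintro ⟨i, t, ht, h⟩
      exact ⟨_, ⟨i, rfl⟩, t, ht, h⟩
  have hQS : Q ≤ S := sup_le hZS (by rw [Subgroup.zpowers_le]; exact x.2)
  have hxQ : (x : Ω) ∈ Q := Subgroup.mem_sup_right (Subgroup.mem_zpowers _)
  have hZQ : F.center ≤ Q := le_sup_left
  have hQab : ∀ a ∈ Q, ∀ b ∈ Q, a * b = b * a := by
    intro a ha b hb
    obtain ⟨i, z, hz, rfl⟩ := (hmemQ a).1 ha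
    obtain ⟨j, w, hw, rfl⟩ := (hmemQ b).1 hb
    have c1 : Commute z ((x : Ω) ^ j) := by
      have := hZcomm z hz _ (S.zpow_mem x.2 j)
      rw [mul_inv_eq_iff_eq_mul] at this
      exact this.symm
    have c2 : Commute w ((x : Ω) ^ i) := by
      have := hZcomm w hw _ (S.zpow_mem x.2 i)
      rw [mul_inv_eq_iff_eq_mul] at this
      exact this.symm
    have c3 : Commute z w := by
      have := hZcomm w hw z (hZS hz)
      rw [mul_inv_eq_iff_eq_mul] at this
      exact this
    have c4 : Commute ((x : Ω) ^ i) ((x : Ω) ^ j) := (Commute.refl (x : Ω)).zpow_zpow i j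
    exact (c4.mul_left c1).mul_right (c2.symm.mul_left c3)
  have hQSC : F.StronglyClosed Q := by
    rw [stronglyClosed_iff]
    refine ⟨hQS, fun P f hP hf y hy => ?_⟩
    have hyQ := hP hy
    have h1 : ev (QuotientGroup.mk' ((F.center).subgroupOf S)) y ∈ E.center := by
      obtain ⟨i, z, hz, rfl⟩ := (hmemQ y).1 hyQ
      have h2 : ev (QuotientGroup.mk' ((F.center).subgroupOf S)) ((x : Ω) ^ i * z) =
          (ev (QuotientGroup.mk' ((F.center).subgroupOf S)) (x : Ω)) ^ i := by
        rw [ev_mul (S.zpow_mem x.2 i) (hZS hz), (ev_eq_one_iff hθ (hZS hz)).2 hz, mul_one, ev_coe, ← map_zpow,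
          ← Subgroup.coe_zpow, ev_coe]
      rw [h2]
      exact Subgroup.zpow_mem _ hxc i
    have h2 := hA P f hf y hy h1
    have h3 : f y = y * (y⁻¹ * f y) := by group
    rw [h3]
    exact Q.mul_mem hyQ (hZQ h2)
  have hQN : F.IsNormal Q := isNormal_of_abelian_stronglyClosed hS hF hQSC hQab
  -- the homomorphism s ↦ [x, s]
  have hcenS : ∀ z : S, (z : Ω) ∈ F.center → z ∈ Subgroup.center S := by
    intro z hz
    rw [Subgroup.mem_center_iff]
    intro s
    apply Subtype.ext
    have := hZcomm z hz s s.2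
    rw [mul_inv_eq_iff_eq_mul] at this
    exact this
  let φ : S →* Subgroup.center S :=
    { toFun := fun s => ⟨x⁻¹ * (s * x * s⁻¹), hcenS _ (hconj s s.2)⟩
      map_one' := by
        apply Subtype.ext
        show x⁻¹ * (1 * x * 1⁻¹) = 1
        group
      map_mul' := by
        intro s t
        apply Subtype.ext
        apply Subtype.ext
        show (x : Ω)⁻¹ * (s * t * x * (s * t : Ω)⁻¹) = (x : Ω)⁻¹ * (s * x * (s : Ω)⁻¹) * ((x : Ω)⁻¹ * (t * x * (t : Ω)⁻¹))
        have h1 := hZcomm _ (hconj t t.2) s s.2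
        calc (x : Ω)⁻¹ * (s * t * x * (s * t : Ω)⁻¹) =
            (x : Ω)⁻¹ * (s * x * (s : Ω)⁻¹) * (s * ((x : Ω)⁻¹ * (t * x * (t : Ω)⁻¹)) * (s : Ω)⁻¹) := by group
          _ = _ := by rw [h1] }
  have hφ : ∀ s : S, (((φ s : Subgroup.center S) : S) : Ω) = (x : Ω)⁻¹ * (s * x * (s : Ω)⁻¹) := fun s => rfl
  have hxcen : ∀ s ∈ S, s * (x : Ω) * s⁻¹ = x := by
    intro s hs
    have h1 : φ ⟨s, hs⟩ = 1 := by
      apply focal_le_of_stable (F := F) φ
      · intro P f hf a ha b hb
        obtain ⟨g, hg, hg2, hg3⟩ := ((isNormal_iff F).1 hQN).2 P f hf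
        apply Subtype.ext
        apply Subtype.ext
        rw [hφ, hφ, hb, ← hg2 a ha]
        have haPQ : (a : Ω) ∈ P ⊔ Q := Subgroup.mem_sup_left ha
        have hxPQ : (x : Ω) ∈ P ⊔ Q := Subgroup.mem_sup_right hxQ
        -- g x = x * z
        have hz := hA _ _ hg (x : Ω) hxPQ hxc
        set z := (x : Ω)⁻¹ * g x with hzdef
        have hgx : g x = x * z := by rw [hzdef]; group
        have hc := hconj a a.2
        set c := (x : Ω)⁻¹ * (a * x * (a : Ω)⁻¹) with hcdef
        have hax : (a : Ω) * x * (a : Ω)⁻¹ = x * c := by rw [hcdef]; group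
        have h3 := hg.map_conj haPQ hxPQ
        rw [hax, hg.map_mul hxPQ (Subgroup.mem_sup_right (hZQ hc)), fix_of_mem_center hc hg
          (Subgroup.mem_sup_right (hZQ hc)), hgx] at h3
        have hgaS : g a ∈ S := hg.map_mem haPQ
        have h4 : g a * (x * z) * (g a)⁻¹ = g a * x * (g a)⁻¹ * z := by
          calc g a * (x * z) * (g a)⁻¹ = g a * x * (g a)⁻¹ * (g a * z * (g a)⁻¹) := by group
            _ = _ := by rw [hZcomm z hz _ hgaS]
        rw [h4] at h3
        -- x z c = (g a) x (g a)⁻¹ z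
        have h5 : z * c = c * z := by
          have := hZcomm c hc z (hZS hz)
          rwa [mul_inv_eq_iff_eq_mul] at this
        have h6 : g a * x * (g a)⁻¹ = x * c := by
          apply mul_right_cancel (b := z)
          calc g a * x * (g a)⁻¹ * z = x * z * c := h3.symm
            _ = x * (z * c) := mul_assoc _ _ _
            _ = x * (c * z) := by rw [h5]
            _ = x * c * z := (mul_assoc _ _ _).symm
        rw [h6, inv_mul_cancel_left]
      · show s ∈ F.focalSubgroup
        exact Cfsg.Agent.Lib.FusionHyper.hyp_le_focal (p := p) (by rw [hperf]; exact hs)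
    have h2 := hφ ⟨s, hs⟩
    rw [h1] at h2
    have h3 : (1 : Ω) = (x : Ω)⁻¹ * (s * x * s⁻¹) := h2
    rw [eq_inv_mul_iff_mul_eq, mul_one] at h3
    exact h3.symm
  have hxZ : (x : Ω) ∈ F.center := by
    refine mem_center_of_fix hQN hxQ (fun α => ?_)
    have hfinQ : Finite Q := finite_of_le hQS
    -- order of α is prime to p
    have h1 := ((isFullyAutomized_iff hS).1 (fullyAutomized_of_fullyNormalized hS hF
      (Cfsg.Agent.Lib.FusionFrat.fullyNormalized_of_stronglyClosed hQSC))).2
    have h2 : autInducedBy S Q = ⊥ := by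
      rw [eq_bot_iff]
      intro β hβ
      obtain ⟨g, hg, h3⟩ := mem_autInducedBy_iff.1 hβ
      rw [Subgroup.mem_bot]
      apply MulEquiv.ext
      intro y
      apply Subtype.ext
      rw [h3]
      obtain ⟨i, z, hz, hy⟩ := (hmemQ y).1 y.2
      show g * (y : Ω) * g⁻¹ = y
      rw [← hy]
      calc g * ((x : Ω) ^ i * z) * g⁻¹ = (g * x * g⁻¹) ^ i * (g * z * g⁻¹) := by rw [conj_zpow]; group
        _ = _ := by rw [hxcen g hg, hZcomm z hz g hg]
    rw [h2, Subgroup.relIndex_bot_left] at h1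
    have hcop : (orderOf α).Coprime p := by
      have h4 : orderOf α ∣ Nat.card (F.autGroup Q) := orderOf_dvd_natCard α
      refine Nat.Coprime.coprime_dvd_left h4 ?_
      rw [Nat.coprime_comm]
      exact ((Fact.out : p.Prime).coprime_iff_not_dvd).2 h1
    have hαx := hA Q _ (fmap_of_autGroup hQS α.2) x hxQ hxc
    rw [autFun_of_mem _ hxQ] at hαx
    set z := (x : Ω)⁻¹ * ((α : MulAut Q) ⟨x, hxQ⟩ : Q) with hzdef
    have hax : (((α : MulAut Q) ⟨x, hxQ⟩ : Q) : Ω) = x * z := by rw [hzdef]; group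
    have h4 : ∀ n : ℕ, (((((α : MulAut Q) ^ n) ⟨x, hxQ⟩ : Q)) : Ω) = x * z ^ n := by
      intro n
      induction n with
      | zero => simp
      | succ n ih =>
        rw [pow_succ', MulAut.mul_apply]
        have h5 : ((α : MulAut Q) ^ n) ⟨x, hxQ⟩ = ⟨x, hxQ⟩ * ⟨z ^ n, hZQ (Subgroup.pow_mem _ hαx n)⟩ :=
          Subtype.ext ih
        rw [h5, map_mul, Subgroup.coe_mul, hax,
          fix_aut_of_mem_center hQS (hZQ (Subgroup.pow_mem _ hαx n)) (Subgroup.pow_mem _ hαx n) α, pow_succ', mul_assoc]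
    have h5 := h4 (orderOf α)
    have h6 : (α : MulAut Q) ^ orderOf α = 1 := by
      have := congrArg Subtype.val (pow_orderOf_eq_one α)
      exact this
    rw [h6] at h5
    have h7 : z ^ orderOf α = 1 := by
      have : (x : Ω) = x * z ^ orderOf α := h5
      exact (left_eq_mul.1 this)
    have h8 : z = 1 := by
      have hzS : z ∈ S := hZS hαx
      obtain ⟨m, hm⟩ := IsPGroup.iff_orderOf.1 hS ⟨z, hzS⟩
      rw [← Subgroup.orderOf_coe] at hm
      have h9 := orderOf_dvd_of_pow_eq_one h7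
      change orderOf z = p ^ m at hm
      rw [hm] at h9
      have h10 : p ^ m = 1 := Nat.Coprime.eq_one_of_dvd (Nat.Coprime.pow_left m hcop.symm) h9
      rw [h10] at hm
      exact orderOf_eq_one_iff.1 hm
    rw [hax, h8, mul_one]
  rw [Subgroup.mem_bot, QuotientGroup.eq_one_iff]
  exact hxZ

end Cfsg.Agent.S5315
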