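import Cfsg.Statements.S5317
import Cfsg.Agent.Lib.PSL2TwoFusion

set_option autoImplicit false
open Cfsg

namespace Cfsg.Agent.S5317

open Cfsg.Agent.Lib.PSL2TwoFusion


/-- Let F be a finite field of odd order q with q² ≡ 1 mod 16 (so that a Sylow 2-subgroup of PSL(2,q), dihedral of order the 2-part of (q²−1)/2, has order at least 8). Then the 2-fusion system of PSL(2,F) on a Sylow 2-subgroup is simple: saturated, over a nontrivial 2-group, with no normal subsystem other than the trivial one and itself. -/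
theorem result {F : Type*} [Field F] [Fintype F] (hodd : Fintype.card F % 2 = 1) (h16 : 16 ∣ Fintype.card F ^ 2 - 1)
    (S : Sylow 2 (Matrix.ProjectiveSpecialLinearGroup (Fin 2) F)) :
    (Cfsg.groupFusionSystem (S : Subgroup (Matrix.ProjectiveSpecialLinearGroup (Fin 2) F))).IsSimple 2 := by
  haveI : Fact (Nat.Prime 2) := ⟨Nat.prime_two⟩
  have hodd' : Odd (Fintype.card F) := Nat.odd_iff.2 hodd
  have h2 : (2 : F) ≠ 0 := Cfsg.Agent.Lib.ClUtil.odd_card_iff_two_ne_zero.1 hodd'
  obtain ⟨k, r, hk, hr, hcard, hcyc, s, t, hs, ht, hst⟩ := sylow_structure hodd' S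
  -- k ≥ 2
  have hk2 : 2 ≤ k := by
    have h3 : 8 ∣ Nat.card (Matrix.ProjectiveSpecialLinearGroup (Fin 2) F) := by
      have h4 := Cfsg.Agent.Lib.ClSL2Syl.card_PSL2 hodd'
      have h5 : 16 ∣ 2 * Nat.card (Matrix.ProjectiveSpecialLinearGroup (Fin 2) F) := by
        rw [h4]
        exact Dvd.dvd.mul_left h16 _
      omega
    have h6 : (2 : ℕ) ^ 3 ∣ Nat.card (S : Subgroup (PSL2 F)) := S.pow_dvd_card_of_pow_dvd_card h3
    rw [hcard] at h6
    have := (Nat.pow_dvd_pow_iff_le_right (by norm_num : 1 < 2)).1 h6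
    omega
  have hr1 : r ≠ 1 := by
    intro h
    rw [h, orderOf_one] at hr
    have : 2 ^ 2 ≤ 2 ^ k := Nat.pow_le_pow_right (by norm_num) hk2
    omega
  have hbot : (S : Subgroup (PSL2 F)) ≠ ⊥ := by
    intro h
    rw [h, Subgroup.card_bot] at hcard
    have : 2 ^ 1 ≤ 2 ^ (k + 1) := Nat.pow_le_pow_right (by norm_num) (by omega)
    omega
  refine Cfsg.Agent.Lib.FusionSimpleCrit.simple_of_aut S hbot ?_ ?_
  · intro T hTS hT hcl
    -- an involution of T
    have hTp : IsPGroup 2 T := S.isPGroup'.to_le hTS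
    haveI : Nontrivial T := T.nontrivial_iff_ne_bot.2 hT
    have hdvd : 2 ∣ Nat.card T := by
      obtain ⟨n, hn, hn2⟩ := (IsPGroup.nontrivial_iff_card hTp).1 inferInstance
      rw [hn2]
      exact dvd_pow_self 2 hn.ne'
    obtain ⟨u, hu⟩ := exists_prime_orderOf_dvd_card' 2 hdvd
    have hu1 : (u : PSL2 F) ≠ 1 := by
      intro h
      have : u = 1 := Subtype.ext h
      rw [this, orderOf_one] at hu
      omega
    have hu2 : (u : PSL2 F) * u = 1 := by
      have : u ^ 2 = 1 := orderOf_dvd_iff_pow_eq_one.1 hu.dvd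
      rw [pow_two] at this
      exact congrArg Subtype.val this
    have hinv : ∀ y ∈ (S : Subgroup (PSL2 F)), y * y = 1 → y ∈ T := by
      intro y hy hy2
      by_cases hy1 : y = 1
      · rw [hy1]; exact T.one_mem
      · obtain ⟨g, hg⟩ := isConj_involutions h2 hu1 hu2 hy1 hy2
        rw [← hg]
        exact hcl _ u.2 g (by rw [hg]; exact hy)
    have hrT : (r : PSL2 F) ∈ T := by
      rw [← hst]
      exact T.mul_mem (hinv s s.2 (congrArg Subtype.val hs)) (hinv t t.2 (congrArg Subtype.val ht))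
    intro y hy
    rcases hcyc ⟨y, hy⟩ with h | h
    · obtain ⟨n, hn⟩ := h
      have : y = (r : PSL2 F) ^ n := (congrArg Subtype.val hn).symm
      rw [this]
      exact T.zpow_mem hrT n
    · exact hinv y hy (congrArg Subtype.val h)
  · have h3 : IsPGroup 2 (MulAut (S : Subgroup (PSL2 F))) := by
      refine Cfsg.Agent.Lib.AutTwoGroup.aut_isPGroup r k hr ?_ ?_
      · have h4 := Subgroup.index_mul_card (Subgroup.zpowers r)
        rw [Nat.card_zpowers, hr, hcard, pow_succ'] at h4
        exact Nat.eq_of_mul_eq_mul_right (by positivity) h4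
      · intro α
        rcases hcyc (α r) with h | h
        · exact h
        · exfalso
          have h4 : orderOf (α r) = 2 ^ k := by rw [MulEquiv.orderOf_eq, hr]
          have h5 : orderOf (α r) ∣ 2 := orderOf_dvd_of_pow_eq_one (by rw [pow_two]; exact h)
          rw [h4] at h5
          have := Nat.le_of_dvd (by norm_num) h5
          have : 2 ^ 2 ≤ 2 ^ k := Nat.pow_le_pow_right (by norm_num) hk2
          omega
    exact h3.to_subgroup _

end Cfsg.Agent.S5317
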