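import Cfsg.Statements.S5319
import Cfsg.Agent.Lib.FusionSimpleFocal
import Cfsg.Agent.Lib.SylU3Two
import Cfsg.Agent.S0283

set_option autoImplicit false
open Cfsg Cfsg.Agent.Lib Cfsg.Agent.Lib.FusionSimpleFocal

namespace Cfsg.Agent.S5319

/-- Let q be an odd prime power and F a field with q² elements. Then the 2-fusion system of PSU(3,q) (realised as the special unitary group of the standard Hermitian form over F modulo its centre) on a Sylow 2-subgroup is simple. -/
theorem result {F : Type*} [Field F] [Fintype F] (q : ℕ) (hq : Fintype.card F = q ^ 2) (hodd : q % 2 = 1) (S : Sylow 2 (Cfsg.PSU 3 F q)) :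
    (Cfsg.groupFusionSystem (S : Subgroup (Cfsg.PSU 3 F q))).IsSimple 2 := by
  classical
  have h2p : Fact (Nat.Prime 2) := ⟨Nat.prime_two⟩
  have hq2 := Cfsg.Agent.Lib.HermMat.two_le_q hq
  have hsimple : IsSimpleGroup (Cfsg.PSU 3 F q) :=
    Cfsg.Agent.S0283.result hq 3 le_rfl (by rintro ⟨-, h⟩; omega)
  have hf : Function.Surjective (QuotientGroup.mk' (Subgroup.center (Cfsg.SU 3 F q))) :=
    QuotientGroup.mk'_surjective _
  have hk : (Nat.card (QuotientGroup.mk' (Subgroup.center (Cfsg.SU 3 F q))).ker).Coprime 2 := by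
    rw [QuotientGroup.ker_mk']
    exact SylU3Two.center_coprime hq
  obtain ⟨Q, ⟨e⟩⟩ := exists_sylow_equiv (p := 2) _ hf hk S
  have hfacts : ¬ IsMulCommutative (S : Subgroup (Cfsg.PSU 3 F q)) ∧
      IsPGroup 2 (MulAut (S : Subgroup (Cfsg.PSU 3 F q))) ∧
      commutator (S : Subgroup (Cfsg.PSU 3 F q)) ≤
        Subgroup.closure {x : (S : Subgroup (Cfsg.PSU 3 F q)) | orderOf x = 2} := by
    have h4 : q % 4 = 1 ∨ q % 4 = 3 := by omega
    rcases h4 with h4 | h4
    · exact qd_facts (Cfsg.Agent.Lib.QWSylow.qd_equiv e (SylU3Two.quasiDihedral hq h4 Q))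
    · exact wr_facts (Cfsg.Agent.Lib.QWSylow.wr_equiv e (SylU3Two.wreathed hq h4 Q))
  exact simple_of_involutions S hfacts.1 hfacts.2.1 hfacts.2.2 (SylU3Two.isConj_PSU hq hodd)

end Cfsg.Agent.S5319
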