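import Cfsg.Statements.S5324
import Cfsg.Agent.Lib.LyFus
import Cfsg.Agent.Lib.LyUp4
import Cfsg.Agent.Lib.LyCntG

set_option autoImplicit false
open Cfsg

namespace Cfsg.Agent.S5324

/-- For a finite group G isomorphic to the Lyons group, the 2-fusion system of G on a Sylow 2-subgroup is simple: saturated, over a nontrivial 2-group, with no normal subsystem other than the trivial one and itself. -/
theorem result {G : Type*} [Group G] [Finite G] (hG : Cfsg.Spor.IsoLy G) (S : Sylow 2 G) : (Cfsg.groupFusionSystem (S : Subgroup G)).IsSimple 2 := by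
  obtain ⟨e⟩ := hG
  exact Cfsg.Agent.Lib.LyFus.main Cfsg.Agent.Lib.LyUp.simple Cfsg.Agent.Lib.LyCntG.cent_t e S

end Cfsg.Agent.S5324
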