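import Cfsg.Statements.S5329
import Cfsg.Agent.Lib.FusionFocal
import Cfsg.Agent.Lib.FusionJoin

set_option autoImplicit false
open Cfsg

namespace Cfsg.Agent.S5329

/-- For a saturated fusion system F over a finite p-group S, the focal subgroup and the derived subgroup of S meet the centre Z(F) of the system in the same subgroup: foc(F) ∩ Z(F) = S′ ∩ Z(F). -/
theorem result {Ω : Type*} [Group Ω] {S : Subgroup Ω} [Finite S] (p : ℕ) [Fact p.Prime] (hS : IsPGroup p S) (F : Cfsg.FusionSystem S) (hF : F.IsSaturated p) : F.focalSubgroup ⊓ F.center = ⁅(S : Subgroup Ω), (S : Subgroup Ω)⁆ ⊓ F.center := by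
  open Cfsg.Agent.Lib.FusionFocal in
  have hc : (commutator ↥S).map S.subtype = ⁅(S : Subgroup Ω), (S : Subgroup Ω)⁆ := by
    rw [commutator_def, Subgroup.map_commutator]
    congr 1 <;> simp [← MonoidHom.range_eq_map]
  open Cfsg.Agent.Lib.FusionFocal in
  apply le_antisymm
  · refine le_inf ?_ inf_le_right
    rw [← hc]
    exact focal_inf_central_le hS hF (Cfsg.Agent.Lib.FusionJoin.isCentral_center F)
  · refine le_inf ?_ inf_le_right
    refine inf_le_left.trans ?_
    rw [← hc]
    exact derived_le_focal F

end Cfsg.Agent.S5329
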