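import Cfsg.Statements.S5330
import Cfsg.Agent.Lib.FusionAbel

set_option autoImplicit false
open Cfsg

namespace Cfsg.Agent.S5330

open scoped IsMulCommutative
open Cfsg.FusionSystem Cfsg.Agent.Lib.FusionBasic Cfsg.Agent.Lib.FusionSat Cfsg.Agent.Lib.FusionAbel Cfsg.Agent.Lib.FusionNormal Cfsg.Agent.Lib.FusionFocal


/-- Let F be a saturated fusion system over a finite abelian p-group S. Then S is the internal direct product of the centre of the system and the focal subgroup: Z(F) ∩ foc(F) = 1 and Z(F)·foc(F) = S. -/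
theorem result {Ω : Type*} [Group Ω] {S : Subgroup Ω} [Finite S] (p : ℕ) [Fact p.Prime] (hS : IsPGroup p S) (F : Cfsg.FusionSystem S) (hF : F.IsSaturated p) (hab : ∀ x ∈ S, ∀ y ∈ S, x * y = y * x) : F.center ⊓ F.focalSubgroup = ⊥ ∧ F.center ⊔ F.focalSubgroup = S := by
  haveI : IsMulCommutative S := ⟨⟨fun a b => Subtype.ext (hab a a.2 b b.2)⟩⟩
  have hN : F.IsNormal S := isNormal_of_abelian_stronglyClosed hS hF (stronglyClosed_top F) hab
  haveI : Finite (MulAut S) := inferInstance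
  have hm : (Nat.card S).Coprime (Nat.card (F.autGroup S)) := by
    have h1 := ((isFullyAutomized_iff hS).1 (fullyAutomized_of_fullyNormalized hS hF (isFullyNormalized_top F))).2
    have h2 : autInducedBy S S = ⊥ := by
      rw [eq_bot_iff]
      intro α hα
      obtain ⟨g, hg, h3⟩ := mem_autInducedBy_iff.1 hα
      rw [Subgroup.mem_bot]
      apply MulEquiv.ext
      intro x
      apply Subtype.ext
      rw [h3, hab g hg x x.2, mul_inv_cancel_right]
      rfl
    rw [h2, Subgroup.relIndex_bot_left] at h1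
    obtain ⟨k, hk⟩ := IsPGroup.iff_card.1 hS
    rw [hk]
    exact Nat.Coprime.pow_left k (((Fact.out : p.Prime).coprime_iff_not_dvd).2 h1)
  obtain ⟨h1, h2⟩ := Cfsg.Agent.Lib.CoprimeNorm.coprime_decomp (A := F.autGroup S) (Z := S) (F.autGroup S).subtype hm
  set D : Subgroup S := Subgroup.closure {y : S | ∃ (a : F.autGroup S) (z : S), y = (F.autGroup S).subtype a z * z⁻¹} with hD
  have hfoc1 : F.focalSubgroup ≤ D.map S.subtype := by
    rw [focalSubgroup_eq, Subgroup.closure_le]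
    rintro y ⟨P, f, hf, x, hx, rfl⟩
    obtain ⟨g, hg, hg2, hg3⟩ := ((isNormal_iff F).1 hN).2 P f hf
    have hxS : x ∈ S := hf.le hx
    refine ⟨_, Subgroup.subset_closure ⟨⟨hg3.equiv, hg3.equiv_mem_autGroup⟩, ⟨x, hxS⟩, rfl⟩, ?_⟩
    show g x * x⁻¹ = x⁻¹ * f x
    rw [hg2 x hx]
    exact hab _ (hf.map_mem hx) _ (S.inv_mem hxS)
  have hfoc2 : D.map S.subtype ≤ F.focalSubgroup := by
    rw [Subgroup.map_le_iff_le_comap, hD, Subgroup.closure_le]
    rintro y ⟨a, z, rfl⟩
    have h3 := mem_focal (fmap_of_autGroup le_rfl a.2) z.2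
    rw [autFun_coe] at h3
    show (((a : MulAut S) z : S) : Ω) * (z : Ω)⁻¹ ∈ F.focalSubgroup
    rw [hab _ ((a : MulAut S) z).2 _ (S.inv_mem z.2)]
    exact h3
  constructor
  · rw [eq_bot_iff]
    rintro x ⟨hx1, hx2⟩
    obtain ⟨d, hd, rfl⟩ := hfoc1 hx2
    have h3 : d = 1 := h1 d hd (fun a => Subtype.ext (fix_aut_of_mem_center le_rfl d.2 hx1 a))
    rw [h3]
    exact Subgroup.one_mem _
  · apply le_antisymm
    · exact sup_le center_le (focal_le F)
    · intro x hx
      obtain ⟨k, hk, c, hc, hkc⟩ := h2 ⟨x, hx⟩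
      have h3 : x = (c : Ω) * (k : Ω) := by
        rw [hab (c : Ω) c.2 (k : Ω) k.2]
        exact (congrArg Subtype.val hkc).symm
      rw [h3]
      exact Subgroup.mul_mem_sup (mem_center_of_fix hN c.2 (fun a => congrArg Subtype.val (hc a)))
        (hfoc2 ⟨k, hk, rfl⟩)

end Cfsg.Agent.S5330
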