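import Cfsg.Statements.S5331
import Cfsg.Agent.Lib.H88Distinct
import Cfsg.Agent.Lib.FusionAbel
import Cfsg.Agent.Lib.FusionNormal
import Cfsg.Agent.Lib.FusionSat

set_option autoImplicit false
open Cfsg Cfsg.FusionSystem Cfsg.Agent.Lib.FusionBasic Cfsg.Agent.Lib.FusionSat Cfsg.Agent.Lib.FusionNormal Cfsg.Agent.Lib.FusionAbel
open scoped IsMulCommutative

namespace Cfsg.Agent.S5331

/-- Let S be a finite abelian 2-group that is a direct product of cyclic groups of pairwise distinct orders 2^{a_1} < 2^{a_2} < ⋯ < 2^{a_n} (all a_i ≥ 1). Then every saturated fusion system over S is the inner one: its maps are exactly the conjugations by elements of S. -/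
theorem result {Ω : Type*} [Group Ω] {S : Subgroup Ω} [Finite S] (n : ℕ) (a : Fin n → ℕ) (ha : StrictMono a) (ha1 : ∀ i, 1 ≤ a i) (e : ↥S ≃* Multiplicative ((i : Fin n) → ZMod (2 ^ a i))) (F : Cfsg.FusionSystem S) (hF : F.IsSaturated 2) (P : Subgroup Ω) : F.Hom P = (Cfsg.innerFusionSystem S).Hom P := by
  have h2p : Fact (Nat.Prime 2) := ⟨Nat.prime_two⟩
  have hne : ∀ i, NeZero (2 ^ a i) := fun i => ⟨by positivity⟩
  have hfin : Finite S := Finite.of_equiv _ e.symm.toEquiv
  have hab : ∀ x ∈ S, ∀ y ∈ S, x * y = y * x := by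
    intro x hx y hy
    have h1 : (⟨x, hx⟩ : S) * ⟨y, hy⟩ = ⟨y, hy⟩ * ⟨x, hx⟩ := by
      apply e.injective
      rw [map_mul, map_mul, mul_comm]
    exact congrArg Subtype.val h1
  have hcard : IsPGroup 2 S := by
    obtain ⟨N, hN⟩ : ∃ N : ℕ, ∀ i, a i ≤ N := ⟨∑ i, a i, fun i => Finset.single_le_sum (fun _ _ => Nat.zero_le _) (Finset.mem_univ i)⟩
    intro x
    refine ⟨N, ?_⟩
    apply e.injective
    apply Multiplicative.toAdd.injective
    rw [map_pow, map_one, toAdd_pow]
    funext i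
    rw [Pi.smul_apply, nsmul_eq_mul]
    have h3 : ((2 ^ N : ℕ) : ZMod (2 ^ a i)) = 0 := by
      rw [ZMod.natCast_eq_zero_iff]
      exact pow_dvd_pow 2 (hN i)
    rw [h3, zero_mul]
    rfl
  haveI : IsMulCommutative S := ⟨⟨fun a b => Subtype.ext (hab a a.2 b b.2)⟩⟩
  have hN : F.IsNormal S := isNormal_of_abelian_stronglyClosed hcard hF (stronglyClosed_top F) hab
  have hthin : Cfsg.Agent.Lib.H88Distinct.Thin 2 S :=
    Cfsg.Agent.Lib.H88Distinct.thin_of_equiv a ha.injective e
  have hodd : Odd (Nat.card (F.autGroup S)) := by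
    have h1 := ((isFullyAutomized_iff hcard).1 (fullyAutomized_of_fullyNormalized hcard hF (isFullyNormalized_top F))).2
    have h2 : autInducedBy S S = ⊥ := by
      rw [eq_bot_iff]
      intro α hα
      obtain ⟨g, hg, h3⟩ := mem_autInducedBy_iff.1 hα
      rw [Subgroup.mem_bot]
      apply MulEquiv.ext
      intro x
      apply Subtype.ext
      rw [h3, hab g hg x x.2, mul_inv_cancel_right]
      rfl
    rw [h2, Subgroup.relIndex_bot_left] at h1
    rw [← Nat.not_even_iff_odd, even_iff_two_dvd]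
    exact h1
  rw [hom_eq_iff_fmap]
  intro f
  constructor
  · intro hf
    obtain ⟨g, hg, hg2, hg3⟩ := ((isNormal_iff F).1 hN).2 P f hf
    have h1 : hg3.equiv = 1 := by
      apply Cfsg.Agent.Lib.H88Distinct.aut_eq_one hcard hthin
      have h2 : orderOf hg3.equiv ∣ Nat.card (F.autGroup S) := by
        have := orderOf_dvd_natCard (⟨hg3.equiv, hg3.equiv_mem_autGroup⟩ : F.autGroup S)
        rwa [← Subgroup.orderOf_coe] at this
      exact Odd.of_dvd_nat hodd h2
    rw [fmap_inner_iff]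
    refine ⟨hf.le, 1, S.one_mem, fun x hx => ?_⟩
    have h2 : ((hg3.equiv ⟨x, hf.le hx⟩ : S) : Ω) = x := by rw [h1]; rfl
    rw [FIso.equiv_apply] at h2
    rw [← hg2 x hx, one_mul, inv_one, mul_one]
    exact h2
  · intro hf
    exact le_iff_fmap.1 (inner_le F) P f hf

end Cfsg.Agent.S5331
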