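import Cfsg.Statements.S5332
import Cfsg.Agent.Lib.H34Sparse


set_option autoImplicit false
open Cfsg

namespace Cfsg.Agent.S5332

open Cfsg.FusionSystem Cfsg.Agent.Lib Cfsg.Agent.Lib.FusionBasic Cfsg.Agent.Lib.FusionSat Cfsg.Agent.Lib.FusionNormSat Cfsg.Agent.Lib.FusionNormal Cfsg.Agent.Lib.FusionSys Cfsg.Agent.Lib.H34Local Cfsg.Agent.Lib.H34JCenter Cfsg.Agent.Lib.H34Inner Cfsg.Agent.Lib.FusionInner Cfsg.Agent.Lib.H34Sparse


/-- Let p be odd and F a saturated fusion system over a finite p-group S that is not the inner system of S. Then F contains a saturated constrained subsystem over S that is itself not the inner system. -/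
theorem result {Ω : Type*} [Group Ω] {S : Subgroup Ω} [Finite S] (p : ℕ) [Fact p.Prime] (hS : IsPGroup p S) (F : Cfsg.FusionSystem S) (hF : F.IsSaturated p) (hp : p ≠ 2) (hne : ∃ P : Subgroup Ω, F.Hom P ≠ (Cfsg.innerFusionSystem S).Hom P) : ∃ E : Cfsg.FusionSystem S, E ≤ F ∧ E.IsConstrained p ∧ ∃ P : Subgroup Ω, E.Hom P ≠ (Cfsg.innerFusionSystem S).Hom P := by

  have h1 : ¬ ∀ P f, FMap F P f → Inn' S P f := by
    intro h
    obtain ⟨P, hP⟩ := hne
    exact hP (isInner_iff.2 h P)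
  obtain ⟨E, hE1, hE2, hE3, hE4⟩ := exists_sparse hF h1
  obtain ⟨h2, h3, -⟩ := sparse_constrained hS hE1 (Or.inl hp) hE3 hE4
  refine ⟨E, le_iff_fmap.2 hE2, ⟨hE1, _, h2, h3⟩, ?_⟩
  by_contra h
  push Not at h
  exact hE3 (isInner_iff.1 h)

end Cfsg.Agent.S5332
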