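import Cfsg.Statements.S5521
import Cfsg.Agent.Lib.GolayM24

set_option autoImplicit false
open Cfsg

namespace Cfsg.Agent.S5521

/-- The Mathieu group M₂₄ in its natural action on the 24 coordinate positions of the binary Golay code has minimal base size exactly 7: every set of at most 6 positions is fixed pointwise by some non-identity element of M₂₄, while some set of 7 positions is fixed pointwise only by the identity. -/
theorem result :
    (∀ B : Finset Cfsg.GolayPt, B.card ≤ 6 → ∃ g ∈ Cfsg.M24, g ≠ 1 ∧ ∀ b ∈ B, g b = b) ∧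
    (∃ B : Finset Cfsg.GolayPt, B.card = 7 ∧ ∀ g ∈ Cfsg.M24, (∀ b ∈ B, g b = b) → g = 1) := by
  classical
  have hcardpt : Fintype.card Cfsg.GolayPt = 24 := Cfsg.Agent.Lib.Golay.card_pt
  refine ⟨fun B hB => ?_, ?_⟩
  · -- extend to a set of size 6 and count
    obtain ⟨C, hBC, hC⟩ : ∃ C : Finset Cfsg.GolayPt, B ⊆ C ∧ C.card = 6 := by
      obtain ⟨C, h1, _, h2⟩ := Finset.exists_subsuperset_card_eq (Finset.subset_univ B) hB
        (by rw [Finset.card_univ, hcardpt]; norm_num)
      exact ⟨C, h1, h2⟩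
    let x : Fin 6 ↪ Cfsg.GolayPt :=
      ⟨fun i => ((C.equivFinOfCardEq hC).symm i : Cfsg.GolayPt),
        fun i j hij => (C.equivFinOfCardEq hC).symm.injective (Subtype.ext hij)⟩
    have hne : ¬ Function.Injective (fun g : Cfsg.M24 => x.trans (g : Equiv.Perm Cfsg.GolayPt).toEmbedding) := by
      intro hinj
      have h1 := Nat.card_le_card_of_injective _ hinj
      rw [Cfsg.Agent.Lib.Golay.natCard_M24, Nat.card_eq_fintype_card, Fintype.card_embedding_eq, hcardpt,
        Fintype.card_fin] at h1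
      norm_num [Nat.descFactorial] at h1
    simp only [Function.Injective, not_forall] at hne
    obtain ⟨g, h, hgh, hne⟩ := hne
    refine ⟨(g : Equiv.Perm Cfsg.GolayPt)⁻¹ * h, Cfsg.M24.mul_mem (Cfsg.M24.inv_mem g.2) h.2, ?_, ?_⟩
    · intro h1
      apply hne
      exact Subtype.ext (inv_mul_eq_one.1 h1)
    · intro b hb
      have hb' := hBC hb
      have h2 := DFunLike.congr_fun hgh (C.equivFinOfCardEq hC ⟨b, hb'⟩)
      have hx : x (C.equivFinOfCardEq hC ⟨b, hb'⟩) = b := by
        change ((C.equivFinOfCardEq hC).symm (C.equivFinOfCardEq hC ⟨b, hb'⟩) : Cfsg.GolayPt) = b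
        rw [Equiv.symm_apply_apply]
      simp only [Function.Embedding.trans_apply, Equiv.toEmbedding_apply, hx] at h2
      rw [Equiv.Perm.mul_apply, ← h2]
      exact Equiv.symm_apply_apply _ _
  · refine ⟨Cfsg.Agent.Lib.Golay.mset 8388671, ?_, ?_⟩
    · decide +kernel
    · intro g hg hb
      have hm : ∀ n ∈ [23, 0, 1, 2, 3, 5, 4], Cfsg.Agent.Lib.Golay.pt n ∈ Cfsg.Agent.Lib.Golay.mset 8388671 := by
        decide +kernel
      exact Cfsg.Agent.Lib.Golay.base_fix hg (hb _ (hm 23 (by simp))) (hb _ (hm 0 (by simp)))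
        (hb _ (hm 1 (by simp))) (hb _ (hm 2 (by simp))) (hb _ (hm 3 (by simp))) (hb _ (hm 5 (by simp)))
        (hb _ (hm 4 (by simp)))

end Cfsg.Agent.S5521
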