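import Cfsg.Statements.S5529
import Cfsg.Agent.Lib.M23Gen

set_option autoImplicit false
open Cfsg

namespace Cfsg.Agent.S5529

/-- Generation of the Mathieu group M₂₃ (the stabiliser of a point in the Mathieu group M₂₄ acting on 24 points) by triples of prime orders. Let p ≤ q ≤ r be primes dividing |M₂₃| = 10200960 = 2⁷·3²·5·7·11·23, not both p and q equal to 2. Then M₂₃ contains elements x, y, z of orders p, q, r with xyz = 1 and ⟨x, y⟩ = M₂₃ if and only if (p, q, r) is none of: (2, 3, r) for any r, (2, 5, 5), (2, 5, 7), (3, 3, 3), (3, 3, 5), (3, 3, 7). -/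
theorem result (p q r : ℕ) (hp : p.Prime) (hq : q.Prime)
    (hr : r.Prime) (hpq : p ≤ q) (hqr : q ≤ r) (hp2 : ¬ (p = 2 ∧ q = 2))
    (hdvd : p ∣ 10200960 ∧ q ∣ 10200960 ∧ r ∣ 10200960) :
    (∃ x y z : Cfsg.Spor.M23, orderOf x = p ∧ orderOf y = q ∧ orderOf z = r ∧ x * y * z = 1 ∧
        Subgroup.closure {x, y} = ⊤) ↔
      ¬ ((p = 2 ∧ q = 3) ∨ (p = 2 ∧ q = 5 ∧ r = 5) ∨ (p = 2 ∧ q = 5 ∧ r = 7) ∨ (p = 3 ∧ q = 3 ∧ r ≤ 7)) := by
  have hprimes : ∀ n : ℕ, n.Prime → n ∣ 10200960 → n = 2 ∨ n = 3 ∨ n = 5 ∨ n = 7 ∨ n = 11 ∨ n = 23 := by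
    intro n hn hd
    have e : (10200960 : ℕ) = 2 ^ 7 * (3 ^ 2 * (5 * (7 * (11 * 23)))) := by norm_num
    rw [e, hn.dvd_mul, hn.dvd_mul, hn.dvd_mul, hn.dvd_mul, hn.dvd_mul] at hd
    rcases hd with h | h | h | h | h | h
    · left; exact (Nat.prime_dvd_prime_iff_eq hn (by norm_num)).1 (hn.dvd_of_dvd_pow h)
    · right; left; exact (Nat.prime_dvd_prime_iff_eq hn (by norm_num)).1 (hn.dvd_of_dvd_pow h)
    · right; right; left; exact (Nat.prime_dvd_prime_iff_eq hn (by norm_num)).1 h
    · right; right; right; left; exact (Nat.prime_dvd_prime_iff_eq hn (by norm_num)).1 h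
    · right; right; right; right; left; exact (Nat.prime_dvd_prime_iff_eq hn (by norm_num)).1 h
    · right; right; right; right; right; exact (Nat.prime_dvd_prime_iff_eq hn (by norm_num)).1 h
  constructor
  · rintro ⟨x, y, z, hx, hy, hz, hxyz, hgen⟩
    refine Lib.M23Tri.no_triple (x : Equiv.Perm GolayPt) y z x.2 y.2 (congrArg Subtype.val hxyz) ?_ p q r ?_ ?_ ?_
      (hprimes r hr hdvd.2.2) hqr
    · have h := congrArg (Subgroup.map Cfsg.Spor.M23.subtype) hgen
      rw [MonoidHom.map_closure, Set.image_pair, ← MonoidHom.range_eq_map, Subgroup.range_subtype] at h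
      exact h
    · rw [Subgroup.orderOf_coe]; exact hx
    · rw [Subgroup.orderOf_coe]; exact hy
    · rw [Subgroup.orderOf_coe]; exact hz
  · intro hne
    suffices h : ∃ X Y : Equiv.Perm GolayPt, X ∈ Lib.PSL23.M23P ∧ Y ∈ Lib.PSL23.M23P ∧ orderOf X = p ∧
        orderOf Y = q ∧ orderOf (X * Y) = r ∧ Subgroup.closure {X, Y} = Lib.PSL23.M23P by
      obtain ⟨X, Y, hX, hY, h1, h2, h3, h4⟩ := h
      refine ⟨⟨X, hX⟩, ⟨Y, hY⟩, (⟨X, hX⟩ * ⟨Y, hY⟩)⁻¹, ?_, ?_, ?_, ?_, ?_⟩
      · rw [← Subgroup.orderOf_coe]; exact h1
      · rw [← Subgroup.orderOf_coe]; exact h2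
      · rw [orderOf_inv, ← Subgroup.orderOf_coe]; exact h3
      · rw [mul_inv_cancel]
      · apply Subgroup.map_injective (Cfsg.Spor.M23.subtype_injective)
        rw [MonoidHom.map_closure, Set.image_pair, ← MonoidHom.range_eq_map, Subgroup.range_subtype]
        exact h4
    rcases hprimes p hp hdvd.1 with rfl | rfl | rfl | rfl | rfl | rfl
    · rcases hprimes q hq hdvd.2.1 with rfl | rfl | rfl | rfl | rfl | rfl
      · exact absurd ⟨rfl, rfl⟩ hp2
      · rcases hprimes r hr hdvd.2.2 with rfl | rfl | rfl | rfl | rfl | rfl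
        · exact absurd hqr (by norm_num)
        · exact absurd (by norm_num) hne
        · exact absurd (by norm_num) hne
        · exact absurd (by norm_num) hne
        · exact absurd (by norm_num) hne
        · exact absurd (by norm_num) hne
      · rcases hprimes r hr hdvd.2.2 with rfl | rfl | rfl | rfl | rfl | rfl
        · exact absurd hqr (by norm_num)
        · exact absurd hqr (by norm_num)
        · exact absurd (by norm_num) hne
        · exact absurd (by norm_num) hne
        · exact Lib.M23Tri.cert_sound hp hq hr Lib.M23Tri.ok_2_5_11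
        · exact Lib.M23Tri.cert_sound hp hq hr Lib.M23Tri.ok_2_5_23
      · rcases hprimes r hr hdvd.2.2 with rfl | rfl | rfl | rfl | rfl | rfl
        · exact absurd hqr (by norm_num)
        · exact absurd hqr (by norm_num)
        · exact absurd hqr (by norm_num)
        · exact Lib.M23Tri.cert_sound hp hq hr Lib.M23Tri.ok_2_7_7
        · exact Lib.M23Tri.cert_sound hp hq hr Lib.M23Tri.ok_2_7_11
        · exact Lib.M23Tri.cert_sound hp hq hr Lib.M23Tri.ok_2_7_23
      · rcases hprimes r hr hdvd.2.2 with rfl | rfl | rfl | rfl | rfl | rfl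
        · exact absurd hqr (by norm_num)
        · exact absurd hqr (by norm_num)
        · exact absurd hqr (by norm_num)
        · exact absurd hqr (by norm_num)
        · exact Lib.M23Tri.cert_sound hp hq hr Lib.M23Tri.ok_2_11_11
        · exact Lib.M23Tri.cert_sound hp hq hr Lib.M23Tri.ok_2_11_23
      · rcases hprimes r hr hdvd.2.2 with rfl | rfl | rfl | rfl | rfl | rfl
        · exact absurd hqr (by norm_num)
        · exact absurd hqr (by norm_num)
        · exact absurd hqr (by norm_num)
        · exact absurd hqr (by norm_num)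
        · exact absurd hqr (by norm_num)
        · exact Lib.M23Tri.cert_sound hp hq hr Lib.M23Tri.ok_2_23_23
    · rcases hprimes q hq hdvd.2.1 with rfl | rfl | rfl | rfl | rfl | rfl
      · exact absurd hpq (by norm_num)
      · rcases hprimes r hr hdvd.2.2 with rfl | rfl | rfl | rfl | rfl | rfl
        · exact absurd hqr (by norm_num)
        · exact absurd (by norm_num) hne
        · exact absurd (by norm_num) hne
        · exact absurd (by norm_num) hne
        · exact Lib.M23Tri.cert_sound hp hq hr Lib.M23Tri.ok_3_3_11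
        · exact Lib.M23Tri.cert_sound hp hq hr Lib.M23Tri.ok_3_3_23
      · rcases hprimes r hr hdvd.2.2 with rfl | rfl | rfl | rfl | rfl | rfl
        · exact absurd hqr (by norm_num)
        · exact absurd hqr (by norm_num)
        · exact Lib.M23Tri.cert_sound hp hq hr Lib.M23Tri.ok_3_5_5
        · exact Lib.M23Tri.cert_sound hp hq hr Lib.M23Tri.ok_3_5_7
        · exact Lib.M23Tri.cert_sound hp hq hr Lib.M23Tri.ok_3_5_11
        · exact Lib.M23Tri.cert_sound hp hq hr Lib.M23Tri.ok_3_5_23
      · rcases hprimes r hr hdvd.2.2 with rfl | rfl | rfl | rfl | rfl | rfl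
        · exact absurd hqr (by norm_num)
        · exact absurd hqr (by norm_num)
        · exact absurd hqr (by norm_num)
        · exact Lib.M23Tri.cert_sound hp hq hr Lib.M23Tri.ok_3_7_7
        · exact Lib.M23Tri.cert_sound hp hq hr Lib.M23Tri.ok_3_7_11
        · exact Lib.M23Tri.cert_sound hp hq hr Lib.M23Tri.ok_3_7_23
      · rcases hprimes r hr hdvd.2.2 with rfl | rfl | rfl | rfl | rfl | rfl
        · exact absurd hqr (by norm_num)
        · exact absurd hqr (by norm_num)
        · exact absurd hqr (by norm_num)
        · exact absurd hqr (by norm_num)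
        · exact Lib.M23Tri.cert_sound hp hq hr Lib.M23Tri.ok_3_11_11
        · exact Lib.M23Tri.cert_sound hp hq hr Lib.M23Tri.ok_3_11_23
      · rcases hprimes r hr hdvd.2.2 with rfl | rfl | rfl | rfl | rfl | rfl
        · exact absurd hqr (by norm_num)
        · exact absurd hqr (by norm_num)
        · exact absurd hqr (by norm_num)
        · exact absurd hqr (by norm_num)
        · exact absurd hqr (by norm_num)
        · exact Lib.M23Tri.cert_sound hp hq hr Lib.M23Tri.ok_3_23_23
    · rcases hprimes q hq hdvd.2.1 with rfl | rfl | rfl | rfl | rfl | rfl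
      · exact absurd hpq (by norm_num)
      · exact absurd hpq (by norm_num)
      · rcases hprimes r hr hdvd.2.2 with rfl | rfl | rfl | rfl | rfl | rfl
        · exact absurd hqr (by norm_num)
        · exact absurd hqr (by norm_num)
        · exact Lib.M23Tri.cert_sound hp hq hr Lib.M23Tri.ok_5_5_5
        · exact Lib.M23Tri.cert_sound hp hq hr Lib.M23Tri.ok_5_5_7
        · exact Lib.M23Tri.cert_sound hp hq hr Lib.M23Tri.ok_5_5_11
        · exact Lib.M23Tri.cert_sound hp hq hr Lib.M23Tri.ok_5_5_23
      · rcases hprimes r hr hdvd.2.2 with rfl | rfl | rfl | rfl | rfl | rfl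
        · exact absurd hqr (by norm_num)
        · exact absurd hqr (by norm_num)
        · exact absurd hqr (by norm_num)
        · exact Lib.M23Tri.cert_sound hp hq hr Lib.M23Tri.ok_5_7_7
        · exact Lib.M23Tri.cert_sound hp hq hr Lib.M23Tri.ok_5_7_11
        · exact Lib.M23Tri.cert_sound hp hq hr Lib.M23Tri.ok_5_7_23
      · rcases hprimes r hr hdvd.2.2 with rfl | rfl | rfl | rfl | rfl | rfl
        · exact absurd hqr (by norm_num)
        · exact absurd hqr (by norm_num)
        · exact absurd hqr (by norm_num)
        · exact absurd hqr (by norm_num)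
        · exact Lib.M23Tri.cert_sound hp hq hr Lib.M23Tri.ok_5_11_11
        · exact Lib.M23Tri.cert_sound hp hq hr Lib.M23Tri.ok_5_11_23
      · rcases hprimes r hr hdvd.2.2 with rfl | rfl | rfl | rfl | rfl | rfl
        · exact absurd hqr (by norm_num)
        · exact absurd hqr (by norm_num)
        · exact absurd hqr (by norm_num)
        · exact absurd hqr (by norm_num)
        · exact absurd hqr (by norm_num)
        · exact Lib.M23Tri.cert_sound hp hq hr Lib.M23Tri.ok_5_23_23
    · rcases hprimes q hq hdvd.2.1 with rfl | rfl | rfl | rfl | rfl | rfl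
      · exact absurd hpq (by norm_num)
      · exact absurd hpq (by norm_num)
      · exact absurd hpq (by norm_num)
      · rcases hprimes r hr hdvd.2.2 with rfl | rfl | rfl | rfl | rfl | rfl
        · exact absurd hqr (by norm_num)
        · exact absurd hqr (by norm_num)
        · exact absurd hqr (by norm_num)
        · exact Lib.M23Tri.cert_sound hp hq hr Lib.M23Tri.ok_7_7_7
        · exact Lib.M23Tri.cert_sound hp hq hr Lib.M23Tri.ok_7_7_11
        · exact Lib.M23Tri.cert_sound hp hq hr Lib.M23Tri.ok_7_7_23
      · rcases hprimes r hr hdvd.2.2 with rfl | rfl | rfl | rfl | rfl | rfl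
        · exact absurd hqr (by norm_num)
        · exact absurd hqr (by norm_num)
        · exact absurd hqr (by norm_num)
        · exact absurd hqr (by norm_num)
        · exact Lib.M23Tri.cert_sound hp hq hr Lib.M23Tri.ok_7_11_11
        · exact Lib.M23Tri.cert_sound hp hq hr Lib.M23Tri.ok_7_11_23
      · rcases hprimes r hr hdvd.2.2 with rfl | rfl | rfl | rfl | rfl | rfl
        · exact absurd hqr (by norm_num)
        · exact absurd hqr (by norm_num)
        · exact absurd hqr (by norm_num)
        · exact absurd hqr (by norm_num)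
        · exact absurd hqr (by norm_num)
        · exact Lib.M23Tri.cert_sound hp hq hr Lib.M23Tri.ok_7_23_23
    · rcases hprimes q hq hdvd.2.1 with rfl | rfl | rfl | rfl | rfl | rfl
      · exact absurd hpq (by norm_num)
      · exact absurd hpq (by norm_num)
      · exact absurd hpq (by norm_num)
      · exact absurd hpq (by norm_num)
      · rcases hprimes r hr hdvd.2.2 with rfl | rfl | rfl | rfl | rfl | rfl
        · exact absurd hqr (by norm_num)
        · exact absurd hqr (by norm_num)
        · exact absurd hqr (by norm_num)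
        · exact absurd hqr (by norm_num)
        · exact Lib.M23Tri.cert_sound hp hq hr Lib.M23Tri.ok_11_11_11
        · exact Lib.M23Tri.cert_sound hp hq hr Lib.M23Tri.ok_11_11_23
      · rcases hprimes r hr hdvd.2.2 with rfl | rfl | rfl | rfl | rfl | rfl
        · exact absurd hqr (by norm_num)
        · exact absurd hqr (by norm_num)
        · exact absurd hqr (by norm_num)
        · exact absurd hqr (by norm_num)
        · exact absurd hqr (by norm_num)
        · exact Lib.M23Tri.cert_sound hp hq hr Lib.M23Tri.ok_11_23_23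
    · rcases hprimes q hq hdvd.2.1 with rfl | rfl | rfl | rfl | rfl | rfl
      · exact absurd hpq (by norm_num)
      · exact absurd hpq (by norm_num)
      · exact absurd hpq (by norm_num)
      · exact absurd hpq (by norm_num)
      · exact absurd hpq (by norm_num)
      · rcases hprimes r hr hdvd.2.2 with rfl | rfl | rfl | rfl | rfl | rfl
        · exact absurd hqr (by norm_num)
        · exact absurd hqr (by norm_num)
        · exact absurd hqr (by norm_num)
        · exact absurd hqr (by norm_num)
        · exact absurd hqr (by norm_num)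
        · exact Lib.M23Tri.cert_sound hp hq hr Lib.M23Tri.ok_23_23_23

end Cfsg.Agent.S5529
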