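import Cfsg.Statements.S5562
import Cfsg.Agent.Lib.OddProducts

set_option autoImplicit false
open Cfsg

namespace Cfsg.Agent.S5562

open Cfsg.Agent.Lib.OddProducts

theorem result {G : Type*} [Group G] [Finite G] (d : G) (hd : orderOf d = 2)
    (hodd : ∀ a ∈ conjugatesOf d, ∀ b ∈ conjugatesOf d, Odd (orderOf (a * b)))
    (x : G) (hx : orderOf x = 2) :
    ∀ e ∈ conjugatesOf d,
      ∃! a : G, a ∈ conjugatesOf d ∧ Commute a x ∧ Commute e (a * x) := by
  intro e he
  have hdd : d * d = 1 := by rw [← pow_two, ← hd, pow_orderOf_eq_one]
  have hxx : x * x = 1 := by rw [← pow_two, ← hx, pow_orderOf_eq_one]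
  have hxi : x⁻¹ = x := inv_eq hxx
  have hee : e * e = 1 := sq_one hdd he
  -- reformulation
  have key : ∀ a : G, a * a = 1 → Commute a x → (Commute e (a * x) ↔ a * e * a = x * e * x) := by
    intro a ha hax
    constructor
    · intro h
      have h1 : e * (a * x) = a * x * e := h
      calc a * e * a = a * (e * (a * x)) * x := by
            simp only [mul_assoc, hxx, mul_one]
        _ = a * (a * x * e) * x := by rw [h1]
        _ = (a * a) * x * e * x := by group
        _ = x * e * x := by rw [ha, one_mul]
    · intro h
      show e * (a * x) = a * x * e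
      have h1 : a * x = x * a := hax
      calc e * (a * x) = a * (a * e * a) * x := by
            simp only [← mul_assoc, ha, one_mul]
        _ = a * (x * e * x) * x := by rw [h]
        _ = a * x * e * (x * x) := by group
        _ = a * x * e := by rw [hxx, mul_one]
  have hf : x * e * x ∈ conjugatesOf d := by
    have := mem_conj x he
    rwa [hxi] at this
  have hff : (x * e * x) * (x * e * x) = 1 := sq_one hdd hf
  obtain ⟨a, ha, haf⟩ := midpoint_exists hee hff (hodd e he _ hf)
  have haD : a ∈ conjugatesOf d := he.trans ha
  have haa : a * a = 1 := sq_one hdd haD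
  -- a commutes with x
  have hx' : x * a * x ∈ conjugatesOf d := by
    have := mem_conj x haD
    rwa [hxi] at this
  have hx'' : (x * a * x) * (x * a * x) = 1 := sq_one hdd hx'
  have hcomm : x * a * x = a := by
    refine midpoint_unique hx'' haa hee (hodd _ hx' _ haD) (hodd _ he _ hx') ?_
    -- (x a x) e (x a x) = a e a = x e x
    rw [haf]
    have h2 : a * (x * e * x) * a = e := by
      rw [← haf]
      calc a * (a * e * a) * a = (a * a) * e * (a * a) := by group
        _ = e := by rw [haa]; group
    calc x * a * x * e * (x * a * x) = x * (a * (x * e * x) * a) * x := by group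
      _ = x * e * x := by rw [h2]
  have hax : Commute a x := by
    show a * x = x * a
    calc a * x = (x * a * x) * x := by rw [hcomm]
      _ = x * a * (x * x) := by group
      _ = x * a := by rw [hxx, mul_one]
  refine ⟨a, ⟨haD, hax, (key a haa hax).2 haf⟩, ?_⟩
  rintro b ⟨hb, hbx, hbe⟩
  have hbb : b * b = 1 := sq_one hdd hb
  have h3 := (key b hbb hbx).1 hbe
  exact midpoint_unique hbb haa hee (hodd _ hb _ haD) (hodd _ he _ hb) (h3.trans haf.symm)

end Cfsg.Agent.S5562
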