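import Cfsg.Statements.S5712
import Cfsg.Agent.Lib.SpOvK

set_option autoImplicit false
open Cfsg

namespace Cfsg.Agent.S5712

open Cfsg.Agent.Lib.SpTrans (isom)
open Cfsg.Agent.Lib.Quad (toLE toLE_apply mem_isometryGroup_iff_toLE mov)
open Cfsg.Agent.Lib Cfsg.Agent.Lib.SpOv98
open Matrix

theorem mem_pres {F : Type*} [Field F] {n : ℕ} (h2 : (2 : F) = 0)
    (g : GL (Fin n ⊕ Fin n) F) :
    g ∈ Cfsg.preserving (Units.coeHom (Matrix (Fin n ⊕ Fin n) (Fin n ⊕ Fin n) F))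
      (fun u v : (Fin n ⊕ Fin n → F) => ∑ i : Fin n, (u (Sum.inl i) * v (Sum.inr i) +
        u (Sum.inr i) * v (Sum.inl i))) ↔
    toLE g ∈ isom (fun x y => ClIso.sympForm (Fin n) F x y) := by
  constructor
  · intro h u v
    show ClIso.sympForm (Fin n) F ((g : Matrix _ _ F) *ᵥ u) ((g : Matrix _ _ F) *ᵥ v) =
      ClIso.sympForm (Fin n) F u v
    rw [sympForm_char_two h2, sympForm_char_two h2]
    exact h u v
  · intro h u v
    have h1 : ClIso.sympForm (Fin n) F ((g : Matrix _ _ F) *ᵥ u) ((g : Matrix _ _ F) *ᵥ v) =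
      ClIso.sympForm (Fin n) F u v := h u v
    rw [sympForm_char_two h2, sympForm_char_two h2] at h1
    exact h1

/-- Let F be a finite field of characteristic two, n ≥ 2, V = F^{2n} with the non-degenerate alternating form f(u, v) = Σ (u_i v_{n+i} + u_{n+i} v_i), and G the group of invertible matrices preserving f. Let a ≠ 0 be a vector, H its stabilizer in G, and X a subgroup of O₂(H) of order |F|^{2n−2} no element of which is a transvection (no element g has g − 1 of rank one). If L is a subgroup of G containing X that acts irreducibly on V (no proper non-zero L-invariant subspace), then L = G, or, for some quadratic form Q on V whose polar form is f, L is the isometry group of Q or its subgroup of the isometries g for which g − 1 has even rank, or |F| = 2, n = 2 and L is isomorphic to the alternating group of degree 6 or to the symmetric group of degree 5. -/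
theorem result {F : Type*} [Field F] [Fintype F] [CharP F 2] {n : ℕ} (hn : 2 ≤ n) (a : (Fin n ⊕ Fin n → F)) (ha : a ≠ 0)
    (X : Subgroup (GL (Fin n ⊕ Fin n) F)) (hXG : X ≤ Cfsg.preserving (Units.coeHom (Matrix (Fin n ⊕ Fin n) (Fin n ⊕ Fin n) F)) (fun u v : (Fin n ⊕ Fin n → F) => ∑ i : Fin n, (u (Sum.inl i) * v (Sum.inr i) + u (Sum.inr i) * v (Sum.inl i))))
    (hXO : ∀ H : Subgroup (GL (Fin n ⊕ Fin n) F),
      (∀ g : GL (Fin n ⊕ Fin n) F, g ∈ H ↔ (g ∈ Cfsg.preserving (Units.coeHom (Matrix (Fin n ⊕ Fin n) (Fin n ⊕ Fin n) F)) (fun u v : (Fin n ⊕ Fin n → F) => ∑ i : Fin n, (u (Sum.inl i) * v (Sum.inr i) + u (Sum.inr i) * v (Sum.inl i))) ∧ Matrix.mulVec (g : Matrix (Fin n ⊕ Fin n) (Fin n ⊕ Fin n) F) a = a)) →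
      X ≤ (Cfsg.pCore 2 ↥H).map H.subtype)
    (hcard : Nat.card ↥X = Fintype.card F ^ (2 * n - 2))
    (hntv : ∀ x ∈ X, ((x : Matrix (Fin n ⊕ Fin n) (Fin n ⊕ Fin n) F) - 1).rank ≠ 1)
    (L : Subgroup (GL (Fin n ⊕ Fin n) F)) (hXL : X ≤ L) (hLG : L ≤ Cfsg.preserving (Units.coeHom (Matrix (Fin n ⊕ Fin n) (Fin n ⊕ Fin n) F)) (fun u v : (Fin n ⊕ Fin n → F) => ∑ i : Fin n, (u (Sum.inl i) * v (Sum.inr i) + u (Sum.inr i) * v (Sum.inl i))))
    (hirr : ∀ W : Submodule F (Fin n ⊕ Fin n → F), (∀ g ∈ L, ∀ w ∈ W, Matrix.mulVec (g : Matrix (Fin n ⊕ Fin n) (Fin n ⊕ Fin n) F) w ∈ W) → W = ⊥ ∨ W = ⊤) :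
    L = Cfsg.preserving (Units.coeHom (Matrix (Fin n ⊕ Fin n) (Fin n ⊕ Fin n) F)) (fun u v : (Fin n ⊕ Fin n → F) => ∑ i : Fin n, (u (Sum.inl i) * v (Sum.inr i) + u (Sum.inr i) * v (Sum.inl i))) ∨
    (∃ Q : QuadraticForm F (Fin n ⊕ Fin n → F), (∀ u v, QuadraticMap.polar ⇑Q u v = (fun u v : (Fin n ⊕ Fin n → F) => ∑ i : Fin n, (u (Sum.inl i) * v (Sum.inr i) + u (Sum.inr i) * v (Sum.inl i))) u v) ∧
      (L = Cfsg.isometryGroup F ⇑Q ∨
        ∀ g : GL (Fin n ⊕ Fin n) F, g ∈ L ↔ (g ∈ Cfsg.isometryGroup F ⇑Q ∧ Even ((g : Matrix (Fin n ⊕ Fin n) (Fin n ⊕ Fin n) F) - 1).rank))) ∨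
    (Fintype.card F = 2 ∧ n = 2 ∧ (Nonempty (↥L ≃* ↥(alternatingGroup (Fin 6))) ∨ Nonempty (↥L ≃* Equiv.Perm (Fin 5)))) := by
  classical
  have h2 : (2 : F) = 0 := CharTwo.two_eq_zero
  obtain ⟨B, hB⟩ : ∃ B : (Fin n ⊕ Fin n → F) →ₗ[F] (Fin n ⊕ Fin n → F) →ₗ[F] F,
    B = ClIso.sympForm (Fin n) F := ⟨_, rfl⟩
  have hsymp := ClSymp2.isSymp_sympForm (l := Fin n) (F := F)
  rw [← hB] at hsymp
  have hBf : ∀ u v, B u v = ∑ i : Fin n, (u (Sum.inl i) * v (Sum.inr i) +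
      u (Sum.inr i) * v (Sum.inl i)) := by
    intro u v
    rw [hB]; exact sympForm_char_two h2 u v
  have hmem : ∀ g : GL (Fin n ⊕ Fin n) F,
      g ∈ Cfsg.preserving (Units.coeHom (Matrix (Fin n ⊕ Fin n) (Fin n ⊕ Fin n) F))
      (fun u v : (Fin n ⊕ Fin n → F) => ∑ i : Fin n, (u (Sum.inl i) * v (Sum.inr i) +
        u (Sum.inr i) * v (Sum.inl i))) ↔ toLE g ∈ isom (fun x y => B x y) := by
    intro g
    rw [hB]; exact mem_pres h2 g
  have hnd : ∀ x, (∀ y, B x y = 0) → x = 0 := by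
    intro x hx
    by_contra hne
    obtain ⟨v, hv⟩ := hsymp.nondeg x hne
    exact hv (hx v)
  have mkA : ∀ K : Subgroup ((Fin n ⊕ Fin n → F) ≃ₗ[F] (Fin n ⊕ Fin n → F)),
      K ≤ isom (fun x y => B x y) → Amb B K := fun K hK => ⟨h2, hsymp.alt, hnd, hK⟩
  have hdim : Module.finrank F (Fin n ⊕ Fin n → F) = 2 * n := by
    rw [Module.finrank_fintype_fun_eq_card]
    simp
    ring
  -- the group `L`
  obtain ⟨L', hL'⟩ : ∃ L', L' = L.map (toLE (ι := Fin n ⊕ Fin n) (F := F)).toMonoidHom := ⟨_, rfl⟩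
  have memL : ∀ g, g ∈ L ↔ toLE g ∈ L' := by
    intro g
    rw [hL']
    constructor
    · intro h; exact ⟨g, h, rfl⟩
    · rintro ⟨k, hk, e⟩
      have : k = g := toLE.injective e
      rw [← this]; exact hk
  have hL'le : L' ≤ isom (fun x y => B x y) := by
    rw [hL']
    rintro _ ⟨g, hg, rfl⟩
    exact (hmem g).1 (hLG hg)
  have hA : Amb B L' := mkA L' hL'le
  have hirr' : Irr L' := by
    intro W hW
    apply hirr W
    intro g hg w hw
    exact hW _ ((memL g).1 hg) w hw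
  -- the stabilizer
  let H : Subgroup (GL (Fin n ⊕ Fin n) F) :=
    (isom (fun x y => B x y) ⊓ MulAction.stabilizer _ a).comap
      (toLE (ι := Fin n ⊕ Fin n) (F := F)).toMonoidHom
  have hH : ∀ g : GL (Fin n ⊕ Fin n) F, g ∈ H ↔ (g ∈ Cfsg.preserving
      (Units.coeHom (Matrix (Fin n ⊕ Fin n) (Fin n ⊕ Fin n) F))
      (fun u v : (Fin n ⊕ Fin n → F) => ∑ i : Fin n, (u (Sum.inl i) * v (Sum.inr i) +
        u (Sum.inr i) * v (Sum.inl i))) ∧
      Matrix.mulVec (g : Matrix (Fin n ⊕ Fin n) (Fin n ⊕ Fin n) F) a = a) := by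
    intro g
    rw [hmem g]
    exact Iff.rfl
  have hXP := hXO H hH
  obtain ⟨P, hP⟩ : ∃ P, P = ((Cfsg.pCore 2 ↥H).map H.subtype).map
    (toLE (ι := Fin n ⊕ Fin n) (F := F)).toMonoidHom := ⟨_, rfl⟩
  have hPmem : ∀ x ∈ P, ∃ y : H, y ∈ Cfsg.pCore 2 ↥H ∧ toLE (y : GL (Fin n ⊕ Fin n) F) = x := by
    rw [hP]
    rintro _ ⟨_, ⟨y, hy, rfl⟩, rfl⟩
    exact ⟨y, hy, rfl⟩
  have hPle : P ≤ isom (fun x y => B x y) := by
    intro x hx
    obtain ⟨y, _, rfl⟩ := hPmem x hx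
    exact y.2.1
  have hPfix : ∀ x ∈ P, x a = a := by
    intro x hx
    obtain ⟨y, _, rfl⟩ := hPmem x hx
    exact y.2.2
  have hPp : IsPGroup 2 P := by
    rw [hP]
    exact (CFCore.pCore_isPGroup.map _).map _
  have halt : LinearMap.IsAlt B := fun x => hsymp.alt x
  have hnorm : ∀ c, B a c = 0 → ∃ t : (Fin n ⊕ Fin n → F) ≃ₗ[F] (Fin n ⊕ Fin n → F),
      (∀ v, t v = v + B v c • c) ∧ ∀ x ∈ P, t⁻¹ * x * t ∈ P := by
    intro c hc
    refine ⟨SpTrans.tv B halt c 1, fun v => by rw [SpTrans.tv_apply, one_mul], fun x hx => ?_⟩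
    obtain ⟨y, hy, rfl⟩ := hPmem x hx
    obtain ⟨t0, ht0⟩ : ∃ t0, toLE t0 = SpTrans.tv B halt c 1 :=
      ⟨toLE.symm (SpTrans.tv B halt c 1), MulEquiv.apply_symm_apply _ _⟩
    have ht0H : t0 ∈ H := by
      refine ⟨?_, ?_⟩
      · show toLE t0 ∈ _
        rw [ht0]
        exact SpTrans.tv_mem_isom halt c 1
      · show toLE t0 a = a
        rw [ht0, SpTrans.tv_apply, hc]
        simp
    haveI := CFCore.pCore_normal 2 ↥H
    have h3 := (CFCore.pCore_normal 2 ↥H).conj_mem y hy (⟨t0, ht0H⟩⁻¹ : H)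
    rw [hP]
    refine ⟨_, ⟨_, h3, rfl⟩, ?_⟩
    rw [← ht0]
    show toLE ((((⟨t0, ht0H⟩⁻¹ : H) * y * (⟨t0, ht0H⟩⁻¹ : H)⁻¹ : H)) : GL (Fin n ⊕ Fin n) F) = _
    rw [inv_inv, Subgroup.coe_mul, Subgroup.coe_mul, Subgroup.coe_inv, map_mul, map_mul, map_inv]
  have hAP : Amb B P := mkA P hPle
  -- the group `X`
  obtain ⟨X', hX'⟩ : ∃ X', X' = X.map (toLE (ι := Fin n ⊕ Fin n) (F := F)).toMonoidHom := ⟨_, rfl⟩
  have hX'P : X' ≤ P := by
    rw [hX', hP]
    exact Subgroup.map_mono hXP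
  have hX'L : X' ≤ L' := by
    rw [hX', hL']
    exact Subgroup.map_mono hXL
  obtain ⟨φ, hφ⟩ := exists_dat hA ha hX'L (fun x hx => hPfix x (hX'P hx))
    (fun x hx v hv => core_lemma hAP (by omega) hPp ha hPfix hnorm (hX'P hx) hv)
    (by
      rintro c ⟨g, hg, e⟩
      by_contra hc
      rw [hX'] at hg
      obtain ⟨x, hx, rfl⟩ := hg
      apply hntv x hx
      rw [rank_eq]
      have h3 : mov (toLE x) = Submodule.span F {a} := by
        apply le_antisymm
        · rintro _ ⟨v, rfl⟩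
          show toLE x v - v ∈ _
          have e1 : toLE x v = v + B v a • (0 : Fin n ⊕ Fin n → F) + (B v 0 + c * B v a) • a := e v
          rw [e1, map_zero, smul_zero, add_zero, zero_add, add_sub_cancel_left]
          exact Submodule.smul_mem _ _ (Submodule.mem_span_singleton_self a)
        · rw [Submodule.span_singleton_le_iff_mem]
          obtain ⟨y, hy⟩ := hA.exists_ne ha
          have hya : B y a = 1 := by rw [hA.symm]; exact hy
          have h4 := Quad.sub_mem_mov (toLE x) y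
          have e1 : toLE x y = y + B y a • (0 : Fin n ⊕ Fin n → F) + (B y 0 + c * B y a) • a := e y
          rw [e1, map_zero, smul_zero, add_zero, zero_add, add_sub_cancel_left, hya, mul_one] at h4
          exact (Submodule.smul_mem_iff _ hc).1 h4
      rw [h3]
      exact finrank_span_singleton ha)
    (by
      rw [hdim, hX', Nat.card_eq_fintype_card (α := F), ← hcard]
      exact (Nat.card_congr (X.equivMapOfInjective _ toLE.injective).toEquiv).symm)
  rcases main_abs hA (by omega) hirr' hφ with h3 | ⟨Q, hp, h3⟩ | ⟨h3, h4, h5, h6⟩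
  · left
    apply le_antisymm hLG
    intro g hg
    exact (memL g).2 (h3 ((hmem g).1 hg))
  · right; left
    refine ⟨Q, fun u v => by rw [hp, hBf], ?_⟩
    rcases h3 with h3 | h3
    · left
      ext g
      rw [memL, h3, mem_isometryGroup_iff_toLE]
    · right
      intro g
      rw [memL, h3, mem_isometryGroup_iff_toLE, rank_eq]
  · right; right
    have hn2 : n = 2 := by omega
    subst hn2
    have hF : Fintype.card F = 2 := by
      rw [← Nat.card_eq_fintype_card, Nat.card_eq_two_iff]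
      refine ⟨0, 1, zero_ne_one, ?_⟩
      ext t
      simp only [Set.mem_insert_iff, Set.mem_singleton_iff, Set.mem_univ, iff_true]
      by_cases ht : t = 0
      · exact Or.inl ht
      · exact Or.inr (h3 t ht)
    refine ⟨hF, rfl, ?_⟩
    have e1 : L ≃* L' := (L.equivMapOfInjective _ toLE.injective).trans
      (MulEquiv.subgroupCongr hL'.symm)
    subst hB
    rcases sp_four hF hA h5 h6 h3 with h7 | h7
    · left
      obtain ⟨e2⟩ := h7
      exact ⟨e1.trans e2⟩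
    · right
      obtain ⟨e2⟩ := h7
      exact ⟨e1.trans e2⟩

end Cfsg.Agent.S5712
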