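import Cfsg.Statements.S5729

set_option autoImplicit false
open Cfsg

namespace Cfsg.Agent.S5729

open MulAction

section
variable {G Ω : Type*} [Group G] [Fintype G] [MulAction G Ω] [Fintype Ω]

/-- Burnside's lemma with `Nat.card`. -/
theorem burnside (G Ω : Type*) [Group G] [Fintype G] [MulAction G Ω] [Finite Ω] :
    ∑ g : G, Nat.card (fixedBy Ω g) = Nat.card (Quotient (orbitRel G Ω)) * Fintype.card G := by
  classical
  have : Fintype Ω := Fintype.ofFinite Ω
  have : Fintype (Quotient (orbitRel G Ω)) := Fintype.ofFinite _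
  have h := MulAction.sum_card_fixedBy_eq_card_orbits_mul_card_group G Ω
  rw [Nat.card_eq_fintype_card, ← h]
  exact Finset.sum_congr rfl (fun g _ => Nat.card_eq_fintype_card)

theorem card_fixedBy_eq [DecidableEq Ω] (g : G) : Nat.card (fixedBy Ω g) = ∑ ω : Ω, if g • ω = ω then 1 else 0 := by
  have h : Nat.card (fixedBy Ω g) = Nat.card {ω : Ω // g • ω = ω} := rfl
  rw [h, Nat.card_eq_fintype_card, Fintype.card_subtype, Finset.card_filter]

/-- `Σ_g π(g)² = Σ_ω Σ_{g ∈ G_ω} π(g)`, expressed through the numbers of orbits of the stabilisers. -/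
theorem sum_sq :
    ∑ g : G, (Nat.card (fixedBy Ω g)) ^ 2 =
      ∑ ω : Ω, Nat.card (Quotient (orbitRel (stabilizer G ω) Ω)) * Nat.card (stabilizer G ω) := by
  classical
  have h1 : ∀ ω : Ω, Nat.card (Quotient (orbitRel (stabilizer G ω) Ω)) * Nat.card (stabilizer G ω) =
      ∑ g : G, if g • ω = ω then Nat.card (fixedBy Ω g) else 0 := by
    intro ω
    have : Fintype (stabilizer G ω) := Fintype.ofFinite _
    rw [Nat.card_eq_fintype_card (α := stabilizer G ω), ← burnside (stabilizer G ω) Ω, ← Finset.sum_filter]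
    have h2 : ∀ x : stabilizer G ω, Nat.card (fixedBy Ω x) = Nat.card (fixedBy Ω (x : G)) := fun x => rfl
    rw [Finset.sum_congr rfl (fun x _ => h2 x)]
    exact (Finset.sum_subtype (Finset.univ.filter (fun g : G => g • ω = ω)) (p := fun g => g ∈ stabilizer G ω)
      (by intro x; simp [mem_stabilizer_iff]) (fun g => Nat.card (fixedBy Ω g))).symm
  rw [Finset.sum_congr rfl (fun ω _ => h1 ω), Finset.sum_comm]
  refine Finset.sum_congr rfl (fun g _ => ?_)
  rw [sq]
  nth_rewrite 1 [card_fixedBy_eq g]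
  rw [Finset.sum_mul]
  refine Finset.sum_congr rfl (fun ω _ => ?_)
  split_ifs <;> simp

theorem card_orbits_eq_one (htr : IsPretransitive G Ω) [Nonempty Ω] : Nat.card (Quotient (orbitRel G Ω)) = 1 := by
  rw [Nat.card_eq_one_iff_unique]
  constructor
  · constructor
    intro a b
    induction a using Quotient.inductionOn with | _ a
    induction b using Quotient.inductionOn with | _ b
    apply Quotient.sound
    obtain ⟨g, hg⟩ := htr.exists_smul_eq b a
    exact ⟨g, hg⟩
  · obtain ⟨ω⟩ := ‹Nonempty Ω›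
    exact ⟨Quotient.mk _ ω⟩

theorem sum_fix (htr : IsPretransitive G Ω) [Nonempty Ω] : ∑ g : G, Nat.card (fixedBy Ω g) = Fintype.card G := by
  rw [burnside, card_orbits_eq_one htr, one_mul]

theorem card_stab_mul (htr : IsPretransitive G Ω) (ω : Ω) :
    Nat.card (stabilizer G ω) * Fintype.card Ω = Fintype.card G := by
  have h := index_stabilizer_of_transitive G ω
  rw [← Nat.card_eq_fintype_card (α := Ω), ← h, ← Nat.card_eq_fintype_card (α := G)]
  exact Subgroup.card_mul_index _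

/-- the non-negative excess term of a non-derangement -/
noncomputable def exc {G : Type*} (Ω : Type*) [Group G] [MulAction G Ω] [Fintype Ω] (g : G) : ℤ :=
  open Classical in if ∀ ω : Ω, g • ω ≠ ω then 0 else
        ((Nat.card (fixedBy Ω g) : ℤ) - 1) * ((Fintype.card Ω : ℤ) - Nat.card (fixedBy Ω g))

theorem exc_of_not {G Ω : Type*} [Group G] [MulAction G Ω] [Fintype Ω] {g : G} (h : ¬ ∀ ω : Ω, g • ω ≠ ω) :
    exc Ω g = ((Nat.card (fixedBy Ω g) : ℤ) - 1) * ((Fintype.card Ω : ℤ) - Nat.card (fixedBy Ω g)) := by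
  rw [exc, if_neg h]

/-- the fundamental identity of Cameron and Cohen. -/
theorem key (htr : IsPretransitive G Ω) [Nonempty Ω] :
    (Fintype.card Ω : ℤ) * Nat.card {g : G // ∀ ω : Ω, g • ω ≠ ω} =
      (∑ g : G, ((Nat.card (fixedBy Ω g) : ℤ)) ^ 2 - Fintype.card G) + ∑ g : G, exc Ω g := by
  classical
  have h0 : (Nat.card {g : G // ∀ ω : Ω, g • ω ≠ ω} : ℤ) = ∑ g : G, (if ∀ ω : Ω, g • ω ≠ ω then 1 else 0) := by
    rw [Nat.card_eq_fintype_card, Fintype.card_subtype, Finset.card_filter]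
    push_cast
    exact Finset.sum_congr rfl (fun g _ => by split_ifs <;> rfl)
  have hf : ∀ g : G, (∀ ω : Ω, g • ω ≠ ω) → (Nat.card (fixedBy Ω g) : ℤ) = 0 := by
    intro g hg
    have : IsEmpty (fixedBy Ω g) := ⟨fun x => hg x x.2⟩
    simp
  have h1 : (Fintype.card Ω : ℤ) * Nat.card {g : G // ∀ ω : Ω, g • ω ≠ ω} - ∑ g : G, exc Ω g =
      ∑ g : G, (((Nat.card (fixedBy Ω g) : ℤ)) ^ 2 - ((Fintype.card Ω : ℤ) + 1) * Nat.card (fixedBy Ω g) + Fintype.card Ω) := by
    rw [h0, Finset.mul_sum, ← Finset.sum_sub_distrib]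
    refine Finset.sum_congr rfl (fun g _ => ?_)
    by_cases h : ∀ ω : Ω, g • ω ≠ ω
    · rw [exc, if_pos h, if_pos h, hf g h]; ring
    · rw [exc, if_neg h, if_neg h]; ring
  have h2 : ∑ g : G, (((Nat.card (fixedBy Ω g) : ℤ)) ^ 2 - ((Fintype.card Ω : ℤ) + 1) * Nat.card (fixedBy Ω g) + Fintype.card Ω)
      = ∑ g : G, ((Nat.card (fixedBy Ω g) : ℤ)) ^ 2 - Fintype.card G := by
    rw [Finset.sum_add_distrib, Finset.sum_sub_distrib, ← Finset.mul_sum, Finset.sum_const, Finset.card_univ]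
    have h3 : ∑ g : G, (Nat.card (fixedBy Ω g) : ℤ) = Fintype.card G := by
      exact_mod_cast sum_fix (G := G) (Ω := Ω) htr
    rw [h3]; simp only [nsmul_eq_mul]; ring
  rw [h2] at h1
  linarith

theorem fix_le (g : G) : Nat.card (fixedBy Ω g) ≤ Fintype.card Ω := by
  rw [← Nat.card_eq_fintype_card]
  exact Nat.card_le_card_of_injective (fun x : fixedBy Ω g => (x : Ω)) Subtype.val_injective

theorem exc_nonneg (g : G) : (0 : ℤ) ≤ exc Ω g := by
  by_cases h : ∀ ω : Ω, g • ω ≠ ω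
  · rw [exc, if_pos h]
  · rw [exc, if_neg h]
    push Not at h
    obtain ⟨ω, hω⟩ := h
    have h1 : 1 ≤ Nat.card (fixedBy Ω g) := by
      have : Nonempty (fixedBy Ω g) := ⟨⟨ω, hω⟩⟩
      exact Nat.card_pos
    have h2 := fix_le (Ω := Ω) g
    have h3 : (1 : ℤ) ≤ Nat.card (fixedBy Ω g) := by exact_mod_cast h1
    have h4 : (Nat.card (fixedBy Ω g) : ℤ) ≤ Fintype.card Ω := by exact_mod_cast h2
    exact mul_nonneg (by linarith) (by linarith)

/-- a lower bound `r` for the ranks gives a lower bound for the second moment -/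
theorem sum_sq_ge (htr : IsPretransitive G Ω) [Nonempty Ω] (r : ℕ)
    (hr : ∀ ω : Ω, r ≤ Nat.card (Quotient (orbitRel (stabilizer G ω) Ω))) :
    (r : ℤ) * Fintype.card G ≤ ∑ g : G, ((Nat.card (fixedBy Ω g) : ℤ)) ^ 2 := by
  have h1 : r * Fintype.card G ≤ ∑ g : G, (Nat.card (fixedBy Ω g)) ^ 2 := by
    rw [sum_sq]
    obtain ⟨ω₀⟩ := ‹Nonempty Ω›
    have h2 : ∑ ω : Ω, r * Nat.card (stabilizer G ω) ≤
        ∑ ω : Ω, Nat.card (Quotient (orbitRel (stabilizer G ω) Ω)) * Nat.card (stabilizer G ω) :=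
      Finset.sum_le_sum (fun ω _ => Nat.mul_le_mul_right _ (hr ω))
    refine le_trans (le_of_eq ?_) h2
    have h3 : ∀ ω : Ω, Nat.card (stabilizer G ω) = Nat.card (stabilizer G ω₀) := by
      intro ω
      have h4 := card_stab_mul htr ω
      rw [← card_stab_mul htr ω₀] at h4
      exact Nat.eq_of_mul_eq_mul_right (Fintype.card_pos_iff.mpr ⟨ω₀⟩) h4
    rw [Finset.sum_congr rfl (fun ω _ => by rw [h3 ω]), Finset.sum_const, Finset.card_univ, smul_eq_mul,
      ← card_stab_mul htr ω₀]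
    ring
  exact_mod_cast h1

theorem two_le_rank (ω : Ω) (hn : 2 ≤ Fintype.card Ω) : 2 ≤ Nat.card (Quotient (orbitRel (stabilizer G ω) Ω)) := by
  obtain ⟨ω', hω'⟩ : ∃ ω' : Ω, ω' ≠ ω := Fintype.exists_ne_of_one_lt_card (by omega) ω
  have : Nontrivial (Quotient (orbitRel (stabilizer G ω) Ω)) := by
    refine ⟨⟨Quotient.mk _ ω, Quotient.mk _ ω', fun h => hω' ?_⟩⟩
    have h1 := Quotient.exact h
    obtain ⟨g, hg⟩ := h1
    have h2 : (g : G) • ω' = ω := hg
    have h3 : (g : G) • ω = ω := g.2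
    calc ω' = (g : G)⁻¹ • ((g : G) • ω') := by rw [inv_smul_smul]
      _ = (g : G)⁻¹ • ω := by rw [h2]
      _ = (g : G)⁻¹ • ((g : G) • ω) := by rw [h3]
      _ = ω := by rw [inv_smul_smul]
  exact Finite.one_lt_card_iff_nontrivial.mpr this

end

theorem result {G Ω : Type*} [Group G] [Finite G] [MulAction G Ω] [FaithfulSMul G Ω] [Fintype Ω] (htr : MulAction.IsPretransitive G Ω) (hn : 3 ≤ Fintype.card Ω) :
    ((MulAction.IsPretransitive G Ω ∧ (∃ g : G, g ≠ 1 ∧ ∃ ω : Ω, g • ω = ω) ∧ ∀ g : G, g ≠ 1 → Nat.card (MulAction.fixedBy Ω g) ≤ 1) ∧ Nat.card G = Fintype.card Ω * (Fintype.card Ω - 1) ∧ Fintype.card Ω * Nat.card {g : G // ∀ ω : Ω, g • ω ≠ ω} = Nat.card G) ∨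
    Nat.card G < Fintype.card Ω * Nat.card {g : G // ∀ ω : Ω, g • ω ≠ ω} := by
  classical
  have : Fintype G := Fintype.ofFinite G
  have hne : Nonempty Ω := Fintype.card_pos_iff.mp (by omega)
  obtain ⟨ω₀⟩ := id hne
  have hkey := key (G := G) (Ω := Ω) htr
  have hsq := sum_sq_ge (G := G) (Ω := Ω) htr 2 (fun ω => two_le_rank ω (by omega))
  have hexc : (0 : ℤ) ≤ ∑ g : G, exc Ω g := Finset.sum_nonneg (fun g _ => exc_nonneg g)
  rw [Nat.card_eq_fintype_card (α := G)]
  by_cases hlt : Fintype.card G < Fintype.card Ω * Nat.card {g : G // ∀ ω : Ω, g • ω ≠ ω}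
  · exact Or.inr hlt
  left
  have hle : (Fintype.card Ω : ℤ) * Nat.card {g : G // ∀ ω : Ω, g • ω ≠ ω} ≤ Fintype.card G := by
    exact_mod_cast not_lt.mp hlt
  push_cast at hsq
  have hexc0 : ∑ g : G, exc Ω g = 0 := by linarith
  have hsq2 : ∑ g : G, ((Nat.card (fixedBy Ω g) : ℤ)) ^ 2 = 2 * Fintype.card G := by linarith
  have heq : (Fintype.card Ω : ℤ) * Nat.card {g : G // ∀ ω : Ω, g • ω ≠ ω} = Fintype.card G := by linarith
  have hall : ∀ g : G, exc Ω g = 0 := by
    intro g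
    exact (Finset.sum_eq_zero_iff_of_nonneg (fun g _ => exc_nonneg g)).mp hexc0 g (Finset.mem_univ g)
  have hfix1 : ∀ g : G, g ≠ 1 → Nat.card (fixedBy Ω g) ≤ 1 := by
    intro g hg
    by_cases hd : ∀ ω : Ω, g • ω ≠ ω
    · have : IsEmpty (fixedBy Ω g) := ⟨fun x => hd x x.2⟩
      simp
    · have h1 := hall g
      rw [exc_of_not hd] at h1
      rcases mul_eq_zero.mp h1 with h2 | h2
      · have : (Nat.card (fixedBy Ω g) : ℤ) ≤ 1 := by linarith
        exact_mod_cast this
      · exfalso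
        apply hg
        have h3 : Nat.card (fixedBy Ω g) = Fintype.card Ω := by
          have : (Nat.card (fixedBy Ω g) : ℤ) = Fintype.card Ω := by linarith
          exact_mod_cast this
        have h4 : fixedBy Ω g = Set.univ := by
          apply Set.eq_of_subset_of_ncard_le (Set.subset_univ _)
          rw [Set.ncard_univ, Nat.card_eq_fintype_card, ← h3, Nat.card_coe_set_eq]
        apply FaithfulSMul.eq_of_smul_eq_smul (α := Ω)
        intro ω
        have : ω ∈ fixedBy Ω g := by rw [h4]; trivial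
        rw [one_smul]; exact this
  have hcard : Fintype.card G = Fintype.card Ω * (Fintype.card Ω - 1) := by
    -- Σ π(g)² - Σ π(g) = n² - n  since π(g)² = π(g) unless g = 1
    have h1 : ∑ g : G, (((Nat.card (fixedBy Ω g) : ℤ)) ^ 2 - (Nat.card (fixedBy Ω g) : ℤ)) =
        (Fintype.card Ω : ℤ) ^ 2 - Fintype.card Ω := by
      rw [Finset.sum_eq_single (1 : G)]
      · have h2 : Nat.card (fixedBy Ω (1 : G)) = Fintype.card Ω := by
          rw [fixedBy_one_eq_univ, Nat.card_coe_set_eq, Set.ncard_univ, Nat.card_eq_fintype_card]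
        rw [h2]
      · intro g _ hg
        have := hfix1 g hg
        have h3 : Nat.card (fixedBy Ω g) = 0 ∨ Nat.card (fixedBy Ω g) = 1 := by omega
        rcases h3 with h3 | h3 <;> rw [h3] <;> norm_num
      · intro h; exact absurd (Finset.mem_univ _) h
    rw [Finset.sum_sub_distrib, hsq2] at h1
    have h3 : ∑ g : G, (Nat.card (fixedBy Ω g) : ℤ) = Fintype.card G := by
      exact_mod_cast sum_fix (G := G) (Ω := Ω) htr
    rw [h3] at h1
    have h4 : (Fintype.card G : ℤ) = (Fintype.card Ω : ℤ) * ((Fintype.card Ω : ℤ) - 1) := by linarith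
    have h5 : ((Fintype.card Ω * (Fintype.card Ω - 1) : ℕ) : ℤ) = (Fintype.card Ω : ℤ) * ((Fintype.card Ω : ℤ) - 1) := by
      rw [Nat.cast_mul, Nat.cast_sub (by omega)]; norm_num
    rw [← h5] at h4
    exact_mod_cast h4
  refine ⟨⟨htr, ?_, hfix1⟩, hcard, by exact_mod_cast heq⟩
  have h1 := card_stab_mul (G := G) htr ω₀
  rw [hcard, mul_comm] at h1
  have h2 : Nat.card (stabilizer G ω₀) = Fintype.card Ω - 1 := Nat.eq_of_mul_eq_mul_left (by omega) h1
  have h3 : Nontrivial (stabilizer G ω₀) := Finite.one_lt_card_iff_nontrivial.mp (by omega)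
  obtain ⟨x, hx⟩ := exists_ne (1 : stabilizer G ω₀)
  exact ⟨x, fun h => hx (Subtype.ext h), ω₀, x.2⟩

end Cfsg.Agent.S5729
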