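import Cfsg.Statements.S5737
import Cfsg.Agent.Lib.SzBin6

set_option autoImplicit false
open Cfsg

namespace Cfsg.Agent.S5737

open Cfsg.Agent.Lib.SzBin Cfsg.Agent.Lib Cfsg.Agent.Lib.SuzukiOvoid Cfsg.Agent.Lib.SuzukiGroup
  Cfsg.Agent.Lib.SuzukiSyl Cfsg.Agent.Lib.SuzukiPts Cfsg.Agent.Lib.SuzukiStr3

theorem mem_center_map {G : Type*} [Group G] {P : Subgroup G} {x : G} :
    x ∈ (Subgroup.center P).map P.subtype ↔ x ∈ P ∧ ∀ y ∈ P, y * x = x * y := by
  constructor
  · rintro ⟨⟨z, hz⟩, hzc, rfl⟩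
    refine ⟨hz, fun y hy => ?_⟩
    exact congrArg Subtype.val (Subgroup.mem_center_iff.1 hzc ⟨y, hy⟩)
  · rintro ⟨hx, h⟩
    refine ⟨⟨x, hx⟩, ?_, rfl⟩
    rw [SetLike.mem_coe, Subgroup.mem_center_iff]
    rintro ⟨y, hy⟩
    exact Subtype.ext (h y hy)

/-- Let G = Sz(q) be a Suzuki group, q = 2^(2a+1) with a ≥ 1 (realised inside Sp₄ over the field with q elements), and let H be a proper subgroup of G. Then the action of G on the cosets of H is binary if and only if H is trivial or H is the centre of a Sylow 2-subgroup of G. Here an action is binary (relational complexity 2) when, for every n ≥ 2 and all n-tuples I, J of points, if for every pair of positions some group element carries the corresponding pair of entries of I to those of J, then a single group element carries I to J. -/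
theorem result {F : Type*} [Field F] [Fintype F] (a : ℕ) (ha : 1 ≤ a) (hF : Fintype.card F = 2 ^ (2 * a + 1))
    (H : Subgroup (Cfsg.Lie.Sz F (2 ^ (a + 1)))) (hH : H ≠ ⊤) :
    (∀ (n : ℕ) (I J : Fin n → (Cfsg.Lie.Sz F (2 ^ (a + 1))) ⧸ H), 2 ≤ n →
        (∀ i j : Fin n, i ≠ j → ∃ g : (Cfsg.Lie.Sz F (2 ^ (a + 1))), g • I i = J i ∧ g • I j = J j) → ∃ g : (Cfsg.Lie.Sz F (2 ^ (a + 1))), ∀ i, g • I i = J i) ↔
      (H = ⊥ ∨ ∃ P : Sylow 2 (Cfsg.Lie.Sz F (2 ^ (a + 1))), H = (Subgroup.center (P : Subgroup (Cfsg.Lie.Sz F (2 ^ (a + 1))))).map (P : Subgroup (Cfsg.Lie.Sz F (2 ^ (a + 1)))).subtype) := by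
  have hcp : CharP F 2 := SuzukiFin.charTwo hF
  have hθ := SuzukiFin.th_sq (F := F) (m := a) hF
  have hne := SuzukiFin.th_ne (F := F) ha hF
  have hFc : Nat.card F = 2 ^ (2 * a + 1) := by rw [Nat.card_eq_fintype_card, hF]
  have e : Lie.Sz F (2 ^ (a + 1)) ≃* Gz (SuzukiFin.th F a) :=
    (SuzukiLie.szEquiv a ha hF).symm.trans (MulEquiv.subgroupCongr (SuzukiFin.Sz_eq a))
  have hs1 : Function.Surjective (e.symm.toMonoidHom) := e.symm.surjective
  have hs2 : Function.Surjective (e.toMonoidHom) := e.surjective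
  -- the key translation
  have hkey : ∀ (P : Subgroup (Lie.Sz F (2 ^ (a + 1)))) (p : ov (SuzukiFin.th F a)),
      (∀ x, x ∈ P ↔ e x ∈ Up (SuzukiFin.th F a) hθ hne p) →
      ∀ x, x ∈ (Subgroup.center P).map P.subtype ↔
        (e x ∈ Up (SuzukiFin.th F a) hθ hne p ∧ (e x) ^ 2 = 1) := by
    intro P p hP x
    rw [mem_center_map]
    constructor
    · rintro ⟨h1, h2⟩
      have h3 := (hP x).1 h1
      refine ⟨h3, (central_iff _ hθ hne h3).1 (fun y hy => ?_)⟩
      have h4 := h2 (e.symm y) ((hP _).2 (by rw [e.apply_symm_apply]; exact hy))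
      have h5 := congrArg e h4
      rwa [map_mul, map_mul, e.apply_symm_apply] at h5
    · rintro ⟨h1, h2⟩
      refine ⟨(hP x).2 h1, fun y hy => ?_⟩
      have h3 := (central_iff _ hθ hne h1).2 h2 (e y) ((hP y).1 hy)
      apply e.injective
      rw [map_mul, map_mul]; exact h3
  constructor
  · intro hb
    have hb0 : Bin (Lie.Sz F (2 ^ (a + 1))) (Lie.Sz F (2 ^ (a + 1)) ⧸ H) := hb
    have hmem : ∀ g, e g ∈ H.map e.toMonoidHom ↔ g ∈ H := by
      intro g
      constructor
      · rintro ⟨x, hx, hxg⟩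
        rwa [← e.injective hxg]
      · intro hg
        exact ⟨g, hg, rfl⟩
    have hb1 : Bin (Gz (SuzukiFin.th F a)) (Gz (SuzukiFin.th F a) ⧸ H.map e.toMonoidHom) :=
      hb0.map e hmem
    have hH1 : H.map e.toMonoidHom ≠ ⊤ := by
      intro h
      apply hH
      rw [eq_top_iff]
      intro g _
      rw [← hmem, h]
      exact Subgroup.mem_top _
    rcases bin_imp _ hθ hne ha hFc hb1 hH1 with h | ⟨k, h⟩
    · left
      rw [Subgroup.eq_bot_iff_forall]
      intro x hx
      have h1 := (hmem x).2 hx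
      rw [h, Subgroup.mem_bot] at h1
      exact e.injective (by rw [h1, map_one])
    · right
      refine ⟨(sylp (SuzukiFin.th F a) hθ hne (k • inf (SuzukiFin.th F a))).mapSurjective hs1, ?_⟩
      ext x
      rw [hkey _ (k • inf (SuzukiFin.th F a)), ← hmem, h, mem_map_conj _ hθ hne, mem_Z_conj _ hθ hne rfl]
      intro x
      rw [Sylow.coe_mapSurjective, coe_sylp]
      constructor
      · rintro ⟨y, hy, rfl⟩
        show e (e.symm y) ∈ _
        rw [e.apply_symm_apply]; exact hy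
      · intro hx
        exact ⟨e x, hx, e.symm_apply_apply x⟩
  · intro h
    show Bin (Lie.Sz F (2 ^ (a + 1))) (Lie.Sz F (2 ^ (a + 1)) ⧸ H)
    rcases h with rfl | ⟨P, rfl⟩
    · exact bin_bot
    · obtain ⟨p, hp⟩ := sylow_eq (SuzukiFin.th F a) hθ hne (P.mapSurjective hs2)
      rw [Sylow.coe_mapSurjective] at hp
      have hP : ∀ x, x ∈ (P : Subgroup (Lie.Sz F (2 ^ (a + 1)))) ↔ e x ∈ Up (SuzukiFin.th F a) hθ hne p := by
        intro x
        rw [← hp]
        constructor
        · intro hx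
          exact ⟨x, hx, rfl⟩
        · rintro ⟨y, hy, hyx⟩
          rwa [← e.injective hyx]
      obtain ⟨k, hk⟩ := exists_to _ hθ p
      refine ((bin_Z (SuzukiFin.th F a) hθ hne).conj k).map e.symm ?_
      intro g
      rw [hkey _ p hP, e.apply_symm_apply, mem_map_conj _ hθ hne, mem_Z_conj _ hθ hne hk]

end Cfsg.Agent.S5737
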