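import Cfsg.Statements.S5739

set_option autoImplicit false
open Cfsg

namespace Cfsg.Agent.S5739

section
variable (F K : Type*) [Field F] [Field K] [Algebra F K]

/-- the Singer group: multiplications by non-zero elements of `K` -/
abbrev Sg : Subgroup (Module.End F K)ˣ :=
  (Units.map ((Algebra.lmul F K : K →ₐ[F] Module.End F K) : K →* Module.End F K)).range

theorem mem_Sg (u : (Module.End F K)ˣ) : u ∈ Sg F K ↔ ∃ k : K, ∀ x, (u : Module.End F K) x = k * x := by
  constructor
  · rintro ⟨k, rfl⟩
    exact ⟨(k : K), fun x => rfl⟩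
  · rintro ⟨k, hk⟩
    have hk0 : k ≠ 0 := by
      rintro rfl
      have h1 : (u : Module.End F K) = 0 := by
        ext x; rw [hk x, zero_mul]; rfl
      have h2 : ((u⁻¹ : (Module.End F K)ˣ) : Module.End F K) * (u : Module.End F K) = 1 := u.inv_mul
      rw [h1, mul_zero] at h2
      have h3 : (0 : Module.End F K) 1 = (1 : Module.End F K) 1 := by rw [h2]
      exact one_ne_zero h3.symm
    refine ⟨Units.mk0 k hk0, ?_⟩
    apply Units.ext
    ext x
    exact (hk x).symm

/-- the subfield of all `k` whose multiplication stays in the conjugate of `K` -/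
def sub (g : (Module.End F K)ˣ) : Subalgebra F K where
  carrier := {k | ∃ m : K, ∀ x, k * x = (g : Module.End F K) (m * ((g⁻¹ : (Module.End F K)ˣ) : Module.End F K) x)}
  mul_mem' := by
    rintro a b ⟨m, hm⟩ ⟨l, hl⟩
    refine ⟨m * l, fun x => ?_⟩
    have h1 : ∀ y, ((g⁻¹ : (Module.End F K)ˣ) : Module.End F K) ((g : Module.End F K) y) = y := by
      intro y
      have := congrArg (fun f : Module.End F K => f y) g.inv_mul
      exact this
    rw [mul_assoc, hl, hm, h1, mul_assoc]
  add_mem' := by
    rintro a b ⟨m, hm⟩ ⟨l, hl⟩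
    refine ⟨m + l, fun x => ?_⟩
    rw [add_mul, hl, hm, ← map_add, add_mul]
  algebraMap_mem' := by
    intro r
    refine ⟨algebraMap F K r, fun x => ?_⟩
    have h1 : ∀ y, (g : Module.End F K) (((g⁻¹ : (Module.End F K)ˣ) : Module.End F K) y) = y := by
      intro y
      have := congrArg (fun f : Module.End F K => f y) g.mul_inv
      exact this
    rw [← Algebra.smul_def, ← Algebra.smul_def, map_smul, h1]

end

theorem result {F K : Type*} [Field F] [Fintype F] [Field K] [Fintype K] [Algebra F K] (n : ℕ) (hn : 2 ≤ n) (hdim : Module.finrank F K = n)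
    (g : (Module.End F K)ˣ) (hg : ((Units.map ((Algebra.lmul F K : K →ₐ[F] Module.End F K) : K →* Module.End F K)).range).map (MulAut.conj g).toMonoidHom ≠ (Units.map ((Algebra.lmul F K : K →ₐ[F] Module.End F K) : K →* Module.End F K)).range) :
    ∃ r : ℕ, 1 ≤ r ∧ r ∣ n ∧ r < n ∧ Nat.card ↥(((Units.map ((Algebra.lmul F K : K →ₐ[F] Module.End F K) : K →* Module.End F K)).range).map (MulAut.conj g).toMonoidHom ⊓ (Units.map ((Algebra.lmul F K : K →ₐ[F] Module.End F K) : K →* Module.End F K)).range) ∣ Fintype.card F ^ r - 1 := by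
  classical
  have hgi : ∀ y, ((g⁻¹ : (Module.End F K)ˣ) : Module.End F K) ((g : Module.End F K) y) = y := by
    intro y
    have := congrArg (fun f : Module.End F K => f y) g.inv_mul
    exact this
  have hig : ∀ y, (g : Module.End F K) (((g⁻¹ : (Module.End F K)ˣ) : Module.End F K) y) = y := by
    intro y
    have := congrArg (fun f : Module.End F K => f y) g.mul_inv
    exact this
  have : Module.Finite F K := Module.Finite.of_finite
  -- the field E
  let E : IntermediateField F K := (sub F K g).toIntermediateField (by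
    rintro x ⟨m, hm⟩
    by_cases hx : x = 0
    · subst hx; rw [inv_zero]; exact (sub F K g).zero_mem
    · refine ⟨m⁻¹, fun y => ?_⟩
      have hm0 : m ≠ 0 := by
        rintro rfl
        have := hm 1
        simp at this
        exact hx this
      have h1 := hm (x⁻¹ * y)
      rw [← mul_assoc, mul_inv_cancel₀ hx, one_mul] at h1
      have h1' := congrArg (((g⁻¹ : (Module.End F K)ˣ) : Module.End F K)) h1
      rw [hgi] at h1'
      have h2 : ((g⁻¹ : (Module.End F K)ˣ) : Module.End F K) (x⁻¹ * y) =
          m⁻¹ * ((g⁻¹ : (Module.End F K)ˣ) : Module.End F K) y := by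
        rw [h1', ← mul_assoc, inv_mul_cancel₀ hm0, one_mul]
      rw [← h2, hig])
  have hE : ∀ k : K, k ∈ E ↔ ∃ m : K, ∀ x, k * x = (g : Module.End F K) (m * ((g⁻¹ : (Module.End F K)ˣ) : Module.End F K) x) := fun k => Iff.rfl
  have htower : Module.finrank F E * Module.finrank E K = n := by rw [← hdim]; exact Module.finrank_mul_finrank F E K
  have hpos : 0 < Module.finrank F E := Module.finrank_pos
  have hEtop : E ≠ ⊤ := by
    intro htop
    apply hg
    have h1 : ∀ k : K, ∃ m : K, ∀ x, k * x = (g : Module.End F K) (m * ((g⁻¹ : (Module.End F K)ˣ) : Module.End F K) x) := by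
      intro k
      rw [← hE, htop]; trivial
    -- one inclusion plus cardinalities
    have hle : Sg F K ≤ (Sg F K).map (MulAut.conj g).toMonoidHom := by
      intro u hu
      rw [mem_Sg] at hu
      obtain ⟨k, hk⟩ := hu
      obtain ⟨m, hm⟩ := h1 k
      refine ⟨g⁻¹ * u * g, ?_, ?_⟩
      · show g⁻¹ * u * g ∈ Sg F K
        rw [mem_Sg]
        refine ⟨m, fun x => ?_⟩
        show ((g⁻¹ : (Module.End F K)ˣ) : Module.End F K) ((u : Module.End F K) ((g : Module.End F K) x)) = m * x
        rw [hk, hm, hgi, hgi]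
      · show g * (g⁻¹ * u * g) * g⁻¹ = u
        group
    have hfin : Finite (Module.End F K)ˣ := by
      have : Finite (Module.End F K) := Finite.of_injective (fun f : Module.End F K => (f : K → K)) DFunLike.coe_injective
      exact Finite.of_injective (fun u : (Module.End F K)ˣ => (u : Module.End F K)) Units.val_injective
    have hcard : Nat.card ((Sg F K).map (MulAut.conj g).toMonoidHom) = Nat.card (Sg F K) :=
      Subgroup.card_map_of_injective (MulAut.conj g).injective
    exact (Subgroup.eq_of_le_of_card_ge hle hcard.le).symm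
  have hlt : Module.finrank F E < n := by
    rcases Nat.lt_or_ge (Module.finrank F E) n with h | h
    · exact h
    · exfalso
      apply hEtop
      have h1 : Module.finrank E K = 1 := by
        have h2 : 0 < Module.finrank E K := Module.finrank_pos
        by_contra hne
        have h3 : 2 ≤ Module.finrank E K := by omega
        have h4 : Module.finrank F E * 2 ≤ n := by rw [← htower]; exact Nat.mul_le_mul_left _ h3
        omega
      exact IntermediateField.finrank_eq_one_iff_eq_top.mp h1
  refine ⟨Module.finrank F E, hpos, ⟨_, htower.symm⟩, hlt, ?_⟩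
  have hcardE : Fintype.card F ^ Module.finrank F E = Nat.card E := by
    rw [← Nat.card_eq_fintype_card, ← Module.natCard_eq_pow_finrank]
  rw [hcardE]
  have hEu : Nat.card E - 1 = Nat.card Eˣ := by
    rw [Nat.card_units]
  rw [hEu]
  apply dvd_of_eq
  -- bijection
  symm
  have hmem : ∀ e : Eˣ, Units.map ((Algebra.lmul F K : K →ₐ[F] Module.End F K) : K →* Module.End F K)
      (Units.map (E.val : E →* K) e) ∈ (Sg F K).map (MulAut.conj g).toMonoidHom ⊓ Sg F K := by
    intro e
    refine ⟨?_, ⟨_, rfl⟩⟩
    obtain ⟨m, hm⟩ := (hE ((e : E) : K)).mp (e : E).2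
    refine ⟨g⁻¹ * Units.map ((Algebra.lmul F K : K →ₐ[F] Module.End F K) : K →* Module.End F K)
      (Units.map (E.val : E →* K) e) * g, ?_, ?_⟩
    · show _ ∈ Sg F K
      rw [mem_Sg]
      refine ⟨m, fun x => ?_⟩
      show ((g⁻¹ : (Module.End F K)ˣ) : Module.End F K) (((e : E) : K) * ((g : Module.End F K) x)) = m * x
      rw [hm, hgi, hgi]
    · show g * (g⁻¹ * _ * g) * g⁻¹ = _
      group
  refine Nat.card_congr (Equiv.ofBijective (fun e : Eˣ => (⟨_, hmem e⟩ : ↥((Sg F K).map (MulAut.conj g).toMonoidHom ⊓ Sg F K))) ⟨?_, ?_⟩)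
  · intro a b hab
    have h1 := congrArg (fun z : ↥((Sg F K).map (MulAut.conj g).toMonoidHom ⊓ Sg F K) => ((z : (Module.End F K)ˣ) : Module.End F K) 1) hab
    have h2 : ((a : E) : K) * 1 = ((b : E) : K) * 1 := h1
    rw [mul_one, mul_one] at h2
    exact Units.ext (Subtype.ext h2)
  · rintro ⟨u, hu1, hu2⟩
    obtain ⟨k, hk⟩ := (mem_Sg F K u).mp hu2
    obtain ⟨v, hv, hvu⟩ := hu1
    obtain ⟨m, hm⟩ := (mem_Sg F K v).mp hv
    have hkE : k ∈ E := by
      rw [hE]
      refine ⟨m, fun x => ?_⟩
      rw [← hk, ← hvu]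
      show (g : Module.End F K) ((v : Module.End F K) (((g⁻¹ : (Module.End F K)ˣ) : Module.End F K) x)) = _
      rw [hm]
    have hk0 : k ≠ 0 := by
      rintro rfl
      have h1 : (u : Module.End F K) = 0 := by
        ext x; rw [hk x, zero_mul]; rfl
      have h2 : ((u⁻¹ : (Module.End F K)ˣ) : Module.End F K) * (u : Module.End F K) = 1 := u.inv_mul
      rw [h1, mul_zero] at h2
      have h3 : (0 : Module.End F K) 1 = (1 : Module.End F K) 1 := by rw [h2]
      exact one_ne_zero h3.symm
    refine ⟨Units.mk0 ⟨k, hkE⟩ (fun h => hk0 (congrArg Subtype.val h)), ?_⟩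
    apply Subtype.ext
    apply Units.ext
    ext x
    exact (hk x).symm

end Cfsg.Agent.S5739
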