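import Cfsg.Statements.S5738
import Cfsg.Agent.S5739

set_option autoImplicit false
open Cfsg

namespace Cfsg.Agent.S5738

open Cfsg.Agent.S5739

theorem result {F K : Type*} [Field F] [Fintype F] [Field K] [Fintype K] [Algebra F K] (n : ℕ) (hn : 2 ≤ n) (hdim : Module.finrank F K = n) :
    Nat.card (Subgroup.normalizer (((Units.map ((Algebra.lmul F K : K →ₐ[F] Module.End F K) : K →* Module.End F K)).range : Subgroup (Module.End F K)ˣ) : Set (Module.End F K)ˣ)) = n * (Fintype.card K - 1) := by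
  classical
  have hfinK : Module.Finite F K := Module.Finite.of_finite
  have hgal : Nat.card (K ≃ₐ[F] K) = n := by
    rw [← hdim]; exact IsGalois.card_aut_eq_finrank F K
  have hU : Nat.card Kˣ = Fintype.card K - 1 := by
    rw [Nat.card_units, Nat.card_eq_fintype_card]
  rw [← hgal, ← hU, ← Nat.card_prod]
  symm
  -- the unit attached to an automorphism
  let τ : (K ≃ₐ[F] K) → (Module.End F K)ˣ := fun σ =>
    ⟨σ.toLinearMap, σ.symm.toLinearMap, by ext x; exact σ.apply_symm_apply x, by ext x; exact σ.symm_apply_apply x⟩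
  let L : Kˣ → (Module.End F K)ˣ := Units.map ((Algebra.lmul F K : K →ₐ[F] Module.End F K) : K →* Module.End F K)
  have hL : ∀ (c : Kˣ) (x : K), (L c : Module.End F K) x = (c : K) * x := fun c x => rfl
  have hτ : ∀ (σ : K ≃ₐ[F] K) (x : K), (τ σ : Module.End F K) x = σ x := fun σ x => rfl
  have hτ' : ∀ (σ : K ≃ₐ[F] K) (x : K), (((τ σ)⁻¹ : (Module.End F K)ˣ) : Module.End F K) x = σ.symm x := fun σ x => rfl
  have hmem : ∀ z : (K ≃ₐ[F] K) × Kˣ, L z.2 * τ z.1 ∈ Subgroup.normalizer ((Sg F K : Subgroup (Module.End F K)ˣ) : Set (Module.End F K)ˣ) := by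
    rintro ⟨σ, c⟩
    rw [Subgroup.mem_normalizer_iff]
    have h1 : ∀ (σ : K ≃ₐ[F] K) (h : (Module.End F K)ˣ), h ∈ Sg F K → τ σ * h * (τ σ)⁻¹ ∈ Sg F K := by
      intro σ h hh
      rw [mem_Sg] at hh ⊢
      obtain ⟨k, hk⟩ := hh
      refine ⟨σ k, fun x => ?_⟩
      show σ ((h : Module.End F K) (σ.symm x)) = σ k * x
      rw [hk, map_mul, σ.apply_symm_apply]
    have h1' : ∀ (σ : K ≃ₐ[F] K) (h : (Module.End F K)ˣ), τ σ * h * (τ σ)⁻¹ ∈ Sg F K → h ∈ Sg F K := by
      intro σ h hh
      have h2 := h1 σ.symm _ hh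
      have h3 : τ σ.symm * (τ σ * h * (τ σ)⁻¹) * (τ σ.symm)⁻¹ = h := by
        have h4 : τ σ.symm = (τ σ)⁻¹ := by
          apply Units.ext
          ext x; rfl
        rw [h4]; group
      rwa [h3] at h2
    have h5 : L c ∈ Sg F K := ⟨c, rfl⟩
    intro h
    constructor
    · intro hh
      have h6 : L c * τ σ * h * (L c * τ σ)⁻¹ = L c * (τ σ * h * (τ σ)⁻¹) * (L c)⁻¹ := by group
      show L c * τ σ * h * (L c * τ σ)⁻¹ ∈ Sg F K
      rw [h6]
      exact mul_mem (mul_mem h5 (h1 σ h hh)) (inv_mem h5)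
    · intro hh
      apply h1' σ
      have h6 : τ σ * h * (τ σ)⁻¹ = (L c)⁻¹ * (L c * τ σ * h * (L c * τ σ)⁻¹) * L c := by group
      rw [h6]
      exact mul_mem (mul_mem (inv_mem h5) hh) h5
  refine Nat.card_congr (Equiv.ofBijective (fun z : (K ≃ₐ[F] K) × Kˣ => (⟨_, hmem z⟩ : ↥(Subgroup.normalizer ((Sg F K : Subgroup (Module.End F K)ˣ) : Set (Module.End F K)ˣ)))) ⟨?_, ?_⟩)
  · rintro ⟨σ, c⟩ ⟨σ', c'⟩ h
    have h1 : ∀ x : K, (c : K) * σ x = (c' : K) * σ' x := by
      intro x
      exact congrArg (fun z : ↥(Subgroup.normalizer ((Sg F K : Subgroup (Module.End F K)ˣ) : Set (Module.End F K)ˣ)) => ((z : (Module.End F K)ˣ) : Module.End F K) x) h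
    have h2 := h1 1
    rw [map_one, map_one, mul_one, mul_one] at h2
    have hc : c = c' := Units.ext h2
    subst hc
    have hσ : σ = σ' := by
      ext x
      exact mul_left_cancel₀ c.ne_zero (h1 x)
    rw [hσ]
  · rintro ⟨g, hg⟩
    have hgi : ∀ y, ((g⁻¹ : (Module.End F K)ˣ) : Module.End F K) ((g : Module.End F K) y) = y := by
      intro y
      have := congrArg (fun f : Module.End F K => f y) g.inv_mul
      exact this
    have hig : ∀ y, (g : Module.End F K) (((g⁻¹ : (Module.End F K)ˣ) : Module.End F K) y) = y := by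
      intro y
      have := congrArg (fun f : Module.End F K => f y) g.mul_inv
      exact this
    have hginj : Function.Injective (g : Module.End F K) := fun a b hab => by rw [← hgi a, hab, hgi]
    have h1 : ∀ k : K, ∃ m : K, ∀ y, (g : Module.End F K) (k * y) = m * (g : Module.End F K) y := by
      intro k
      by_cases hk : k = 0
      · subst hk; exact ⟨0, fun y => by rw [zero_mul, map_zero, zero_mul]⟩
      · have h2 : L (Units.mk0 k hk) ∈ Sg F K := ⟨_, rfl⟩
        have h3 := (Subgroup.mem_normalizer_iff.mp hg _).mp h2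
        obtain ⟨m, hm⟩ := (mem_Sg F K _).mp h3
        refine ⟨m, fun y => ?_⟩
        have h4 := hm ((g : Module.End F K) y)
        rw [← h4]
        show (g : Module.End F K) (k * y) = (g : Module.End F K) (k * (((g⁻¹ : (Module.End F K)ˣ) : Module.End F K) ((g : Module.End F K) y)))
        rw [hgi]
    have hg1 : (g : Module.End F K) 1 ≠ 0 := by
      intro h
      have := hginj (h.trans (map_zero _).symm)
      exact one_ne_zero this
    have h2 : ∀ k y : K, (g : Module.End F K) (k * y) = (g : Module.End F K) k * ((g : Module.End F K) 1)⁻¹ * (g : Module.End F K) y := by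
      intro k y
      obtain ⟨m, hm⟩ := h1 k
      have h3 := hm 1
      rw [mul_one] at h3
      rw [hm y, h3, mul_assoc m, mul_inv_cancel₀ hg1, mul_one]
    let σ₀ : K →ₐ[F] K := AlgHom.ofLinearMap (((Algebra.lmul F K : K →ₐ[F] Module.End F K) ((g : Module.End F K) 1)⁻¹) * (g : Module.End F K))
      (by
        show ((g : Module.End F K) 1)⁻¹ * (g : Module.End F K) 1 = 1
        exact inv_mul_cancel₀ hg1)
      (by
        intro x y
        show ((g : Module.End F K) 1)⁻¹ * (g : Module.End F K) (x * y) = (((g : Module.End F K) 1)⁻¹ * (g : Module.End F K) x) * (((g : Module.End F K) 1)⁻¹ * (g : Module.End F K) y)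
        rw [h2]; ring)
    have hσ₀ : ∀ x, σ₀ x = ((g : Module.End F K) 1)⁻¹ * (g : Module.End F K) x := fun x => rfl
    have hinj : Function.Injective σ₀ := by
      intro a b hab
      rw [hσ₀, hσ₀] at hab
      exact hginj (mul_left_cancel₀ (inv_ne_zero hg1) hab)
    let σ : K ≃ₐ[F] K := AlgEquiv.ofBijective σ₀ ⟨hinj, Finite.injective_iff_surjective.mp hinj⟩
    refine ⟨(σ, Units.mk0 _ hg1), ?_⟩
    apply Subtype.ext
    apply Units.ext
    ext x
    show (g : Module.End F K) 1 * (((g : Module.End F K) 1)⁻¹ * (g : Module.End F K) x) = (g : Module.End F K) x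
    rw [← mul_assoc, mul_inv_cancel₀ hg1, one_mul]

end Cfsg.Agent.S5738
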