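import Cfsg.Statements.S5746
import Cfsg.Agent.Lib.G2J2
import Cfsg.Agent.Lib.ChevCongr
import Cfsg.Agent.Lib.ChevOkG2

set_option autoImplicit false
open Cfsg

namespace Cfsg.Agent.S5746

/-- transport along an isomorphism -/
theorem transport {A B : Type*} [Group A] [Group B] (e : A ≃* B)
    (h : ∃ D : Subgroup A, IsCoatom D ∧ Nonempty (D ≃* Cfsg.Spor.J2) ∧
      ∀ x : A, x ∉ D → IsCoatom ((D ⊓ D.map (MulAut.conj x).toMonoidHom).subgroupOf D)) :
    ∃ D : Subgroup B, IsCoatom D ∧ Nonempty (D ≃* Cfsg.Spor.J2) ∧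
      ∀ x : B, x ∉ D → IsCoatom ((D ⊓ D.map (MulAut.conj x).toMonoidHom).subgroupOf D) := by
  obtain ⟨D, h1, ⟨i⟩, h2⟩ := h
  refine ⟨D.map (e : A →* B), (e.mapSubgroup.isCoatom_iff D).mpr h1, ⟨(e.subgroupMap D).symm.trans i⟩, ?_⟩
  intro x hx
  have hx' : e.symm x ∉ D := by
    intro hc
    apply hx
    exact ⟨e.symm x, hc, e.apply_symm_apply x⟩
  have h3 := ((e.subgroupMap D).mapSubgroup.isCoatom_iff _).mpr (h2 _ hx')
  have e2 : (e.subgroupMap D).mapSubgroup ((D ⊓ D.map (MulAut.conj (e.symm x)).toMonoidHom).subgroupOf D) =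
      (D.map (e : A →* B) ⊓ (D.map (e : A →* B)).map (MulAut.conj x).toMonoidHom).subgroupOf (D.map (e : A →* B)) := by
    ext ⟨y, hy⟩
    constructor
    · rintro ⟨⟨a, ha⟩, ⟨_, ⟨b, hb, hb'⟩⟩, ha''⟩
      have h4 : e a = y := congrArg Subtype.val ha''
      change y ∈ D.map (e : A →* B) ⊓ (D.map (e : A →* B)).map (MulAut.conj x).toMonoidHom
      refine ⟨hy, ⟨e b, ⟨b, hb, rfl⟩, ?_⟩⟩
      have h5 : e.symm x * b * (e.symm x)⁻¹ = a := hb'
      change x * e b * x⁻¹ = y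
      rw [← h4, ← h5, map_mul, map_mul, map_inv, MulEquiv.apply_symm_apply]
    · intro hh
      have hh' : y ∈ D.map (e : A →* B) ⊓ (D.map (e : A →* B)).map (MulAut.conj x).toMonoidHom := hh
      obtain ⟨_, ⟨c, ⟨b, hb, hbc⟩, hc⟩⟩ := hh'
      obtain ⟨a, ha, hay⟩ := hy
      have h4 : e a = y := hay
      have hbc' : e b = c := hbc
      have hc' : x * c * x⁻¹ = y := hc
      refine ⟨⟨a, ha⟩, ?_, Subtype.ext h4⟩
      change a ∈ D ⊓ D.map (MulAut.conj (e.symm x)).toMonoidHom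
      refine ⟨ha, ⟨b, hb, ?_⟩⟩
      change e.symm x * b * (e.symm x)⁻¹ = a
      apply e.injective
      rw [map_mul, map_mul, map_inv, MulEquiv.apply_symm_apply, hbc', hc', h4]
  rw [e2] at h3
  exact h3

/-- The Chevalley group G₂(4) (over the field with 4 elements) has a maximal subgroup H isomorphic to the Hall–Janko group J₂ such that for every x outside H the intersection H ∩ xHx⁻¹ is a maximal subgroup of H; that is, the action of G₂(4) on the cosets of H is extremely primitive. -/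
theorem result {F : Type*} [Field F] [Fintype F] (hF : Fintype.card F = 4) :
    ∃ H : Subgroup (Cfsg.Lie.chevG2.group F), IsCoatom H ∧ Cfsg.Spor.IsoJ2 H ∧
      ∀ x : Cfsg.Lie.chevG2.group F, x ∉ H → IsCoatom ((H ⊓ H.map (MulAut.conj x).toMonoidHom).subgroupOf H) := by
  obtain ⟨f⟩ := Cfsg.Agent.Lib.K4.exists_equiv F hF
  obtain ⟨e⟩ := Cfsg.Agent.Lib.SuzG2.main _ rfl
  exact transport (e.trans (Cfsg.Agent.Lib.ChevCongr.congr Cfsg.Agent.Lib.ChevOkG2.good f.symm))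
    (Cfsg.Agent.Lib.G2J2.main _ rfl)

end Cfsg.Agent.S5746
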