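import Cfsg.Statements.S5747

set_option autoImplicit false
open Cfsg

namespace Cfsg.Agent.S5747

open MulAction List

section
variable {G Ω : Type*} [Group G] [MulAction G Ω]

/-- pointwise stabiliser in `H` of a list of points -/
def fixL (H : Subgroup G) : List Ω → Subgroup G
  | [] => H
  | a :: l => fixL (H ⊓ stabilizer G a) l

/-- irredundance -/
def Irr (H : Subgroup G) : List Ω → Prop
  | [] => True
  | a :: l => (∃ g ∈ H, g • a ≠ a) ∧ Irr (H ⊓ stabilizer G a) l

/-- irredundant base for `H` -/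
def IBL (H : Subgroup G) (l : List Ω) : Prop := Irr H l ∧ fixL H l = ⊥

theorem fixL_append (H : Subgroup G) (l m : List Ω) : fixL H (l ++ m) = fixL (fixL H l) m := by
  induction l generalizing H with
  | nil => rfl
  | cons a l ih => exact ih _

theorem Irr_append (H : Subgroup G) (l m : List Ω) : Irr H (l ++ m) ↔ Irr H l ∧ Irr (fixL H l) m := by
  induction l generalizing H with
  | nil => simp [Irr, fixL]
  | cons a l ih =>
    show ((∃ g ∈ H, g • a ≠ a) ∧ Irr (H ⊓ stabilizer G a) (l ++ m)) ↔ ((∃ g ∈ H, g • a ≠ a) ∧ Irr (H ⊓ stabilizer G a) l) ∧ Irr (fixL (H ⊓ stabilizer G a) l) m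
    rw [ih, and_assoc]

theorem IBL_append (H : Subgroup G) (l m : List Ω) : IBL H (l ++ m) ↔ Irr H l ∧ IBL (fixL H l) m := by
  unfold IBL
  rw [Irr_append, fixL_append, and_assoc]

theorem mem_fixL (H : Subgroup G) (l : List Ω) (g : G) : g ∈ fixL H l ↔ g ∈ H ∧ ∀ a ∈ l, g • a = a := by
  induction l generalizing H with
  | nil => simp [fixL]
  | cons a l ih =>
    show g ∈ fixL (H ⊓ stabilizer G a) l ↔ _
    rw [ih, Subgroup.mem_inf, mem_stabilizer_iff]
    simp only [List.mem_cons, forall_eq_or_imp]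
    tauto

theorem Irr_iff (H : Subgroup G) (l : List Ω) : Irr H l ↔ ∀ (i : ℕ) (hi : i < l.length),
    ∃ g ∈ H, (∀ (j : ℕ) (hj : j < i), g • l[j] = l[j]) ∧ g • l[i] ≠ l[i] := by
  induction l generalizing H with
  | nil => simp [Irr]
  | cons a l ih =>
    show ((∃ g ∈ H, g • a ≠ a) ∧ Irr (H ⊓ stabilizer G a) l) ↔ _
    rw [ih]
    constructor
    · rintro ⟨⟨g, hg, hga⟩, h2⟩ i hi
      cases i with
      | zero => exact ⟨g, hg, fun j hj => absurd hj (Nat.not_lt_zero j), by simpa using hga⟩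
      | succ i =>
        obtain ⟨g, hg, h3, h4⟩ := h2 i (by simpa using hi)
        rw [Subgroup.mem_inf, mem_stabilizer_iff] at hg
        refine ⟨g, hg.1, fun j hj => ?_, by simpa using h4⟩
        cases j with
        | zero => simpa using hg.2
        | succ j => simpa using h3 j (by omega)
    · intro h
      constructor
      · obtain ⟨g, hg, -, h3⟩ := h 0 (by simp)
        exact ⟨g, hg, by simpa using h3⟩
      · intro i hi
        obtain ⟨g, hg, h3, h4⟩ := h (i + 1) (by simpa using hi)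
        refine ⟨g, ?_, fun j hj => ?_, by simpa using h4⟩
        · rw [Subgroup.mem_inf, mem_stabilizer_iff]
          exact ⟨hg, by simpa using h3 0 (by omega)⟩
        · simpa using h3 (j + 1) (by omega)

/-- reduction of a base to an irredundant one -/
theorem exists_reduce (H : Subgroup G) (l : List Ω) (h : fixL H l = ⊥) :
    ∃ l' : List Ω, l' <+ l ∧ IBL H l' := by
  induction l generalizing H with
  | nil => exact ⟨[], List.Sublist.refl _, trivial, h⟩
  | cons a l ih =>
    by_cases ha : ∃ g ∈ H, g • a ≠ a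
    · obtain ⟨l', h1, h2, h3⟩ := ih (H ⊓ stabilizer G a) h
      exact ⟨a :: l', h1.cons_cons a, ⟨ha, h2⟩, h3⟩
    · push Not at ha
      have hH : H ⊓ stabilizer G a = H := inf_eq_left.mpr (fun g hg => ha g hg)
      obtain ⟨l', h1, h2⟩ := ih H (by rw [← hH]; exact h)
      exact ⟨l', h1.cons a, h2⟩

theorem exchange (H : Subgroup G) (hR : ∀ l l' : List Ω, IBL H l → l ~ l' → IBL H l') (a : Ω)
    (ha : ∃ g ∈ H, g • a ≠ a) (B : List Ω) (hB : IBL H B) :
    ∃ B' : List Ω, IBL (H ⊓ stabilizer G a) B' ∧ B'.length + 1 = B.length := by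
  have h1 : fixL (H ⊓ stabilizer G a) B = ⊥ := by
    rw [eq_bot_iff]
    intro g hg
    rw [mem_fixL] at hg
    rw [← hB.2, mem_fixL]
    exact ⟨(Subgroup.mem_inf.mp hg.1).1, hg.2⟩
  obtain ⟨B', hsub, hB'⟩ := exists_reduce _ B h1
  refine ⟨B', hB', ?_⟩
  have haB' : IBL H (a :: B') := ⟨⟨ha, hB'.1⟩, hB'.2⟩
  have hB'a : IBL H (B' ++ [a]) := hR _ _ haB' (List.perm_append_singleton a B').symm
  rw [IBL_append] at hB'a
  obtain ⟨hirrB', hKa⟩ := hB'a
  have hle := hsub.length_le
  obtain ⟨R, hR'⟩ := hsub.exists_perm_append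
  have hBR : IBL H (B' ++ R) := hR _ _ hB hR'
  have hlen : B.length = B'.length + R.length := by rw [hR'.length_eq, List.length_append]
  match R, hBR, hlen with
  | [], hBR, hlen =>
    exfalso
    rw [List.append_nil] at hBR
    obtain ⟨⟨g, hg, hga⟩, -⟩ := hKa.1
    rw [hBR.2, Subgroup.mem_bot] at hg
    rw [hg, one_smul] at hga
    exact hga rfl
  | [r], hBR, hlen => simpa using hlen.symm
  | r₁ :: r₂ :: R', hBR, hlen =>
    exfalso
    rw [IBL_append] at hBR
    obtain ⟨-, ⟨⟨hr1, ⟨g, hg, hgr⟩, -⟩, -⟩⟩ := hBR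
    have hKa2 : fixL H B' ⊓ stabilizer G a = ⊥ := hKa.2
    have hg1 : g ≠ 1 := by
      rintro rfl
      exact hgr (one_smul _ _)
    have hga : g • a ≠ a := by
      intro h
      apply hg1
      have : g ∈ fixL H B' ⊓ stabilizer G a := Subgroup.mem_inf.mpr ⟨(Subgroup.mem_inf.mp hg).1, h⟩
      rw [hKa2, Subgroup.mem_bot] at this
      exact this
    have hnew : IBL H (B' ++ [r₁, a]) := by
      rw [IBL_append]
      refine ⟨hirrB', ⟨hr1, ⟨g, hg, hga⟩, trivial⟩, ?_⟩
      show fixL H B' ⊓ stabilizer G r₁ ⊓ stabilizer G a = ⊥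
      rw [eq_bot_iff, ← hKa2]
      exact le_inf (inf_le_left.trans inf_le_left) inf_le_right
    have hnew2 : IBL H (B' ++ [a, r₁]) := hR _ _ hnew (List.Perm.append_left B' (List.Perm.swap a r₁ []))
    rw [IBL_append] at hnew2
    obtain ⟨-, ⟨-, ⟨x, hx, hxr⟩, -⟩, -⟩ := hnew2
    rw [hKa2, Subgroup.mem_bot] at hx
    rw [hx, one_smul] at hxr
    exact hxr rfl

theorem length_eq (A : List Ω) : ∀ (H : Subgroup G), (∀ l l' : List Ω, IBL H l → l ~ l' → IBL H l') →
    ∀ B : List Ω, IBL H A → IBL H B → A.length = B.length := by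
  induction A with
  | nil =>
    intro H _ B hA hB
    cases B with
    | nil => rfl
    | cons b B =>
      exfalso
      obtain ⟨⟨g, hg, hgb⟩, -⟩ := hB.1
      have : H = ⊥ := hA.2
      rw [this, Subgroup.mem_bot] at hg
      rw [hg, one_smul] at hgb
      exact hgb rfl
  | cons a A ih =>
    intro H hR B hA hB
    obtain ⟨B', hB', hlen⟩ := exchange H hR a hA.1.1 B hB
    have hR' : ∀ l l' : List Ω, IBL (H ⊓ stabilizer G a) l → l ~ l' → IBL (H ⊓ stabilizer G a) l' := by
      intro l l' hl hll'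
      have h1 : IBL H (a :: l) := ⟨⟨hA.1.1, hl.1⟩, hl.2⟩
      have h2 := hR _ _ h1 (hll'.cons a)
      exact ⟨h2.1.2, h2.2⟩
    have := ih (H ⊓ stabilizer G a) hR' B' ⟨hA.1.2, hA.2⟩ hB'
    rw [List.length_cons, this, hlen]

theorem cond_iff (t : ℕ) (f : Fin t → Ω) :
    ((∀ g : G, (∀ i : Fin t, g • f i = f i) → g = 1) ∧ ∀ i : Fin t, ∃ g : G, (∀ j : Fin t, j < i → g • f j = f j) ∧ g • f i ≠ f i) ↔
      IBL (⊤ : Subgroup G) (List.ofFn f) := by
  unfold IBL
  rw [Irr_iff, and_comm]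
  apply and_congr
  · constructor
    · intro h i hi
      rw [List.length_ofFn] at hi
      obtain ⟨g, h1, h2⟩ := h ⟨i, hi⟩
      refine ⟨g, Subgroup.mem_top g, fun j hj => ?_, ?_⟩
      · rw [List.getElem_ofFn]
        exact h1 ⟨j, by omega⟩ hj
      · rw [List.getElem_ofFn]; exact h2
    · intro h i
      obtain ⟨g, -, h1, h2⟩ := h i (by rw [List.length_ofFn]; exact i.2)
      refine ⟨g, fun j hj => ?_, ?_⟩
      · have := h1 j hj
        rw [List.getElem_ofFn] at this
        exact this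
      · rw [List.getElem_ofFn] at h2
        exact h2
  · rw [eq_bot_iff]
    constructor
    · intro h g hg
      rw [mem_fixL] at hg
      rw [Subgroup.mem_bot]
      exact h g (fun i => hg.2 _ (List.mem_ofFn.mpr ⟨i, rfl⟩))
    · intro h g hg
      rw [← Subgroup.mem_bot]
      apply h
      rw [mem_fixL]
      refine ⟨Subgroup.mem_top g, fun a ha => ?_⟩
      obtain ⟨i, rfl⟩ := List.mem_ofFn.mp ha
      exact hg i

theorem Irr_nodup (H : Subgroup G) (l : List Ω) (h : Irr H l) : l.Nodup := by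
  rw [List.nodup_iff_getElem?_ne_getElem?]
  intro i j hij hj heq
  rw [Irr_iff] at h
  obtain ⟨g, -, h1, h2⟩ := h j hj
  have h3 := h1 i hij
  rw [List.getElem?_eq_getElem (by omega), List.getElem?_eq_getElem hj] at heq
  have h4 := Option.some.inj heq
  rw [h4] at h3
  exact h2 h3

end

theorem result {G Ω : Type*} [Group G] [Finite G] [MulAction G Ω] [Fintype Ω] :
    (∀ (t t' : ℕ) (f : Fin t → Ω) (f' : Fin t' → Ω), ((∀ g : G, (∀ i : Fin t, g • f i = f i) → g = 1) ∧ ∀ i : Fin t, ∃ g : G, (∀ j : Fin t, j < i → g • f j = f j) ∧ g • f i ≠ f i) → ((∀ g : G, (∀ i : Fin t', g • f' i = f' i) → g = 1) ∧ ∀ i : Fin t', ∃ g : G, (∀ j : Fin t', j < i → g • f' j = f' j) ∧ g • f' i ≠ f' i) → t = t') ↔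
    (∀ (t : ℕ) (f : Fin t → Ω) (σ : Equiv.Perm (Fin t)), ((∀ g : G, (∀ i : Fin t, g • f i = f i) → g = 1) ∧ ∀ i : Fin t, ∃ g : G, (∀ j : Fin t, j < i → g • f j = f j) ∧ g • f i ≠ f i) → ((∀ g : G, (∀ i : Fin t, g • (f ∘ σ) i = (f ∘ σ) i) → g = 1) ∧ ∀ i : Fin t, ∃ g : G, (∀ j : Fin t, j < i → g • (f ∘ σ) j = (f ∘ σ) j) ∧ g • (f ∘ σ) i ≠ (f ∘ σ) i)) := by
  simp only [cond_iff]
  have hback : ∀ l : List Ω, ∃ (t : ℕ) (f : Fin t → Ω), l = List.ofFn f := fun l => ⟨l.length, l.get, (List.ofFn_get l).symm⟩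
  constructor
  · intro h t f σ hf
    have hperm : List.ofFn (f ∘ σ) ~ List.ofFn f := Equiv.Perm.ofFn_comp_perm σ f
    have h1 : fixL (⊤ : Subgroup G) (List.ofFn (f ∘ σ)) = ⊥ := by
      rw [eq_bot_iff, ← hf.2]
      intro g hg
      rw [mem_fixL] at hg ⊢
      exact ⟨hg.1, fun a ha => hg.2 a (hperm.mem_iff.mpr ha)⟩
    obtain ⟨l', hsub, hl'⟩ := exists_reduce _ _ h1
    obtain ⟨t', f', rfl⟩ := hback l'
    have h2 := h t t' f f' hf hl'
    have h3 : List.ofFn f' = List.ofFn (f ∘ σ) := by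
      apply hsub.eq_of_length
      rw [List.length_ofFn, List.length_ofFn, h2]
    rw [← h3]
    exact hl'
  · intro h t t' f f' hf hf'
    have hR : ∀ l l' : List Ω, IBL (⊤ : Subgroup G) l → l ~ l' → IBL (⊤ : Subgroup G) l' := by
      intro l l' hl hll'
      have hnd : l.Nodup := Irr_nodup _ _ hl.1
      have hnd' : l'.Nodup := hll'.nodup_iff.mp hnd
      obtain ⟨t, f, rfl⟩ := hback l
      obtain ⟨t', f', rfl⟩ := hback l'
      have hlen := hll'.length_eq
      rw [List.length_ofFn, List.length_ofFn] at hlen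
      subst hlen
      have hfi : Function.Injective f := List.nodup_ofFn.mp hnd
      have hfi' : Function.Injective f' := List.nodup_ofFn.mp hnd'
      have hex : ∀ i : Fin t, ∃ j : Fin t, f j = f' i := by
        intro i
        have : f' i ∈ List.ofFn f := hll'.mem_iff.mpr (List.mem_ofFn.mpr ⟨i, rfl⟩)
        exact List.mem_ofFn.mp this
      choose s hs using hex
      have hsi : Function.Injective s := by
        intro a b hab
        apply hfi'
        rw [← hs a, ← hs b, hab]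
      let σ : Equiv.Perm (Fin t) := Equiv.ofBijective s (Finite.injective_iff_bijective.mp hsi)
      have h1 := h t f σ hl
      have h2 : f ∘ σ = f' := funext hs
      rw [h2] at h1
      exact h1
    have := length_eq (List.ofFn f) ⊤ hR (List.ofFn f') hf hf'
    rwa [List.length_ofFn, List.length_ofFn] at this

end Cfsg.Agent.S5747
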