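import Cfsg.Statements.S5751
import Cfsg.Agent.Lib.EECore4

set_option autoImplicit false
open Cfsg

namespace Cfsg.Agent.S5751

section aux
open Cfsg.Lie Cfsg.Agent.Lib.ChevX Cfsg.Agent.Lib.ChevGood Cfsg.Agent.Lib.ChevRel Cfsg.Agent.Lib.ChevLev
open Cfsg.Agent.Lib.ChevU Cfsg.Agent.Lib.ChevH Cfsg.Agent.Lib.ChevN Cfsg.Agent.Lib.ChevBN Cfsg.Agent.Lib.ChevPar
open Cfsg.Agent.Lib.EECore
open scoped MatrixGroups Matrix

/-- the maximal parabolic subgroup is maximal -/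
theorem isCoatom_P3 (G : Good chevE8) (F : Type*) [Field F] : IsCoatom ((P3 F).subgroupOf (chevE8.group F)) := by
  have hn : ng chevE8 F (chevE8.simple 3) 1 ∈ chevE8.group F := ng_mem_group G (G.simple_lt 3 (hj8 G)) 1
  constructor
  · intro h
    have h1 : (⟨_, hn⟩ : ↥(chevE8.group F)) ∈ (P3 F).subgroupOf (chevE8.group F) := by rw [h]; trivial
    exact ng_not_mem_P G (J := {i | i ≠ 3}) (hj8 G) (by simp) h1
  · intro X hX
    have hB : (chevE8.borelSubgroup F).subgroupOf (chevE8.group F) ≤ X :=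
      le_trans (fun x hx => B_le_P G _ hx) hX.le
    have h1 := overgroup G hB
    set I : Set ℕ := {i | ∃ h : i < chevE8.rank,
      (⟨ng chevE8 F (chevE8.simple i) 1, ng_mem_group G (G.simple_lt i h) 1⟩ : ↥(chevE8.group F)) ∈ X} with hI
    have h3 : 3 ∈ I := by
      by_contra h3
      apply hX.not_ge
      rw [h1]
      intro x hx
      rw [Subgroup.mem_subgroupOf] at hx ⊢
      unfold P3
      rw [parabolicSubgroup_eq G] at hx ⊢
      have h6 : chevE8.borelSubgroup F ⊔ Subgroup.closure {g | ∃ j ∈ I, j < chevE8.rank ∧ g = ng chevE8 F (chevE8.simple j) 1} ≤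
          chevE8.borelSubgroup F ⊔ Subgroup.closure {g | ∃ j ∈ {i | i ≠ 3}, j < chevE8.rank ∧ g = ng chevE8 F (chevE8.simple j) 1} := by
        refine sup_le_sup_left (Subgroup.closure_mono ?_) _
        rintro g ⟨i, hi, hi', rfl⟩
        exact ⟨i, fun h => h3 (h ▸ hi), hi', rfl⟩
      exact h6 hx
    have h4 : ∀ i < chevE8.rank, i ∈ I := by
      intro i hi
      by_cases h5 : i = 3
      · rw [h5]; exact h3
      · exact ⟨hi, hX.le (show ng chevE8 F (chevE8.simple i) 1 ∈ P3 F from ng_mem_P G (J := {i | i ≠ 3}) h5 hi)⟩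
    have h5 := Cfsg.Agent.Lib.BNPair.parabolic_S (P := bnPair G F)
    rw [eq_top_iff, ← h5, h1, ← parabolic_TJ G]
    unfold Cfsg.BNPair.parabolic
    refine sup_le_sup_left (Subgroup.closure_mono ?_) _
    rintro n ⟨i, hi, h⟩
    exact ⟨i, h4 i hi, hi, h⟩

theorem main (G : Good chevE8) {F : Type} [Field F] [Finite F] (hF : ∀ c : F, c ≠ 0 → c = 1) :
    ∃ (G : Type) (_ : Group G) (_ : Finite G) (M₁ M₂ : Subgroup G) (g : G) (A B : ℕ → Subgroup G),
      IsCoatom M₁ ∧ M₂ = M₁.map (MulAut.conj g).toMonoidHom ∧ M₁ ≠ M₂ ∧ M₁.normalCore = ⊥ ∧ A 0 = M₁ ∧ B 0 = M₂ ∧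
      (∀ i, A (i + 1) = ((A i ⊓ B i).subgroupOf M₁).normalCore.map M₁.subtype) ∧
      (∀ i, B (i + 1) = ((A i ⊓ B i).subgroupOf M₂).normalCore.map M₂.subtype) ∧ A 6 = ⊥ ∧ A 5 ≠ ⊥ := by
  have hn : ng chevE8 F (chevE8.simple 3) 1 ∈ chevE8.group F := ng_mem_group G (G.simple_lt 3 (hj8 G)) 1
  set g : ↥(chevE8.group F) := ⟨_, hn⟩ with hg
  set U : ℕ → Subgroup ↥(chevE8.group F) := fun i => (Ser G F i).subgroupOf (chevE8.group F) with hUdef
  have hU : ∀ i, U i ≤ (P3 F).subgroupOf (chevE8.group F) := fun i x hx =>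
    Subgroup.mem_subgroupOf.mpr (ser_le G i (Subgroup.mem_subgroupOf.mp hx))
  have hN : ∀ i, ∀ m ∈ (P3 F).subgroupOf (chevE8.group F), ∀ x ∈ U i, m * x * m⁻¹ ∈ U i :=
    fun i m hm x hx => Subgroup.mem_subgroupOf.mpr
      (show (m : GL chevE8.Idx F) * (x : GL chevE8.Idx F) * (m : GL chevE8.Idx F)⁻¹ ∈ Ser G F i from
        ser_norm G i _ (Subgroup.mem_subgroupOf.mp hm) _ (Subgroup.mem_subgroupOf.mp hx))
  have hnn : g * g ∈ (P3 F).subgroupOf (chevE8.group F) :=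
    B_le_P G _ (H_le_B (ng_sq_mem G (G.simple_lt 3 (hj8 G))))
  have hlo1 : ∀ i, U (i + 1) ≤ U i := fun i x hx =>
    Subgroup.mem_subgroupOf.mpr (ser_anti G i (Subgroup.mem_subgroupOf.mp hx))
  have hlo2 : ∀ i, ∀ x ∈ U (i + 1), g⁻¹ * x * g ∈ U i := fun i x hx =>
    Subgroup.mem_subgroupOf.mpr (show (ng chevE8 F (chevE8.simple 3) 1)⁻¹ * (x : GL chevE8.Idx F) *
      ng chevE8 F (chevE8.simple 3) 1 ∈ Ser G F i from ser_conj G i _ (Subgroup.mem_subgroupOf.mp hx))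
  have hup : ∀ i, ∀ K : Subgroup ↥(chevE8.group F), K ≤ U i → (∀ x ∈ K, g⁻¹ * x * g ∈ U i) →
      (∀ m ∈ (P3 F).subgroupOf (chevE8.group F), ∀ x ∈ K, m * x * m⁻¹ ∈ K) → K ≤ U (i + 1) := by
    intro i K h1 h2 h3 x hx
    refine ser_up G hF i (K.map (chevE8.group F).subtype) ?_ ?_ ?_ ⟨x, hx, rfl⟩
    · rintro _ ⟨y, hy, rfl⟩; exact Subgroup.mem_subgroupOf.mp (h1 hy)
    · rintro _ ⟨y, hy, rfl⟩; exact Subgroup.mem_subgroupOf.mp (h2 y hy)
    · rintro m hm _ ⟨y, hy, rfl⟩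
      exact ⟨_, h3 ⟨m, P_le_group G _ hm⟩ (Subgroup.mem_subgroupOf.mpr hm) y hy, rfl⟩
  refine ⟨↥(chevE8.group F), inferInstance, inferInstance, (P3 F).subgroupOf (chevE8.group F), _, g, U,
    fun i => (U i).map (MulAut.conj g).toMonoidHom, isCoatom_P3 G F, rfl, ?_, ?_, rfl, rfl,
    rec_A hU hN hlo1 hlo2 hup, rec_B hU hN hnn hlo1 hlo2 hup, ?_, ?_⟩
  · intro h
    have h1 : xg chevE8 F (chevE8.simple 3) 1 ∈ P3 F := B_le_P G _ (U_le_B (simple_mem_U G (hj8 G) 1))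
    have h2 : g * ⟨_, P_le_group G _ h1⟩ * g⁻¹ ∈ (P3 F).subgroupOf (chevE8.group F) := by
      rw [h]
      exact ⟨_, h1, rfl⟩
    have h3 : ng chevE8 F (chevE8.simple 3) 1 * xg chevE8 F (chevE8.simple 3) 1 * (ng chevE8 F (chevE8.simple 3) 1)⁻¹ ∈
      P3 F := h2
    rw [ng_simple_one_conj G (hj8 G) (G.simple_lt 3 (hj8 G)), Cfsg.Agent.Lib.ChevN.reflect_simple (hj8 G)] at h3
    have h5 := eq_zero_of_mem_P G (neg_lt G (G.simple_lt 3 (hj8 G))) (fJ_neg_simple G (J := {i | i ≠ 3}) (hj8 G) (by simp)) h3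
    rcases G.η_sq 3 (hj8 G) _ (G.simple_lt 3 (hj8 G)) with h7 | h7 <;> rw [h7] at h5 <;> simp at h5
  · have hs : IsSimpleGroup ↥(chevE8.group F) :=
      (Cfsg.Agent.Lib.ChevSimple.simple (D := chevE8) (F := F) (by simp) (by
        rintro (h | h)
        · exact absurd (congrArg ChevalleyDatum.nroots h) (by decide)
        · exact absurd (congrArg ChevalleyDatum.nroots h) (by decide))).1
    rcases hs.eq_bot_or_eq_top_of_normal ((P3 F).subgroupOf (chevE8.group F)).normalCore inferInstance with h | h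
    · exact h
    · exfalso
      have h1 := Subgroup.normalCore_le ((P3 F).subgroupOf (chevE8.group F))
      rw [h, top_le_iff] at h1
      exact (isCoatom_P3 G F).1 h1
  · show (Ser G F 6).subgroupOf (chevE8.group F) = ⊥
    rw [ser_six G, Subgroup.bot_subgroupOf]
  · intro h
    apply ser_five G (F := F)
    rw [eq_bot_iff]
    intro x hx
    have hxg : x ∈ chevE8.group F := P_le_group G _ (ser_le G 5 hx)
    have h1 : (⟨x, hxg⟩ : ↥(chevE8.group F)) ∈ (Ser G F 5).subgroupOf (chevE8.group F) := hx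
    have h2 : (Ser G F 5).subgroupOf (chevE8.group F) = ⊥ := h
    rw [h2, Subgroup.mem_bot] at h1
    exact Subgroup.mem_bot.mpr (congrArg Subtype.val h1)

end aux

/-- An extremal example for iterated cores of conjugate maximal subgroups: there exist a finite group G and two distinct conjugate maximal subgroups M₁, M₂ of G, with M₁ having trivial core in G, such that, if we define two descending sequences of subgroups by A₀ = M₁, B₀ = M₂ and, for every i, A_{i+1} = the core in M₁ of A_i ∩ B_i and B_{i+1} = the core in M₂ of A_i ∩ B_i (the core in M of a subgroup Y ≤ M is the largest normal subgroup of M contained in Y), the subgroup A₆ is trivial while A₅ is not (so the index 6 cannot be lowered to 5). (One example is a maximal parabolic subgroup of the Chevalley group of type E₈ over a finite field and a suitable conjugate of it.) -/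
theorem result :
    ∃ (G : Type) (_ : Group G) (_ : Finite G) (M₁ M₂ : Subgroup G) (g : G) (A B : ℕ → Subgroup G),
      IsCoatom M₁ ∧ M₂ = M₁.map (MulAut.conj g).toMonoidHom ∧ M₁ ≠ M₂ ∧ M₁.normalCore = ⊥ ∧ A 0 = M₁ ∧ B 0 = M₂ ∧
      (∀ i, A (i + 1) = ((A i ⊓ B i).subgroupOf M₁).normalCore.map M₁.subtype) ∧
      (∀ i, B (i + 1) = ((A i ⊓ B i).subgroupOf M₂).normalCore.map M₂.subtype) ∧ A 6 = ⊥ ∧ A 5 ≠ ⊥ := by
  obtain ⟨G⟩ : Nonempty (Cfsg.Agent.Lib.ChevGood.Good Cfsg.Lie.chevE8) := ⟨Cfsg.Agent.Lib.ChevOkE8.good⟩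
  exact main G (F := ZMod 2) (by decide)

end Cfsg.Agent.S5751
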