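import Cfsg.Statements.S5752
import Mathlib
import Cfsg.Agent.Lib.TW62b

set_option autoImplicit false
open Cfsg

namespace Cfsg.Agent.S5752

/-- A form of the Thompson–Wielandt Theorem on primitive permutation groups. Let G be a finite group and M₁, M₂ two distinct conjugate maximal subgroups of G with trivial core in G; define two descending sequences of subgroups by A₀ = M₁, B₀ = M₂ and, for every i, A_{i+1} = the core in M₁ of A_i ∩ B_i and B_{i+1} = the core in M₂ of A_i ∩ B_i (the core in M of a subgroup Y ≤ M is the largest normal subgroup of M contained in Y). If A₂ and B₂ are both non-trivial, then for some prime p the subgroup generated by A₂ and B₂ is a p-group, and for each j the generalized Fitting subgroups of M_j and of its first core (A₁, resp. B₁) are their largest normal p-subgroups. -/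
theorem result {G : Type*} [Group G] [Finite G] (M₁ M₂ : Subgroup G) (hmax : IsCoatom M₁) (g : G)
    (hconj : M₂ = M₁.map (MulAut.conj g).toMonoidHom) (hne : M₁ ≠ M₂) (hcore : M₁.normalCore = ⊥)
    (A B : ℕ → Subgroup G) (hA0 : A 0 = M₁) (hB0 : B 0 = M₂)
    (hA : ∀ i, A (i + 1) = ((A i ⊓ B i).subgroupOf M₁).normalCore.map M₁.subtype)
    (hB : ∀ i, B (i + 1) = ((A i ⊓ B i).subgroupOf M₂).normalCore.map M₂.subtype) (hA2 : A 2 ≠ ⊥) (hB2 : B 2 ≠ ⊥) :
    ∃ p : ℕ, p.Prime ∧ IsPGroup p ↥(A 2 ⊔ B 2) ∧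
      Cfsg.generalizedFittingSubgroup ↥M₁ = Cfsg.pCore p ↥M₁ ∧ Cfsg.generalizedFittingSubgroup ↥(A 1) = Cfsg.pCore p ↥(A 1) ∧
      Cfsg.generalizedFittingSubgroup ↥M₂ = Cfsg.pCore p ↥M₂ ∧ Cfsg.generalizedFittingSubgroup ↥(B 1) = Cfsg.pCore p ↥(B 1) := by
  have hA1 : A 1 = Lib.TW62.A1 M₁ M₂ := by
    have := hA 0
    rw [hA0, hB0] at this
    exact this
  have hB1 : B 1 = Lib.TW62.A1 M₂ M₁ := by
    have := hB 0
    rw [hA0, hB0, inf_comm] at this
    exact this
  have hA2' : A 2 = Lib.TW62.A2 M₁ M₂ := by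
    have := hA 1
    rw [hA1, hB1] at this
    exact this
  have hB2' : B 2 = Lib.TW62.A2 M₂ M₁ := by
    have := hB 1
    rw [hA1, hB1, inf_comm] at this
    exact this
  have H : Lib.TW62.Hyp M₁ M₂ := by
    refine Lib.TW62.Hyp.of_conj hconj hne fun X hX hXM hn => ?_
    rcases hmax.le_iff.mp hn with h | h
    · exfalso
      have h1 : X.Normal := Subgroup.normalizer_eq_top_iff.mp h
      apply hX
      rw [eq_bot_iff, ← hcore]
      exact Subgroup.normal_le_normalCore.mpr hXM
    · exact h.le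
  rw [hA2'] at hA2 ⊢
  rw [hB2'] at hB2 ⊢
  rw [hA1, hB1]
  obtain ⟨p, hp, h1, h2, h3, h4, h5⟩ := H.FS_eq_OA hA2 hB2
  have aux : ∀ {K : Subgroup G}, Lib.BenderMax.FS K = Lib.BenderMax.OA p K →
      Cfsg.generalizedFittingSubgroup ↥K = Cfsg.pCore p ↥K := fun {K} h =>
    Subgroup.map_injective K.subtype_injective h
  exact ⟨p, hp, h1, aux h2, aux h4, aux h3, aux h5⟩

end Cfsg.Agent.S5752
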