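import Cfsg.Statements.S5753
import Cfsg.Agent.Lib.BinAff7

set_option autoImplicit false
open Cfsg

namespace Cfsg.Agent.S5753

open Cfsg.Agent.Lib.BinAff

theorem transfer {G Ω V : Type*} [Group G] [Finite G] [MulAction G Ω] [FaithfulSMul G Ω]
    [Fintype Ω] [AddCommGroup V] [Finite V]
    (hprim : MulAction.IsPreprimitive G Ω)
    (hbin : ∀ (n : ℕ) (I J : Fin n → Ω), 2 ≤ n →
      (∀ i j : Fin n, i ≠ j → ∃ g : G, g • I i = J i ∧ g • I j = J j) → ∃ g : G, ∀ i, g • I i = J i)
    (ω0 : Ω) [DistribMulAction (MulAction.stabilizer G ω0) V] (τ : V → G)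
    (h0 : ∀ v w, τ (v + w) = τ v * τ w)
    (hτ : ∀ (h : MulAction.stabilizer G ω0) (v : V), h.1 * τ v * h.1⁻¹ = τ (h • v))
    (hbij : Function.Bijective (fun v => τ v • ω0)) (hnt : ∃ v : V, v ≠ 0) :
    ((Fintype.card Ω).Prime ∧ Nat.card ↥(MulAction.stabilizer G ω0) ≤ 2) ∨
    (∃ (F E : Type) (_ : Field F) (_ : Fintype F) (_ : Field E) (_ : Fintype E) (_ : Algebra F E) (e : Ω ≃ E),
        Module.finrank F E = 2 ∧
        ∀ σ : Equiv.Perm Ω, σ ∈ (MulAction.toPermHom G Ω).range ↔
          ∃ (a b : E) (φ : E ≃ₐ[F] E), Algebra.norm F a = 1 ∧ ∀ ω : Ω, e (σ ω) = a * φ (e ω) + b) := by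
  have hz : τ 0 = 1 := by
    have := h0 0 0
    rw [add_zero] at this
    exact (mul_eq_left.mp this.symm)
  have hneg : ∀ v, τ (-v) = (τ v)⁻¹ := by
    intro v
    have := h0 (-v) v
    rw [neg_add_cancel, hz] at this
    exact eq_inv_of_mul_eq_one_left this.symm
  have hsub : ∀ v w, τ (v - w) = τ v * (τ w)⁻¹ := by
    intro v w
    rw [sub_eq_add_neg, h0, hneg]
  have hτ' : ∀ (h : MulAction.stabilizer G ω0) (v : V), h.1 * τ v = τ (h • v) * h.1 := by
    intro h v
    rw [← hτ]; group
  have hact : ∀ (h : MulAction.stabilizer G ω0) (v : V), h.1 • τ v • ω0 = τ (h • v) • ω0 := by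
    intro h v
    rw [← mul_smul, hτ', mul_smul]
    congr 1
    exact h.2
  -- every element of `G` is `τ b * h`
  have hdec : ∀ g : G, ∃ (b : V) (h : MulAction.stabilizer G ω0), g = τ b * h.1 := by
    intro g
    obtain ⟨b, hb⟩ := hbij.2 (g • ω0)
    refine ⟨b, ⟨(τ b)⁻¹ * g, ?_⟩, by simp⟩
    rw [MulAction.mem_stabilizer_iff, mul_smul, inv_smul_eq_iff]
    exact hb.symm
  have hfaith : FaithfulSMul (MulAction.stabilizer G ω0) V := by
    refine ⟨fun {a b} hab => ?_⟩
    apply Subtype.ext
    refine FaithfulSMul.eq_of_smul_eq_smul (α := Ω) fun ω => ?_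
    obtain ⟨v, rfl⟩ := hbij.2 ω
    show a.1 • τ v • ω0 = b.1 • τ v • ω0
    rw [hact, hact, hab v]
  have hBin : Bin (MulAction.stabilizer G ω0) V := by
    intro n x y h1 h2
    rcases Nat.eq_zero_or_pos n with rfl | hn
    · exact ⟨1, fun i => i.elim0⟩
    obtain ⟨g, hg⟩ := hbin (n + 1) (Fin.cons ω0 fun i => τ (x i) • ω0)
      (Fin.cons ω0 fun i => τ (y i) • ω0) (by omega) (by
        intro i j hij
        refine Fin.cases ?_ (fun i => ?_) i <;> refine Fin.cases ?_ (fun j => ?_) j
        · exact ⟨1, by simp, by simp⟩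
        · obtain ⟨h, hh⟩ := h1 j
          refine ⟨h.1, ?_, ?_⟩
          · simp only [Fin.cons_zero]
            exact h.2
          · simp only [Fin.cons_succ]
            rw [hact, hh]
        · obtain ⟨h, hh⟩ := h1 i
          refine ⟨h.1, ?_, ?_⟩
          · simp only [Fin.cons_succ]
            rw [hact, hh]
          · simp only [Fin.cons_zero]
            exact h.2
        · obtain ⟨h, hh⟩ := h2 i j
          refine ⟨τ (y j) * h.1 * (τ (x j))⁻¹, ?_, ?_⟩
          · simp only [Fin.cons_succ]
            have e1 : τ (x i) = τ (x j) * τ (x i - x j) := by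
              rw [← h0]; congr 1; abel
            rw [e1, mul_smul, mul_smul, mul_smul, inv_smul_smul, hact, hh, ← mul_smul, ← h0]
            congr 2
            abel
          · simp only [Fin.cons_succ]
            rw [mul_smul, inv_smul_smul, mul_smul]
            congr 1
            exact h.2)
    have hg0 : g • ω0 = ω0 := by simpa using hg 0
    refine ⟨⟨g, hg0⟩, fun i => ?_⟩
    apply hbij.1
    have := hg i.succ
    simp only [Fin.cons_succ] at this
    show τ ((⟨g, hg0⟩ : MulAction.stabilizer G ω0) • x i) • ω0 = τ (y i) • ω0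
    rw [← hact, ← this]
  have hIrr : Irr (MulAction.stabilizer G ω0) V := by
    intro U hU
    by_cases hbot : U = ⊥
    · exact Or.inl hbot
    right
    let NU : Subgroup G :=
      { carrier := {g | ∃ u ∈ U, g = τ u}
        one_mem' := ⟨0, U.zero_mem, hz.symm⟩
        mul_mem' := by
          rintro _ _ ⟨u, hu, rfl⟩ ⟨w, hw, rfl⟩
          exact ⟨u + w, U.add_mem hu hw, (h0 _ _).symm⟩
        inv_mem' := by
          rintro _ ⟨u, hu, rfl⟩
          exact ⟨-u, U.neg_mem hu, (hneg _).symm⟩ }
    have hN : NU.Normal := by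
      refine ⟨?_⟩
      rintro _ ⟨u, hu, rfl⟩ g
      obtain ⟨b, h, rfl⟩ := hdec g
      refine ⟨h • u, hU h u hu, ?_⟩
      have e1 : τ b * h.1 * τ u * (τ b * h.1)⁻¹ = τ b * (h.1 * τ u * h.1⁻¹) * (τ b)⁻¹ := by group
      rw [e1, hτ, ← h0, ← hneg, ← h0]
      congr 1
      abel
    obtain ⟨u, hu, hu0⟩ : ∃ u ∈ U, u ≠ 0 := by
      by_contra hcon
      push Not at hcon
      exact hbot ((AddSubgroup.eq_bot_iff_forall _).mpr hcon)
    have hfix : MulAction.fixedPoints NU Ω ≠ Set.univ := by
      intro hcon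
      apply hu0
      apply hbij.1
      show τ u • ω0 = τ 0 • ω0
      rw [hz, one_smul]
      have : ω0 ∈ MulAction.fixedPoints NU Ω := by rw [hcon]; trivial
      exact this ⟨τ u, u, hu, rfl⟩
    have htr := MulAction.IsQuasiPreprimitive.isPretransitive_of_normal (G := G) hfix
    rw [eq_top_iff]
    intro v _
    obtain ⟨⟨_, w, hw, rfl⟩, hgw⟩ := htr.exists_smul_eq ω0 (τ v • ω0)
    have : w = v := hbij.1 hgw
    rw [← this]; exact hw
  have hcard : Fintype.card Ω = Nat.card V := by
    rw [← Nat.card_eq_fintype_card]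
    exact (Nat.card_eq_of_bijective _ hbij).symm
  rcases affine_main hBin hIrr hnt with h | h
  · left
    rw [hcard]
    exact h
  · right
    obtain ⟨F, E, iF, fF, iE, fE, iA, e', hfr, h1, h2⟩ := h
    let β : V ≃ Ω := Equiv.ofBijective _ hbij
    have hβ : ∀ v, β v = τ v • ω0 := fun _ => rfl
    refine ⟨F, E, iF, fF, iE, fE, iA, β.symm.trans e'.toEquiv, hfr, fun σ => ⟨?_, ?_⟩⟩
    · rintro ⟨g, rfl⟩
      obtain ⟨b, h, rfl⟩ := hdec g
      obtain ⟨a, φ, ha, haφ⟩ := h1 h
      refine ⟨a, e' b, φ, ha, fun ω => ?_⟩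
      obtain ⟨v, rfl⟩ := β.surjective ω
      have e1 : (MulAction.toPermHom G Ω (τ b * h.1)) (β v) = β (b + h • v) := by
        show (τ b * h.1) • β v = _
        rw [hβ, hβ, mul_smul, hact, ← mul_smul, h0]
      rw [e1]
      show e' (β.symm (β (b + h • v))) = a * φ (e' (β.symm (β v))) + e' b
      rw [β.symm_apply_apply, β.symm_apply_apply, map_add, haφ, add_comm]
    · rintro ⟨a, b, φ, ha, hσ⟩
      obtain ⟨h, hh⟩ := h2 a φ ha
      refine ⟨τ (e'.symm b) * h.1, ?_⟩
      ext ω
      obtain ⟨v, rfl⟩ := β.surjective ω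
      have e1 : (MulAction.toPermHom G Ω (τ (e'.symm b) * h.1)) (β v)
          = β (e'.symm b + h • v) := by
        show (τ (e'.symm b) * h.1) • β v = _
        rw [hβ, hβ, mul_smul, hact, ← mul_smul, h0]
      rw [e1]
      have e2 := hσ (β v)
      have e3 : e' (β.symm (σ (β v))) = a * φ (e' (β.symm (β v))) + b := e2
      rw [β.symm_apply_apply, ← hh] at e3
      apply β.symm.injective
      apply e'.injective
      rw [β.symm_apply_apply, map_add, e3, e'.apply_symm_apply, add_comm]

/-- The binary primitive permutation groups of affine type (the known proof uses the classification of the finite simple groups). Let a finite group G act faithfully and primitively on a finite set Ω, with a non-trivial abelian normal subgroup, and suppose the action is binary: for every n ≥ 2 and all n-tuples I, J of points, if for every pair of positions some element of G carries the corresponding pair of entries of I to those of J, then a single element carries I to J. Then either Ω has a prime number of points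 and every point stabilizer has order at most 2, or Ω can be identified with a field E that is a quadratic extension of a subfield F in such a way that the permutations induced by G are exactly the maps x ↦ a·φ(x) + b with a ∈ E of norm 1 over F, φ an automorphism of E over F and b ∈ E (the affine group of the anisotropic plane orthogonal group). -/
theorem result {G Ω : Type*} [Group G] [Finite G] [MulAction G Ω] [FaithfulSMul G Ω] [Fintype Ω]
    (hprim : MulAction.IsPreprimitive G Ω)
    (haff : ∃ N : Subgroup G, N.Normal ∧ N ≠ ⊥ ∧ IsMulCommutative ↥N)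
    (hbin : ∀ (n : ℕ) (I J : Fin n → Ω), 2 ≤ n →
      (∀ i j : Fin n, i ≠ j → ∃ g : G, g • I i = J i ∧ g • I j = J j) → ∃ g : G, ∀ i, g • I i = J i) :
    ((Fintype.card Ω).Prime ∧ ∀ ω : Ω, Nat.card ↥(MulAction.stabilizer G ω) ≤ 2) ∨
    (∃ (F E : Type) (_ : Field F) (_ : Fintype F) (_ : Field E) (_ : Fintype E) (_ : Algebra F E) (e : Ω ≃ E),
        Module.finrank F E = 2 ∧
        ∀ σ : Equiv.Perm Ω, σ ∈ (MulAction.toPermHom G Ω).range ↔
          ∃ (a b : E) (φ : E ≃ₐ[F] E), Algebra.norm F a = 1 ∧ ∀ ω : Ω, e (σ ω) = a * φ (e ω) + b) := by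
  obtain ⟨N, hN, hN1, hNc⟩ := haff
  -- `N` is transitive
  have hfix : MulAction.fixedPoints N Ω ≠ Set.univ := by
    intro hcon
    apply hN1
    rw [Subgroup.eq_bot_iff_forall]
    intro x hx
    refine FaithfulSMul.eq_of_smul_eq_smul (α := Ω) fun ω => ?_
    rw [one_smul]
    have : ω ∈ MulAction.fixedPoints N Ω := by rw [hcon]; trivial
    exact this ⟨x, hx⟩
  have htr := MulAction.IsQuasiPreprimitive.isPretransitive_of_normal (G := G) hfix
  have hcomm : ∀ x y : N, x * y = y * x := fun x y => hNc.is_comm.comm x y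
  -- regular
  have hreg : ∀ (ω0 : Ω) (n : N), n • ω0 = ω0 → n = 1 := by
    intro ω0 n hn
    apply Subtype.ext
    refine FaithfulSMul.eq_of_smul_eq_smul (α := Ω) fun ω => ?_
    obtain ⟨m, rfl⟩ := htr.exists_smul_eq ω0 ω
    show n • m • ω0 = (1 : G) • m • ω0
    rw [one_smul, ← mul_smul, hcomm, mul_smul, hn]
  have key : ∀ ω0 : Ω, ((Fintype.card Ω).Prime ∧ Nat.card ↥(MulAction.stabilizer G ω0) ≤ 2) ∨
    (∃ (F E : Type) (_ : Field F) (_ : Fintype F) (_ : Field E) (_ : Fintype E) (_ : Algebra F E) (e : Ω ≃ E),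
        Module.finrank F E = 2 ∧
        ∀ σ : Equiv.Perm Ω, σ ∈ (MulAction.toPermHom G Ω).range ↔
          ∃ (a b : E) (φ : E ≃ₐ[F] E), Algebra.norm F a = 1 ∧ ∀ ω : Ω, e (σ ω) = a * φ (e ω) + b) := by
    intro ω0
    let _ : AddCommGroup (Additive N) :=
      { (inferInstance : AddGroup (Additive N)) with
        add_comm := fun a b => hcomm a.toMul b.toMul }
    let _ : DistribMulAction (MulAction.stabilizer G ω0) (Additive N) :=
      { smul := fun h v => Additive.ofMul (MulAut.conjNormal h.1 v.toMul)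
        one_smul := fun v => by
          show Additive.ofMul (MulAut.conjNormal (1 : G) v.toMul) = v
          rw [map_one]; rfl
        mul_smul := fun a b v => by
          show Additive.ofMul (MulAut.conjNormal (a.1 * b.1) v.toMul) =
            Additive.ofMul (MulAut.conjNormal a.1 (MulAut.conjNormal b.1 v.toMul))
          rw [map_mul]; rfl
        smul_zero := fun a => by
          show Additive.ofMul (MulAut.conjNormal a.1 1) = 0
          rw [map_one]; rfl
        smul_add := fun a v w => by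
          show Additive.ofMul (MulAut.conjNormal a.1 (v.toMul * w.toMul)) = _
          rw [map_mul]; rfl }
    have hfin : Finite (Additive N) := inferInstanceAs (Finite N)
    refine transfer (V := Additive N) hprim hbin ω0 (fun v => (v.toMul : N).1) ?_ ?_ ?_ ?_
    · intro v w
      rfl
    · intro h v
      exact (MulAut.conjNormal_apply h.1 v.toMul).symm
    · refine ⟨fun v w hvw => ?_, fun ω => ?_⟩
      · have h1 : (v.toMul : N) • ω0 = (w.toMul : N) • ω0 := hvw
        have h2 := hreg ω0 ((w.toMul : N)⁻¹ * v.toMul) (by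
          rw [mul_smul, h1, inv_smul_smul])
        exact (inv_mul_eq_one.mp h2).symm
      · obtain ⟨m, hm⟩ := htr.exists_smul_eq ω0 ω
        exact ⟨Additive.ofMul m, hm⟩
    · obtain ⟨x, hx, hx1⟩ : ∃ x ∈ N, x ≠ 1 := by
        by_contra hcon
        push Not at hcon
        exact hN1 ((Subgroup.eq_bot_iff_forall _).mpr hcon)
      refine ⟨Additive.ofMul ⟨x, hx⟩, fun h => hx1 ?_⟩
      have h2 : (⟨x, hx⟩ : N) = 1 := h
      exact congrArg Subtype.val h2
  by_cases h : ∃ (F E : Type) (_ : Field F) (_ : Fintype F) (_ : Field E) (_ : Fintype E) (_ : Algebra F E) (e : Ω ≃ E),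
        Module.finrank F E = 2 ∧
        ∀ σ : Equiv.Perm Ω, σ ∈ (MulAction.toPermHom G Ω).range ↔
          ∃ (a b : E) (φ : E ≃ₐ[F] E), Algebra.norm F a = 1 ∧ ∀ ω : Ω, e (σ ω) = a * φ (e ω) + b
  · exact Or.inr h
  · left
    have hne : Nonempty Ω := by
      by_contra hcon
      rw [not_nonempty_iff] at hcon
      apply hfix
      exact Subsingleton.elim _ _
    obtain ⟨ω1⟩ := hne
    exact ⟨((key ω1).resolve_right h).1, fun ω => ((key ω).resolve_right h).2⟩

end Cfsg.Agent.S5753
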