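import Cfsg.Statements.S5754

set_option autoImplicit false
open Cfsg

namespace Cfsg.Agent.S5754

section
variable {F V : Type*} [Field F] [AddCommGroup V] [Module F V]

/-- the reflection map in a nonsingular vector -/
def reflMap (Q : QuadraticForm F V) (v : V) : V →ₗ[F] V where
  toFun x := x - (QuadraticMap.polar Q x v * (Q v)⁻¹) • v
  map_add' x y := by
    rw [QuadraticMap.polar_add_left, add_mul, add_smul]; abel
  map_smul' c x := by
    rw [QuadraticMap.polar_smul_left, RingHom.id_apply, smul_sub, smul_eq_mul, mul_assoc, mul_smul]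

theorem reflMap_apply (Q : QuadraticForm F V) (v x : V) :
    reflMap Q v x = x - (QuadraticMap.polar Q x v * (Q v)⁻¹) • v := rfl

theorem Q_sub_smul (Q : QuadraticForm F V) (v x : V) (c : F) :
    Q (x - c • v) = Q x + c * c * Q v - c * QuadraticMap.polar Q x v := by
  have h : Q (x + (-c) • v) = Q x + Q ((-c) • v) + QuadraticMap.polar Q x ((-c) • v) := by
    rw [QuadraticMap.polar]; ring
  rw [QuadraticMap.polar_smul_right, QuadraticMap.map_smul] at h
  rw [sub_eq_add_neg, ← neg_smul, h]
  simp only [smul_eq_mul]; ring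

theorem reflMap_Q (Q : QuadraticForm F V) (v : V) (hv : Q v ≠ 0) (x : V) : Q (reflMap Q v x) = Q x := by
  rw [reflMap_apply, Q_sub_smul]
  field_simp
  ring

theorem reflMap_involutive (Q : QuadraticForm F V) (v : V) (hv : Q v ≠ 0) (x : V) :
    reflMap Q v (reflMap Q v x) = x := by
  have h1 : QuadraticMap.polar Q v v = 2 * Q v := by
    rw [QuadraticMap.polar_self]; simp [two_mul]
  rw [reflMap_apply Q v (reflMap Q v x), reflMap_apply, QuadraticMap.polar_sub_left, QuadraticMap.polar_smul_left, h1,
    smul_eq_mul]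
  have : (QuadraticMap.polar Q x v - QuadraticMap.polar Q x v * (Q v)⁻¹ * (2 * Q v)) * (Q v)⁻¹
      = - (QuadraticMap.polar Q x v * (Q v)⁻¹) := by
    field_simp; ring
  rw [this, neg_smul]; abel

/-- the reflection as an isometry -/
noncomputable def refl (Q : QuadraticForm F V) (v : V) (hv : Q v ≠ 0) : Q.IsometryEquiv Q :=
  { LinearEquiv.ofInvolutive (reflMap Q v) (reflMap_involutive Q v hv) with
    map_app' := fun x => reflMap_Q Q v hv x }

theorem refl_apply (Q : QuadraticForm F V) (v : V) (hv : Q v ≠ 0) (x : V) :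
    refl Q v hv x = x - (QuadraticMap.polar Q x v * (Q v)⁻¹) • v := rfl

theorem extend {ι : Type*} [DecidableEq ι] (Q : QuadraticForm F V) (hQ : Q.Anisotropic) (w w' : ι → V)
    (hB : ∀ i j, Q (w i - w j) = Q (w' i - w' j)) (h0 : ∀ i, Q (w i) = Q (w' i)) (s : Finset ι) :
    ∃ φ : Q.IsometryEquiv Q, ∀ i ∈ s, φ (w i) = w' i := by
  induction s using Finset.induction_on with
  | empty => exact ⟨QuadraticMap.IsometryEquiv.refl Q, by simp⟩
  | insert a s ha ih =>
    obtain ⟨φ, hφ⟩ := ih
    by_cases hv : φ (w a) = w' a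
    · refine ⟨φ, fun i hi => ?_⟩
      rcases Finset.mem_insert.mp hi with rfl | hi
      · exact hv
      · exact hφ i hi
    · have hv0 : Q (φ (w a) - w' a) ≠ 0 := by
        intro h
        exact hv (sub_eq_zero.mp (hQ _ h))
      refine ⟨φ.trans (refl Q _ hv0), fun i hi => ?_⟩
      have hpol : ∀ x y : V, QuadraticMap.polar Q x y = Q x + Q y - Q (x - y) := by
        intro x y
        have h := Q_sub_smul Q y x 1
        rw [one_smul] at h
        rw [h]; ring
      change refl Q _ hv0 (φ (w i)) = w' i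
      rcases Finset.mem_insert.mp hi with rfl | hi
      · rw [refl_apply]
        have h1 : QuadraticMap.polar Q (φ (w i)) (φ (w i) - w' i) = Q (φ (w i) - w' i) := by
          rw [hpol]
          have : φ (w i) - (φ (w i) - w' i) = w' i := by abel
          rw [this, φ.map_app, h0 i]; ring
        rw [h1, mul_inv_cancel₀ hv0, one_smul]; abel
      · rw [hφ i hi, refl_apply]
        have h1 : QuadraticMap.polar Q (w' i) (φ (w a) - w' a) = 0 := by
          rw [QuadraticMap.polar_sub_right, hpol, hpol, φ.map_app, h0 a]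
          have h2 : w' i - φ (w a) = φ (w i - w a) := by
            rw [map_sub, hφ i hi]
          rw [h2, φ.map_app, hB]; ring
        rw [h1, zero_mul, zero_smul, sub_zero]

end

theorem result {F V : Type*} [Field F] [Finite F] [AddCommGroup V] [Module F V] [Module.Finite F V]
    (Q : QuadraticForm F V) (hQ : Q.Anisotropic) (n : ℕ) (hn : 2 ≤ n) (u u' : Fin n → V)
    (h2 : ∀ i j : Fin n, i ≠ j → ∃ (φ : Q.IsometryEquiv Q) (c : V), φ (u i) + c = u' i ∧ φ (u j) + c = u' j) :
    ∃ (φ : Q.IsometryEquiv Q) (c : V), ∀ i, φ (u i) + c = u' i := by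
  have key : ∀ i j, Q (u i - u j) = Q (u' i - u' j) := by
    intro i j
    by_cases hij : i = j
    · subst hij; simp
    · obtain ⟨φ, c, h1, h2⟩ := h2 i j hij
      rw [← h1, ← h2, add_sub_add_right_eq_sub, ← map_sub, φ.map_app]
  let o : Fin n := ⟨0, by omega⟩
  obtain ⟨φ, hφ⟩ := extend Q hQ (fun i => u i - u o) (fun i => u' i - u' o)
    (by intro i j; simp only [sub_sub_sub_cancel_right]; exact key i j) (fun i => key i o) Finset.univ
  refine ⟨φ, u' o - φ (u o), fun i => ?_⟩
  have h := hφ i (Finset.mem_univ i)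
  simp only [map_sub] at h
  have h3 : φ (u i) + (u' o - φ (u o)) = (φ (u i) - φ (u o)) + u' o := by abel
  rw [h3, h]; abel

end Cfsg.Agent.S5754
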