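import Cfsg.Statements.S5769
import Cfsg.Agent.Lib.E7No65E
import Cfsg.Agent.Lib.Ord65

set_option autoImplicit false
open Cfsg

namespace Cfsg.Agent.S5769

theorem key {H : Subgroup ↥(Cfsg.Lie.chevE7.group (ZMod 2))} {Γ : Type*} [Group Γ] (g : Γ) (hg : orderOf g = 65) :
    IsEmpty (↥H ≃* Γ) := by
  refine ⟨fun e => ?_⟩
  apply Cfsg.Agent.Lib.E7No65.no65 ((e.symm g : H) : ↥(Cfsg.Lie.chevE7.group (ZMod 2)))
  rw [Subgroup.orderOf_coe, MulEquiv.orderOf_eq, hg]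

/-- The Chevalley group of type E₇ over the field with two elements (generated by its root elements in the adjoint representation) has no subgroup isomorphic to any of PSL₂(64), PSp₄(8), PSL₄(8), PSU₄(8) or PSp₆(8). Here F₈ and F₆₄ denote fields with 8 and 64 elements. -/
theorem result {F₈ F₆₄ : Type*} [Field F₈] [Fintype F₈] (h8 : Fintype.card F₈ = 8) [Field F₆₄] [Fintype F₆₄] (h64 : Fintype.card F₆₄ = 64)
    (H : Subgroup ↥(Cfsg.Lie.chevE7.group (ZMod 2))) :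
    IsEmpty (↥H ≃* Matrix.ProjectiveSpecialLinearGroup (Fin 2) F₆₄) ∧ IsEmpty (↥H ≃* Cfsg.PSp 2 F₈) ∧
    IsEmpty (↥H ≃* Matrix.ProjectiveSpecialLinearGroup (Fin 4) F₈) ∧ IsEmpty (↥H ≃* Cfsg.PSU 4 F₆₄ 8) ∧ IsEmpty (↥H ≃* Cfsg.PSp 3 F₈) := by
  obtain ⟨g1, h1⟩ := Cfsg.Agent.Lib.Ord65.psl2 h64
  obtain ⟨g2, h2⟩ := Cfsg.Agent.Lib.Ord65.psp2 h8
  obtain ⟨g3, h3⟩ := Cfsg.Agent.Lib.Ord65.psl4 h8
  obtain ⟨g4, h4⟩ := Cfsg.Agent.Lib.Ord65.psu4 h64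
  obtain ⟨g5, h5⟩ := Cfsg.Agent.Lib.Ord65.psp3 h8
  exact ⟨key g1 h1, key g2 h2, key g3 h3, key g4 h4, key g5 h5⟩

end Cfsg.Agent.S5769
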