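import Cfsg.Statements.S5883
import Cfsg.Agent.Lib.Fi23M3c

set_option autoImplicit false
open Cfsg

namespace Cfsg.Agent.S5883

open Cfsg.Agent.Lib.Fi23M3 Cfsg.Agent.Lib.Fi23Out Cfsg.Agent.Lib.TransLanes Cfsg.Agent.Lib.Fi23Rel

/-- The constant 10 in the statement that H⁽¹⁰⁾ is perfect for every maximal subgroup H of a finite almost simple group cannot be lowered to 9: there exist a finite almost simple group G (with a non-abelian simple normal subgroup of trivial centralizer) and a maximal subgroup H of G whose ninth derived subgroup H⁽⁹⁾ is not perfect, i.e. H⁽¹⁰⁾ ≠ H⁽⁹⁾. (A solvable maximal subgroup of derived length 10 in the Fischer group Fi₂₃ is such an example.) -/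
theorem result :
    ∃ (G : Type) (_ : Group G) (_ : Finite G) (S H : Subgroup G), S.Normal ∧ IsSimpleGroup S ∧ ¬ IsMulCommutative S ∧
      Subgroup.centralizer (S : Set G) = ⊥ ∧ IsCoatom H ∧ derivedSeries H 10 ≠ derivedSeries H 9 := by
  obtain ⟨φ, C, hbase⟩ := ctx_base
  obtain ⟨hsimp, hcard, -⟩ := Cfsg.Agent.Lib.Fi23Ord.main
  have hfin : Finite GF := Nat.finite_of_card_ne_zero (by rw [hcard]; norm_num)
  have hcen : Subgroup.centralizer ((⊤ : Subgroup GF) : Set GF) = ⊥ := by
    rw [Subgroup.eq_bot_iff_forall]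
    intro g hg
    apply hbase
    intro b hb
    have hb' : b < 31671 := by
      have : ∀ b ∈ [2, 1640, 224, 1, 0], b < 31671 := by decide
      exact this b hb
    rw [C.fix_iff hb']
    exact (Subgroup.mem_centralizer_iff.mp hg (C.T b) trivial).symm
  refine ⟨GF, inferInstance, hfin, ⊤, HH φ, inferInstance, ?_, ?_, hcen, coatom C hcard, ?_⟩
  · haveI : IsSimpleGroup GF := hsimp
    exact (Subgroup.topEquiv (G := GF)).isSimpleGroup
  · intro hcomm
    have h1 : ∀ g : GF, g = 1 := by
      intro g
      have h2 : g ∈ Subgroup.centralizer ((⊤ : Subgroup GF) : Set GF) := by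
        rw [Subgroup.mem_centralizer_iff]
        intro h _
        exact congrArg Subtype.val (hcomm.is_comm.comm (⟨h, trivial⟩ : (⊤ : Subgroup GF)) ⟨g, trivial⟩)
      rw [hcen] at h2
      exact Subgroup.mem_bot.mp h2
    have h3 : Subsingleton GF := ⟨fun a b => by rw [h1 a, h1 b]⟩
    have h4 : Nat.card GF = 1 := Nat.card_of_subsingleton 1
    rw [h4] at hcard
    norm_num at hcard
  · haveI := solv C hbase
    obtain ⟨x, hx, hx1⟩ := D9 C hbase
    exact not_perfect hx hx1

end Cfsg.Agent.S5883
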