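import Cfsg.Statements.S5885

set_option autoImplicit false
open Cfsg

namespace Cfsg.Agent.S5885

open MulAction
open scoped Pointwise

/-- If all primitive groups of degree `n` contain the alternating group, every even permutation
is induced by an element of a primitive group. -/
theorem exists_even {G Ω : Type*} [Group G] [MulAction G Ω] [Fintype Ω] [DecidableEq Ω]
    (n : ℕ) (hn : Fintype.card Ω = n)
    (hA : ∀ P : Subgroup (Equiv.Perm (Fin n)), MulAction.IsPreprimitive P (Fin n) →
      alternatingGroup (Fin n) ≤ P)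
    (hprim : IsPreprimitive G Ω) (σ : Equiv.Perm Ω) (hσ : Equiv.Perm.sign σ = 1) :
    ∃ g : G, ∀ x : Ω, g • x = σ x := by
  let e : Ω ≃ Fin n := Fintype.equivFinOfCardEq hn
  let φ : G →* Equiv.Perm (Fin n) :=
    (e.permCongrHom.toMonoidHom).comp (MulAction.toPermHom G Ω)
  have hφ : ∀ (g : G) (x : Fin n), φ g x = e (g • e.symm x) := fun g x => rfl
  have hP : IsPreprimitive φ.range (Fin n) := by
    let f : Ω →ₑ[φ.rangeRestrict] Fin n :=
      { toFun := e
        map_smul' := fun g x => by
          change e (g • x) = φ g (e x)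
          rw [hφ, Equiv.symm_apply_apply] }
    exact IsPreprimitive.of_surjective (f := f) e.surjective
  have hmem : e.permCongrHom σ ∈ alternatingGroup (Fin n) := by
    rw [Equiv.Perm.mem_alternatingGroup]
    change Equiv.Perm.sign (e.permCongr σ) = 1
    rw [Equiv.Perm.sign_permCongr, hσ]
  obtain ⟨g, hg⟩ := hA _ hP hmem
  refine ⟨g, fun x => ?_⟩
  have := congrArg (fun τ : Equiv.Perm (Fin n) => e.symm (τ (e x))) hg
  simp only [hφ] at this
  rw [Equiv.symm_apply_apply, Equiv.symm_apply_apply] at this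
  rw [this]
  change e.symm (e (σ (e.symm (e x)))) = σ x
  rw [Equiv.symm_apply_apply, Equiv.symm_apply_apply]

theorem exists_swaps {G Ω : Type*} [Group G] [MulAction G Ω] [Fintype Ω] [DecidableEq Ω]
    (hev : ∀ σ : Equiv.Perm Ω, Equiv.Perm.sign σ = 1 → ∃ g : G, ∀ x : Ω, g • x = σ x)
    {p q r s : Ω} (hpq : p ≠ q) (hrs : r ≠ s) :
    ∃ g : G, ∀ x : Ω, g • x = Equiv.swap p q (Equiv.swap r s x) := by
  obtain ⟨g, hg⟩ := hev (Equiv.swap p q * Equiv.swap r s) (by
    rw [map_mul, Equiv.Perm.sign_swap hpq, Equiv.Perm.sign_swap hrs]; rfl)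
  exact ⟨g, fun x => hg x⟩

theorem mem_stab_of_forall {G Ω : Type*} [Group G] [MulAction G Ω] {g : G} {B : Set Ω}
    [Finite Ω] (h : ∀ x ∈ B, g • x ∈ B) : g ∈ stabilizer G B := by
  rw [mem_stabilizer_iff]
  have hsub : g • B ⊆ B := by
    rintro _ ⟨x, hx, rfl⟩
    exact h x hx
  apply Set.eq_of_subset_of_ncard_le hsub
  rw [Set.ncard_smul_set]

/-- Core statement, in terms of actions. -/
theorem core {G Ω : Type*} [Group G] [MulAction G Ω] [Fintype Ω] [DecidableEq Ω]
    (hodd : Odd (Fintype.card Ω)) (htr : IsPretransitive G Ω)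
    (hev : ∀ σ : Equiv.Perm Ω, Equiv.Perm.sign σ = 1 → ∃ g : G, ∀ x : Ω, g • x = σ x)
    (a : Ω) (H K : Subgroup G) (hHM : H ≤ stabilizer G a)
    (hmax : ∀ J : Subgroup G, H ≤ J → J ≤ stabilizer G a → J = H ∨ J = stabilizer G a)
    (hK : IsCoatom K) (hHK : H = stabilizer G a ⊓ K) (hKM : ¬ K ≤ stabilizer G a)
    (L : Subgroup G) (hHL : H ≤ L) (hLK : L ≤ K) : L = H ∨ L = K := by
  classical
  -- B = L-orbit of a
  set B : Set Ω := orbit L a with hB
  have haB : a ∈ B := mem_orbit_self a
  have hblock : ∀ k ∈ K, (k • B ∩ B).Nonempty → k ∈ L := by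
    rintro k hk ⟨_, ⟨_, ⟨l₁, rfl⟩, rfl⟩, ⟨l₂, h⟩⟩
    -- l₂ • a = k • (l₁ • a)
    have h1 : (l₂ : G) • a = k • ((l₁ : G) • a) := h
    have h2 : (l₂ : G)⁻¹ * k * l₁ ∈ H := by
      rw [hHK]
      refine ⟨?_, ?_⟩
      · change ((l₂ : G)⁻¹ * k * l₁) • a = a
        rw [mul_smul, mul_smul, ← h1, inv_smul_smul]
      · exact K.mul_mem (K.mul_mem (K.inv_mem (hLK l₂.2)) hk) (hLK l₁.2)
    have h3 := L.mul_mem (L.mul_mem l₂.2 (hHL h2)) (L.inv_mem l₁.2)
    have h4 : (l₂ : G) * ((l₂ : G)⁻¹ * k * l₁) * (l₁ : G)⁻¹ = k := by group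
    rwa [h4] at h3
  have hLB : ∀ l ∈ L, ∀ x ∈ B, l • x ∈ B := by
    rintro l hl _ ⟨l', rfl⟩
    exact ⟨⟨l, hl⟩ * l', by
      change ((⟨l, hl⟩ : L) * l') • a = l • (l' • a)
      rw [mul_smul]; rfl⟩
  have hblock' : ∀ k ∈ K, ∀ x ∈ B, k • x ∈ B → k ∈ L := fun k hk x hx hkx =>
    hblock k hk ⟨k • x, ⟨x, hx, rfl⟩, hkx⟩
  set Δ : Set Ω := orbit K a with hΔ
  have haΔ : a ∈ Δ := mem_orbit_self a
  have hBΔ : B ⊆ Δ := by
    rintro _ ⟨l, rfl⟩
    exact ⟨⟨l, hLK l.2⟩, rfl⟩
  have hKΔ : ∀ k ∈ K, ∀ x ∈ Δ, k • x ∈ Δ := by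
    rintro l hl _ ⟨l', rfl⟩
    exact ⟨⟨l, hl⟩ * l', by
      change ((⟨l, hl⟩ : K) * l') • a = l • (l' • a)
      rw [mul_smul]; rfl⟩
  -- if B = {a} then L = H
  by_cases hBa : ∀ x ∈ B, x = a
  · left
    apply le_antisymm _ hHL
    intro l hl
    rw [hHK]
    exact ⟨hBa _ (hLB l hl a haB), hLK hl⟩
  push Not at hBa
  obtain ⟨y, hyB, hya⟩ := hBa
  -- if B = Δ then L = K
  by_cases hBΔ' : Δ ⊆ B
  · right
    apply le_antisymm hLK
    intro k hk
    exact hblock' k hk a haB (hBΔ' (hKΔ k hk a haΔ))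
  exfalso
  rw [Set.not_subset] at hBΔ'
  obtain ⟨z, hzΔ, hzB⟩ := hBΔ'
  have hza : z ≠ a := fun h => hzB (h ▸ haB)
  have hyz : y ≠ z := fun h => hzB (h ▸ hyB)
  by_cases hΔu : Δ = Set.univ
  · -- K transitive
    have hKtr : ∀ x y : Ω, ∃ k ∈ K, k • x = y := by
      intro x y
      have hx : x ∈ Δ := by rw [hΔu]; trivial
      have hy : y ∈ Δ := by rw [hΔu]; trivial
      obtain ⟨k₁, hk₁⟩ := hx
      obtain ⟨k₂, hk₂⟩ := hy
      refine ⟨k₂ * (k₁ : G)⁻¹, K.mul_mem k₂.2 (K.inv_mem k₁.2), ?_⟩
      have e1 : (k₁ : G) • a = x := hk₁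
      have e2 : (k₂ : G) • a = y := hk₂
      rw [mul_smul, ← e1, inv_smul_smul, e2]
    -- the block of z
    obtain ⟨kz, hkz, hkz'⟩ := hKtr a z
    -- there is a point outside B and kz • B
    have hex : ∃ w, w ∉ B ∧ w ∉ kz • B := by
      by_contra hcon
      push Not at hcon
      have hdisj : Disjoint B (kz • B) := by
        rw [Set.disjoint_left]
        rintro x hx hx'
        have h1 := hblock kz hkz ⟨x, hx', hx⟩
        exact hzB (hkz' ▸ hLB kz h1 a haB)
      have hun : B ∪ kz • B = Set.univ := by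
        rw [Set.eq_univ_iff_forall]
        intro x
        by_cases hx : x ∈ B
        · exact Or.inl hx
        · exact Or.inr (hcon x hx)
      have hc : (B ∪ kz • B).ncard = Fintype.card Ω := by
        rw [hun, Set.ncard_univ, Nat.card_eq_fintype_card]
      rw [Set.ncard_union_eq hdisj (Set.toFinite _) (Set.toFinite _), Set.ncard_smul_set] at hc
      rw [← hc] at hodd
      exact (Nat.not_odd_iff_even.mpr ⟨_, rfl⟩) hodd
    obtain ⟨w, hwB, hwB'⟩ := hex
    have hzw : z ≠ w := fun h => hwB' (h ▸ ⟨a, haB, hkz'⟩)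
    have hwa : w ≠ a := fun h => hwB (h ▸ haB)
    have hyw : y ≠ w := fun h => hwB (h ▸ hyB)
    -- second point of the block of z
    set z' : Ω := kz • y with hz'
    have hz'z : z' ≠ z := by
      intro h
      rw [hz', ← hkz'] at h
      exact hya (smul_left_cancel kz h)
    have hz'B : z' ∉ B := by
      intro h
      have h1 := hblock' kz hkz y hyB h
      exact hzB (hkz' ▸ hLB kz h1 a haB)
    have hz'w : z' ≠ w := fun h => hwB' (h ▸ ⟨y, hyB, rfl⟩)
    -- second point of the block of w
    obtain ⟨kw, hkw, hkw'⟩ := hKtr a w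
    set w' : Ω := kw • y with hw'
    have hw'w : w' ≠ w := by
      intro h
      rw [hw', ← hkw'] at h
      exact hya (smul_left_cancel kw h)
    have hw'B : w' ∉ B := by
      intro h
      have h1 := hblock' kw hkw y hyB h
      exact hwB (hkw' ▸ hLB kw h1 a haB)
    -- blocks of z and w are disjoint
    have hwz : ∀ x, x ∈ kz • B → x ∉ kw • B := by
      rintro x hx hx'
      have h1 : kw⁻¹ * kz ∈ L := by
        apply hblock _ (K.mul_mem (K.inv_mem hkw) hkz)
        refine ⟨kw⁻¹ • x, ?_, ?_⟩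
        · rw [mul_smul]; exact Set.smul_mem_smul_set hx
        · exact Set.mem_smul_set_iff_inv_smul_mem.mp hx'
      apply hwB'
      rw [Set.mem_smul_set_iff_inv_smul_mem]
      have h2 : kz⁻¹ • w = (kw⁻¹ * kz)⁻¹ • a := by
        rw [← hkw', mul_inv_rev, inv_inv, mul_smul]
      rw [h2]
      exact hLB _ (L.inv_mem h1) a haB
    have hw'z : w' ≠ z := fun h => by
      apply hwz z ⟨a, haB, hkz'⟩
      rw [← h]; exact ⟨y, hyB, rfl⟩
    -- J = stabilizer of a and B
    rcases hmax (stabilizer G a ⊓ stabilizer G B) (by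
        intro h hh
        refine ⟨hHM hh, mem_stab_of_forall (hLB h (hHL hh))⟩) inf_le_left with hJ | hJ
    · -- the element cycling z → w → w' → z  fixes B, hence lies in K
      obtain ⟨g, hg⟩ := exists_swaps (G := G) hev hzw (Ne.symm hw'w)
      -- g x = swap z w (swap w w' x): z ↦ w, w ↦ w', w' ↦ z
      have hgB : ∀ x ∈ B, g • x = x := by
        intro x hx
        have h1 : x ≠ z := fun h => hzB (h ▸ hx)
        have h2 : x ≠ w := fun h => hwB (h ▸ hx)
        have h3 : x ≠ w' := fun h => hw'B (h ▸ hx)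
        rw [hg, Equiv.swap_apply_of_ne_of_ne h2 h3, Equiv.swap_apply_of_ne_of_ne h1 h2]
      have hgH : g ∈ H := by
        rw [← hJ]
        exact ⟨hgB a haB, mem_stab_of_forall (fun x hx => by rw [hgB x hx]; exact hx)⟩
      have hgK : g ∈ K := by rw [hHK] at hgH; exact hgH.2
      -- g z' = z' or z' = w' ... z' ≠ w' since blocks disjoint
      have hz'w' : z' ≠ w' := fun h => by
        apply hwz z' ⟨y, hyB, rfl⟩
        rw [h]; exact ⟨y, hyB, rfl⟩
      have hgz' : g • z' = z' := by
        rw [hg, Equiv.swap_apply_of_ne_of_ne hz'w hz'w', Equiv.swap_apply_of_ne_of_ne hz'z hz'w]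
      have hgz : g • z = w := by
        rw [hg, Equiv.swap_apply_of_ne_of_ne hzw (Ne.symm hw'z), Equiv.swap_apply_left]
      -- kz⁻¹ g kz maps y to y and a to kz⁻¹ w
      have h1 : kz⁻¹ * g * kz ∈ L := by
        apply hblock' _ (K.mul_mem (K.mul_mem (K.inv_mem hkz) hgK) hkz) y hyB
        rw [mul_smul, mul_smul, ← hz', hgz', hz', inv_smul_smul]
        exact hyB
      have h2 := hLB _ h1 a haB
      rw [mul_smul, mul_smul, hkz', hgz] at h2
      exact hwB' (Set.mem_smul_set_iff_inv_smul_mem.mpr h2)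
    · -- M stabilizes B: use y → z
      obtain ⟨g, hg⟩ := exists_swaps (G := G) hev hyz hzw
      -- g x = swap y z (swap z w x): y ↦ z
      have hga : g • a = a := by
        rw [hg, Equiv.swap_apply_of_ne_of_ne (Ne.symm hza) (Ne.symm hwa),
          Equiv.swap_apply_of_ne_of_ne (Ne.symm hya) (Ne.symm hza)]
      have hgM : g ∈ stabilizer G a ⊓ stabilizer G B := by rw [hJ]; exact hga
      have hgy : g • y = z := by
        rw [hg, Equiv.swap_apply_of_ne_of_ne hyz hyw, Equiv.swap_apply_left]
      have h1 : g • y ∈ g • B := Set.smul_mem_smul_set hyB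
      rw [show g • B = B from hgM.2, hgy] at h1
      exact hzB h1
  · -- K intransitive: K = stabilizer of Δ
    have hKeq : ∀ g : G, (∀ x ∈ Δ, g • x ∈ Δ) → g ∈ K := by
      have hle : K ≤ stabilizer G Δ := fun k hk => mem_stab_of_forall (hKΔ k hk)
      have hne : stabilizer G Δ ≠ ⊤ := by
        intro htop
        apply hΔu
        rw [Set.eq_univ_iff_forall]
        intro x
        obtain ⟨g, hg⟩ := htr.exists_smul_eq a x
        have hgs : g ∈ stabilizer G Δ := by rw [htop]; exact Subgroup.mem_top _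
        have h1 : g • a ∈ g • Δ := Set.smul_mem_smul_set haΔ
        rw [show g • Δ = Δ from hgs, hg] at h1
        exact h1
      have heq : K = stabilizer G Δ := (hK.le_iff.mp hle).resolve_left hne |>.symm
      intro g hg
      rw [heq]
      exact mem_stab_of_forall hg
    -- find an even permutation fixing a, mapping y to z, preserving Δ
    suffices hex : ∃ g : G, g • a = a ∧ g • y = z ∧ ∀ x ∈ Δ, g • x ∈ Δ by
      obtain ⟨g, hga, hgy, hgΔ⟩ := hex
      have hgL := hblock' g (hKeq g hgΔ) a haB (by rw [hga]; exact haB)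
      exact hzB (hgy ▸ hLB g hgL y hyB)
    have hyΔ : y ∈ Δ := hBΔ hyB
    -- complement nonempty
    have hc : ∃ u, u ∉ Δ := by
      by_contra hcon
      push Not at hcon
      exact hΔu (Set.eq_univ_iff_forall.mpr hcon)
    obtain ⟨u, hu⟩ := hc
    by_cases hc2 : ∃ v, v ∉ Δ ∧ v ≠ u
    · obtain ⟨v, hv, hvu⟩ := hc2
      obtain ⟨g, hg⟩ := exists_swaps (G := G) hev hyz (Ne.symm hvu)
      have hfix : ∀ x ∈ Δ, g • x = Equiv.swap y z x := by
        intro x hx
        have h1 : x ≠ u := fun h => hu (h ▸ hx)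
        have h2 : x ≠ v := fun h => hv (h ▸ hx)
        rw [hg, Equiv.swap_apply_of_ne_of_ne h1 h2]
      refine ⟨g, ?_, ?_, ?_⟩
      · rw [hfix a haΔ, Equiv.swap_apply_of_ne_of_ne (Ne.symm hya) (Ne.symm hza)]
      · rw [hfix y hyΔ, Equiv.swap_apply_left]
      · intro x hx
        rw [hfix x hx]
        rcases eq_or_ne x y with rfl | h1
        · rw [Equiv.swap_apply_left]; exact hzΔ
        rcases eq_or_ne x z with rfl | h2
        · rw [Equiv.swap_apply_right]; exact hyΔ
        rw [Equiv.swap_apply_of_ne_of_ne h1 h2]; exact hx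
    · push Not at hc2
      -- Δ = complement of u; find a fourth point in Δ
      have hΔeq : Δ = {u}ᶜ := by
        ext x
        rw [Set.mem_compl_iff, Set.mem_singleton_iff]
        constructor
        · intro hx h; exact hu (h ▸ hx)
        · intro hx
          by_contra hcon
          exact hx (hc2 x hcon)
      have hex4 : ∃ w, w ≠ u ∧ w ≠ a ∧ w ≠ y ∧ w ≠ z := by
        by_contra hcon
        push Not at hcon
        have hau : a ≠ u := fun h => hu (h ▸ haΔ)
        have hyu : y ≠ u := fun h => hu (h ▸ hyΔ)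
        have hzu : z ≠ u := fun h => hu (h ▸ hzΔ)
        have huniv : (Finset.univ : Finset Ω) = {u, a, y, z} := by
          ext x
          simp only [Finset.mem_univ, Finset.mem_insert, Finset.mem_singleton, true_iff]
          by_contra h
          push Not at h
          exact h.2.2.2 (hcon x h.1 h.2.1 h.2.2.1)
        have hcard : Fintype.card Ω = 4 := by
          rw [← Finset.card_univ, huniv]
          rw [Finset.card_insert_of_notMem, Finset.card_insert_of_notMem,
            Finset.card_insert_of_notMem, Finset.card_singleton]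
          · simpa using hyz
          · simp [Ne.symm hya, Ne.symm hza]
          · simp [Ne.symm hau, Ne.symm hyu, Ne.symm hzu]
        rw [hcard] at hodd
        exact absurd hodd (by decide)
      obtain ⟨w, hwu, hwa, hwy, hwz⟩ := hex4
      obtain ⟨g, hg⟩ := exists_swaps (G := G) hev hyz (Ne.symm hwz)
      -- g x = swap y z (swap z w x)
      refine ⟨g, ?_, ?_, ?_⟩
      · rw [hg, Equiv.swap_apply_of_ne_of_ne (Ne.symm hza) (Ne.symm hwa),
          Equiv.swap_apply_of_ne_of_ne (Ne.symm hya) (Ne.symm hza)]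
      · rw [hg, Equiv.swap_apply_of_ne_of_ne hyz (Ne.symm hwy), Equiv.swap_apply_left]
      · intro x hx
        have huz : u ≠ z := fun h => hu (h ▸ hzΔ)
        have huy : u ≠ y := fun h => hu (h ▸ hyΔ)
        have hgu : g • u = u := by
          rw [hg, Equiv.swap_apply_of_ne_of_ne huz (Ne.symm hwu),
            Equiv.swap_apply_of_ne_of_ne huy huz]
        rw [hΔeq, Set.mem_compl_iff, Set.mem_singleton_iff] at hx ⊢
        intro h
        apply hx
        rw [← hgu] at h
        exact smul_left_cancel g h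

/-- Let n be an odd positive integer such that every primitive permutation group of degree n contains the alternating group (so the symmetric and alternating groups are the only primitive groups of degree n). Let G be a finite group, M a maximal subgroup of G of index n, and H a maximal subgroup of M. Then H is a second maximal subgroup of G: H is maximal in every maximal subgroup K of G containing H. -/
theorem result {G : Type*} [Group G]
    [Finite G] (n : ℕ) (hodd : Odd n)
    (hA : ∀ P : Subgroup (Equiv.Perm (Fin n)), MulAction.IsPreprimitive P (Fin n) → alternatingGroup (Fin n) ≤ P)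
    (M : Subgroup G) (hM : IsCoatom M) (hn : M.index = n) (H : Subgroup G) (hHM : H ≤ M)
    (hmax : IsCoatom (H.subgroupOf M)) (K : Subgroup G) (hK : IsCoatom K) (hHK : H ≤ K) :
    IsCoatom (H.subgroupOf K) := by
  classical
  by_cases hKM : K = M
  · subst hKM; exact hmax
  -- maximality of H in M in elementary form
  have hmax' : ∀ J : Subgroup G, H ≤ J → J ≤ M → J = H ∨ J = M := by
    intro J hHJ hJM
    rcases hmax.le_iff.mp (show H.subgroupOf M ≤ J.subgroupOf M from
      fun x hx => hHJ hx) with h | h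
    · right
      rw [Subgroup.subgroupOf_eq_top] at h
      exact le_antisymm hJM h
    · left
      rw [Subgroup.subgroupOf_inj, inf_eq_left.mpr hJM, inf_eq_left.mpr hHM] at h
      exact h
  have hHeq : H = M ⊓ K := by
    rcases hmax' (M ⊓ K) (le_inf hHM hHK) inf_le_left with h | h
    · exact h.symm
    · exfalso
      have h1 : M ≤ K := inf_eq_left.mp h
      rcases hM.le_iff.mp h1 with h2 | h2
      · exact hK.1 h2
      · exact hKM h2
  have hnt : ¬ K ≤ M := by
    intro h
    rcases hK.le_iff.mp h with h2 | h2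
    · exact hM.1 h2
    · exact hKM h2.symm
  -- the action on cosets
  have hfin : Finite (G ⧸ M) := inferInstance
  have := Fintype.ofFinite (G ⧸ M)
  have hcard : Fintype.card (G ⧸ M) = n := by
    rw [← Nat.card_eq_fintype_card, ← hn]; rfl
  set a : G ⧸ M := ((1 : G) : G ⧸ M) with ha
  have hstab : stabilizer G a = M := by
    rw [ha]; exact stabilizer_quotient M
  have hnontriv : Nontrivial (G ⧸ M) := by
    rw [← Fintype.one_lt_card_iff_nontrivial, hcard, ← hn]
    have h0 : M.index ≠ 0 := Subgroup.index_ne_zero_of_finite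
    have h1 : M.index ≠ 1 := fun h => hM.1 (Subgroup.index_eq_one.mp h)
    omega
  have hprim : IsPreprimitive G (G ⧸ M) := by
    rw [← isCoatom_stabilizer_iff_preprimitive G a, hstab]
    exact hM
  have hcore := core (G := G) (Ω := G ⧸ M) (by rw [hcard]; exact hodd) inferInstance
    (exists_even n hcard hA hprim) a H K (by rw [hstab]; exact hHM)
    (by rw [hstab]; exact hmax') hK (by rw [hstab]; exact hHeq) (by rw [hstab]; exact hnt)
  constructor
  · rw [Ne, Subgroup.subgroupOf_eq_top]
    intro h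
    exact hnt (h.trans hHM)
  · intro L hL
    rcases hcore (L.map K.subtype) (by
      have h1 : H = (H.subgroupOf K).map K.subtype := by
        rw [Subgroup.subgroupOf_map_subtype, inf_eq_left.mpr hHK]
      rw [h1]
      exact Subgroup.map_mono hL.le) (Subgroup.map_subtype_le L) with h | h
    · exfalso
      have h1 : L = H.subgroupOf K := by
        rw [← h]
        ext x
        rw [Subgroup.mem_subgroupOf, Subgroup.mem_map]
        exact ⟨fun hx => ⟨x, hx, rfl⟩, fun ⟨y, hy, hyx⟩ => by
          rwa [← Subtype.ext hyx]⟩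
      exact hL.ne h1.symm
    · apply Subgroup.map_injective K.subtype_injective
      rw [h, ← MonoidHom.range_eq_map, Subgroup.range_subtype]

end Cfsg.Agent.S5885
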