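import Cfsg.Statements.S5886
import Cfsg.Agent.Lib.GeoBridge
import Cfsg.Agent.Lib.SLMax
import Cfsg.Agent.Lib.ExtBrH94
-- import your own Cfsg.Agent.* helpers here

set_option autoImplicit false
open Cfsg

namespace Cfsg.Agent.S5886


open Module Cfsg.Agent.Lib.GeoBridge Cfsg.Agent.Lib.SLMax Cfsg.Agent.Lib.ExtBrH94
open scoped MatrixGroups

/-- Let F be a finite field, n a positive integer and r a prime that divides n with r < n. Let K be a subalgebra of the algebra of n × n matrices over F which is a field of degree r over F (commutative, every non-zero element invertible, of dimension r over F; it contains the scalars). Then the normaliser N of K in GL_n(F) — the invertible F-linear maps that are semilinear over the field K, a group of type ΓL_{n/r}(F_{q^r}) for |F| = q — is a maximal subgroup of GL_n(F), and N ∩ SL_n(F) is a maximal subgroup of SL_n(F). No lower bound on n is assumed. -/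
theorem result {F : Type*} [Field F]
    [Fintype F] (n r : ℕ) (hr : r.Prime) (hrn : r ∣ n) (hlt : r < n) (K : Subalgebra F (Matrix (Fin n) (Fin n) F))
    (hK : Cfsg.Geo.IsFieldSubalgebra r K) :
    IsCoatom (Cfsg.Geo.subalgebraNormalizer K) ∧
      Cfsg.Geo.IsMaximalIn (Cfsg.Geo.specialLinear (Fin n) F)
        (Cfsg.Geo.subalgebraNormalizer K ⊓ Cfsg.Geo.specialLinear (Fin n) F) := by
  classical
  have hn0 : 0 < n := by omega
  have : Nonempty (Fin n) := ⟨⟨0, hn0⟩⟩
  let _ : Field K := (isField_of hK).toField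
  have hfV : finrank F (Fin n → F) = n := by rw [finrank_fintype_fun_eq_card, Fintype.card_fin]
  have hfK : finrank F K = r := hK.finrank_eq
  have hr2 := hr.two_le
  have : FiniteDimensional F K := FiniteDimensional.of_finrank_pos (by rw [hfK]; omega)
  -- the key fact
  have key : ∀ M : Subgroup ((Fin n → F) ≃ₗ[F] (Fin n → F)),
      (∀ g : GL (Fin n) F, g ∈ Cfsg.Geo.subalgebraNormalizer K → g ∈ Cfsg.Geo.specialLinear (Fin n) F → le g ∈ M) →
      (∃ g : GL (Fin n) F, le g ∈ M ∧ g ∉ Cfsg.Geo.subalgebraNormalizer K) →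
      ∀ g ∈ Cfsg.Geo.specialLinear (Fin n) F, le g ∈ M := by
    intro M h1 h2
    refine sl_le M (main_alg F K (Fin n → F) (rho K) (by rw [hfK]; exact hr) (by rw [hfK, hfV]; exact hlt) ?_ ?_)
    · intro g hg hc
      have := h1 (le.symm g) (by
        rw [mem_normalizer_iff, MulEquiv.apply_symm_apply]
        intro a
        exact ⟨a, hc a⟩) (by rw [mem_specialLinear_iff, MulEquiv.apply_symm_apply]; exact hg)
      rwa [MulEquiv.apply_symm_apply] at this
    · obtain ⟨g, hg, hgN⟩ := h2
      refine ⟨le g, hg, ?_⟩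
      rwa [mem_normalizer_iff] at hgN
  -- a transvection outside
  obtain ⟨t, htS, htN⟩ : ∃ t : GL (Fin n) F, t ∈ Cfsg.Geo.specialLinear (Fin n) F ∧
      t ∉ Cfsg.Geo.subalgebraNormalizer K := by
    obtain ⟨β, hβ⟩ : ∃ β : Dual F (Fin n → F), β ≠ 0 := by
      have : Nontrivial (Dual F (Fin n → F)) := by
        rw [← Module.finrank_pos_iff (R := F), Subspace.dual_finrank_eq, hfV]
        exact hn0
      exact exists_ne 0
    obtain ⟨u, hu, hβu⟩ : ∃ u, u ≠ 0 ∧ β u = 0 := by
      have h1 := LinearMap.finrank_range_add_finrank_ker β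
      have h2 : finrank F (LinearMap.range β) ≤ 1 := by
        have := Submodule.finrank_le (LinearMap.range β)
        rwa [finrank_self] at this
      have h3 : 0 < finrank F (LinearMap.ker β) := by
        rw [hfV] at h1
        omega
      obtain ⟨x, hx⟩ := (Module.finrank_pos_iff_exists_ne_zero).1 h3
      exact ⟨x.1, fun h => hx (Subtype.ext h), x.2⟩
    refine ⟨le.symm (tr u β hβu), tr_mem_sl _ _ _, ?_⟩
    rw [mem_normalizer_iff, MulEquiv.apply_symm_apply]
    exact tr_not F K (Fin n → F) (rho K) (by rw [hfK]; exact hr2) (by rw [hfV]; omega) hu hβ hβu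
  refine ⟨⟨fun h => htN (by rw [h]; trivial), fun M hM => ?_⟩, isMaximalIn_of ?_ ?_⟩
  · -- the general linear group
    have hNM := hM.le
    have hdet : ∀ g : GL (Fin n) F, ∃ x : GL (Fin n) F, x ∈ Cfsg.Geo.subalgebraNormalizer K ∧
        g * x⁻¹ ∈ Cfsg.Geo.specialLinear (Fin n) F := by
      intro g
      obtain ⟨x, hx, hxc⟩ := exists_det F K (Fin n → F) (rho K) (by rw [hfV]; exact hn0)
        (δ := LinearMap.det ((le g : (Fin n → F) ≃ₗ[F] (Fin n → F)) : (Fin n → F) →ₗ[F] (Fin n → F)))
        (LinearEquiv.isUnit_det' _).ne_zero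
      refine ⟨le.symm x, ?_, ?_⟩
      · rw [mem_normalizer_iff, MulEquiv.apply_symm_apply]
        intro a
        exact ⟨a, hxc a⟩
      · rw [mem_specialLinear_iff, map_mul, map_inv, MulEquiv.apply_symm_apply]
        have h1 : ((le g * x⁻¹ : (Fin n → F) ≃ₗ[F] (Fin n → F)) : (Fin n → F) →ₗ[F] (Fin n → F)) ∘ₗ
            (x : (Fin n → F) →ₗ[F] (Fin n → F)) = ((le g : (Fin n → F) ≃ₗ[F] (Fin n → F)) : (Fin n → F) →ₗ[F] (Fin n → F)) := by
          apply LinearMap.ext
          intro y
          show (le g * x⁻¹ * x : (Fin n → F) ≃ₗ[F] (Fin n → F)) y = le g y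
          rw [inv_mul_cancel_right]
        have h2 := congrArg LinearMap.det h1
        rw [LinearMap.det_comp, hx] at h2
        exact (mul_eq_right₀ (LinearEquiv.isUnit_det' _).ne_zero).1 h2
    obtain ⟨m, hm, hmN⟩ := SetLike.exists_of_lt hM
    obtain ⟨x, hxN, hxS⟩ := hdet m
    have hall := key ((M ⊓ Cfsg.Geo.specialLinear (Fin n) F).map (le : GL (Fin n) F ≃* _).toMonoidHom)
      (fun g hg hg' => ⟨g, ⟨hNM hg, hg'⟩, rfl⟩)
      ⟨m * x⁻¹, ⟨_, ⟨M.mul_mem hm (M.inv_mem (hNM hxN)), hxS⟩, rfl⟩, fun h => hmN (by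
        have := mul_mem h hxN
        rwa [inv_mul_cancel_right] at this)⟩
    rw [eq_top_iff]
    intro g _
    obtain ⟨y, hyN, hyS⟩ := hdet g
    obtain ⟨z, hz, hzg⟩ := hall _ hyS
    have h3 : z = g * y⁻¹ := le.injective hzg
    have hz1 : z ∈ M := hz.1
    rw [h3] at hz1
    have h4 := M.mul_mem hz1 (hNM hyN)
    rwa [inv_mul_cancel_right] at h4
  · refine lt_of_le_of_ne inf_le_right fun heq => htN ?_
    rw [← heq] at htS
    exact htS.1
  · intro M hHM hMK hex
    refine key M (fun g hg hg' => hHM g ⟨hg, hg'⟩) ?_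
    obtain ⟨g, hg, hgN⟩ := hex
    exact ⟨g, hg, fun h => hgN ⟨h, hMK g hg⟩⟩


end Cfsg.Agent.S5886
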