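import Cfsg.Statements.S5887
import Cfsg.Agent.Lib.FieldSubalg

set_option autoImplicit false
universe u
open Cfsg

namespace Cfsg.Agent.S5887

open Cfsg.Agent.Lib.FieldSubalg
open Matrix

/-- A commutative subalgebra with inverses is the range of an embedded field. -/
theorem exists_field {F : Type u} [Field F] {n : ℕ} (hn : 0 < n)
    (K : Subalgebra F (Matrix (Fin n) (Fin n) F))
    (hcomm : ∀ x ∈ K, ∀ y ∈ K, x * y = y * x) (hinv : ∀ x ∈ K, x ≠ 0 → ∃ y ∈ K, x * y = 1) :
    ∃ (E : Type u) (_ : Field E) (_ : Algebra F E) (ψ : E →ₐ[F] Matrix (Fin n) (Fin n) F),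
      Function.Injective ψ ∧ ∀ x, x ∈ K ↔ ∃ e, ψ e = x := by
  have : Nonempty (Fin n) := ⟨⟨0, hn⟩⟩
  have hF : IsField K :=
    { exists_pair_ne := ⟨0, 1, fun h => zero_ne_one (congrArg Subtype.val h)⟩
      mul_comm := fun x y => Subtype.ext (hcomm x.1 x.2 y.1 y.2)
      mul_inv_cancel := fun {a} ha => by
        obtain ⟨y, hy, h⟩ := hinv a.1 a.2 (fun h => ha (Subtype.ext h))
        exact ⟨⟨y, hy⟩, Subtype.ext h⟩ }
  let fK : Field K := hF.toField
  refine ⟨K, fK, K.algebra, K.val, Subtype.val_injective, fun x => ?_⟩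
  exact ⟨fun h => ⟨⟨x, h⟩, rfl⟩, fun ⟨e, he⟩ => he ▸ e.2⟩

/-- Let F be a finite field, n a positive integer and r a composite number (r > 1, not prime) that divides n with r < n. Let K be a subalgebra of the algebra of n × n matrices over F which is a field of degree r over F (commutative, every non-zero element invertible, of dimension r over F). Then the normaliser N of K in GL_n(F) (a group of type ΓL_{n/r}(F_{q^r})) is not a maximal subgroup of GL_n(F), and N ∩ SL_n(F) is not a maximal subgroup of SL_n(F): both lie properly inside the normaliser of an intermediate subfield of prime degree over F. -/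
theorem result {F : Type*} [Field F]
    [Fintype F] (n r : ℕ) (hr1 : 1 < r) (hrp : ¬ r.Prime) (hrn : r ∣ n) (hlt : r < n)
    (K : Subalgebra F (Matrix (Fin n) (Fin n) F)) (hK : Cfsg.Geo.IsFieldSubalgebra r K) :
    ¬ IsCoatom (Cfsg.Geo.subalgebraNormalizer K) ∧
      ¬ Cfsg.Geo.IsMaximalIn (Cfsg.Geo.specialLinear (Fin n) F)
        (Cfsg.Geo.subalgebraNormalizer K ⊓ Cfsg.Geo.specialLinear (Fin n) F) := by
  classical
  have hn0 : 0 < n := by omega
  obtain ⟨p, hp⟩ := CharP.exists F
  have hpp : p.Prime := CharP.char_is_prime F p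
  have : Fact p.Prime := ⟨hpp⟩
  have hne : Nonempty (Fin n) := ⟨⟨0, hn0⟩⟩
  -- numbers
  set q := Fintype.card F with hq
  have hq1 : 1 < q := Fintype.one_lt_card
  obtain ⟨m, -, hqm⟩ := FiniteField.card F p
  obtain ⟨s, hsr, hs1, hslt⟩ : ∃ s, s ∣ r ∧ 1 < s ∧ s < r := by
    refine ⟨r.minFac, Nat.minFac_dvd r, (Nat.minFac_prime (by omega)).one_lt, ?_⟩
    exact lt_of_le_of_ne (Nat.minFac_le (by omega)) fun h => hrp (h ▸ Nat.minFac_prime (by omega))
  have h2s : 2 * s ≤ r := by
    obtain ⟨k, hk⟩ := hsr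
    have : 2 ≤ k := by
      by_contra h
      have : k = 0 ∨ k = 1 := by omega
      rcases this with h | h <;> subst h <;> omega
    calc 2 * s = s * 2 := by ring
      _ ≤ s * k := Nat.mul_le_mul_left _ this
      _ = r := hk.symm
  have h2r : 2 * r ≤ n := by
    obtain ⟨k, hk⟩ := hrn
    have : 2 ≤ k := by
      by_contra h
      have : k = 0 ∨ k = 1 := by omega
      rcases this with h | h <;> subst h <;> omega
    calc 2 * r = r * 2 := by ring
      _ ≤ r * k := Nat.mul_le_mul_left _ this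
      _ = n := hk.symm
  set Q := q ^ s with hQ
  have hQp : Q = p ^ ((m : ℕ) * s) := by rw [hQ, hq, hqm, pow_mul]
  -- the intermediate subalgebra
  let K₀ : Subalgebra F (Matrix (Fin n) (Fin n) F) :=
    { carrier := {x | x ∈ K ∧ x ^ Q = x}
      mul_mem' := by
        rintro a b ⟨ha, ha'⟩ ⟨hb, hb'⟩
        refine ⟨K.mul_mem ha hb, ?_⟩
        rw [(show Commute a b from hK.comm a ha b hb).mul_pow, ha', hb']
      add_mem' := by
        rintro a b ⟨ha, ha'⟩ ⟨hb, hb'⟩
        refine ⟨K.add_mem ha hb, ?_⟩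
        rw [hQp, add_pow_char_pow_of_commute p _ (show Commute a b from hK.comm a ha b hb), ← hQp,
          ha', hb']
      algebraMap_mem' := by
        intro c
        refine ⟨K.algebraMap_mem c, ?_⟩
        rw [← map_pow, hQ, hq, FiniteField.pow_card_pow] }
  have hmemK₀ : ∀ x, x ∈ K₀ ↔ x ∈ K ∧ x ^ Q = x := fun x => Iff.rfl
  have hK₀K : K₀ ≤ K := fun x hx => hx.1
  have hcomm₀ : ∀ x ∈ K₀, ∀ y ∈ K₀, x * y = y * x := fun x hx y hy =>
    hK.comm x hx.1 y hy.1
  have hinv₀ : ∀ x ∈ K₀, x ≠ 0 → ∃ y ∈ K₀, x * y = 1 := by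
    rintro x ⟨hx, hx'⟩ hx0
    obtain ⟨y, hy, hxy⟩ := hK.inv x hx hx0
    refine ⟨y, ⟨hy, ?_⟩, hxy⟩
    have hc : x * y = y * x := hK.comm x hx y hy
    have h1 : (x * y) ^ Q = 1 := by rw [hxy, one_pow]
    rw [(show Commute x y from hc).mul_pow, hx'] at h1
    -- x * y^Q = 1 = x * y
    have h2 : y * (x * y ^ Q) = y * 1 := by rw [h1]
    rw [← mul_assoc, ← hc, hxy, one_mul, mul_one] at h2
    exact h2
  -- fields
  obtain ⟨E, hE1, hE2, ψ, hψinj, hψ⟩ := exists_field hn0 K hK.comm hK.inv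
  obtain ⟨E₀, hE₀1, hE₀2, ψ₀, hψ₀inj, hψ₀⟩ := exists_field hn0 K₀ hcomm₀ hinv₀
  have hfinE : Finite E := Finite.of_injective ψ hψinj
  have hfinE₀ : Finite E₀ := Finite.of_injective ψ₀ hψ₀inj
  have hfdE : FiniteDimensional F E := inferInstance
  have hfdE₀ : FiniteDimensional F E₀ := inferInstance
  -- finrank of E is r
  have hfrE : Module.finrank F E = r := by
    rw [← hK.finrank_eq]
    apply LinearEquiv.finrank_eq
    let f : E →ₗ[F] K := ψ.toLinearMap.codRestrict (Subalgebra.toSubmodule K)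
      (fun e => (hψ _).mpr ⟨e, rfl⟩)
    exact LinearEquiv.ofBijective f ⟨fun a b hab => hψinj (congrArg Subtype.val hab),
      fun x => by
        obtain ⟨e, he⟩ := (hψ x.1).mp x.2
        exact ⟨e, Subtype.ext he⟩⟩
  have hcardE : Nat.card E = q ^ r := by
    have := Fintype.ofFinite E
    rw [Nat.card_eq_fintype_card, Module.card_eq_pow_finrank (K := F), hfrE]
  have hQr : q ^ s < q ^ r := Nat.pow_lt_pow_right hq1 hslt
  -- generator of the unit group of E
  obtain ⟨ζ, hζ⟩ := IsCyclic.exists_generator (α := Eˣ)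
  have hcardU : Nat.card Eˣ = q ^ r - 1 := by
    rw [Nat.card_units, hcardE]
  have hordζ : orderOf ζ = q ^ r - 1 := by
    rw [orderOf_eq_card_of_forall_mem_zpowers hζ, hcardU]
  have hqs : 1 < q ^ s := Nat.one_lt_pow (by omega) hq1
  -- K₀ ≠ K: ψ ζ not in K₀
  have hζK : ψ (ζ : E) ∈ K := (hψ _).mpr ⟨_, rfl⟩
  have hζK₀ : ψ (ζ : E) ∉ K₀ := by
    rintro ⟨-, h⟩
    rw [← map_pow] at h
    have h1 := hψinj h
    have h2 : ζ ^ Q = ζ := Units.ext (by rw [Units.val_pow_eq_pow_val]; exact h1)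
    have h3 : ζ ^ (Q - 1) = 1 := by
      have h4 : ζ ^ (Q - 1) * ζ = 1 * ζ := by
        rw [← pow_succ, Nat.sub_add_cancel (by omega), h2, one_mul]
      exact mul_right_cancel h4
    have h5 := orderOf_dvd_of_pow_eq_one h3
    rw [hordζ] at h5
    have := Nat.le_of_dvd (by omega) h5
    omega
  -- finrank E₀ bound
  have hfrE₀ : 2 * Module.finrank F E₀ ≤ r := by
    -- E is an E₀-vector space through the inclusion
    have hincl : ∀ x : E₀, ∃ y : E, ψ y = ψ₀ x := fun x =>
      (hψ _).mp (hK₀K ((hψ₀ _).mpr ⟨x, rfl⟩))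
    choose j hj using hincl
    let J : E₀ →ₐ[F] E :=
      { toFun := j
        map_one' := hψinj (by rw [hj, map_one, map_one])
        map_mul' := fun a b => hψinj (by rw [map_mul, hj, hj, hj, map_mul])
        map_zero' := hψinj (by rw [hj, map_zero, map_zero])
        map_add' := fun a b => hψinj (by rw [map_add, hj, hj, hj, map_add])
        commutes' := fun c => hψinj (by rw [hj, AlgHom.commutes, AlgHom.commutes]) }
    let _ : Algebra E₀ E := J.toRingHom.toAlgebra
    have htow : IsScalarTower F E₀ E := IsScalarTower.of_algebraMap_eq (fun c => by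
      change algebraMap F E c = J (algebraMap F E₀ c)
      rw [AlgHom.commutes])
    have hfin : Module.Finite E₀ E := Module.Finite.of_restrictScalars_finite F E₀ E
    have hfree : Module.Free E₀ E := Module.Free.of_divisionRing E₀ E
    have hmul : Module.finrank F E₀ * Module.finrank E₀ E = r := by
      rw [Module.finrank_mul_finrank, hfrE]
    have h2 : 2 ≤ Module.finrank E₀ E := by
      by_contra h
      have hpos : 0 < Module.finrank E₀ E := Module.finrank_pos
      have h1 : Module.finrank E₀ E = 1 := by omega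
      obtain ⟨v, -, hv⟩ := finrank_eq_one_iff'.mp h1
      -- ζ = J a * ...; all elements are E₀-multiples of 1
      obtain ⟨a, ha⟩ := hv 1
      obtain ⟨b, hb⟩ := hv (ζ : E)
      have ha' : J a * v = 1 := ha
      have hb' : J b * v = ζ := hb
      have ha0 : a ≠ 0 := by
        rintro rfl
        rw [map_zero, zero_mul] at ha'
        exact zero_ne_one ha'
      have h3 : J (b / a) = ζ := by
        rw [map_div₀, ← hb']
        have hJa : J a ≠ 0 := (map_ne_zero J).mpr ha0
        have hv' : v = (J a)⁻¹ := eq_inv_of_mul_eq_one_right ha'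
        rw [hv', div_eq_mul_inv]
      apply hζK₀
      rw [← h3]
      have : ψ (J (b / a)) = ψ₀ (b / a) := hj _
      rw [this]
      exact (hψ₀ _).mpr ⟨_, rfl⟩
    calc 2 * Module.finrank F E₀ = Module.finrank F E₀ * 2 := by ring
      _ ≤ Module.finrank F E₀ * Module.finrank E₀ E := Nat.mul_le_mul_left _ h2
      _ = r := hmul
  -- an element of K₀ not in F
  have hK₀F : ∃ x ∈ K₀, ∀ c : F, algebraMap F (Matrix (Fin n) (Fin n) F) c ≠ x := by
    have hdvd : q ^ s - 1 ∣ q ^ r - 1 := by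
      obtain ⟨k, hk⟩ := hsr
      rw [hk, pow_mul]
      simpa using Nat.sub_dvd_pow_sub_pow (q ^ s) 1 k
    obtain ⟨d, hd⟩ := hdvd
    have hdpos : 0 < d := by
      rcases Nat.eq_zero_or_pos d with h | h
      · rw [h, mul_zero] at hd; omega
      · exact h
    have hord : orderOf (ζ ^ d) = q ^ s - 1 := by
      rw [orderOf_pow' _ hdpos.ne', hordζ, hd]
      have : Nat.gcd ((q ^ s - 1) * d) d = d := Nat.gcd_mul_left_left _ _
      rw [this, Nat.mul_div_cancel _ hdpos]
    refine ⟨ψ ((ζ ^ d : Eˣ) : E), ⟨(hψ _).mpr ⟨_, rfl⟩, ?_⟩, ?_⟩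
    · rw [← map_pow, ← Units.val_pow_eq_pow_val]
      have : (ζ ^ d) ^ Q = ζ ^ d := by
        have h1 : (ζ ^ d) ^ (Q - 1) = 1 := by
          rw [hQ, ← hord]; exact pow_orderOf_eq_one _
        calc (ζ ^ d) ^ Q = (ζ ^ d) ^ (Q - 1) * (ζ ^ d) := by
              rw [← pow_succ, Nat.sub_add_cancel (by omega)]
          _ = ζ ^ d := by rw [h1, one_mul]
      rw [this]
    · intro c hc
      rw [← AlgHom.commutes ψ] at hc
      have h1 := hψinj hc
      have hc0 : c ≠ 0 := by
        rintro rfl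
        rw [map_zero] at h1
        exact (ζ ^ d).ne_zero h1.symm
      have h2 : (ζ ^ d) ^ (q - 1) = 1 := by
        apply Units.ext
        rw [Units.val_pow_eq_pow_val, ← h1, ← map_pow, FiniteField.pow_card_sub_one_eq_one c hc0,
          map_one, Units.val_one]
      have h3 := orderOf_dvd_of_pow_eq_one h2
      rw [hord] at h3
      have h4 := Nat.le_of_dvd (by omega) h3
      have h5 : q ^ 1 < q ^ s := Nat.pow_lt_pow_right hq1 hs1
      rw [pow_one] at h5
      omega
  -- inclusion of normalizers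
  have hNN : Geo.subalgebraNormalizer K ≤ Geo.subalgebraNormalizer K₀ := by
    intro g hg k
    rw [hmemK₀, hmemK₀, ← hg k]
    have hpow : ∀ j : ℕ, ((g : Matrix (Fin n) (Fin n) F) * k * ((g⁻¹ : GL (Fin n) F) : Matrix (Fin n) (Fin n) F)) ^ j
        = (g : Matrix (Fin n) (Fin n) F) * k ^ j * ((g⁻¹ : GL (Fin n) F) : Matrix (Fin n) (Fin n) F) := by
      intro j
      induction j with
      | zero => rw [pow_zero, pow_zero, mul_one, ← Units.val_mul, mul_inv_cancel, Units.val_one]
      | succ j ih =>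
        rw [pow_succ, ih, pow_succ]
        have : ((g⁻¹ : GL (Fin n) F) : Matrix (Fin n) (Fin n) F) * (g : Matrix (Fin n) (Fin n) F) = 1 := by
          rw [← Units.val_mul, inv_mul_cancel, Units.val_one]
        calc _ = (g : Matrix (Fin n) (Fin n) F) * k ^ j *
              (((g⁻¹ : GL (Fin n) F) : Matrix (Fin n) (Fin n) F) * (g : Matrix (Fin n) (Fin n) F)) * k *
              ((g⁻¹ : GL (Fin n) F) : Matrix (Fin n) (Fin n) F) := by noncomm_ring
          _ = _ := by rw [this, mul_one]; noncomm_ring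
    constructor
    · rintro ⟨h1, h2⟩
      exact ⟨h1, by rw [hpow, h2]⟩
    · rintro ⟨h1, h2⟩
      refine ⟨h1, ?_⟩
      rw [hpow] at h2
      have h3 := congrArg (fun z => ((g⁻¹ : GL (Fin n) F) : Matrix (Fin n) (Fin n) F) * z *
        (g : Matrix (Fin n) (Fin n) F)) h2
      have h4 : ((g⁻¹ : GL (Fin n) F) : Matrix (Fin n) (Fin n) F) * (g : Matrix (Fin n) (Fin n) F) = 1 := by
        rw [← Units.val_mul, inv_mul_cancel, Units.val_one]
      have h5 : ∀ z : Matrix (Fin n) (Fin n) F, ((g⁻¹ : GL (Fin n) F) : Matrix (Fin n) (Fin n) F) *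
          ((g : Matrix (Fin n) (Fin n) F) * z * ((g⁻¹ : GL (Fin n) F) : Matrix (Fin n) (Fin n) F)) *
          (g : Matrix (Fin n) (Fin n) F) = z := by
        intro z
        calc _ = (((g⁻¹ : GL (Fin n) F) : Matrix (Fin n) (Fin n) F) * (g : Matrix (Fin n) (Fin n) F)) * z *
            (((g⁻¹ : GL (Fin n) F) : Matrix (Fin n) (Fin n) F) * (g : Matrix (Fin n) (Fin n) F)) := by
              noncomm_ring
          _ = z := by rw [h4, one_mul, mul_one]
      simp only [h5] at h3
      exact h3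
  -- first transvection: over E₀
  obtain ⟨φ, u, v₀, hφ, hu, hv₀, hu0⟩ := exists_functional E₀ ψ₀ (by omega)
  have hinvK : ∀ x ∈ K, x ≠ 0 → ∃ y ∈ K, y * x = 1 := by
    intro x hx hx0
    obtain ⟨y, hy, h⟩ := hK.inv x hx hx0
    exact ⟨y, hy, by rw [hK.comm y hy x hx, h]⟩
  have hinvK₀ : ∀ x ∈ K₀, x ≠ 0 → ∃ y ∈ K₀, y * x = 1 := by
    intro x hx hx0
    obtain ⟨y, hy, h⟩ := hinv₀ x hx hx0
    exact ⟨y, hy, by rw [hcomm₀ y hy x hx, h]⟩
  have ht1 : transv hφ hu ∈ Geo.specialLinear (Fin n) F := by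
    change Matrix.GeneralLinearGroup.det (transv hφ hu) = 1
    apply Units.ext
    exact det_transv hφ hu
  have ht2 : transv hφ hu ∈ Geo.subalgebraNormalizer K₀ := by
    intro k
    have hcen : ∀ z ∈ K₀, (transv hφ hu : Matrix (Fin n) (Fin n) F) * z
        = z * (transv hφ hu : Matrix (Fin n) (Fin n) F) := by
      intro z hz
      obtain ⟨e, rfl⟩ := (hψ₀ z).mp hz
      change (1 + nilp ψ₀ φ u) * ψ₀ e = ψ₀ e * (1 + nilp ψ₀ φ u)
      rw [add_mul, mul_add, one_mul, mul_one, nilp_comm hφ]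
    constructor
    · intro hk
      rw [hcen k hk, mul_assoc, ← Units.val_mul, mul_inv_cancel, Units.val_one, mul_one]
      exact hk
    · intro hk
      have h1 := hcen _ hk
      have h4 : ((transv hφ hu)⁻¹ : GL (Fin n) F).val * (transv hφ hu : Matrix (Fin n) (Fin n) F) = 1 := by
        rw [← Units.val_mul, inv_mul_cancel, Units.val_one]
      have h2 : (transv hφ hu : Matrix (Fin n) (Fin n) F) * k * ((transv hφ hu)⁻¹ : GL (Fin n) F).val = k := by
        have h3 : (transv hφ hu : Matrix (Fin n) (Fin n) F) *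
            ((transv hφ hu : Matrix (Fin n) (Fin n) F) * k * ((transv hφ hu)⁻¹ : GL (Fin n) F).val)
            = (transv hφ hu : Matrix (Fin n) (Fin n) F) * k := by
          rw [h1, mul_assoc, h4, mul_one]
        have h5 := congrArg (fun z => ((transv hφ hu)⁻¹ : GL (Fin n) F).val * z) h3
        simp only [← mul_assoc] at h5
        rw [h4, one_mul, one_mul] at h5
        simpa [mul_assoc] using h5
      rw [h2] at hk
      exact hk
  have ht3 : transv hφ hu ∉ Geo.subalgebraNormalizer K := by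
    intro h
    obtain ⟨e, he⟩ := le_range_of_normalizes hφ hu v₀ hv₀ hu0 (by omega) K
      (fun x => hK₀K ((hψ₀ _).mpr ⟨x, rfl⟩)) hinvK (fun k hk => (h k).mp hk) _ hζK
    exact hζK₀ ((hψ₀ _).mpr ⟨e, he⟩)
  -- second transvection: over F
  obtain ⟨φ', u', v₀', hφ', hu', hv₀', hu0'⟩ := exists_functional F
    (Algebra.ofId F (Matrix (Fin n) (Fin n) F)) (by rw [Module.finrank_self]; omega)
  have ht1' : transv hφ' hu' ∈ Geo.specialLinear (Fin n) F := by
    change Matrix.GeneralLinearGroup.det (transv hφ' hu') = 1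
    apply Units.ext
    exact det_transv hφ' hu'
  have ht3' : transv hφ' hu' ∉ Geo.subalgebraNormalizer K₀ := by
    intro h
    obtain ⟨x, hx, hxF⟩ := hK₀F
    obtain ⟨e, he⟩ := le_range_of_normalizes hφ' hu' v₀' hv₀' hu0'
      (by rw [Module.finrank_self]; omega) K₀
      (fun x => K₀.algebraMap_mem x) hinvK₀ (fun k hk => (h k).mp hk) x hx
    exact hxF e he
  constructor
  · intro hco
    have hlt' : Geo.subalgebraNormalizer K < Geo.subalgebraNormalizer K₀ :=
      lt_of_le_of_ne hNN fun h => ht3 (h ▸ ht2)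
    have htop := hco.2 _ hlt'
    exact ht3' (htop ▸ Subgroup.mem_top _)
  · rintro ⟨-, hmax⟩
    rcases hmax (Geo.subalgebraNormalizer K₀ ⊓ Geo.specialLinear (Fin n) F)
      (inf_le_inf_right _ hNN) inf_le_right with h | h
    · have : transv hφ hu ∈ Geo.subalgebraNormalizer K₀ ⊓ Geo.specialLinear (Fin n) F :=
        ⟨ht2, ht1⟩
      rw [h] at this
      exact ht3 this.1
    · have : transv hφ' hu' ∈ Geo.specialLinear (Fin n) F := ht1'
      rw [← h] at this
      exact ht3' this.1

end Cfsg.Agent.S5887
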