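import Cfsg.Statements.S5891
import Cfsg.Agent.Lib.DkPGL

set_option autoImplicit false
open Cfsg

namespace Cfsg.Agent.S5891

open Cfsg.Agent.Lib Cfsg.Agent.Lib.MobCount Cfsg.Agent.Lib.MobOct Cfsg.Agent.Lib.MobKlein MulAction Matrix
  Cfsg.Agent.Lib.ClProjLine Cfsg.Agent.Lib.DkTorus Cfsg.Agent.Lib.DkSub Cfsg.Agent.Lib.DkMax Cfsg.Agent.Lib.DkSmall
  Cfsg.Agent.Lib.DkQuat Cfsg.Agent.Lib.DkKlein Cfsg.Agent.Lib.DkSubMax Cfsg.Agent.Lib.DkIcos Cfsg.Agent.Lib.DkSmall2
  Cfsg.Agent.Lib.DkEmb Cfsg.Agent.Lib.DkOdd Cfsg.Agent.Lib.DkPGL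
open scoped LinearAlgebra.Projectivization MatrixGroups

/-- `D_8` is not maximal in `PGL_2(5)` -/
theorem five {F : Type*} [Field F] [Fintype F] (hq : Fintype.card F = 5) (M : Subgroup (PGL(Fin 2, F)))
    (hM : IsCoatom M) (hc : Nat.card M = 8) : False := by
  have hodd : Odd (Fintype.card F) := by rw [hq]; decide
  have hG : Nat.card (PGL(Fin 2, F)) = 120 := by rw [card_PGL, hq]; norm_num
  have hS4 : Nat.card (Equiv.Perm (Fin 4)) = 24 := by rw [Nat.card_perm, Nat.card_fin]; rfl
  haveI i2 : Fact (Nat.Prime 2) := ⟨Nat.prime_two⟩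
  obtain ⟨j, _, _, _, hj, _⟩ := exists_S4 (F := F) (two_ne hodd)
  have hjr : j.range ≠ ⊤ := by
    apply ne_top_of_card
    rw [← Nat.card_congr (MonoidHom.ofInjective hj).toEquiv, hS4, hG]
    norm_num
  obtain ⟨QT, hQT⟩ := exists_syl_S4
  have hN : Subgroup.normalizer (M : Set (PGL(Fin 2, F))) ≠ ⊤ := by
    intro htop
    haveI hn : M.Normal := Subgroup.normalizer_eq_top_iff.mp htop
    haveI hs : IsSimpleGroup (P2 F) := MobCount.simple_P2 (by omega)
    have hnorm : (M.comap (tP F)).Normal := inferInstance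
    have hcL : Nat.card (P2 F) = 60 := by
      have h1 := card_P2_odd hodd
      rw [hq] at h1
      norm_num at h1
      omega
    have hcM : Nat.card (M.comap (tP F)) ∣ 8 := by
      rw [← hc, card_comap]
      exact Subgroup.card_dvd_of_le inf_le_left
    have hidx : (M.comap (tP F)).index ∣ M.index := by
      rw [Subgroup.index_comap]
      exact Subgroup.relIndex_dvd_index_of_normal _ _
    have h15 : M.index = 15 := by
      have h2 := Subgroup.card_mul_index M
      rw [hc, hG] at h2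
      omega
    rw [h15] at hidx
    rcases hnorm.eq_bot_or_eq_top with hb | hb
    · rw [hb, Subgroup.index_bot] at hidx
      have h3 : (60 : ℕ) ∣ 15 := by rw [← hcL]; exact hidx
      norm_num at h3
    · rw [hb, Subgroup.card_top] at hcM
      have h3 : (60 : ℕ) ∣ 8 := by rw [← hcL]; exact hcM
      norm_num at h3
  exact embed_sylow 2 3 M hM M Subgroup.le_normalizer hN j hj hjr QT
      (by rw [hc]; norm_num) hQT
      (fact_of _ 2 3 15 Nat.prime_two (by rw [hG]; norm_num) (by norm_num))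
      (by
        have h1 : Nat.card QT ≤ _ := Subgroup.card_le_of_le (Subgroup.le_normalizer (H := QT))
        rw [hQT] at h1
        rw [hc]; exact h1) (by rw [hS4, hc]; norm_num)

/-- Let F be a finite field of odd order q > 3 and characteristic p, and let M be a maximal subgroup of PGL₂(F) not containing the image L of SL₂(F) (a copy of PSL₂(F) of index 2). Then one of the following holds: |M| = q(q − 1) (M is the stabiliser of a point of the projective line); q ≠ 5 and M is dihedral of order 2(q − 1); M is dihedral of order 2(q + 1); q = p ≡ ±3 (mod 8) and M ≅ S₄; or q = q₀^r for an odd prime r and M ≅ PGL₂(F₀) with |F₀| = q₀. -/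
theorem result {F : Type*} [Field F] [Fintype F]
    (hodd : Odd (Fintype.card F)) (h3 : 3 < Fintype.card F) (M : Subgroup (Matrix.ProjGenLinGroup (Fin 2) F)) (hM : IsCoatom M)
    (hML : ¬ (Matrix.ProjGenLinGroup.mk.comp Matrix.SpecialLinearGroup.toGL).range ≤ M) :
    Nat.card M = Fintype.card F * (Fintype.card F - 1) ∨
    (Fintype.card F ≠ 5 ∧ Nonempty (M ≃* DihedralGroup (Fintype.card F - 1))) ∨
    Nonempty (M ≃* DihedralGroup (Fintype.card F + 1)) ∨
    ((Fintype.card F).Prime ∧ (Fintype.card F % 8 = 3 ∨ Fintype.card F % 8 = 5) ∧ Nonempty (M ≃* Equiv.Perm (Fin 4))) ∨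
    (∃ (F₀ : Type) (_ : Field F₀) (_ : Fintype F₀) (r : ℕ), r.Prime ∧ Odd r ∧ Fintype.card F = Fintype.card F₀ ^ r ∧
        Nonempty (M ≃* Matrix.ProjGenLinGroup (Fin 2) F₀)) := by
  obtain ⟨p, hpF⟩ := CharP.exists F
  haveI : CharP F p := hpF
  haveI hpp : Fact p.Prime := ⟨CharP.char_is_prime F p⟩
  rw [LL_eq] at hML
  rcases pgl_max p hodd h3 M hM hML with ⟨x, hx⟩ | ⟨T, hT⟩ | ⟨hq, h8, e⟩ | ⟨g, k, r, hr, hro, hk, h⟩
  · left
    rw [hx]
    exact card_stab_pgl x
  · have hD := hT.dihedral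
    have hcM := hT.cardM
    rcases hT.cardT with h | h
    · right; left
      rw [h] at hD hcM
      refine ⟨?_, hD⟩
      intro h5
      apply five h5 M hM
      rw [hcM, h5]
    · right; right; left
      rw [h] at hD
      exact hD
  · right; right; right; left
    rw [hq]
    exact ⟨hpp.out, h8, e⟩
  · right; right; right; right
    obtain ⟨F₀, i1, i2, hc0, ⟨e0⟩⟩ := pgl_small k
    exact ⟨F₀, i1, i2, r, hr, hro, by rw [hc0, hk], ⟨((Subgroup.equivMapOfInjective _ _
      (MulAut.conj g).injective).trans (MulEquiv.subgroupCongr h)).trans e0⟩⟩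

end Cfsg.Agent.S5891
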