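import Cfsg.Statements.S5940
import Cfsg.Agent.Lib.DkSmall
import Cfsg.Agent.S0802

set_option autoImplicit false
open Cfsg

namespace Cfsg.Agent.S5940

open Cfsg.Agent.Lib Cfsg.Agent.Lib.MobCount MulAction Matrix Cfsg.Agent.Lib.ClProjLine Cfsg.Agent.Lib.DkTorus
  Cfsg.Agent.Lib.DkSub Cfsg.Agent.Lib.DkMax Cfsg.Agent.Lib.DkSmall
open scoped LinearAlgebra.Projectivization MatrixGroups

theorem charP_of_card {F : Type*} [Field F] [Fintype F] (p : ℕ) [Fact p.Prime] (hF : Fintype.card F = p) : CharP F p := by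
  have hpp : p.Prime := Fact.out
  obtain ⟨c, hc⟩ := CharP.exists F
  haveI := hc
  haveI : Fact c.Prime := ⟨CharP.char_is_prime F c⟩
  obtain ⟨n, hn0, hn⟩ := ClSLn.exists_card_eq_pow (F := F) c
  rw [hF] at hn
  have h1 : c = p := by
    have h2 : p ∣ c ^ n := by rw [← hn]
    exact ((Nat.prime_dvd_prime_iff_eq hpp (CharP.char_is_prime F c)).mp (hpp.dvd_of_dvd_pow h2)).symm
  rwa [← h1]

/-- any subgroup `A_4` is maximal -/
theorem coatom {F : Type*} [Field F] [Fintype F] (p : ℕ) [Fact p.Prime] (hF : Fintype.card F = p) (h5 : 5 ≤ p)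
    (h8 : p % 8 = 3 ∨ p % 8 = 5) (h10 : p % 10 ≠ 1 ∧ p % 10 ≠ 9) (H : Subgroup (P2 F))
    (e : Nonempty (H ≃* alternatingGroup (Fin 4))) : IsCoatom H := by
  obtain ⟨e⟩ := e
  have hpp : p.Prime := Fact.out
  haveI : CharP F p := charP_of_card p hF
  have hH : Nat.card H = 12 := by
    rw [Nat.card_congr e.toEquiv]
    have := nat_card_alternatingGroup (α := Fin 4)
    rw [this]; simp; rfl
  have hpH : ¬ p ∣ Nat.card H := by
    rw [hH]
    intro h
    have h1 : p ∣ 2 ^ 2 * 3 := h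
    rcases hpp.dvd_mul.mp h1 with h2 | h2
    · have := Nat.le_of_dvd (by norm_num) (hpp.dvd_of_dvd_pow h2); omega
    · have := Nat.le_of_dvd (by norm_num) h2; omega
  have hodd : Odd (Fintype.card F) := by rw [hF, Nat.odd_iff]; omega
  have hcF : 2 * Nat.card (P2 F) = p * (p ^ 2 - 1) := by
    rw [← hF, ← card_P2 (F := F) rfl, gcd_odd hodd]
  have hp2 : 5 ^ 2 ≤ p ^ 2 := Nat.pow_le_pow_left h5 2
  refine ⟨?_, ?_⟩
  · apply ne_top_of_card
    rw [hH]
    change 12 ≠ Nat.card (P2 F)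
    intro h
    rw [← h] at hcF
    have h2 : 5 * 24 ≤ p * (p ^ 2 - 1) := Nat.mul_le_mul h5 (by omega)
    omega
  · intro M hM
    by_contra hne
    have hdvd := Subgroup.card_dvd_of_le hM.le
    rw [hH] at hdvd
    have hMF : Nat.card M ∣ Nat.card (P2 F) := Subgroup.card_subgroup_dvd_card M
    rcases over_bad p (bad_A4.of_equiv e.symm) hpH hM.le hne with ⟨_, h, _⟩ | ⟨_, h, _⟩ | ⟨_, h, _⟩ | ⟨g, k, m, hm, hk, _⟩
    · apply hM.not_ge
      exact (Subgroup.eq_of_le_of_card_ge hM.le (by rw [h, hH])).ge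
    · rw [h] at hMF
      have h1 : 16 ∣ p * (p ^ 2 - 1) := by
        rw [← hcF]
        exact (by norm_num : 16 ∣ 2 * 24).trans (Nat.mul_dvd_mul_left 2 hMF)
      have h2 : Nat.Coprime 16 p := by
        have : Nat.Coprime (2 ^ 4) p := Nat.Coprime.pow_left 4 (Nat.coprime_two_left.mpr (Nat.odd_iff.mpr (by omega)))
        exact this
      have h3 := h2.dvd_of_dvd_mul_left h1
      have h4 : p ^ 2 % 16 = (p % 16) ^ 2 % 16 := by rw [Nat.pow_mod]
      have h5 : p % 16 = 3 ∨ p % 16 = 11 ∨ p % 16 = 5 ∨ p % 16 = 13 := by omega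
      rcases h5 with h | h | h | h <;> rw [h] at h4 <;> norm_num at h4 <;> omega
    · rw [h] at hMF
      have h1 : 5 ∣ p * (p ^ 2 - 1) := by
        rw [← hcF]
        exact (by norm_num : 5 ∣ 2 * 60).trans (Nat.mul_dvd_mul_left 2 hMF)
      rcases (Nat.Prime.dvd_mul (by norm_num : Nat.Prime 5)).mp h1 with h2 | h2
      · have h3 : p = 5 := ((Nat.prime_dvd_prime_iff_eq (by norm_num : Nat.Prime 5) hpp).mp h2).symm
        apply hne
        apply Subgroup.eq_top_of_card_eq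
        rw [h]
        change 60 = Nat.card (P2 F)
        rw [h3] at hcF
        norm_num at hcF
        omega
      · have h4 : p ^ 2 % 5 = (p % 5) ^ 2 % 5 := by rw [Nat.pow_mod]
        have h6 : p % 5 = 0 ∨ p % 5 = 2 ∨ p % 5 = 3 := by omega
        rcases h6 with h | h | h <;> rw [h] at h4 <;> norm_num at h4 <;> omega
    · exact sub_of_prime hpp k m hm (by rw [hk, hF])

/-- Let p ≥ 5 be a prime with p ≡ ±3 (mod 8) and p ≢ ±1 (mod 10), and F a field with p elements. Then PSL_2(F) has a maximal subgroup isomorphic to the alternating group A_4. -/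
theorem result {F : Type*} [Field F] [Fintype F] (p : ℕ) [Fact p.Prime] (hF : Fintype.card F = p) (h5 : 5 ≤ p) (h8 : p % 8 = 3 ∨ p % 8 = 5) (h10 : p % 10 ≠ 1 ∧ p % 10 ≠ 9) : ∃ H : Subgroup (Matrix.ProjectiveSpecialLinearGroup (Fin 2) F), IsCoatom H ∧ Nonempty (H ≃* alternatingGroup (Fin 4)) := by
  haveI : CharP F p := charP_of_card p hF
  obtain ⟨H, hH⟩ := (Cfsg.Agent.S0802.result (F := F) p 1 (by rw [pow_one]; exact hF)).mpr (by omega)
  exact ⟨H, coatom p hF h5 h8 h10 H hH, hH⟩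

end Cfsg.Agent.S5940
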