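import Cfsg.Statements.S5942
import Cfsg.Agent.Lib.DkSubMax
import Cfsg.Agent.S0805

set_option autoImplicit false
open Cfsg

namespace Cfsg.Agent.S5942

open Cfsg.Agent.Lib Cfsg.Agent.Lib.MobCount MulAction Matrix Cfsg.Agent.Lib.ClProjLine Cfsg.Agent.Lib.DkTorus
  Cfsg.Agent.Lib.DkSub Cfsg.Agent.Lib.DkMax Cfsg.Agent.Lib.DkSubMax
open scoped LinearAlgebra.Projectivization MatrixGroups

theorem coatom {F K : Type*} [Field F] [Fintype F] [Field K] [Fintype K] (q r : ℕ) (hK : Fintype.card K = q)
    (hF : Fintype.card F = q ^ r) (hq : Odd q) (hr : r.Prime) (hr2 : r ≠ 2) (σ : K →+* F) : IsCoatom (SP σ) := by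
  classical
  have hFo : Odd (Fintype.card F) := by rw [hF]; exact hq.pow
  have hKF : Fintype.card K ^ r = Fintype.card F := by rw [hF, hK]
  have hK2 : 1 < Fintype.card K := Fintype.one_lt_card
  have hro : Odd r := hr.odd_of_ne_two hr2
  obtain ⟨p, hpF⟩ := CharP.exists F
  haveI : CharP F p := hpF
  haveI hpp : Fact p.Prime := ⟨CharP.char_is_prime F p⟩
  have hKo : Odd (Fintype.card K) := by rw [hK]; exact hq
  have hdK : Nat.gcd 2 (Fintype.card K - 1) = 2 := gcd_odd hKo
  have hdF : Nat.gcd 2 (Fintype.card F - 1) = 2 := gcd_odd hFo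
  have hcK : 2 * Nat.card (P2 K) = Fintype.card K * (Fintype.card K ^ 2 - 1) := by
    rw [← card_P2 (F := K) rfl, hdK]
  have hcF : 2 * Nat.card (P2 F) = Fintype.card F * (Fintype.card F ^ 2 - 1) := by
    rw [← card_P2 (F := F) rfl, hdF]
  refine ⟨?_, ?_⟩
  · apply ne_top_of_card
    rw [SP_card]
    have h1 : Fintype.card K < Fintype.card F := by
      rw [← hKF]
      calc Fintype.card K = Fintype.card K ^ 1 := (pow_one _).symm
        _ < Fintype.card K ^ r := Nat.pow_lt_pow_right hK2 hr.one_lt
    have h2 : Fintype.card K ^ 2 ≤ Fintype.card F ^ 2 := Nat.pow_le_pow_left h1.le 2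
    have h3 : 0 < Fintype.card F ^ 2 - 1 := by
      have : 2 ^ 2 ≤ Fintype.card F ^ 2 := Nat.pow_le_pow_left (by omega) 2
      omega
    have h4 : Fintype.card K * (Fintype.card K ^ 2 - 1) < Fintype.card F * (Fintype.card F ^ 2 - 1) := by
      calc Fintype.card K * (Fintype.card K ^ 2 - 1) ≤ Fintype.card K * (Fintype.card F ^ 2 - 1) :=
            Nat.mul_le_mul_left _ (by omega)
        _ < Fintype.card F * (Fintype.card F ^ 2 - 1) := Nat.mul_lt_mul_of_pos_right h1 h3
    omega
  · intro M hM
    by_contra hne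
    rcases overgroups p σ r hr hKF (by rw [hK]; rintro rfl; exact absurd hq (by decide)) M hne hM.le with
      ⟨g, k, hk, h⟩ | ⟨h3, h60, _⟩
    · rcases h with h | h
      · apply hM.not_ge
        have hc : Nat.card M ≤ Nat.card (SP σ) := by
          rw [SP_card, card_of_range_psl M g k h]
          have h1 := card_psl_sub k
          rw [card_pslRange, hk, hdK, ← hcK] at h1
          omega
        exact (Subgroup.eq_of_le_of_card_ge hM.le hc).ge
      · have : Fintype k := Fintype.ofFinite k
        have hk2 : Fintype.card k ^ r = Fintype.card F := by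
          rw [← Nat.card_eq_fintype_card, hk, hKF]
        have h5 := (Cfsg.Agent.S0805.result (F := F) (K := k) rfl hFo r hr.one_lt.le hk2).2.mp
          ⟨M, ⟨((Subgroup.equivMapOfInjective _ _ tP_inj).trans ((Subgroup.equivMapOfInjective _ _
            (MulAut.conj g).injective).trans (MulEquiv.subgroupCongr h))).trans
            (MonoidHom.ofInjective (map_PGL_injective _)).symm⟩⟩
        exact (Nat.not_even_iff_odd.mpr hro) h5
    · subst h3
      haveI : CharP K 3 := (RingHom.charP_iff σ σ.injective 3).mpr inferInstance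
      obtain ⟨a, ha0, ha⟩ := ClSLn.exists_card_eq_pow (F := K) 3
      have h5 : 5 ∣ Nat.card (P2 F) := by
        have : Nat.card M ∣ Nat.card (P2 F) := Subgroup.card_subgroup_dvd_card M
        rw [h60] at this
        exact (by norm_num : 5 ∣ 60).trans this
      have hdv : Nat.card (P2 K) ∣ 60 := by
        rw [← h60, ← SP_card σ]; exact Subgroup.card_dvd_of_le hM.le
      have ha1 : a = 1 := by
        by_contra hne1
        have h9 : 9 ∣ Fintype.card K := by
          rw [ha]; exact pow_dvd_pow 3 (show 2 ≤ a by omega)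
        have h6 : 9 ∣ 2 * Nat.card (P2 K) := by rw [hcK]; exact h9.mul_right _
        have h7 : 2 * Nat.card (P2 K) ∣ 2 * 60 := Nat.mul_dvd_mul_left 2 hdv
        have h8 := h6.trans h7
        norm_num at h8
      rw [ha1, pow_one] at ha
      have h6 : 5 ∣ Fintype.card F * (Fintype.card F ^ 2 - 1) := by rw [← hcF]; exact h5.mul_left _
      have h7 : Fintype.card F = 3 ^ r := by rw [← hKF, ha]
      rw [h7] at h6
      obtain ⟨t, ht⟩ := hro
      have h8 : (3 ^ r) ^ 2 = 9 * 81 ^ t := by
        rw [ht, ← pow_mul]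
        have : (2 * t + 1) * 2 = 2 + 4 * t := by ring
        rw [this, pow_add, pow_mul]
        norm_num
      rcases (Nat.Prime.dvd_mul (by norm_num : Nat.Prime 5)).mp h6 with h9 | h9
      · have := (Nat.Prime.dvd_of_dvd_pow (by norm_num : Nat.Prime 5) h9)
        norm_num at this
      · rw [h8] at h9
        have h10 : 81 ^ t % 5 = 1 := by
          rw [Nat.pow_mod]; norm_num
        have h11 : 1 ≤ 81 ^ t := Nat.one_le_pow _ _ (by norm_num)
        omega

/-- Let K and F be finite fields of odd characteristic with #F = (#K)^r for an odd prime r. Then PSL_2(F) has a maximal subgroup isomorphic to PSL_2(K). -/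
theorem result {F K : Type*} [Field F] [Fintype F] [Field K] [Fintype K] (q r : ℕ) (hK : Fintype.card K = q) (hF : Fintype.card F = q ^ r) (hq : Odd q) (hr : r.Prime) (hr2 : r ≠ 2) : ∃ H : Subgroup (Matrix.ProjectiveSpecialLinearGroup (Fin 2) F), IsCoatom H ∧ Nonempty (H ≃* Matrix.ProjectiveSpecialLinearGroup (Fin 2) K) := by
  classical
  obtain ⟨alg, _⟩ := FFTower.exists_algebra_of_card (F := K) (K := F) (d := r) (by rw [hF, hK]) hr.ne_zero
  let σ : K →+* F := algebraMap K F
  exact ⟨SP σ, coatom q r hK hF hq hr hr2 σ, ⟨((Subgroup.equivMapOfInjective _ _ tP_inj).trans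
    (MulEquiv.subgroupCongr (SP_map σ))).trans (MonoidHom.ofInjective (pslMap_injective σ)).symm⟩⟩

end Cfsg.Agent.S5942
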