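import Cfsg.Statements.S5890
import Cfsg.Agent.Lib.DkPGL
import Cfsg.Agent.S5891
import Cfsg.Agent.S5940
import Cfsg.Agent.S5942

set_option autoImplicit false
open Cfsg

namespace Cfsg.Agent.S5890

open Cfsg.Agent.Lib Cfsg.Agent.Lib.MobCount Cfsg.Agent.Lib.MobOct Cfsg.Agent.Lib.MobKlein MulAction Matrix
  Cfsg.Agent.Lib.ClProjLine Cfsg.Agent.Lib.DkTorus Cfsg.Agent.Lib.DkSub Cfsg.Agent.Lib.DkMax Cfsg.Agent.Lib.DkSmall
  Cfsg.Agent.Lib.DkQuat Cfsg.Agent.Lib.DkKlein Cfsg.Agent.Lib.DkSubMax Cfsg.Agent.Lib.DkIcos Cfsg.Agent.Lib.DkSmall2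
  Cfsg.Agent.Lib.DkEmb Cfsg.Agent.Lib.DkOdd Cfsg.Agent.Lib.DkPGL
open scoped LinearAlgebra.Projectivization MatrixGroups

/-- transport of coatoms -/
theorem tr {G H : Type*} [Group G] [Group H] (e : G ≃* H) {A : Subgroup G} {B : Subgroup H}
    (h : ∀ x, x ∈ A ↔ e x ∈ B) (hA : IsCoatom A) : IsCoatom B := by
  have h1 : e.mapSubgroup A = B := by
    ext y
    constructor
    · rintro ⟨x, hx, rfl⟩
      exact (h x).mp hx
    · intro hy
      refine ⟨e.symm y, (h _).mpr (by rw [e.apply_symm_apply]; exact hy), e.apply_symm_apply y⟩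
  rw [← h1]
  exact (e.mapSubgroup.isCoatom_iff A).mpr hA

variable {F : Type*} [Field F] [Fintype F]

theorem tr_LL {M : Subgroup (PGL(Fin 2, F))} (h : IsCoatom (M.comap (tP F))) : IsCoatom ((M ⊓ LL F).subgroupOf (LL F)) := by
  refine tr (MonoidHom.ofInjective (tP_inj (F := F))) ?_ h
  intro x
  constructor
  · intro hx
    exact ⟨hx, ⟨x, rfl⟩⟩
  · intro hx
    exact hx.1

theorem tr_conj {M M' : Subgroup (PGL(Fin 2, F))} (g : PGL(Fin 2, F)) (hg : M.map (MulAut.conj g).toMonoidHom = M')
    (h : IsCoatom ((M' ⊓ LL F).subgroupOf (LL F))) : IsCoatom ((M ⊓ LL F).subgroupOf (LL F)) := by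
  have hN : (LL F).Normal := LL_normal
  refine tr (MulAut.conjNormal g⁻¹ : LL F ≃* LL F) ?_ h
  intro x
  have h1 : ((MulAut.conjNormal g⁻¹ x : LL F) : PGL(Fin 2, F)) = g⁻¹ * x * g⁻¹⁻¹ := MulAut.conjNormal_apply _ _
  rw [Subgroup.mem_subgroupOf, Subgroup.mem_subgroupOf, Subgroup.mem_inf, Subgroup.mem_inf, h1, ← hg]
  constructor
  · rintro ⟨⟨m, hm, hx⟩, _⟩
    have hx' : g * m * g⁻¹ = x := hx
    refine ⟨?_, hN.conj_mem _ x.2 g⁻¹⟩
    rw [← hx']
    have : g⁻¹ * (g * m * g⁻¹) * g⁻¹⁻¹ = m := by group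
    rw [this]
    exact hm
  · rintro ⟨h2, _⟩
    refine ⟨⟨_, h2, ?_⟩, x.2⟩
    change g * (g⁻¹ * x * g⁻¹⁻¹) * g⁻¹ = x
    group

/-- the index of `M ∩ L` in `M` -/
theorem card_half (hodd : Odd (Fintype.card F)) {M : Subgroup (PGL(Fin 2, F))} (hn : ¬ M ≤ LL F) :
    ((LL F).subgroupOf M).index = 2 ∧ Nat.card M = 2 * Nat.card (M.comap (tP F)) := by
  have h1 : ((LL F).subgroupOf M).index ∣ (LL F).index := Subgroup.relIndex_dvd_index_of_normal _ _
  rw [index_LL_odd hodd] at h1
  have h2 : ((LL F).subgroupOf M).index = 2 := by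
    rcases (Nat.dvd_prime Nat.prime_two).mp h1 with h | h
    · exact absurd (Subgroup.subgroupOf_eq_top.mp (Subgroup.index_eq_one.mp h)) hn
    · exact h
  refine ⟨h2, ?_⟩
  have h3 := Subgroup.card_mul_index ((LL F).subgroupOf M)
  rw [h2] at h3
  have h4 : Nat.card ((LL F).subgroupOf M) = Nat.card (M.comap (tP F)) := by
    rw [card_comap, ← Subgroup.inf_subgroupOf_left]
    exact Nat.card_congr (Subgroup.subgroupOfEquivOfLe inf_le_left).toEquiv
  rw [h4] at h3
  omega

/-- orders of `p'`-elements of `PGL_2(k)` -/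
theorem order_le (p : ℕ) [Fact p.Prime] [CharP F p] (c : PGL(Fin 2, F)) (hcp : ¬ p ∣ orderOf c) :
    orderOf c ≤ Fintype.card F + 1 := by
  by_cases hc1 : c = 1
  · rw [hc1, orderOf_one]; omega
  · obtain ⟨T, N, _, _, hcT, hcardT, _⟩ := torus p c hc1 hcp
    have h1 : orderOf c ∣ Nat.card T := by
      rw [← Subgroup.orderOf_mk c hcT]
      exact orderOf_dvd_natCard _
    have h2 : 0 < Nat.card T := Nat.card_pos
    have h3 := Nat.le_of_dvd h2 h1
    rcases hcardT with h | h <;> omega

theorem torus_coatom (p : ℕ) [Fact p.Prime] [CharP F p] (hodd : Odd (Fintype.card F)) (h5 : 5 ≤ Fintype.card F)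
    (h7 : Fintype.card F ≠ 7) (h9 : Fintype.card F ≠ 9) (h11 : Fintype.card F ≠ 11)
    (M T : Subgroup (PGL(Fin 2, F))) (hM : IsCoatom M) (hML : ¬ LL F ≤ M) (hT : TorusData M T) :
    IsCoatom (M.comap (tP F)) := by
  have hnLL := not_le_LL hodd hM hML
  obtain ⟨_, hhalf⟩ := card_half hodd hnLL
  have hcM := hT.cardM
  have hcT : Nat.card (M.comap (tP F)) = Nat.card T := by omega
  have hcT' := hT.cardT
  have hcF := card_P2_odd hodd
  -- an element of order `|T| / 2`
  obtain ⟨s, hsM, hso⟩ : ∃ s : P2 F, s ∈ M.comap (tP F) ∧ 2 * orderOf s = Nat.card T := by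
    haveI := hT.cyc
    obtain ⟨t, ht⟩ := IsCyclic.exists_ofOrder_eq_natCard (α := T)
    obtain ⟨s, hs⟩ := sq_mem_range (t : PGL(Fin 2, F))
    refine ⟨s, ?_, ?_⟩
    · rw [Subgroup.mem_comap]
      change ProjectiveSpecialLinearGroup.toPGL s ∈ M
      rw [hs]
      exact M.pow_mem (hT.le t.2) 2
    · have h1 : orderOf s = orderOf ((t : PGL(Fin 2, F)) ^ 2) := by
        rw [← hs]; exact (orderOf_injective _ tP_inj s).symm
      rw [h1, orderOf_pow' _ (by norm_num : (2:ℕ) ≠ 0)]
      have h2 : orderOf (t : PGL(Fin 2, F)) = Nat.card T := by rw [Subgroup.orderOf_coe, ht]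
      rw [h2]
      have h3 : 2 ∣ Nat.card T := by
        obtain ⟨a, ha⟩ := hodd
        rcases hcT' with h | h <;> rw [h, ha]
        · exact ⟨a, by omega⟩
        · exact ⟨a + 1, by omega⟩
      rw [Nat.gcd_eq_right h3]
      omega
  have hsp : ¬ p ∣ orderOf s := by
    obtain ⟨n, hn0, hn⟩ := ClSLn.exists_card_eq_pow (F := F) p
    have hpq : p ∣ Fintype.card F := by rw [hn]; exact dvd_pow_self p hn0
    intro hp
    have hpT : p ∣ Nat.card T := by rw [← hso]; exact hp.mul_left 2
    have hp1 : p ∣ 1 := by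
      rcases hcT' with h | h
      · rw [h] at hpT
        have := Nat.dvd_sub hpq hpT
        have h5 : Fintype.card F - (Fintype.card F - 1) = 1 := by omega
        rwa [h5] at this
      · rw [h] at hpT
        exact (Nat.dvd_add_right hpq).mp hpT
    exact (Fact.out : p.Prime).one_lt.ne' (Nat.dvd_one.mp hp1)
  have small : orderOf s ≤ 5 → Fintype.card F = 5 ∧ Nat.card T = 6 := by
    intro h
    obtain ⟨a, ha⟩ := hodd
    have h1 : Fintype.card F = 5 := by rcases hcT' with h | h <;> omega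
    refine ⟨h1, ?_⟩
    rcases hcT' with h | h
    · exfalso
      exact Cfsg.Agent.S5891.five h1 M hM (by omega)
    · omega
  refine ⟨?_, ?_⟩
  · apply ne_top_of_card
    rw [hcT]
    change _ ≠ Nat.card (P2 F)
    have h3 : 5 ^ 2 ≤ Fintype.card F ^ 2 := Nat.pow_le_pow_left h5 2
    have h4 : 24 * Fintype.card F ≤ Fintype.card F * (Fintype.card F ^ 2 - 1) := by
      rw [mul_comm]; exact Nat.mul_le_mul_left _ (by omega)
    omega
  · intro K hK
    by_contra hKt
    have hdvd := Subgroup.card_dvd_of_le hK.le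
    have hlt : 2 * Nat.card (M.comap (tP F)) ≤ Nat.card K := by
      obtain ⟨c, hc⟩ := hdvd
      have hc0 : 0 < Nat.card K := Nat.card_pos
      have hc1 : c ≠ 0 := by rintro rfl; omega
      have hc2 : c ≠ 1 := by
        rintro rfl
        apply hK.not_ge
        exact (Subgroup.eq_of_le_of_card_ge hK.le (by rw [hc, mul_one])).ge
      rw [hc, mul_comm]
      exact Nat.mul_le_mul_left _ (by omega)
    rw [hcT] at hlt hdvd
    have hsK : s ∈ K := hK.le hsM
    have hKF : Nat.card K ∣ Nat.card (P2 F) := Subgroup.card_subgroup_dvd_card K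
    rcases psl_cases (F := F) rfl p K hKt with ⟨_, _, h⟩ | ⟨C, _, _, _, hKC, _, h, _⟩ | ⟨_, h12, ⟨e⟩⟩ | ⟨_, h24, ⟨e⟩⟩ | ⟨_, h60, ⟨e⟩⟩ | ⟨_, x, hx⟩ | ⟨g, k, m, hm, hk, h⟩
    · rw [gcd_odd hodd] at h
      rcases h with h | h <;> have h1 := Nat.le_of_dvd (by omega) h <;> rcases hcT' with h2 | h2 <;> omega
    · rw [gcd_odd hodd, ← hKC] at h
      rcases h with h | h <;> have h1 := Nat.le_of_dvd (by omega) h <;> rcases hcT' with h2 | h2 <;> omega
    · obtain ⟨h1, h2⟩ := small (by
        have h1 : orderOf s = orderOf (e ⟨s, hsK⟩) := by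
          have h0 : orderOf (e ⟨s, hsK⟩) = orderOf (⟨s, hsK⟩ : K) := orderOf_injective e.toMonoidHom e.injective _
          rw [h0]; exact (Subgroup.orderOf_mk s hsK).symm
        rw [h1]
        rcases alt4_orders (e ⟨s, hsK⟩) with h | h
        · exact (Nat.le_of_dvd (by norm_num) (orderOf_dvd_of_pow_eq_one h)).trans (by norm_num)
        · exact (Nat.le_of_dvd (by norm_num) (orderOf_dvd_of_pow_eq_one h)).trans (by norm_num))
      refine no_index_two_alt 4 e ((M.comap (tP F)).subgroupOf K) ?_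
      have h3 := Subgroup.card_mul_index ((M.comap (tP F)).subgroupOf K)
      rw [Nat.card_congr (Subgroup.subgroupOfEquivOfLe hK.le).toEquiv, hcT, h2, h12] at h3
      omega
    · obtain ⟨h1, h2⟩ := small (by
        have h1 : orderOf s = orderOf (e ⟨s, hsK⟩) := by
          have h0 : orderOf (e ⟨s, hsK⟩) = orderOf (⟨s, hsK⟩ : K) := orderOf_injective e.toMonoidHom e.injective _
          rw [h0]; exact (Subgroup.orderOf_mk s hsK).symm
        rw [h1]
        rcases sym4_orders (e ⟨s, hsK⟩) with h | h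
        · exact (Nat.le_of_dvd (by norm_num) (orderOf_dvd_of_pow_eq_one h)).trans (by norm_num)
        · exact (Nat.le_of_dvd (by norm_num) (orderOf_dvd_of_pow_eq_one h)).trans (by norm_num))
      rw [h1] at hcF
      have h3 : Nat.card (P2 F) = 60 := by norm_num at hcF; omega
      rw [h24] at hKF
      have h4 : 24 ∣ 60 := by rw [← h3]; exact hKF
      norm_num at h4
    · obtain ⟨h1, h2⟩ := small (by
        have h1 : orderOf s = orderOf (e ⟨s, hsK⟩) := by
          have h0 : orderOf (e ⟨s, hsK⟩) = orderOf (⟨s, hsK⟩ : K) := orderOf_injective e.toMonoidHom e.injective _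
          rw [h0]; exact (Subgroup.orderOf_mk s hsK).symm
        rw [h1]
        rcases alt5_orders (e ⟨s, hsK⟩) with h | h | h
        · exact (Nat.le_of_dvd (by norm_num) (orderOf_dvd_of_pow_eq_one h)).trans (by norm_num)
        · exact (Nat.le_of_dvd (by norm_num) (orderOf_dvd_of_pow_eq_one h)).trans (by norm_num)
        · exact (Nat.le_of_dvd (by norm_num) (orderOf_dvd_of_pow_eq_one h)))
      rw [h1] at hcF
      have h3 : Nat.card (P2 F) = 60 := by norm_num at hcF; omega
      apply hKt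
      apply Subgroup.eq_top_of_card_eq
      rw [h60]
      exact h3.symm
    · have h1 := card_stab (F := F) rfl x
      rw [gcd_odd hodd] at h1
      obtain ⟨c, hc⟩ := hdvd.trans (Subgroup.card_dvd_of_le hx)
      rw [hc] at h1
      obtain ⟨a, ha⟩ := hodd
      rcases hcT' with h2 | h2 <;> rw [h2, ha] at h1
      · have h3 : 2 * a + 1 - 1 = 2 * a := by omega
        rw [h3] at h1
        have h4 : (2 * a) * (2 * c) = (2 * a) * (2 * a + 1) := by rw [← mul_comm (2 * a + 1)]; rw [← h1]; ring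
        have h5 := Nat.eq_of_mul_eq_mul_left (by omega) h4
        omega
      · have h3 : 2 * a + 1 - 1 = 2 * a := by omega
        rw [h3] at h1
        have h4 : (a + 1) * (2 * c) = (2 * a + 1) * a := by
          have : 2 * ((a + 1) * (2 * c)) = 2 * ((2 * a + 1) * a) := by
            calc 2 * ((a + 1) * (2 * c)) = 2 * ((2 * a + 1 + 1) * c) := by ring
              _ = (2 * a + 1) * (2 * a) := h1
              _ = _ := by ring
          omega
        have h5 : a + 1 ∣ (2 * a + 1) * a := ⟨_, h4.symm⟩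
        have h6 : (a + 1) * (2 * a) = (2 * a + 1) * a + a := by ring
        have h7 : a + 1 ∣ (2 * a + 1) * a + a := ⟨_, h6.symm⟩
        have h8 : a + 1 ∣ a := (Nat.dvd_add_right h5).mp h7
        have h9 := Nat.le_of_dvd (by omega) h8
        omega
    · haveI : Fintype k := Fintype.ofFinite k
      haveI : CharP k p := (RingHom.charP_iff k.subtype k.subtype.injective p).mpr inferInstance
      have hin : g * tP F s * g⁻¹ ∈ (Matrix.ProjGenLinGroup.map (n := Fin 2) k.subtype).range := by
        rcases h with h | h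
        · apply psl_le_pgl k.subtype
          rw [← h]
          exact ⟨_, ⟨s, hsK, rfl⟩, rfl⟩
        · rw [← h]
          exact ⟨_, ⟨s, hsK, rfl⟩, rfl⟩
      obtain ⟨c, hc⟩ := hin
      have hco : orderOf c = orderOf s := by
        rw [← orderOf_injective _ (map_PGL_injective k.subtype) c, hc]
        have h1 : orderOf ((MulAut.conj g) (tP F s)) = orderOf (tP F s) :=
          orderOf_injective (MulAut.conj g).toMonoidHom (MulAut.conj g).injective _
        rw [orderOf_injective _ tP_inj] at h1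
        exact h1
      have h1 := order_le p c (by rw [hco]; exact hsp)
      rw [hco, ← Nat.card_eq_fintype_card] at h1
      have hk1 : 1 < Nat.card k := Finite.one_lt_card
      have hko : Odd (Nat.card k) := by
        rw [← hk] at hodd
        exact (Nat.odd_pow_iff (by omega)).mp hodd
      have h2 : Nat.card k ^ 2 ≤ Fintype.card F := by rw [← hk]; exact Nat.pow_le_pow_right (by omega) hm
      have h3 : Fintype.card F - 1 ≤ 2 * (Nat.card k + 1) := by rcases hcT' with h | h <;> omega
      obtain ⟨b, hb⟩ := hko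
      by_cases h4 : Nat.card k = 3
      · rw [h4] at h2 h3
        apply h9
        omega
      · have h5 : 5 ≤ Nat.card k := by omega
        have h6 : 5 * Nat.card k ≤ Nat.card k ^ 2 := by rw [sq]; exact Nat.mul_le_mul_right _ h5
        omega

theorem S4_coatom (hodd : Odd (Fintype.card F)) (h5 : 5 ≤ Fintype.card F)
    (M : Subgroup (PGL(Fin 2, F))) (hM : IsCoatom M) (hML : ¬ LL F ≤ M) (p : ℕ) [Fact p.Prime] (hq : Fintype.card F = p)
    (h8 : p % 8 = 3 ∨ p % 8 = 5) (h10 : p % 10 ≠ 1 ∧ p % 10 ≠ 9) (e : Nonempty (M ≃* Equiv.Perm (Fin 4))) :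
    IsCoatom (M.comap (tP F)) := by
  obtain ⟨e⟩ := e
  obtain ⟨hidx, hhalf⟩ := card_half hodd (not_le_LL hodd hM hML)
  refine Cfsg.Agent.S5940.coatom p hq (by omega) h8 h10 _ ?_
  have h1 : ((LL F).subgroupOf M).map e.toMonoidHom = alternatingGroup (Fin 4) := by
    apply Equiv.Perm.eq_alternatingGroup_of_index_eq_two
    have h2 := Subgroup.index_map_equiv ((LL F).subgroupOf M) e
    rw [hidx] at h2
    exact h2
  have e1 : ((LL F).subgroupOf M) ≃* alternatingGroup (Fin 4) :=
    (Subgroup.equivMapOfInjective _ _ e.injective).trans (MulEquiv.subgroupCongr h1)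
  obtain ⟨e2⟩ := comap_equiv M
  have e3 : ((LL F).subgroupOf M) ≃* (M ⊓ LL F : Subgroup (PGL(Fin 2, F))) := by
    rw [← Subgroup.inf_subgroupOf_left]
    exact Subgroup.subgroupOfEquivOfLe inf_le_left
  exact ⟨(e2.trans e3.symm).trans e1⟩

theorem sub_coatom (hodd : Odd (Fintype.card F))
    (M : Subgroup (PGL(Fin 2, F))) (hM : IsCoatom M) (hML : ¬ LL F ≤ M) (g : PGL(Fin 2, F)) (k : Subfield F) (r : ℕ)
    (hr : r.Prime) (hro : Odd r) (hk : Nat.card k ^ r = Fintype.card F)
    (h : M.map (MulAut.conj g).toMonoidHom = (Matrix.ProjGenLinGroup.map (n := Fin 2) k.subtype).range) :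
    IsCoatom ((M ⊓ LL F).subgroupOf (LL F)) := by
  haveI : Fintype k := Fintype.ofFinite k
  refine tr_conj g h ?_
  apply tr_LL
  have hck : Fintype.card k = Nat.card k := Nat.card_eq_fintype_card.symm
  have hko : Odd (Fintype.card k) := by
    rw [← hk] at hodd
    rw [hck]
    exact (Nat.odd_pow_iff hr.ne_zero).mp hodd
  have h1 := Cfsg.Agent.S5942.coatom (F := F) (K := k) (Fintype.card k) r rfl (by rw [hck, hk]) hko hr
    (by rintro rfl; exact absurd hro (by decide)) k.subtype
  have h2 : SP k.subtype = (Matrix.ProjGenLinGroup.map (n := Fin 2) k.subtype).range.comap (tP F) := by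
    apply Subgroup.eq_of_le_of_card_ge
    · exact Subgroup.comap_mono (psl_le_pgl _)
    · have h3 : ¬ (Matrix.ProjGenLinGroup.map (n := Fin 2) k.subtype).range ≤ LL F := by
        intro hle
        rw [← h] at hle
        exact not_le_LL hodd hM hML (le_LL_of_conj hle)
      obtain ⟨_, h4⟩ := card_half hodd h3
      have h5 := card_P2_odd hko
      rw [card_pgl_sub, ← hck, ← h5] at h4
      rw [SP_card]
      omega
  rw [← h2]
  exact h1

/-- Let F be a finite field with q ≥ 4 elements, let L ≤ PGL₂(F) be the image of SL₂(F) (a copy of PSL₂(F), of index gcd(2, q − 1)), and let M be a maximal subgroup of PGL₂(F) that does not contain L. Suppose q ∉ {7, 9, 11} and that q is not a prime congruent to ±11 or ±19 modulo 40. Then M ∩ L is a maximal subgroup of L. (For the excluded q there are maximal subgroups of PGL₂(q) — dihedral groups of order 12 and 16 at q = 7, of order 20 and 16 at q = 9, of order 20 at q = 11, and S₄ at the excluded primes — whose intersection with L is not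 maximal in L.) -/
theorem result {F : Type*} [Field F]
    [Fintype F] (h4 : 4 ≤ Fintype.card F) (h7 : Fintype.card F ≠ 7) (h9 : Fintype.card F ≠ 9) (h11 : Fintype.card F ≠ 11)
    (h40 : (Fintype.card F).Prime → Fintype.card F % 40 ∉ ({11, 19, 21, 29} : Finset ℕ))
    (M : Subgroup (Matrix.ProjGenLinGroup (Fin 2) F)) (hM : IsCoatom M)
    (hML : ¬ (Matrix.ProjGenLinGroup.mk.comp Matrix.SpecialLinearGroup.toGL).range ≤ M) :
    IsCoatom ((M ⊓ (Matrix.ProjGenLinGroup.mk.comp Matrix.SpecialLinearGroup.toGL).range).subgroupOf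
      (Matrix.ProjGenLinGroup.mk.comp Matrix.SpecialLinearGroup.toGL).range) := by
  obtain ⟨p, hpF⟩ := CharP.exists F
  haveI : CharP F p := hpF
  haveI hpp : Fact p.Prime := ⟨CharP.char_is_prime F p⟩
  rw [LL_eq] at hML ⊢
  rcases Nat.even_or_odd (Fintype.card F) with heven | hodd
  · apply tr_LL
    have htop := LL_eq_top heven
    have hsurj : Function.Surjective (tP F) := MonoidHom.range_eq_top.mp htop
    refine tr (MulEquiv.ofBijective (tP F) ⟨tP_inj, hsurj⟩).symm ?_ hM
    intro x
    rw [Subgroup.mem_comap]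
    have : tP F ((MulEquiv.ofBijective (tP F) ⟨tP_inj, hsurj⟩).symm x) = x :=
      (MulEquiv.ofBijective (tP F) ⟨tP_inj, hsurj⟩).apply_symm_apply x
    rw [this]
  · have h5 : 5 ≤ Fintype.card F := by obtain ⟨t, ht⟩ := hodd; omega
    rcases pgl_max p hodd (by omega) M hM hML with ⟨x, hx⟩ | ⟨T, hT⟩ | ⟨hq, h8, e⟩ | ⟨g, k, r, hr, hro, hk, h⟩
    · apply tr_LL
      have h1 : M.comap (tP F) = stabilizer (P2 F) x := by
        ext s
        rw [hx, Subgroup.mem_comap, mem_stabilizer_iff, mem_stabilizer_iff, toPGL_smul]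
      rw [h1]
      haveI : Nontrivial (ℙ F (Fin 2 → F)) := by
        rw [← Finite.one_lt_card_iff_nontrivial, proj_card']
        omega
      exact MulAction.IsPreprimitive.isCoatom_stabilizer_of_isPreprimitive (P2 F) x
    · exact tr_LL (torus_coatom p hodd h5 h7 h9 h11 M T hM hML hT)
    · refine tr_LL (S4_coatom hodd h5 M hM hML p hq h8 ?_ e)
      have h1 := h40 (by rw [hq]; exact hpp.out)
      rw [hq] at h1
      simp only [Finset.mem_insert, Finset.mem_singleton, not_or] at h1
      omega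
    · exact sub_coatom hodd M hM hML g k r hr hro hk h

end Cfsg.Agent.S5890
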