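import Cfsg.Statements.S5892
import Cfsg.Agent.Lib.DkOdd

set_option autoImplicit false
open Cfsg

namespace Cfsg.Agent.S5892

open Cfsg.Agent.Lib Cfsg.Agent.Lib.MobCount Cfsg.Agent.Lib.MobOct Cfsg.Agent.Lib.MobKlein MulAction Matrix
  Cfsg.Agent.Lib.ClProjLine Cfsg.Agent.Lib.DkTorus Cfsg.Agent.Lib.DkSub Cfsg.Agent.Lib.DkMax Cfsg.Agent.Lib.DkSmall
  Cfsg.Agent.Lib.DkQuat Cfsg.Agent.Lib.DkKlein Cfsg.Agent.Lib.DkSubMax Cfsg.Agent.Lib.DkIcos Cfsg.Agent.Lib.DkSmall2
  Cfsg.Agent.Lib.DkEmb Cfsg.Agent.Lib.DkOdd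
open scoped LinearAlgebra.Projectivization MatrixGroups

/-- embedding of a subgroup -/
theorem emb {G T : Type*} [Group G] [Group T] [Finite G] (H : Subgroup G) (e : Nonempty (H ≃* T)) (hne : Nat.card T ≠ Nat.card G) :
    ∃ j : T →* G, Function.Injective j ∧ j.range ≠ ⊤ := by
  obtain ⟨e⟩ := e
  have hinj : Function.Injective (H.subtype.comp e.symm.toMonoidHom) :=
    H.subtype_injective.comp e.symm.injective
  refine ⟨H.subtype.comp e.symm.toMonoidHom, hinj, ?_⟩
  intro h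
  apply hne
  have h1 : Nat.card (H.subtype.comp e.symm.toMonoidHom).range = Nat.card T :=
    Nat.card_congr (MonoidHom.ofInjective hinj).symm.toEquiv
  rw [← h1, h, Subgroup.card_top]

/-- dihedral maximal subgroups of small order are excluded -/
theorem small {F : Type*} [Field F] [Fintype F] (p : ℕ) [Fact p.Prime] [CharP F p] (hodd : Odd (Fintype.card F))
    (h5 : 5 ≤ Fintype.card F) (M : Subgroup (P2 F)) (hM : IsCoatom M) :
    ¬ ((Fintype.card F = 5 ∧ Nat.card M = 4) ∨ (Fintype.card F = 7 ∧ Nat.card M = 6) ∨ (Fintype.card F = 7 ∧ Nat.card M = 8) ∨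
      (Fintype.card F = 9 ∧ Nat.card M = 8) ∨ (Fintype.card F = 9 ∧ Nat.card M = 10) ∨
      (Fintype.card F = 11 ∧ Nat.card M = 10)) := by
  have hcF := card_P2_odd hodd
  have hS4 : Nat.card (Equiv.Perm (Fin 4)) = 24 := by rw [Nat.card_perm, Nat.card_fin]; rfl
  have hA4 : Nat.card (alternatingGroup (Fin 4)) = 12 := by
    have := nat_card_alternatingGroup (α := Fin 4)
    rw [this]; simp; rfl
  haveI i2 : Fact (Nat.Prime 2) := ⟨Nat.prime_two⟩
  haveI i3 : Fact (Nat.Prime 3) := ⟨Nat.prime_three⟩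
  haveI i5 : Fact (Nat.Prime 5) := ⟨by norm_num⟩
  -- normalizers of proper nontrivial subgroups
  have hN : ∀ Q : Subgroup (P2 F), 1 < Nat.card Q → Nat.card Q < 60 → 60 ≤ Nat.card (P2 F) →
      Subgroup.normalizer (Q : Set (P2 F)) ≠ ⊤ := by
    intro Q h1 h2 h3
    apply norm_ne_top (by omega)
    · intro hb; rw [hb, Subgroup.card_bot] at h1; omega
    · intro hb; rw [hb, Subgroup.card_top] at h2; omega
  rintro (⟨hq, hc⟩ | ⟨hq, hc⟩ | ⟨hq, hc⟩ | ⟨hq, hc⟩ | ⟨hq, hc⟩ | ⟨hq, hc⟩)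
  · -- q = 5, order 4, inside A_4
    rw [hq] at hcF
    have hG : Nat.card (P2 F) = 60 := by norm_num at hcF; omega
    obtain ⟨n, hn0, hn⟩ := ClSLn.exists_card_eq_pow (F := F) p
    obtain ⟨H, e⟩ := (Cfsg.Agent.S0802.result (F := F) p n hn).mpr (by
      rintro ⟨rfl, _⟩
      rw [hn] at hodd
      exact absurd ((Nat.odd_pow_iff hn0).mp hodd) (by decide))
    obtain ⟨j, hj, hjr⟩ := emb H e (by rw [hA4]; change 12 ≠ Nat.card (P2 F); omega)
    exact embed_sylow 2 2 M hM M Subgroup.le_normalizer (hN M (by omega) (by omega) (by omega)) j hj hjr kpA.V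
      (by rw [hc]; norm_num) (by rw [kpA.card_V]; norm_num)
      (fact_of _ 2 2 15 Nat.prime_two (by change Nat.card (P2 F) = _; rw [hG]; norm_num) (by norm_num))
      (by
        have h1 := Subgroup.card_le_of_le (Subgroup.le_normalizer (H := kpA.V))
        rw [kpA.card_V] at h1
        rw [hc]; exact h1) (by rw [hA4, hc]; norm_num)
  · -- q = 7, order 6, inside S_4
    rw [hq] at hcF
    have hG : Nat.card (P2 F) = 168 := by norm_num at hcF; omega
    obtain ⟨H, e⟩ := (Cfsg.Agent.S0803.result (F := F) hq).mpr (by norm_num)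
    obtain ⟨j, hj, hjr⟩ := emb H e (by rw [hS4]; change 24 ≠ Nat.card (P2 F); omega)
    obtain ⟨Q, hQ, hMQ⟩ := two_r 3 M hc
    exact embed_sylow 3 1 M hM Q hMQ (hN Q (by omega) (by omega) (by omega)) j hj hjr (Subgroup.zpowers c3)
      (by rw [hQ]; norm_num) (by rw [Nat.card_zpowers, c3_order]; norm_num)
      (fact_of _ 3 1 56 Nat.prime_three (by change Nat.card (P2 F) = _; rw [hG]; norm_num) (by norm_num))
      (by rw [hc]; exact c3_norm) (by rw [hS4, hc]; norm_num)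
  · -- q = 7, order 8, inside S_4
    rw [hq] at hcF
    have hG : Nat.card (P2 F) = 168 := by norm_num at hcF; omega
    obtain ⟨H, e⟩ := (Cfsg.Agent.S0803.result (F := F) hq).mpr (by norm_num)
    obtain ⟨j, hj, hjr⟩ := emb H e (by rw [hS4]; change 24 ≠ Nat.card (P2 F); omega)
    obtain ⟨QT, hQT⟩ := exists_syl_S4
    exact embed_sylow 2 3 M hM M Subgroup.le_normalizer (hN M (by omega) (by omega) (by omega)) j hj hjr QT
      (by rw [hc]; norm_num) hQT
      (fact_of _ 2 3 21 Nat.prime_two (by change Nat.card (P2 F) = _; rw [hG]; norm_num) (by norm_num))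
      (by
        have h1 : Nat.card QT ≤ _ := Subgroup.card_le_of_le (Subgroup.le_normalizer (H := QT))
        rw [hQT] at h1
        rw [hc]; exact h1) (by rw [hS4, hc]; norm_num)
  · -- q = 9, order 8, inside S_4
    rw [hq] at hcF
    have hG : Nat.card (P2 F) = 360 := by norm_num at hcF; omega
    obtain ⟨H, e⟩ := (Cfsg.Agent.S0803.result (F := F) hq).mpr (by norm_num)
    obtain ⟨j, hj, hjr⟩ := emb H e (by rw [hS4]; change 24 ≠ Nat.card (P2 F); omega)
    obtain ⟨QT, hQT⟩ := exists_syl_S4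
    exact embed_sylow 2 3 M hM M Subgroup.le_normalizer (hN M (by omega) (by omega) (by omega)) j hj hjr QT
      (by rw [hc]; norm_num) hQT
      (fact_of _ 2 3 45 Nat.prime_two (by change Nat.card (P2 F) = _; rw [hG]; norm_num) (by norm_num))
      (by
        have h1 : Nat.card QT ≤ _ := Subgroup.card_le_of_le (Subgroup.le_normalizer (H := QT))
        rw [hQT] at h1
        rw [hc]; exact h1) (by rw [hS4, hc]; norm_num)
  · -- q = 9, order 10, inside A_5
    rw [hq] at hcF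
    have hG : Nat.card (P2 F) = 360 := by norm_num at hcF; omega
    obtain ⟨H, e⟩ := (Cfsg.Agent.S0804.result (F := F) hq).mpr (by norm_num)
    obtain ⟨j, hj, hjr⟩ := emb H e (by rw [card_A5]; change 60 ≠ Nat.card (P2 F); omega)
    obtain ⟨Q, hQ, hMQ⟩ := two_r 5 M hc
    exact embed_sylow 5 1 M hM Q hMQ (hN Q (by omega) (by omega) (by omega)) j hj hjr (Subgroup.zpowers c5)
      (by rw [hQ]; norm_num) (by rw [Nat.card_zpowers, c5_order]; norm_num)
      (fact_of _ 5 1 72 (by norm_num) (by change Nat.card (P2 F) = _; rw [hG]; norm_num) (by norm_num))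
      (by rw [hc]; exact c5_norm) (by rw [card_A5, hc]; norm_num)
  · -- q = 11, order 10, inside A_5
    rw [hq] at hcF
    have hG : Nat.card (P2 F) = 660 := by norm_num at hcF; omega
    obtain ⟨H, e⟩ := (Cfsg.Agent.S0804.result (F := F) hq).mpr (by norm_num)
    obtain ⟨j, hj, hjr⟩ := emb H e (by rw [card_A5]; change 60 ≠ Nat.card (P2 F); omega)
    obtain ⟨Q, hQ, hMQ⟩ := two_r 5 M hc
    exact embed_sylow 5 1 M hM Q hMQ (hN Q (by omega) (by omega) (by omega)) j hj hjr (Subgroup.zpowers c5)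
      (by rw [hQ]; norm_num) (by rw [Nat.card_zpowers, c5_order]; norm_num)
      (fact_of _ 5 1 132 (by norm_num) (by change Nat.card (P2 F) = _; rw [hG]; norm_num) (by norm_num))
      (by rw [hc]; exact c5_norm) (by rw [card_A5, hc]; norm_num)

/-- the list, for subgroups of `P2 F` -/
theorem main {F : Type*} [Field F] [Fintype F] (p : ℕ)
    [Fact p.Prime] [CharP F p] (hodd : Odd (Fintype.card F)) (h5 : 5 ≤ Fintype.card F)
    (M : Subgroup (P2 F)) (hM : IsCoatom M) :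
    2 * Nat.card M = Fintype.card F * (Fintype.card F - 1) ∨
    (13 ≤ Fintype.card F ∧ (∃ k : ℕ, 2 * k = Fintype.card F - 1 ∧ Nonempty (M ≃* DihedralGroup k))) ∨
    (Fintype.card F ≠ 7 ∧ Fintype.card F ≠ 9 ∧ (∃ k : ℕ, 2 * k = Fintype.card F + 1 ∧ Nonempty (M ≃* DihedralGroup k))) ∨
    (∃ (F₀ : Type) (_ : Field F₀) (_ : Fintype F₀), Fintype.card F = Fintype.card F₀ ^ 2 ∧
        Nonempty (M ≃* Matrix.ProjGenLinGroup (Fin 2) F₀)) ∨
    (∃ (F₀ : Type) (_ : Field F₀) (_ : Fintype F₀) (r : ℕ), r.Prime ∧ Odd r ∧ Fintype.card F = Fintype.card F₀ ^ r ∧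
        Nonempty (M ≃* Matrix.ProjectiveSpecialLinearGroup (Fin 2) F₀)) ∨
    ((Fintype.card F % 10 = 1 ∨ Fintype.card F % 10 = 9) ∧
        (Fintype.card F = p ∨ (Fintype.card F = p ^ 2 ∧ (p % 10 = 3 ∨ p % 10 = 7))) ∧
        Nonempty (M ≃* alternatingGroup (Fin 5))) ∨
    (Fintype.card F = p ∧ (p % 8 = 3 ∨ p % 8 = 5) ∧ ¬ (p % 10 = 1 ∨ p % 10 = 9) ∧
        Nonempty (M ≃* alternatingGroup (Fin 4))) ∨
    (Fintype.card F = p ∧ (p % 8 = 1 ∨ p % 8 = 7) ∧ Nonempty (M ≃* Equiv.Perm (Fin 4))) := by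
  have hg := gcd_odd hodd
  have hsm := small p hodd h5 M hM
  have key : (Nat.gcd 2 (Fintype.card F - 1) * Nat.card M = Fintype.card F * (Fintype.card F - 1) ∨
    ∃ k : ℕ, (Nat.gcd 2 (Fintype.card F - 1) * k = Fintype.card F - 1 ∨
      Nat.gcd 2 (Fintype.card F - 1) * k = Fintype.card F + 1) ∧ Nat.card M = 2 * k ∧
      Nonempty (M ≃* DihedralGroup k)) → (2 * Nat.card M = Fintype.card F * (Fintype.card F - 1) ∨
    (13 ≤ Fintype.card F ∧ (∃ k : ℕ, 2 * k = Fintype.card F - 1 ∧ Nonempty (M ≃* DihedralGroup k))) ∨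
    (Fintype.card F ≠ 7 ∧ Fintype.card F ≠ 9 ∧ (∃ k : ℕ, 2 * k = Fintype.card F + 1 ∧ Nonempty (M ≃* DihedralGroup k)))) := by
    rw [hg]
    rintro (h | ⟨k, hk, hcM, hD⟩)
    · left; exact h
    · right
      rcases hk with hk | hk
      · left
        refine ⟨?_, k, hk, hD⟩
        by_contra hlt
        apply hsm
        rw [hk] at hcM
        obtain ⟨t, ht⟩ := hodd
        omega
      · right
        rw [hk] at hcM
        refine ⟨?_, ?_, k, hk, hD⟩
        · intro h7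
          apply hsm
          omega
        · intro h9
          apply hsm
          omega
  have lift : ∀ {Q : Prop}, (2 * Nat.card M = Fintype.card F * (Fintype.card F - 1) ∨
    (13 ≤ Fintype.card F ∧ (∃ k : ℕ, 2 * k = Fintype.card F - 1 ∧ Nonempty (M ≃* DihedralGroup k))) ∨
    (Fintype.card F ≠ 7 ∧ Fintype.card F ≠ 9 ∧ (∃ k : ℕ, 2 * k = Fintype.card F + 1 ∧ Nonempty (M ≃* DihedralGroup k)))) →
    (2 * Nat.card M = Fintype.card F * (Fintype.card F - 1) ∨
    (13 ≤ Fintype.card F ∧ (∃ k : ℕ, 2 * k = Fintype.card F - 1 ∧ Nonempty (M ≃* DihedralGroup k))) ∨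
    (Fintype.card F ≠ 7 ∧ Fintype.card F ≠ 9 ∧ (∃ k : ℕ, 2 * k = Fintype.card F + 1 ∧ Nonempty (M ≃* DihedralGroup k))) ∨ Q) := by
    rintro Q (h | h | h)
    · exact Or.inl h
    · exact Or.inr (Or.inl h)
    · exact Or.inr (Or.inr (Or.inl h))
  rcases psl_cases (F := F) rfl p M hM.1 with ⟨h1, h3, _⟩ | ⟨C, hCM, hC, hp, hcard, _, _, _⟩ | ⟨hp, h, e⟩ | ⟨hp, h, e⟩ | ⟨hp, h, e⟩ | ⟨_, x, hx⟩ | ⟨g, k, m, hm, hk, h⟩
  · exact lift (key (cyc_case p (by omega) M hM M le_rfl h1 h3 (Or.inl rfl)))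
  · exact lift (key (cyc_case p (by omega) M hM C hCM hC hp (Or.inr hcard)))
  · obtain ⟨a, b, c⟩ := case_A4 p hodd h5 M hM hp h e
    right; right; right; right; right; right; left
    exact ⟨a, b, c, e⟩
  · obtain ⟨a, b⟩ := case_S4 p hodd M hM hp h e
    right; right; right; right; right; right; right
    exact ⟨a, b, e⟩
  · obtain ⟨a, b⟩ := case_A5 p hodd M hM hp h e
    right; right; right; right; right; left
    exact ⟨a, b, e⟩
  · exact lift (key (Or.inl (stab_case M hM x hx)))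
  · rcases case_sub hodd M hM g k m hm hk h with h | h
    · right; right; right; left; exact h
    · right; right; right; right; left; exact h

/-- Let F be a finite field of odd order q ≥ 5 and characteristic p, and let M be a maximal subgroup of PSL₂(F). Then one of the following holds: |M| = q(q − 1)/2 (the stabiliser of a point of the projective line); q ≥ 13 and M is dihedral of order q − 1; q ∉ {7, 9} and M is dihedral of order q + 1; q = q₀² and M ≅ PGL₂(F₀) with |F₀| = q₀; q = q₀^r for an odd prime r and M ≅ PSL₂(F₀) with |F₀| = q₀; q ≡ ±1 (mod 10) with q = p or q = p², p ≡ ±3 (mod 10), and M ≅ A₅; q = p ≡ ±3 (mod 8), q ≢ ±1 (mod 10), and M ≅ A₄; or q = p ≡ ±1 (mod 8) and M ≅ S₄. -/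
theorem result {F : Type*} [Field F] [Fintype F] (p : ℕ)
    [Fact p.Prime] [CharP F p] (hodd : Odd (Fintype.card F)) (h5 : 5 ≤ Fintype.card F)
    (M : Subgroup (Matrix.ProjectiveSpecialLinearGroup (Fin 2) F)) (hM : IsCoatom M) :
    2 * Nat.card M = Fintype.card F * (Fintype.card F - 1) ∨
    (13 ≤ Fintype.card F ∧ (∃ k : ℕ, 2 * k = Fintype.card F - 1 ∧ Nonempty (M ≃* DihedralGroup k))) ∨
    (Fintype.card F ≠ 7 ∧ Fintype.card F ≠ 9 ∧ (∃ k : ℕ, 2 * k = Fintype.card F + 1 ∧ Nonempty (M ≃* DihedralGroup k))) ∨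
    (∃ (F₀ : Type) (_ : Field F₀) (_ : Fintype F₀), Fintype.card F = Fintype.card F₀ ^ 2 ∧
        Nonempty (M ≃* Matrix.ProjGenLinGroup (Fin 2) F₀)) ∨
    (∃ (F₀ : Type) (_ : Field F₀) (_ : Fintype F₀) (r : ℕ), r.Prime ∧ Odd r ∧ Fintype.card F = Fintype.card F₀ ^ r ∧
        Nonempty (M ≃* Matrix.ProjectiveSpecialLinearGroup (Fin 2) F₀)) ∨
    ((Fintype.card F % 10 = 1 ∨ Fintype.card F % 10 = 9) ∧
        (Fintype.card F = p ∨ (Fintype.card F = p ^ 2 ∧ (p % 10 = 3 ∨ p % 10 = 7))) ∧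
        Nonempty (M ≃* alternatingGroup (Fin 5))) ∨
    (Fintype.card F = p ∧ (p % 8 = 3 ∨ p % 8 = 5) ∧ ¬ (p % 10 = 1 ∨ p % 10 = 9) ∧
        Nonempty (M ≃* alternatingGroup (Fin 4))) ∨
    (Fintype.card F = p ∧ (p % 8 = 1 ∨ p % 8 = 7) ∧ Nonempty (M ≃* Equiv.Perm (Fin 4))) :=
  main p hodd h5 M hM

end Cfsg.Agent.S5892
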