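import Cfsg.Statements.S5893
import Cfsg.Agent.Lib.DkMax

set_option autoImplicit false
open Cfsg

namespace Cfsg.Agent.S5893

open Cfsg.Agent.Lib Cfsg.Agent.Lib.MobCount MulAction Matrix Cfsg.Agent.Lib.ClProjLine Cfsg.Agent.Lib.DkTorus
  Cfsg.Agent.Lib.DkSub Cfsg.Agent.Lib.DkMax
open scoped LinearAlgebra.Projectivization MatrixGroups

theorem main {F : Type*} [Field F] [Fintype F]
    (heven : Even (Fintype.card F)) (h4 : 4 ≤ Fintype.card F) (M : Subgroup (P2 F)) (hM : IsCoatom M) :
    Nat.card M = Fintype.card F * (Fintype.card F - 1) ∨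
    Nonempty (M ≃* DihedralGroup (Fintype.card F - 1)) ∨
    Nonempty (M ≃* DihedralGroup (Fintype.card F + 1)) ∨
    (∃ (F₀ : Type) (_ : Field F₀) (_ : Fintype F₀) (r : ℕ), r.Prime ∧ Fintype.card F₀ ≠ 2 ∧
        Fintype.card F = Fintype.card F₀ ^ r ∧ Nonempty (M ≃* Matrix.ProjectiveSpecialLinearGroup (Fin 2) F₀)) := by
  classical
  have h2 : ringChar F = 2 := FiniteField.even_card_iff_char_two.mpr (Nat.even_iff.mp heven)
  haveI : CharP F 2 := by rw [← h2]; exact ringChar.charP F
  haveI : Fact (Nat.Prime 2) := ⟨Nat.prime_two⟩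
  have hgcd : Nat.gcd 2 (Fintype.card F - 1) = 1 := by
    have := index_LL (F := F)
    rw [LL_eq_top heven, Subgroup.index_top] at this
    exact this.symm
  have key : (Nat.gcd 2 (Fintype.card F - 1) * Nat.card M = Fintype.card F * (Fintype.card F - 1) ∨
    ∃ k : ℕ, (Nat.gcd 2 (Fintype.card F - 1) * k = Fintype.card F - 1 ∨
      Nat.gcd 2 (Fintype.card F - 1) * k = Fintype.card F + 1) ∧ Nat.card M = 2 * k ∧
      Nonempty (M ≃* DihedralGroup k)) → (Nat.card M = Fintype.card F * (Fintype.card F - 1) ∨
    Nonempty (M ≃* DihedralGroup (Fintype.card F - 1)) ∨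
    Nonempty (M ≃* DihedralGroup (Fintype.card F + 1)) ∨
    (∃ (F₀ : Type) (_ : Field F₀) (_ : Fintype F₀) (r : ℕ), r.Prime ∧ Fintype.card F₀ ≠ 2 ∧
        Fintype.card F = Fintype.card F₀ ^ r ∧ Nonempty (M ≃* Matrix.ProjectiveSpecialLinearGroup (Fin 2) F₀))) := by
    rw [hgcd]
    rintro (h | ⟨k, hk, _, hD⟩)
    · left; rw [one_mul] at h; exact h
    · rw [one_mul] at hk
      rcases hk with rfl | rfl
      · right; left; exact hD
      · right; right; left; exact hD
  rcases psl_cases (F := F) rfl 2 M hM.1 with ⟨h1, h3, _⟩ | ⟨C, hCM, hC, hp, hcard, _, _, _⟩ | ⟨h, _⟩ | ⟨h, _⟩ | ⟨h, _⟩ | ⟨_, x, hx⟩ | ⟨g, k, m, hm, hk, h⟩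
  · exact key (cyc_case 2 h4 M hM M le_rfl h1 h3 (Or.inl rfl))
  · exact key (cyc_case 2 h4 M hM C hCM hC hp (Or.inr hcard))
  · rename_i h'; exact absurd (by rw [h'.1]; norm_num) h
  · rename_i h'; exact absurd (by rw [h'.1]; norm_num) h
  · rename_i h'
    rcases h with h | h
    · exact absurd (by rw [h'.1]; norm_num) h
    · norm_num at h
  · exact key (Or.inl (stab_case M hM x hx))
  · have hle : (M.map (tP F)).map (MulAut.conj g).toMonoidHom ≤ (Matrix.ProjGenLinGroup.map (n := Fin 2) k.subtype).range := by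
      rcases h with h | h
      · rw [h]; exact psl_le_pgl _
      · rw [h]
    by_cases hk2 : Nat.card k = 2
    · apply key
      have hM6 : Nat.card M = 6 := by
        rcases h with h | h
        · rw [card_of_range_psl M g k h]
          have := card_psl_sub k
          rw [card_pslRange, hk2] at this
          norm_num at this
          rw [← Nat.card_eq_fintype_card] at this
          exact this
        · rw [card_of_range_pgl M g k h, ← card_pglRange k.subtype, card_pgl_sub, hk2]; norm_num
      haveI : Fact (Nat.Prime 3) := ⟨Nat.prime_three⟩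
      obtain ⟨c, hc⟩ := exists_prime_orderOf_dvd_card' (G := M) 3 (by rw [hM6]; norm_num)
      have hc3 : Nat.card (Subgroup.zpowers (c : P2 F)) = 3 := by
        rw [Nat.card_zpowers, Subgroup.orderOf_coe, hc]
      refine cyc_case 2 h4 M hM (Subgroup.zpowers (c : P2 F)) ?_ inferInstance ?_ (Or.inr ?_)
      · rw [Subgroup.zpowers_le]; exact c.2
      · rw [hc3]; norm_num
      · rw [hc3, hM6]
    · right; right; right
      have hm0 : m.minFac.Prime := Nat.minFac_prime (by omega)
      obtain ⟨k', hkk, hk'⟩ := exists_step k m m.minFac hm0 (Nat.minFac_dvd m) hk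
      set r := m.minFac with hr
      set R := (Matrix.ProjGenLinGroup.map (n := Fin 2) k'.subtype).range with hR
      have hMR : M ≤ cm g R := le_cm (hle.trans (pgl_mono hkk))
      have hk1 : 1 < Nat.card k' := Finite.one_lt_card
      have hlt : Nat.card k' < Fintype.card F := by
        rw [← hk']
        calc Nat.card k' = Nat.card k' ^ 1 := (pow_one _).symm
          _ < Nat.card k' ^ r := Nat.pow_lt_pow_right hk1 hm0.one_lt
      have hcR : Nat.card R < Nat.card (P2 F) := by
        have h5 := card_P2 (F := F) rfl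
        rw [hgcd, one_mul] at h5
        rw [h5, hR, card_pgl_sub]
        have h6 : Nat.card k' ^ 2 ≤ Fintype.card F ^ 2 := Nat.pow_le_pow_left hlt.le 2
        have h7 : 0 < Fintype.card F ^ 2 - 1 := by
          have : 4 ^ 2 ≤ Fintype.card F ^ 2 := Nat.pow_le_pow_left h4 2
          omega
        calc Nat.card k' * (Nat.card k' ^ 2 - 1) ≤ Nat.card k' * (Fintype.card F ^ 2 - 1) :=
              Nat.mul_le_mul_left _ (by omega)
          _ < Fintype.card F * (Fintype.card F ^ 2 - 1) := Nat.mul_lt_mul_of_pos_right hlt h7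
      have hRL : R ⊓ LL F = R := by rw [LL_eq_top heven, inf_top_eq]
      have hne : cm g R ≠ ⊤ := by
        apply ne_top_of_card
        rw [card_cm, hRL]
        exact hcR.ne
      have hMeq := eq_of_coatom hM hMR hne
      obtain ⟨e⟩ := cm_equiv g R
      obtain ⟨F₀, i1, i2, hc0, ⟨e0⟩⟩ := psl_small k'
      have hpsl : (pslMap k'.subtype).range = R := by
        apply Subgroup.eq_of_le_of_card_ge (psl_le_pgl _)
        have h5 := card_psl_sub k'
        have hg1 : Nat.gcd 2 (Nat.card k' - 1) = 1 := by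
          have h6 : Even (Nat.card k') := by
            rw [← hk', Nat.even_pow] at heven
            exact heven.1
          exact Nat.coprime_two_left.mpr (Nat.Even.sub_odd (by omega) h6 odd_one)
        rw [hg1, one_mul] at h5
        rw [h5, card_pgl_sub]
      refine ⟨F₀, i1, i2, r, hm0, ?_, by rw [hc0, hk'], ?_⟩
      · rw [hc0]
        intro e2
        have h7 : Nat.card k ≤ Nat.card k' := Nat.card_le_card_of_injective (Subfield.inclusion hkk)
          (Subfield.inclusion hkk).injective
        have h8 : 1 < Nat.card k := Finite.one_lt_card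
        omega
      · rw [hMeq]
        exact ⟨e.trans ((MulEquiv.subgroupCongr (hRL.trans hpsl.symm)).trans e0)⟩

/-- Let F be a finite field of even order q ≥ 4 and let M be a maximal subgroup of PSL₂(F) (= SL₂(F) = PGL₂(F)). Then one of the following holds: |M| = q(q − 1) (the stabiliser of a point of the projective line, elementary abelian of order q extended by a cyclic group of order q − 1); M is dihedral of order 2(q − 1); M is dihedral of order 2(q + 1); or q = q₀^r for a prime r with q₀ ≠ 2 and M ≅ PSL₂(F₀) with |F₀| = q₀. -/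
theorem result {F : Type*} [Field F] [Fintype F]
    (heven : Even (Fintype.card F)) (h4 : 4 ≤ Fintype.card F) (M : Subgroup (Matrix.ProjectiveSpecialLinearGroup (Fin 2) F)) (hM : IsCoatom M) :
    Nat.card M = Fintype.card F * (Fintype.card F - 1) ∨
    Nonempty (M ≃* DihedralGroup (Fintype.card F - 1)) ∨
    Nonempty (M ≃* DihedralGroup (Fintype.card F + 1)) ∨
    (∃ (F₀ : Type) (_ : Field F₀) (_ : Fintype F₀) (r : ℕ), r.Prime ∧ Fintype.card F₀ ≠ 2 ∧
        Fintype.card F = Fintype.card F₀ ^ r ∧ Nonempty (M ≃* Matrix.ProjectiveSpecialLinearGroup (Fin 2) F₀)) :=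
  main heven h4 M hM

end Cfsg.Agent.S5893
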