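import Cfsg.Statements.S5894
import Cfsg.Agent.Lib.PartStab

set_option autoImplicit false
open Cfsg

namespace Cfsg.Agent.S5894

open MulAction
open scoped Pointwise

/-- restriction of the point stabilizer to the other points -/
def restr {Ω : Type*} (a : Ω) :
    MulAction.stabilizer (Equiv.Perm Ω) a →* Equiv.Perm {x : Ω // x ≠ a} where
  toFun g := (g : Equiv.Perm Ω).subtypePerm (fun x => by
    have h : (g : Equiv.Perm Ω) a = a := g.2
    constructor
    · intro hx hxa
      apply hx
      rw [hxa, h]
    · intro hx hxa
      apply hx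
      apply (g : Equiv.Perm Ω).injective
      rw [hxa, h])
  map_one' := by ext x; rfl
  map_mul' g h := by ext x; rfl

theorem restr_surjective {Ω : Type*} [DecidableEq Ω] (a : Ω) :
    Function.Surjective (restr a) := by
  intro σ
  refine ⟨⟨Equiv.Perm.ofSubtype σ, ?_⟩, ?_⟩
  · change Equiv.Perm.ofSubtype σ a = a
    exact Equiv.Perm.ofSubtype_apply_of_not_mem σ (by simp)
  · ext x
    change Equiv.Perm.ofSubtype σ (x : Ω) = _
    rw [Equiv.Perm.ofSubtype_apply_coe]

/-- For every m ≥ 2 the symmetric group on 2m letters has a maximal subgroup M of index 2m together with a maximal subgroup H of M that is not second maximal: some maximal subgroup K of the symmetric group contains H without H being maximal in K. (One may take M the stabiliser of a letter, H ≅ S_m × S_{m−1} inside it, and K ≅ S_m ≀ S₂ the stabiliser of a partition into two m-sets, with H < S_m × S_m < K.) So the prime-index hypothesis in the second-maximality criterion cannot be relaxed to any even index ≥ 4. -/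
theorem result (m : ℕ) (hm : 2 ≤ m) :
    ∃ M H K : Subgroup (Equiv.Perm (Fin (2 * m))), IsCoatom M ∧ M.index = 2 * m ∧ H ≤ M ∧ IsCoatom (H.subgroupOf M) ∧
      IsCoatom K ∧ H ≤ K ∧ ¬ IsCoatom (H.subgroupOf K) := by
  classical
  set Ω := Fin (2 * m) with hΩ
  let a : Ω := ⟨0, by omega⟩
  let f : Ω → Prop := fun x => x.val < m
  have hnt : Nontrivial Ω := ⟨⟨0, by omega⟩, ⟨1, by omega⟩, fun h => by
    have := congrArg Fin.val h
    exact absurd this (Nat.zero_ne_one)⟩
  -- cardinalities of the fibres
  have hcT : Nat.card {x : Ω // f x = True} = m := by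
    have : Nat.card {x : Ω // f x = True} = Nat.card (Fin m) := by
      apply Nat.card_congr
      exact {
        toFun := fun x => ⟨x.1.val, by have := x.2; simpa [f] using this⟩
        invFun := fun x => ⟨⟨x.val, by omega⟩, by simp [f]⟩
        left_inv := fun x => by ext; rfl
        right_inv := fun x => by ext; rfl }
    rw [this, Nat.card_eq_fintype_card, Fintype.card_fin]
  have hcF : Nat.card {x : Ω // f x = False} = m := by
    have : Nat.card {x : Ω // f x = False} = Nat.card (Fin m) := by
      apply Nat.card_congr
      exact {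
        toFun := fun x => ⟨x.1.val - m, by have := x.1.2; omega⟩
        invFun := fun x => ⟨⟨x.val + m, by omega⟩, by simp [f]⟩
        left_inv := fun x => by
          have h1 : ¬ (x.1.val < m) := by have := x.2; simpa [f] using this
          ext
          change x.1.val - m + m = x.1.val
          omega
        right_inv := fun x => by
          ext
          change x.val + m - m = x.val
          omega }
    rw [this, Nat.card_eq_fintype_card, Fintype.card_fin]
  have hcard : ∀ i : Prop, Nat.card {x : Ω // f x = i} = m := by
    intro i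
    by_cases hi : i
    · rw [eq_true hi]; exact hcT
    · rw [eq_false hi]; exact hcF
  set M : Subgroup (Equiv.Perm Ω) := stabilizer (Equiv.Perm Ω) a with hM
  set K : Subgroup (Equiv.Perm Ω) := Lib.PartStab.partStab f with hK
  have hMco : IsCoatom M := IsPreprimitive.isCoatom_stabilizer_of_isPreprimitive (Equiv.Perm Ω) a
  have hKco : IsCoatom K := by
    apply Lib.PartStab.isCoatom_partStab
    · intro i j _ _; rw [hcard, hcard]
    · intro x
      have h1 : 1 < Nat.card {y : Ω // f y = f x} := by rw [hcard]; omega
      have := Finite.one_lt_card_iff_nontrivial.mp h1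
      obtain ⟨⟨y, hy⟩, hne⟩ := exists_ne (⟨x, rfl⟩ : {y : Ω // f y = f x})
      exact ⟨y, fun h => hne (Subtype.ext h), hy⟩
    · refine ⟨⟨0, by omega⟩, ⟨m, by omega⟩, ?_⟩
      intro h
      have h1 : f ⟨0, by omega⟩ := by change 0 < m; omega
      rw [h] at h1
      exact absurd h1 (lt_irrefl _)
  have hfa : f a := by change 0 < m; omega
  refine ⟨M, M ⊓ K, K, hMco, ?_, inf_le_left, ?_, hKco, inf_le_right, ?_⟩
  · rw [hM, index_stabilizer_of_transitive, Nat.card_eq_fintype_card, Fintype.card_fin]
  · -- maximality of H in M
    let s : Set {x : Ω // x ≠ a} := {x | f x.1}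
    have hs1 : s.Nonempty := ⟨⟨⟨1, by omega⟩, fun h => by
      have := congrArg Fin.val h
      exact absurd this (Nat.one_ne_zero)⟩, by change 1 < m; omega⟩
    have hs2 : sᶜ.Nonempty := ⟨⟨⟨m, by omega⟩, by
        intro h; have := congrArg Fin.val h; simp [a] at this; omega⟩, by
        change ¬ (m < m); omega⟩
    have hcα : Nat.card {x : Ω // x ≠ a} = 2 * m - 1 := by
      rw [Nat.card_eq_fintype_card, Fintype.card_subtype_compl]
      simp [hΩ]
    have hco : IsCoatom (stabilizer (Equiv.Perm {x : Ω // x ≠ a}) s) := by
      apply Equiv.Perm.isCoatom_stabilizer hs1 hs2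
      rw [hcα]
      omega
    have heq : (M ⊓ K).subgroupOf M
        = (stabilizer (Equiv.Perm {x : Ω // x ≠ a}) s).comap (restr a) := by
      ext g
      have hga : (g : Equiv.Perm Ω) a = a := g.2
      constructor
      · intro hg
        have hgK : (g : Equiv.Perm Ω) ∈ K := hg.2
        change restr a g • s = s
        have hfg : ∀ x : Ω, f (g.1 x) ↔ f x := by
          intro x
          have h1 := hgK x a
          rw [hga] at h1
          have h2 : (f x = f a) ↔ f x := by simp [hfa]
          have h3 : (f (g.1 x) = f a) ↔ f (g.1 x) := by simp [hfa]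
          rw [← h3, ← h1, h2]
        ext x
        rw [Set.mem_smul_set_iff_inv_smul_mem]
        change f (((restr a g)⁻¹ x : {x : Ω // x ≠ a}) : Ω) ↔ f x.1
        rw [← hfg]
        have : g.1 (((restr a g)⁻¹ x : {x : Ω // x ≠ a}) : Ω)
            = ((restr a g) ((restr a g)⁻¹ x) : {x : Ω // x ≠ a}) := rfl
        rw [this]; exact Iff.of_eq (congrArg (fun z : {x : Ω // x ≠ a} => f z.1) (Equiv.apply_symm_apply (restr a g) x))
      · intro hg
        have hgs : restr a g • s = s := hg
        refine ⟨g.2, ?_⟩
        have hfg : ∀ x : Ω, f (g.1 x) ↔ f x := by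
          intro x
          by_cases hx : x = a
          · rw [hx]
            change f (g.1 a) ↔ f a
            rw [hga]
          · have h1 : (⟨x, hx⟩ : {x : Ω // x ≠ a}) ∈ s ↔ restr a g • (⟨x, hx⟩ : {x : Ω // x ≠ a}) ∈ s := by
              constructor
              · intro h; rw [← hgs]; exact Set.smul_mem_smul_set h
              · intro h; rw [← hgs] at h; exact (Set.smul_mem_smul_set_iff).mp h
            exact h1.symm
        intro x y
        change f x = f y ↔ f (g.1 x) = f (g.1 y)
        rw [eq_iff_iff, eq_iff_iff, hfg, hfg]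
    rw [heq]
    exact Subgroup.isCoatom_comap_of_surjective (restr_surjective a) hco
  · intro hco
    -- intermediate subgroup
    let B : Set Ω := {x | f x}
    have hpres : ∀ g ∈ K, (∃ x, f x ∧ f (g x)) → ∀ x, f (g x) ↔ f x := by
      rintro g hg ⟨y, hy, hgy⟩ x
      have h1 := hg x y
      have h2 : (f x = f y) ↔ f x := by simp [hy]
      have h3 : (f (g x) = f (g y)) ↔ f (g x) := by simp [hgy]
      rw [← h3, ← h1, h2]
    let J : Subgroup (Equiv.Perm Ω) := {
      carrier := {g | ∀ x, f (g x) ↔ f x}
      mul_mem' := fun {g h} hg hh x => by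
        change f (g (h x)) ↔ f x
        rw [hg, hh]
      one_mem' := fun x => Iff.rfl
      inv_mem' := fun {g} hg x => by
        rw [← hg (g⁻¹ x)]
        simp }
    have hlt : (M ⊓ K).subgroupOf K < J.subgroupOf K := by
      rw [lt_iff_le_and_ne]
      constructor
      · intro g hg
        have hga : (g : Equiv.Perm Ω) a = a := hg.1
        exact hpres g.1 g.2 ⟨a, hfa, by rw [hga]; exact hfa⟩
      · intro heq
        -- swap 0 1 in J not in M
        have h01 : f ⟨1, by omega⟩ := by change 1 < m; omega
        have hsw : ∀ z, f (Equiv.swap a ⟨1, by omega⟩ z) = f z :=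
          Lib.PartStab.swap_fixes (f := f) (by rw [eq_true hfa, eq_true h01])
        have hK' : Equiv.swap a ⟨1, by omega⟩ ∈ K := Lib.PartStab.mem_of_fixes hsw
        have h1 : (⟨Equiv.swap a ⟨1, by omega⟩, hK'⟩ : K) ∈ J.subgroupOf K := fun x => by
          rw [← eq_iff_iff]; exact hsw x
        rw [← heq] at h1
        have h2 : Equiv.swap a ⟨1, by omega⟩ a = a := h1.1
        rw [Equiv.swap_apply_left] at h2
        have := congrArg Fin.val h2
        simp [a] at this
    have htop := hco.2 _ hlt
    obtain ⟨g, hg, hg1, hg2, hg3⟩ := Lib.PartStab.exists_fibreSwap (f := f) True False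
      (by rw [hcard, hcard])
    have h1 : (⟨g, hg⟩ : K) ∈ J.subgroupOf K := by rw [htop]; exact Subgroup.mem_top _
    have h2 : f (g a) ↔ f a := h1 a
    have h3 := hg1 a (eq_true hfa)
    rw [h3] at h2
    exact h2.mpr hfa

end Cfsg.Agent.S5894
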