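import Cfsg.Statements.S5895

set_option autoImplicit false
open Cfsg

namespace Cfsg.Agent.S5895

open SemidirectProduct

/-- The example in a semidirect product with an irreducible but not primitive-like pair. -/
theorem example_semidirect {N Q : Type} [CommGroup N] [Group Q] [Finite N] [Finite Q]
    (φ : Q →* MulAut N)
    (hirr : ∀ W : Subgroup N, (∀ q : Q, ∀ w ∈ W, φ q w ∈ W) → W = ⊥ ∨ W = ⊤)
    (hN : Nontrivial N)
    (Y : Subgroup Q) (hY : IsCoatom Y) (W : Subgroup N) (hW : ∀ q ∈ Y, ∀ w ∈ W, φ q w ∈ W)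
    (hW0 : W ≠ ⊥) (hW1 : W ≠ ⊤) :
    ∃ (G : Type) (_ : Group G) (_ : Finite G) (M H K : Subgroup G), IsCoatom M ∧
      M.index = Nat.card N ∧ H ≤ M ∧
      IsCoatom (H.subgroupOf M) ∧ IsCoatom K ∧ H ≤ K ∧ ¬ IsCoatom (H.subgroupOf K) := by
  have hfin : Finite (N ⋊[φ] Q) := Finite.of_equiv _ (SemidirectProduct.equivProd (φ := φ)).symm
  let M : Subgroup (N ⋊[φ] Q) := (inr : Q →* N ⋊[φ] Q).range
  let K : Subgroup (N ⋊[φ] Q) := Y.comap rightHom
  let H : Subgroup (N ⋊[φ] Q) := Y.map inr
  have hHM : H ≤ M := Subgroup.map_le_range _ _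
  have hHK : H ≤ K := by
    rintro _ ⟨y, hy, rfl⟩
    change rightHom (inr y) ∈ Y
    rw [rightHom_inr]; exact hy
  have hMmem : ∀ g : N ⋊[φ] Q, g ∈ M ↔ g.left = 1 := by
    intro g
    constructor
    · rintro ⟨q, rfl⟩; simp
    · intro h
      refine ⟨g.right, ?_⟩
      ext
      · simp [h]
      · simp
  refine ⟨N ⋊[φ] Q, inferInstance, hfin, M, H, K, ?_, ?_, hHM, ?_, ?_, hHK, ?_⟩
  · -- M maximal
    constructor
    · intro h
      obtain ⟨x, hx⟩ := exists_ne (1 : N)
      have : inl x ∈ M := by rw [h]; exact Subgroup.mem_top _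
      rw [hMmem] at this
      exact hx (by simpa using this)
    · intro L hL
      have hinr : ∀ q, inr q ∈ L := fun q => hL.le ⟨q, rfl⟩
      let LN : Subgroup N := L.comap inl
      have hinv : ∀ q : Q, ∀ w ∈ LN, φ q w ∈ LN := by
        intro q w hw
        change inl (φ q w) ∈ L
        rw [inl_aut]
        exact L.mul_mem (L.mul_mem (hinr q) hw) (hinr _)
      rcases hirr LN hinv with h | h
      · exfalso
        obtain ⟨g, hgL, hgM⟩ := SetLike.exists_of_lt hL
        apply hgM
        rw [hMmem]
        have h1 : inl g.left ∈ L := by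
          have h2 : inl g.left = g * (inr g.right)⁻¹ :=
            eq_mul_inv_of_mul_eq (inl_left_mul_inr_right g)
          rw [h2]
          exact L.mul_mem hgL (L.inv_mem (hinr _))
        have h3 : g.left ∈ LN := h1
        rw [h, Subgroup.mem_bot] at h3
        exact h3
      · rw [eq_top_iff]
        intro g _
        rw [← inl_left_mul_inr_right g]
        have : g.left ∈ LN := by rw [h]; exact Subgroup.mem_top _
        exact L.mul_mem this (hinr _)
  · -- index
    have h1 := Subgroup.card_mul_index M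
    rw [SemidirectProduct.card] at h1
    have h2 : Nat.card M = Nat.card Q :=
      (Nat.card_congr (MonoidHom.ofInjective (inr_injective (φ := φ))).toEquiv).symm
    rw [h2, mul_comm] at h1
    exact Nat.eq_of_mul_eq_mul_right Nat.card_pos h1
  · -- H maximal in M
    let e : Q ≃* M := MonoidHom.ofInjective (inr_injective (φ := φ))
    have heq : H.subgroupOf M = Y.comap e.symm.toMonoidHom := by
      ext g
      rw [Subgroup.mem_subgroupOf, Subgroup.mem_comap]
      obtain ⟨q, rfl⟩ := e.surjective g
      change (inr q : N ⋊[φ] Q) ∈ Y.map inr ↔ e.symm (e q) ∈ Y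
      rw [MulEquiv.symm_apply_apply]
      exact Subgroup.mem_map_iff_mem inr_injective
    rw [heq]
    exact Subgroup.isCoatom_comap_of_surjective e.symm.surjective hY
  · exact Subgroup.isCoatom_comap_of_surjective rightHom_surjective hY
  · -- H not maximal in K
    intro hco
    let J : Subgroup (N ⋊[φ] Q) :=
      { carrier := {g | g.left ∈ W ∧ g.right ∈ Y}
        mul_mem' := by
          rintro a b ⟨ha1, ha2⟩ ⟨hb1, hb2⟩
          exact ⟨by rw [mul_left]; exact W.mul_mem ha1 (hW _ ha2 _ hb1),
            by rw [mul_right]; exact Y.mul_mem ha2 hb2⟩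
        one_mem' := ⟨by rw [one_left]; exact W.one_mem, by rw [one_right]; exact Y.one_mem⟩
        inv_mem' := by
          rintro a ⟨ha1, ha2⟩
          exact ⟨by rw [inv_left]; exact hW _ (Y.inv_mem ha2) _ (W.inv_mem ha1),
            by rw [inv_right]; exact Y.inv_mem ha2⟩ }
    have hlt : H.subgroupOf K < J.subgroupOf K := by
      rw [lt_iff_le_and_ne]
      constructor
      · rintro g ⟨y, hy, hyg⟩
        change (g : N ⋊[φ] Q).left ∈ W ∧ (g : N ⋊[φ] Q).right ∈ Y
        change inr y = (g : N ⋊[φ] Q) at hyg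
        rw [← hyg]
        exact ⟨by rw [left_inr]; exact W.one_mem, by rw [right_inr]; exact hy⟩
      · intro heq
        obtain ⟨⟨w, hw⟩, hw1'⟩ := Subgroup.ne_bot_iff_exists_ne_one.mp hW0
        have hw1 : w ≠ 1 := fun h => hw1' (Subtype.ext h)
        have hK' : inl w ∈ K := by
          change rightHom (inl w) ∈ Y
          rw [rightHom_inl]; exact Y.one_mem
        have h1 : (⟨inl w, hK'⟩ : K) ∈ J.subgroupOf K :=
          (⟨by rw [left_inl]; exact hw, by rw [right_inl]; exact Y.one_mem⟩ :
            (inl w : N ⋊[φ] Q).left ∈ W ∧ (inl w : N ⋊[φ] Q).right ∈ Y)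
        rw [← heq] at h1
        have h2 : inl w ∈ M := hHM h1
        rw [hMmem, left_inl] at h2
        exact hw1 h2
    have htop := hco.2 _ hlt
    apply hW1
    rw [eq_top_iff]
    intro n _
    have hK' : inl n ∈ K := by
      change rightHom (inl n) ∈ Y
      rw [rightHom_inl]; exact Y.one_mem
    have h1 : (⟨inl n, hK'⟩ : K) ∈ J.subgroupOf K := by rw [htop]; exact Subgroup.mem_top _
    have h2 : (inl n : N ⋊[φ] Q).left ∈ W ∧ (inl n : N ⋊[φ] Q).right ∈ Y := h1
    rw [left_inl] at h2
    exact h2.1

/-- multiplication action of the units of a field on its additive group -/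
def unitsAct (F : Type) [Field F] : Fˣ →* MulAut (Multiplicative F) where
  toFun u := AddEquiv.toMultiplicative (DistribMulAction.toAddEquiv F u)
  map_one' := by
    ext x
    change Multiplicative.ofAdd ((1 : Fˣ) • Multiplicative.toAdd x) = x
    rw [one_smul]; rfl
  map_mul' u v := by
    ext x
    change Multiplicative.ofAdd ((u * v) • Multiplicative.toAdd x)
      = Multiplicative.ofAdd (u • (v • Multiplicative.toAdd x))
    rw [mul_smul]

theorem unitsAct_apply {F : Type} [Field F] (u : Fˣ) (x : F) :
    unitsAct F u (Multiplicative.ofAdd x) = Multiplicative.ofAdd ((u : F) * x) := rfl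

/-- For every prime p and every d ≥ 2 there is a finite group G with a maximal subgroup M of index p^d and a maximal subgroup H of M that is not second maximal in G: some maximal subgroup K of G contains H without H being maximal in K. (One may take G the affine group V ⋊ GL(V) of V = 𝔽_p^d, M = GL(V), H the stabiliser in M of a line W of V, and K = V ⋊ H, with H < W ⋊ H < K.) So the prime-index hypothesis in the second-maximality criterion cannot be relaxed to prime-power index. -/
theorem result (p d : ℕ) (hp : p.Prime)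
    (hd : 2 ≤ d) :
    ∃ (G : Type) (_ : Group G) (_ : Finite G) (M H K : Subgroup G), IsCoatom M ∧ M.index = p ^ d ∧ H ≤ M ∧
      IsCoatom (H.subgroupOf M) ∧ IsCoatom K ∧ H ≤ K ∧ ¬ IsCoatom (H.subgroupOf K) := by
  classical
  have : Fact p.Prime := ⟨hp⟩
  let F := GaloisField p d
  have hcardF : Nat.card F = p ^ d := GaloisField.card p d (by omega)
  have hfinF : Finite F := Nat.finite_of_card_ne_zero (by
    rw [hcardF]; exact (pow_pos hp.pos d).ne')
  have hfinM : Finite (Multiplicative F) := hfinF
  have hntM : Nontrivial (Multiplicative F) := (inferInstance : Nontrivial F)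
  -- irreducible subgroups of the unit group
  let S : Set (Subgroup Fˣ) := {X | ∀ W : Subgroup (Multiplicative F),
    (∀ u ∈ X, ∀ w ∈ W, unitsAct F u w ∈ W) → W = ⊥ ∨ W = ⊤}
  have hS : (⊤ : Subgroup Fˣ) ∈ S := by
    intro W hW
    by_cases hW0 : W = ⊥
    · exact Or.inl hW0
    right
    obtain ⟨⟨w, hwW⟩, hw1⟩ := Subgroup.ne_bot_iff_exists_ne_one.mp hW0
    have hw0 : Multiplicative.toAdd w ≠ (0 : F) := fun h => hw1 (Subtype.ext h)
    rw [eq_top_iff]
    intro x _
    by_cases hx : Multiplicative.toAdd x = (0 : F)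
    · have : x = 1 := hx
      rw [this]; exact W.one_mem
    · let u : Fˣ := Units.mk0 (Multiplicative.toAdd x / Multiplicative.toAdd w) (div_ne_zero hx hw0)
      have h1 := hW u (Subgroup.mem_top _) w hwW
      have h2 : unitsAct F u w = x := by
        change Multiplicative.ofAdd ((Multiplicative.toAdd x / Multiplicative.toAdd w)
          * Multiplicative.toAdd w) = x
        rw [div_mul_cancel₀ _ hw0]; rfl
      rwa [h2] at h1
  have hwf : WellFounded ((· < ·) : Subgroup Fˣ → Subgroup Fˣ → Prop) := wellFounded_lt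
  obtain ⟨X, hXS, hXmin⟩ := hwf.has_min S ⟨⊤, hS⟩
  -- X is nontrivial
  have hXne : X ≠ ⊥ := by
    rintro rfl
    -- the prime subfield is invariant
    let W : Subgroup (Multiplicative F) := Subgroup.zpowers (Multiplicative.ofAdd (1 : F))
    have hcW : Nat.card W ∣ p := by
      rw [Nat.card_zpowers]
      apply orderOf_dvd_of_pow_eq_one
      change Multiplicative.ofAdd (p • (1 : F)) = 1
      rw [nsmul_eq_mul, CharP.cast_eq_zero, zero_mul]; rfl
    rcases hXS W (by
      intro u hu w hw
      rw [Subgroup.mem_bot] at hu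
      rw [hu, map_one]; exact hw) with h | h
    · have h1 : Multiplicative.ofAdd (1 : F) ∈ W := Subgroup.mem_zpowers _
      rw [h, Subgroup.mem_bot] at h1
      exact one_ne_zero (α := F) h1
    · rw [h, Subgroup.card_top] at hcW
      have h2 : Nat.card (Multiplicative F) = p ^ d := hcardF
      rw [h2] at hcW
      have h3 := Nat.le_of_dvd hp.pos hcW
      have h4 : p ^ 1 < p ^ d := Nat.pow_lt_pow_right hp.one_lt (by omega)
      rw [pow_one] at h4
      omega
  have hXnt : Nontrivial X := (Subgroup.nontrivial_iff_ne_bot X).mpr hXne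
  -- a maximal subgroup of X
  obtain ⟨Y, hY, -⟩ := (eq_top_or_exists_le_coatom (⊥ : Subgroup X)).resolve_left bot_ne_top
  -- Y acts reducibly
  have hYlt : Y.map X.subtype < X := by
    refine lt_of_le_of_ne (Subgroup.map_subtype_le Y) fun h => hY.1 ?_
    apply Subgroup.map_injective X.subtype_injective
    rw [h, ← MonoidHom.range_eq_map, Subgroup.range_subtype]
  have hYS : Y.map X.subtype ∉ S := fun h => hXmin _ h hYlt
  have hexW : ∃ W : Subgroup (Multiplicative F),
      (∀ u ∈ Y.map X.subtype, ∀ w ∈ W, unitsAct F u w ∈ W) ∧ W ≠ ⊥ ∧ W ≠ ⊤ := by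
    by_contra hcon
    apply hYS
    intro W hW
    by_contra h
    push Not at h
    exact hcon ⟨W, hW, h.1, h.2⟩
  obtain ⟨W, hW, hW0, hW1⟩ := hexW
  have := example_semidirect ((unitsAct F).comp X.subtype)
    (fun W' hW' => hXS W' (fun u hu w hw => hW' ⟨u, hu⟩ w hw)) hntM Y hY W
    (fun q hq w hw => hW q ⟨q, hq, rfl⟩ w hw) hW0 hW1
  have h2 : Nat.card (Multiplicative F) = p ^ d := hcardF
  rw [h2] at this
  exact this

end Cfsg.Agent.S5895
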