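import Cfsg.Statements.S5896

set_option autoImplicit false
open Cfsg

namespace Cfsg.Agent.S5896

open RegularWreathProduct

/-- derived series of a subgroup contained in a term of the derived series -/
theorem map_derivedSeries_shift {W : Type*} [Group W] (N : Subgroup W) (j : ℕ)
    (hN : N ≤ derivedSeries W j) (k : ℕ) :
    (derivedSeries N k).map N.subtype ≤ derivedSeries W (j + k) := by
  induction k with
  | zero =>
    rw [derivedSeries_zero, ← MonoidHom.range_eq_map, Subgroup.range_subtype]
    exact hN
  | succ k ih =>
    rw [derivedSeries_succ, Subgroup.map_commutator, ← add_assoc, derivedSeries_succ]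
    exact Subgroup.commutator_mono ih ih

/-- evaluation at `1` on the base group -/
def ev {D Q : Type*} [Group D] [Group Q] (N : Subgroup (D ≀ᵣ Q))
    (hN : ∀ n ∈ N, n.right = 1) : N →* D where
  toFun n := n.1.left 1
  map_one' := rfl
  map_mul' a b := by
    have h := hN a.1 a.2
    change (a.1 * b.1).left 1 = _
    rw [mul_left]
    change a.1.left 1 * b.1.left (a.1.right⁻¹ * 1) = _
    rw [h]
    simp

theorem ev_surjective {D Q : Type*} [Group D] [Group Q] (P : Subgroup (D ≀ᵣ Q)) [P.Normal]
    (g : D ≀ᵣ Q) (hg : g ∈ P) (hg1 : g.right ≠ 1)
    (N : Subgroup (D ≀ᵣ Q)) (hN : ∀ n, n ∈ N ↔ n ∈ P ∧ n.right = 1) :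
    Function.Surjective (ev N (fun n hn => ((hN n).mp hn).2)) := by
  classical
  intro d
  let b : D ≀ᵣ Q := ⟨fun x => if x = 1 then d else 1, 1⟩
  have hmem : b * g * b⁻¹ * g⁻¹ ∈ N := by
    rw [hN]
    constructor
    · exact P.mul_mem (Subgroup.Normal.conj_mem inferInstance g hg b) (P.inv_mem hg)
    · simp [b]
  refine ⟨⟨_, hmem⟩, ?_⟩
  change (b * g * b⁻¹ * g⁻¹).left 1 = d
  simp only [mul_left, mul_right, inv_left, inv_right, Pi.mul_apply, Pi.inv_apply, b]
  simp [hg1]

/-- a wreath product with a nontrivial group increases the derived length -/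
theorem exists_solvable (k : ℕ) : ∃ (S : Type) (_ : Group S) (_ : Finite S),
    Group.IsSolvable S ∧ derivedSeries S k ≠ ⊥ := by
  induction k with
  | zero =>
    refine ⟨Multiplicative (ZMod 2), inferInstance, inferInstance, inferInstance, ?_⟩
    rw [derivedSeries_zero]
    have : Nontrivial (Multiplicative (ZMod 2)) := (inferInstance : Nontrivial (ZMod 2))
    exact top_ne_bot
  | succ k ih =>
    obtain ⟨S, hS1, hS2, hS3, hS4⟩ := ih
    let Q := Multiplicative (ZMod 2)
    have hQ : Nontrivial Q := (inferInstance : Nontrivial (ZMod 2))
    obtain ⟨q, hq⟩ := exists_ne (1 : Q)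
    let K : Subgroup (S ≀ᵣ Q) := (rightHom : S ≀ᵣ Q →* Q).ker
    have hsolv : Group.IsSolvable (S ≀ᵣ Q) := by
      -- base group embeds in Q → S
      have hker : Group.IsSolvable K := by
        -- the projection to the function group
        let f : K →* (Q → S) :=
          { toFun := fun n => n.1.left
            map_one' := rfl
            map_mul' := fun a b => by
              have h : a.1.right = 1 := a.2
              change (a.1 * b.1).left = _
              rw [mul_left]
              funext x
              change a.1.left x * b.1.left (a.1.right⁻¹ * x) = _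
              rw [h]
              simp }
        have hinj : Function.Injective f := by
          intro a b hab
          apply Subtype.ext
          have h1 : a.1.right = 1 := a.2
          have h2 : b.1.right = 1 := b.2
          exact RegularWreathProduct.ext hab (h1.trans h2.symm)
        have hpi : Group.IsSolvable (Q → S) := by
          obtain ⟨n, hn⟩ := hS3.solvable
          refine ⟨⟨n, ?_⟩⟩
          rw [eq_bot_iff]
          intro x hx
          rw [Subgroup.mem_bot]
          funext i
          have h1 := map_derivedSeries_le_derivedSeries (Pi.evalMonoidHom (fun _ : Q => S) i) n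
            (Subgroup.mem_map_of_mem _ hx)
          rw [hn, Subgroup.mem_bot] at h1
          exact h1
        exact Group.isSolvable_of_isSolvable_injective hinj
      exact Group.isSolvable_of_ker_le_range K.subtype (rightHom : S ≀ᵣ Q →* Q)
        (by rw [Subgroup.range_subtype])
    refine ⟨S ≀ᵣ Q, inferInstance, inferInstance, hsolv, ?_⟩
    -- the commutator-like base part
    let N : Subgroup (S ≀ᵣ Q) := derivedSeries (S ≀ᵣ Q) 1
    -- N is in the base group
    have hNr : ∀ n ∈ N, n.right = 1 := by
      intro n hn
      have h1 : N ≤ K := Abelianization.commutator_subset_ker (rightHom : S ≀ᵣ Q →* Q)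
      exact h1 hn
    have hsurj : Function.Surjective (ev N hNr) := by
      intro d
      classical
      let b : S ≀ᵣ Q := ⟨fun x => if x = 1 then d else 1, 1⟩
      let g : S ≀ᵣ Q := inl q
      have hmem : b * g * b⁻¹ * g⁻¹ ∈ N :=
        Subgroup.commutator_mem_commutator (Subgroup.mem_top b) (Subgroup.mem_top g)
      refine ⟨⟨_, hmem⟩, ?_⟩
      change (b * g * b⁻¹ * g⁻¹).left 1 = d
      simp only [mul_left, mul_right, inv_left, inv_right, Pi.mul_apply, Pi.inv_apply, b, g,
        left_inl, right_inl]
      simp [hq]
    intro hbot
    apply hS4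
    rw [← map_derivedSeries_eq hsurj k]
    have h1 := map_derivedSeries_shift N 1 le_rfl k
    rw [add_comm 1 k, hbot, le_bot_iff, Subgroup.map_eq_bot_iff_of_injective _
      N.subtype_injective] at h1
    rw [h1, Subgroup.map_bot]

theorem isSolvable_alternating_four {α : Type*} [Fintype α] [DecidableEq α]
    (h4 : Nat.card α = 4) : Group.IsSolvable (alternatingGroup α) := by
  refine ⟨⟨2, ?_⟩⟩
  rw [derivedSeries_succ, derivedSeries_one, ← alternatingGroup.kleinFour_eq_commutator h4]
  have hK := alternatingGroup.kleinFour_isKleinFour h4
  have hc := IsKleinFour.isMulCommutative (G := alternatingGroup.kleinFour α)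
  rw [eq_bot_iff, Subgroup.commutator_le]
  intro a ha b hb
  rw [Subgroup.mem_bot, commutatorElement_eq_one_iff_mul_comm]
  exact congrArg Subtype.val (hc.is_comm.comm (⟨a, ha⟩ : alternatingGroup.kleinFour α) ⟨b, hb⟩)

theorem isSolvable_perm_four {α : Type*} [Fintype α] [DecidableEq α]
    (h4 : Nat.card α = 4) : Group.IsSolvable (Equiv.Perm α) := by
  have := isSolvable_alternating_four h4
  exact Group.isSolvable_of_ker_le_range (alternatingGroup α).subtype
    (Equiv.Perm.sign : Equiv.Perm α →* ℤˣ)
    (by rw [Subgroup.range_subtype]; exact le_of_eq rfl)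

/-- Finite perfect groups have solvable maximal subgroups of unbounded derived length: for every d there is a finite perfect group G (equal to its commutator subgroup) with a solvable maximal subgroup H whose derived length exceeds d, i.e. the d-th term of the derived series of H is non-trivial. (Take the derived subgroup of a wreath product S ≀ A₅ with S solvable of large derived length, and H the preimage of a maximal subgroup of A₅.) -/
theorem result (d : ℕ) :
    ∃ (G : Type) (_ : Group G) (_ : Finite G) (H : Subgroup G), commutator G = ⊤ ∧ IsCoatom H ∧ Group.IsSolvable H ∧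
      derivedSeries H d ≠ ⊥ := by
  classical
  obtain ⟨S, hS1, hS2, hS3, hS4⟩ := exists_solvable d
  let Q := alternatingGroup (Fin 5)
  let W := S ≀ᵣ Q
  have hcardQ : 5 ≤ Nat.card (Fin 5) := by simp
  have hQsimple : IsSimpleGroup Q := alternatingGroup.isSimpleGroup hcardQ
  have hQperf : commutator Q = ⊤ := _root_.commutator_alternatingGroup_eq_top (by simp)
  have hQds : ∀ n, derivedSeries Q n = ⊤ := by
    intro n
    induction n with
    | zero => rfl
    | succ n ih => rw [derivedSeries_succ, ih]; exact hQperf
  -- stabilisation of the derived series of W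
  have hstab : ∃ n, derivedSeries W (n + 1) = derivedSeries W n := by
    by_contra hcon
    push Not at hcon
    have hanti : StrictAnti (derivedSeries W) := by
      apply strictAnti_nat_of_succ_lt
      intro n
      exact lt_of_le_of_ne (derivedSeries_antitone W (Nat.le_succ n)) (hcon n)
    exact not_injective_infinite_finite _ hanti.injective
  obtain ⟨n, hn⟩ := hstab
  let P : Subgroup W := derivedSeries W n
  have hPn : P.Normal := derivedSeries_normal W n
  have hPP : ⁅P, P⁆ = P := hn
  have hPperf : commutator P = ⊤ := by
    apply Subgroup.map_injective P.subtype_injective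
    rw [commutator_def, Subgroup.map_commutator, ← MonoidHom.range_eq_map, Subgroup.range_subtype]
    exact hPP
  -- P maps onto Q
  have hPQ : P.map (rightHom : W →* Q) = ⊤ := by
    have hsurj : Function.Surjective (rightHom : W →* Q) := fun q => ⟨inl q, by simp⟩
    have := map_derivedSeries_eq hsurj n
    rw [hQds] at this
    exact this
  let π : P →* Q := (rightHom : W →* Q).comp P.subtype
  have hπ : Function.Surjective π := by
    intro q
    have : q ∈ P.map (rightHom : W →* Q) := by rw [hPQ]; exact Subgroup.mem_top _
    obtain ⟨w, hw, hwq⟩ := this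
    exact ⟨⟨w, hw⟩, hwq⟩
  -- maximal subgroup
  let A : Subgroup Q := MulAction.stabilizer Q (0 : Fin 5)
  have hA : IsCoatom A := by
    have : MulAction.IsPreprimitive Q (Fin 5) :=
      alternatingGroup.isPreprimitive_of_three_le_card (Fin 5) (by simp)
    exact MulAction.IsPreprimitive.isCoatom_stabilizer_of_isPreprimitive Q (0 : Fin 5)
  have hAsolv : Group.IsSolvable A := by
    -- embed in permutations of the other points
    have hr : ∀ g : A, ∀ x : Fin 5, x ≠ 0 ↔ (g.1.1 : Equiv.Perm (Fin 5)) x ≠ 0 := by
      intro g x
      have h : (g.1.1 : Equiv.Perm (Fin 5)) 0 = 0 := g.2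
      constructor
      · intro hx hxa
        apply hx
        apply (g.1.1 : Equiv.Perm (Fin 5)).injective
        rw [hxa, h]
      · intro hx hxa
        apply hx
        rw [hxa, h]
    let f : A →* Equiv.Perm {x : Fin 5 // x ≠ 0} :=
      { toFun := fun g => (g.1.1 : Equiv.Perm (Fin 5)).subtypePerm (fun x => (hr g x).symm)
        map_one' := by ext x; rfl
        map_mul' := fun g h => by ext x; rfl }
    have hf : Function.Injective f := by
      intro g h hgh
      apply Subtype.ext
      apply Subtype.ext
      ext x
      by_cases hx : x = 0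
      · have h1 : (g.1.1 : Equiv.Perm (Fin 5)) 0 = 0 := g.2
        have h2 : (h.1.1 : Equiv.Perm (Fin 5)) 0 = 0 := h.2
        rw [hx, h1, h2]
      · have := congrArg (fun σ : Equiv.Perm {x : Fin 5 // x ≠ 0} => (σ ⟨x, hx⟩ : Fin 5)) hgh
        exact congrArg Fin.val this
    have := isSolvable_perm_four (α := {x : Fin 5 // x ≠ 0}) (by
      rw [Nat.card_eq_fintype_card]; rfl)
    exact Group.isSolvable_of_isSolvable_injective hf
  let H : Subgroup P := A.comap π
  -- the kernel part
  let N : Subgroup W := P ⊓ (rightHom : W →* Q).ker
  have hN : ∀ m, m ∈ N ↔ m ∈ P ∧ m.right = 1 := fun m => Iff.rfl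
  have hkersolv : Group.IsSolvable (rightHom : W →* Q).ker := by
    let K := (rightHom : W →* Q).ker
    let f : K →* (Q → S) :=
      { toFun := fun n => n.1.left
        map_one' := rfl
        map_mul' := fun a b => by
          have h : a.1.right = 1 := a.2
          change (a.1 * b.1).left = _
          rw [mul_left]
          funext x
          change a.1.left x * b.1.left (a.1.right⁻¹ * x) = _
          rw [h]
          simp }
    have hinj : Function.Injective f := by
      intro a b hab
      apply Subtype.ext
      have h1 : a.1.right = 1 := a.2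
      have h2 : b.1.right = 1 := b.2
      exact RegularWreathProduct.ext hab (h1.trans h2.symm)
    have hpi : Group.IsSolvable (Q → S) := by
      obtain ⟨n, hn⟩ := hS3.solvable
      refine ⟨⟨n, ?_⟩⟩
      rw [eq_bot_iff]
      intro x hx
      rw [Subgroup.mem_bot]
      funext i
      have h1 := map_derivedSeries_le_derivedSeries (Pi.evalMonoidHom (fun _ : Q => S) i) n
        (Subgroup.mem_map_of_mem _ hx)
      rw [hn, Subgroup.mem_bot] at h1
      exact h1
    exact Group.isSolvable_of_isSolvable_injective hinj
  refine ⟨P, inferInstance, inferInstance, H, hPperf,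
    Subgroup.isCoatom_comap_of_surjective hπ hA, ?_, ?_⟩
  · -- solvable
    let g : H →* A := π.subgroupComap A
    let K := (rightHom : W →* Q).ker
    let f : g.ker →* K :=
      { toFun := fun x => ⟨x.1.1.1, congrArg Subtype.val x.2⟩
        map_one' := rfl
        map_mul' := fun a b => rfl }
    have hf : Function.Injective f := by
      intro a b hab
      apply Subtype.ext
      apply Subtype.ext
      apply Subtype.ext
      exact congrArg (fun z : K => (z.1 : W)) hab
    have : Group.IsSolvable g.ker := Group.isSolvable_of_isSolvable_injective hf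
    exact Group.isSolvable_of_ker_le_range g.ker.subtype g (by rw [Subgroup.range_subtype])
  · -- large derived length
    intro hbot
    apply hS4
    obtain ⟨w, hwP, hw1⟩ : ∃ w ∈ P, w.right ≠ 1 := by
      have : Nontrivial Q := inferInstance
      obtain ⟨q, hq⟩ := exists_ne (1 : Q)
      obtain ⟨⟨w, hw⟩, hwq⟩ := hπ q
      exact ⟨w, hw, fun h => hq (hwq ▸ h)⟩
    have hsurj := ev_surjective P w hwP hw1 N hN
    rw [← map_derivedSeries_eq hsurj d]
    -- derived series of N is trivial since N embeds in H
    let j : N →* H :=
      { toFun := fun x => ⟨⟨x.1, x.2.1⟩, by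
          change rightHom x.1 ∈ A
          have : rightHom x.1 = 1 := x.2.2
          rw [this]; exact A.one_mem⟩
        map_one' := rfl
        map_mul' := fun a b => rfl }
    have hj : Function.Injective j := by
      intro a b hab
      apply Subtype.ext
      exact congrArg (fun z : H => (z.1.1 : W)) hab
    have h1 := map_derivedSeries_le_derivedSeries j d
    rw [hbot, le_bot_iff, Subgroup.map_eq_bot_iff_of_injective _ hj] at h1
    rw [h1, Subgroup.map_bot]

end Cfsg.Agent.S5896
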