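import Cfsg.Statements.S5901

set_option autoImplicit false
open Cfsg

namespace Cfsg.Agent.S5901

/-- Let G be a finite group and T ≤ X < G subgroups such that the interval [X/T] of the subgroup lattice of G is complemented (every Y with T ≤ Y ≤ X has C with T ≤ C ≤ X, ⟨Y, C⟩ = X and Y ∩ C = T), and suppose X is contained in a unique maximal subgroup M of G. Then every subgroup H of G with H not contained in M and H ∩ T = 1 has a complement in the subgroup lattice of G: there is C ≤ G with ⟨H, C⟩ = G and H ∩ C = 1. -/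
theorem result {G : Type*} [Group G] [Finite G] (T X M : Subgroup G)
    (hTX : T ≤ X) (hX : X ≠ ⊤)
    (hint : ∀ Y : Subgroup G, T ≤ Y → Y ≤ X → ∃ C : Subgroup G, T ≤ C ∧ C ≤ X ∧ Y ⊔ C = X ∧ Y ⊓ C = T)
    (hM : IsCoatom M) (hXM : X ≤ M) (huniq : ∀ M' : Subgroup G, IsCoatom M' → X ≤ M' → M' = M)
    (H : Subgroup G) (hH : ¬ H ≤ M) (hHT : H ⊓ T = ⊥) :
    ∃ C : Subgroup G, H ⊔ C = ⊤ ∧ H ⊓ C = ⊥ := by
  obtain ⟨C, hTC, hCX, hsup, hinf⟩ := hint (T ⊔ (H ⊓ X)) le_sup_left (sup_le hTX inf_le_right)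
  refine ⟨C, ?_, ?_⟩
  · have hXle : X ≤ H ⊔ C := by
      rw [← hsup]
      refine sup_le (sup_le (hTC.trans le_sup_right) (inf_le_left.trans le_sup_left)) le_sup_right
    by_contra hne
    obtain ⟨M', hM', hle⟩ := (eq_top_or_exists_le_coatom (H ⊔ C)).resolve_left hne
    have := huniq M' hM' (hXle.trans hle)
    subst this
    exact hH (le_sup_left.trans hle)
  · rw [eq_bot_iff, ← hHT]
    refine le_inf inf_le_left ?_
    rw [← hinf]
    exact le_inf ((le_inf inf_le_left (inf_le_right.trans hCX)).trans le_sup_right) inf_le_right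

end Cfsg.Agent.S5901
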