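import Cfsg.Statements.S5902
import Cfsg.Agent.S5901

set_option autoImplicit false
open Cfsg

namespace Cfsg.Agent.S5902

theorem interval_of_complemented {G : Type*} [Group G] (X : Subgroup G)
    (hK : ComplementedLattice (Subgroup X)) (Y : Subgroup G) (hY : Y ≤ X) :
    ∃ C : Subgroup G, ⊥ ≤ C ∧ C ≤ X ∧ Y ⊔ C = X ∧ Y ⊓ C = ⊥ := by
  obtain ⟨D, hD⟩ := hK.exists_isCompl (Y.subgroupOf X)
  refine ⟨D.map X.subtype, bot_le, Subgroup.map_subtype_le D, ?_, ?_⟩
  · have h1 : Y = (Y.subgroupOf X).map X.subtype := by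
      rw [Subgroup.subgroupOf_map_subtype, inf_eq_left.mpr hY]
    rw [h1, ← Subgroup.map_sup, hD.sup_eq_top, ← MonoidHom.range_eq_map, Subgroup.range_subtype]
  · have h1 : Y = (Y.subgroupOf X).map X.subtype := by
      rw [Subgroup.subgroupOf_map_subtype, inf_eq_left.mpr hY]
    rw [h1, ← Subgroup.map_inf _ _ _ X.subtype_injective, hD.inf_eq_bot, Subgroup.map_bot]

/-- conjugation equivalence on complements -/
theorem compl_conj {G : Type*} [Group G] (H : Subgroup G) (g : G)
    (h : ∃ C : Subgroup G, H.map (MulAut.conj g).toMonoidHom ⊔ C = ⊤ ∧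
      H.map (MulAut.conj g).toMonoidHom ⊓ C = ⊥) :
    ∃ C : Subgroup G, H ⊔ C = ⊤ ∧ H ⊓ C = ⊥ := by
  obtain ⟨C, h1, h2⟩ := h
  have hinj : Function.Injective (MulAut.conj g).toMonoidHom := (MulAut.conj g).injective
  have hsurj : Function.Surjective (MulAut.conj g).toMonoidHom := (MulAut.conj g).surjective
  refine ⟨C.comap (MulAut.conj g).toMonoidHom, ?_, ?_⟩
  · apply Subgroup.map_injective hinj
    rw [Subgroup.map_sup, Subgroup.map_comap_eq_self_of_surjective hsurj, h1,
      Subgroup.map_top_of_surjective _ hsurj]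
  · apply Subgroup.map_injective hinj
    rw [Subgroup.map_inf _ _ _ hinj, Subgroup.map_comap_eq_self_of_surjective hsurj, h2,
      Subgroup.map_bot]

/-- Let G be a finite group and K ≤ G a subgroup whose subgroup lattice is complemented, contained in a unique maximal subgroup M of G. Then every subgroup H of G not contained in the core of M (the largest normal subgroup of G contained in M) has a complement in the subgroup lattice of G, and the quotient of G by the core of M has a complemented subgroup lattice. -/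
theorem result {G : Type*} [Group G] [Finite G] (X M : Subgroup G)
    (hK : ComplementedLattice (Subgroup X))
    (hM : IsCoatom M) (hXM : X ≤ M) (huniq : ∀ M' : Subgroup G, IsCoatom M' → X ≤ M' → M' = M) :
    (∀ H : Subgroup G, ¬ H ≤ M.normalCore → ∃ C : Subgroup G, H ⊔ C = ⊤ ∧ H ⊓ C = ⊥) ∧
    ComplementedLattice (Subgroup (G ⧸ M.normalCore)) := by
  have hXtop : X ≠ ⊤ := fun h => hM.1 (top_le_iff.mp (h ▸ hXM))
  have key : ∀ H : Subgroup G, ¬ H ≤ M.normalCore → ∃ C : Subgroup G, H ⊔ C = ⊤ ∧ H ⊓ C = ⊥ := by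
    intro H hH
    -- some conjugate of H is not in M
    have : ∃ g : G, ¬ H.map (MulAut.conj g).toMonoidHom ≤ M := by
      by_contra hcon
      push Not at hcon
      apply hH
      intro h hh
      change ∀ b : G, b * h * b⁻¹ ∈ M
      intro b
      exact hcon b (Subgroup.mem_map.mpr ⟨h, hh, by simp [MulAut.conj_apply]⟩)
    obtain ⟨g, hg⟩ := this
    apply compl_conj H g
    exact Cfsg.Agent.S5901.result ⊥ X M bot_le hXtop
      (fun Y _ hY => interval_of_complemented X hK Y hY) hM hXM huniq _ hg (inf_bot_eq _)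
  refine ⟨key, ⟨fun Hq => ?_⟩⟩
  set N := M.normalCore with hN
  by_cases hle : Hq.comap (QuotientGroup.mk' N) ≤ N
  · have hbot : Hq = ⊥ := by
      rw [eq_bot_iff]
      intro x hx
      obtain ⟨y, rfl⟩ := QuotientGroup.mk'_surjective N x
      have : y ∈ N := hle hx
      rw [Subgroup.mem_bot]
      exact (QuotientGroup.eq_one_iff y).mpr this
    subst hbot
    exact ⟨⊤, isCompl_bot_top⟩
  · obtain ⟨C, h1, h2⟩ := key _ hle
    refine ⟨C.map (QuotientGroup.mk' N), ?_⟩
    rw [isCompl_iff, disjoint_iff, codisjoint_iff]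
    constructor
    · rw [eq_bot_iff]
      rintro x ⟨hx1, hx2⟩
      obtain ⟨c, hc, rfl⟩ := Subgroup.mem_map.mp hx2
      have hcH : c ∈ Hq.comap (QuotientGroup.mk' N) := hx1
      have : c ∈ Hq.comap (QuotientGroup.mk' N) ⊓ C := ⟨hcH, hc⟩
      rw [h2, Subgroup.mem_bot] at this
      rw [this, map_one]
      exact Subgroup.one_mem _
    · have hsurj := QuotientGroup.mk'_surjective N
      rw [← Subgroup.map_comap_eq_self_of_surjective hsurj Hq, ← Subgroup.map_sup, h1,
        Subgroup.map_top_of_surjective _ hsurj]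

end Cfsg.Agent.S5902
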