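import Cfsg.Statements.S5903
import Cfsg.Agent.S5901
import Cfsg.Agent.S5902

set_option autoImplicit false
open Cfsg

namespace Cfsg.Agent.S5903

/-- intervals above a normal subgroup -/
theorem interval_of_quotient {G : Type*} [Group G] (X N : Subgroup G) (hNX : N ≤ X)
    [(N.subgroupOf X).Normal] (hK : ComplementedLattice (Subgroup (X ⧸ N.subgroupOf X)))
    (Y : Subgroup G) (hNY : N ≤ Y) (hYX : Y ≤ X) :
    ∃ C : Subgroup G, N ≤ C ∧ C ≤ X ∧ Y ⊔ C = X ∧ Y ⊓ C = N := by
  set π := QuotientGroup.mk' (N.subgroupOf X) with hπ
  have hsurj : Function.Surjective π := QuotientGroup.mk'_surjective _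
  have hker : π.ker = N.subgroupOf X := QuotientGroup.ker_mk' _
  obtain ⟨D, hD⟩ := hK.exists_isCompl ((Y.subgroupOf X).map π)
  have hNY' : N.subgroupOf X ≤ Y.subgroupOf X := fun x hx => hNY hx
  have hYc : ((Y.subgroupOf X).map π).comap π = Y.subgroupOf X := by
    rw [Subgroup.comap_map_eq, hker, sup_eq_left.mpr hNY']
  have h1 : Y = (Y.subgroupOf X).map X.subtype := by
    rw [Subgroup.subgroupOf_map_subtype, inf_eq_left.mpr hYX]
  have hND : N.subgroupOf X ≤ D.comap π :=
    hker.symm.le.trans (Subgroup.ker_le_comap _ _)
  have hsup : Y.subgroupOf X ⊔ D.comap π = ⊤ := by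
    apply Subgroup.map_injective_of_ker_le π (H := Y.subgroupOf X ⊔ D.comap π) (K := ⊤)
    · rw [hker]; exact hNY'.trans le_sup_left
    · exact le_top
    · rw [Subgroup.map_sup, Subgroup.map_comap_eq_self_of_surjective hsurj, hD.sup_eq_top,
        Subgroup.map_top_of_surjective _ hsurj]
  have hinf : Y.subgroupOf X ⊓ D.comap π = N.subgroupOf X := by
    rw [← hYc, ← Subgroup.comap_inf, hD.inf_eq_bot]
    exact (MonoidHom.comap_bot π).trans hker
  refine ⟨(D.comap π).map X.subtype, ?_, Subgroup.map_subtype_le _, ?_, ?_⟩
  · have : N = (N.subgroupOf X).map X.subtype := by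
      rw [Subgroup.subgroupOf_map_subtype, inf_eq_left.mpr hNX]
    exact this.le.trans (Subgroup.map_mono hND)
  · rw [h1, ← Subgroup.map_sup, hsup, ← MonoidHom.range_eq_map, Subgroup.range_subtype]
  · rw [h1, ← Subgroup.map_inf _ _ _ X.subtype_injective, hinf, Subgroup.subgroupOf_map_subtype,
      inf_eq_left.mpr hNX]

/-- Let G be a finite simple group, X ≤ G a proper subgroup contained in a unique maximal subgroup M of G, and N ≤ X a subgroup of prime order contained in the centre of M. If the quotient X/N has a complemented subgroup lattice then so has G. -/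
theorem result {G : Type*} [Group G] [Finite G] [IsSimpleGroup G] (X M N : Subgroup G)
    (hM : IsCoatom M) (hXM : X ≤ M) (huniq : ∀ M' : Subgroup G, IsCoatom M' → X ≤ M' → M' = M)
    (hNX : N ≤ X) (hN : (Nat.card N).Prime) (hcen : ∀ n ∈ N, ∀ m ∈ M, m * n = n * m)
    [(N.subgroupOf X).Normal] (hK : ComplementedLattice (Subgroup (X ⧸ N.subgroupOf X))) :
    ComplementedLattice (Subgroup G) := by
  have hXtop : X ≠ ⊤ := fun h => hM.1 (top_le_iff.mp (h ▸ hXM))
  refine ⟨fun H => ?_⟩
  suffices h : ∃ C : Subgroup G, H ⊔ C = ⊤ ∧ H ⊓ C = ⊥ by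
    obtain ⟨C, h1, h2⟩ := h
    exact ⟨C, by rw [isCompl_iff, disjoint_iff, codisjoint_iff]; exact ⟨h2, h1⟩⟩
  by_cases hex : ∃ g : G, ¬ H.map (MulAut.conj g).toMonoidHom ≤ M ∧
      H.map (MulAut.conj g).toMonoidHom ⊓ N = ⊥
  · obtain ⟨g, hg1, hg2⟩ := hex
    apply Cfsg.Agent.S5902.compl_conj H g
    exact Cfsg.Agent.S5901.result N X M hNX hXtop
      (fun Y hNY hYX => interval_of_quotient X N hNX hK Y hNY hYX) hM hXM huniq _ hg1 hg2
  · push Not at hex
    -- each conjugate of N is either centralised by H or contained in H
    have hdich : ∀ g : G, (∀ n ∈ N, ∀ h ∈ H, h * (g⁻¹ * n * g) = (g⁻¹ * n * g) * h) ∨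
        (∀ n ∈ N, g⁻¹ * n * g ∈ H) := by
      intro g
      by_cases hle : H.map (MulAut.conj g).toMonoidHom ≤ M
      · left
        intro n hn h hh
        have h1 : g * h * g⁻¹ ∈ M := hle (Subgroup.mem_map.mpr ⟨h, hh, by simp [MulAut.conj_apply]⟩)
        have h2 := hcen n hn _ h1
        have h3 : g⁻¹ * (g * h * g⁻¹ * n) * g = g⁻¹ * (n * (g * h * g⁻¹)) * g := by rw [h2]
        simpa [mul_assoc] using h3
      · right
        have hne := hex g hle
        -- N prime order
        have hNle : N ≤ H.map (MulAut.conj g).toMonoidHom := by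
          have hp : Fact (Nat.card N).Prime := ⟨hN⟩
          have := Subgroup.eq_bot_or_eq_top_of_prime_card
            ((H.map (MulAut.conj g).toMonoidHom).subgroupOf N)
          rcases this with h | h
          · exfalso
            apply hne
            rw [eq_bot_iff]
            intro x hx
            have : (⟨x, hx.2⟩ : N) ∈ (H.map (MulAut.conj g).toMonoidHom).subgroupOf N := hx.1
            rw [h, Subgroup.mem_bot] at this
            rw [Subgroup.mem_bot]
            exact congrArg Subtype.val this
          · intro x hx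
            have : (⟨x, hx⟩ : N) ∈ (H.map (MulAut.conj g).toMonoidHom).subgroupOf N := by
              rw [h]; exact Subgroup.mem_top _
            exact this
        intro n hn
        obtain ⟨h, hh, hheq⟩ := Subgroup.mem_map.mp (hNle hn)
        have : g⁻¹ * n * g = h := by
          rw [← hheq]; simp [MulAut.conj_apply, mul_assoc]
        rw [this]; exact hh
    -- normal closure of N is G
    have hNbot : N ≠ ⊥ := by
      rintro rfl
      simp at hN
      exact absurd hN (by decide)
    have hncl : Subgroup.normalClosure (N : Set G) = ⊤ := by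
      rcases (IsSimpleGroup.eq_bot_or_eq_top_of_normal (Subgroup.normalClosure (N : Set G))
        Subgroup.normalClosure_normal) with h | h
      · exfalso
        apply hNbot
        rw [eq_bot_iff, ← h]
        exact Subgroup.subset_normalClosure
      · exact h
    -- H is normal
    have hnorm : H.Normal := by
      have htop : Subgroup.normalizer (H : Set G) = ⊤ := by
        rw [eq_top_iff, ← hncl]
        change Subgroup.closure (Group.conjugatesOfSet (N : Set G)) ≤ _
        rw [Subgroup.closure_le]
        intro x hx
        rw [Group.mem_conjugatesOfSet_iff] at hx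
        obtain ⟨n, hn, hconj⟩ := hx
        rw [isConj_iff] at hconj
        obtain ⟨c, hc⟩ := hconj
        have hx' : x = (c⁻¹)⁻¹ * n * c⁻¹ := by rw [inv_inv, hc]
        rcases hdich c⁻¹ with h | h
        · have hcomm : ∀ y ∈ H, y * x = x * y := fun y hy => by rw [hx']; exact h n hn y hy
          show x ∈ Subgroup.normalizer (H : Set G)
          rw [Subgroup.mem_normalizer_iff]
          intro y
          constructor
          · intro hy
            have := hcomm y hy
            rw [← this, mul_inv_cancel_right]
            exact hy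
          · intro hy
            have := hcomm _ hy
            have h2 : y = x * y * x⁻¹ := by
              have h3 : x * y = x * (x * y * x⁻¹) := by
                rw [← this]; group
              exact mul_left_cancel h3
            rw [h2]; exact hy
        · have hxH : x ∈ H := by rw [hx']; exact h n hn
          exact Subgroup.le_normalizer hxH
      exact Subgroup.normalizer_eq_top_iff.mp htop
    rcases IsSimpleGroup.eq_bot_or_eq_top_of_normal H hnorm with h | h
    · exact ⟨⊤, by rw [h]; simp, by rw [h]; simp⟩
    · exact ⟨⊥, by rw [h]; simp, by rw [h]; simp⟩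

end Cfsg.Agent.S5903
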