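import Cfsg.Statements.S5904

set_option autoImplicit false
open scoped Pointwise
open Cfsg

namespace Cfsg.Agent.S5904

/-- stabilizer of the unordered pair `{O, Oᶜ}` -/
def pairStab {Ω : Type*} (O : Set Ω) : Subgroup (Equiv.Perm Ω) where
  carrier := {g | g • O = O ∨ g • O = Oᶜ}
  mul_mem' {a b} ha hb := by
    have hc : ∀ g : Equiv.Perm Ω, g • Oᶜ = (g • O)ᶜ := fun g => by
      rw [Set.smul_set_compl]
    rcases ha with ha | ha <;> rcases hb with hb | hb
    · left; rw [mul_smul, hb, ha]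
    · right; rw [mul_smul, hb, hc, ha]
    · right; rw [mul_smul, hb, ha]
    · left; rw [mul_smul, hb, hc, ha, compl_compl]
  one_mem' := Or.inl (one_smul _ _)
  inv_mem' {a} ha := by
    have hc : ∀ g : Equiv.Perm Ω, g • Oᶜ = (g • O)ᶜ := fun g => by
      rw [Set.smul_set_compl]
    rcases ha with ha | ha
    · left; rw [inv_smul_eq_iff, ha]
    · right; rw [inv_smul_eq_iff, hc, ha, compl_compl]

/-- In the symmetric group on n = 2a letters, n > 2, the stabilizer of a subset of size n/2 (an intransitive subgroup S_a × S_a) is not maximal: it is properly contained in the stabilizer of the partition into the subset and its complement. -/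
theorem result {Ω : Type*} [Fintype Ω] [DecidableEq Ω] (hΩ : 2 < Fintype.card Ω)
    (O : Set Ω) (hO : Nat.card O = Nat.card ↥Oᶜ) :
    ¬ IsCoatom (MulAction.stabilizer (Equiv.Perm Ω) O) := by
  classical
  intro hco
  have hle : MulAction.stabilizer (Equiv.Perm Ω) O ≤ pairStab O := fun g hg => Or.inl hg
  have hcard : Nat.card O + Nat.card ↥Oᶜ = Fintype.card Ω := by
    rw [Nat.card_coe_set_eq, Nat.card_coe_set_eq, Set.ncard_add_ncard_compl,
      Nat.card_eq_fintype_card]
  have hm : 2 ≤ Nat.card O := by omega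
  have hOne : ∃ a ∈ O, ∃ c ∈ O, a ≠ c := by
    have : 1 < O.ncard := by rw [← Nat.card_coe_set_eq]; omega
    obtain ⟨a, ha, b, hb, hab⟩ := (Set.one_lt_ncard (Set.toFinite _)).mp this
    exact ⟨a, ha, b, hb, hab⟩
  obtain ⟨a, ha, c, hc, hac⟩ := hOne
  have hOc : ∃ b, b ∈ Oᶜ := by
    have : 0 < (Oᶜ : Set Ω).ncard := by rw [← Nat.card_coe_set_eq]; omega
    exact (Set.ncard_pos (Set.toFinite _)).mp this
  obtain ⟨b, hb⟩ := hOc
  -- an element swapping O and its complement
  have hlt : MulAction.stabilizer (Equiv.Perm Ω) O < pairStab O := by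
    refine lt_of_le_of_ne hle fun heq => ?_
    obtain ⟨e⟩ : Nonempty (↥O ≃ ↥Oᶜ) := Finite.card_eq.mp hO
    -- build the permutation
    let f : Ω → Ω := fun x => if h : x ∈ O then (e ⟨x, h⟩ : Ω) else (e.symm ⟨x, h⟩ : Ω)
    have hff : Function.Involutive f := by
      intro x
      by_cases h : x ∈ O
      · have h1 : f x = (e ⟨x, h⟩ : Ω) := dif_pos h
        have h2 : (e ⟨x, h⟩ : Ω) ∉ O := (e ⟨x, h⟩).2
        rw [h1]
        change (if h' : (e ⟨x, h⟩ : Ω) ∈ O then (e ⟨_, h'⟩ : Ω) else (e.symm ⟨_, h'⟩ : Ω)) = x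
        rw [dif_neg h2]
        simp
      · have h1 : f x = (e.symm ⟨x, h⟩ : Ω) := dif_neg h
        have h2 : (e.symm ⟨x, h⟩ : Ω) ∈ O := (e.symm ⟨x, h⟩).2
        rw [h1]
        change (if h' : (e.symm ⟨x, h⟩ : Ω) ∈ O then (e ⟨_, h'⟩ : Ω) else (e.symm ⟨_, h'⟩ : Ω)) = x
        rw [dif_pos h2]
        simp
    have hmem : (hff.toPerm f) ∈ pairStab O := by
      right
      ext x
      rw [Set.mem_smul_set_iff_inv_smul_mem]
      have hinv : (hff.toPerm f)⁻¹ • x = f x := by
        rw [inv_smul_eq_iff]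
        exact (hff x).symm
      rw [hinv]
      constructor
      · intro hx hxO
        have h1 : f x = (e ⟨x, hxO⟩ : Ω) := dif_pos hxO
        rw [h1] at hx
        exact (e ⟨x, hxO⟩).2 hx
      · intro hx
        have h1 : f x = (e.symm ⟨x, hx⟩ : Ω) := dif_neg hx
        rw [h1]
        exact (e.symm ⟨x, hx⟩).2
    rw [← heq, MulAction.mem_stabilizer_iff] at hmem
    have h3 : (hff.toPerm f) • a ∈ (hff.toPerm f) • O := Set.smul_mem_smul_set ha
    rw [hmem] at h3
    have h1 : f a = (e ⟨a, ha⟩ : Ω) := dif_pos ha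
    have h4 : (hff.toPerm f) • a = f a := rfl
    rw [h4, h1] at h3
    exact (e ⟨a, ha⟩).2 h3
  have htop := hco.2 _ hlt
  have hsw : Equiv.swap a b ∈ pairStab O := by rw [htop]; exact Subgroup.mem_top _
  have hab : a ≠ b := fun h => hb (h ▸ ha)
  have hcb : c ≠ b := fun h => hb (h ▸ hc)
  rcases hsw with h | h
  · have h3 : Equiv.swap a b • a ∈ Equiv.swap a b • O := Set.smul_mem_smul_set ha
    rw [h] at h3
    have : Equiv.swap a b • a = b := Equiv.swap_apply_left a b
    rw [this] at h3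
    exact hb h3
  · have h3 : Equiv.swap a b • c ∈ Equiv.swap a b • O := Set.smul_mem_smul_set hc
    rw [h] at h3
    have : Equiv.swap a b • c = c := Equiv.swap_apply_of_ne_of_ne hac.symm hcb
    rw [this] at h3
    exact h3 hc

end Cfsg.Agent.S5904
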