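import Cfsg.Statements.S5905
import Cfsg.Agent.Lib.PartStab

set_option autoImplicit false
open Cfsg

namespace Cfsg.Agent.S5905

/-- Let Ω be a finite set with a partition into b ≥ 2 blocks each of size a ≥ 2. The stabilizer of this partition in Sym(Ω) (the imprimitive wreath product S_a ≀ S_b) is a maximal subgroup of Sym(Ω). -/
theorem result {Ω : Type*} [Fintype Ω] [DecidableEq Ω] (a b : ℕ) (ha : 2 ≤ a) (hb : 2 ≤ b)
    (f : Ω → Fin b) (hf : ∀ i : Fin b, Nat.card {x : Ω // f x = i} = a) :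
    IsCoatom (Subgroup.closure {g : Equiv.Perm Ω | ∀ x y : Ω, f x = f y ↔ f (g x) = f (g y)}) := by
  rw [Lib.PartStab.closure_eq]
  apply Lib.PartStab.isCoatom_partStab
  · intro i j _ _
    rw [hf, hf]
  · intro x
    have h1 : 1 < Nat.card {y : Ω // f y = f x} := by rw [hf]; omega
    have := Finite.one_lt_card_iff_nontrivial.mp h1
    obtain ⟨⟨y, hy⟩, hne⟩ := exists_ne (⟨x, rfl⟩ : {y : Ω // f y = f x})
    exact ⟨y, fun h => hne (Subtype.ext h), hy⟩
  · have hex : ∀ i : Fin b, ∃ x, f x = i := by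
      intro i
      have h1 : 0 < Nat.card {y : Ω // f y = i} := by rw [hf]; omega
      obtain ⟨⟨y, hy⟩⟩ := (Nat.card_pos_iff.mp h1).1
      exact ⟨y, hy⟩
    obtain ⟨x, hx⟩ := hex ⟨0, by omega⟩
    obtain ⟨y, hy⟩ := hex ⟨1, by omega⟩
    refine ⟨x, y, ?_⟩
    rw [hx, hy]
    simp

end Cfsg.Agent.S5905
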