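import Cfsg.Statements.S5908
import Cfsg.Agent.S0827

set_option autoImplicit false
open Cfsg

namespace Cfsg.Agent.S5908

theorem q8 : ∀ g : QuaternionGroup 2, g ≠ 1 → g = QuaternionGroup.a 2 ∨ g * g = QuaternionGroup.a 2 := by
  decide

/-- The subgroup lattice of PSU₃(2) (the solvable group of order 72, realised over the field with 4 elements) is not complemented: some subgroup H has no subgroup X with H ⊔ X = ⊤ and H ⊓ X = ⊥. -/
theorem result {F : Type*} [Field F] [Fintype F] (hF : Fintype.card F = 4) :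
    ¬ ComplementedLattice (Subgroup (Cfsg.PSU 3 F 2)) := by
  intro hcl
  obtain ⟨N, hN, -, -, ⟨e⟩⟩ := Cfsg.Agent.S0827.result hF
  let f : Cfsg.PSU 3 F 2 →* QuaternionGroup 2 := e.toMonoidHom.comp (QuotientGroup.mk' N)
  have hf : Function.Surjective f := e.surjective.comp (QuotientGroup.mk'_surjective N)
  let z : QuaternionGroup 2 := QuaternionGroup.a 2
  have hz1 : z ≠ 1 := by decide
  have hzz : z * z = 1 := by decide
  let Z : Subgroup (QuaternionGroup 2) := Subgroup.zpowers z
  obtain ⟨X, hX⟩ := hcl.exists_isCompl (Z.comap f)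
  by_cases h : X.map f = ⊥
  · have h1 : X ≤ Z.comap f := by
      intro x hx
      have h2 : f x ∈ X.map f := ⟨x, hx, rfl⟩
      rw [h, Subgroup.mem_bot] at h2
      rw [Subgroup.mem_comap, h2]
      exact one_mem _
    have h2 : Z.comap f = ⊤ := by
      have := hX.sup_eq_top
      rwa [sup_eq_left.2 h1] at this
    obtain ⟨g, hg⟩ := hf (QuaternionGroup.a 1)
    have h3 : g ∈ Z.comap f := by rw [h2]; trivial
    rw [Subgroup.mem_comap, hg, Subgroup.mem_zpowers_iff] at h3
    obtain ⟨k, hk⟩ := h3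
    have h4 : (QuaternionGroup.a 1 : QuaternionGroup 2) ^ 2 = 1 := by
      rw [← hk, ← zpow_natCast, ← zpow_mul, mul_comm, zpow_mul, zpow_natCast, pow_two, hzz, one_zpow]
    revert h4
    decide
  · have h1 : z ∈ X.map f := by
      obtain ⟨⟨g, hg⟩, hg1'⟩ := Subgroup.ne_bot_iff_exists_ne_one.1 h
      have hg1 : g ≠ 1 := fun h => hg1' (Subtype.ext h)
      rcases q8 g hg1 with h2 | h2
      · rw [h2] at hg; exact hg
      · have := mul_mem hg hg
        rwa [h2] at this
    obtain ⟨x, hx, hxz⟩ := h1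
    have h2 : x ∈ Z.comap f ⊓ X :=
      Subgroup.mem_inf.2 ⟨by rw [Subgroup.mem_comap, hxz]; exact Subgroup.mem_zpowers z, hx⟩
    rw [hX.inf_eq_bot, Subgroup.mem_bot] at h2
    rw [h2, map_one] at hxz
    exact hz1 hxz.symm

end Cfsg.Agent.S5908
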