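import Cfsg.Statements.S5909
import Cfsg.Agent.Lib.PartStab

set_option autoImplicit false
open Cfsg

namespace Cfsg.Agent.S5909

open MulAction Equiv.Perm
open Lib.PartStab

variable {Ω : Type*} [Fintype Ω] [DecidableEq Ω] {ι : Type*} {f : Ω → ι}

theorem parity_fix {h : Equiv.Perm Ω} (hh : h ∈ partStab f) {p q : Ω} (hpq : p ≠ q)
    (hf : f p = f q) :
    ∃ u ∈ partStab f ⊓ alternatingGroup Ω, ∀ x, h x ≠ p → h x ≠ q → u x = h x := by
  rcases Int.units_eq_one_or (Equiv.Perm.sign h) with hs | hs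
  · exact ⟨h, ⟨hh, mem_alternatingGroup.mpr hs⟩, fun _ _ _ => rfl⟩
  · refine ⟨Equiv.swap p q * h, ⟨Subgroup.mul_mem _ (swap_mem hf) hh, ?_⟩, ?_⟩
    · refine mem_alternatingGroup.mpr ?_
      rw [map_mul, Equiv.Perm.sign_swap hpq, hs]; rfl
    · intro x h1 h2
      rw [Equiv.Perm.mul_apply, Equiv.swap_apply_of_ne_of_ne h1 h2]

theorem rankThree_even
    (hcard : ∀ i j : ι, (∃ x, f x = i) → (∃ x, f x = j) →
      Nat.card {x : Ω // f x = i} = Nat.card {x : Ω // f x = j})
    (h2 : ∀ x : Ω, ∃ y, y ≠ x ∧ f y = f x) (hne : ∀ x : Ω, ∃ w, f w ≠ f x)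
    (H3 : ∀ x z : Ω, f x ≠ f z → ∃ p q, p ≠ q ∧ f p = f q ∧ p ≠ x ∧ p ≠ z ∧ q ≠ x ∧ q ≠ z) :
    RankThree f (partStab f ⊓ alternatingGroup Ω) := by
  constructor
  · intro x y z hy hz hyx hzx
    obtain ⟨w, hw⟩ := hne x
    obtain ⟨w', hw', hw'f⟩ := h2 w
    obtain ⟨u, hu, hu'⟩ := parity_fix (swap_mem (hy.trans hz.symm)) hw' hw'f
    have hxw : x ≠ w := fun h => hw (by rw [h])
    have hxw' : x ≠ w' := fun h => hw (by rw [← hw'f, ← h])
    have hzw : z ≠ w := fun h => hw (by rw [← h, hz])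
    have hzw' : z ≠ w' := fun h => hw (by rw [← hw'f, ← h, hz])
    have hsx : Equiv.swap y z x = x := Equiv.swap_apply_of_ne_of_ne hyx.symm hzx.symm
    refine ⟨u, hu, ?_, ?_⟩
    · rw [hu' x (by rw [hsx]; exact hxw') (by rw [hsx]; exact hxw), hsx]
    · rw [hu' y (by rw [Equiv.swap_apply_left]; exact hzw')
        (by rw [Equiv.swap_apply_left]; exact hzw), Equiv.swap_apply_left]
  · intro x y z hy hz
    obtain ⟨h, hh, hx, hyz⟩ := (rankThree_partStab hcard).outer x y z hy hz
    obtain ⟨p, q, hpq, hfpq, h1, h3, h4, h5⟩ := H3 x z (Ne.symm hz)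
    obtain ⟨u, hu, hu'⟩ := parity_fix hh hpq hfpq
    refine ⟨u, hu, ?_, ?_⟩
    · rw [hu' x (by rw [hx]; exact h1.symm) (by rw [hx]; exact h4.symm), hx]
    · rw [hu' y (by rw [hyz]; exact h3.symm) (by rw [hyz]; exact h5.symm), hyz]

theorem pretransitive_even
    (hcard : ∀ i j : ι, (∃ x, f x = i) → (∃ x, f x = j) →
      Nat.card {x : Ω // f x = i} = Nat.card {x : Ω // f x = j})
    (h2 : ∀ x : Ω, ∃ y, y ≠ x ∧ f y = f x) (hne : ∀ x : Ω, ∃ w, f w ≠ f x) :
    IsPretransitive (partStab f ⊓ alternatingGroup Ω : Subgroup (Equiv.Perm Ω)) Ω := by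
  refine ⟨fun y z => ?_⟩
  obtain ⟨⟨h, hh⟩, hyz⟩ := (isPretransitive_partStab hcard).exists_smul_eq y z
  have hyz' : h y = z := hyz
  obtain ⟨w, hw⟩ := hne z
  obtain ⟨w', hw', hw'f⟩ := h2 w
  obtain ⟨u, hu, hu'⟩ := parity_fix hh hw' hw'f
  have hzw : z ≠ w := fun h => hw (by rw [← h])
  have hzw' : z ≠ w' := fun h => hw (by rw [← hw'f, ← h])
  exact ⟨⟨u, hu⟩, by
    change u y = z
    rw [hu' y (by rw [hyz']; exact hzw') (by rw [hyz']; exact hzw), hyz']⟩

theorem swap_comm4 {a b c d : Ω} (hac : a ≠ c) (had : a ≠ d) (hbc : b ≠ c) (hbd : b ≠ d) :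
    Equiv.swap a b * Equiv.swap c d = Equiv.swap c d * Equiv.swap a b := by
  rcases eq_or_ne a b with rfl | hab
  · rw [Equiv.swap_self]; rfl
  rcases eq_or_ne c d with rfl | hcd
  · rw [Equiv.swap_self]; rfl
  exact (Equiv.Perm.disjoint_swap_swap (by
    simp [hac, had, hbc, hbd, hab, hcd])).commute

theorem swap_swap_mem_alt {a b c d : Ω} (hab : a ≠ b) (hcd : c ≠ d) :
    Equiv.swap a b * Equiv.swap c d ∈ alternatingGroup Ω := by
  rw [mem_alternatingGroup, map_mul, Equiv.Perm.sign_swap hab, Equiv.Perm.sign_swap hcd]; rfl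

theorem conj_swaps (g : Equiv.Perm Ω) (a b c d : Ω) :
    g * (Equiv.swap a b * Equiv.swap c d) * g⁻¹
      = Equiv.swap (g a) (g b) * Equiv.swap (g c) (g d) := by
  have h1 : ∀ x y : Ω, g * Equiv.swap x y * g⁻¹ = Equiv.swap (g x) (g y) := fun x y => by
    rw [← Equiv.swap_apply_apply]
  calc g * (Equiv.swap a b * Equiv.swap c d) * g⁻¹
      = (g * Equiv.swap a b * g⁻¹) * (g * Equiv.swap c d * g⁻¹) := by group
    _ = _ := by rw [h1, h1]

/-- Exchange of two fibres of size two. -/
theorem exchange_mem {X Y Z T : Ω} (hXY : f X = f Y) (hTZ : f T = f Z)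
    (hX : X ≠ Y) (hT : T ≠ Z) (hfib : ∀ w, f w = f Y → w = X ∨ w = Y)
    (hfib' : ∀ w, f w = f T → w = T ∨ w = Z) (hne : f Y ≠ f T) :
    Equiv.swap X Z * Equiv.swap Y T ∈ partStab f := by
  classical
  -- f ∘ g = swap (f Y) (f T) ∘ f
  have hXT : X ≠ T := fun h => hne (by rw [← hXY, h])
  have hXZ : X ≠ Z := fun h => hne (by rw [← hXY, h, ← hTZ])
  have hYZ : Y ≠ Z := fun h => hne (by rw [h, ← hTZ])
  have hYT : Y ≠ T := fun h => hne (by rw [h])
  have key : ∀ w, f ((Equiv.swap X Z * Equiv.swap Y T) w) = Equiv.swap (f Y) (f T) (f w) := by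
    intro w
    rw [Equiv.Perm.mul_apply]
    by_cases h1 : f w = f Y
    · rcases hfib w h1 with rfl | rfl
      · rw [Equiv.swap_apply_of_ne_of_ne hX hXT, Equiv.swap_apply_left, hXY,
          Equiv.swap_apply_left, hTZ]
      · rw [Equiv.swap_apply_left, Equiv.swap_apply_of_ne_of_ne (Ne.symm hXT) hT,
          Equiv.swap_apply_left]
    · by_cases h2 : f w = f T
      · rcases hfib' w h2 with rfl | rfl
        · rw [Equiv.swap_apply_right, Equiv.swap_apply_of_ne_of_ne (Ne.symm hX) hYZ,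
            Equiv.swap_apply_right]
        · rw [Equiv.swap_apply_of_ne_of_ne (Ne.symm hYZ) (Ne.symm hT), Equiv.swap_apply_right,
            ← hTZ, Equiv.swap_apply_right, hXY]
      · have hwX : w ≠ X := fun h => h1 (by rw [h, hXY])
        have hwY : w ≠ Y := fun h => h1 (by rw [h])
        have hwT : w ≠ T := fun h => h2 (by rw [h])
        have hwZ : w ≠ Z := fun h => h2 (by rw [h, hTZ])
        rw [Equiv.swap_apply_of_ne_of_ne hwY hwT, Equiv.swap_apply_of_ne_of_ne hwX hwZ,
          Equiv.swap_apply_of_ne_of_ne h1 h2]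
  intro x y
  rw [key, key]
  exact (Equiv.swap (f Y) (f T)).injective.eq_iff.symm

theorem flips_mem {a b c d : Ω} (hab : f a = f b) (hcd : f c = f d) :
    Equiv.swap a b * Equiv.swap c d ∈ partStab f :=
  Subgroup.mul_mem _ (swap_mem hab) (swap_mem hcd)

theorem alg_shared {H : Type*} [Group H] {s r t : H} (hr : r * r = 1) (hc : r * t = t * r) :
    s * r * (t * r) = s * t := by
  calc s * r * (t * r) = s * (r * t) * r := by group
    _ = s * (t * r) * r := by rw [hc]
    _ = s * t * (r * r) := by group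
    _ = s * t := by rw [hr, mul_one]

theorem alg_exchange {H : Type*} [Group H] {s r t : H} (hs : s * s = 1) (hc : s * r = r * s)
    (hc' : s * t = t * s) : s * r * (t * s) = r * t := by
  calc s * r * (t * s) = (s * r) * t * s := by group
    _ = r * (s * t) * s := by rw [hc]; group
    _ = r * t * (s * s) := by rw [hc']; group
    _ = r * t := by rw [hs, mul_one]

theorem alg_comm {H : Type*} [Group H] {a b c d : H} (hb : b * b = 1) (hd : d * d = 1)
    (hba : b * a = a * b) (hbc : b * c = c * b) (hbd : b * d = d * b) (hda : d * a = a * d)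
    (hdc : d * c = c * d) :
    (a * b * (c * d)) * (a * b * (c * d)) = (a * c) * (a * c) := by
  have h1 : a * b * (c * d) = (a * c) * (b * d) := by
    calc a * b * (c * d) = a * (b * c) * d := by group
      _ = _ := by rw [hbc]; group
  have h2 : (b * d) * (a * c) = (a * c) * (b * d) := by
    calc (b * d) * (a * c) = b * (d * a) * c := by group
      _ = (b * a) * (d * c) := by rw [hda]; group
      _ = a * (b * c) * d := by rw [hba, hdc]; group
      _ = _ := by rw [hbc]; group
  have h3 : (b * d) * (b * d) = 1 := by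
    calc (b * d) * (b * d) = b * (d * b) * d := by group
      _ = (b * b) * (d * d) := by rw [← hbd]; group
      _ = 1 := by rw [hb, hd, one_mul]
  rw [h1]
  calc (a * c) * (b * d) * ((a * c) * (b * d)) = (a * c) * ((b * d) * (a * c)) * (b * d) := by group
    _ = (a * c) * (a * c) * ((b * d) * (b * d)) := by rw [h2]; group
    _ = _ := by rw [h3, mul_one]

/-- For fibres of size two, an overgroup of the even part of the partition stabilizer not
preserving the partition contains a three-cycle, unless there are exactly 4 fibres. -/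
theorem exists_threeCycle
    (hpart : ∀ x : Ω, ∃ x', x' ≠ x ∧ f x' = f x ∧ ∀ w, f w = f x → w = x ∨ w = x')
    (h3 : ∀ i j : ι, ∃ w : Ω, f w ≠ i ∧ f w ≠ j)
    (h5 : ∀ i j k l : ι, i ≠ j → i ≠ k → i ≠ l → j ≠ k → j ≠ l → k ≠ l →
      ∃ s : Ω, f s ≠ i ∧ f s ≠ j ∧ f s ≠ k ∧ f s ≠ l)
    (G : Subgroup (Equiv.Perm Ω)) (hUG : partStab f ⊓ alternatingGroup Ω ≤ G)
    (hG : ¬ G ≤ partStab f) : ∃ g ∈ G, g.IsThreeCycle := by
  classical
  -- an element g and points Y, T in different fibres mapped to the same fibre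
  obtain ⟨g, hgG, Y, T, hYT, hgYT⟩ : ∃ g ∈ G, ∃ Y T : Ω, f Y ≠ f T ∧ f (g Y) = f (g T) := by
    rw [SetLike.not_le_iff_exists] at hG
    obtain ⟨g, hgG, hg⟩ := hG
    rw [mem_partStab] at hg
    by_contra hcon
    push Not at hcon
    apply hg
    intro x y
    constructor
    · intro h
      by_contra h'
      exact hcon g⁻¹ (G.inv_mem hgG) (g x) (g y) h' (by simpa using h)
    · intro h
      by_contra h'
      exact hcon g hgG x y h' h
  obtain ⟨X, hXY, hfX, hfibY⟩ := hpart Y
  obtain ⟨Z, hZT, hfZ, hfibT⟩ := hpart T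
  have hYTne : Y ≠ T := fun h => hYT (by rw [h])
  have hXT : X ≠ T := fun h => hYT (by rw [← hfX, h])
  have hXZ : X ≠ Z := fun h => hYT (by rw [← hfX, h, hfZ])
  have hYZ : Y ≠ Z := fun h => hYT (by rw [h, hfZ])
  -- images
  obtain ⟨x, hx⟩ : ∃ x, g X = x := ⟨_, rfl⟩
  obtain ⟨y, hy⟩ : ∃ y, g Y = y := ⟨_, rfl⟩
  obtain ⟨z, hz⟩ : ∃ z, g Z = z := ⟨_, rfl⟩
  obtain ⟨y', hy'⟩ : ∃ y', g T = y' := ⟨_, rfl⟩
  have inj : ∀ {a b : Ω}, g a = g b → a = b := fun h => g.injective h
  have hyy' : y ≠ y' := fun h => hYTne (inj (by rw [hy, hy', h]))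
  have hxy : x ≠ y := fun h => hXY (inj (by rw [hx, hy, h]))
  have hxy' : x ≠ y' := fun h => hXT (inj (by rw [hx, hy', h]))
  have hxz : x ≠ z := fun h => hXZ (inj (by rw [hx, hz, h]))
  have hzy : z ≠ y := fun h => hYZ (inj (by rw [hy, hz, h]))
  have hzy' : z ≠ y' := fun h => hZT (inj (by rw [hz, hy', h]))
  rw [hy, hy'] at hgYT
  -- f y = f y'
  have hfibyy' : ∀ w, f w = f y → w = y ∨ w = y' := by
    obtain ⟨v, hv, hfv, hfibv⟩ := hpart y
    intro w hw
    rcases hfibv w hw with h | h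
    · exact Or.inl h
    · rcases hfibv y' hgYT.symm with h' | h'
      · exact absurd h'.symm hyy'
      · exact Or.inr (h.trans h'.symm)
  have hfzy : f z ≠ f y := fun h => by
    rcases hfibyy' z h with h' | h'
    · exact hzy h'
    · exact hzy' h'
  have hfxy : f x ≠ f y := fun h => by
    rcases hfibyy' x h with h' | h'
    · exact hxy h'
    · exact hxy' h'
  -- membership helper
  have memU : ∀ {a b c d : Ω}, a ≠ b → c ≠ d → f a = f b → f c = f d →
      Equiv.swap a b * Equiv.swap c d ∈ G := fun hab hcd h1 h2 =>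
    hUG ⟨flips_mem h1 h2, swap_swap_mem_alt hab hcd⟩
  have memUg : ∀ {a b c d : Ω}, Equiv.swap a b * Equiv.swap c d ∈ G →
      Equiv.swap (g a) (g b) * Equiv.swap (g c) (g d) ∈ G := fun h => by
    rw [← conj_swaps]
    exact G.mul_mem (G.mul_mem hgG h) (G.inv_mem hgG)
  obtain ⟨z', hz'z, hfz', hfibz⟩ := hpart z
  have hz'y : z' ≠ y := fun h => hfzy (by rw [← hfz', h])
  have hz'y' : z' ≠ y' := fun h => hfzy (by rw [← hfz', h, hgYT])
  by_cases hz'x : z' = x
  · -- four-cycle case
    have hfzx : f z = f x := by rw [← hz'x, hfz']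
    -- a third fibre
    obtain ⟨w, hwy, hwz⟩ := h3 (f y) (f z)
    obtain ⟨w', hw'w, hfw', hfibw⟩ := hpart w
    have hwx_ne : w ≠ x := fun h => hwz (by rw [h, hfzx])
    have hwy_ne : w ≠ y := fun h => hwy (by rw [h])
    have hwy'_ne : w ≠ y' := fun h => hwy (by rw [h, hgYT])
    have hw'x_ne : w' ≠ x := fun h => hwz (by rw [← hfw', h, hfzx])
    have hw'y_ne : w' ≠ y := fun h => hwy (by rw [← hfw', h])
    have hw'y'_ne : w' ≠ y' := fun h => hwy (by rw [← hfw', h, hgYT])
    have hwz_ne : w ≠ z := fun h => hwz (by rw [h])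
    -- partner of w under g
    obtain ⟨W, hgW⟩ : ∃ W, g W = w := g.surjective w
    obtain ⟨W₁, hW₁W, hfW₁, hfibW⟩ := hpart W
    obtain ⟨w₁, hw₁⟩ : ∃ w₁, g W₁ = w₁ := ⟨_, rfl⟩
    have hw₁w : w₁ ≠ w := fun h => hW₁W (inj (by rw [hw₁, hgW, h]))
    have hWX : W ≠ X := fun h => hwx_ne (by rw [← hgW, h, hx])
    have hWY : W ≠ Y := fun h => hwy_ne (by rw [← hgW, h, hy])
    have hWT : W ≠ T := fun h => hwy'_ne (by rw [← hgW, h, hy'])
    have hWZ : W ≠ Z := fun h => hwz_ne (by rw [← hgW, h, hz])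
    have hfWY : f W ≠ f Y := fun h => by
      rcases hfibY W h with h' | h'
      · exact hWY h'
      · exact hWX h'
    have hW₁X : W₁ ≠ X := fun h => hfWY (by rw [← hfW₁, h, hfX])
    have hW₁Y : W₁ ≠ Y := fun h => hfWY (by rw [← hfW₁, h])
    have hw₁x : w₁ ≠ x := fun h => hW₁X (inj (by rw [hw₁, hx, h]))
    have hw₁y : w₁ ≠ y := fun h => hW₁Y (inj (by rw [hw₁, hy, h]))
    have hfWT : f W ≠ f T := fun h => by
      rcases hfibT W h with h' | h'
      · exact hWT h'
      · exact hWZ h'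
    have hW₁T : W₁ ≠ T := fun h => hfWT (by rw [← hfW₁, h])
    have hW₁Z : W₁ ≠ Z := fun h => hfWT (by rw [← hfW₁, h, hfZ])
    have hw₁y' : w₁ ≠ y' := fun h => hW₁T (inj (by rw [hw₁, hy', h]))
    have hw₁z : w₁ ≠ z := fun h => hW₁Z (inj (by rw [hw₁, hz, h]))
    -- d' = (x y)(w w₁)
    have hd' : Equiv.swap x y * Equiv.swap w w₁ ∈ G := by
      have := memUg (memU hXY (Ne.symm hW₁W) hfX hfW₁.symm)
      rwa [hgW, hx, hy, hw₁] at this
    by_cases hww : w₁ = w'
    · -- shared edge
      have hd : Equiv.swap y y' * Equiv.swap w w' ∈ G := memU hyy' (Ne.symm hw'w) hgYT hfw'.symm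
      rw [hww] at hd'
      refine ⟨_, G.mul_mem hd hd', ?_⟩
      rw [alg_shared (Equiv.swap_mul_self _ _) (swap_comm4 hwx_ne hwy_ne hw'x_ne hw'y_ne),
        Equiv.swap_comm x y]
      exact isThreeCycle_swap_mul_swap_same hyy' hxy.symm hxy'.symm
    · -- two four-cycles: use a fifth fibre
      have hfw₁w : f w₁ ≠ f w := fun h => by
        rcases hfibw w₁ h with h' | h'
        · exact hw₁w h'
        · exact hww h'
      have hfw₁y : f w₁ ≠ f y := fun h => by
        rcases hfibyy' w₁ h with h' | h'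
        · exact hw₁y h'
        · exact hw₁y' h'
      have hfw₁z : f w₁ ≠ f z := fun h => by
        rcases hfibz w₁ h with h' | h'
        · exact hw₁z h'
        · exact hw₁x (h'.trans hz'x)
      obtain ⟨s, hs1, hs2, hs3, hs4⟩ := h5 (f y) (f z) (f w) (f w₁) (Ne.symm hfzy) (Ne.symm hwy)
        (Ne.symm hfw₁y) (Ne.symm hwz) (Ne.symm hfw₁z) (Ne.symm hfw₁w)
      obtain ⟨s', hs's, hfs', -⟩ := hpart s
      have hd : Equiv.swap y y' * Equiv.swap s s' ∈ G := memU hyy' (Ne.symm hs's) hgYT hfs'.symm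
      have ne_of : ∀ {a b : Ω}, f a ≠ f b → a ≠ b := fun h h' => h (by rw [h'])
      have hs1' : f s' ≠ f y := by rw [hfs']; exact hs1
      have hs2' : f s' ≠ f z := by rw [hfs']; exact hs2
      have hs3' : f s' ≠ f w := by rw [hfs']; exact hs3
      have hs4' : f s' ≠ f w₁ := by rw [hfs']; exact hs4
      have h1 := alg_comm (a := Equiv.swap y y') (b := Equiv.swap s s') (c := Equiv.swap x y)
        (d := Equiv.swap w w₁) (Equiv.swap_mul_self _ _) (Equiv.swap_mul_self _ _)
        (swap_comm4 (ne_of hs1) (ne_of (by rw [← hgYT]; exact hs1)) (ne_of hs1')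
          (ne_of (by rw [← hgYT]; exact hs1')))
        (swap_comm4 (ne_of (by rw [← hfzx]; exact hs2)) (ne_of hs1)
          (ne_of (by rw [← hfzx]; exact hs2')) (ne_of hs1'))
        (swap_comm4 (ne_of hs3) (ne_of hs4) (ne_of hs3') (ne_of hs4'))
        (swap_comm4 hwy_ne hwy'_ne hw₁y hw₁y')
        (swap_comm4 hwx_ne hwy_ne hw₁x hw₁y)
      have h2 := G.mul_mem (G.mul_mem hd hd') (G.mul_mem hd hd')
      refine ⟨_, h2, ?_⟩
      rw [h1, Equiv.swap_comm x y]
      exact (isThreeCycle_swap_mul_swap_same hyy' hxy.symm hxy'.symm).isThreeCycle_sq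
  · -- exchange case
    have hv : Equiv.swap x z * Equiv.swap y y' ∈ G := by
      have h1 : Equiv.swap X Z * Equiv.swap Y T ∈ partStab f :=
        exchange_mem hfX hfZ.symm hXY (Ne.symm hZT)
          (fun w hw => (hfibY w hw).symm) (fun w hw => hfibT w hw) hYT
      have h2 := memUg (hUG ⟨h1, swap_swap_mem_alt hXZ hYTne⟩)
      rwa [hx, hz, hy, hy'] at h2
    have hd : Equiv.swap y y' * Equiv.swap z z' ∈ G := memU hyy' (Ne.symm hz'z) hgYT hfz'.symm
    refine ⟨_, G.mul_mem hd hv, ?_⟩
    rw [alg_exchange (Equiv.swap_mul_self _ _)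
      (swap_comm4 (Ne.symm hzy) (Ne.symm hz'y) (Ne.symm hzy') (Ne.symm hz'y'))
      (swap_comm4 (Ne.symm hxy) (Ne.symm hzy) (Ne.symm hxy') (Ne.symm hzy')),
      Equiv.swap_comm x z]
    exact isThreeCycle_swap_mul_swap_same (Ne.symm hz'z) (Ne.symm hxz) hz'x

/-- Let Ω be a finite set with |Ω| ≠ 8, partitioned into b ≥ 2 blocks each of size a ≥ 2. The set of even permutations preserving the partition, (S_a ≀ S_b) ∩ A_n with n = ab, is a maximal subgroup of Alt(Ω). The only exception among uniform partitions is n = 8 with blocks of size 2. -/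
theorem result {Ω : Type*} [Fintype Ω] [DecidableEq Ω] (h8 : Fintype.card Ω ≠ 8) (a b : ℕ) (ha : 2 ≤ a) (hb : 2 ≤ b)
    (f : Ω → Fin b) (hf : ∀ i : Fin b, Nat.card {x : Ω // f x = i} = a) :
    IsCoatom ((Subgroup.closure {g : Equiv.Perm Ω | ∀ x y : Ω, f x = f y ↔ f (g x) = f (g y)} ⊓ alternatingGroup Ω).subgroupOf (alternatingGroup Ω)) := by
  rw [Lib.PartStab.closure_eq]
  -- basic facts
  have hn : Fintype.card Ω = b * a := by
    have e := Fintype.card_congr (Equiv.sigmaFiberEquiv f)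
    rw [Fintype.card_sigma] at e
    rw [← e]
    have : ∀ i : Fin b, Fintype.card {x : Ω // f x = i} = a := fun i => by
      rw [← Nat.card_eq_fintype_card]; exact hf i
    rw [Finset.sum_congr rfl (fun i _ => this i)]
    simp
  have hcard : ∀ i j : Fin b, (∃ x, f x = i) → (∃ x, f x = j) →
      Nat.card {x : Ω // f x = i} = Nat.card {x : Ω // f x = j} := by
    intro i j _ _; rw [hf, hf]
  have hex : ∀ i : Fin b, ∃ x, f x = i := by
    intro i
    have h1 : 0 < Nat.card {y : Ω // f y = i} := by rw [hf]; omega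
    obtain ⟨⟨y, hy⟩⟩ := (Nat.card_pos_iff.mp h1).1
    exact ⟨y, hy⟩
  have h2 : ∀ x : Ω, ∃ y, y ≠ x ∧ f y = f x := by
    intro x
    have h1 : 1 < Nat.card {y : Ω // f y = f x} := by rw [hf]; omega
    have := Finite.one_lt_card_iff_nontrivial.mp h1
    obtain ⟨⟨y, hy⟩, hne⟩ := exists_ne (⟨x, rfl⟩ : {y : Ω // f y = f x})
    exact ⟨y, fun h => hne (Subtype.ext h), hy⟩
  have hnt : Nontrivial (Fin b) := Fin.nontrivial_iff_two_le.mpr hb
  have hne : ∀ x : Ω, ∃ w, f w ≠ f x := by
    intro x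
    obtain ⟨j, hj⟩ := exists_ne (f x)
    obtain ⟨w, hw⟩ := hex j
    exact ⟨w, by rw [hw]; exact hj⟩
  have hUtr := pretransitive_even hcard h2 hne
  set U : Subgroup (Equiv.Perm Ω) := partStab f ⊓ alternatingGroup Ω with hU
  -- U is proper in the alternating group
  -- reduce to overgroups
  suffices hmain : U ≠ alternatingGroup Ω ∧ ∀ G : Subgroup (Equiv.Perm Ω), U < G →
      G ≤ alternatingGroup Ω → G = alternatingGroup Ω by
    constructor
    · rw [Ne, Subgroup.subgroupOf_eq_top]
      intro h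
      exact hmain.1 (le_antisymm inf_le_right h)
    · intro L hL
      have h1 : U = (U.subgroupOf (alternatingGroup Ω)).map (alternatingGroup Ω).subtype := by
        rw [Subgroup.subgroupOf_map_subtype]
        exact (inf_eq_left.mpr inf_le_right).symm
      have hlt : U < L.map (alternatingGroup Ω).subtype := by
        rw [h1]
        refine lt_of_le_of_ne (Subgroup.map_mono hL.le) fun h => hL.ne ?_
        exact Subgroup.map_injective (alternatingGroup Ω).subtype_injective h
      have h2 := hmain.2 _ hlt (Subgroup.map_subtype_le L)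
      apply Subgroup.map_injective (alternatingGroup Ω).subtype_injective
      rw [h2, ← MonoidHom.range_eq_map, Subgroup.range_subtype]
  -- three points not in a common fibre pattern: properness
  have hprop : U ≠ alternatingGroup Ω := by
    intro h
    -- three-cycle moving exactly one point of a fibre outside
    obtain ⟨i, -⟩ := exists_pair_ne (Fin b)
    obtain ⟨x, -⟩ := hex i
    obtain ⟨y, hyx, hfy⟩ := h2 x
    obtain ⟨w, hw⟩ := hne x
    obtain ⟨w', hw'w, hfw'⟩ := h2 w
    have hxw : x ≠ w := fun h => hw (by rw [h])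
    have hxw' : x ≠ w' := fun h => hw (by rw [← hfw', ← h])
    have hyw : y ≠ w := fun h => hw (by rw [← h, hfy])
    have hyw' : y ≠ w' := fun h => hw (by rw [← hfw', ← h, hfy])
    have hmem : Equiv.swap x w * Equiv.swap w w' ∈ alternatingGroup Ω :=
      swap_swap_mem_alt hxw (Ne.symm hw'w)
    rw [← h] at hmem
    have h3 := (hmem.1 x y).mp hfy.symm
    rw [Equiv.Perm.mul_apply, Equiv.Perm.mul_apply, Equiv.swap_apply_of_ne_of_ne hxw hxw',
      Equiv.swap_apply_left, Equiv.swap_apply_of_ne_of_ne hyw hyw',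
      Equiv.swap_apply_of_ne_of_ne hyx hyw] at h3
    exact hw (h3.trans hfy)
  refine ⟨hprop, ?_⟩
  intro G hUG hGA
  have hGW : ¬ G ≤ partStab f := by
    intro h
    exact absurd (lt_of_lt_of_le hUG (le_inf h hGA)) (lt_irrefl _)
  have finish : (∀ x z : Ω, f x ≠ f z → ∃ p q, p ≠ q ∧ f p = f q ∧ p ≠ x ∧ p ≠ z ∧ q ≠ x ∧ q ≠ z) →
      (∃ g ∈ G, g.IsThreeCycle) → G = alternatingGroup Ω := by
    rintro H3 ⟨g, hg, hg3⟩
    have hprim : IsPreprimitive G Ω :=
      (rankThree_even hcard h2 hne H3).isPreprimitive h2 hUtr hUG.le hGW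
    exact le_antisymm hGA (alternatingGroup_le_of_isPreprimitive_of_isThreeCycle_mem hprim hg3 hg)
  rcases Nat.lt_or_ge 2 a with ha3 | ha2
  · -- a ≥ 3
    -- two further points in a fibre
    have hthree : ∀ x : Ω, ∃ p q, p ≠ q ∧ p ≠ x ∧ q ≠ x ∧ f p = f x ∧ f q = f x := by
      intro x
      have h1 : 2 < Fintype.card {y : Ω // f y = f x} := by
        rw [← Nat.card_eq_fintype_card, hf]; exact ha3
      obtain ⟨p, q, r, hpq, hpr, hqr⟩ := Fintype.two_lt_card_iff.mp h1
      by_cases hpx : p.1 = x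
      · exact ⟨q.1, r.1, fun h => hqr (Subtype.ext h), fun h => hpq (Subtype.ext (hpx.trans h.symm)),
          fun h => hpr (Subtype.ext (hpx.trans h.symm)), q.2, r.2⟩
      · by_cases hqx : q.1 = x
        · exact ⟨p.1, r.1, fun h => hpr (Subtype.ext h), hpx,
            fun h => hqr (Subtype.ext (hqx.trans h.symm)), p.2, r.2⟩
        · exact ⟨p.1, q.1, fun h => hpq (Subtype.ext h), hpx, hqx, p.2, q.2⟩
    apply finish
    · intro x z hxz
      obtain ⟨p, q, hpq, hpx, hqx, hfp, hfq⟩ := hthree x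
      exact ⟨p, q, hpq, hfp.trans hfq.symm, hpx, fun h => hxz (by rw [← hfp, h]), hqx,
        fun h => hxz (by rw [← hfq, h])⟩
    · obtain ⟨i, -⟩ := exists_pair_ne (Fin b)
      obtain ⟨x, -⟩ := hex i
      obtain ⟨p, q, hpq, hpx, hqx, hfp, hfq⟩ := hthree x
      exact ⟨_, hUG.le ⟨flips_mem hfp.symm hfq.symm, swap_swap_mem_alt (Ne.symm hpx) (Ne.symm hqx)⟩,
        isThreeCycle_swap_mul_swap_same (Ne.symm hpx) (Ne.symm hqx) hpq⟩
  · have ha' : a = 2 := by omega
    subst ha'
    have hpart : ∀ x : Ω, ∃ x', x' ≠ x ∧ f x' = f x ∧ ∀ w, f w = f x → w = x ∨ w = x' := by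
      intro x
      obtain ⟨x', hx', hfx'⟩ := h2 x
      refine ⟨x', hx', hfx', ?_⟩
      intro w hw
      by_contra hcon
      push Not at hcon
      have h1 : 2 < Fintype.card {y : Ω // f y = f x} := by
        rw [Fintype.two_lt_card_iff]
        exact ⟨⟨x, rfl⟩, ⟨x', hfx'⟩, ⟨w, hw⟩, fun h => hx' (congrArg Subtype.val h).symm,
          fun h => hcon.1 (congrArg Subtype.val h).symm,
          fun h => hcon.2 (congrArg Subtype.val h).symm⟩
      rw [← Nat.card_eq_fintype_card, hf] at h1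
      omega
    rcases Nat.lt_or_ge 2 b with hb3 | hb2
    · have h3 : ∀ i j : Fin b, ∃ w : Ω, f w ≠ i ∧ f w ≠ j := by
        intro i j
        obtain ⟨k, hk⟩ : ∃ k : Fin b, k ∉ ({i, j} : Finset (Fin b)) := by
          by_contra hcon
          push Not at hcon
          have h1 : (Finset.univ : Finset (Fin b)) ⊆ {i, j} := fun k _ => hcon k
          have h2 := Finset.card_le_card h1
          rw [Finset.card_univ, Fintype.card_fin] at h2
          have h3 := Finset.card_le_two (a := i) (b := j)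
          omega
        obtain ⟨w, hw⟩ := hex k
        simp only [Finset.mem_insert, Finset.mem_singleton, not_or] at hk
        exact ⟨w, by rw [hw]; exact hk.1, by rw [hw]; exact hk.2⟩
      have hb4 : b ≠ 4 := by
        rintro rfl
        apply h8
        rw [hn]
      apply finish
      · intro x z hxz
        obtain ⟨w, hw1, hw2⟩ := h3 (f x) (f z)
        obtain ⟨w', hw'w, hfw'⟩ := h2 w
        exact ⟨w, w', Ne.symm hw'w, hfw'.symm, fun h => hw1 (by rw [h]), fun h => hw2 (by rw [h]),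
          fun h => hw1 (by rw [← hfw', h]), fun h => hw2 (by rw [← hfw', h])⟩
      · apply exists_threeCycle hpart h3 ?_ G hUG.le hGW
        intro i j k l hij hik hil hjk hjl hkl
        have hb5 : 4 < b := by
          have h1 : ({i, j, k, l} : Finset (Fin b)).card = 4 := by
            rw [Finset.card_insert_of_notMem, Finset.card_insert_of_notMem,
              Finset.card_insert_of_notMem, Finset.card_singleton]
            · simpa using hkl
            · simp [hjk, hjl]
            · simp [hij, hik, hil]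
          have h2 := Finset.card_le_univ ({i, j, k, l} : Finset (Fin b))
          rw [h1, Fintype.card_fin] at h2
          omega
        obtain ⟨m, hm⟩ : ∃ m : Fin b, m ∉ ({i, j, k, l} : Finset (Fin b)) := by
          by_contra hcon
          push Not at hcon
          have h1 : (Finset.univ : Finset (Fin b)) ⊆ {i, j, k, l} := fun k _ => hcon k
          have h2 := Finset.card_le_card h1
          rw [Finset.card_univ, Fintype.card_fin] at h2
          have h3 : ({i, j, k, l} : Finset (Fin b)).card ≤ 4 := Finset.card_le_four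
          omega
        obtain ⟨s, hs⟩ := hex m
        simp only [Finset.mem_insert, Finset.mem_singleton, not_or] at hm
        exact ⟨s, by rw [hs]; exact hm.1, by rw [hs]; exact hm.2.1, by rw [hs]; exact hm.2.2.1,
          by rw [hs]; exact hm.2.2.2⟩
    · -- n = 4
      have hb' : b = 2 := by omega
      subst hb'
      have hΩ4 : Nat.card Ω = 4 := by rw [Nat.card_eq_fintype_card, hn]
      have hA12 : Nat.card (alternatingGroup Ω) = 12 := by
        have hnt' : Nontrivial Ω := by
          obtain ⟨x, -⟩ := hex 0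
          obtain ⟨y, hy, -⟩ := h2 x
          exact ⟨x, y, hy.symm⟩
        have h1 := two_mul_nat_card_alternatingGroup (α := Ω)
        rw [Nat.card_perm, hΩ4] at h1
        have : Nat.factorial 4 = 24 := rfl
        omega
      have hU4 : 4 ∣ Nat.card U := by
        obtain ⟨x, -⟩ := hex 0
        have h1 := MulAction.index_stabilizer_of_transitive U x
        rw [hΩ4] at h1
        rw [← h1]
        exact Subgroup.index_dvd_card _
      have hUdvd : Nat.card U ∣ Nat.card G := Subgroup.card_dvd_of_le hUG.le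
      have hGdvd : Nat.card G ∣ 12 := by
        rw [← hA12]; exact Subgroup.card_dvd_of_le hGA
      have hUpos : 0 < Nat.card U := Nat.card_pos
      have hGpos : 0 < Nat.card G := Nat.card_pos
      have hUne : Nat.card U ≠ Nat.card G := by
        intro h
        exact hUG.ne (Subgroup.eq_of_le_of_card_ge hUG.le h.ge)
      have hG12 : Nat.card G = 12 := by
        obtain ⟨k, hk⟩ := hUdvd
        obtain ⟨j, hj⟩ := hU4
        have hk2 : 2 ≤ k := by
          by_contra h
          have : k = 0 ∨ k = 1 := by omega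
          rcases this with h | h <;> subst h
          · omega
          · apply hUne; rw [hk, mul_one]
        have hj1 : 1 ≤ j := by
          by_contra h
          have : j = 0 := by omega
          subst this; omega
        have h8' : 8 ≤ Nat.card G := by
          rw [hk, hj]
          calc 8 = 4 * 1 * 2 := by norm_num
            _ ≤ 4 * j * k := Nat.mul_le_mul (Nat.mul_le_mul_left 4 hj1) hk2
        have hle := Nat.le_of_dvd (by norm_num) hGdvd
        interval_cases h : Nat.card G <;> omega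
      exact Subgroup.eq_of_le_of_card_ge hGA (by rw [hA12, hG12])

end Cfsg.Agent.S5909
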