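import Cfsg.Statements.S5910
import Cfsg.Agent.Lib.PartStab

set_option autoImplicit false
open Cfsg

namespace Cfsg.Agent.S5910

abbrev U := ZMod 2 × ZMod 2
abbrev V := U × ZMod 2

theorem perm_affine : ∀ σ : Equiv.Perm U, ∀ a b c : U, σ (a + b + c) = σ a + σ b + σ c := by
  decide +kernel

theorem fun_affine : ∀ k : U → ZMod 2, (∑ v, k v = 0) → ∀ a b c : U,
    k (a + b + c) = k a + k b + k c := by
  decide +kernel

theorem sign_addRight (a : ZMod 2) :
    Equiv.Perm.sign (Equiv.addRight a : Equiv.Perm (ZMod 2)) = if a = 0 then 1 else -1 := by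
  revert a
  decide +kernel

theorem prod_sign : ∀ k : U → ZMod 2, (∏ v, (if k v = 0 then (1 : ℤˣ) else -1)) = 1 →
    ∑ v, k v = 0 := by
  decide +kernel

/-- affine permutations of `V` -/
def aff : Subgroup (Equiv.Perm V) where
  carrier := {g | ∀ x y z : V, g (x + y + z) = g x + g y + g z}
  mul_mem' {a b} ha hb := by
    intro x y z
    rw [Equiv.Perm.mul_apply, hb, ha]
    rfl
  one_mem' := fun x y z => rfl
  inv_mem' {a} ha := by
    intro x y z
    apply a.injective
    rw [ha]
    simp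

theorem mem_aff {g : Equiv.Perm V} : g ∈ aff ↔ ∀ x y z : V, g (x + y + z) = g x + g y + g z :=
  Iff.rfl

/-- coordinate swap, affine but not preserving fibres of `Prod.fst` -/
def cswap : Equiv.Perm V where
  toFun x := ((x.2, x.1.2), x.1.1)
  invFun x := ((x.2, x.1.2), x.1.1)
  left_inv x := rfl
  right_inv x := rfl

theorem cswap_aff : cswap ∈ aff := by
  rw [mem_aff]
  intro x y z
  rfl

theorem cswap_even : Equiv.Perm.sign cswap = 1 := by
  decide +kernel

def bad : Equiv.Perm V := Equiv.swap ((0, 0), 0) ((0, 0), 1) * Equiv.swap ((0, 0), 0) ((0, 1), 0)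

theorem bad_even : Equiv.Perm.sign bad = 1 := by
  decide +kernel

theorem bad_not : bad ∉ aff := by
  rw [mem_aff]
  decide +kernel

theorem z2 : ∀ t : ZMod 2, t = 0 ∨ t = 1 := by decide

theorem preserve_aff (g : Equiv.Perm V) (hg : ∀ x y : V, x.1 = y.1 ↔ (g x).1 = (g y).1)
    (hs : Equiv.Perm.sign g = 1) : g ∈ aff := by
  let s : U → U := fun v => (g (v, 0)).1
  have hsinj : Function.Injective s := fun v w h => (hg (v, 0) (w, 0)).mpr h
  let σ : Equiv.Perm U := Equiv.ofBijective s (Finite.injective_iff_bijective.mp hsinj)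
  let k : U → ZMod 2 := fun v => (g (v, 0)).2
  have hσ : ∀ v, σ v = (g (v, 0)).1 := fun v => rfl
  have hform : ∀ v t, g (v, t) = (σ v, t + k v) := by
    intro v t
    have h1 : (g (v, t)).1 = σ v := ((hg (v, t) (v, 0)).mp rfl)
    have h2 : (g (v, t)).2 = t + k v := by
      have hz : t = 0 ∨ t = 1 := z2 t
      rcases hz with rfl | rfl
      · rw [zero_add]
      · have hne : (g (v, 1)).2 ≠ k v := by
          intro h
          have : g (v, 1) = g (v, 0) := Prod.ext h1 h
          have := g.injective this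
          exact absurd (congrArg Prod.snd this) (one_ne_zero (α := ZMod 2))
        revert hne
        generalize (g (v, 1)).2 = a
        generalize k v = b
        revert a b
        decide
    exact Prod.ext h1 h2
  have hg' : g = (Equiv.prodCongrLeft (fun _ : ZMod 2 => σ)) *
      (Equiv.prodCongrRight (fun v => (Equiv.addRight (k v) : Equiv.Perm (ZMod 2)))) := by
    ext1 ⟨v, t⟩
    rw [hform]
    rfl
  have hsum : ∑ v, k v = 0 := by
    apply prod_sign
    rw [hg', map_mul, Equiv.Perm.sign_prodCongrRight, Equiv.Perm.sign_prodCongrLeft] at hs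
    simp only [sign_addRight] at hs
    have h1 : ∏ _k : ZMod 2, Equiv.Perm.sign σ = 1 := by
      rw [Finset.prod_const, Finset.card_univ]
      have : Fintype.card (ZMod 2) = 2 := rfl
      rw [this]
      exact Int.units_sq _
    rw [h1, one_mul] at hs
    exact hs
  rw [mem_aff]
  rintro ⟨a, r⟩ ⟨b, s⟩ ⟨c, t⟩
  have e1 : ((a, r) : V) + (b, s) + (c, t) = (a + b + c, r + s + t) := rfl
  rw [e1, hform, hform, hform, hform]
  have e2 : ((σ a, r + k a) : V) + (σ b, s + k b) + (σ c, t + k c)
      = (σ a + σ b + σ c, (r + k a) + (s + k b) + (t + k c)) := rfl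
  rw [e2, perm_affine, fun_affine k hsum]
  congr 1
  ring

/-- In A₈ the even stabilizer of a partition of 8 points into 4 blocks of size 2, (S₂ ≀ S₄) ∩ A₈, is not maximal; it is contained in the affine group AGL₃(2) ≅ 2³:L₃(2). -/
theorem result {Ω : Type*} [Fintype Ω] [DecidableEq Ω] (h8 : Fintype.card Ω = 8)
    (f : Ω → Fin 4) (hf : ∀ i : Fin 4, Nat.card {x : Ω // f x = i} = 2) :
    ¬ IsCoatom ((Subgroup.closure {g : Equiv.Perm Ω | ∀ x y : Ω, f x = f y ↔ f (g x) = f (g y)} ⊓ alternatingGroup Ω).subgroupOf (alternatingGroup Ω)) := by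
  rw [Lib.PartStab.closure_eq]
  -- an identification with V compatible with f
  obtain ⟨h⟩ : Nonempty (Fin 4 ≃ U) := ⟨Fintype.equivOfCardEq (by decide)⟩
  obtain ⟨e, he⟩ : ∃ e : Ω ≃ V, ∀ x, (e x).1 = h (f x) := by
    have hfib : ∀ i : Fin 4, Nonempty ({x : Ω // f x = i} ≃ ZMod 2) := fun i =>
      Finite.card_eq.mp (by rw [hf, Nat.card_eq_fintype_card]; rfl)
    let E : ∀ i : Fin 4, {x : Ω // f x = i} ≃ ZMod 2 := fun i => (hfib i).some
    let e1 : Ω ≃ Σ i : Fin 4, {x : Ω // f x = i} := (Equiv.sigmaFiberEquiv f).symm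
    let e2 : (Σ i : Fin 4, {x : Ω // f x = i}) ≃ Σ _ : Fin 4, ZMod 2 := Equiv.sigmaCongrRight E
    let e3 : (Σ _ : Fin 4, ZMod 2) ≃ Fin 4 × ZMod 2 := Equiv.sigmaEquivProd _ _
    let e4 : Fin 4 × ZMod 2 ≃ V := Equiv.prodCongr h (Equiv.refl _)
    exact ⟨((e1.trans e2).trans e3).trans e4, fun x => rfl⟩
  let φ : Equiv.Perm Ω ≃* Equiv.Perm V := e.permCongrHom
  have hφ : ∀ (g : Equiv.Perm Ω) (v : V), φ g v = e (g (e.symm v)) := fun g v => rfl
  have hφs : ∀ g : Equiv.Perm Ω, Equiv.Perm.sign (φ g) = Equiv.Perm.sign g := fun g =>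
    Equiv.Perm.sign_permCongr e g
  let G : Subgroup (Equiv.Perm Ω) := aff.comap φ.toMonoidHom
  have hWG : Lib.PartStab.partStab f ⊓ alternatingGroup Ω ≤ G := by
    rintro g ⟨hg, hga⟩
    change φ g ∈ aff
    apply preserve_aff
    · intro x y
      rw [hφ, hφ, he, he]
      obtain ⟨x, rfl⟩ := e.surjective x
      obtain ⟨y, rfl⟩ := e.surjective y
      rw [Equiv.symm_apply_apply, Equiv.symm_apply_apply, he, he, h.injective.eq_iff,
        h.injective.eq_iff]
      exact hg x y
    · rw [hφs]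
      exact Equiv.Perm.mem_alternatingGroup.mp hga
  intro hco
  have hlt : (Lib.PartStab.partStab f ⊓ alternatingGroup Ω).subgroupOf (alternatingGroup Ω)
      < G.subgroupOf (alternatingGroup Ω) := by
    rw [lt_iff_le_and_ne]
    constructor
    · intro g hg
      exact hWG hg
    · intro heq
      have hmem : φ.symm cswap ∈ alternatingGroup Ω := by
        rw [Equiv.Perm.mem_alternatingGroup, ← hφs, MulEquiv.apply_symm_apply, cswap_even]
      have h1 : (⟨φ.symm cswap, hmem⟩ : alternatingGroup Ω) ∈ G.subgroupOf (alternatingGroup Ω) := by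
        change φ (φ.symm cswap) ∈ aff
        rw [MulEquiv.apply_symm_apply]; exact cswap_aff
      rw [← heq] at h1
      have h2 : φ.symm cswap ∈ Lib.PartStab.partStab f := h1.1
      have h3 : ∀ x y : V, x.1 = y.1 → (cswap x).1 = (cswap y).1 := by
        intro x y hxy
        have h4 := (h2 (e.symm x) (e.symm y)).mp (h.injective (by
          rw [← he, ← he, Equiv.apply_symm_apply, Equiv.apply_symm_apply, hxy]))
        have h5 : ∀ z : V, e (φ.symm cswap (e.symm z)) = cswap z := by
          intro z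
          rw [← hφ, MulEquiv.apply_symm_apply]
        rw [← h5, ← h5, he, he, h4]
      have := h3 ((0, 0), 0) ((0, 0), 1) rfl
      exact absurd this (by decide)
  have htop := hco.2 _ hlt
  have hmem : φ.symm bad ∈ alternatingGroup Ω := by
    rw [Equiv.Perm.mem_alternatingGroup, ← hφs, MulEquiv.apply_symm_apply, bad_even]
  have h1 : (⟨φ.symm bad, hmem⟩ : alternatingGroup Ω) ∈ G.subgroupOf (alternatingGroup Ω) := by
    rw [htop]; exact Subgroup.mem_top _
  have h2 : φ (φ.symm bad) ∈ aff := h1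
  rw [MulEquiv.apply_symm_apply] at h2
  exact bad_not h2

end Cfsg.Agent.S5910
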