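import Cfsg.Statements.S5911
import Cfsg.Agent.Lib.SymIndex

set_option autoImplicit false
open Cfsg

namespace Cfsg.Agent.S5911

open Equiv Equiv.Perm Cfsg.Agent.Lib

theorem small {Ω : Type*} [Fintype Ω] [DecidableEq Ω] (h4 : Fintype.card Ω ≤ 4)
    (H : Subgroup (Perm Ω)) (hH : H.index = Fintype.card Ω) : ∃ x : Ω, ∀ g ∈ H, g x = x := by
  classical
  have hmul := H.card_mul_index
  rw [hH, Nat.card_perm, Nat.card_eq_fintype_card (α := Ω)] at hmul
  have h0 : Fintype.card Ω ≠ 0 := by
    intro h0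
    rw [h0] at hH
    exact Subgroup.index_ne_zero_of_finite hH
  -- p-group argument
  have hp : ∀ (p : ℕ) [Fact p.Prime], ∀ P : Subgroup (Perm Ω), IsPGroup p P → ¬ p ∣ Fintype.card Ω →
      ∃ x : Ω, ∀ g ∈ P, g x = x := by
    intro p _ P hP hpn
    have := hP.nonempty_fixed_point_of_prime_not_dvd_card (α := Ω) (by rwa [Nat.card_eq_fintype_card])
    obtain ⟨x, hx⟩ := this
    exact ⟨x, fun g hg => hx ⟨g, hg⟩⟩
  rcases (by omega : Fintype.card Ω = 1 ∨ Fintype.card Ω = 2 ∨ Fintype.card Ω = 3 ∨ Fintype.card Ω = 4)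
    with h | h | h | h
  · have : Subsingleton Ω := Fintype.card_le_one_iff_subsingleton.1 h.le
    obtain ⟨x⟩ : Nonempty Ω := Fintype.card_pos_iff.1 (by omega)
    exact ⟨x, fun g _ => Subsingleton.elim _ _⟩
  · rw [h] at hmul
    have h1 : Nat.card H = 1 := by
      have : (2 : ℕ).factorial = 2 := rfl
      omega
    have hb : H = ⊥ := Subgroup.card_eq_one.1 h1
    obtain ⟨x⟩ : Nonempty Ω := Fintype.card_pos_iff.1 (by omega)
    refine ⟨x, fun g hg => ?_⟩
    rw [hb, Subgroup.mem_bot] at hg
    rw [hg]; rfl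
  · rw [h] at hmul
    have h1 : Nat.card H = 2 := by
      have : (3 : ℕ).factorial = 6 := rfl
      omega
    refine hp 2 H (IsPGroup.of_card (n := 1) (by rw [h1, pow_one])) (by rw [h]; norm_num)
  · rw [h] at hmul
    have h1 : Nat.card H = 6 := by
      have : (4 : ℕ).factorial = 24 := rfl
      omega
    -- a subgroup of order 3
    haveI : Fact (Nat.Prime 3) := ⟨Nat.prime_three⟩
    obtain ⟨P, hP⟩ := Sylow.exists_subgroup_card_pow_prime (G := H) 3 (n := 1) (by rw [h1]; norm_num)
    rw [pow_one] at hP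
    have hPi : P.index = 2 := by
      have := P.card_mul_index
      rw [hP, h1] at this
      omega
    have hPn : P.Normal := Subgroup.normal_of_index_eq_two hPi
    have hPg : IsPGroup 3 P := IsPGroup.of_card (n := 1) (by rw [hP, pow_one])
    have hmod := hPg.card_modEq_card_fixedPoints Ω
    rw [Nat.card_eq_fintype_card, h] at hmod
    have hle : Nat.card (MulAction.fixedPoints P Ω) ≤ 4 := by
      rw [← h, ← Nat.card_eq_fintype_card]
      exact Finite.card_subtype_le _
    have hne4 : Nat.card (MulAction.fixedPoints P Ω) ≠ 4 := by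
      intro h4'
      have huniv : MulAction.fixedPoints P Ω = Set.univ := by
        apply Set.eq_univ_of_univ_subset
        apply (Set.eq_of_subset_of_ncard_le (Set.subset_univ _) _).symm.subset
        rw [Set.ncard_univ, Nat.card_eq_fintype_card, h, ← Nat.card_coe_set_eq, h4']
      have : P = ⊥ := by
        rw [eq_bot_iff]
        intro g hg
        rw [Subgroup.mem_bot]
        apply Subtype.ext
        ext x
        have hx : x ∈ MulAction.fixedPoints P Ω := by rw [huniv]; trivial
        exact hx ⟨g, hg⟩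
      rw [this, Subgroup.card_bot] at hP
      omega
    have h1' : Nat.card (MulAction.fixedPoints P Ω) = 1 := by
      unfold Nat.ModEq at hmod
      omega
    obtain ⟨⟨x, hx⟩, huniq⟩ := Nat.card_eq_one_iff_exists.1 h1' 
    refine ⟨x, fun g hg => ?_⟩
    have hgx : g x ∈ MulAction.fixedPoints P Ω := by
      intro k
      have hk : (⟨g, hg⟩⁻¹ * k.1 * ⟨g, hg⟩ : H) ∈ P := by
        have := hPn.conj_mem k.1 k.2 (⟨g, hg⟩⁻¹ : H)
        simpa using this
      have hfix := hx ⟨_, hk⟩
      have hfix' : g⁻¹ ((k.1 : Perm Ω) (g x)) = x := hfix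
      have := congrArg g hfix'
      rw [← Perm.mul_apply, mul_inv_cancel, Perm.one_apply] at this
      exact this
    exact congrArg Subtype.val (huniq ⟨g x, hgx⟩)

/-- Let Ω be a finite set whose size n is not 6. Then every subgroup of the symmetric group on Ω of index n is the stabilizer of a point. -/
theorem result {Ω : Type*} [Fintype Ω] [DecidableEq Ω] (h6 : Fintype.card Ω ≠ 6)
    (H : Subgroup (Equiv.Perm Ω)) (hH : H.index = Fintype.card Ω) :
    ∃ x : Ω, H = MulAction.stabilizer (Equiv.Perm Ω) x := by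
  by_cases h4 : Fintype.card Ω ≤ 4
  · obtain ⟨x, hx⟩ := small h4 H hH
    exact ⟨x, SymIndex.eq_stabilizer_of_le hH (fun g hg => hx g hg)⟩
  · obtain ⟨θ, x0, hθ⟩ := SymIndex.exists_mulEquiv (by omega) H hH
    refine SymIndex.eq_stabilizer_of_threeCycle (by omega) θ ?_ x0 H hθ
    intro g hg
    obtain ⟨φ, hφ⟩ := SymIndex.exists_restrict θ
    have := AutAlt.map_isThreeCycle φ (by omega) h6 ⟨g, hg.mem_alternatingGroup⟩ hg
    rw [hφ] at this
    exact this

end Cfsg.Agent.S5911
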