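import Cfsg.Statements.S5912
import Cfsg.Agent.Lib.SymIndex

set_option autoImplicit false
open Cfsg

namespace Cfsg.Agent.S5912

open Equiv Equiv.Perm Cfsg.Agent.Lib

theorem isThreeCycle_of_isConj {Ω : Type*} [Fintype Ω] [DecidableEq Ω] {g h : Perm Ω}
    (hg : g.IsThreeCycle) (h1 : IsConj g h) : h.IsThreeCycle := by
  unfold IsThreeCycle at *
  rw [← isConj_iff_cycleType_eq.1 h1, hg]

theorem dichotomy {Ω : Type*} [Fintype Ω] [DecidableEq Ω] (h6 : Fintype.card Ω = 6)
    (θ : Perm Ω ≃* Perm Ω) :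
    (∀ g : Perm Ω, g.IsThreeCycle → (θ g).IsThreeCycle) ∨
    (∀ g : Perm Ω, g.IsThreeCycle → (θ g).cycleType = Multiset.replicate 2 3) := by
  classical
  by_cases h : ∀ g : Perm Ω, g.IsThreeCycle → (θ g).IsThreeCycle
  · exact Or.inl h
  · right
    push Not at h
    obtain ⟨g0, hg0, hn⟩ := h
    have hord : orderOf (θ g0) = 3 := by rw [MulEquiv.orderOf_eq, hg0.orderOf]
    obtain ⟨k, hk⟩ := cycleType_prime_order (σ := θ g0) (by rw [hord]; exact Nat.prime_three)
    rw [hord] at hk
    have hsum : 3 * (k + 1) ≤ 6 := by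
      have h1 := sum_cycleType (θ g0)
      rw [hk, Multiset.sum_replicate, smul_eq_mul] at h1
      have h2 := Finset.card_le_univ (support (θ g0))
      omega
    have hk1 : k = 1 := by
      rcases (by omega : k = 0 ∨ k = 1) with h | h
      · exfalso
        apply hn
        rw [IsThreeCycle, hk, h]; rfl
      · exact h
    intro g hg
    have hc : IsConj g0 g := isConj_iff_cycleType_eq.2 (by rw [hg0.cycleType, hg.cycleType])
    have hc' : IsConj (θ g0) (θ g) := MonoidHom.map_isConj θ.toMonoidHom hc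
    rw [← isConj_iff_cycleType_eq.1 hc', hk, hk1]

theorem exists_threeCycle {Ω : Type*} [Fintype Ω] [DecidableEq Ω] (h6 : Fintype.card Ω = 6) :
    ∃ g : Perm Ω, g.IsThreeCycle := by
  have e : Fin 6 ≃ Ω := (Fintype.equivFinOfCardEq h6).symm
  have h := isThreeCycle_swap_mul_swap_same (a := e 0) (b := e 1) (c := e 2) (by simp) (by simp) (by simp)
  exact ⟨_, h⟩

/-- two index 6 subgroups, neither of which is a point stabilizer, are conjugate -/
theorem conj_of_not {Ω : Type*} [Fintype Ω] [DecidableEq Ω] (h6 : Fintype.card Ω = 6)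
    (H H' : Subgroup (Perm Ω)) (hH : H.index = 6) (hH' : H'.index = 6)
    (hn : ¬ ∃ x : Ω, H = MulAction.stabilizer (Perm Ω) x) (hn' : ¬ ∃ x : Ω, H' = MulAction.stabilizer (Perm Ω) x) :
    ∃ g : Perm Ω, Subgroup.map (MulAut.conj g).toMonoidHom H = H' := by
  classical
  obtain ⟨θ, x0, hθ⟩ := SymIndex.exists_mulEquiv (by omega) H (by rw [hH, h6])
  obtain ⟨θ', x0', hθ'⟩ := SymIndex.exists_mulEquiv (by omega) H' (by rw [hH', h6])
  have d := (dichotomy h6 θ).resolve_left (fun h => hn
    (SymIndex.eq_stabilizer_of_threeCycle (by omega) θ h x0 H hθ))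
  have d' := (dichotomy h6 θ').resolve_left (fun h => hn'
    (SymIndex.eq_stabilizer_of_threeCycle (by omega) θ' h x0' H' hθ'))
  obtain ⟨g0, hg0⟩ := exists_threeCycle h6
  have hψ : ∀ g : Perm Ω, g.IsThreeCycle → ((θ.trans θ'.symm) g).IsThreeCycle := by
    intro g hg
    have h1 : IsConj (θ' g0) (θ g) := isConj_iff_cycleType_eq.2 (by rw [d g hg, d' g0 hg0])
    have h2 : IsConj (θ'.symm (θ' g0)) (θ'.symm (θ g)) := MonoidHom.map_isConj θ'.symm.toMonoidHom h1
    rw [MulEquiv.symm_apply_apply] at h2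
    exact isThreeCycle_of_isConj hg0 h2
  obtain ⟨π, hπ⟩ := SymIndex.inner_of_threeCycle (by omega) _ hψ
  -- θ g = θ' (π g π⁻¹)
  have hθθ : ∀ g, θ g = θ' (π * g * π⁻¹) := by
    intro g
    rw [← hπ g, MulEquiv.trans_apply, MulEquiv.apply_symm_apply]
  -- t with θ' t x0 = x0'
  obtain ⟨t, ht⟩ : ∃ t, θ' t x0 = x0' := by
    refine ⟨θ'.symm (swap x0 x0'), ?_⟩
    rw [MulEquiv.apply_symm_apply, swap_apply_left]
  have ht' : (θ' t)⁻¹ x0' = x0 := by rw [Perm.inv_eq_iff_eq, ht]
  refine ⟨t * π, ?_⟩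
  ext g
  rw [Subgroup.mem_map]
  constructor
  · rintro ⟨h, hh, rfl⟩
    have e1 : θ h x0 = x0 := (hθ h).1 hh
    rw [hθ']
    have : ((MulAut.conj (t * π)).toMonoidHom h) = t * (π * h * π⁻¹) * t⁻¹ := by
      simp [MulAut.conj_apply, mul_assoc]
    rw [this, map_mul, map_mul, map_inv, ← hθθ, Perm.mul_apply, Perm.mul_apply, ht', e1, ht]
  · intro hg
    have e1 : θ' g x0' = x0' := (hθ' g).1 hg
    refine ⟨(t * π)⁻¹ * g * (t * π), ?_, ?_⟩
    · show _ ∈ H
      rw [hθ, hθθ]
      have : π * ((t * π)⁻¹ * g * (t * π)) * π⁻¹ = t⁻¹ * g * t := by group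
      rw [this, map_mul, map_mul, map_inv, Perm.mul_apply, Perm.mul_apply, ht, e1, ht']
    · simp [MulAut.conj_apply, mul_assoc]

/-- Sylow 5-subgroups of S_5 : there are 6. -/
theorem card_sylow : Nat.card (Sylow 5 (Perm (Fin 5))) = 6 := by
  haveI : Fact (Nat.Prime 5) := ⟨Nat.prime_five⟩
  have hcard : Nat.card (Perm (Fin 5)) = 120 := by
    rw [Nat.card_perm, Nat.card_eq_fintype_card, Fintype.card_fin]; rfl
  obtain ⟨P⟩ : Nonempty (Sylow 5 (Perm (Fin 5))) := inferInstance
  have hPc : Nat.card P = 5 := by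
    have := P.card_eq_multiplicity
    rw [this, hcard]
    have : (120 : ℕ).factorization 5 = 1 := by
      rw [show (120 : ℕ) = 5 ^ 1 * 24 by norm_num]
      rw [Nat.factorization_mul (by norm_num) (by norm_num), Finsupp.add_apply,
        Nat.Prime.factorization_pow Nat.prime_five,
        Nat.factorization_eq_zero_of_not_dvd (by norm_num : ¬ 5 ∣ 24)]
      simp
    rw [this, pow_one]
  have hPi : (P : Subgroup (Perm (Fin 5))).index = 24 := by
    have := (P : Subgroup (Perm (Fin 5))).card_mul_index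
    rw [hPc, hcard] at this
    omega
  have hdvd : Nat.card (Sylow 5 (Perm (Fin 5))) ∣ 24 := by
    rw [← hPi]
    exact P.card_dvd_index
  have hmod : Nat.card (Sylow 5 (Perm (Fin 5))) ≡ 1 [MOD 5] := card_sylow_modEq_one 5 _
  have hle : Nat.card (Sylow 5 (Perm (Fin 5))) ≤ 24 := Nat.le_of_dvd (by norm_num) hdvd
  have hne1 : Nat.card (Sylow 5 (Perm (Fin 5))) ≠ 1 := by
    intro h1
    have : Subsingleton (Sylow 5 (Perm (Fin 5))) := (Nat.card_eq_one_iff_unique.1 h1).1
    have hn : (P : Subgroup (Perm (Fin 5))).Normal := P.normal_of_subsingleton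
    have hnt : Nontrivial (P : Subgroup (Perm (Fin 5))) := by
      rw [Subgroup.nontrivial_iff_ne_bot]
      intro hb
      have h := hPc
      rw [show Nat.card P = Nat.card (P : Subgroup (Perm (Fin 5))) from rfl, hb, Subgroup.card_bot] at h
      omega
    have hle := alternatingGroup_le_of_normal (α := Fin 5) (N := (P : Subgroup (Perm (Fin 5))))
      (by simp) hnt
    have hc := Subgroup.card_le_of_le hle
    rw [show Nat.card (P : Subgroup (Perm (Fin 5))) = 5 from hPc, nat_card_alternatingGroup] at hc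
    simp [Nat.factorial] at hc
  unfold Nat.ModEq at hmod
  interval_cases hN : Nat.card (Sylow 5 (Perm (Fin 5))) <;> omega

/-- the exotic subgroup of index six -/
theorem exists_exotic {Ω : Type*} [Fintype Ω] [DecidableEq Ω] (h6 : Fintype.card Ω = 6) :
    ∃ H : Subgroup (Perm Ω), H.index = 6 ∧ ¬ ∃ x : Ω, H = MulAction.stabilizer (Perm Ω) x := by
  classical
  haveI : Fact (Nat.Prime 5) := ⟨Nat.prime_five⟩
  have hc : Nat.card (Sylow 5 (Perm (Fin 5))) = Nat.card Ω := by
    rw [card_sylow, Nat.card_eq_fintype_card, h6]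
  obtain ⟨e⟩ := Finite.card_eq.1 hc
  let f : Perm (Fin 5) →* Perm (Sylow 5 (Perm (Fin 5))) := MulAction.toPermHom _ _
  have hfapp : ∀ g P, f g P = g • P := fun g P => rfl
  have hker : f.ker = ⊥ := by
    by_contra hne
    have hnt : Nontrivial f.ker := (Subgroup.nontrivial_iff_ne_bot _).2 hne
    have hle := alternatingGroup_le_of_normal (α := Fin 5) (N := f.ker) (by simp) hnt
    obtain ⟨P⟩ : Nonempty (Sylow 5 (Perm (Fin 5))) := inferInstance
    have hkn : f.ker ≤ MulAction.stabilizer (Perm (Fin 5)) P := by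
      intro g hg
      rw [MulAction.mem_stabilizer_iff, ← hfapp, (MonoidHom.mem_ker).1 hg]
      rfl
    have hidx := Subgroup.index_dvd_of_le (hle.trans hkn)
    rw [alternatingGroup.index_eq_two, MulAction.index_stabilizer_of_transitive, card_sylow] at hidx
    have := Nat.le_of_dvd (by norm_num) hidx
    omega
  have hinj : Function.Injective f := (MonoidHom.ker_eq_bot_iff f).1 hker
  let F : Perm (Fin 5) →* Perm Ω := e.permCongrHom.toMonoidHom.comp f
  have hFapp : ∀ g x, F g x = e (g • e.symm x) := fun g x => rfl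
  have hFinj : Function.Injective F := e.permCongrHom.injective.comp hinj
  refine ⟨F.range, ?_, ?_⟩
  · have hcr : Nat.card F.range = 120 := by
      rw [← Nat.card_congr (MonoidHom.ofInjective hFinj).toEquiv, Nat.card_perm,
        Nat.card_eq_fintype_card, Fintype.card_fin]
      rfl
    have := F.range.card_mul_index
    rw [hcr, Nat.card_perm, Nat.card_eq_fintype_card, h6] at this
    have h720 : (6 : ℕ).factorial = 720 := rfl
    omega
  · rintro ⟨x, hx⟩
    have : Nontrivial Ω := Fintype.one_lt_card_iff_nontrivial.1 (by omega)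
    obtain ⟨y, hy⟩ := exists_ne x
    obtain ⟨g, hg⟩ := MulAction.exists_smul_eq (Perm (Fin 5)) (e.symm x) (e.symm y)
    have hm : F g ∈ MulAction.stabilizer (Perm Ω) x := by
      rw [← hx]; exact ⟨g, rfl⟩
    rw [MulAction.mem_stabilizer_iff, Perm.smul_def, hFapp, hg, Equiv.apply_symm_apply] at hm
    exact hy hm

/-- The symmetric group on a 6-element set Ω has exactly two conjugacy classes of subgroups of index 6: there are two non-conjugate subgroups of index 6 (a point stabilizer and a transitive subgroup isomorphic to S₅), and every subgroup of index 6 is conjugate to one of them. -/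
theorem result {Ω : Type*} [Fintype Ω] [DecidableEq Ω] (h6 : Fintype.card Ω = 6) :
    ∃ H₁ H₂ : Subgroup (Equiv.Perm Ω), H₁.index = 6 ∧ H₂.index = 6 ∧
      (¬ ∃ g : Equiv.Perm Ω, Subgroup.map (MulAut.conj g).toMonoidHom H₁ = H₂) ∧
      ∀ H : Subgroup (Equiv.Perm Ω), H.index = 6 →
        ∃ g : Equiv.Perm Ω, Subgroup.map (MulAut.conj g).toMonoidHom H₁ = H ∨ Subgroup.map (MulAut.conj g).toMonoidHom H₂ = H := by
  classical
  obtain ⟨x⟩ : Nonempty Ω := Fintype.card_pos_iff.1 (by omega)
  obtain ⟨H₂, hH₂, hn₂⟩ := exists_exotic h6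
  have hconj : ∀ g : Perm Ω, Subgroup.map (MulAut.conj g).toMonoidHom (MulAction.stabilizer (Perm Ω) x)
      = MulAction.stabilizer (Perm Ω) (g x) := by
    intro g
    have := MulAction.stabilizer_smul_eq_stabilizer_map_conj g x
    exact this.symm
  refine ⟨MulAction.stabilizer (Perm Ω) x, H₂, ?_, hH₂, ?_, ?_⟩
  · rw [MulAction.index_stabilizer_of_transitive, Nat.card_eq_fintype_card, h6]
  · rintro ⟨g, hg⟩
    exact hn₂ ⟨g x, by rw [← hg, hconj]⟩
  · intro H hH
    by_cases hn : ∃ y : Ω, H = MulAction.stabilizer (Perm Ω) y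
    · obtain ⟨y, rfl⟩ := hn
      refine ⟨swap x y, Or.inl ?_⟩
      rw [hconj, swap_apply_left]
    · obtain ⟨g, hg⟩ := conj_of_not h6 H₂ H hH₂ hH hn₂ hn
      exact ⟨g, Or.inr hg⟩

end Cfsg.Agent.S5912
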