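import Cfsg.Statements.S5913

set_option autoImplicit false
open Cfsg

namespace Cfsg.Agent.S5913

/-- Let S be a non-abelian simple group and n ≥ 0. Every normal subgroup N of the direct power S^n (functions Fin n → S) is a subproduct: there is a set T of indices such that N consists of the functions that are trivial outside T. In particular the minimal normal subgroups of S^n are the n coordinate factors. -/
theorem result {S : Type*} [Group S] [IsSimpleGroup S] (hS : ¬ IsMulCommutative S) (n : ℕ)
    (N : Subgroup (Fin n → S)) [N.Normal] :
    ∃ T : Finset (Fin n), ∀ x : Fin n → S, x ∈ N ↔ ∀ i, i ∉ T → x i = 1 := by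
  classical
  -- trivial centre
  have hcen : ∀ a : S, a ≠ 1 → ∃ s : S, s * a ≠ a * s := by
    intro a ha
    by_contra hcon
    push Not at hcon
    have hmem : a ∈ Subgroup.center S := Subgroup.mem_center_iff.mpr hcon
    rcases (inferInstance : (Subgroup.center S).Normal).eq_bot_or_eq_top with h | h
    · rw [h, Subgroup.mem_bot] at hmem
      exact ha hmem
    · apply hS
      exact ⟨⟨fun x y => by
        have hx : x ∈ Subgroup.center S := by rw [h]; exact Subgroup.mem_top _
        exact (Subgroup.mem_center_iff.mp hx y).symm⟩⟩
  refine ⟨Finset.univ.filter (fun i => ∃ x ∈ N, x i ≠ 1), fun x => ⟨?_, ?_⟩⟩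
  · intro hx i hi
    by_contra h
    exact hi (Finset.mem_filter.mpr ⟨Finset.mem_univ _, x, hx, h⟩)
  · intro hx
    -- coordinate subgroups
    have hcoord : ∀ i, (∃ y ∈ N, y i ≠ 1) → ∀ s : S, Pi.mulSingle i s ∈ N := by
      rintro i ⟨y, hy, hyi⟩
      let Ni : Subgroup S := N.comap (MonoidHom.mulSingle (fun _ : Fin n => S) i)
      have hNi : Ni.Normal := inferInstance
      obtain ⟨s, hs⟩ := hcen _ hyi
      have hmem : s * y i * s⁻¹ * (y i)⁻¹ ∈ Ni := by
        change Pi.mulSingle i (s * y i * s⁻¹ * (y i)⁻¹) ∈ N
        have h1 : (Pi.mulSingle i s : Fin n → S) * y * (Pi.mulSingle i s)⁻¹ * y⁻¹ ∈ N :=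
          N.mul_mem (Subgroup.Normal.conj_mem inferInstance y hy _) (N.inv_mem hy)
        convert h1 using 1
        ext j
        by_cases hj : j = i
        · subst hj
          simp
        · simp [hj]
      rcases hNi.eq_bot_or_eq_top with h | h
      · exfalso
        rw [h, Subgroup.mem_bot] at hmem
        apply hs
        calc s * y i = (s * y i * s⁻¹ * (y i)⁻¹) * (y i) * s := by group
          _ = y i * s := by rw [hmem, one_mul]
      · intro t
        have : t ∈ Ni := by rw [h]; exact Subgroup.mem_top _
        exact this
    have hind : ∀ A : Finset (Fin n), (∀ i ∈ A, ∃ y ∈ N, y i ≠ 1) →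
        (fun i => if i ∈ A then x i else 1) ∈ N := by
      intro A
      induction A using Finset.induction_on with
      | empty =>
        intro _
        have : (fun i => if i ∈ (∅ : Finset (Fin n)) then x i else 1) = (1 : Fin n → S) := by
          ext i; simp
        rw [this]
        exact N.one_mem
      | insert a A ha ih =>
        intro hA
        have h1 := ih (fun i hi => hA i (Finset.mem_insert_of_mem hi))
        have h2 := hcoord a (hA a (Finset.mem_insert_self _ _)) (x a)
        have h3 := N.mul_mem h2 h1
        convert h3 using 1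
        ext i
        by_cases hi : i = a
        · subst hi
          simp [ha]
        · simp [hi]
    have := hind (Finset.univ.filter (fun i => ∃ x ∈ N, x i ≠ 1)) (fun i hi =>
      (Finset.mem_filter.mp hi).2)
    convert this using 1
    ext i
    by_cases hi : i ∈ Finset.univ.filter (fun i => ∃ x ∈ N, x i ≠ 1)
    · rw [if_pos hi]
    · rw [if_neg hi, hx i hi]

end Cfsg.Agent.S5913
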