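import Cfsg.Statements.S5914
import Cfsg.Agent.Lib.CharSimple

set_option autoImplicit false
open Cfsg

namespace Cfsg.Agent.S5914

open Cfsg.Agent.Lib

/-- permutation of coordinates -/
def permAut (S : Type*) [Group S] {n : ℕ} (i j : Fin n) : (Fin n → S) ≃* (Fin n → S) where
  toFun x := fun k => x (Equiv.swap i j k)
  invFun x := fun k => x (Equiv.swap i j k)
  left_inv x := by funext k; simp
  right_inv x := by funext k; simp
  map_mul' x y := by funext k; simp

/-- shear -/
def shear (S : Type*) [Group S] (hS : ∀ a b : S, a * b = b * a) {n : ℕ} (i j : Fin n) (hij : i ≠ j) :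
    (Fin n → S) ≃* (Fin n → S) where
  toFun x := Function.update x j (x j * x i)
  invFun x := Function.update x j (x j * (x i)⁻¹)
  left_inv x := by
    funext k
    by_cases hk : k = j
    · subst hk; simp [hij]
    · simp [hk]
  right_inv x := by
    funext k
    by_cases hk : k = j
    · subst hk; simp [hij]
    · simp [hk]
  map_mul' x y := by
    funext k
    by_cases hk : k = j
    · subst hk
      simp only [Pi.mul_apply, Function.update_self]
      rw [mul_assoc, mul_assoc, ← mul_assoc (y k) (x i), hS (y k) (x i), mul_assoc]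
    · simp [hk]

/-- a nontrivial element supported at one coordinate generates everything -/
theorem top_of_single {S : Type*} [Group S] [IsSimpleGroup S] {n : ℕ} (H : Subgroup (Fin n → S))
    (hHn : H.Normal) (hch : ∀ φ : (Fin n → S) ≃* (Fin n → S), ∀ x ∈ H, φ x ∈ H)
    (i : Fin n) (s : S) (hs : s ≠ 1) (hsH : Pi.mulSingle i s ∈ H) : H = ⊤ := by
  classical
  -- coordinate subgroup
  have hi : ∀ t : S, Pi.mulSingle i t ∈ H := by
    let K : Subgroup S := H.comap (MonoidHom.mulSingle (fun _ : Fin n => S) i)
    have hK : K.Normal := by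
      constructor
      intro k hk g
      have hk' : (Pi.mulSingle i k : Fin n → S) ∈ H := hk
      have := hHn.conj_mem _ hk' (Pi.mulSingle i g)
      show (Pi.mulSingle i (g * k * g⁻¹) : Fin n → S) ∈ H
      rw [Pi.mulSingle_mul, Pi.mulSingle_mul, Pi.mulSingle_inv]
      exact this
    rcases hK.eq_bot_or_eq_top with h | h
    · exfalso
      have : s ∈ K := hsH
      rw [h, Subgroup.mem_bot] at this
      exact hs this
    · intro t
      have : t ∈ K := by rw [h]; trivial
      exact this
  have hj : ∀ (j : Fin n) (t : S), Pi.mulSingle j t ∈ H := by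
    intro j t
    have h1 := hch (permAut S i j) _ (hi t)
    have h2 : permAut S i j (Pi.mulSingle i t) = Pi.mulSingle j t := by
      funext k
      show (Pi.mulSingle i t : Fin n → S) (Equiv.swap i j k) = _
      by_cases hk : k = j
      · subst hk; simp
      · rw [Pi.mulSingle_eq_of_ne hk, Pi.mulSingle_eq_of_ne]
        intro h
        apply hk
        have := congrArg (Equiv.swap i j) h
        rwa [Equiv.swap_apply_self, Equiv.swap_apply_left] at this
    rwa [h2] at h1
  rw [eq_top_iff]
  intro x _
  have hx : x ∈ Subgroup.pi Set.univ (fun _ : Fin n => (⊤ : Subgroup S)) := by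
    rw [Subgroup.mem_pi]; intro _ _; trivial
  have hle : Subgroup.pi Set.univ (fun _ : Fin n => (⊤ : Subgroup S)) ≤ H := by
    rw [Subgroup.pi_le_iff]
    intro j
    rintro _ ⟨t, _, rfl⟩
    exact hj j t
  exact hle hx

theorem charSimple_of_power {S : Type*} [Group S] [IsSimpleGroup S] {n : ℕ} (H : Subgroup (Fin n → S))
    (hch : H.Characteristic) : H = ⊥ ∨ H = ⊤ := by
  classical
  by_cases hb : H = ⊥
  · exact Or.inl hb
  right
  have hHn : H.Normal := inferInstance
  have hch' : ∀ φ : (Fin n → S) ≃* (Fin n → S), ∀ x ∈ H, φ x ∈ H := by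
    intro φ x hx
    have := Subgroup.characteristic_iff_map_eq.1 hch φ
    rw [← this]
    exact ⟨x, hx, rfl⟩
  obtain ⟨x, hx, hx1⟩ := (Subgroup.bot_or_exists_ne_one H).resolve_left hb
  obtain ⟨i, hi⟩ : ∃ i, x i ≠ 1 := by
    by_contra h
    push Not at h
    exact hx1 (funext h)
  by_cases hS : ∀ a b : S, a * b = b * a
  · by_cases hn : ∃ j, j ≠ i
    · obtain ⟨j, hj⟩ := hn
      have h1 := hch' (shear S hS i j (Ne.symm hj)) x hx
      have h2 : x⁻¹ * shear S hS i j (Ne.symm hj) x ∈ H := H.mul_mem (H.inv_mem hx) h1
      have h3 : x⁻¹ * shear S hS i j (Ne.symm hj) x = Pi.mulSingle j (x i) := by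
        funext k
        show (x k)⁻¹ * (Function.update x j (x j * x i)) k = _
        by_cases hk : k = j
        · subst hk; simp
        · rw [Function.update_of_ne hk, Pi.mulSingle_eq_of_ne hk, inv_mul_cancel]
      rw [h3] at h2
      exact top_of_single H hHn hch' j _ hi h2
    · push Not at hn
      have h3 : x = Pi.mulSingle i (x i) := by
        funext k
        rw [hn k]; simp
      rw [h3] at hx
      exact top_of_single H hHn hch' i _ hi hx
  · have hcen : ¬ ∀ s : S, x i * s = s * x i := by
      intro h
      have hcn : (Subgroup.center S).Normal := inferInstance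
      rcases hcn.eq_bot_or_eq_top with hc | hc
      · apply hi
        have : x i ∈ Subgroup.center S := Subgroup.mem_center_iff.2 (fun g => (h g).symm)
        rwa [hc, Subgroup.mem_bot] at this
      · apply hS
        intro a b
        have : b ∈ Subgroup.center S := by rw [hc]; trivial
        exact Subgroup.mem_center_iff.1 this a
    push Not at hcen
    obtain ⟨s, hs⟩ := hcen
    have h2 : x * (Pi.mulSingle i s * x⁻¹ * (Pi.mulSingle i s)⁻¹) ∈ H :=
      H.mul_mem hx (hHn.conj_mem _ (H.inv_mem hx) _)
    have h3 : x * (Pi.mulSingle i s * x⁻¹ * (Pi.mulSingle i s)⁻¹)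
        = Pi.mulSingle i (x i * (s * (x i)⁻¹ * s⁻¹)) := by
      funext k
      by_cases hk : k = i
      · subst hk; simp
      · simp [Pi.mulSingle_eq_of_ne hk]
    rw [h3] at h2
    refine top_of_single H hHn hch' i _ ?_ h2
    intro h
    apply hs
    have h4 : x i * s * ((x i)⁻¹ * s⁻¹) = 1 := by rw [← h]; group
    calc x i * s = x i * s * ((x i)⁻¹ * s⁻¹) * (s * x i) := by group
      _ = s * x i := by rw [h4, one_mul]

/-- A non-trivial finite group G is characteristically simple (its only characteristic subgroups are 1 and G) if and only if G is isomorphic to a direct power S^n (n ≥ 1) of some simple group S (possibly cyclic of prime order). -/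
theorem result {G : Type*} [Group G] [Finite G] [Nontrivial G] :
    (∀ H : Subgroup G, H.Characteristic → H = ⊥ ∨ H = ⊤) ↔
    ∃ (S : Type) (_ : Group S) (_ : IsSimpleGroup S) (n : ℕ), 1 ≤ n ∧ Nonempty (G ≃* (Fin n → S)) := by
  constructor
  · intro h
    obtain ⟨S, iS, m, hS, hm, he⟩ := CharSimple.exists_power_type (G := G) ⊤ (by
      intro H _ hH
      apply h H
      rw [Subgroup.characteristic_iff_map_eq]
      intro φ
      exact hH φ trivial)
    exact ⟨S, iS, hS, m, hm, he⟩
  · rintro ⟨S, iS, hS, n, hn, ⟨e⟩⟩ H hH
    have hc : (H.map e.toMonoidHom).Characteristic := by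
      rw [Subgroup.characteristic_iff_map_eq]
      intro φ
      have h1 := Subgroup.characteristic_iff_map_eq.1 hH ((e.trans φ).trans e.symm)
      calc (H.map e.toMonoidHom).map φ.toMonoidHom
          = (H.map ((e.trans φ).trans e.symm).toMonoidHom).map e.toMonoidHom := by
            rw [Subgroup.map_map, Subgroup.map_map]
            congr 1
            ext x
            simp
        _ = H.map e.toMonoidHom := by rw [h1]
    rcases charSimple_of_power _ hc with h | h
    · left
      exact (Subgroup.map_eq_bot_iff_of_injective _ e.injective).1 h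
    · right
      rw [eq_top_iff]
      intro x _
      have : e x ∈ H.map e.toMonoidHom := by rw [h]; trivial
      obtain ⟨y, hy, hyx⟩ := this
      rwa [← e.injective hyx]

end Cfsg.Agent.S5914
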