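import Cfsg.Statements.S5939
import Cfsg.Agent.Lib.DkSmall
import Cfsg.Agent.S0804

set_option autoImplicit false
open Cfsg

namespace Cfsg.Agent.S5939

open Cfsg.Agent.Lib Cfsg.Agent.Lib.MobCount MulAction Matrix Cfsg.Agent.Lib.ClProjLine Cfsg.Agent.Lib.DkTorus
  Cfsg.Agent.Lib.DkSub Cfsg.Agent.Lib.DkMax Cfsg.Agent.Lib.DkSmall
open scoped LinearAlgebra.Projectivization MatrixGroups

theorem card_A5 {H : Type*} [Group H] (e : Nonempty (H ≃* alternatingGroup (Fin 5))) : Nat.card H = 60 := by
  obtain ⟨e⟩ := e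
  rw [Nat.card_congr e.toEquiv]
  have := nat_card_alternatingGroup (α := Fin 5)
  rw [this]; simp; rfl

/-- every subgroup `A_5` is maximal -/
theorem coatom {F : Type*} [Field F] [Fintype F] (p : ℕ) [Fact p.Prime] [CharP F p]
    (h : (Fintype.card F = p ∧ (p % 10 = 1 ∨ p % 10 = 9)) ∨ (Fintype.card F = p ^ 2 ∧ (p % 10 = 3 ∨ p % 10 = 7)))
    (H : Subgroup (P2 F)) (e : Nonempty (H ≃* alternatingGroup (Fin 5))) : IsCoatom H := by
  have hH := card_A5 e
  obtain ⟨e⟩ := e
  have hpp : p.Prime := Fact.out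
  have hp2 : p ≠ 2 := by rintro rfl; omega
  have hpo : Odd p := hpp.odd_of_ne_two hp2
  have hp3 : 3 ≤ p := by
    have := hpp.two_le; omega
  have hodd : Odd (Fintype.card F) := by
    rcases h with ⟨h, _⟩ | ⟨h, _⟩ <;> rw [h]
    · exact hpo
    · exact hpo.pow
  have hq9 : 9 ≤ Fintype.card F := by
    rcases h with ⟨h, h'⟩ | ⟨h, _⟩ <;> rw [h]
    · have := hpp.one_lt; omega
    · calc 9 = 3 ^ 2 := by norm_num
        _ ≤ p ^ 2 := Nat.pow_le_pow_left hp3 2
  have hcF : 2 * Nat.card (P2 F) = Fintype.card F * (Fintype.card F ^ 2 - 1) := by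
    rw [← card_P2 (F := F) rfl, gcd_odd hodd]
  refine ⟨?_, ?_⟩
  · apply ne_top_of_card
    rw [hH]
    change 60 ≠ Nat.card (P2 F)
    intro h
    rw [← h] at hcF
    have h1 : 9 ^ 2 ≤ Fintype.card F ^ 2 := Nat.pow_le_pow_left hq9 2
    have h2 : 9 * 80 ≤ Fintype.card F * (Fintype.card F ^ 2 - 1) := Nat.mul_le_mul hq9 (by omega)
    omega
  · intro M hM
    by_contra hne
    have hdvd := Subgroup.card_dvd_of_le hM.le
    rw [hH] at hdvd
    have hbad := bad_A5.of_equiv e.symm
    have hgt : ∀ n, Nat.card M = n → 60 ∣ n := fun n hn => by rw [← hn]; exact hdvd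
    rcases psl_cases (F := F) rfl p M hne with ⟨h1, _, _⟩ | ⟨C, hCM, hC, _, hcard, ht, _, _⟩ | ⟨_, h', _⟩ | ⟨_, h', _⟩ | ⟨_, h', _⟩ | ⟨_, x, hx⟩ | ⟨g, k, m, hm, hk, h'⟩
    · refine hbad.not_dihedral (C := M) h1 hM.le (fun t ht ht' => absurd ht ht')
    · exact hbad.not_dihedral hC hM.le ht
    · have := hgt _ h'; norm_num at this
    · have := hgt _ h'; norm_num at this
    · apply hM.not_ge
      exact (Subgroup.eq_of_le_of_card_ge hM.le (by rw [h', hH])).ge
    · by_cases hpH : p ∣ Nat.card H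
      · -- then p = 3 and q = 9
        have hp5 : p = 3 := by
          rw [hH] at hpH
          have h1 : p ∣ 2 ^ 2 * (3 * 5) := hpH
          rcases hpp.dvd_mul.mp h1 with h2 | h2
          · exact absurd ((Nat.prime_dvd_prime_iff_eq hpp Nat.prime_two).mp (hpp.dvd_of_dvd_pow h2)) hp2
          · rcases hpp.dvd_mul.mp h2 with h3 | h3
            · exact (Nat.prime_dvd_prime_iff_eq hpp Nat.prime_three).mp h3
            · have := (Nat.prime_dvd_prime_iff_eq hpp (by norm_num : Nat.Prime 5)).mp h3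
              omega
        have hq : Fintype.card F = 9 := by
          rcases h with ⟨h, h'⟩ | ⟨h, _⟩
          · omega
          · rw [h, hp5]; norm_num
        have h1 := card_stab (F := F) rfl x
        rw [gcd_odd hodd, hq] at h1
        have h2 : 60 ∣ Nat.card (stabilizer (P2 F) x) := hdvd.trans (Subgroup.card_dvd_of_le hx)
        obtain ⟨c, hc⟩ := h2
        rw [hc] at h1
        omega
      · exact hbad.not_stab p x (hM.le.trans hx) hpH
    · -- subfield
      rcases h with ⟨h, _⟩ | ⟨h, h7⟩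
      · exact sub_of_prime hpp k m hm (by rw [hk, h])
      · have hkp : Nat.card k = p := by
          have h1 : Nat.card k ∣ p ^ 2 := by
            rw [← h, ← hk]; exact dvd_pow_self _ (by omega)
          obtain ⟨j, hj, hj'⟩ := (Nat.dvd_prime_pow hpp).mp h1
          have h3 : j * m = 2 := by
            apply Nat.pow_right_injective hpp.two_le
            change p ^ (j * m) = p ^ 2
            rw [pow_mul, ← hj', hk, h]
          have h5 : j = 1 := by
            have h4 : j ≠ 0 := by rintro rfl; omega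
            have h6 : j * 2 ≤ j * m := Nat.mul_le_mul_left _ hm
            omega
          rw [hj', h5, pow_one]
        have hMk : Nat.card M ∣ p * (p ^ 2 - 1) := by
          have : Fintype k := Fintype.ofFinite k
          rw [← hkp]
          rcases h' with h' | h'
          · rw [card_of_range_psl M g k h', ← card_pslRange k.subtype, ← card_psl_sub]
            exact dvd_mul_left _ _
          · rw [card_of_range_pgl M g k h', ← card_pglRange k.subtype, card_pgl_sub]
        have h5 : 5 ∣ p * (p ^ 2 - 1) := ((by norm_num : 5 ∣ 60).trans hdvd).trans hMk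
        have hp1 : 1 ≤ p ^ 2 := Nat.one_le_pow _ _ hpp.pos
        rcases (Nat.Prime.dvd_mul (by norm_num : Nat.Prime 5)).mp h5 with h8 | h8
        · omega
        · have h9 : p ^ 2 % 5 = (p % 5) ^ 2 % 5 := by rw [Nat.pow_mod]
          have h10 : p % 5 = 2 ∨ p % 5 = 3 := by omega
          rcases h10 with h | h <;> rw [h] at h9 <;> norm_num at h9 <;> omega

/-- Let p be a prime and F a finite field of characteristic p such that either F has p elements and p ≡ ±1 (mod 10), or F has p² elements and p ≡ ±3 (mod 10). Then PSL_2(F) has a maximal subgroup isomorphic to the alternating group A_5. -/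
theorem result {F : Type*} [Field F] [Fintype F] (p : ℕ) [Fact p.Prime] [CharP F p] (h : (Fintype.card F = p ∧ (p % 10 = 1 ∨ p % 10 = 9)) ∨ (Fintype.card F = p ^ 2 ∧ (p % 10 = 3 ∨ p % 10 = 7))) : ∃ H : Subgroup (Matrix.ProjectiveSpecialLinearGroup (Fin 2) F), IsCoatom H ∧ Nonempty (H ≃* alternatingGroup (Fin 5)) := by
  obtain ⟨H, hH⟩ := (Cfsg.Agent.S0804.result (F := F) rfl).mpr (by
    apply Dvd.dvd.mul_left
    have hF1 : 1 ≤ Fintype.card F ^ 2 := Nat.one_le_pow _ _ Fintype.card_pos
    have key : Fintype.card F ^ 2 % 5 = 1 := by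
      rcases h with ⟨h, h'⟩ | ⟨h, h'⟩ <;> rw [h]
      · have h9 : p ^ 2 % 5 = (p % 5) ^ 2 % 5 := by rw [Nat.pow_mod]
        have h10 : p % 5 = 1 ∨ p % 5 = 4 := by omega
        rcases h10 with h | h <;> rw [h] at h9 <;> norm_num at h9 <;> exact h9
      · have h9 : (p ^ 2) ^ 2 % 5 = (p % 5) ^ 4 % 5 := by rw [← pow_mul, Nat.pow_mod]
        have h10 : p % 5 = 2 ∨ p % 5 = 3 := by omega
        rcases h10 with h | h <;> rw [h] at h9 <;> norm_num at h9 <;> exact h9
    omega)
  exact ⟨H, coatom p h H hH, hH⟩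

end Cfsg.Agent.S5939
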