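import Cfsg.Statements.S5997
import Cfsg.Agent.Lib.GagSolv

set_option autoImplicit false
open scoped MatrixGroups
open Cfsg

namespace Cfsg.Agent.S5997

open Matrix

section
variable {F : Type*} [Field F]

abbrev Mt (F : Type*) := Matrix (Fin 2) (Fin 2) F

theorem nonscalar_iff (A : Mt F) :
    (∀ z : F, A ≠ z • (1 : Mt F)) ↔ (A 0 1 ≠ 0 ∨ A 1 0 ≠ 0 ∨ A 0 0 - A 1 1 ≠ 0) := by
  constructor
  · intro h
    by_contra hc
    push Not at hc
    obtain ⟨h1, h2, h3⟩ := hc
    apply h (A 0 0)
    ext a b
    fin_cases a <;> fin_cases b <;> simp [h1, h2]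
    linear_combination -h3
  · rintro h z rfl
    simp at h

theorem comm_iff (A B : Mt F) : A * B = B * A ↔ (A 0 1 * B 1 0 = B 0 1 * A 1 0 ∧
    A 0 1 * (B 0 0 - B 1 1) = B 0 1 * (A 0 0 - A 1 1) ∧ A 1 0 * (B 0 0 - B 1 1) = B 1 0 * (A 0 0 - A 1 1)) := by
  constructor
  · intro h
    have h1 := congrFun (congrFun h 0) 0
    have h2 := congrFun (congrFun h 0) 1
    have h3 := congrFun (congrFun h 1) 0
    simp only [Matrix.mul_apply, Fin.sum_univ_two] at h1 h2 h3
    refine ⟨by linear_combination h1, by linear_combination -h2, by linear_combination h3⟩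
  · rintro ⟨h1, h2, h3⟩
    ext a b
    fin_cases a <;> fin_cases b <;> simp only [Matrix.mul_apply, Fin.sum_univ_two, Fin.zero_eta, Fin.mk_one]
    · linear_combination h1
    · linear_combination -h2
    · linear_combination h3
    · linear_combination -h1

theorem par {a1 a2 a3 b1 b2 b3 c1 c2 c3 : F} (h : a1 ≠ 0 ∨ a2 ≠ 0 ∨ a3 ≠ 0)
    (hb1 : a1 * b2 = b1 * a2) (hb2 : a1 * b3 = b1 * a3) (hb3 : a2 * b3 = b2 * a3)
    (hc1 : a1 * c2 = c1 * a2) (hc2 : a1 * c3 = c1 * a3) (hc3 : a2 * c3 = c2 * a3) :
    b1 * c2 = c1 * b2 ∧ b1 * c3 = c1 * b3 ∧ b2 * c3 = c2 * b3 := by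
  rcases h with h | h | h
  · have H1 : b1 * c2 = c1 * b2 := mul_left_cancel₀ h (by linear_combination b1 * hc1 - c1 * hb1)
    exact ⟨H1, mul_left_cancel₀ h (by linear_combination b1 * hc2 - c1 * hb2),
      mul_left_cancel₀ h (by linear_combination b2 * hc2 - c2 * hb2 - a3 * H1)⟩
  · have H1 : b1 * c2 = c1 * b2 := mul_left_cancel₀ h (by linear_combination -c2 * hb1 + b2 * hc1)
    exact ⟨H1, mul_left_cancel₀ h (by linear_combination b1 * hc3 - c1 * hb3 + a3 * H1),
      mul_left_cancel₀ h (by linear_combination b2 * hc3 - c2 * hb3)⟩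
  · have H1 : b2 * c3 = c2 * b3 := mul_left_cancel₀ h (by linear_combination -c3 * hb3 + b3 * hc3)
    exact ⟨mul_left_cancel₀ h (by linear_combination -c2 * hb2 + b2 * hc2 - a1 * H1),
      mul_left_cancel₀ h (by linear_combination -c3 * hb2 + b3 * hc2), H1⟩

theorem comm_of_comm {A B C : Mt F} (hA : ∀ z : F, A ≠ z • (1 : Mt F)) (hB : A * B = B * A) (hC : A * C = C * A) :
    B * C = C * B := by
  rw [nonscalar_iff] at hA
  rw [comm_iff] at hB hC ⊢
  exact par hA hB.1 hB.2.1 hB.2.2 hC.1 hC.2.1 hC.2.2

theorem cayley (A : Mt F) : A * A = A.trace • A - A.det • (1 : Mt F) := by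
  ext a b
  fin_cases a <;> fin_cases b <;>
    simp [Matrix.mul_apply, Matrix.trace_fin_two, Matrix.det_fin_two, Fin.sum_univ_two] <;> ring

theorem exists_cyc {A : Mt F} (hA : ∀ z : F, A ≠ z • (1 : Mt F)) :
    ∃ P : Mt F, P.det ≠ 0 ∧ A * P = P * !![0, -A.det; 1, A.trace] := by
  rw [nonscalar_iff] at hA
  have key : ∀ u v : F, ∃ P : Mt F, P.det = u * (A 1 0 * u + A 1 1 * v) - v * (A 0 0 * u + A 0 1 * v) ∧
      A * P = P * !![0, -A.det; 1, A.trace] := by
    intro u v
    refine ⟨!![u, A 0 0 * u + A 0 1 * v; v, A 1 0 * u + A 1 1 * v], ?_, ?_⟩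
    · rw [Matrix.det_fin_two_of]
      ring
    · ext a b
      fin_cases a <;> fin_cases b <;>
        simp [Matrix.mul_apply, Matrix.trace_fin_two, Matrix.det_fin_two, Fin.sum_univ_two] <;> ring
  rcases hA with h | h | h
  · obtain ⟨P, h1, h2⟩ := key 0 1
    exact ⟨P, by rw [h1]; simpa using h, h2⟩
  · obtain ⟨P, h1, h2⟩ := key 1 0
    exact ⟨P, by rw [h1]; simpa using h, h2⟩
  · by_cases h' : A 0 1 = 0
    · by_cases h'' : A 1 0 = 0
      · obtain ⟨P, h1, h2⟩ := key 1 1
        refine ⟨P, ?_, h2⟩
        rw [h1, h', h'']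
        intro hc
        exact h (by linear_combination -hc)
      · obtain ⟨P, h1, h2⟩ := key 1 0
        exact ⟨P, by rw [h1]; simpa using h'', h2⟩
    · obtain ⟨P, h1, h2⟩ := key 0 1
      exact ⟨P, by rw [h1]; simpa using h', h2⟩

theorem conj_of {A B : Mt F} (hA : ∀ z : F, A ≠ z • (1 : Mt F)) (hB : ∀ z : F, B ≠ z • (1 : Mt F))
    (ht : A.trace = B.trace) (hd : A.det = B.det) : ∃ P : Mt F, P.det ≠ 0 ∧ A * P = P * B := by
  obtain ⟨P, hP, hAP⟩ := exists_cyc hA
  obtain ⟨Q, hQ, hBQ⟩ := exists_cyc hB
  have hQu : IsUnit Q.det := isUnit_iff_ne_zero.2 hQ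
  refine ⟨P * Q⁻¹, ?_, ?_⟩
  · rw [Matrix.det_mul]
    refine mul_ne_zero hP ?_
    rw [Matrix.det_nonsing_inv]
    simpa using hQ
  · rw [← Matrix.mul_assoc, hAP, ht, hd]
    have : !![0, -B.det; 1, B.trace] = Q⁻¹ * B * Q := by
      rw [Matrix.mul_assoc, hBQ, ← Matrix.mul_assoc, Matrix.nonsing_inv_mul _ hQu, Matrix.one_mul]
    rw [this]
    simp only [Matrix.mul_assoc]
    rw [Matrix.mul_nonsing_inv _ hQu, Matrix.mul_one]

theorem exists_norm [Fintype F] (h2 : (2 : F) ≠ 0) (t : F) (ht : t ^ 2 ≠ 4) (δ : F) :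
    ∃ a b : F, a ^ 2 + a * b * t + b ^ 2 = δ := by
  -- (a + b t/2)^2 + (1 - t^2/4) b^2
  obtain ⟨a, b, hab⟩ := FiniteField.exists_root_sum_quadratic (R := F)
    (f := Polynomial.X ^ 2) (g := Polynomial.C (1 - t ^ 2 / 4) * Polynomial.X ^ 2 - Polynomial.C δ)
    (by simp) (by
      have h : (1 - t ^ 2 / 4) ≠ 0 := by
        intro h
        apply ht
        have h4 : (4 : F) ≠ 0 := by
          have : (4 : F) = 2 * 2 := by norm_num
          rw [this]; exact mul_ne_zero h2 h2
        field_simp at h
        linear_combination -h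
      rw [Polynomial.degree_sub_eq_left_of_degree_lt]
      · rw [Polynomial.degree_C_mul h]; simp
      · rw [Polynomial.degree_C_mul h]
        refine lt_of_le_of_lt Polynomial.degree_C_le ?_
        simp) (by
      rw [Fintype.card_eq_nat_card]
      have : CharP F (ringChar F) := inferInstance
      have hc : ringChar F ≠ 2 := fun hc => h2 (by
        have := (CharP.cast_eq_zero_iff F (ringChar F) 2).2 (by rw [hc])
        exact_mod_cast this)
      rw [← Fintype.card_eq_nat_card]
      exact FiniteField.odd_card_of_char_ne_two hc)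
  simp only [Polynomial.eval_pow, Polynomial.eval_X, Polynomial.eval_sub, Polynomial.eval_mul, Polynomial.eval_C] at hab
  refine ⟨a - b * t / 2, b, ?_⟩
  have : δ = a ^ 2 + (1 - t ^ 2 / 4) * b ^ 2 := by linear_combination -hab
  have h4 : (4 : F) ≠ 0 := by
    have : (4 : F) = 2 * 2 := by norm_num
    rw [this]; exact mul_ne_zero h2 h2
  rw [this]
  field_simp
  ring

/-- nonscalar matrices of determinant one with the same trace are conjugate in `SL` -/
theorem conj_SL [Fintype F] (h2 : (2 : F) ≠ 0) {x y : GL (Fin 2) F}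
    (hx : x.1.det = 1) (hy : y.1.det = 1)
    (hxn : ∀ z : F, x.1 ≠ z • (1 : Mt F)) (hyn : ∀ z : F, y.1 ≠ z • (1 : Mt F))
    (ht : x.1.trace = y.1.trace) (ht4 : x.1.trace ^ 2 ≠ 4) :
    ∃ g ∈ Cfsg.Geo.specialLinear (Fin 2) F, g⁻¹ * x * g = y := by
  obtain ⟨P, hP, hxP⟩ := conj_of hxn hyn ht (hx.trans hy.symm)
  obtain ⟨a, b, hab⟩ := exists_norm h2 (x.1.trace) ht4 (P.det)⁻¹
  let C : Mt F := a • 1 + b • x.1
  have hC : C.det = (P.det)⁻¹ := by
    rw [← hab]
    have h1 : x.1.det = 1 := hx
    rw [Matrix.det_fin_two] at h1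
    rw [Matrix.trace_fin_two, Matrix.det_fin_two]
    simp [C]
    linear_combination b ^ 2 * h1
  have hdet : (C * P).det = 1 := by
    rw [Matrix.det_mul, hC]
    exact inv_mul_cancel₀ hP
  let g : GL (Fin 2) F := Matrix.GeneralLinearGroup.mkOfDetNeZero (C * P) (by rw [hdet]; exact one_ne_zero)
  have hg : g.1 = C * P := rfl
  refine ⟨g, ?_, ?_⟩
  · rw [Cfsg.Geo.specialLinear, MonoidHom.mem_ker]
    ext
    rw [Matrix.GeneralLinearGroup.val_det_apply, hg, hdet]
    rfl
  · have : x * g = g * y := by
      ext1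
      show x.1 * (C * P) = (C * P) * y.1
      have hCx : x.1 * C = C * x.1 := by
        simp only [C, Matrix.mul_add, Matrix.add_mul, Matrix.mul_smul, Matrix.smul_mul, Matrix.mul_one, Matrix.one_mul]
      rw [← Matrix.mul_assoc, hCx, Matrix.mul_assoc, hxP, Matrix.mul_assoc]
    rw [mul_assoc, this, inv_mul_cancel_left]

theorem trace_of_sq {A : Mt F} (hA : ∀ z : F, A ≠ z • (1 : Mt F)) {c : F} (h : A * A = c • (1 : Mt F)) :
    A.trace = 0 ∧ A.det = -c := by
  rw [cayley] at h
  have ht : A.trace = 0 := by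
    by_contra ht
    apply hA (A.trace⁻¹ * (c + A.det))
    have h1 : A.trace • A = (c + A.det) • (1 : Mt F) := by
      rw [add_smul, ← h, sub_add_cancel]
    rw [mul_smul, ← h1, smul_smul, inv_mul_cancel₀ ht, one_smul]
  refine ⟨ht, ?_⟩
  rw [ht, zero_smul, zero_sub] at h
  have := congrFun (congrFun h 0) 0
  simp at this
  linear_combination -this

/-- structure of a quaternion subgroup of `GL_2` -/
theorem quat [Fintype F] (h2 : (2 : F) ≠ 0) (R : Subgroup (GL (Fin 2) F)) (e : ↥R ≃* QuaternionGroup 2) :
    ∃ i j : GL (Fin 2) F, R = Subgroup.closure {i, j} ∧ i.1 * i.1 = -1 ∧ j.1 * j.1 = -1 ∧ j.1 * i.1 = -(i.1 * j.1) ∧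
      i.1 * j.1 ≠ j.1 * i.1 := by
  let i' : R := e.symm (.a 1)
  let j' : R := e.symm (.xa 0)
  have hne : i' * j' ≠ j' * i' := by
    intro h
    have := congrArg e h
    simp only [i', j', map_mul, MulEquiv.apply_symm_apply] at this
    exact absurd this (by decide +kernel)
  have h4 : i' ^ 4 = 1 := by
    apply e.injective
    simp only [i', map_pow, MulEquiv.apply_symm_apply, map_one]
    decide +kernel
  have hz : i' ^ 2 ≠ 1 := by
    intro h
    have := congrArg e h
    simp only [i', map_pow, MulEquiv.apply_symm_apply, map_one] at this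
    exact absurd this (by decide +kernel)
  have hj : j' ^ 2 = i' ^ 2 := by
    apply e.injective
    simp only [i', j', map_pow, MulEquiv.apply_symm_apply]
    decide +kernel
  have hji : j' * i' = i' ^ 2 * (i' * j') := by
    apply e.injective
    simp only [i', j', map_pow, map_mul, MulEquiv.apply_symm_apply]
    decide +kernel
  have hcl : ∀ y : QuaternionGroup 2, ∃ a b : ℕ, y = (.a 1) ^ a * (.xa 0) ^ b := by
    intro y
    rcases y with y | y
    · exact ⟨y.val, 0, by revert y; decide +kernel⟩
    · exact ⟨(-y).val, 1, by revert y; decide +kernel⟩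
  have hne' : i'.1.1 * j'.1.1 ≠ j'.1.1 * i'.1.1 := by
    intro h
    exact hne (Subtype.ext (Units.ext h))
  have hins : ∀ z : F, i'.1.1 ≠ z • (1 : Mt F) := by
    intro z hz
    rw [hz] at hne'
    simp at hne'
  have hzs : i'.1.1 * i'.1.1 = -1 := by
    have hzz : (i'.1.1 * i'.1.1) * (i'.1.1 * i'.1.1) = 1 := by
      have := congrArg (fun y : R => y.1.1) h4
      simp only [Subgroup.coe_pow, Units.val_pow_eq_pow_val, Subgroup.coe_one, Units.val_one] at this
      rw [← this]
      noncomm_ring
    by_cases hsc : ∀ z : F, i'.1.1 * i'.1.1 ≠ z • (1 : Mt F)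
    · exfalso
      apply hne'
      refine comm_of_comm hsc (by noncomm_ring) ?_
      have := congrArg (fun y : R => y.1.1) hj
      simp only [Subgroup.coe_pow, Units.val_pow_eq_pow_val] at this
      rw [pow_two, pow_two] at this
      rw [← this]
      noncomm_ring
    · push Not at hsc
      obtain ⟨z, hz'⟩ := hsc
      rw [hz'] at hzz
      simp only [Matrix.smul_mul, Matrix.mul_smul, Matrix.mul_one, smul_smul] at hzz
      have h1 := congrFun (congrFun hzz 0) 0
      simp at h1
      have h2 : (z - 1) * (z + 1) = 0 := by linear_combination h1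
      rcases mul_eq_zero.1 h2 with h3 | h3
      · exfalso
        apply hz
        have h4 : z = 1 := by linear_combination h3
        rw [h4, one_smul, ← pow_two] at hz'
        exact Subtype.ext (Units.ext hz')
      · have h4 : z = -1 := by linear_combination h3
        rw [hz', h4]
        simp
  refine ⟨i'.1, j'.1, ?_, hzs, ?_, ?_, hne'⟩
  · apply le_antisymm
    · intro y hy
      obtain ⟨a, b, hab⟩ := hcl (e ⟨y, hy⟩)
      have : (⟨y, hy⟩ : R) = i' ^ a * j' ^ b := by
        apply e.injective
        simp only [i', j', map_pow, map_mul, MulEquiv.apply_symm_apply]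
        exact hab
      have h1 := congrArg Subtype.val this
      simp only [Subgroup.coe_mul, Subgroup.coe_pow] at h1
      rw [h1]
      exact mul_mem (pow_mem (Subgroup.subset_closure (by simp)) _) (pow_mem (Subgroup.subset_closure (by simp)) _)
    · rw [Subgroup.closure_le]
      rintro y (rfl | hy)
      · exact i'.2
      · rw [Set.mem_singleton_iff] at hy
        rw [hy]
        exact j'.2
  · have := congrArg (fun y : R => y.1.1) hj
    simp only [Subgroup.coe_pow, Units.val_pow_eq_pow_val] at this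
    rw [pow_two, pow_two] at this
    rw [this, hzs]
  · have := congrArg (fun y : R => y.1.1) hji
    simp only [Subgroup.coe_mul, Subgroup.coe_pow, Units.val_pow_eq_pow_val, Units.val_mul] at this
    rw [this, pow_two, hzs]
    simp

end

/-- Elements of prime order of PSL_2(p) and the normalizer of a quaternion subgroup. Here `T = PSL_2(F)` for the field `F` with `p` elements, `p ≥ 5` prime; `R` is a subgroup of GL_2(F) isomorphic to the quaternion group of order 8 (an absolutely irreducible 2-group of symplectic type), and `H` is the subgroup of matrices of determinant 1 normalizing `R` — a subgroup of type 2^{1+2}.O₂⁻(2), isomorphic modulo scalars to A₄ or S₄ (maximality is not assumed). Ω is the set of cosets of `H` in `T`, so an element of `T` of prime order `r` (a matrix `x` of determinant 1 with `x^r` scalar, `x` not scalar) fixes a point of Ω exactly when some conjugate of `x` by a matrix of determinant 1 normalizes `R`. Let `r` be a prime dividing the index of `H`. Then every element of `T` of order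 `r` fixes a point of Ω if and only if `r = 2` or `r = 3`. -/
theorem result {F : Type*} [Field F] [Fintype F] {p : ℕ} [Fact p.Prime] [CharP F p] (hF : Fintype.card F = p) (hp : 5 ≤ p)
    (R : Subgroup (GL (Fin 2) F)) (hR : Nonempty (↥R ≃* QuaternionGroup 2))
    (r : ℕ) [Fact r.Prime]
    (hΩ : r ∣ (Cfsg.Geo.subgroupNormalizer R).relIndex (Cfsg.Geo.specialLinear (Fin 2) F)) :
    (∀ x ∈ Cfsg.Geo.specialLinear (Fin 2) F, (∃ z : F, ((x ^ r : GL (Fin 2) F) : Matrix (Fin 2) (Fin 2) F) = z • (1 : Matrix (Fin 2) (Fin 2) F)) →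
      (∀ z : F, (x : Matrix (Fin 2) (Fin 2) F) ≠ z • (1 : Matrix (Fin 2) (Fin 2) F)) →
      ∃ g ∈ Cfsg.Geo.specialLinear (Fin 2) F, g⁻¹ * x * g ∈ Cfsg.Geo.subgroupNormalizer R) ↔ (r = 2 ∨ r = 3) := by
  classical
  have hcardF : Fintype.card F = p := hF
  have h2 : (2 : F) ≠ 0 := by
    intro h
    have := (CharP.cast_eq_zero_iff F p 2).1 (by exact_mod_cast h)
    have := Nat.le_of_dvd (by norm_num) this
    omega
  have h3 : (3 : F) ≠ 0 := by
    intro h
    have := (CharP.cast_eq_zero_iff F p 3).1 (by exact_mod_cast h)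
    have := Nat.le_of_dvd (by norm_num) this
    omega
  obtain ⟨e⟩ := hR
  obtain ⟨i, j, hRc, hi, hj, hji, hne⟩ := quat h2 R e
  have hdet : ∀ x ∈ Cfsg.Geo.specialLinear (Fin 2) F, x.1.det = 1 := by
    intro x hx
    rw [Cfsg.Geo.specialLinear, MonoidHom.mem_ker] at hx
    have := congrArg Units.val hx
    rwa [Matrix.GeneralLinearGroup.val_det_apply] at this
  have hine : ∀ z : F, i.1 ≠ z • (1 : Mt F) := by
    intro z hz
    rw [hz] at hne
    simp at hne
  have hjne : ∀ z : F, j.1 ≠ z • (1 : Mt F) := by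
    intro z hz
    rw [hz] at hne
    simp at hne
  obtain ⟨hit, hid⟩ := trace_of_sq (c := -1) hine (by rw [hi]; simp)
  obtain ⟨hjt, hjd⟩ := trace_of_sq (c := -1) hjne (by rw [hj]; simp)
  rw [neg_neg] at hid hjd
  have hiR : i ∈ R := by rw [hRc]; exact Subgroup.subset_closure (by simp)
  have hjR : j ∈ R := by rw [hRc]; exact Subgroup.subset_closure (by simp)
  constructor
  · intro hall
    by_contra hr
    push Not at hr
    have hrp := Fact.out (p := r.Prime)
    have hr5 : 5 ≤ r := by
      have h1 := hrp.two_le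
      by_contra h
      have : r = 4 := by omega
      rw [this] at hrp
      exact absurd hrp (by norm_num)
    have hdvd : r ∣ Nat.card (Cfsg.Geo.specialLinear (Fin 2) F) :=
      hΩ.trans (Subgroup.relIndex_dvd_card _ _)
    obtain ⟨x, hx⟩ := exists_prime_orderOf_dvd_card' r hdvd
    have hxr : x.1 ^ r = 1 := by
      have := pow_orderOf_eq_one x
      rw [hx] at this
      exact congrArg Subtype.val this
    have hxn : ∀ z : F, x.1.1 ≠ z • (1 : Mt F) := by
      intro z hz
      have h1 := hdet x.1 x.2
      rw [hz] at h1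
      simp at h1
      have h2 : x ^ 2 = 1 := by
        apply Subtype.ext
        apply Units.ext
        simp only [Subgroup.coe_pow, Units.val_pow_eq_pow_val]
        have h3 : z ^ 2 = 1 := by rcases h1 with rfl | rfl <;> norm_num
        rw [hz, smul_pow, h3]
        simp
      have := orderOf_dvd_of_pow_eq_one h2
      rw [hx] at this
      have := Nat.le_of_dvd (by norm_num) this
      omega
    obtain ⟨g, -, hg⟩ := hall x.1 x.2 ⟨1, by rw [hxr]; simp⟩ hxn
    set x' := g⁻¹ * x.1 * g with hx'
    have hx'r : x' ^ r = 1 := by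
      rw [hx']
      have : (g⁻¹ * x.1 * g) ^ r = g⁻¹ * x.1 ^ r * g := by
        have := conj_pow (i := r) (a := g⁻¹) (b := x.1)
        rwa [inv_inv] at this
      rw [this, hxr]; group
    let φ : MulAut R := R.normalizerMonoidHom ⟨x', hg⟩
    let ψ : MulAut (QuaternionGroup 2) := MulAut.congr e φ
    have hψ : ψ ^ r ^ 1 = 1 := by
      rw [pow_one, ← map_pow, ← map_pow]
      have : (⟨x', hg⟩ : Subgroup.normalizer (R : Set (GL (Fin 2) F))) ^ r = 1 := Subtype.ext hx'r
      rw [this, map_one, map_one]
    have h1 := Cfsg.Agent.Lib.GagSolv.aut_Q8 hr5 ψ hψ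
    have h2' : φ = 1 := by
      have := (MulAut.congr e).injective (h1.trans (map_one _).symm)
      exact this
    have hc : ∀ y ∈ R, x' * y = y * x' := by
      intro y hy
      have h3 := congrArg (fun f : MulAut R => (f ⟨y, hy⟩ : R).1) h2'
      have h4 : x' * y * x'⁻¹ = y := h3
      rw [mul_inv_eq_iff_eq_mul] at h4
      exact h4
    have hx's : ∀ z : F, x'.1 ≠ z • (1 : Mt F) := by
      intro z hz
      apply hxn z
      have : x.1 = g * x' * g⁻¹ := by rw [hx']; group
      rw [this, Units.val_mul, Units.val_mul, hz]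
      rw [Matrix.mul_smul, Matrix.mul_one, Matrix.smul_mul, ← Units.val_mul, mul_inv_cancel, Units.val_one]
    apply hne
    apply comm_of_comm hx's
    · have := congrArg Units.val (hc i hiR)
      exact this
    · have := congrArg Units.val (hc j hjR)
      exact this
  · intro hr x hx ⟨z, hz⟩ hxn
    have hdx := hdet x hx
    have hcx := cayley x.1
    rw [hdx] at hcx
    rw [Units.val_pow_eq_pow_val] at hz
    rcases hr with rfl | rfl
    · -- `r = 2`
      rw [pow_two] at hz
      obtain ⟨h1, h2'⟩ := trace_of_sq hxn hz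
      obtain ⟨g, hg, hg'⟩ := conj_SL h2 hdx hid hxn hine (h1.trans hit.symm) (by
        rw [h1]
        intro h
        have h4 : (4 : F) ≠ 0 := by
          have : (4 : F) = 2 * 2 := by norm_num
          rw [this]; exact mul_ne_zero h2 h2
        apply h4
        linear_combination -h)
      exact ⟨g, hg, by rw [hg']; exact Subgroup.le_normalizer hiR⟩
    · -- `r = 3`
      have h31 : (x.1.trace ^ 2 - 1) • x.1 = (z + x.1.trace) • (1 : Mt F) := by
        have e1 : x.1 ^ 3 = x.1 * (x.1 * x.1) := by noncomm_ring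
        rw [e1, hcx, Matrix.mul_sub, Matrix.mul_smul, hcx, Matrix.mul_smul, Matrix.mul_one] at hz
        rw [add_smul, ← hz]
        module
      have ht1 : x.1.trace ^ 2 - 1 = 0 := by
        by_contra h
        apply hxn ((x.1.trace ^ 2 - 1)⁻¹ * (z + x.1.trace))
        rw [mul_smul, ← h31, smul_smul, inv_mul_cancel₀ h, one_smul]
      set ε := x.1.trace with hε
      have hε2 : ε ^ 2 = 1 := by linear_combination ht1
      let h : Mt F := (ε / 2) • (1 + i.1 + j.1 + i.1 * j.1)
      have htij : (i.1 * j.1).trace = 0 := by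
        have h1 := congrArg Matrix.trace hji
        rw [Matrix.trace_mul_comm, Matrix.trace_neg] at h1
        have h3 : (2 : F) * (i.1 * j.1).trace = 0 := by linear_combination h1
        exact (mul_eq_zero.1 h3).resolve_left h2
      have hht : h.trace = ε := by
        simp only [h, Matrix.trace_smul, Matrix.trace_add, hit, hjt, htij, Matrix.trace_one]
        simp
        field_simp
      have hij : i.1 * j.1 * i.1 = j.1 := by
        rw [Matrix.mul_assoc, hji, Matrix.mul_neg, ← Matrix.mul_assoc, hi]
        simp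
      have hhi : h * i.1 = j.1 * h := by
        simp only [h, Matrix.smul_mul, Matrix.mul_smul]
        congr 1
        have e1 : j.1 * (i.1 * j.1) = i.1 := by
          rw [← Matrix.mul_assoc, hji, Matrix.neg_mul, Matrix.mul_assoc, hj]; simp
        rw [Matrix.add_mul, Matrix.add_mul, Matrix.add_mul, Matrix.mul_add, Matrix.mul_add, Matrix.mul_add, hij, e1, hi, hj, hji,
          Matrix.one_mul, Matrix.mul_one]
        abel
      have hhj : h * j.1 = (i.1 * j.1) * h := by
        simp only [h, Matrix.smul_mul, Matrix.mul_smul]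
        congr 1
        have e2 : i.1 * j.1 * j.1 = - i.1 := by rw [Matrix.mul_assoc, hj]; simp
        have e3 : i.1 * j.1 * (i.1 * j.1) = -1 := by rw [← Matrix.mul_assoc, hij, hj]
        rw [Matrix.add_mul, Matrix.add_mul, Matrix.add_mul, Matrix.mul_add, Matrix.mul_add, Matrix.mul_add, e2, hij, e3, hj,
          Matrix.one_mul, Matrix.mul_one]
        abel
      have hhd : h.det = 1 := by
        have h1 : h * h = ε • h - (1 : Mt F) := by
          have e4 : h * h = (ε / 2 * (ε / 2)) • ((1 + i.1 + j.1 + i.1 * j.1) * (1 + i.1 + j.1 + i.1 * j.1)) := by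
            simp only [h, Matrix.smul_mul, Matrix.mul_smul, smul_smul]
          have e1 : j.1 * (i.1 * j.1) = i.1 := by
            rw [← Matrix.mul_assoc, hji, Matrix.neg_mul, Matrix.mul_assoc, hj]; simp
          have e2 : i.1 * j.1 * j.1 = - i.1 := by rw [Matrix.mul_assoc, hj]; simp
          have e3 : i.1 * j.1 * (i.1 * j.1) = -1 := by rw [← Matrix.mul_assoc, hij, hj]
          have e5 : i.1 * (i.1 * j.1) = - j.1 := by rw [← Matrix.mul_assoc, hi]; simp
          have e6 : (1 + i.1 + j.1 + i.1 * j.1) * (1 + i.1 + j.1 + i.1 * j.1) = (2 : F) • (1 + i.1 + j.1 + i.1 * j.1) - (4 : F) • (1 : Mt F) := by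
            rw [Matrix.mul_add, Matrix.mul_add, Matrix.mul_add, Matrix.add_mul, Matrix.add_mul, Matrix.add_mul,
              Matrix.add_mul, Matrix.add_mul, Matrix.add_mul, Matrix.add_mul, Matrix.add_mul, Matrix.add_mul,
              Matrix.add_mul, Matrix.add_mul, Matrix.add_mul, hij, hi, hj, e1, e2, e3, e5, hji]
            simp only [Matrix.mul_one, Matrix.one_mul]
            module
          rw [e4, e6]
          simp only [h]
          rw [smul_sub, smul_smul, smul_smul, smul_smul]
          have f1 : ε / 2 * (ε / 2) * 2 = ε * (ε / 2) := by field_simp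
          have f2 : ε / 2 * (ε / 2) * 4 = 1 := by
            have : ε / 2 * (ε / 2) * 4 = ε ^ 2 := by
              have h4 : (4 : F) = 2 * 2 := by norm_num
              rw [h4]; field_simp
            rw [this, hε2]
          rw [f1, f2, one_smul]
        have h3' := cayley h
        rw [h1, hht] at h3'
        have h4 := congrFun (congrFun h3' 0) 0
        simp at h4
        linear_combination -h4
      let h' : GL (Fin 2) F := Matrix.GeneralLinearGroup.mkOfDetNeZero h (by rw [hhd]; exact one_ne_zero)
      have hh' : h'.1 = h := rfl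
      have hhn : ∀ z : F, h'.1 ≠ z • (1 : Mt F) := by
        intro z hz
        rw [hh'] at hz
        rw [hz] at hhi
        simp only [Matrix.smul_mul, Matrix.mul_smul, Matrix.one_mul, Matrix.mul_one] at hhi
        have hz0 : z ≠ 0 := by
          rintro rfl
          rw [zero_smul] at hz
          rw [hz] at hhd
          simp at hhd
        have h5 : i.1 = j.1 := by
          have := congrArg (fun m : Mt F => z⁻¹ • m) hhi
          simpa [smul_smul, inv_mul_cancel₀ hz0] using this
        apply hne
        rw [h5]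
      obtain ⟨g, hg, hg'⟩ := conj_SL (x := x) (y := h') h2 hdx hhd hxn hhn (by rw [hh', hht]) (by
        rw [← hε, hε2]
        intro h
        apply h3
        linear_combination -h)
      refine ⟨g, hg, ?_⟩
      rw [hg']
      -- `h'` normalizes `R`
      have k1 : h' * i * h'⁻¹ = j := by
        rw [mul_inv_eq_iff_eq_mul]
        exact Units.ext hhi
      have k2 : h' * j * h'⁻¹ = i * j := by
        rw [mul_inv_eq_iff_eq_mul]
        exact Units.ext hhj
      have hle : R.map (MulAut.conj h').toMonoidHom ≤ R := by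
        conv_lhs => rw [hRc]
        rw [MonoidHom.map_closure, Subgroup.closure_le]
        rintro _ ⟨y, (rfl | hy), rfl⟩
        · show h' * y * h'⁻¹ ∈ R
          rw [k1]; exact hjR
        · rw [Set.mem_singleton_iff] at hy
          subst hy
          show h' * y * h'⁻¹ ∈ R
          rw [k2]; exact mul_mem hiR hjR
      have heq : R.map (MulAut.conj h').toMonoidHom = R := by
        apply Subgroup.eq_of_le_of_card_ge hle
        rw [Subgroup.card_map_of_injective (MulAut.conj h').injective]
      show h' ∈ Subgroup.normalizer (R : Set (GL (Fin 2) F))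
      rw [Subgroup.mem_normalizer_iff]
      intro y
      constructor
      · intro hy
        rw [← heq]
        exact ⟨y, hy, rfl⟩
      · intro hy
        rw [← heq] at hy
        obtain ⟨y', hy', hy''⟩ := hy
        have : y' = y := (MulAut.conj h').injective hy''
        rw [← this]; exact hy'

end Cfsg.Agent.S5997
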